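import Cfsg.Statements.S4494
import Cfsg.Agent.Lib.Helper4.Contrib2

set_option autoImplicit false
open Cfsg

namespace Cfsg.Agent.S4494

open Cfsg.Agent.Lib.Helper4 in
/-- a member of minimal `p`-part of the degree -/
theorem exists_min {G : Type*} [Group G] [Finite G] (p : ℕ) [Fact p.Prime]
    (M : Ideal Cfsg.AlgInt) (hM : Cfsg.IsPModular p M) (B : Set (Cfsg.IrrCharacter G))
    (hB : Cfsg.IsPBlock M B) :
    ∃ χ₀ ∈ B, (∀ ψ ∈ B, (Cfsg.charDegree (χ₀ : G → ℂ)).factorization p ≤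
        (Cfsg.charDegree (ψ : G → ℂ)).factorization p) ∧
      Cfsg.blockDefect p B = (Nat.card G).factorization p -
        (Cfsg.charDegree (χ₀ : G → ℂ)).factorization p := by
  obtain ⟨χ₁, hχ₁⟩ := hB
  have hχ₁B : χ₁ ∈ B := by
    rw [hχ₁]; exact Cfsg.Agent.Lib.Helper79.mem_blockOf_self hM χ₁
  set S : Set ℕ := (fun ψ : Cfsg.IrrCharacter G =>
    (Cfsg.charDegree (ψ : G → ℂ)).factorization p) '' B with hS
  have hSne : S.Nonempty := ⟨_, ⟨χ₁, hχ₁B, rfl⟩⟩
  obtain ⟨χ₀, hχ₀B, hχ₀⟩ := Nat.sInf_mem hSne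
  refine ⟨χ₀, hχ₀B, fun ψ hψ => ?_, ?_⟩
  · have h5 : (Cfsg.charDegree (χ₀ : G → ℂ)).factorization p = sInf S := hχ₀
    rw [h5]
    exact Nat.sInf_le ⟨ψ, hψ, rfl⟩
  · have h5 : (Cfsg.charDegree (χ₀ : G → ℂ)).factorization p = sInf S := hχ₀
    rw [h5]
    rfl

/-- The Brauer–Feit bound. Let B be a p-block of the finite group G (relative to a maximal ideal M of the algebraic integers containing p) and let d be its defect. Then the number k(B) of irreducible characters in B satisfies k(B) ≤ p^(2d)/4 + 1, stated here as 4·k(B) ≤ p^(2d) + 4. -/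
theorem result {G : Type*} [Group G] [Finite G] (p : ℕ) [Fact p.Prime] (M : Ideal Cfsg.AlgInt) (hM : Cfsg.IsPModular p M) (B : Set (Cfsg.IrrCharacter G)) (hB : Cfsg.IsPBlock M B) : 4 * Nat.card B ≤ p ^ (2 * Cfsg.blockDefect p B) + 4 := by
  classical
  let _ : Fintype G := Fintype.ofFinite G
  haveI := Cfsg.Agent.Lib.Helper4.irr_finite (G := G)
  let _ : Fintype (Cfsg.IrrCharacter G) := Fintype.ofFinite _
  have hp : p.Prime := Fact.out
  obtain ⟨χ₀, hχ₀B, hmin, hdef⟩ := exists_min p M hM B hB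
  rw [hdef]
  have hne : ∀ θ ∈ B, Cfsg.Agent.Lib.Helper4.nctr p χ₀ θ ≠ 0 := by
    intro θ hθ
    apply Cfsg.Agent.Lib.Helper4.nctr_ne_zero
    intro h0
    apply Cfsg.Agent.Lib.Helper4.min_ctr_not_dvd p M hM B hB χ₀ hχ₀B hmin θ hθ
    rw [h0]
    exact dvd_zero _
  have hcard : Nat.card B = (Finset.univ.filter (fun θ : Cfsg.IrrCharacter G => θ ∈ B)).card := by
    rw [Nat.card_eq_fintype_card, Fintype.card_subtype]
  set Bf := Finset.univ.filter (fun θ : Cfsg.IrrCharacter G => θ ∈ B) with hBf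
  have hmem : χ₀ ∈ Bf := by
    rw [hBf, Finset.mem_filter]; exact ⟨Finset.mem_univ _, hχ₀B⟩
  have hoff := Cfsg.Agent.Lib.Helper4.nctr_offdiag p χ₀
  have h1 : ((Bf.erase χ₀).card : ℤ) ≤
      ∑ θ ∈ Finset.univ.erase χ₀, Cfsg.Agent.Lib.Helper4.nctr p χ₀ θ ^ 2 := by
    have h2 : ((Bf.erase χ₀).card : ℤ) = ∑ θ ∈ Bf.erase χ₀, (1 : ℤ) := by simp
    rw [h2]
    have h3 : ∑ θ ∈ Bf.erase χ₀, (1 : ℤ) ≤
        ∑ θ ∈ Bf.erase χ₀, Cfsg.Agent.Lib.Helper4.nctr p χ₀ θ ^ 2 := by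
      apply Finset.sum_le_sum
      intro θ hθ
      have hθB : θ ∈ B := by
        have := Finset.mem_of_mem_erase hθ
        rw [hBf, Finset.mem_filter] at this
        exact this.2
      have := hne θ hθB
      have h4 : 0 < Cfsg.Agent.Lib.Helper4.nctr p χ₀ θ ^ 2 := by positivity
      omega
    refine le_trans h3 ?_
    apply Finset.sum_le_sum_of_subset_of_nonneg
    · exact Finset.erase_subset_erase _ (Finset.filter_subset _ _)
    · intro θ _ _
      positivity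
  have h5 : (Bf.erase χ₀).card = Bf.card - 1 := Finset.card_erase_of_mem hmem
  have h6 : 0 < Bf.card := Finset.card_pos.mpr ⟨χ₀, hmem⟩
  rw [hcard]
  have h7 : (4 : ℤ) * ((Bf.erase χ₀).card : ℤ) ≤
      ((p ^ ((Nat.card G).factorization p -
        (Cfsg.charDegree (χ₀ : G → ℂ)).factorization p) : ℕ) : ℤ) ^ 2 := by linarith
  have h8 : 4 * (Bf.erase χ₀).card ≤ (p ^ ((Nat.card G).factorization p -
        (Cfsg.charDegree (χ₀ : G → ℂ)).factorization p)) ^ 2 := by exact_mod_cast h7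
  rw [← pow_mul, mul_comm _ 2] at h8
  omega

end Cfsg.Agent.S4494
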