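import Cfsg.Statements.S2166
import Mathlib
import Cfsg.Agent.Lib.Helper18.Symp

set_option autoImplicit false
open Cfsg

namespace Cfsg.Agent.S2166

open Cfsg.Agent.Lib.Helper18

universe u v

section Rel

variable {F : Type u} {V : Type v} [Field F] [AddCommGroup V] [Module F V]

/-- Transvections with centre in a submodule `K`. -/
def TPK (B : LinearMap.BilinForm F V) (K : Submodule F V) : Submonoid (V →ₗ[F] V) :=
  Submonoid.closure {g | ∃ w ∈ K, ∃ c : F, g = transv B w c}

theorem transv_memK (B : LinearMap.BilinForm F V) (K : Submodule F V) {w : V} (hw : w ∈ K) (c : F) :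
    transv B w c ∈ TPK B K :=
  Submonoid.subset_closure ⟨w, hw, c, rfl⟩

theorem TPK_le (B : LinearMap.BilinForm F V) (K : Submodule F V) : TPK B K ≤ TP B := by
  apply Submonoid.closure_mono
  rintro g ⟨w, -, c, rfl⟩
  exact ⟨w, c, rfl⟩

theorem TPK_fix {B : LinearMap.BilinForm F V} {K : Submodule F V} {g : V →ₗ[F] V}
    (hg : g ∈ TPK B K) (x : V) (hx : ∀ w ∈ K, B x w = 0) : g x = x := by
  induction hg using Submonoid.closure_induction with
  | mem g hg =>
    obtain ⟨w, hw, c, rfl⟩ := hg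
    rw [transv_apply, hx w hw, mul_zero, zero_smul, add_zero]
  | one => rfl
  | mul a b _ _ ha hb =>
    rw [Module.End.mul_apply, hb, ha]

theorem TPK_mem {B : LinearMap.BilinForm F V} {K : Submodule F V} {g : V →ₗ[F] V}
    (hg : g ∈ TPK B K) (x : V) (hx : x ∈ K) : g x ∈ K := by
  induction hg using Submonoid.closure_induction generalizing x with
  | mem g hg =>
    obtain ⟨w, hw, c, rfl⟩ := hg
    rw [transv_apply]
    exact K.add_mem hx (K.smul_mem _ hw)
  | one => exact hx
  | mul a b _ _ ha hb =>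
    rw [Module.End.mul_apply]
    exact ha _ (hb _ hx)

theorem exists_TPK_move {B : LinearMap.BilinForm F V} (hB : B.IsAlt) (K : Submodule F V)
    (u v u' v' : V) (hu : u ∈ K) (hv : v ∈ K) (hu' : u' ∈ K) (hv' : v' ∈ K)
    (h : B u v = 1) (h' : B u' v' = 1) : ∃ g ∈ TPK B K, g u = u' := by
  have hvu' : B v' u' = -1 := by rw [← hB.neg_eq u' v', h']
  by_cases h0 : B u u' = 0
  · have hex : ∃ w : V, w ∈ K ∧ B u w ≠ 0 ∧ B w u' ≠ 0 := by
      by_cases h1 : B v u' = 0
      · by_cases h2 : B u v' = 0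
        · refine ⟨v + v', K.add_mem hv hv', ?_, ?_⟩
          · rw [map_add, h, h2, add_zero]; exact one_ne_zero
          · rw [map_add, LinearMap.add_apply, h1, hvu', zero_add]
            exact neg_ne_zero.mpr one_ne_zero
        · refine ⟨v', hv', h2, ?_⟩
          rw [hvu']
          exact neg_ne_zero.mpr one_ne_zero
      · refine ⟨v, hv, ?_, h1⟩
        rw [h]; exact one_ne_zero
    obtain ⟨w, hwK, hw1, hw2⟩ := hex
    refine ⟨transv B (u' - w) (B w u')⁻¹ * transv B (w - u) (B u w)⁻¹,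
      Submonoid.mul_mem _ (transv_memK B K (K.sub_mem hu' hwK) _)
        (transv_memK B K (K.sub_mem hwK hu) _), ?_⟩
    rw [Module.End.mul_apply, transv_move hB u w hw1, transv_move hB w u' hw2]
  · exact ⟨_, transv_memK B K (K.sub_mem hu' hu) _, transv_move hB u u' h0⟩

theorem exists_TPK_fix_move {B : LinearMap.BilinForm F V} (hB : B.IsAlt) (K : Submodule F V)
    (u v v' : V) (hu : u ∈ K) (hv : v ∈ K) (hv' : v' ∈ K)
    (h : B u v = 1) (h' : B u v' = 1) : ∃ g ∈ TPK B K, g u = u ∧ g v = v' := by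
  have key : ∀ a b : V, B u a = 1 → B u b = 1 → B a b ≠ 0 →
      transv B (b - a) (B a b)⁻¹ u = u ∧ transv B (b - a) (B a b)⁻¹ a = b := by
    intro a b ha hb hab
    refine ⟨?_, transv_move hB a b hab⟩
    rw [transv_apply, map_sub, hb, ha, sub_self, mul_zero, zero_smul, add_zero]
  by_cases h0 : B v v' = 0
  · have huu : B u u = 0 := hB.self_eq_zero u
    have hvv : B v v = 0 := hB.self_eq_zero v
    have hvu : B v u = -1 := by rw [← hB.neg_eq u v, h]
    have e1 : B u (v + u) = 1 := by rw [map_add, h, huu, add_zero]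
    have e2 : B v (v + u) ≠ 0 := by
      rw [map_add, hvv, hvu, zero_add]
      exact neg_ne_zero.mpr one_ne_zero
    have e3 : B (v + u) v' ≠ 0 := by
      rw [map_add, LinearMap.add_apply, h0, h', zero_add]
      exact one_ne_zero
    obtain ⟨k1, k2⟩ := key v (v + u) h e1 e2
    obtain ⟨k3, k4⟩ := key (v + u) v' e1 h' e3
    refine ⟨transv B (v' - (v + u)) (B (v + u) v')⁻¹ * transv B (v + u - v) (B v (v + u))⁻¹,
      Submonoid.mul_mem _ (transv_memK B K (K.sub_mem hv' (K.add_mem hv hu)) _)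
        (transv_memK B K (K.sub_mem (K.add_mem hv hu) hv) _), ?_, ?_⟩
    · rw [Module.End.mul_apply, k1, k3]
    · rw [Module.End.mul_apply, k2, k4]
  · obtain ⟨k1, k2⟩ := key v v' h h' h0
    exact ⟨_, transv_memK B K (K.sub_mem hv' hv) _, k1, k2⟩

theorem exists_TPK_pair {B : LinearMap.BilinForm F V} (hB : B.IsAlt) (K : Submodule F V)
    (u v u' v' : V) (hu : u ∈ K) (hv : v ∈ K) (hu' : u' ∈ K) (hv' : v' ∈ K)
    (h : B u v = 1) (h' : B u' v' = 1) : ∃ g ∈ TPK B K, g u = u' ∧ g v = v' := by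
  obtain ⟨g1, hg1, e1⟩ := exists_TPK_move hB K u v u' v' hu hv hu' hv' h h'
  have h1 : B u' (g1 v) = 1 := by rw [← e1, TP_isometry hB (TPK_le B K hg1), h]
  obtain ⟨g2, hg2, e2, e3⟩ := exists_TPK_fix_move hB K u' (g1 v) v' hu' (TPK_mem hg1 v hv) hv' h1 h'
  refine ⟨g2 * g1, Submonoid.mul_mem _ hg2 hg1, ?_, ?_⟩
  · rw [Module.End.mul_apply, e1, e2]
  · rw [Module.End.mul_apply, e3]

/-- Witt extension for symplectic families. -/
theorem witt_family {B : LinearMap.BilinForm F V} (hB : B.IsAlt) {ι : Type*} [DecidableEq ι]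
    (x y x' y' : ι → V)
    (h1 : ∀ i j, B (x i) (y j) = if i = j then 1 else 0) (h2 : ∀ i j, B (x i) (x j) = 0)
    (h3 : ∀ i j, B (y i) (y j) = 0)
    (h1' : ∀ i j, B (x' i) (y' j) = if i = j then 1 else 0) (h2' : ∀ i j, B (x' i) (x' j) = 0)
    (h3' : ∀ i j, B (y' i) (y' j) = 0) (S : Finset ι) :
    ∃ g ∈ TP B, ∀ i ∈ S, g (x i) = x' i ∧ g (y i) = y' i := by
  induction S using Finset.induction_on with
  | empty => exact ⟨1, Submonoid.one_mem _, by simp⟩
  | insert a S ha ih =>
    obtain ⟨g, hg, hgS⟩ := ih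
    have hiso := TP_isometry hB hg
    have hyx : ∀ i j, B (y i) (x j) = -(if j = i then (1 : F) else 0) := by
      intro i j
      rw [← hB.neg_eq (x j) (y i), h1]
    have hyx' : ∀ i j, B (y' i) (x' j) = -(if j = i then (1 : F) else 0) := by
      intro i j
      rw [← hB.neg_eq (x' j) (y' i), h1']
    let K : Submodule F V :=
      { carrier := {z | ∀ i ∈ S, B z (x' i) = 0 ∧ B z (y' i) = 0}
        add_mem' := by
          intro z1 z2 hz1 hz2 i hi
          simp only [map_add, LinearMap.add_apply, (hz1 i hi).1, (hz1 i hi).2, (hz2 i hi).1,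
            (hz2 i hi).2, add_zero, and_self]
        zero_mem' := by
          intro i _
          simp
        smul_mem' := by
          intro c z hz i hi
          simp only [map_smul, LinearMap.smul_apply, (hz i hi).1, (hz i hi).2, smul_zero,
            and_self] }
    have hmemK : ∀ z, z ∈ K ↔ ∀ i ∈ S, B z (x' i) = 0 ∧ B z (y' i) = 0 := fun z => Iff.rfl
    have hne : ∀ i ∈ S, a ≠ i := fun i hi h => ha (h ▸ hi)
    have hgxa : g (x a) ∈ K := by
      rw [hmemK]
      intro i hi
      rw [← (hgS i hi).1, ← (hgS i hi).2, hiso, hiso, h2, h1, if_neg (hne i hi)]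
      exact ⟨rfl, rfl⟩
    have hgya : g (y a) ∈ K := by
      rw [hmemK]
      intro i hi
      rw [← (hgS i hi).1, ← (hgS i hi).2, hiso, hiso, h3, hyx, if_neg (fun h => hne i hi h.symm)]
      exact ⟨neg_zero, rfl⟩
    have hxa' : x' a ∈ K := by
      rw [hmemK]
      intro i hi
      rw [h2', h1', if_neg (hne i hi)]
      exact ⟨rfl, rfl⟩
    have hya' : y' a ∈ K := by
      rw [hmemK]
      intro i hi
      rw [h3', hyx', if_neg (fun h => hne i hi h.symm)]
      exact ⟨neg_zero, rfl⟩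
    have e1 : B (g (x a)) (g (y a)) = 1 := by rw [hiso, h1, if_pos rfl]
    have e2 : B (x' a) (y' a) = 1 := by rw [h1', if_pos rfl]
    obtain ⟨h, hh, hhx, hhy⟩ :=
      exists_TPK_pair hB K (g (x a)) (g (y a)) (x' a) (y' a) hgxa hgya hxa' hya' e1 e2
    refine ⟨h * g, Submonoid.mul_mem _ (TPK_le B K hh) hg, ?_⟩
    intro i hi
    rw [Finset.mem_insert] at hi
    rcases hi with rfl | hi
    · exact ⟨by rw [Module.End.mul_apply, hhx], by rw [Module.End.mul_apply, hhy]⟩
    · have f1 : ∀ w ∈ K, B (x' i) w = 0 := by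
        intro w hw
        rw [← hB.neg_eq w (x' i), ((hmemK w).1 hw i hi).1, neg_zero]
      have f2 : ∀ w ∈ K, B (y' i) w = 0 := by
        intro w hw
        rw [← hB.neg_eq w (y' i), ((hmemK w).1 hw i hi).2, neg_zero]
      constructor
      · rw [Module.End.mul_apply, (hgS i hi).1, TPK_fix hh _ f1]
      · rw [Module.End.mul_apply, (hgS i hi).2, TPK_fix hh _ f2]

end Rel

section Normal

variable {F : Type u} {V : Type v} [Field F] [AddCommGroup V] [Module F V]

/-- Orthonormal families for the form `(x, y) ↦ B x (N y)`. -/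
def IsON (B : LinearMap.BilinForm F V) (N : V →ₗ[F] V) {ι : Type*} (w : ι → V) : Prop :=
  (∀ i, B (w i) (N (w i)) = 1) ∧ ∀ i j, i ≠ j → B (w i) (N (w j)) = 0

theorem IsON.card_le [FiniteDimensional F V] {B : LinearMap.BilinForm F V} {N : V →ₗ[F] V}
    {ι : Type*} [Fintype ι] {w : ι → V} (h : IsON B N w) :
    Fintype.card ι ≤ Module.finrank F V := by
  classical
  have hli : LinearIndependent F w := by
    rw [linearIndependent_iff']
    intro s g hg i hi
    have h1 := congrArg (fun z => B z (N (w i))) hg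
    simp only [map_sum, map_smul, LinearMap.sum_apply, LinearMap.smul_apply, smul_eq_mul,
      map_zero, LinearMap.zero_apply] at h1
    rw [Finset.sum_eq_single i] at h1
    · rwa [h.1 i, mul_one] at h1
    · intro j _ hji
      rw [h.2 j i hji, mul_zero]
    · intro hni
      exact absurd hi hni
  exact hli.fintype_card_le_finrank

theorem exists_orthonormal [FiniteDimensional F V] [CharP F 2] (hsq : ∀ c : F, IsSquare c)
    (B : LinearMap.BilinForm F V) (N : V →ₗ[F] V)
    (hsym : ∀ x y, B x (N y) = B y (N x)) (hna : ∃ x, B x (N x) ≠ 0) :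
    ∃ (k : ℕ) (w : Fin k → V), IsON B N w ∧
      ∀ x y, B (x - ∑ i, B x (N (w i)) • w i) (N y) = 0 := by
  classical
  let P : ℕ → Prop := fun k => ∃ (ι : Type) (_ : Fintype ι) (w : ι → V),
    Fintype.card ι = k ∧ IsON B N w
  have hP0 : P 0 := ⟨PEmpty, inferInstance, fun i => i.elim, by simp,
    ⟨fun i => i.elim, fun i => i.elim⟩⟩
  have hPk := Nat.findGreatest_spec (P := P) (Nat.zero_le (Module.finrank F V)) hP0
  have hmax : ∀ k, Nat.findGreatest P (Module.finrank F V) < k → ¬ P k := by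
    intro k hk hPk'
    by_cases hkn : k ≤ Module.finrank F V
    · exact Nat.findGreatest_is_greatest hk hkn hPk'
    · obtain ⟨ι, _, w, hc, hw⟩ := hPk'
      have := hw.card_le
      omega
  obtain ⟨ι, _, w, hcard, hw⟩ := hPk
  -- the projection
  have hproj : ∀ x j, B (x - ∑ i, B x (N (w i)) • w i) (N (w j)) = 0 := by
    intro x j
    simp only [map_sub, map_sum, map_smul, LinearMap.sub_apply, LinearMap.sum_apply,
      LinearMap.smul_apply, smul_eq_mul]
    rw [Finset.sum_eq_single j]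
    · rw [hw.1 j, mul_one, sub_self]
    · intro i _ hij
      rw [hw.2 i j hij, mul_zero]
    · intro h
      exact absurd (Finset.mem_univ j) h
  -- Claim A
  have hA : ∀ z, (∀ j, B z (N (w j)) = 0) → B z (N z) = 0 := by
    intro z hz
    by_contra hc
    obtain ⟨s, hs⟩ := hsq (B z (N z))
    have hs0 : s ≠ 0 := by
      rintro rfl
      rw [mul_zero] at hs
      exact hc hs
    apply hmax (Nat.findGreatest P (Module.finrank F V) + 1) (Nat.lt_succ_self _)
    refine ⟨Option ι, inferInstance, fun o => o.elim (s⁻¹ • z) w, ?_, ?_, ?_⟩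
    · rw [Fintype.card_option, hcard]
    · intro o
      cases o with
      | none =>
        simp only [Option.elim_none, map_smul, LinearMap.smul_apply, smul_eq_mul]
        rw [hs]
        field_simp
      | some i => exact hw.1 i
    · intro o o' hne
      cases o with
      | none =>
        cases o' with
        | none => exact absurd rfl hne
        | some j =>
          simp only [Option.elim_none, Option.elim_some, map_smul, LinearMap.smul_apply,
            smul_eq_mul]
          rw [hz j, mul_zero]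
      | some i =>
        cases o' with
        | none =>
          simp only [Option.elim_none, Option.elim_some, map_smul, smul_eq_mul]
          rw [hsym, hz i, mul_zero]
        | some j =>
          exact hw.2 i j (fun h => hne (by rw [h]))
  -- Claim B
  have hB : ∀ z z', (∀ j, B z (N (w j)) = 0) → (∀ j, B z' (N (w j)) = 0) → B z (N z') = 0 := by
    intro z z' hz hz'
    by_contra hc
    have hne : Nonempty ι := by
      by_contra hemp
      rw [not_nonempty_iff] at hemp
      obtain ⟨x, hx⟩ := hna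
      exact hx (hA x (fun j => isEmptyElim j))
    obtain ⟨i0⟩ := hne
    set c := B z (N z') with hcdef
    set f := c⁻¹ • z' with hf
    have hef : B z (N f) = 1 := by
      rw [hf, map_smul, map_smul, smul_eq_mul, ← hcdef, inv_mul_cancel₀ hc]
    have hfe : B f (N z) = 1 := by rw [hsym, hef]
    have hee : B z (N z) = 0 := hA z hz
    have hfw : ∀ j, B f (N (w j)) = 0 := by
      intro j
      rw [hf, map_smul, LinearMap.smul_apply, hz' j, smul_zero]
    have hff : B f (N f) = 0 := hA f hfw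
    have hwz : ∀ j, B (w j) (N z) = 0 := fun j => by rw [hsym, hz j]
    have hwf : ∀ j, B (w j) (N f) = 0 := fun j => by rw [hsym, hfw j]
    have h2 : (1 : F) + 1 = 0 := CharTwo.add_self_eq_zero 1
    apply hmax (Nat.findGreatest P (Module.finrank F V) + 2) (by omega)
    refine ⟨{i : ι // i ≠ i0} ⊕ Fin 3, inferInstance,
      Sum.elim (fun i => w i.1) ![w i0 + z, w i0 + f, w i0 + z + f], ?_, ?_, ?_⟩
    · rw [Fintype.card_sum, Fintype.card_subtype_compl, Fintype.card_fin, hcard]
      simp only [Fintype.card_unique]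
      have : 0 < Fintype.card ι := Fintype.card_pos_iff.2 ⟨i0⟩
      omega
    · intro o
      rcases o with i | a
      · exact hw.1 i.1
      · fin_cases a <;>
          simp only [Sum.elim_inr, Matrix.cons_val_zero, Matrix.cons_val_one, Matrix.cons_val_two,
            Fin.zero_eta, Fin.mk_one, Fin.reduceFinMk, Matrix.head_cons, Matrix.tail_cons,
            map_add, LinearMap.add_apply, hw.1 i0, hwz i0, hz i0, hee, hwf i0, hfw i0, hff,
            hef, hfe, add_zero, zero_add]
        · linear_combination h2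
    · intro o o' hne
      rcases o with i | a <;> rcases o' with j | b
      · exact hw.2 i.1 j.1 (fun h => hne (by rw [Subtype.ext h]))
      · have hi := hw.2 i.1 i0 i.2
        fin_cases b <;>
          simp only [Sum.elim_inr, Sum.elim_inl, Matrix.cons_val_zero, Matrix.cons_val_one,
            Matrix.cons_val_two, Fin.zero_eta, Fin.mk_one, Fin.reduceFinMk, Matrix.head_cons,
            Matrix.tail_cons, map_add, hi, hwz i.1, hwf i.1, add_zero]
      · have hj := hw.2 i0 j.1 (fun h => j.2 h.symm)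
        fin_cases a <;>
          simp only [Sum.elim_inr, Sum.elim_inl, Matrix.cons_val_zero, Matrix.cons_val_one,
            Matrix.cons_val_two, Fin.zero_eta, Fin.mk_one, Fin.reduceFinMk, Matrix.head_cons,
            Matrix.tail_cons, map_add, LinearMap.add_apply, hj, hz j.1, hfw j.1, add_zero]
      · fin_cases a <;> fin_cases b <;>
          first
          | exact absurd rfl hne
          | (simp only [Sum.elim_inr, Matrix.cons_val_zero, Matrix.cons_val_one,
              Matrix.cons_val_two, Fin.zero_eta, Fin.mk_one, Fin.reduceFinMk, Matrix.head_cons,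
              Matrix.tail_cons, map_add, LinearMap.add_apply, hw.1 i0, hwz i0, hz i0, hee, hwf i0,
              hfw i0, hff, hef, hfe, add_zero, zero_add]
             try linear_combination h2)
  -- conclusion
  have hrad : ∀ x y, B (x - ∑ i, B x (N (w i)) • w i) (N y) = 0 := by
    intro x y
    have hy : y = (y - ∑ i, B y (N (w i)) • w i) + ∑ i, B y (N (w i)) • w i := by abel
    rw [hy, map_add, map_add, map_sum, map_sum]
    rw [hB _ _ (hproj x) (hproj y), zero_add]
    apply Finset.sum_eq_zero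
    intro i _
    rw [map_smul, map_smul, hproj x i, smul_zero]
  -- reindex by Fin
  let e : ι ≃ Fin (Nat.findGreatest P (Module.finrank F V)) := Fintype.equivFinOfCardEq hcard
  refine ⟨_, w ∘ e.symm, ⟨fun i => hw.1 _, fun i j hij => hw.2 _ _ (fun h => hij (e.symm.injective h))⟩,
    ?_⟩
  intro x y
  have hsum : ∑ i, B x (N ((w ∘ e.symm) i)) • (w ∘ e.symm) i = ∑ i, B x (N (w i)) • w i :=
    Equiv.sum_comp e.symm (fun i => B x (N (w i)) • w i)
  rw [hsum]
  exact hrad x y

end Normal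

section NormalAlt

variable {F : Type u} {V : Type v} [Field F] [AddCommGroup V] [Module F V]

/-- Symplectic families for the form `(x, y) ↦ B x (N y)`. -/
def IsSF (B : LinearMap.BilinForm F V) (N : V →ₗ[F] V) {ι : Type*} (e f : ι → V) : Prop :=
  (∀ i, B (e i) (N (f i)) = 1) ∧ (∀ i j, i ≠ j → B (e i) (N (f j)) = 0) ∧
    (∀ i j, B (e i) (N (e j)) = 0) ∧ (∀ i j, B (f i) (N (f j)) = 0)

theorem IsSF.card_le [FiniteDimensional F V] {B : LinearMap.BilinForm F V} {N : V →ₗ[F] V}
    {ι : Type*} [Fintype ι] {e f : ι → V} (h : IsSF B N e f) :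
    Fintype.card ι ≤ Module.finrank F V := by
  classical
  have hli : LinearIndependent F e := by
    rw [linearIndependent_iff']
    intro s g hg i hi
    have h1 := congrArg (fun z => B z (N (f i))) hg
    simp only [map_sum, map_smul, LinearMap.sum_apply, LinearMap.smul_apply, smul_eq_mul,
      map_zero, LinearMap.zero_apply] at h1
    rw [Finset.sum_eq_single i] at h1
    · rwa [h.1 i, mul_one] at h1
    · intro j _ hji
      rw [h.2.1 j i hji, mul_zero]
    · intro hni
      exact absurd hi hni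
  exact hli.fintype_card_le_finrank

theorem exists_symplectic [FiniteDimensional F V]
    (B : LinearMap.BilinForm F V) (N : V →ₗ[F] V)
    (hsym : ∀ x y, B x (N y) = B y (N x)) (halt : ∀ x, B x (N x) = 0) :
    ∃ (k : ℕ) (e f : Fin k → V), IsSF B N e f ∧
      ∀ x y, B (x - ∑ i, (B x (N (f i)) • e i + B x (N (e i)) • f i)) (N y) = 0 := by
  classical
  let P : ℕ → Prop := fun k => ∃ (ι : Type) (_ : Fintype ι) (e f : ι → V),
    Fintype.card ι = k ∧ IsSF B N e f
  have hP0 : P 0 := ⟨PEmpty, inferInstance, fun i => i.elim, fun i => i.elim, by simp,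
    ⟨fun i => i.elim, fun i => i.elim, fun i => i.elim, fun i => i.elim⟩⟩
  have hPk := Nat.findGreatest_spec (P := P) (Nat.zero_le (Module.finrank F V)) hP0
  have hmax : ∀ k, Nat.findGreatest P (Module.finrank F V) < k → ¬ P k := by
    intro k hk hPk'
    by_cases hkn : k ≤ Module.finrank F V
    · exact Nat.findGreatest_is_greatest hk hkn hPk'
    · obtain ⟨ι, _, e, f, hc, hw⟩ := hPk'
      have := hw.card_le
      omega
  obtain ⟨ι, _, e, f, hcard, hw⟩ := hPk
  obtain ⟨h1, h2, h3, h4⟩ := hw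
  have hproj_e : ∀ x j,
      B (x - ∑ i, (B x (N (f i)) • e i + B x (N (e i)) • f i)) (N (e j)) = 0 := by
    intro x j
    simp only [map_sub, map_sum, map_add, map_smul, LinearMap.sub_apply, LinearMap.sum_apply,
      LinearMap.add_apply, LinearMap.smul_apply, smul_eq_mul, h3, mul_zero, zero_add]
    rw [Finset.sum_eq_single j]
    · rw [hsym (f j) (e j), h1 j, mul_one, sub_self]
    · intro i _ hij
      rw [hsym (f i) (e j), h2 j i (fun h => hij h.symm), mul_zero]
    · intro h
      exact absurd (Finset.mem_univ j) h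
  have hproj_f : ∀ x j,
      B (x - ∑ i, (B x (N (f i)) • e i + B x (N (e i)) • f i)) (N (f j)) = 0 := by
    intro x j
    simp only [map_sub, map_sum, map_add, map_smul, LinearMap.sub_apply, LinearMap.sum_apply,
      LinearMap.add_apply, LinearMap.smul_apply, smul_eq_mul, h4, mul_zero, add_zero]
    rw [Finset.sum_eq_single j]
    · rw [h1 j, mul_one, sub_self]
    · intro i _ hij
      rw [h2 i j hij, mul_zero]
    · intro h
      exact absurd (Finset.mem_univ j) h
  have hB : ∀ z z', (∀ j, B z (N (e j)) = 0) → (∀ j, B z (N (f j)) = 0) →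
      (∀ j, B z' (N (e j)) = 0) → (∀ j, B z' (N (f j)) = 0) → B z (N z') = 0 := by
    intro z z' hze hzf hze' hzf'
    by_contra hc
    set c := B z (N z') with hcdef
    apply hmax (Nat.findGreatest P (Module.finrank F V) + 1) (Nat.lt_succ_self _)
    refine ⟨Option ι, inferInstance, fun o => o.elim z e, fun o => o.elim (c⁻¹ • z') f, ?_, ?_, ?_,
      ?_, ?_⟩
    · rw [Fintype.card_option, hcard]
    · intro o
      cases o with
      | none =>
        simp only [Option.elim_none, map_smul, smul_eq_mul]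
        rw [← hcdef, inv_mul_cancel₀ hc]
      | some i => exact h1 i
    · intro o o' hne
      cases o with
      | none =>
        cases o' with
        | none => exact absurd rfl hne
        | some j => exact hzf j
      | some i =>
        cases o' with
        | none =>
          simp only [Option.elim_none, Option.elim_some, map_smul, smul_eq_mul]
          rw [hsym, hze' i, mul_zero]
        | some j => exact h2 i j (fun h => hne (by rw [h]))
    · intro o o'
      cases o with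
      | none =>
        cases o' with
        | none => exact halt z
        | some j => exact hze j
      | some i =>
        cases o' with
        | none =>
          simp only [Option.elim_none, Option.elim_some]
          rw [hsym, hze i]
        | some j => exact h3 i j
    · intro o o'
      cases o with
      | none =>
        cases o' with
        | none => exact halt _
        | some j =>
          simp only [Option.elim_none, Option.elim_some, map_smul, LinearMap.smul_apply,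
            smul_eq_mul]
          rw [hzf' j, mul_zero]
      | some i =>
        cases o' with
        | none =>
          simp only [Option.elim_none, Option.elim_some, map_smul, smul_eq_mul]
          rw [hsym, hzf' i, mul_zero]
        | some j => exact h4 i j
  have hrad : ∀ x y,
      B (x - ∑ i, (B x (N (f i)) • e i + B x (N (e i)) • f i)) (N y) = 0 := by
    intro x y
    have hy : y = (y - ∑ i, (B y (N (f i)) • e i + B y (N (e i)) • f i))
        + ∑ i, (B y (N (f i)) • e i + B y (N (e i)) • f i) := by abel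
    rw [hy, map_add, map_add, map_sum, map_sum]
    rw [hB _ _ (hproj_e x) (hproj_f x) (hproj_e y) (hproj_f y), zero_add]
    apply Finset.sum_eq_zero
    intro i _
    rw [map_add, map_add, map_smul, map_smul, map_smul, map_smul, hproj_e x i, hproj_f x i,
      smul_zero, smul_zero, add_zero]
  let ε : ι ≃ Fin (Nat.findGreatest P (Module.finrank F V)) := Fintype.equivFinOfCardEq hcard
  refine ⟨_, e ∘ ε.symm, f ∘ ε.symm, ⟨fun i => h1 _, fun i j hij => h2 _ _
    (fun h => hij (ε.symm.injective h)), fun i j => h3 _ _, fun i j => h4 _ _⟩, ?_⟩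
  intro x y
  have hsum : ∑ i, (B x (N ((f ∘ ε.symm) i)) • (e ∘ ε.symm) i
        + B x (N ((e ∘ ε.symm) i)) • (f ∘ ε.symm) i)
      = ∑ i, (B x (N (f i)) • e i + B x (N (e i)) • f i) :=
    Equiv.sum_comp ε.symm (fun i => B x (N (f i)) • e i + B x (N (e i)) • f i)
  rw [hsum]
  exact hrad x y

end NormalAlt

section Conj

variable {F : Type u} {V : Type v} [Field F] [AddCommGroup V] [Module F V]

theorem normal_kill {ι : Type*} [Fintype ι] {B : LinearMap.BilinForm F V} (hnd : B.Nondegenerate)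
    {N : V →ₗ[F] V} (hadj : ∀ x y, B (N x) y = B x (N y)) (w : ι → V) (c : V → ι → F)
    (hr : ∀ x y, B (x - ∑ i, c x i • w i) (N y) = 0) (x : V) :
    N x = ∑ i, c x i • N (w i) := by
  have h : N (x - ∑ i, c x i • w i) = 0 := hnd.1 _ (fun y => by rw [hadj]; exact hr x y)
  rw [map_sub, map_sum, sub_eq_zero] at h
  rw [h]
  simp only [map_smul]

theorem card_eq_finrank_range [FiniteDimensional F V] {ι : Type*} [Fintype ι] [DecidableEq ι]
    (σ : ι → ι) (hσ : ∀ i, σ (σ i) = i)
    {B : LinearMap.BilinForm F V} (hnd : B.Nondegenerate)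
    (N : V →ₗ[F] V) (hadj : ∀ x y, B (N x) y = B x (N y)) (w : ι → V)
    (hv : ∀ i j, B (w i) (N (w j)) = if j = σ i then 1 else 0)
    (hr : ∀ x y, B (x - ∑ i, B x (N (w (σ i))) • w i) (N y) = 0) :
    Fintype.card ι = Module.finrank F (LinearMap.range N) := by
  have hli : LinearIndependent F (fun i => N (w i)) := by
    rw [linearIndependent_iff']
    intro s g hg j hj
    have h1 := congrArg (fun z => B (w (σ j)) z) hg
    simp only [map_sum, map_smul, smul_eq_mul, map_zero] at h1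
    rw [Finset.sum_eq_single j] at h1
    · rwa [hv, if_pos (hσ j).symm, mul_one] at h1
    · intro i _ hij
      rw [hv, if_neg (fun h => hij (by rw [h, hσ])), mul_zero]
    · intro hni
      exact absurd hj hni
  have hspan : LinearMap.range N = Submodule.span F (Set.range (fun i => N (w i))) := by
    apply le_antisymm
    · rintro _ ⟨x, rfl⟩
      rw [normal_kill hnd hadj w (fun x i => B x (N (w (σ i)))) hr x]
      apply Submodule.sum_mem
      intro i _
      exact Submodule.smul_mem _ _ (Submodule.subset_span ⟨i, rfl⟩)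
    · rw [Submodule.span_le]
      rintro _ ⟨i, rfl⟩
      exact ⟨w i, rfl⟩
  rw [hspan, finrank_span_eq_card hli]

theorem exists_adjusted [CharP F 2] {ι : Type*} [Fintype ι] [DecidableEq ι]
    (σ : ι → ι) (hσ : ∀ i, σ (σ i) = i)
    {B : LinearMap.BilinForm F V} (hB : B.IsAlt) (hnd : B.Nondegenerate)
    (N : V →ₗ[F] V) (hN : ∀ x, N (N x) = 0) (hadj : ∀ x y, B (N x) y = B x (N y)) (w : ι → V)
    (hv : ∀ i j, B (w i) (N (w j)) = if j = σ i then 1 else 0)
    (hr : ∀ x y, B (x - ∑ i, B x (N (w (σ i))) • w i) (N y) = 0) :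
    ∃ u : ι → V, (∀ i, N (u i) = N (w i)) ∧ (∀ i j, B (u i) (u j) = 0) ∧
      (∀ i j, B (u i) (N (u j)) = if j = σ i then 1 else 0) ∧
      (∀ x, N x = ∑ i, B x (N (w (σ i))) • N (u i)) := by
  classical
  let e := Fintype.equivFin ι
  let D : ι → ι → F := fun i k => if e i < e k then B (w i) (w k) else 0
  have hNN : ∀ x y, B (N x) (N y) = 0 := by
    intro x y
    rw [hadj, hN, map_zero]
  have hu1 : ∀ i, N (w i + ∑ k, D i k • N (w (σ k))) = N (w i) := by
    intro i
    rw [map_add, map_sum]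
    simp only [map_smul, hN, smul_zero, Finset.sum_const_zero, add_zero]
  have hσinj : ∀ i j, σ i = σ j → i = j := by
    intro i j h
    rw [← hσ i, ← hσ j, h]
  refine ⟨fun i => w i + ∑ k, D i k • N (w (σ k)), hu1, ?_, ?_, ?_⟩
  · intro i j
    have e1 : B (w i) (∑ k, D j k • N (w (σ k))) = D j i := by
      rw [map_sum, Finset.sum_eq_single i]
      · rw [map_smul, hv, if_pos rfl, smul_eq_mul, mul_one]
      · intro k _ hki
        rw [map_smul, hv, if_neg (fun h => hki (hσinj _ _ h)), smul_zero]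
      · intro h
        exact absurd (Finset.mem_univ i) h
    have e2 : B (∑ k, D i k • N (w (σ k))) (w j) = D i j := by
      rw [map_sum, LinearMap.sum_apply, Finset.sum_eq_single j]
      · rw [map_smul, LinearMap.smul_apply, hadj, hv, if_pos (hσ j).symm, smul_eq_mul, mul_one]
      · intro k _ hkj
        rw [map_smul, LinearMap.smul_apply, hadj, hv,
          if_neg (fun h => hkj (by rw [h, hσ])), smul_zero]
      · intro h
        exact absurd (Finset.mem_univ j) h
    have e3 : B (∑ k, D i k • N (w (σ k))) (∑ k, D j k • N (w (σ k))) = 0 := by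
      rw [map_sum]
      apply Finset.sum_eq_zero
      intro l _
      rw [map_smul, map_sum, LinearMap.sum_apply, Finset.sum_eq_zero, smul_zero]
      intro k _
      rw [map_smul, LinearMap.smul_apply, hNN, smul_zero]
    rw [map_add, map_add, LinearMap.add_apply, LinearMap.add_apply, e1, e2, e3, add_zero]
    simp only [D]
    rcases lt_trichotomy (e i) (e j) with h | h | h
    · rw [if_pos h, if_neg (not_lt.2 h.le), add_zero]
      exact CharTwo.add_self_eq_zero _
    · have hij : i = j := e.injective h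
      subst hij
      rw [if_neg (lt_irrefl _), add_zero, add_zero]
      exact hB.self_eq_zero _
    · rw [if_pos h, if_neg (not_lt.2 h.le), add_zero, ← hB.neg_eq (w i) (w j)]
      exact add_neg_cancel _
  · intro i j
    rw [hu1 j, map_add, LinearMap.add_apply, hv, map_sum, LinearMap.sum_apply]
    have : ∑ k, B (D i k • N (w (σ k))) (N (w j)) = 0 := by
      apply Finset.sum_eq_zero
      intro k _
      rw [map_smul, LinearMap.smul_apply, hNN, smul_zero]
    rw [this, add_zero]
  · intro x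
    rw [normal_kill hnd hadj w (fun x i => B x (N (w (σ i)))) hr x]
    exact Finset.sum_congr rfl (fun i _ => by rw [hu1 i])

theorem conj_of_normal [CharP F 2] {ι : Type*} [Fintype ι] [DecidableEq ι]
    (σ : ι → ι) (hσ : ∀ i, σ (σ i) = i)
    {B : LinearMap.BilinForm F V} (hB : B.IsAlt) (hnd : B.Nondegenerate)
    (N₁ N₂ : V →ₗ[F] V) (hN₁ : ∀ x, N₁ (N₁ x) = 0) (hN₂ : ∀ x, N₂ (N₂ x) = 0)
    (hadj₁ : ∀ x y, B (N₁ x) y = B x (N₁ y)) (hadj₂ : ∀ x y, B (N₂ x) y = B x (N₂ y))
    (w₁ w₂ : ι → V)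
    (hv₁ : ∀ i j, B (w₁ i) (N₁ (w₁ j)) = if j = σ i then 1 else 0)
    (hv₂ : ∀ i j, B (w₂ i) (N₂ (w₂ j)) = if j = σ i then 1 else 0)
    (hr₁ : ∀ x y, B (x - ∑ i, B x (N₁ (w₁ (σ i))) • w₁ i) (N₁ y) = 0)
    (hr₂ : ∀ x y, B (x - ∑ i, B x (N₂ (w₂ (σ i))) • w₂ i) (N₂ y) = 0) :
    ∃ g ∈ TP B, ∀ x, g (N₁ x) = N₂ (g x) := by
  obtain ⟨u₁, ha₁, hb₁, hc₁, hd₁⟩ := exists_adjusted σ hσ hB hnd N₁ hN₁ hadj₁ w₁ hv₁ hr₁
  obtain ⟨u₂, ha₂, hb₂, hc₂, hd₂⟩ := exists_adjusted σ hσ hB hnd N₂ hN₂ hadj₂ w₂ hv₂ hr₂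
  have hσinj : ∀ i j, σ i = σ j → i = j := by
    intro i j h
    rw [← hσ i, ← hσ j, h]
  have hNN₁ : ∀ x y, B (N₁ x) (N₁ y) = 0 := by
    intro x y
    rw [hadj₁, hN₁, map_zero]
  have hNN₂ : ∀ x y, B (N₂ x) (N₂ y) = 0 := by
    intro x y
    rw [hadj₂, hN₂, map_zero]
  obtain ⟨g, hg, hgS⟩ := witt_family hB u₁ (fun i => N₁ (u₁ (σ i))) u₂ (fun i => N₂ (u₂ (σ i)))
    (fun i j => by
      rw [hc₁]
      by_cases hij : i = j
      · rw [if_pos hij, if_pos (by rw [hij])]
      · rw [if_neg hij, if_neg (fun h => hij (hσinj _ _ h).symm)])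
    hb₁ (fun i j => hNN₁ _ _)
    (fun i j => by
      rw [hc₂]
      by_cases hij : i = j
      · rw [if_pos hij, if_pos (by rw [hij])]
      · rw [if_neg hij, if_neg (fun h => hij (hσinj _ _ h).symm)])
    hb₂ (fun i j => hNN₂ _ _) Finset.univ
  have hgu : ∀ i, g (u₁ i) = u₂ i := fun i => (hgS i (Finset.mem_univ i)).1
  have hgw : ∀ i, g (N₁ (u₁ i)) = N₂ (u₂ i) := by
    intro i
    have h := (hgS (σ i) (Finset.mem_univ _)).2
    simp only [hσ] at h
    exact h
  have hiso := TP_isometry hB hg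
  refine ⟨g, hg, ?_⟩
  intro x
  have hx1 : g (N₁ x) = ∑ i, B x (N₁ (w₁ (σ i))) • N₂ (u₂ i) := by
    rw [hd₁ x, map_sum]
    exact Finset.sum_congr rfl (fun i _ => by rw [map_smul, hgw i])
  have hk : N₁ (x - ∑ i, B x (N₁ (w₁ (σ i))) • u₁ i) = 0 := by
    rw [map_sub, map_sum, sub_eq_zero]
    rw [hd₁ x]
    exact Finset.sum_congr rfl (fun i _ => by rw [map_smul])
  have hgk : N₂ (g (x - ∑ i, B x (N₁ (w₁ (σ i))) • u₁ i)) = 0 := by
    apply hnd.1
    intro y
    rw [hadj₂, hd₂ y, map_sum]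
    apply Finset.sum_eq_zero
    intro i _
    rw [map_smul, ← hgw i, hiso, ← hadj₁, hk, map_zero, LinearMap.zero_apply, smul_zero]
  have hx2 : x = (x - ∑ i, B x (N₁ (w₁ (σ i))) • u₁ i) + ∑ i, B x (N₁ (w₁ (σ i))) • u₁ i := by
    abel
  have hx3 : N₂ (g x) = ∑ i, B x (N₁ (w₁ (σ i))) • N₂ (u₂ i) := by
    conv_lhs => rw [hx2]
    rw [map_add, map_add, hgk, zero_add, map_sum, map_sum]
    exact Finset.sum_congr rfl (fun i _ => by rw [map_smul, map_smul, hgu i])
  rw [hx1, hx3]

end Conj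

section Main

variable {F : Type u} {V : Type v} [Field F] [AddCommGroup V] [Module F V]

theorem normal_alt [FiniteDimensional F V] (B : LinearMap.BilinForm F V) (N : V →ₗ[F] V)
    (hsym : ∀ x y, B x (N y) = B y (N x)) (halt : ∀ x, B x (N x) = 0) :
    ∃ (k : ℕ) (w : Fin k ⊕ Fin k → V),
      (∀ i j, B (w i) (N (w j)) = if j = Sum.swap i then 1 else 0) ∧
      ∀ x y, B (x - ∑ i, B x (N (w (Sum.swap i))) • w i) (N y) = 0 := by
  obtain ⟨k, e, f, ⟨h1, h2, h3, h4⟩, hr⟩ := exists_symplectic B N hsym halt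
  refine ⟨k, Sum.elim e f, ?_, ?_⟩
  · intro i j
    rcases i with i | i <;> rcases j with j | j
    · simp only [Sum.elim_inl, Sum.swap_inl, reduceCtorEq, if_false]
      exact h3 i j
    · simp only [Sum.elim_inl, Sum.elim_inr, Sum.swap_inl, Sum.inr.injEq]
      by_cases hij : j = i
      · rw [if_pos hij, hij]; exact h1 i
      · rw [if_neg hij]; exact h2 i j (fun h => hij h.symm)
    · simp only [Sum.elim_inl, Sum.elim_inr, Sum.swap_inr, Sum.inl.injEq]
      rw [hsym]
      by_cases hij : j = i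
      · rw [if_pos hij, hij]; exact h1 i
      · rw [if_neg hij]; exact h2 j i hij
    · simp only [Sum.elim_inr, Sum.swap_inr, reduceCtorEq, if_false]
      exact h4 i j
  · intro x y
    have hsum : ∑ i, B x (N (Sum.elim e f (Sum.swap i))) • Sum.elim e f i
        = ∑ i, (B x (N (f i)) • e i + B x (N (e i)) • f i) := by
      rw [Fintype.sum_sum_type, Finset.sum_add_distrib]
      simp only [Sum.elim_inl, Sum.elim_inr, Sum.swap_inl, Sum.swap_inr]
    rw [hsum]
    exact hr x y

theorem normal_na [FiniteDimensional F V] [CharP F 2] (hsq : ∀ c : F, IsSquare c)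
    (B : LinearMap.BilinForm F V) (N : V →ₗ[F] V)
    (hsym : ∀ x y, B x (N y) = B y (N x)) (hna : ∃ x, B x (N x) ≠ 0) :
    ∃ (k : ℕ) (w : Fin k → V),
      (∀ i j, B (w i) (N (w j)) = if j = id i then 1 else 0) ∧
      ∀ x y, B (x - ∑ i, B x (N (w (id i))) • w i) (N y) = 0 := by
  obtain ⟨k, w, ⟨h1, h2⟩, hr⟩ := exists_orthonormal hsq B N hsym hna
  refine ⟨k, w, ?_, hr⟩
  intro i j
  by_cases hij : j = i
  · rw [id, if_pos hij, hij]; exact h1 i
  · rw [id, if_neg hij]; exact h2 i j (fun h => hij h.symm)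

theorem sym_of_adj [CharP F 2] {B : LinearMap.BilinForm F V} (hB : B.IsAlt) {N : V →ₗ[F] V}
    (hadj : ∀ x y, B (N x) y = B x (N y)) (x y : V) : B x (N y) = B y (N x) := by
  rw [← hadj y x, ← hB.neg_eq (N y) x, CharTwo.neg_eq]

theorem even_of_alt [FiniteDimensional F V] [CharP F 2] {B : LinearMap.BilinForm F V}
    (hB : B.IsAlt) (hnd : B.Nondegenerate) (N : V →ₗ[F] V)
    (hadj : ∀ x y, B (N x) y = B x (N y)) (halt : ∀ x, B x (N x) = 0) :
    Even (Module.finrank F (LinearMap.range N)) := by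
  obtain ⟨k, w, hv, hr⟩ := normal_alt B N (sym_of_adj hB hadj) halt
  have h := card_eq_finrank_range Sum.swap Sum.swap_swap hnd N hadj w hv hr
  rw [← h, Fintype.card_sum, Fintype.card_fin]
  exact ⟨k, rfl⟩

theorem conj_abstract [FiniteDimensional F V] [CharP F 2] (hsq : ∀ c : F, IsSquare c)
    {B : LinearMap.BilinForm F V} (hB : B.IsAlt) (hnd : B.Nondegenerate)
    (N₁ N₂ : V →ₗ[F] V) (hN₁ : ∀ x, N₁ (N₁ x) = 0) (hN₂ : ∀ x, N₂ (N₂ x) = 0)
    (hadj₁ : ∀ x y, B (N₁ x) y = B x (N₁ y)) (hadj₂ : ∀ x y, B (N₂ x) y = B x (N₂ y))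
    (hrank : Module.finrank F (LinearMap.range N₁) = Module.finrank F (LinearMap.range N₂))
    (htype : (∀ x, B x (N₁ x) = 0) ↔ (∀ x, B x (N₂ x) = 0)) :
    ∃ g ∈ TP B, ∀ x, g (N₁ x) = N₂ (g x) := by
  by_cases halt : ∀ x, B x (N₁ x) = 0
  · obtain ⟨k₁, w₁, hv₁, hr₁⟩ := normal_alt B N₁ (sym_of_adj hB hadj₁) halt
    obtain ⟨k₂, w₂, hv₂, hr₂⟩ := normal_alt B N₂ (sym_of_adj hB hadj₂) (htype.1 halt)
    have h1 := card_eq_finrank_range Sum.swap Sum.swap_swap hnd N₁ hadj₁ w₁ hv₁ hr₁
    have h2 := card_eq_finrank_range Sum.swap Sum.swap_swap hnd N₂ hadj₂ w₂ hv₂ hr₂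
    rw [Fintype.card_sum, Fintype.card_fin] at h1 h2
    have hk : k₁ = k₂ := by omega
    subst hk
    exact conj_of_normal Sum.swap Sum.swap_swap hB hnd N₁ N₂ hN₁ hN₂ hadj₁ hadj₂ w₁ w₂ hv₁ hv₂
      hr₁ hr₂
  · have halt₂ : ¬ ∀ x, B x (N₂ x) = 0 := fun h => halt (htype.2 h)
    push Not at halt halt₂
    obtain ⟨k₁, w₁, hv₁, hr₁⟩ := normal_na hsq B N₁ (sym_of_adj hB hadj₁) halt
    obtain ⟨k₂, w₂, hv₂, hr₂⟩ := normal_na hsq B N₂ (sym_of_adj hB hadj₂) halt₂
    have h1 := card_eq_finrank_range id (fun _ => rfl) hnd N₁ hadj₁ w₁ hv₁ hr₁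
    have h2 := card_eq_finrank_range id (fun _ => rfl) hnd N₂ hadj₂ w₂ hv₂ hr₂
    rw [Fintype.card_fin] at h1 h2
    have hk : k₁ = k₂ := by omega
    subst hk
    exact conj_of_normal id (fun _ => rfl) hB hnd N₁ N₂ hN₁ hN₂ hadj₁ hadj₂ w₁ w₂ hv₁ hv₂
      hr₁ hr₂

end Main

section Mat

open Matrix

variable {F : Type*} [Field F]

theorem inv_lemmas [CharP F 2] {m : ℕ} (a : ↥(Matrix.symplecticGroup (Fin m) F)) (ha : orderOf a = 2) :
    (∀ x, ((a : Matrix (Fin m ⊕ Fin m) (Fin m ⊕ Fin m) F) - 1).mulVecLin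
        (((a : Matrix (Fin m ⊕ Fin m) (Fin m ⊕ Fin m) F) - 1).mulVecLin x) = 0) ∧
    (∀ x y, sympB m (((a : Matrix (Fin m ⊕ Fin m) (Fin m ⊕ Fin m) F) - 1).mulVecLin x) y
        = sympB m x (((a : Matrix (Fin m ⊕ Fin m) (Fin m ⊕ Fin m) F) - 1).mulVecLin y)) ∧
    (∀ x, sympB m x (((a : Matrix (Fin m ⊕ Fin m) (Fin m ⊕ Fin m) F) - 1).mulVecLin x)
        = Cfsg.sympForm m F x ((a : Matrix (Fin m ⊕ Fin m) (Fin m ⊕ Fin m) F) *ᵥ x)) := by
  set A : Matrix (Fin m ⊕ Fin m) (Fin m ⊕ Fin m) F := (a : Matrix (Fin m ⊕ Fin m) (Fin m ⊕ Fin m) F)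
    with hA
  have h1 : a ^ 2 = 1 := by rw [← ha]; exact pow_orderOf_eq_one a
  have hAA : A * A = 1 := by
    have := congrArg (fun g : ↥(Matrix.symplecticGroup (Fin m) F) =>
      (g : Matrix (Fin m ⊕ Fin m) (Fin m ⊕ Fin m) F)) h1
    simpa [pow_two] using this
  have hAAv : ∀ y : Fin m ⊕ Fin m → F, A *ᵥ (A *ᵥ y) = y := by
    intro y
    rw [Matrix.mulVec_mulVec, hAA, Matrix.one_mulVec]
  have hNv : ∀ x : Fin m ⊕ Fin m → F, (A - 1).mulVecLin x = A *ᵥ x - x := by
    intro x
    rw [Matrix.mulVecLin_apply, Matrix.sub_mulVec, Matrix.one_mulVec]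
  have hiso : ∀ x y : Fin m ⊕ Fin m → F, sympB m (A *ᵥ x) (A *ᵥ y) = sympB m x y := by
    intro x y
    have := symplectic_isometry m A a.2 x y
    simpa [Matrix.toLin'_apply] using this
  have hsw : ∀ x y : Fin m ⊕ Fin m → F, sympB m (A *ᵥ x) y = sympB m x (A *ᵥ y) := by
    intro x y
    rw [← hiso x (A *ᵥ y), hAAv]
  refine ⟨?_, ?_, ?_⟩
  · intro x
    rw [hNv, hNv, Matrix.mulVec_sub, hAAv]
    have hv2 : ∀ y : Fin m ⊕ Fin m → F, y + y = 0 := by
      intro y
      ext i
      exact CharTwo.add_self_eq_zero (y i)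
    have : x - A *ᵥ x - (A *ᵥ x - x) = (x + x) - (A *ᵥ x + A *ᵥ x) := by abel
    rw [this, hv2, hv2, sub_zero]
  · intro x y
    rw [hNv, hNv, map_sub, map_sub, LinearMap.sub_apply, hsw]
  · intro x
    rw [hNv, map_sub, (sympB_isAlt m).self_eq_zero, sub_zero, sympB_eq_sympForm]

theorem alt_iff_card [Fintype F] {m : ℕ} (A : Matrix (Fin m ⊕ Fin m) (Fin m ⊕ Fin m) F) :
    (∀ x, Cfsg.sympForm m F x (A *ᵥ x) = 0) ↔
      Nat.card {v : Fin m ⊕ Fin m → F // Cfsg.sympForm m F v (A *ᵥ v) = 0}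
        = Nat.card (Fin m ⊕ Fin m → F) := by
  classical
  constructor
  · intro h
    exact Nat.card_congr (Equiv.subtypeUnivEquiv h)
  · intro h
    by_contra hcon
    push Not at hcon
    obtain ⟨x, hx⟩ := hcon
    have hlt := Fintype.card_subtype_lt (p := fun v : Fin m ⊕ Fin m → F =>
      Cfsg.sympForm m F v (A *ᵥ v) = 0) hx
    rw [Nat.card_eq_fintype_card, Nat.card_eq_fintype_card] at h
    omega

end Mat

open Matrix in
/-- Conjugacy of involutions of Sp_{2m} in characteristic 2 (auxiliary form of `result`). -/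
theorem result_aux {F : Type*} [Field F] [Fintype F] [CharP F 2] {m : ℕ} (hm : 2 ≤ m) (a b : ↥(Matrix.symplecticGroup (Fin m) F)) (ha : orderOf a = 2) (hb : orderOf b = 2) :
    IsConj a b ↔ ((((a : ↥(Matrix.symplecticGroup (Fin m) F)) : Matrix (Fin m ⊕ Fin m) (Fin m ⊕ Fin m) F) - 1).rank = (((b : ↥(Matrix.symplecticGroup (Fin m) F)) : Matrix (Fin m ⊕ Fin m) (Fin m ⊕ Fin m) F) - 1).rank ∧
      (Even (((a : ↥(Matrix.symplecticGroup (Fin m) F)) : Matrix (Fin m ⊕ Fin m) (Fin m ⊕ Fin m) F) - 1).rank → Nat.card {v : Fin m ⊕ Fin m → F // Cfsg.sympForm m F v (Matrix.mulVec ((a : ↥(Matrix.symplecticGroup (Fin m) F)) : Matrix (Fin m ⊕ Fin m) (Fin m ⊕ Fin m) F) v) = 0} = Nat.card {v : Fin m ⊕ Fin m → F // Cfsg.sympForm m F v (Matrix.mulVec ((b : ↥(Matrix.symplecticGroup (Fin m) F)) : Matrix (Fin m ⊕ Fin m) (Fin m ⊕ Fin m) F) v) = 0})) := by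
  classical
  constructor
  · intro h
    obtain ⟨c, hc⟩ := isConj_iff.1 h
    have hcc : (c : Matrix (Fin m ⊕ Fin m) (Fin m ⊕ Fin m) F)
        * ((c⁻¹ : ↥(Matrix.symplecticGroup (Fin m) F)) : Matrix (Fin m ⊕ Fin m) (Fin m ⊕ Fin m) F) = 1 := by
      have h0 : ((c * c⁻¹ : ↥(Matrix.symplecticGroup (Fin m) F)) : Matrix (Fin m ⊕ Fin m) (Fin m ⊕ Fin m) F)
          = 1 := by
        rw [mul_inv_cancel]; rfl
      exact h0
    have hcc' : ((c⁻¹ : ↥(Matrix.symplecticGroup (Fin m) F)) : Matrix (Fin m ⊕ Fin m) (Fin m ⊕ Fin m) F)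
        * (c : Matrix (Fin m ⊕ Fin m) (Fin m ⊕ Fin m) F) = 1 := by
      have h0 : ((c⁻¹ * c : ↥(Matrix.symplecticGroup (Fin m) F)) : Matrix (Fin m ⊕ Fin m) (Fin m ⊕ Fin m) F)
          = 1 := by
        rw [inv_mul_cancel]; rfl
      exact h0
    have hb' : (b : Matrix (Fin m ⊕ Fin m) (Fin m ⊕ Fin m) F)
        = (c : Matrix (Fin m ⊕ Fin m) (Fin m ⊕ Fin m) F) * (a : Matrix (Fin m ⊕ Fin m) (Fin m ⊕ Fin m) F)
          * ((c⁻¹ : ↥(Matrix.symplecticGroup (Fin m) F)) : Matrix (Fin m ⊕ Fin m) (Fin m ⊕ Fin m) F) := by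
      rw [← hc]; rfl
    have hbc : (b : Matrix (Fin m ⊕ Fin m) (Fin m ⊕ Fin m) F) * (c : Matrix (Fin m ⊕ Fin m) (Fin m ⊕ Fin m) F)
        = (c : Matrix (Fin m ⊕ Fin m) (Fin m ⊕ Fin m) F) * (a : Matrix (Fin m ⊕ Fin m) (Fin m ⊕ Fin m) F) := by
      rw [hb', Matrix.mul_assoc, hcc', Matrix.mul_one]
    have hrk : ((b : Matrix (Fin m ⊕ Fin m) (Fin m ⊕ Fin m) F) - 1).rank
        = ((a : Matrix (Fin m ⊕ Fin m) (Fin m ⊕ Fin m) F) - 1).rank := by
      have e : (b : Matrix (Fin m ⊕ Fin m) (Fin m ⊕ Fin m) F) - 1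
          = (c : Matrix (Fin m ⊕ Fin m) (Fin m ⊕ Fin m) F) * ((a : Matrix (Fin m ⊕ Fin m) (Fin m ⊕ Fin m) F) - 1)
            * ((c⁻¹ : ↥(Matrix.symplecticGroup (Fin m) F)) : Matrix (Fin m ⊕ Fin m) (Fin m ⊕ Fin m) F) := by
        rw [Matrix.mul_sub, Matrix.sub_mul, ← hb', Matrix.mul_one, hcc]
      rw [e, Matrix.rank_mul_eq_left_of_isUnit_det _ _ (Matrix.isUnit_det_of_left_inverse hcc),
        Matrix.rank_mul_eq_right_of_isUnit_det _ _ (Matrix.isUnit_det_of_right_inverse hcc)]
    refine ⟨hrk.symm, fun _ => ?_⟩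
    have hiso : ∀ x y : Fin m ⊕ Fin m → F,
        Cfsg.sympForm m F ((c : Matrix (Fin m ⊕ Fin m) (Fin m ⊕ Fin m) F) *ᵥ x)
          ((c : Matrix (Fin m ⊕ Fin m) (Fin m ⊕ Fin m) F) *ᵥ y) = Cfsg.sympForm m F x y := by
      intro x y
      have := symplectic_isometry m (c : Matrix (Fin m ⊕ Fin m) (Fin m ⊕ Fin m) F) c.2 x y
      simpa [Matrix.toLin'_apply, sympB_eq_sympForm] using this
    let e : (Fin m ⊕ Fin m → F) ≃ (Fin m ⊕ Fin m → F) :=
      { toFun := fun v => (c : Matrix (Fin m ⊕ Fin m) (Fin m ⊕ Fin m) F) *ᵥ v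
        invFun := fun v => ((c⁻¹ : ↥(Matrix.symplecticGroup (Fin m) F)) : Matrix (Fin m ⊕ Fin m) (Fin m ⊕ Fin m) F) *ᵥ v
        left_inv := fun v => by
          show _ *ᵥ (_ *ᵥ v) = v
          rw [Matrix.mulVec_mulVec, hcc', Matrix.one_mulVec]
        right_inv := fun v => by
          show _ *ᵥ (_ *ᵥ v) = v
          rw [Matrix.mulVec_mulVec, hcc, Matrix.one_mulVec] }
    apply Nat.card_congr
    refine Equiv.subtypeEquiv e ?_
    intro v
    show _ ↔ Cfsg.sympForm m F ((c : Matrix (Fin m ⊕ Fin m) (Fin m ⊕ Fin m) F) *ᵥ v)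
      ((b : Matrix (Fin m ⊕ Fin m) (Fin m ⊕ Fin m) F) *ᵥ ((c : Matrix (Fin m ⊕ Fin m) (Fin m ⊕ Fin m) F) *ᵥ v)) = 0
    rw [Matrix.mulVec_mulVec, hbc, ← Matrix.mulVec_mulVec, hiso]
  · rintro ⟨hrank, hcard⟩
    have hsq : ∀ x : F, IsSquare x := fun x =>
      FiniteField.isSquare_of_char_two (ringChar.eq F 2) x
    obtain ⟨hN₁, hadj₁, hform₁⟩ := inv_lemmas a ha
    obtain ⟨hN₂, hadj₂, hform₂⟩ := inv_lemmas b hb
    set A : Matrix (Fin m ⊕ Fin m) (Fin m ⊕ Fin m) F := (a : Matrix (Fin m ⊕ Fin m) (Fin m ⊕ Fin m) F)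
      with hA
    set A' : Matrix (Fin m ⊕ Fin m) (Fin m ⊕ Fin m) F := (b : Matrix (Fin m ⊕ Fin m) (Fin m ⊕ Fin m) F)
      with hA'
    have hrank' : Module.finrank F (LinearMap.range (A - 1).mulVecLin)
        = Module.finrank F (LinearMap.range (A' - 1).mulVecLin) := hrank
    have halt₁ : (∀ x, sympB m x ((A - 1).mulVecLin x) = 0) ↔
        Nat.card {v : Fin m ⊕ Fin m → F // Cfsg.sympForm m F v (A *ᵥ v) = 0}
          = Nat.card (Fin m ⊕ Fin m → F) := by
      rw [← alt_iff_card]
      exact forall_congr' (fun x => by rw [hform₁])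
    have halt₂ : (∀ x, sympB m x ((A' - 1).mulVecLin x) = 0) ↔
        Nat.card {v : Fin m ⊕ Fin m → F // Cfsg.sympForm m F v (A' *ᵥ v) = 0}
          = Nat.card (Fin m ⊕ Fin m → F) := by
      rw [← alt_iff_card]
      exact forall_congr' (fun x => by rw [hform₂])
    have htype : (∀ x, sympB m x ((A - 1).mulVecLin x) = 0) ↔
        (∀ x, sympB m x ((A' - 1).mulVecLin x) = 0) := by
      constructor
      · intro h
        have hev := even_of_alt (sympB_isAlt m) (sympB_nondegenerate m) _ hadj₁ h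
        rw [halt₂, ← hcard hev]
        exact halt₁.1 h
      · intro h
        have hev := even_of_alt (sympB_isAlt m) (sympB_nondegenerate m) _ hadj₂ h
        rw [← hrank'] at hev
        rw [halt₁, hcard hev]
        exact halt₂.1 h
    obtain ⟨g, hg, hgN⟩ := conj_abstract hsq (sympB_isAlt m) (sympB_nondegenerate m)
      (A - 1).mulVecLin (A' - 1).mulVecLin hN₁ hN₂ hadj₁ hadj₂ hrank' htype
    obtain ⟨hmem, -⟩ := TP_to_closure m hg
    have hgA : ∀ x, g (A *ᵥ x) = A' *ᵥ (g x) := by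
      intro x
      have h := hgN x
      rw [Matrix.mulVecLin_apply, Matrix.mulVecLin_apply, Matrix.sub_mulVec, Matrix.sub_mulVec,
        Matrix.one_mulVec, Matrix.one_mulVec, map_sub] at h
      exact sub_left_injective h
    have hmat : LinearMap.toMatrix' g * A = A' * LinearMap.toMatrix' g := by
      apply Matrix.toLin'.injective
      rw [Matrix.toLin'_mul, Matrix.toLin'_mul, Matrix.toLin'_toMatrix']
      apply LinearMap.ext
      intro x
      rw [LinearMap.comp_apply, LinearMap.comp_apply, Matrix.toLin'_apply, Matrix.toLin'_apply]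
      exact hgA x
    rw [isConj_iff]
    refine ⟨⟨LinearMap.toMatrix' g, hmem⟩, ?_⟩
    rw [mul_inv_eq_iff_eq_mul]
    apply Subtype.ext
    exact hmat

/-- Conjugacy of involutions in the symplectic group Sp_{2m}(F), F a finite field of characteristic two, m ≥ 2 (Sp taken as the matrices A with A J Aᵀ = J, acting on column vectors, with the alternating form f(u, v) = u ⬝ (J v)). For an involution t write V(t) for the set of vectors v with f(v, t v) = 0 (a subspace). Two involutions a, b are conjugate in Sp_{2m}(F) exactly when a − 1 and b − 1 have the same rank and, in case that rank is even, V(a) and V(b) have the same number of elements. -/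
theorem result {F : Type*} [Field F] [Fintype F] [CharP F 2] {m : ℕ} (hm : 2 ≤ m) (a b : ↥(Matrix.symplecticGroup (Fin m) F)) (ha : orderOf a = 2) (hb : orderOf b = 2) :
    IsConj a b ↔ ((((a : ↥(Matrix.symplecticGroup (Fin m) F)) : Matrix (Fin m ⊕ Fin m) (Fin m ⊕ Fin m) F) - 1).rank = (((b : ↥(Matrix.symplecticGroup (Fin m) F)) : Matrix (Fin m ⊕ Fin m) (Fin m ⊕ Fin m) F) - 1).rank ∧
      (Even (((a : ↥(Matrix.symplecticGroup (Fin m) F)) : Matrix (Fin m ⊕ Fin m) (Fin m ⊕ Fin m) F) - 1).rank → Nat.card {v : Fin m ⊕ Fin m → F // Cfsg.sympForm m F v (Matrix.mulVec ((a : ↥(Matrix.symplecticGroup (Fin m) F)) : Matrix (Fin m ⊕ Fin m) (Fin m ⊕ Fin m) F) v) = 0} = Nat.card {v : Fin m ⊕ Fin m → F // Cfsg.sympForm m F v (Matrix.mulVec ((b : ↥(Matrix.symplecticGroup (Fin m) F)) : Matrix (Fin m ⊕ Fin m) (Fin m ⊕ Fin m) F) v) = 0})) := by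
  exact result_aux hm a b ha hb

end Cfsg.Agent.S2166
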