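import Cfsg.Statements.S3734
import Cfsg.Agent.S0058
import Cfsg.Agent.S0026
import Cfsg.Agent.S0027
import Cfsg.Agent.Lib.Helper1.Coprime
import Cfsg.Agent.Lib.Helper66.Components

set_option autoImplicit false
open Cfsg

namespace Cfsg.Agent.S3734

open Cfsg.Agent.Lib.Helper66
open scoped Pointwise commutatorElement

section

variable {X : Type*} [Group X] [Finite X]

/-- the subgroups `B` of `A` with `A/B` cyclic -/
abbrev cocyc (A : Subgroup X) : Set (Subgroup X) :=
  {B : Subgroup X | B ≤ A ∧ ∃ a ∈ A, B ⊔ Subgroup.zpowers a = A}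

lemma inf_centralizer_normalized (A G : Subgroup X) (hab : ∀ a ∈ A, ∀ b ∈ A, a * b = b * a)
    (hAG : A ≤ Subgroup.normalizer (G : Set X)) (S : Set X) (hS : S ⊆ A) :
    A ≤ Subgroup.normalizer ((G ⊓ Subgroup.centralizer S : Subgroup X) : Set X) := by
  have key : ∀ x ∈ A, ∀ h ∈ G ⊓ Subgroup.centralizer S, x * h * x⁻¹ ∈ G ⊓ Subgroup.centralizer S := by
    intro x hx h hh
    refine ⟨(Subgroup.mem_normalizer_iff.mp (hAG hx) h).mp hh.1, ?_⟩
    intro s hs
    have h1 : s * h = h * s := hh.2 s hs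
    have h2 : x * s = s * x := hab x hx s (hS hs)
    have h3 : x⁻¹ * s = s * x⁻¹ := hab x⁻¹ (A.inv_mem hx) s (hS hs)
    calc s * (x * h * x⁻¹) = x * (s * h) * x⁻¹ := by rw [← mul_assoc, ← mul_assoc, ← h2]; group
      _ = x * (h * s) * x⁻¹ := by rw [h1]
      _ = x * h * x⁻¹ * s := by rw [mul_assoc x, mul_assoc h, ← h3]; group
  intro x hx
  rw [Subgroup.mem_normalizer_iff]
  intro h
  constructor
  · exact key x hx h
  · intro hh
    have := key x⁻¹ (A.inv_mem hx) _ hh
    have e : x⁻¹ * (x * h * x⁻¹) * x⁻¹⁻¹ = h := by group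
    rwa [e] at this

/-- generation by the centralisers of the cocyclic subgroups -/
lemma gen1 (A : Subgroup X) (hab : ∀ a ∈ A, ∀ b ∈ A, a * b = b * a) :
    ∀ (n : ℕ) (G : Subgroup X), Nat.card G ≤ n → A ≤ Subgroup.normalizer (G : Set X) →
      (Nat.card A).Coprime (Nat.card G) →
      G ≤ ⨆ B ∈ cocyc A, G ⊓ Subgroup.centralizer (B : Set X) := by
  intro n
  induction n with
  | zero =>
    intro G hn
    have := Nat.card_pos (α := G)
    omega
  | succ n ih =>
    intro G hn hAG hcop
    classical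
    set L : Subgroup X := ⨆ B ∈ cocyc A, G ⊓ Subgroup.centralizer (B : Set X) with hL
    have hLG : L ≤ G := iSup₂_le (fun B _ => inf_le_left)
    have hAGbot : A ⊓ G = ⊥ := (Subgroup.disjoint_of_coprime_natCard hcop).eq_bot
    set K : Subgroup X := A ⊓ Subgroup.centralizer (G : Set X) with hK
    set Γ : Subgroup X := A ⊔ G with hΓ
    have hAΓ : A ≤ Γ := le_sup_left
    have hGΓ : G ≤ Γ := le_sup_right
    have hKΓ : K ≤ Γ := inf_le_left.trans hAΓ
    have hΓcK : Γ ≤ Subgroup.centralizer (K : Set X) := by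
      rw [hΓ, sup_le_iff]
      constructor
      · intro a ha k hk
        exact hab k hk.1 a ha
      · intro g hg k hk
        exact (hk.2 g hg).symm
    have hΓK : Γ ≤ Subgroup.normalizer (K : Set X) :=
      hΓcK.trans (Subgroup.centralizer_le_normalizer _)
    haveI hK'n : (K.subgroupOf Γ).Normal :=
      (Subgroup.normal_subgroupOf_iff_le_normalizer hKΓ).mpr hΓK
    haveI hG'n : (G.subgroupOf Γ).Normal := Subgroup.normal_subgroupOf_sup_of_le_normalizer hAG
    -- the quotient
    let π := QuotientGroup.mk' (K.subgroupOf Γ)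
    have hπker : ∀ γ : Γ, π γ = 1 ↔ (γ : X) ∈ K := by
      intro γ
      rw [← MonoidHom.mem_ker, QuotientGroup.ker_mk', Subgroup.mem_subgroupOf]
    set Ab : Subgroup (↥Γ ⧸ K.subgroupOf Γ) := (A.subgroupOf Γ).map π with hAb
    set Gb : Subgroup (↥Γ ⧸ K.subgroupOf Γ) := (G.subgroupOf Γ).map π with hGb
    by_cases hcyc : IsCyclic Ab
    · -- `A / K` cyclic
      obtain ⟨⟨ab, hab'⟩, hgen⟩ := hcyc.exists_generator
      obtain ⟨a', ha', rfl⟩ := hab'
      have haA : (a' : X) ∈ A := Subgroup.mem_subgroupOf.mp ha'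
      have hKcoc : K ∈ cocyc A := by
        refine ⟨inf_le_left, (a' : X), haA, ?_⟩
        apply le_antisymm
        · exact sup_le inf_le_left (by rw [Subgroup.zpowers_le]; exact haA)
        · intro b hb
          have hb' : (⟨b, hAΓ hb⟩ : Γ) ∈ A.subgroupOf Γ := Subgroup.mem_subgroupOf.mpr hb
          obtain ⟨k, hk⟩ := Subgroup.mem_zpowers_iff.mp (hgen ⟨π ⟨b, hAΓ hb⟩, ⟨_, hb', rfl⟩⟩)
          have hk' : (π a') ^ k = π ⟨b, hAΓ hb⟩ := by
            have := congrArg Subtype.val hk
            simpa using this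
          have h1 : π (a' ^ (-k) * ⟨b, hAΓ hb⟩) = 1 := by
            rw [map_mul, map_zpow, ← hk', ← zpow_add, neg_add_cancel, zpow_zero]
          rw [hπker] at h1
          have h2 : b = (a' : X) ^ k * ((a' : X) ^ (-k) * b) := by
            rw [← mul_assoc, ← zpow_add, add_neg_cancel, zpow_zero, one_mul]
          rw [h2]
          refine Subgroup.mul_mem _ (Subgroup.mem_sup_right (Subgroup.zpow_mem_zpowers _ k))
            (Subgroup.mem_sup_left ?_)
          simpa using h1
      have hGK : G ⊓ Subgroup.centralizer (K : Set X) = G :=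
        inf_eq_left.mpr (hGΓ.trans hΓcK)
      calc G = G ⊓ Subgroup.centralizer (K : Set X) := hGK.symm
        _ ≤ L := le_iSup₂_of_le (f := fun (B : Subgroup X) (_ : B ∈ cocyc A) =>
            G ⊓ Subgroup.centralizer (B : Set X)) K hKcoc le_rfl
    · -- `A / K` not cyclic: apply S0058 in the quotient
      haveI hAbcomm : IsMulCommutative Ab := by
        refine ⟨⟨?_⟩⟩
        rintro ⟨_, x, hx, rfl⟩ ⟨_, y, hy, rfl⟩
        apply Subtype.ext
        change π x * π y = π y * π x
        rw [← map_mul, ← map_mul]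
        congr 1
        apply Subtype.ext
        exact hab _ (Subgroup.mem_subgroupOf.mp hx) _ (Subgroup.mem_subgroupOf.mp hy)
      haveI hGbn : Gb.Normal := Subgroup.Normal.map hG'n π (QuotientGroup.mk'_surjective _)
      have hAbGb : Ab ≤ Subgroup.normalizer (Gb : Set (↥Γ ⧸ K.subgroupOf Γ)) := by
        rw [Subgroup.normalizer_eq_top]; exact le_top
      have hcopb : (Nat.card Ab).Coprime (Nat.card Gb) := by
        have h1 : Nat.card Ab ∣ Nat.card A := by
          have := Subgroup.card_dvd_of_surjective (π.subgroupMap (A.subgroupOf Γ))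
            (π.subgroupMap_surjective _)
          rwa [Nat.card_congr (Subgroup.subgroupOfEquivOfLe hAΓ).toEquiv] at this
        have h2 : Nat.card Gb ∣ Nat.card G := by
          have := Subgroup.card_dvd_of_surjective (π.subgroupMap (G.subgroupOf Γ))
            (π.subgroupMap_surjective _)
          rwa [Nat.card_congr (Subgroup.subgroupOfEquivOfLe hGΓ).toEquiv] at this
        exact Nat.Coprime.coprime_dvd_left h1 (Nat.Coprime.coprime_dvd_right h2 hcop)
      have hS := Cfsg.Agent.S0058.result Ab Gb hcyc hAbGb hcopb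
      have hterm : ∀ ab ∈ {a : ↥Γ ⧸ K.subgroupOf Γ | a ∈ Ab ∧ a ≠ 1},
          Gb ⊓ Subgroup.centralizer {ab} ≤ (L.subgroupOf Γ).map π := by
        rintro ab ⟨habAb, hab1⟩
        obtain ⟨a', ha', rfl⟩ := habAb
        have haA : (a' : X) ∈ A := Subgroup.mem_subgroupOf.mp ha'
        have haK : (a' : X) ∉ K := fun h => hab1 ((hπker a').mpr h)
        set Ga : Subgroup X := G ⊓ Subgroup.centralizer {(a' : X)} with hGa
        have hGaG : Ga ≤ G := inf_le_left
        have hGane : Ga ≠ G := by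
          intro h
          apply haK
          refine ⟨haA, ?_⟩
          intro g hg
          have h1 : g ∈ Ga := h ▸ hg
          exact (h1.2 _ rfl).symm
        have hGaL : Ga ≤ L := by
          have h1 := ih Ga (by have := card_lt_of_le_of_ne hGaG hGane; omega)
            (inf_centralizer_normalized A G hab hAG {(a' : X)} (by simpa using haA))
            (Nat.Coprime.coprime_dvd_right (Subgroup.card_dvd_of_le hGaG) hcop)
          exact h1.trans (iSup₂_mono (fun B _ => inf_le_inf_right _ hGaG))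
        rintro z ⟨⟨g', hg', rfl⟩, hz⟩
        have hgG : (g' : X) ∈ G := Subgroup.mem_subgroupOf.mp hg'
        have hcomm : π a' * π g' = π g' * π a' := hz (π a') rfl
        have h1 : π ((g' * a')⁻¹ * (a' * g')) = 1 := by
          rw [map_mul, map_inv, map_mul, map_mul, hcomm, inv_mul_cancel]
        rw [hπker] at h1
        have h1' : ((g' : X) * a')⁻¹ * (a' * g') ∈ K := by simpa using h1
        have h2 : ((g' : X) * a')⁻¹ * (a' * g') ∈ A ⊓ G := by
          refine ⟨h1'.1, ?_⟩
          have e : ((g' : X) * a')⁻¹ * (a' * g') = ((a' : X)⁻¹ * (g' : X)⁻¹ * (a' : X)⁻¹⁻¹) * g' := by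
            group
          rw [e]
          exact G.mul_mem ((Subgroup.mem_normalizer_iff.mp (hAG (A.inv_mem haA)) _).mp
            (G.inv_mem hgG)) hgG
        rw [hAGbot, Subgroup.mem_bot, inv_mul_eq_one] at h2
        have h3 : (g' : X) ∈ Ga := by
          refine ⟨hgG, ?_⟩
          intro s hs
          rw [Set.mem_singleton_iff] at hs
          subst hs
          exact h2.symm
        exact ⟨g', Subgroup.mem_subgroupOf.mpr (hGaL h3), rfl⟩
      have hGbL : Gb ≤ (L.subgroupOf Γ).map π := by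
        rw [← hS]
        exact iSup₂_le hterm
      intro g hg
      have hg' : (⟨g, hGΓ hg⟩ : Γ) ∈ G.subgroupOf Γ := Subgroup.mem_subgroupOf.mpr hg
      obtain ⟨l', hl', hl⟩ := hGbL ⟨_, hg', rfl⟩
      have hlL : (l' : X) ∈ L := Subgroup.mem_subgroupOf.mp hl'
      have h1 : π (l'⁻¹ * ⟨g, hGΓ hg⟩) = 1 := by rw [map_mul, map_inv, hl, inv_mul_cancel]
      rw [hπker] at h1
      have h1' : (l' : X)⁻¹ * g ∈ K := by simpa using h1
      have h2 : (l' : X)⁻¹ * g ∈ A ⊓ G := ⟨h1'.1, G.mul_mem (G.inv_mem (hLG hlL)) hg⟩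
      rw [hAGbot, Subgroup.mem_bot, inv_mul_eq_one] at h2
      rw [← h2]; exact hlL

omit [Finite X] in
lemma le_normalizer_biSup (H : Subgroup X) (𝒮 : Set (Subgroup X)) (F : Subgroup X → Subgroup X)
    (h : ∀ B ∈ 𝒮, H ≤ Subgroup.normalizer ((F B : Subgroup X) : Set X)) :
    H ≤ Subgroup.normalizer ((⨆ B ∈ 𝒮, F B : Subgroup X) : Set X) := by
  rw [← sSup_image]
  apply le_normalizer_sSup_of_perm
  rintro k hk _ ⟨B, hB, rfl⟩
  refine ⟨B, hB, ?_⟩
  exact ((mem_normalizer_iff_smul k (F B)).mp (h B hB hk)).symm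

omit [Finite X] in
lemma normalizer_commutator (D A : Subgroup X) (c : X)
    (hD : c ∈ Subgroup.normalizer (D : Set X)) (hA : c ∈ Subgroup.normalizer (A : Set X)) :
    c ∈ Subgroup.normalizer ((⁅D, A⁆ : Subgroup X) : Set X) := by
  rw [mem_normalizer_iff_smul] at hD hA ⊢
  rw [Cfsg.Agent.Lib.Helper1.conj_smul_commutator, hD, hA]

/-- the commutator part -/
lemma gen2 (A G : Subgroup X) (hab : ∀ a ∈ A, ∀ b ∈ A, a * b = b * a)
    (hAG : A ≤ Subgroup.normalizer (G : Set X)) (hcop : (Nat.card A).Coprime (Nat.card G)) :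
    ⁅G, A⁆ ≤ ⨆ B ∈ cocyc A, ⁅G ⊓ Subgroup.centralizer (B : Set X), A⁆ := by
  classical
  have hsolvA : Group.IsSolvable A :=
    Group.isSolvable_of_comm (fun a b => Subtype.ext (hab a a.2 b b.2))
  set W : Subgroup X := ⁅G, A⁆ with hW
  have hWG : W ≤ G := Cfsg.Agent.Lib.Helper1.commutator_le_of_le_normalizer hAG
  have hAW : A ≤ Subgroup.normalizer (W : Set X) := Cfsg.Agent.Lib.Helper1.le_normalizer_commutator hAG
  have hcopW : (Nat.card A).Coprime (Nat.card W) :=
    Nat.Coprime.coprime_dvd_right (Subgroup.card_dvd_of_le hWG) hcop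
  have h1 := gen1 A hab _ W le_rfl hAW hcopW
  set MW : Subgroup X := ⨆ B ∈ cocyc A, ⁅W ⊓ Subgroup.centralizer (B : Set X), A⁆ with hMW
  set C₀ : Subgroup X := W ⊓ Subgroup.centralizer (A : Set X) with hC₀
  have hAD : ∀ B ∈ cocyc A,
      A ≤ Subgroup.normalizer ((W ⊓ Subgroup.centralizer (B : Set X) : Subgroup X) : Set X) :=
    fun B hB => inf_centralizer_normalized A W hab hAW B hB.1
  have hW_le : W ≤ MW ⊔ C₀ := by
    refine h1.trans (iSup₂_le ?_)
    intro B hB
    have h2 := Cfsg.Agent.S0026.result A (W ⊓ Subgroup.centralizer (B : Set X)) (hAD B hB)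
      (Nat.Coprime.coprime_dvd_right (Subgroup.card_dvd_of_le inf_le_left) hcopW) (Or.inl hsolvA)
    rw [← h2]
    apply sup_le_sup
    · exact le_iSup₂_of_le (f := fun (B : Subgroup X) (_ : B ∈ cocyc A) =>
        ⁅W ⊓ Subgroup.centralizer (B : Set X), A⁆) B hB le_rfl
    · exact inf_le_inf_right _ inf_le_left
  have hAMW : A ≤ Subgroup.normalizer (MW : Set X) :=
    le_normalizer_biSup A (cocyc A) (fun B => ⁅W ⊓ Subgroup.centralizer (B : Set X), A⁆)
      (fun B hB => Cfsg.Agent.Lib.Helper1.le_normalizer_commutator (hAD B hB))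
  have hCMW : C₀ ≤ Subgroup.normalizer (MW : Set X) := by
    apply le_normalizer_biSup C₀ (cocyc A) (fun B => ⁅W ⊓ Subgroup.centralizer (B : Set X), A⁆)
    intro B hB c hc
    apply normalizer_commutator
    · apply Subgroup.inf_normalizer_le_normalizer_inf
      refine ⟨Subgroup.le_normalizer hc.1, Subgroup.le_normalizer ?_⟩
      exact Subgroup.centralizer_le hB.1 hc.2
    · exact Subgroup.centralizer_le_normalizer _ hc.2
  have h3 : ⁅W, A⁆ ≤ MW := by
    rw [Subgroup.commutator_le]
    intro w hw a ha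
    have hw' : w ∈ ((MW ⊔ C₀ : Subgroup X) : Set X) := hW_le hw
    rw [Subgroup.coe_mul_of_right_le_normalizer_left MW C₀ hCMW] at hw'
    obtain ⟨m, hm, c, hc, rfl⟩ := Set.mem_mul.mp hw'
    have hca : c * a = a * c := (hc.2 a ha).symm
    have hcac : c * a * c⁻¹ = a := by rw [hca, mul_inv_cancel_right]
    have e : ⁅m * c, a⁆ = m * (a * m⁻¹ * a⁻¹) := by
      rw [commutatorElement_def]
      calc m * c * a * (m * c)⁻¹ * a⁻¹ = m * (c * a * c⁻¹) * m⁻¹ * a⁻¹ := by group
        _ = m * (a * m⁻¹ * a⁻¹) := by rw [hcac]; group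
    rw [e]
    exact MW.mul_mem hm ((Subgroup.mem_normalizer_iff.mp (hAMW ha) _).mp (MW.inv_mem hm))
  have h4 : ⁅W, A⁆ = W := Cfsg.Agent.S0027.result A G hAG hcop (Or.inl hsolvA)
  rw [h4] at h3
  exact h3.trans (iSup₂_mono fun B _ => Subgroup.commutator_mono (inf_le_inf_right _ hWG) le_rfl)

end

/-- Let A and G be subgroups of a finite group with A abelian, A normalizing G and the orders of A and G coprime. Then G is generated by the fixed-point subgroups C_G(B) of those subgroups B of A for which A/B is cyclic (that is, A = ⟨B, a⟩ for some a), and [G, A] is generated by the commutator subgroups [C_G(B), A] over the same subgroups B. -/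
theorem result {X : Type*} [Group X] [Finite X] (A G : Subgroup X) (hAab : IsMulCommutative A) (hAG : A ≤ Subgroup.normalizer (G : Set X)) (hcop : (Nat.card A).Coprime (Nat.card G)) : (⨆ B ∈ {B : Subgroup X | B ≤ A ∧ ∃ a ∈ A, B ⊔ Subgroup.zpowers a = A}, G ⊓ Subgroup.centralizer (B : Set X)) = G ∧ (⨆ B ∈ {B : Subgroup X | B ≤ A ∧ ∃ a ∈ A, B ⊔ Subgroup.zpowers a = A}, ⁅G ⊓ Subgroup.centralizer (B : Set X), A⁆) = ⁅G, A⁆ := by
  have hab : ∀ a ∈ A, ∀ b ∈ A, a * b = b * a :=
    fun a ha b hb => congrArg Subtype.val (hAab.is_comm.comm ⟨a, ha⟩ ⟨b, hb⟩)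
  constructor
  · exact le_antisymm (iSup₂_le fun _ _ => inf_le_left) (gen1 A hab _ G le_rfl hAG hcop)
  · exact le_antisymm (iSup₂_le fun B _ => Subgroup.commutator_mono inf_le_left le_rfl)
      (gen2 A G hab hAG hcop)

end Cfsg.Agent.S3734
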