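import Cfsg.Statements.S4127
import Mathlib
import Cfsg.Agent.Lib.Helper73.Count

set_option autoImplicit false
open Cfsg

namespace Cfsg.Agent.S4127

open scoped Pointwise
open Cfsg.Agent.Lib.Helper73

theorem orderOf_conj' {G : Type*} [Group G] (c x : G) : orderOf (c * x * c⁻¹) = orderOf x :=
  MulEquiv.orderOf_eq (MulAut.conj c) x

/-- p-part / p'-part decomposition -/
theorem exists_decomp {G : Type*} [Group G] [Finite G] (p : ℕ) (hp : p.Prime) (x : G) :
    ∃ (i j : ℤ) (a : ℕ), x = x ^ i * x ^ j ∧ (x ^ i) ^ (p ^ a) = 1 ∧ ¬ p ∣ orderOf (x ^ j) := by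
  have hn : orderOf x ≠ 0 := (orderOf_pos x).ne'
  obtain ⟨a, n', hpn', hn'⟩ := Nat.exists_eq_pow_mul_and_not_dvd hn p hp.ne_one
  have hcop : Nat.Coprime (p ^ a) n' :=
    Nat.Coprime.pow_left _ ((Nat.Prime.coprime_iff_not_dvd hp).mpr hpn')
  have hb := Nat.gcd_eq_gcd_ab (p ^ a) n'
  rw [hcop.gcd_eq_one] at hb
  refine ⟨(n' : ℤ) * Nat.gcdB (p ^ a) n', ((p ^ a : ℕ) : ℤ) * Nat.gcdA (p ^ a) n', a, ?_, ?_, ?_⟩
  · rw [← zpow_add]
    have : (n' : ℤ) * Nat.gcdB (p ^ a) n' + ((p ^ a : ℕ) : ℤ) * Nat.gcdA (p ^ a) n' = 1 := by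
      rw [add_comm]; exact_mod_cast hb.symm
    rw [this, zpow_one]
  · rw [← zpow_natCast, ← zpow_mul]
    have : (n' : ℤ) * Nat.gcdB (p ^ a) n' * ((p ^ a : ℕ) : ℤ) =
        ((orderOf x : ℕ) : ℤ) * Nat.gcdB (p ^ a) n' := by
      rw [hn']; push_cast; ring
    rw [this, zpow_mul, zpow_natCast, pow_orderOf_eq_one, one_zpow]
  · intro hpd
    have h1 : (x ^ (((p ^ a : ℕ) : ℤ) * Nat.gcdA (p ^ a) n')) ^ n' = 1 := by
      rw [← zpow_natCast, ← zpow_mul]
      have : ((p ^ a : ℕ) : ℤ) * Nat.gcdA (p ^ a) n' * (n' : ℤ) =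
          ((orderOf x : ℕ) : ℤ) * Nat.gcdA (p ^ a) n' := by
        rw [hn']; push_cast; ring
      rw [this, zpow_mul, zpow_natCast, pow_orderOf_eq_one, one_zpow]
    exact hpn' (hpd.trans (orderOf_dvd_of_pow_eq_one h1))

theorem isPGroup_zpowers {G : Type*} [Group G] (p : ℕ) (u : G) (a : ℕ) (hu : u ^ (p ^ a) = 1) :
    IsPGroup p (Subgroup.zpowers u) := by
  rintro ⟨y, hy⟩
  obtain ⟨k, rfl⟩ := Subgroup.mem_zpowers_iff.mp hy
  refine ⟨a, ?_⟩
  apply Subtype.ext
  show (u ^ k) ^ (p ^ a) = 1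
  rw [← zpow_natCast, ← zpow_mul, mul_comm, zpow_mul, zpow_natCast, hu, one_zpow]

theorem exists_conj_mem_sylow {G : Type*} [Group G] [Finite G] (p : ℕ) [Fact p.Prime]
    (P : Sylow p G) (u : G) (a : ℕ) (hu : u ^ (p ^ a) = 1) : ∃ g : G, g * u * g⁻¹ ∈ P := by
  have hQ : IsPGroup p (Subgroup.zpowers u) := isPGroup_zpowers p u a hu
  obtain ⟨Q, hQ'⟩ := hQ.exists_le_sylow
  obtain ⟨g, hg⟩ := MulAction.exists_smul_eq G Q P
  refine ⟨g, ?_⟩
  rw [← hg]
  have hu' : u ∈ (Q : Subgroup G) := hQ' (Subgroup.mem_zpowers u)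
  have := Subgroup.smul_mem_pointwise_smul u (MulAut.conj g) (Q : Subgroup G) hu'
  exact this

theorem mem_complement_iff {G : Type*} [Group G] [Finite G] (p : ℕ) [hp : Fact p.Prime]
    (P : Sylow p G) (K : Subgroup G) [K.Normal] (hK : K.IsComplement' (P : Subgroup G)) (g : G) :
    g ∈ K ↔ (orderOf g).Coprime p := by
  have hcard := hK.card_mul_card
  have hidx := Subgroup.card_mul_index (P : Subgroup G)
  have hKidx : Nat.card K = (P : Subgroup G).index := by
    have hpos : 0 < Nat.card (P : Subgroup G) := Nat.card_pos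
    have : Nat.card (P : Subgroup G) * Nat.card K =
        Nat.card (P : Subgroup G) * (P : Subgroup G).index := by
      rw [hidx, mul_comm, hcard]
    exact Nat.eq_of_mul_eq_mul_left hpos this
  have hKcop : (Nat.card K).Coprime p := by
    rw [hKidx]
    exact ((Nat.Prime.coprime_iff_not_dvd hp.1).mpr P.not_dvd_index).symm
  constructor
  · intro hg
    have : orderOf g ∣ Nat.card K := by
      have := orderOf_dvd_natCard (⟨g, hg⟩ : K)
      rwa [Subgroup.orderOf_mk] at this
    exact Nat.Coprime.coprime_dvd_left this hKcop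
  · intro hcop
    rw [← QuotientGroup.eq_one_iff]
    obtain ⟨k, hk⟩ := IsPGroup.iff_card.mp P.isPGroup'
    have hQ : Nat.card (G ⧸ K) = p ^ k := by
      have h1 := Subgroup.card_eq_card_quotient_mul_card_subgroup K
      have hpos : 0 < Nat.card K := Nat.card_pos
      have : Nat.card (G ⧸ K) * Nat.card K = Nat.card (P : Subgroup G) * Nat.card K := by
        rw [← h1, mul_comm, hcard]
      rw [← hk]; exact Nat.eq_of_mul_eq_mul_right hpos this
    have h2 : (g : G ⧸ K) ^ (p ^ k) = 1 := by rw [← hQ]; exact pow_card_eq_one'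
    have h3 : (g : G ⧸ K) ^ (orderOf g) = 1 := by
      rw [← QuotientGroup.mk_pow, pow_orderOf_eq_one]; rfl
    have hd1 := orderOf_dvd_of_pow_eq_one h2
    have hd2 := orderOf_dvd_of_pow_eq_one h3
    have : orderOf (g : G ⧸ K) ∣ Nat.gcd (orderOf g) (p ^ k) := Nat.dvd_gcd hd2 hd1
    rw [(Nat.Coprime.pow_right k hcop).gcd_eq_one, Nat.dvd_one] at this
    exact orderOf_eq_one_iff.mp this

theorem card_coprime_of_forall {G : Type*} [Group G] [Finite G] (p : ℕ) [hp : Fact p.Prime]
    (K : Subgroup G) (h : ∀ g ∈ K, (orderOf g).Coprime p) : (Nat.card K).Coprime p := by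
  by_contra hnc
  have hpd : p ∣ Nat.card K := by
    by_contra hnd
    exact hnc ((Nat.Prime.coprime_iff_not_dvd hp.1).mpr hnd).symm
  obtain ⟨k, hk⟩ := exists_prime_orderOf_dvd_card' (G := K) p hpd
  have := h k k.2
  rw [Subgroup.orderOf_coe, hk] at this
  exact hp.1.one_lt.ne' ((Nat.coprime_self p).mp this)

theorem exists_normalizer_not_mem {G : Type*} [Group G] [Finite G] (p : ℕ) [Fact p.Prime]
    (R D : Subgroup G) (hR : IsPGroup p R) (hDR : D ≤ R) (hne : ¬ R ≤ D) :
    ∃ t ∈ R, t ∉ D ∧ t ∈ Subgroup.normalizer (D : Set G) := by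
  haveI : Group.IsNilpotent R := hR.isNilpotent
  have hlt : D.subgroupOf R < ⊤ := by
    rw [lt_top_iff_ne_top]
    intro h
    exact hne (Subgroup.subgroupOf_eq_top.mp h)
  have hnc := Group.normalizerCondition_of_isNilpotent (G := R) (D.subgroupOf R) hlt
  obtain ⟨t, htN, htD⟩ := SetLike.exists_of_lt hnc
  refine ⟨t, t.2, fun h => htD (Subgroup.mem_subgroupOf.mpr h), ?_⟩
  rw [Subgroup.mem_normalizer_iff]
  intro r
  rw [Subgroup.mem_normalizer_iff] at htN
  constructor
  · intro hr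
    have := (htN ⟨r, hDR hr⟩).mp (Subgroup.mem_subgroupOf.mpr hr)
    exact Subgroup.mem_subgroupOf.mp this
  · intro hr
    have hrR : r ∈ R := by
      have : r = (t : G)⁻¹ * ((t : G) * r * (t : G)⁻¹) * (t : G) := by group
      rw [this]
      exact R.mul_mem (R.mul_mem (R.inv_mem t.2) (hDR hr)) t.2
    have := (htN ⟨r, hrR⟩).mpr (Subgroup.mem_subgroupOf.mpr hr)
    exact Subgroup.mem_subgroupOf.mp this

/-- A finite group is not the union of the conjugates of a proper subgroup. -/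
theorem exists_not_mem_conj {G : Type*} [Group G] [Finite G] (H : Subgroup G) (hH : H ≠ ⊤) :
    ∃ x : G, ∀ g : G, g⁻¹ * x * g ∉ H := by
  classical
  by_contra hcon
  push Not at hcon
  let F : (G ⧸ H) × H → G := fun qh => qh.1.out * (qh.2 : G) * (qh.1.out)⁻¹
  have hsurj : Function.Surjective F := by
    intro x
    obtain ⟨g, hg⟩ := hcon x
    obtain ⟨h', hh'⟩ := QuotientGroup.mk_out_eq_mul H g
    refine ⟨(QuotientGroup.mk g, ⟨(h' : G)⁻¹ * (g⁻¹ * x * g) * h', ?_⟩), ?_⟩
    · exact mul_mem (mul_mem (inv_mem h'.2) hg) h'.2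
    · simp only [F]
      rw [hh']
      group
  have hbij := hsurj.bijective_of_nat_card_le
    (by rw [Nat.card_prod, ← Subgroup.card_eq_card_quotient_mul_card_subgroup])
  obtain ⟨y, hy⟩ : ∃ y : G, y ∉ H := by
    by_contra h
    push Not at h
    exact hH (eq_top_iff.mpr fun x _ => h x)
  have h1 : ((QuotientGroup.mk y : G ⧸ H), (1 : H)) = ((QuotientGroup.mk 1 : G ⧸ H), (1 : H)) :=
    hbij.1 (by simp [F])
  have h2 := (Prod.ext_iff.mp h1).1
  rw [QuotientGroup.eq] at h2
  exact hy (by simpa using h2)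

theorem hkey {C : Type*} [Group C] [Finite C] (p : ℕ) [hp : Fact p.Prime]
    (y u : C) (hy : ¬ p ∣ (Subgroup.centralizer ({y} : Set C)).index)
    (a : ℕ) (hu : u ^ (p ^ a) = 1) (hyu : y * u = u * y) :
    ∃ S : Sylow p C, u ∈ S ∧ ∀ s ∈ S, y * s = s * y := by
  have huC : u ∈ Subgroup.centralizer ({y} : Set C) := by
    rw [Subgroup.mem_centralizer_iff]
    intro z hz
    rw [Set.mem_singleton_iff] at hz
    rw [hz]; exact hyu
  have hQ : IsPGroup p (Subgroup.zpowers (⟨u, huC⟩ : Subgroup.centralizer ({y} : Set C))) :=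
    isPGroup_zpowers p _ a (Subtype.ext (by simpa using hu))
  obtain ⟨T, hT⟩ := hQ.exists_le_sylow
  have hTp : IsPGroup p ((T : Subgroup _).map (Subgroup.centralizer ({y} : Set C)).subtype) :=
    T.isPGroup'.map _
  have hidx : ¬ p ∣ ((T : Subgroup _).map (Subgroup.centralizer ({y} : Set C)).subtype).index := by
    rw [Subgroup.index_map_subtype]
    intro hd
    rcases (Nat.Prime.dvd_mul hp.1).mp hd with h | h
    · exact T.not_dvd_index h
    · exact hy h
  refine ⟨hTp.toSylow hidx, ?_, ?_⟩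
  · rw [IsPGroup.mem_toSylow]
    exact ⟨⟨u, huC⟩, hT (Subgroup.mem_zpowers _), rfl⟩
  · intro s hs
    rw [IsPGroup.mem_toSylow] at hs
    obtain ⟨s', _, rfl⟩ := hs
    have := s'.2
    rw [Subgroup.mem_centralizer_iff] at this
    exact this y rfl

theorem exists_compl_of_central {K : Type*} [Group K] [Finite K] (p : ℕ) [hp : Fact p.Prime]
    (hc : ∀ t k : K, (∃ a : ℕ, t ^ (p ^ a) = 1) → k * t = t * k) :
    ∃ H : Subgroup K, H.Normal ∧ ∀ k : K, k ∈ H ↔ (orderOf k).Coprime p := by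
  obtain ⟨T⟩ : Nonempty (Sylow p K) := inferInstance
  have hN : Subgroup.normalizer ((T : Subgroup K) : Set K) ≤
      Subgroup.centralizer ((T : Subgroup K) : Set K) := by
    intro k _
    rw [Subgroup.mem_centralizer_iff]
    intro t ht
    obtain ⟨a, ha⟩ := T.isPGroup' ⟨t, ht⟩
    have ha' : t ^ (p ^ a) = 1 := by simpa using congrArg Subtype.val ha
    exact (hc t k ⟨a, ha'⟩).symm
  have hcompl := MonoidHom.ker_transferSylow_isComplement' T hN
  exact ⟨(MonoidHom.transferSylow T hN).ker, inferInstance,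
    fun k => mem_complement_iff p T _ hcompl k⟩

theorem pprime_subgroup {C : Type*} [Group C] [Finite C] (p : ℕ) [hp : Fact p.Prime]
    (h : ∀ y : C, (orderOf y).Coprime p → ¬ p ∣ (Subgroup.centralizer ({y} : Set C)).index) :
    (∀ y u : C, (orderOf y).Coprime p → (∃ k : ℕ, u ^ (p ^ k) = 1) → y * u = u * y) ∧
    ∃ H₀ : Subgroup C, H₀.Normal ∧ (∀ c : C, c ∈ H₀ ↔ (orderOf c).Coprime p) ∧
      ∃ k : ℕ, H₀.index = p ^ k := by
  obtain ⟨P₀⟩ : Nonempty (Sylow p C) := inferInstance
  have hM : (P₀ : Subgroup C) ⊔ Subgroup.centralizer ((P₀ : Subgroup C) : Set C) = ⊤ := by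
    by_contra hne
    obtain ⟨g, hg⟩ := exists_not_mem_conj _ hne
    obtain ⟨i, j, a, hdec, hu, hy⟩ := exists_decomp p hp.1 g
    have hcop : (orderOf (g ^ j)).Coprime p := ((Nat.Prime.coprime_iff_not_dvd hp.1).mpr hy).symm
    have hcomm : g ^ j * g ^ i = g ^ i * g ^ j := by rw [← zpow_add, ← zpow_add, add_comm]
    obtain ⟨S, huS, hS⟩ := hkey p (g ^ j) (g ^ i) (h _ hcop) a hu hcomm
    obtain ⟨c, hc⟩ := MulAction.exists_smul_eq C S P₀
    have hc' : c⁻¹ • P₀ = S := by rw [← hc, inv_smul_smul]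
    apply hg c⁻¹
    have e : c⁻¹⁻¹ * g * c⁻¹ = (c * g ^ i * c⁻¹) * (c * g ^ j * c⁻¹) := by
      rw [inv_inv]
      calc c * g * c⁻¹ = c * (g ^ i * g ^ j) * c⁻¹ := by rw [← hdec]
        _ = (c * g ^ i * c⁻¹) * (c * g ^ j * c⁻¹) := by group
    rw [e]
    apply Subgroup.mul_mem
    · apply Subgroup.mem_sup_left
      rw [← hc]
      exact Subgroup.smul_mem_pointwise_smul (g ^ i) (MulAut.conj c) (S : Subgroup C) huS
    · apply Subgroup.mem_sup_right
      rw [Subgroup.mem_centralizer_iff]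
      intro s hs
      have hs' : c⁻¹ * s * c⁻¹⁻¹ ∈ (S : Subgroup C) := by
        rw [← hc']
        exact Subgroup.smul_mem_pointwise_smul s (MulAut.conj c⁻¹) (P₀ : Subgroup C) hs
      rw [inv_inv] at hs'
      have := hS _ hs'
      calc s * (c * g ^ j * c⁻¹) = c * ((c⁻¹ * s * c) * g ^ j) * c⁻¹ := by group
        _ = c * (g ^ j * (c⁻¹ * s * c)) * c⁻¹ := by rw [this]
        _ = c * g ^ j * c⁻¹ * s := by group
  have hP₀n : (P₀ : Subgroup C).Normal := by
    rw [← Subgroup.normalizer_eq_top_iff, eq_top_iff, ← hM]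
    exact sup_le Subgroup.le_normalizer (Subgroup.centralizer_le_normalizer _)
  haveI := hP₀n
  have hpel : ∀ u : C, ∀ a : ℕ, u ^ (p ^ a) = 1 → u ∈ (P₀ : Subgroup C) := by
    intro u a hu
    obtain ⟨g, hg⟩ := exists_conj_mem_sylow p P₀ u a hu
    have := hP₀n.conj_mem _ hg g⁻¹
    have e : g⁻¹ * (g * u * g⁻¹) * g⁻¹⁻¹ = u := by group
    rwa [e] at this
  have hp'el : ∀ y : C, (orderOf y).Coprime p →
      y ∈ Subgroup.centralizer ((P₀ : Subgroup C) : Set C) := by
    intro y hy
    obtain ⟨S, -, hS⟩ := hkey p y 1 (h y hy) 0 (one_pow _) (by simp)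
    obtain ⟨c, hc⟩ := MulAction.exists_smul_eq C P₀ S
    rw [Sylow.smul_eq_of_normal] at hc
    rw [Subgroup.mem_centralizer_iff]
    intro s hs
    have hs' : s ∈ S := by rw [← hc]; exact hs
    exact (hS s hs').symm
  refine ⟨?_, ?_⟩
  · rintro y u hy ⟨k, hu⟩
    have h1 := hp'el y hy
    rw [Subgroup.mem_centralizer_iff] at h1
    exact (h1 u (hpel u k hu)).symm
  · obtain ⟨H₀K, hH₀Kn, hH₀Kmem⟩ := exists_compl_of_central
      (K := Subgroup.centralizer ((P₀ : Subgroup C) : Set C)) p (by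
        rintro t k ⟨a, ha⟩
        have ha' : (t : C) ^ (p ^ a) = 1 := by simpa using congrArg Subtype.val ha
        have htP := hpel (t : C) a ha'
        have hk := k.2
        rw [Subgroup.mem_centralizer_iff] at hk
        exact Subtype.ext (hk _ htP).symm)
    have hmem : ∀ c : C, c ∈ H₀K.map
        (Subgroup.centralizer ((P₀ : Subgroup C) : Set C)).subtype ↔ (orderOf c).Coprime p := by
      intro c
      constructor
      · rintro ⟨k, hk, rfl⟩
        have := (hH₀Kmem k).mp hk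
        rwa [← Subgroup.orderOf_coe] at this
      · intro hc
        refine ⟨⟨c, hp'el c hc⟩, ?_, rfl⟩
        apply (hH₀Kmem _).mpr
        rwa [Subgroup.orderOf_mk]
    generalize H₀K.map (Subgroup.centralizer ((P₀ : Subgroup C) : Set C)).subtype = H₀ at hmem
    have hH₀n : H₀.Normal := by
      constructor
      intro n hn g
      rw [hmem] at hn ⊢
      rw [orderOf_conj']; exact hn
    haveI := hH₀n
    refine ⟨H₀, hH₀n, hmem, ?_⟩
    have hQp : IsPGroup p (C ⧸ H₀) := by
      intro hb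
      obtain ⟨c, rfl⟩ := QuotientGroup.mk_surjective hb
      obtain ⟨i, j, a, hdec, hu, hy⟩ := exists_decomp p hp.1 c
      have hjN : c ^ j ∈ H₀ :=
        (hmem _).mpr ((Nat.Prime.coprime_iff_not_dvd hp.1).mpr hy).symm
      refine ⟨a, ?_⟩
      have h1 : (c : C ⧸ H₀) = ((c ^ i : C) : C ⧸ H₀) := by
        conv_lhs => rw [hdec]
        rw [QuotientGroup.mk_mul, (QuotientGroup.eq_one_iff _).mpr hjN, mul_one]
      rw [h1, ← QuotientGroup.mk_pow, hu]; rfl
    obtain ⟨k, hk⟩ := IsPGroup.iff_card.mp hQp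
    exact ⟨k, by rw [Subgroup.index_eq_card]; exact hk⟩

theorem centralizes_of_fix {G : Type*} [Group G] [Finite G] (p : ℕ) [hp : Fact p.Prime]
    (U : Subgroup G) (hU : IsPGroup p U) (x : G) (hxU : x ∈ U) (h : G)
    (hhU : ∀ u ∈ U, h * u * h⁻¹ ∈ U) (m : ℕ) (hm : h ^ m = 1) (hmp : m.Coprime p)
    (hC : ∀ c ∈ U, c * x = x * c → h * c = c * h) : ∀ u ∈ U, h * u = u * h := by
  by_contra hcon
  push Not at hcon
  obtain ⟨u₀, hu₀U, hu₀⟩ := hcon
  have hXU : U ⊓ Subgroup.centralizer ({h} : Set G) ≤ U := inf_le_left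
  have hmemX : ∀ s : G, s ∈ U ⊓ Subgroup.centralizer ({h} : Set G) ↔ s ∈ U ∧ h * s = s * h := by
    intro s
    rw [Subgroup.mem_inf, Subgroup.mem_centralizer_iff]
    simp only [Set.mem_singleton_iff, forall_eq]
  have hne : ¬ U ≤ U ⊓ Subgroup.centralizer ({h} : Set G) := by
    intro hle
    exact hu₀ ((hmemX u₀).mp (hle hu₀U)).2
  obtain ⟨t, htU, htX, htN⟩ := exists_normalizer_not_mem p U _ hU hXU hne
  have hxX : x ∈ U ⊓ Subgroup.centralizer ({h} : Set G) := (hmemX x).mpr ⟨hxU, hC x hxU rfl⟩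
  have htx : t * x * t⁻¹ ∈ U ⊓ Subgroup.centralizer ({h} : Set G) :=
    (Subgroup.mem_normalizer_iff.mp htN x).mp hxX
  have h1 := ((hmemX _).mp htx).2
  have h2 := ((hmemX _).mp hxX).2
  have hcU : t⁻¹ * (h * t * h⁻¹) ∈ U := U.mul_mem (U.inv_mem htU) (hhU t htU)
  have hcx : t⁻¹ * (h * t * h⁻¹) * x = x * (t⁻¹ * (h * t * h⁻¹)) := by
    have h3 : h⁻¹ * x * h = x := by
      calc h⁻¹ * x * h = h⁻¹ * (x * h) := by group
        _ = h⁻¹ * (h * x) := by rw [h2]
        _ = x := by group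
    have h4 : h * (t * x * t⁻¹) * h⁻¹ = t * x * t⁻¹ := by rw [h1]; group
    calc t⁻¹ * (h * t * h⁻¹) * x
        = t⁻¹ * (h * (t * (h⁻¹ * x * h) * t⁻¹) * h⁻¹) * (h * t * h⁻¹) := by group
      _ = t⁻¹ * (h * (t * x * t⁻¹) * h⁻¹) * (h * t * h⁻¹) := by rw [h3]
      _ = t⁻¹ * (t * x * t⁻¹) * (h * t * h⁻¹) := by rw [h4]
      _ = x * (t⁻¹ * (h * t * h⁻¹)) := by group
  have hhc := hC _ hcU hcx
  generalize hc : t⁻¹ * (h * t * h⁻¹) = c at hcU hhc
  have hht : h * t * h⁻¹ = t * c := by rw [← hc]; group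
  have hhc' : h * c * h⁻¹ = c := by rw [hhc]; group
  have h7 : ∀ j : ℕ, h ^ j * t * (h ^ j)⁻¹ = t * c ^ j := by
    intro j
    induction j with
    | zero => simp
    | succ j ihj =>
      have e1 : h ^ (j + 1) * t * (h ^ (j + 1))⁻¹ = h * (h ^ j * t * (h ^ j)⁻¹) * h⁻¹ := by
        rw [pow_succ']; group
      rw [e1, ihj]
      have h8 : h * c ^ j * h⁻¹ = c ^ j := by rw [← conj_pow, hhc']
      calc h * (t * c ^ j) * h⁻¹ = (h * t * h⁻¹) * (h * c ^ j * h⁻¹) := by group
        _ = t * c * c ^ j := by rw [h8, hht]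
        _ = t * c ^ (j + 1) := by rw [pow_succ', mul_assoc]
  have h9 := h7 m
  rw [hm] at h9
  have h10 : c ^ m = 1 := by
    have : t * c ^ m = t := by rw [← h9]; group
    exact mul_eq_left.mp this
  obtain ⟨k, hk⟩ := hU ⟨c, hcU⟩
  have hk' : c ^ (p ^ k) = 1 := by simpa using congrArg Subtype.val hk
  have h11 : c = 1 := by
    have hd1 : orderOf c ∣ p ^ k := orderOf_dvd_of_pow_eq_one hk'
    have hd2 : orderOf c ∣ m := orderOf_dvd_of_pow_eq_one h10
    have : orderOf c ∣ Nat.gcd m (p ^ k) := Nat.dvd_gcd hd2 hd1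
    rw [(Nat.Coprime.pow_right k hmp).gcd_eq_one, Nat.dvd_one] at this
    exact orderOf_eq_one_iff.mp this
  apply htX
  rw [hmemX]
  refine ⟨htU, ?_⟩
  rw [h11, mul_one] at hht
  calc h * t = h * t * h⁻¹ * h := by group
    _ = t * h := by rw [hht]

theorem hasNormalPComplement_of_index {H₁ : Type*} [Group H₁] [Finite H₁] (p : ℕ)
    [hp : Fact p.Prime] (N : Subgroup H₁) [N.Normal] (hNcop : (Nat.card N).Coprime p) (i : ℕ)
    (hi : N.index = p ^ i) : Cfsg.HasNormalPComplement p H₁ := by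
  obtain ⟨Q⟩ : Nonempty (Sylow p H₁) := inferInstance
  refine ⟨Q, N, inferInstance, ?_⟩
  obtain ⟨j, hj⟩ := IsPGroup.iff_card.mp Q.isPGroup'
  have h1 := Subgroup.card_mul_index N
  rw [hi] at h1
  have h2 : p ^ i ∣ Nat.card (Q : Subgroup H₁) :=
    Q.pow_dvd_card_of_pow_dvd_card (by rw [← h1]; exact dvd_mul_left _ _)
  have h3 : Nat.card (Q : Subgroup H₁) ∣ p ^ i := by
    have hd : Nat.card (Q : Subgroup H₁) ∣ Nat.card N * p ^ i := by
      rw [h1]; exact Subgroup.card_subgroup_dvd_card _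
    have hc : (Nat.card (Q : Subgroup H₁)).Coprime (Nat.card N) := by
      rw [hj]; exact Nat.Coprime.pow_left _ hNcop.symm
    exact hc.dvd_of_dvd_mul_left hd
  have h4 : Nat.card (Q : Subgroup H₁) = p ^ i := Nat.dvd_antisymm h3 h2
  apply Subgroup.isComplement'_of_coprime
  · rw [h4, h1]
  · rw [h4]; exact Nat.Coprime.pow_right _ hNcop

/-- Let G be a finite group, p a prime and p^a the largest power of p dividing the size of any conjugacy class of G. If some element of p-power order has a conjugacy class of size exactly p^a, then G has a normal p-complement. -/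
theorem result {G : Type*} [Group G] [Finite G] (p : ℕ) [Fact p.Prime]
    (a : ℕ) (hmax : ∀ y : G, ¬ p ^ (a + 1) ∣ (Subgroup.centralizer ({y} : Set G)).index)
    (hx : ∃ x : G, (∃ k : ℕ, orderOf x = p ^ k) ∧ (Subgroup.centralizer ({x} : Set G)).index = p ^ a) :
    Cfsg.HasNormalPComplement p G := by
  have hp : p.Prime := Fact.out
  obtain ⟨x, ⟨k, hxk⟩, hxa⟩ := hx
  have hxpow : x ^ (p ^ k) = 1 := by rw [← hxk]; exact pow_orderOf_eq_one x
  have hmemC : ∀ g : G, g ∈ Subgroup.centralizer ({x} : Set G) ↔ x * g = g * x := by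
    intro g
    rw [Subgroup.mem_centralizer_iff]
    simp only [Set.mem_singleton_iff, forall_eq]
  have hC' : ∀ y : Subgroup.centralizer ({x} : Set G), (orderOf y).Coprime p →
      ¬ p ∣ (Subgroup.centralizer ({y} : Set (Subgroup.centralizer ({x} : Set G)))).index := by
    intro y hy hd
    have hyx : x * (y : G) = (y : G) * x := (hmemC _).mp y.2
    have hyo : (orderOf (y : G)).Coprime p := by rwa [Subgroup.orderOf_coe]
    apply hmax (x * (y : G))
    have e1 : Subgroup.centralizer ({x * (y : G)} : Set G) =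
        Subgroup.centralizer ({x} : Set G) ⊓ Subgroup.centralizer ({(y : G)} : Set G) := by
      ext g
      rw [Subgroup.mem_inf, Subgroup.mem_centralizer_iff, Subgroup.mem_centralizer_iff,
        Subgroup.mem_centralizer_iff]
      simp only [Set.mem_singleton_iff, forall_eq]
      constructor
      · intro hg
        have hcomm : Commute x (y : G) := hyx
        have hcg : Commute (x * (y : G)) g := hg
        have hco : (orderOf (y : G)).Coprime (orderOf x) := by
          rw [hxk]; exact Nat.Coprime.pow_right k hyo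
        obtain ⟨m1, hm1⟩ := exists_pow_eq_self_of_coprime hco
        obtain ⟨m2, hm2⟩ := exists_pow_eq_self_of_coprime hco.symm
        have hx' : x = ((x * (y : G)) ^ orderOf (y : G)) ^ m1 := by
          rw [hcomm.mul_pow, pow_orderOf_eq_one, mul_one, hm1]
        have hy' : (y : G) = ((x * (y : G)) ^ orderOf x) ^ m2 := by
          rw [hcomm.mul_pow, pow_orderOf_eq_one, one_mul, hm2]
        constructor
        · rw [hx']; exact ((hcg.pow_left _).pow_left _).eq
        · rw [hy']; exact ((hcg.pow_left _).pow_left _).eq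
      · rintro ⟨h1, h2⟩
        rw [mul_assoc, h2, ← mul_assoc, h1, mul_assoc]
    have e2 : (Subgroup.centralizer ({(y : G)} : Set G)).subgroupOf
        (Subgroup.centralizer ({x} : Set G)) =
        Subgroup.centralizer ({y} : Set (Subgroup.centralizer ({x} : Set G))) := by
      ext g
      rw [Subgroup.mem_subgroupOf, Subgroup.mem_centralizer_iff, Subgroup.mem_centralizer_iff]
      simp only [Set.mem_singleton_iff, forall_eq]
      rw [Subtype.ext_iff]; rfl
    have e3 : (Subgroup.centralizer ({x * (y : G)} : Set G)).index =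
        (Subgroup.centralizer ({y} : Set (Subgroup.centralizer ({x} : Set G)))).index * p ^ a := by
      rw [e1, ← hxa, ← e2,
        ← Subgroup.relIndex_mul_index (inf_le_left : Subgroup.centralizer ({x} : Set G) ⊓
          Subgroup.centralizer ({(y : G)} : Set G) ≤ Subgroup.centralizer ({x} : Set G)),
        Subgroup.inf_relIndex_left]
      rfl
    rw [e3, pow_succ']
    exact Nat.mul_dvd_mul hd dvd_rfl
  obtain ⟨hb, H₀C, hH₀Cn, hH₀Cmem, kC, hH₀Cidx⟩ := pprime_subgroup p hC'
  obtain ⟨P, hP⟩ := (isPGroup_zpowers p x k hxpow).exists_le_sylow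
  have hxP : x ∈ (P : Subgroup G) := hP (Subgroup.mem_zpowers x)
  have hconjP : ∀ g : G, g * x * g⁻¹ ∈ (P : Subgroup G) := by
    have hrel : (Subgroup.centralizer ({x} : Set G)).index ∣
        (Subgroup.centralizer ({x} : Set G)).relIndex (P : Subgroup G) := by
      have h1 := Subgroup.relIndex_mul_index (inf_le_right :
        Subgroup.centralizer ({x} : Set G) ⊓ (P : Subgroup G) ≤ (P : Subgroup G))
      rw [Subgroup.inf_relIndex_right] at h1
      have h2 : (Subgroup.centralizer ({x} : Set G)).index ∣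
          (Subgroup.centralizer ({x} : Set G) ⊓ (P : Subgroup G)).index :=
        Subgroup.index_dvd_of_le inf_le_left
      rw [← h1] at h2
      have hcop : ((Subgroup.centralizer ({x} : Set G)).index).Coprime ((P : Subgroup G).index) := by
        rw [hxa]
        exact Nat.Coprime.pow_left _ ((Nat.Prime.coprime_iff_not_dvd hp).mpr P.not_dvd_index)
      exact hcop.dvd_of_dvd_mul_right h2
    have hψ := card_range_mul_card_fiber (fun u : (P : Subgroup G) => (u : G) * x * (u : G)⁻¹)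
      ((Subgroup.centralizer ({x} : Set G)).subgroupOf (P : Subgroup G)) (by
        intro u v
        rw [Subgroup.mem_subgroupOf, hmemC]
        simp only [Subgroup.coe_mul, Subgroup.coe_inv]
        constructor
        · intro h
          calc x * ((u : G)⁻¹ * v) = (u : G)⁻¹ * ((u : G) * x * (u : G)⁻¹) * v := by group
            _ = (u : G)⁻¹ * ((v : G) * x * (v : G)⁻¹) * v := by rw [h]
            _ = (u : G)⁻¹ * v * x := by group
        · intro h
          calc (u : G) * x * (u : G)⁻¹ = (u : G) * (x * ((u : G)⁻¹ * v)) * (v : G)⁻¹ := by group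
            _ = (u : G) * ((u : G)⁻¹ * v * x) * (v : G)⁻¹ := by rw [h]
            _ = (v : G) * x * (v : G)⁻¹ := by group)
    have h3 := Subgroup.card_mul_index
      ((Subgroup.centralizer ({x} : Set G)).subgroupOf (P : Subgroup G))
    have h4 : Nat.card (Set.range (fun u : (P : Subgroup G) => (u : G) * x * (u : G)⁻¹)) =
        (Subgroup.centralizer ({x} : Set G)).relIndex (P : Subgroup G) := by
      have hpos : 0 < Nat.card ((Subgroup.centralizer ({x} : Set G)).subgroupOf (P : Subgroup G)) :=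
        Nat.card_pos
      apply Nat.eq_of_mul_eq_mul_right hpos
      rw [hψ, ← h3, mul_comm]
      rfl
    have h5 := card_conj_mul_card_centralizer x
    have h6 := Subgroup.card_mul_index (Subgroup.centralizer ({x} : Set G))
    have h7 : Nat.card {y : G // ∃ g : G, g * x * g⁻¹ = y} =
        (Subgroup.centralizer ({x} : Set G)).index := by
      have hpos : 0 < Nat.card (Subgroup.centralizer ({x} : Set G)) := Nat.card_pos
      apply Nat.eq_of_mul_eq_mul_right hpos
      rw [h5, mul_comm, h6]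
    have hsub : Set.range (fun u : (P : Subgroup G) => (u : G) * x * (u : G)⁻¹) ⊆
        {y : G | ∃ g : G, g * x * g⁻¹ = y} := by
      rintro _ ⟨u, rfl⟩; exact ⟨u, rfl⟩
    have heq := Set.eq_of_subset_of_ncard_le hsub (by
      rw [← Nat.card_coe_set_eq, ← Nat.card_coe_set_eq]
      show Nat.card {y : G // ∃ g : G, g * x * g⁻¹ = y} ≤ _
      rw [h7, h4]
      exact Nat.le_of_dvd (Nat.pos_of_ne_zero Subgroup.index_ne_zero_of_finite) hrel)
      (Set.toFinite _)
    intro g
    have hg : g * x * g⁻¹ ∈ {y : G | ∃ g : G, g * x * g⁻¹ = y} := ⟨g, rfl⟩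
    rw [← heq] at hg
    obtain ⟨u, hu⟩ := hg
    rw [← hu]
    exact (P : Subgroup G).mul_mem ((P : Subgroup G).mul_mem u.2 hxP) ((P : Subgroup G).inv_mem u.2)
  have hUP : Subgroup.normalClosure ({x} : Set G) ≤ (P : Subgroup G) := by
    apply (Subgroup.closure_le _).mpr
    intro y hy
    rw [Group.mem_conjugatesOfSet_iff] at hy
    obtain ⟨b, hb', hby⟩ := hy
    rw [Set.mem_singleton_iff] at hb'
    rw [hb'] at hby
    obtain ⟨c, hc⟩ := isConj_iff.mp hby
    rw [← hc]; exact hconjP c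
  have hUp : IsPGroup p (Subgroup.normalClosure ({x} : Set G)) := P.isPGroup'.to_le hUP
  have hxU : x ∈ Subgroup.normalClosure ({x} : Set G) :=
    Subgroup.subset_normalClosure (Set.mem_singleton x)
  have hUn : (Subgroup.normalClosure ({x} : Set G)).Normal := Subgroup.normalClosure_normal
  have hmemH : ∀ g : G, g ∈ H₀C.map (Subgroup.centralizer ({x} : Set G)).subtype ↔
      (x * g = g * x ∧ (orderOf g).Coprime p) := by
    intro g
    constructor
    · rintro ⟨c, hc, rfl⟩
      refine ⟨(hmemC _).mp c.2, ?_⟩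
      have := (hH₀Cmem c).mp hc
      rwa [← Subgroup.orderOf_coe] at this
    · rintro ⟨h1, h2⟩
      exact ⟨⟨g, (hmemC g).mpr h1⟩, (hH₀Cmem _).mpr (by rwa [Subgroup.orderOf_mk]), rfl⟩
  have hcent : ∀ n : G, x * n = n * x → (orderOf n).Coprime p →
      ∀ u ∈ Subgroup.normalClosure ({x} : Set G), n * u = u * n := by
    intro n hnx hno
    apply centralizes_of_fix p _ hUp x hxU n (fun u hu => hUn.conj_mem u hu n) (orderOf n)
      (pow_orderOf_eq_one n) hno
    intro c hcU hcx
    obtain ⟨j, hj⟩ := hUp ⟨c, hcU⟩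
    have hj' : c ^ (p ^ j) = 1 := by simpa using congrArg Subtype.val hj
    have := hb ⟨n, (hmemC n).mpr hnx⟩ ⟨c, (hmemC c).mpr hcx.symm⟩ (by rwa [Subgroup.orderOf_mk])
      ⟨j, Subtype.ext (by simpa using hj')⟩
    exact congrArg Subtype.val this
  have hHn : (H₀C.map (Subgroup.centralizer ({x} : Set G)).subtype).Normal := by
    constructor
    intro n hn g
    rw [hmemH] at hn ⊢
    refine ⟨?_, by rw [orderOf_conj']; exact hn.2⟩
    have hgU : g⁻¹ * x * g ∈ Subgroup.normalClosure ({x} : Set G) := by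
      have := hUn.conj_mem x hxU g⁻¹
      rwa [inv_inv] at this
    have h1 := hcent n hn.1 hn.2 _ hgU
    calc x * (g * n * g⁻¹) = g * ((g⁻¹ * x * g) * n) * g⁻¹ := by group
      _ = g * (n * (g⁻¹ * x * g)) * g⁻¹ := by rw [h1]
      _ = g * n * g⁻¹ * x := by group
  have hidx : (H₀C.map (Subgroup.centralizer ({x} : Set G)).subtype).index = p ^ (kC + a) := by
    rw [Subgroup.index_map_subtype, hH₀Cidx, hxa, pow_add]
  have hcop : (Nat.card (H₀C.map (Subgroup.centralizer ({x} : Set G)).subtype)).Coprime p :=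
    card_coprime_of_forall p _ (fun g hg => ((hmemH g).mp hg).2)
  haveI := hHn
  exact hasNormalPComplement_of_index p _ hcop (kC + a) hidx

end Cfsg.Agent.S4127
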