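import Cfsg.Statements.S0782
import Mathlib
import Cfsg.Agent.Lib.Helper7.SUOrder
import Cfsg.Agent.Lib.Helper18.UnitaryCount

set_option autoImplicit false
open Cfsg

namespace Cfsg.Agent.S0782

open Matrix Cfsg.Agent.Lib.Helper18 Cfsg.Agent.Lib.Helper7

section
variable {F : Type*} [Field F] [Fintype F] {q : ℕ}

/-- the matrix of an element of `GU` -/
abbrev gm {n : ℕ} (g : Cfsg.GU n F q) : Matrix (Fin n) (Fin n) F :=
  ((g : GL (Fin n) F) : Matrix (Fin n) (Fin n) F)

theorem exists_not_fixed (hF : Fintype.card F = q ^ 2) : ∃ θ : F, θ ^ q ≠ θ := by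
  classical
  have hq := herm_two_le hF
  by_contra hcon
  push Not at hcon
  have hne : (Polynomial.X ^ q - Polynomial.X : Polynomial F) ≠ 0 :=
    FiniteField.X_pow_card_sub_X_ne_zero F (by omega)
  have hdeg : (Polynomial.X ^ q - Polynomial.X : Polynomial F).natDegree = q :=
    FiniteField.X_pow_card_sub_X_natDegree_eq F (by omega)
  have hsub : (Finset.univ : Finset F) ⊆
      (Polynomial.X ^ q - Polynomial.X : Polynomial F).roots.toFinset := by
    intro x _
    rw [Multiset.mem_toFinset, Polynomial.mem_roots hne]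
    simp [hcon x]
  have h2 := Finset.card_le_card hsub
  have h3 := Multiset.toFinset_card_le (Polynomial.X ^ q - Polynomial.X : Polynomial F).roots
  have h4 := Polynomial.card_roots' (Polynomial.X ^ q - Polynomial.X : Polynomial F)
  rw [Finset.card_univ, hF] at h2
  rw [hdeg] at h4
  nlinarith

theorem exists_hilbert90 (hF : Fintype.card F = q ^ 2) (μ : F) (hμ : μ ^ (q + 1) = 1) :
    ∃ a : F, a ≠ 0 ∧ a = μ * a ^ q := by
  have hμq : μ * μ ^ q = 1 := by rw [← pow_succ']; exact hμ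
  by_cases h1 : (1 : F) + μ = 0
  · have hμ' : μ = -1 := by linear_combination h1
    obtain ⟨θ, hθ⟩ := exists_not_fixed hF
    refine ⟨θ - θ ^ q, sub_ne_zero.mpr (Ne.symm hθ), ?_⟩
    rw [hμ', herm_sub_pow hF, herm_pow_pow hF]
    ring
  · refine ⟨1 + μ, h1, ?_⟩
    rw [herm_add_pow hF, one_pow]
    linear_combination -hμq

/-- the matrix of `x ↦ x + (a-1) h(x,f) e + (d-1) h(x,e) f` -/
def hdiag (q n : ℕ) (e f : Fin n → F) (a d : F) : Matrix (Fin n) (Fin n) F :=
  1 + (a - 1) • hrk q n e f + (d - 1) • hrk q n f e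

theorem hdiag_mulVec (n : ℕ) (e f : Fin n → F) (a d : F) (x : Fin n → F) :
    hdiag q n e f a d *ᵥ x = x + ((a - 1) * Cfsg.hermForm n F q x f) • e +
      ((d - 1) * Cfsg.hermForm n F q x e) • f := by
  unfold hdiag
  rw [Matrix.add_mulVec, Matrix.add_mulVec, Matrix.one_mulVec, Matrix.smul_mulVec,
    Matrix.smul_mulVec, hrk_mulVec, hrk_mulVec, smul_smul, smul_smul]

theorem hdiag_preserves (hF : Fintype.card F = q ^ 2) (n : ℕ) (e f : Fin n → F) (a d : F)
    (hee : Cfsg.hermForm n F q e e = 0) (hff : Cfsg.hermForm n F q f f = 0)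
    (hef : Cfsg.hermForm n F q e f = 1) (had : d * a ^ q = 1) (x y : Fin n → F) :
    Cfsg.hermForm n F q (hdiag q n e f a d *ᵥ x) (hdiag q n e f a d *ᵥ y) =
      Cfsg.hermForm n F q x y := by
  have hfe : Cfsg.hermForm n F q f e = 1 := by rw [hf_conj hF n e f, hef, one_pow]
  have had' : a * d ^ q = 1 := by
    have := congrArg (fun t => t ^ q) had
    simp only [mul_pow, herm_pow_pow hF, one_pow] at this
    rw [mul_comm]; exact this
  rw [hdiag_mulVec, hdiag_mulVec]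
  simp only [hf_add_left, hf_add_right hF, hf_smul_left, hf_smul_right, hee, hff, hef, hfe,
    mul_zero, add_zero, mul_one]
  rw [hf_conj hF n y e, hf_conj hF n y f]
  simp only [mul_pow, herm_sub_pow hF, one_pow]
  linear_combination (Cfsg.hermForm n F q y f ^ q * Cfsg.hermForm n F q x e) * had +
    (Cfsg.hermForm n F q x f * Cfsg.hermForm n F q y e ^ q) * had'

theorem hdiag_det (n : ℕ) (e f : Fin n → F) (a d : F)
    (hee : Cfsg.hermForm n F q e e = 0) (hff : Cfsg.hermForm n F q f f = 0)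
    (hef : Cfsg.hermForm n F q e f = 1) (hfe : Cfsg.hermForm n F q f e = 1) :
    (hdiag q n e f a d).det = a * d := by
  obtain ⟨U, hU⟩ : ∃ U : Matrix (Fin n) (Fin 2) F, U = Matrix.of (fun i j => ![e i, f i] j) :=
    ⟨_, rfl⟩
  obtain ⟨L, hL⟩ : ∃ L : Matrix (Fin 2) (Fin n) F,
      L = Matrix.of (fun i j => ![(a - 1) * f j ^ q, (d - 1) * e j ^ q] i) := ⟨_, rfl⟩
  have h1 : hdiag q n e f a d = 1 + U * L := by
    ext i j
    simp only [hdiag, hrk, hU, hL, Matrix.add_apply, Matrix.smul_apply,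
      Matrix.vecMulVec_apply, Matrix.mul_apply, Fin.sum_univ_two, Matrix.of_apply,
      Matrix.cons_val_zero, Matrix.cons_val_one, smul_eq_mul]
    ring
  have h2 : L * U = Matrix.of ![![a - 1, 0], ![0, d - 1]] := by
    have e1 : ∑ j, f j ^ q * e j = 1 := by
      rw [← hef]; unfold Cfsg.hermForm
      exact Finset.sum_congr rfl fun j _ => mul_comm _ _
    have e2 : ∑ j, f j ^ q * f j = 0 := by
      rw [← hff]; unfold Cfsg.hermForm
      exact Finset.sum_congr rfl fun j _ => mul_comm _ _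
    have e3 : ∑ j, e j ^ q * e j = 0 := by
      rw [← hee]; unfold Cfsg.hermForm
      exact Finset.sum_congr rfl fun j _ => mul_comm _ _
    have e4 : ∑ j, e j ^ q * f j = 1 := by
      rw [← hfe]; unfold Cfsg.hermForm
      exact Finset.sum_congr rfl fun j _ => mul_comm _ _
    ext i j
    fin_cases i <;> fin_cases j
    · simp [hL, hU, Matrix.mul_apply, mul_assoc, ← Finset.mul_sum, e1]
    · simp [hL, hU, Matrix.mul_apply, mul_assoc, ← Finset.mul_sum, e2]
    · simp [hL, hU, Matrix.mul_apply, mul_assoc, ← Finset.mul_sum, e3]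
    · simp [hL, hU, Matrix.mul_apply, mul_assoc, ← Finset.mul_sum, e4]
  rw [h1, Matrix.det_one_add_mul_comm, h2, Matrix.det_fin_two]
  simp

theorem exists_GU_of_preserves (hF : Fintype.card F = q ^ 2) {n : ℕ}
    (M : Matrix (Fin n) (Fin n) F)
    (hM : ∀ u v, Cfsg.hermForm n F q (M *ᵥ u) (M *ᵥ v) = Cfsg.hermForm n F q u v) :
    ∃ g : Cfsg.GU n F q, gm g = M := by
  obtain ⟨u, hu⟩ := isUnit_of_preserves hF M hM
  refine ⟨⟨u, ?_⟩, hu⟩
  rw [mem_GU_iff, hu]
  exact hM

theorem gu_li_act {n k : ℕ} (g : Cfsg.GU n F q) (x : Fin k → Fin n → F)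
    (hx : LinearIndependent F x) : LinearIndependent F (fun i => gm g *ᵥ x i) := by
  have h := hx.map' (Matrix.toLin' (gm g)) (by
    rw [LinearMap.ker_eq_bot]
    intro v w hvw
    simp only [Matrix.toLin'_apply] at hvw
    have := congrArg (fun u => gm g⁻¹ *ᵥ u) hvw
    simp only [GU_inv_mulVec] at this
    exact this)
  exact h

theorem gu_stab_of_maps {n : ℕ} (W : Submodule F (Fin n → F)) (g : Cfsg.GU n F q)
    (hg : ∀ v ∈ W, gm g *ᵥ v ∈ W) (v : Fin n → F) : v ∈ W ↔ gm g *ᵥ v ∈ W := by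
  refine ⟨fun hv => hg v hv, fun hv => ?_⟩
  obtain ⟨φ, hφ⟩ : ∃ φ : W →ₗ[F] W, ∀ w : W, (φ w : Fin n → F) = gm g *ᵥ w.1 :=
    ⟨(Matrix.toLin' (gm g)).restrict (fun w hw => by rw [Matrix.toLin'_apply]; exact hg w hw),
      fun w => by rw [LinearMap.coe_restrict_apply, Matrix.toLin'_apply]⟩
  have hinj : Function.Injective φ := by
    intro a b hab
    have h1 : gm g *ᵥ a.1 = gm g *ᵥ b.1 := by rw [← hφ, ← hφ, hab]
    have h2 := congrArg (fun u => gm g⁻¹ *ᵥ u) h1
    simp only [GU_inv_mulVec] at h2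
    exact Subtype.ext h2
  have hsurj : Function.Surjective φ := LinearMap.injective_iff_surjective.mp hinj
  obtain ⟨w, hw⟩ := hsurj ⟨_, hv⟩
  have h1 : gm g *ᵥ w.1 = gm g *ᵥ v := by rw [← hφ, hw]
  have h2 := congrArg (fun u => gm g⁻¹ *ᵥ u) h1
  simp only [GU_inv_mulVec] at h2
  rw [← h2]
  exact w.2

end

/-- Maximal parabolics of SU_n(q): if W is a k-dimensional subspace of F^n (n ≥ 1, |F| = q²) on which the Hermitian form vanishes, then (q + 1) times the order of its stabiliser in SU_n(q) equals q^(k(2n−3k)) · |GL_k(q²)| · |GU_(n−2k)(q)|, where |GU_m(q)| = q^(m(m−1)/2) Π_(i=1..m) (q^i − (−1)^i). -/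
theorem result {F : Type*} [Field F] [Fintype F] {q : ℕ} (hF : Fintype.card F = q ^ 2) (n k : ℕ) (hn : 1 ≤ n) (hk : 2 * k ≤ n) (W : Submodule F (Fin n → F)) (hWk : Module.finrank F W = k) (hW : ∀ u ∈ W, ∀ v ∈ W, Cfsg.hermForm n F q u v = 0) : (q + 1) * Nat.card ↥((Cfsg.stabilizing (Cfsg.slToMat n F) (W : Set (Fin n → F))).subgroupOf (Cfsg.SU n F q)) = q ^ (k * (2 * n - 3 * k)) * (∏ i : Fin k, ((q ^ 2) ^ k - (q ^ 2) ^ (i : ℕ))) * (q ^ ((n - 2 * k) * ((n - 2 * k) - 1) / 2) * ∏ i ∈ Finset.range (n - 2 * k), (if Even i then q ^ (i + 1) + 1 else q ^ (i + 1) - 1)) := by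
  classical
  have hq := herm_two_le hF
  obtain ⟨b⟩ : Nonempty (Module.Basis (Fin k) F W) := ⟨Module.finBasisOfFinrankEq F W hWk⟩
  obtain ⟨x₀, hx₀⟩ : ∃ x₀ : Fin k → (Fin n → F), x₀ = fun i => (b i : Fin n → F) := ⟨_, rfl⟩
  have hx₀W : ∀ i, x₀ i ∈ W := fun i => by rw [hx₀]; exact (b i).2
  have hx₀li : LinearIndependent F x₀ := by
    rw [hx₀]
    exact b.linearIndependent.map' W.subtype (Submodule.ker_subtype W)
  have hx₀span : Submodule.span F (Set.range x₀) = W := by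
    have : Set.range x₀ = W.subtype '' (Set.range b) := by
      rw [hx₀, ← Set.range_comp]; rfl
    rw [this, Submodule.span_image, b.span_eq, Submodule.map_subtype_top]
  have hx₀iso : IsoFrU q n k x₀ := ⟨hx₀li, fun i j => hW _ (hx₀W i) _ (hx₀W j)⟩
  -- the stabilizer in `GU`
  obtain ⟨SG, hSG⟩ : ∃ SG : Subgroup ↥(Cfsg.GU n F q),
      ∀ g, g ∈ SG ↔ ∀ v, v ∈ W ↔ gm g *ᵥ v ∈ W :=
    ⟨Cfsg.stabilizing ((Units.coeHom (Matrix (Fin n) (Fin n) F)).comp (Cfsg.GU n F q).subtype)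
      (W : Set (Fin n → F)), fun g => Iff.rfl⟩
  obtain ⟨Gx, hGx⟩ : ∃ Gx : Set ↥(Cfsg.GU n F q), ∀ g, g ∈ Gx ↔ ∀ i, gm g *ᵥ x₀ i = x₀ i :=
    ⟨{g | ∀ i, gm g *ᵥ x₀ i = x₀ i}, fun g => Iff.rfl⟩
  -- step A
  have hA : Nat.card ↥(Cfsg.GU n F q) =
      Nat.card {x : Fin k → Fin n → F // IsoFrU q n k x} * Nat.card Gx := by
    obtain ⟨fA, hfA⟩ : ∃ fA : ↥(Cfsg.GU n F q) → {x : Fin k → Fin n → F // IsoFrU q n k x},
        ∀ g i, (fA g).1 i = gm g *ᵥ x₀ i :=
      ⟨fun g => ⟨fun i => gm g *ᵥ x₀ i, gu_li_act g x₀ hx₀li,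
        fun i j => by rw [GU_preserves]; exact hx₀iso.2 i j⟩, fun g i => rfl⟩
    refine card_eq_mul_of_fibers' fA (Nat.card Gx) (fun y => ?_)
    obtain ⟨g₀, hg₀⟩ := witt_iso_GU hF x₀ y.1 hx₀li y.2.1 hx₀iso.2 y.2.2
    refine Nat.card_congr ?_
    refine
    { toFun := fun g => ⟨g₀⁻¹ * g.1, ?_⟩
      invFun := fun h => ⟨g₀ * h.1, ?_⟩
      left_inv := fun g => Subtype.ext (mul_inv_cancel_left _ _)
      right_inv := fun h => Subtype.ext (inv_mul_cancel_left _ _) }
    · rw [hGx]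
      intro i
      have h1 : gm g.1 *ᵥ x₀ i = y.1 i := by rw [← hfA, g.2]
      rw [GU_mul_mulVec, h1, ← hg₀ i, GU_inv_mulVec]
    · refine Subtype.ext (funext fun i => ?_)
      have h1 : gm h.1 *ᵥ x₀ i = x₀ i := (hGx h.1).mp h.2 i
      rw [hfA, GU_mul_mulVec, h1, hg₀ i]
  -- step B
  have hfix : ∀ h ∈ Gx, ∀ v ∈ W, gm h *ᵥ v = v := by
    intro h hh v hv
    rw [hGx] at hh
    rw [← hx₀span] at hv
    induction hv using Submodule.span_induction with
    | mem x hx => obtain ⟨i, rfl⟩ := hx; exact hh i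
    | zero => simp
    | add x y _ _ hx hy => rw [Matrix.mulVec_add, hx, hy]
    | smul a x _ hx => rw [Matrix.mulVec_smul, hx]
  have hB : Nat.card ↥SG = Nat.card {y : Fin k → W // LinearIndependent F y} * Nat.card Gx := by
    have hmem : ∀ g : ↥SG, ∀ i, gm g.1 *ᵥ x₀ i ∈ W :=
      fun g i => ((hSG g.1).mp g.2 (x₀ i)).mp (hx₀W i)
    have hli : ∀ g : ↥SG, LinearIndependent F (fun i => (⟨gm g.1 *ᵥ x₀ i, hmem g i⟩ : W)) :=
      fun g => LinearIndependent.of_comp W.subtype (gu_li_act g.1 x₀ hx₀li)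
    obtain ⟨fB, hfB⟩ : ∃ fB : ↥SG → {y : Fin k → W // LinearIndependent F y},
        ∀ g i, ((fB g).1 i : Fin n → F) = gm g.1 *ᵥ x₀ i :=
      ⟨fun g => ⟨fun i => ⟨gm g.1 *ᵥ x₀ i, hmem g i⟩, hli g⟩, fun g i => rfl⟩
    refine card_eq_mul_of_fibers' fB (Nat.card Gx) (fun y => ?_)
    have hyli : LinearIndependent F (fun i => (y.1 i : Fin n → F)) :=
      y.2.map' W.subtype (Submodule.ker_subtype W)
    obtain ⟨g₀, hg₀⟩ := witt_iso_GU hF x₀ (fun i => (y.1 i : Fin n → F)) hx₀li hyli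
      hx₀iso.2 (fun i j => hW _ (y.1 i).2 _ (y.1 j).2)
    have hg₀W : ∀ v ∈ W, gm g₀ *ᵥ v ∈ W := by
      intro v hv
      rw [← hx₀span] at hv
      induction hv using Submodule.span_induction with
      | mem x hx => obtain ⟨i, rfl⟩ := hx; rw [hg₀ i]; exact (y.1 i).2
      | zero => simp
      | add x y _ _ hx hy => rw [Matrix.mulVec_add]; exact W.add_mem hx hy
      | smul a x _ hx => rw [Matrix.mulVec_smul]; exact W.smul_mem a hx
    have hg₀s : g₀ ∈ SG := (hSG g₀).mpr (gu_stab_of_maps W g₀ hg₀W)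
    refine Nat.card_congr ?_
    refine
    { toFun := fun g => ⟨g₀⁻¹ * g.1.1, ?_⟩
      invFun := fun h => ⟨⟨g₀ * h.1, ?_⟩, ?_⟩
      left_inv := fun g => Subtype.ext (Subtype.ext (mul_inv_cancel_left _ _))
      right_inv := fun h => Subtype.ext (inv_mul_cancel_left _ _) }
    · rw [hGx]
      intro i
      have h1 : gm g.1.1 *ᵥ x₀ i = (y.1 i : Fin n → F) := by rw [← hfB, g.2]
      rw [GU_mul_mulVec, h1, ← hg₀ i, GU_inv_mulVec]
    · refine SG.mul_mem hg₀s ((hSG h.1).mpr (gu_stab_of_maps W h.1 (fun v hv => ?_)))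
      rw [hfix h.1 h.2 v hv]; exact hv
    · refine Subtype.ext (funext fun i => Subtype.ext ?_)
      rw [hfB, GU_mul_mulVec, hfix h.1 h.2 _ (hx₀W i), hg₀ i]
  -- the determinant on the stabilizer
  obtain ⟨detS, hdetS⟩ : ∃ detS : ↥SG →* Fˣ, ∀ g : ↥SG, ((detS g : Fˣ) : F) = (gm g.1).det :=
    ⟨(detGU n F q).comp SG.subtype, fun g => rfl⟩
  have hrange : detS.range = (powMonoidHom (q + 1) : Fˣ →* Fˣ).ker := by
    ext x
    rw [MonoidHom.mem_range, MonoidHom.mem_ker, powMonoidHom_apply]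
    constructor
    · rintro ⟨g, rfl⟩
      apply Units.ext
      rw [Units.val_pow_eq_pow_val, hdetS, Units.val_one]
      exact det_pow_of_isFr hF _ ((mem_GU_iff_isFr hF g.1.1).mp g.1.2)
    · intro hx
      have hx' : (x : F) ^ (q + 1) = 1 := by
        rw [← Units.val_pow_eq_pow_val, hx, Units.val_one]
      have key : ∃ g : Cfsg.GU n F q, (∀ v ∈ W, gm g *ᵥ v ∈ W) ∧ (gm g).det = x := by
        by_cases hk0 : k = 0
        · have hx0 : x ∈ (detGU n F q).range := by
            rw [detGU_range hF n hn, MonoidHom.mem_ker, powMonoidHom_apply]; exact hx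
          obtain ⟨g, hg⟩ := hx0
          refine ⟨g, fun v hv => ?_, ?_⟩
          · have hv0 : v = 0 := by
              subst hk0
              rw [← hx₀span] at hv
              have : Set.range x₀ = ∅ := Set.range_eq_empty x₀
              rw [this, Submodule.span_empty] at hv
              exact (Submodule.mem_bot F).mp hv
            rw [hv0, Matrix.mulVec_zero]; exact W.zero_mem
          · rw [← hg]; rfl
        · obtain ⟨a, ha0, ha⟩ := exists_hilbert90 hF (x : F) hx'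
          obtain ⟨f, hxf, hff⟩ := exists_herm_partner_family hF x₀ hx₀li hx₀iso.2
          obtain ⟨i0, hi0⟩ : ∃ i0 : Fin k, i0 = ⟨0, by omega⟩ := ⟨_, rfl⟩
          have hee : Cfsg.hermForm n F q (x₀ i0) (x₀ i0) = 0 := hx₀iso.2 i0 i0
          have hef : Cfsg.hermForm n F q (x₀ i0) (f i0) = 1 := by rw [hxf]; simp
          have hfe : Cfsg.hermForm n F q (f i0) (x₀ i0) = 1 := by
            rw [hf_conj hF n (x₀ i0) (f i0), hef, one_pow]
          have had : (a ^ q)⁻¹ * a ^ q = 1 := inv_mul_cancel₀ (pow_ne_zero _ ha0)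
          obtain ⟨g, hg⟩ := exists_GU_of_preserves hF (hdiag q n (x₀ i0) (f i0) a (a ^ q)⁻¹)
            (hdiag_preserves hF n _ _ a _ hee (hff i0 i0) hef had)
          refine ⟨g, fun v hv => ?_, ?_⟩
          · rw [hg, hdiag_mulVec, hW v hv _ (hx₀W i0), mul_zero, zero_smul, add_zero]
            exact W.add_mem hv (W.smul_mem _ (hx₀W i0))
          · rw [hg, hdiag_det n _ _ a _ hee (hff i0 i0) hef hfe,
              mul_inv_eq_iff_eq_mul₀ (pow_ne_zero _ ha0)]
            exact ha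
      obtain ⟨g, hgW, hgdet⟩ := key
      refine ⟨⟨g, (hSG g).mpr (gu_stab_of_maps W g hgW)⟩, ?_⟩
      apply Units.ext
      rw [hdetS]
      exact hgdet
  have hker : Nat.card detS.ker = Nat.card ↥((Cfsg.stabilizing (Cfsg.slToMat n F)
      (W : Set (Fin n → F))).subgroupOf (Cfsg.SU n F q)) := by
    symm
    apply Nat.card_eq_of_bijective
      (fun s : ↥((Cfsg.stabilizing (Cfsg.slToMat n F)
          (W : Set (Fin n → F))).subgroupOf (Cfsg.SU n F q)) =>
        (⟨⟨⟨Matrix.SpecialLinearGroup.toGL s.1.1,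
          (mem_GU_iff_isFr hF _).mpr ((mem_SU_iff_isFr hF s.1.1).mp s.1.2)⟩,
          (hSG _).mpr (fun v => s.2 v)⟩, by
            rw [MonoidHom.mem_ker]
            apply Units.ext
            rw [hdetS]
            exact s.1.1.2⟩ : detS.ker))
    constructor
    · intro s s' hss
      have h1 : Matrix.SpecialLinearGroup.toGL s.1.1 = Matrix.SpecialLinearGroup.toGL s'.1.1 :=
        congrArg (fun z : detS.ker => (z.1.1.1 : GL (Fin n) F)) hss
      apply Subtype.ext
      apply Subtype.ext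
      apply Subtype.ext
      have h2 := congrArg (fun g : GL (Fin n) F => (g : Matrix (Fin n) (Fin n) F)) h1
      exact h2
    · rintro ⟨⟨⟨g, hg⟩, hgS⟩, hker⟩
      have hdet : (g : Matrix (Fin n) (Fin n) F).det = 1 := by
        rw [MonoidHom.mem_ker] at hker
        have h3 := congrArg (fun u : Fˣ => (u : F)) hker
        simp only [hdetS, Units.val_one] at h3
        exact h3
      refine ⟨⟨⟨(⟨(g : Matrix (Fin n) (Fin n) F), hdet⟩ :
        Matrix.SpecialLinearGroup (Fin n) F), ?_⟩, ?_⟩, ?_⟩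
      · exact (mem_SU_iff_isFr hF _).mpr ((mem_GU_iff_isFr hF g).mp hg)
      · intro v
        exact (hSG ⟨g, hg⟩).mp hgS v
      · apply Subtype.ext
        apply Subtype.ext
        apply Subtype.ext
        apply Units.ext
        rfl
  have hD : (q + 1) * Nat.card ↥((Cfsg.stabilizing (Cfsg.slToMat n F)
      (W : Set (Fin n → F))).subgroupOf (Cfsg.SU n F q)) = Nat.card ↥SG := by
    have h1 := Subgroup.card_eq_card_quotient_mul_card_subgroup detS.ker
    have h2 : Nat.card (↥SG ⧸ detS.ker) = q + 1 := by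
      rw [Nat.card_congr (QuotientGroup.quotientKerEquivRange detS).toEquiv, hrange,
        herm_card_ker hF]
    rw [h1, h2, hker]
  -- counts
  have hL : Nat.card {y : Fin k → W // LinearIndependent F y} =
      ∏ i : Fin k, ((q ^ 2) ^ k - (q ^ 2) ^ (i : ℕ)) := by
    have := card_linearIndependent (K := F) (V := W) (k := k) (le_of_eq hWk.symm)
    rw [this, hWk, hF]
  have hX := card_isoFrU hF n k
  have hGU := card_GU hF n
  have ha : ∀ e, hcnt F q (e + 2) 0 = epsU q (e + 1) * epsU q e + 1 := hcnt_zero_eq hF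
  have hXpos : 0 < ∏ j ∈ Finset.range k, (q ^ (2 * j) * hcnt F q (n - 2 * j) 0 - q ^ (2 * j)) :=
    prod_isoU_pos q hq (fun d => hcnt F q d 0) ha n k hk
  have harith : (∏ j ∈ Finset.range k, (q ^ (2 * j) * hcnt F q (n - 2 * j) 0 - q ^ (2 * j))) *
      (q ^ (k * (2 * n - 3 * k)) * (q ^ ((n - 2 * k) * ((n - 2 * k) - 1) / 2) *
        ∏ i ∈ Finset.range (n - 2 * k), epsU q i)) =
      q ^ (n * (n - 1) / 2) * ∏ i ∈ Finset.range n, epsU q i :=
    arithU q hq (fun d => hcnt F q d 0) ha n k hk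
  have hcG : Nat.card Gx = q ^ (k * (2 * n - 3 * k)) *
      (q ^ ((n - 2 * k) * ((n - 2 * k) - 1) / 2) *
        ∏ i ∈ Finset.range (n - 2 * k), epsU q i) := by
    refine Nat.eq_of_mul_eq_mul_left hXpos ?_
    rw [harith, ← hX, ← hA, hGU]
    rfl
  rw [hD, hB, hL, hcG]
  show _ = _ * _ * (_ * ∏ i ∈ Finset.range (n - 2 * k), epsU q i)
  ring

end Cfsg.Agent.S0782
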