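import Cfsg.Statements.S0803
import Mathlib
import Cfsg.Agent.S0808
import Cfsg.Agent.S0802

set_option autoImplicit false
open Cfsg

namespace Cfsg.Agent.S0803

open Cfsg.Agent.S0809 Cfsg.Agent.S0807 Cfsg.Agent.S0808

section abstract

/-- a group of order 24 with a self-centralising normal four-group is `S₄` -/
theorem recog24 {L : Type*} [Group L] [Finite L] (hL : Nat.card L = 24) (V : Subgroup L)
    [hVn : V.Normal] (hV : IsKleinFour V) (hC : ∀ x : L, (∀ v ∈ V, x * v = v * x) → x ∈ V) :
    Nonempty (L ≃* Equiv.Perm (Fin 4)) := by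
  classical
  haveI : Fact (Nat.Prime 3) := ⟨Nat.prime_three⟩
  obtain ⟨hsq, hcomm⟩ := klein_facts V hV
  have hVcard : Nat.card V = 4 := hV.card_four
  obtain ⟨P⟩ : Nonempty (Sylow 3 L) := inferInstance
  have hPcard : Nat.card (P : Subgroup L) = 3 := by
    have h3 : 3 ∣ Nat.card L := by rw [hL]; decide
    have hdvd : Nat.card (P : Subgroup L) ∣ Nat.card L := Subgroup.card_subgroup_dvd_card _
    obtain ⟨k, hk⟩ := IsPGroup.iff_card.1 P.isPGroup'
    have hne : (P : Subgroup L) ≠ ⊥ := Sylow.ne_bot_of_dvd_card P h3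
    rw [hL, hk] at hdvd
    rw [hk]
    have hk1 : k ≠ 0 := by
      rintro rfl
      apply hne
      exact Subgroup.card_eq_one.1 (by rw [hk, pow_zero])
    have hk2 : k < 2 := by
      by_contra hk2
      push Not at hk2
      have : 3 ^ 2 ∣ 24 := dvd_trans (pow_dvd_pow 3 hk2) hdvd
      revert this
      decide
    have : k = 1 := by omega
    rw [this, pow_one]
  have hPV : (P : Subgroup L) ⊓ V = ⊥ :=
    Subgroup.inf_eq_bot_of_coprime (H := (P : Subgroup L)) (K := V)
      (by rw [hPcard, hVcard]; decide)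
  -- an element of order three
  obtain ⟨c, hcP, hc1⟩ : ∃ c ∈ (P : Subgroup L), c ≠ 1 := by
    by_contra hcon
    push Not at hcon
    have : (P : Subgroup L) = ⊥ := (Subgroup.eq_bot_iff_forall _).2 hcon
    rw [this, Subgroup.card_bot] at hPcard
    omega
  have hc3 : c ^ 3 = 1 := by
    have := pow_card_eq_one' (G := ↥(P : Subgroup L)) (x := ⟨c, hcP⟩)
    rw [hPcard] at this
    exact congrArg Subtype.val this
  have hc3' : c * c * c = 1 := by
    rw [pow_succ, pow_two] at hc3; exact hc3
  have hcV : c ∉ V := by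
    intro h
    apply hc1
    have h2 := hsq c h
    calc c = (c * c * c) * (c * c)⁻¹ := by group
      _ = 1 := by rw [hc3', h2]; simp
  -- number of Sylow 3-subgroups
  have hidxP : (P : Subgroup L).index = 8 := by
    have := Subgroup.card_mul_index (P : Subgroup L)
    rw [hPcard, hL] at this
    omega
  have hn3dvd : Nat.card (Sylow 3 L) ∣ 8 := by
    rw [← hidxP]; exact Sylow.card_dvd_index P
  have hn3mod : Nat.card (Sylow 3 L) % 3 = 1 := by
    have := card_sylow_modEq_one 3 L
    exact this
  have hn3 : Nat.card (Sylow 3 L) = 1 ∨ Nat.card (Sylow 3 L) = 4 := by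
    have hle : Nat.card (Sylow 3 L) ≤ 8 := Nat.le_of_dvd (by norm_num) hn3dvd
    generalize Nat.card (Sylow 3 L) = m at *
    interval_cases m <;> simp_all
  have hidxeq : Nat.card (Sylow 3 L) =
      (Subgroup.normalizer ((P : Subgroup L) : Set L)).index := Sylow.card_eq_index_normalizer P
  have hidxD : (Subgroup.normalizer ((P : Subgroup L) : Set L)).index = 4 := by
    rw [← hidxeq]
    rcases hn3 with h | h
    · exfalso
      -- P normal
      have hnorm : (P : Subgroup L).Normal := by
        rw [← Subgroup.normalizer_eq_top_iff, ← Subgroup.index_eq_one, ← hidxeq]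
        exact h
      apply hcV
      apply hC
      intro v hv
      have h1 : c * v * c⁻¹ * v⁻¹ ∈ (P : Subgroup L) := by
        have : c * v * c⁻¹ * v⁻¹ = c * (v * c⁻¹ * v⁻¹) := by group
        rw [this]
        exact (P : Subgroup L).mul_mem hcP (hnorm.conj_mem _ ((P : Subgroup L).inv_mem hcP) v)
      have h2 : c * v * c⁻¹ * v⁻¹ ∈ V := V.mul_mem (hVn.conj_mem v hv c) (V.inv_mem hv)
      have h3 : c * v * c⁻¹ * v⁻¹ ∈ (P : Subgroup L) ⊓ V := Subgroup.mem_inf.2 ⟨h1, h2⟩
      rw [hPV, Subgroup.mem_bot] at h3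
      calc c * v = (c * v * c⁻¹ * v⁻¹) * (v * c) := by group
        _ = v * c := by rw [h3, one_mul]
    · exact h
  set D := Subgroup.normalizer ((P : Subgroup L) : Set L) with hD
  have hcD : c ∈ D := Subgroup.le_normalizer hcP
  have hDV : D ⊓ V = ⊥ := by
    rw [Subgroup.eq_bot_iff_forall]
    intro z hz
    obtain ⟨hzD, hzV⟩ := Subgroup.mem_inf.1 hz
    by_contra hz1
    -- c commutes with z
    have hcz : c * z = z * c := by
      have h1 : z * c * z⁻¹ * c⁻¹ ∈ (P : Subgroup L) := by
        have hzc : z * c * z⁻¹ ∈ (P : Subgroup L) :=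
          (Subgroup.mem_normalizer_iff.1 hzD c).1 hcP
        exact (P : Subgroup L).mul_mem hzc ((P : Subgroup L).inv_mem hcP)
      have h2 : z * c * z⁻¹ * c⁻¹ ∈ V := by
        have : z * c * z⁻¹ * c⁻¹ = z * (c * z⁻¹ * c⁻¹) := by group
        rw [this]
        exact V.mul_mem hzV (hVn.conj_mem _ (V.inv_mem hzV) c)
      have h3 : z * c * z⁻¹ * c⁻¹ ∈ (P : Subgroup L) ⊓ V := Subgroup.mem_inf.2 ⟨h1, h2⟩
      rw [hPV, Subgroup.mem_bot] at h3
      calc c * z = (z * c * z⁻¹ * c⁻¹)⁻¹ * (z * c) := by group
        _ = z * c := by rw [h3, inv_one, one_mul]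
    -- another element of V
    obtain ⟨w, hwV, hw1, hwz⟩ : ∃ w ∈ V, w ≠ 1 ∧ w ≠ z := by
      by_contra hcon
      push Not at hcon
      have hsub : V ≤ Subgroup.zpowers z := by
        intro w hw
        by_cases h1 : w = 1
        · rw [h1]; exact Subgroup.one_mem _
        · rw [hcon w hw h1]; exact Subgroup.mem_zpowers z
      have h2 := Subgroup.card_le_of_le hsub
      have hord : orderOf z = 2 := orderOf_eq_prime (by rw [pow_two]; exact hsq z hzV) hz1
      rw [Nat.card_zpowers, hord, hVcard] at h2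
      omega
    have hVeq : ∀ v ∈ V, v = 1 ∨ v = z ∨ v = w ∨ v = z * w := by
      have hle : kleinSub z w (hsq z hzV) (hsq w hwV) (hcomm z hzV w hwV) ≤ V := by
        intro x hx
        rcases (mem_kleinSub _ _ _ _ _ x).1 hx with h | h | h | h <;> rw [h]
        · exact V.one_mem
        · exact hzV
        · exact hwV
        · exact V.mul_mem hzV hwV
      have heq := Subgroup.eq_of_le_of_card_ge hle (by
        rw [hVcard, (kleinSub_isKleinFour z w (hsq z hzV) (hsq w hwV) (hcomm z hzV w hwV) hz1 hw1
          (fun h => hwz h.symm)).card_four])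
      intro v hv
      rw [← heq] at hv
      exact (mem_kleinSub _ _ _ _ _ v).1 hv
    have hcw : c * w = w * c := by
      have hw' : c * w * c⁻¹ ∈ V := hVn.conj_mem w hwV c
      rcases hVeq _ hw' with h | h | h | h
      · exfalso
        apply hw1
        calc w = c⁻¹ * (c * w * c⁻¹) * c := by group
          _ = 1 := by rw [h]; group
      · exfalso
        apply hwz
        have h5 : c * z * c⁻¹ = z := by rw [hcz]; group
        calc w = c⁻¹ * (c * w * c⁻¹) * c := by group
          _ = c⁻¹ * (c * z * c⁻¹) * c := by rw [h, h5]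
          _ = z := by group
      · calc c * w = (c * w * c⁻¹) * c := by group
          _ = w * c := by rw [h]
      · exfalso
        apply hz1
        have h5 : c * z * c⁻¹ = z := by rw [hcz]; group
        have h6 : c * (c * w * c⁻¹) * c⁻¹ = w := by
          calc c * (c * w * c⁻¹) * c⁻¹ = c * (z * w) * c⁻¹ := by rw [h]
            _ = (c * z * c⁻¹) * (c * w * c⁻¹) := by group
            _ = z * (z * w) := by rw [h5, h]
            _ = w := by rw [← mul_assoc, hsq z hzV, one_mul]
        have h7 : c * (c * (c * w * c⁻¹) * c⁻¹) * c⁻¹ = z * w := by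
          rw [h6, h]
        have h9 : c * (c * (c * w * c⁻¹) * c⁻¹) * c⁻¹ = (c * c * c) * w * (c * c * c)⁻¹ := by
          group
        rw [h9, hc3'] at h7
        have h8 : w = z * w := by simpa using h7
        calc z = (z * w) * w⁻¹ := by group
          _ = 1 := by rw [← h8]; group
    apply hcV
    apply hC
    intro v hv
    rcases hVeq v hv with h | h | h | h <;> rw [h]
    · simp
    · exact hcz
    · exact hcw
    · calc c * (z * w) = (c * z) * w := by group
        _ = z * (c * w) := by rw [hcz]; group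
        _ = z * w * c := by rw [hcw]; group
  have hcore : D.normalCore = ⊥ := by
    rw [Subgroup.eq_bot_iff_forall]
    intro x hx
    have hxV : x ∈ V := by
      apply hC
      intro v hv
      have h1 : x * v * x⁻¹ * v⁻¹ ∈ D.normalCore := by
        have : x * v * x⁻¹ * v⁻¹ = x * (v * x⁻¹ * v⁻¹) := by group
        rw [this]
        exact D.normalCore.mul_mem hx
          ((Subgroup.normalCore_normal D).conj_mem _ (D.normalCore.inv_mem hx) v)
      have h2 : x * v * x⁻¹ * v⁻¹ ∈ V := V.mul_mem (hVn.conj_mem v hv x) (V.inv_mem hv)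
      have h3 : x * v * x⁻¹ * v⁻¹ ∈ D ⊓ V :=
        Subgroup.mem_inf.2 ⟨Subgroup.normalCore_le D h1, h2⟩
      rw [hDV, Subgroup.mem_bot] at h3
      calc x * v = (x * v * x⁻¹ * v⁻¹) * (v * x) := by group
        _ = v * x := by rw [h3, one_mul]
    have : x ∈ D ⊓ V := Subgroup.mem_inf.2 ⟨Subgroup.normalCore_le D hx, hxV⟩
    rw [hDV, Subgroup.mem_bot] at this
    exact this
  have hinj : Function.Injective (MulAction.toPermHom L (L ⧸ D)) := by
    rw [← MonoidHom.ker_eq_bot_iff, ← Subgroup.normalCore_eq_ker, hcore]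
  have hquot : Nat.card (L ⧸ D) = 4 := hidxD
  let e : (L ⧸ D) ≃ Fin 4 := Finite.equivFinOfCardEq hquot
  let ψ : L →* Equiv.Perm (Fin 4) :=
    (e.permCongrHom : Equiv.Perm (L ⧸ D) ≃* Equiv.Perm (Fin 4)).toMonoidHom.comp
      (MulAction.toPermHom L (L ⧸ D))
  have hψ : Function.Injective ψ := by
    intro x y hxy
    apply hinj
    exact (e.permCongrHom).injective hxy
  have hbij : Function.Bijective ψ := by
    apply Function.Injective.bijective_of_nat_card_le hψ
    rw [hL, Nat.card_perm, Nat.card_eq_fintype_card, Fintype.card_fin]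
    decide
  exact ⟨MulEquiv.ofBijective ψ hbij⟩

end abstract

section counting
variable {G : Type*} [Group G]

theorem card_normalizer_eq [Finite G]
    (h12 : 12 * Nat.card {V : Subgroup G // IsKleinFour V} = Nat.card G)
    (h8 : 8 ∣ Nat.card G)
    (h24 : ∀ V : Subgroup G, IsKleinFour V → Nat.card (Subgroup.normalizer (V : Set G)) ≤ 24)
    (V : Subgroup G) (hV : IsKleinFour V) :
    Nat.card (Subgroup.normalizer (V : Set G)) = 24 := by
  classical
  haveI : Fintype G := Fintype.ofFinite G
  haveI : Fintype (Subgroup G) := Fintype.ofFinite _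
  haveI : Fact (Nat.Prime 2) := ⟨Nat.prime_two⟩
  set K := Finset.univ.filter (fun V : Subgroup G => IsKleinFour V) with hK
  have hKmem : ∀ V, V ∈ K ↔ IsKleinFour V := by
    intro V
    simp [hK]
  set k := K.card with hk
  have hkN : 12 * k = Nat.card G := by
    rw [← h12, Nat.card_eq_fintype_card, Fintype.card_subtype]
  have hNpos : 0 < Nat.card G := Nat.card_pos
  have hkpos : 0 < k := by omega
  let O : Subgroup G → Finset (Subgroup G) := fun V => Finset.univ.image (fun x : G => cj x V)
  have hOmem : ∀ V W, W ∈ O V ↔ ∃ g : G, W = cj g V := by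
    intro V W
    simp only [O, Finset.mem_image, Finset.mem_univ, true_and]
    constructor
    · rintro ⟨g, rfl⟩; exact ⟨g, rfl⟩
    · rintro ⟨g, rfl⟩; exact ⟨g, rfl⟩
  have hOsub : ∀ V ∈ K, O V ⊆ K := by
    intro V hV W hW
    obtain ⟨g, rfl⟩ := (hOmem V W).1 hW
    rw [hKmem] at hV ⊢
    exact cj_klein g V hV
  have hOcard : ∀ V, (O V).card * Nat.card (Subgroup.normalizer (V : Set G)) = Nat.card G := by
    intro V
    rw [Nat.card_eq_fintype_card (α := G)]
    exact orbit_card V
  have hdisj : ∀ V V', V' ∉ O V → Disjoint (O V) (O V') := by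
    intro V V' hV'
    rw [Finset.disjoint_left]
    intro W hW hW'
    apply hV'
    obtain ⟨x, rfl⟩ := (hOmem V W).1 hW
    obtain ⟨y, hy⟩ := (hOmem V' _).1 hW'
    rw [hOmem]
    refine ⟨y⁻¹ * x, ?_⟩
    rw [cj_mul, hy, ← cj_mul, inv_mul_cancel, cj_one]
  have hn8 : ∀ V ∈ K, 8 ∣ Nat.card (Subgroup.normalizer (V : Set G)) := by
    intro V hV
    rw [hKmem] at hV
    obtain ⟨P, hP, hVP⟩ := Sylow.exists_subgroup_card_pow_succ (p := 2) (n := 2)
      (by simpa using h8) (H := V) (by rw [hV.card_four]; norm_num)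
    have hidx : (V.subgroupOf P).index = 2 := by
      have h1 := Subgroup.card_mul_index (V.subgroupOf P)
      rw [Nat.card_congr (Subgroup.subgroupOfEquivOfLe hVP).toEquiv, hV.card_four, hP] at h1
      omega
    haveI := Subgroup.normal_of_index_eq_two hidx
    have hle : P ≤ Subgroup.normalizer (V : Set G) :=
      Subgroup.le_normalizer_of_normal_subgroupOf hVP
    have := Subgroup.card_dvd_of_le hle
    rw [hP] at this
    simpa using this
  have hge : ∀ V ∈ K, 12 * k ≤ 24 * (O V).card := by
    intro V hV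
    have h1 := hOcard V
    have h3 := h24 V ((hKmem V).1 hV)
    have := Nat.mul_le_mul_left (O V).card h3
    omega
  have hVK : V ∈ K := (hKmem V).2 hV
  have h1 := hOcard V
  have h2 := Finset.card_le_card (hOsub V hVK)
  have h3 := h24 V hV
  obtain ⟨c, hc⟩ := hn8 V hVK
  rw [hc] at h1 h3 ⊢
  have hc3 : c ≤ 3 := by omega
  have hc1 : 2 ≤ c := by
    by_contra hlt
    push Not at hlt
    have : (O V).card * (8 * c) ≤ (O V).card * 8 :=
      Nat.mul_le_mul_left _ (by omega)
    omega
  interval_cases c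
  · exfalso
    have hlt : (O V).card < K.card := by omega
    obtain ⟨V', hV', hV'n⟩ := Finset.exists_mem_notMem_of_card_lt_card hlt
    have hd := hdisj V V' hV'n
    have hu : (O V ∪ O V').card ≤ K.card :=
      Finset.card_le_card (Finset.union_subset (hOsub V hVK) (hOsub V' hV'))
    rw [Finset.card_union_of_disjoint hd] at hu
    have := hge V' hV'
    omega
  · rfl

end counting

section psl
variable {F : Type*} [Field F]

theorem cent_le [Fintype F] (h2 : (2 : F) ≠ 0) (V : Subgroup (PSLF F)) (hV : IsKleinFour V)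
    (x : PSLF F) (hx : ∀ v ∈ V, x * v = v * x) : x ∈ V := by
  classical
  obtain ⟨hsq, hcomm⟩ := klein_facts V hV
  set W := Finset.univ.filter (fun x : PSLF F => x ∈ V ∧ x ≠ 1) with hW
  have h4 : (Finset.univ.filter (fun x : PSLF F => x ∈ V)).card = 4 := by
    rw [← hV.card_four, Nat.card_eq_fintype_card]
    exact (Fintype.card_of_subtype _ (by simp)).symm
  have hWc : W.card = 3 := by
    have : W = (Finset.univ.filter (fun x : PSLF F => x ∈ V)).erase 1 := by
      ext x
      simp only [hW, Finset.mem_filter, Finset.mem_univ, true_and, Finset.mem_erase]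
      tauto
    rw [this, Finset.card_erase_of_mem (by simp [V.one_mem]), h4]
  obtain ⟨a, ha, b, hb, hab⟩ := Finset.one_lt_card.1 (by rw [hWc]; norm_num : 1 < W.card)
  obtain ⟨g, rfl⟩ := QuotientGroup.mk_surjective a
  obtain ⟨h, rfl⟩ := QuotientGroup.mk_surjective b
  simp only [hW, Finset.mem_filter, Finset.mem_univ, true_and] at ha hb
  obtain ⟨hg, hgh⟩ := pair_of_klein h2 g h (hsq _ ha.1) (hsq _ hb.1) (hcomm _ ha.1 _ hb.1)
    ha.2 hb.2 hab
  choose lift hlift using (fun x : PSLF F => QuotientGroup.mk_surjective x)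
  have hpairs := card_lift_pairs h2
    ({((QuotientGroup.mk g : PSLF F), (QuotientGroup.mk h : PSLF F))} : Finset (PSLF F × PSLF F))
  rw [Finset.card_singleton] at hpairs
  have hmaps : ∀ y : {y : PSLF F // y * QuotientGroup.mk g = QuotientGroup.mk g * y ∧
      y * QuotientGroup.mk h = QuotientGroup.mk h * y},
      ((QuotientGroup.mk (lift y.1 * g * (lift y.1)⁻¹) : PSLF F),
        (QuotientGroup.mk (lift y.1 * h * (lift y.1)⁻¹) : PSLF F)) ∈
        ({((QuotientGroup.mk g : PSLF F), (QuotientGroup.mk h : PSLF F))} :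
          Finset (PSLF F × PSLF F)) := by
    rintro ⟨y, hy1, hy2⟩
    simp only [Finset.mem_singleton, Prod.mk.injEq, QuotientGroup.mk_mul, QuotientGroup.mk_inv,
      hlift]
    constructor
    · rw [hy1]; group
    · rw [hy2]; group
  have hle := Nat.card_le_card_of_injective
    (fun y : {y : PSLF F // y * QuotientGroup.mk g = QuotientGroup.mk g * y ∧
        y * QuotientGroup.mk h = QuotientGroup.mk h * y} =>
      (⟨(lift y.1 * g * (lift y.1)⁻¹, lift y.1 * h * (lift y.1)⁻¹), hmaps y⟩ :
        {p : SLF F × SLF F //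
          ((QuotientGroup.mk p.1 : PSLF F), (QuotientGroup.mk p.2 : PSLF F)) ∈
            ({((QuotientGroup.mk g : PSLF F), (QuotientGroup.mk h : PSLF F))} :
              Finset (PSLF F × PSLF F))})) ?_
  · rw [hpairs, Nat.card_eq_fintype_card, Fintype.card_subtype] at hle
    have hsub : Finset.univ.filter (fun x : PSLF F => x ∈ V) ⊆
        Finset.univ.filter (fun y : PSLF F => y * QuotientGroup.mk g = QuotientGroup.mk g * y ∧
          y * QuotientGroup.mk h = QuotientGroup.mk h * y) := by
      intro y hy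
      simp only [Finset.mem_filter, Finset.mem_univ, true_and] at hy ⊢
      exact ⟨hcomm _ hy _ ha.1, hcomm _ hy _ hb.1⟩
    have heq := Finset.eq_of_subset_of_card_le hsub (by rw [h4]; omega)
    have hxmem : x ∈ Finset.univ.filter (fun y : PSLF F =>
        y * QuotientGroup.mk g = QuotientGroup.mk g * y ∧
          y * QuotientGroup.mk h = QuotientGroup.mk h * y) := by
      simp only [Finset.mem_filter, Finset.mem_univ, true_and]
      exact ⟨hx _ ha.1, hx _ hb.1⟩
    rw [← heq] at hxmem
    simpa using hxmem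
  · rintro ⟨y, hy⟩ ⟨y', hy'⟩ hyy
    simp only [Subtype.mk.injEq, Prod.mk.injEq] at hyy
    obtain ⟨e1, e2⟩ := hyy
    have c1 : ((lift y')⁻¹ * lift y) * g = g * ((lift y')⁻¹ * lift y) := by
      calc ((lift y')⁻¹ * lift y) * g = (lift y')⁻¹ * (lift y * g * (lift y)⁻¹) * lift y := by
            group
        _ = (lift y')⁻¹ * (lift y' * g * (lift y')⁻¹) * lift y := by rw [e1]
        _ = g * ((lift y')⁻¹ * lift y) := by group
    have c2 : ((lift y')⁻¹ * lift y) * h = h * ((lift y')⁻¹ * lift y) := by
      calc ((lift y')⁻¹ * lift y) * h = (lift y')⁻¹ * (lift y * h * (lift y)⁻¹) * lift y := by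
            group
        _ = (lift y')⁻¹ * (lift y' * h * (lift y')⁻¹) * lift y := by rw [e2]
        _ = h * ((lift y')⁻¹ * lift y) := by group
    have key := comm_pair h2 _ g h hg hgh c1 c2
    have : (QuotientGroup.mk ((lift y')⁻¹ * lift y) : PSLF F) = 1 :=
      (mk_eq_one_iff h2 _).2 key
    rw [QuotientGroup.mk_mul, QuotientGroup.mk_inv, hlift, hlift] at this
    have e : y = y' * (y'⁻¹ * y) := by group
    apply Subtype.ext
    change y = y'
    rw [e, this, mul_one]

theorem sq_of_fourth (h2 : (2 : F) = 0) (X : SLF F) (h : (X * X) * (X * X) = 1) :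
    X * X = 1 := by
  have sq_inj : ∀ u v : F, u ^ 2 = v ^ 2 → u = v := by
    intro u v huv
    have : (u - v) ^ 2 = 0 := by linear_combination huv + (v ^ 2 - u * v) * h2
    have := pow_eq_zero_iff (two_ne_zero) |>.1 this
    linear_combination this
  have h00 := congrArg (fun z : SLF F => z 0 0) h
  have h11 := congrArg (fun z : SLF F => z 1 1) h
  simp only [mul00, mul11, mul01, mul10, one00, one11] at h00 h11
  have hd := det2 X
  have hY : (X * X) 1 1 = (X * X) 0 0 := by
    apply sq_inj
    simp only [mul00, mul11, mul01, mul10]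
    linear_combination h11 - h00
  simp only [mul00, mul11] at hY
  have had : X 1 1 = X 0 0 := by
    apply sq_inj
    linear_combination hY
  apply ext2 <;> simp only [mul00, mul01, mul10, mul11, one00, one01, one10, one11] <;> grind

end psl

theorem S4_elt : ∃ s : Equiv.Perm (Fin 4), (s * s) * (s * s) = 1 ∧ s * s ≠ 1 := by
  refine ⟨Equiv.swap 0 1 * Equiv.swap 1 2 * Equiv.swap 2 3, ?_⟩
  decide

/-- PSL_2(q) has a subgroup isomorphic to S_4 iff q² ≡ 1 (mod 16). -/
theorem result {F : Type*} [Field F] [Fintype F] {q : ℕ} (hF : Fintype.card F = q) : (∃ H : Subgroup (Matrix.ProjectiveSpecialLinearGroup (Fin 2) F), Nonempty (H ≃* Equiv.Perm (Fin 4))) ↔ q ^ 2 % 16 = 1 := by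
  classical
  have hq1 : 1 < q := by rw [← hF]; exact Fintype.one_lt_card
  by_cases h2 : (2 : F) = 0
  · -- characteristic two: neither side holds
    have heven : Even q := by
      have := FiniteField.even_card_iff_char_two.1
        (CharP.ringChar_of_prime_eq_zero (R := F) Nat.prime_two (by exact_mod_cast h2))
      rw [hF] at this
      exact Nat.even_iff.2 this
    constructor
    · rintro ⟨H, ⟨e⟩⟩
      exfalso
      obtain ⟨s, hs4, hs2⟩ := S4_elt
      obtain ⟨X, hX⟩ := QuotientGroup.mk_surjective ((e.symm s : H) : PSLF F)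
      have h4 : (X * X) * (X * X) = 1 := by
        apply Cfsg.Agent.S0802.mk_inj2 h2
        have := congrArg (fun u => ((e.symm u : H) : PSLF F)) hs4
        simp only [map_mul, map_one, Subgroup.coe_mul, Subgroup.coe_one] at this
        simp only [QuotientGroup.mk_mul, hX]
        exact this
      have hXX := sq_of_fourth h2 X h4
      apply hs2
      apply e.symm.injective
      apply Subtype.ext
      rw [map_mul, map_one, Subgroup.coe_mul, ← hX, ← QuotientGroup.mk_mul, hXX]
      rfl
    · intro h
      exfalso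
      obtain ⟨j, rfl⟩ := heven
      have : (j + j) ^ 2 = 4 * j ^ 2 := by ring
      rw [this] at h
      omega
  · have hodd : Odd q := by
      rcases Nat.even_or_odd q with h | h
      · exfalso
        rw [← hF] at h
        have := FiniteField.even_card_iff_char_two.2 (Nat.even_iff.1 h)
        apply h2
        have h3 := CharP.cast_eq_zero F (ringChar F)
        rw [this] at h3
        exact_mod_cast h3
      · exact h
    have h12 := Cfsg.Agent.S0807.result (F := F) hF hodd
    have hN := Cfsg.Agent.S0243.result (F := F) hF 2 le_rfl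
    obtain ⟨m, hm⟩ := hodd
    have hm1 : 1 ≤ m := by omega
    have hNm : Nat.card (PSLF F) = 2 * m * (m + 1) * (2 * m + 1) := by
      rw [hm] at hN
      rw [Fin.prod_univ_two] at hN
      simp only [Fin.val_zero, Fin.val_one, pow_zero, pow_one] at hN
      have e1 : 2 * m + 1 - 1 = 2 * m := by omega
      have e2 : (2 * m + 1) ^ 2 - 1 = 4 * m * (m + 1) := by
        have : (2 * m + 1) ^ 2 = 4 * m * (m + 1) + 1 := by ring
        omega
      have e3 : (2 * m + 1) ^ 2 - (2 * m + 1) = 2 * m * (2 * m + 1) := by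
        have : (2 * m + 1) ^ 2 = 2 * m * (2 * m + 1) + (2 * m + 1) := by ring
        omega
      have e4 : Nat.gcd 2 (2 * m) = 2 := Nat.gcd_eq_left (dvd_mul_right 2 m)
      rw [e1, e2, e3, e4] at hN
      have : (4 * m) * Nat.card (PSLF F) = (4 * m) * (2 * m * (m + 1) * (2 * m + 1)) := by
        calc (4 * m) * Nat.card (PSLF F) = 2 * (2 * m * Nat.card (PSLF F)) := by ring
          _ = (4 * m) * (2 * m * (m + 1) * (2 * m + 1)) := by rw [hN]; ring
      exact Nat.eq_of_mul_eq_mul_left (by omega) this
    have hcases : (8 ∣ Nat.card (PSLF F)) ↔ q ^ 2 % 16 = 1 := by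
      rw [hNm, hm]
      rcases (by omega : m % 4 = 0 ∨ m % 4 = 1 ∨ m % 4 = 2 ∨ m % 4 = 3) with h | h | h | h
      · obtain ⟨j, rfl⟩ : ∃ j, m = 4 * j := ⟨m / 4, by omega⟩
        have e1 : 2 * (4 * j) * (4 * j + 1) * (2 * (4 * j) + 1) =
            8 * (j * (4 * j + 1) * (2 * (4 * j) + 1)) := by ring
        have e2 : (2 * (4 * j) + 1) ^ 2 = 16 * (4 * j ^ 2 + j) + 1 := by ring
        rw [e1, e2]
        constructor
        · intro _; omega
        · intro _; exact dvd_mul_right _ _
      · obtain ⟨j, rfl⟩ : ∃ j, m = 4 * j + 1 := ⟨m / 4, by omega⟩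
        have e1 : 2 * (4 * j + 1) * (4 * j + 1 + 1) * (2 * (4 * j + 1) + 1) =
            8 * (32 * j ^ 3 + 36 * j ^ 2 + 13 * j + 1) + 4 := by ring
        have e2 : (2 * (4 * j + 1) + 1) ^ 2 = 16 * (4 * j ^ 2 + 3 * j) + 9 := by ring
        rw [e1, e2]
        constructor
        · intro h; omega
        · intro h; omega
      · obtain ⟨j, rfl⟩ : ∃ j, m = 4 * j + 2 := ⟨m / 4, by omega⟩
        have e1 : 2 * (4 * j + 2) * (4 * j + 2 + 1) * (2 * (4 * j + 2) + 1) =
            8 * (32 * j ^ 3 + 60 * j ^ 2 + 37 * j + 7) + 4 := by ring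
        have e2 : (2 * (4 * j + 2) + 1) ^ 2 = 16 * (4 * j ^ 2 + 5 * j + 1) + 9 := by ring
        rw [e1, e2]
        constructor
        · intro h; omega
        · intro h; omega
      · obtain ⟨j, rfl⟩ : ∃ j, m = 4 * j + 3 := ⟨m / 4, by omega⟩
        have e1 : 2 * (4 * j + 3) * (4 * j + 3 + 1) * (2 * (4 * j + 3) + 1) =
            8 * ((4 * j + 3) * (j + 1) * (2 * (4 * j + 3) + 1)) := by ring
        have e2 : (2 * (4 * j + 3) + 1) ^ 2 = 16 * (4 * j ^ 2 + 7 * j + 3) + 1 := by ring
        rw [e1, e2]
        constructor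
        · intro _; omega
        · intro _; exact dvd_mul_right _ _
    rw [← hcases]
    constructor
    · rintro ⟨H, ⟨e⟩⟩
      have hHcard : Nat.card H = 24 := by
        rw [Nat.card_congr e.toEquiv, Nat.card_perm, Nat.card_eq_fintype_card, Fintype.card_fin]
        decide
      have hdvd := Subgroup.card_subgroup_dvd_card H
      rw [hHcard] at hdvd
      exact dvd_trans (by decide : 8 ∣ 24) hdvd
    · intro h8
      have hpos : 0 < Nat.card {V : Subgroup (PSLF F) // IsKleinFour V} :=
        Nat.pos_of_ne_zero (fun h0 => by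
          rw [h0, mul_zero] at h12
          exact (Nat.card_pos (α := PSLF F)).ne' h12.symm)
      obtain ⟨⟨V, hV⟩⟩ := (Nat.card_pos_iff.1 hpos).1
      have h24 := card_normalizer_eq h12 h8 (fun V hV => card_normalizer_le h2 V hV) V hV
      refine ⟨Subgroup.normalizer (V : Set (PSLF F)), ?_⟩
      have hVk : IsKleinFour ↥(V.subgroupOf (Subgroup.normalizer (V : Set (PSLF F)))) := by
        have e : ↥(V.subgroupOf (Subgroup.normalizer (V : Set (PSLF F)))) ≃* ↥V :=
          Subgroup.subgroupOfEquivOfLe Subgroup.le_normalizer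
        exact ⟨by rw [Nat.card_congr e.toEquiv]; exact hV.card_four,
          by rw [Monoid.exponent_eq_of_mulEquiv e]; exact hV.exponent_two⟩
      refine recog24 h24 (V.subgroupOf (Subgroup.normalizer (V : Set (PSLF F)))) hVk ?_
      rintro ⟨x, hxN⟩ hx
      rw [Subgroup.mem_subgroupOf]
      apply cent_le h2 V hV x
      intro v hv
      have := hx ⟨v, Subgroup.le_normalizer hv⟩ (Subgroup.mem_subgroupOf.2 hv)
      exact congrArg Subtype.val this

end Cfsg.Agent.S0803
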