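import Cfsg.Statements.S5892
import Mathlib
import Cfsg.Agent.Lib.Helper19.DkR
import Cfsg.Agent.S0802
import Cfsg.Agent.S0803
import Cfsg.Agent.S0804

set_option autoImplicit false
open Cfsg

namespace Cfsg.Agent.S5892

open Matrix Cfsg.Agent.S0809 Cfsg.Agent.Lib.Helper19.Dk

section Helpers

variable {F : Type*} [Field F]

theorem case_c2 [Fintype F] (h4 : 4 ≤ Fintype.card F) (L : Subgroup (S2 F)) (hmx : Mx L)
    (hZ : Subgroup.center (S2 F) ≤ L) (x : S2 F) (hss : tr x ^ 2 ≠ 4)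
    (hall : ∀ g ∈ L, g * x = x * g) : False := by
  have hLT : L ≤ Subgroup.centralizer {x} := by
    intro g hg
    rw [Subgroup.mem_centralizer_iff]
    intro w hw
    rw [Set.mem_singleton_iff] at hw
    rw [hw]; exact (hall g hg).symm
  have hTne : Subgroup.centralizer ({x} : Set (S2 F)) ≠ ⊤ := by
    intro h
    apply not_isSc_of_tr x hss
    apply isSc_of_comm
    intro g
    have : g ∈ Subgroup.centralizer ({x} : Set (S2 F)) := by rw [h]; exact Subgroup.mem_top _
    rw [Subgroup.mem_centralizer_iff] at this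
    exact this x rfl
  have hTL : Subgroup.centralizer ({x} : Set (S2 F)) = L := (hmx.2 _ hLT).resolve_right hTne
  obtain ⟨w, -, hw⟩ := exists_inverting x hss
  have hwL : w ∈ L := by
    apply mx_normalizer h4 L hmx hZ w
    intro t ht
    rw [← hTL, Subgroup.mem_centralizer_iff]
    intro y hy
    rw [Set.mem_singleton_iff] at hy
    rw [hy]
    have h1 : t * x = x * t := hall t ht
    have h2 := conj_comm w t x h1
    rw [hw] at h2
    calc x * (w * t * w⁻¹) = x * ((w * t * w⁻¹) * x⁻¹) * x := by group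
      _ = x * (x⁻¹ * (w * t * w⁻¹)) * x := by rw [h2]
      _ = w * t * w⁻¹ * x := by group
  have h1 := hall w hwL
  have h2 : w * x * w⁻¹ = x := by rw [h1]; group
  rw [hw] at h2
  exact ne_inv_of_ss x hss h2.symm

theorem case_c4 [Fintype F] (L : Subgroup (S2 F)) (hmx : Mx L) (g : S2 F)
    (hg : ∀ ℓ ∈ L, (g * ℓ * g⁻¹) 1 0 = 0) :
    Nat.card L = Fintype.card F * (Fintype.card F - 1) := by
  have h1 : L.map (MulAut.conj g).toMonoidHom ≤ Bor F := by
    rintro _ ⟨ℓ, hℓ, rfl⟩
    exact hg ℓ hℓ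
  have hmx' := mx_map L hmx (MulAut.conj g)
  rcases hmx'.2 _ h1 with h | h
  · rw [← card_map (MulAut.conj g) L, ← h, card_Bor]
  · exfalso
    apply ll_notMem_Bor (F := F)
    rw [h]
    exact Subgroup.mem_top _

theorem exists_order_in [Finite F] (K : Subgroup (S2 F)) (r : ℕ) [Fact r.Prime]
    (h : r ∣ Nat.card K) : ∃ y ∈ K, orderOf y = r := by
  obtain ⟨y, hy⟩ := exists_prime_orderOf_dvd_card' (G := K) r h
  exact ⟨y, y.2, by rw [Subgroup.orderOf_coe]; exact hy⟩

theorem unip_of_order (p : ℕ) [Fact p.Prime] [CharP F p] (hp2 : p ≠ 2) (y : S2 F)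
    (hy : orderOf y = p) : tr y ^ 2 = 4 ∧ ¬ IsSc y := by
  have h1 : y ^ p = 1 := by rw [← hy]; exact pow_orderOf_eq_one y
  have h2 := tr_of_pow_char p y h1
  refine ⟨by rw [h2]; norm_num, ?_⟩
  intro hs
  have h3 := isSc_mul_self y hs
  have h4 : orderOf y ∣ 2 := orderOf_dvd_of_pow_eq_one (by rw [pow_two]; exact h3)
  rw [hy] at h4
  have h5 := Nat.le_of_dvd (by norm_num) h4
  have h6 := (Fact.out : p.Prime).two_le
  omega

theorem conj_eq_or_inv [Finite F] (L : Subgroup (S2 F)) (x : S2 F) (hx : x ∈ L)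
    (hss : tr x ^ 2 ≠ 4) (hcard : Nat.card L = 2 * cA L x) (ℓ : S2 F) (hℓ : ℓ ∈ L) :
    ℓ * x * ℓ⁻¹ = x ∨ ℓ * x * ℓ⁻¹ = x⁻¹ := by
  have hCL : cenL L x ≤ L := inf_le_left
  have hidx : ((cenL L x).subgroupOf L).index = 2 := by
    have h1 := Subgroup.card_mul_index ((cenL L x).subgroupOf L)
    rw [Nat.card_congr (Subgroup.subgroupOfEquivOfLe hCL).toEquiv, hcard] at h1
    have hCpos : 0 < Nat.card (cenL L x) := Nat.card_pos
    have h2 : Nat.card (cenL L x) * ((cenL L x).subgroupOf L).index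
        = Nat.card (cenL L x) * 2 := by
      rw [h1]
      unfold cA
      ring
    exact Nat.eq_of_mul_eq_mul_left hCpos h2
  have hnorm := Subgroup.normal_of_index_eq_two hidx
  have hxC : (⟨x, hx⟩ : L) ∈ (cenL L x).subgroupOf L := by
    rw [Subgroup.mem_subgroupOf]; exact mem_cenL.2 ⟨hx, rfl⟩
  have h5 := hnorm.conj_mem _ hxC ⟨ℓ, hℓ⟩
  rw [Subgroup.mem_subgroupOf] at h5
  have h6 : ℓ * x * ℓ⁻¹ ∈ cenL L x := h5
  have h7 := (mem_cenL.1 h6).2
  exact eq_or_inv x (ℓ * x * ℓ⁻¹) hss h7 (tr_conj ℓ x)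

theorem c3_core [Fintype F] (p : ℕ) [Fact p.Prime] [CharP F p] (h2 : (2 : F) ≠ 0)
    (h5 : 5 ≤ Fintype.card F) (M : Subgroup (P2 F)) (hM : IsCoatom M) (x : S2 F)
    (hx : x ∈ Lof M) (hss : tr x ^ 2 ≠ 4) (hcard : Nat.card (Lof M) = 2 * cA (Lof M) x) :
    ∃ n : ℕ, Nonempty (M ≃* DihedralGroup n) ∧ Nat.card M = 2 * n ∧
      (2 * n = Fintype.card F - 1 ∨ 2 * n = Fintype.card F + 1) ∧
      ∃ C : Subgroup (P2 F), Nat.card C = n ∧ ∀ m ∈ M, ∀ c ∈ C, m * c * m⁻¹ ∈ C := by
  have hZ := center_le_Lof M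
  have hmx := mx_of_coatom M hM
  have hz2 := center_card_two h2
  have hxs : ¬ IsSc x := not_isSc_of_tr x hss
  have hTn : ∀ ℓ ∈ Lof M, ∀ t ∈ Subgroup.centralizer ({x} : Set (S2 F)),
      ℓ * t * ℓ⁻¹ ∈ Subgroup.centralizer ({x} : Set (S2 F)) := by
    intro ℓ hℓ t ht
    rw [Subgroup.mem_centralizer_iff] at ht ⊢
    intro y hy
    rw [Set.mem_singleton_iff] at hy
    rw [hy]
    have h1 : t * x = x * t := (ht x rfl).symm
    have h3 := conj_comm ℓ t x h1
    rcases conj_eq_or_inv (Lof M) x hx hss hcard ℓ hℓ with h4 | h4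
    · rw [h4] at h3
      exact h3.symm
    · rw [h4] at h3
      calc x * (ℓ * t * ℓ⁻¹) = x * ((ℓ * t * ℓ⁻¹) * x⁻¹) * x := by group
        _ = x * (x⁻¹ * (ℓ * t * ℓ⁻¹)) * x := by rw [h3]
        _ = ℓ * t * ℓ⁻¹ * x := by group
  have hxT : x ∈ Subgroup.centralizer ({x} : Set (S2 F)) := by
    rw [Subgroup.mem_centralizer_iff]
    intro y hy
    rw [Set.mem_singleton_iff] at hy
    rw [hy]
  have hTL : Subgroup.centralizer ({x} : Set (S2 F)) ≤ Lof M := by
    apply mx_contains (by omega) (Lof M) hmx _ hTn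
    · intro h
      exact hxs ((isSc_iff_center x).2 (h hxT))
    · intro a ha b hb
      rw [Subgroup.mem_centralizer_iff] at ha hb
      exact comm_trans a x b hxs (ha x rfl).symm (hb x rfl).symm
    · refine ⟨uu 1, ll 1, ?_⟩
      intro h
      apply not_comm_P2 (K := F)
      rw [← map_mul, ← map_mul, h]
  have hcA : cA (Lof M) x = Nat.card (Subgroup.centralizer ({x} : Set (S2 F))) := by
    unfold cA cenL
    rw [inf_eq_right.2 hTL]
  have hZT : Subgroup.center (S2 F) ≤ Subgroup.centralizer ({x} : Set (S2 F)) := by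
    intro z hz
    rw [Subgroup.mem_centralizer_iff]
    intro y _
    exact (Subgroup.mem_center_iff.1 hz y)
  obtain ⟨n, -, ⟨e⟩⟩ := out_dih p M x hx hss hcard
  have hMn : Nat.card M = 2 * n := by rw [Nat.card_congr e.toEquiv, DihedralGroup.nat_card]
  have hLc : Nat.card (Lof M) = 2 * Nat.card M := by rw [card_Lof, hz2]
  have hT2 : Nat.card (Subgroup.centralizer ({x} : Set (S2 F))) = 2 * n := by
    rw [← hcA]; omega
  have hCc := card_map_prj _ hZT
  rw [hz2, hT2] at hCc
  refine ⟨n, ⟨e⟩, hMn, ?_, (Subgroup.centralizer ({x} : Set (S2 F))).map (prj F), by omega, ?_⟩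
  · rcases card_centralizer_eq p h2 h5 x hss with h | h
    · left; rw [← hT2, h]
    · right; rw [← hT2, h]
  · rintro m hm _ ⟨t, ht, rfl⟩
    obtain ⟨ℓ, hℓ, rfl⟩ := exists_lift M ⟨m, hm⟩
    refine ⟨ℓ * t * ℓ⁻¹, hTn ℓ hℓ t ht, ?_⟩
    rw [map_mul, map_mul, map_inv]

theorem card_P2_odd [Fintype F] (hodd : Odd (Fintype.card F)) :
    2 * Nat.card (P2 F) = Fintype.card F * (Fintype.card F ^ 2 - 1) := by
  have h := card_P2 (F := F)
  obtain ⟨j, hj⟩ := hodd
  have e : Nat.gcd 2 (Fintype.card F - 1) = 2 := by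
    rw [hj]
    have : 2 * j + 1 - 1 = 2 * j := by omega
    rw [this]
    exact Nat.gcd_eq_left (dvd_mul_right 2 j)
  rw [e] at h
  exact h

open Cfsg.Agent.Lib.Helper19.A5P in
theorem c3_excl [Fintype F] (p : ℕ) [Fact p.Prime] [CharP F p] (h2 : (2 : F) ≠ 0)
    (hodd : Odd (Fintype.card F)) (h5 : 5 ≤ Fintype.card F) (M : Subgroup (P2 F))
    (hM : IsCoatom M) (n : ℕ) (hMn : Nat.card M = 2 * n) (C : Subgroup (P2 F))
    (hC : Nat.card C = n) (hCn : ∀ m ∈ M, ∀ c ∈ C, m * c * m⁻¹ ∈ C) :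
    (2 * n = Fintype.card F - 1 → 13 ≤ Fintype.card F) ∧
    (2 * n = Fintype.card F + 1 → Fintype.card F ≠ 7 ∧ Fintype.card F ≠ 9) := by
  classical
  haveI := simple_P2 (K := F) (by omega)
  haveI : Fact (Nat.Prime 2) := ⟨Nat.prime_two⟩
  haveI : Fact (Nat.Prime 3) := ⟨Nat.prime_three⟩
  haveI : Fact (Nat.Prime 5) := ⟨Nat.prime_five⟩
  have hG := card_P2_odd hodd
  have hA4 : ∃ H : Subgroup (P2 F), Nonempty (H ≃* alternatingGroup (Fin 4)) := by
    obtain ⟨k, -, hk⟩ := FiniteField.card F p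
    exact (Cfsg.Agent.S0802.result p k hk).2 (fun h => char_ne_two (F := F) p h2 h.1)
  have hS4 : Fintype.card F ^ 2 % 16 = 1 →
      ∃ H : Subgroup (P2 F), Nonempty (H ≃* Equiv.Perm (Fin 4)) :=
    (Cfsg.Agent.S0803.result rfl).2
  have hA5 : 5 ∣ Fintype.card F * (Fintype.card F ^ 2 - 1) →
      ∃ H : Subgroup (P2 F), Nonempty (H ≃* alternatingGroup (Fin 5)) :=
    (Cfsg.Agent.S0804.result rfl).2
  obtain ⟨s1, s2, s3, s4, s5⟩ := s4_dih
  obtain ⟨d1, d2, d3, d4, d5⟩ := a5_dih
  have o3 : orderOf s4t = 3 := orderOf_eq_prime s1 s2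
  have o2 : orderOf s4d = 2 := orderOf_eq_prime s3 s4
  have o5 : orderOf x0 = 5 := orderOf_eq_prime d1 d2
  have o2' : orderOf a5d = 2 := orderOf_eq_prime d3 d4
  constructor
  · intro hn
    by_contra hlt
    push Not at hlt
    have hq : Fintype.card F = 5 ∨ Fintype.card F = 7 ∨ Fintype.card F = 9 ∨
        Fintype.card F = 11 := by
      obtain ⟨j, hj⟩ := hodd
      omega
    rcases hq with hq | hq | hq | hq
    · rw [hq] at hG hn
      have hn2 : n = 2 := by omega
      have hGc : Nat.card (P2 F) = 60 := by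
        have e : (5 : ℕ) * (5 ^ 2 - 1) = 120 := by norm_num
        rw [e] at hG
        omega
      obtain ⟨H, ⟨ψ⟩⟩ := hA4
      have hHc : Nat.card H = 12 := by rw [Nat.card_congr ψ.toEquiv, card_A4]
      exact sylow_excl M H hM 2 2 (by rw [hMn, hn2]; norm_num) (by rw [hGc]; norm_num)
        (by rw [hHc]; norm_num) (by rw [hHc]; norm_num) (by rw [hHc, hGc]; norm_num)
    · obtain ⟨H, ⟨ψ⟩⟩ := hS4 (by rw [hq]; norm_num)
      rw [hq] at hG hn
      have hn3 : n = 3 := by omega
      have hGc : Nat.card (P2 F) = 168 := by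
        have e : (7 : ℕ) * (7 ^ 2 - 1) = 336 := by norm_num
        rw [e] at hG
        omega
      exact dih_excl M C hM 3 (by norm_num) (by rw [hC, hn3]) hCn (by rw [hMn, hn3])
        (by rw [hGc]; norm_num) H ψ s4t s4d o3 o2 s5 (by rw [card_S4]; norm_num)
        (by rw [card_S4, hGc]; norm_num)
    · obtain ⟨H, ⟨ψ⟩⟩ := hS4 (by rw [hq]; norm_num)
      rw [hq] at hG hn
      have hn4 : n = 4 := by omega
      have hGc : Nat.card (P2 F) = 360 := by
        have e : (9 : ℕ) * (9 ^ 2 - 1) = 720 := by norm_num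
        rw [e] at hG
        omega
      have hHc : Nat.card H = 24 := by rw [Nat.card_congr ψ.toEquiv, card_S4]
      exact sylow_excl M H hM 2 3 (by rw [hMn, hn4]; norm_num) (by rw [hGc]; norm_num)
        (by rw [hHc]; norm_num) (by rw [hHc]; norm_num) (by rw [hHc, hGc]; norm_num)
    · obtain ⟨H, ⟨ψ⟩⟩ := hA5 (by rw [hq]; norm_num)
      rw [hq] at hG hn
      have hn5 : n = 5 := by omega
      have hGc : Nat.card (P2 F) = 660 := by
        have e : (11 : ℕ) * (11 ^ 2 - 1) = 1320 := by norm_num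
        rw [e] at hG
        omega
      exact dih_excl M C hM 5 (by norm_num) (by rw [hC, hn5]) hCn (by rw [hMn, hn5])
        (by rw [hGc]; norm_num) H ψ x0 a5d o5 o2' d5 (by rw [card_A5]; norm_num)
        (by rw [card_A5, hGc]; norm_num)
  · intro hn
    constructor
    · intro hq
      obtain ⟨H, ⟨ψ⟩⟩ := hS4 (by rw [hq]; norm_num)
      rw [hq] at hG hn
      have hn4 : n = 4 := by omega
      have hGc : Nat.card (P2 F) = 168 := by
        have e : (7 : ℕ) * (7 ^ 2 - 1) = 336 := by norm_num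
        rw [e] at hG
        omega
      have hHc : Nat.card H = 24 := by rw [Nat.card_congr ψ.toEquiv, card_S4]
      exact sylow_excl M H hM 2 3 (by rw [hMn, hn4]; norm_num) (by rw [hGc]; norm_num)
        (by rw [hHc]; norm_num) (by rw [hHc]; norm_num) (by rw [hHc, hGc]; norm_num)
    · intro hq
      obtain ⟨H, ⟨ψ⟩⟩ := hA5 (by rw [hq]; norm_num)
      rw [hq] at hG hn
      have hn5 : n = 5 := by omega
      have hGc : Nat.card (P2 F) = 360 := by
        have e : (9 : ℕ) * (9 ^ 2 - 1) = 720 := by norm_num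
        rw [e] at hG
        omega
      exact dih_excl M C hM 5 (by norm_num) (by rw [hC, hn5]) hCn (by rw [hMn, hn5])
        (by rw [hGc]; norm_num) H ψ x0 a5d o5 o2' d5 (by rw [card_A5]; norm_num)
        (by rw [card_A5, hGc]; norm_num)

theorem pm_one_mem (K : Subfield F) (t : F) (h : t ^ 2 = 1) : t ∈ K := by
  have : (t - 1) * (t + 1) = 0 := by linear_combination h
  rcases mul_eq_zero.1 this with h1 | h1
  · have : t = 1 := by linear_combination h1
    rw [this]; exact K.one_mem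
  · have : t = -1 := by linear_combination h1
    rw [this]; exact K.neg_mem K.one_mem

theorem two_mem (K : Subfield F) : (2 : F) ∈ K := by
  have : (2 : F) = 1 + 1 := by norm_num
  rw [this]; exact K.add_mem K.one_mem K.one_mem

theorem prime_dvd_235 (p a b c : ℕ) (hp : p.Prime) (h : p ∣ 2 ^ a * 3 ^ b * 5 ^ c) :
    p = 2 ∨ p = 3 ∨ p = 5 := by
  rcases (Nat.Prime.dvd_mul hp).1 h with h1 | h1
  · rcases (Nat.Prime.dvd_mul hp).1 h1 with h2 | h2
    · left; exact (Nat.prime_dvd_prime_iff_eq hp Nat.prime_two).1 (hp.dvd_of_dvd_pow h2)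
    · right; left
      exact (Nat.prime_dvd_prime_iff_eq hp Nat.prime_three).1 (hp.dvd_of_dvd_pow h2)
  · right; right
    exact (Nat.prime_dvd_prime_iff_eq hp Nat.prime_five).1 (hp.dvd_of_dvd_pow h1)

theorem card_eq_p_of_bot [Fintype F] (p : ℕ) [Fact p.Prime] [CharP F p]
    (h : (⊥ : Subfield F) = ⊤) : Fintype.card F = p := by
  have h1 := Subfield.card_bot F p
  rw [h] at h1
  rw [← h1, ← Nat.card_eq_fintype_card]
  exact (Nat.card_congr (Subfield.topEquiv (K := F)).toEquiv).symm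

/-- the shape of the two subfield conclusions -/
def FieldOut (F : Type*) [Field F] [Fintype F] (M : Subgroup (P2 F)) : Prop :=
  (∃ (K : Type) (_ : Field K) (_ : Fintype K), Fintype.card F = Fintype.card K ^ 2 ∧
      Nonempty (M ≃* Matrix.ProjGenLinGroup (Fin 2) K)) ∨
  (∃ (K : Type) (_ : Field K) (_ : Fintype K) (r : ℕ), r.Prime ∧ Odd r ∧
      Fintype.card F = Fintype.card K ^ r ∧
      Nonempty (M ≃* Matrix.ProjectiveSpecialLinearGroup (Fin 2) K))

theorem case_A4 [Fintype F] (p : ℕ) [Fact p.Prime] [CharP F p] (h2 : (2 : F) ≠ 0)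
    (hodd : Odd (Fintype.card F)) (h5 : 5 ≤ Fintype.card F) (M : Subgroup (P2 F))
    (hM : IsCoatom M)
    (hcard : Nat.card (Lof M) = 12 * Nat.card (Subgroup.center (S2 F))) (x : S2 F)
    (hx : x ∈ Lof M) (hxs : ¬ IsSc x)
    (hA : cA (Lof M) x = 3 * Nat.card (Subgroup.center (S2 F)))
    (hN : cN (Lof M) x = 3 * Nat.card (Subgroup.center (S2 F))) :
    FieldOut F M ∨
    (Fintype.card F = p ∧ (p % 8 = 3 ∨ p % 8 = 5) ∧ ¬ (p % 10 = 1 ∨ p % 10 = 9) ∧
        Nonempty (M ≃* alternatingGroup (Fin 4))) := by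
  classical
  have hZ := center_le_Lof M
  have hmx := mx_of_coatom M hM
  have hz2 := center_card_two h2
  have hp2 := char_ne_two (F := F) p h2
  have hp := (Fact.out : p.Prime)
  obtain ⟨φ⟩ := out_A4 M hcard x hx hA hN
  rw [hz2] at hcard hA hN
  by_cases hp3 : p = 3
  · left
    subst hp3
    have h3 : 3 ∣ Nat.card (cenL (Lof M) x) := by
      have : Nat.card (cenL (Lof M) x) = 3 * 2 := hA
      rw [this]; norm_num
    obtain ⟨y, hyC, hyo⟩ := exists_order_in (cenL (Lof M) x) 3 h3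
    obtain ⟨hyL, hyx⟩ := mem_cenL.1 hyC
    obtain ⟨hy4, hysc⟩ := unip_of_order 3 hp2 y hyo
    have D := ctd (Lof M) hZ
    have hxZ : x ∉ Subgroup.center (S2 F) := fun h => hxs ((isSc_iff_center x).2 h)
    have hyZ : y ∉ Subgroup.center (S2 F) := fun h => hysc ((isSc_iff_center y).2 h)
    have e1 := cA_of_comm D hxZ hyZ hyx
    have e2 := cN_of_comm D hxZ hyZ hyx
    exact field_case 3 h2 M hmx y hyL hysc hy4 3 1 le_rfl (by rw [← e1, hA, hz2])
      (by rw [← e2, hN, hz2]) (by rw [hcard, hz2]) (Or.inr rfl)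
  · right
    obtain ⟨g₁, h₁, e₁⟩ := exists_lift_iso M φ a4a
    obtain ⟨g₂, h₂, e₂⟩ := exists_lift_iso M φ a4c
    obtain ⟨f1, f2, f3, f4, f5, f6⟩ := a4_facts
    have ht1 : tr g₁ = 0 := tr_of_iso2 M φ g₁ h₁ (by rw [e₁]; exact f1) (by rw [e₁]; exact f2)
    have ht2 : tr g₂ ^ 2 = 1 :=
      tr_of_iso3 M φ g₂ h₂ (by rw [e₂]; exact f3) (by rw [e₂]; exact f4)
    obtain ⟨h₁₂, e₁₂⟩ := iso_mul M φ g₁ g₂ h₁ h₂
    rw [e₁, e₂] at e₁₂
    have ht3 : tr (g₁ * g₂) ^ 2 = 1 :=
      tr_of_iso3 M φ _ h₁₂ (by rw [e₁₂]; exact f5) (by rw [e₁₂]; exact f6)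
    have hta : tr g₁ ∈ (⊥ : Subfield F) := by rw [ht1]; exact Subfield.zero_mem _
    have htb := pm_one_mem (⊥ : Subfield F) _ ht2
    have htab := pm_one_mem (⊥ : Subfield F) _ ht3
    have hD : tr g₂ ^ 2 + tr (g₁ * g₂) ^ 2 ≠ 4 := by
      rw [ht2, ht3]
      intro h
      apply h2
      linear_combination -h
    have hLA : Lof M ≤ AlgS ⊥ g₁ g₂ hta htb htab :=
      Lof_le_of_gens M φ a4a a4c a4_gen g₁ g₂ h₁ h₂ e₁ e₂ _ (center_le_AlgS _ _ _ _ _ _)
        (left_mem_AlgS _ _ _ _ _ _) (right_mem_AlgS _ _ _ _ _ _)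
    by_cases hbot : (⊥ : Subfield F) = ⊤
    · have hq := card_eq_p_of_bot p hbot
      haveI := simple_P2 (K := F) (by omega)
      have hG := card_P2_odd hodd
      rw [hq] at hG
      have hpodd : Odd p := hp.eq_two_or_odd'.resolve_left hp2
      have hp8 : p % 8 = 3 ∨ p % 8 = 5 := by
        by_contra hcon
        have h17 : p % 8 = 1 ∨ p % 8 = 7 := by
          obtain ⟨j, hj⟩ := hpodd
          omega
        apply a4_excl8 M hM φ
        rcases h17 with h | h
        · obtain ⟨j, hj⟩ : ∃ j, p = 8 * j + 1 := ⟨p / 8, by omega⟩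
          rw [hj] at hG
          have e : (8 * j + 1) ^ 2 - 1 = 16 * (j * (4 * j + 1)) := by
            have : (8 * j + 1) ^ 2 = 16 * (j * (4 * j + 1)) + 1 := by ring
            omega
          rw [e] at hG
          refine ⟨(8 * j + 1) * (j * (4 * j + 1)), ?_⟩
          have : 2 * Nat.card (P2 F) = 2 * (8 * ((8 * j + 1) * (j * (4 * j + 1)))) := by
            rw [hG]; ring
          exact Nat.eq_of_mul_eq_mul_left (by norm_num) this
        · obtain ⟨j, hj⟩ : ∃ j, p = 8 * j + 7 := ⟨p / 8, by omega⟩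
          rw [hj] at hG
          have e : (8 * j + 7) ^ 2 - 1 = 16 * ((4 * j + 3) * (j + 1)) := by
            have : (8 * j + 7) ^ 2 = 16 * ((4 * j + 3) * (j + 1)) + 1 := by ring
            omega
          rw [e] at hG
          refine ⟨(8 * j + 7) * ((4 * j + 3) * (j + 1)), ?_⟩
          have : 2 * Nat.card (P2 F) = 2 * (8 * ((8 * j + 7) * ((4 * j + 3) * (j + 1)))) := by
            rw [hG]; ring
          exact Nat.eq_of_mul_eq_mul_left (by norm_num) this
      have hn8 : ¬ 8 ∣ Nat.card (P2 F) := by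
        rcases hp8 with h | h
        · obtain ⟨j, hj⟩ : ∃ j, p = 8 * j + 3 := ⟨p / 8, by omega⟩
          rw [hj] at hG
          have e : (8 * j + 3) ^ 2 - 1 = 8 * ((2 * j + 1) * (4 * j + 1)) := by
            have : (8 * j + 3) ^ 2 = 8 * ((2 * j + 1) * (4 * j + 1)) + 1 := by ring
            omega
          rw [e] at hG
          have : 2 * Nat.card (P2 F) = 2 * (8 * (32 * j ^ 3 + 36 * j ^ 2 + 13 * j + 1) + 4) := by
            rw [hG]; ring
          have h3 := Nat.eq_of_mul_eq_mul_left (by norm_num) this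
          rw [h3]
          omega
        · obtain ⟨j, hj⟩ : ∃ j, p = 8 * j + 5 := ⟨p / 8, by omega⟩
          rw [hj] at hG
          have e : (8 * j + 5) ^ 2 - 1 = 8 * ((2 * j + 1) * (4 * j + 3)) := by
            have : (8 * j + 5) ^ 2 = 8 * ((2 * j + 1) * (4 * j + 3)) + 1 := by ring
            omega
          rw [e] at hG
          have : 2 * Nat.card (P2 F) = 2 * (8 * (32 * j ^ 3 + 60 * j ^ 2 + 37 * j + 7) + 4) := by
            rw [hG]; ring
          have h3 := Nat.eq_of_mul_eq_mul_left (by norm_num) this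
          rw [h3]
          omega
      have hp10 : ¬ (p % 10 = 1 ∨ p % 10 = 9) := by
        intro h10
        have h5d : 5 ∣ Fintype.card F * (Fintype.card F ^ 2 - 1) := by
          rw [hq]
          rcases h10 with h | h
          · obtain ⟨j, hj⟩ : ∃ j, p = 10 * j + 1 := ⟨p / 10, by omega⟩
            have e : p ^ 2 - 1 = 5 * (4 * j * (5 * j + 1)) := by
              rw [hj]
              have : (10 * j + 1) ^ 2 = 5 * (4 * j * (5 * j + 1)) + 1 := by ring
              omega
            rw [e]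
            exact Dvd.dvd.mul_left (dvd_mul_right 5 _) _
          · obtain ⟨j, hj⟩ : ∃ j, p = 10 * j + 9 := ⟨p / 10, by omega⟩
            have e : p ^ 2 - 1 = 5 * (4 * (j + 1) * (5 * j + 4)) := by
              rw [hj]
              have : (10 * j + 9) ^ 2 = 5 * (4 * (j + 1) * (5 * j + 4)) + 1 := by ring
              omega
            rw [e]
            exact Dvd.dvd.mul_left (dvd_mul_right 5 _) _
        obtain ⟨H, ⟨ψ⟩⟩ := (Cfsg.Agent.S0804.result rfl).2 h5d
        apply a4_excl5 M hM φ hn8 H ψ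
        intro h60
        rw [h60] at hG
        have hp9 : 9 ≤ p := by
          have := hp.two_le
          omega
        have h81 : 81 ≤ p ^ 2 := by nlinarith
        have := Nat.mul_le_mul hp9 (show 80 ≤ p ^ 2 - 1 by omega)
        omega
      exact ⟨hq, hp8, hp10, ⟨φ⟩⟩
    · exfalso
      have hne := AlgS_ne_top h2 ⊥ g₁ g₂ hta htb htab hbot
      have hAL := (hmx.2 _ hLA).resolve_right hne
      have hdvd := card_dvd_of_AlgS_le p h2 ⊥ g₁ g₂ ht1 hta htb htab hD (Lof M) hAL.le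
      rw [Subfield.card_bot F p, hcard] at hdvd
      rcases prime_dvd_235 p 3 1 0 hp (by norm_num; exact hdvd) with h | h | h
      · exact hp2 h
      · exact hp3 h
      · rw [h] at hdvd
        norm_num at hdvd

theorem case_S4 [Fintype F] (p : ℕ) [Fact p.Prime] [CharP F p] (h2 : (2 : F) ≠ 0)
    (M : Subgroup (P2 F)) (hM : IsCoatom M)
    (hcard : Nat.card (Lof M) = 24 * Nat.card (Subgroup.center (S2 F))) (x : S2 F)
    (hx : x ∈ Lof M) (hxs : ¬ IsSc x)
    (hA : cA (Lof M) x = 3 * Nat.card (Subgroup.center (S2 F)))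
    (hall : ∀ y ∈ Lof M, ¬ IsSc y →
      (cA (Lof M) y = 2 * Nat.card (Subgroup.center (S2 F)) ∨
        cA (Lof M) y = 3 * Nat.card (Subgroup.center (S2 F)) ∨
        cA (Lof M) y = 4 * Nat.card (Subgroup.center (S2 F))) ∧
      cN (Lof M) y = 2 * cA (Lof M) y) :
    FieldOut F M ∨
    (Fintype.card F = p ∧ (p % 8 = 1 ∨ p % 8 = 7) ∧ Nonempty (M ≃* Equiv.Perm (Fin 4))) := by
  classical
  have hZ := center_le_Lof M
  have hmx := mx_of_coatom M hM
  have hz2 := center_card_two h2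
  have hp2 := char_ne_two (F := F) p h2
  have hp := (Fact.out : p.Prime)
  obtain ⟨φ⟩ := out_S4 M hcard x hx hxs hA hall
  rw [hz2] at hcard hA
  by_cases hp3 : p = 3
  · left
    subst hp3
    have h3 : 3 ∣ Nat.card (cenL (Lof M) x) := by
      have : Nat.card (cenL (Lof M) x) = 3 * 2 := hA
      rw [this]; norm_num
    obtain ⟨y, hyC, hyo⟩ := exists_order_in (cenL (Lof M) x) 3 h3
    obtain ⟨hyL, hyx⟩ := mem_cenL.1 hyC
    obtain ⟨hy4, hysc⟩ := unip_of_order 3 hp2 y hyo
    have D := ctd (Lof M) hZ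
    have hxZ : x ∉ Subgroup.center (S2 F) := fun h => hxs ((isSc_iff_center x).2 h)
    have hyZ : y ∉ Subgroup.center (S2 F) := fun h => hysc ((isSc_iff_center y).2 h)
    have e1 := cA_of_comm D hxZ hyZ hyx
    have e2 := (hall y hyL hysc).2
    exact field_case 3 h2 M hmx y hyL hysc hy4 3 2 le_rfl (by rw [← e1, hA, hz2])
      (by rw [e2, ← e1, hA, hz2]) (by rw [hcard, hz2]) (Or.inl rfl)
  · right
    obtain ⟨c, hc, ec⟩ := exists_lift_iso M φ s4c
    obtain ⟨d, hd, ed⟩ := exists_lift_iso M φ s4d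
    obtain ⟨s1, s2, s3, s4, s5, s6, s7, s8⟩ := s4_facts
    have hθ : tr c ^ 2 = 2 :=
      tr_of_iso4 M φ c hc (by rw [ec]; exact s1) (by rw [ec]; exact s2)
    obtain ⟨ha, ea⟩ := iso_mul M φ c c hc hc
    rw [ec] at ea
    have hta0 : tr (c * c) = 0 :=
      tr_of_iso2 M φ _ ha (by rw [ea]; exact s3) (by rw [ea]; exact s4)
    obtain ⟨hb, eb⟩ := iso_mul M φ d c hd hc
    rw [ed, ec] at eb
    have htb1 : tr (d * c) ^ 2 = 1 :=
      tr_of_iso3 M φ _ hb (by rw [eb]; exact s5) (by rw [eb]; exact s6)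
    obtain ⟨hab, eab⟩ := iso_mul M φ (c * c) (d * c) ha hb
    rw [ea, eb] at eab
    have htab1 : tr (c * c * (d * c)) ^ 2 = 1 :=
      tr_of_iso3 M φ _ hab (by rw [eab]; exact s7) (by rw [eab]; exact s8)
    have hta : tr (c * c) ∈ (⊥ : Subfield F) := by rw [hta0]; exact Subfield.zero_mem _
    have htb := pm_one_mem (⊥ : Subfield F) _ htb1
    have htab := pm_one_mem (⊥ : Subfield F) _ htab1
    have hD : tr (d * c) ^ 2 + tr (c * c * (d * c)) ^ 2 ≠ 4 := by
      rw [htb1, htab1]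
      intro h
      apply h2
      linear_combination -h
    have hθ0 : tr c ≠ 0 := by
      intro h
      rw [h] at hθ
      apply h2
      linear_combination -hθ
    have hcA : c ∈ AlgS ⊥ (c * c) (d * c) hta htb htab := by
      refine ⟨tr c, hθ0, ?_, 1, Subfield.one_mem _, 1, Subfield.one_mem _, 0,
        Subfield.zero_mem _, 0, Subfield.zero_mem _, ?_⟩
      · rw [← pow_two, hθ]; exact two_mem _
      · have hdet := det2 c
        refine ⟨?_, ?_, ?_, ?_⟩
        · rw [mul00]; unfold tr; linear_combination hdet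
        · rw [mul01]; unfold tr; ring
        · rw [mul10]; unfold tr; ring
        · rw [mul11]; unfold tr; linear_combination hdet
    have hdA : d ∈ AlgS ⊥ (c * c) (d * c) hta htb htab := by
      have h1 : d * c * c⁻¹ ∈ AlgS ⊥ (c * c) (d * c) hta htb htab :=
        Subgroup.mul_mem _ (right_mem_AlgS _ _ _ _ _ _) (Subgroup.inv_mem _ hcA)
      have e : d * c * c⁻¹ = d := by group
      rwa [e] at h1
    have hLA : Lof M ≤ AlgS ⊥ (c * c) (d * c) hta htb htab :=
      Lof_le_of_gens M φ s4c s4d s4_gen c d hc hd ec ed _ (center_le_AlgS _ _ _ _ _ _) hcA hdA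
    by_cases hbot : (⊥ : Subfield F) = ⊤
    · have hq := card_eq_p_of_bot p hbot
      refine ⟨hq, ?_, ⟨φ⟩⟩
      let e := ZMod.ringEquivOfPrime F hp hq
      apply (ZMod.exists_sq_eq_two_iff hp2).1
      refine ⟨e.symm (tr c), ?_⟩
      rw [← map_mul, ← pow_two, hθ, map_ofNat]
    · exfalso
      have hne := AlgS_ne_top h2 ⊥ (c * c) (d * c) hta htb htab hbot
      have hAL := (hmx.2 _ hLA).resolve_right hne
      have hdvd := card_dvd_of_AlgS_le p h2 ⊥ (c * c) (d * c) hta0 hta htb htab hD (Lof M) hAL.le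
      rw [Subfield.card_bot F p, hcard] at hdvd
      rcases prime_dvd_235 p 4 1 0 hp (by norm_num; exact hdvd) with h | h | h
      · exact hp2 h
      · exact hp3 h
      · rw [h] at hdvd
        norm_num at hdvd

theorem sq_mod5 : ∀ s : ZMod 5, ∀ r : ℕ, r < 5 → (r : ZMod 5) = s * s → r = 0 ∨ r = 1 ∨ r = 4 := by
  decide

theorem one_sq5 : ((1 : ℕ) : ZMod 5) = 1 * 1 := by decide

theorem four_sq5 : ((4 : ℕ) : ZMod 5) = 2 * 2 := by decide

theorem tau_mem (h2 : (2 : F) ≠ 0) (K : Subfield F) (τ : F) (hτ : τ ^ 4 - 3 * τ ^ 2 + 1 = 0)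
    (hσ : 2 * τ ^ 2 - 3 ∈ K) : τ ∈ K := by
  have h2K := two_mem K
  have h3K : (3 : F) ∈ K := by
    have : (3 : F) = 2 + 1 := by norm_num
    rw [this]; exact K.add_mem h2K K.one_mem
  have hsq : τ ^ 2 ∈ K := by
    have e : τ ^ 2 = ((2 * τ ^ 2 - 3) + 3) * (2 : F)⁻¹ := by field_simp; ring
    rw [e]; exact K.mul_mem (K.add_mem hσ h3K) (K.inv_mem h2K)
  have h1 : (τ ^ 2 - 1 - τ) * (τ ^ 2 - 1 + τ) = 0 := by linear_combination hτ
  rcases mul_eq_zero.1 h1 with h | h
  · have e : τ = τ ^ 2 - 1 := by linear_combination -h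
    rw [e]; exact K.sub_mem hsq K.one_mem
  · have e : τ = -(τ ^ 2 - 1) := by linear_combination h
    rw [e]; exact K.neg_mem (K.sub_mem hsq K.one_mem)

open Cfsg.Agent.Lib.Helper19.A5P in
theorem case_A5 [Fintype F] (p : ℕ) [Fact p.Prime] [CharP F p] (h2 : (2 : F) ≠ 0)
    (M : Subgroup (P2 F)) (hM : IsCoatom M)
    (hcard : Nat.card (Lof M) = 60 * Nat.card (Subgroup.center (S2 F)))
    (hall : ∀ y ∈ Lof M, ¬ IsSc y →
      (cA (Lof M) y = 2 * Nat.card (Subgroup.center (S2 F)) ∨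
        cA (Lof M) y = 3 * Nat.card (Subgroup.center (S2 F)) ∨
        cA (Lof M) y = 5 * Nat.card (Subgroup.center (S2 F))) ∧
      cN (Lof M) y = 2 * cA (Lof M) y) :
    FieldOut F M ∨
    ((Fintype.card F % 10 = 1 ∨ Fintype.card F % 10 = 9) ∧
        (Fintype.card F = p ∨ (Fintype.card F = p ^ 2 ∧ (p % 10 = 3 ∨ p % 10 = 7))) ∧
        Nonempty (M ≃* alternatingGroup (Fin 5))) := by
  classical
  have hZ := center_le_Lof M
  have hmx := mx_of_coatom M hM
  have hz2 := center_card_two h2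
  have hp2 := char_ne_two (F := F) p h2
  have hp := (Fact.out : p.Prime)
  obtain ⟨φ⟩ := out_A5 M hcard hall
  rw [hz2] at hcard
  by_cases hp5 : p = 5
  · left
    subst hp5
    have h5 : 5 ∣ Nat.card (Lof M) := by rw [hcard]; norm_num
    obtain ⟨y, hyL, hyo⟩ := exists_order_in (Lof M) 5 h5
    obtain ⟨hy4, hysc⟩ := unip_of_order 5 hp2 y hyo
    obtain ⟨hcases, hN⟩ := hall y hyL hysc
    have hyC : y ∈ cenL (Lof M) y := mem_cenL.2 ⟨hyL, rfl⟩
    have hdiv : 5 ∣ cA (Lof M) y := by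
      have := Subgroup.orderOf_dvd_natCard _ hyC
      rw [hyo] at this
      exact this
    have hcA : cA (Lof M) y = 10 := by
      rw [hz2] at hcases
      rcases hcases with h | h | h
      · rw [h] at hdiv; omega
      · rw [h] at hdiv; omega
      · rw [h]
    exact field_case 5 h2 M hmx y hyL hysc hy4 5 2 (by norm_num) (by rw [hcA, hz2])
      (by rw [hN, hcA, hz2]) (by rw [hcard, hz2]) (Or.inr rfl)
  · right
    obtain ⟨a, ha, ea⟩ := exists_lift_iso M φ a0
    obtain ⟨b, hb, eb⟩ := exists_lift_iso M φ x0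
    obtain ⟨f1, f2, f3, f4, f5, f6⟩ := a5_facts
    have hta0 : tr a = 0 := tr_of_iso2 M φ a ha (by rw [ea]; exact f1) (by rw [ea]; exact f2)
    have hτ : tr b ^ 4 - 3 * tr b ^ 2 + 1 = 0 :=
      tr_of_iso5 M φ b hb (by rw [eb]; exact f3) (by rw [eb]; exact f4)
    obtain ⟨hab, eab⟩ := iso_mul M φ a b ha hb
    rw [ea, eb] at eab
    have hγ : tr (a * b) ^ 2 = 1 :=
      tr_of_iso3 M φ _ hab (by rw [eab]; exact f5) (by rw [eab]; exact f6)
    have hta : tr a ∈ Subfield.closure ({tr b} : Set F) := by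
      rw [hta0]; exact Subfield.zero_mem _
    have htb : tr b ∈ Subfield.closure ({tr b} : Set F) :=
      Subfield.subset_closure (Set.mem_singleton _)
    have htab := pm_one_mem (Subfield.closure ({tr b} : Set F)) _ hγ
    have hD : tr b ^ 2 + tr (a * b) ^ 2 ≠ 4 := by
      rw [hγ]
      intro h
      have h3 : tr b ^ 2 = 3 := by linear_combination h
      have h4 : tr b ^ 4 = 9 := by
        have : tr b ^ 4 = (tr b ^ 2) ^ 2 := by ring
        rw [this, h3]; norm_num
      rw [h4, h3] at hτ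
      norm_num at hτ
    have hLA : Lof M ≤ AlgS (Subfield.closure ({tr b} : Set F)) a b hta htb htab :=
      Lof_le_of_gens M φ a0 x0 a0_gen a b ha hb ea eb _ (center_le_AlgS _ _ _ _ _ _)
        (left_mem_AlgS _ _ _ _ _ _) (right_mem_AlgS _ _ _ _ _ _)
    have hpodd : Odd p := hp.eq_two_or_odd'.resolve_left hp2
    have hp5' : ¬ 5 ∣ p := fun h =>
      hp5 ((Nat.prime_dvd_prime_iff_eq Nat.prime_five hp).1 h).symm
    by_cases htop : Subfield.closure ({tr b} : Set F) = ⊤
    · have hσ : (2 * tr b ^ 2 - 3) ^ 2 = 5 := by linear_combination 4 * hτ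
      have hfix : ∀ n : ℕ, (2 * tr b ^ 2 - 3) ∈ frobFix (F := F) p n →
          ∀ y : F, y ^ (p ^ n) = y := by
        intro n hn y
        have h1 := tau_mem h2 _ _ hτ hn
        have h3 : Subfield.closure ({tr b} : Set F) ≤ frobFix (F := F) p n := by
          rw [Subfield.closure_le]
          intro z hz
          rw [Set.mem_singleton_iff] at hz
          rw [hz]; exact h1
        rw [htop] at h3
        exact (mem_frobFix p n y).1 (h3 (Subfield.mem_top y))
      obtain ⟨k, -, hk⟩ := FiniteField.card F p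
      haveI : Fact (Nat.Prime 5) := ⟨Nat.prime_five⟩
      have hrec := ZMod.exists_sq_eq_prime_iff_of_mod_four_eq_one (p := 5) (q := p)
        (by norm_num) hp2
      by_cases h5sq : IsSquare ((5 : ℕ) : ZMod p)
      · obtain ⟨s, hs⟩ := h5sq
        obtain ⟨s', hs'⟩ : ∃ s' : F, s' = ZMod.castHom (dvd_refl p) F s := ⟨_, rfl⟩
        have e1 : s' * s' = 5 := by
          rw [hs', ← map_mul, ← hs, map_natCast]; norm_num
        have hs'fix : s' ∈ frobFix (F := F) p 1 := by
          rw [mem_frobFix, pow_one, hs', ← map_pow, ZMod.pow_card]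
        have hσfix : (2 * tr b ^ 2 - 3) ∈ frobFix (F := F) p 1 := by
          have h0 : ((2 * tr b ^ 2 - 3) - s') * ((2 * tr b ^ 2 - 3) + s') = 0 := by
            linear_combination hσ - e1
          rcases mul_eq_zero.1 h0 with h | h
          · have e : 2 * tr b ^ 2 - 3 = s' := by linear_combination h
            rw [e]; exact hs'fix
          · have e : 2 * tr b ^ 2 - 3 = -s' := by linear_combination h
            rw [e]; exact Subfield.neg_mem _ hs'fix
        have hall' := hfix 1 hσfix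
        have hle := card_le_of_all_pow (p ^ 1) (by rw [pow_one]; exact hp.two_le) hall'
        rw [pow_one] at hle
        have hq : Fintype.card F = p := by
          have : p ≤ p ^ (k : ℕ) := Nat.le_self_pow k.ne_zero p
          omega
        obtain ⟨t, ht⟩ := hrec.2 ⟨s, hs⟩
        rw [← ZMod.natCast_mod p 5] at ht
        have h014 := sq_mod5 t (p % 5) (Nat.mod_lt _ (by norm_num)) ht
        have h0 : p % 5 ≠ 0 := fun h => hp5' (Nat.dvd_of_mod_eq_zero h)
        have hp10 : p % 10 = 1 ∨ p % 10 = 9 := by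
          obtain ⟨j, hj⟩ := hpodd
          omega
        exact ⟨by rw [hq]; exact hp10, Or.inl hq, ⟨φ⟩⟩
      · have h5ne : ((5 : ℕ) : ZMod p) ≠ 0 := by
          rw [Ne, ZMod.natCast_eq_zero_iff]
          intro h
          exact hp5 ((Nat.prime_dvd_prime_iff_eq hp Nat.prime_five).1 h)
        have e5 : (5 : F) ^ (p - 1) = 1 := by
          have h1 := ZMod.pow_card_sub_one_eq_one h5ne
          have h3 := congrArg (ZMod.castHom (dvd_refl p) F) h1
          rw [map_pow, map_natCast, map_one] at h3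
          exact_mod_cast h3
        obtain ⟨j, hj⟩ := hpodd
        have e2 : p ^ 2 = 2 * ((p - 1) * (j + 1)) + 1 := by
          rw [hj]
          have : 2 * j + 1 - 1 = 2 * j := by omega
          rw [this]; ring
        have hσfix : (2 * tr b ^ 2 - 3) ∈ frobFix (F := F) p 2 := by
          rw [mem_frobFix, e2, pow_succ, pow_mul, hσ, pow_mul, e5, one_pow, one_mul]
        have hall' := hfix 2 hσfix
        have hle := card_le_of_all_pow (p ^ 2) (by nlinarith [hp.two_le]) hall'
        have hne : Fintype.card F ≠ p := by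
          intro hq
          apply h5sq
          let e := ZMod.ringEquivOfPrime F hp hq
          refine ⟨e.symm (2 * tr b ^ 2 - 3), ?_⟩
          rw [← map_mul, ← pow_two, hσ]
          have : (5 : F) = ((5 : ℕ) : F) := by norm_num
          rw [this, map_natCast]
        have hq : Fintype.card F = p ^ 2 := by
          have hk1 : (k : ℕ) ≠ 1 := by
            intro h
            apply hne
            rw [hk, h, pow_one]
          have hk2 : (k : ℕ) ≤ 2 := by
            rw [hk] at hle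
            exact (Nat.pow_le_pow_iff_right hp.one_lt).1 hle
          have hk0 : (k : ℕ) ≠ 0 := k.ne_zero
          have : (k : ℕ) = 2 := by omega
          rw [hk, this]
        have hp37 : p % 10 = 3 ∨ p % 10 = 7 := by
          have h14 : ¬ (p % 5 = 1 ∨ p % 5 = 4) := by
            intro h
            apply h5sq
            apply hrec.1
            rw [← ZMod.natCast_mod p 5]
            rcases h with h | h
            · rw [h]
              exact ⟨1, one_sq5⟩
            · rw [h]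
              exact ⟨2, four_sq5⟩
          have h0 : p % 5 ≠ 0 := fun h => hp5' (Nat.dvd_of_mod_eq_zero h)
          omega
        refine ⟨Or.inr ?_, Or.inr ⟨hq, hp37⟩, ⟨φ⟩⟩
        rw [hq]
        rcases hp37 with h | h
        · obtain ⟨m, hm⟩ : ∃ m, p = 10 * m + 3 := ⟨p / 10, by omega⟩
          have : p ^ 2 = 10 * (10 * m ^ 2 + 6 * m) + 9 := by rw [hm]; ring
          omega
        · obtain ⟨m, hm⟩ : ∃ m, p = 10 * m + 7 := ⟨p / 10, by omega⟩
          have : p ^ 2 = 10 * (10 * m ^ 2 + 14 * m + 4) + 9 := by rw [hm]; ring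
          omega
    · exfalso
      have hne := AlgS_ne_top h2 _ a b hta htb htab htop
      have hAL := (hmx.2 _ hLA).resolve_right hne
      have hdvd := card_dvd_of_AlgS_le p h2 _ a b hta0 hta htb htab hD (Lof M) hAL.le
      rw [hcard] at hdvd
      haveI : Fintype (Subfield.closure ({tr b} : Set F)) := Fintype.ofFinite _
      haveI : CharP (Subfield.closure ({tr b} : Set F)) p :=
        RingHom.charP (Subfield.closure ({tr b} : Set F)).subtype
          (fun a b hab => Subtype.ext hab) p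
      obtain ⟨n, -, hn⟩ := FiniteField.card (Subfield.closure ({tr b} : Set F)) p
      rw [Nat.card_eq_fintype_card, hn] at hdvd
      have hpd : p ∣ 60 * 2 := dvd_trans (dvd_pow_self p n.ne_zero) hdvd
      have hp3 : p = 3 := by
        rcases prime_dvd_235 p 3 1 1 hp (by norm_num; exact hpd) with h | h | h
        · exact absurd h hp2
        · exact h
        · exact absurd h hp5
      have hn1 : (n : ℕ) = 1 := by
        by_contra hcon
        have hn2 : 2 ≤ (n : ℕ) := by
          have := n.ne_zero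
          omega
        have h9 : p ^ 2 ∣ 60 * 2 := dvd_trans (pow_dvd_pow p hn2) hdvd
        rw [hp3] at h9
        norm_num at h9
      have hK3 : Nat.card (Subfield.closure ({tr b} : Set F)) = 3 := by
        rw [Nat.card_eq_fintype_card, hn, hn1, pow_one, hp3]
      have hτ3 := pow_card_subfield _ 3 hK3 (tr b) htb
      have h3F : (3 : F) = 0 := by
        have := CharP.cast_eq_zero F p
        rw [hp3] at this
        exact_mod_cast this
      have e1 : tr b ^ 2 + 1 = 0 := by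
        linear_combination hτ - tr b * hτ3 + tr b ^ 2 * h3F
      have e3 : (2 : F) * tr b = 0 := by
        linear_combination (-1 : F) * hτ3 + tr b * e1
      rcases mul_eq_zero.1 e3 with h | h
      · exact h2 h
      · rw [h] at e1
        norm_num at e1

end Helpers

/-- Let F be a finite field of odd order q ≥ 5 and characteristic p, and let M be a maximal subgroup of PSL₂(F). Then one of the following holds: |M| = q(q − 1)/2 (the stabiliser of a point of the projective line); q ≥ 13 and M is dihedral of order q − 1; q ∉ {7, 9} and M is dihedral of order q + 1; q = q₀² and M ≅ PGL₂(F₀) with |F₀| = q₀; q = q₀^r for an odd prime r and M ≅ PSL₂(F₀) with |F₀| = q₀; q ≡ ±1 (mod 10) with q = p or q = p², p ≡ ±3 (mod 10), and M ≅ A₅; q = p ≡ ±3 (mod 8), q ≢ ±1 (mod 10), and M ≅ A₄; or q = p ≡ ±1 (mod 8) and M ≅ S₄. -/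
theorem result {F : Type*} [Field F] [Fintype F] (p : ℕ)
    [Fact p.Prime] [CharP F p] (hodd : Odd (Fintype.card F)) (h5 : 5 ≤ Fintype.card F)
    (M : Subgroup (Matrix.ProjectiveSpecialLinearGroup (Fin 2) F)) (hM : IsCoatom M) :
    2 * Nat.card M = Fintype.card F * (Fintype.card F - 1) ∨
    (13 ≤ Fintype.card F ∧ (∃ k : ℕ, 2 * k = Fintype.card F - 1 ∧ Nonempty (M ≃* DihedralGroup k))) ∨
    (Fintype.card F ≠ 7 ∧ Fintype.card F ≠ 9 ∧ (∃ k : ℕ, 2 * k = Fintype.card F + 1 ∧ Nonempty (M ≃* DihedralGroup k))) ∨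
    (∃ (F₀ : Type) (_ : Field F₀) (_ : Fintype F₀), Fintype.card F = Fintype.card F₀ ^ 2 ∧
        Nonempty (M ≃* Matrix.ProjGenLinGroup (Fin 2) F₀)) ∨
    (∃ (F₀ : Type) (_ : Field F₀) (_ : Fintype F₀) (r : ℕ), r.Prime ∧ Odd r ∧ Fintype.card F = Fintype.card F₀ ^ r ∧
        Nonempty (M ≃* Matrix.ProjectiveSpecialLinearGroup (Fin 2) F₀)) ∨
    ((Fintype.card F % 10 = 1 ∨ Fintype.card F % 10 = 9) ∧
        (Fintype.card F = p ∨ (Fintype.card F = p ^ 2 ∧ (p % 10 = 3 ∨ p % 10 = 7))) ∧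
        Nonempty (M ≃* alternatingGroup (Fin 5))) ∨
    (Fintype.card F = p ∧ (p % 8 = 3 ∨ p % 8 = 5) ∧ ¬ (p % 10 = 1 ∨ p % 10 = 9) ∧
        Nonempty (M ≃* alternatingGroup (Fin 4))) ∨
    (Fintype.card F = p ∧ (p % 8 = 1 ∨ p % 8 = 7) ∧ Nonempty (M ≃* Equiv.Perm (Fin 4))) := by
  classical
  have h2 : (2 : F) ≠ 0 := by
    intro h
    have hchar : ringChar F = 2 :=
      CharP.ringChar_of_prime_eq_zero Nat.prime_two (by exact_mod_cast h)
    have := FiniteField.even_card_iff_char_two.1 hchar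
    obtain ⟨m, hm⟩ := hodd
    omega
  have hZ := center_le_Lof M
  have hmx := mx_of_coatom M hM
  have hz2 := center_card_two h2
  have hLc : Nat.card (Lof M) = 2 * Nat.card M := by rw [card_Lof, hz2]
  have hfo : FieldOut F M → _ := fun h => show
      2 * Nat.card M = Fintype.card F * (Fintype.card F - 1) ∨
      (13 ≤ Fintype.card F ∧ (∃ k : ℕ, 2 * k = Fintype.card F - 1 ∧ Nonempty (M ≃* DihedralGroup k))) ∨
      (Fintype.card F ≠ 7 ∧ Fintype.card F ≠ 9 ∧ (∃ k : ℕ, 2 * k = Fintype.card F + 1 ∧ Nonempty (M ≃* DihedralGroup k))) ∨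
      (∃ (F₀ : Type) (_ : Field F₀) (_ : Fintype F₀), Fintype.card F = Fintype.card F₀ ^ 2 ∧
          Nonempty (M ≃* Matrix.ProjGenLinGroup (Fin 2) F₀)) ∨
      (∃ (F₀ : Type) (_ : Field F₀) (_ : Fintype F₀) (r : ℕ), r.Prime ∧ Odd r ∧ Fintype.card F = Fintype.card F₀ ^ r ∧
          Nonempty (M ≃* Matrix.ProjectiveSpecialLinearGroup (Fin 2) F₀)) ∨
      ((Fintype.card F % 10 = 1 ∨ Fintype.card F % 10 = 9) ∧
          (Fintype.card F = p ∨ (Fintype.card F = p ^ 2 ∧ (p % 10 = 3 ∨ p % 10 = 7))) ∧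
          Nonempty (M ≃* alternatingGroup (Fin 5))) ∨
      (Fintype.card F = p ∧ (p % 8 = 3 ∨ p % 8 = 5) ∧ ¬ (p % 10 = 1 ∨ p % 10 = 9) ∧
          Nonempty (M ≃* alternatingGroup (Fin 4))) ∨
      (Fintype.card F = p ∧ (p % 8 = 1 ∨ p % 8 = 7) ∧ Nonempty (M ≃* Equiv.Perm (Fin 4))) from by
    rcases h with h | h
    · right; right; right; left; exact h
    · right; right; right; right; left; exact h
  have hout := main_cases p (Lof M) hZ
  unfold Outcome at hout
  rcases hout with h | ⟨x, hx, hss, hall⟩ | ⟨x, hx, hss, hcard⟩ | ⟨g, hg⟩ |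
    ⟨hcard, x, hx, hxs, hA, hN⟩ | ⟨hcard, ⟨x, hx, hxs, hA⟩, hall⟩ | ⟨hcard, hall⟩ |
    ⟨x₀, hx₀, hsc, h4', q', k, hq3, hcA, hcN, hcard, hk⟩
  · exact absurd h (mx_ne_center _ hmx)
  · exact (case_c2 (by omega) (Lof M) hmx hZ x hss hall).elim
  · obtain ⟨n, ⟨e⟩, hMn, hn, C, hC, hCn⟩ := c3_core p h2 h5 M hM x hx hss hcard
    obtain ⟨ex1, ex2⟩ := c3_excl p h2 hodd h5 M hM n hMn C hC hCn
    rcases hn with hn | hn
    · right; left; exact ⟨ex1 hn, n, hn, ⟨e⟩⟩
    · right; right; left; exact ⟨(ex2 hn).1, (ex2 hn).2, n, hn, ⟨e⟩⟩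
  · left
    have h1 := case_c4 (Lof M) hmx g hg
    rw [hLc] at h1
    exact h1
  · rcases case_A4 p h2 hodd h5 M hM hcard x hx hxs hA hN with h | h
    · exact hfo h
    · right; right; right; right; right; right; left; exact h
  · rcases case_S4 p h2 M hM hcard x hx hxs hA hall with h | h
    · exact hfo h
    · right; right; right; right; right; right; right; exact h
  · rcases case_A5 p h2 M hM hcard hall with h | h
    · exact hfo h
    · right; right; right; right; right; left; exact h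
  · exact hfo (field_case p h2 M hmx x₀ hx₀ hsc h4' q' k hq3 hcA hcN hcard hk)

end Cfsg.Agent.S5892
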