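import Cfsg.Statements.S5352
import Cfsg.Agent.S5351
import Cfsg.Agent.Lib.Helper11.TTComp

set_option autoImplicit false
open Cfsg

namespace Cfsg.Agent.S5352

open Cfsg.Agent.Lib.Helper11

/-- Let D be a conjugacy class of 3-transpositions generating the finite group G, with at least two members, and suppose the largest normal 2-subgroup and the largest normal 3-subgroup of G are both central. Then G has a quasisimple normal subgroup L such that the generalized Fitting subgroup of G is the product of L and the centre; and either L = G or the image of D in G/L has width 1, in the sense that two members of D whose commutator lies in L have the same image modulo L. -/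
theorem result {G : Type*} [Group G] [Finite G] {D : Set G} (hD : Cfsg.IsThreeTranspositionClass D) (hD2 : ∃ a ∈ D, ∃ b ∈ D, a ≠ b) (h2 : Cfsg.pCore 2 G ≤ Subgroup.center G) (h3 : Cfsg.pCore 3 G ≤ Subgroup.center G) : ∃ L : Subgroup G, L.Normal ∧ Cfsg.IsQuasisimple L ∧ Cfsg.generalizedFittingSubgroup G = L ⊔ Subgroup.center G ∧ (L = ⊤ ∨ ∀ a ∈ D, ∀ b ∈ D, a * b * a⁻¹ * b⁻¹ ∈ L → a⁻¹ * b ∈ L) := by
  obtain ⟨hbig, htri⟩ := Cfsg.Agent.S5351.result hD hD2
  have hlayer : layer G ≠ ⊥ := by
    rcases htri with h | h | h
    · exact absurd h2 h.1
    · exact absurd h3 h.2.1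
    · exact h.2.2
  have hex : ∃ K : Subgroup G, IsComponent K := by
    by_contra hcon
    push Not at hcon
    apply hlayer
    have hempty : {K : Subgroup G | IsComponent K} = ∅ := by
      rw [Set.eq_empty_iff_forall_notMem]
      intro K hK
      exact hcon K hK
    unfold layer
    rw [hempty, sSup_empty]
  obtain ⟨L, hL⟩ := hex
  have hLn := comp_normal hD hL
  have hQS := Cfsg.Agent.Lib.Helper66.isComponent_qs hL
  have hL1 := Cfsg.Agent.Lib.Helper66.isComponent_ne_bot hL
  refine ⟨L, hLn, hL.2, ?_, Or.inr ?_⟩
  · have hlay : layer G = L := by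
      apply le_antisymm
      · apply sSup_le
        intro K hK
        rw [comp_unique hD hD2 h2 hK hL]
      · exact le_sSup hL
    have hfit : fittingSubgroup G = Subgroup.center G := by
      apply le_antisymm
      · rw [Cfsg.Agent.Lib.Helper66.fitting_eq_iSup_pCore]
        apply iSup_le
        intro q
        apply iSup_le
        intro hq
        by_cases hq2 : q = 2
        · rw [hq2]; exact h2
        · by_cases hq3 : q = 3
          · rw [hq3]; exact h3
          · exact hbig q hq (by have := hq.two_le; omega)
      · have hnil : Group.IsNilpotent ↥(Subgroup.center G) := by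
          rw [Group.isNilpotent_iff]
          refine ⟨1, ?_⟩
          rw [Subgroup.upperCentralSeries_one, eq_top_iff]
          intro x _
          rw [Subgroup.mem_center_iff]
          intro g
          have hg := g.2
          rw [Subgroup.mem_center_iff] at hg
          apply Subtype.ext
          exact (hg x.1).symm
        exact le_sSup ⟨inferInstance, hnil⟩
    unfold generalizedFittingSubgroup
    rw [hlay, hfit]
  · intro a ha b hb hab
    by_contra hnot
    have e1 : a⁻¹ * b = a * b := by rw [tt_inv hD ha]
    have e2 : a * b * a⁻¹ * b⁻¹ = (a * b) ^ 2 := by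
      rw [tt_inv hD ha, tt_inv hD hb, pow_two]
      exact mul_assoc (a * b) a b
    rw [e1] at hnot
    rw [e2] at hab
    exact tt_width_qs hD hLn hQS hL1 ha hb hnot hab

end Cfsg.Agent.S5352
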