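import Cfsg.Statements.S5354
import Cfsg.Agent.S5350
import Cfsg.Agent.S5352
import Cfsg.Agent.S5353
import Cfsg.Agent.S5361
import Cfsg.Agent.Lib.Helper11.Rank3E
import Cfsg.Agent.Lib.Helper11.TTComp

set_option autoImplicit false
open Cfsg

namespace Cfsg.Agent.S5354

open Cfsg.Agent.Lib.Helper11

variable {G : Type*} [Group G] {D : Set G}

theorem class_of_prim (hD : IsThreeTranspositionGroup D) (hprim : IsPrimitiveUnderConj D) :
    IsThreeTranspositionClass D := by
  obtain ⟨a, ha, -⟩ := hprim.2.1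
  refine ⟨hD.1, ⟨a, ha, ?_⟩, hD.2.2⟩
  ext x
  constructor
  · intro hx
    obtain ⟨g, hg⟩ := hprim.1 a ha x hx
    have h1 : IsConj a x := isConj_iff.mpr ⟨g, hg⟩
    exact h1
  · intro hx
    have h1 : IsConj a x := hx
    obtain ⟨g, hg⟩ := isConj_iff.mp h1
    rw [← hg]; exact hD.2.1 g a ha

theorem ttPrim_of_prim' (hDc : IsThreeTranspositionClass D) (hprim : IsPrimitiveUnderConj D)
    (hw : ∃ a ∈ D, ∃ b ∈ D, a ≠ b ∧ Commute a b) : TTPrim D := by
  refine ⟨hDc, ?_, ?_, ?_⟩
  · intro B hBD hB x₀ hx y₀ hy hne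
    rcases hprim.2.2 B hBD (Cfsg.Agent.S5361.disj_of_blk hB) with h | h
    · exact absurd (h hx hy) hne
    · exact h.ge
  · intro d hd
    obtain ⟨a, ha, b, hb, hab, hc⟩ := hw
    obtain ⟨g, hg⟩ := tt_exists_conj hDc ha hd
    have hg' : ttcj g a = d := hg
    refine ⟨ttcj g b, ttcj_mem hDc hb g, ?_, ?_⟩
    · intro heq; exact hab (ttcj_inj (hg'.trans heq.symm))
    · rw [← hg', ttcj_commute_iff]; exact hc
  · intro d hd
    by_contra hcon
    push Not at hcon
    have hdc : d ∈ Subgroup.center G := tt_center_of_commute hDc (fun e he => hcon e he)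
    obtain ⟨a, ha, b, hb, hab⟩ := hprim.2.1
    apply hab
    obtain ⟨g₁, hg₁⟩ := tt_exists_conj hDc hd ha
    obtain ⟨g₂, hg₂⟩ := tt_exists_conj hDc hd hb
    rw [Subgroup.mem_center_iff] at hdc
    have e1 : a = d := by rw [← hg₁, hdc g₁, mul_assoc, mul_inv_cancel, mul_one]
    have e2 : b = d := by rw [← hg₂, hdc g₂, mul_assoc, mul_inv_cancel, mul_one]
    rw [e1, e2]

theorem cores_central [Finite G] (hprim : TTPrim D) {p : ℕ}
    (hp : p = 2 ∨ p = 3) : pCore p G ≤ Subgroup.center G := by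
  have hD := hprim.1
  have hpp : p.Prime := by
    rcases hp with h | h
    · rw [h]; exact Nat.prime_two
    · rw [h]; exact Nat.prime_three
  haveI : Fact p.Prime := ⟨hpp⟩
  by_contra hNC
  have hN : (pCore p G).Normal := Cfsg.Agent.S5351.pCore_nrm p
  obtain ⟨d, hd, -⟩ := hD.2.1
  obtain ⟨g, hg, hgd⟩ := tt_exists_conj_ne hD hN hNC hd
  have hblk : TTBlk {y : G | ∃ n ∈ pCore p G, y = ttcj n d} := by
    rintro g x ⟨n₁, hn₁, rfl⟩ ⟨n₂, hn₂, hgx⟩ y ⟨n, hn, rfl⟩
    refine ⟨(g * (n * n₁⁻¹) * g⁻¹) * n₂, Subgroup.mul_mem _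
      (hN.conj_mem _ (Subgroup.mul_mem _ hn (Subgroup.inv_mem _ hn₁)) g) hn₂, ?_⟩
    calc ttcj g (ttcj n d) = ttcj (g * n) d := (ttcj_mul _ _ _).symm
      _ = ttcj (g * (n * n₁⁻¹) * g⁻¹ * (g * n₁)) d := by congr 1; group
      _ = ttcj (g * (n * n₁⁻¹) * g⁻¹) (ttcj g (ttcj n₁ d)) := by
        rw [ttcj_mul (g * (n * n₁⁻¹) * g⁻¹) (g * n₁) d, ttcj_mul g n₁ d]
      _ = ttcj (g * (n * n₁⁻¹) * g⁻¹) (ttcj n₂ d) := by rw [hgx]
      _ = ttcj (g * (n * n₁⁻¹) * g⁻¹ * n₂) d := (ttcj_mul _ _ _).symm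
  have hBD : {y : G | ∃ n ∈ pCore p G, y = ttcj n d} ⊆ D := by
    rintro y ⟨n, -, rfl⟩; exact ttcj_mem hD hd n
  have hDB := hprim.2.1 _ hBD hblk d ⟨1, Subgroup.one_mem _, (ttcj_one d).symm⟩ (ttcj g d)
    ⟨g, hg, rfl⟩ (fun h => hgd h.symm)
  have hpow : ∀ e ∈ D, ∃ k : ℕ, (d * e) ^ p ^ k = 1 := by
    intro e he
    obtain ⟨n, hn, rfl⟩ := hDB he
    have hmem : d * (n * d * n⁻¹) ∈ pCore p G := tt_mul_conj_mem hD hN hd hn
    obtain ⟨k, hk⟩ := (Cfsg.Agent.Lib.Helper66.isPGroup_pCore (G := G) p) ⟨_, hmem⟩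
    refine ⟨k, ?_⟩
    have := congrArg Subtype.val hk
    rw [Subgroup.coe_pow] at this
    exact this
  rcases hp with h2 | h3
  · subst h2
    obtain ⟨c, hc, hdc⟩ := hprim.2.2.2 d hd
    apply hdc
    apply tt_commute_of_sq hD hd hc
    rcases hD.1.2 d hd c hc with h | h
    · exact h
    · obtain ⟨k, hk⟩ := hpow c hc
      rw [eq_one_of_pow_prime_pow Nat.prime_two Nat.prime_three (by norm_num) hk h, one_pow]
  · subst h3
    obtain ⟨b, hb, hbd, hcb⟩ := hprim.2.2.1 d hd
    obtain ⟨k, hk⟩ := hpow b hb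
    have h1 := eq_one_of_pow_prime_pow Nat.prime_three Nat.prime_two (by norm_num) hk
      (tt_sq_of_commute hD hd hb hcb)
    apply hbd
    have := eq_inv_of_mul_eq_one_right h1
    rw [this, tt_inv hD hd]

theorem max_dsub [Finite G] (hTT : TTPrim D) (h3 : pCore 3 G ≤ Subgroup.center G)
    (hD2 : ∃ a ∈ D, ∃ b ∈ D, a ≠ b) {d : G} (hd : d ∈ D)
    {H : Subgroup G} (hH : IsDSubgroup D H)
    (hle : Subgroup.closure {y : G | y ∈ D ∧ Commute d y} ≤ H) :
    H = Subgroup.closure {y : G | y ∈ D ∧ Commute d y} ∨ H = ⊤ := by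
  have hD := hTT.1
  by_cases hX : ∀ x ∈ D, x ∈ H → Commute d x
  · left
    apply le_antisymm _ hle
    have h1 : Subgroup.closure {x : G | x ∈ D ∧ x ∈ H} ≤
        Subgroup.closure {y : G | y ∈ D ∧ Commute d y} := by
      apply Subgroup.closure_mono
      rintro x ⟨hxD, hxH⟩
      exact ⟨hxD, hX x hxD hxH⟩
    have h2 : Subgroup.closure {x : G | x ∈ D ∧ x ∈ H} = H := hH
    rw [h2] at h1
    exact h1
  · right
    push Not at hX
    obtain ⟨e, heD, heH, hde⟩ := hX
    have hdH : d ∈ H := hle (Subgroup.subset_closure ⟨hd, Commute.refl d⟩)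
    have hθH : ∀ y ∈ D, Commute d y → y ∈ H := fun y hy hc =>
      hle (Subgroup.subset_closure ⟨hy, hc⟩)
    have hex : ∃ x ∈ D, x ≠ d ∧ Commute d x ∧ ¬ Commute x e := by
      by_contra hcon
      push Not at hcon
      have hsw := tt_swap hD hd heD hde
      have h6 : ttcj (d * e * d)⁻¹ e = d := by
        have h7 := congrArg (ttcj (d * e * d)⁻¹) hsw.1
        rw [ttcj_inv_cancel] at h7
        exact h7.symm
      have hmem : e ∈ {w : G | w ∈ D ∧ {y : G | y ∈ D ∧ y ≠ d ∧ Commute d y} =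
          {y : G | y ∈ D ∧ y ≠ w ∧ Commute w y}} := by
        refine ⟨heD, ?_⟩
        ext y
        constructor
        · rintro ⟨hy, hyd, hc⟩
          refine ⟨hy, ?_, (hcon y hy hyd hc).symm⟩
          intro hye
          rw [hye] at hc
          exact hde hc
        · rintro ⟨hy, hye, hc⟩
          have hy' : ttcj (d * e * d) y ∈ D := ttcj_mem hD hy _
          have hc' : Commute d (ttcj (d * e * d) y) := by
            have h8 := (ttcj_commute_iff (d * e * d) e y).mpr hc
            rwa [hsw.2] at h8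
          have hne' : ttcj (d * e * d) y ≠ d := by
            intro h
            have h9 : ttcj (d * e * d) y = ttcj (d * e * d) e := h.trans hsw.2.symm
            exact hye (ttcj_inj h9)
          have h4 := hcon _ hy' hne' hc'
          have h5 : Commute y (ttcj (d * e * d)⁻¹ e) :=
            (ttcj_commute_iff' (d * e * d) y e).mp h4
          rw [h6] at h5
          refine ⟨hy, ?_, h5.symm⟩
          intro hyd
          rw [hyd] at hc
          exact hde hc.symm
      rw [(Cfsg.Agent.S5350.result hD hD2 hd).2] at hmem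
      obtain ⟨g, hg, heg⟩ := hmem
      have hgc := h3 hg
      rw [Subgroup.mem_center_iff] at hgc
      apply hde
      have hed : e = d := by rw [heg, ← hgc d, mul_assoc, mul_inv_cancel, mul_one]
      rw [hed]
    obtain ⟨x, hxD, hxd, hdx, hxe⟩ := hex
    have hdB : d ∈ ttOrb H d := ⟨1, H.one_mem, by group⟩
    have heB : e ∈ ttOrb H d :=
      ⟨d * e * d, H.mul_mem (H.mul_mem hdH heH) hdH, (tt_swap hD hd heD hde).1.symm⟩
    have hxB : x ∈ ttOrb H d := by
      obtain ⟨h₁, hh₁, he₁⟩ := heB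
      have hsw := tt_swap hD heD hxD (fun hc => hxe hc.symm)
      refine ⟨(e * x * e) * h₁,
        H.mul_mem (H.mul_mem (H.mul_mem heH (hθH x hxD hdx)) heH) hh₁, ?_⟩
      have h1 : ttcj ((e * x * e) * h₁) d = x := by
        rw [ttcj_mul, show ttcj h₁ d = e from he₁.symm]; exact hsw.1
      exact h1.symm
    have hθB : ∀ y ∈ D, Commute d y → y ∈ ttOrb H d := by
      intro y hy hc
      by_cases hyd : y = d
      · rw [hyd]; exact hdB
      · have hcn := ttCn_all hTT hd ⟨hxD, hxd, hdx⟩ ⟨hy, hyd, hc⟩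
        obtain ⟨g, hg, hgy⟩ := ttCn_conj_closure hD hcn
        have hgH : g ∈ H := hle (Subgroup.closure_mono (by
          rintro z ⟨hz, -, hzc⟩; exact ⟨hz, hzc⟩) hg)
        obtain ⟨h₁, hh₁, hx₁⟩ := hxB
        refine ⟨g * h₁, H.mul_mem hgH hh₁, ?_⟩
        rw [← hgy, hx₁]; group
    have hclosed : ∀ x ∈ ttOrb H d, ∀ y ∈ D, Commute x y → y ∈ ttOrb H d := by
      rintro x ⟨h, hh, rfl⟩ y hy hc
      have hy' : ttcj h⁻¹ y ∈ D := ttcj_mem hD hy _
      have hc' : Commute d (ttcj h⁻¹ y) := (ttcj_commute_iff' h d y).mp hc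
      obtain ⟨h₁, hh₁, hy₁⟩ := hθB _ hy' hc'
      refine ⟨h * h₁, H.mul_mem hh hh₁, ?_⟩
      calc y = ttcj h (ttcj h⁻¹ y) := (ttcj_cancel_inv h y).symm
        _ = ttcj h (h₁ * d * h₁⁻¹) := by rw [hy₁]
        _ = h * h₁ * d * (h * h₁)⁻¹ := by unfold ttcj; group
    have hDB := tt_conn hTT hd hdB hclosed
    rw [eq_top_iff, ← hD.2.2, Subgroup.closure_le]
    intro y hy
    obtain ⟨h, hh, rfl⟩ := hDB hy
    exact H.mul_mem (H.mul_mem hh hdH) (H.inv_mem hh)

/-- Let D be a conjugation-invariant generating set of 3-transpositions of the finite group G on which G acts primitively by conjugation, and suppose two different members of D commute (width at least 2). Then G has a quasisimple normal subgroup L of index at most 2 with the generalized Fitting subgroup of G equal to L times the centre, the commuting graph of D is connected, and for d in D the subgroup generated by the members of D commuting with d is a maximal D-subgroup: it is proper, and every subgroup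 generated by members of D that contains it is either it or G. -/
theorem result {G : Type*} [Group G] [Finite G] {D : Set G} (hD : Cfsg.IsThreeTranspositionGroup D) (hprim : Cfsg.IsPrimitiveUnderConj D) (hw : ∃ a ∈ D, ∃ b ∈ D, a ≠ b ∧ Commute a b) : (∃ L : Subgroup G, L.Normal ∧ Cfsg.IsQuasisimple L ∧ L.index ≤ 2 ∧ Cfsg.generalizedFittingSubgroup G = L ⊔ Subgroup.center G) ∧ (Cfsg.commutingGraph D).Connected ∧ ∀ d ∈ D, Subgroup.closure {y : G | y ∈ D ∧ Commute d y} ≠ ⊤ ∧ ∀ H : Subgroup G, Cfsg.IsDSubgroup D H → Subgroup.closure {y : G | y ∈ D ∧ Commute d y} ≤ H → H = Subgroup.closure {y : G | y ∈ D ∧ Commute d y} ∨ H = ⊤ := by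
  have hDc := class_of_prim hD hprim
  have hTT := ttPrim_of_prim' hDc hprim hw
  have h2 := cores_central hTT (Or.inl rfl)
  have h3 := cores_central hTT (Or.inr rfl)
  have hD2 := hprim.2.1
  have hconn := Cfsg.Agent.S5361.connected_of_prim hTT
  obtain ⟨L, hLn, hLq, hF, -⟩ := Cfsg.Agent.S5352.result hDc hD2 h2 h3
  refine ⟨⟨L, hLn, hLq, ?_, hF⟩, hconn, ?_⟩
  · haveI := hLn
    exact (Cfsg.Agent.S5353.result hDc hD2 h2 h3 L hLq hF).2 hconn
  · intro d hd
    refine ⟨?_, fun H hH hle => max_dsub hTT h3 hD2 hd hH hle⟩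
    intro htop
    obtain ⟨c, hc, hdc⟩ := hTT.2.2.2 d hd
    apply hdc
    have hall : ∀ x ∈ Subgroup.closure {y : G | y ∈ D ∧ Commute d y}, Commute d x := by
      intro x hx
      induction hx using Subgroup.closure_induction with
      | mem y hy => exact hy.2
      | one => exact Commute.one_right d
      | mul x y _ _ ihx ihy => exact ihx.mul_right ihy
      | inv x _ ih => exact ih.inv_right
    exact hall c (by rw [htop]; trivial)

end Cfsg.Agent.S5354
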