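import Cfsg.Statements.S0910
import Cfsg.Agent.Lib.Helper21.Osima
import Cfsg.Agent.Lib.Helper4.CharBurnside

set_option autoImplicit false
open Cfsg

namespace Cfsg.Agent.S0910

open Cfsg.Agent.Lib.Helper21 Cfsg.Agent.Lib.Helper4 Module

/-- There is a non-identity element whose centralizer contains a Sylow `p`-subgroup. -/
theorem exists_central_elt {G : Type*} [Group G] [Finite G] [Nontrivial G] (p : ℕ)
    [Fact p.Prime] : ∃ g : G, g ≠ 1 ∧ ¬ p ∣ (Subgroup.centralizer ({g} : Set G)).index := by
  obtain ⟨P⟩ : Nonempty (Sylow p G) := inferInstance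
  have key : ∃ g : G, g ≠ 1 ∧ (P : Subgroup G) ≤ Subgroup.centralizer ({g} : Set G) := by
    rcases subsingleton_or_nontrivial (P : Subgroup G) with hs | hn
    · obtain ⟨g, hg⟩ := exists_ne (1 : G)
      refine ⟨g, hg, fun x hx => ?_⟩
      have : (⟨x, hx⟩ : (P : Subgroup G)) = 1 := Subsingleton.elim _ _
      have hx1 : x = 1 := congrArg Subtype.val this
      rw [hx1]
      exact Subgroup.one_mem _
    · haveI := hn
      have hc := IsPGroup.center_nontrivial (G := (P : Subgroup G)) P.isPGroup'
      obtain ⟨z, hz⟩ := exists_ne (1 : Subgroup.center (P : Subgroup G))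
      refine ⟨((z : (P : Subgroup G)) : G), ?_, fun x hx => ?_⟩
      · intro h1
        apply hz
        apply Subtype.ext
        apply Subtype.ext
        exact h1
      · rw [Subgroup.mem_centralizer_iff]
        intro y hy
        rw [Set.mem_singleton_iff] at hy
        subst hy
        have h2 := (Subgroup.mem_center_iff.mp z.2) ⟨x, hx⟩
        have h3 := congrArg Subtype.val h2
        simpa using h3.symm
  obtain ⟨g, hg, hle⟩ := key
  refine ⟨g, hg, fun hdvd => ?_⟩
  exact P.not_dvd_index (hdvd.trans (Subgroup.index_dvd_of_le hle))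

/-- Let G be a non-abelian finite simple group and p a prime. If an irreducible character χ lies in the principal block (relative to a maximal ideal of the algebraic integers containing p) and χ 1 is a power of p, then χ is the principal character. -/
theorem result {G : Type*} [Group G] [Finite G] (p : ℕ) [Fact p.Prime] (M : Ideal Cfsg.AlgInt) (hM : Cfsg.IsPModular p M) [IsSimpleGroup G] (hna : ∃ a b : G, a * b ≠ b * a) (χ : Cfsg.IrrCharacter G) (hχ : χ ∈ Cfsg.principalBlock M G) (k : ℕ) (hdeg : (χ : G → ℂ) 1 = (p : ℂ) ^ k) : (χ : G → ℂ) = fun _ => 1 := by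
  classical
  letI := Fintype.ofFinite G
  obtain ⟨n, ρ, hρ, hρχ⟩ := χ.2
  haveI := hρ
  have hfin : finrank ℂ (Fin n → ℂ) = n := by simp
  have hn : (n : ℂ) = (p : ℂ) ^ k := by
    rw [← hdeg, ← hρχ, Representation.char_one, hfin]
  have hnk : n = p ^ k := by exact_mod_cast hn
  -- kernel of ρ
  have hker : (MonoidHom.ker ρ) = ⊥ ∨ (MonoidHom.ker ρ) = ⊤ :=
    (MonoidHom.normal_ker ρ).eq_bot_or_eq_top
  rcases hker with hbot | htop
  · exfalso
    have hinj : Function.Injective ρ := (MonoidHom.ker_eq_bot_iff ρ).mp hbot
    obtain ⟨g, hg1, hgp⟩ := exists_central_elt (G := G) p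
    have hcop : Nat.Coprime (finrank ℂ (Fin n → ℂ))
        (Finset.univ.filter (fun x : G => IsConj x g)).card := by
      rw [hfin, hnk, card_conj_class]
      exact Nat.Coprime.pow_left k ((Nat.Prime.coprime_iff_not_dvd (Fact.out)).mpr hgp)
    rcases char_eq_zero_or_norm_eq ρ g hcop with h0 | hnorm
    · -- χ g = 0, so the class size is divisible by p
      have h1 : MemLocalIdeal M (centralChar (fun _ : G => (1 : ℂ)) g -
          centralChar (χ : G → ℂ) g) := hχ g
      have h2 : centralChar (fun _ : G => (1 : ℂ)) g - centralChar (χ : G → ℂ) g =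
          (((Subgroup.centralizer ({g} : Set G)).index : ℕ) : ℂ) := by
        unfold centralChar
        rw [← hρχ, h0]
        simp
      rw [h2] at h1
      exact hgp ((locIdeal_natCast_iff hM _).mp h1)
    · -- ρ g is a scalar, so g is central
      obtain ⟨ω, hω⟩ := (norm_char_eq_iff ρ g).mp hnorm
      have hcent : g ∈ Subgroup.center G := by
        rw [Subgroup.mem_center_iff]
        intro h
        apply hinj
        rw [map_mul, map_mul, hω]
        ext v
        simp
      rcases (Subgroup.Normal.eq_bot_or_eq_top (H := Subgroup.center G) inferInstance) with hb | ht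
      · rw [hb, Subgroup.mem_bot] at hcent
        exact hg1 hcent
      · obtain ⟨a, b, hab⟩ := hna
        apply hab
        have ha : a ∈ Subgroup.center G := by rw [ht]; exact Subgroup.mem_top a
        exact ((Subgroup.mem_center_iff.mp ha) b).symm
  · -- trivial representation
    have hone : ∀ g : G, ρ g = 1 := by
      intro g
      have : g ∈ MonoidHom.ker ρ := by rw [htop]; exact Subgroup.mem_top g
      exact MonoidHom.mem_ker.mp this
    have hval : ∀ g : G, (χ : G → ℂ) g = (n : ℂ) := by
      intro g
      rw [← hρχ, Representation.character, hone g]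
      simp
    have hinner := classInner_irr χ χ
    rw [if_pos rfl] at hinner
    unfold classInner at hinner
    simp only [hval, map_natCast, Finset.sum_const, Finset.card_univ, nsmul_eq_mul] at hinner
    have hcard : (Fintype.card G : ℂ) ≠ 0 := by
      exact_mod_cast Fintype.card_ne_zero
    rw [Nat.card_eq_fintype_card] at hinner
    have hsq : (n : ℂ) * (n : ℂ) = 1 := by
      field_simp at hinner
      linear_combination hinner
    have hn1 : n = 1 := by
      have h1 : n * n = 1 := by exact_mod_cast hsq
      rcases Nat.lt_or_ge n 2 with h2 | h2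
      · interval_cases n <;> simp_all
      · nlinarith
    funext g
    rw [hval g, hn1]
    simp

end Cfsg.Agent.S0910
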