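import Cfsg.Statements.S0904
import Mathlib
import Cfsg.Agent.S0910
import Cfsg.Agent.S0914
import Cfsg.Agent.Lib.Helper22.WeakOrth
import Cfsg.Agent.Lib.Helper82.PQ
import Cfsg.Agent.Lib.Helper4.CharSimple
import Cfsg.Agent.Lib.Helper4.CharInt

set_option autoImplicit false
open Cfsg

namespace Cfsg.Agent.S0904

open Cfsg.Agent.Lib.Helper4 Cfsg.Agent.Lib.Helper21 Cfsg.Agent.Lib.Helper22
open scoped ComplexConjugate

theorem irr_degree {G : Type*} [Group G] [Fintype G] (χ : IrrCharacter G) :
    ∃ n : ℕ, 0 < n ∧ n ∣ Nat.card G ∧ (χ : G → ℂ) 1 = (n : ℂ) ∧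
      charDegree (χ : G → ℂ) = n := by
  obtain ⟨n, ρ, hρ, hρχ⟩ := χ.2
  haveI := hρ
  have hfin : Module.finrank ℂ (Fin n → ℂ) = n := by simp
  have hχ1 : (χ : G → ℂ) 1 = (n : ℂ) := by rw [← hρχ, Representation.char_one, hfin]
  refine ⟨n, ?_, ?_, hχ1, ?_⟩
  · have := finrank_pos_of_irreducible ρ
    rwa [hfin] at this
  · have := finrank_dvd_card ρ
    rwa [hfin] at this
  · unfold charDegree
    rw [hχ1]
    simp

/-- In a non-abelian simple group of order `p ^ a * q ^ b * r` no element of order `p` commutes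
with an element of order `r`. -/
theorem no_commuting {G : Type*} [Group G] [Finite G] [IsSimpleGroup G]
    (hna : ∃ a b : G, a * b ≠ b * a) (p q r a b : ℕ) [Fact p.Prime] [Fact q.Prime]
    [Fact r.Prime] (hpr : p ≠ r) (hqr : q ≠ r)
    (hcard : Nat.card G = p ^ a * q ^ b * r) (s x : G) (hs : orderOf s = r)
    (hx : orderOf x = p) (hsx : Commute s x) : False := by
  classical
  letI := Fintype.ofFinite G
  haveI := irr_finite (G := G)
  letI := Fintype.ofFinite (IrrCharacter G)
  have hp : p.Prime := Fact.out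
  have hq : q.Prime := Fact.out
  have hr : r.Prime := Fact.out
  obtain ⟨Mp, hMp⟩ := Cfsg.Agent.Lib.Helper82.exists_isPModular p
  obtain ⟨Mr, hMr⟩ := Cfsg.Agent.Lib.Helper82.exists_isPModular r
  set y := s * x with hy
  have hyo : orderOf y = r * p := by
    rw [hy, hsx.orderOf_mul_eq_mul_orderOf_of_coprime
      (by rw [hs, hx]; exact (Nat.coprime_primes hr hp).mpr (Ne.symm hpr)), hs, hx]
  have hpy : p ∣ orderOf y := by rw [hyo]; exact dvd_mul_left p r
  have hry : r ∣ orderOf y := by rw [hyo]; exact dvd_mul_right r p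
  have htriv : ((trivIrr : IrrCharacter G) : G → ℂ) = fun _ => 1 := funext trivIrr_apply
  have hB : IsPBlock Mp (principalBlock Mp G) :=
    ⟨trivIrr, by unfold principalBlock; rw [htriv]⟩
  have h0 := weak_block_orth hMp _ hB 1 y
    (by rw [orderOf_one]; exact hp.not_dvd_one) hpy
  rw [finsum_mem_def, finsum_eq_sum_of_fintype] at h0
  have hterm : ∀ χ : IrrCharacter G, χ ≠ trivIrr → ∃ w : ℂ, IsIntegral ℤ w ∧
      (principalBlock Mp G).indicator
        (fun χ : IrrCharacter G => (χ : G → ℂ) 1 * conj ((χ : G → ℂ) y)) χ = (q : ℂ) * w := by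
    intro χ hχ
    by_cases hχB : χ ∈ principalBlock Mp G
    · rw [Set.indicator_of_mem hχB]
      obtain ⟨n, hnpos, hndvd, hn1, hndeg⟩ := irr_degree χ
      have hnotpow : ∀ k, n ≠ p ^ k := by
        intro k hk
        apply hχ
        have := Cfsg.Agent.S0910.result p Mp hMp hna χ hχB k (by rw [hn1, hk]; push_cast; rfl)
        exact Subtype.ext (this.trans htriv.symm)
      have hqr' : q ∣ n ∨ r ∣ n := by
        by_contra hcon
        rw [not_or] at hcon
        have h1 : n ∣ p ^ a * q ^ b * r := hcard ▸ hndvd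
        have hcq : Nat.Coprime n (q ^ b) :=
          Nat.Coprime.pow_right _ (Nat.Coprime.symm ((Nat.Prime.coprime_iff_not_dvd hq).mpr hcon.1))
        have hcr : Nat.Coprime n r :=
          Nat.Coprime.symm ((Nat.Prime.coprime_iff_not_dvd hr).mpr hcon.2)
        have h2 : n ∣ p ^ a := hcq.dvd_of_dvd_mul_right (hcr.dvd_of_dvd_mul_right h1)
        obtain ⟨k, -, hk⟩ := (Nat.dvd_prime_pow hp).mp h2
        exact hnotpow k hk
      rcases hqr' with hq' | hr'
      · obtain ⟨m, hm⟩ := hq'
        refine ⟨(m : ℂ) * conj ((χ : G → ℂ) y), ?_, ?_⟩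
        · rw [← irr_inv]
          exact IsIntegral.mul (isIntegral_natCast m) (irr_isIntegral χ y⁻¹)
        · rw [hn1, hm]; push_cast; ring
      · refine ⟨0, isIntegral_zero, ?_⟩
        have hdz : ¬ r ∣ Nat.card G / charDegree (χ : G → ℂ) := by
          rw [hndeg]
          obtain ⟨m, hm⟩ := hr'
          intro hdiv
          obtain ⟨e, he⟩ := hndvd
          rw [he, Nat.mul_div_cancel_left _ hnpos] at hdiv
          obtain ⟨e', he'⟩ := hdiv
          have h3 : r * r ∣ p ^ a * q ^ b * r := by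
            rw [← hcard, he, hm, he']; exact ⟨m * e', by ring⟩
          have h4 : r ∣ p ^ a * q ^ b := Nat.dvd_of_mul_dvd_mul_right hr.pos h3
          rcases (Nat.Prime.dvd_mul hr).mp h4 with h5 | h5
          · exact hpr ((Nat.prime_dvd_prime_iff_eq hr hp).mp (hr.dvd_of_dvd_pow h5)).symm
          · exact hqr ((Nat.prime_dvd_prime_iff_eq hr hq).mp (hr.dvd_of_dvd_pow h5)).symm
        have hsing := (Cfsg.Agent.S0914.result r Mr hMr χ).mp hdz
        have h6 := Cfsg.Agent.S0914.vanish_of_block_singleton hMr χ hsing y hry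
        rw [h6]; simp
    · exact ⟨0, isIntegral_zero, by rw [Set.indicator_of_notMem hχB]; simp⟩
  choose! w hw1 hw2 using hterm
  have htrivB : (trivIrr : IrrCharacter G) ∈ principalBlock Mp G := by
    intro g
    show MemLocalIdeal Mp (centralChar (fun _ : G => (1 : ℂ)) g -
      centralChar ((trivIrr : IrrCharacter G) : G → ℂ) g)
    rw [htriv, sub_self]
    exact locIdeal_zero hMp
  rw [← Finset.add_sum_erase Finset.univ _ (Finset.mem_univ (trivIrr : IrrCharacter G)),
    Set.indicator_of_mem htrivB] at h0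
  have h7 : ∑ χ ∈ Finset.univ.erase (trivIrr : IrrCharacter G),
      (principalBlock Mp G).indicator
        (fun χ : IrrCharacter G => (χ : G → ℂ) 1 * conj ((χ : G → ℂ) y)) χ =
      (q : ℂ) * ∑ χ ∈ Finset.univ.erase (trivIrr : IrrCharacter G), w χ := by
    rw [Finset.mul_sum]
    exact Finset.sum_congr rfl fun χ hχ => hw2 χ (Finset.ne_of_mem_erase hχ)
  rw [h7, htriv] at h0
  simp only [map_one, mul_one] at h0
  have hW : IsIntegral ℤ (∑ χ ∈ Finset.univ.erase (trivIrr : IrrCharacter G), w χ) :=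
    IsIntegral.sum _ (fun χ hχ => hw1 χ (Finset.ne_of_mem_erase hχ))
  have hq0 : (q : ℂ) ≠ 0 := by exact_mod_cast hq.ne_zero
  have h8 : ((1 : ℕ) : ℂ) / (q : ℂ) =
      - ∑ χ ∈ Finset.univ.erase (trivIrr : IrrCharacter G), w χ := by
    field_simp
    push_cast
    linear_combination h0
  have h9 : q ∣ 1 := dvd_of_isIntegral_div 1 q hq.ne_zero (h8 ▸ hW.neg)
  exact hq.one_lt.ne' (Nat.dvd_one.mp h9)

/-- Let G be a finite simple group of order p ^ a * q ^ b * r with p, q, r distinct primes. Then every Sylow r-subgroup S of G satisfies C_G(S) = S. -/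
theorem result {G : Type*} [Group G] [Finite G] [IsSimpleGroup G] (p q r a b : ℕ) (hp : p.Prime) (hq : q.Prime) [Fact r.Prime] (hpq : p ≠ q) (hpr : p ≠ r) (hqr : q ≠ r) (hcard : Nat.card G = p ^ a * q ^ b * r) (S : Sylow r G) : Subgroup.centralizer (S : Set G) = (S : Subgroup G) := by
  classical
  haveI : Fact p.Prime := ⟨hp⟩
  haveI : Fact q.Prime := ⟨hq⟩
  have hr : r.Prime := Fact.out
  have hrG : r ∣ Nat.card G := hcard ▸ dvd_mul_left r _
  have hrS : r ∣ Nat.card S := S.dvd_card_of_dvd_card hrG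
  obtain ⟨s', hs'⟩ := exists_prime_orderOf_dvd_card' r hrS
  have hs : orderOf (s' : G) = r := by rw [Subgroup.orderOf_coe]; exact hs'
  have key : ∀ (p' q' a' b' : ℕ) [Fact p'.Prime] [Fact q'.Prime], p' ≠ r → q' ≠ r →
      Nat.card G = p' ^ a' * q' ^ b' * r →
      ¬ p' ∣ Nat.card (Subgroup.centralizer (S : Set G)) := by
    intro p' q' a' b' _ _ hpr' hqr' hcard' hdvd
    have hp' : p'.Prime := Fact.out
    obtain ⟨x', hx'⟩ := exists_prime_orderOf_dvd_card' p' hdvd
    have hx : orderOf (x' : G) = p' := by rw [Subgroup.orderOf_coe]; exact hx'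
    have hcomm : Commute (s' : G) (x' : G) :=
      (Subgroup.mem_centralizer_iff.mp x'.2) (s' : G) s'.2
    by_cases hab : ∀ a b : G, a * b = b * a
    · letI : CommGroup G := { ‹Group G› with mul_comm := hab }
      have hprime : (Nat.card G).Prime := IsSimpleGroup.prime_card
      have h1 : r = Nat.card G := (Nat.prime_dvd_prime_iff_eq hr hprime).mp hrG
      have h2 : p' ∣ Nat.card G :=
        hdvd.trans (Subgroup.card_subgroup_dvd_card _)
      rw [← h1] at h2
      exact hpr' ((Nat.prime_dvd_prime_iff_eq hp' hr).mp h2)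
    · have hna : ∃ a b : G, a * b ≠ b * a := by
        by_contra hcon
        apply hab
        intro a b
        by_contra h
        exact hcon ⟨a, b, h⟩
      exact no_commuting hna p' q' r a' b' hpr' hqr' hcard' s' x' hs hx hcomm
  have hpC := key p q a b hpr hqr hcard
  have hqC := key q p b a hqr hpr (by rw [hcard]; ring)
  have hCdvd : Nat.card (Subgroup.centralizer (S : Set G)) ∣ p ^ a * q ^ b * r :=
    hcard ▸ Subgroup.card_subgroup_dvd_card _
  have hC1 : Nat.card (Subgroup.centralizer (S : Set G)) ∣ r := by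
    have c1 : Nat.Coprime (Nat.card (Subgroup.centralizer (S : Set G))) (p ^ a) :=
      Nat.Coprime.pow_right _ (Nat.Coprime.symm ((Nat.Prime.coprime_iff_not_dvd hp).mpr hpC))
    have c2 : Nat.Coprime (Nat.card (Subgroup.centralizer (S : Set G))) (q ^ b) :=
      Nat.Coprime.pow_right _ (Nat.Coprime.symm ((Nat.Prime.coprime_iff_not_dvd hq).mpr hqC))
    exact (c1.mul_right c2).dvd_of_dvd_mul_left hCdvd
  have hCr : IsPGroup r (Subgroup.centralizer (S : Set G)) := by
    rcases (Nat.dvd_prime hr).mp hC1 with h1 | h1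
    · exact IsPGroup.of_card (n := 0) (by simpa using h1)
    · exact IsPGroup.of_card (n := 1) (by simpa using h1)
  have hS1 : Nat.card S ∣ r := by
    obtain ⟨n, hn⟩ := IsPGroup.iff_card.mp S.isPGroup'
    have h1 : Nat.card S ∣ p ^ a * q ^ b * r := hcard ▸ Subgroup.card_subgroup_dvd_card _
    have c1 : Nat.Coprime (Nat.card S) (p ^ a) := by
      rw [hn]
      exact Nat.Coprime.pow _ _ ((Nat.coprime_primes hr hp).mpr (Ne.symm hpr))
    have c2 : Nat.Coprime (Nat.card S) (q ^ b) := by
      rw [hn]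
      exact Nat.Coprime.pow _ _ ((Nat.coprime_primes hr hq).mpr (Ne.symm hqr))
    exact (c1.mul_right c2).dvd_of_dvd_mul_left h1
  have hScard : Nat.card S = r := Nat.dvd_antisymm hS1 hrS
  have hSC : (S : Subgroup G) ≤ Subgroup.centralizer (S : Set G) := by
    haveI : IsCyclic S := isCyclic_of_prime_card hScard
    intro u hu
    rw [Subgroup.mem_centralizer_iff]
    intro v hv
    have := (IsCyclic.commGroup (α := S)).mul_comm ⟨v, hv⟩ ⟨u, hu⟩
    exact congrArg Subtype.val this
  exact S.is_maximal' hCr hSC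

end Cfsg.Agent.S0904
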