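import Cfsg.Statements.S4571
import Cfsg.Agent.Lib.Helper79.QuotRank
import Cfsg.Agent.Lib.Helper79.NormDef4

set_option autoImplicit false
open Cfsg

namespace Cfsg.Agent.S4571

theorem blockOf_triv {K : Type*} [Group K] (M : Ideal Cfsg.AlgInt) :
    Cfsg.blockOf M ((Cfsg.Agent.Lib.Helper83.trivIrr K : Cfsg.IrrCharacter K) : K → ℂ) =
      Cfsg.principalBlock M K := rfl

theorem inflate_triv {G : Type*} [Group G] (Q : Subgroup G) [Q.Normal] :
    Cfsg.Agent.Lib.Helper83.inflate Q (Cfsg.Agent.Lib.Helper83.trivIrr (G ⧸ Q)) =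
      Cfsg.Agent.Lib.Helper83.trivIrr G := by
  apply Subtype.ext
  funext g
  rw [Cfsg.Agent.Lib.Helper83.inflate_apply]
  rfl

theorem deflate_principal {G : Type*} [Group G] [Fintype G] (p : ℕ) [Fact p.Prime]
    (M : Ideal Cfsg.AlgInt) (hM : Cfsg.IsPModular p M) (Q : Subgroup G) [Q.Normal]
    (hB' : Cfsg.IsPBlock M {ψ : Cfsg.IrrCharacter (G ⧸ Q) |
        Cfsg.Agent.Lib.Helper83.inflate Q ψ ∈ Cfsg.principalBlock M G}) :
    {ψ : Cfsg.IrrCharacter (G ⧸ Q) |
        Cfsg.Agent.Lib.Helper83.inflate Q ψ ∈ Cfsg.principalBlock M G} =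
      Cfsg.principalBlock M (G ⧸ Q) := by
  have htriv : Cfsg.Agent.Lib.Helper83.trivIrr (G ⧸ Q) ∈
      {ψ : Cfsg.IrrCharacter (G ⧸ Q) |
        Cfsg.Agent.Lib.Helper83.inflate Q ψ ∈ Cfsg.principalBlock M G} := by
    have h2 : Cfsg.Agent.Lib.Helper83.inflate Q (Cfsg.Agent.Lib.Helper83.trivIrr (G ⧸ Q)) ∈
        Cfsg.principalBlock M G := by
      rw [inflate_triv]
      exact Cfsg.Agent.Lib.Helper79.trivIrr_mem_principalBlock hM
    exact h2
  have h := Cfsg.Agent.Lib.Helper79.blockOf_eq_of_mem hM hB' htriv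
  rw [h, blockOf_triv]

/-- Let Q be a normal p-subgroup of the finite group G with G = Q·C_G(Q), and M a maximal ideal of the algebraic integers containing p. Then the principal p-blocks of G and of G/Q have the same p-regular rank (the same number of irreducible Brauer characters). -/
theorem result {G : Type*} [Group G] [Finite G] (p : ℕ) [Fact p.Prime] (M : Ideal Cfsg.AlgInt) (hM : Cfsg.IsPModular p M) (Q : Subgroup G) [Q.Normal] (hQ : IsPGroup p Q) (hsup : Q ⊔ Subgroup.centralizer (Q : Set G) = ⊤) : Cfsg.blockRank p (Cfsg.principalBlock M G) = Cfsg.blockRank p (Cfsg.principalBlock M (G ⧸ Q)) := by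
  classical
  letI := Fintype.ofFinite G
  have hDC := Cfsg.Agent.Lib.Helper79.factor_of_sup_centralizer Q hsup
  have hC := Cfsg.Agent.Lib.Helper79.index_centralizer_of_factor Q hQ hDC
  have hB : Cfsg.IsPBlock M (Cfsg.principalBlock M G) :=
    Cfsg.Agent.Lib.Helper79.isPBlock_principalBlock
  letI : Fintype (G ⧸ Q) := Fintype.ofFinite _
  have hB' := Cfsg.Agent.Lib.Helper81.isPBlock_deflate hM Q hQ hC _ hB
  have hmain := Cfsg.Agent.Lib.Helper79.blockRank_quot hM Q hQ hC _ hB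
  rw [deflate_principal p M hM Q hB'] at hmain
  exact hmain

end Cfsg.Agent.S4571
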