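import Cfsg.Statements.S3972
import Cfsg.Agent.Lib.Helper17.BGroupC

set_option autoImplicit false
open Cfsg

namespace Cfsg.Agent.S3972

open Cfsg.Agent.Lib.Helper17
open scoped Pointwise

/-- In a cyclic group of order `p ^ m`, the cyclic subgroup generated by a non-identity element
contains the element `g ^ (p ^ (m - 1))` of order `p`. -/
theorem zpowers_contains {G : Type*} [Group G] {g : G} {p m : ℕ} (hp : p.Prime)
    (hg : orderOf g = p ^ m) {a : G} (ha : a ∈ Subgroup.zpowers g) (ha1 : a ≠ 1) :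
    g ^ (p ^ (m - 1)) ∈ Subgroup.zpowers a := by
  obtain ⟨z, rfl⟩ := Subgroup.mem_zpowers_iff.mp ha
  set d : ℕ := Int.gcd z ((p ^ m : ℕ) : ℤ) with hd
  have hd1 : d ∣ p ^ m := by
    have := Int.gcd_dvd_right z ((p ^ m : ℕ) : ℤ)
    exact Int.natCast_dvd_natCast.mp this
  obtain ⟨i, hi, hdi⟩ := (Nat.dvd_prime_pow hp).mp hd1
  have hgd : g ^ d ∈ Subgroup.zpowers (g ^ z) := by
    have hb := Int.gcd_eq_gcd_ab z ((p ^ m : ℕ) : ℤ)
    have h1 : g ^ ((p ^ m : ℕ) : ℤ) = 1 := by
      rw [zpow_natCast, ← hg, pow_orderOf_eq_one]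
    have h2 : g ^ ((d : ℕ) : ℤ) = (g ^ z) ^ (Int.gcdA z ((p ^ m : ℕ) : ℤ)) := by
      rw [hd, hb, zpow_add, zpow_mul, zpow_mul, h1, one_zpow, mul_one]
    rw [← zpow_natCast, h2]
    exact Subgroup.zpow_mem _ (Subgroup.mem_zpowers _) _
  have him : i < m := by
    rcases Nat.lt_or_ge i m with h | h
    · exact h
    · exfalso
      have him : i = m := le_antisymm hi h
      apply ha1
      rw [← orderOf_dvd_iff_zpow_eq_one, hg]
      have := Int.gcd_dvd_left z ((p ^ m : ℕ) : ℤ)
      rw [← hd, hdi, him] at this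
      exact this
  have hpow : g ^ (p ^ (m - 1)) = (g ^ d) ^ (p ^ (m - 1 - i)) := by
    rw [← pow_mul, hdi, ← pow_add]
    congr 2
    omega
  rw [hpow]
  exact Subgroup.pow_mem _ hgd _

/-- Let `p` be a prime, `m ≥ 2`, and `G` a transitive but not doubly transitive permutation group on `p ^ m` points containing a permutation of order `p ^ m` (necessarily a full cycle). Then `G` is imprimitive, and the normal closure in `G` of the `p ^ (m - 1)`-th power of that permutation is an intransitive normal subgroup. -/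
theorem result {Ω : Type*} [Fintype Ω] [DecidableEq Ω] (p m : ℕ) (hp : p.Prime) (hm : 2 ≤ m) (hΩ : Fintype.card Ω = p ^ m) (G : Subgroup (Equiv.Perm Ω)) (htr : MulAction.IsPretransitive G Ω) (h2 : ¬ MulAction.IsMultiplyPretransitive G Ω 2) (g : G) (hg : orderOf g = p ^ m) : ¬ MulAction.IsPreprimitive G Ω ∧ ¬ MulAction.IsPretransitive (Subgroup.normalClosure ({g ^ (p ^ (m - 1))} : Set G)) Ω := by
  haveI : Fact p.Prime := ⟨hp⟩
  set z : G := g ^ (p ^ (m - 1)) with hz
  have hz1 : z ≠ 1 := by
    apply pow_ne_one_of_lt_orderOf (pow_pos hp.pos _).ne'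
    rw [hg]
    exact Nat.pow_lt_pow_right hp.one_lt (by omega)
  -- a point moved by `z`
  obtain ⟨ω₀, hω₀⟩ : ∃ ω₀ : Ω, z • ω₀ ≠ ω₀ := by
    by_contra hcon
    push Not at hcon
    apply hz1
    apply Subtype.ext
    apply Equiv.ext
    intro ω
    exact hcon ω
  set A : Subgroup G := Subgroup.zpowers g with hA
  have hzA : z ∈ A := Subgroup.pow_mem _ (Subgroup.mem_zpowers g) _
  -- elements of `A` fixing a point moved by `z` are trivial
  have hfree : ∀ (β : Ω), z • β ≠ β → ∀ a : G, a ∈ A → a • β = β → a = 1 := by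
    intro β hβ a ha hfix
    by_contra ha1
    have h1 := zpowers_contains hp hg ha ha1
    have h3 : Subgroup.zpowers a ≤ MulAction.stabilizer G β := by
      rw [Subgroup.zpowers_le]
      exact hfix
    exact hβ (h3 h1)
  have hcardA : Nat.card A = p ^ m := by rw [hA, Nat.card_zpowers, hg]
  have hreg : Function.Bijective (fun a : A => (a : G) • ω₀) := by
    have hinj : Function.Injective (fun a : A => (a : G) • ω₀) := by
      intro a b hab
      have h1 : (a : G) • ω₀ = (b : G) • ω₀ := hab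
      have h3 : ((b⁻¹ * a : A) : G) • ω₀ = ω₀ := by
        rw [Subgroup.coe_mul, Subgroup.coe_inv, mul_smul, h1, inv_smul_smul]
      have h4 := hfree ω₀ hω₀ _ (b⁻¹ * a).2 h3
      have h5 : b⁻¹ * a = 1 := Subtype.ext h4
      rw [inv_mul_eq_one] at h5
      exact h5.symm
    apply hinj.bijective_of_nat_card_le
    rw [hcardA, Nat.card_eq_fintype_card, hΩ]
  letI : CommGroup A := IsCyclic.commGroup
  have hcomm : ∀ a b : A, a * b = b * a := fun a b => mul_comm a b
  -- part 1
  have hnp : ¬ MulAction.IsPreprimitive G Ω := by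
    intro hprim
    apply h2
    set P₁ : Subgroup A := (powMonoidHom p : A →* A).ker with hP₁
    have hP : ∀ a : A, a ∈ P₁ ↔ a ^ p = 1 := by
      intro a
      rw [hP₁, MonoidHom.mem_ker, powMonoidHom_apply]
    have hPc : Nat.card P₁ = p := by
      rw [hP₁, IsCyclic.card_powMonoidHom_ker, hcardA]
      exact Nat.gcd_eq_right (dvd_pow_self p (by omega))
    have hne : ∃ x : A, x ∉ P₁ := by
      by_contra hcon
      push Not at hcon
      have : P₁ = ⊤ := by
        rw [eq_top_iff]
        exact fun x _ => hcon x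
      rw [this, Subgroup.card_top, hcardA] at hPc
      have h1 : p ^ m = p ^ 1 := by rw [hPc, pow_one]
      have := Nat.pow_right_injective hp.two_le h1
      omega
    exact two_transitive_of_regular_abelian hprim A ω₀ hreg hcomm p P₁ hP hPc hne
  refine ⟨hnp, ?_⟩
  -- part 2
  intro hN
  obtain ⟨B, hB, hBnt⟩ : ∃ B : Set Ω, MulAction.IsBlock G B ∧ ¬ MulAction.IsTrivialBlock B := by
    by_contra hcon
    push Not at hcon
    exact hnp { toIsPretransitive := htr, isTrivialBlock_of_isBlock := fun {B} hB => hcon B hB }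
  have hBeq : ∀ {g₁ g₂ : G} {x : Ω}, x ∈ g₁ • B → x ∈ g₂ • B → g₁ • B = g₂ • B := by
    intro g₁ g₂ x h1 h2
    by_contra hne
    exact Set.disjoint_left.mp (hB hne) h1 h2
  unfold MulAction.IsTrivialBlock at hBnt
  push Not at hBnt
  obtain ⟨hBns, hBnu⟩ := hBnt
  obtain ⟨β, hβ, β'', hβ'', hne⟩ := hBns
  obtain ⟨β', hβ'⟩ : ∃ β' : Ω, β' ∉ B := by
    by_contra hcon
    push Not at hcon
    exact hBnu (Set.eq_univ_of_forall hcon)
  -- `A` is transitive
  have hAtr : ∀ γ δ : Ω, ∃ a : A, (a : G) • γ = δ := by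
    intro γ δ
    obtain ⟨a, ha⟩ := hreg.2 γ
    obtain ⟨b, hb⟩ := hreg.2 δ
    refine ⟨b * a⁻¹, ?_⟩
    have ha' : (a : G) • ω₀ = γ := ha
    have hb' : (b : G) • ω₀ = δ := hb
    rw [Subgroup.coe_mul, Subgroup.coe_inv, mul_smul, ← ha', inv_smul_smul, hb']
  -- `z` stabilizes `B`
  have hzB : z • B = B := by
    obtain ⟨k, hk⟩ := hAtr β β''
    have hk1 : (k : G) ≠ 1 := by
      intro h
      rw [h, one_smul] at hk
      exact hne hk
    have hkB : (k : G) • B = B := by
      have h1 : β'' ∈ (k : G) • B := by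
        rw [← hk]
        exact Set.smul_mem_smul_set hβ
      have h2 : β'' ∈ (1 : G) • B := by rw [one_smul]; exact hβ''
      rw [hBeq h1 h2, one_smul]
    have h3 : Subgroup.zpowers (k : G) ≤ MulAction.stabilizer G B := by
      rw [Subgroup.zpowers_le]
      exact hkB
    exact h3 (zpowers_contains hp hg k.2 hk1)
  -- the kernel of the action on the translates of `B`
  let M : Subgroup G :=
    { carrier := {n : G | ∀ h : G, n • (h • B) = h • B}
      mul_mem' := by
        intro a b ha hb h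
        rw [mul_smul, hb h, ha h]
      one_mem' := fun h => one_smul _ _
      inv_mem' := by
        intro a ha h
        rw [inv_smul_eq_iff, ha h] }
  have hMn : M.Normal := by
    constructor
    intro n hn c h
    have h1 := hn (c⁻¹ * h)
    show (c * n * c⁻¹) • (h • B) = h • B
    rw [mul_smul, mul_smul, ← mul_smul c⁻¹ h, h1, mul_smul, smul_inv_smul]
  have hzM : z ∈ M := by
    intro h
    obtain ⟨a, ha⟩ := hAtr β (h • β)
    have h1 : h • β ∈ (a : G) • B := by
      rw [← ha]
      exact Set.smul_mem_smul_set hβ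
    have h2 : h • β ∈ h • B := Set.smul_mem_smul_set hβ
    rw [hBeq h2 h1]
    have hcz : z * (a : G) = (a : G) * z := by
      have := hcomm ⟨z, hzA⟩ a
      exact congrArg Subtype.val this
    rw [← mul_smul, hcz, mul_smul, hzB]
  have hle : Subgroup.normalClosure ({z} : Set G) ≤ M := by
    apply Subgroup.normalClosure_le_normal
    rw [Set.singleton_subset_iff]
    exact hzM
  obtain ⟨n, hn⟩ := MulAction.exists_smul_eq (Subgroup.normalClosure ({z} : Set G)) β β'
  have hnM : (n : G) ∈ M := hle n.2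
  have h1 := hnM 1
  rw [one_smul] at h1
  have h3 : (n : G) • β ∈ (n : G) • B := Set.smul_mem_smul_set hβ
  rw [h1] at h3
  exact hβ' (hn ▸ h3)

end Cfsg.Agent.S3972
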