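import Cfsg.Statements.S0100
import Mathlib

set_option autoImplicit false
open Cfsg

namespace Cfsg.Agent.S0100

open scoped commutatorElement

universe u

section
variable {P : Type*} [Group P]

theorem pow_mul_comm2' (x y : P) (hy : Commute ⁅y, x⁆ y) (n : ℕ) :
    y ^ n * x = ⁅y, x⁆ ^ n * x * y ^ n := by
  have hyx : y * x = ⁅y, x⁆ * x * y := by rw [commutatorElement_def]; group
  induction n with
  | zero => simp
  | succ n ih =>
    calc y ^ (n + 1) * x = y ^ n * (y * x) := by rw [pow_succ, mul_assoc]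
      _ = y ^ n * (⁅y, x⁆ * x * y) := by rw [hyx]
      _ = ⁅y, x⁆ * (y ^ n * x) * y := by
        rw [mul_assoc ⁅y, x⁆ x y, ← mul_assoc (y ^ n), ← (hy.pow_right n).eq]
        simp only [mul_assoc]
      _ = ⁅y, x⁆ * (⁅y, x⁆ ^ n * x * y ^ n) * y := by rw [ih]
      _ = ⁅y, x⁆ ^ (n + 1) * x * y ^ (n + 1) := by
        rw [pow_succ' ⁅y, x⁆, pow_succ y]; simp only [mul_assoc]

theorem mul_pow_class2' (x y : P) (hx : Commute ⁅y, x⁆ x) (hy : Commute ⁅y, x⁆ y) (n : ℕ) :
    (x * y) ^ n = x ^ n * y ^ n * ⁅y, x⁆ ^ (n.choose 2) := by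
  induction n with
  | zero => simp
  | succ n ih =>
    have hcn : ∀ (k : ℕ) (g : P), Commute ⁅y, x⁆ g → ⁅y, x⁆ ^ k * g = g * ⁅y, x⁆ ^ k :=
      fun k g hg => (hg.pow_left k).eq
    calc (x * y) ^ (n + 1) = x ^ n * y ^ n * ⁅y, x⁆ ^ (n.choose 2) * (x * y) := by
          rw [pow_succ, ih]
      _ = x ^ n * (y ^ n * x) * y * ⁅y, x⁆ ^ (n.choose 2) := by
          rw [mul_assoc (x ^ n * y ^ n), hcn (n.choose 2) (x * y) (hx.mul_right hy)]
          simp only [mul_assoc]
      _ = x ^ n * (⁅y, x⁆ ^ n * x * y ^ n) * y * ⁅y, x⁆ ^ (n.choose 2) := by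
          rw [pow_mul_comm2' x y hy n]
      _ = x ^ (n + 1) * y ^ (n + 1) * (⁅y, x⁆ ^ (n.choose 2) * ⁅y, x⁆ ^ n) := by
          rw [hcn n x hx, pow_succ x, pow_succ y]
          simp only [mul_assoc]
          rw [hcn n (y ^ n * (y * ⁅y, x⁆ ^ (n.choose 2)))
            ((hy.pow_right n).mul_right (hy.mul_right ((Commute.refl _).pow_right _)))]
          simp only [mul_assoc]
      _ = x ^ (n + 1) * y ^ (n + 1) * ⁅y, x⁆ ^ ((n + 1).choose 2) := by
          have : (n + 1).choose 2 = n.choose 2 + n := by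
            rw [Nat.choose_succ_succ' n 1, Nat.choose_one_right, add_comm]
          rw [← pow_add, this]

end

theorem coatom_normal_index {P : Type*} [Group P] [Finite P] {p : ℕ} [Fact p.Prime]
    (hP : IsPGroup p P) (M : Subgroup P) (hM : IsCoatom M) : M.Normal ∧ M.index = p := by
  have hpp : p.Prime := Fact.out
  have hnil : Group.IsNilpotent P := hP.isNilpotent
  have hn : M.Normal :=
    Subgroup.NormalizerCondition.normal_of_coatom M Group.normalizerCondition_of_isNilpotent hM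
  refine ⟨hn, ?_⟩
  obtain ⟨N, hN⟩ := IsPGroup.iff_card.mp hP
  obtain ⟨n, hn'⟩ := IsPGroup.iff_card.mp (hP.to_subgroup M)
  have hlt : n < N := by
    have h1 : Nat.card M < Nat.card P :=
      lt_of_le_of_ne (Subgroup.card_le_card_group M)
        (fun h => hM.1 ((Subgroup.card_eq_iff_eq_top M).mp h))
    rw [hn', hN] at h1
    exact (Nat.pow_lt_pow_iff_right hpp.one_lt).mp h1
  obtain ⟨K, hK, hMK⟩ := Sylow.exists_subgroup_card_pow_succ (p := p) (n := n)
    (by rw [hN]; exact pow_dvd_pow p hlt) hn'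
  have hKtop : K = ⊤ := by
    rcases hM.le_iff.mp hMK with h | h
    · exact h
    · exfalso
      rw [h, hn'] at hK
      have := Nat.pow_right_injective hpp.two_le hK
      omega
  have hcard : Nat.card P = p ^ (n + 1) := by rw [← hK, hKtop, Subgroup.card_top]
  have h2 := M.card_mul_index
  rw [hn', hcard, pow_succ] at h2
  exact Nat.eq_of_mul_eq_mul_left (pow_pos hpp.pos n) h2


/-- A nontrivial normal subgroup of a finite `p`-group contains a central element of order `p`. -/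
theorem exists_central_order_p {Q : Type*} [Group Q] [Finite Q] {p : ℕ} [Fact p.Prime]
    (hQ : IsPGroup p Q) (N : Subgroup Q) [hNn : N.Normal] (hN : N ≠ ⊥) :
    ∃ z ∈ N, z ∈ Subgroup.center Q ∧ orderOf z = p := by
  have hpp : p.Prime := Fact.out
  let _ : MulAction Q N := MulAction.compHom N (MulAut.conjNormal (H := N))
  have hsmul : ∀ (g : Q) (n : N), ((g • n : N) : Q) = g * n * g⁻¹ := fun g n => rfl
  have hmod := hQ.card_modEq_card_fixedPoints N
  have hfix : (MulAction.fixedPoints Q N) = ((Subgroup.center Q).subgroupOf N : Set N) := by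
    ext n
    simp only [MulAction.mem_fixedPoints, SetLike.mem_coe, Subgroup.mem_subgroupOf,
      Subgroup.mem_center_iff]
    constructor
    · intro h g
      have h1 := congrArg Subtype.val (h g)
      rw [hsmul] at h1
      calc g * (n : Q) = (g * n * g⁻¹) * g := by group
        _ = n * g := by rw [h1]
    · intro h g
      apply Subtype.ext
      rw [hsmul, h g]; group
  have hcard : Nat.card (MulAction.fixedPoints Q N) =
      Nat.card ((Subgroup.center Q).subgroupOf N) := Nat.card_congr (Equiv.setCongr hfix)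
  rw [hcard] at hmod
  obtain ⟨k, hk⟩ := IsPGroup.iff_card.mp (hQ.to_subgroup N)
  have hk0 : k ≠ 0 := by
    rintro rfl
    rw [pow_zero] at hk
    exact hN (Subgroup.card_eq_one.mp hk)
  have hdvd : p ∣ Nat.card ((Subgroup.center Q).subgroupOf N) := by
    have h1 : p ∣ Nat.card N := by rw [hk]; exact dvd_pow_self p hk0
    exact (Nat.modEq_zero_iff_dvd.mp ((hmod.symm.trans (Nat.modEq_zero_iff_dvd.mpr h1))))
  obtain ⟨z, hz⟩ := exists_prime_orderOf_dvd_card' (G := (Subgroup.center Q).subgroupOf N) p hdvd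
  refine ⟨((z : N) : Q), (z : N).2, Subgroup.mem_subgroupOf.mp z.2, ?_⟩
  rw [Subgroup.orderOf_coe, Subgroup.orderOf_coe]
  exact hz

theorem exists_rel_central' {G : Type*} [Group G] [hnil : Group.IsNilpotent G]
    (N V T : Subgroup G) (hNT : ⁅N, T⁆ ≤ N) (h : ¬ N ≤ V) :
    ∃ x ∈ N, x ∉ V ∧ ∀ t ∈ T, ⁅x, t⁆ ∈ V := by
  let c : ℕ → Subgroup G := fun k => Nat.rec N (fun _ K => ⁅K, T⁆) k
  have hc0 : c 0 = N := rfl
  have hcs : ∀ k, c (k + 1) = ⁅c k, T⁆ := fun k => rfl
  have hcN : ∀ k, c k ≤ N := by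
    intro k
    induction k with
    | zero => exact le_rfl
    | succ k ih =>
      rw [hcs]
      exact (Subgroup.commutator_mono ih le_rfl).trans hNT
  have hcl : ∀ k, c k ≤ Subgroup.lowerCentralSeries (⊤ : Subgroup G) k := by
    intro k
    induction k with
    | zero => exact le_top
    | succ k ih =>
      rw [hcs, Subgroup.lowerCentralSeries_succ]
      exact Subgroup.commutator_mono ih le_top
  obtain ⟨n, hn⟩ := Subgroup.nilpotent_iff_lowerCentralSeries.mp hnil
  have hex : ∃ k, c k ≤ V := ⟨n, by have := hcl n; rw [hn] at this; exact this.trans bot_le⟩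
  have hfind : ∀ n, c n ≤ V → ∃ j, ¬ c j ≤ V ∧ c (j + 1) ≤ V := by
    intro n
    induction n with
    | zero => intro h0; exact absurd h0 h
    | succ n ih =>
      intro hn1
      rcases Classical.em (c n ≤ V) with hn0 | hn0
      · exact ih hn0
      · exact ⟨n, hn0, hn1⟩
  obtain ⟨k0, hk0⟩ := hex
  obtain ⟨j, hjn, hk⟩ := hfind k0 hk0
  obtain ⟨x, hx, hxV⟩ := SetLike.not_le_iff_exists.mp hjn
  refine ⟨x, hcN j hx, hxV, fun t ht => ?_⟩
  apply hk
  rw [hcs]
  exact Subgroup.commutator_mem_commutator hx ht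

theorem closure_comm {G : Type*} [Group G] (T : Set G)
    (h : ∀ x ∈ T, ∀ y ∈ T, x * y = y * x) :
    ∀ a ∈ Subgroup.closure T, ∀ b ∈ Subgroup.closure T, a * b = b * a := by
  have h1 : Subgroup.closure T ≤ Subgroup.centralizer T := by
    rw [Subgroup.closure_le]
    intro x hx
    rw [SetLike.mem_coe, Subgroup.mem_centralizer_iff]
    intro y hy
    exact h y hy x hx
  have h2 : Subgroup.closure T ≤ Subgroup.centralizer (Subgroup.closure T : Set G) := by
    rw [Subgroup.closure_le]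
    intro x hx
    rw [SetLike.mem_coe, Subgroup.mem_centralizer_iff]
    intro y hy
    have := h1 hy
    rw [Subgroup.mem_centralizer_iff] at this
    exact (this x hx).symm
  intro a ha b hb
  have := h2 hb
  rw [Subgroup.mem_centralizer_iff] at this
  exact this a ha

/-- Elementwise form of "elementary abelian". -/
def EA (p : ℕ) {P : Type*} [Group P] (A : Subgroup P) : Prop :=
  (∀ a ∈ A, ∀ b ∈ A, a * b = b * a) ∧ ∀ a ∈ A, a ^ p = 1

theorem EA.mono {p : ℕ} {P : Type*} [Group P] {A B : Subgroup P} (h : EA p B) (hAB : A ≤ B) :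
    EA p A :=
  ⟨fun a ha b hb => h.1 a (hAB ha) b (hAB hb), fun a ha => h.2 a (hAB ha)⟩

theorem EA_closure {p : ℕ} {P : Type*} [Group P] (T : Set P)
    (hc : ∀ x ∈ T, ∀ y ∈ T, x * y = y * x) (hp : ∀ x ∈ T, x ^ p = 1) :
    EA p (Subgroup.closure T) := by
  refine ⟨closure_comm T hc, ?_⟩
  intro a ha
  induction ha using Subgroup.closure_induction with
  | mem x hx => exact hp x hx
  | one => exact one_pow _
  | mul x y hx hy ihx ihy =>
    rw [(show Commute x y from closure_comm T hc x hx y hy).mul_pow, ihx, ihy, one_mul]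
  | inv x hx ih => rw [inv_pow, ih, inv_one]

theorem EA_sup {p : ℕ} {P : Type*} [Group P] {A B : Subgroup P} (hA : EA p A) (hB : EA p B)
    (hAB : ∀ a ∈ A, ∀ b ∈ B, a * b = b * a) : EA p (A ⊔ B) := by
  have h1 : A ⊔ B = Subgroup.closure ((A : Set P) ∪ (B : Set P)) := by
    rw [Subgroup.closure_union, Subgroup.closure_eq, Subgroup.closure_eq]
  rw [h1]
  apply EA_closure
  · rintro x (hx | hx) y (hy | hy)
    · exact hA.1 x hx y hy
    · exact hAB x hx y hy
    · exact (hAB y hy x hx).symm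
    · exact hB.1 x hx y hy
  · rintro x (hx | hx)
    · exact hA.2 x hx
    · exact hB.2 x hx

theorem restrict_sub {p : ℕ} {P : Type*} [Group P] (M E : Subgroup P) (hEM : E ≤ M)
    (hE : EA p E) : EA p (E.subgroupOf M) ∧ Nat.card (E.subgroupOf M) = Nat.card E := by
  refine ⟨⟨fun a ha b hb => Subtype.ext ?_, fun a ha => Subtype.ext ?_⟩, ?_⟩
  · exact hE.1 a (Subgroup.mem_subgroupOf.mp ha) b (Subgroup.mem_subgroupOf.mp hb)
  · rw [Subgroup.coe_pow]
    exact hE.2 a (Subgroup.mem_subgroupOf.mp ha)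
  · exact Nat.card_congr (Subgroup.subgroupOfEquivOfLe hEM).toEquiv

theorem transfer_sub {p : ℕ} {P : Type*} [Group P] (M : Subgroup P) (k : ℕ)
    (hM : ∃ W : Subgroup M, W.Normal ∧ EA p W ∧ Nat.card W = k) :
    ∃ B : Subgroup P, B ≤ M ∧ (∀ t ∈ M, ∀ b ∈ B, t * b * t⁻¹ ∈ B) ∧ EA p B ∧ Nat.card B = k := by
  obtain ⟨W, hWn, hW, hWc⟩ := hM
  refine ⟨W.map M.subtype, Subgroup.map_subtype_le W, ?_, ⟨?_, ?_⟩, ?_⟩
  · rintro t ht _ ⟨w, hw, rfl⟩
    exact ⟨⟨t, ht⟩ * w * ⟨t, ht⟩⁻¹, hWn.conj_mem w hw ⟨t, ht⟩, rfl⟩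
  · rintro _ ⟨a, ha, rfl⟩ _ ⟨b, hb, rfl⟩
    exact congrArg Subtype.val (hW.1 a ha b hb)
  · rintro _ ⟨a, ha, rfl⟩
    have := congrArg Subtype.val (hW.2 a ha)
    simpa using this
  · rw [Subgroup.card_map_of_injective (Subgroup.subtype_injective M), hWc]

theorem ea_top_case {p : ℕ} [Fact p.Prime] {P : Type*} [Group P] [Finite P] (hP : IsPGroup p P)
    (h : EA p (⊤ : Subgroup P)) (k : ℕ) (hk : p ^ k ≤ Nat.card P) :
    ∃ W : Subgroup P, W.Normal ∧ EA p W ∧ Nat.card W = p ^ k := by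
  have hpp : p.Prime := Fact.out
  obtain ⟨N, hN⟩ := IsPGroup.iff_card.mp hP
  have hkN : k ≤ N := by
    rw [hN] at hk
    exact (Nat.pow_le_pow_iff_right hpp.one_lt).mp hk
  obtain ⟨K, hK⟩ := Sylow.exists_subgroup_card_pow_prime (G := P) p
    (show p ^ k ∣ Nat.card P by rw [hN]; exact pow_dvd_pow p hkN)
  refine ⟨K, ⟨fun n hn g => ?_⟩, h.mono le_top, hK⟩
  rw [h.1 g (Subgroup.mem_top g) n (Subgroup.mem_top n), mul_inv_cancel_right]
  exact hn

theorem framework {P : Type*} [Group P] [Finite P] {p : ℕ} [Fact p.Prime] (hp : p ≠ 2)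
    (hP : IsPGroup p P) (V T B : Subgroup P) (hVn : V.Normal) (hTn : T.Normal)
    (hVp : ∀ v ∈ V, v ^ p = 1) (hVT : V ≤ T) (hTV : ∀ t ∈ T, ∀ v ∈ V, t * v = v * t)
    (hBT : B ≤ T) (hBn : ∀ t ∈ T, ∀ b ∈ B, t * b * t⁻¹ ∈ B) (hB : EA p B) (hBV : ¬ B ≤ V) :
    ∃ W : Subgroup P, W.Normal ∧ EA p W ∧ Nat.card W = p * Nat.card V := by
  have hpp : p.Prime := Fact.out
  have hnil : Group.IsNilpotent P := hP.isNilpotent
  have hchoose : p ∣ p.choose 2 := hpp.dvd_choose_self (by norm_num)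
    (lt_of_le_of_ne hpp.two_le (Ne.symm hp))
  let S : Subgroup P :=
    { carrier := {x | x ∈ T ∧ x ^ p = 1 ∧ ∀ t ∈ T, ⁅x, t⁆ ∈ V}
      mul_mem' := by
        rintro x y ⟨hxT, hxp, hxc⟩ ⟨hyT, hyp, hyc⟩
        refine ⟨T.mul_mem hxT hyT, ?_, fun t ht => ?_⟩
        · have hc : ⁅y, x⁆ ∈ V := hyc x hxT
          have hcx : Commute ⁅y, x⁆ x := (hTV x hxT _ hc).symm
          have hcy : Commute ⁅y, x⁆ y := (hTV y hyT _ hc).symm
          obtain ⟨m, hm⟩ := hchoose
          rw [mul_pow_class2' x y hcx hcy p, hxp, hyp, hm, pow_mul, hVp _ hc, one_pow, one_mul,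
            one_mul]
        · have e : ⁅x * y, t⁆ = x * ⁅y, t⁆ * x⁻¹ * ⁅x, t⁆ := by
            simp only [commutatorElement_def]; group
          rw [e]
          exact V.mul_mem (hVn.conj_mem _ (hyc t ht) x) (hxc t ht)
      one_mem' := ⟨T.one_mem, one_pow _, fun t _ => by
        rw [commutatorElement_one_left]; exact V.one_mem⟩
      inv_mem' := by
        rintro x ⟨hxT, hxp, hxc⟩
        refine ⟨T.inv_mem hxT, by rw [inv_pow, hxp, inv_one], fun t ht => ?_⟩
        have e : ⁅x⁻¹, t⁆ = x⁻¹ * ⁅x, t⁆⁻¹ * x⁻¹⁻¹ := by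
          simp only [commutatorElement_def]; group
        rw [e]
        exact hVn.conj_mem _ (V.inv_mem (hxc t ht)) x⁻¹ }
  have hSmem : ∀ x, x ∈ S ↔ (x ∈ T ∧ x ^ p = 1 ∧ ∀ t ∈ T, ⁅x, t⁆ ∈ V) := fun x => Iff.rfl
  have hSn : S.Normal := by
    refine ⟨fun x hx g => ?_⟩
    obtain ⟨hxT, hxp, hxc⟩ := (hSmem x).mp hx
    refine (hSmem _).mpr ⟨hTn.conj_mem x hxT g, by rw [conj_pow, hxp, mul_one, mul_inv_cancel],
      fun t ht => ?_⟩
    have e : ⁅g * x * g⁻¹, t⁆ = g * ⁅x, g⁻¹ * t * g⁻¹⁻¹⁆ * g⁻¹ := by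
      simp only [commutatorElement_def]; group
    rw [e]
    exact hVn.conj_mem _ (hxc _ (hTn.conj_mem t ht g⁻¹)) g
  have hVS : V ≤ S := by
    intro v hv
    refine (hSmem v).mpr ⟨hVT hv, hVp v hv, fun t ht => ?_⟩
    have e : ⁅v, t⁆ = v * (t * v⁻¹ * t⁻¹) := by
      simp only [commutatorElement_def]; group
    rw [e]
    exact V.mul_mem hv (hVn.conj_mem _ (V.inv_mem hv) t)
  have hBT' : ⁅B, T⁆ ≤ B := by
    rw [Subgroup.commutator_le]
    intro b hb t ht
    have e : ⁅b, t⁆ = b * (t * b⁻¹ * t⁻¹) := by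
      simp only [commutatorElement_def]; group
    rw [e]
    exact B.mul_mem hb (hBn t ht _ (B.inv_mem hb))
  obtain ⟨x, hxB, hxV, hxc⟩ := exists_rel_central' B V T hBT' hBV
  have hxS : x ∈ S := (hSmem x).mpr ⟨hBT hxB, hB.2 x hxB, hxc⟩
  have hSV : ¬ S ≤ V := fun h => hxV (h hxS)
  obtain ⟨y, hyS, hyV, hyc⟩ := exists_rel_central' S V ⊤ (Subgroup.commutator_le_left S ⊤) hSV
  obtain ⟨hyT, hyp, -⟩ := (hSmem y).mp hyS
  have hW : V ⊔ Subgroup.zpowers y = Subgroup.closure ((V : Set P) ∪ {y}) := by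
    rw [Subgroup.closure_union, Subgroup.closure_eq, Subgroup.zpowers_eq_closure]
  have hVcomm : ∀ a ∈ V, ∀ b ∈ V, a * b = b * a := fun a ha b hb => hTV a (hVT ha) b hb
  refine ⟨V ⊔ Subgroup.zpowers y, ?_, ?_, ?_⟩
  · have hle : ∀ g : P, V ⊔ Subgroup.zpowers y ≤
        (V ⊔ Subgroup.zpowers y).comap (MulAut.conj g).toMonoidHom := by
      intro g
      refine sup_le (fun v hv => ?_) ?_
      · rw [Subgroup.mem_comap]
        exact Subgroup.mem_sup_left (hVn.conj_mem v hv g)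
      · rw [Subgroup.zpowers_le, Subgroup.mem_comap]
        have e : (MulAut.conj g).toMonoidHom y = (⁅y, g⁆)⁻¹ * y := by
          show g * y * g⁻¹ = _
          simp only [commutatorElement_def]; group
        rw [e]
        exact Subgroup.mul_mem _ (Subgroup.mem_sup_left (V.inv_mem (hyc g (Subgroup.mem_top g))))
          (Subgroup.mem_sup_right (Subgroup.mem_zpowers y))
    exact ⟨fun n hn g => hle g hn⟩
  · rw [hW]
    apply EA_closure
    · rintro a (ha | ha) b (hb | hb)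
      · exact hVcomm a ha b hb
      · rw [Set.mem_singleton_iff] at hb
        rw [hb]; exact (hTV y hyT a ha).symm
      · rw [Set.mem_singleton_iff] at ha
        rw [ha]; exact hTV y hyT b hb
      · rw [Set.mem_singleton_iff] at ha hb
        rw [ha, hb]
    · rintro a (ha | ha)
      · exact hVp a ha
      · rw [Set.mem_singleton_iff] at ha
        rw [ha]; exact hyp
  · have hy1 : y ≠ 1 := fun h => hyV (h ▸ V.one_mem)
    have hyo : orderOf y = p := orderOf_eq_prime hyp hy1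
    have hZc : Nat.card (Subgroup.zpowers y) = p := by rw [Nat.card_zpowers, hyo]
    have hinf : V ⊓ Subgroup.zpowers y = ⊥ := by
      have hd : Nat.card ↥(V ⊓ Subgroup.zpowers y) ∣ p := by
        rw [← hZc]; exact Subgroup.card_dvd_of_le inf_le_right
      rcases (Nat.dvd_prime hpp).mp hd with h1 | h1
      · exact Subgroup.card_eq_one.mp h1
      · exfalso
        have : V ⊓ Subgroup.zpowers y = Subgroup.zpowers y :=
          Subgroup.eq_of_le_of_card_ge inf_le_right (by rw [h1, hZc])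
        have hy' : y ∈ V ⊓ Subgroup.zpowers y := by rw [this]; exact Subgroup.mem_zpowers y
        exact hyV hy'.1
    have h1 : V.relIndex (V ⊔ Subgroup.zpowers y) = p := by
      rw [Subgroup.relIndex_sup_left, ← Subgroup.inf_relIndex_right, hinf,
        Subgroup.relIndex_bot_left, hZc]
    have h2 := Subgroup.relIndex_mul_relIndex (⊥ : Subgroup P) V (V ⊔ Subgroup.zpowers y) bot_le
      le_sup_left
    rw [Subgroup.relIndex_bot_left, Subgroup.relIndex_bot_left, h1] at h2
    rw [← h2, mul_comm]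

theorem lemmaA (p : ℕ) [Fact p.Prime] (hp : p ≠ 2) :
    ∀ (n : ℕ) (P : Type u) [Group P] [Finite P], Nat.card P = n → IsPGroup p P →
      ∀ E : Subgroup P, EA p E → p ^ 2 ≤ Nat.card E →
        ∃ W : Subgroup P, W.Normal ∧ EA p W ∧ Nat.card W = p ^ 2 := by
  have hpp : p.Prime := Fact.out
  intro n
  induction n using Nat.strong_induction_on with
  | _ n ih =>
  intro P _ _ hn hP E hE hcard
  by_cases hEtop : E = ⊤
  · subst hEtop
    exact ea_top_case hP hE 2 (by rwa [Subgroup.card_top] at hcard)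
  obtain ⟨M, hM, hEM⟩ := (eq_top_or_exists_le_coatom E).resolve_left hEtop
  obtain ⟨hMn, hMi⟩ := coatom_normal_index hP M hM
  have hMlt : Nat.card M < n := by
    rw [← hn]
    exact lt_of_le_of_ne (Subgroup.card_le_card_group M)
      (fun h => hM.1 ((Subgroup.card_eq_iff_eq_top M).mp h))
  obtain ⟨hE', hcE'⟩ := restrict_sub M E hEM hE
  obtain ⟨B, hBM, hBn, hB, hBcard⟩ := transfer_sub M (p ^ 2)
    (ih _ hMlt M rfl (hP.to_subgroup M) (E.subgroupOf M) hE' (by rw [hcE']; exact hcard))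
  have hp2 : p < p ^ 2 := by
    have := hpp.one_lt
    nlinarith
  have hMne : M ≠ ⊥ := by
    intro h
    rw [h] at hEM
    rw [le_bot_iff.mp hEM, Subgroup.card_bot] at hcard
    have := hpp.one_lt
    nlinarith
  obtain ⟨z, hzM, hzc, hzo⟩ := exists_central_order_p hP M hMne
  have hVcen : Subgroup.zpowers z ≤ Subgroup.center P := Subgroup.zpowers_le.mpr hzc
  have hVn : (Subgroup.zpowers z).Normal := by
    refine ⟨fun v hv g => ?_⟩
    rw [Subgroup.mem_center_iff.mp (hVcen hv) g, mul_inv_cancel_right]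
    exact hv
  have hVcard : Nat.card (Subgroup.zpowers z) = p := by rw [Nat.card_zpowers, hzo]
  have hVp : ∀ v ∈ Subgroup.zpowers z, v ^ p = 1 := by
    intro v hv
    obtain ⟨i, rfl⟩ := Subgroup.mem_zpowers_iff.mp hv
    rw [← zpow_natCast, ← zpow_mul, mul_comm, zpow_mul, zpow_natCast, ← hzo,
      pow_orderOf_eq_one, one_zpow]
  have hBV : ¬ B ≤ Subgroup.zpowers z := by
    intro h
    have := Subgroup.card_le_of_le h
    rw [hBcard, hVcard] at this
    omega
  obtain ⟨W, hWn, hW, hWc⟩ := framework hp hP (Subgroup.zpowers z) M B hVn hMn hVp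
    (Subgroup.zpowers_le.mpr hzM) (fun t _ v hv => Subgroup.mem_center_iff.mp (hVcen hv) t)
    hBM hBn hB hBV
  exact ⟨W, hWn, hW, by rw [hWc, hVcard, sq]⟩

theorem index_bound {P : Type*} [Group P] [Finite P] {p : ℕ} [Fact p.Prime] (hP : IsPGroup p P)
    (V E : Subgroup P) (hVn : V.Normal) (hVcard : Nat.card V = p ^ 2) :
    Nat.card E ≤ p * Nat.card ↥(E ⊓ Subgroup.centralizer (V : Set P)) := by
  have hpp : p.Prime := Fact.out
  have hnil : Group.IsNilpotent P := hP.isNilpotent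
  have hp2 : p < p ^ 2 := by
    have := hpp.one_lt
    nlinarith
  have hVne : V ≠ ⊥ := by
    intro h
    rw [h, Subgroup.card_bot] at hVcard
    have := hpp.one_lt
    nlinarith
  obtain ⟨z, hzV, hzc, hzo⟩ := exists_central_order_p hP V hVne
  have hZcen : Subgroup.zpowers z ≤ Subgroup.center P := Subgroup.zpowers_le.mpr hzc
  have hZcard : Nat.card (Subgroup.zpowers z) = p := by rw [Nat.card_zpowers, hzo]
  have hZV : Subgroup.zpowers z ≤ V := Subgroup.zpowers_le.mpr hzV
  have hVZ : ¬ V ≤ Subgroup.zpowers z := by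
    intro h
    have := Subgroup.card_le_of_le h
    rw [hVcard, hZcard] at this
    omega
  obtain ⟨x, hxV, hxZ, hxc⟩ := exists_rel_central' V (Subgroup.zpowers z) ⊤
    (Subgroup.commutator_le_left V ⊤) hVZ
  -- any subgroup between Z and V containing x is V
  have hKV : ∀ K : Subgroup P, Subgroup.zpowers z ≤ K → K ≤ V → x ∈ K → K = V := by
    intro K hZK hKV hxK
    obtain ⟨j, hj⟩ := IsPGroup.iff_card.mp (hP.to_subgroup K)
    apply Subgroup.eq_of_le_of_card_ge hKV
    rw [hVcard, hj]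
    apply Nat.pow_le_pow_right hpp.pos
    by_contra hj2
    have hj1 : j ≤ 1 := by omega
    have hKp : Nat.card K ≤ p := by
      rw [hj]
      calc p ^ j ≤ p ^ 1 := Nat.pow_le_pow_right hpp.pos hj1
        _ = p := pow_one p
    have : Subgroup.zpowers z = K := Subgroup.eq_of_le_of_card_ge hZK (by rw [hZcard]; exact hKp)
    exact hxZ (this ▸ hxK)
  let ψ : E →* Subgroup.zpowers z := MonoidHom.mk' (fun e => ⟨⁅x, (e : P)⁆, hxc e (Subgroup.mem_top _)⟩)
    (by
      intro g h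
      apply Subtype.ext
      show ⁅x, (g : P) * (h : P)⁆ = ⁅x, (g : P)⁆ * ⁅x, (h : P)⁆
      have h1 : (g : P) * ⁅x, (h : P)⁆ = ⁅x, (h : P)⁆ * g :=
        Subgroup.mem_center_iff.mp (hZcen (hxc h (Subgroup.mem_top _))) g
      calc ⁅x, (g : P) * (h : P)⁆ = ⁅x, (g : P)⁆ * ((g : P) * ⁅x, (h : P)⁆) * (g : P)⁻¹ := by
            simp only [commutatorElement_def]; group
        _ = ⁅x, (g : P)⁆ * (⁅x, (h : P)⁆ * g) * (g : P)⁻¹ := by rw [h1]
        _ = ⁅x, (g : P)⁆ * ⁅x, (h : P)⁆ := by simp only [mul_assoc, mul_inv_cancel, mul_one])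
  have hker : ψ.ker.map E.subtype ≤ E ⊓ Subgroup.centralizer (V : Set P) := by
    rintro _ ⟨e, he, rfl⟩
    refine ⟨e.2, ?_⟩
    have h1 : ⁅x, (e : P)⁆ = 1 := congrArg Subtype.val (MonoidHom.mem_ker.mp he)
    have h2 : x * (e : P) = e * x := (commutatorElement_eq_one_iff_commute.mp h1).eq
    have h3 : V ⊓ Subgroup.centralizer {(e : P)} = V := by
      refine hKV _ ?_ inf_le_left ?_
      · intro w hw
        refine Subgroup.mem_inf.mpr ⟨hZV hw, Subgroup.mem_centralizer_iff.mpr ?_⟩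
        intro y hy
        rw [Set.mem_singleton_iff.mp hy]
        exact Subgroup.mem_center_iff.mp (hZcen hw) _
      · refine Subgroup.mem_inf.mpr ⟨hxV, Subgroup.mem_centralizer_iff.mpr ?_⟩
        intro y hy
        rw [Set.mem_singleton_iff.mp hy]; exact h2.symm
    show (e : P) ∈ Subgroup.centralizer (V : Set P)
    rw [Subgroup.mem_centralizer_iff]
    intro v hv
    have hv' : v ∈ V ⊓ Subgroup.centralizer {(e : P)} := by rw [h3]; exact hv
    have := Subgroup.mem_centralizer_iff.mp (Subgroup.mem_inf.mp hv').2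
    exact (this _ rfl).symm
  have h1 : Nat.card ψ.ker ≤ Nat.card ↥(E ⊓ Subgroup.centralizer (V : Set P)) := by
    rw [← Subgroup.card_map_of_injective (Subgroup.subtype_injective E)]
    exact Subgroup.card_le_of_le hker
  have h2 : ψ.ker.index ≤ p := by
    rw [Subgroup.index_ker, ← hZcard]
    exact Subgroup.card_le_card_group _
  calc Nat.card E = Nat.card ψ.ker * ψ.ker.index := (Subgroup.card_mul_index _).symm
    _ ≤ Nat.card ↥(E ⊓ Subgroup.centralizer (V : Set P)) * p := Nat.mul_le_mul h1 h2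
    _ = p * Nat.card ↥(E ⊓ Subgroup.centralizer (V : Set P)) := mul_comm _ _

theorem theoremB (p : ℕ) [Fact p.Prime] (hp : p ≠ 2) :
    ∀ (n : ℕ) (P : Type u) [Group P] [Finite P], Nat.card P = n → IsPGroup p P →
      ∀ E : Subgroup P, EA p E → p ^ 3 ≤ Nat.card E →
        ∃ W : Subgroup P, W.Normal ∧ EA p W ∧ Nat.card W = p ^ 3 := by
  have hpp : p.Prime := Fact.out
  intro n
  induction n using Nat.strong_induction_on with
  | _ n ih =>
  intro P _ _ hn hP E hE hcard
  have h23 : p ^ 2 ≤ p ^ 3 := Nat.pow_le_pow_right hpp.pos (by norm_num)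
  obtain ⟨V, hVn, hV, hVcard⟩ := lemmaA p hp _ P rfl hP E hE (h23.trans hcard)
  have hTn : (Subgroup.centralizer (V : Set P)).Normal := inferInstance
  have hVT : V ≤ Subgroup.centralizer (V : Set P) := by
    intro v hv
    rw [Subgroup.mem_centralizer_iff]
    intro w hw
    exact hV.1 w hw v hv
  have hTV : ∀ t ∈ Subgroup.centralizer (V : Set P), ∀ v ∈ V, t * v = v * t := by
    intro t ht v hv
    rw [Subgroup.mem_centralizer_iff] at ht
    exact (ht v hv).symm
  have apply_ih : ∀ T' : Subgroup P, T' ≠ ⊤ → T'.Normal → V ≤ T' →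
      (∀ t ∈ T', ∀ v ∈ V, t * v = v * t) → ∀ E₂ : Subgroup P, E₂ ≤ T' → EA p E₂ →
      p ^ 3 ≤ Nat.card E₂ → ∃ W : Subgroup P, W.Normal ∧ EA p W ∧ Nat.card W = p ^ 3 := by
    intro T' hT' hT'n hVT' hT'V E₂ hE₂T hE₂ hE₂c
    have hlt : Nat.card T' < n := by
      rw [← hn]
      exact lt_of_le_of_ne (Subgroup.card_le_card_group T')
        (fun h => hT' ((Subgroup.card_eq_iff_eq_top T').mp h))
    obtain ⟨hE', hcE'⟩ := restrict_sub T' E₂ hE₂T hE₂
    obtain ⟨B, hBT, hBn, hB, hBcard⟩ := transfer_sub T' (p ^ 3)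
      (ih _ hlt T' rfl (hP.to_subgroup T') (E₂.subgroupOf T') hE' (by rw [hcE']; exact hE₂c))
    have hBV : ¬ B ≤ V := by
      intro h
      have := Subgroup.card_le_of_le h
      rw [hBcard, hVcard] at this
      have h3 : p ^ 2 < p ^ 3 := Nat.pow_lt_pow_right hpp.one_lt (by norm_num)
      omega
    obtain ⟨W, hWn, hW, hWc⟩ := framework hp hP V T' B hVn hT'n hV.2 hVT' hT'V hBT hBn hB hBV
    exact ⟨W, hWn, hW, by rw [hWc, hVcard]; ring⟩
  by_cases hT : Subgroup.centralizer (V : Set P) = ⊤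
  · have hallT : ∀ t : P, t ∈ Subgroup.centralizer (V : Set P) := fun t => hT ▸ Subgroup.mem_top t
    have hE₂ : EA p (E ⊔ V) := EA_sup hE hV (fun a _ b hb => hTV a (hallT a) b hb)
    have hE₂c : p ^ 3 ≤ Nat.card ↥(E ⊔ V) := hcard.trans (Subgroup.card_le_of_le le_sup_left)
    by_cases hE₂top : E ⊔ V = ⊤
    · rw [hE₂top] at hE₂ hE₂c
      exact ea_top_case hP hE₂ 3 (by rwa [Subgroup.card_top] at hE₂c)
    · obtain ⟨M, hM, hE₂M⟩ := (eq_top_or_exists_le_coatom (E ⊔ V)).resolve_left hE₂top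
      obtain ⟨hMn, -⟩ := coatom_normal_index hP M hM
      exact apply_ih M hM.1 hMn (le_sup_right.trans hE₂M) (fun t _ v hv => hTV t (hallT t) v hv)
        (E ⊔ V) hE₂M hE₂ hE₂c
  · have hE₂ : EA p (E ⊓ Subgroup.centralizer (V : Set P) ⊔ V) :=
      EA_sup (hE.mono inf_le_left) hV (fun a ha b hb => hTV a ha.2 b hb)
    refine apply_ih _ hT hTn hVT hTV (E ⊓ Subgroup.centralizer (V : Set P) ⊔ V)
      (sup_le inf_le_right hVT) hE₂ ?_
    by_cases hET : E ≤ Subgroup.centralizer (V : Set P)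
    · exact hcard.trans (Subgroup.card_le_of_le (le_sup_of_le_left (le_inf le_rfl hET)))
    · by_contra hlt
      exfalso
      obtain ⟨j, hj⟩ := IsPGroup.iff_card.mp
        (hP.to_subgroup (E ⊓ Subgroup.centralizer (V : Set P) ⊔ V))
      have hj2 : j ≤ 2 := by
        by_contra hj3
        apply hlt
        rw [hj]
        exact Nat.pow_le_pow_right hpp.pos (by omega)
      have hle2 : Nat.card ↥(E ⊓ Subgroup.centralizer (V : Set P) ⊔ V) ≤ p ^ 2 := by
        rw [hj]; exact Nat.pow_le_pow_right hpp.pos hj2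
      have hVeq : V = E ⊓ Subgroup.centralizer (V : Set P) ⊔ V :=
        Subgroup.eq_of_le_of_card_ge le_sup_right (by rw [hVcard]; exact hle2)
      have hib := index_bound hP V E hVn hVcard
      have hge : p ^ 2 ≤ Nat.card ↥(E ⊓ Subgroup.centralizer (V : Set P)) := by
        have h3 : p ^ 3 = p * p ^ 2 := by ring
        have := hcard.trans hib
        rw [h3] at this
        exact Nat.le_of_mul_le_mul_left this hpp.pos
      have hle : E ⊓ Subgroup.centralizer (V : Set P) ≤ V := by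
        have : E ⊓ Subgroup.centralizer (V : Set P) ≤
          E ⊓ Subgroup.centralizer (V : Set P) ⊔ V := le_sup_left
        rwa [← hVeq] at this
      have hEV : E ⊓ Subgroup.centralizer (V : Set P) = V :=
        Subgroup.eq_of_le_of_card_ge hle (by rw [hVcard]; exact hge)
      apply hET
      intro e he
      rw [Subgroup.mem_centralizer_iff]
      intro v hv
      have hVE : V ≤ E := fun w hw => by
        have hw' : w ∈ E ⊓ Subgroup.centralizer (V : Set P) := by rw [hEV]; exact hw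
        exact hw'.1
      have hvE : v ∈ E := hVE hv
      exact hE.1 v hvE e he

/-- For odd p, a p-group without normal elementary abelian subgroups of order p^3 has p-rank at most 2. -/
theorem result {P : Type*} [Group P] [Finite P] {p : ℕ} [Fact p.Prime] (hp : p ≠ 2) (hP : IsPGroup p P) (h : ∀ A : Subgroup P, A.Normal → IsMulCommutative A → (∀ a ∈ A, a ^ p = 1) → Nat.card A ≠ p ^ 3) (E : Subgroup P) (hE : IsMulCommutative E) (hEe : ∀ e ∈ E, e ^ p = 1) : Nat.card E ≤ p ^ 2 := by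
  have hpp : p.Prime := Fact.out
  by_contra hlt
  obtain ⟨j, hj⟩ := IsPGroup.iff_card.mp (hP.to_subgroup E)
  have hj3 : 3 ≤ j := by
    by_contra hj2
    apply hlt
    rw [hj]
    exact Nat.pow_le_pow_right hpp.pos (by omega)
  have hEA : EA p E := ⟨fun a ha b hb => setLike_mul_comm ha hb, hEe⟩
  obtain ⟨W, hWn, hW, hWc⟩ := theoremB p hp _ P rfl hP E hEA
    (by rw [hj]; exact Nat.pow_le_pow_right hpp.pos hj3)
  exact h W hWn ⟨⟨fun a b => Subtype.ext (hW.1 a a.2 b b.2)⟩⟩ hW.2 hWc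

end Cfsg.Agent.S0100
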