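import Cfsg.Statements.S4134
import Mathlib
import Cfsg.Agent.Lib.Helper73.Count

set_option autoImplicit false
open Cfsg

namespace Cfsg.Agent.S4134

open scoped Pointwise
open Cfsg.Agent.Lib.Helper73

/-- p-part / p'-part decomposition -/
theorem exists_decomp {G : Type*} [Group G] [Finite G] (p : ℕ) (hp : p.Prime) (x : G) :
    ∃ (i j : ℤ) (a : ℕ), x = x ^ i * x ^ j ∧ (x ^ i) ^ (p ^ a) = 1 ∧ ¬ p ∣ orderOf (x ^ j) := by
  have hn : orderOf x ≠ 0 := (orderOf_pos x).ne'
  obtain ⟨a, n', hpn', hn'⟩ := Nat.exists_eq_pow_mul_and_not_dvd hn p hp.ne_one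
  have hcop : Nat.Coprime (p ^ a) n' :=
    Nat.Coprime.pow_left _ ((Nat.Prime.coprime_iff_not_dvd hp).mpr hpn')
  have hb := Nat.gcd_eq_gcd_ab (p ^ a) n'
  rw [hcop.gcd_eq_one] at hb
  refine ⟨(n' : ℤ) * Nat.gcdB (p ^ a) n', ((p ^ a : ℕ) : ℤ) * Nat.gcdA (p ^ a) n', a, ?_, ?_, ?_⟩
  · rw [← zpow_add]
    have : (n' : ℤ) * Nat.gcdB (p ^ a) n' + ((p ^ a : ℕ) : ℤ) * Nat.gcdA (p ^ a) n' = 1 := by
      rw [add_comm]; exact_mod_cast hb.symm
    rw [this, zpow_one]
  · rw [← zpow_natCast, ← zpow_mul]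
    have : (n' : ℤ) * Nat.gcdB (p ^ a) n' * ((p ^ a : ℕ) : ℤ) =
        ((orderOf x : ℕ) : ℤ) * Nat.gcdB (p ^ a) n' := by
      rw [hn']; push_cast; ring
    rw [this, zpow_mul, zpow_natCast, pow_orderOf_eq_one, one_zpow]
  · intro hpd
    have h1 : (x ^ (((p ^ a : ℕ) : ℤ) * Nat.gcdA (p ^ a) n')) ^ n' = 1 := by
      rw [← zpow_natCast, ← zpow_mul]
      have : ((p ^ a : ℕ) : ℤ) * Nat.gcdA (p ^ a) n' * (n' : ℤ) =
          ((orderOf x : ℕ) : ℤ) * Nat.gcdA (p ^ a) n' := by
        rw [hn']; push_cast; ring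
      rw [this, zpow_mul, zpow_natCast, pow_orderOf_eq_one, one_zpow]
    exact hpn' (hpd.trans (orderOf_dvd_of_pow_eq_one h1))

theorem isPGroup_zpowers {G : Type*} [Group G] (p : ℕ) (u : G) (a : ℕ) (hu : u ^ (p ^ a) = 1) :
    IsPGroup p (Subgroup.zpowers u) := by
  rintro ⟨y, hy⟩
  obtain ⟨k, rfl⟩ := Subgroup.mem_zpowers_iff.mp hy
  refine ⟨a, ?_⟩
  apply Subtype.ext
  show (u ^ k) ^ (p ^ a) = 1
  rw [← zpow_natCast, ← zpow_mul, mul_comm, zpow_mul, zpow_natCast, hu, one_zpow]

theorem exists_conj_mem_sylow {G : Type*} [Group G] [Finite G] (p : ℕ) [Fact p.Prime]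
    (P : Sylow p G) (u : G) (a : ℕ) (hu : u ^ (p ^ a) = 1) : ∃ g : G, g * u * g⁻¹ ∈ P := by
  have hQ : IsPGroup p (Subgroup.zpowers u) := isPGroup_zpowers p u a hu
  obtain ⟨Q, hQ'⟩ := hQ.exists_le_sylow
  obtain ⟨g, hg⟩ := MulAction.exists_smul_eq G Q P
  refine ⟨g, ?_⟩
  rw [← hg]
  have hu' : u ∈ (Q : Subgroup G) := hQ' (Subgroup.mem_zpowers u)
  have := Subgroup.smul_mem_pointwise_smul u (MulAut.conj g) (Q : Subgroup G) hu'
  exact this

theorem card_coprime_of_forall {G : Type*} [Group G] [Finite G] (p : ℕ) [hp : Fact p.Prime]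
    (K : Subgroup G) (h : ∀ g ∈ K, (orderOf g).Coprime p) : (Nat.card K).Coprime p := by
  by_contra hnc
  have hpd : p ∣ Nat.card K := by
    by_contra hnd
    exact hnc ((Nat.Prime.coprime_iff_not_dvd hp.1).mpr hnd).symm
  obtain ⟨k, hk⟩ := exists_prime_orderOf_dvd_card' (G := K) p hpd
  have := h k k.2
  rw [Subgroup.orderOf_coe, hk] at this
  exact hp.1.one_lt.ne' ((Nat.coprime_self p).mp this)

/-- an element all of whose powers of prime-power order lie in `H` lies in `H` -/
theorem mem_of_prime_pow_parts {G : Type*} [Group G] [Finite G] (H : Subgroup G) :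
    ∀ (m : ℕ) (g : G), orderOf g = m →
      (∀ i : ℤ, (∃ r k : ℕ, r.Prime ∧ (g ^ i) ^ (r ^ k) = 1) → g ^ i ∈ H) → g ∈ H := by
  intro m
  induction m using Nat.strong_induction_on with
  | _ m ih =>
    intro g hgm hg
    by_cases hm1 : m = 1
    · rw [hm1, orderOf_eq_one_iff] at hgm
      rw [hgm]; exact H.one_mem
    obtain ⟨r, hr, hrm⟩ := Nat.exists_prime_and_dvd hm1
    obtain ⟨i, j, a, hdec, hu, hy⟩ := exists_decomp r hr g
    have h1 : g ^ i ∈ H := hg i ⟨r, a, hr, hu⟩
    have h2 : g ^ j ∈ H := by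
      apply ih (orderOf (g ^ j)) _ (g ^ j) rfl
      · intro i' hi'
        rw [← zpow_mul] at hi' ⊢
        exact hg _ hi'
      · have hd : orderOf (g ^ j) ∣ m :=
          hgm ▸ orderOf_dvd_of_mem_zpowers (Subgroup.zpow_mem_zpowers g j)
        have hne : orderOf (g ^ j) ≠ m := by
          intro h; rw [h] at hy; exact hy hrm
        exact lt_of_le_of_ne (Nat.le_of_dvd (by rw [← hgm]; exact orderOf_pos g) hd) hne
    rw [hdec]; exact H.mul_mem h1 h2

theorem mem_normal_sylow {M : Type*} [Group M] [Finite M] (p : ℕ) [Fact p.Prime] (P : Sylow p M)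
    (hn : (P : Subgroup M).Normal) (u : M) (k : ℕ) (hu : u ^ (p ^ k) = 1) :
    u ∈ (P : Subgroup M) := by
  obtain ⟨g, hg⟩ := exists_conj_mem_sylow p P u k hu
  have := hn.conj_mem _ hg g⁻¹
  have e : g⁻¹ * (g * u * g⁻¹) * g⁻¹⁻¹ = u := by group
  rwa [e] at this

theorem mem_cent {G : Type*} [Group G] (x g : G) :
    g ∈ Subgroup.centralizer ({x} : Set G) ↔ x * g = g * x := by
  rw [Subgroup.mem_centralizer_iff]
  simp only [Set.mem_singleton_iff, forall_eq]

theorem index_eq_one_iff_central {G : Type*} [Group G] (x : G) :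
    (Subgroup.centralizer ({x} : Set G)).index = 1 ↔ x ∈ Subgroup.center G := by
  rw [Subgroup.index_eq_one, Subgroup.centralizer_eq_top_iff_subset, Set.singleton_subset_iff]
  rfl

theorem eq_of_le_of_index_eq {G : Type*} [Group G] [Finite G] (H K : Subgroup G) (hle : H ≤ K)
    (h : H.index = K.index) : H = K := by
  apply Subgroup.eq_of_le_of_card_ge hle
  have h1 := Subgroup.card_mul_index H
  have h2 := Subgroup.card_mul_index K
  rw [h, ← h2] at h1
  have hpos : 0 < K.index := Nat.pos_of_ne_zero Subgroup.index_ne_zero_of_finite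
  exact (Nat.eq_of_mul_eq_mul_right hpos h1).ge

/-- centralizer of a product of commuting elements of coprime orders -/
theorem cent_mul {G : Type*} [Group G] [Finite G] (x y : G) (hxy : x * y = y * x)
    (hco : (orderOf x).Coprime (orderOf y)) :
    Subgroup.centralizer ({x * y} : Set G) =
      Subgroup.centralizer ({x} : Set G) ⊓ Subgroup.centralizer ({y} : Set G) := by
  ext g
  rw [Subgroup.mem_inf, mem_cent, mem_cent, mem_cent]
  constructor
  · intro hg
    have hcomm : Commute x y := hxy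
    have hcg : Commute (x * y) g := hg
    obtain ⟨m1, hm1⟩ := exists_pow_eq_self_of_coprime hco.symm
    obtain ⟨m2, hm2⟩ := exists_pow_eq_self_of_coprime hco
    have hx' : x = ((x * y) ^ orderOf y) ^ m1 := by
      rw [hcomm.mul_pow, pow_orderOf_eq_one, mul_one, hm1]
    have hy' : y = ((x * y) ^ orderOf x) ^ m2 := by
      rw [hcomm.mul_pow, pow_orderOf_eq_one, one_mul, hm2]
    constructor
    · rw [hx']; exact ((hcg.pow_left _).pow_left _).eq
    · rw [hy']; exact ((hcg.pow_left _).pow_left _).eq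
  · rintro ⟨h1, h2⟩
    rw [mul_assoc, h2, ← mul_assoc, h1, mul_assoc]

section TwoSizes

variable {G : Type*} [Group G] [Finite G] (n : ℕ) (hn : 1 < n)
  (h : ∀ x : G, (Subgroup.centralizer ({x} : Set G)).index = 1 ∨
    (Subgroup.centralizer ({x} : Set G)).index = n)

include hn h

theorem index_eq_of_not_central (x : G) (hx : x ∉ Subgroup.center G) :
    (Subgroup.centralizer ({x} : Set G)).index = n := by
  rcases h x with h1 | h1
  · exact absurd ((index_eq_one_iff_central x).mp h1) hx
  · exact h1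

theorem cent_eq_of_le (x y : G) (hx : x ∉ Subgroup.center G) (hy : y ∉ Subgroup.center G)
    (hle : Subgroup.centralizer ({x} : Set G) ≤ Subgroup.centralizer ({y} : Set G)) :
    Subgroup.centralizer ({x} : Set G) = Subgroup.centralizer ({y} : Set G) :=
  eq_of_le_of_index_eq _ _ hle
    ((index_eq_of_not_central n hn h x hx).trans (index_eq_of_not_central n hn h y hy).symm)

/-- a non-central element's centralizer centralizes every commuting element of coprime order -/
theorem cent_le_of_coprime (x y : G) (hx : x ∉ Subgroup.center G) (hxy : x * y = y * x)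
    (hco : (orderOf x).Coprime (orderOf y)) :
    Subgroup.centralizer ({x} : Set G) ≤ Subgroup.centralizer ({y} : Set G) := by
  have e := cent_mul x y hxy hco
  have hxyc : x * y ∉ Subgroup.center G := by
    intro hc
    have h1 := (index_eq_one_iff_central (x * y)).mpr hc
    rw [Subgroup.index_eq_one, e] at h1
    have h2 : Subgroup.centralizer ({x} : Set G) = ⊤ :=
      top_le_iff.mp (h1 ▸ inf_le_left)
    exact hx ((index_eq_one_iff_central x).mp (Subgroup.index_eq_one.mpr h2))
  have h3 := cent_eq_of_le n hn h (x * y) x hxyc hx (by rw [e]; exact inf_le_left)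
  rw [← h3, e]
  exact inf_le_right

/-- commuting non-central elements of distinct prime-power orders have an abelian centralizer -/
theorem abelian_of_commuting (p q : ℕ) (hp : p.Prime) (hq : q.Prime) (hpq : p ≠ q) (x v : G)
    (hx : x ∉ Subgroup.center G) (hv : v ∉ Subgroup.center G) (k l : ℕ)
    (hxk : x ^ (p ^ k) = 1) (hvl : v ^ (q ^ l) = 1) (hxv : x * v = v * x) :
    ∀ a ∈ Subgroup.centralizer ({x} : Set G), ∀ b ∈ Subgroup.centralizer ({x} : Set G),
      a * b = b * a := by
  have hpqc : (p ^ k).Coprime (q ^ l) :=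
    Nat.Coprime.pow _ _ ((Nat.coprime_primes hp hq).mpr hpq)
  have hox : orderOf x ∣ p ^ k := orderOf_dvd_of_pow_eq_one hxk
  have hov : orderOf v ∣ q ^ l := orderOf_dvd_of_pow_eq_one hvl
  have hco : (orderOf x).Coprime (orderOf v) := Nat.Coprime.coprime_dvd_left hox
    (Nat.Coprime.coprime_dvd_right hov hpqc)
  have h1 := cent_le_of_coprime n hn h x v hx hxv hco
  have h2 := cent_le_of_coprime n hn h v x hv hxv.symm hco.symm
  intro a ha b hb
  obtain ⟨i, j, m, hdec, hu, hy⟩ := exists_decomp p hp a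
  have hai : a ^ i ∈ Subgroup.centralizer ({x} : Set G) := Subgroup.zpow_mem _ ha i
  have haj : a ^ j ∈ Subgroup.centralizer ({x} : Set G) := Subgroup.zpow_mem _ ha j
  -- the p'-part
  have hcj : (orderOf x).Coprime (orderOf (a ^ j)) := Nat.Coprime.coprime_dvd_left hox
    (Nat.Coprime.pow_left _ ((Nat.Prime.coprime_iff_not_dvd hp).mpr hy))
  have h3 := cent_le_of_coprime n hn h x (a ^ j) hx ((mem_cent x _).mp haj) hcj
  have hbj : a ^ j * b = b * a ^ j := (mem_cent _ _).mp (h3 hb)
  -- the p-part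
  have hoi : orderOf (a ^ i) ∣ p ^ m := orderOf_dvd_of_pow_eq_one hu
  have hci : (orderOf v).Coprime (orderOf (a ^ i)) := Nat.Coprime.coprime_dvd_left hov
    (Nat.Coprime.coprime_dvd_right hoi
      (Nat.Coprime.pow _ _ ((Nat.coprime_primes hq hp).mpr (fun e => hpq e.symm))))
  have h4 := cent_le_of_coprime n hn h v (a ^ i) hv ((mem_cent v _).mp (h1 hai)) hci
  have hbi : a ^ i * b = b * a ^ i := (mem_cent _ _).mp (h4 (h1 hb))
  calc a * b = a ^ i * a ^ j * b := by rw [← hdec]
    _ = a ^ i * (a ^ j * b) := by group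
    _ = a ^ i * (b * a ^ j) := by rw [hbj]
    _ = (a ^ i * b) * a ^ j := by group
    _ = (b * a ^ i) * a ^ j := by rw [hbi]
    _ = b * (a ^ i * a ^ j) := by group
    _ = b * a := by rw [← hdec]

/-- a non-central element has a non-central power of prime-power order with the same
centralizer -/
theorem exists_primary (g : G) (hg : g ∉ Subgroup.center G) :
    ∃ (r : ℕ) (k : ℕ) (x : G), r.Prime ∧ x ^ (r ^ k) = 1 ∧ x ∉ Subgroup.center G ∧
      Subgroup.centralizer ({x} : Set G) = Subgroup.centralizer ({g} : Set G) := by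
  by_contra hcon
  apply hg
  apply mem_of_prime_pow_parts _ (orderOf g) g rfl
  rintro i ⟨r, k, hr, hrk⟩
  by_contra hi
  apply hcon
  refine ⟨r, k, g ^ i, hr, hrk, hi, ?_⟩
  refine (cent_eq_of_le n hn h g (g ^ i) hg hi ?_).symm
  intro c hc
  rw [mem_cent] at hc ⊢
  exact ((show Commute g c from hc).zpow_left i).eq

/-- if there is a non-central `r`-element, every non-central centralizer contains one -/
theorem exists_noncentral_relt (r : ℕ) [hr : Fact r.Prime] (u : G) (hu : u ∉ Subgroup.center G)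
    (k : ℕ) (huk : u ^ (r ^ k) = 1) (g : G) (hg : g ∉ Subgroup.center G) :
    ∃ v ∈ Subgroup.centralizer ({g} : Set G), v ∉ Subgroup.center G ∧ ∃ l : ℕ, v ^ (r ^ l) = 1 := by
  by_contra hcon
  push Not at hcon
  obtain ⟨S₀⟩ : Nonempty (Sylow r (Subgroup.centralizer ({g} : Set G))) := inferInstance
  have hScent : (S₀ : Subgroup _).map (Subgroup.centralizer ({g} : Set G)).subtype ≤
      Subgroup.center G := by
    rintro _ ⟨s, hs, rfl⟩
    by_contra hsc
    obtain ⟨l, hl⟩ := S₀.isPGroup' ⟨s, hs⟩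
    have hl' : ((s : Subgroup.centralizer ({g} : Set G)) : G) ^ (r ^ l) = 1 := by
      have := congrArg Subtype.val (congrArg Subtype.val hl)
      simpa using this
    exact hcon _ s.2 hsc l hl'
  have hSp : IsPGroup r ((S₀ : Subgroup _).map (Subgroup.centralizer ({g} : Set G)).subtype) :=
    S₀.isPGroup'.map _
  have hScard : Nat.card ((S₀ : Subgroup _).map (Subgroup.centralizer ({g} : Set G)).subtype) =
      r ^ (Nat.card (Subgroup.centralizer ({g} : Set G))).factorization r := by
    rw [← S₀.card_eq_multiplicity]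
    exact Nat.card_congr (Subgroup.equivMapOfInjective _ _
      (Subgroup.centralizer ({g} : Set G)).subtype_injective).symm.toEquiv
  generalize (S₀ : Subgroup _).map (Subgroup.centralizer ({g} : Set G)).subtype = S at *
  haveI hSn : S.Normal := by
    constructor
    intro s hs x
    have := Subgroup.mem_center_iff.mp (hScent hs) x
    have e : x * s * x⁻¹ = s := by rw [this]; group
    rw [e]; exact hs
  have hTp : IsPGroup r (S ⊔ Subgroup.zpowers u : Subgroup G) :=
    IsPGroup.to_sup_of_normal_left hSp (isPGroup_zpowers r u k huk)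
  have hTle : S ⊔ Subgroup.zpowers u ≤ Subgroup.centralizer ({u} : Set G) := by
    apply sup_le
    · intro s hs
      rw [mem_cent]
      exact Subgroup.mem_center_iff.mp (hScent hs) u
    · rw [Subgroup.zpowers_le, mem_cent]
  have hcardeq : Nat.card (Subgroup.centralizer ({u} : Set G)) =
      Nat.card (Subgroup.centralizer ({g} : Set G)) := by
    have h1 := Subgroup.card_mul_index (Subgroup.centralizer ({u} : Set G))
    have h2 := Subgroup.card_mul_index (Subgroup.centralizer ({g} : Set G))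
    rw [index_eq_of_not_central n hn h u hu] at h1
    rw [index_eq_of_not_central n hn h g hg] at h2
    exact Nat.eq_of_mul_eq_mul_right (by omega) (h1.trans h2.symm)
  obtain ⟨e, he⟩ := IsPGroup.iff_card.mp hTp
  have hdvd : r ^ e ∣ Nat.card (Subgroup.centralizer ({g} : Set G)) := by
    rw [← he, ← hcardeq]; exact Subgroup.card_dvd_of_le hTle
  have hle : e ≤ (Nat.card (Subgroup.centralizer ({g} : Set G))).factorization r :=
    (hr.1.pow_dvd_iff_le_factorization Nat.card_pos.ne').mp hdvd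
  have hST : S = S ⊔ Subgroup.zpowers u := by
    apply Subgroup.eq_of_le_of_card_ge le_sup_left
    rw [he, hScard]
    exact Nat.pow_le_pow_right hr.1.pos hle
  apply hu
  apply hScent
  rw [hST]
  exact (le_sup_right : Subgroup.zpowers u ≤ S ⊔ Subgroup.zpowers u) (Subgroup.mem_zpowers u)

/-- with non-central elements for two different primes, all non-central centralizers are
abelian -/
theorem all_abelian (p q : ℕ) [hp : Fact p.Prime] [hq : Fact q.Prime] (hpq : p ≠ q)
    (x₀ y₀ : G) (hx₀ : x₀ ∉ Subgroup.center G) (hy₀ : y₀ ∉ Subgroup.center G) (k l : ℕ)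
    (hxk : x₀ ^ (p ^ k) = 1) (hyl : y₀ ^ (q ^ l) = 1) (g : G) (hg : g ∉ Subgroup.center G) :
    ∀ a ∈ Subgroup.centralizer ({g} : Set G), ∀ b ∈ Subgroup.centralizer ({g} : Set G),
      a * b = b * a := by
  obtain ⟨r, j, x, hr, hxj, hxc, hxg⟩ := exists_primary n hn h g hg
  rw [← hxg]
  by_cases hrp : r = p
  · subst hrp
    obtain ⟨v, hv, hvc, l', hl'⟩ := exists_noncentral_relt n hn h q y₀ hy₀ l hyl x hxc
    exact abelian_of_commuting n hn h r q hr hq.1 hpq x v hxc hvc j l' hxj hl'
      ((mem_cent x v).mp hv)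
  · obtain ⟨v, hv, hvc, l', hl'⟩ := exists_noncentral_relt n hn h p x₀ hx₀ k hxk x hxc
    exact abelian_of_commuting n hn h r p hr hp.1 hrp x v hxc hvc j l' hxj hl'
      ((mem_cent x v).mp hv)

end TwoSizes
theorem dvd_card_of_fibers {X Y : Type*} [Finite X] (f : X → Y) (d : ℕ)
    (hf : ∀ x : X, Nat.card {x' : X // f x' = f x} = d) : d ∣ Nat.card X := by
  classical
  haveI := Fintype.ofFinite X
  have h1 := Finset.card_eq_sum_card_fiberwise (f := f) (s := Finset.univ)
    (t := Finset.univ.image f) (fun x _ => Finset.mem_image_of_mem f (Finset.mem_univ x))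
  have h2 : ∀ y ∈ Finset.univ.image f, (Finset.univ.filter (fun x => f x = y)).card = d := by
    intro y hy
    obtain ⟨x, _, rfl⟩ := Finset.mem_image.mp hy
    rw [← hf x, Nat.card_eq_fintype_card, Fintype.card_subtype]
  rw [Finset.sum_congr rfl h2, Finset.sum_const, smul_eq_mul] at h1
  rw [Nat.card_eq_fintype_card, ← Finset.card_univ, h1]
  exact dvd_mul_left _ _

theorem card_compl_add {α : Type*} [Finite α] (s t : α → Prop) (hst : ∀ a, t a → s a) :
    Nat.card {a : α // s a ∧ ¬ t a} + Nat.card {a : α // t a} = Nat.card {a : α // s a} := by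
  classical
  have h1 := Nat.card_congr (Equiv.sumCompl (fun x : {a : α // s a} => t x.1))
  rw [Nat.card_sum] at h1
  have e1 : {x : {a : α // s a} // t x.1} ≃ {a : α // t a} :=
    { toFun := fun x => ⟨x.1.1, x.2⟩
      invFun := fun a => ⟨⟨a.1, hst a.1 a.2⟩, a.2⟩
      left_inv := fun x => rfl
      right_inv := fun a => rfl }
  have e2 : {x : {a : α // s a} // ¬ t x.1} ≃ {a : α // s a ∧ ¬ t a} :=
    { toFun := fun x => ⟨x.1.1, x.1.2, x.2⟩
      invFun := fun a => ⟨⟨a.1, a.2.1⟩, a.2.2⟩
      left_inv := fun x => rfl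
      right_inv := fun a => rfl }
  rw [Nat.card_congr e1, Nat.card_congr e2] at h1
  rw [← h1, add_comm]

/-- number of `q`-elements of an abelian subgroup -/
theorem card_qelts {G : Type*} [Group G] [Finite G] (H : Subgroup G)
    (hH : ∀ a ∈ H, ∀ b ∈ H, a * b = b * a) (q : ℕ) [hq : Fact q.Prime] :
    Nat.card {y : G // y ∈ H ∧ ∃ k : ℕ, y ^ (q ^ k) = 1} = q ^ (Nat.card H).factorization q := by
  obtain ⟨S⟩ : Nonempty (Sylow q H) := inferInstance
  have hSn : (S : Subgroup H).Normal := by
    constructor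
    intro s hs g
    have : g * s * g⁻¹ = s := by
      apply Subtype.ext
      show (g : G) * (s : G) * (g : G)⁻¹ = (s : G)
      rw [hH g g.2 s s.2]; group
    rw [this]; exact hs
  rw [← S.card_eq_multiplicity]
  apply Nat.card_congr
  exact
    { toFun := fun y => ⟨⟨y.1, y.2.1⟩, by
        obtain ⟨k, hk⟩ := y.2.2
        exact mem_normal_sylow q S hSn ⟨y.1, y.2.1⟩ k (Subtype.ext (by simpa using hk))⟩
      invFun := fun s => ⟨s.1.1, s.1.2, by
        obtain ⟨k, hk⟩ := S.isPGroup' s
        exact ⟨k, by simpa using congrArg Subtype.val (congrArg Subtype.val hk)⟩⟩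
      left_inv := fun y => rfl
      right_inv := fun s => rfl }

/-- size of an orbit under conjugation by a subgroup -/
theorem card_orbit {G : Type*} [Group G] [Finite G] (P : Subgroup G) (x : G) :
    Nat.card (Set.range (fun u : P => (u : G) * x * (u : G)⁻¹)) =
      (Subgroup.centralizer ({x} : Set G)).relIndex P := by
  have hψ := card_range_mul_card_fiber (fun u : P => (u : G) * x * (u : G)⁻¹)
    ((Subgroup.centralizer ({x} : Set G)).subgroupOf P) (by
      intro u v
      rw [Subgroup.mem_subgroupOf, mem_cent]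
      simp only [Subgroup.coe_mul, Subgroup.coe_inv]
      constructor
      · intro h
        calc x * ((u : G)⁻¹ * v) = (u : G)⁻¹ * ((u : G) * x * (u : G)⁻¹) * v := by group
          _ = (u : G)⁻¹ * ((v : G) * x * (v : G)⁻¹) * v := by rw [h]
          _ = (u : G)⁻¹ * v * x := by group
      · intro h
        calc (u : G) * x * (u : G)⁻¹ = (u : G) * (x * ((u : G)⁻¹ * v)) * (v : G)⁻¹ := by group
          _ = (u : G) * ((u : G)⁻¹ * v * x) * (v : G)⁻¹ := by rw [h]
          _ = (v : G) * x * (v : G)⁻¹ := by group)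
  have h3 := Subgroup.card_mul_index ((Subgroup.centralizer ({x} : Set G)).subgroupOf P)
  have hpos : 0 < Nat.card ((Subgroup.centralizer ({x} : Set G)).subgroupOf P) := Nat.card_pos
  apply Nat.eq_of_mul_eq_mul_right hpos
  rw [hψ, ← h3, mul_comm]
  rfl

section TwoSizes2

variable {G : Type*} [Group G] [Finite G] (n : ℕ) (hn : 1 < n)
  (h : ∀ x : G, (Subgroup.centralizer ({x} : Set G)).index = 1 ∨
    (Subgroup.centralizer ({x} : Set G)).index = n)
  (hab : ∀ g : G, g ∉ Subgroup.center G → ∀ a ∈ Subgroup.centralizer ({g} : Set G),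
    ∀ b ∈ Subgroup.centralizer ({g} : Set G), a * b = b * a)

include hn h

theorem card_cent_eq (g g' : G) (hg : g ∉ Subgroup.center G) (hg' : g' ∉ Subgroup.center G) :
    Nat.card (Subgroup.centralizer ({g} : Set G)) =
      Nat.card (Subgroup.centralizer ({g'} : Set G)) := by
  have h1 := Subgroup.card_mul_index (Subgroup.centralizer ({g} : Set G))
  have h2 := Subgroup.card_mul_index (Subgroup.centralizer ({g'} : Set G))
  rw [index_eq_of_not_central n hn h g hg] at h1
  rw [index_eq_of_not_central n hn h g' hg'] at h2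
  exact Nat.eq_of_mul_eq_mul_right (by omega) (h1.trans h2.symm)

include hab

theorem cent_eq_of_mem (g g' : G) (hg : g ∉ Subgroup.center G) (hg' : g' ∉ Subgroup.center G)
    (hmem : g' ∈ Subgroup.centralizer ({g} : Set G)) :
    Subgroup.centralizer ({g'} : Set G) = Subgroup.centralizer ({g} : Set G) := by
  refine (cent_eq_of_le n hn h g g' hg hg' ?_).symm
  intro c hc
  rw [mem_cent]
  exact hab g hg g' hmem c hc

/-- the partition of the non-central elements into abelian centralizers gives `|C| ≤ n |Z|` -/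
theorem card_cent_le (g₀ : G) (hg₀ : g₀ ∉ Subgroup.center G) :
    Nat.card (Subgroup.centralizer ({g₀} : Set G)) ≤ n * Nat.card (Subgroup.center G) := by
  have hZle : ∀ g : G, Subgroup.center G ≤ Subgroup.centralizer ({g} : Set G) :=
    fun g => Subgroup.center_le_centralizer _
  have hfib := dvd_card_of_fibers (X := {g : G // g ∉ Subgroup.center G})
    (fun g => Subgroup.centralizer ({(g : G)} : Set G))
    (Nat.card {x : G // x ∈ Subgroup.centralizer ({g₀} : Set G) ∧ x ∉ Subgroup.center G}) (by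
      intro x
      have e : {x' : {g : G // g ∉ Subgroup.center G} //
          Subgroup.centralizer ({(x' : G)} : Set G) = Subgroup.centralizer ({(x : G)} : Set G)} ≃
          {y : G // y ∈ Subgroup.centralizer ({(x : G)} : Set G) ∧ y ∉ Subgroup.center G} :=
        { toFun := fun x' => ⟨x'.1.1,
            (SetLike.ext_iff.mp x'.2 _).mp ((mem_cent _ _).mpr rfl), x'.1.2⟩
          invFun := fun y => ⟨⟨y.1, y.2.2⟩, cent_eq_of_mem n hn h hab x.1 y.1 x.2 y.2.2 y.2.1⟩
          left_inv := fun x' => rfl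
          right_inv := fun y => rfl }
      rw [Nat.card_congr e]
      have h1 := card_compl_add (fun y : G => y ∈ Subgroup.centralizer ({(x : G)} : Set G))
        (fun y : G => y ∈ Subgroup.center G) (fun a ha => hZle _ ha)
      have h2 := card_compl_add (fun y : G => y ∈ Subgroup.centralizer ({g₀} : Set G))
        (fun y : G => y ∈ Subgroup.center G) (fun a ha => hZle _ ha)
      have h3 : Nat.card {a : G // a ∈ Subgroup.centralizer ({(x : G)} : Set G)} =
          Nat.card {a : G // a ∈ Subgroup.centralizer ({g₀} : Set G)} :=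
        card_cent_eq n hn h x.1 g₀ x.2 hg₀
      omega)
  have h3 := card_compl_add (fun _ : G => True) (fun y : G => y ∈ Subgroup.center G)
    (fun _ _ => trivial)
  have h3a : Nat.card {a : G // True ∧ a ∉ Subgroup.center G} =
      Nat.card {g : G // g ∉ Subgroup.center G} :=
    Nat.card_congr (Equiv.subtypeEquivRight (fun a => by simp))
  have h3b : Nat.card {a : G // True} = Nat.card G :=
    Nat.card_congr (Equiv.subtypeUnivEquiv (fun _ => trivial))
  have h4 := card_compl_add (fun y : G => y ∈ Subgroup.centralizer ({g₀} : Set G))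
    (fun y : G => y ∈ Subgroup.center G) (fun a ha => hZle _ ha)
  have h5 := Subgroup.card_mul_index (Subgroup.centralizer ({g₀} : Set G))
  rw [index_eq_of_not_central n hn h g₀ hg₀] at h5
  rw [h3a, h3b] at h3
  have hz : 0 < Nat.card (Subgroup.center G) := Nat.card_pos
  obtain ⟨t, ht⟩ := hfib
  obtain ⟨n', rfl⟩ : ∃ n' : ℕ, n = n' + 1 := ⟨n - 1, by omega⟩
  have hm : Nat.card (Subgroup.centralizer ({g₀} : Set G)) =
      Nat.card {a : G // a ∈ Subgroup.centralizer ({g₀} : Set G)} := rfl
  have hzz : Nat.card (Subgroup.center G) = Nat.card {a : G // a ∈ Subgroup.center G} := rfl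
  rw [hm] at h5 ⊢
  rw [hzz] at hz ⊢
  generalize Nat.card {a : G // a ∈ Subgroup.centralizer ({g₀} : Set G)} = m at *
  generalize Nat.card {a : G // a ∈ Subgroup.center G} = z at *
  generalize Nat.card {x : G // x ∈ Subgroup.centralizer ({g₀} : Set G) ∧
    x ∉ Subgroup.center G} = d at *
  generalize Nat.card {g : G // g ∉ Subgroup.center G} = X at *
  -- X + z = m * (n'+1), d + z = m, X = d * t
  have hX : d * t = (n' + 1) * d + n' * z := by
    have : d * t + z = ((n' + 1) * d + n' * z) + z := by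
      rw [← ht, h3, ← h5, ← h4]; ring
    exact Nat.add_right_cancel this
  have hdvd : d ∣ n' * z := by
    have h6 : d ∣ (n' + 1) * d + n' * z := ⟨t, hX.symm⟩
    exact (Nat.dvd_add_right (dvd_mul_left d (n' + 1))).mp h6
  have hpos : 0 < n' * z := Nat.mul_pos (by omega) hz
  have hle := Nat.le_of_dvd hpos hdvd
  calc m = d + z := h4.symm
    _ ≤ n' * z + z := by omega
    _ = (n' + 1) * z := by ring

end TwoSizes2
section TwoSizes3

variable {G : Type*} [Group G] [Finite G] (n : ℕ) (hn : 1 < n)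
  (h : ∀ x : G, (Subgroup.centralizer ({x} : Set G)).index = 1 ∨
    (Subgroup.centralizer ({x} : Set G)).index = n)
  (hab : ∀ g : G, g ∉ Subgroup.center G → ∀ a ∈ Subgroup.centralizer ({g} : Set G),
    ∀ b ∈ Subgroup.centralizer ({g} : Set G), a * b = b * a)

include hn h hab

/-- counting the non-central `r`-elements of a non-central centralizer -/
theorem card_Y (g : G) (hg : g ∉ Subgroup.center G) (r : ℕ) [hr : Fact r.Prime] :
    Nat.card {y : G // (y ∈ Subgroup.centralizer ({g} : Set G) ∧ ∃ k : ℕ, y ^ (r ^ k) = 1) ∧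
        ¬ (y ∈ Subgroup.center G ∧ ∃ k : ℕ, y ^ (r ^ k) = 1)} +
      r ^ (Nat.card (Subgroup.center G)).factorization r =
      r ^ (Nat.card (Subgroup.centralizer ({g} : Set G))).factorization r := by
  have h1 := card_compl_add
    (fun y : G => y ∈ Subgroup.centralizer ({g} : Set G) ∧ ∃ k : ℕ, y ^ (r ^ k) = 1)
    (fun y : G => y ∈ Subgroup.center G ∧ ∃ k : ℕ, y ^ (r ^ k) = 1)
    (fun a ha => ⟨Subgroup.center_le_centralizer _ ha.1, ha.2⟩)
  rw [card_qelts (Subgroup.centralizer ({g} : Set G)) (hab g hg) r,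
    card_qelts (Subgroup.center G)
      (fun a _ b hb => Subgroup.mem_center_iff.mp hb a) r] at h1
  exact h1

/-- the key congruence: a Sylow `p`-subgroup (`p ∣ n`) acts semiregularly on the non-central
`q`-elements of a suitable centralizer -/
theorem fpf_congr (p q : ℕ) [hp : Fact p.Prime] [hq : Fact q.Prime] (hpn : p ∣ n)
    (g₁ : G) (hg₁ : g₁ ∉ Subgroup.center G) :
    ∃ w : G, w ∉ Subgroup.center G ∧
      p ^ n.factorization p ∣ Nat.card {y : G //
        (y ∈ Subgroup.centralizer ({w} : Set G) ∧ ∃ k : ℕ, y ^ (q ^ k) = 1) ∧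
        ¬ (y ∈ Subgroup.center G ∧ ∃ k : ℕ, y ^ (q ^ k) = 1)} := by
  obtain ⟨P⟩ : Nonempty (Sylow p G) := inferInstance
  -- (a) the centre of `P` is central in `G`
  have hZP : ∀ a ∈ (P : Subgroup G), (∀ t ∈ (P : Subgroup G), a * t = t * a) →
      a ∈ Subgroup.center G := by
    intro a _ hat
    have hle : (P : Subgroup G) ≤ Subgroup.centralizer ({a} : Set G) := by
      intro t ht
      rw [mem_cent]; exact hat t ht
    have hd := Subgroup.index_dvd_of_le hle
    rcases h a with h1 | h1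
    · exact (index_eq_one_iff_central a).mp h1
    · rw [h1] at hd
      exact absurd (hpn.trans hd) P.not_dvd_index
  -- (b) `P` is not central
  obtain ⟨u, huP, huc⟩ : ∃ u ∈ (P : Subgroup G), u ∉ Subgroup.center G := by
    by_contra hcon
    push Not at hcon
    obtain ⟨g, hg⟩ : ∃ g : G, g ∉ Subgroup.center G := ⟨g₁, hg₁⟩
    have hle : (P : Subgroup G) ≤ Subgroup.centralizer ({g} : Set G) := by
      intro t ht
      rw [mem_cent]
      exact (Subgroup.mem_center_iff.mp (hcon t ht) g)
    have hd := Subgroup.index_dvd_of_le hle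
    rw [index_eq_of_not_central n hn h g hg] at hd
    exact P.not_dvd_index (hpn.trans hd)
  -- (c) an element of the second centre of `P`
  obtain ⟨w, hwP, hwc, hw⟩ : ∃ w ∈ (P : Subgroup G), w ∉ Subgroup.center G ∧
      ∀ t ∈ (P : Subgroup G), t * w * t⁻¹ * w⁻¹ ∈ Subgroup.center G := by
    have hunc : (⟨u, huP⟩ : (P : Subgroup G)) ∉ Subgroup.center (P : Subgroup G) := by
      intro hc
      apply huc
      apply hZP u huP
      intro t ht
      have := Subgroup.mem_center_iff.mp hc ⟨t, ht⟩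
      exact (congrArg Subtype.val this).symm
    haveI : Nontrivial ((P : Subgroup G) ⧸ Subgroup.center (P : Subgroup G)) := by
      refine nontrivial_of_ne ((⟨u, huP⟩ : (P : Subgroup G)) :
        (P : Subgroup G) ⧸ Subgroup.center (P : Subgroup G)) 1 ?_
      intro h1
      exact hunc ((QuotientGroup.eq_one_iff _).mp h1)
    have hQp : IsPGroup p ((P : Subgroup G) ⧸ Subgroup.center (P : Subgroup G)) :=
      P.isPGroup'.to_quotient _
    haveI := hQp.center_nontrivial
    obtain ⟨wq, hwq⟩ := exists_ne (1 : Subgroup.center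
      ((P : Subgroup G) ⧸ Subgroup.center (P : Subgroup G)))
    obtain ⟨w', hw'⟩ := QuotientGroup.mk_surjective
      (wq : (P : Subgroup G) ⧸ Subgroup.center (P : Subgroup G))
    have hw'nc : w' ∉ Subgroup.center (P : Subgroup G) := by
      intro hc
      apply hwq
      apply Subtype.ext
      rw [← hw']
      exact (QuotientGroup.eq_one_iff _).mpr hc
    have hcomm : ∀ t : (P : Subgroup G), t * w' * t⁻¹ * w'⁻¹ ∈ Subgroup.center (P : Subgroup G) := by
      intro t
      rw [← QuotientGroup.eq_one_iff, QuotientGroup.mk_mul, QuotientGroup.mk_mul,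
        QuotientGroup.mk_mul, QuotientGroup.mk_inv, QuotientGroup.mk_inv, hw']
      have := Subgroup.mem_center_iff.mp wq.2 (t : (P : Subgroup G) ⧸ Subgroup.center (P : Subgroup G))
      rw [this]; group
    refine ⟨(w' : G), w'.2, ?_, ?_⟩
    · intro hc
      apply hw'nc
      rw [Subgroup.mem_center_iff]
      intro t
      apply Subtype.ext
      exact Subgroup.mem_center_iff.mp hc (t : G)
    · intro t ht
      have h1 := hcomm ⟨t, ht⟩
      apply hZP _ (by
        exact (P : Subgroup G).mul_mem ((P : Subgroup G).mul_mem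
          ((P : Subgroup G).mul_mem ht w'.2) ((P : Subgroup G).inv_mem ht))
          ((P : Subgroup G).inv_mem w'.2))
      intro s hs
      have := Subgroup.mem_center_iff.mp h1 ⟨s, hs⟩
      exact (congrArg Subtype.val this).symm
  refine ⟨w, hwc, ?_⟩
  -- (d) `P` normalizes the centralizer of `w`
  have hnorm : ∀ t ∈ (P : Subgroup G), ∀ c ∈ Subgroup.centralizer ({w} : Set G),
      t * c * t⁻¹ ∈ Subgroup.centralizer ({w} : Set G) := by
    intro t ht c hc
    rw [mem_cent] at hc ⊢
    have hz := hw t⁻¹ ((P : Subgroup G).inv_mem ht)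
    rw [inv_inv] at hz
    have hzc := Subgroup.mem_center_iff.mp hz c
    -- c commutes with t⁻¹ w t = (t⁻¹ w t w⁻¹) w
    have h1 : (t⁻¹ * w * t) * c = c * (t⁻¹ * w * t) := by
      calc (t⁻¹ * w * t) * c = (t⁻¹ * w * t * w⁻¹) * (w * c) := by group
        _ = (t⁻¹ * w * t * w⁻¹) * (c * w) := by rw [hc]
        _ = ((t⁻¹ * w * t * w⁻¹) * c) * w := by group
        _ = (c * (t⁻¹ * w * t * w⁻¹)) * w := by rw [hzc]
        _ = c * (t⁻¹ * w * t) := by group
    calc w * (t * c * t⁻¹) = t * ((t⁻¹ * w * t) * c) * t⁻¹ := by group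
      _ = t * (c * (t⁻¹ * w * t)) * t⁻¹ := by rw [h1]
      _ = t * c * t⁻¹ * w := by group
  -- (f) the relative index is divisible by the `p`-part of `n`
  have hrel : p ^ n.factorization p ∣
      (Subgroup.centralizer ({w} : Set G)).relIndex (P : Subgroup G) := by
    have h1 := Subgroup.relIndex_mul_index (inf_le_right :
      Subgroup.centralizer ({w} : Set G) ⊓ (P : Subgroup G) ≤ (P : Subgroup G))
    rw [Subgroup.inf_relIndex_right] at h1
    have h2 : (Subgroup.centralizer ({w} : Set G)).index ∣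
        (Subgroup.centralizer ({w} : Set G) ⊓ (P : Subgroup G)).index :=
      Subgroup.index_dvd_of_le inf_le_left
    rw [← h1, index_eq_of_not_central n hn h w hwc] at h2
    have h3 : p ^ n.factorization p ∣ (Subgroup.centralizer ({w} : Set G)).relIndex
        (P : Subgroup G) * (P : Subgroup G).index := (Nat.ordProj_dvd n p).trans h2
    have hcop : (p ^ n.factorization p).Coprime ((P : Subgroup G).index) :=
      Nat.Coprime.pow_left _ ((Nat.Prime.coprime_iff_not_dvd hp.1).mpr P.not_dvd_index)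
    exact hcop.dvd_of_dvd_mul_right h3
  refine hrel.trans ?_
  -- (e) orbits
  have hYmem : ∀ (y : G), ((y ∈ Subgroup.centralizer ({w} : Set G) ∧ ∃ k : ℕ, y ^ (q ^ k) = 1) ∧
      ¬ (y ∈ Subgroup.center G ∧ ∃ k : ℕ, y ^ (q ^ k) = 1)) → ∀ t ∈ (P : Subgroup G),
      ((t * y * t⁻¹ ∈ Subgroup.centralizer ({w} : Set G) ∧ ∃ k : ℕ, (t * y * t⁻¹) ^ (q ^ k) = 1) ∧
      ¬ (t * y * t⁻¹ ∈ Subgroup.center G ∧ ∃ k : ℕ, (t * y * t⁻¹) ^ (q ^ k) = 1)) := by
    rintro y ⟨⟨hyC, k, hk⟩, hyZ⟩ t ht
    refine ⟨⟨hnorm t ht y hyC, k, by rw [conj_pow, hk]; group⟩, ?_⟩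
    rintro ⟨hc, -⟩
    apply hyZ
    refine ⟨?_, k, hk⟩
    have := (Subgroup.center G).normal_of_characteristic.conj_mem _ hc t⁻¹
    have e : t⁻¹ * (t * y * t⁻¹) * t⁻¹⁻¹ = y := by group
    rwa [e] at this
  apply dvd_card_of_fibers
    (fun y : {y : G // (y ∈ Subgroup.centralizer ({w} : Set G) ∧ ∃ k : ℕ, y ^ (q ^ k) = 1) ∧
        ¬ (y ∈ Subgroup.center G ∧ ∃ k : ℕ, y ^ (q ^ k) = 1)} =>
      Set.range (fun t : (P : Subgroup G) => (t : G) * (y : G) * (t : G)⁻¹))
  intro y
  have hyc : (y : G) ∉ Subgroup.center G := fun hc => y.2.2 ⟨hc, y.2.1.2⟩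
  have hCy : Subgroup.centralizer ({(y : G)} : Set G) = Subgroup.centralizer ({w} : Set G) :=
    cent_eq_of_mem n hn h hab w y hwc hyc y.2.1.1
  have hcard := card_orbit (P : Subgroup G) (y : G)
  rw [hCy] at hcard
  rw [← hcard]
  apply Nat.card_congr
  exact
    { toFun := fun y' => ⟨y'.1.1, by
        have h1 : (y'.1 : G) ∈ Set.range (fun t : (P : Subgroup G) =>
            (t : G) * (y'.1 : G) * (t : G)⁻¹) := ⟨1, by simp⟩
        rw [y'.2] at h1
        exact h1⟩
      invFun := fun g => ⟨⟨g.1, by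
          obtain ⟨t, ht⟩ := g.2
          rw [← ht]
          exact hYmem y.1 y.2 t t.2⟩, by
          obtain ⟨t₀, ht₀⟩ := g.2
          ext z
          constructor
          · rintro ⟨t, rfl⟩
            refine ⟨t * t₀, ?_⟩
            simp only [Subgroup.coe_mul]
            rw [← ht₀]; group
          · rintro ⟨t, rfl⟩
            refine ⟨t * t₀⁻¹, ?_⟩
            simp only [Subgroup.coe_mul, Subgroup.coe_inv]
            rw [← ht₀]; group⟩
      left_inv := fun y' => rfl
      right_inv := fun g => rfl }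

end TwoSizes3

theorem arith (n c : ℕ) (hn : n ≠ 0) (hc : c ≠ 0) (p₀ q₀ : ℕ) (hp₀ : p₀.Prime) (hq₀ : q₀.Prime)
    (hpq : p₀ ≠ q₀) (hp₀c : p₀ ∣ c) (hq₀c : q₀ ∣ c)
    (hsupp : ∀ p : ℕ, p.Prime → p ∣ n → p ∣ c)
    (hlt : ∀ p q : ℕ, p.Prime → q.Prime → p ≠ q → q ∣ c →
      p ^ n.factorization p < q ^ c.factorization q) : n < c := by
  classical
  have hnprod : n = ∏ p ∈ c.primeFactors, p ^ n.factorization p := by
    conv_lhs => rw [← Nat.prod_factorization_pow_eq_self hn]
    rw [Finsupp.prod, Nat.support_factorization]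
    apply Finset.prod_subset
    · intro p hp
      rw [Nat.mem_primeFactors] at hp ⊢
      exact ⟨hp.1, hsupp p hp.1 hp.2.1, hc⟩
    · intro p _ hp
      rw [← Nat.support_factorization, Finsupp.notMem_support_iff] at hp
      rw [hp, pow_zero]
  have hcprod : c = ∏ p ∈ c.primeFactors, p ^ c.factorization p := by
    conv_lhs => rw [← Nat.prod_factorization_pow_eq_self hc]
    rw [Finsupp.prod, Nat.support_factorization]
  have hp₀S : p₀ ∈ c.primeFactors := Nat.mem_primeFactors.mpr ⟨hp₀, hp₀c, hc⟩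
  have hq₀S : q₀ ∈ c.primeFactors := Nat.mem_primeFactors.mpr ⟨hq₀, hq₀c, hc⟩
  obtain ⟨pm, hpmS, hpm⟩ := Finset.exists_max_image c.primeFactors
    (fun p => p ^ n.factorization p) ⟨p₀, hp₀S⟩
  obtain ⟨q₁, hq₁S, hq₁⟩ : ∃ q₁ ∈ c.primeFactors, q₁ ≠ pm := by
    by_cases e : pm = p₀
    · exact ⟨q₀, hq₀S, fun e' => hpq (e.symm.trans e'.symm)⟩
    · exact ⟨p₀, hp₀S, fun e' => e e'.symm⟩
  have hpmP := (Nat.mem_primeFactors.mp hpmS)
  have hq₁P := (Nat.mem_primeFactors.mp hq₁S)
  have hq₁S' : q₁ ∈ c.primeFactors.erase pm := Finset.mem_erase.mpr ⟨hq₁, hq₁S⟩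
  have e1 : ∀ f : ℕ → ℕ, ∏ x ∈ c.primeFactors, f x =
      f pm * (f q₁ * ∏ x ∈ (c.primeFactors.erase pm).erase q₁, f x) := by
    intro f
    rw [Finset.mul_prod_erase _ f hq₁S', Finset.mul_prod_erase _ f hpmS]
  rw [e1] at hnprod hcprod
  have hAB : ∏ x ∈ (c.primeFactors.erase pm).erase q₁, x ^ n.factorization x ≤
      ∏ x ∈ (c.primeFactors.erase pm).erase q₁, x ^ c.factorization x := by
    apply Finset.prod_le_prod
    · intro i _; exact Nat.zero_le _
    · intro i hi
      have hi1 := Finset.mem_erase.mp hi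
      have hi2 := Finset.mem_erase.mp hi1.2
      have hiP := Nat.mem_primeFactors.mp hi2.2
      exact (hpm i hi2.2).trans (hlt pm i hpmP.1 hiP.1 (fun e => hi2.1 e.symm) hiP.2.1).le
  have hBpos : 0 < ∏ x ∈ (c.primeFactors.erase pm).erase q₁, x ^ c.factorization x := by
    apply Finset.prod_pos
    intro i hi
    have hi1 := Finset.mem_erase.mp hi
    have hi2 := Finset.mem_erase.mp hi1.2
    have hiP := Nat.mem_primeFactors.mp hi2.2
    exact Nat.pos_of_ne_zero (pow_ne_zero _ hiP.1.ne_zero)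
  have h1 : pm ^ n.factorization pm < q₁ ^ c.factorization q₁ :=
    hlt pm q₁ hpmP.1 hq₁P.1 (fun e => hq₁ e.symm) hq₁P.2.1
  have h2 : q₁ ^ n.factorization q₁ < pm ^ c.factorization pm :=
    hlt q₁ pm hq₁P.1 hpmP.1 hq₁ hpmP.2.1
  generalize ∏ x ∈ (c.primeFactors.erase pm).erase q₁, x ^ n.factorization x = A at *
  generalize ∏ x ∈ (c.primeFactors.erase pm).erase q₁, x ^ c.factorization x = B at *
  calc n = pm ^ n.factorization pm * (q₁ ^ n.factorization q₁ * A) := hnprod
    _ ≤ pm ^ n.factorization pm * (q₁ ^ n.factorization q₁ * B) :=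
        Nat.mul_le_mul_left _ (Nat.mul_le_mul_left _ hAB)
    _ = (pm ^ n.factorization pm * q₁ ^ n.factorization q₁) * B := by ring
    _ < (q₁ ^ c.factorization q₁ * pm ^ c.factorization pm) * B :=
        Nat.mul_lt_mul_of_pos_right (Nat.mul_lt_mul'' h1 h2) hBpos
    _ = pm ^ c.factorization pm * (q₁ ^ c.factorization q₁ * B) := by ring
    _ = c := hcprod.symm

section TwoSizes4

variable {G : Type*} [Group G] [Finite G] (n : ℕ) (hn : 1 < n)
  (h : ∀ x : G, (Subgroup.centralizer ({x} : Set G)).index = 1 ∨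
    (Subgroup.centralizer ({x} : Set G)).index = n)

include hn h

/-- non-central elements of prime-power order exist for at most one prime -/
theorem two_primes_false (p q : ℕ) [hp : Fact p.Prime] [hq : Fact q.Prime] (hpq : p ≠ q)
    (x₀ y₀ : G) (hx₀ : x₀ ∉ Subgroup.center G) (hy₀ : y₀ ∉ Subgroup.center G) (k l : ℕ)
    (hxk : x₀ ^ (p ^ k) = 1) (hyl : y₀ ^ (q ^ l) = 1) : False := by
  have hab := all_abelian n hn h p q hpq x₀ y₀ hx₀ hy₀ k l hxk hyl
  have hle := card_cent_le n hn h hab x₀ hx₀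
  obtain ⟨c, hc⟩ : Nat.card (Subgroup.center G) ∣
      Nat.card (Subgroup.centralizer ({x₀} : Set G)) :=
    Subgroup.card_dvd_of_le (Subgroup.center_le_centralizer _)
  have hzpos : 0 < Nat.card (Subgroup.center G) := Nat.card_pos
  have hmpos : 0 < Nat.card (Subgroup.centralizer ({x₀} : Set G)) := Nat.card_pos
  have hc0 : c ≠ 0 := by
    rintro rfl
    rw [mul_zero] at hc; omega
  -- a non-central `r`-element forces `r ∣ c`
  have key1 : ∀ (r : ℕ) [Fact r.Prime] (u : G), u ∉ Subgroup.center G →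
      ∀ k' : ℕ, u ^ (r ^ k') = 1 → r ∣ c := by
    intro r hr u hu k' huk
    obtain ⟨v, hv, hvc, l', hl'⟩ := exists_noncentral_relt n hn h r u hu k' huk x₀ hx₀
    have hY := card_Y n hn h hab x₀ hx₀ r
    have hYpos : 0 < Nat.card {y : G //
        (y ∈ Subgroup.centralizer ({x₀} : Set G) ∧ ∃ k : ℕ, y ^ (r ^ k) = 1) ∧
        ¬ (y ∈ Subgroup.center G ∧ ∃ k : ℕ, y ^ (r ^ k) = 1)} := by
      haveI : Nonempty {y : G //
          (y ∈ Subgroup.centralizer ({x₀} : Set G) ∧ ∃ k : ℕ, y ^ (r ^ k) = 1) ∧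
          ¬ (y ∈ Subgroup.center G ∧ ∃ k : ℕ, y ^ (r ^ k) = 1)} :=
        ⟨⟨v, ⟨hv, l', hl'⟩, fun hh => hvc hh.1⟩⟩
      exact Nat.card_pos
    rw [hc, Nat.factorization_mul hzpos.ne' hc0, Finsupp.add_apply, pow_add] at hY
    by_contra hrc
    rw [Nat.factorization_eq_zero_of_not_dvd hrc, pow_zero, mul_one] at hY
    omega
  have hsupp : ∀ r : ℕ, r.Prime → r ∣ n → r ∣ c := by
    intro r hr hrn
    haveI : Fact r.Prime := ⟨hr⟩
    obtain ⟨R⟩ : Nonempty (Sylow r G) := inferInstance
    obtain ⟨u, huR, huc⟩ : ∃ u ∈ (R : Subgroup G), u ∉ Subgroup.center G := by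
      by_contra hcon
      push Not at hcon
      have hle : (R : Subgroup G) ≤ Subgroup.centralizer ({x₀} : Set G) := by
        intro t ht
        rw [mem_cent]
        exact (Subgroup.mem_center_iff.mp (hcon t ht) x₀)
      have hd := Subgroup.index_dvd_of_le hle
      rw [index_eq_of_not_central n hn h x₀ hx₀] at hd
      exact R.not_dvd_index (hrn.trans hd)
    obtain ⟨k', hk'⟩ := R.isPGroup' ⟨u, huR⟩
    exact key1 r u huc k' (by simpa using congrArg Subtype.val hk')
  have hlt : ∀ p' q' : ℕ, p'.Prime → q'.Prime → p' ≠ q' → q' ∣ c →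
      p' ^ n.factorization p' < q' ^ c.factorization q' := by
    intro p' q' hp' hq' hne hq'c
    haveI : Fact p'.Prime := ⟨hp'⟩
    haveI : Fact q'.Prime := ⟨hq'⟩
    have hvpos : 0 < c.factorization q' := hq'.factorization_pos_of_dvd hc0 hq'c
    have hone : 1 < q' ^ c.factorization q' := Nat.one_lt_pow hvpos.ne' hq'.one_lt
    by_cases hpn : p' ∣ n
    · obtain ⟨w, hwc, hdvd⟩ := fpf_congr n hn h hab p' q' hpn x₀ hx₀
      have hY := card_Y n hn h hab w hwc q'
      rw [card_cent_eq n hn h w x₀ hwc hx₀, hc, Nat.factorization_mul hzpos.ne' hc0,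
        Finsupp.add_apply, pow_add] at hY
      generalize Nat.card {y : G //
        (y ∈ Subgroup.centralizer ({w} : Set G) ∧ ∃ k : ℕ, y ^ (q' ^ k) = 1) ∧
        ¬ (y ∈ Subgroup.center G ∧ ∃ k : ℕ, y ^ (q' ^ k) = 1)} = Y at *
      have hYeq : Y = q' ^ (Nat.card (Subgroup.center G)).factorization q' *
          (q' ^ c.factorization q' - 1) := by
        have : q' ^ (Nat.card (Subgroup.center G)).factorization q' *
            (q' ^ c.factorization q' - 1) +
            q' ^ (Nat.card (Subgroup.center G)).factorization q' =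
            q' ^ (Nat.card (Subgroup.center G)).factorization q' * q' ^ c.factorization q' := by
          rw [Nat.mul_sub_one, Nat.sub_add_cancel]
          exact Nat.le_mul_of_pos_right _ (by omega)
        omega
      rw [hYeq] at hdvd
      have hcop : (p' ^ n.factorization p').Coprime
          (q' ^ (Nat.card (Subgroup.center G)).factorization q') :=
        Nat.Coprime.pow _ _ ((Nat.coprime_primes hp' hq').mpr hne)
      have hd2 := hcop.dvd_of_dvd_mul_left hdvd
      have := Nat.le_of_dvd (by omega) hd2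
      omega
    · rw [Nat.factorization_eq_zero_of_not_dvd hpn, pow_zero]; exact hone
  have hfin := arith n c (by omega) hc0 p q hp.1 hq.1 hpq (key1 p x₀ hx₀ k hxk)
    (key1 q y₀ hy₀ l hyl) hsupp hlt
  rw [hc, mul_comm n] at hle
  have := Nat.le_of_mul_le_mul_left hle hzpos
  omega

end TwoSizes4

theorem isComplement'_of_index {H₁ : Type*} [Group H₁] [Finite H₁] (p : ℕ)
    [hp : Fact p.Prime] (N : Subgroup H₁) (hNcop : (Nat.card N).Coprime p) (i : ℕ)
    (hi : N.index = p ^ i) (Q : Sylow p H₁) : N.IsComplement' (Q : Subgroup H₁) := by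
  obtain ⟨j, hj⟩ := IsPGroup.iff_card.mp Q.isPGroup'
  have h1 := Subgroup.card_mul_index N
  rw [hi] at h1
  have h2 : p ^ i ∣ Nat.card (Q : Subgroup H₁) :=
    Q.pow_dvd_card_of_pow_dvd_card (by rw [← h1]; exact dvd_mul_left _ _)
  have h3 : Nat.card (Q : Subgroup H₁) ∣ p ^ i := by
    have hd : Nat.card (Q : Subgroup H₁) ∣ Nat.card N * p ^ i := by
      rw [h1]; exact Subgroup.card_subgroup_dvd_card _
    have hc : (Nat.card (Q : Subgroup H₁)).Coprime (Nat.card N) := by
      rw [hj]; exact Nat.Coprime.pow_left _ hNcop.symm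
    exact hc.dvd_of_dvd_mul_left hd
  have h4 : Nat.card (Q : Subgroup H₁) = p ^ i := Nat.dvd_antisymm h3 h2
  apply Subgroup.isComplement'_of_coprime
  · rw [h4, h1]
  · rw [h4]; exact Nat.Coprime.pow_right _ hNcop

section TwoSizes5

variable {G : Type*} [Group G] [Finite G] (n : ℕ) (hn : 1 < n)
  (h : ∀ x : G, (Subgroup.centralizer ({x} : Set G)).index = 1 ∨
    (Subgroup.centralizer ({x} : Set G)).index = n)

include hn h

/-- elements of order prime to `p` are central -/
theorem central_of_coprime (p : ℕ) [hp : Fact p.Prime] (x₀ : G) (hx₀ : x₀ ∉ Subgroup.center G)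
    (k : ℕ) (hxk : x₀ ^ (p ^ k) = 1) (g : G) (hg : (orderOf g).Coprime p) :
    g ∈ Subgroup.center G := by
  apply mem_of_prime_pow_parts _ (orderOf g) g rfl
  rintro i ⟨r, l, hr, hrl⟩
  by_cases hrp : r = p
  · subst hrp
    have h1 : orderOf (g ^ i) ∣ r ^ l := orderOf_dvd_of_pow_eq_one hrl
    have h2 : orderOf (g ^ i) ∣ orderOf g :=
      orderOf_dvd_of_mem_zpowers (Subgroup.zpow_mem_zpowers g i)
    have h3 : orderOf (g ^ i) = 1 :=
      Nat.Coprime.eq_one_of_dvd (Nat.Coprime.coprime_dvd_left h2 (Nat.Coprime.pow_right l hg)) h1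
    rw [orderOf_eq_one_iff] at h3
    rw [h3]; exact Subgroup.one_mem _
  · by_contra huc
    haveI : Fact r.Prime := ⟨hr⟩
    exact two_primes_false n hn h p r (Ne.symm hrp) x₀ (g ^ i) hx₀ huc k l hxk hrl

/-- the abelian normal subgroup with quotient of exponent `p` -/
theorem exists_abelian_normal (p : ℕ) [hp : Fact p.Prime]
    (hZp : ∀ g : G, ∃ k : ℕ, g ^ (p ^ k) ∈ Subgroup.center G)
    (x₀ : G) (hx₀ : x₀ ∉ Subgroup.center G) :
    ∃ A : Subgroup G, A.Normal ∧ (∀ a ∈ A, ∀ b ∈ A, a * b = b * a) ∧ ∀ y : G, y ^ p ∈ A := by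
  have hQp : IsPGroup p (G ⧸ Subgroup.center G) := by
    intro gq
    obtain ⟨g, rfl⟩ := QuotientGroup.mk_surjective gq
    obtain ⟨k, hk⟩ := hZp g
    exact ⟨k, by rw [← QuotientGroup.mk_pow, QuotientGroup.eq_one_iff]; exact hk⟩
  haveI : Nontrivial (G ⧸ Subgroup.center G) := by
    refine nontrivial_of_ne ((x₀ : G) : G ⧸ Subgroup.center G) 1 ?_
    intro h1
    exact hx₀ ((QuotientGroup.eq_one_iff _).mp h1)
  haveI := hQp.center_nontrivial
  have hCp : IsPGroup p (Subgroup.center (G ⧸ Subgroup.center G)) := hQp.to_subgroup _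
  obtain ⟨e, he⟩ := IsPGroup.iff_card.mp hCp
  have hpd : p ∣ Nat.card (Subgroup.center (G ⧸ Subgroup.center G)) := by
    have h1 : 1 < Nat.card (Subgroup.center (G ⧸ Subgroup.center G)) := Finite.one_lt_card
    rw [he] at h1 ⊢
    have he0 : e ≠ 0 := by
      rintro rfl
      simp at h1
    exact dvd_pow_self p he0
  obtain ⟨wq, hwq⟩ := exists_prime_orderOf_dvd_card' (G := Subgroup.center (G ⧸ Subgroup.center G))
    p hpd
  obtain ⟨w, hw⟩ := QuotientGroup.mk_surjective (wq : G ⧸ Subgroup.center G)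
  have hwc : w ∉ Subgroup.center G := by
    intro hc
    have h1 : (wq : G ⧸ Subgroup.center G) = 1 := by
      rw [← hw]; exact (QuotientGroup.eq_one_iff _).mpr hc
    have h2 : wq = 1 := Subtype.ext h1
    rw [h2, orderOf_one] at hwq
    exact hp.1.one_lt.ne hwq
  have hwp : w ^ p ∈ Subgroup.center G := by
    rw [← QuotientGroup.eq_one_iff, QuotientGroup.mk_pow, hw]
    have h1 : wq ^ p = 1 := by rw [← hwq]; exact pow_orderOf_eq_one wq
    have h2 := congrArg Subtype.val h1
    simpa using h2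
  have hcomm : ∀ t : G, t * w * t⁻¹ * w⁻¹ ∈ Subgroup.center G := by
    intro t
    rw [← QuotientGroup.eq_one_iff, QuotientGroup.mk_mul, QuotientGroup.mk_mul,
      QuotientGroup.mk_mul, QuotientGroup.mk_inv, QuotientGroup.mk_inv, hw]
    have := Subgroup.mem_center_iff.mp wq.2 (t : G ⧸ Subgroup.center G)
    rw [this]; group
  -- the centralizer of `w` is normal
  have hnorm : ∀ t : G, ∀ c ∈ Subgroup.centralizer ({w} : Set G),
      t * c * t⁻¹ ∈ Subgroup.centralizer ({w} : Set G) := by
    intro t c hc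
    rw [mem_cent] at hc ⊢
    have hz := hcomm t⁻¹
    rw [inv_inv] at hz
    have hzc := Subgroup.mem_center_iff.mp hz c
    have h1 : (t⁻¹ * w * t) * c = c * (t⁻¹ * w * t) := by
      calc (t⁻¹ * w * t) * c = (t⁻¹ * w * t * w⁻¹) * (w * c) := by group
        _ = (t⁻¹ * w * t * w⁻¹) * (c * w) := by rw [hc]
        _ = ((t⁻¹ * w * t * w⁻¹) * c) * w := by group
        _ = (c * (t⁻¹ * w * t * w⁻¹)) * w := by rw [hzc]
        _ = c * (t⁻¹ * w * t) := by group
    calc w * (t * c * t⁻¹) = t * ((t⁻¹ * w * t) * c) * t⁻¹ := by group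
      _ = t * (c * (t⁻¹ * w * t)) * t⁻¹ := by rw [h1]
      _ = t * c * t⁻¹ * w := by group
  refine ⟨Subgroup.centralizer ({w} : Set G) ⊓
    Subgroup.centralizer (Subgroup.centralizer ({w} : Set G) : Set G), ?_, ?_, ?_⟩
  · constructor
    intro a ha g
    obtain ⟨ha1, ha2⟩ := Subgroup.mem_inf.mp ha
    refine Subgroup.mem_inf.mpr ⟨hnorm g a ha1, Subgroup.mem_centralizer_iff.mpr ?_⟩
    intro c hc
    have h1 := hnorm g⁻¹ c hc
    rw [inv_inv] at h1
    have h2 : g⁻¹ * c * g * a = a * (g⁻¹ * c * g) := Subgroup.mem_centralizer_iff.mp ha2 _ h1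
    calc c * (g * a * g⁻¹) = g * (g⁻¹ * c * g * a) * g⁻¹ := by group
      _ = g * (a * (g⁻¹ * c * g)) * g⁻¹ := by rw [h2]
      _ = g * a * g⁻¹ * c := by group
  · intro a ha b hb
    obtain ⟨-, ha2⟩ := Subgroup.mem_inf.mp ha
    obtain ⟨hb1, -⟩ := Subgroup.mem_inf.mp hb
    exact (Subgroup.mem_centralizer_iff.mp ha2 b hb1).symm
  · intro y
    by_cases hyp : y ^ p ∈ Subgroup.center G
    · refine Subgroup.mem_inf.mpr ⟨(mem_cent w _).mpr (Subgroup.mem_center_iff.mp hyp w),
        Subgroup.mem_centralizer_iff.mpr ?_⟩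
      intro c _
      exact Subgroup.mem_center_iff.mp hyp c
    · have hy : y ∉ Subgroup.center G := fun hc => hyp (Subgroup.pow_mem _ hc p)
      have hCy : Subgroup.centralizer ({y} : Set G) = Subgroup.centralizer ({y ^ p} : Set G) :=
        cent_eq_of_le n hn h y (y ^ p) hy hyp (fun c hc => by
          rw [mem_cent] at hc ⊢
          exact ((show Commute y c from hc).pow_left p).eq)
      -- `w` commutes with `y ^ p`
      have hz := hcomm y
      have hzw : Commute (y * w * y⁻¹ * w⁻¹) w := (Subgroup.mem_center_iff.mp hz w).symm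
      have hzy : Commute (y * w * y⁻¹ * w⁻¹)⁻¹ y :=
        (show Commute (y * w * y⁻¹ * w⁻¹) y from (Subgroup.mem_center_iff.mp hz y).symm).inv_left
      have hzp : (y * w * y⁻¹ * w⁻¹) ^ p = 1 := by
        have h1 : y * w ^ p * y⁻¹ = (y * w * y⁻¹ * w⁻¹) ^ p * w ^ p := by
          rw [← hzw.mul_pow, ← conj_pow]
          congr 1; group
        have h2 : y * w ^ p * y⁻¹ = w ^ p := by
          rw [Subgroup.mem_center_iff.mp hwp y]; group
        rw [h2] at h1
        exact (mul_eq_right.mp h1.symm)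
      have hwyp : w * y ^ p = y ^ p * w := by
        have h1 : w * y ^ p * w⁻¹ = ((y * w * y⁻¹ * w⁻¹)⁻¹) ^ p * y ^ p := by
          rw [← hzy.mul_pow, ← conj_pow]
          congr 1; group
        rw [inv_pow, hzp, inv_one, one_mul] at h1
        calc w * y ^ p = (w * y ^ p * w⁻¹) * w := by group
          _ = y ^ p * w := by rw [h1]
      have hyw : y * w = w * y := by
        have h1 : w ∈ Subgroup.centralizer ({y} : Set G) := by
          rw [hCy, mem_cent]; exact hwyp.symm
        exact (mem_cent y w).mp h1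
      have hpow : (y * w) ^ p = y ^ p * w ^ p := (show Commute y w from hyw).mul_pow p
      have hywp : (y * w) ^ p ∉ Subgroup.center G := by
        intro hc
        apply hyp
        have : y ^ p = (y * w) ^ p * (w ^ p)⁻¹ := by rw [hpow]; group
        rw [this]
        exact Subgroup.mul_mem _ hc (Subgroup.inv_mem _ hwp)
      have hywc : y * w ∉ Subgroup.center G := fun hc => hywp (Subgroup.pow_mem _ hc p)
      have hle1 : Subgroup.centralizer ({y * w} : Set G) ≤ Subgroup.centralizer ({y} : Set G) := by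
        intro c hc
        rw [hCy]
        rw [mem_cent] at hc ⊢
        have h1 : (y * w) ^ p * c = c * (y * w) ^ p :=
          ((show Commute (y * w) c from hc).pow_left p).eq
        rw [hpow] at h1
        have h2 := Subgroup.mem_center_iff.mp hwp c
        calc y ^ p * c = y ^ p * (c * w ^ p) * (w ^ p)⁻¹ := by group
          _ = y ^ p * (w ^ p * c) * (w ^ p)⁻¹ := by rw [h2]
          _ = (y ^ p * w ^ p * c) * (w ^ p)⁻¹ := by group
          _ = (c * (y ^ p * w ^ p)) * (w ^ p)⁻¹ := by rw [h1]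
          _ = c * y ^ p := by group
      have he1 := cent_eq_of_le n hn h (y * w) y hywc hy hle1
      have hle2 : Subgroup.centralizer ({y} : Set G) ≤ Subgroup.centralizer ({w} : Set G) := by
        intro c hc
        have hc' : c ∈ Subgroup.centralizer ({y * w} : Set G) := by rw [he1]; exact hc
        rw [mem_cent] at hc hc' ⊢
        calc w * c = y⁻¹ * (y * w * c) := by group
          _ = y⁻¹ * (c * (y * w)) := by rw [hc']
          _ = y⁻¹ * (c * y) * w := by group
          _ = y⁻¹ * (y * c) * w := by rw [hc]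
          _ = c * w := by group
      have he2 := cent_eq_of_le n hn h y w hy hwc hle2
      apply Subgroup.pow_mem
      refine Subgroup.mem_inf.mpr ⟨(mem_cent w y).mpr hyw.symm,
        Subgroup.mem_centralizer_iff.mpr ?_⟩
      intro c hc
      have hc' : c ∈ Subgroup.centralizer ({y} : Set G) := by rw [he2]; exact hc
      exact ((mem_cent y c).mp hc').symm

end TwoSizes5

/-- Let G be a finite group whose conjugacy classes have exactly two sizes, 1 and n > 1. Then n is a power of a prime p and G is the direct product of a p-group and an abelian group of order prime to p: its Sylow p-subgroup P is normal with an abelian normal complement centralizing it; moreover P has an abelian normal subgroup A with P/A of exponent dividing p. -/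
theorem result {G : Type*} [Group G] [Finite G] (n : ℕ) (hn : 1 < n)
    (h : ∀ x : G, (Subgroup.centralizer ({x} : Set G)).index = 1 ∨ (Subgroup.centralizer ({x} : Set G)).index = n) (hex : ∃ x : G, (Subgroup.centralizer ({x} : Set G)).index = n) :
    ∃ (p : ℕ) (_ : Fact p.Prime) (a : ℕ), n = p ^ a ∧ ∀ P : Sylow p G, (P : Subgroup G).Normal ∧
      (∃ N : Subgroup G, N.Normal ∧ N.IsComplement' (P : Subgroup G) ∧ IsMulCommutative N ∧
        ∀ x ∈ N, ∀ y ∈ (P : Subgroup G), x * y = y * x) ∧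
      ∃ A : Subgroup (P : Subgroup G), A.Normal ∧ IsMulCommutative A ∧ ∀ y : (P : Subgroup G), y ^ p ∈ A := by
  obtain ⟨x, hx⟩ := hex
  have hxc : x ∉ Subgroup.center G := by
    intro hc
    have := (index_eq_one_iff_central x).mpr hc
    omega
  obtain ⟨p, k, x₀, hp, hxk, hx₀, -⟩ := exists_primary n hn h x hxc
  haveI hpf : Fact p.Prime := ⟨hp⟩
  have hcent : ∀ g : G, (orderOf g).Coprime p → g ∈ Subgroup.center G :=
    central_of_coprime n hn h p x₀ hx₀ k hxk
  let N : Subgroup G :=
    { carrier := {g | g ∈ Subgroup.center G ∧ (orderOf g).Coprime p}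
      one_mem' := ⟨Subgroup.one_mem _, by rw [orderOf_one]; exact Nat.coprime_one_left _⟩
      mul_mem' := by
        rintro a b ⟨ha, hao⟩ ⟨hb, hbo⟩
        refine ⟨Subgroup.mul_mem _ ha hb, ?_⟩
        have hcomm : Commute a b := (Subgroup.mem_center_iff.mp hb a)
        exact Nat.Coprime.coprime_dvd_left hcomm.orderOf_mul_dvd_mul_orderOf
          (Nat.Coprime.mul_left hao hbo)
      inv_mem' := by
        rintro a ⟨ha, hao⟩
        exact ⟨Subgroup.inv_mem _ ha, by rwa [orderOf_inv]⟩ }
  have hNle : N ≤ Subgroup.center G := fun g hg => hg.1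
  have hNn : N.Normal := by
    constructor
    intro a ha g
    have := Subgroup.mem_center_iff.mp ha.1 g
    have e : g * a * g⁻¹ = a := by rw [this]; group
    rw [e]; exact ha
  have hNcop : (Nat.card N).Coprime p := card_coprime_of_forall p N (fun g hg => hg.2)
  have hQ : IsPGroup p (G ⧸ N) := by
    intro gq
    obtain ⟨g, rfl⟩ := QuotientGroup.mk_surjective gq
    obtain ⟨i, j, a, hdec, hu, hy⟩ := exists_decomp p hp g
    refine ⟨a, ?_⟩
    have hco : (orderOf (g ^ j)).Coprime p := ((Nat.Prime.coprime_iff_not_dvd hp).mpr hy).symm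
    have hj : g ^ j ∈ N := ⟨hcent _ hco, hco⟩
    rw [← QuotientGroup.mk_pow, QuotientGroup.eq_one_iff]
    have : g ^ (p ^ a) = (g ^ j) ^ (p ^ a) := by
      conv_lhs => rw [hdec]
      rw [(Commute.zpow_zpow_self g i j).mul_pow, hu, one_mul]
    rw [this]; exact N.pow_mem hj _
  obtain ⟨i, hi⟩ := IsPGroup.iff_card.mp hQ
  have hidx : N.index = p ^ i := by rw [Subgroup.index_eq_card]; exact hi
  have hndvd : n ∣ p ^ i := by
    rw [← hidx, ← index_eq_of_not_central n hn h x₀ hx₀]
    exact Subgroup.index_dvd_of_le (hNle.trans (Subgroup.center_le_centralizer _))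
  obtain ⟨a, -, hna⟩ := (Nat.dvd_prime_pow hp).mp hndvd
  have hZp : ∀ g : G, ∃ k : ℕ, g ^ (p ^ k) ∈ Subgroup.center G := by
    intro g
    obtain ⟨k', hk'⟩ := hQ (g : G ⧸ N)
    rw [← QuotientGroup.mk_pow, QuotientGroup.eq_one_iff] at hk'
    exact ⟨k', hNle hk'⟩
  obtain ⟨A, hAn, hAab, hAp⟩ := exists_abelian_normal n hn h p hZp x₀ hx₀
  refine ⟨p, hpf, a, hna, ?_⟩
  intro P
  have hcompl : N.IsComplement' (P : Subgroup G) := isComplement'_of_index p N hNcop i hidx P
  have hPn : (P : Subgroup G).Normal := by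
    rw [← Subgroup.normalizer_eq_top_iff, eq_top_iff, ← hcompl.sup_eq_top]
    apply sup_le
    · rw [Subgroup.le_normalizer_iff]
      intro a ha t ht
      have := Subgroup.mem_center_iff.mp ha.1 t
      have e : a * t * a⁻¹ = t := by rw [← this]; group
      rw [e]; exact ht
    · exact Subgroup.le_normalizer
  refine ⟨hPn, ⟨N, hNn, hcompl, ⟨⟨fun a b => Subtype.ext
    (Subgroup.mem_center_iff.mp a.2.1 b).symm⟩⟩,
    fun x hx y _ => (Subgroup.mem_center_iff.mp hx.1 y).symm⟩, ?_⟩
  refine ⟨A.subgroupOf (P : Subgroup G), hAn.subgroupOf _,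
    ⟨⟨fun a b => Subtype.ext (Subtype.ext (hAab a.1.1 a.2 b.1.1 b.2))⟩⟩, fun y => ?_⟩
  rw [Subgroup.mem_subgroupOf]
  simpa using hAp (y : G)

end Cfsg.Agent.S4134
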