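import Cfsg.Statements.S0992
import Cfsg.Agent.Lib.Helper23.Syl

set_option autoImplicit false
open Cfsg

namespace Cfsg.Agent.S0992

/-- Let G be a non-abelian finite simple group of even order not divisible by 8, and T a Sylow 2-subgroup. Then T is a Klein four-group and the centralizer of T has index 3 in the normalizer of T. -/
theorem result {G : Type*} [Group G] [Finite G] [IsSimpleGroup G] (hG : ¬ IsMulCommutative G) (h2 : Even (Nat.card G)) (h8 : ¬ 8 ∣ Nat.card G) (T : Sylow 2 G) : IsKleinFour ↥(T : Subgroup G) ∧ (Subgroup.centralizer ((T : Subgroup G) : Set G)).relIndex (Subgroup.normalizer ((T : Subgroup G) : Set G)) = 3 := by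
  classical
  have : Fact (Nat.Prime 2) := ⟨by norm_num⟩
  -- the order of `T`
  have hTc : Nat.card (T : Subgroup G) = 2 ∨ Nat.card (T : Subgroup G) = 4 := by
    have h1 := Sylow.card_eq_multiplicity T
    have hpos : Nat.card G ≠ 0 := Nat.card_pos.ne'
    have hk1 : 1 ≤ (Nat.card G).factorization 2 := by
      rw [← Nat.Prime.dvd_iff_one_le_factorization (by norm_num) hpos]
      exact even_iff_two_dvd.mp h2
    have hk2 : (Nat.card G).factorization 2 < 3 := by
      by_contra hge
      push Not at hge
      apply h8
      have : 2 ^ 3 ∣ Nat.card G := (Nat.Prime.pow_dvd_iff_le_factorization (by norm_num) hpos).mpr hge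
      simpa using this
    have : (Nat.card G).factorization 2 = 1 ∨ (Nat.card G).factorization 2 = 2 := by omega
    rcases this with h3 | h3
    · left; rw [h1, h3]; norm_num
    · right; rw [h1, h3]; norm_num
  have hTne : (T : Subgroup G) ≠ ⊥ := by
    intro hb
    rw [hb, Subgroup.card_bot] at hTc
    omega
  -- `T` is commutative
  have hcomm : IsMulCommutative (T : Subgroup G) := by
    rcases hTc with h3 | h3
    · have : IsCyclic (T : Subgroup G) := isCyclic_of_prime_card (p := 2) h3
      exact Cfsg.Agent.Lib.Helper23.isMulCommutative_of_isCyclic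
    · exact IsPGroup.isMulCommutative_of_card_eq_prime_sq (p := 2) (h3.trans (by norm_num))
  -- the index `r`
  have hr1 : (Subgroup.centralizer ((T : Subgroup G) : Set G)).relIndex
      (Subgroup.normalizer ((T : Subgroup G) : Set G)) ≠ 1 := by
    rw [Ne, Subgroup.relIndex_eq_one]
    exact Cfsg.Agent.Lib.Helper23.simple_not_normalizer_le_centralizer hG T hTne
  have hrodd : ¬ 2 ∣ (Subgroup.centralizer ((T : Subgroup G) : Set G)).relIndex
      (Subgroup.normalizer ((T : Subgroup G) : Set G)) := by
    intro hd
    have h3 := Cfsg.Agent.Lib.Helper23.relIndex_centralizer_normalizer_dvd_relIndex (T : Subgroup G)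
    have h4 := Subgroup.relIndex_mul_index (H := (T : Subgroup G))
      (K := Subgroup.normalizer ((T : Subgroup G) : Set G)) Subgroup.le_normalizer
    apply Sylow.not_dvd_index T
    rw [← h4]
    exact Dvd.dvd.mul_right (hd.trans h3) _
  have hraut := Cfsg.Agent.Lib.Helper23.relIndex_centralizer_normalizer_dvd_card_mulAut
    (T : Subgroup G)
  -- `T` is not cyclic
  have hncyc : ¬ IsCyclic (T : Subgroup G) := by
    intro hcyc
    rw [IsCyclic.card_mulAut] at hraut
    rcases hTc with h3 | h3
    · rw [h3, show Nat.totient 2 = 1 from by decide, Nat.dvd_one] at hraut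
      exact hr1 hraut
    · rw [h3, show Nat.totient 4 = 2 from by decide] at hraut
      rcases (Nat.dvd_prime (by norm_num : Nat.Prime 2)).mp hraut with h5 | h5
      · exact hr1 h5
      · exact hrodd (by rw [h5])
  have hT4 : Nat.card (T : Subgroup G) = 4 := by
    rcases hTc with h3 | h3
    · exact absurd (isCyclic_of_prime_card (p := 2) h3) hncyc
    · exact h3
  refine ⟨⟨hT4, ?_⟩, ?_⟩
  · -- exponent 2
    have hsq : ∀ a : (T : Subgroup G), a ^ 2 = 1 := by
      intro a
      have hd : orderOf a ∣ 4 := hT4 ▸ orderOf_dvd_natCard a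
      have hmem : orderOf a ∈ Nat.divisors 4 := by
        rw [Nat.mem_divisors]
        exact ⟨hd, by norm_num⟩
      rw [show Nat.divisors 4 = {1, 2, 4} from by decide +kernel] at hmem
      simp only [Finset.mem_insert, Finset.mem_singleton] at hmem
      rcases hmem with h5 | h5 | h5
      · rw [orderOf_eq_one_iff.mp h5, one_pow]
      · have := pow_orderOf_eq_one a
        rwa [h5] at this
      · exact absurd (isCyclic_of_orderOf_eq_card a (h5.trans hT4.symm)) hncyc
    have he2 : Monoid.exponent (T : Subgroup G) ∣ 2 := Monoid.exponent_dvd_of_forall_pow_eq_one hsq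
    rcases (Nat.dvd_prime (by norm_num : Nat.Prime 2)).mp he2 with h5 | h5
    · exfalso
      rw [Monoid.exp_eq_one_iff] at h5
      have : Nat.card (T : Subgroup G) = 1 := Nat.card_of_subsingleton 1
      omega
    · exact h5
  · -- `r = 3`
    have hperm : Nat.card (MulAut (T : Subgroup G)) ∣ Nat.card (Equiv.Perm (T : Subgroup G)) :=
      Subgroup.card_dvd_of_injective (MulAut.toPerm (T : Subgroup G))
        (fun a b hab => MulEquiv.toEquiv_injective hab)
    rw [Nat.card_perm, hT4] at hperm
    have h24 := hraut.trans hperm
    have hmem : (Subgroup.centralizer ((T : Subgroup G) : Set G)).relIndex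
        (Subgroup.normalizer ((T : Subgroup G) : Set G)) ∈ Nat.divisors (Nat.factorial 4) := by
      rw [Nat.mem_divisors]
      exact ⟨h24, by decide⟩
    rw [show Nat.divisors (Nat.factorial 4) = {1, 2, 3, 4, 6, 8, 12, 24} from by decide +kernel]
      at hmem
    simp only [Finset.mem_insert, Finset.mem_singleton] at hmem
    rcases hmem with h5 | h5 | h5 | h5 | h5 | h5 | h5 | h5
    · exact absurd h5 hr1
    · exact absurd (by rw [h5]) hrodd
    · exact h5
    · exact absurd (by rw [h5]; norm_num) hrodd
    · exact absurd (by rw [h5]; norm_num) hrodd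
    · exact absurd (by rw [h5]; norm_num) hrodd
    · exact absurd (by rw [h5]; norm_num) hrodd
    · exact absurd (by rw [h5]; norm_num) hrodd

end Cfsg.Agent.S0992
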