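import Cfsg.Statements.S1681
import Cfsg.Agent.Lib.Helper38.SuzPres
import Cfsg.Agent.Lib.Helper38.Suz22880V
import Cfsg.Agent.Lib.Helper38.Suz22880N

set_option autoImplicit false
open Cfsg

namespace Cfsg.Agent.S1681

open Cfsg.Agent.Lib.Helper38 Cfsg.Agent.Lib.Helper38.Suz22880 Cfsg.Agent.Lib.Helper38.SuzP

set_option maxRecDepth 100000
set_option maxHeartbeats 0
set_option linter.unusedSimpArgs false

theorem chkG_ok : cert.chkG = true := by decide +kernel

theorem words_eq : (List.range cert.nrel).map cert.wordL = words := by decide +kernel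

/-- the generators of the subgroup -/
abbrev S : Set (FreeGroup Cfsg.Spor.Suz.Gen) :=
  {Cfsg.Spor.Suz.a, Cfsg.Spor.Suz.b, Cfsg.Spor.Suz.c, Cfsg.Spor.Suz.d, Cfsg.Spor.Suz.f, Cfsg.Spor.Suz.g}

theorem w_33 : cert.wordL 33 = [0] := by decide +kernel

theorem e_33 : ((cert.wordL 33).map (fun s => (PresentedGroup.of (gen s) : PresentedGroup rels))).prod =
    PresentedGroup.mk rels (Cfsg.Spor.Suz.a) := by
  rw [w_33]
  simp only [List.map_cons, List.map_nil, List.prod_cons, List.prod_nil, mul_one, gen, PresentedGroup.of,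
    map_mul, pow_succ, pow_zero, one_mul, mul_assoc]

theorem w_34 : cert.wordL 34 = [1] := by decide +kernel

theorem e_34 : ((cert.wordL 34).map (fun s => (PresentedGroup.of (gen s) : PresentedGroup rels))).prod =
    PresentedGroup.mk rels (Cfsg.Spor.Suz.b) := by
  rw [w_34]
  simp only [List.map_cons, List.map_nil, List.prod_cons, List.prod_nil, mul_one, gen, PresentedGroup.of,
    map_mul, pow_succ, pow_zero, one_mul, mul_assoc]

theorem w_35 : cert.wordL 35 = [2] := by decide +kernel

theorem e_35 : ((cert.wordL 35).map (fun s => (PresentedGroup.of (gen s) : PresentedGroup rels))).prod =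
    PresentedGroup.mk rels (Cfsg.Spor.Suz.c) := by
  rw [w_35]
  simp only [List.map_cons, List.map_nil, List.prod_cons, List.prod_nil, mul_one, gen, PresentedGroup.of,
    map_mul, pow_succ, pow_zero, one_mul, mul_assoc]

theorem w_36 : cert.wordL 36 = [3] := by decide +kernel

theorem e_36 : ((cert.wordL 36).map (fun s => (PresentedGroup.of (gen s) : PresentedGroup rels))).prod =
    PresentedGroup.mk rels (Cfsg.Spor.Suz.d) := by
  rw [w_36]
  simp only [List.map_cons, List.map_nil, List.prod_cons, List.prod_nil, mul_one, gen, PresentedGroup.of,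
    map_mul, pow_succ, pow_zero, one_mul, mul_assoc]

theorem w_37 : cert.wordL 37 = [5] := by decide +kernel

theorem e_37 : ((cert.wordL 37).map (fun s => (PresentedGroup.of (gen s) : PresentedGroup rels))).prod =
    PresentedGroup.mk rels (Cfsg.Spor.Suz.f) := by
  rw [w_37]
  simp only [List.map_cons, List.map_nil, List.prod_cons, List.prod_nil, mul_one, gen, PresentedGroup.of,
    map_mul, pow_succ, pow_zero, one_mul, mul_assoc]

theorem w_38 : cert.wordL 38 = [6] := by decide +kernel

theorem e_38 : ((cert.wordL 38).map (fun s => (PresentedGroup.of (gen s) : PresentedGroup rels))).prod =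
    PresentedGroup.mk rels (Cfsg.Spor.Suz.g) := by
  rw [w_38]
  simp only [List.map_cons, List.map_nil, List.prod_cons, List.prod_nil, mul_one, gen, PresentedGroup.of,
    map_mul, pow_succ, pow_zero, one_mul, mul_assoc]

theorem hS : PresentedGroup.mk rels '' S = {x | ∃ wid, cert.nsub ≤ wid ∧ wid < cert.nw ∧
    ((cert.wordL wid).map (fun s => (PresentedGroup.of (gen s) : PresentedGroup rels))).prod = x} := by
  ext x
  constructor
  · rintro ⟨w, hw, rfl⟩
    rcases hw with rfl | rfl | rfl | rfl | rfl | rfl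
    · exact ⟨33, by decide, by decide, e_33⟩
    · exact ⟨34, by decide, by decide, e_34⟩
    · exact ⟨35, by decide, by decide, e_35⟩
    · exact ⟨36, by decide, by decide, e_36⟩
    · exact ⟨37, by decide, by decide, e_37⟩
    · exact ⟨38, by decide, by decide, e_38⟩
  · rintro ⟨wid, h1, h2, rfl⟩
    have h1' : 33 ≤ wid := h1
    have h2' : wid < 39 := h2
    interval_cases wid
    · exact ⟨_, Or.inl rfl, e_33.symm⟩
    · exact ⟨_, Or.inr (Or.inl rfl), e_34.symm⟩
    · exact ⟨_, Or.inr (Or.inr (Or.inl rfl)), e_35.symm⟩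
    · exact ⟨_, Or.inr (Or.inr (Or.inr (Or.inl rfl))), e_36.symm⟩
    · exact ⟨_, Or.inr (Or.inr (Or.inr (Or.inr (Or.inl rfl)))), e_37.symm⟩
    · exact ⟨_, Or.inr (Or.inr (Or.inr (Or.inr (Or.inr (rfl))))), e_38.symm⟩

theorem hP : Cert.Pres cert (fun s => (PresentedGroup.of (gen s) : PresentedGroup rels))
    ((Subgroup.closure S).map (PresentedGroup.mk rels)) :=
  cert.pres_of rels gen idx gen_idx idx_lt idx_gen words words_eq of_invol of_words
    (fun σ hσ hw => lift_one σ hσ hw) S hS chkN_all

theorem hC : Cert.Checks cert := ⟨chkV_all, chkN_all, chkG_ok⟩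


/-- In the presented sporadic Suzuki group (generators a, …, g), the subgroup generated by the images of a, b, c, d, f, g has index 22880. -/
theorem result : (((Subgroup.closure ({Cfsg.Spor.Suz.a, Cfsg.Spor.Suz.b, Cfsg.Spor.Suz.c, Cfsg.Spor.Suz.d, Cfsg.Spor.Suz.f, Cfsg.Spor.Suz.g} : Set (FreeGroup Cfsg.Spor.Suz.Gen))).map (PresentedGroup.mk (Cfsg.Spor.coxRelators Cfsg.Spor.Suz.edges ∪ {r | r ∈ Cfsg.Spor.Suz.extra})))).index = 22880 := by
  exact Cert.index_eq hP hC

end Cfsg.Agent.S1681
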