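import Cfsg.Statements.S0751
import Mathlib

set_option autoImplicit false
open Cfsg

namespace Cfsg.Agent.S0751

/-- surjectivity of the norm `c ↦ c * σ c` onto the non-zero fixed points, for an involution
`σ ≠ id` of a finite field -/
theorem norm_surj {F : Type*} [Field F] [Finite F] (σ : F →+* F) (hσ : σ ≠ RingHom.id F)
    (hσ2 : ∀ a : F, σ (σ a) = a) (μ : F) (hμ0 : μ ≠ 0) (hμ : σ μ = μ) :
    ∃ c : F, σ c * c = μ := by
  classical
  obtain ⟨x₀, hx₀⟩ : ∃ x : F, σ x ≠ x := by
    by_contra h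
    push Not at h
    exact hσ (RingHom.ext h)
  let s : Fˣ →* Fˣ := Units.map (σ : F →* F)
  have hs : ∀ u : Fˣ, ((s u : Fˣ) : F) = σ (u : F) := fun u => rfl
  have hs2 : ∀ u : Fˣ, s (s u) = u := fun u => Units.ext (by rw [hs, hs, hσ2])
  let N : Fˣ →* Fˣ := MonoidHom.id Fˣ * s
  let ψ : Fˣ →* Fˣ := MonoidHom.id Fˣ * s⁻¹
  have hN : ∀ u : Fˣ, N u = u * s u := fun u => rfl
  have hψ : ∀ u : Fˣ, ψ u = u * (s u)⁻¹ := fun u => rfl
  -- Hilbert 90
  have h90 : ψ.range = N.ker := by
    ext c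
    constructor
    · rintro ⟨d, rfl⟩
      rw [MonoidHom.mem_ker, hN, hψ, map_mul, map_inv, hs2]
      rw [mul_assoc, inv_mul_cancel_left, mul_inv_cancel]
    · intro hc
      rw [MonoidHom.mem_ker, hN] at hc
      have hc' : (c : F) * σ (c : F) = 1 := by
        have := congrArg Units.val hc
        simpa [hs] using this
      -- find x with x + c σ x ≠ 0
      obtain ⟨x, hx⟩ : ∃ x : F, x + (c : F) * σ x ≠ 0 := by
        by_cases h1 : (1 : F) + (c : F) * σ 1 = 0
        · refine ⟨x₀, ?_⟩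
          rw [map_one, mul_one] at h1
          have hc1 : (c : F) = -1 := by linear_combination h1
          rw [hc1]
          intro h
          apply hx₀
          linear_combination -h
        · exact ⟨1, h1⟩
      refine ⟨Units.mk0 _ hx, ?_⟩
      apply Units.ext
      rw [hψ, Units.val_mul, Units.val_inv_eq_inv_val, hs, Units.val_mk0]
      have hσd : σ (x + (c : F) * σ x) ≠ 0 := by
        intro h
        apply hx
        have := congrArg σ h
        rwa [hσ2, map_zero] at this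
      rw [mul_inv_eq_iff_eq_mul₀ hσd, map_add, map_mul, hσ2, mul_add, ← mul_assoc, hc', one_mul,
        add_comm]
  have hkerψ : ∀ u : Fˣ, u ∈ ψ.ker ↔ σ (u : F) = u := by
    intro u
    rw [MonoidHom.mem_ker, hψ, mul_inv_eq_one]
    constructor
    · intro h
      have := congrArg Units.val h
      rw [hs] at this
      exact this.symm
    · intro h
      apply Units.ext
      rw [hs, h]
  -- counting
  have hc1 : Nat.card N.ker * Nat.card N.range = Nat.card Fˣ := by
    rw [← Subgroup.index_ker]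
    exact Subgroup.card_mul_index _
  have hc2 : Nat.card ψ.ker * Nat.card ψ.range = Nat.card Fˣ := by
    rw [← Subgroup.index_ker]
    exact Subgroup.card_mul_index _
  rw [h90] at hc2
  have hKpos : 0 < Nat.card N.ker := Nat.card_pos
  have hcard : Nat.card N.range = Nat.card ψ.ker := by
    have : Nat.card N.ker * Nat.card N.range = Nat.card N.ker * Nat.card ψ.ker := by
      rw [hc1, ← hc2, mul_comm]
    exact Nat.eq_of_mul_eq_mul_left hKpos this
  have hle : N.range ≤ ψ.ker := by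
    rintro _ ⟨d, rfl⟩
    rw [hkerψ, hN, Units.val_mul, hs, map_mul, hσ2, mul_comm]
  have heq : N.range = ψ.ker := Subgroup.eq_of_le_of_card_ge hle (by rw [hcard])
  have hμmem : Units.mk0 μ hμ0 ∈ N.range := by
    rw [heq, hkerψ]
    exact hμ
  obtain ⟨c, hc⟩ := hμmem
  refine ⟨(c : F), ?_⟩
  have := congrArg Units.val hc
  rw [hN, Units.val_mul, hs, Units.val_mk0] at this
  rw [mul_comm]
  exact this


/-- surjectivity of the trace `a ↦ a + σ a` onto the fixed points -/
theorem trace_surj {F : Type*} [Field F] (σ : F →+* F) (hσ : σ ≠ RingHom.id F)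
    (hσ2 : ∀ a : F, σ (σ a) = a) (δ : F) (hδ : σ δ = δ) : ∃ a : F, a + σ a = δ := by
  obtain ⟨a₀, ha₀⟩ : ∃ a₀ : F, a₀ + σ a₀ ≠ 0 := by
    by_cases h2 : (1 : F) + 1 = 0
    · obtain ⟨x₀, hx₀⟩ : ∃ x : F, σ x ≠ x := by
        by_contra h
        push Not at h
        exact hσ (RingHom.ext h)
      refine ⟨x₀, ?_⟩
      intro h
      apply hx₀
      have : x₀ + x₀ = 0 := by linear_combination x₀ * h2
      linear_combination h - this
    · exact ⟨1, by rwa [map_one]⟩
  have hτfix : σ (a₀ + σ a₀) = a₀ + σ a₀ := by rw [map_add, hσ2, add_comm]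
  refine ⟨δ / (a₀ + σ a₀) * a₀, ?_⟩
  rw [map_mul, map_div₀, hδ, hτfix, ← mul_add, div_mul_cancel₀ _ ha₀]

variable {F V : Type*} [Field F] [AddCommGroup V] [Module F V]

/-- polarization on a subspace: a hermitian form vanishing on the diagonal of a subspace
vanishes on the subspace -/
theorem polar_sub (σ : F →+* F) (hσ : σ ≠ RingHom.id F) (B : V →ₛₗ[σ] V →ₗ[F] F)
    (hS : B.IsSymm) (R : Submodule F V) (h0 : ∀ v ∈ R, B v v = 0) :
    ∀ x ∈ R, ∀ y ∈ R, B x y = 0 := by
  obtain ⟨c, hc⟩ : ∃ c : F, σ c ≠ c := by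
    by_contra h
    push Not at h
    exact hσ (RingHom.ext h)
  have hanti : ∀ x ∈ R, ∀ y ∈ R, B y x = - B x y := by
    intro x hx y hy
    have h := h0 (x + y) (R.add_mem hx hy)
    simp only [map_add, LinearMap.add_apply, h0 x hx, h0 y hy, zero_add, add_zero] at h
    exact eq_neg_of_add_eq_zero_left h
  intro x hx y hy
  have h2 : B (c • y) x = - B x (c • y) := hanti x hx (c • y) (R.smul_mem c hy)
  have h3 : B (c • y) x = σ c * B y x := by simp
  have h4 : B x (c • y) = c * B x y := by simp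
  have h5 : B y x = - B x y := hanti x hx y hy
  have h6 : (σ c - c) * B x y = 0 := by
    have : σ c * B y x = - (c * B x y) := by rw [← h3, h2, h4]
    rw [h5] at this
    linear_combination -this
  rcases mul_eq_zero.mp h6 with h | h
  · exact absurd (sub_eq_zero.mp h) hc
  · exact h

/-- partial isometries defined on a subspace (as restrictions of endomorphisms) -/
def IsPI (σ : F →+* F) (B : V →ₛₗ[σ] V →ₗ[F] F) (X : Submodule F V) (f : V →ₗ[F] V) : Prop :=
  (∀ x ∈ X, ∀ x' ∈ X, B (f x) (f x') = B x x') ∧ (∀ x ∈ X, f x = 0 → x = 0)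

theorem finrank_map_of_injOn [FiniteDimensional F V] (S : Submodule F V) (f : V →ₗ[F] V)
    (hinj : ∀ x ∈ S, f x = 0 → x = 0) : Module.finrank F (S.map f) = Module.finrank F S := by
  have h1 : Function.Injective (f.comp S.subtype) := by
    rw [← LinearMap.ker_eq_bot, LinearMap.ker_eq_bot']
    intro x hx
    exact Subtype.ext (hinj x.1 x.2 hx)
  have h2 := LinearMap.finrank_range_of_inj h1
  rw [LinearMap.range_comp, Submodule.range_subtype] at h2
  exact h2

/-- Riesz representation on a subspace with trivial radical -/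
theorem repr_sub [Finite F] [FiniteDimensional F V] (σ : F →+* F) (B : V →ₛₗ[σ] V →ₗ[F] F)
    (hS : B.IsSymm) (Z : Submodule F V)
    (hZ : ∀ r ∈ Z, (∀ x ∈ Z, B x r = 0) → r = 0) (θ : V →ₗ[F] F) :
    ∃ z₀ ∈ Z, ∀ z ∈ Z, B z₀ z = θ z := by
  haveI : Finite V := Module.finite_of_finite F
  let Φ : Z → Module.Dual F Z := fun z₀ => (B (z₀ : V)).comp Z.subtype
  have hinj : Function.Injective Φ := by
    intro z₁ z₂ h
    have h1 : ∀ z ∈ Z, B (z₁ : V) z = B (z₂ : V) z := by
      intro z hz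
      have := congrArg (fun l : Module.Dual F Z => l ⟨z, hz⟩) h
      simpa [Φ] using this
    have h2 : ((z₁ : V) - (z₂ : V)) = 0 := by
      apply hZ _ (Z.sub_mem z₁.2 z₂.2)
      intro x hx
      rw [← hS.eq, map_sub, LinearMap.sub_apply, h1 x hx, sub_self, map_zero]
    exact Subtype.ext (sub_eq_zero.mp h2)
  have hsurj : Function.Surjective Φ :=
    (Finite.injective_iff_surjective_of_equiv (Module.finBasis F Z).toDualEquiv.toEquiv).mp hinj
  obtain ⟨z₀, hz₀⟩ := hsurj (θ.comp Z.subtype)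
  refine ⟨z₀, z₀.2, ?_⟩
  intro z hz
  have := congrArg (fun l : Module.Dual F Z => l ⟨z, hz⟩) hz₀
  simpa [Φ] using this

/-- a proper subspace with trivial radical has a non-isotropic vector in its orthogonal -/
theorem exists_nonisotropic [Finite F] [FiniteDimensional F V] (σ : F →+* F)
    (hσ : σ ≠ RingHom.id F)
    (B : V →ₛₗ[σ] V →ₗ[F] F) (hS : B.IsSymm) (hB : B.Nondegenerate) (Z : Submodule F V)
    (hZ : ∀ r ∈ Z, (∀ x ∈ Z, B x r = 0) → r = 0) (hZtop : Z ≠ ⊤) :
    ∃ v, (∀ z ∈ Z, B z v = 0) ∧ B v v ≠ 0 := by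
  by_contra hcon
  push Not at hcon
  let R : Submodule F V := ⨅ z : Z, LinearMap.ker (B (z : V))
  have hR : ∀ w, w ∈ R ↔ ∀ z ∈ Z, B z w = 0 := by
    intro w
    simp only [R, Submodule.mem_iInf, LinearMap.mem_ker, Subtype.forall]
  have hiso : ∀ u ∈ R, B u u = 0 := fun u hu => hcon u ((hR u).mp hu)
  have hvanR := polar_sub σ hσ B hS R hiso
  have hdec : ∀ y : V, ∃ z₀ ∈ Z, y - z₀ ∈ R := by
    intro y
    obtain ⟨z₀, hz₀, h⟩ := repr_sub σ B hS Z hZ (B y)
    refine ⟨z₀, hz₀, ?_⟩
    rw [hR]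
    intro z hz
    rw [← hS.eq, map_sub, LinearMap.sub_apply, h z hz, sub_self, map_zero]
  obtain ⟨y, hy⟩ : ∃ y, y ∉ Z := by
    by_contra h
    push Not at h
    exact hZtop ((Submodule.eq_top_iff').mpr h)
  obtain ⟨z₀, hz₀, hu⟩ := hdec y
  have hu0 : y - z₀ = 0 := by
    apply hB.1
    intro y'
    obtain ⟨z', hz', hu'⟩ := hdec y'
    have : y' = z' + (y' - z') := by abel
    rw [this, map_add, hvanR _ hu _ hu', add_zero, ← hS.eq, (hR _).mp hu z' hz', map_zero]
  apply hy
  rw [sub_eq_zero.mp hu0]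
  exact hz₀

theorem extend_one [Finite F] [FiniteDimensional F V] (σ : F →+* F) (hσ : σ ≠ RingHom.id F)
    (hσ2 : ∀ a : F, σ (σ a) = a) (B : V →ₛₗ[σ] V →ₗ[F] F) (hS : B.IsSymm)
    (hB : B.Nondegenerate)
    (X : Submodule F V) (f : V →ₗ[F] V) (hf : IsPI σ B X f) (hX : X ≠ ⊤) :
    ∃ (X' : Submodule F V) (f' : V →ₗ[F] V), X < X' ∧ IsPI σ B X' f' ∧ ∀ x ∈ X, f' x = f x := by
  obtain ⟨hf1, hf2⟩ := hf
  have hflip : ∀ x y, B x y = σ (B y x) := fun x y => (hS.eq y x).symm
  have key : ∃ v w, v ∉ X ∧ (∀ x ∈ X, B (f x) w = B x v) ∧ B w w = B v v ∧ w ∉ X.map f := by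
    by_cases hrad : ∃ r ∈ X, r ≠ 0 ∧ ∀ x ∈ X, B x r = 0
    · obtain ⟨r, hrX, hr0, hr⟩ := hrad
      obtain ⟨v, hv⟩ : ∃ v, B r v ≠ 0 := by
        by_contra h
        push Not at h
        exact hr0 (hB.1 r h)
      have hvX : v ∉ X := by
        intro h
        apply hv
        rw [hflip, hr v h, map_zero]
      have hT : Function.Injective (f.comp X.subtype) := by
        rw [← LinearMap.ker_eq_bot, LinearMap.ker_eq_bot']
        intro x hx
        exact Subtype.ext (hf2 x.1 x.2 hx)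
      obtain ⟨θ, hθ⟩ := LinearMap.dualMap_surjective_of_injective hT ((B v).comp X.subtype)
      have hθ' : ∀ x ∈ X, θ (f x) = B v x := by
        intro x hx
        have := congrArg (fun l : X →ₗ[F] F => l ⟨x, hx⟩) hθ
        simpa using this
      obtain ⟨w₀, -, hw₀⟩ := repr_sub σ B hS ⊤ (fun r _ h => hB.2 r (fun x => h x trivial)) θ
      have hw₀eq : ∀ x ∈ X, B (f x) w₀ = B x v := by
        intro x hx
        rw [hflip, hw₀ _ trivial, hθ' x hx, ← hflip]
      have hσβ : σ (B r v) ≠ 0 := by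
        intro h
        apply hv
        have := congrArg σ h
        rwa [hσ2, map_zero] at this
      have hδ : σ (B v v - B w₀ w₀) = B v v - B w₀ w₀ := by
        rw [map_sub, hS.eq, hS.eq]
      obtain ⟨a, ha⟩ := trace_surj σ hσ hσ2 _ hδ
      have h4 : a / σ (B r v) * σ (B r v) = a := div_mul_cancel₀ _ hσβ
      have h5 : σ (a / σ (B r v)) * B r v = σ a := by
        rw [← hσ2 (B r v), ← map_mul, hσ2 (B r v), h4]
      refine ⟨v, w₀ + (a / σ (B r v)) • f r, hvX, ?_, ?_, ?_⟩
      · intro x hx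
        rw [map_add, map_smul, hw₀eq x hx, hf1 x hx r hrX, hr x hx, smul_zero, add_zero]
      · have h1 : B w₀ (f r) = σ (B r v) := by rw [hflip, hw₀eq r hrX]
        have h2 : B (f r) w₀ = B r v := hw₀eq r hrX
        have h3 : B (f r) (f r) = 0 := by rw [hf1 r hrX r hrX]; exact hr r hrX
        simp only [map_add, map_smulₛₗ, LinearMap.add_apply, LinearMap.smul_apply, map_smul,
          smul_eq_mul, h1, h2, h3, RingHom.id_apply, h4, h5, mul_zero, add_zero]
        linear_combination ha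
      · rintro ⟨x₀, hx₀, hx₀eq⟩
        apply hv
        have h1 : B (f r) (w₀ + (a / σ (B r v)) • f r) = B r v := by
          rw [map_add, map_smul, hw₀eq r hrX, hf1 r hrX r hrX, hr r hrX, smul_zero, add_zero]
        rw [← h1, ← hx₀eq, hf1 r hrX x₀ hx₀, hflip, hr x₀ hx₀, map_zero]
    · push Not at hrad
      have hZ : ∀ r ∈ X, (∀ x ∈ X, B x r = 0) → r = 0 := by
        intro r hr h
        by_contra h0
        obtain ⟨x, hx, hx'⟩ := hrad r hr h0
        exact hx' (h x hx)
      obtain ⟨v, hv1, hv2⟩ := exists_nonisotropic σ hσ B hS hB X hZ hX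
      have hvX : v ∉ X := fun h => hv2 (hv1 v h)
      have hZ' : ∀ r ∈ X.map f, (∀ x ∈ X.map f, B x r = 0) → r = 0 := by
        rintro _ ⟨r, hr, rfl⟩ h
        have : r = 0 := by
          apply hZ r hr
          intro x hx
          rw [← hf1 x hx r hr]
          exact h (f x) ⟨x, hx, rfl⟩
        rw [this, map_zero]
      have hYtop : X.map f ≠ ⊤ := by
        intro h
        apply hX
        apply Submodule.eq_top_of_finrank_eq
        rw [← finrank_map_of_injOn X f hf2, h, finrank_top]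
      obtain ⟨u₀, hu1, hu2⟩ := exists_nonisotropic σ hσ B hS hB (X.map f) hZ' hYtop
      have hμ0 : B v v / B u₀ u₀ ≠ 0 := div_ne_zero hv2 hu2
      have hμ : σ (B v v / B u₀ u₀) = B v v / B u₀ u₀ := by
        rw [map_div₀, hS.eq, hS.eq]
      obtain ⟨c, hc⟩ := norm_surj σ hσ hσ2 _ hμ0 hμ
      have hww : B (c • u₀) (c • u₀) = B v v := by
        have h1 : B (c • u₀) (c • u₀) = σ c * c * B u₀ u₀ := by
          simp only [map_smulₛₗ, LinearMap.smul_apply, map_smul, smul_eq_mul, RingHom.id_apply]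
          ring
        rw [h1, hc, div_mul_cancel₀ _ hu2]
      refine ⟨v, c • u₀, hvX, ?_, hww, ?_⟩
      · intro x hx
        rw [map_smul, hu1 (f x) ⟨x, hx, rfl⟩, smul_zero, hv1 x hx]
      · intro h
        apply hv2
        rw [← hww, map_smul (B (c • u₀)), hu1 _ h, smul_zero]
  obtain ⟨v, w, hv, hw1, hw3, hw2⟩ := key
  obtain ⟨f', hf'X, hf'v⟩ := LinearMap.exists_extend_of_notMem (f.comp X.subtype) hv w
  have hf'eq : ∀ x ∈ X, f' x = f x := by
    intro x hx
    have := congrArg (fun l : X →ₗ[F] V => l ⟨x, hx⟩) hf'X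
    simpa using this
  refine ⟨X ⊔ Submodule.span F {v}, f', ?_, ⟨?_, ?_⟩, hf'eq⟩
  · refine lt_of_le_of_ne le_sup_left ?_
    intro h
    apply hv
    rw [h]
    exact Submodule.mem_sup_right (Submodule.mem_span_singleton_self v)
  · intro y hy y' hy'
    obtain ⟨x, hx, z, hz, rfl⟩ := Submodule.mem_sup.mp hy
    obtain ⟨x', hx', z', hz', rfl⟩ := Submodule.mem_sup.mp hy'
    obtain ⟨c, rfl⟩ := Submodule.mem_span_singleton.mp hz
    obtain ⟨c', rfl⟩ := Submodule.mem_span_singleton.mp hz'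
    have h1 : B w (f x') = B v x' := by rw [hflip, hw1 x' hx', ← hflip]
    simp only [map_add, map_smul, map_smulₛₗ, hf'eq x hx, hf'eq x' hx', hf'v, LinearMap.add_apply,
      LinearMap.smul_apply, smul_eq_mul, hf1 x hx x' hx', hw1 x hx, h1, hw3, RingHom.id_apply]
  · intro y hy hy0
    obtain ⟨x, hx, z, hz, rfl⟩ := Submodule.mem_sup.mp hy
    obtain ⟨c, rfl⟩ := Submodule.mem_span_singleton.mp hz
    rw [map_add, map_smul, hf'eq x hx, hf'v] at hy0
    by_cases hc : c = 0
    · rw [hc, zero_smul, add_zero] at hy0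
      rw [hc, zero_smul, add_zero]
      exact hf2 x hx hy0
    · exfalso
      apply hw2
      refine ⟨-(c⁻¹ • x), X.neg_mem (X.smul_mem _ hx), ?_⟩
      have : w = -(c⁻¹ • f x) := by
        have h1 : c • w = - f x := by
          rw [eq_neg_iff_add_eq_zero, add_comm]; exact hy0
        calc w = c⁻¹ • (c • w) := by rw [smul_smul, inv_mul_cancel₀ hc, one_smul]
          _ = -(c⁻¹ • f x) := by rw [h1, smul_neg]
      rw [map_neg, map_smul, this]

theorem extend_all [Finite F] [FiniteDimensional F V] (σ : F →+* F) (hσ : σ ≠ RingHom.id F)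
    (hσ2 : ∀ a : F, σ (σ a) = a) (B : V →ₛₗ[σ] V →ₗ[F] F) (hS : B.IsSymm)
    (hB : B.Nondegenerate) (X : Submodule F V) :
    ∀ f : V →ₗ[F] V, IsPI σ B X f → ∃ f' : V →ₗ[F] V, IsPI σ B ⊤ f' ∧ ∀ x ∈ X, f' x = f x := by
  induction X using WellFoundedGT.induction with
  | ind X ih =>
    intro f hf
    by_cases hX : X = ⊤
    · subst hX
      exact ⟨f, hf, fun _ _ => rfl⟩
    · obtain ⟨X', f', hlt, hf', hagree⟩ := extend_one σ hσ hσ2 B hS hB X f hf hX
      obtain ⟨f'', hf'', hagree'⟩ := ih X' hlt f' hf'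
      exact ⟨f'', hf'', fun x hx => (hagree' x (hlt.le hx)).trans (hagree x hx)⟩

/-- Witt's Lemma for Hermitian forms. Let σ be a non-identity involutive automorphism of a finite field F and B a non-degenerate σ-sesquilinear form on a finite-dimensional F-space V which is conjugate-symmetric (σ (B x y) = B y x). Then every linear equivalence between subspaces X, Y of V preserving B extends to a B-preserving linear automorphism of V. -/
theorem result {F V : Type*} [Field F] [Finite F] [AddCommGroup V] [Module F V] [FiniteDimensional F V] (σ : F →+* F) (hσ : σ ≠ RingHom.id F) (hσ2 : ∀ a : F, σ (σ a) = a) (B : V →ₛₗ[σ] V →ₗ[F] F) (hS : B.IsSymm) (hB : B.Nondegenerate) (X Y : Submodule F V) (φ : X ≃ₗ[F] Y) (hφ : ∀ x x' : X, B (φ x : V) (φ x' : V) = B (x : V) (x' : V)) : ∃ g : V ≃ₗ[F] V, (∀ u v : V, B (g u) (g v) = B u v) ∧ ∀ x : X, g (x : V) = (φ x : V) := by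
  obtain ⟨f₀, hf₀⟩ := LinearMap.exists_extend (Y.subtype.comp φ.toLinearMap)
  have hf₀eq : ∀ x : X, f₀ (x : V) = (φ x : V) := by
    intro x
    have := congrArg (fun l : X →ₗ[F] V => l x) hf₀
    simpa using this
  have hPI : IsPI σ B X f₀ := by
    constructor
    · intro x hx x' hx'
      have h1 := hf₀eq ⟨x, hx⟩
      have h2 := hf₀eq ⟨x', hx'⟩
      simp only at h1 h2
      rw [h1, h2]
      exact hφ ⟨x, hx⟩ ⟨x', hx'⟩
    · intro x hx h0
      have h1 := hf₀eq ⟨x, hx⟩
      simp only at h1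
      rw [h0] at h1
      have h2 : φ ⟨x, hx⟩ = 0 := Subtype.ext h1.symm
      have h3 : (⟨x, hx⟩ : X) = 0 := by simpa using h2
      exact congrArg Subtype.val h3
  obtain ⟨f, ⟨hf1, hf2⟩, hagree⟩ := extend_all σ hσ hσ2 B hS hB X f₀ hPI
  have hinj : Function.Injective f := by
    rw [← LinearMap.ker_eq_bot, LinearMap.ker_eq_bot']
    intro x hx
    exact hf2 x trivial hx
  refine ⟨LinearEquiv.ofInjectiveEndo f hinj, ?_, ?_⟩
  · intro u v
    rw [LinearEquiv.coe_ofInjectiveEndo]
    exact hf1 u trivial v trivial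
  · intro x
    rw [LinearEquiv.coe_ofInjectiveEndo, hagree x x.2, hf₀eq]

end Cfsg.Agent.S0751
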