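import Cfsg.Statements.S2352
-- import your own Cfsg.Agent.* helpers here
import Cfsg.Agent.Lib.Helper47.FreeLaw

set_option autoImplicit false
open Cfsg

namespace Cfsg.Agent.S2352

theorem alt_of_finite_group {G : Type} [Group G] [Finite G] (w : FreeGroup ℕ) (f : ℕ → G)
    (hf : FreeGroup.lift f w ≠ 1) (n : ℕ) (hn : 2 * Nat.card G ≤ n) :
    ∃ f' : ℕ → alternatingGroup (Fin n), FreeGroup.lift f' w ≠ 1 := by
  classical
  have : Fintype G := Fintype.ofFinite G
  have hcard : Fintype.card (G ⊕ G) ≤ Fintype.card (Fin n) := by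
    rw [Fintype.card_sum, Fintype.card_fin, ← Nat.card_eq_fintype_card]
    omega
  obtain ⟨ι⟩ := Function.Embedding.nonempty_of_card_le hcard
  let e : (G ⊕ G) ≃ {x : Fin n // x ∈ Set.range ι} := Equiv.ofInjective ι ι.injective
  let ψ₁ : G →* Equiv.Perm G := MulAction.toPermHom G G
  let ψ₂ : Equiv.Perm G →* Equiv.Perm (G ⊕ G) :=
    (Equiv.Perm.sumCongrHom G G).comp ((MonoidHom.id _).prod (MonoidHom.id _))
  let ψ₃ : Equiv.Perm (G ⊕ G) →* Equiv.Perm (Fin n) := Equiv.Perm.extendDomainHom e
  let Φ' : G →* Equiv.Perm (Fin n) := ψ₃.comp (ψ₂.comp ψ₁)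
  have hinj : Function.Injective Φ' := by
    have h1 : Function.Injective ψ₁ := MulAction.toPerm_injective
    have h2 : Function.Injective ψ₂ := by
      intro a b hab
      have := Equiv.Perm.sumCongrHom_injective hab
      simpa using congrArg Prod.fst this
    have h3 : Function.Injective ψ₃ := Equiv.Perm.extendDomainHom_injective e
    exact h3.comp (h2.comp h1)
  have hsign : ∀ g : G, Φ' g ∈ alternatingGroup (Fin n) := by
    intro g
    rw [Equiv.Perm.mem_alternatingGroup]
    change Equiv.Perm.sign (Equiv.Perm.extendDomain (Equiv.sumCongr (ψ₁ g) (ψ₁ g)) e) = 1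
    rw [Equiv.Perm.sign_extendDomain]
    change Equiv.Perm.sign (Equiv.Perm.sumCongr (ψ₁ g) (ψ₁ g)) = 1
    rw [Equiv.Perm.sign_sumCongr, Int.units_mul_self]
  let Φ : G →* alternatingGroup (Fin n) := Φ'.codRestrict (alternatingGroup (Fin n)) hsign
  have hΦinj : Function.Injective Φ := by
    intro a b hab
    apply hinj
    exact congrArg Subtype.val hab
  refine ⟨fun i => Φ (f i), ?_⟩
  have h1 : FreeGroup.lift (fun i => Φ (f i)) = Φ.comp (FreeGroup.lift f) := by
    ext i
    simp
  rw [h1, MonoidHom.comp_apply]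
  intro h
  apply hf
  apply hΦinj
  rw [h, map_one]

/-- A non-trivial law holds in only finitely many alternating groups: for every non-trivial element w of the free group on countably many generators there is N such that for all n ≥ N some substitution of elements of the alternating group of degree n into w is not the identity. -/
theorem result (w : FreeGroup ℕ) (hw : w ≠ 1) :
    ∃ N : ℕ, ∀ n : ℕ, N ≤ n → ∃ f : ℕ → alternatingGroup (Fin n), FreeGroup.lift f w ≠ 1 := by
  obtain ⟨N, hN⟩ := Cfsg.Agent.Lib.Helper47.exists_not_central.{0} w hw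
  obtain ⟨p, hpN, hp⟩ := Nat.exists_infinite_primes N
  have : Fact p.Prime := ⟨hp⟩
  obtain ⟨f, hf⟩ := hN (ZMod p) (by rw [ZMod.card]; exact hpN)
  have hf1 : FreeGroup.lift f w ≠ 1 := by
    intro h
    apply hf
    rw [h]
    exact Subgroup.one_mem _
  refine ⟨2 * Nat.card (Matrix.SpecialLinearGroup (Fin 2) (ZMod p)), fun n hn => ?_⟩
  exact alt_of_finite_group w f hf1 n hn

end Cfsg.Agent.S2352
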