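import Cfsg.Statements.S2680
import Cfsg.Agent.Lib.Helper51.SpInvMain

set_option autoImplicit false
open Cfsg

namespace Cfsg.Agent.S2680

open Matrix Cfsg.Agent.Lib.Helper18 Cfsg.Agent.Lib.Helper51.SpCent Cfsg.Agent.Lib.Helper51.SpInvMain
  Cfsg.Agent.Lib.Helper44

/-- Centraliser order of an involution t of Sp_2m(q), q even, with s = rank(t − 1) odd (type b_s): |C(t)| = q^(2ms − (3s² − s)/2) · |Sp_(s−1)(q)| · |Sp_(2m−2s)(q)|, where |Sp_2k(q)| = q^(k²) Π_(i=1)^k (q^(2i) − 1). -/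
theorem result {F : Type*} [Field F] [Fintype F] [CharP F 2] {q : ℕ} (hF : Fintype.card F = q) {m s : ℕ} (t : Matrix.symplecticGroup (Fin m) F) (ht : t ^ 2 = 1) (hs : ((t : Matrix (Fin m ⊕ Fin m) (Fin m ⊕ Fin m) F) - 1).rank = s) (hodd : Odd s) : Nat.card ↥(Subgroup.centralizer ({t} : Set ↥(Matrix.symplecticGroup (Fin m) F))) = q ^ (2 * m * s - (3 * s ^ 2 - s) / 2) * ((q : ℕ) ^ (((s - 1) / 2) ^ 2) * ∏ i : Fin ((s - 1) / 2), (q ^ (2 * ((i : ℕ) + 1)) - 1)) * ((q : ℕ) ^ ((m - s) ^ 2) * ∏ i : Fin (m - s), (q ^ (2 * ((i : ℕ) + 1)) - 1)) := by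
  subst hF
  have ht' : t * t = 1 := by rw [← pow_two]; exact ht
  have h2 : (2 : F) = 0 := CharTwo.two_eq_zero
  obtain ⟨hN, hadj⟩ := sp_inv_data h2 t ht'
  have hsym := Cfsg.Agent.S2166.sym_of_adj (sympB_isAlt m) hadj
  have hna' : ∃ x, sympB m x ((t.1 - 1).mulVecLin x) ≠ 0 := by
    by_contra hcon
    push Not at hcon
    have hev := sp_even_of_alt h2 t ht' hcon
    rw [hs] at hev
    exact (Nat.not_even_iff_odd.mpr hodd) hev
  have hsq : ∀ x : F, IsSquare x := fun x =>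
    FiniteField.isSquare_of_char_two (ringChar.eq F 2) x
  obtain ⟨k, w, hv, hr⟩ := Cfsg.Agent.S2166.normal_na hsq (sympB m) (t.1 - 1).mulVecLin hsym hna'
  obtain ⟨hcard, hle, hC⟩ := cent_gen rfl t ht' id (fun _ => rfl) w hv hr
  rw [hs] at hcard hle hC
  rw [Fintype.card_fin] at hcard
  subst hcard
  obtain ⟨j, rfl⟩ := hodd
  have hk : (2 * j + 1 - 1) / 2 = j := by omega
  rw [hC, hk, ← Finset.prod_range (fun i => Fintype.card F ^ (2 * (i + 1)) - 1),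
    ← Finset.prod_range (fun i => Fintype.card F ^ (2 * (i + 1)) - 1)]
  congr 2
  rw [← Cfsg.Agent.Lib.Helper51.SpOrth.card_odd (F := F) j]
  refine Nat.card_congr (Equiv.subtypeEquivRight (fun b => ?_))
  rw [Pm_id, Matrix.mul_one]

end Cfsg.Agent.S2680
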