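import Cfsg.Statements.S2681
import Cfsg.Agent.Lib.Helper51.SpInvMain

set_option autoImplicit false
open Cfsg

namespace Cfsg.Agent.S2681

open Matrix Cfsg.Agent.Lib.Helper18 Cfsg.Agent.Lib.Helper51.SpCent Cfsg.Agent.Lib.Helper51.SpInvMain
  Cfsg.Agent.Lib.Helper44

/-- Centraliser order of an involution t of Sp_2m(q), q even, with s = rank(t − 1) even and f(v, tv) = 0 for every v, f the symplectic form (type a_s): |C(t)| = q^(2ms − (3s² − s)/2) · |Sp_s(q)| · |Sp_(2m−2s)(q)|. -/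
theorem result {F : Type*} [Field F] [Fintype F] [CharP F 2] {q : ℕ} (hF : Fintype.card F = q) {m s : ℕ} (t : Matrix.symplecticGroup (Fin m) F) (ht : t ^ 2 = 1) (ht1 : t ≠ 1) (hs : ((t : Matrix (Fin m ⊕ Fin m) (Fin m ⊕ Fin m) F) - 1).rank = s) (heven : Even s) (halt : ∀ v : Fin m ⊕ Fin m → F, Cfsg.sympForm m F v ((t : Matrix (Fin m ⊕ Fin m) (Fin m ⊕ Fin m) F).mulVec v) = 0) : Nat.card ↥(Subgroup.centralizer ({t} : Set ↥(Matrix.symplecticGroup (Fin m) F))) = q ^ (2 * m * s - (3 * s ^ 2 - s) / 2) * ((q : ℕ) ^ ((s / 2) ^ 2) * ∏ i : Fin (s / 2), (q ^ (2 * ((i : ℕ) + 1)) - 1)) * ((q : ℕ) ^ ((m - s) ^ 2) * ∏ i : Fin (m - s), (q ^ (2 * ((i : ℕ) + 1)) - 1)) := by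
  subst hF
  have ht' : t * t = 1 := by rw [← pow_two]; exact ht
  have h2 : (2 : F) = 0 := CharTwo.two_eq_zero
  obtain ⟨hN, hadj⟩ := sp_inv_data h2 t ht'
  have hsym := Cfsg.Agent.S2166.sym_of_adj (sympB_isAlt m) hadj
  have halt' : ∀ x, sympB m x ((t.1 - 1).mulVecLin x) = 0 := by
    intro x
    rw [Matrix.mulVecLin_apply, Matrix.sub_mulVec, Matrix.one_mulVec, map_sub,
      (sympB_isAlt m).self_eq_zero x, sub_zero, sympB_eq_sympForm]
    exact halt x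
  obtain ⟨k, w, hv, hr⟩ := Cfsg.Agent.S2166.normal_alt (sympB m) (t.1 - 1).mulVecLin hsym halt'
  obtain ⟨hcard, hle, hC⟩ := cent_gen rfl t ht' Sum.swap Sum.swap_swap w hv hr
  rw [hs] at hcard hle hC
  rw [Fintype.card_sum, Fintype.card_fin] at hcard
  have hk : s / 2 = k := by omega
  rw [hC, hk, ← Finset.prod_range (fun i => Fintype.card F ^ (2 * (i + 1)) - 1),
    ← Finset.prod_range (fun i => Fintype.card F ^ (2 * (i + 1)) - 1)]
  congr 2
  rw [← Cfsg.Agent.S0245.result rfl k]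
  refine Nat.card_congr (Equiv.subtypeEquivRight (fun b => ?_))
  rw [Pm_swap, SymplecticGroup.mem_iff]

end Cfsg.Agent.S2681
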