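import Cfsg.Statements.S2682
import Cfsg.Agent.Lib.Helper51.SpInvMain

set_option autoImplicit false
open Cfsg

namespace Cfsg.Agent.S2682

open Matrix Cfsg.Agent.Lib.Helper18 Cfsg.Agent.Lib.Helper51.SpCent Cfsg.Agent.Lib.Helper51.SpInvMain
  Cfsg.Agent.Lib.Helper44

/-- Centraliser order of an involution t of Sp_2m(q), q even, with s = rank(t − 1) even and f(v, tv) ≠ 0 for some v, f the symplectic form (type c_s): |C(t)| = q^(2ms − (3s² − 3s)/2 − 1) · |Sp_(s−2)(q)| · |Sp_(2m−2s)(q)|. -/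
theorem result {F : Type*} [Field F] [Fintype F] [CharP F 2] {q : ℕ} (hF : Fintype.card F = q) {m s : ℕ} (t : Matrix.symplecticGroup (Fin m) F) (ht : t ^ 2 = 1) (hs : ((t : Matrix (Fin m ⊕ Fin m) (Fin m ⊕ Fin m) F) - 1).rank = s) (heven : Even s) (hna : ∃ v : Fin m ⊕ Fin m → F, Cfsg.sympForm m F v ((t : Matrix (Fin m ⊕ Fin m) (Fin m ⊕ Fin m) F).mulVec v) ≠ 0) : Nat.card ↥(Subgroup.centralizer ({t} : Set ↥(Matrix.symplecticGroup (Fin m) F))) = q ^ (2 * m * s - (3 * s ^ 2 - 3 * s) / 2 - 1) * ((q : ℕ) ^ (((s - 2) / 2) ^ 2) * ∏ i : Fin ((s - 2) / 2), (q ^ (2 * ((i : ℕ) + 1)) - 1)) * ((q : ℕ) ^ ((m - s) ^ 2) * ∏ i : Fin (m - s), (q ^ (2 * ((i : ℕ) + 1)) - 1)) := by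
  subst hF
  have ht' : t * t = 1 := by rw [← pow_two]; exact ht
  have h2 : (2 : F) = 0 := CharTwo.two_eq_zero
  obtain ⟨hN, hadj⟩ := sp_inv_data h2 t ht'
  have hsym := Cfsg.Agent.S2166.sym_of_adj (sympB_isAlt m) hadj
  have hna' : ∃ x, sympB m x ((t.1 - 1).mulVecLin x) ≠ 0 := by
    obtain ⟨v, hv⟩ := hna
    refine ⟨v, ?_⟩
    rw [Matrix.mulVecLin_apply, Matrix.sub_mulVec, Matrix.one_mulVec, map_sub,
      (sympB_isAlt m).self_eq_zero v, sub_zero, sympB_eq_sympForm]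
    exact hv
  have hsq : ∀ x : F, IsSquare x := fun x =>
    FiniteField.isSquare_of_char_two (ringChar.eq F 2) x
  obtain ⟨k, w, hv, hr⟩ := Cfsg.Agent.S2166.normal_na hsq (sympB m) (t.1 - 1).mulVecLin hsym hna'
  obtain ⟨hcard, hle, hC⟩ := cent_gen rfl t ht' id (fun _ => rfl) w hv hr
  rw [hs] at hcard hle hC
  rw [Fintype.card_fin] at hcard
  subst hcard
  have hk0 : k ≠ 0 := by
    rintro rfl
    obtain ⟨x, hx⟩ := hna'
    apply hx
    have := hr x x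
    simpa using this
  obtain ⟨j, hj⟩ := heven
  obtain ⟨j', rfl⟩ : ∃ j', k = 2 * j' + 2 := ⟨j - 1, by omega⟩
  rw [hC, Cfsg.Agent.Lib.Helper51.SpInvArith.exp_c m (2 * j' + 2) hle (by omega)]
  have hk : (2 * j' + 2 - 2) / 2 = j' := by omega
  rw [hk, ← Finset.prod_range (fun i => Fintype.card F ^ (2 * (i + 1)) - 1),
    ← Finset.prod_range (fun i => Fintype.card F ^ (2 * (i + 1)) - 1)]
  have hO : Nat.card {b : Matrix (Fin (2 * j' + 2)) (Fin (2 * j' + 2)) F //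
      b * Pm F id * bᵀ = Pm F id} =
      Fintype.card F ^ (2 * j' + 1) * (Fintype.card F ^ (j' ^ 2) *
        ∏ i ∈ Finset.range j', (Fintype.card F ^ (2 * (i + 1)) - 1)) := by
    rw [← Cfsg.Agent.Lib.Helper51.SpOrth.card_even (F := F) j']
    refine Nat.card_congr (Equiv.subtypeEquivRight (fun b => ?_))
    rw [Pm_id, Matrix.mul_one]
  rw [hO]
  have he : 2 * j' + 2 - 1 = 2 * j' + 1 := by omega
  rw [he, pow_add]
  ring

end Cfsg.Agent.S2682
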