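import Mathlib
import Cfsg.Statements.S2420

set_option autoImplicit false
open scoped MatrixGroups
open Cfsg

namespace Cfsg.Agent.S2420

section generic

variable {K V : Type*} [Field K] [Fintype K] [AddCommGroup V] [Module K V] [Finite V]

/-- peel off the last vector of a flagged independent family -/
def flagEquiv (W : ℕ → Submodule K V) (k : ℕ) :
    {s : Fin (k + 1) → V // LinearIndependent K s ∧ ∀ j : Fin (k + 1), s j ∈ W j} ≃
    Σ s : {s : Fin k → V // LinearIndependent K s ∧ ∀ j : Fin k, s j ∈ W j},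
      {v : V // v ∈ W k ∧ v ∉ Submodule.span K (Set.range (s : Fin k → V))} where
  toFun s := ⟨⟨Fin.init s.1, (linearIndependent_finSucc'.mp s.2.1).1, fun j => s.2.2 j.castSucc⟩,
     ⟨s.1 (Fin.last k), by simpa using s.2.2 (Fin.last k), (linearIndependent_finSucc'.mp s.2.1).2⟩⟩
  invFun s := ⟨Fin.snoc (α := fun _ => V) s.1.1 s.2.1,
     linearIndependent_finSnoc.mpr ⟨s.1.2.1, s.2.2.2⟩, by
     intro j
     refine Fin.lastCases ?_ (fun i => ?_) j
     · simpa using s.2.2.1
     · simpa using s.1.2.2 i⟩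
  left_inv s := by
    apply Subtype.ext
    simp [Fin.snoc_init_self]
  right_inv := by
    rintro ⟨⟨s, hs⟩, ⟨v, hv⟩⟩
    have e : Fin.init (Fin.snoc (α := fun _ => V) s v) = s := Fin.init_snoc _ _
    refine Sigma.ext (Subtype.ext e) ?_
    refine (Subtype.heq_iff_coe_eq (fun x => ?_)).mpr ?_
    · simp only [e]
    · simp

theorem card_flagged (W : ℕ → Submodule K V) (hW : Monotone W) (k : ℕ) :
    Nat.card {s : Fin k → V // LinearIndependent K s ∧ ∀ j : Fin k, s j ∈ W j} =
      ∏ j ∈ Finset.range k, (Nat.card (W j) - Fintype.card K ^ j) := by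
  classical
  induction k with
  | zero =>
    rw [Finset.prod_range_zero]
    have : Unique {s : Fin 0 → V // LinearIndependent K s ∧ ∀ j : Fin 0, s j ∈ W j} :=
      ⟨⟨⟨0, linearIndependent_empty_type, fun j => j.elim0⟩⟩,
        fun a => Subtype.ext (Subsingleton.elim _ _)⟩
    exact Nat.card_unique
  | succ k ih =>
    have hf : ∀ s : {s : Fin k → V // LinearIndependent K s ∧ ∀ j : Fin k, s j ∈ W j},
        Nat.card {v : V // v ∈ W k ∧ v ∉ Submodule.span K (Set.range (s : Fin k → V))} =
          Nat.card (W k) - Fintype.card K ^ k := by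
      intro s
      have hsub : (Submodule.span K (Set.range (s : Fin k → V)) : Set V) ⊆ (W k : Set V) := by
        have : Submodule.span K (Set.range (s : Fin k → V)) ≤ W k := by
          rw [Submodule.span_le]
          rintro _ ⟨j, rfl⟩
          exact hW (Nat.le_of_lt j.isLt) (s.2.2 j)
        exact this
      have h1 : Nat.card {v : V // v ∈ W k ∧ v ∉ Submodule.span K (Set.range (s : Fin k → V))} =
          ((W k : Set V) \ (Submodule.span K (Set.range (s : Fin k → V)) : Set V)).ncard := by
        rw [← Nat.card_coe_set_eq]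
        rfl
      rw [h1, Set.ncard_sdiff hsub (Set.toFinite _), ← Nat.card_coe_set_eq, ← Nat.card_coe_set_eq]
      congr 1
      have : Fintype V := Fintype.ofFinite V
      have h2 : Nat.card (Submodule.span K (Set.range (s : Fin k → V))) =
          Fintype.card K ^ Module.finrank K (Submodule.span K (Set.range (s : Fin k → V))) := by
        rw [Nat.card_eq_fintype_card]
        exact Module.card_eq_pow_finrank
      rw [finrank_span_eq_card s.2.1, Fintype.card_fin] at h2
      exact h2
    have : Fintype {s : Fin k → V // LinearIndependent K s ∧ ∀ j : Fin k, s j ∈ W j} := Fintype.ofFinite _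
    rw [Nat.card_congr (flagEquiv W k), Nat.card_sigma, Finset.prod_range_succ, ← ih]
    simp only [hf, Finset.sum_const, Finset.card_univ, smul_eq_mul, Nat.card_eq_fintype_card]

end generic

section labels

variable {n : ℕ} (μ : Fin n → ℕ)

/-- partial sums of the composition -/
def S (l : ℕ) : ℕ := ∑ k ∈ Finset.univ.filter (fun k : Fin n => k.val < l), μ k

lemma S_mono : Monotone (S μ) := by
  intro a b hab
  apply Finset.sum_le_sum_of_subset
  intro k hk
  simp only [Finset.mem_filter, Finset.mem_univ, true_and] at hk ⊢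
  omega

lemma S_zero : S μ 0 = 0 := by simp [S]

lemma S_top (hμ : ∑ i, μ i = n) : S μ n = n := by
  unfold S
  rw [Finset.filter_true_of_mem (fun k _ => k.isLt)]
  exact hμ

lemma S_le (hμ : ∑ i, μ i = n) (l : ℕ) : S μ l ≤ n := by
  calc S μ l ≤ ∑ i, μ i := Finset.sum_le_sum_of_subset (Finset.filter_subset _ _)
    _ = n := hμ

lemma S_succ (l : ℕ) (hl : l < n) : S μ (l + 1) = S μ l + μ ⟨l, hl⟩ := by
  unfold S
  have : (Finset.univ.filter (fun k : Fin n => k.val < l + 1)) =
      insert (⟨l, hl⟩ : Fin n) (Finset.univ.filter (fun k : Fin n => k.val < l)) := by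
    ext k
    simp only [Finset.mem_filter, Finset.mem_univ, true_and, Finset.mem_insert, Fin.ext_iff]
    omega
  rw [this, Finset.sum_insert (by simp), add_comm]

lemma compLabel_eq (i : Fin n) :
    compLabel μ i = (Finset.univ.filter fun j : Fin n => S μ (j.val + 1) ≤ i.val).card := by
  unfold compLabel S
  congr 1
  apply Finset.filter_congr
  intro j _
  have : (Finset.univ.filter (fun k : Fin n => k ≤ j)) = Finset.univ.filter (fun k : Fin n => k.val < j.val + 1) := by
    apply Finset.filter_congr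
    intro k _
    rw [Fin.le_def, Nat.lt_succ_iff]
  rw [this]

lemma label_spec (hμ : ∑ i, μ i = n) (i : Fin n) :
    S μ (compLabel μ i) ≤ i.val ∧ i.val < S μ (compLabel μ i + 1) ∧ compLabel μ i < n := by
  classical
  have hex : ∃ l, i.val < S μ (l + 1) := by
    refine ⟨n, ?_⟩
    have := S_mono μ (Nat.le_succ n)
    rw [S_top μ hμ] at this
    exact lt_of_lt_of_le i.isLt this
  have h1 : i.val < S μ (Nat.find hex + 1) := Nat.find_spec hex
  have h2 : ∀ m, m < Nat.find hex → S μ (m + 1) ≤ i.val := fun m hm => not_lt.mp (Nat.find_min hex hm)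
  generalize Nat.find hex = l at h1 h2
  have hln : l < n := by
    by_contra hcon
    push Not at hcon
    have := h2 (n - 1) (by have := i.isLt; omega)
    have hn : n - 1 + 1 = n := by have := i.isLt; omega
    rw [hn, S_top μ hμ] at this
    exact absurd i.isLt (not_lt.mpr this)
  have hc : compLabel μ i = l := by
    rw [compLabel_eq]
    have : (Finset.univ.filter fun j : Fin n => S μ (j.val + 1) ≤ i.val) =
        Finset.univ.filter fun j : Fin n => j.val < l := by
      apply Finset.filter_congr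
      intro j _
      constructor
      · intro hj
        by_contra hcon
        push Not at hcon
        have := S_mono μ (show l + 1 ≤ j.val + 1 by omega)
        omega
      · intro hj; exact h2 _ hj
    rw [this, Fin.card_filter_val_lt]
    omega
  rw [hc]
  refine ⟨?_, h1, hln⟩
  rcases Nat.eq_zero_or_pos l with h0 | hpos
  · rw [h0, S_zero]; exact Nat.zero_le _
  · have := h2 (l - 1) (by omega)
    rwa [show l - 1 + 1 = l by omega] at this

lemma label_lt_iff (hμ : ∑ i, μ i = n) (i j : Fin n) :
    compLabel μ j < compLabel μ i ↔ S μ (compLabel μ j + 1) ≤ i.val := by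
  obtain ⟨a1, a2, a3⟩ := label_spec μ hμ i
  obtain ⟨b1, b2, b3⟩ := label_spec μ hμ j
  constructor
  · intro h
    exact le_trans (S_mono μ h) a1
  · intro h
    by_contra hcon
    push Not at hcon
    have := S_mono μ (show compLabel μ i + 1 ≤ compLabel μ j + 1 by omega)
    omega

lemma label_of_mem (hμ : ∑ i, μ i = n) (m : ℕ) (j : Fin n) (h1 : S μ m ≤ j.val) (h2 : j.val < S μ (m + 1)) :
    compLabel μ j = m := by
  obtain ⟨b1, b2, b3⟩ := label_spec μ hμ j
  by_contra hne
  rcases Nat.lt_or_gt_of_ne hne with h | h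
  · have := S_mono μ (show compLabel μ j + 1 ≤ m by omega)
    omega
  · have := S_mono μ (show m + 1 ≤ compLabel μ j by omega)
    omega

/-- the column bound: column `j` of an element of the parabolic is supported on rows `< d j` -/
def d (j : ℕ) : ℕ := if h : j < n then S μ (compLabel μ ⟨j, h⟩ + 1) else n

lemma d_le (hμ : ∑ i, μ i = n) (j : ℕ) : d μ j ≤ n := by
  unfold d
  split_ifs with h
  · exact S_le μ hμ _
  · exact le_rfl

lemma lt_d (hμ : ∑ i, μ i = n) (j : ℕ) (hj : j < n) : j < d μ j := by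
  unfold d
  rw [dif_pos hj]
  exact (label_spec μ hμ ⟨j, hj⟩).2.1

lemma d_mono (hμ : ∑ i, μ i = n) : Monotone (d μ) := by
  intro a b hab
  unfold d
  by_cases hb : b < n
  · have ha : a < n := lt_of_le_of_lt hab hb
    rw [dif_pos ha, dif_pos hb]
    apply S_mono
    have : compLabel μ ⟨a, ha⟩ ≤ compLabel μ ⟨b, hb⟩ := by
      by_contra hcon
      push Not at hcon
      have h1 := (label_lt_iff μ hμ ⟨a, ha⟩ ⟨b, hb⟩).mp hcon
      have h2 := (label_spec μ hμ ⟨b, hb⟩).2.1
      simp only at h1 h2
      omega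
    omega
  · rw [dif_neg hb]
    split_ifs with ha
    · exact S_le μ hμ _
    · exact le_rfl

end labels

section count

variable (F : Type*) [Field F] [Fintype F] {n : ℕ} (μ : Fin n → ℕ)

/-- vectors supported on the first `d j` coordinates -/
def W (j : ℕ) : Submodule F (Fin n → F) where
  carrier := {v | ∀ i : Fin n, d μ j ≤ i.val → v i = 0}
  add_mem' := by
    intro a b ha hb i hi
    simp [ha i hi, hb i hi]
  zero_mem' := by intro i _; rfl
  smul_mem' := by
    intro c a ha i hi
    simp [ha i hi]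

lemma mem_W (j : ℕ) (v : Fin n → F) : v ∈ W F μ j ↔ ∀ i : Fin n, d μ j ≤ i.val → v i = 0 := Iff.rfl

lemma W_mono (hμ : ∑ i, μ i = n) : Monotone (W F μ) := by
  intro a b hab v hv i hi
  exact hv i (le_trans (d_mono μ hμ hab) hi)

def WEquiv (hμ : ∑ i, μ i = n) (j : ℕ) : W F μ j ≃ (Fin (d μ j) → F) where
  toFun v := fun t => v.1 ⟨t.val, lt_of_lt_of_le t.isLt (d_le μ hμ j)⟩
  invFun w := ⟨fun i => if h : i.val < d μ j then w ⟨i.val, h⟩ else 0, by
    intro i hi
    simp only [dif_neg (not_lt.mpr hi)]⟩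
  left_inv := by
    intro v
    apply Subtype.ext
    funext i
    by_cases h : i.val < d μ j
    · simp [h]
    · simp only [h, dif_neg, not_false_iff]
      exact (v.2 i (not_lt.mp h)).symm
  right_inv := by
    intro w
    funext t
    simp [t.isLt]

lemma card_W (hμ : ∑ i, μ i = n) (j : ℕ) : Nat.card (W F μ j) = Fintype.card F ^ d μ j := by
  rw [Nat.card_congr (WEquiv F μ hμ j), Nat.card_eq_fintype_card, Fintype.card_fun, Fintype.card_fin]

noncomputable def parEquiv (hμ : ∑ i, μ i = n) :
    (Cfsg.parabolicGL n F μ) ≃ {s : Fin n → (Fin n → F) // LinearIndependent F s ∧ ∀ j : Fin n, s j ∈ W F μ j} :=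
  ((Matrix.equiv_GL_linearindependent n).subtypeEquiv (p := fun g => g ∈ Cfsg.parabolicGL n F μ)
    (q := fun s => ∀ j : Fin n, s.1 j ∈ W F μ j) (by
      intro g
      change (g : Matrix (Fin n) (Fin n) F).BlockTriangular (compLabel μ) ↔
        ∀ j : Fin n, (g : Matrix (Fin n) (Fin n) F).col j ∈ W F μ j
      constructor
      · intro h j i hi
        have hd : d μ j = S μ (compLabel μ j + 1) := by
          unfold d; rw [dif_pos j.isLt]
        rw [hd] at hi
        exact h ((label_lt_iff μ hμ i j).mpr hi)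
      · intro h i j hij
        have hd : d μ j = S μ (compLabel μ j + 1) := by
          unfold d; rw [dif_pos j.isLt]
        have := h j i (by rw [hd]; exact (label_lt_iff μ hμ i j).mp hij)
        exact this)).trans
  (Equiv.subtypeSubtypeEquivSubtypeInter (fun s : Fin n → Fin n → F => LinearIndependent F s)
    (fun s => ∀ j : Fin n, s j ∈ W F μ j))

lemma card_par (hμ : ∑ i, μ i = n) :
    Nat.card (Cfsg.parabolicGL n F μ) = ∏ j ∈ Finset.range n, (Fintype.card F ^ d μ j - Fintype.card F ^ j) := by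
  rw [Nat.card_congr (parEquiv F μ hμ), card_flagged (W F μ) (W_mono F μ hμ) n]
  apply Finset.prod_congr rfl
  intro j _
  rw [card_W F μ hμ]

end count

section arith

/-- q-integer -/
def Q (q r : ℕ) : ℕ := ∑ l ∈ Finset.range r, q ^ l

lemma Q_mul (q r : ℕ) (hq : 1 ≤ q) : (q - 1) * Q q r + 1 = q ^ r := by
  obtain ⟨t, rfl⟩ : ∃ t, q = t + 1 := ⟨q - 1, by omega⟩
  simp only [Nat.add_sub_cancel]
  induction r with
  | zero => simp [Q]
  | succ r ih =>
    unfold Q at ih ⊢
    rw [Finset.sum_range_succ, mul_add, pow_succ, add_assoc, add_comm (t * (t + 1) ^ r) 1, ← add_assoc, ih]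
    ring

lemma pow_sub_pow (q a b : ℕ) (hq : 1 ≤ q) (hab : b ≤ a) :
    q ^ a - q ^ b = q ^ b * ((q - 1) * Q q (a - b)) := by
  have h1 := Q_mul q (a - b) hq
  have e : q ^ a = q ^ b * q ^ (a - b) := by
    rw [← pow_add]; congr 1; omega
  rw [e, ← h1, mul_add, mul_one, Nat.add_sub_cancel]

lemma prod_split (q n : ℕ) (hq : 1 ≤ q) (e : ℕ → ℕ) (he : ∀ j, j < n → j ≤ e j) :
    ∏ j ∈ Finset.range n, (q ^ e j - q ^ j) =
      ((∏ j ∈ Finset.range n, q ^ j) * (q - 1) ^ n) * ∏ j ∈ Finset.range n, Q q (e j - j) := by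
  have : ∀ j ∈ Finset.range n, q ^ e j - q ^ j = q ^ j * ((q - 1) * Q q (e j - j)) := by
    intro j hj
    exact pow_sub_pow q (e j) j hq (he j (Finset.mem_range.mp hj))
  rw [Finset.prod_congr rfl this, Finset.prod_mul_distrib, Finset.prod_mul_distrib, Finset.prod_const,
    Finset.card_range, mul_assoc]

variable {n : ℕ} (μ : Fin n → ℕ)

def μ' (l : ℕ) : ℕ := if h : l < n then μ ⟨l, h⟩ else 0

lemma block_prod (q : ℕ) (hμ : ∑ i, μ i = n) (m : ℕ) (hm : m ≤ n) :
    ∏ j ∈ Finset.range (S μ m), Q q (d μ j - j) =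
      ∏ l ∈ Finset.range m, ∏ k ∈ Finset.range (μ' μ l), Q q (k + 1) := by
  induction m with
  | zero => simp [S_zero]
  | succ m ih =>
    have hmn : m < n := by omega
    rw [Finset.prod_range_succ, ← ih (by omega),
      ← Finset.prod_range_mul_prod_Ico _ (S_mono μ (Nat.le_succ m))]
    congr 1
    have hS : S μ (m + 1) = S μ m + μ' μ m := by
      rw [S_succ μ m hmn]; unfold μ'; rw [dif_pos hmn]
    have h1 : ∀ j ∈ Finset.Ico (S μ m) (S μ (m + 1)), Q q (d μ j - j) = Q q (S μ (m + 1) - j) := by
      intro j hj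
      rw [Finset.mem_Ico] at hj
      have hjn : j < n := lt_of_lt_of_le hj.2 (S_le μ hμ _)
      have : d μ j = S μ (m + 1) := by
        unfold d
        rw [dif_pos hjn, label_of_mem μ hμ m ⟨j, hjn⟩ hj.1 hj.2]
      rw [this]
    rw [Finset.prod_congr rfl h1, Finset.prod_Ico_eq_prod_range, hS, Nat.add_sub_cancel_left,
      ← Finset.prod_range_reflect (fun k => Q q (k + 1)) (μ' μ m)]
    apply Finset.prod_congr rfl
    intro k hk
    rw [Finset.mem_range] at hk
    congr 1
    omega

end arith

theorem result {F : Type*} [Field F] [Fintype F] {q : ℕ} (hq : Fintype.card F = q) {n : ℕ} (μ : Fin n → ℕ) (hμ : ∑ i, μ i = n) :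
    Nat.card (GL (Fin n) F ⧸ Cfsg.parabolicGL n F μ) * ∏ i : Fin n, ∏ j ∈ Finset.range (μ i), ∑ l ∈ Finset.range (j + 1), q ^ l =
      ∏ j ∈ Finset.range n, ∑ l ∈ Finset.range (j + 1), q ^ l := by
  subst hq
  have hq1 : 1 < Fintype.card F := Fintype.one_lt_card
  -- order of GL
  have hG : Nat.card (GL (Fin n) F) =
      ((∏ j ∈ Finset.range n, Fintype.card F ^ j) * (Fintype.card F - 1) ^ n) *
        ∏ j ∈ Finset.range n, Q (Fintype.card F) (j + 1) := by
    rw [Matrix.card_GL_field, Fin.prod_univ_eq_prod_range (fun i => Fintype.card F ^ n - Fintype.card F ^ i) n,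
      prod_split (Fintype.card F) n hq1.le (fun _ => n) (fun j hj => hj.le),
      ← Finset.prod_range_reflect (fun k => Q (Fintype.card F) (k + 1)) n]
    congr 1
    apply Finset.prod_congr rfl
    intro k hk
    rw [Finset.mem_range] at hk
    congr 1
    omega
  -- order of the parabolic
  have hP : Nat.card (Cfsg.parabolicGL n F μ) =
      ((∏ j ∈ Finset.range n, Fintype.card F ^ j) * (Fintype.card F - 1) ^ n) *
        ∏ i : Fin n, ∏ k ∈ Finset.range (μ i), Q (Fintype.card F) (k + 1) := by
    rw [card_par F μ hμ, prod_split (Fintype.card F) n hq1.le (d μ) (fun j hj => (lt_d μ hμ j hj).le)]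
    congr 1
    have := block_prod μ (Fintype.card F) hμ n le_rfl
    rw [S_top μ hμ] at this
    rw [this, ← Fin.prod_univ_eq_prod_range (fun l => ∏ k ∈ Finset.range (μ' μ l), Q (Fintype.card F) (k + 1)) n]
    apply Finset.prod_congr rfl
    intro i _
    unfold μ'
    rw [dif_pos i.isLt]
  have hidx := Subgroup.card_eq_card_quotient_mul_card_subgroup (Cfsg.parabolicGL n F μ)
  rw [hG, hP] at hidx
  have hX : 0 < (∏ j ∈ Finset.range n, Fintype.card F ^ j) * (Fintype.card F - 1) ^ n := by
    apply Nat.mul_pos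
    · exact Finset.prod_pos (fun j _ => pow_pos (by omega) _)
    · exact pow_pos (by omega) _
  apply Nat.eq_of_mul_eq_mul_left hX
  change _ * (_ * ∏ i : Fin n, ∏ k ∈ Finset.range (μ i), Q (Fintype.card F) (k + 1)) =
    _ * ∏ j ∈ Finset.range n, Q (Fintype.card F) (j + 1)
  rw [hidx]
  ring

end Cfsg.Agent.S2420
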