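import Mathlib
import Cfsg.Statements.S2424
import Cfsg.Agent.S2420

set_option autoImplicit false
open scoped MatrixGroups
open Cfsg

namespace Cfsg.Agent.S2424

noncomputable def Qc (q r : ℕ) : ℂ := ((∑ l ∈ Finset.range r, q ^ l : ℕ) : ℂ)
noncomputable def Fc (q r : ℕ) : ℂ := ∏ j ∈ Finset.range r, Qc q (j + 1)
noncomputable def ff (q lam k : ℕ) : ℂ := ∏ t ∈ Finset.range k, Qc q (lam - t)

lemma Qc_zero (q : ℕ) : Qc q 0 = 0 := by simp [Qc]

lemma Qc_ne_zero (q r : ℕ) (hq : 1 ≤ q) (hr : 1 ≤ r) : Qc q r ≠ 0 := by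
  unfold Qc
  rw [Nat.cast_ne_zero]
  have : 0 < ∑ l ∈ Finset.range r, q ^ l := by
    apply Finset.sum_pos
    · intro l _; exact pow_pos (by omega) _
    · exact ⟨0, Finset.mem_range.mpr (by omega)⟩
  omega

lemma Fc_ne_zero (q r : ℕ) (hq : 1 ≤ q) : Fc q r ≠ 0 :=
  Finset.prod_ne_zero_iff.mpr (fun j _ => Qc_ne_zero q (j + 1) hq (by omega))

lemma Fc_split (q lam k : ℕ) (hk : k ≤ lam) : Fc q lam = Fc q (lam - k) * ff q lam k := by
  induction k with
  | zero => simp [ff]
  | succ k ih =>
    have h1 := ih (by omega)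
    have h2 : Fc q (lam - k) = Fc q (lam - (k + 1)) * Qc q (lam - k) := by
      have : lam - k = (lam - (k + 1)) + 1 := by omega
      unfold Fc
      rw [this, Finset.prod_range_succ]
    unfold ff at h1 ⊢
    rw [Finset.prod_range_succ, h1, h2]
    ring

lemma ff_zero_of_lt (q lam k : ℕ) (h : lam < k) : ff q lam k = 0 :=
  Finset.prod_eq_zero (Finset.mem_range.mpr h) (by simp [Qc_zero])

lemma Qc_mul (q r : ℕ) : ((q : ℂ) - 1) * Qc q r = (q : ℂ) ^ r - 1 := by
  unfold Qc
  push_cast
  exact mul_geom_sum _ _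

lemma Qc_sub (q lam t : ℕ) (hq : 2 ≤ q) (ht : t ≤ lam) :
    (q : ℂ) ^ t * Qc q (lam - t) = Qc q lam - Qc q t := by
  have hq1 : (q : ℂ) - 1 ≠ 0 := by
    have : (q : ℂ) ≠ 1 := by
      have : q ≠ 1 := by omega
      exact_mod_cast this
    exact sub_ne_zero.mpr this
  apply mul_left_cancel₀ hq1
  have h1 := Qc_mul q (lam - t)
  have h2 := Qc_mul q lam
  have h3 := Qc_mul q t
  have h4 : (q : ℂ) ^ lam = (q : ℂ) ^ t * (q : ℂ) ^ (lam - t) := by
    rw [← pow_add]; congr 1; omega
  linear_combination (q : ℂ) ^ t * h1 - h2 + h3 - h4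

lemma ff_scaled (q lam k : ℕ) (hq : 2 ≤ q) :
    (q : ℂ) ^ (k * (k - 1) / 2) * ff q lam k = ∏ t ∈ Finset.range k, (Qc q lam - Qc q t) := by
  by_cases hk : k ≤ lam
  · rw [← Finset.sum_range_id, ← Finset.prod_pow_eq_pow_sum]
    unfold ff
    rw [← Finset.prod_mul_distrib]
    apply Finset.prod_congr rfl
    intro t ht
    rw [Finset.mem_range] at ht
    exact Qc_sub q lam t hq (by omega)
  · push Not at hk
    rw [ff_zero_of_lt q lam k hk, mul_zero]
    symm
    exact Finset.prod_eq_zero (Finset.mem_range.mpr hk) (sub_self _)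

lemma tetra (n : ℕ) : ∑ j : Fin n, (j.val * (j.val - 1) / 2) = n * (n - 1) * (n - 2) / 6 := by
  rw [Fin.sum_univ_eq_sum_range (fun j => j * (j - 1) / 2) n]
  have key : 6 * ∑ j ∈ Finset.range n, (j * (j - 1) / 2) = n * (n - 1) * (n - 2) := by
    induction n with
    | zero => simp
    | succ m ih =>
      rw [Finset.sum_range_succ, mul_add, ih]
      have h2 : 2 * (m * (m - 1) / 2) = m * (m - 1) :=
        Nat.mul_div_cancel' (Nat.even_mul_pred_self m).two_dvd
      have : 6 * (m * (m - 1) / 2) = 3 * (m * (m - 1)) := by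
        generalize m * (m - 1) = Z at h2 ⊢
        omega
      rw [this]
      rcases m with _ | _ | m
      · simp
      · simp
      · have e1 : m + 1 + 1 - 1 = m + 1 := by omega
        have e2 : m + 1 + 1 - 2 = m := by omega
        have e3 : m + 1 + 1 + 1 - 2 = m + 1 := by omega
        have e4 : m + 1 + 1 + 1 - 1 = m + 1 + 1 := by omega
        simp only [e1, e2, e3, e4]
        ring
  generalize n * (n - 1) * (n - 2) = Y at key ⊢
  omega

theorem result {F : Type*} [Field F] [Fintype F] {q : ℕ} (hq : Fintype.card F = q) {n : ℕ} (ν : Fin n → ℕ) (hmono : Monotone ν) (hsum : ∑ i, ν i = n) :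
    Cfsg.unipotentCharacterGL n F ν 1 * (q : ℂ) ^ (n * (n - 1) * (n - 2) / 6) *
        ∏ i : Fin n, ∏ j ∈ Finset.range (ν i + i.val), ((∑ l ∈ Finset.range (j + 1), q ^ l : ℕ) : ℂ) =
      (∏ j ∈ Finset.range n, ((∑ l ∈ Finset.range (j + 1), q ^ l : ℕ) : ℂ)) *
        ∏ i : Fin n, ∏ j ∈ Finset.univ.filter (fun j : Fin n => i < j),
          (((∑ l ∈ Finset.range (ν j + j.val), q ^ l : ℕ) : ℂ) - ((∑ l ∈ Finset.range (ν i + i.val), q ^ l : ℕ) : ℂ)) := by
  classical
  subst hq
  have hq1 : 1 < Fintype.card F := Fintype.one_lt_card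
  -- Step A
  have hA : Cfsg.unipotentCharacterGL n F ν 1 * ∏ i : Fin n, Fc (Fintype.card F) (ν i + i.val) =
      Fc (Fintype.card F) n *
        (Matrix.of fun i j : Fin n => ff (Fintype.card F) (ν i + i.val) j.val).det := by
    rw [← Matrix.det_transpose, Matrix.det_apply', Finset.mul_sum]
    unfold Cfsg.unipotentCharacterGL
    rw [Finset.sum_mul]
    apply Finset.sum_congr rfl
    intro κ _
    simp only [Matrix.transpose_apply, Matrix.of_apply]
    split_ifs with hκ
    · have hs : ∑ i : Fin n, (ν i + i.val - (κ i).val) = n := by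
        have h1 : ∑ i : Fin n, (ν i + i.val - (κ i).val) + ∑ i : Fin n, (κ i).val = ∑ i : Fin n, (ν i + i.val) := by
          rw [← Finset.sum_add_distrib]
          apply Finset.sum_congr rfl
          intro i _
          have := hκ i
          omega
        have h2 : ∑ i : Fin n, (κ i).val = ∑ i : Fin n, i.val := Equiv.sum_comp κ (fun i : Fin n => i.val)
        rw [Finset.sum_add_distrib, hsum, h2] at h1
        omega
      have h20 := Cfsg.Agent.S2420.result (F := F) (q := Fintype.card F) rfl (fun i => ν i + i.val - (κ i).val) hs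
      have hcard : (Nat.card (GL (Fin n) F ⧸ Cfsg.parabolicGL n F fun i => ν i + i.val - (κ i).val) : ℂ) *
          ∏ i : Fin n, Fc (Fintype.card F) (ν i + i.val - (κ i).val) = Fc (Fintype.card F) n := by
        have := congrArg (fun x : ℕ => (x : ℂ)) h20
        simp only [Nat.cast_mul, Nat.cast_prod] at this
        exact this
      have hfix : Cfsg.fixedPointCharacter (Cfsg.parabolicGL n F fun i => ν i + i.val - (κ i).val) 1 =
          (Nat.card (GL (Fin n) F ⧸ Cfsg.parabolicGL n F fun i => ν i + i.val - (κ i).val) : ℂ) := by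
        unfold Cfsg.fixedPointCharacter
        congr 1
        have : MulAction.fixedBy (GL (Fin n) F ⧸ Cfsg.parabolicGL n F fun i => ν i + i.val - (κ i).val) (1 : GL (Fin n) F) = Set.univ := by
          ext x; simp
        rw [this, Nat.card_congr (Equiv.Set.univ _)]
      have hprod : ∏ i : Fin n, Fc (Fintype.card F) (ν i + i.val) =
          (∏ i : Fin n, Fc (Fintype.card F) (ν i + i.val - (κ i).val)) *
            ∏ i : Fin n, ff (Fintype.card F) (ν i + i.val) (κ i).val := by
        rw [← Finset.prod_mul_distrib]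
        exact Finset.prod_congr rfl (fun i _ => Fc_split _ _ _ (hκ i))
      rw [hfix, hprod, ← hcard]
      ring
    · push Not at hκ
      obtain ⟨i, hi⟩ := hκ
      have : ∏ i : Fin n, ff (Fintype.card F) (ν i + i.val) (κ i).val = 0 :=
        Finset.prod_eq_zero (Finset.mem_univ i) (ff_zero_of_lt _ _ _ hi)
      rw [this]
      ring
  -- Step B
  have hB : (Matrix.of fun i j : Fin n => ff (Fintype.card F) (ν i + i.val) j.val).det *
      (Fintype.card F : ℂ) ^ (n * (n - 1) * (n - 2) / 6) =
      ∏ i : Fin n, ∏ j ∈ Finset.Ioi i,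
        (Qc (Fintype.card F) (ν j + j.val) - Qc (Fintype.card F) (ν i + i.val)) := by
    rw [← Matrix.det_vandermonde (fun i : Fin n => Qc (Fintype.card F) (ν i + i.val)),
      Matrix.det_eval_matrixOfPolynomials_eq_det_vandermonde (fun i : Fin n => Qc (Fintype.card F) (ν i + i.val))
        (fun j : Fin n => ∏ t ∈ Finset.range j.val, (Polynomial.X - Polynomial.C (Qc (Fintype.card F) t)))
        (fun j => by rw [Polynomial.natDegree_finsetProd_X_sub_C_eq_card, Finset.card_range])
        (fun j => Polynomial.monic_prod_of_monic _ _ (fun t _ => Polynomial.monic_X_sub_C _))]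
    have : (Matrix.of fun i j : Fin n => Polynomial.eval (Qc (Fintype.card F) (ν i + i.val))
          (∏ t ∈ Finset.range j.val, (Polynomial.X - Polynomial.C (Qc (Fintype.card F) t)))) =
        Matrix.of fun i j : Fin n => (Fintype.card F : ℂ) ^ (j.val * (j.val - 1) / 2) *
          (Matrix.of fun i j : Fin n => ff (Fintype.card F) (ν i + i.val) j.val) i j := by
      ext i j
      simp only [Matrix.of_apply, Polynomial.eval_prod, Polynomial.eval_sub, Polynomial.eval_X, Polynomial.eval_C]
      rw [ff_scaled _ _ _ hq1]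
    rw [this, Matrix.det_mul_row, mul_comm]
    congr 1
    rw [Finset.prod_pow_eq_pow_sum, tetra]
  have hfilt : ∀ i : Fin n, Finset.univ.filter (fun j : Fin n => i < j) = Finset.Ioi i := by
    intro i; ext j; simp
  change Cfsg.unipotentCharacterGL n F ν 1 * (Fintype.card F : ℂ) ^ (n * (n - 1) * (n - 2) / 6) *
      ∏ i : Fin n, Fc (Fintype.card F) (ν i + i.val) =
    Fc (Fintype.card F) n * ∏ i : Fin n, ∏ j ∈ Finset.univ.filter (fun j : Fin n => i < j),
      (Qc (Fintype.card F) (ν j + j.val) - Qc (Fintype.card F) (ν i + i.val))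
  simp only [hfilt]
  rw [← hB, mul_right_comm, hA]
  ring

end Cfsg.Agent.S2424
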