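import Cfsg.Statements.S0955
import Mathlib
import Cfsg.Agent.S0920

set_option autoImplicit false
open Cfsg
open scoped ComplexConjugate

namespace Cfsg.Agent.S0955

open Cfsg.Agent.Lib.Helper22

theorem result {G : Type*} [Group G] [Finite G] (p : ℕ) [Fact p.Prime] (M : Ideal Cfsg.AlgInt) (hM : Cfsg.IsPModular p M) (B : Set (Cfsg.IrrCharacter G)) (hB : Cfsg.IsPBlock M B) (D : Subgroup G) (hD : Cfsg.IsDefectGroup p M B D) : (Cfsg.pCore p (Subgroup.normalizer (D : Set G))).map (Subgroup.normalizer (D : Set G)).subtype = D := by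
  classical
  have hDp : IsPGroup p D := isDefectGroup_isPGroup B D hD
  obtain ⟨b, ⟨hb, hDb, -⟩, -⟩ := (Cfsg.Agent.S0920.result p M hM D hDp).2 B hB hD
  have h1 := Cfsg.Agent.S0912.result p M hM b hb _ hDb
  have hnorm : (D.subgroupOf (Subgroup.normalizer (D : Set G))).Normal :=
    Subgroup.normal_in_normalizer
  have h2 : D.subgroupOf (Subgroup.normalizer (D : Set G)) ≤
      Cfsg.pCore p (Subgroup.normalizer (D : Set G)) :=
    Cfsg.Agent.Lib.Helper55.le_pCore hnorm hDp.comap_subtype
  rw [le_antisymm h1 h2]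
  exact Subgroup.map_subgroupOf_eq_of_le Subgroup.le_normalizer

end Cfsg.Agent.S0955
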