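import Cfsg.Statements.S2504
import Cfsg.Agent.Lib.Helper49.AbelPerm

set_option autoImplicit false
open Cfsg

namespace Cfsg.Agent.S2504

open Equiv

/-- There is an abelian group of even permutations of `Fin n` of order `c`. -/
def HasEvenAbel (n c : ℕ) : Prop :=
  ∃ A : Subgroup (Perm (Fin n)), IsMulCommutative A ∧ Nat.card A = c ∧ A ≤ alternatingGroup (Fin n)

theorem hasEvenAbel_add {n n' c c' : ℕ} (h : HasEvenAbel n c) (h' : HasEvenAbel n' c') :
    HasEvenAbel (n + n') (c * c') := by
  obtain ⟨A, hA, hc, hle⟩ := h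
  obtain ⟨A', hA', hc', hle'⟩ := h'
  let F : Perm (Fin n) × Perm (Fin n') →* Perm (Fin (n + n')) :=
    (finSumFinEquiv.permCongrHom.toMonoidHom).comp (Perm.sumCongrHom (Fin n) (Fin n'))
  have hF : Function.Injective F := by
    intro x y hxy
    apply Perm.sumCongrHom_injective
    exact finSumFinEquiv.permCongrHom.injective hxy
  have hcomm : IsMulCommutative (A.prod A') := by
    refine ⟨⟨fun x y => ?_⟩⟩
    have hx := Subgroup.mem_prod.mp x.2
    have hy := Subgroup.mem_prod.mp y.2
    apply Subtype.ext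
    exact Prod.ext (setLike_mul_comm hx.1 hy.1) (setLike_mul_comm hx.2 hy.2)
  refine ⟨(A.prod A').map F, inferInstance, ?_, ?_⟩
  · rw [Subgroup.card_map_of_injective hF, Nat.card_congr (Subgroup.prodEquiv A A').toEquiv,
      Nat.card_prod, hc, hc']
  · rintro σ ⟨⟨a, a'⟩, hmem, rfl⟩
    have hm := Subgroup.mem_prod.mp hmem
    have h1 : Perm.sign a = 1 := Perm.mem_alternatingGroup.mp (hle hm.1)
    have h2 : Perm.sign a' = 1 := Perm.mem_alternatingGroup.mp (hle' hm.2)
    rw [Perm.mem_alternatingGroup]
    show Perm.sign (finSumFinEquiv.permCongr (Perm.sumCongr a a')) = 1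
    rw [Perm.sign_permCongr, Perm.sign_sumCongr, h1, h2, mul_one]

theorem hasEvenAbel_three : HasEvenAbel 3 3 := by
  have hcard : Nat.card (alternatingGroup (Fin 3)) = 3 := by
    have h := two_mul_nat_card_alternatingGroup (α := Fin 3)
    have h2 : Nat.card (Perm (Fin 3)) = 6 := by
      rw [Nat.card_perm, Nat.card_fin]
      rfl
    omega
  have : Fact (Nat.Prime 3) := ⟨Nat.prime_three⟩
  have : IsCyclic (alternatingGroup (Fin 3)) := isCyclic_of_prime_card hcard
  exact ⟨alternatingGroup (Fin 3), inferInstance, hcard, le_refl _⟩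

theorem perm_fin_two_comm : IsMulCommutative (Perm (Fin 2)) := by
  have hcard : Nat.card (Perm (Fin 2)) = 2 := by
    rw [Nat.card_perm, Nat.card_fin]
    rfl
  have : Fact (Nat.Prime 2) := ⟨Nat.prime_two⟩
  have : IsCyclic (Perm (Fin 2)) := isCyclic_of_prime_card hcard
  infer_instance

theorem hasEvenAbel_four : HasEvenAbel 4 4 := by
  let G0 : Perm (Fin 2) × Perm (Fin 2) →* Perm (Fin 2 × Fin 2) :=
    { toFun := fun p => Equiv.prodCongr p.1 p.2
      map_one' := by ext ⟨x, y⟩ <;> rfl
      map_mul' := fun p q => by ext ⟨x, y⟩ <;> rfl }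
  have hG0 : Function.Injective G0 := by
    intro p q hpq
    refine Prod.ext (Equiv.ext fun x => ?_) (Equiv.ext fun y => ?_)
    · have := congrArg (fun σ : Perm (Fin 2 × Fin 2) => (σ (x, 0)).1) hpq
      exact this
    · have := congrArg (fun σ : Perm (Fin 2 × Fin 2) => (σ (0, y)).2) hpq
      exact this
  let F : Perm (Fin 2) × Perm (Fin 2) →* Perm (Fin (2 * 2)) :=
    (finProdFinEquiv.permCongrHom.toMonoidHom).comp G0
  have hF : Function.Injective F := by
    intro x y hxy
    apply hG0
    exact finProdFinEquiv.permCongrHom.injective hxy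
  have := perm_fin_two_comm
  have : IsMulCommutative (Perm (Fin 2) × Perm (Fin 2)) :=
    ⟨⟨fun x y => Prod.ext (mul_comm' x.1 y.1) (mul_comm' x.2 y.2)⟩⟩
  have key : HasEvenAbel (2 * 2) (2 * 2) := by
    refine ⟨F.range, inferInstance, ?_, ?_⟩
    · rw [← Nat.card_congr (MonoidHom.ofInjective hF).toEquiv, Nat.card_prod, Nat.card_perm,
        Nat.card_fin]
      rfl
    · rintro σ ⟨⟨a, b⟩, rfl⟩
      rw [Perm.mem_alternatingGroup]
      show Perm.sign (finProdFinEquiv.permCongr (Equiv.prodCongr a b)) = 1
      rw [Perm.sign_permCongr]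
      have hdec : (Equiv.prodCongr a b : Perm (Fin 2 × Fin 2)) =
          Equiv.prodCongrLeft (fun _ => a) * Equiv.prodCongrRight (fun _ => b) := by
        ext ⟨x, y⟩ <;> rfl
      rw [hdec, Perm.sign_mul, Perm.sign_prodCongrLeft, Perm.sign_prodCongrRight]
      simp only [Finset.prod_const, Finset.card_univ, Fintype.card_fin]
      rw [Int.units_sq, Int.units_sq, mul_one]
  exact key

theorem hasEvenAbel_three_mul (k : ℕ) : HasEvenAbel (3 * (k + 1)) (3 ^ (k + 1)) := by
  induction k with
  | zero => exact hasEvenAbel_three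
  | succ k ih =>
    have := hasEvenAbel_add ih hasEvenAbel_three
    rw [show 3 * (k + 1 + 1) = 3 * (k + 1) + 3 by ring, pow_succ]
    exact this

theorem hasEvenAbel_four_add (k : ℕ) : HasEvenAbel (3 * (k + 1) + 1) (4 * 3 ^ k) := by
  induction k with
  | zero => exact hasEvenAbel_four
  | succ k ih =>
    have := hasEvenAbel_add ih hasEvenAbel_three
    rw [show 3 * (k + 1 + 1) + 1 = 3 * (k + 1) + 1 + 3 by ring, pow_succ, ← mul_assoc]
    exact this

theorem hasEvenAbel_eight_add (k : ℕ) : HasEvenAbel (3 * (k + 2) + 2) (16 * 3 ^ k) := by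
  induction k with
  | zero =>
    have h := hasEvenAbel_add hasEvenAbel_four hasEvenAbel_four
    exact h
  | succ k ih =>
    have := hasEvenAbel_add ih hasEvenAbel_three
    rw [show 3 * (k + 1 + 2) + 2 = 3 * (k + 2) + 2 + 3 by ring, pow_succ, ← mul_assoc]
    exact this

theorem exists_of_hasEvenAbel {n c : ℕ} (h : HasEvenAbel n c) :
    ∃ A : Subgroup (alternatingGroup (Fin n)), IsMulCommutative A ∧ Nat.card A = c := by
  obtain ⟨A, hA, hc, hle⟩ := h
  refine ⟨A.subgroupOf (alternatingGroup (Fin n)), inferInstance, ?_⟩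
  rw [Nat.card_congr (Subgroup.subgroupOfEquivOfLe hle).toEquiv, hc]

/-- the second-best bound for sums `3k+2` -/
def bnd2 : ℕ → ℕ
  | 0 => 1
  | 1 => 5
  | (k + 2) => 16 * 3 ^ k

theorem sq_le_two_pow (m : ℕ) (h1 : 1 ≤ m) (h3 : m ≠ 3) : m ^ 2 ≤ 2 ^ m := by
  rcases Nat.lt_or_ge m 5 with h | h
  · interval_cases m <;> simp_all
  · induction m, h using Nat.le_induction with
    | base => decide
    | succ m hm ih =>
      have := ih (by omega) (by omega)
      rw [pow_succ 2 m]
      nlinarith

theorem prod_sq_le (s : Multiset ℕ) (hs : ∀ a ∈ s, 1 ≤ a ∧ a ≠ 3) : s.prod ^ 2 ≤ 2 ^ s.sum := by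
  induction s using Multiset.induction_on with
  | empty => simp
  | cons a s ih =>
    rw [Multiset.prod_cons, Multiset.sum_cons, mul_pow, pow_add]
    have h1 := sq_le_two_pow a (hs a (Multiset.mem_cons_self a s)).1
      (hs a (Multiset.mem_cons_self a s)).2
    have h2 := ih (fun b hb => hs b (Multiset.mem_cons_of_mem hb))
    exact Nat.mul_le_mul h1 h2

theorem sum_two_case (s : Multiset ℕ) (hs : ∀ a ∈ s, 1 ≤ a) (hsum : s.sum = 2) :
    s.prod ≤ 1 ∨ s = {2} := by
  by_cases h2 : 2 ∈ s
  · right
    obtain ⟨t, rfl⟩ := Multiset.exists_cons_of_mem h2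
    rw [Multiset.sum_cons] at hsum
    have ht : t = 0 := by
      apply Multiset.eq_zero_of_forall_notMem
      intro a ha
      have h1 := hs a (Multiset.mem_cons_of_mem ha)
      have h2 := Multiset.le_sum_of_mem ha
      omega
    rw [ht]
    rfl
  · left
    apply le_of_eq
    apply Multiset.prod_eq_one
    intro a ha
    have h1 := hs a ha
    have h3 := Multiset.le_sum_of_mem ha
    have : a ≠ 2 := fun h => h2 (h ▸ ha)
    omega

theorem second_best (k : ℕ) : ∀ s : Multiset ℕ, (∀ a ∈ s, 1 ≤ a) → s.sum = 3 * k + 2 →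
    s.prod ≤ bnd2 k ∨ s = 2 ::ₘ Multiset.replicate k 3 := by
  induction k with
  | zero =>
    intro s hs hsum
    rcases sum_two_case s hs hsum with h | h
    · left; exact h
    · right; rw [h]; rfl
  | succ k ih =>
    intro s hs hsum
    by_cases h3 : 3 ∈ s
    · obtain ⟨t, rfl⟩ := Multiset.exists_cons_of_mem h3
      rw [Multiset.sum_cons] at hsum
      rcases ih t (fun a ha => hs a (Multiset.mem_cons_of_mem ha)) (by omega) with h | h
      · left
        rw [Multiset.prod_cons]
        have : 3 * bnd2 k ≤ bnd2 (k + 1) := by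
          rcases k with _ | _ | k
          · decide
          · decide
          · simp only [bnd2]
            rw [pow_succ]
            omega
        omega
      · right
        rw [h, Multiset.cons_swap, Multiset.replicate_succ]
    · left
      have h1 := prod_sq_le s (fun a ha => ⟨hs a ha, fun h => h3 (h ▸ ha)⟩)
      rw [hsum] at h1
      rcases k with _ | k
      · show s.prod ≤ 5
        by_contra hcon
        have h6 : 6 ≤ s.prod := by omega
        have h36 : 36 ≤ s.prod ^ 2 := by nlinarith
        norm_num at h1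
        omega
      · show s.prod ≤ 16 * 3 ^ k
        have h2 : 2 ^ (3 * (k + 1 + 1) + 2) ≤ (16 * 3 ^ k) ^ 2 := by
          have e1 : 2 ^ (3 * (k + 1 + 1) + 2) = 256 * 8 ^ k := by
            rw [show 3 * (k + 1 + 1) + 2 = 3 * k + 8 by ring, pow_add, pow_mul]
            norm_num
            ring
          have e2 : (16 * 3 ^ k) ^ 2 = 256 * 9 ^ k := by
            rw [mul_pow, ← pow_mul, mul_comm k 2, pow_mul]
            norm_num
          rw [e1, e2]
          exact Nat.mul_le_mul_left _ (Nat.pow_le_pow_left (by norm_num) k)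
        exact (Nat.pow_le_pow_iff_left (by norm_num)).mp (le_trans h1 h2)

theorem alt_case (k n : ℕ) (hn : n = 3 * k + 2) (A : Subgroup (Perm (Fin n)))
    [hA : IsMulCommutative A]
    (hle : A ≤ alternatingGroup (Fin n)) : Nat.card A ≤ bnd2 k := by
  classical
  letI : Fintype (MulAction.orbitRel.Quotient A (Fin n)) := Fintype.ofFinite _
  have h1 := Cfsg.Agent.Lib.Helper49.abel_card_le_prod_orbits A
  have h2 := Cfsg.Agent.Lib.Helper49.sum_card_orbits A
  rw [Fintype.card_fin] at h2
  replace h2 := h2.trans hn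
  set f : MulAction.orbitRel.Quotient A (Fin n) → ℕ :=
    fun ω => Nat.card (MulAction.orbit A ω.out) with hf
  let s : Multiset ℕ := Finset.univ.val.map f
  have hs1 : ∀ a ∈ s, 1 ≤ a := by
    intro a ha
    obtain ⟨ω, -, rfl⟩ := Multiset.mem_map.mp ha
    have : Nonempty (MulAction.orbit A ω.out) := ⟨⟨ω.out, MulAction.mem_orbit_self _⟩⟩
    exact Nat.card_pos
  have hsum : s.sum = 3 * k + 2 := h2
  have hprod : s.prod = ∏ ω, f ω := rfl
  rcases second_best k s hs1 hsum with h | h
  · exact le_trans h1 (hprod ▸ h)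
  · exfalso
    have h2mem : 2 ∈ s := by
      rw [h]
      exact Multiset.mem_cons_self _ _
    obtain ⟨ω0, -, hω0⟩ := Multiset.mem_map.mp h2mem
    have hothers : ∀ ω, ω ≠ ω0 → f ω = 3 := by
      intro ω hω
      have hsplit : s = f ω0 ::ₘ (Finset.univ.val.erase ω0).map f := by
        show Finset.univ.val.map f = _
        rw [← Multiset.map_cons, Multiset.cons_erase (Finset.mem_univ ω0)]
      rw [hsplit, hω0] at h
      have h' := (Multiset.cons_inj_right 2).mp h
      have hmem : f ω ∈ (Finset.univ.val.erase ω0).map f :=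
        Multiset.mem_map_of_mem f ((Multiset.mem_erase_of_ne hω).mpr (Finset.mem_univ ω))
      rw [h'] at hmem
      exact Multiset.eq_of_mem_replicate hmem
    have hdvd : 2 ∣ Nat.card A := by
      have hidx : (MulAction.stabilizer A ω0.out).index = 2 := by
        rw [MulAction.index_stabilizer, ← Nat.card_coe_set_eq]
        exact hω0
      rw [← hidx]
      exact Subgroup.index_dvd_card _
    haveI : Fact (Nat.Prime 2) := ⟨Nat.prime_two⟩
    obtain ⟨σ, hσ⟩ := exists_prime_orderOf_dvd_card' (G := A) 2 hdvd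
    have hσ2 : σ ^ 2 = 1 := by
      rw [← hσ]
      exact pow_orderOf_eq_one σ
    have hfix : ∀ y : Fin n, y ∉ MulAction.orbit A ω0.out → (σ : Perm _) y = y := by
      intro y hy
      let ω : MulAction.orbitRel.Quotient A (Fin n) := Quotient.mk'' y
      have hyω : y ∈ MulAction.orbit A ω.out := by
        have : (MulAction.orbitRel A _).r ω.out y := Quotient.exact' (Quotient.out_eq' ω)
        rw [MulAction.orbitRel_apply] at this
        exact MulAction.mem_orbit_symm.mp this
      have hω : ω ≠ ω0 := by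
        intro hEq
        apply hy
        rw [← hEq]
        exact hyω
      have h3 : f ω = 3 := hothers ω hω
      have horb : MulAction.orbit A y = MulAction.orbit A ω.out := MulAction.orbit_eq_iff.mpr hyω
      have hidx : (MulAction.stabilizer A y).index = 3 := by
        rw [MulAction.index_stabilizer, horb, ← Nat.card_coe_set_eq]
        exact h3
      have hmem : σ ^ 3 ∈ MulAction.stabilizer A y := by
        have := Subgroup.pow_index_mem (MulAction.stabilizer A y) σ
        rwa [hidx] at this
      have hσ3 : σ ^ 3 = σ := by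
        rw [pow_succ, hσ2, one_mul]
      rw [hσ3] at hmem
      exact MulAction.mem_stabilizer_iff.mp hmem
    have hne : (σ : Perm (Fin n)) ≠ 1 := by
      intro h1
      have : σ = 1 := Subtype.ext h1
      rw [this, orderOf_one] at hσ
      omega
    have hsupp : (σ : Perm (Fin n)).support ⊆ (MulAction.orbit A ω0.out).toFinset := by
      intro y hy
      rw [Set.mem_toFinset]
      by_contra hcon
      exact (Perm.mem_support.mp hy) (hfix y hcon)
    have hcard2 : (σ : Perm (Fin n)).support.card = 2 := by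
      apply le_antisymm
      · calc (σ : Perm (Fin n)).support.card
            ≤ (MulAction.orbit A ω0.out).toFinset.card := Finset.card_le_card hsupp
          _ = 2 := by
            rw [Set.toFinset_card, ← Nat.card_eq_fintype_card]
            exact hω0
      · exact Perm.two_le_card_support_of_ne_one hne
    have hswap := Perm.card_support_eq_two.mp hcard2
    have hsign := hswap.sign_eq
    have := Perm.mem_alternatingGroup.mp (hle σ.2)
    rw [this] at hsign
    exact absurd hsign (by decide)

/-- The largest order of an abelian subgroup of the alternating group of degree n is 3^k when n = 3k, 4·3^(k−1) when n = 3k + 1, and 16·3^(k−2) when n = 3k + 2, for every k ≥ 2 (so for all degrees n ≥ 6). -/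
theorem result (k : ℕ) (hk : 2 ≤ k) :
    IsGreatest {c : ℕ | ∃ A : Subgroup (alternatingGroup (Fin (3 * k))), IsMulCommutative A ∧ Nat.card A = c} (3 ^ k) ∧
    IsGreatest {c : ℕ | ∃ A : Subgroup (alternatingGroup (Fin (3 * k + 1))), IsMulCommutative A ∧ Nat.card A = c}
      (4 * 3 ^ (k - 1)) ∧
    IsGreatest {c : ℕ | ∃ A : Subgroup (alternatingGroup (Fin (3 * k + 2))), IsMulCommutative A ∧ Nat.card A = c}
      (16 * 3 ^ (k - 2)) := by
  obtain ⟨j, rfl⟩ : ∃ j, k = j + 2 := ⟨k - 2, by omega⟩
  have hup : ∀ (n : ℕ) (A : Subgroup (alternatingGroup (Fin n))), IsMulCommutative A →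
      Nat.card A ≤ Cfsg.Agent.Lib.Helper49.maxProd n := by
    intro n A hA
    have h1 := Cfsg.Agent.Lib.Helper49.abel_card_le_maxProd (A.map (alternatingGroup (Fin n)).subtype)
    rwa [Subgroup.card_map_of_injective (Subgroup.subtype_injective _), Fintype.card_fin] at h1
  refine ⟨⟨?_, ?_⟩, ⟨?_, ?_⟩, ⟨?_, ?_⟩⟩
  · exact exists_of_hasEvenAbel (hasEvenAbel_three_mul (j + 1))
  · rintro c ⟨A, hA, rfl⟩
    have := hup _ A hA
    rwa [Cfsg.Agent.Lib.Helper49.maxProd_three_mul] at this
  · exact exists_of_hasEvenAbel (hasEvenAbel_four_add (j + 1))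
  · rintro c ⟨A, hA, rfl⟩
    have := hup _ A hA
    rw [Cfsg.Agent.Lib.Helper49.maxProd_three_mul_add_one] at this
    exact this
  · exact exists_of_hasEvenAbel (hasEvenAbel_eight_add j)
  · rintro c ⟨A, hA, rfl⟩
    have h1 := alt_case (j + 2) _ rfl (A.map (alternatingGroup (Fin (3 * (j + 2) + 2))).subtype) (by
      rintro σ ⟨a, -, rfl⟩
      exact a.2)
    rw [Subgroup.card_map_of_injective (Subgroup.subtype_injective _)] at h1
    exact h1

end Cfsg.Agent.S2504
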