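import Cfsg.Statements.S2728
import Cfsg.Agent.Lib.Helper54.OrthDih

set_option autoImplicit false
open Cfsg
open Cfsg.Agent.Lib.Helper54

namespace Cfsg.Agent.S2728

set_option maxHeartbeats 1600000 in
/-- Let T = PΩ⁻_{2m+2}(F) with m ≥ 3 and |F| = q odd (form with anisotropic binary part). The image G̃ of the conformal orthogonal group in Aut(T), taken modulo the inner automorphism group T, is dihedral of order 8 when m is even and q ≡ 3 (mod 4), and elementary abelian of order 4 otherwise. -/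
theorem result {F : Type*} [Field F] [Fintype F] (hodd : Odd (Fintype.card F)) {m : ℕ} (hm : 3 ≤ m) (a b : F) (hab : (∀ z₁ z₂ : F, z₁ ^ 2 + a * z₁ * z₂ + b * z₂ ^ 2 = 0 → z₁ = 0 ∧ z₂ = 0)) :
    ((Even m ∧ Fintype.card F % 4 = 3) → (∃ φ : ↥(Cfsg.pgoAut F (Cfsg.quadFormMinus m F a b)) →* DihedralGroup 4, Function.Surjective φ ∧ φ.ker = (Cfsg.Inn (Cfsg.POmega F (Cfsg.quadFormMinus m F a b))).subgroupOf (Cfsg.pgoAut F (Cfsg.quadFormMinus m F a b)))) ∧ (¬ (Even m ∧ Fintype.card F % 4 = 3) → (∃ φ : ↥(Cfsg.pgoAut F (Cfsg.quadFormMinus m F a b)) →* Multiplicative (ZMod 2 × ZMod 2), Function.Surjective φ ∧ φ.ker = (Cfsg.Inn (Cfsg.POmega F (Cfsg.quadFormMinus m F a b))).subgroupOf (Cfsg.pgoAut F (Cfsg.quadFormMinus m F a b)))) := by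
  have hF := ringChar_ne_two_of_odd hodd
  have h2 : (2 : F) ≠ 0 := Ring.two_ne_zero hF
  have hm1 : 1 ≤ m := by omega
  have hsep := polarSep_minus (m := m) h2 a b hab
  have hv := hv_minus (m := m) (F := F) a b
  rw [← Cfsg.Agent.Lib.Helper51.coe_QMinus m F a b]
  obtain ⟨hi2, hi1⟩ := relIndex_minus (F := F) (m := m) hodd hm a b hab
  refine ⟨fun h => ?_, fun h => klein_of_relIndex_one _ (hi1 h) (minus_main hF hm a b hab)⟩
  obtain ⟨c, hc⟩ := FiniteField.exists_nonsquare (F := F) hF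
  have hc0 : c ≠ 0 := by
    rintro rfl
    exact hc ⟨0, by simp⟩
  obtain ⟨u₁, u₂, hu⟩ := exists_norm hF a b hab c
  refine dihedral_of_relIndex_two (Cfsg.Agent.Lib.Helper51.QMinus m F a b) hF hv
    (simAut_ker_minus hm a b (aniso_b_ne_zero a b hab))
    ⟨_, (Cfsg.Agent.Lib.Helper51.hypMinus m F a b ⟨0, hm1⟩).Q_plus_ne, ?_⟩ ?_
    (simOfMatrix (Cfsg.Agent.Lib.Helper51.QMinus m F a b) hsep _ c hc0
      (minus_scale_sim a b c u₁ u₂ hu)) ?_
    (hi2 h) (minus_main hF hm a b hab)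
  · rw [(Cfsg.Agent.Lib.Helper51.hypMinus m F a b ⟨0, hm1⟩).Q_plus]
    exact ⟨1, by simp⟩
  · rw [negO_mem_minus_iff hodd a b hab]
    exact h
  · rintro ⟨r, hr⟩
    apply hc
    refine ⟨(r : F), ?_⟩
    rw [← simMul_simOfMatrix (Cfsg.Agent.Lib.Helper51.QMinus m F a b) hsep hv _ c
      hc0 (minus_scale_sim a b c u₁ u₂ hu), hr, Units.val_mul]

end Cfsg.Agent.S2728
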