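import Cfsg.Statements.S0832
import Mathlib

set_option autoImplicit false
open Cfsg

namespace Cfsg.Agent.S0832

noncomputable def B (m : ℕ) (F : Type*) [Field F] : LinearMap.BilinForm F (Fin m ⊕ Fin m → F) :=
  LinearMap.mk₂ F (fun u v => ∑ i : Fin m, (u (.inl i) * v (.inr i) + u (.inr i) * v (.inl i)))
    (by
      intro u u' v
      simp only [Pi.add_apply, ← Finset.sum_add_distrib]
      exact Finset.sum_congr rfl (fun i _ => by ring))
    (by
      intro c u v
      simp only [Pi.smul_apply, smul_eq_mul, Finset.mul_sum]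
      exact Finset.sum_congr rfl (fun i _ => by ring))
    (by
      intro u v v'
      simp only [Pi.add_apply, ← Finset.sum_add_distrib]
      exact Finset.sum_congr rfl (fun i _ => by ring))
    (by
      intro c u v
      simp only [Pi.smul_apply, smul_eq_mul, Finset.mul_sum]
      exact Finset.sum_congr rfl (fun i _ => by ring))

variable {F : Type*} [Field F] {m : ℕ}

theorem B_apply (u v : Fin m ⊕ Fin m → F) :
    B m F u v = ∑ i : Fin m, (u (.inl i) * v (.inr i) + u (.inr i) * v (.inl i)) := rfl

theorem Q_add (u v : Fin m ⊕ Fin m → F) :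
    quadFormPlus m F (u + v) = quadFormPlus m F u + quadFormPlus m F v + B m F u v := by
  simp only [quadFormPlus, B_apply, Pi.add_apply, ← Finset.sum_add_distrib]
  exact Finset.sum_congr rfl (fun i _ => by ring)

theorem Q_smul (c : F) (u : Fin m ⊕ Fin m → F) :
    quadFormPlus m F (c • u) = c ^ 2 * quadFormPlus m F u := by
  simp only [quadFormPlus, Pi.smul_apply, smul_eq_mul, Finset.mul_sum]
  exact Finset.sum_congr rfl (fun i _ => by ring)

theorem B_comm (u v : Fin m ⊕ Fin m → F) : B m F u v = B m F v u := by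
  simp only [B_apply]
  exact Finset.sum_congr rfl (fun i _ => by ring)

theorem B_self (u : Fin m ⊕ Fin m → F) : B m F u u = 2 * quadFormPlus m F u := by
  simp only [B_apply, quadFormPlus, Finset.mul_sum]
  exact Finset.sum_congr rfl (fun i _ => by ring)

theorem B_refl : (B m F).IsRefl := fun x y h => by rw [B_comm]; exact h

theorem B_nondeg : (B m F).Nondegenerate := by
  have hl : ∀ x : Fin m ⊕ Fin m → F, (∀ y, B m F x y = 0) → x = 0 := by
    intro x hx
    funext j
    classical
    rcases j with i | i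
    · have := hx (Pi.single (Sum.inr i) 1)
      simpa [B_apply, Pi.single_apply] using this
    · have := hx (Pi.single (Sum.inl i) 1)
      simpa [B_apply, Pi.single_apply] using this
  exact ⟨hl, fun y hy => hl y (fun x => by rw [B_comm]; exact hy x)⟩

theorem B_zero_of_ts (W : Submodule F (Fin m ⊕ Fin m → F))
    (hW : ∀ w ∈ W, quadFormPlus m F w = 0) (u v : Fin m ⊕ Fin m → F) (hu : u ∈ W) (hv : v ∈ W) :
    B m F u v = 0 := by
  have h := Q_add u v
  rw [hW _ (W.add_mem hu hv), hW u hu, hW v hv] at h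
  simpa using h.symm

theorem ts_le_orth (W : Submodule F (Fin m ⊕ Fin m → F))
    (hW : ∀ w ∈ W, quadFormPlus m F w = 0) : W ≤ (B m F).orthogonal W :=
  fun w hw n hn => B_zero_of_ts W hW n w hn hw

theorem finrank_V : Module.finrank F (Fin m ⊕ Fin m → F) = 2 * m := by
  simp; ring

theorem finrank_sup_span {V : Type*} [AddCommGroup V] [Module F V] [FiniteDimensional F V]
    (U : Submodule F V) (x : V) (hx : x ∉ U) :
    Module.finrank F (U ⊔ Submodule.span F {x} : Submodule F V) = Module.finrank F U + 1 := by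
  have h := Submodule.finrank_sup_add_finrank_inf_eq U (Submodule.span F {x})
  have hx0 : x ≠ 0 := by rintro rfl; exact hx U.zero_mem
  have h1 : Module.finrank F (Submodule.span F {x}) = 1 := finrank_span_singleton hx0
  have h2 : U ⊓ Submodule.span F {x} = ⊥ := by
    rw [eq_bot_iff]
    rintro z ⟨hzU, hzx⟩
    obtain ⟨a, rfl⟩ := Submodule.mem_span_singleton.1 hzx
    by_cases ha : a = 0
    · simp [ha]
    · exfalso; apply hx
      have := U.smul_mem a⁻¹ hzU
      rwa [smul_smul, inv_mul_cancel₀ ha, one_smul] at this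
  rw [h2, finrank_bot, h1] at h
  omega

theorem orth_sup {V : Type*} [AddCommGroup V] [Module F V]
    (B : LinearMap.BilinForm F V) (A C : Submodule F V) :
    B.orthogonal (A ⊔ C) = B.orthogonal A ⊓ B.orthogonal C := by
  apply le_antisymm
  · exact le_inf (LinearMap.BilinForm.orthogonal_le le_sup_left)
      (LinearMap.BilinForm.orthogonal_le le_sup_right)
  · rintro x ⟨hA, hC⟩ n hn
    obtain ⟨a, ha, c, hc, rfl⟩ := Submodule.mem_sup.1 hn
    have h1 : B a x = 0 := hA a ha
    have h2 : B c x = 0 := hC c hc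
    simp [h1, h2]

/-- the maximal totally singular subspace of vectors with vanishing second half -/
def X0 (m : ℕ) (F : Type*) [Field F] : Submodule F (Fin m ⊕ Fin m → F) :=
  LinearMap.ker (LinearMap.funLeft F F (Sum.inr : Fin m → Fin m ⊕ Fin m))

theorem mem_X0 (z : Fin m ⊕ Fin m → F) : z ∈ X0 m F ↔ ∀ i, z (Sum.inr i) = 0 := by
  simp [X0, LinearMap.mem_ker, funext_iff, LinearMap.funLeft_apply]

theorem X0_Q (z : Fin m ⊕ Fin m → F) (hz : z ∈ X0 m F) : quadFormPlus m F z = 0 := by
  rw [mem_X0] at hz
  simp [quadFormPlus, hz]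

theorem X0_finrank : Module.finrank F (X0 m F) = m := by
  have h1 := LinearMap.finrank_range_add_finrank_ker
    (LinearMap.funLeft F F (Sum.inr : Fin m → Fin m ⊕ Fin m))
  have h2 : LinearMap.range (LinearMap.funLeft F F (Sum.inr : Fin m → Fin m ⊕ Fin m)) = ⊤ :=
    LinearMap.range_eq_top.2 (LinearMap.funLeft_surjective_of_injective F F _ Sum.inr_injective)
  have h3 : Module.finrank F (Fin m → F) = m := by simp
  have h4 : Module.finrank F (Fin m ⊕ Fin m → F) = 2 * m := finrank_V
  rw [h2, finrank_top, h3, h4] at h1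
  unfold X0
  omega

theorem X0_orth : (B m F).orthogonal (X0 m F) = X0 m F := by
  symm
  apply Submodule.eq_of_le_of_finrank_eq (ts_le_orth _ X0_Q)
  rw [LinearMap.BilinForm.finrank_orthogonal B_nondeg, finrank_V, X0_finrank]
  omega

/-- For the form Σ x_i y_i on F^(2m) over a finite field, m ≥ 1: an (m−1)-dimensional subspace on which the form vanishes is contained in exactly two m-dimensional subspaces on which it vanishes. -/
theorem result {F : Type*} [Field F] [Finite F] (m : ℕ) (hm : 1 ≤ m) (U : Submodule F (Fin m ⊕ Fin m → F)) (hU : Module.finrank F U + 1 = m ∧ ∀ u ∈ U, Cfsg.quadFormPlus m F u = 0) : Nat.card {W : Submodule F (Fin m ⊕ Fin m → F) // Module.finrank F W = m ∧ (∀ w ∈ W, Cfsg.quadFormPlus m F w = 0) ∧ U ≤ W} = 2 := by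
  obtain ⟨hUr, hUQ⟩ := hU
  have hV : Module.finrank F (Fin m ⊕ Fin m → F) = 2 * m := finrank_V
  set P := (B m F).orthogonal U with hP
  have hPr : Module.finrank F P = m + 1 := by
    rw [hP, LinearMap.BilinForm.finrank_orthogonal B_nondeg, hV]; omega
  have hUP : U ≤ P := ts_le_orth U hUQ
  obtain ⟨x, hxP, hxU, hxQ⟩ : ∃ x ∈ P, x ∉ U ∧ quadFormPlus m F x = 0 := by
    by_contra hcon
    have hle : X0 m F ⊓ P ≤ U := by
      rintro z ⟨hz0, hzP⟩
      by_contra hzU
      exact hcon ⟨z, hzP, hzU, X0_Q z hz0⟩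
    have heq : X0 m F ⊓ P = X0 m F ⊓ U :=
      le_antisymm (le_inf inf_le_left hle) (inf_le_inf_left _ hUP)
    have h1 : (B m F).orthogonal (X0 m F ⊔ U) = X0 m F ⊓ U := by
      rw [orth_sup, X0_orth, ← heq]
    have h2 := LinearMap.BilinForm.finrank_orthogonal (B_nondeg (m := m) (F := F)) (X0 m F ⊔ U)
    have h3 := Submodule.finrank_sup_add_finrank_inf_eq (X0 m F) U
    rw [h1, hV] at h2
    rw [X0_finrank] at h3
    omega
  set W₁ := U ⊔ Submodule.span F {x} with hW₁
  have hW₁r : Module.finrank F W₁ = m := by rw [hW₁, finrank_sup_span U x hxU]; exact hUr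
  have hxW₁ : x ∈ W₁ := Submodule.mem_sup_right (Submodule.mem_span_singleton_self x)
  have hW₁P : W₁ ≤ P := sup_le hUP ((Submodule.span_singleton_le_iff_mem x P).2 hxP)
  obtain ⟨y, hyP, hyW₁⟩ : ∃ y ∈ P, y ∉ W₁ := by
    by_contra hcon
    have hle : P ≤ W₁ := by
      intro z hz
      by_contra hzW
      exact hcon ⟨z, hz, hzW⟩
    have := Submodule.finrank_mono hle
    omega
  have hPeq : W₁ ⊔ Submodule.span F {y} = P := by
    apply Submodule.eq_of_le_of_finrank_eq
      (sup_le hW₁P ((Submodule.span_singleton_le_iff_mem y P).2 hyP))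
    rw [finrank_sup_span W₁ y hyW₁, hW₁r, hPr]
  have hdec : ∀ p ∈ P, ∃ u ∈ U, ∃ a b : F, p = u + a • x + b • y := by
    intro p hp
    rw [← hPeq] at hp
    obtain ⟨w, hw, z, hz, rfl⟩ := Submodule.mem_sup.1 hp
    obtain ⟨b, rfl⟩ := Submodule.mem_span_singleton.1 hz
    obtain ⟨u, hu, z', hz', rfl⟩ := Submodule.mem_sup.1 hw
    obtain ⟨a, rfl⟩ := Submodule.mem_span_singleton.1 hz'
    exact ⟨u, hu, a, b, rfl⟩
  have hBux : ∀ u ∈ U, B m F u x = 0 := fun u hu => hxP u hu
  have hBuy : ∀ u ∈ U, B m F u y = 0 := fun u hu => hyP u hu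
  have hQ : ∀ u ∈ U, ∀ a b : F, quadFormPlus m F (u + a • x + b • y) =
      b * (b * quadFormPlus m F y + a * B m F x y) := by
    intro u hu a b
    rw [Q_add, Q_add, Q_smul, Q_smul, hUQ u hu, hxQ]
    simp only [map_add, map_smul, LinearMap.add_apply, LinearMap.smul_apply, smul_eq_mul,
      hBux u hu, hBuy u hu]
    ring
  have hBxy : B m F x y ≠ 0 := by
    intro h0
    apply hxU
    rw [← LinearMap.BilinForm.orthogonal_orthogonal B_nondeg B_refl U]
    intro p hp
    obtain ⟨u, hu, a, b, rfl⟩ := hdec p hp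
    change B m F (u + a • x + b • y) x = 0
    simp only [map_add, map_smul, LinearMap.add_apply,
      LinearMap.smul_apply, smul_eq_mul, hBux u hu, B_self, hxQ, B_comm y x, h0]
    ring
  set c := quadFormPlus m F y / B m F x y with hc
  set y' := y - c • x with hy'
  have hy'P : y' ∈ P := P.sub_mem hyP (P.smul_mem c hxP)
  have hy'W₁ : y' ∉ W₁ := by
    intro h
    apply hyW₁
    have : y = y' + c • x := by rw [hy']; abel
    rw [this]; exact W₁.add_mem h (W₁.smul_mem c hxW₁)
  have hy'U : y' ∉ U := fun h => hy'W₁ (Submodule.mem_sup_left h)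
  have hy'Q : quadFormPlus m F y' = 0 := by
    have : y' = 0 + (-c) • x + (1 : F) • y := by rw [hy']; simp; abel
    rw [this, hQ 0 U.zero_mem, hc]; field_simp; ring
  set W₂ := U ⊔ Submodule.span F {y'} with hW₂
  have hW₂r : Module.finrank F W₂ = m := by rw [hW₂, finrank_sup_span U y' hy'U]; exact hUr
  have hts : ∀ z ∈ P, quadFormPlus m F z = 0 →
      ∀ w ∈ U ⊔ Submodule.span F {z}, quadFormPlus m F w = 0 := by
    intro z hzP hzQ w hw
    obtain ⟨u, hu, z', hz', rfl⟩ := Submodule.mem_sup.1 hw
    obtain ⟨a, rfl⟩ := Submodule.mem_span_singleton.1 hz'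
    rw [Q_add, Q_smul, hUQ u hu, hzQ]
    have : B m F u z = 0 := hzP u hu
    simp [this]
  rw [Nat.card_eq_two_iff]
  refine ⟨⟨W₁, hW₁r, hts x hxP hxQ, le_sup_left⟩, ⟨W₂, hW₂r, hts y' hy'P hy'Q, le_sup_left⟩,
    ?_, ?_⟩
  · intro h
    have : W₁ = W₂ := congrArg Subtype.val h
    apply hy'W₁; rw [this]
    exact Submodule.mem_sup_right (Submodule.mem_span_singleton_self y')
  · rw [Set.eq_univ_iff_forall]
    rintro ⟨W, hWr, hWQ, hUW⟩
    have hWP : W ≤ P := fun w hw u hu => B_zero_of_ts W hWQ u w (hUW hu) hw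
    obtain ⟨w, hwW, hwU⟩ : ∃ w ∈ W, w ∉ U := by
      by_contra hcon
      have hle : W ≤ U := by
        intro z hz
        by_contra hzU
        exact hcon ⟨z, hz, hzU⟩
      have := Submodule.finrank_mono hle
      omega
    obtain ⟨u, hu, a, b, rfl⟩ := hdec w (hWP hwW)
    have hQw := hWQ _ hwW
    rw [hQ u hu] at hQw
    have hcases : W₁ = W ∨ W₂ = W := by
      by_cases hb0 : b = 0
      · left
        have ha : a ≠ 0 := by
          rintro rfl; apply hwU; simp [hb0, hu]
        have hxW : x ∈ W := by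
          have h1 : a • x ∈ W := by
            have := W.sub_mem hwW (hUW hu)
            simpa [hb0] using this
          have := W.smul_mem a⁻¹ h1
          rwa [smul_smul, inv_mul_cancel₀ ha, one_smul] at this
        exact Submodule.eq_of_le_of_finrank_eq
          (sup_le hUW ((Submodule.span_singleton_le_iff_mem x W).2 hxW)) (by rw [hW₁r, hWr])
      · right
        have hb : b * quadFormPlus m F y + a * B m F x y = 0 := by
          rcases mul_eq_zero.1 hQw with h | h
          · exact absurd h hb0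
          · exact h
        have ha : a = - b * c := by rw [hc]; field_simp; linear_combination hb
        have hy'W : y' ∈ W := by
          have h1 : b • y' ∈ W := by
            have := W.sub_mem hwW (hUW hu)
            have e : u + a • x + b • y - u = b • y' := by
              rw [hy', ha, smul_sub, smul_smul]; simp only [neg_mul, neg_smul]; abel
            rwa [e] at this
          have := W.smul_mem b⁻¹ h1
          rwa [smul_smul, inv_mul_cancel₀ hb0, one_smul] at this
        exact Submodule.eq_of_le_of_finrank_eq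
          (sup_le hUW ((Submodule.span_singleton_le_iff_mem y' W).2 hy'W)) (by rw [hW₂r, hWr])
    rcases hcases with h | h
    · left; exact Subtype.ext h.symm
    · right; exact Subtype.ext h.symm

end Cfsg.Agent.S0832
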