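import Cfsg.Statements.S0831
import Mathlib
import Cfsg.Agent.S0832

set_option autoImplicit false
open Cfsg

namespace Cfsg.Agent.S0831

open Cfsg.Agent.S0832 Module

variable {F : Type*} [Field F] {m : ℕ}

abbrev IsMaxTS (U : Submodule F (Fin m ⊕ Fin m → F)) : Prop :=
  Module.finrank F U = m ∧ ∀ w ∈ U, quadFormPlus m F w = 0

theorem max_orth (U : Submodule F (Fin m ⊕ Fin m → F)) (hU : IsMaxTS U) :
    (B m F).orthogonal U = U := by
  symm
  apply Submodule.eq_of_le_of_finrank_eq (ts_le_orth _ hU.2)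
  rw [LinearMap.BilinForm.finrank_orthogonal B_nondeg, finrank_V, hU.1]; omega

theorem sing_mem (U U' : Submodule F (Fin m ⊕ Fin m → F)) (hU : IsMaxTS U) (hU' : IsMaxTS U')
    (hUU' : finrank F (U ⊓ U' : Submodule F (Fin m ⊕ Fin m → F)) + 1 = m)
    (x : Fin m ⊕ Fin m → F) (hxP : x ∈ (B m F).orthogonal (U ⊓ U'))
    (hxQ : quadFormPlus m F x = 0) : x ∈ U ∨ x ∈ U' := by
  obtain ⟨u', hu'U', hu'U⟩ : ∃ u' ∈ U', u' ∉ U := by
    by_contra hcon
    have hle : U' ≤ U := by
      intro z hz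
      by_contra hzU
      exact hcon ⟨z, hz, hzU⟩
    have : U ⊓ U' = U' := inf_eq_right.2 hle
    rw [this, hU'.1] at hUU'
    omega
  have hu'R : u' ∉ U ⊓ U' := fun h => hu'U h.1
  have hU'eq : (U ⊓ U') ⊔ Submodule.span F {u'} = U' := by
    apply Submodule.eq_of_le_of_finrank_eq
      (sup_le inf_le_right ((Submodule.span_singleton_le_iff_mem u' U').2 hu'U'))
    rw [finrank_sup_span (U ⊓ U') u' hu'R, hU'.1]; exact hUU'
  have hPr : finrank F ((B m F).orthogonal (U ⊓ U')) = m + 1 := by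
    rw [LinearMap.BilinForm.finrank_orthogonal B_nondeg, finrank_V]; omega
  have hUP : U ≤ (B m F).orthogonal (U ⊓ U') := by
    calc U = (B m F).orthogonal U := (max_orth U hU).symm
      _ ≤ (B m F).orthogonal (U ⊓ U') := LinearMap.BilinForm.orthogonal_le inf_le_left
  have hU'P : U' ≤ (B m F).orthogonal (U ⊓ U') := by
    calc U' = (B m F).orthogonal U' := (max_orth U' hU').symm
      _ ≤ (B m F).orthogonal (U ⊓ U') := LinearMap.BilinForm.orthogonal_le inf_le_right
  have hPeq : U ⊔ Submodule.span F {u'} = (B m F).orthogonal (U ⊓ U') := by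
    apply Submodule.eq_of_le_of_finrank_eq
      (sup_le hUP ((Submodule.span_singleton_le_iff_mem u' _).2 (hU'P hu'U')))
    rw [finrank_sup_span U u' hu'U, hU.1, hPr]
  rw [← hPeq] at hxP
  obtain ⟨w, hw, z, hz, rfl⟩ := Submodule.mem_sup.1 hxP
  obtain ⟨b, rfl⟩ := Submodule.mem_span_singleton.1 hz
  by_cases hb : b = 0
  · left; simpa [hb] using hw
  · right
    have hQ := hxQ
    rw [Q_add, Q_smul, hU.2 w hw, hU'.2 u' hu'U'] at hQ
    have hBw : B m F w u' = 0 := by
      have : b * B m F w u' = 0 := by simpa using hQ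
      rcases mul_eq_zero.1 this with h | h
      · exact absurd h hb
      · exact h
    have hwU' : w ∈ (B m F).orthogonal ((U ⊓ U') ⊔ Submodule.span F {u'}) := by
      rw [orth_sup]
      refine ⟨?_, ?_⟩
      · intro r hr
        exact B_zero_of_ts U hU.2 r w hr.1 hw
      · intro n hn
        obtain ⟨c, rfl⟩ := Submodule.mem_span_singleton.1 hn
        change B m F (c • u') w = 0
        simp [B_comm u' w, hBw]
    rw [hU'eq, max_orth U' hU'] at hwU'
    exact U'.add_mem hwU' (U'.smul_mem b hu'U')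

theorem key (U U' X : Submodule F (Fin m ⊕ Fin m → F)) (hU : IsMaxTS U) (hU' : IsMaxTS U')
    (hX : IsMaxTS X)
    (hUU' : finrank F (U ⊓ U' : Submodule F (Fin m ⊕ Fin m → F)) + 1 = m) :
    finrank F (X ⊓ U : Submodule F (Fin m ⊕ Fin m → F)) =
        finrank F (X ⊓ U' : Submodule F (Fin m ⊕ Fin m → F)) + 1 ∨
      finrank F (X ⊓ U' : Submodule F (Fin m ⊕ Fin m → F)) =
        finrank F (X ⊓ U : Submodule F (Fin m ⊕ Fin m → F)) + 1 := by
  have hUP : U ≤ (B m F).orthogonal (U ⊓ U') := by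
    calc U = (B m F).orthogonal U := (max_orth U hU).symm
      _ ≤ (B m F).orthogonal (U ⊓ U') := LinearMap.BilinForm.orthogonal_le inf_le_left
  have hU'P : U' ≤ (B m F).orthogonal (U ⊓ U') := by
    calc U' = (B m F).orthogonal U' := (max_orth U' hU').symm
      _ ≤ (B m F).orthogonal (U ⊓ U') := LinearMap.BilinForm.orthogonal_le inf_le_right
  have h1 : (B m F).orthogonal (X ⊔ (U ⊓ U')) = X ⊓ (B m F).orthogonal (U ⊓ U') := by
    rw [orth_sup, max_orth X hX]
  have h2 := LinearMap.BilinForm.finrank_orthogonal (B_nondeg (m := m) (F := F)) (X ⊔ (U ⊓ U'))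
  have h3 := Submodule.finrank_sup_add_finrank_inf_eq X (U ⊓ U')
  rw [h1, finrank_V] at h2
  have h4 : finrank F (X ⊔ (U ⊓ U') : Submodule F (Fin m ⊕ Fin m → F)) ≤ 2 * m := by
    rw [← finrank_V (F := F) (m := m)]; exact Submodule.finrank_le _
  have hd : finrank F (X ⊓ (B m F).orthogonal (U ⊓ U') : Submodule F (Fin m ⊕ Fin m → F)) =
      finrank F (X ⊓ (U ⊓ U') : Submodule F (Fin m ⊕ Fin m → F)) + 1 := by
    rw [hX.1] at h3; omega
  have hRU : X ⊓ (U ⊓ U') ≤ X ⊓ U := inf_le_inf_left _ inf_le_left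
  have hRU' : X ⊓ (U ⊓ U') ≤ X ⊓ U' := inf_le_inf_left _ inf_le_right
  have hUPX : X ⊓ U ≤ X ⊓ (B m F).orthogonal (U ⊓ U') := inf_le_inf_left _ hUP
  have hU'PX : X ⊓ U' ≤ X ⊓ (B m F).orthogonal (U ⊓ U') := inf_le_inf_left _ hU'P
  have e1 := Submodule.finrank_mono hRU
  have e2 := Submodule.finrank_mono hRU'
  have e3 := Submodule.finrank_mono hUPX
  have e4 := Submodule.finrank_mono hU'PX
  have hnot1 : ¬ (finrank F (X ⊓ U : Submodule F (Fin m ⊕ Fin m → F)) =
        finrank F (X ⊓ (B m F).orthogonal (U ⊓ U') : Submodule F (Fin m ⊕ Fin m → F)) ∧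
      finrank F (X ⊓ U' : Submodule F (Fin m ⊕ Fin m → F)) =
        finrank F (X ⊓ (B m F).orthogonal (U ⊓ U') : Submodule F (Fin m ⊕ Fin m → F))) := by
    rintro ⟨ha, hb⟩
    have ea : X ⊓ U = X ⊓ (B m F).orthogonal (U ⊓ U') :=
      Submodule.eq_of_le_of_finrank_eq hUPX ha
    have eb : X ⊓ U' = X ⊓ (B m F).orthogonal (U ⊓ U') :=
      Submodule.eq_of_le_of_finrank_eq hU'PX hb
    have hle : X ⊓ (B m F).orthogonal (U ⊓ U') ≤ X ⊓ (U ⊓ U') := by
      intro z hz
      have hzU : z ∈ X ⊓ U := by rw [ea]; exact hz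
      have hzU' : z ∈ X ⊓ U' := by rw [eb]; exact hz
      exact ⟨hz.1, hzU.2, hzU'.2⟩
    have := Submodule.finrank_mono hle
    omega
  have hnot2 : ¬ (finrank F (X ⊓ U : Submodule F (Fin m ⊕ Fin m → F)) =
        finrank F (X ⊓ (U ⊓ U') : Submodule F (Fin m ⊕ Fin m → F)) ∧
      finrank F (X ⊓ U' : Submodule F (Fin m ⊕ Fin m → F)) =
        finrank F (X ⊓ (U ⊓ U') : Submodule F (Fin m ⊕ Fin m → F))) := by
    rintro ⟨ha, hb⟩
    have ea : X ⊓ (U ⊓ U') = X ⊓ U := Submodule.eq_of_le_of_finrank_eq hRU ha.symm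
    have eb : X ⊓ (U ⊓ U') = X ⊓ U' := Submodule.eq_of_le_of_finrank_eq hRU' hb.symm
    obtain ⟨x, hxP, hxR⟩ : ∃ x ∈ X ⊓ (B m F).orthogonal (U ⊓ U'), x ∉ X ⊓ (U ⊓ U') := by
      by_contra hcon
      have hle : X ⊓ (B m F).orthogonal (U ⊓ U') ≤ X ⊓ (U ⊓ U') := by
        intro z hz
        by_contra hzU
        exact hcon ⟨z, hz, hzU⟩
      have := Submodule.finrank_mono hle
      omega
    rcases sing_mem U U' hU hU' hUU' x hxP.2 (hX.2 x hxP.1) with h | h
    · apply hxR; rw [ea]; exact ⟨hxP.1, h⟩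
    · apply hxR; rw [eb]; exact ⟨hxP.1, h⟩
  omega

theorem step (U : Submodule F (Fin m ⊕ Fin m → F)) (hU : IsMaxTS U) (w : Fin m ⊕ Fin m → F)
    (hwQ : quadFormPlus m F w = 0) (hwU : w ∉ U) :
    ∃ U₁ : Submodule F (Fin m ⊕ Fin m → F), IsMaxTS U₁ ∧
      finrank F (U ⊓ U₁ : Submodule F (Fin m ⊕ Fin m → F)) + 1 = m ∧ w ∈ U₁ ∧
      U ⊓ (B m F).orthogonal (Submodule.span F {w}) ≤ U₁ := by
  have hReq : (B m F).orthogonal (U ⊔ Submodule.span F {w}) =
      U ⊓ (B m F).orthogonal (Submodule.span F {w}) := by rw [orth_sup, max_orth U hU]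
  have hRr : finrank F (U ⊓ (B m F).orthogonal (Submodule.span F {w}) :
      Submodule F (Fin m ⊕ Fin m → F)) + 1 = m := by
    rw [← hReq, LinearMap.BilinForm.finrank_orthogonal B_nondeg, finrank_V,
      finrank_sup_span U w hwU, hU.1]
    have : 1 ≤ m := by
      by_contra h
      have hm0 : m = 0 := by omega
      subst hm0
      exact hwU (by rw [Subsingleton.elim w 0]; exact U.zero_mem)
    omega
  have hwR : w ∉ U ⊓ (B m F).orthogonal (Submodule.span F {w}) := fun h => hwU h.1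
  have h5 : finrank F ((U ⊓ (B m F).orthogonal (Submodule.span F {w})) ⊔ Submodule.span F {w} :
      Submodule F (Fin m ⊕ Fin m → F)) = m := by
    rw [finrank_sup_span _ w hwR]; exact hRr
  refine ⟨(U ⊓ (B m F).orthogonal (Submodule.span F {w})) ⊔ Submodule.span F {w}, ⟨h5, ?_⟩, ?_,
    Submodule.mem_sup_right (Submodule.mem_span_singleton_self w), le_sup_left⟩
  · intro z hz
    obtain ⟨r, hr, z', hz', rfl⟩ := Submodule.mem_sup.1 hz
    obtain ⟨a, rfl⟩ := Submodule.mem_span_singleton.1 hz'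
    rw [Q_add, Q_smul, hU.2 r hr.1, hwQ]
    have : B m F w r = 0 := hr.2 w (Submodule.mem_span_singleton_self w)
    simp [B_comm r w, this]
  · have h1 : U ⊓ (B m F).orthogonal (Submodule.span F {w}) ≤
        U ⊓ ((U ⊓ (B m F).orthogonal (Submodule.span F {w})) ⊔ Submodule.span F {w}) :=
      le_inf inf_le_left le_sup_left
    have h2 := Submodule.finrank_mono h1
    have h3 : finrank F (U ⊓ ((U ⊓ (B m F).orthogonal (Submodule.span F {w})) ⊔
        Submodule.span F {w}) : Submodule F (Fin m ⊕ Fin m → F)) < m := by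
      by_contra hcon
      have h4 : finrank F (U ⊓ ((U ⊓ (B m F).orthogonal (Submodule.span F {w})) ⊔
          Submodule.span F {w}) : Submodule F (Fin m ⊕ Fin m → F)) ≤
          finrank F ((U ⊓ (B m F).orthogonal (Submodule.span F {w})) ⊔ Submodule.span F {w} :
            Submodule F (Fin m ⊕ Fin m → F)) := Submodule.finrank_mono inf_le_right
      have h6 : U ⊓ ((U ⊓ (B m F).orthogonal (Submodule.span F {w})) ⊔ Submodule.span F {w}) =
          (U ⊓ (B m F).orthogonal (Submodule.span F {w})) ⊔ Submodule.span F {w} :=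
        Submodule.eq_of_le_of_finrank_eq inf_le_right (by omega)
      apply hwU
      have hw : w ∈ U ⊓ ((U ⊓ (B m F).orthogonal (Submodule.span F {w})) ⊔
          Submodule.span F {w}) := by
        rw [h6]; exact Submodule.mem_sup_right (Submodule.mem_span_singleton_self w)
      exact hw.1
    omega

theorem parity (n : ℕ) : ∀ U W : Submodule F (Fin m ⊕ Fin m → F), IsMaxTS U → IsMaxTS W →
    m - finrank F (U ⊓ W : Submodule F (Fin m ⊕ Fin m → F)) = n →
    ∀ X : Submodule F (Fin m ⊕ Fin m → F), IsMaxTS X →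
      Even ((m - finrank F (U ⊓ X : Submodule F (Fin m ⊕ Fin m → F))) +
        (m - finrank F (W ⊓ X : Submodule F (Fin m ⊕ Fin m → F))) + n) := by
  induction n using Nat.strong_induction_on with
  | _ n ih =>
    intro U W hU hW hn X hX
    by_cases hUW : U = W
    · subst hUW
      have : n = 0 := by rw [← hn, inf_idem, hU.1]; simp
      subst this
      exact ⟨m - finrank F (U ⊓ X : Submodule F (Fin m ⊕ Fin m → F)), by ring⟩
    · obtain ⟨w, hwW, hwU⟩ : ∃ w ∈ W, w ∉ U := by
        by_contra hcon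
        have hle : W ≤ U := by
          intro z hz
          by_contra hzU
          exact hcon ⟨z, hz, hzU⟩
        exact hUW (Submodule.eq_of_le_of_finrank_eq hle (by rw [hU.1, hW.1])).symm
      obtain ⟨U₁, hU₁, hUU₁, hwU₁, hRU₁⟩ := step U hU w (hW.2 w hwW) hwU
      have hlt : finrank F (U ⊓ W : Submodule F (Fin m ⊕ Fin m → F)) + 1 ≤
          finrank F (U₁ ⊓ W : Submodule F (Fin m ⊕ Fin m → F)) := by
        have hwUW : w ∉ U ⊓ W := fun h => hwU h.1
        rw [← finrank_sup_span (U ⊓ W) w hwUW]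
        apply Submodule.finrank_mono
        apply sup_le
        · apply le_inf _ inf_le_right
          refine le_trans (le_inf inf_le_left ?_) hRU₁
          intro z hz n hn
          obtain ⟨a, rfl⟩ := Submodule.mem_span_singleton.1 hn
          have := B_zero_of_ts W hW.2 w z hwW hz.2
          change B m F (a • w) z = 0
          simp [this]
        · exact (Submodule.span_singleton_le_iff_mem w _).2 ⟨hwU₁, hwW⟩
      have hle1 : finrank F (U₁ ⊓ W : Submodule F (Fin m ⊕ Fin m → F)) ≤ m := by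
        exact le_trans (Submodule.finrank_mono inf_le_right) (le_of_eq hW.1)
      have ih' := ih (m - finrank F (U₁ ⊓ W : Submodule F (Fin m ⊕ Fin m → F))) (by omega)
        U₁ W hU₁ hW rfl
      have k1 := key U U₁ X hU hU₁ hX hUU₁
      have k2 := key U U₁ W hU hU₁ hW hUU₁
      have e1 := ih' X hX
      rw [inf_comm X U, inf_comm X U₁] at k1
      rw [inf_comm W U, inf_comm W U₁] at k2
      have b1 : finrank F (U ⊓ X : Submodule F (Fin m ⊕ Fin m → F)) ≤ m := by
        exact le_trans (Submodule.finrank_mono inf_le_left) (le_of_eq hU.1)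
      have b2 : finrank F (U₁ ⊓ X : Submodule F (Fin m ⊕ Fin m → F)) ≤ m := by
        exact le_trans (Submodule.finrank_mono inf_le_left) (le_of_eq hU₁.1)
      have b3 : finrank F (W ⊓ X : Submodule F (Fin m ⊕ Fin m → F)) ≤ m := by
        exact le_trans (Submodule.finrank_mono inf_le_left) (le_of_eq hW.1)
      have b4 : finrank F (U ⊓ W : Submodule F (Fin m ⊕ Fin m → F)) ≤ m := by
        exact le_trans (Submodule.finrank_mono inf_le_left) (le_of_eq hU.1)
      rw [Nat.even_iff] at e1 ⊢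
      omega

/-- The two families of maximal totally singular subspaces of the hyperbolic quadric: for the form Σ x_i y_i on F^(2m), m ≥ 1, and m-dimensional subspaces U, W, X on which it vanishes, the parities of m − dim(U ∩ W), m − dim(W ∩ X) and m − dim(U ∩ X) sum to an even number (so 'even codimension of the intersection' is an equivalence relation), and there exist two such subspaces meeting in codimension 1 (so there are exactly two classes). -/
theorem result {F : Type*} [Field F] (m : ℕ) (hm : 1 ≤ m) : (∀ U W X : Submodule F (Fin m ⊕ Fin m → F), (Module.finrank F U = m ∧ ∀ w ∈ U, Cfsg.quadFormPlus m F w = 0) → (Module.finrank F W = m ∧ ∀ w ∈ W, Cfsg.quadFormPlus m F w = 0) → (Module.finrank F X = m ∧ ∀ w ∈ X, Cfsg.quadFormPlus m F w = 0) → Even ((m - Module.finrank F ↥(U ⊓ W)) + (m - Module.finrank F ↥(W ⊓ X)) + (m - Module.finrank F ↥(U ⊓ X)))) ∧ ∃ U W : Submodule F (Fin m ⊕ Fin m → F), (Module.finrank F U = m ∧ ∀ w ∈ U, Cfsg.quadFormPlus m F w = 0)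 ∧ (Module.finrank F W = m ∧ ∀ w ∈ W, Cfsg.quadFormPlus m F w = 0) ∧ Module.finrank F ↥(U ⊓ W) + 1 = m := by
  refine ⟨fun U W X hU hW hX => ?_, ?_⟩
  · have := parity (m - finrank F (U ⊓ W : Submodule F (Fin m ⊕ Fin m → F))) U W hU hW rfl X hX
    rw [Nat.even_iff] at this ⊢
    omega
  · classical
    have hX0 : IsMaxTS (X0 m F) := ⟨X0_finrank, X0_Q⟩
    have hwQ : quadFormPlus m F (Pi.single (Sum.inr (⟨0, hm⟩ : Fin m)) (1 : F)) = 0 := by
      simp [quadFormPlus]
    have hwU : (Pi.single (Sum.inr (⟨0, hm⟩ : Fin m)) (1 : F) : Fin m ⊕ Fin m → F) ∉ X0 m F := by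
      rw [mem_X0]
      intro h
      have := h ⟨0, hm⟩
      simp at this
    obtain ⟨U₁, hU₁, hUU₁, -, -⟩ := step (X0 m F) hX0 _ hwQ hwU
    exact ⟨X0 m F, U₁, hX0, hU₁, hUU₁⟩

end Cfsg.Agent.S0831
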