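import Cfsg.Statements.S1137
import Mathlib

set_option autoImplicit false
open Cfsg

namespace Cfsg.Agent.S1137

open Subgroup

section gen
variable {P : Type*} [Group P]

lemma aut_center (f : MulAut P) {z : P} (hz : z ∈ center P) : f z ∈ center P := by
  rw [Subgroup.mem_center_iff] at hz ⊢
  intro g
  have h := hz (f.symm g)
  have := congrArg f h
  simpa using this

lemma sq_one_mul {a b : P} (ha : a ∈ center P) (ha2 : a * a = 1) (hb2 : b * b = 1) :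
    (a * b) * (a * b) = 1 := by
  rw [Subgroup.mem_center_iff] at ha
  calc a * b * (a * b) = a * (b * a) * b := by group
    _ = a * (a * b) * b := by rw [ha b]
    _ = (a * a) * (b * b) := by group
    _ = 1 := by rw [ha2, hb2, one_mul]

lemma inv_eq_self_of_sq {a : P} (ha : a * a = 1) : a⁻¹ = a :=
  inv_eq_of_mul_eq_one_left ha

lemma exists_invol_pow (hp : IsPGroup 2 P) {z : P} (hz : z ≠ 1) :
    ∃ m : ℕ, z ^ m ≠ 1 ∧ z ^ m * z ^ m = 1 := by
  classical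
  have hex : ∃ k, z ^ 2 ^ k = 1 := hp z
  have hk := Nat.find_spec hex
  have hk0 : Nat.find hex ≠ 0 := by
    intro h0
    rw [h0] at hk
    simp at hk
    exact hz hk
  obtain ⟨j, hj⟩ := Nat.exists_eq_succ_of_ne_zero hk0
  refine ⟨2 ^ j, ?_, ?_⟩
  · exact Nat.find_min hex (m := j) (by omega)
  · rw [← pow_add, ← two_mul, ← pow_succ', ← Nat.succ_eq_add_one, ← hj]; exact hk

lemma exists_order4_pow (hp : IsPGroup 2 P) {z : P} (hz : z * z ≠ 1) :
    ∃ m : ℕ, z ^ m * z ^ m ≠ 1 ∧ (z ^ m * z ^ m) * (z ^ m * z ^ m) = 1 := by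
  obtain ⟨m, h1, h2⟩ := exists_invol_pow hp hz
  have e : (z * z) ^ m = z ^ m * z ^ m := ((Commute.refl z).mul_pow m)
  rw [e] at h1 h2
  exact ⟨m, h1, h2⟩

end gen

section act
variable {P : Type*} [Group P] {K : Type*} [CommGroup K] (φ : K →* MulAut P)

def Reg : Prop :=
  ∀ x y : P, x ≠ 1 → x * x = 1 → y ≠ 1 → y * y = 1 → ∃! k : K, φ k x = y

variable {φ}

lemma invol_central [Finite P] (hp : IsPGroup 2 P) (hreg : Reg φ) (x : P) (hx : x * x = 1) :
    x ∈ center P := by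
  by_cases hx1 : x = 1
  · subst hx1; exact one_mem _
  have : Nontrivial P := ⟨⟨x, 1, hx1⟩⟩
  have := hp.center_nontrivial
  obtain ⟨⟨z, hz⟩, hz1⟩ := exists_ne (1 : center P)
  have hz1' : z ≠ 1 := fun h => hz1 (Subtype.ext h)
  obtain ⟨m, hm1, hm2⟩ := exists_invol_pow hp hz1'
  obtain ⟨k, hk, -⟩ := hreg (z ^ m) x hm1 hm2 hx1 hx
  rw [← hk]
  exact aut_center _ (pow_mem hz m)

/-- the subgroup of elements of square one -/
def Esub (hc : ∀ x : P, x * x = 1 → x ∈ center P) : Subgroup P where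
  carrier := {x | x * x = 1}
  one_mem' := by simp
  mul_mem' := by
    intro a b ha hb
    exact sq_one_mul (hc a ha) ha hb
  inv_mem' := by
    intro a ha
    change a * a = 1 at ha; change a⁻¹ * a⁻¹ = 1
    rw [← mul_inv_rev, ha, inv_one]

lemma mem_Esub (hc : ∀ x : P, x * x = 1 → x ∈ center P) (x : P) :
    x ∈ Esub hc ↔ x * x = 1 := Iff.rfl

instance Esub_normal (hc : ∀ x : P, x * x = 1 → x ∈ center P) : (Esub hc).Normal :=
  ⟨fun n hn g => by
    have h1 : g * n * g⁻¹ = n := by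
      have := Subgroup.mem_center_iff.mp (hc n hn) g
      rw [this]; group
    rw [h1]; exact hn⟩

lemma Esub_map (hc : ∀ x : P, x * x = 1 → x ∈ center P) (κ : K) :
    (Esub hc).map ((φ κ : P ≃* P) : P →* P) = Esub hc := by
  ext y
  constructor
  · rintro ⟨x, hx, rfl⟩
    show φ κ x * φ κ x = 1
    rw [← map_mul, (hx : x * x = 1), map_one]
  · intro hy
    refine ⟨(φ κ).symm y, ?_, by simp⟩
    show (φ κ).symm y * (φ κ).symm y = 1
    rw [← map_mul, (hy : y * y = 1), map_one]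

/-- the induced action on the quotient -/
def quotAct (hc : ∀ x : P, x * x = 1 → x ∈ center P) : K →* MulAut (P ⧸ Esub hc) where
  toFun κ := QuotientGroup.congr (Esub hc) (Esub hc) (φ κ) (Esub_map hc κ)
  map_one' := by
    ext x
    induction x using QuotientGroup.induction_on with
    | H x => simp
  map_mul' := by
    intro a b
    ext x
    induction x using QuotientGroup.induction_on with
    | H x => simp

lemma quotAct_mk (hc : ∀ x : P, x * x = 1 → x ∈ center P) (κ : K) (x : P) :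
    quotAct (φ := φ) hc κ (QuotientGroup.mk x) = QuotientGroup.mk (φ κ x) := rfl

end act


section main
variable {P : Type*} [Group P] {K : Type*} [CommGroup K] {φ : K →* MulAut P}

lemma sq_mul_central {x c : P} (hc : c ∈ center P) : (x * c) * (x * c) = (x * x) * (c * c) := by
  have h := Subgroup.mem_center_iff.mp hc x
  calc x * c * (x * c) = x * (c * x) * c := by group
    _ = x * (x * c) * c := by rw [h]
    _ = (x * x) * (c * c) := by group

lemma stepA (hreg : Reg φ) {z : P} (hz : z ∈ center P) (hz2 : z * z ≠ 1)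
    (hz4 : (z * z) * (z * z) = 1) (e : P) (he : e * e = 1) : ∃ c ∈ center P, c * c = e := by
  by_cases he1 : e = 1
  · exact ⟨1, one_mem _, by simp [he1]⟩
  obtain ⟨κ, hκ, -⟩ := hreg (z * z) e hz2 hz4 he1 he
  exact ⟨φ κ z, aut_center _ hz, by rw [← map_mul, hκ]⟩

lemma order4_central (hc : ∀ x : P, x * x = 1 → x ∈ center P)
    (hA : ∀ e : P, e * e = 1 → ∃ c ∈ center P, c * c = e) (x : P)
    (hx : (x * x) * (x * x) = 1) : x ∈ center P := by
  obtain ⟨c, hcc, hc2⟩ := hA (x * x) hx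
  have h1 : (x * c⁻¹) * (x * c⁻¹) = 1 := by
    rw [sq_mul_central (inv_mem hcc), ← mul_inv_rev, hc2, mul_inv_cancel]
  have h2 := hc _ h1
  have : x = (x * c⁻¹) * c := by group
  rw [this]; exact mul_mem h2 hcc

lemma quot_key (hc : ∀ x : P, x * x = 1 → x ∈ center P) {a y : P} (ha : a ∈ center P) :
    ((a : P) : P ⧸ Esub hc) = (y : P ⧸ Esub hc) ↔ a * a = y * y := by
  rw [QuotientGroup.eq, mem_Esub]
  have h := Subgroup.mem_center_iff.mp (inv_mem ha) y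
  have e1 : (a⁻¹ * y) * (a⁻¹ * y) = (a * a)⁻¹ * (y * y) := by
    calc a⁻¹ * y * (a⁻¹ * y) = a⁻¹ * (y * a⁻¹) * y := by group
      _ = a⁻¹ * (a⁻¹ * y) * y := by rw [h]
      _ = (a * a)⁻¹ * (y * y) := by group
  rw [e1, inv_mul_eq_one]

lemma quot_invol (hc : ∀ x : P, x * x = 1 → x ∈ center P) (x : P) :
    ((x : P ⧸ Esub hc) * (x : P ⧸ Esub hc) = 1) ↔ (x * x) * (x * x) = 1 := by
  rw [← QuotientGroup.mk_mul, QuotientGroup.eq_one_iff, mem_Esub]

lemma quot_ne_one (hc : ∀ x : P, x * x = 1 → x ∈ center P) (x : P) :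
    ((x : P ⧸ Esub hc) ≠ 1) ↔ x * x ≠ 1 := by
  rw [Ne, QuotientGroup.eq_one_iff, mem_Esub]

lemma quot_reg (hc : ∀ x : P, x * x = 1 → x ∈ center P) (hreg : Reg φ)
    (hA : ∀ e : P, e * e = 1 → ∃ c ∈ center P, c * c = e) : Reg (quotAct (φ := φ) hc) := by
  intro X Y hX1 hX2 hY1 hY2
  induction X using QuotientGroup.induction_on with | H x => ?_
  induction Y using QuotientGroup.induction_on with | H y => ?_
  rw [quot_ne_one] at hX1 hY1
  rw [quot_invol] at hX2 hY2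
  have hxc := order4_central hc hA x hX2
  obtain ⟨κ, hκ, huniq⟩ := hreg (x * x) (y * y) hX1 hX2 hY1 hY2
  have key : ∀ κ' : K, quotAct (φ := φ) hc κ' (x : P ⧸ Esub hc) = (y : P ⧸ Esub hc) ↔
      φ κ' (x * x) = y * y := by
    intro κ'
    rw [quotAct_mk, quot_key hc (aut_center _ hxc), map_mul]
  exact ⟨κ, (key κ).mpr hκ, fun κ' h => huniq κ' ((key κ').mp h)⟩

lemma quot_two (hc : ∀ x : P, x * x = 1 → x ∈ center P)
    (hA : ∀ e : P, e * e = 1 → ∃ c ∈ center P, c * c = e)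
    (htwo : ∃ x y : P, x ≠ y ∧ x ≠ 1 ∧ x * x = 1 ∧ y ≠ 1 ∧ y * y = 1) :
    ∃ X Y : P ⧸ Esub hc, X ≠ Y ∧ X ≠ 1 ∧ X * X = 1 ∧ Y ≠ 1 ∧ Y * Y = 1 := by
  obtain ⟨x, y, hxy, hx1, hx2, hy1, hy2⟩ := htwo
  obtain ⟨c, hcc, hc2⟩ := hA x hx2
  obtain ⟨d, hdc, hd2⟩ := hA y hy2
  refine ⟨(c : P ⧸ Esub hc), (d : P ⧸ Esub hc), ?_, ?_, ?_, ?_, ?_⟩
  · intro h
    rw [quot_key hc hcc, hc2, hd2] at h
    exact hxy h
  · rw [quot_ne_one, hc2]; exact hx1
  · rw [quot_invol, hc2]; exact hx2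
  · rw [quot_ne_one, hd2]; exact hy1
  · rw [quot_invol, hd2]; exact hy2

lemma quot_card_lt [Finite P] (hc : ∀ x : P, x * x = 1 → x ∈ center P)
    (htwo : ∃ x y : P, x ≠ y ∧ x ≠ 1 ∧ x * x = 1 ∧ y ≠ 1 ∧ y * y = 1) :
    Nat.card (P ⧸ Esub hc) < Nat.card P := by
  obtain ⟨x, y, hxy, hx1, hx2, hy1, hy2⟩ := htwo
  have h1 := Subgroup.card_eq_card_quotient_mul_card_subgroup (Esub hc)
  have h2 : 1 < Nat.card (Esub hc) := by
    rw [Subgroup.one_lt_card_iff_ne_bot]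
    intro h
    have : x ∈ Esub hc := hx2
    rw [h, Subgroup.mem_bot] at this
    exact hx1 this
  have h3 : 0 < Nat.card (P ⧸ Esub hc) := Nat.card_pos
  nlinarith

lemma K_sq_surj [Finite P] (hc : ∀ x : P, x * x = 1 → x ∈ center P) (hreg : Reg φ)
    (htwo : ∃ x y : P, x ≠ y ∧ x ≠ 1 ∧ x * x = 1 ∧ y ≠ 1 ∧ y * y = 1) :
    ∀ μ : K, ∃ κ : K, μ = κ * κ := by
  obtain ⟨u, -, -, hu1, hu2, -, -⟩ := htwo
  have hinj : Function.Injective (fun κ : K => φ κ u) := by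
    intro a b hab
    have hb1 : φ b u ≠ 1 := by simpa using hu1
    have hb2 : φ b u * φ b u = 1 := by rw [← map_mul, hu2, map_one]
    obtain ⟨k, -, huniq⟩ := hreg u (φ b u) hu1 hu2 hb1 hb2
    exact (huniq a hab).trans (huniq b rfl).symm
  have : Finite K := Finite.of_injective _ hinj
  have hsqinj : Function.Injective (fun κ : K => κ * κ) := by
    intro a b hab
    have hab' : (a * b⁻¹) * (a * b⁻¹) = 1 := by
      have : (a * b⁻¹) * (a * b⁻¹) = (a * a) * (b * b)⁻¹ := by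
        rw [mul_inv_rev]; exact mul_mul_mul_comm _ _ _ _
      rw [this]; simp only at hab; rw [hab, mul_inv_cancel]
    have key : ∀ κ : K, κ * κ = 1 → κ = 1 := by
      intro κ hκ
      by_contra hκ1
      have hne : φ κ u ≠ u := by
        intro h
        obtain ⟨k, -, huniq⟩ := hreg u u hu1 hu2 hu1 hu2
        exact hκ1 ((huniq κ h).trans (huniq 1 (by simp)).symm)
      have hv2 : φ κ u * φ κ u = 1 := by rw [← map_mul, hu2, map_one]
      have hw1 : u * φ κ u ≠ 1 := by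
        intro h
        apply hne
        have := eq_inv_of_mul_eq_one_right h
        rw [this, inv_eq_self_of_sq hu2]
      have hw2 : (u * φ κ u) * (u * φ κ u) = 1 := sq_one_mul (hc u hu2) hu2 hv2
      have hfix : φ κ (u * φ κ u) = u * φ κ u := by
        rw [map_mul]
        have : φ κ (φ κ u) = u := by
          have : φ κ (φ κ u) = φ (κ * κ) u := by rw [map_mul]; rfl
          rw [this, hκ]; simp
        rw [this]
        exact (Subgroup.mem_center_iff.mp (hc u hu2) _)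
      obtain ⟨k, -, huniq⟩ := hreg _ _ hw1 hw2 hw1 hw2
      exact hκ1 ((huniq κ hfix).trans (huniq 1 (by simp)).symm)
    have := key _ hab'
    exact mul_inv_eq_one.mp this
  intro μ
  obtain ⟨κ, hκ⟩ := Finite.surjective_of_injective hsqinj μ
  exact ⟨κ, hκ.symm⟩

lemma case2 [Finite P] (hp : IsPGroup 2 P) (hc : ∀ x : P, x * x = 1 → x ∈ center P)
    (hO4 : ∀ x : P, (x * x) * (x * x) = 1 → x ∈ center P)
    (hIH : ∀ Z ∈ center (P ⧸ Esub hc), Z * Z = 1) (hnab : ∃ x y : P, x * y ≠ y * x) : False := by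
  obtain ⟨a, b, hab⟩ := hnab
  have hq : IsPGroup 2 (P ⧸ center P) := hp.to_quotient _
  have : Nontrivial (P ⧸ center P) := by
    refine ⟨⟨(a : P ⧸ center P), 1, ?_⟩⟩
    intro h
    rw [QuotientGroup.eq_one_iff] at h
    exact hab ((Subgroup.mem_center_iff.mp h b).symm)
  have := hq.center_nontrivial
  obtain ⟨⟨Z, hZ⟩, hZ1⟩ := exists_ne (1 : center (P ⧸ center P))
  have hZ1' : Z ≠ 1 := fun h => hZ1 (Subtype.ext h)
  obtain ⟨m, hm1, hm2⟩ := exists_invol_pow hq hZ1'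
  have hZm : Z ^ m ∈ center (P ⧸ center P) := pow_mem hZ m
  obtain ⟨g, hg⟩ := QuotientGroup.mk_surjective (Z ^ m)
  rw [← hg] at hm1 hm2 hZm
  have hg1 : g ∉ center P := fun h => hm1 ((QuotientGroup.eq_one_iff g).mpr h)
  have hg2 : g * g ∈ center P := by
    rw [← QuotientGroup.eq_one_iff, QuotientGroup.mk_mul]; exact hm2
  have hg3 : ∀ x : P, g * x * g⁻¹ * x⁻¹ ∈ center P := by
    intro x
    have := Subgroup.mem_center_iff.mp hZm (x : P ⧸ center P)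
    rw [← QuotientGroup.eq_one_iff]
    simp only [QuotientGroup.mk_mul, QuotientGroup.mk_inv]
    rw [← this]; group
  have hg4 : ∀ x : P, (g * x * g⁻¹ * x⁻¹) * (g * x * g⁻¹ * x⁻¹) = 1 := by
    intro x
    have hcc := Subgroup.mem_center_iff.mp (hg3 x)
    generalize hcdef : g * x * g⁻¹ * x⁻¹ = c at hcc
    have h1 : g * x = c * x * g := by rw [← hcdef]; group
    have h2 : (g * g) * x = c * c * x * (g * g) := by
      calc (g * g) * x = g * (g * x) := by group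
        _ = g * (c * x * g) := by rw [h1]
        _ = (g * c) * x * g := by group
        _ = (c * g) * x * g := by rw [hcc g]
        _ = c * (g * x) * g := by group
        _ = c * (c * x * g) * g := by rw [h1]
        _ = c * c * x * (g * g) := by group
    have h3 := Subgroup.mem_center_iff.mp hg2 x
    have h4 : c * c * x * (g * g) = x * (g * g) := by rw [← h2, h3]
    have h5 : c * c * x = x := mul_right_cancel h4
    exact mul_right_cancel (h5.trans (one_mul x).symm)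
  have hgE : (g : P ⧸ Esub hc) ∈ center (P ⧸ Esub hc) := by
    rw [Subgroup.mem_center_iff]
    intro X
    induction X using QuotientGroup.induction_on with | H x => ?_
    rw [← QuotientGroup.mk_mul, ← QuotientGroup.mk_mul, QuotientGroup.eq, mem_Esub]
    have hcc := Subgroup.mem_center_iff.mp (hg3 x) (x * g)
    have e1 : (x * g)⁻¹ * (g * x) = g * x * g⁻¹ * x⁻¹ := by
      calc (x * g)⁻¹ * (g * x) = (x * g)⁻¹ * ((g * x * g⁻¹ * x⁻¹) * (x * g)) := by group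
        _ = (x * g)⁻¹ * ((x * g) * (g * x * g⁻¹ * x⁻¹)) := by rw [hcc]
        _ = g * x * g⁻¹ * x⁻¹ := by group
    rw [e1]; exact hg4 x
  have h5 := hIH _ hgE
  rw [quot_invol] at h5
  exact hg1 (hO4 g h5)

end main


section case1
open scoped commutatorElement
variable {P : Type*} [Group P] {K : Type*} [CommGroup K] {φ : K →* MulAut P}

lemma comm_central (hc : ∀ x : P, x * x = 1 → x ∈ center P)
    (hE : ∀ x y : P, ⁅x, y⁆ * ⁅x, y⁆ = 1) (x y : P) : ⁅x, y⁆ ∈ center P := hc _ (hE x y)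

lemma comm_mul_left (hc : ∀ x : P, x * x = 1 → x ∈ center P)
    (hE : ∀ x y : P, ⁅x, y⁆ * ⁅x, y⁆ = 1) (x y z : P) : ⁅x * y, z⁆ = ⁅x, z⁆ * ⁅y, z⁆ := by
  have h := Subgroup.mem_center_iff.mp (comm_central hc hE y z) x
  calc ⁅x * y, z⁆ = x * ⁅y, z⁆ * x⁻¹ * ⁅x, z⁆ := by simp only [commutatorElement_def]; group
    _ = ⁅y, z⁆ * x * x⁻¹ * ⁅x, z⁆ := by rw [h]
    _ = ⁅y, z⁆ * ⁅x, z⁆ := by rw [mul_inv_cancel_right]
    _ = ⁅x, z⁆ * ⁅y, z⁆ := Subgroup.mem_center_iff.mp (comm_central hc hE x z) _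

lemma comm_symm (hE : ∀ x y : P, ⁅x, y⁆ * ⁅x, y⁆ = 1) (x y : P) : ⁅y, x⁆ = ⁅x, y⁆ := by
  rw [← commutatorElement_inv, inv_eq_self_of_sq (hE x y)]

lemma comm_mul_right (hc : ∀ x : P, x * x = 1 → x ∈ center P)
    (hE : ∀ x y : P, ⁅x, y⁆ * ⁅x, y⁆ = 1) (x y z : P) : ⁅x, y * z⁆ = ⁅x, y⁆ * ⁅x, z⁆ := by
  rw [comm_symm hE (y * z) x, comm_mul_left hc hE, comm_symm hE x y, comm_symm hE x z]

lemma comm_central_right {x a : P} (ha : a ∈ center P) : ⁅x, a⁆ = 1 := by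
  rw [commutatorElement_eq_one_iff_commute]
  exact Subgroup.mem_center_iff.mp ha x

lemma sq_central (hc : ∀ x : P, x * x = 1 → x ∈ center P)
    (hE : ∀ x y : P, ⁅x, y⁆ * ⁅x, y⁆ = 1) (x : P) : x * x ∈ center P := by
  rw [Subgroup.mem_center_iff]
  intro g
  have h : ⁅x * x, g⁆ = 1 := by rw [comm_mul_left hc hE, hE]
  rw [commutatorElement_eq_one_iff_commute] at h
  exact h.symm

lemma pow4_mul (hc : ∀ x : P, x * x = 1 → x ∈ center P)
    (hE : ∀ x y : P, ⁅x, y⁆ * ⁅x, y⁆ = 1) (x y : P) : (x * y) ^ 4 = x ^ 4 * y ^ 4 := by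
  have hcc := comm_central hc hE y x
  have h1 : (x * y) * (x * y) = ((x * x) * (y * y)) * ⁅y, x⁆ := by
    have h := Subgroup.mem_center_iff.mp hcc
    calc x * y * (x * y) = x * (⁅y, x⁆ * (x * y)) * y := by
          simp only [commutatorElement_def]; group
      _ = (x * ⁅y, x⁆) * x * y * y := by group
      _ = (⁅y, x⁆ * x) * x * y * y := by rw [h x]
      _ = ⁅y, x⁆ * ((x * x) * (y * y)) := by group
      _ = ((x * x) * (y * y)) * ⁅y, x⁆ := (h _).symm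
  have e4 : ∀ a : P, a ^ 4 = (a * a) * (a * a) := by
    intro a
    rw [show (4 : ℕ) = 2 * 2 from rfl, pow_mul, pow_two, pow_two]
  rw [e4, e4, e4, h1, sq_mul_central hcc, hE, mul_one, sq_mul_central (sq_central hc hE y)]

lemma pow2e_mul (hc : ∀ x : P, x * x = 1 → x ∈ center P)
    (hE : ∀ x y : P, ⁅x, y⁆ * ⁅x, y⁆ = 1) (e : ℕ) (he : 2 ≤ e) (x y : P) :
    (x * y) ^ 2 ^ e = x ^ 2 ^ e * y ^ 2 ^ e := by
  obtain ⟨m, rfl⟩ : ∃ m, e = 2 + m := ⟨e - 2, by omega⟩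
  have h4 : (2 : ℕ) ^ (2 + m) = 4 * 2 ^ m := by rw [pow_add]; norm_num
  have hx4 : x ^ 4 ∈ center P := by
    have : x ^ 4 = (x * x) * (x * x) := by
      rw [show (4 : ℕ) = 2 * 2 from rfl, pow_mul, pow_two, pow_two]
    rw [this]; exact mul_mem (sq_central hc hE x) (sq_central hc hE x)
  have hcomm : Commute (x ^ 4) (y ^ 4) := (Subgroup.mem_center_iff.mp hx4 _).symm
  rw [h4, pow_mul, pow_mul, pow_mul, pow4_mul hc hE, hcomm.mul_pow]

lemma lemH (hreg : Reg φ) {e : ℕ} (hexp : ∀ a ∈ center P, a ^ 2 ^ e = 1) {a0 : P}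
    (ha0 : a0 ∈ center P) (ha0' : a0 ^ 2 ^ (e - 1) ≠ 1) (he : 1 ≤ e) :
    ∀ j, j ≤ e - 1 → ∀ a ∈ center P, a ^ 2 ^ j = 1 → ∃ b ∈ center P, a = b * b := by
  have hu2 : a0 ^ 2 ^ (e - 1) * a0 ^ 2 ^ (e - 1) = 1 := by
    rw [← pow_add, ← two_mul, ← pow_succ']
    have : e - 1 + 1 = e := by omega
    rw [this]; exact hexp a0 ha0
  intro j
  induction j with
  | zero =>
    intro _ a ha h
    refine ⟨1, one_mem _, ?_⟩
    simpa using h
  | succ j ih =>
    intro hj a ha h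
    have hw2 : a ^ 2 ^ j * a ^ 2 ^ j = 1 := by
      rw [← pow_add, ← two_mul, ← pow_succ']; exact h
    by_cases hw1 : a ^ 2 ^ j = 1
    · exact ih (by omega) a ha hw1
    obtain ⟨κ, hκ, -⟩ := hreg _ _ ha0' hu2 hw1 hw2
    have hcc : φ κ a0 ∈ center P := aut_center _ ha0
    have hcpow : (φ κ a0) ^ 2 ^ (e - 1) = a ^ 2 ^ j := by rw [← map_pow]; exact hκ
    have hdc : (φ κ a0) ^ 2 ^ (e - 2 - j) ∈ center P := pow_mem hcc _
    generalize hd : (φ κ a0) ^ 2 ^ (e - 2 - j) = d at hdc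
    have hexp' : 2 ^ (e - 2 - j) * (2 * 2 ^ j) = 2 ^ (e - 1) := by
      rw [← pow_succ', ← pow_add]; congr 1; omega
    have hdd : (d * d) ^ 2 ^ j = a ^ 2 ^ j := by
      rw [← hcpow, ← hd, ← pow_two, ← pow_mul, ← pow_mul, hexp']
    have hcomm : Commute a (d * d)⁻¹ := (Subgroup.mem_center_iff.mp ha _).symm
    have h1 : (a * (d * d)⁻¹) ^ 2 ^ j = 1 := by
      rw [hcomm.mul_pow, inv_pow, hdd, mul_inv_cancel]
    obtain ⟨b, hb, hb2⟩ := ih (by omega) (a * (d * d)⁻¹)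
      (mul_mem ha (inv_mem (mul_mem hdc hdc))) h1
    refine ⟨b * d, mul_mem hb hdc, ?_⟩
    rw [sq_mul_central hdc, ← hb2, inv_mul_cancel_right]

lemma iota_ker (hc : ∀ x : P, x * x = 1 → x ∈ center P)
    (hE : ∀ x y : P, ⁅x, y⁆ * ⁅x, y⁆ = 1) {e : ℕ}
    (hH : ∀ a ∈ center P, a ^ 2 ^ (e - 1) = 1 → ∃ b ∈ center P, a = b * b) (he : 1 ≤ e)
    (x : P) (hx : x ^ 2 ^ e = 1) : x ∈ center P := by
  have hxx := sq_central hc hE x
  have h1 : (x * x) ^ 2 ^ (e - 1) = 1 := by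
    rw [← pow_two, ← pow_mul, ← pow_succ']
    have : e - 1 + 1 = e := by omega
    rw [this]; exact hx
  obtain ⟨b, hb, hb2⟩ := hH _ hxx h1
  have h2 : (x * b⁻¹) * (x * b⁻¹) = 1 := by
    rw [sq_mul_central (inv_mem hb), ← mul_inv_rev, hb2, mul_inv_cancel]
  have h3 := hc _ h2
  have : x = (x * b⁻¹) * b := by group
  rw [this]; exact mul_mem h3 hb

lemma comm_congr (hc : ∀ x : P, x * x = 1 → x ∈ center P)
    (hE : ∀ x y : P, ⁅x, y⁆ * ⁅x, y⁆ = 1) (ι : P →* P)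
    (hιker : ∀ x, ι x = 1 → x ∈ center P) (x y y' : P) (h : ι y = ι y') :
    ⁅x, y⁆ = ⁅x, y'⁆ := by
  have h1 : ι (y * y'⁻¹) = 1 := by rw [map_mul, map_inv, h, mul_inv_cancel]
  have h2 := hιker _ h1
  calc ⁅x, y⁆ = ⁅x, (y * y'⁻¹) * y'⁆ := by rw [inv_mul_cancel_right]
    _ = ⁅x, y'⁆ := by rw [comm_mul_right hc hE, comm_central_right h2, one_mul]

lemma KL_inv (hE : ∀ x y : P, ⁅x, y⁆ * ⁅x, y⁆ = 1) (x : P) (κ : K) :
    ⁅x, φ κ⁻¹ x⁆ = φ κ⁻¹ ⁅x, φ κ x⁆ := by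
  rw [map_commutatorElement]
  have : φ κ⁻¹ (φ κ x) = x := by
    show (φ κ⁻¹ * φ κ) x = x
    rw [← map_mul, inv_mul_cancel, map_one]; rfl
  rw [this, comm_symm hE]

lemma KL_step (hc : ∀ x : P, x * x = 1 → x ∈ center P)
    (hE : ∀ x y : P, ⁅x, y⁆ * ⁅x, y⁆ = 1) (hreg : Reg φ) (ι : P →* P)
    (hι2 : ∀ x, ι x * ι x = 1) (hιker : ∀ x, ι x = 1 → x ∈ center P)
    (hιeq : ∀ κ x, ι (φ κ x) = φ κ (ι x)) (x : P) (hx : ι x ≠ 1) (κ : K) (hκ1 : κ ≠ 1) :
    ⁅x, φ (κ * κ) x⁆ = 1 := by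
  have hu2 := hι2 x
  have hA := comm_congr hc hE ι hιker x
  have hne : φ κ (ι x) ≠ ι x := by
    intro h
    obtain ⟨k, -, huniq⟩ := hreg (ι x) (ι x) hx hu2 hx hu2
    exact hκ1 ((huniq κ h).trans (huniq 1 (by simp)).symm)
  have hv2 : φ κ (ι x) * φ κ (ι x) = 1 := by rw [← map_mul, hu2, map_one]
  have hw1 : ι x * φ κ (ι x) ≠ 1 := by
    intro h
    apply hne
    have := eq_inv_of_mul_eq_one_right h
    rw [this, inv_eq_self_of_sq hu2]
  have hw2 : (ι x * φ κ (ι x)) * (ι x * φ κ (ι x)) = 1 := sq_one_mul (hc _ hu2) hu2 hv2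
  obtain ⟨κ', hκ', -⟩ := hreg (ι x) (ι x * φ κ (ι x)) hx hu2 hw1 hw2
  have hD : ⁅x, φ κ' x⁆ = ⁅x, φ κ x⁆ := by
    have : ι (φ κ' x) = ι (x * φ κ x) := by rw [hιeq, map_mul, hιeq]; exact hκ'
    rw [hA _ _ this, comm_mul_right hc hE, commutatorElement_self, one_mul]
  have hEe : ⁅x, φ (κ * κ') x⁆ = ⁅x, φ κ x⁆ * ⁅x, φ (κ * κ) x⁆ := by
    have : ι (φ (κ * κ') x) = ι (φ κ x * φ (κ * κ) x) := by
      have l1 : ι (φ (κ * κ') x) = φ κ (φ κ' (ι x)) := by rw [hιeq, map_mul]; rfl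
      have r1 : ι (φ κ x * φ (κ * κ) x) = φ κ (ι x) * φ κ (φ κ (ι x)) := by
        rw [map_mul ι, hιeq, hιeq, map_mul φ]; rfl
      rw [l1, r1, hκ', map_mul]
    rw [hA _ _ this, comm_mul_right hc hE]
  have hG : ∀ w : P, w * w = 1 → φ κ' w = w * φ κ w := by
    intro w hw
    by_cases hw1 : w = 1
    · subst hw1; simp
    obtain ⟨μ, hμ, -⟩ := hreg (ι x) w hx hu2 hw1 hw
    rw [← hμ]
    have e1 : φ κ' (φ μ (ι x)) = φ μ (φ κ' (ι x)) := by
      show (φ κ' * φ μ) (ι x) = (φ μ * φ κ') (ι x)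
      rw [← map_mul, ← map_mul, mul_comm]
    have e2 : φ κ (φ μ (ι x)) = φ μ (φ κ (ι x)) := by
      show (φ κ * φ μ) (ι x) = (φ μ * φ κ) (ι x)
      rw [← map_mul, ← map_mul, mul_comm]
    rw [e1, e2, hκ', map_mul]
  have hF : ⁅x, φ (κ * κ')⁻¹ x⁆ = ⁅x, φ κ⁻¹ x⁆ * ⁅x, φ κ'⁻¹ x⁆ := by
    have : ι (φ (κ * κ')⁻¹ x) = ι (φ κ⁻¹ x * φ κ'⁻¹ x) := by
      rw [hιeq, map_mul, hιeq, hιeq]
      have e1 : φ κ⁻¹ (ι x) = φ (κ * κ')⁻¹ (ι x) * φ κ'⁻¹ (ι x) := by
        have h := congrArg (φ (κ * κ')⁻¹) hκ'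
        rw [map_mul] at h
        have a1 : φ (κ * κ')⁻¹ (φ κ' (ι x)) = φ κ⁻¹ (ι x) := by
          show (φ (κ * κ')⁻¹ * φ κ') (ι x) = _
          rw [← map_mul, mul_inv, inv_mul_cancel_right]
        have a2 : φ (κ * κ')⁻¹ (φ κ (ι x)) = φ κ'⁻¹ (ι x) := by
          show (φ (κ * κ')⁻¹ * φ κ) (ι x) = _
          rw [← map_mul, mul_inv_rev, inv_mul_cancel_right]
        rw [a1, a2] at h; exact h
      have e2 : φ κ'⁻¹ (ι x) * φ κ'⁻¹ (ι x) = 1 := by rw [← map_mul, hu2, map_one]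
      rw [e1, mul_assoc, e2, mul_one]
    rw [hA _ _ this, comm_mul_right hc hE]
  have hww : ⁅x, φ κ x⁆ * ⁅x, φ κ x⁆ = 1 := hE _ _
  have h1 : φ (κ * κ')⁻¹ (⁅x, φ κ x⁆ * ⁅x, φ (κ * κ) x⁆) =
      φ κ⁻¹ ⁅x, φ κ x⁆ * φ κ'⁻¹ ⁅x, φ κ x⁆ := by
    rw [← hEe, ← KL_inv hE, hF, KL_inv hE, KL_inv hE x κ', hD]
  have h2 := congrArg (φ (κ * κ')) h1
  have l : ∀ t : P, φ (κ * κ') (φ (κ * κ')⁻¹ t) = t := by
    intro t
    show (φ (κ * κ') * φ (κ * κ')⁻¹) t = t
    rw [← map_mul, mul_inv_cancel, map_one]; rfl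
  have r : ∀ w : P, φ (κ * κ') (φ κ⁻¹ w * φ κ'⁻¹ w) = φ κ' w * φ κ w := by
    intro w
    rw [map_mul]
    congr 1
    · show (φ (κ * κ') * φ κ⁻¹) w = _
      rw [← map_mul, mul_inv_cancel_comm]
    · show (φ (κ * κ') * φ κ'⁻¹) w = _
      rw [← map_mul, mul_inv_cancel_right]
  rw [l, r, hG _ hww, mul_assoc, ← map_mul, hww, map_one, mul_one] at h2
  exact mul_left_cancel (h2.trans (mul_one _).symm)

lemma KL (hc : ∀ x : P, x * x = 1 → x ∈ center P)
    (hE : ∀ x y : P, ⁅x, y⁆ * ⁅x, y⁆ = 1) (hreg : Reg φ)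
    (hKsq : ∀ μ : K, ∃ κ : K, μ = κ * κ) (ι : P →* P)
    (hι2 : ∀ x, ι x * ι x = 1) (hιker : ∀ x, ι x = 1 → x ∈ center P)
    (hιeq : ∀ κ x, ι (φ κ x) = φ κ (ι x)) (x : P) (hx : ι x ≠ 1) (μ : K) :
    ⁅x, φ μ x⁆ = 1 := by
  obtain ⟨κ, rfl⟩ := hKsq μ
  by_cases hκ : κ = 1
  · subst hκ; simp
  · exact KL_step hc hE hreg ι hι2 hιker hιeq x hx κ hκ

lemma case1 [Finite P] (hp : IsPGroup 2 P) (hc : ∀ x : P, x * x = 1 → x ∈ center P)
    (hreg : Reg φ) (htwo : ∃ x y : P, x ≠ y ∧ x ≠ 1 ∧ x * x = 1 ∧ y ≠ 1 ∧ y * y = 1)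
    (hE : ∀ x y : P, ⁅x, y⁆ * ⁅x, y⁆ = 1) {z : P} (hz : z ∈ center P) (hz2 : z * z ≠ 1)
    (hnab : ∃ x y : P, x * y ≠ y * x) : False := by
  classical
  have hex : ∃ e, ∀ a ∈ center P, a ^ 2 ^ e = 1 := by
    obtain ⟨n, hn⟩ := IsPGroup.iff_card.mp hp
    exact ⟨n, fun a _ => by rw [← hn]; exact pow_card_eq_one'⟩
  have he := Nat.find_spec hex
  have he2 : 2 ≤ Nat.find hex := by
    by_contra hlt
    have h01 : Nat.find hex = 0 ∨ Nat.find hex = 1 := by omega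
    rcases h01 with h0 | h1
    · rw [h0] at he
      have := he z hz
      simp only [pow_zero, pow_one] at this
      exact hz2 (by rw [this, one_mul])
    · rw [h1] at he
      have := he z hz
      simp only [pow_one] at this
      exact hz2 (by rw [← pow_two]; exact this)
  obtain ⟨a0, ha0, ha0'⟩ : ∃ a0 ∈ center P, a0 ^ 2 ^ (Nat.find hex - 1) ≠ 1 := by
    have := Nat.find_min hex (m := Nat.find hex - 1) (by omega)
    by_contra hcon
    apply this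
    intro a ha
    by_contra h
    exact hcon ⟨a, ha, h⟩
  generalize Nat.find hex = e at he he2 ha0'
  have hH := lemH hreg he ha0 ha0' (by omega) (e - 1) le_rfl
  let ι : P →* P := ⟨⟨fun x => x ^ 2 ^ e, one_pow _⟩, pow2e_mul hc hE e he2⟩
  have hι2 : ∀ x, ι x * ι x = 1 := by
    intro x
    show x ^ 2 ^ e * x ^ 2 ^ e = 1
    have := he _ (sq_central hc hE x)
    rw [← pow_two, ← pow_mul, mul_comm, pow_mul, pow_two]; exact this
  have hιker : ∀ x, ι x = 1 → x ∈ center P := fun x hx => iota_ker hc hE hH (by omega) x hx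
  have hιeq : ∀ κ x, ι (φ κ x) = φ κ (ι x) := fun κ x => (map_pow (φ κ) x _).symm
  have hKsq := K_sq_surj hc hreg htwo
  obtain ⟨x, y, hxy⟩ := hnab
  have hx : ι x ≠ 1 := by
    intro h
    exact hxy (Subgroup.mem_center_iff.mp (hιker x h) y).symm
  have hKL := KL hc hE hreg hKsq ι hι2 hιker hιeq x hx
  have : ⁅x, y⁆ = 1 := by
    by_cases hy : ι y = 1
    · exact comm_central_right (hιker y hy)
    obtain ⟨μ, hμ, -⟩ := hreg (ι x) (ι y) hx (hι2 x) hy (hι2 y)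
    have h1 : ι (φ μ x) = ι y := by rw [hιeq]; exact hμ
    rw [← comm_congr hc hE ι hιker x _ _ h1]; exact hKL μ
  exact hxy (commutatorElement_eq_one_iff_commute.mp this)

end case1

universe u v

open scoped commutatorElement in
theorem hig : ∀ n : ℕ, ∀ (P : Type u) [Group P] [Finite P] (K : Type v) [CommGroup K]
    (φ : K →* MulAut P), Nat.card P = n → IsPGroup 2 P →
    (∃ x y : P, x ≠ y ∧ x ≠ 1 ∧ x * x = 1 ∧ y ≠ 1 ∧ y * y = 1) → Reg φ →
    (∃ x y : P, x * y ≠ y * x) → ∀ z ∈ center P, z * z = 1 := by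
  intro n
  induction n using Nat.strong_induction_on with
  | _ n ih =>
  intro P _ _ K _ φ hn hp htwo hreg hnab z hz
  by_contra hz2
  have hc := invol_central hp hreg
  obtain ⟨m, hm2, hm4⟩ := exists_order4_pow hp hz2
  have hzm : z ^ m ∈ center P := pow_mem hz m
  have hA := stepA hreg hzm hm2 hm4
  have hO4 := order4_central hc hA
  by_cases hq : ∃ X Y : P ⧸ Esub hc, X * Y ≠ Y * X
  · have := ih (Nat.card (P ⧸ Esub hc)) (hn ▸ quot_card_lt hc htwo) (P ⧸ Esub hc) K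
      (quotAct hc) rfl (hp.to_quotient _) (quot_two hc hA htwo) (quot_reg hc hreg hA) hq
    exact case2 hp hc hO4 this hnab
  · have hq' : ∀ X Y : P ⧸ Esub hc, X * Y = Y * X := fun X Y => by
      by_contra h; exact hq ⟨X, Y, h⟩
    have hE : ∀ x y : P, ⁅x, y⁆ * ⁅x, y⁆ = 1 := by
      intro x y
      have := hq' ((y⁻¹ : P) : P ⧸ Esub hc) ((x⁻¹ : P) : P ⧸ Esub hc)
      rw [← QuotientGroup.mk_mul, ← QuotientGroup.mk_mul, QuotientGroup.eq, mem_Esub] at this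
      have e : (y⁻¹ * x⁻¹)⁻¹ * (x⁻¹ * y⁻¹) = ⁅x, y⁆ := by
        rw [commutatorElement_def]; group
      rw [e] at this; exact this
    exact case1 hp hc hreg htwo hE hzm hm2 hnab

/-- In a Suzuki 2-group `P` (a finite non-abelian 2-group with more than one involution admitting a cyclic group of automorphisms regular on its involutions) the involutions are exactly the non-identity central elements, and `Z(P)` is elementary abelian. -/
theorem result {P : Type*} [Group P] (hP : Cfsg.IsSuzukiTwoGroup P) :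
    (∀ x : P, (x ≠ 1 ∧ x * x = 1) ↔ (x ∈ Subgroup.center P ∧ x ≠ 1)) ∧
      ∀ z ∈ Subgroup.center P, z * z = 1 := by
  obtain ⟨hfin, hp, hnab, htwo, K, hK, hreg⟩ := hP
  have := hfin
  let _ : CommGroup K := IsCyclic.commGroup
  have hreg' : Reg (K.subtype) := hreg
  have hc := invol_central hp hreg'
  have h2 := hig _ P K K.subtype rfl hp htwo hreg' hnab
  exact ⟨fun x => ⟨fun ⟨h1, h2'⟩ => ⟨hc x h2', h1⟩, fun ⟨h1, h2'⟩ => ⟨h2', h2 x h1⟩⟩, h2⟩

end Cfsg.Agent.S1137
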