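import Mathlib
import Cfsg.Statements.S1140

set_option autoImplicit false
open Cfsg

namespace Cfsg.Agent.S1140

universe u

theorem exists_aut_basis (F : Type u) [Field F] [Fintype F] [CharP F 2] :
    ∃ (ι : Type u) (_ : Fintype ι) (_ : Nonempty ι) (e : ι → (F ≃+* F)) (_ : Function.Injective e)
      (r : (F →+ F) → ι → F),
      (∀ (f g : F →+ F) (i : ι), r (f + g) i = r f i + r g i) ∧
      ∀ (f : F →+ F) (x : F), f x = ∑ i, r f i * e i x := by
  letI : Algebra (ZMod 2) F := ZMod.algebra F 2
  have hli : LinearIndependent F (fun σ : F ≃ₐ[ZMod 2] F => (σ : F →ₐ[ZMod 2] F).toLinearMap) :=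
    (linearIndependent_toLinearMap (ZMod 2) F F).comp _ AlgEquiv.coe_toAlgHom_injective
  have hcard : Fintype.card (F ≃ₐ[ZMod 2] F) = Module.finrank F (F →ₗ[ZMod 2] F) := by
    rw [Module.finrank_linearMap_self, ← Nat.card_eq_fintype_card, IsGalois.card_aut_eq_finrank]
  let b := basisOfLinearIndependentOfCardEqFinrank hli hcard
  have hb : ∀ σ, b σ = (σ : F →ₐ[ZMod 2] F).toLinearMap := fun σ => by
    simp [b]
  refine ⟨F ≃ₐ[ZMod 2] F, inferInstance, ⟨1⟩, fun σ => (σ : F ≃+* F), ?_,
    fun f i => b.repr (f.toZModLinearMap 2) i, ?_, ?_⟩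
  · intro σ τ h
    ext x
    have := congrArg (fun (ρ : F ≃+* F) => ρ x) h
    simpa using this
  · intro f g i
    have : (f + g).toZModLinearMap 2 = f.toZModLinearMap 2 + g.toZModLinearMap 2 := by
      ext x; simp
    show b.repr ((f + g).toZModLinearMap 2) i = b.repr (f.toZModLinearMap 2) i + b.repr (g.toZModLinearMap 2) i
    rw [this, map_add, Finsupp.add_apply]
  · intro f x
    show f x = ∑ i, b.repr (f.toZModLinearMap 2) i * (i : F ≃+* F) x
    have h := b.sum_repr (f.toZModLinearMap 2)
    have h2 := congrArg (fun (ℓ : F →ₗ[ZMod 2] F) => ℓ x) h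
    simp only [LinearMap.coe_sum, Finset.sum_apply, LinearMap.smul_apply, smul_eq_mul] at h2
    rw [AddMonoidHom.coe_toZModLinearMap] at h2
    rw [← h2]
    apply Finset.sum_congr rfl
    intro σ _
    rw [hb]
    rfl


/-- For a finite field `F` of characteristic 2, the automorphisms of `F`, viewed as additive maps `F → F`, are linearly independent over `F` (acting on values) every additive endomorphism of `F` is an `F`-linear combination of them, and every biadditive map `F → F → F` is an `F`-combination of the maps `(x, y) ↦ σ(x) τ(y)`. -/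
theorem result {F : Type*} [Field F] [Fintype F] [CharP F 2] :
    LinearIndependent F (fun σ : F ≃+* F => ((σ : F →+* F) : F → F)) ∧
      (∀ f : F →+ F, ∃ (s : Finset (F ≃+* F)) (c : (F ≃+* F) → F), ∀ x : F, f x = ∑ σ ∈ s, c σ * σ x) ∧
      ∀ B : F →+ F →+ F, ∃ (s : Finset ((F ≃+* F) × (F ≃+* F))) (c : (F ≃+* F) × (F ≃+* F) → F),
        ∀ x y : F, B x y = ∑ p ∈ s, c p * (p.1 x * p.2 y) := by
  classical
  refine ⟨?_, ?_, ?_⟩
  · have h := (linearIndependent_monoidHom F F).comp
      (fun σ : F ≃+* F => ((σ : F →+* F) : F →* F)) (by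
        intro σ τ h
        ext x
        exact congrArg (fun (ρ : F →* F) => ρ x) h)
    exact h
  · intro f
    obtain ⟨ι, _, _, e, he, r, hradd, hr⟩ := exists_aut_basis F
    refine ⟨Finset.univ.map ⟨e, he⟩, fun τ => r f (Function.invFun e τ), fun x => ?_⟩
    rw [Finset.sum_map, hr f x]
    apply Finset.sum_congr rfl
    intro i _
    simp only [Function.Embedding.coeFn_mk]
    rw [Function.leftInverse_invFun he i]
  · intro B
    obtain ⟨ι, _, _, e, he, r, hradd, hr⟩ := exists_aut_basis F
    let d : ι → (F →+ F) := fun j =>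
      AddMonoidHom.mk' (fun x => r (B x) j) (by intro x y; rw [map_add, hradd])
    have hinj2 : Function.Injective (fun p : ι × ι => (e p.1, e p.2)) := by
      rintro ⟨i, j⟩ ⟨i', j'⟩ h
      simp only [Prod.mk.injEq] at h
      rw [Prod.mk.injEq]
      exact ⟨he h.1, he h.2⟩
    refine ⟨Finset.univ.map ⟨fun p : ι × ι => (e p.1, e p.2), hinj2⟩,
      fun p => r (d (Function.invFun e p.2)) (Function.invFun e p.1), fun x y => ?_⟩
    rw [Finset.sum_map, hr (B x) y, Fintype.sum_prod_type_right]
    apply Finset.sum_congr rfl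
    intro j _
    simp only [Function.Embedding.coeFn_mk]
    have h1 : r (B x) j = d j x := rfl
    rw [h1, hr (d j) x, Finset.sum_mul]
    apply Finset.sum_congr rfl
    intro i _
    rw [Function.leftInverse_invFun he i, Function.leftInverse_invFun he j]
    ring

end Cfsg.Agent.S1140
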