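import Cfsg.Statements.S3012
import Mathlib

set_option autoImplicit false
open Cfsg

namespace Cfsg.Agent.S3012

/-- Let G be a finite group, V a nontrivial elementary abelian 2-subgroup of G satisfying the Sidki pair condition (every odd-order element inverted by an element of V commutes with a nontrivial element of V), and K a normal subgroup of G with V ∩ K = 1. Then the image of V in G/K satisfies the Sidki pair condition in G/K. -/
theorem result {G : Type*} [Group G] [Finite G] (V K : Subgroup G) [K.Normal] (hV : Cfsg.IsElementaryAbelian 2 V) (hV1 : V ≠ ⊥) (hS : Cfsg.IsSidkiPair V) (hVK : V ⊓ K = ⊥) : Cfsg.IsSidkiPair (V.map (QuotientGroup.mk' K)) := by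
  intro hbar vbar hvbar hodd hinv
  obtain ⟨v, hv, rfl⟩ := Subgroup.mem_map.1 hvbar
  obtain ⟨h, rfl⟩ := QuotientGroup.mk'_surjective K hbar
  set π := QuotientGroup.mk' K with hπ
  have hv2 : v * v = 1 := by
    have := hV.2 v hv
    rwa [pow_two] at this
  have hvinv : v⁻¹ = v := by
    rw [inv_eq_iff_mul_eq_one]; exact hv2
  set t := v * (h * v * h⁻¹) with ht
  have htinv : v * t * v⁻¹ = t⁻¹ := by
    rw [ht, hvinv]
    have e1 : v * (v * (h * v * h⁻¹)) * v = (h * v * h⁻¹) * v := by
      calc v * (v * (h * v * h⁻¹)) * v = (v * v) * (h * v * h⁻¹) * v := by group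
        _ = (h * v * h⁻¹) * v := by rw [hv2, one_mul]
    rw [e1]
    symm
    rw [inv_eq_iff_mul_eq_one]
    calc v * (h * v * h⁻¹) * (h * v * h⁻¹ * v) = v * (h * (v * v) * h⁻¹) * v := by group
      _ = 1 := by rw [hv2]; simp [hv2]
  have hn : orderOf t ≠ 0 := (orderOf_pos t).ne'
  obtain ⟨a, m, hm, hnm⟩ := Nat.exists_eq_two_pow_mul_odd hn
  set t' := t ^ (2 ^ a) with ht'
  have hot' : orderOf t' = m := by
    rw [ht', orderOf_pow_of_dvd (by positivity) ⟨m, hnm⟩, hnm]
    exact Nat.mul_div_cancel_left m (by positivity)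
  have ht'inv : v * t' * v⁻¹ = t'⁻¹ := by
    rw [ht', ← inv_pow, ← htinv]
    exact (conj_pow (a := v) (b := t) (i := 2 ^ a)).symm
  obtain ⟨w, hwV, hw1, hwt⟩ := hS t' v hv (hot' ▸ hm) ht'inv
  refine ⟨π w, Subgroup.mem_map_of_mem _ hwV, ?_, ?_⟩
  · intro h1
    have hwK : w ∈ K := by
      have := (QuotientGroup.eq_one_iff (N := K) w).1 h1
      exact this
    have : w ∈ V ⊓ K := ⟨hwV, hwK⟩
    rw [hVK, Subgroup.mem_bot] at this
    exact hw1 this
  · -- image of t is (π h)⁻¹ * (π h)⁻¹
    have hπv2 : π v * π v = 1 := by rw [← map_mul, hv2, map_one]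
    have hπvinv : (π v)⁻¹ = π v := by rw [inv_eq_iff_mul_eq_one]; exact hπv2
    have e1 : π v * π h * π v = (π h)⁻¹ := by
      have := hinv
      rwa [hπvinv] at this
    have hπt : π t = (π h)⁻¹ * (π h)⁻¹ := by
      rw [ht]
      simp only [map_mul, map_inv]
      calc π v * (π h * π v * (π h)⁻¹) = (π v * π h * π v) * (π h)⁻¹ := by group
        _ = (π h)⁻¹ * (π h)⁻¹ := by rw [e1]
    have hc1 : Commute (π w) (π t') := by
      have : Commute w t' := hwt
      exact this.map π
    have hπt' : π t' = ((π h) ^ (2 ^ (a + 1)))⁻¹ := by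
      rw [ht', map_pow, hπt, ← mul_inv_rev, inv_pow, ← pow_two, ← pow_mul, pow_succ']
    rw [hπt'] at hc1
    have hc2 : Commute (π w) ((π h) ^ (2 ^ (a + 1))) := by
      have := hc1.inv_right
      rwa [inv_inv] at this
    have hcop : (2 ^ (a + 1)).Coprime (orderOf (π h)) := by
      apply Nat.Coprime.pow_left
      exact Nat.coprime_two_left.2 hodd
    obtain ⟨j, hj⟩ := exists_pow_eq_self_of_coprime hcop
    have hc3 : Commute (π w) (((π h) ^ (2 ^ (a + 1))) ^ j) := hc2.pow_right j
    rw [hj] at hc3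
    exact hc3.eq

end Cfsg.Agent.S3012
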