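import Cfsg.Statements.S0824
import Mathlib

set_option autoImplicit false
open Cfsg

namespace Cfsg.Agent.S0824

open Matrix

abbrev I4 : Type := (Fin 1 ⊕ Fin 1) ⊕ Fin 2

/-- coordinates `(x, y, z₁, z₂)` -/
def vec (a b c d : ZMod 2) : I4 → ZMod 2
  | .inl (.inl _) => a
  | .inl (.inr _) => b
  | .inr 0 => c
  | .inr 1 => d

def e : Fin 5 → I4 → ZMod 2
  | 0 => vec 1 1 0 1
  | 1 => vec 1 1 1 1
  | 2 => vec 1 1 1 0
  | 3 => vec 1 0 0 0
  | 4 => vec 0 1 0 0

abbrev Q2 : (I4 → ZMod 2) → ZMod 2 := quadFormMinus 1 (ZMod 2) 1 1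

theorem he_sing : ∀ i, e i ≠ 0 ∧ Q2 (e i) = 0 := by decide

theorem he_inj : Function.Injective e := by decide

theorem he_surj : ∀ v : I4 → ZMod 2, v ≠ 0 → Q2 v = 0 → ∃ i, v = e i := by decide

/-- the coordinate swap giving the polar form: `B(v, u) = v ⬝ᵥ tw u` -/
def tw (u : I4 → ZMod 2) : I4 → ZMod 2
  | .inl (.inl a) => u (.inl (.inr a))
  | .inl (.inr a) => u (.inl (.inl a))
  | .inr 0 => u (.inr 1)
  | .inr 1 => u (.inr 0)

/-- reflection in `e i + e (i+1)` -/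
def Gm (i : Fin 4) : Matrix I4 I4 (ZMod 2) :=
  1 + Matrix.vecMulVec (e i.castSucc + e i.succ) (tw (e i.castSucc + e i.succ))

theorem hGm_mul : ∀ i, Gm i * Gm i = 1 := by decide

theorem hGm_iso : ∀ i, ∀ u : I4 → ZMod 2, Q2 (Gm i *ᵥ u) = Q2 u := by decide

theorem hGm_swap : ∀ i : Fin 4, ∀ k : Fin 5,
    Gm i *ᵥ e k = e (Equiv.swap i.castSucc i.succ k) := by decide

theorem h_span : ∀ j : I4, ∃ t : Finset (Fin 5), Pi.single j 1 = ∑ i ∈ t, e i := by decide

section transfer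

variable {ι : Type} [Fintype ι] [DecidableEq ι] {F K : Type*} [Field F] [Field K]

noncomputable def glMap (φ : F ≃+* K) :
    Matrix.GeneralLinearGroup ι F ≃* Matrix.GeneralLinearGroup ι K :=
  Units.mapEquiv (RingEquiv.mapMatrix φ).toMulEquiv

theorem glMap_mulVec (φ : F ≃+* K) (g : Matrix.GeneralLinearGroup ι F) (u : ι → F) :
    ((glMap φ g : Matrix.GeneralLinearGroup ι K) : Matrix ι ι K) *ᵥ (fun j => φ (u j)) =
      fun i => φ (((g : Matrix ι ι F) *ᵥ u) i) := by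
  funext i
  simp [glMap, Matrix.mulVec, dotProduct, map_sum, map_mul]

/-- transfer of isometry groups along a ring isomorphism -/
noncomputable def isoTransfer (φ : F ≃+* K) (Q : (ι → F) → F) (Q' : (ι → K) → K)
    (h : ∀ v : ι → F, Q' (fun i => φ (v i)) = φ (Q v)) :
    isometryGroup F Q ≃* isometryGroup K Q' where
  toFun g := ⟨glMap φ g.1, by
    intro u' _
    have hu : u' = fun i => φ (φ.symm (u' i)) := by funext i; simp
    change Q' (((glMap φ g.1 : Matrix.GeneralLinearGroup ι K) : Matrix ι ι K) *ᵥ u') = Q' u'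
    rw [hu, glMap_mulVec, h, h]
    congr 1
    exact g.2 (fun j => φ.symm (u' j)) (fun j => φ.symm (u' j))⟩
  invFun g' := ⟨(glMap φ).symm g'.1, by
    intro u _
    change Q ((((glMap φ).symm g'.1 : Matrix.GeneralLinearGroup ι F) : Matrix ι ι F) *ᵥ u) = Q u
    apply φ.injective
    rw [← h, ← h, ← glMap_mulVec, MulEquiv.apply_symm_apply]
    exact g'.2 (fun j => φ (u j)) (fun j => φ (u j))⟩
  left_inv g := Subtype.ext (MulEquiv.symm_apply_apply _ _)
  right_inv g := Subtype.ext (MulEquiv.apply_symm_apply _ _)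
  map_mul' g g' := Subtype.ext (map_mul (glMap φ) g.1 g'.1)

end transfer

abbrev S5 : Type := {v : I4 → ZMod 2 // v ≠ 0 ∧ Q2 v = 0}

abbrev O4 : Type := isometryGroup (ZMod 2) Q2

def act (g : O4) (s : S5) : S5 :=
  ⟨((g.1 : Matrix.GeneralLinearGroup I4 (ZMod 2)) : Matrix I4 I4 (ZMod 2)) *ᵥ s.1, by
    constructor
    · intro h0
      apply s.2.1
      have : (((g.1⁻¹ : Matrix.GeneralLinearGroup I4 (ZMod 2)) : Matrix I4 I4 (ZMod 2))) *ᵥ
          (((g.1 : Matrix.GeneralLinearGroup I4 (ZMod 2)) : Matrix I4 I4 (ZMod 2)) *ᵥ s.1)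
          = s.1 := by
        rw [Matrix.mulVec_mulVec, ← Units.val_mul, inv_mul_cancel, Units.val_one,
          Matrix.one_mulVec]
      rw [← this, h0, Matrix.mulVec_zero]
    · exact (g.2 s.1 s.1).trans s.2.2⟩

instance : MulAction O4 S5 where
  smul := act
  one_smul s := Subtype.ext (by
    change ((1 : Matrix.GeneralLinearGroup I4 (ZMod 2)) : Matrix I4 I4 (ZMod 2)) *ᵥ s.1 = s.1
    simp)
  mul_smul g h s := Subtype.ext (by
    change ((g.1 * h.1 : Matrix.GeneralLinearGroup I4 (ZMod 2)) : Matrix I4 I4 (ZMod 2)) *ᵥ s.1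
      = ((g.1 : Matrix.GeneralLinearGroup I4 (ZMod 2)) : Matrix I4 I4 (ZMod 2)) *ᵥ
        (((h.1 : Matrix.GeneralLinearGroup I4 (ZMod 2)) : Matrix I4 I4 (ZMod 2)) *ᵥ s.1)
    rw [Matrix.mulVec_mulVec, Units.val_mul])

theorem smul_val (g : O4) (s : S5) :
    (g • s).1 = ((g.1 : Matrix.GeneralLinearGroup I4 (ZMod 2)) : Matrix I4 I4 (ZMod 2)) *ᵥ s.1 :=
  rfl

noncomputable def E5 : Fin 5 ≃ S5 :=
  Equiv.ofBijective (fun i => ⟨e i, he_sing i⟩)
    ⟨fun i j h => he_inj (congrArg Subtype.val h),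
     fun s => by
      obtain ⟨i, hi⟩ := he_surj s.1 s.2.1 s.2.2
      exact ⟨i, Subtype.ext hi.symm⟩⟩

theorem E5_val (i : Fin 5) : (E5 i).1 = e i := rfl

noncomputable def psi : O4 →* Equiv.Perm (Fin 5) :=
  (E5.symm.permCongrHom : Equiv.Perm S5 ≃* Equiv.Perm (Fin 5)).toMonoidHom.comp
    (MulAction.toPermHom O4 S5)

theorem psi_apply_eq (g : O4) (k j : Fin 5) :
    psi g k = j ↔
      ((g.1 : Matrix.GeneralLinearGroup I4 (ZMod 2)) : Matrix I4 I4 (ZMod 2)) *ᵥ e k = e j := by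
  have h1 : psi g k = E5.symm (g • E5 k) := by
    simp [psi, Equiv.permCongrHom_coe, Equiv.permCongr_apply]
  rw [h1, Equiv.symm_apply_eq]
  constructor
  · intro h
    have := congrArg Subtype.val h
    rwa [smul_val, E5_val, E5_val] at this
  · intro h
    apply Subtype.ext
    rwa [smul_val, E5_val, E5_val]

theorem mat_eq_one (M : Matrix I4 I4 (ZMod 2)) (hM : ∀ k, M *ᵥ e k = e k) : M = 1 := by
  ext i j
  obtain ⟨t, ht⟩ := h_span j
  have h1 : M *ᵥ Pi.single j 1 = Pi.single j 1 := by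
    rw [ht, Matrix.mulVec_sum]
    exact Finset.sum_congr rfl (fun k _ => hM k)
  have h2 := congrFun h1 i
  rw [Matrix.mulVec_single_one] at h2
  rw [Matrix.one_apply]
  simpa [Pi.single_apply] using h2

theorem psi_inj : Function.Injective psi := by
  rw [injective_iff_map_eq_one]
  intro g hg
  have hM : ∀ k, ((g.1 : Matrix.GeneralLinearGroup I4 (ZMod 2)) : Matrix I4 I4 (ZMod 2)) *ᵥ e k
      = e k := by
    intro k
    rw [← psi_apply_eq, hg]
    rfl
  exact Subtype.ext (Units.ext (mat_eq_one _ hM))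

def G (i : Fin 4) : O4 :=
  ⟨⟨Gm i, Gm i, hGm_mul i, hGm_mul i⟩, fun u _ => hGm_iso i u⟩

theorem psi_G (i : Fin 4) : psi (G i) = Equiv.swap i.castSucc i.succ := by
  ext k
  congr 1
  exact (psi_apply_eq (G i) k _).2 (hGm_swap i k)

theorem psi_surj : Function.Surjective psi := by
  have : (⊤ : Submonoid (Equiv.Perm (Fin 5))) ≤ MonoidHom.mrange psi := by
    rw [← Equiv.Perm.mclosure_swap_castSucc_succ 4, Submonoid.closure_le]
    rintro _ ⟨i, rfl⟩
    exact ⟨G i, psi_G i⟩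
  intro σ
  exact this (Submonoid.mem_top σ)

/-- O⁻_4(2) ≅ S_5: the isometry group of the form x y + z_1² + z_1 z_2 + z_2² over the field with 2 elements is isomorphic to the symmetric group on 5 letters. -/
theorem result {F : Type*} [Field F] [Fintype F] (hF : Fintype.card F = 2) : Nonempty (↥(Cfsg.isometryGroup F (Cfsg.quadFormMinus 1 F 1 1)) ≃* Equiv.Perm (Fin 5)) := by
  let φ : F ≃+* ZMod 2 := (ZMod.ringEquivOfPrime F Nat.prime_two hF).symm
  have h : ∀ v : I4 → F, Q2 (fun i => φ (v i)) = φ (quadFormMinus 1 F 1 1 v) := by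
    intro v
    simp [Q2, quadFormMinus, map_add, map_mul, map_pow]
  exact ⟨(isoTransfer φ _ _ h).trans (MulEquiv.ofBijective psi ⟨psi_inj, psi_surj⟩)⟩

end Cfsg.Agent.S0824
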