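import Cfsg.Statements.S0825
import Mathlib
import Cfsg.Agent.S0824

set_option autoImplicit false
open Cfsg

namespace Cfsg.Agent.S0825

open Matrix Cfsg.Agent.S0824

abbrev I6 : Type := Fin 3 ⊕ Fin 3

def vec6 (a b c d e f : ZMod 2) : I6 → ZMod 2
  | .inl 0 => a
  | .inl 1 => b
  | .inl 2 => c
  | .inr 0 => d
  | .inr 1 => e
  | .inr 2 => f

def t : Fin 8 → I6 → ZMod 2
  | 0 => vec6 1 1 1 1 1 1
  | 1 => vec6 1 1 0 1 1 0
  | 2 => vec6 1 0 0 1 0 1
  | 3 => vec6 0 0 1 1 0 0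
  | 4 => vec6 1 0 1 0 0 0
  | 5 => vec6 0 1 1 0 1 0
  | 6 => vec6 0 0 0 0 1 1
  | 7 => vec6 0 1 0 0 0 1

abbrev Q6 : (I6 → ZMod 2) → ZMod 2 := quadFormPlus 3 (ZMod 2)

def Bf (u v : I6 → ZMod 2) : ZMod 2 := Q6 (u + v) + Q6 u + Q6 v

def star (p : Fin 8) : Finset (I6 → ZMod 2) :=
  (Finset.univ.erase p).image (fun j => t p + t j)

def tw (u : I6 → ZMod 2) : I6 → ZMod 2
  | .inl k => u (.inr k)
  | .inr k => u (.inl k)

def Gm (i : Fin 7) : Matrix I6 I6 (ZMod 2) :=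
  1 + Matrix.vecMulVec (t i.castSucc + t i.succ) (tw (t i.castSucc + t i.succ))

set_option maxRecDepth 100000 in
theorem D0 : ∀ w : I6 → ZMod 2, Q6 w = 1 → ∃ i j, i ≠ j ∧ w = t i + t j := by decide +kernel

set_option maxRecDepth 100000 in
theorem D2 : ∀ a b c d : Fin 8, a ≠ b → c ≠ d → Bf (t a + t b) (t c + t d) = 1 →
    (a = c ∧ b ≠ d) ∨ (a = d ∧ b ≠ c) ∨ (b = c ∧ a ≠ d) ∨ (b = d ∧ a ≠ c) := by decide +kernel

set_option maxRecDepth 100000 in
set_option synthInstance.maxHeartbeats 400000 in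
set_option synthInstance.maxSize 2048 in
theorem D1 : ∀ a b c : Fin 8, a ≠ b → a ≠ c → b ≠ c → ∀ w : I6 → ZMod 2, Q6 w = 1 →
    Bf w (t a + t b) = 1 → Bf w (t a + t c) = 1 → w ≠ t b + t c → ∃ l, l ≠ a ∧ w = t a + t l := by
  decide +kernel

set_option maxRecDepth 100000 in
theorem D3 : ∀ i j k l : Fin 8, i ≠ j → i ≠ k → i ≠ l → j ≠ k → j ≠ l → k ≠ l →
    t i + t l ≠ t j + t k := by decide +kernel

set_option maxRecDepth 100000 in
theorem D5 : ∀ i j : Fin 8, i ≠ j → star i ∩ star j = {t i + t j} := by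
  decide +kernel

theorem D6 : ∀ i j : Fin 8, i ≠ j → Q6 (t i + t j) = 1 := by decide +kernel

set_option maxRecDepth 100000 in
theorem D7 : ∀ i j k : Fin 8, i ≠ j → i ≠ k → j ≠ k → Bf (t i + t j) (t i + t k) = 1 := by decide +kernel

theorem D8 : ∀ p : Fin 8, (star p).card = 7 := by decide +kernel

theorem D9 : Function.Injective star := by decide +kernel

theorem D10 : ∀ i : Fin 8, i + 1 ≠ i ∧ i + 2 ≠ i ∧ i + 1 ≠ i + 2 := by decide +kernel

theorem D11 : ∀ i j k : Fin 8, t i + t j + (t i + t k) = t j + t k := by decide +kernel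

theorem D12 : ∀ p a c : Fin 8, t p + t a + (t p + t c) = t a + t c := by decide +kernel

def Tset : I6 → Finset (Fin 8)
  | .inl 0 => {1, 2, 3}
  | .inl 1 => {1, 5, 6}
  | .inl 2 => {2, 6, 7}
  | .inr 0 => {1, 2, 4}
  | .inr 1 => {1, 5, 7}
  | .inr 2 => {3, 4, 5}

theorem h_span : ∀ a : I6, Pi.single a 1 = ∑ i ∈ Tset a, (t i + t 0) := by decide +kernel

set_option maxRecDepth 100000 in
theorem hGm_mul : ∀ i, Gm i * Gm i = 1 := by decide +kernel

set_option maxRecDepth 100000 in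
theorem hGm_iso : ∀ i, ∀ u : I6 → ZMod 2, Q6 (Gm i *ᵥ u) = Q6 u := by decide +kernel

set_option maxRecDepth 100000 in
theorem hGm_swap : ∀ i : Fin 7, ∀ k : Fin 8,
    (star k).image (fun w => Gm i *ᵥ w) = star (Equiv.swap i.castSucc i.succ k) := by decide +kernel

theorem hT0 : ∀ a : I6, ∀ i ∈ Tset a, i ≠ 0 := by decide +kernel

abbrev O6 : Type := isometryGroup (ZMod 2) Q6

/-- underlying matrix -/
def mat (g : O6) : Matrix I6 I6 (ZMod 2) :=
  ((g.1 : Matrix.GeneralLinearGroup I6 (ZMod 2)) : Matrix I6 I6 (ZMod 2))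

theorem mat_one : mat 1 = 1 := rfl

theorem mat_mul (g h : O6) : mat (g * h) = mat g * mat h := rfl

theorem mat_iso (g : O6) (u : I6 → ZMod 2) : Q6 (mat g *ᵥ u) = Q6 u := g.2 u u

theorem mat_inj (g : O6) : Function.Injective (fun w => mat g *ᵥ w) := by
  intro u v h
  have hu : mat g⁻¹ *ᵥ (mat g *ᵥ u) = u := by
    rw [Matrix.mulVec_mulVec, ← mat_mul, inv_mul_cancel, mat_one, Matrix.one_mulVec]
  have hv : mat g⁻¹ *ᵥ (mat g *ᵥ v) = v := by
    rw [Matrix.mulVec_mulVec, ← mat_mul, inv_mul_cancel, mat_one, Matrix.one_mulVec]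
  rw [← hu, ← hv]
  exact congrArg (fun w => mat g⁻¹ *ᵥ w) h

theorem mat_Bf (g : O6) (u v : I6 → ZMod 2) : Bf (mat g *ᵥ u) (mat g *ᵥ v) = Bf u v := by
  unfold Bf
  rw [← Matrix.mulVec_add, mat_iso, mat_iso, mat_iso]

theorem mem_star (p : Fin 8) (w : I6 → ZMod 2) : w ∈ star p ↔ ∃ l, l ≠ p ∧ w = t p + t l := by
  simp only [star, Finset.mem_image, Finset.mem_erase, Finset.mem_univ, and_true]
  constructor
  · rintro ⟨l, hl, rfl⟩; exact ⟨l, hl, rfl⟩
  · rintro ⟨l, hl, rfl⟩; exact ⟨l, hl, rfl⟩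

theorem star_closed (g : O6) (i : Fin 8) :
    ∃ p, (star i).image (fun w => mat g *ᵥ w) = star p := by
  obtain ⟨h1, h2, h3⟩ := D10 i
  have hQu : Q6 (mat g *ᵥ (t i + t (i + 1))) = 1 := by rw [mat_iso]; exact D6 i _ h1.symm
  have hQv : Q6 (mat g *ᵥ (t i + t (i + 2))) = 1 := by rw [mat_iso]; exact D6 i _ h2.symm
  have hBuv : Bf (mat g *ᵥ (t i + t (i + 1))) (mat g *ᵥ (t i + t (i + 2))) = 1 := by
    rw [mat_Bf]; exact D7 i _ _ h1.symm h2.symm h3
  obtain ⟨a, b, hab, hu⟩ := D0 _ hQu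
  obtain ⟨c, d, hcd, hv⟩ := D0 _ hQv
  rw [hu, hv] at hBuv
  have key : ∃ p a' c', a' ≠ p ∧ c' ≠ p ∧ a' ≠ c' ∧
      mat g *ᵥ (t i + t (i + 1)) = t p + t a' ∧ mat g *ᵥ (t i + t (i + 2)) = t p + t c' := by
    rcases D2 a b c d hab hcd hBuv with ⟨h, h'⟩ | ⟨h, h'⟩ | ⟨h, h'⟩ | ⟨h, h'⟩
    · exact ⟨a, b, d, hab.symm, by rw [h]; exact hcd.symm, h', hu, by rw [hv, h]⟩
    · exact ⟨a, b, c, hab.symm, by rw [h]; exact hcd, h', hu, by rw [hv, h, add_comm]⟩
    · exact ⟨b, a, d, hab, by rw [h]; exact hcd.symm, h', by rw [hu, add_comm], by rw [hv, h]⟩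
    · exact ⟨b, a, c, hab, by rw [h]; exact hcd, h', by rw [hu, add_comm],
        by rw [hv, h, add_comm]⟩
  obtain ⟨p, a', c', ha', hc', hac, hu', hv'⟩ := key
  refine ⟨p, ?_⟩
  apply Finset.eq_of_subset_of_card_le
  · intro w hw
    rw [Finset.mem_image] at hw
    obtain ⟨x, hx, rfl⟩ := hw
    rw [mem_star] at hx
    obtain ⟨l, hl, rfl⟩ := hx
    rw [mem_star]
    by_cases hlj : l = i + 1
    · exact ⟨a', ha', by rw [hlj, hu']⟩
    by_cases hlk : l = i + 2
    · exact ⟨c', hc', by rw [hlk, hv']⟩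
    have hQw : Q6 (mat g *ᵥ (t i + t l)) = 1 := by rw [mat_iso]; exact D6 i l (Ne.symm hl)
    have hB1 : Bf (mat g *ᵥ (t i + t l)) (t p + t a') = 1 := by
      rw [← hu', mat_Bf]; exact D7 i l _ (Ne.symm hl) h1.symm hlj
    have hB2 : Bf (mat g *ᵥ (t i + t l)) (t p + t c') = 1 := by
      rw [← hv', mat_Bf]; exact D7 i l _ (Ne.symm hl) h2.symm hlk
    have hne : mat g *ᵥ (t i + t l) ≠ t a' + t c' := by
      intro h
      have h4 : t a' + t c' = mat g *ᵥ (t (i + 1) + t (i + 2)) := by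
        rw [← D12 p a' c', ← hu', ← hv', ← Matrix.mulVec_add, D11]
      rw [h4] at h
      have := mat_inj g h
      exact D3 i _ _ l h1.symm h2.symm (Ne.symm hl) h3 (Ne.symm hlj) (Ne.symm hlk) this
    obtain ⟨l', hl', hw⟩ := D1 p a' c' ha'.symm hc'.symm hac _ hQw hB1 hB2 hne
    exact ⟨l', hl', hw⟩
  · rw [D8, Finset.card_image_of_injective _ (mat_inj g), D8]

abbrev S8 : Type := {T : Finset (I6 → ZMod 2) // ∃ p, T = star p}

def act (g : O6) (s : S8) : S8 :=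
  ⟨s.1.image (fun w => mat g *ᵥ w), by
    obtain ⟨p, hp⟩ := s.2
    obtain ⟨p', hp'⟩ := star_closed g p
    exact ⟨p', by rw [hp, hp']⟩⟩

instance : MulAction O6 S8 where
  smul := act
  one_smul s := Subtype.ext (by
    change s.1.image (fun w => mat 1 *ᵥ w) = s.1
    simp [mat_one])
  mul_smul g h s := Subtype.ext (by
    change s.1.image (fun w => mat (g * h) *ᵥ w) =
      (s.1.image (fun w => mat h *ᵥ w)).image (fun w => mat g *ᵥ w)
    rw [Finset.image_image]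
    congr 1
    funext w
    simp [mat_mul, Matrix.mulVec_mulVec])

theorem smul_val (g : O6) (s : S8) : (g • s).1 = s.1.image (fun w => mat g *ᵥ w) := rfl

noncomputable def E8 : Fin 8 ≃ S8 :=
  Equiv.ofBijective (fun p => ⟨star p, p, rfl⟩)
    ⟨fun i j h => D9 (congrArg Subtype.val h),
     fun s => by
      obtain ⟨p, hp⟩ := s.2
      exact ⟨p, Subtype.ext hp.symm⟩⟩

theorem E8_val (i : Fin 8) : (E8 i).1 = star i := rfl

noncomputable def psi : O6 →* Equiv.Perm (Fin 8) :=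
  (E8.symm.permCongrHom : Equiv.Perm S8 ≃* Equiv.Perm (Fin 8)).toMonoidHom.comp
    (MulAction.toPermHom O6 S8)

theorem psi_apply_eq (g : O6) (k j : Fin 8) :
    psi g k = j ↔ (star k).image (fun w => mat g *ᵥ w) = star j := by
  have h1 : psi g k = E8.symm (g • E8 k) := by
    simp [psi, Equiv.permCongrHom_coe, Equiv.permCongr_apply]
  rw [h1, Equiv.symm_apply_eq]
  constructor
  · intro h
    have := congrArg Subtype.val h
    rwa [smul_val, E8_val, E8_val] at this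
  · intro h
    apply Subtype.ext
    rwa [smul_val, E8_val, E8_val]

theorem psi_inj : Function.Injective psi := by
  rw [injective_iff_map_eq_one]
  intro g hg
  have hst : ∀ k, (star k).image (fun w => mat g *ᵥ w) = star k := by
    intro k
    rw [← psi_apply_eq, hg]; rfl
  have hfix : ∀ i j : Fin 8, i ≠ j → mat g *ᵥ (t i + t j) = t i + t j := by
    intro i j hij
    have h1 : mat g *ᵥ (t i + t j) ∈ star i := by
      rw [← hst i]
      exact Finset.mem_image_of_mem _ ((mem_star i _).2 ⟨j, hij.symm, rfl⟩)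
    have h2 : mat g *ᵥ (t i + t j) ∈ star j := by
      rw [← hst j]
      exact Finset.mem_image_of_mem _ ((mem_star j _).2 ⟨i, hij, add_comm _ _⟩)
    have h3 : mat g *ᵥ (t i + t j) ∈ star i ∩ star j := Finset.mem_inter.2 ⟨h1, h2⟩
    rw [D5 i j hij, Finset.mem_singleton] at h3
    exact h3
  have hmat : mat g = 1 := by
    ext a b
    have h1 : mat g *ᵥ Pi.single b 1 = Pi.single b 1 := by
      rw [h_span b, Matrix.mulVec_sum]
      exact Finset.sum_congr rfl (fun k hk => hfix k 0 (hT0 b k hk))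
    have h2 := congrFun h1 a
    rw [Matrix.mulVec_single_one] at h2
    rw [Matrix.one_apply]
    simpa [Pi.single_apply] using h2
  exact Subtype.ext (Units.ext hmat)

def G (i : Fin 7) : O6 :=
  ⟨⟨Gm i, Gm i, hGm_mul i, hGm_mul i⟩, fun u _ => hGm_iso i u⟩

theorem psi_G (i : Fin 7) : psi (G i) = Equiv.swap i.castSucc i.succ := by
  ext k
  congr 1
  exact (psi_apply_eq (G i) k _).2 (hGm_swap i k)

theorem psi_surj : Function.Surjective psi := by
  have : (⊤ : Submonoid (Equiv.Perm (Fin 8))) ≤ MonoidHom.mrange psi := by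
    rw [← Equiv.Perm.mclosure_swap_castSucc_succ 7, Submonoid.closure_le]
    rintro _ ⟨i, rfl⟩
    exact ⟨G i, psi_G i⟩
  intro σ
  exact this (Submonoid.mem_top σ)

/-- O⁺_6(2) ≅ S_8: the isometry group of the hyperbolic form x_1y_1 + x_2y_2 + x_3y_3 over the field with 2 elements is isomorphic to the symmetric group on 8 letters. -/
theorem result {F : Type*} [Field F] [Fintype F] (hF : Fintype.card F = 2) : Nonempty (↥(Cfsg.isometryGroup F (Cfsg.quadFormPlus 3 F)) ≃* Equiv.Perm (Fin 8)) := by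
  let φ : F ≃+* ZMod 2 := (ZMod.ringEquivOfPrime F Nat.prime_two hF).symm
  have h : ∀ v : I6 → F, Q6 (fun i => φ (v i)) = φ (quadFormPlus 3 F v) := by
    intro v
    simp [Q6, quadFormPlus, map_sum, map_mul]
  exact ⟨(isoTransfer φ _ _ h).trans (MulEquiv.ofBijective psi ⟨psi_inj, psi_surj⟩)⟩

end Cfsg.Agent.S0825
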