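import Cfsg.Statements.S3707
import Mathlib

set_option autoImplicit false
open Cfsg
open scoped Pointwise

namespace Cfsg.Agent.S3707

section core

variable (G : Type*) {Ω : Type*} [Group G] [MulAction G Ω]

/-- The block system of the stabiliser of `α` generated by `B`, transported to every point. -/
def Rel (α : Ω) (B : Set Ω) (x y z : Ω) : Prop :=
  ∃ g : G, g • α = x ∧ y ∈ g • B ∧ z ∈ g • B

variable {G}

theorem rel_smul {α : Ω} {B : Set Ω} {x y z : Ω} (h : G) (hR : Rel G α B x y z) :
    Rel G α B (h • x) (h • y) (h • z) := by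
  obtain ⟨g, hg, hy, hz⟩ := hR
  refine ⟨h * g, by rw [mul_smul, hg], ?_, ?_⟩
  · rw [mul_smul]; exact Set.smul_mem_smul_set hy
  · rw [mul_smul]; exact Set.smul_mem_smul_set hz

theorem smul_eq_of_mem {α : Ω} {B : Set Ω}
    (hblock : ∀ k : G, k • α = α → k • B = B ∨ Disjoint (k • B) B)
    {g g' : G} {x y : Ω} (hg : g • α = x) (hg' : g' • α = x) (hy : y ∈ g • B)
    (hy' : y ∈ g' • B) : g • B = g' • B := by
  have hk : (g⁻¹ * g') • α = α := by rw [mul_smul, hg', ← hg, inv_smul_smul]
  rcases hblock _ hk with h | h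
  · rw [mul_smul] at h
    have h3 : g • B = g • (g⁻¹ • g' • B) := by rw [h]
    rw [h3, smul_inv_smul]
  · exfalso
    have h1 : g⁻¹ • y ∈ B := Set.mem_smul_set_iff_inv_smul_mem.mp hy
    have h2 : g⁻¹ • y ∈ (g⁻¹ * g') • B := by
      rw [mul_smul]; exact Set.smul_mem_smul_set hy'
    exact Set.disjoint_left.mp h h2 h1

theorem rel_ne {α : Ω} {B : Set Ω} (hαB : α ∉ B) {x y z : Ω} (hR : Rel G α B x y z) :
    y ≠ x ∧ z ≠ x := by
  obtain ⟨g, hg, hy, hz⟩ := hR
  constructor
  · intro h
    rw [Set.mem_smul_set_iff_inv_smul_mem, h, ← hg, inv_smul_smul] at hy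
    exact hαB hy
  · intro h
    rw [Set.mem_smul_set_iff_inv_smul_mem, h, ← hg, inv_smul_smul] at hz
    exact hαB hz

theorem rel_symm {α : Ω} {B : Set Ω} {x y z : Ω} (hR : Rel G α B x y z) :
    Rel G α B x z y := by
  obtain ⟨g, hg, hy, hz⟩ := hR
  exact ⟨g, hg, hz, hy⟩

theorem rel_trans {α : Ω} {B : Set Ω}
    (hblock : ∀ k : G, k • α = α → k • B = B ∨ Disjoint (k • B) B)
    {x y z w : Ω} (h1 : Rel G α B x y z) (h2 : Rel G α B x z w) : Rel G α B x y w := by
  obtain ⟨g, hg, hy, hz⟩ := h1
  obtain ⟨g', hg', hz', hw⟩ := h2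
  have := smul_eq_of_mem hblock hg hg' hz hz'
  exact ⟨g, hg, hy, this ▸ hw⟩

theorem rel_fiber {α : Ω} {B : Set Ω}
    (h2 : ∀ a b c d : Ω, a ≠ b → c ≠ d → ∃ g : G, g • a = c ∧ g • b = d)
    (htrans : ∀ a b : Ω, ∃ g : G, g • a = b)
    (hαB : α ∉ B) (hblock : ∀ k : G, k • α = α → k • B = B ∨ Disjoint (k • B) B)
    (hBne : B.Nonempty) {x y : Ω} (hyx : y ≠ x) :
    ∃ g : G, g • α = x ∧ y ∈ g • B ∧ ∀ z, Rel G α B x y z ↔ z ∈ g • B := by
  obtain ⟨g0, hg0⟩ := htrans α x
  obtain ⟨b0, hb0⟩ := hBne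
  have hb0α : α ≠ b0 := fun h => hαB (h ▸ hb0)
  have hy' : α ≠ g0⁻¹ • y := by
    intro h; apply hyx; rw [← hg0, h, smul_inv_smul]
  obtain ⟨k, hk1, hk2⟩ := h2 α b0 α (g0⁻¹ • y) hb0α hy'
  have hgα : (g0 * k) • α = x := by rw [mul_smul, hk1, hg0]
  have hymem : y ∈ (g0 * k) • B := by
    rw [mul_smul]
    have : y = g0 • k • b0 := by rw [hk2, smul_inv_smul]
    rw [this]; exact Set.smul_mem_smul_set (Set.smul_mem_smul_set hb0)
  refine ⟨g0 * k, hgα, hymem, ?_⟩
  intro z; constructor
  · rintro ⟨g', hg', hy1, hz⟩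
    rw [smul_eq_of_mem hblock hgα hg' hymem hy1]; exact hz
  · intro hz; exact ⟨g0 * k, hgα, hymem, hz⟩

set_option maxHeartbeats 400000 in
theorem core_false [Fintype Ω] [DecidableEq Ω]
    (h2 : ∀ a b c d : Ω, a ≠ b → c ≠ d → ∃ g : G, g • a = c ∧ g • b = d)
    (htrans : ∀ a b : Ω, ∃ g : G, g • a = b)
    (α : Ω) (B : Set Ω) (hαB : α ∉ B)
    (hblock : ∀ k : G, k • α = α → k • B = B ∨ Disjoint (k • B) B)
    (hB2 : 2 ≤ B.ncard) (y1 : Ω) (hy1 : y1 ∉ B) (hy1α : y1 ≠ α)
    (Γ : Set Ω) (h1 : 1 < Γ.ncard) (hΓ2 : 2 * Γ.ncard ≤ Fintype.card Ω)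
    (htr : ∀ x ∈ Γ, ∀ y ∈ Γ, ∃ g : G, (∀ z ∉ Γ, g • z = z) ∧ g • x = y) : False := by
  classical
  have hBne : B.Nonempty := by
    rw [← Set.ncard_pos]; omega
  have hfib : ∀ x y : Ω, y ≠ x →
      (Finset.univ.filter (fun z => Rel G α B x y z)).card = B.ncard := by
    intro x y hyx
    obtain ⟨g, hg, hy, hiff⟩ := rel_fiber h2 htrans hαB hblock hBne hyx
    have : ((Finset.univ.filter (fun z => Rel G α B x y z) : Finset Ω) : Set Ω) = g • B := by
      ext z; simp [hiff]
    rw [← Set.ncard_coe_finset, this, Set.ncard_smul_set]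
  have hself : ∀ x y : Ω, y ≠ x → Rel G α B x y y := by
    intro x y hyx
    obtain ⟨g, hg, hy, hiff⟩ := rel_fiber h2 htrans hαB hblock hBne hyx
    exact (hiff y).mpr hy
  have hNsmul : ∀ (g : G) (y z : Ω),
      (Finset.univ.filter (fun x => Rel G α B x (g • y) (g • z))).card =
      (Finset.univ.filter (fun x => Rel G α B x y z)).card := by
    intro g y z
    apply le_antisymm
    · apply Finset.card_le_card_of_injOn (fun x => g⁻¹ • x)
      · intro x hx
        simp only [Finset.coe_filter, Finset.mem_univ, true_and, Set.mem_ofPred_eq] at hx ⊢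
        have := rel_smul g⁻¹ hx
        simpa using this
      · intro x _ x' _ h
        exact MulAction.injective g⁻¹ h
    · apply Finset.card_le_card_of_injOn (fun x => g • x)
      · intro x hx
        simp only [Finset.coe_filter, Finset.mem_univ, true_and, Set.mem_ofPred_eq] at hx ⊢
        exact rel_smul g hx
      · intro x _ x' _ h
        exact MulAction.injective g h
  have hNconst : ∀ y z y' z' : Ω, y ≠ z → y' ≠ z' →
      (Finset.univ.filter (fun x => Rel G α B x y z)).card =
      (Finset.univ.filter (fun x => Rel G α B x y' z')).card := by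
    intro y z y' z' h h'
    obtain ⟨g, rfl, rfl⟩ := h2 y z y' z' h h'
    exact (hNsmul g y z).symm
  have hν : ∀ y z : Ω, y ≠ z →
      (Finset.univ.filter (fun x => Rel G α B x y z)).card + 1 = B.ncard := by
    intro y z hyz
    have key := Finset.sum_card_bipartiteAbove_eq_sum_card_bipartiteBelow
      (fun (x z' : Ω) => Rel G α B x y z') (s := Finset.univ.erase y) (t := Finset.univ.erase y)
    have hL : ∀ x ∈ Finset.univ.erase y,
        ((Finset.univ.erase y).bipartiteAbove (fun (x z' : Ω) => Rel G α B x y z') x).card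
          = B.ncard - 1 := by
      intro x hx
      have hxy : y ≠ x := (Finset.ne_of_mem_erase hx).symm
      have : (Finset.univ.erase y).bipartiteAbove (fun (x z' : Ω) => Rel G α B x y z') x
          = (Finset.univ.filter (fun z => Rel G α B x y z)).erase y := by
        ext z'
        simp only [Finset.bipartiteAbove, Finset.mem_filter, Finset.mem_erase, Finset.mem_univ,
          and_true, true_and]
      rw [this, Finset.card_erase_of_mem (by simp [hself x y hxy]), hfib x y hxy]
    have hR : ∀ z' ∈ Finset.univ.erase y,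
        ((Finset.univ.erase y).bipartiteBelow (fun (x z' : Ω) => Rel G α B x y z') z').card
          = (Finset.univ.filter (fun x => Rel G α B x y z)).card := by
      intro z' hz'
      have hyz' : y ≠ z' := (Finset.ne_of_mem_erase hz').symm
      have : (Finset.univ.erase y).bipartiteBelow (fun (x z' : Ω) => Rel G α B x y z') z'
          = Finset.univ.filter (fun x => Rel G α B x y z') := by
        ext x
        simp only [Finset.bipartiteBelow, Finset.mem_filter, Finset.mem_erase, Finset.mem_univ,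
          and_true, true_and]
        constructor
        · exact fun h => h.2
        · exact fun h => ⟨(rel_ne hαB h).1.symm, h⟩
      rw [this]
      exact hNconst y z' y z hyz' hyz
    rw [Finset.sum_congr rfl hL, Finset.sum_congr rfl hR, Finset.sum_const, Finset.sum_const,
      smul_eq_mul, smul_eq_mul] at key
    have hpos : 0 < (Finset.univ.erase y).card :=
      Finset.card_pos.mpr ⟨z, by simp [hyz.symm]⟩
    have := Nat.eq_of_mul_eq_mul_left hpos key
    omega
  -- at least two blocks
  obtain ⟨b0, hb0⟩ := hBne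
  have hb0α : b0 ≠ α := fun h => hαB (h ▸ hb0)
  have hdisj0 : Disjoint (Finset.univ.filter (fun z => Rel G α B α b0 z))
      (Finset.univ.filter (fun z => Rel G α B α y1 z)) := by
    rw [Finset.disjoint_left]
    intro z hz1 hz2
    simp only [Finset.mem_filter, Finset.mem_univ, true_and] at hz1 hz2
    have hR : Rel G α B α b0 y1 := rel_trans hblock hz1 (rel_symm hz2)
    obtain ⟨g, hg, hb, hy⟩ := hR
    have : g • B = (1 : G) • B :=
      smul_eq_of_mem hblock hg (one_smul G α) hb (by rw [one_smul]; exact hb0)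
    rw [this, one_smul] at hy
    exact hy1 hy
  have hcard2 : 2 * B.ncard + 1 ≤ Fintype.card Ω := by
    have hsub : (Finset.univ.filter (fun z => Rel G α B α b0 z)) ∪
        (Finset.univ.filter (fun z => Rel G α B α y1 z)) ⊆ Finset.univ.erase α := by
      intro z hz
      rw [Finset.mem_union] at hz
      rw [Finset.mem_erase]
      refine ⟨?_, Finset.mem_univ _⟩
      rcases hz with hz | hz
      · exact (rel_ne hαB (Finset.mem_filter.mp hz).2).2
      · exact (rel_ne hαB (Finset.mem_filter.mp hz).2).2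
    have := Finset.card_le_card hsub
    rw [Finset.card_union_of_disjoint hdisj0, hfib α b0 hb0α, hfib α y1 hy1α,
      Finset.card_erase_of_mem (Finset.mem_univ _), Finset.card_univ] at this
    omega
  -- the complement of Γ
  have hΓcard : Γ.ncard = (Finset.univ.filter (fun z => z ∈ Γ)).card := by
    rw [← Set.ncard_coe_finset]; congr 1; ext z; simp
  have hΔcard : (Finset.univ.filter (fun z => z ∉ Γ)).card + Γ.ncard = Fintype.card Ω := by
    rw [hΓcard, add_comm, Finset.card_filter_add_card_filter_not, Finset.card_univ]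
  obtain ⟨γ0, hγ0⟩ : Γ.Nonempty := by rw [← Set.ncard_pos]; omega
  have hpig : ∃ δ1 δ2 : Ω, δ1 ∉ Γ ∧ δ2 ∉ Γ ∧ δ1 ≠ δ2 ∧ Rel G α B γ0 δ1 δ2 := by
    by_contra hcon
    push Not at hcon
    have hdisj : ∀ x ∈ Finset.univ.filter (fun z => z ∉ Γ),
        ∀ y ∈ Finset.univ.filter (fun z => z ∉ Γ), x ≠ y →
        Disjoint (Finset.univ.filter (fun z => Rel G α B γ0 x z))
          (Finset.univ.filter (fun z => Rel G α B γ0 y z)) := by
      intro x hx y hy hxy
      rw [Finset.disjoint_left]
      intro z hz1 hz2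
      simp only [Finset.mem_filter, Finset.mem_univ, true_and] at hz1 hz2 hx hy
      exact hcon x y hx hy hxy (rel_trans hblock hz1 (rel_symm hz2))
    have hcardU := Finset.card_biUnion hdisj
    have hsum : ∑ x ∈ Finset.univ.filter (fun z => z ∉ Γ),
        (Finset.univ.filter (fun z => Rel G α B γ0 x z)).card
        = (Finset.univ.filter (fun z => z ∉ Γ)).card * B.ncard := by
      rw [Finset.sum_congr rfl (g := fun _ => B.ncard), Finset.sum_const, smul_eq_mul]
      intro x hx
      simp only [Finset.mem_filter, Finset.mem_univ, true_and] at hx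
      exact hfib γ0 x (fun h => hx (h ▸ hγ0))
    have hsub : (Finset.univ.filter (fun z => z ∉ Γ)).biUnion
        (fun x => Finset.univ.filter (fun z => Rel G α B γ0 x z)) ⊆ Finset.univ.erase γ0 := by
      intro z hz
      rw [Finset.mem_biUnion] at hz
      obtain ⟨x, _, hz⟩ := hz
      rw [Finset.mem_erase]
      exact ⟨(rel_ne hαB (Finset.mem_filter.mp hz).2).2, Finset.mem_univ _⟩
    have h3 := Finset.card_le_card hsub
    rw [hcardU, hsum, Finset.card_erase_of_mem (Finset.mem_univ _), Finset.card_univ] at h3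
    have h4 : (Finset.univ.filter (fun z => z ∉ Γ)).card * 2 ≤
        (Finset.univ.filter (fun z => z ∉ Γ)).card * B.ncard := Nat.mul_le_mul_left _ hB2
    omega
  obtain ⟨δ1, δ2, hδ1, hδ2, hδ12, hRδ⟩ := hpig
  have hm : Γ.ncard + 1 ≤ B.ncard := by
    have hsub : Γ ⊆ ((Finset.univ.filter (fun x => Rel G α B x δ1 δ2) : Finset Ω) : Set Ω) := by
      intro γ hγ
      obtain ⟨h, hfix, hh⟩ := htr γ0 hγ0 γ hγ
      have := rel_smul h hRδ
      rw [hh, hfix δ1 hδ1, hfix δ2 hδ2] at this
      simpa using this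
    have := Set.ncard_le_ncard hsub
    rw [Set.ncard_coe_finset] at this
    have := hν δ1 δ2 hδ12
    omega
  obtain ⟨γ, γ', hγ, hγ', hγγ'⟩ := (Set.one_lt_ncard_iff).mp h1
  have hall : ∀ α' : Ω, α' ∉ Γ → Rel G α B α' γ γ' := by
    intro α' hα'
    have hγα' : γ ≠ α' := fun h => hα' (h ▸ hγ)
    obtain ⟨δ, hδC, hδ⟩ : ∃ δ, Rel G α B α' γ δ ∧ δ ∉ Γ := by
      by_contra hcon
      push Not at hcon
      have hsub : ((Finset.univ.filter (fun z => Rel G α B α' γ z) : Finset Ω) : Set Ω) ⊆ Γ := by
        intro z hz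
        simp only [Finset.coe_filter, Finset.mem_univ, true_and, Set.mem_ofPred_eq] at hz
        exact hcon z hz
      have := Set.ncard_le_ncard hsub
      rw [Set.ncard_coe_finset, hfib α' γ hγα'] at this
      omega
    obtain ⟨h, hfix, hh⟩ := htr γ hγ γ' hγ'
    have := rel_smul h hδC
    rw [hh, hfix δ hδ, hfix α' hα'] at this
    exact rel_trans hblock hδC (rel_symm this)
  have hn : (Finset.univ.filter (fun z => z ∉ Γ)).card + 1 ≤ B.ncard := by
    have hsub : Finset.univ.filter (fun z => z ∉ Γ) ⊆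
        Finset.univ.filter (fun x => Rel G α B x γ γ') := by
      intro x hx
      simp only [Finset.mem_filter, Finset.mem_univ, true_and] at hx ⊢
      exact hall x hx
    have := Finset.card_le_card hsub
    have := hν γ γ' hγγ'
    omega
  omega

end core

set_option maxHeartbeats 400000 in
/-- Let G be a finite primitive permutation group on Ω of degree n and Γ ⊂ Ω a subset with 1 < #Γ ≤ n/2 such that the pointwise stabilizer of Ω ∖ Γ is transitive on Γ. Then G is 3-transitive on Ω. -/
theorem result {G Ω : Type*} [Group G] [Finite G] [MulAction G Ω] [FaithfulSMul G Ω] [Finite Ω] (hprim : MulAction.IsPreprimitive G Ω) (Γ : Set Ω) (h1 : 1 < Γ.ncard) (h2 : 2 * Γ.ncard ≤ Nat.card Ω) (htr : ∀ x ∈ Γ, ∀ y ∈ Γ, ∃ g : G, (∀ z ∉ Γ, g • z = z) ∧ g • x = y) : MulAction.IsMultiplyPretransitive G Ω 3 := by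
  classical
  letI : Fintype Ω := Fintype.ofFinite Ω
  have hcompl : Γᶜ.ncard + Γ.ncard = Nat.card Ω := Set.ncard_compl_add_ncard Γ
  -- first application of Jordan's theorem
  have hpt1 : MulAction.IsPretransitive (fixingSubgroup G Γᶜ)
      (SubMulAction.ofFixingSubgroup G Γᶜ) := by
    constructor
    rintro ⟨x, hx⟩ ⟨y, hy⟩
    have hx' : x ∈ Γ := by
      have := (SubMulAction.mem_ofFixingSubgroup_iff G).mp hx
      simpa using this
    have hy' : y ∈ Γ := by
      have := (SubMulAction.mem_ofFixingSubgroup_iff G).mp hy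
      simpa using this
    obtain ⟨g, hfix, hg⟩ := htr x hx' y hy'
    refine ⟨⟨g, ?_⟩, ?_⟩
    · rw [mem_fixingSubgroup_iff]; intro z hz; exact hfix z hz
    · apply Subtype.ext; exact hg
  obtain ⟨k, hk⟩ : ∃ k, Γᶜ.ncard = k + 1 := ⟨Γᶜ.ncard - 1, by omega⟩
  have h2t : MulAction.IsMultiplyPretransitive G Ω 2 :=
    hprim.is_two_pretransitive hk (by omega) hpt1
  have : MulAction.IsPretransitive G Ω := MulAction.isPretransitive_of_is_two_pretransitive
  obtain ⟨α, hα⟩ : (Γᶜ).Nonempty := by rw [← Set.ncard_pos]; omega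
  have hαΓ : α ∉ Γ := hα
  rw [show (3 : ℕ) = Nat.succ 2 from rfl, SubMulAction.ofStabilizer.isMultiplyPretransitive (a := α)]
  -- primitivity of the point stabiliser
  have hptα : MulAction.IsPretransitive (MulAction.stabilizer G α)
      (SubMulAction.ofStabilizer G α) := by
    rw [← MulAction.is_one_pretransitive_iff, ← SubMulAction.ofStabilizer.isMultiplyPretransitive]
    exact h2t
  have hprimα : MulAction.IsPreprimitive (MulAction.stabilizer G α)
      (SubMulAction.ofStabilizer G α) := by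
    apply MulAction.IsPreprimitive.mk
    intro B hB
    by_contra hBtriv
    rw [MulAction.IsTrivialBlock, not_or] at hBtriv
    obtain ⟨hBns, hBnu⟩ := hBtriv
    obtain ⟨y, hy⟩ := (Set.ne_univ_iff_exists_notMem B).mp hBnu
    have himg : ∀ k : G, ∀ hk : k • α = α,
        k • (Subtype.val '' B) = Subtype.val '' ((⟨k, hk⟩ : MulAction.stabilizer G α) • B) := by
      intro k hk
      ext x
      constructor
      · rintro ⟨_, ⟨b, hb, rfl⟩, rfl⟩
        exact ⟨(⟨k, hk⟩ : MulAction.stabilizer G α) • b, Set.smul_mem_smul_set hb, rfl⟩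
      · rintro ⟨_, ⟨b, hb, rfl⟩, rfl⟩
        exact ⟨b.val, ⟨b, hb, rfl⟩, rfl⟩
    refine core_false (G := G)
      (fun a b c d hab hcd => MulAction.is_two_pretransitive_iff.mp h2t hab hcd)
      (fun a b => MulAction.exists_smul_eq G a b) α (Subtype.val '' B)
      (SubMulAction.notMem_val_image G B) ?_ ?_ y.val ?_ ?_ Γ h1
      (by rwa [Nat.card_eq_fintype_card] at h2) htr
    · intro k hk
      rw [himg k hk]
      rcases hB.smul_eq_or_disjoint (⟨k, hk⟩ : MulAction.stabilizer G α) with h | h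
      · left; rw [h]
      · right; exact (Set.disjoint_image_iff Subtype.val_injective).mpr h
    · rw [Set.ncard_image_of_injective B Subtype.val_injective]
      have : B.Nontrivial := Set.not_subsingleton_iff.mp hBns
      have := (Set.one_lt_ncard_iff_nontrivial).mpr this
      omega
    · rintro ⟨b, hb, hby⟩
      exact hy (Subtype.val_injective hby ▸ hb)
    · exact (SubMulAction.mem_ofStabilizer_iff G α).mp y.prop
  -- second application of Jordan's theorem, to the stabiliser
  have hcardX : Nat.card (SubMulAction.ofStabilizer G α) + 1 = Nat.card Ω :=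
    SubMulAction.nat_card_ofStabilizer_add_one_eq G α
  have ht : (Subtype.val '' (Subtype.val ⁻¹' Γᶜ : Set (SubMulAction.ofStabilizer G α))) =
      Γᶜ \ {α} := by
    ext x
    constructor
    · rintro ⟨z, hz, rfl⟩
      exact ⟨hz, (SubMulAction.mem_ofStabilizer_iff G α).mp z.prop⟩
    · rintro ⟨hx1, hx2⟩
      exact ⟨⟨x, (SubMulAction.mem_ofStabilizer_iff G α).mpr hx2⟩, hx1, rfl⟩
  have htcard : (Subtype.val ⁻¹' Γᶜ : Set (SubMulAction.ofStabilizer G α)).ncard + 1 =
      Γᶜ.ncard := by
    rw [← Set.ncard_image_of_injective _ Subtype.val_injective, ht,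
      Set.ncard_sdiff_singleton_add_one hα]
  have hpt2 : MulAction.IsPretransitive
      (fixingSubgroup (MulAction.stabilizer G α)
        (Subtype.val ⁻¹' Γᶜ : Set (SubMulAction.ofStabilizer G α)))
      (SubMulAction.ofFixingSubgroup (MulAction.stabilizer G α)
        (Subtype.val ⁻¹' Γᶜ : Set (SubMulAction.ofStabilizer G α))) := by
    constructor
    rintro ⟨⟨x, hx0⟩, hx⟩ ⟨⟨y, hy0⟩, hy⟩
    have hx' : x ∈ Γ := by
      have := (SubMulAction.mem_ofFixingSubgroup_iff (MulAction.stabilizer G α)).mp hx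
      simpa using this
    have hy' : y ∈ Γ := by
      have := (SubMulAction.mem_ofFixingSubgroup_iff (MulAction.stabilizer G α)).mp hy
      simpa using this
    obtain ⟨g, hfix, hg⟩ := htr x hx' y hy'
    refine ⟨⟨⟨g, hfix α hαΓ⟩, ?_⟩, ?_⟩
    · rw [mem_fixingSubgroup_iff]
      intro z hz
      apply Subtype.ext
      exact hfix z.val hz
    · apply Subtype.ext; apply Subtype.ext; exact hg
  obtain ⟨k', hk'⟩ : ∃ k', (Subtype.val ⁻¹' Γᶜ : Set (SubMulAction.ofStabilizer G α)).ncard
      = k' + 1 :=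
    ⟨(Subtype.val ⁻¹' Γᶜ : Set (SubMulAction.ofStabilizer G α)).ncard - 1, by omega⟩
  exact hprimα.is_two_pretransitive hk' (by omega) hpt2

end Cfsg.Agent.S3707
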