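import Cfsg.Statements.S0275
import Cfsg.Agent.S0274
import Cfsg.Agent.S0261
import Cfsg.Agent.Lib.Helper12.NormAbCyc2
import Cfsg.Agent.Lib.Helper31.Quat
import Mathlib

set_option maxHeartbeats 400000
set_option autoImplicit false
open Cfsg

namespace Cfsg.Agent.S0275

section quat
open QuaternionGroup
variable {n : ℕ} [NeZero n]

theorem mem_zpowers_a_one (g : QuaternionGroup n) :
    g ∈ Subgroup.zpowers (a 1 : QuaternionGroup n) ↔ ∃ i, g = a i := by
  have : NeZero (2 * n) := ⟨by have := NeZero.ne n; omega⟩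
  constructor
  · intro h
    rw [← mem_powers_iff_mem_zpowers] at h
    obtain ⟨k, rfl⟩ := h
    exact ⟨k, a_one_pow k⟩
  · rintro ⟨i, rfl⟩
    rw [← ZMod.natCast_zmod_val i, ← a_one_pow]
    exact Subgroup.pow_mem _ (Subgroup.mem_zpowers _) _

theorem index_zpowers_a_one :
    (Subgroup.zpowers (a 1 : QuaternionGroup n)).index = 2 := by
  have h1 := Subgroup.card_mul_index (Subgroup.zpowers (a 1 : QuaternionGroup n))
  rw [Nat.card_zpowers, orderOf_a_one, Nat.card_eq_fintype_card, QuaternionGroup.card] at h1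
  have hn := NeZero.ne n
  have h2 : 2 * n * (Subgroup.zpowers (a 1 : QuaternionGroup n)).index = 2 * n * 2 := by
    rw [h1]; ring
  exact Nat.eq_of_mul_eq_mul_left (by omega) h2

theorem two_n_zero : ((n : ZMod (2 * n)) + n) = 0 := Cfsg.Agent.Lib.Helper31.Quat.two_m_zero

theorem a_n_ne_one : (a (n : ZMod (2 * n)) : QuaternionGroup n) ≠ 1 := by
  intro h
  rw [one_def] at h
  have h1 : (n : ZMod (2 * n)) = 0 := by injection h
  rw [ZMod.natCast_eq_zero_iff] at h1
  have hn := NeZero.ne n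
  have := Nat.le_of_dvd (by omega) h1
  omega

theorem a_eq_a_n_of_sq {i : ZMod (2 * n)} (h1 : (a i : QuaternionGroup n) * a i = 1)
    (h2 : (a i : QuaternionGroup n) ≠ 1) : (a i : QuaternionGroup n) = a n := by
  have : NeZero (2 * n) := ⟨by have := NeZero.ne n; omega⟩
  have hn := NeZero.ne n
  rw [a_mul_a, one_def] at h1
  have h3 : i + i = 0 := by injection h1
  have h4 : ((i.val + i.val : ℕ) : ZMod (2 * n)) = 0 := by
    push_cast
    rw [ZMod.natCast_zmod_val]
    exact h3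
  rw [ZMod.natCast_eq_zero_iff] at h4
  have h5 : i.val < 2 * n := ZMod.val_lt i
  have h6 : n ∣ i.val := by
    obtain ⟨c, hc⟩ := h4
    exact ⟨c, by nlinarith⟩
  obtain ⟨c, hc⟩ := h6
  have hc2 : c < 2 := by
    by_contra hcon
    push_neg at hcon
    have : n * 2 ≤ n * c := Nat.mul_le_mul_left n hcon
    omega
  interval_cases c
  · exfalso
    apply h2
    have : i = 0 := by
      rw [← ZMod.natCast_zmod_val i, hc]; simp
    rw [this, a_zero]
  · have : i = n := by
      rw [← ZMod.natCast_zmod_val i, hc]; simp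
    rw [this]

theorem xa_conj_a (i j : ZMod (2 * n)) :
    (xa j : QuaternionGroup n) * a i * (xa j)⁻¹ = (a i)⁻¹ := by
  rw [Cfsg.Agent.Lib.Helper31.Quat.xa_inv, Cfsg.Agent.Lib.Helper31.Quat.a_inv, xa_mul_a, xa_mul_xa]
  congr 1
  have := two_n_zero (n := n)
  linear_combination this

theorem a_n_central (g : QuaternionGroup n) :
    (a (n : ZMod (2 * n)) : QuaternionGroup n) * g = g * a n := by
  have := two_n_zero (n := n)
  rcases g with i | i
  · rw [a_mul_a, a_mul_a, add_comm]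
  · rw [a_mul_xa, xa_mul_a]
    congr 1
    linear_combination -this

/-- A nonabelian subgroup of a generalized quaternion group is generalized quaternion. -/
theorem subgroup_quat (U : Subgroup (QuaternionGroup n)) (x y : QuaternionGroup n)
    (hx : x ∈ U) (hy : y ∈ U) (hxy : x * y ≠ y * x) :
    ∃ m, 2 ≤ m ∧ Nonempty (↥U ≃* QuaternionGroup m) ∧ Nat.card U = 4 * m := by
  have h2n := two_n_zero (n := n)
  obtain ⟨C, hC⟩ : ∃ C, C = Subgroup.zpowers (a 1 : QuaternionGroup n) := ⟨_, rfl⟩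
  have hCmem : ∀ g, g ∈ C ↔ ∃ i, g = a i := by
    intro g; rw [hC]; exact mem_zpowers_a_one g
  have hCidx : C.index = 2 := by rw [hC]; exact index_zpowers_a_one
  haveI hCn : C.Normal := Subgroup.normal_of_index_eq_two hCidx
  haveI hCcyc : IsCyclic C := by rw [hC]; infer_instance
  -- U is not contained in C
  have hUC : ¬ U ≤ C := by
    intro hle
    obtain ⟨i, rfl⟩ := (hCmem x).mp (hle hx)
    obtain ⟨j, rfl⟩ := (hCmem y).mp (hle hy)
    apply hxy
    rw [a_mul_a, a_mul_a, add_comm]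
  obtain ⟨b, hbU, hbC⟩ : ∃ b, b ∈ U ∧ b ∉ C := by
    by_contra hcon
    push_neg at hcon
    exact hUC hcon
  obtain ⟨j₀, rfl⟩ : ∃ j₀, b = xa j₀ := by
    rcases b with i | i
    · exact absurd ((hCmem _).mpr ⟨i, rfl⟩) hbC
    · exact ⟨i, rfl⟩
  -- D = U ⊓ C is cyclic
  haveI hDcyc : IsCyclic (U ⊓ C : Subgroup (QuaternionGroup n)) :=
    Subgroup.isCyclic_of_le (inf_le_right : U ⊓ C ≤ C)
  obtain ⟨a', ha'⟩ := (Subgroup.isCyclic_iff_exists_zpowers_eq_top _).mp hDcyc
  have ha'D : a' ∈ U ⊓ C := by rw [← ha']; exact Subgroup.mem_zpowers a'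
  obtain ⟨i₀, rfl⟩ := (hCmem a').mp ha'D.2
  -- a n ∈ D
  have hzD : (a (n : ZMod (2 * n)) : QuaternionGroup n) ∈ U ⊓ C := by
    refine ⟨?_, (hCmem _).mpr ⟨_, rfl⟩⟩
    have h1 : (xa j₀ : QuaternionGroup n) * xa j₀ = a n := by
      rw [xa_mul_xa]; congr 1; ring
    rw [← h1]
    exact U.mul_mem hbU hbU
  have hzord : orderOf (a (n : ZMod (2 * n)) : QuaternionGroup n) = 2 := by
    apply orderOf_eq_prime
    · rw [sq, a_mul_a, h2n, a_zero]
    · exact a_n_ne_one
  have h2dvd : 2 ∣ orderOf (a i₀ : QuaternionGroup n) := by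
    rw [← hzord]
    apply orderOf_dvd_of_mem_zpowers
    rw [ha']; exact hzD
  obtain ⟨m, hm⟩ := h2dvd
  have hopos : 0 < orderOf (a i₀ : QuaternionGroup n) := orderOf_pos _
  have hmpos : 0 < m := by omega
  have hpow : (a i₀ : QuaternionGroup n) ^ m = a n := by
    have h1 : (a i₀ : QuaternionGroup n) ^ m = a ((m : ZMod (2 * n)) * i₀) := by
      clear hm hmpos
      induction m with
      | zero => simp
      | succ k ih => rw [pow_succ, ih, a_mul_a]; congr 1; push_cast; ring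
    rw [h1]
    apply a_eq_a_n_of_sq
    · rw [← h1, ← pow_add, ← two_mul, ← hm, pow_orderOf_eq_one]
    · rw [← h1]
      exact pow_ne_one_of_lt_orderOf (by omega) (by omega)
  -- m ≥ 2
  have hm2 : 2 ≤ m := by
    by_contra hcon
    have hm1 : m = 1 := by omega
    rw [hm1, mul_one] at hm
    have hsq : ∀ g ∈ U ⊓ C, g * g = 1 := by
      intro g hg
      rw [← ha'] at hg
      have := orderOf_dvd_of_mem_zpowers hg
      rw [hm] at this
      rw [← sq]
      exact orderOf_dvd_iff_pow_eq_one.mp this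
    apply hxy
    rcases x with i | i <;> rcases y with j | j
    · rw [a_mul_a, a_mul_a, add_comm]
    · have h1 := hsq (a i) ⟨hx, (hCmem _).mpr ⟨_, rfl⟩⟩
      rw [a_mul_a, one_def] at h1
      have h3 : i + i = 0 := by injection h1
      rw [a_mul_xa, xa_mul_a]
      congr 1
      linear_combination -h3
    · have h1 := hsq (a j) ⟨hy, (hCmem _).mpr ⟨_, rfl⟩⟩
      rw [a_mul_a, one_def] at h1
      have h3 : j + j = 0 := by injection h1
      rw [a_mul_xa, xa_mul_a]
      congr 1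
      linear_combination h3
    · have hmem : (xa i : QuaternionGroup n) * xa j ∈ U ⊓ C :=
        ⟨U.mul_mem hx hy, (hCmem _).mpr ⟨_, xa_mul_xa i j⟩⟩
      have h1 := hsq _ hmem
      rw [xa_mul_xa, a_mul_a, one_def] at h1
      have h3 : (n : ZMod (2 * n)) + j - i + ((n : ZMod (2 * n)) + j - i) = 0 := by injection h1
      rw [xa_mul_xa, xa_mul_xa]
      congr 1
      linear_combination h3 - h2n
  -- card U = 4 m
  have hDU : U ⊓ C ≤ U := inf_le_left
  have hrel : (U ⊓ C).relIndex U = 2 := by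
    rw [Subgroup.inf_relIndex_left]
    have h1 : C.relIndex U ∣ 2 := by
      rw [← hCidx]; exact Subgroup.relIndex_dvd_index_of_normal C U
    have h2 : C.relIndex U ≠ 1 := by
      rw [Ne, Subgroup.relIndex_eq_one]; exact hUC
    rcases (Nat.dvd_prime Nat.prime_two).mp h1 with h | h
    · exact absurd h h2
    · exact h
  have hcardD : Nat.card (U ⊓ C : Subgroup (QuaternionGroup n)) = 2 * m := by
    rw [← ha', Nat.card_zpowers, hm]
  have hcardU : Nat.card U = 4 * m := by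
    have h1 := Subgroup.relIndex_mul_relIndex ⊥ (U ⊓ C) U bot_le hDU
    rw [Subgroup.relIndex_bot_left, Subgroup.relIndex_bot_left, hrel, hcardD] at h1
    omega
  refine ⟨m, hm2, ?_, hcardU⟩
  refine Cfsg.Agent.Lib.Helper12.nonempty_mulEquiv_quaternion (G := ↥U) hm2
    ⟨a i₀, ha'D.1⟩ ⟨xa j₀, hbU⟩ hcardU ?_ ?_ ?_
  · rw [Subgroup.orderOf_mk, hm]
  · apply Subtype.ext
    show (xa j₀ : QuaternionGroup n) ^ 2 = (a i₀) ^ m
    rw [xa_sq, hpow]
  · apply Subtype.ext
    show (xa j₀ : QuaternionGroup n) * a i₀ * (xa j₀)⁻¹ = (a i₀)⁻¹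
    exact xa_conj_a i₀ j₀

end quat

open QuaternionGroup in
/-- If p is odd and H is a subgroup of SL_2(q), q a power of p, with more than one Sylow p-subgroup, then the Sylow 2-subgroups of H are generalised quaternion. -/
theorem result {F : Type*} [Field F] [Fintype F] (p : ℕ) [Fact p.Prime] [CharP F p] (hp : p ≠ 2) (H : Subgroup (Matrix.SpecialLinearGroup (Fin 2) F)) (hH : 1 < Nat.card (Sylow p H)) (S : Sylow 2 H) : ∃ k : ℕ, 1 ≤ k ∧ Nonempty ((S : Subgroup H) ≃* QuaternionGroup (2 ^ k)) := by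
  classical
  have hpp : p.Prime := Fact.out
  have hpodd : Odd p := hpp.odd_of_ne_two hp
  have hFodd : Odd (Fintype.card F) := by
    obtain ⟨k, -, hk⟩ := FiniteField.card F p
    rw [hk]; exact hpodd.pow
  have hZodd : Odd (Fintype.card (ZMod p)) := by
    rw [ZMod.card]; exact hpodd
  obtain ⟨K, hKH, ⟨e⟩⟩ := Cfsg.Agent.S0274.result p hp H hH
  obtain ⟨T₀⟩ : Nonempty (Sylow 2 (Matrix.SpecialLinearGroup (Fin 2) (ZMod p))) := inferInstance
  obtain ⟨k₀, hk₀, ⟨e₀⟩⟩ := Cfsg.Agent.S0261.result hZodd T₀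
  -- noncommuting elements of T₀
  have hne0 : (a 1 : QuaternionGroup (2 ^ k₀)) * xa 0 ≠ xa 0 * a 1 := by
    rw [a_mul_xa, xa_mul_a]
    intro h
    have h1 : (0 : ZMod (2 * 2 ^ k₀)) - 1 = 0 + 1 := by injection h
    have h2 : ((2 : ℕ) : ZMod (2 * 2 ^ k₀)) = 0 := by
      push_cast; linear_combination -h1
    rw [ZMod.natCast_eq_zero_iff] at h2
    have h3 : 2 ≤ 2 ^ k₀ := by
      calc 2 = 2 ^ 1 := by norm_num
        _ ≤ 2 ^ k₀ := Nat.pow_le_pow_right (by norm_num) hk₀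
    have := Nat.le_of_dvd (by norm_num) h2
    omega
  -- the embedding of SL(2, ZMod p) into H
  obtain ⟨ι, hι⟩ : ∃ ι : Matrix.SpecialLinearGroup (Fin 2) (ZMod p) →* ↥H,
      ι = (Subgroup.inclusion hKH).comp e.symm.toMonoidHom := ⟨_, rfl⟩
  have hιinj : Function.Injective ι := by
    rw [hι]
    exact (Subgroup.inclusion_injective hKH).comp e.symm.injective
  have hT₁ : IsPGroup 2 ((T₀ : Subgroup _).map ι) := T₀.isPGroup'.map ι
  obtain ⟨Q, hQ⟩ := hT₁.exists_le_sylow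
  obtain ⟨g, hg⟩ := MulAction.exists_smul_eq H Q S
  have hconj : ∀ x ∈ (Q : Subgroup H), g * x * g⁻¹ ∈ (S : Subgroup H) := by
    intro x hx
    rw [← hg, Sylow.coe_subgroup_smul]
    have : g * x * g⁻¹ = MulAut.conj g • x := by
      rw [MulAut.smul_def, MulAut.conj_apply]
    rw [this]
    exact Subgroup.smul_mem_pointwise_smul _ _ _ hx
  obtain ⟨u, hu⟩ : ∃ u : ↥H, u = ι (e₀.symm (a 1) : ↥T₀) := ⟨_, rfl⟩
  obtain ⟨v, hv⟩ : ∃ v : ↥H, v = ι (e₀.symm (xa 0) : ↥T₀) := ⟨_, rfl⟩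
  have huQ : u ∈ (Q : Subgroup H) := by
    apply hQ; rw [hu]; exact Subgroup.mem_map_of_mem _ (e₀.symm (a 1)).2
  have hvQ : v ∈ (Q : Subgroup H) := by
    apply hQ; rw [hv]; exact Subgroup.mem_map_of_mem _ (e₀.symm (xa 0)).2
  have huv : u * v ≠ v * u := by
    intro h
    rw [hu, hv, ← map_mul, ← map_mul] at h
    have h1 := hιinj h
    have h2 : (e₀.symm (a 1) : ↥T₀) * e₀.symm (xa 0) = e₀.symm (xa 0) * e₀.symm (a 1) :=
      Subtype.ext h1
    rw [← map_mul, ← map_mul] at h2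
    exact hne0 (e₀.symm.injective h2)
  have hxS := hconj u huQ
  have hyS := hconj v hvQ
  have hxy : (g * u * g⁻¹) * (g * v * g⁻¹) ≠ (g * v * g⁻¹) * (g * u * g⁻¹) := by
    intro h
    apply huv
    have h1 : g * (u * v) * g⁻¹ = g * (v * u) * g⁻¹ := by
      calc g * (u * v) * g⁻¹ = (g * u * g⁻¹) * (g * v * g⁻¹) := by group
        _ = (g * v * g⁻¹) * (g * u * g⁻¹) := h
        _ = g * (v * u) * g⁻¹ := by group
    exact mul_left_cancel (mul_right_cancel h1)
  -- S sits in a Sylow 2-subgroup of SL₂(F)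
  have hS' : IsPGroup 2 ((S : Subgroup H).map H.subtype) := S.isPGroup'.map H.subtype
  obtain ⟨T, hT⟩ := hS'.exists_le_sylow
  obtain ⟨k₁, hk₁, ⟨e₁⟩⟩ := Cfsg.Agent.S0261.result hFodd T
  obtain ⟨ψ, hψ⟩ : ∃ ψ : ↥(S : Subgroup H) →* QuaternionGroup (2 ^ k₁),
      ψ = e₁.toMonoidHom.comp ((Subgroup.inclusion hT).comp
        ((S : Subgroup H).equivMapOfInjective H.subtype H.subtype_injective).toMonoidHom) :=
    ⟨_, rfl⟩
  have hψinj : Function.Injective ψ := by
    rw [hψ]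
    exact e₁.injective.comp ((Subgroup.inclusion_injective hT).comp
      ((S : Subgroup H).equivMapOfInjective H.subtype H.subtype_injective).injective)
  have hxy' : ψ ⟨g * u * g⁻¹, hxS⟩ * ψ ⟨g * v * g⁻¹, hyS⟩ ≠
      ψ ⟨g * v * g⁻¹, hyS⟩ * ψ ⟨g * u * g⁻¹, hxS⟩ := by
    intro h
    rw [← map_mul, ← map_mul] at h
    have h1 := hψinj h
    apply hxy
    exact congrArg Subtype.val h1
  obtain ⟨m, hm2, ⟨e₂⟩, hcard⟩ := subgroup_quat ψ.range _ _
    (MonoidHom.mem_range.mpr ⟨_, rfl⟩) (MonoidHom.mem_range.mpr ⟨_, rfl⟩) hxy'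
  have hcardS : Nat.card ↥(S : Subgroup H) = 4 * m := by
    rw [← hcard]
    exact Nat.card_congr (MonoidHom.ofInjective hψinj).toEquiv
  obtain ⟨t, ht⟩ := IsPGroup.iff_card.mp S.isPGroup'
  have hmdvd : m ∣ 2 ^ t := by
    rw [← ht, hcardS]; exact Dvd.intro_left 4 rfl
  obtain ⟨k, -, hk⟩ := (Nat.dvd_prime_pow Nat.prime_two).mp hmdvd
  subst hk
  refine ⟨k, ?_, ⟨(MonoidHom.ofInjective hψinj).trans e₂⟩⟩
  by_contra hcon
  have hk0 : k = 0 := by omega
  rw [hk0] at hm2
  norm_num at hm2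

end Cfsg.Agent.S0275
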