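import Cfsg.Statements.S3375
import Mathlib

set_option autoImplicit false
open Cfsg

namespace Cfsg.Agent.S3375

variable {H : Type*} [Group H]

lemma gam_gam (γ : MulAut H) (hγ : orderOf γ = 2) (h : H) : γ (γ h) = h := by
  have h1 : γ ^ 2 = 1 := by rw [← hγ]; exact pow_orderOf_eq_one γ
  have h2 : (γ ^ 2) h = h := by rw [h1]; rfl
  rw [pow_two] at h2
  exact h2

/-- elements of the form `γ h * h⁻¹` are inverted -/
lemma inv_form (γ : MulAut H) (hγ : orderOf γ = 2) (h : H) :
    γ (γ h * h⁻¹) = (γ h * h⁻¹)⁻¹ := by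
  rw [map_mul, gam_gam γ hγ, map_inv, mul_inv_rev, inv_inv]

lemma comm_of_inv (A : Subgroup H) (γ : MulAut H) (hinv : ∀ a ∈ A, γ a = a⁻¹) (a b : H)
    (ha : a ∈ A) (hb : b ∈ A) : a * b = b * a := by
  have h1 : γ (a * b) = (a * b)⁻¹ := hinv _ (A.mul_mem ha hb)
  rw [map_mul, hinv a ha, hinv b hb, mul_inv_rev] at h1
  have h2 := congrArg (fun t => t⁻¹) h1
  simp only [mul_inv_rev, inv_inv] at h2
  exact h2.symm

/-- the fixed-point subgroup -/
def fixSub (γ : MulAut H) : Subgroup H where
  carrier := {h | γ h = h}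
  mul_mem' := by
    intro a b ha hb
    simp only [Set.mem_ofPred_eq] at *
    rw [map_mul, ha, hb]
  one_mem' := by simp
  inv_mem' := by
    intro a ha
    simp only [Set.mem_ofPred_eq] at *
    rw [map_inv, ha]

lemma mem_fixSub (γ : MulAut H) (h : H) : h ∈ fixSub γ ↔ γ h = h := Iff.rfl

/-- Key step: a γ-invariant subgroup of index 2 is inverted when γ has two fixed points. -/
lemma key [Finite H] (γ : MulAut H) (hγ : orderOf γ = 2)
    (hC : Nat.card {h : H // γ h = h} = 2) (A : Subgroup H) (hA : A.index = 2)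
    (hAγ : ∀ a ∈ A, γ a ∈ A) : ∀ a ∈ A, γ a = a⁻¹ := by
  have hAγ' : ∀ a : H, γ a ∈ A ↔ a ∈ A := by
    intro a
    refine ⟨fun h => ?_, hAγ a⟩
    have := hAγ _ h
    rwa [gam_gam γ hγ] at this
  have hmem : ∀ h : H, γ h * h⁻¹ ∈ A := by
    intro h
    rw [Subgroup.mul_mem_iff_of_index_two hA, hAγ', inv_mem_iff]
  let C := fixSub γ
  have hCcard : Nat.card C = 2 := hC
  let f : H ⧸ C → A := Quotient.lift (fun h : H => (⟨γ h * h⁻¹, hmem h⟩ : A)) (by
    intro a b hab
    have hab' : a⁻¹ * b ∈ C := QuotientGroup.leftRel_apply.mp hab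
    have h1 : γ (a⁻¹ * b) = a⁻¹ * b := hab'
    apply Subtype.ext
    show γ a * a⁻¹ = γ b * b⁻¹
    rw [map_mul, map_inv] at h1
    have h2 : γ b = γ a * (a⁻¹ * b) := by rw [← h1]; group
    rw [h2]; group)
  have hf : Function.Injective f := by
    intro x y
    induction x using QuotientGroup.induction_on with
    | H a =>
    induction y using QuotientGroup.induction_on with
    | H b =>
    intro hxy
    have h1 : γ a * a⁻¹ = γ b * b⁻¹ := congrArg Subtype.val hxy
    apply QuotientGroup.eq.mpr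
    show γ (a⁻¹ * b) = a⁻¹ * b
    rw [map_mul, map_inv]
    have h2 : γ b = γ a * a⁻¹ * b := by rw [h1]; group
    rw [h2]; group
  have hcard : Nat.card (H ⧸ C) = Nat.card A := by
    have h1 := Subgroup.card_eq_card_quotient_mul_card_subgroup C
    have h2 := A.index_mul_card
    rw [hCcard] at h1
    rw [hA] at h2
    omega
  have hbij := (Nat.bijective_iff_injective_and_card f).mpr ⟨hf, hcard⟩
  intro a ha
  obtain ⟨x, hx⟩ := hbij.2 ⟨a, ha⟩
  induction x using QuotientGroup.induction_on with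
  | H h =>
  have h1 : γ h * h⁻¹ = a := congrArg Subtype.val hx
  rw [← h1]
  exact inv_form γ hγ h

/-- the third subgroup of index two -/
def third (M M' : Subgroup H) (hM : M.index = 2) (hM' : M'.index = 2) : Subgroup H where
  carrier := {h | h ∈ M ↔ h ∈ M'}
  mul_mem' := by
    intro a b ha hb
    simp only [Set.mem_ofPred_eq] at *
    rw [Subgroup.mul_mem_iff_of_index_two hM, Subgroup.mul_mem_iff_of_index_two hM', ha, hb]
  one_mem' := by simp [M.one_mem, M'.one_mem]
  inv_mem' := by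
    intro a ha
    simp only [Set.mem_ofPred_eq] at *
    rw [inv_mem_iff, inv_mem_iff, ha]

lemma third_index (M M' : Subgroup H) (hM : M.index = 2) (hM' : M'.index = 2) (hne : M ≠ M') :
    (third M M' hM hM').index = 2 := by
  have : ∃ a : H, ¬ (a ∈ M ↔ a ∈ M') := by
    by_contra hcon
    push Not at hcon
    exact hne (Subgroup.ext hcon)
  obtain ⟨a, ha⟩ := this
  rw [Subgroup.index_eq_two_iff]
  refine ⟨a, fun b => ?_⟩
  show Xor ((b * a ∈ M) ↔ (b * a ∈ M')) ((b ∈ M) ↔ (b ∈ M'))
  rw [Subgroup.mul_mem_iff_of_index_two hM, Subgroup.mul_mem_iff_of_index_two hM']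
  unfold Xor
  tauto

theorem result {H : Type*} [Group H] [Finite H] (γ : MulAut H) (hγ : orderOf γ = 2) :
    ((∀ h : H, γ h = h → h = 1) → (∀ a b : H, a * b = b * a) ∧ ∀ h : H, γ h = h⁻¹) ∧
    ((Nat.card {h : H // γ h = h} = 2 ∧ ∃ M : Subgroup H, M.index = 2) →
      ∃ A : Subgroup H, A.index = 2 ∧ IsMulCommutative A ∧ (∀ a ∈ A, γ a ∈ A) ∧ ∀ a ∈ A, γ a = a⁻¹) := by
  refine ⟨?_, ?_⟩
  · intro hfix
    have hinj : Function.Injective (fun h : H => γ h * h⁻¹) := by
      intro a b hab
      have hab' : γ a * a⁻¹ = γ b * b⁻¹ := hab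
      have h1 : γ (a⁻¹ * b) = a⁻¹ * b := by
        rw [map_mul, map_inv]
        have h2 : γ b = γ a * a⁻¹ * b := by rw [hab']; group
        rw [h2]; group
      have h3 := hfix _ h1
      have : a = b := by
        have := congrArg (fun t => a * t) h3
        simpa using this.symm
      exact this
    have hsurj := Finite.surjective_of_injective hinj
    have hinv : ∀ h : H, γ h = h⁻¹ := by
      intro h
      obtain ⟨k, hk⟩ := hsurj h
      have hk' : γ k * k⁻¹ = h := hk
      rw [← hk']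
      exact inv_form γ hγ k
    refine ⟨?_, hinv⟩
    intro a b
    exact comm_of_inv ⊤ γ (fun a _ => hinv a) a b (Subgroup.mem_top a) (Subgroup.mem_top b)
  · rintro ⟨hC, M, hM⟩
    -- a γ-invariant subgroup of index 2
    have hex : ∃ A : Subgroup H, A.index = 2 ∧ ∀ a ∈ A, γ a ∈ A := by
      let M' : Subgroup H := M.map γ.toMonoidHom
      have hM' : M'.index = 2 := by
        have h0 : M'.index = M.index := Subgroup.index_map_equiv M γ
        rw [h0]; exact hM
      have hmemM' : ∀ a : H, γ a ∈ M' ↔ a ∈ M := by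
        intro a
        constructor
        · rintro ⟨b, hb, hba⟩
          have : b = a := γ.injective hba
          rwa [← this]
        · intro ha; exact ⟨a, ha, rfl⟩
      have hmemM : ∀ a : H, γ a ∈ M ↔ a ∈ M' := by
        intro a
        have := hmemM' (γ a)
        rw [gam_gam γ hγ] at this
        exact this.symm
      by_cases hMM : M = M'
      · refine ⟨M, hM, fun a ha => ?_⟩
        rw [hmemM a, ← hMM]; exact ha
      · refine ⟨third M M' hM hM', third_index M M' hM hM' hMM, fun a ha => ?_⟩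
        have ha' : a ∈ M ↔ a ∈ M' := ha
        show γ a ∈ M ↔ γ a ∈ M'
        rw [hmemM, hmemM', ha']
    obtain ⟨A, hA, hAγ⟩ := hex
    have hinv := key γ hγ hC A hA hAγ
    refine ⟨A, hA, ?_, hAγ, hinv⟩
    refine ⟨⟨?_⟩⟩
    rintro ⟨a, ha⟩ ⟨b, hb⟩
    apply Subtype.ext
    exact comm_of_inv A γ hinv a b ha hb

end Cfsg.Agent.S3375
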