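import Cfsg.Statements.S3377
import Mathlib

set_option autoImplicit false
open Cfsg

namespace Cfsg.Agent.S3377

section generic

variable {P : Type*} [Group P] (X : Fin 2 → P) (act : Fin 2 → ℕ → ℕ) (W : ℕ → P)

def pp : List (Fin 2) → P
  | [] => 1
  | t :: l => pp l * X t

def path : List (Fin 2) → ℕ → ℕ
  | [], v => v
  | t :: l, v => path l (act t v)

def E (v : ℕ) (t : Fin 2) : Prop := X t * W v = W (act t v)

def AllE (K : List (ℕ × Fin 2)) : Prop := ∀ e ∈ K, E X act W e.1 e.2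

def chk (K : List (ℕ × Fin 2)) : List (Fin 2) → ℕ → Bool
  | [], _ => true
  | t :: l, v => K.contains (v, t) && chk K l (act t v)

lemma pp_append (l₁ l₂ : List (Fin 2)) : pp X (l₁ ++ l₂) = pp X l₂ * pp X l₁ := by
  induction l₁ with
  | nil => simp [pp]
  | cons t l ih => simp [pp, ih, mul_assoc]

lemma path_lemma (K : List (ℕ × Fin 2)) (hK : AllE X act W K) :
    ∀ (l : List (Fin 2)) (v : ℕ), chk act K l v = true → pp X l * W v = W (path act l v) := by
  intro l
  induction l with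
  | nil => intro v _; simp [pp, path]
  | cons t l ih =>
    intro v h
    simp only [chk, Bool.and_eq_true] at h
    have h1 : E X act W v t := hK (v, t) (by simpa using h.1)
    have h2 := ih (act t v) h.2
    simp only [pp, path]
    rw [mul_assoc, h1, h2]

def step (K : List (ℕ × Fin 2)) (l : List (Fin 2)) (v k : ℕ) : Option (ℕ × Fin 2) :=
  match l.drop k with
  | [] => none
  | t :: l₂ =>
    if chk act K (l.take k) v && chk act K l₂ (act t (path act (l.take k) v))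
        && (path act l₂ (act t (path act (l.take k) v)) == v) then
      some (path act (l.take k) v, t)
    else none

lemma step_sound (K : List (ℕ × Fin 2)) (hK : AllE X act W K) (l : List (Fin 2))
    (hl : pp X l = 1) (v k : ℕ) (e : ℕ × Fin 2) (h : step act K l v k = some e) :
    E X act W e.1 e.2 := by
  unfold step at h
  rcases hd : l.drop k with _ | ⟨t, l₂⟩
  · rw [hd] at h; simp at h
  · rw [hd] at h
    simp only at h
    split_ifs at h with hc
    simp only [Bool.and_eq_true, beq_iff_eq] at hc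
    obtain ⟨⟨hc1, hc2⟩, hc3⟩ := hc
    have he : e = (path act (l.take k) v, t) := (Option.some.inj h).symm
    subst he
    have h1 := path_lemma X act W K hK _ _ hc1
    have h2 := path_lemma X act W K hK _ _ hc2
    rw [hc3] at h2
    have hsplit : l = l.take k ++ t :: l₂ := by
      rw [← hd, List.take_append_drop]
    have h3 : pp X l₂ * X t * pp X (l.take k) = 1 := by
      have : pp X (l.take k ++ t :: l₂) = 1 := by rw [← hsplit]; exact hl
      rw [pp_append] at this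
      simpa [pp] using this
    show X t * W (path act (l.take k) v) = W (act t (path act (l.take k) v))
    have h4 : pp X l₂ * (X t * W (path act (l.take k) v)) = pp X l₂ * W (act t (path act (l.take k) v)) := by
      rw [h2, ← h1, ← mul_assoc, ← mul_assoc, h3, one_mul]
    exact mul_left_cancel h4

def nthRel : List (List (Fin 2)) → ℕ → List (Fin 2)
  | [], _ => []
  | l :: _, 0 => l
  | _ :: ls, n + 1 => nthRel ls n

lemma pp_nthRel (rels : List (List (Fin 2))) (hrels : ∀ l ∈ rels, pp X l = 1) :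
    ∀ n, pp X (nthRel rels n) = 1 := by
  induction rels with
  | nil => intro n; simp [nthRel, pp]
  | cons l ls ih =>
    intro n
    cases n with
    | zero => exact hrels l (by simp)
    | succ n => exact ih (fun l' hl' => hrels l' (by simp [hl'])) n

def run (rels : List (List (Fin 2))) : List (ℕ × ℕ × ℕ) → List (ℕ × Fin 2) → Option (List (ℕ × Fin 2))
  | [], K => some K
  | (r, v, k) :: s, K =>
    match step act K (nthRel rels r) v k with
    | none => none
    | some e => run rels s (e :: K)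

lemma run_sound (rels : List (List (Fin 2))) (hrels : ∀ l ∈ rels, pp X l = 1) :
    ∀ (s : List (ℕ × ℕ × ℕ)) (K K' : List (ℕ × Fin 2)), AllE X act W K →
      run act rels s K = some K' → AllE X act W K' := by
  intro s
  induction s with
  | nil =>
    intro K K' hK h
    simp only [run] at h
    rw [← Option.some.inj h]; exact hK
  | cons a s ih =>
    intro K K' hK h
    obtain ⟨r, v, k⟩ := a
    simp only [run] at h
    rcases hs : step act K (nthRel rels r) v k with _ | e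
    · rw [hs] at h; simp at h
    · rw [hs] at h
      simp only at h
      have he := step_sound X act W K hK _ (pp_nthRel X rels hrels r) v k e hs
      refine ih (e :: K) K' ?_ h
      intro e' he'
      rcases List.mem_cons.mp he' with rfl | h'
      · exact he
      · exact hK e' h'

end generic


def wordsTab : List (List (Fin 2)) :=
  [[], [0], [1], [0, 0], [1, 0], [0, 1], [1, 1], [1, 0, 0], [0, 1, 0], [1, 1, 0], [0, 0, 1], [0, 1, 1], [1, 1, 1], [0, 1, 0, 0], [1, 1, 0, 0], [0, 0, 1, 0], [0, 1, 1, 0], [1, 1, 1, 0], [1, 0, 0, 1], [0, 0, 1, 1], [0, 1, 1, 1], [0, 0, 1, 0, 0], [0, 1, 1, 0, 0], [1, 1, 1, 0, 0], [1, 0, 0, 1, 0], [0, 0, 1, 1, 0], [0, 1, 1, 1, 0], [1, 1, 0, 0, 1], [1, 0, 0, 1, 1], [1, 0, 0, 1, 0, 0], [0, 0, 1, 1, 0, 0], [0, 1, 1, 1, 0, 0], [1, 1, 0, 0, 1, 0], [1, 0, 0, 1, 1, 0], [0, 1, 1, 0, 0, 1], [1, 1, 1, 0, 0, 1], [1, 1, 0, 0, 1, 1], [1, 1, 0, 0, 1, 0, 0], [1, 0, 0, 1, 1, 0, 0], [0, 1, 1, 0, 0, 1, 0], [1, 1, 1, 0, 0,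 1, 0], [1, 1, 0, 0, 1, 1, 0], [0, 0, 1, 1, 0, 0, 1], [0, 1, 1, 1, 0, 0, 1], [0, 1, 1, 0, 0, 1, 1], [0, 1, 1, 0, 0, 1, 0, 0], [1, 1, 1, 0, 0, 1, 0, 0], [1, 1, 0, 0, 1, 1, 0, 0], [0, 0, 1, 1, 0, 0, 1, 0], [0, 1, 1, 1, 0, 0, 1, 0], [0, 1, 1, 0, 0, 1, 1, 0], [1, 0, 0, 1, 1, 0, 0, 1], [0, 0, 1, 1, 0, 0, 1, 1], [0, 0, 1, 1, 0, 0, 1, 0, 0], [0, 1, 1, 1, 0, 0, 1, 0, 0], [0, 1, 1, 0, 0, 1, 1, 0, 0], [0, 0, 1, 1, 0, 0, 1, 1, 0], [1, 1, 0, 0, 1, 1, 0, 0, 1], [1, 0, 0, 1, 1, 0, 0, 1, 1], [1, 0, 0, 1, 1, 0, 0, 1, 1, 0]]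

def actTab0 : List ℕ :=
  [1, 3, 5, 0, 8, 10, 11, 13, 15, 16, 2, 19, 20, 21, 22, 4, 25, 26, 23, 6, 24, 7, 30, 31, 12, 9, 29, 34, 35, 17, 14, 18, 39, 40, 42, 43, 44, 45, 46, 48, 49, 50, 27, 28, 52, 53, 54, 55, 32, 33, 56, 47, 36, 37, 38, 51, 41, 59, 57, 58]

def actTab1 : List ℕ :=
  [2, 4, 6, 7, 9, 3, 12, 14, 0, 17, 18, 10, 8, 1, 23, 24, 15, 13, 27, 28, 19, 29, 21, 5, 32, 33, 25, 35, 36, 37, 38, 30, 40, 41, 31, 11, 39, 46, 47, 20, 16, 45, 51, 42, 43, 26, 22, 34, 52, 48, 49, 57, 58, 56, 53, 54, 59, 44, 50, 55]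

def invTab0 : List ℕ :=
  [3, 0, 10, 1, 15, 2, 19, 21, 4, 25, 5, 6, 24, 7, 30, 8, 9, 29, 31, 11, 12, 13, 14, 18, 20, 16, 17, 42, 43, 26, 22, 23, 48, 49, 27, 28, 52, 53, 54, 32, 33, 56, 34, 35, 36, 37, 38, 51, 39, 40, 41, 55, 44, 45, 46, 47, 50, 58, 59, 57]

def invTab1 : List ℕ :=
  [8, 13, 0, 5, 1, 23, 2, 3, 12, 4, 11, 35, 6, 17, 7, 16, 40, 9, 10, 20, 39, 22, 46, 14, 15, 26, 45, 18, 19, 21, 31, 34, 24, 25, 47, 27, 28, 29, 30, 36, 32, 33, 43, 44, 57, 41, 37, 38, 49, 50, 58, 42, 48, 54, 55, 59, 53, 51, 52, 56]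

def relsL : List (List (Fin 2)) :=
  [[0, 0, 0], [1, 1, 1, 1, 1], [1, 0, 1, 0]]

def stepsL : List (ℕ × ℕ × ℕ) :=
  [(0, 0, 2), (0, 2, 2), (0, 4, 2), (0, 6, 2), (0, 7, 2), (0, 9, 2), (0, 14, 2), (0, 27, 2), (0, 32, 2), (0, 36, 2), (0, 37, 2), (0, 41, 2), (2, 0, 2), (2, 1, 2), (2, 2, 2), (2, 3, 2), (2, 4, 2), (2, 6, 2), (2, 7, 2), (2, 9, 2), (2, 14, 2), (2, 27, 2), (2, 32, 2), (2, 37, 2), (1, 0, 3), (1, 1, 3), (1, 3, 3), (1, 10, 3), (1, 15, 3), (1, 21, 3), (2, 10, 1), (2, 12, 3), (2, 17, 3), (2, 19, 1), (2, 25, 1), (2, 30, 1), (0, 12, 1), (0, 17, 1), (0, 18, 2), (0, 28, 2), (0, 33, 2), (0, 38, 2), (2, 18, 2), (2, 24, 2), (2, 28, 2), (2, 29, 2), (2, 33, 2), (2, 38, 2), (1, 19, 2), (1, 25, 2), (1, 30, 2), (1, 42, 2), (2, 36, 2), (2, 41, 2), (2, 42, 1), (2, 52, 1), (0, 47, 1), (1, 48, 2), (1, 53, 2), (2, 51, 1), (2, 56, 1)]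

def treeL : List (ℕ × Fin 2) :=
  [(0, 0), (0, 1), (1, 0), (1, 1), (2, 0), (2, 1), (3, 1), (4, 0), (4, 1), (5, 0), (6, 0), (6, 1), (7, 0), (7, 1), (8, 0), (9, 0), (9, 1), (10, 1), (11, 0), (12, 0), (13, 0), (14, 0), (14, 1), (15, 1), (16, 0), (17, 0), (18, 1), (19, 1), (21, 1), (22, 0), (23, 0), (24, 1), (25, 1), (27, 0), (27, 1), (28, 1), (29, 1), (30, 1), (32, 0), (32, 1), (33, 1), (34, 0), (35, 0), (36, 0), (37, 0), (37, 1), (38, 1), (39, 0), (40, 0), (41, 0), (42, 1), (44, 0), (45, 0), (46, 0), (47, 0), (50, 0), (51, 1), (52, 1), (56, 1)]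

abbrev R : Set (FreeGroup (Fin 2)) :=
  {FreeGroup.of (0 : Fin 2) ^ 3, FreeGroup.of (1 : Fin 2) ^ 5,
    (FreeGroup.of (0 : Fin 2) * FreeGroup.of 1) ^ 2}

abbrev PG := PresentedGroup R

def X : Fin 2 → PG := fun i => PresentedGroup.of i

def act : Fin 2 → ℕ → ℕ := fun t v => if t = 0 then actTab0.getD v 0 else actTab1.getD v 0

def actinv : Fin 2 → ℕ → ℕ := fun t v => if t = 0 then invTab0.getD v 0 else invTab1.getD v 0

def ev {P : Type*} [Group P] (X : Fin 2 → P) : List (Fin 2) → P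
  | [] => 1
  | s :: w => X s * ev X w

def word (v : ℕ) : List (Fin 2) := wordsTab.getD v []

def W (v : ℕ) : PG := ev X (word v)

lemma relX0 : X 0 ^ 3 = 1 := by
  have h : (PresentedGroup.mk R) (FreeGroup.of (0 : Fin 2) ^ 3) = 1 :=
    PresentedGroup.one_of_mem (by simp [R])
  rw [map_pow] at h
  exact h

lemma relX1 : X 1 ^ 5 = 1 := by
  have h : (PresentedGroup.mk R) (FreeGroup.of (1 : Fin 2) ^ 5) = 1 :=
    PresentedGroup.one_of_mem (by simp [R])
  rw [map_pow] at h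
  exact h

lemma relX01 : (X 0 * X 1) ^ 2 = 1 := by
  have h : (PresentedGroup.mk R) ((FreeGroup.of (0 : Fin 2) * FreeGroup.of 1) ^ 2) = 1 :=
    PresentedGroup.one_of_mem (by simp [R])
  rw [map_pow, map_mul] at h
  exact h

lemma hrels : ∀ l ∈ relsL, pp X l = 1 := by
  intro l hl
  simp only [relsL, List.mem_cons, List.mem_nil_iff, or_false] at hl
  rcases hl with rfl | rfl | rfl
  · simpa [pp, pow_succ] using relX0
  · simpa [pp, pow_succ] using relX1
  · simpa [pp, pow_succ, mul_assoc] using relX01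

lemma tree_ok : ∀ e ∈ treeL, word (act e.2 e.1) = e.2 :: word e.1 := by decide +kernel

lemma hTree : AllE X act W treeL := by
  intro e he
  show X e.2 * W e.1 = W (act e.2 e.1)
  unfold W
  rw [tree_ok e he]
  rfl

def covers (K : List (ℕ × Fin 2)) : Bool :=
  (List.range 60).all fun v => K.contains (v, (0 : Fin 2)) && K.contains (v, (1 : Fin 2))

lemma run_ok : (run act relsL stepsL treeL).any covers = true := by decide +kernel

lemma allEdges : ∀ v < 60, ∀ t : Fin 2, E X act W v t := by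
  rcases h : run act relsL stepsL treeL with _ | K
  · have := run_ok
    rw [h] at this
    simp at this
  · have hc := run_ok
    rw [h] at hc
    simp only [Option.any_some] at hc
    have hK := run_sound X act W relsL hrels stepsL treeL K hTree h
    intro v hv t
    unfold covers at hc
    rw [List.all_eq_true] at hc
    have h2 := hc v (List.mem_range.mpr hv)
    simp only [Bool.and_eq_true] at h2
    fin_cases t
    · exact hK (v, 0) (by simpa using h2.1)
    · exact hK (v, 1) (by simpa using h2.2)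

lemma act_lt : ∀ v < 60, ∀ t : Fin 2, act t v < 60 := by decide +kernel

lemma inv_ok : ∀ v < 60, ∀ t : Fin 2, actinv t v < 60 ∧ act t (actinv t v) = v := by
  decide +kernel

lemma word0 : word 0 = [] := by decide +kernel

lemma all_W (g : PG) : ∃ v < 60, g = W v := by
  have hg : g ∈ Subgroup.closure (Set.range (PresentedGroup.of : Fin 2 → PG)) := by
    rw [PresentedGroup.closure_range_of]
    exact Subgroup.mem_top g
  induction hg using Subgroup.closure_induction_left with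
  | one => exact ⟨0, by norm_num, by simp [W, word0, ev]⟩
  | mul_left x hx y hy ih =>
    obtain ⟨t, rfl⟩ := hx
    obtain ⟨v, hv, rfl⟩ := ih
    exact ⟨act t v, act_lt v hv t, allEdges v hv t⟩
  | inv_mul_cancel x hx y hy ih =>
    obtain ⟨t, rfl⟩ := hx
    obtain ⟨v, hv, rfl⟩ := ih
    obtain ⟨h1, h2⟩ := inv_ok v hv t
    refine ⟨actinv t v, h1, ?_⟩
    have h3 : X t * W (actinv t v) = W (act t (actinv t v)) := allEdges _ h1 t
    rw [h2] at h3
    rw [← h3]
    simp [X]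

def pa : Equiv.Perm (Fin 5) := Equiv.swap 0 2 * Equiv.swap 0 1

def pb : Equiv.Perm (Fin 5) := Equiv.swap 0 3 * Equiv.swap 0 1 * Equiv.swap 0 4 * Equiv.swap 0 2

lemma pa_mem : pa ∈ alternatingGroup (Fin 5) := by
  rw [Equiv.Perm.mem_alternatingGroup]
  decide +kernel

lemma pb_mem : pb ∈ alternatingGroup (Fin 5) := by
  rw [Equiv.Perm.mem_alternatingGroup]
  decide +kernel

def fA : Fin 2 → alternatingGroup (Fin 5) := ![⟨pa, pa_mem⟩, ⟨pb, pb_mem⟩]

lemma hf : ∀ r ∈ R, FreeGroup.lift fA r = 1 := by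
  intro r hr
  rcases hr with rfl | rfl | rfl
  · rw [map_pow, FreeGroup.lift_apply_of]
    apply Subtype.ext
    show pa ^ 3 = 1
    decide +kernel
  · rw [map_pow, FreeGroup.lift_apply_of]
    apply Subtype.ext
    show pb ^ 5 = 1
    decide +kernel
  · rw [map_pow, map_mul, FreeGroup.lift_apply_of, FreeGroup.lift_apply_of]
    apply Subtype.ext
    show (pa * pb) ^ 2 = 1
    decide +kernel

def φ : PG →* alternatingGroup (Fin 5) := PresentedGroup.toGroup hf

lemma φ_X (t : Fin 2) : φ (X t) = fA t := PresentedGroup.toGroup.of hf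

lemma φ_ev (w : List (Fin 2)) : φ (ev X w) = ev fA w := by
  induction w with
  | nil => simp [ev]
  | cons s w ih => simp only [ev, map_mul, φ_X, ih]

def tabA : List ℕ := [1, 2, 0, 3, 4]

def tabB : List ℕ := [2, 3, 4, 0, 1]

def nact (t : Fin 2) (x : ℕ) : ℕ := if t = 0 then tabA.getD x 0 else tabB.getD x 0

def nev : List (Fin 2) → ℕ → ℕ
  | [], x => x
  | s :: w, x => nact s (nev w x)

lemma fA_apply : ∀ (t : Fin 2) (x : Fin 5), ((fA t : Equiv.Perm (Fin 5)) x : ℕ) = nact t x := by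
  decide +kernel

lemma ev_apply (w : List (Fin 2)) (x : Fin 5) :
    (((ev fA w : alternatingGroup (Fin 5)) : Equiv.Perm (Fin 5)) x : ℕ) = nev w x := by
  induction w generalizing x with
  | nil => simp [ev, nev]
  | cons s w ih =>
    simp only [ev, nev]
    rw [Subgroup.coe_mul, Equiv.Perm.mul_apply, fA_apply, ih]

def codeL (v : ℕ) : List ℕ := (List.range 5).map (nev (word v))

lemma code_inj : ∀ v < 60, ∀ u < 60, codeL v = codeL u → v = u := by decide +kernel

lemma W_inj (v : ℕ) (hv : v < 60) (u : ℕ) (hu : u < 60) (h : φ (W v) = φ (W u)) : v = u := by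
  apply code_inj v hv u hu
  unfold codeL
  apply List.map_congr_left
  intro x hx
  have hx5 : x < 5 := List.mem_range.mp hx
  have h1 := ev_apply (word v) ⟨x, hx5⟩
  have h2 := ev_apply (word u) ⟨x, hx5⟩
  unfold W at h
  rw [φ_ev, φ_ev] at h
  rw [h] at h1
  exact h1.symm.trans h2

theorem result :
    Nonempty (PresentedGroup ({FreeGroup.of (0 : Fin 2) ^ 3, FreeGroup.of (1 : Fin 2) ^ 5,
        (FreeGroup.of (0 : Fin 2) * FreeGroup.of 1) ^ 2} : Set (FreeGroup (Fin 2))) ≃* alternatingGroup (Fin 5)) := by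
  have hinj : Function.Injective φ := by
    intro g g' h
    obtain ⟨v, hv, rfl⟩ := all_W g
    obtain ⟨u, hu, rfl⟩ := all_W g'
    rw [W_inj v hv u hu h]
  have hsurj : Function.Surjective φ := by
    let χ : Fin 60 → alternatingGroup (Fin 5) := fun v => φ (W v)
    have hχ : Function.Injective χ := fun v u h => Fin.ext (W_inj v v.2 u u.2 h)
    have hcard : Fintype.card (Fin 60) = Fintype.card (alternatingGroup (Fin 5)) := by
      rw [Fintype.card_fin, card_alternatingGroup, Fintype.card_fin]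
      rfl
    have hb := (Fintype.bijective_iff_injective_and_card χ).mpr ⟨hχ, hcard⟩
    intro g
    obtain ⟨v, hv⟩ := hb.2 g
    exact ⟨W v, hv⟩
  exact ⟨MulEquiv.ofBijective φ ⟨hinj, hsurj⟩⟩

end Cfsg.Agent.S3377
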