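import Cfsg.Statements.S3378
import Mathlib
import Cfsg.Agent.S0493
import Cfsg.Agent.S0494
import Cfsg.Agent.S3377

set_option autoImplicit false
open Cfsg

namespace Cfsg.Agent.S3378

section generic

variable {P : Type*} [Group P] (X : Fin 3 → P) (act : Fin 3 → ℕ → ℕ) (W : ℕ → P)

def pp : List (Fin 3) → P
  | [] => 1
  | t :: l => pp l * X t

def path : List (Fin 3) → ℕ → ℕ
  | [], v => v
  | t :: l, v => path l (act t v)

def E (v : ℕ) (t : Fin 3) : Prop := X t * W v = W (act t v)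

def AllE (K : List (ℕ × Fin 3)) : Prop := ∀ e ∈ K, E X act W e.1 e.2

def chk (K : List (ℕ × Fin 3)) : List (Fin 3) → ℕ → Bool
  | [], _ => true
  | t :: l, v => K.contains (v, t) && chk K l (act t v)

lemma pp_append (l₁ l₂ : List (Fin 3)) : pp X (l₁ ++ l₂) = pp X l₂ * pp X l₁ := by
  induction l₁ with
  | nil => simp [pp]
  | cons t l ih => simp [pp, ih, mul_assoc]

lemma path_lemma (K : List (ℕ × Fin 3)) (hK : AllE X act W K) :
    ∀ (l : List (Fin 3)) (v : ℕ), chk act K l v = true → pp X l * W v = W (path act l v) := by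
  intro l
  induction l with
  | nil => intro v _; simp [pp, path]
  | cons t l ih =>
    intro v h
    simp only [chk, Bool.and_eq_true] at h
    have h1 : E X act W v t := hK (v, t) (by simpa using h.1)
    have h2 := ih (act t v) h.2
    simp only [pp, path]
    rw [mul_assoc, h1, h2]

def step (K : List (ℕ × Fin 3)) (l : List (Fin 3)) (v k : ℕ) : Option (ℕ × Fin 3) :=
  match l.drop k with
  | [] => none
  | t :: l₂ =>
    if chk act K (l.take k) v && chk act K l₂ (act t (path act (l.take k) v))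
        && (path act l₂ (act t (path act (l.take k) v)) == v) then
      some (path act (l.take k) v, t)
    else none

lemma step_sound (K : List (ℕ × Fin 3)) (hK : AllE X act W K) (l : List (Fin 3))
    (hl : pp X l = 1) (v k : ℕ) (e : ℕ × Fin 3) (h : step act K l v k = some e) :
    E X act W e.1 e.2 := by
  unfold step at h
  rcases hd : l.drop k with _ | ⟨t, l₂⟩
  · rw [hd] at h; simp at h
  · rw [hd] at h
    simp only at h
    split_ifs at h with hc
    simp only [Bool.and_eq_true, beq_iff_eq] at hc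
    obtain ⟨⟨hc1, hc2⟩, hc3⟩ := hc
    have he : e = (path act (l.take k) v, t) := (Option.some.inj h).symm
    subst he
    have h1 := path_lemma X act W K hK _ _ hc1
    have h2 := path_lemma X act W K hK _ _ hc2
    rw [hc3] at h2
    have hsplit : l = l.take k ++ t :: l₂ := by
      rw [← hd, List.take_append_drop]
    have h3 : pp X l₂ * X t * pp X (l.take k) = 1 := by
      have : pp X (l.take k ++ t :: l₂) = 1 := by rw [← hsplit]; exact hl
      rw [pp_append] at this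
      simpa [pp] using this
    show X t * W (path act (l.take k) v) = W (act t (path act (l.take k) v))
    have h4 : pp X l₂ * (X t * W (path act (l.take k) v)) = pp X l₂ * W (act t (path act (l.take k) v)) := by
      rw [h2, ← h1, ← mul_assoc, ← mul_assoc, h3, one_mul]
    exact mul_left_cancel h4

def nthRel : List (List (Fin 3)) → ℕ → List (Fin 3)
  | [], _ => []
  | l :: _, 0 => l
  | _ :: ls, n + 1 => nthRel ls n

lemma pp_nthRel (rels : List (List (Fin 3))) (hrels : ∀ l ∈ rels, pp X l = 1) :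
    ∀ n, pp X (nthRel rels n) = 1 := by
  induction rels with
  | nil => intro n; simp [nthRel, pp]
  | cons l ls ih =>
    intro n
    cases n with
    | zero => exact hrels l (by simp)
    | succ n => exact ih (fun l' hl' => hrels l' (by simp [hl'])) n

def run (rels : List (List (Fin 3))) : List (ℕ × ℕ × ℕ) → List (ℕ × Fin 3) → Option (List (ℕ × Fin 3))
  | [], K => some K
  | (r, v, k) :: s, K =>
    match step act K (nthRel rels r) v k with
    | none => none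
    | some e => run rels s (e :: K)

lemma run_sound (rels : List (List (Fin 3))) (hrels : ∀ l ∈ rels, pp X l = 1) :
    ∀ (s : List (ℕ × ℕ × ℕ)) (K K' : List (ℕ × Fin 3)), AllE X act W K →
      run act rels s K = some K' → AllE X act W K' := by
  intro s
  induction s with
  | nil =>
    intro K K' hK h
    simp only [run] at h
    rw [← Option.some.inj h]; exact hK
  | cons a s ih =>
    intro K K' hK h
    obtain ⟨r, v, k⟩ := a
    simp only [run] at h
    rcases hs : step act K (nthRel rels r) v k with _ | e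
    · rw [hs] at h; simp at h
    · rw [hs] at h
      simp only at h
      have he := step_sound X act W K hK _ (pp_nthRel X rels hrels r) v k e hs
      refine ih (e :: K) K' ?_ h
      intro e' he'
      rcases List.mem_cons.mp he' with rfl | h'
      · exact he
      · exact hK e' h'

end generic


def wordsTab : List (List (Fin 3)) :=
  [[], [0], [1], [2], [0, 0], [1, 0], [2, 0], [0, 1], [1, 1], [2, 1], [1, 0, 0], [2, 0, 0], [0, 1, 0], [1, 1, 0], [2, 1, 0], [0, 0, 1], [2, 0, 1], [0, 1, 1], [1, 1, 1], [2, 1, 1], [0, 1, 0, 0], [1, 1, 0, 0], [2, 1, 0, 0], [0, 0, 1, 0], [2, 0, 1, 0], [0, 1, 1, 0], [1, 1, 1, 0], [2, 1, 1, 0], [1, 0, 0, 1], [2, 0, 0, 1], [0, 0, 1, 1], [2, 0, 1, 1], [0, 1, 1, 1], [2, 1, 1, 1], [0, 0, 1, 0, 0], [2, 0, 1, 0, 0], [0, 1, 1, 0, 0], [1, 1, 1, 0, 0], [2, 1, 1, 0, 0], [1, 0, 0, 1, 0], [2, 0, 0, 1, 0], [0, 0, 1, 1, 0], [2, 0, 1, 1, 0], [0, 1, 1, 1, 0], [2, 1, 1, 1, 0], [1, 1, 0, 0, 1], [2, 1, 0, 0,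 1], [1, 0, 0, 1, 1], [2, 0, 0, 1, 1], [2, 0, 1, 1, 1], [1, 0, 0, 1, 0, 0], [2, 0, 0, 1, 0, 0], [0, 0, 1, 1, 0, 0], [2, 0, 1, 1, 0, 0], [0, 1, 1, 1, 0, 0], [2, 1, 1, 1, 0, 0], [1, 1, 0, 0, 1, 0], [2, 1, 0, 0, 1, 0], [1, 0, 0, 1, 1, 0], [2, 0, 0, 1, 1, 0], [2, 0, 1, 1, 1, 0], [0, 1, 1, 0, 0, 1], [1, 1, 1, 0, 0, 1], [2, 1, 1, 0, 0, 1], [1, 1, 0, 0, 1, 1], [2, 1, 0, 0, 1, 1], [1, 1, 0, 0, 1, 0, 0], [2, 1, 0, 0, 1, 0, 0], [1, 0, 0, 1, 1, 0, 0], [2, 0, 0, 1, 1, 0, 0], [2, 0, 1, 1, 1, 0, 0], [0, 1, 1, 0, 0, 1, 0], [1, 1, 1, 0, 0, 1, 0], [2, 1, 1, 0, 0, 1, 0], [1, 1, 0, 0, 1, 1, 0], [2, 1, 0, 0, 1, 1, 0], [0, 0, 1, 1, 0, 0, 1], [2, 0, 1, 1, 0, 0, 1], [0, 1, 1, 1, 0, 0, 1], [2, 1, 1, 1, 0, 0, 1], [0, 1, 1, 0, 0, 1, 1], [2, 1, 1, 0, 0, 1, 1], [0, 1, 1, 0, 0, 1, 0, 0], [1, 1, 1, 0, 0, 1, 0, 0], [2, 1, 1, 0, 0, 1, 0, 0], [1, 1, 0, 0, 1, 1, 0, 0], [2, 1, 0, 0, 1, 1, 0, 0], [0, 0, 1, 1, 0, 0, 1, 0], [2, 0, 1, 1, 0, 0, 1, 0], [0, 1, 1,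 1, 0, 0, 1, 0], [2, 1, 1, 1, 0, 0, 1, 0], [0, 1, 1, 0, 0, 1, 1, 0], [2, 1, 1, 0, 0, 1, 1, 0], [1, 0, 0, 1, 1, 0, 0, 1], [2, 0, 0, 1, 1, 0, 0, 1], [2, 0, 1, 1, 1, 0, 0, 1], [0, 0, 1, 1, 0, 0, 1, 1], [2, 0, 1, 1, 0, 0, 1, 1], [0, 0, 1, 1, 0, 0, 1, 0, 0], [2, 0, 1, 1, 0, 0, 1, 0, 0], [0, 1, 1, 1, 0, 0, 1, 0, 0], [2, 1, 1, 1, 0, 0, 1, 0, 0], [0, 1, 1, 0, 0, 1, 1, 0, 0], [2, 1, 1, 0, 0, 1, 1, 0, 0], [1, 0, 0, 1, 1, 0, 0, 1, 0], [2, 0, 0, 1, 1, 0, 0, 1, 0], [2, 0, 1, 1, 1, 0, 0, 1, 0], [0, 0, 1, 1, 0, 0, 1, 1, 0], [2, 0, 1, 1, 0, 0, 1, 1, 0], [1, 1, 0, 0, 1, 1, 0, 0, 1], [2, 1, 0, 0, 1, 1, 0, 0, 1], [1, 0, 0, 1, 1, 0, 0, 1, 1], [1, 0, 0, 1, 1, 0, 0, 1, 0, 0], [2, 0, 0, 1, 1, 0, 0, 1, 0, 0], [2, 0, 1, 1, 1, 0, 0, 1, 0, 0], [2, 0, 1, 1, 0, 0, 1, 1, 0, 0], [1, 1, 0, 0, 1, 1, 0, 0, 1, 0], [1, 0, 0, 1, 1, 0, 0, 1, 1, 0], [0, 1, 1, 0, 0, 1, 1, 0, 0, 1], [2, 1, 1, 0, 0, 1, 1, 0, 0, 1]]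

def actTab0 : List ℕ :=
  [1, 4, 7, 6, 0, 12, 11, 15, 17, 16, 20, 3, 23, 25, 24, 2, 29, 30, 32, 31, 34, 36, 35, 5, 40, 41, 43, 42, 37, 9, 8, 48, 39, 49, 10, 51, 52, 54, 53, 18, 14, 13, 59, 50, 60, 61, 55, 62, 19, 57, 26, 22, 21, 69, 28, 70, 71, 33, 72, 27, 67, 76, 78, 77, 80, 79, 82, 44, 83, 38, 46, 87, 89, 88, 91, 90, 45, 94, 47, 95, 96, 97, 98, 100, 99, 102, 101, 56, 105, 58, 106, 107, 108, 103, 63, 65, 64, 104, 66, 113, 68, 114, 110, 115, 81, 73, 75, 74, 112, 118, 85, 119, 92, 84, 86, 93, 109, 111, 116, 117]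

def invTab0 : List ℕ :=
  [4, 0, 15, 11, 1, 23, 3, 2, 30, 29, 34, 6, 5, 41, 40, 7, 9, 8, 39, 48, 10, 52, 51, 12, 14, 13, 50, 59, 54, 16, 17, 19, 18, 57, 20, 22, 21, 28, 69, 32, 24, 25, 27, 26, 67, 76, 70, 78, 31, 33, 43, 35, 36, 38, 37, 46, 87, 49, 89, 42, 44, 45, 47, 94, 96, 95, 98, 60, 100, 53, 55, 56, 58, 105, 107, 106, 61, 63, 62, 65, 64, 104, 66, 68, 113, 110, 114, 71, 73, 72, 75, 74, 112, 115, 77, 79, 80, 81, 82, 84, 83, 86, 85, 93, 97, 88, 90, 91, 92, 116, 102, 117, 108, 99, 101, 103, 118, 119, 109, 111]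

def actTab1 : List ℕ :=
  [2, 5, 8, 9, 10, 13, 14, 11, 18, 19, 21, 22, 3, 26, 27, 28, 4, 29, 24, 33, 6, 37, 38, 39, 0, 40, 35, 44, 45, 46, 47, 15, 48, 12, 50, 1, 51, 16, 55, 56, 57, 58, 23, 59, 20, 62, 63, 64, 65, 30, 66, 67, 68, 34, 69, 7, 72, 73, 74, 75, 41, 70, 31, 79, 71, 81, 83, 84, 85, 86, 52, 49, 42, 90, 82, 92, 93, 54, 94, 17, 95, 88, 60, 53, 101, 61, 103, 104, 32, 105, 25, 106, 99, 109, 110, 76, 111, 78, 112, 43, 113, 36, 114, 77, 116, 96, 87, 117, 89, 80, 119, 108, 118, 107, 98, 100, 91, 115, 102, 97]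

def invTab1 : List ℕ :=
  [24, 35, 0, 12, 16, 1, 20, 55, 2, 3, 4, 7, 33, 5, 6, 31, 37, 79, 8, 9, 44, 10, 11, 42, 18, 90, 13, 14, 15, 17, 49, 62, 88, 19, 53, 26, 101, 21, 22, 23, 25, 60, 72, 99, 27, 28, 29, 30, 32, 71, 34, 36, 70, 83, 77, 38, 39, 40, 41, 43, 82, 85, 45, 46, 47, 48, 50, 51, 52, 54, 61, 64, 56, 57, 58, 59, 95, 103, 97, 63, 109, 65, 74, 66, 67, 68, 69, 106, 81, 108, 73, 116, 75, 76, 78, 80, 105, 119, 114, 92, 115, 84, 118, 86, 87, 89, 91, 113, 111, 93, 94, 96, 98, 100, 102, 117, 104, 107, 112, 110]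

def actTab2 : List ℕ :=
  [3, 6, 9, 0, 11, 14, 1, 16, 19, 2, 22, 4, 24, 27, 5, 29, 7, 31, 33, 8, 35, 38, 10, 40, 12, 42, 44, 13, 46, 15, 48, 17, 49, 18, 51, 20, 53, 55, 21, 57, 23, 59, 25, 60, 26, 63, 28, 65, 30, 32, 67, 34, 69, 36, 70, 37, 73, 39, 75, 41, 43, 77, 79, 45, 81, 47, 84, 50, 86, 52, 54, 88, 90, 56, 92, 58, 94, 61, 95, 62, 97, 64, 99, 101, 66, 103, 68, 105, 71, 106, 72, 108, 74, 110, 76, 78, 104, 80, 113, 82, 114, 83, 115, 85, 96, 87, 89, 112, 91, 119, 93, 116, 107, 98, 100, 102, 111, 118, 117, 109]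

def invTab2 : List ℕ :=
  [3, 6, 9, 0, 11, 14, 1, 16, 19, 2, 22, 4, 24, 27, 5, 29, 7, 31, 33, 8, 35, 38, 10, 40, 12, 42, 44, 13, 46, 15, 48, 17, 49, 18, 51, 20, 53, 55, 21, 57, 23, 59, 25, 60, 26, 63, 28, 65, 30, 32, 67, 34, 69, 36, 70, 37, 73, 39, 75, 41, 43, 77, 79, 45, 81, 47, 84, 50, 86, 52, 54, 88, 90, 56, 92, 58, 94, 61, 95, 62, 97, 64, 99, 101, 66, 103, 68, 105, 71, 106, 72, 108, 74, 110, 76, 78, 104, 80, 113, 82, 114, 83, 115, 85, 96, 87, 89, 112, 91, 119, 93, 116, 107, 98, 100, 102, 111, 118, 117, 109]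

def relsL : List (List (Fin 3)) :=
  [[0, 0, 0], [1, 1, 1, 1, 1], [2, 2], [2, 0, 0, 2, 0], [2, 1, 1, 1, 1, 2, 1], [2, 1, 0, 1, 0]]

def stepsL : List (ℕ × ℕ × ℕ) :=
  [(0, 0, 2), (0, 2, 2), (0, 5, 2), (0, 8, 2), (0, 10, 2), (0, 13, 2), (0, 21, 2), (0, 45, 2), (0, 56, 2), (0, 64, 2), (0, 66, 2), (0, 74, 2), (2, 0, 1), (2, 1, 1), (2, 2, 1), (2, 4, 1), (2, 5, 1), (2, 7, 1), (2, 8, 1), (2, 10, 1), (2, 12, 1), (2, 13, 1), (2, 15, 1), (2, 17, 1), (2, 18, 1), (2, 20, 1), (2, 21, 1), (2, 23, 1), (2, 25, 1), (2, 26, 1), (2, 28, 1), (2, 30, 1), (2, 32, 1), (2, 34, 1), (2, 36, 1), (2, 37, 1), (2, 39, 1), (2, 41, 1), (2, 43, 1), (2, 45, 1), (2, 47, 1), (2, 50, 1), (2, 52, 1), (2, 54, 1), (2, 56, 1), (2, 58, 1), (2, 61, 1), (2, 62, 1), (2, 64, 1), (2, 66, 1), (2, 68, 1), (2, 71, 1), (2, 72, 1), (2, 74, 1), (2, 76, 1), (2, 78, 1), (2, 80, 1), (2, 82, 1), (2, 83, 1), (2, 85, 1), (2, 87, 1), (2, 89, 1), (2, 91, 1), (2, 93, 1), (2, 98,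 1), (2, 100, 1), (2, 102, 1), (2, 109, 1), (3, 3, 4), (3, 4, 2), (3, 9, 4), (3, 11, 4), (3, 14, 4), (3, 15, 2), (3, 19, 4), (3, 22, 4), (3, 23, 2), (3, 27, 4), (3, 29, 4), (3, 30, 2), (3, 34, 2), (3, 38, 4), (3, 40, 4), (3, 41, 2), (3, 48, 4), (3, 51, 4), (3, 52, 2), (3, 59, 4), (3, 63, 4), (3, 69, 4), (3, 73, 4), (3, 76, 2), (3, 84, 4), (3, 87, 2), (3, 94, 4), (3, 97, 4), (3, 98, 2), (3, 105, 4), (3, 108, 4), (3, 113, 4), (5, 3, 3), (5, 6, 3), (5, 7, 1), (5, 9, 3), (5, 11, 3), (5, 12, 1), (5, 14, 3), (5, 16, 3), (5, 17, 1), (5, 19, 3), (5, 20, 1), (5, 22, 3), (5, 24, 3), (5, 25, 1), (5, 27, 3), (5, 31, 3), (5, 32, 1), (5, 35, 3), (5, 36, 1), (5, 38, 3), (5, 42, 3), (5, 43, 1), (5, 53, 3), (5, 54, 1), (5, 63, 3), (5, 73, 3), (5, 78, 1), (5, 84, 3), (5, 89, 1), (5, 100, 1), (1, 0, 3), (1, 1, 3), (1, 4, 3), (1, 15, 3), (1, 23, 3), (1, 34, 3), (4, 7, 6), (4, 10, 2), (4, 12, 6), (4, 17, 6), (4, 20, 6), (4, 24, 4), (4, 25, 6),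 (4, 35, 4), (4, 36, 6), (4, 46, 6), (4, 57, 6), (4, 62, 4), (4, 67, 6), (4, 72, 4), (4, 79, 6), (4, 83, 4), (4, 90, 6), (4, 101, 6), (5, 8, 2), (5, 13, 2), (5, 15, 2), (5, 18, 4), (5, 21, 2), (5, 23, 2), (5, 26, 4), (5, 29, 2), (5, 34, 2), (5, 45, 2), (5, 48, 2), (5, 56, 2), (5, 59, 2), (5, 66, 2), (5, 69, 2), (0, 18, 1), (0, 26, 1), (0, 28, 2), (0, 33, 1), (0, 44, 1), (0, 46, 2), (0, 47, 2), (0, 58, 2), (0, 68, 2), (3, 47, 1), (3, 58, 1), (3, 62, 2), (3, 68, 1), (3, 72, 2), (3, 83, 2), (5, 28, 3), (5, 30, 1), (5, 39, 3), (5, 41, 1), (5, 46, 3), (5, 50, 3), (5, 52, 1), (5, 57, 3), (5, 65, 3), (5, 67, 3), (5, 75, 3), (5, 80, 1), (5, 86, 3), (5, 91, 1), (5, 97, 3), (5, 102, 1), (5, 108, 3), (1, 30, 2), (1, 32, 3), (1, 41, 2), (1, 43, 3), (1, 52, 2), (1, 76, 2), (1, 87, 2), (4, 61, 4), (4, 68, 2), (4, 97, 6), (4, 109, 4), (4, 119, 6), (5, 64, 3), (5, 68, 2), (5, 74, 3), (5, 76, 2), (5, 81, 4), (5, 92, 4), (5, 94, 2), (5, 119,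 4), (0, 81, 1), (0, 85, 1), (0, 92, 1), (0, 93, 2), (1, 89, 3), (1, 100, 3), (3, 64, 3), (3, 74, 3), (3, 81, 3), (3, 92, 3), (4, 91, 5), (4, 108, 5), (5, 93, 2), (5, 96, 2), (5, 110, 3), (5, 111, 4), (5, 117, 0), (5, 118, 0), (0, 109, 1), (1, 98, 1)]

def treeL : List (ℕ × Fin 3) :=
  [(0, 0), (0, 1), (0, 2), (1, 0), (1, 1), (1, 2), (2, 0), (2, 1), (2, 2), (4, 1), (4, 2), (5, 0), (5, 1), (5, 2), (7, 0), (7, 2), (8, 0), (8, 1), (8, 2), (10, 0), (10, 1), (10, 2), (12, 0), (12, 2), (13, 0), (13, 1), (13, 2), (15, 1), (15, 2), (17, 0), (17, 2), (18, 0), (18, 2), (20, 0), (20, 2), (21, 0), (21, 1), (21, 2), (23, 1), (23, 2), (25, 0), (25, 2), (26, 0), (26, 2), (28, 1), (28, 2), (30, 1), (30, 2), (32, 2), (34, 1), (34, 2), (36, 0), (36, 2), (37, 0), (37, 2), (39, 1), (39, 2), (41, 1), (41, 2), (43, 2), (45, 0), (45, 1), (45, 2), (47, 1), (47, 2), (50, 1), (50, 2), (52, 1), (52, 2), (54, 2), (56, 0), (56, 1), (56, 2), (58, 1),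 (58, 2), (61, 0), (61, 2), (62, 0), (62, 2), (64, 0), (64, 2), (66, 0), (66, 1), (66, 2), (68, 1), (68, 2), (71, 0), (71, 2), (72, 0), (72, 2), (74, 0), (74, 2), (76, 1), (76, 2), (78, 2), (80, 0), (80, 2), (82, 0), (82, 2), (83, 0), (83, 2), (85, 0), (85, 2), (87, 1), (87, 2), (89, 2), (91, 0), (91, 2), (93, 1), (93, 2), (96, 1), (98, 1), (98, 2), (100, 2), (102, 2), (104, 1), (107, 1), (109, 0), (109, 2)]

def codeTab : List ℕ :=
  [126, 49, 107, 504, 605, 169, 106, 199, 588, 48, 509, 170, 480, 289, 611, 604, 581, 349, 444, 192, 226, 533, 146, 131, 295, 355, 409, 491, 47, 151, 623, 431, 499, 336, 45, 529, 201, 557, 247, 617, 524, 136, 420, 230, 371, 215, 108, 185, 157, 281, 141, 105, 46, 554, 176, 223, 328, 163, 477, 519, 545, 382, 263, 560, 377, 590, 362, 514, 243, 109, 579, 94, 64, 427, 93, 278, 183, 273, 332, 392, 63, 253, 309, 458, 418, 310, 537, 488, 61, 369, 91, 464, 62, 568, 597, 448, 340, 92, 239, 471, 209, 322,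 258, 465, 435, 292, 411, 353, 316, 303, 212, 268, 402, 541, 571, 397, 387, 60, 90, 452]

abbrev R : Set (FreeGroup (Fin 3)) :=
  {FreeGroup.of (0 : Fin 3) ^ 3, FreeGroup.of (1 : Fin 3) ^ 5, FreeGroup.of (2 : Fin 3) ^ 2,
        (FreeGroup.of (2 : Fin 3))⁻¹ * FreeGroup.of 0 * FreeGroup.of 2 * (FreeGroup.of (0 : Fin 3))⁻¹,
        (FreeGroup.of (2 : Fin 3))⁻¹ * FreeGroup.of 1 * FreeGroup.of 2 * (FreeGroup.of (1 : Fin 3))⁻¹,
        (FreeGroup.of (0 : Fin 3) * FreeGroup.of 1) ^ 2 * (FreeGroup.of (2 : Fin 3))⁻¹}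

abbrev PG := PresentedGroup R

lemma lift_rels {P : Type*} [Group P] (x y z : P) (hx : x ^ 3 = 1) (hy : y ^ 5 = 1)
    (hz : z ^ 2 = 1) (hxz : z⁻¹ * x * z * x⁻¹ = 1) (hyz : z⁻¹ * y * z * y⁻¹ = 1)
    (hxy : (x * y) ^ 2 * z⁻¹ = 1) : ∀ r ∈ R, FreeGroup.lift ![x, y, z] r = 1 := by
  intro r hr
  rcases hr with rfl | rfl | rfl | rfl | rfl | rfl
  · rw [map_pow, FreeGroup.lift_apply_of]
    exact hx
  · rw [map_pow, FreeGroup.lift_apply_of]
    exact hy
  · rw [map_pow, FreeGroup.lift_apply_of]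
    exact hz
  · rw [map_mul, map_mul, map_mul, map_inv, map_inv, FreeGroup.lift_apply_of, FreeGroup.lift_apply_of]
    exact hxz
  · rw [map_mul, map_mul, map_mul, map_inv, map_inv, FreeGroup.lift_apply_of, FreeGroup.lift_apply_of]
    exact hyz
  · rw [map_mul, map_pow, map_mul, map_inv, FreeGroup.lift_apply_of, FreeGroup.lift_apply_of,
      FreeGroup.lift_apply_of]
    exact hxy

def X : Fin 3 → PG := fun i => PresentedGroup.of i

def act : Fin 3 → ℕ → ℕ := fun t v =>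
  if t = 0 then actTab0.getD v 0 else if t = 1 then actTab1.getD v 0 else actTab2.getD v 0

def actinv : Fin 3 → ℕ → ℕ := fun t v =>
  if t = 0 then invTab0.getD v 0 else if t = 1 then invTab1.getD v 0 else invTab2.getD v 0

def ev {P : Type*} [Group P] (X : Fin 3 → P) : List (Fin 3) → P
  | [] => 1
  | s :: w => X s * ev X w

def word (v : ℕ) : List (Fin 3) := wordsTab.getD v []

def W (v : ℕ) : PG := ev X (word v)

lemma relX0 : X 0 ^ 3 = 1 := by
  have h : (PresentedGroup.mk R) (FreeGroup.of (0 : Fin 3) ^ 3) = 1 :=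
    PresentedGroup.one_of_mem (by simp [R])
  rw [map_pow] at h
  exact h

lemma relX1 : X 1 ^ 5 = 1 := by
  have h : (PresentedGroup.mk R) (FreeGroup.of (1 : Fin 3) ^ 5) = 1 :=
    PresentedGroup.one_of_mem (by simp [R])
  rw [map_pow] at h
  exact h

lemma relX2 : X 2 ^ 2 = 1 := by
  have h : (PresentedGroup.mk R) (FreeGroup.of (2 : Fin 3) ^ 2) = 1 :=
    PresentedGroup.one_of_mem (by simp [R])
  rw [map_pow] at h
  exact h

lemma relC0 : (X 2)⁻¹ * X 0 * X 2 * (X 0)⁻¹ = 1 := by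
  have h : (PresentedGroup.mk R) ((FreeGroup.of (2 : Fin 3))⁻¹ * FreeGroup.of 0 * FreeGroup.of 2
      * (FreeGroup.of (0 : Fin 3))⁻¹) = 1 :=
    PresentedGroup.one_of_mem (by simp [R])
  rw [map_mul, map_mul, map_mul, map_inv, map_inv] at h
  exact h

lemma relC1 : (X 2)⁻¹ * X 1 * X 2 * (X 1)⁻¹ = 1 := by
  have h : (PresentedGroup.mk R) ((FreeGroup.of (2 : Fin 3))⁻¹ * FreeGroup.of 1 * FreeGroup.of 2
      * (FreeGroup.of (1 : Fin 3))⁻¹) = 1 :=
    PresentedGroup.one_of_mem (by simp [R])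
  rw [map_mul, map_mul, map_mul, map_inv, map_inv] at h
  exact h

lemma relXY : (X 0 * X 1) ^ 2 * (X 2)⁻¹ = 1 := by
  have h : (PresentedGroup.mk R) ((FreeGroup.of (0 : Fin 3) * FreeGroup.of 1) ^ 2
      * (FreeGroup.of (2 : Fin 3))⁻¹) = 1 :=
    PresentedGroup.one_of_mem (by simp [R])
  rw [map_mul, map_pow, map_mul, map_inv] at h
  exact h

lemma posrels {P : Type*} [Group P] (x y z : P) (hx : x ^ 3 = 1) (hy : y ^ 5 = 1) (hz : z ^ 2 = 1)
    (hc0 : z⁻¹ * x * z * x⁻¹ = 1) (hc1 : z⁻¹ * y * z * y⁻¹ = 1) (hxy : (x * y) ^ 2 * z⁻¹ = 1) :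
    x * z * x * x * z = 1 ∧ y * z * y * y * y * y * z = 1 ∧ x * y * x * y * z = 1 := by
  have hzi : z⁻¹ = z := by
    rw [inv_eq_iff_mul_eq_one, ← sq, hz]
  have hxz : x * z = z * x := by
    have h1 : z⁻¹ * x * z = x := by
      rw [← mul_inv_eq_one]; exact hc0
    calc x * z = z * (z⁻¹ * x * z) := by group
      _ = z * x := by rw [h1]
  have hyz : y * z = z * y := by
    have h1 : z⁻¹ * y * z = y := by
      rw [← mul_inv_eq_one]; exact hc1
    calc y * z = z * (z⁻¹ * y * z) := by group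
      _ = z * y := by rw [h1]
  refine ⟨?_, ?_, ?_⟩
  · calc x * z * x * x * z = (z * x) * x * x * z := by rw [hxz]
      _ = z * (x ^ 3) * z := by simp [pow_succ, mul_assoc]
      _ = z ^ 2 := by rw [hx, mul_one, sq]
      _ = 1 := hz
  · calc y * z * y * y * y * y * z = (z * y) * y * y * y * y * z := by rw [hyz]
      _ = z * (y ^ 5) * z := by simp [pow_succ, mul_assoc]
      _ = z ^ 2 := by rw [hy, mul_one, sq]
      _ = 1 := hz
  · calc x * y * x * y * z = (x * y) ^ 2 * z := by simp [pow_succ, mul_assoc]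
      _ = (x * y) ^ 2 * z⁻¹ := by rw [hzi]
      _ = 1 := hxy

lemma hrels : ∀ l ∈ relsL, pp X l = 1 := by
  obtain ⟨h4, h5, h6⟩ := posrels (X 0) (X 1) (X 2) relX0 relX1 relX2 relC0 relC1 relXY
  intro l hl
  simp only [relsL, List.mem_cons, List.mem_nil_iff, or_false] at hl
  rcases hl with rfl | rfl | rfl | rfl | rfl | rfl
  · simpa [pp, pow_succ] using relX0
  · simpa [pp, pow_succ] using relX1
  · simpa [pp, pow_succ] using relX2
  · simpa [pp, mul_assoc] using h4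
  · simpa [pp, mul_assoc] using h5
  · simpa [pp, mul_assoc] using h6

lemma tree_ok : ∀ e ∈ treeL, word (act e.2 e.1) = e.2 :: word e.1 := by decide +kernel

lemma hTree : AllE X act W treeL := by
  intro e he
  show X e.2 * W e.1 = W (act e.2 e.1)
  unfold W
  rw [tree_ok e he]
  rfl

def covers (K : List (ℕ × Fin 3)) : Bool :=
  (List.range 120).all fun v =>
    K.contains (v, (0 : Fin 3)) && K.contains (v, (1 : Fin 3)) && K.contains (v, (2 : Fin 3))

lemma run_ok : (run act relsL stepsL treeL).any covers = true := by decide +kernel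

lemma allEdges : ∀ v < 120, ∀ t : Fin 3, E X act W v t := by
  rcases h : run act relsL stepsL treeL with _ | K
  · have := run_ok
    rw [h] at this
    simp at this
  · have hc := run_ok
    rw [h] at hc
    simp only [Option.any_some] at hc
    have hK := run_sound X act W relsL hrels stepsL treeL K hTree h
    intro v hv t
    unfold covers at hc
    rw [List.all_eq_true] at hc
    have h2 := hc v (List.mem_range.mpr hv)
    simp only [Bool.and_eq_true] at h2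
    fin_cases t
    · exact hK (v, 0) (by simpa using h2.1.1)
    · exact hK (v, 1) (by simpa using h2.1.2)
    · exact hK (v, 2) (by simpa using h2.2)

lemma act_lt : ∀ v < 120, ∀ t : Fin 3, act t v < 120 := by decide +kernel

lemma inv_ok : ∀ v < 120, ∀ t : Fin 3, actinv t v < 120 ∧ act t (actinv t v) = v := by
  decide +kernel

lemma word0 : word 0 = [] := by decide +kernel

lemma all_W (g : PG) : ∃ v < 120, g = W v := by
  have hg : g ∈ Subgroup.closure (Set.range (PresentedGroup.of : Fin 3 → PG)) := by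
    rw [PresentedGroup.closure_range_of]
    exact Subgroup.mem_top g
  induction hg using Subgroup.closure_induction_left with
  | one => exact ⟨0, by norm_num, by simp [W, word0, ev]⟩
  | mul_left x hx y hy ih =>
    obtain ⟨t, rfl⟩ := hx
    obtain ⟨v, hv, rfl⟩ := ih
    exact ⟨act t v, act_lt v hv t, allEdges v hv t⟩
  | inv_mul_cancel x hx y hy ih =>
    obtain ⟨t, rfl⟩ := hx
    obtain ⟨v, hv, rfl⟩ := ih
    obtain ⟨h1, h2⟩ := inv_ok v hv t
    refine ⟨actinv t v, h1, ?_⟩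
    have h3 : X t * W (actinv t v) = W (act t (actinv t v)) := allEdges _ h1 t
    rw [h2] at h3
    rw [← h3]
    simp [X]

abbrev SL25 := Matrix.SpecialLinearGroup (Fin 2) (ZMod 5)

def gx : SL25 := ⟨!![0, 1; 4, 4], by decide⟩

def gy : SL25 := ⟨!![0, 4; 1, 2], by decide⟩

def gz : SL25 := ⟨!![4, 0; 0, 4], by decide⟩

def fA : Fin 3 → SL25 := ![gx, gy, gz]

lemma hf : ∀ r ∈ R, FreeGroup.lift fA r = 1 := by
  have hz2 : gz ^ 2 = 1 := by decide +kernel
  have hzi : gz⁻¹ = gz := by rw [inv_eq_iff_mul_eq_one, ← sq, hz2]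
  have hxz : gx * gz = gz * gx := by decide +kernel
  have hyz : gy * gz = gz * gy := by decide +kernel
  have hx3 : gx ^ 3 = 1 := by decide +kernel
  have hy5 : gy ^ 5 = 1 := by decide +kernel
  have hxy : (gx * gy) ^ 2 = gz := by decide +kernel
  exact lift_rels gx gy gz hx3 hy5 hz2
    (by rw [hzi, ← hxz, mul_assoc gx gz gz, ← sq, hz2, mul_one, mul_inv_cancel])
    (by rw [hzi, ← hyz, mul_assoc gy gz gz, ← sq, hz2, mul_one, mul_inv_cancel])
    (by rw [hxy, mul_inv_cancel])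

def φ : PG →* SL25 := PresentedGroup.toGroup hf

lemma φ_X (t : Fin 3) : φ (X t) = fA t := PresentedGroup.toGroup.of hf

lemma φ_ev (w : List (Fin 3)) : φ (ev X w) = ev fA w := by
  induction w with
  | nil => simp [ev]
  | cons s w ih => simp only [ev, map_mul, φ_X, ih]

abbrev N4 := ℕ × ℕ × ℕ × ℕ

def gmul (s : Fin 3) (m : N4) : N4 :=
  if s = 0 then (m.2.2.1 % 5, m.2.2.2 % 5, (4 * m.1 + 4 * m.2.2.1) % 5, (4 * m.2.1 + 4 * m.2.2.2) % 5)
  else if s = 1 then ((4 * m.2.2.1) % 5, (4 * m.2.2.2) % 5, (m.1 + 2 * m.2.2.1) % 5,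
    (m.2.1 + 2 * m.2.2.2) % 5)
  else ((4 * m.1) % 5, (4 * m.2.1) % 5, (4 * m.2.2.1) % 5, (4 * m.2.2.2) % 5)

def nev : List (Fin 3) → N4
  | [] => (1, 0, 0, 1)
  | s :: w => gmul s (nev w)

def toMat5 (m : N4) : Matrix (Fin 2) (Fin 2) (ZMod 5) :=
  !![(m.1 : ZMod 5), (m.2.1 : ZMod 5); (m.2.2.1 : ZMod 5), (m.2.2.2 : ZMod 5)]

lemma toMat5_gmul (s : Fin 3) (m : N4) : toMat5 (gmul s m) = (fA s).1 * toMat5 m := by
  fin_cases s
  · ext i j
    fin_cases i <;> fin_cases j <;>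
      simp [toMat5, gmul, fA, gx, Matrix.mul_apply, Fin.sum_univ_two, ZMod.natCast_mod]
  · ext i j
    fin_cases i <;> fin_cases j <;>
      simp [toMat5, gmul, fA, gy, Matrix.mul_apply, Fin.sum_univ_two, ZMod.natCast_mod]
  · ext i j
    fin_cases i <;> fin_cases j <;>
      simp [toMat5, gmul, fA, gz, Matrix.mul_apply, Fin.sum_univ_two, ZMod.natCast_mod]

lemma ev_mat (w : List (Fin 3)) : (ev fA w).1 = toMat5 (nev w) := by
  induction w with
  | nil =>
    ext i j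
    fin_cases i <;> fin_cases j <;> simp [ev, nev, toMat5]
  | cons s w ih =>
    simp only [ev, nev]
    rw [toMat5_gmul, ← ih]
    rfl

def ncode (m : N4) : ℕ := 125 * (m.1 % 5) + 25 * (m.2.1 % 5) + 5 * (m.2.2.1 % 5) + m.2.2.2 % 5

def mcode (M : Matrix (Fin 2) (Fin 2) (ZMod 5)) : ℕ :=
  125 * (M 0 0).val + 25 * (M 0 1).val + 5 * (M 1 0).val + (M 1 1).val

lemma mcode_toMat5 (m : N4) : mcode (toMat5 m) = ncode m := by
  simp [mcode, ncode, toMat5, ZMod.val_natCast]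

lemma code_tab : ∀ v < 120, ncode (nev (word v)) = codeTab.getD v 0 := by decide +kernel

lemma code_inj : ∀ v < 120, ∀ u < 120, codeTab.getD v 0 = codeTab.getD u 0 → v = u := by
  decide +kernel

lemma code_surj : ∀ a b c d : ZMod 5, a * d - b * c = 1 →
    ∃ v < 120, codeTab.getD v 0 = 125 * a.val + 25 * b.val + 5 * c.val + d.val := by
  decide +kernel

lemma φ_W_code (v : ℕ) (hv : v < 120) : mcode (φ (W v)).1 = codeTab.getD v 0 := by
  unfold W
  rw [φ_ev, ev_mat, mcode_toMat5, code_tab v hv]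

lemma W_inj (v : ℕ) (hv : v < 120) (u : ℕ) (hu : u < 120) (h : φ (W v) = φ (W u)) : v = u := by
  apply code_inj v hv u hu
  rw [← φ_W_code v hv, ← φ_W_code u hu, h]

lemma mcode_inj (M N : Matrix (Fin 2) (Fin 2) (ZMod 5)) (h : mcode M = mcode N) : M = N := by
  have h00 := ZMod.val_lt (M 0 0)
  have h01 := ZMod.val_lt (M 0 1)
  have h10 := ZMod.val_lt (M 1 0)
  have h11 := ZMod.val_lt (M 1 1)
  have k00 := ZMod.val_lt (N 0 0)
  have k01 := ZMod.val_lt (N 0 1)
  have k10 := ZMod.val_lt (N 1 0)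
  have k11 := ZMod.val_lt (N 1 1)
  unfold mcode at h
  ext i j
  apply ZMod.val_injective
  fin_cases i <;> fin_cases j <;> simp <;> omega

lemma φ_inj : Function.Injective φ := by
  intro g g' h
  obtain ⟨v, hv, rfl⟩ := all_W g
  obtain ⟨u, hu, rfl⟩ := all_W g'
  rw [W_inj v hv u hu h]

lemma φ_surj : Function.Surjective φ := by
  intro A
  have hdet : A.1 0 0 * A.1 1 1 - A.1 0 1 * A.1 1 0 = 1 := by
    rw [← Matrix.det_fin_two]; exact A.2
  obtain ⟨v, hv, hc⟩ := code_surj _ _ _ _ hdet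
  refine ⟨W v, ?_⟩
  apply Subtype.ext
  apply mcode_inj
  rw [φ_W_code v hv, hc]
  rfl

theorem pres : Nonempty (PG ≃* SL25) := ⟨MulEquiv.ofBijective φ ⟨φ_inj, φ_surj⟩⟩


universe u

lemma solv_of_normal {X : Type u} [Group X] (N : Subgroup X) [N.Normal]
    (h1 : Group.IsSolvable N) (h2 : Group.IsSolvable (X ⧸ N)) : Group.IsSolvable X := by
  refine Group.isSolvable_of_ker_le_range N.subtype (QuotientGroup.mk' N) ?_
  rw [QuotientGroup.ker_mk', Subgroup.range_subtype]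

lemma solv_lt_60 : ∀ (n : ℕ) (X : Type u) [Group X] [Finite X], Nat.card X = n → n < 60 →
    Group.IsSolvable X := by
  intro n
  induction n using Nat.strong_induction_on with
  | _ n ih =>
    intro X _ _ hn hlt
    by_cases hs : Subsingleton X
    · exact Group.isSolvable_of_comm (fun a b => Subsingleton.elim _ _)
    · rw [not_subsingleton_iff_nontrivial] at hs
      by_cases hsimple : ∀ H : Subgroup X, H.Normal → H = ⊥ ∨ H = ⊤
      · haveI : IsSimpleGroup X := { toNontrivial := hs, eq_bot_or_eq_top_of_normal := hsimple }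
        by_cases hc : IsCyclic X
        · exact Group.isSolvable_of_comm (fun a b => hc.isMulCommutative.is_comm.comm a b)
        · have := Cfsg.Agent.S0493.result hc (by omega)
          omega
      · push Not at hsimple
        obtain ⟨N, hN, hbot, htop⟩ := hsimple
        have hcard := Subgroup.card_mul_index N
        have h1 : 1 < Nat.card N := (Subgroup.one_lt_card_iff_ne_bot N).mpr hbot
        have h2 : N.index ≠ 1 := fun h => htop (Subgroup.index_eq_one.mp h)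
        have h3 : N.index ≠ 0 := Subgroup.index_ne_zero_of_finite
        have hNlt : Nat.card N < n := by
          rw [← hn, ← hcard]
          have : 2 ≤ N.index := by omega
          nlinarith
        have hQlt : Nat.card (X ⧸ N) < n := by
          rw [← Subgroup.index_eq_card, ← hn, ← hcard]
          nlinarith
        exact solv_of_normal N (ih _ hNlt N rfl (by omega)) (ih _ hQlt (X ⧸ N) rfl (by omega))

lemma simple_of_60 (X : Type u) [Group X] [Finite X] (h60 : Nat.card X = 60)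
    (hns : ¬ Group.IsSolvable X) : IsSimpleGroup X := by
  have : Nontrivial X := by
    rw [← Finite.one_lt_card_iff_nontrivial, h60]; norm_num
  refine { eq_bot_or_eq_top_of_normal := ?_ }
  intro N hN
  by_contra hcon
  push Not at hcon
  obtain ⟨hbot, htop⟩ := hcon
  have hcard := Subgroup.card_mul_index N
  have h1 : 1 < Nat.card N := (Subgroup.one_lt_card_iff_ne_bot N).mpr hbot
  have h2 : N.index ≠ 1 := fun h => htop (Subgroup.index_eq_one.mp h)
  have h3 : N.index ≠ 0 := Subgroup.index_ne_zero_of_finite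
  have hNlt : Nat.card N < 60 := by
    rw [← h60, ← hcard]
    have : 2 ≤ N.index := by omega
    nlinarith
  have hQlt : Nat.card (X ⧸ N) < 60 := by
    rw [← Subgroup.index_eq_card, ← h60, ← hcard]
    nlinarith
  exact hns (solv_of_normal N (solv_lt_60 _ N rfl hNlt) (solv_lt_60 _ (X ⧸ N) rfl hQlt))


lemma q8_facts : ∀ g : QuaternionGroup 2, g ≠ 1 →
    g = QuaternionGroup.a 2 ∨ g ^ 2 = QuaternionGroup.a 2 := by decide

lemma q8_invol : ∀ g : QuaternionGroup 2, g ^ 2 = 1 → g = 1 ∨ g = QuaternionGroup.a 2 := by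
  decide

lemma q8_a2 : (QuaternionGroup.a 2 : QuaternionGroup 2) ≠ 1 ∧
    (QuaternionGroup.a 2 : QuaternionGroup 2) ^ 2 = 1 := by decide

lemma structure_120 (G : Type u) [Group G] [Finite G] (h120 : Nat.card G = 120)
    (hns : ¬ Group.IsSolvable G)
    (hQ : ∀ P : Sylow 2 G, Nonempty ((P : Subgroup G) ≃* QuaternionGroup 2)) :
    ∃ (K : Subgroup G) (_ : K.Normal) (z : G), Nat.card K = 2 ∧ z ∈ K ∧ z ≠ 1 ∧ z ^ 2 = 1 ∧
      ¬ Group.IsSolvable (G ⧸ K) := by
  classical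
  haveI : Fact (Nat.Prime 5) := ⟨by norm_num⟩
  haveI : Fact (Nat.Prime 2) := ⟨by norm_num⟩
  obtain ⟨P5⟩ : Nonempty (Sylow 5 G) := inferInstance
  obtain ⟨P2⟩ : Nonempty (Sylow 2 G) := inferInstance
  obtain ⟨ι⟩ := hQ P2
  have hP2card : Nat.card (P2 : Subgroup G) = 8 := by
    rw [Nat.card_congr ι.toEquiv, Nat.card_eq_fintype_card, QuaternionGroup.card]
  obtain ⟨k, hk⟩ := (IsPGroup.iff_card).mp P5.isPGroup'
  have hmul := Subgroup.card_mul_index (P5 : Subgroup G)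
  have hnd := P5.not_dvd_index
  rw [h120, hk] at hmul
  have hk1 : k = 1 := by
    rcases k with _ | _ | k
    · exfalso
      apply hnd
      simp only [pow_zero, one_mul] at hmul
      rw [hmul]
      norm_num
    · rfl
    · exfalso
      have h25 : 25 ∣ 120 := by
        rw [← hmul]
        exact Dvd.dvd.mul_right ⟨5 ^ k, by ring⟩ _
      norm_num at h25
  subst hk1
  have hidx : (P5 : Subgroup G).index = 24 := by omega
  have hP5card : Nat.card (P5 : Subgroup G) = 5 := by rw [hk]; norm_num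
  have hn5mod := card_sylow_modEq_one 5 G
  have hn5dvd := P5.card_dvd_index
  rw [hidx] at hn5dvd
  have hn5 : Nat.card (Sylow 5 G) = 1 ∨ Nat.card (Sylow 5 G) = 6 := by
    have hle : Nat.card (Sylow 5 G) ≤ 24 := Nat.le_of_dvd (by norm_num) hn5dvd
    unfold Nat.ModEq at hn5mod
    generalize Nat.card (Sylow 5 G) = n at hn5mod hn5dvd hle
    interval_cases n <;> simp_all
  rcases hn5 with h | h
  · exfalso
    have hnorm : (P5 : Subgroup G).Normal := by
      rw [← Subgroup.normalizer_eq_top_iff, ← Subgroup.index_eq_one]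
      have h1 := P5.card_eq_index_normalizer
      rw [h] at h1
      exact h1.symm
    refine hns (solv_of_normal (P5 : Subgroup G) (solv_lt_60 _ _ rfl (by omega))
      (solv_lt_60 _ (G ⧸ (P5 : Subgroup G)) rfl ?_))
    rw [← Subgroup.index_eq_card, hidx]
    norm_num
  · let K : Subgroup G := (MulAction.toPermHom G (Sylow 5 G)).ker
    have hKmem : ∀ g : G, g ∈ K ↔ ∀ Q : Sylow 5 G, g • Q = Q := by
      intro g
      rw [MonoidHom.mem_ker]
      constructor
      · intro h' Q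
        have := congrArg (fun σ => σ Q) h'
        simpa using this
      · intro h'
        apply Equiv.ext
        intro Q
        exact h' Q
    let z' : (P2 : Subgroup G) := ι.symm (QuaternionGroup.a 2)
    have hιz : ι z' = QuaternionGroup.a 2 := by simp [z']
    have hz'1 : z' ≠ 1 := by
      intro h'
      have h2 := congrArg ι h'
      rw [hιz, map_one] at h2
      exact q8_a2.1 h2
    have hz'2 : z' ^ 2 = 1 := by
      apply ι.injective
      rw [map_pow, map_one, hιz]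
      exact q8_a2.2
    have hzK : (z' : G) ∈ K := by
      rw [hKmem]
      intro Q
      have hex : ∃ g : (P2 : Subgroup G), g ≠ 1 ∧ (g : G) • Q = Q := by
        by_contra hcon
        push Not at hcon
        have hinj : Function.Injective (fun g : (P2 : Subgroup G) => (g : G) • Q) := by
          intro g₁ g₂ h'
          by_contra hne
          apply hcon (g₂⁻¹ * g₁) (by
            intro h''
            apply hne
            exact (inv_mul_eq_one.mp h'').symm)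
          have h3 : (g₁ : G) • Q = (g₂ : G) • Q := h'
          rw [Subgroup.coe_mul, Subgroup.coe_inv, mul_smul, h3, inv_smul_smul]
        have h4 := Nat.card_le_card_of_injective _ hinj
        rw [hP2card, h] at h4
        omega
      obtain ⟨g, hg1, hgQ⟩ := hex
      have hιg : ι g ≠ 1 := fun h' => hg1 (ι.injective (h'.trans (map_one ι).symm))
      rcases q8_facts (ι g) hιg with h' | h'
      · have h5 : g = z' := by
          apply ι.injective
          rw [h', hιz]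
        rw [← h5]
        exact hgQ
      · have h5 : g ^ 2 = z' := by
          apply ι.injective
          rw [map_pow, h', hιz]
        rw [← h5, Subgroup.coe_pow, sq, mul_smul, hgQ, hgQ]
    have hstab : Nat.card (MulAction.stabilizer G P5) = 20 := by
      have h1 := MulAction.index_stabilizer_of_transitive G P5
      have h2 := Subgroup.card_mul_index (MulAction.stabilizer G P5)
      rw [h1, h, h120] at h2
      omega
    have hKle : K ≤ MulAction.stabilizer G P5 := fun g hg => (hKmem g).mp hg P5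
    have hKdvd : Nat.card K ∣ 20 := hstab ▸ Subgroup.card_dvd_of_le hKle
    have hKsolv : Group.IsSolvable K :=
      solv_lt_60 _ K rfl (by have := Nat.le_of_dvd (by norm_num) hKdvd; omega)
    have hQns : ¬ Group.IsSolvable (G ⧸ K) := fun hq => hns (solv_of_normal K hKsolv hq)
    have hQ60 : 60 ≤ Nat.card (G ⧸ K) := by
      by_contra hlt
      exact hQns (solv_lt_60 _ (G ⧸ K) rfl (by omega))
    have hKmul := Subgroup.card_mul_index K
    rw [Subgroup.index_eq_card, h120] at hKmul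
    have hK2 : Nat.card K = 2 := by
      have h1 : 1 < Nat.card K := (Subgroup.one_lt_card_iff_ne_bot K).mpr (by
        intro hbot
        have h6 : (z' : G) ∈ (⊥ : Subgroup G) := hbot ▸ hzK
        rw [Subgroup.mem_bot] at h6
        exact hz'1 (Subtype.ext h6))
      nlinarith
    refine ⟨K, inferInstance, (z' : G), hK2, hzK, ?_, ?_, hQns⟩
    · intro h'
      exact hz'1 (Subtype.ext h')
    · have := congrArg (fun (t : (P2 : Subgroup G)) => (t : G)) hz'2
      simpa using this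




lemma finite_PG : Finite PG := by
  have hs : Function.Surjective (fun v : Fin 120 => W v) := by
    intro g
    obtain ⟨v, hv, rfl⟩ := all_W g
    exact ⟨⟨v, hv⟩, rfl⟩
  exact Finite.of_surjective _ hs

lemma card_PG_le : Nat.card PG ≤ 120 := by
  have hs : Function.Surjective (fun v : Fin 120 => W v) := by
    intro g
    obtain ⟨v, hv, rfl⟩ := all_W g
    exact ⟨⟨v, hv⟩, rfl⟩
  have := Nat.card_le_card_of_surjective _ hs
  simpa using this

lemma a5_bij : Function.Bijective Cfsg.Agent.S3377.φ := by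
  have hinj : Function.Injective Cfsg.Agent.S3377.φ := by
    intro g g' h
    obtain ⟨v, hv, rfl⟩ := Cfsg.Agent.S3377.all_W g
    obtain ⟨u, hu, rfl⟩ := Cfsg.Agent.S3377.all_W g'
    rw [Cfsg.Agent.S3377.W_inj v hv u hu h]
  refine ⟨hinj, ?_⟩
  let χ : Fin 60 → alternatingGroup (Fin 5) := fun v => Cfsg.Agent.S3377.φ (Cfsg.Agent.S3377.W v)
  have hχ : Function.Injective χ := fun v u h => Fin.ext (Cfsg.Agent.S3377.W_inj v v.2 u u.2 h)
  have hcard : Fintype.card (Fin 60) = Fintype.card (alternatingGroup (Fin 5)) := by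
    rw [Fintype.card_fin, card_alternatingGroup, Fintype.card_fin]
    rfl
  have hb := (Fintype.bijective_iff_injective_and_card χ).mpr ⟨hχ, hcard⟩
  intro g
  obtain ⟨v, hv⟩ := hb.2 g
  exact ⟨Cfsg.Agent.S3377.W v, hv⟩

lemma a5_ne : Cfsg.Agent.S3377.fA 0 * Cfsg.Agent.S3377.fA 1 ≠ 1 := by
  decide

/-- generators of a simple group of order 60 -/
lemma gens_60 (Q : Type u) [Group Q] [Finite Q] [IsSimpleGroup Q] (h60 : Nat.card Q = 60) :
    ∃ a b : Q, a ^ 3 = 1 ∧ b ^ 5 = 1 ∧ (a * b) ^ 2 = 1 ∧ a * b ≠ 1 ∧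
      Subgroup.closure {a, b} = ⊤ := by
  obtain ⟨ψ⟩ := Cfsg.Agent.S0494.result (G := Q) h60
  let θ : Cfsg.Agent.S3377.PG →* Q := ψ.symm.toMonoidHom.comp Cfsg.Agent.S3377.φ
  have hθinj : Function.Injective θ := ψ.symm.injective.comp a5_bij.1
  have hθsurj : Function.Surjective θ := ψ.symm.surjective.comp a5_bij.2
  refine ⟨θ (Cfsg.Agent.S3377.X 0), θ (Cfsg.Agent.S3377.X 1), ?_, ?_, ?_, ?_, ?_⟩
  · rw [← map_pow, Cfsg.Agent.S3377.relX0, map_one]
  · rw [← map_pow, Cfsg.Agent.S3377.relX1, map_one]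
  · rw [← map_mul, ← map_pow, Cfsg.Agent.S3377.relX01, map_one]
  · rw [← map_mul]
    intro h
    have h1 : Cfsg.Agent.S3377.X 0 * Cfsg.Agent.S3377.X 1 = 1 := hθinj (h.trans (map_one θ).symm)
    have h2 := congrArg Cfsg.Agent.S3377.φ h1
    rw [map_mul, Cfsg.Agent.S3377.φ_X, Cfsg.Agent.S3377.φ_X, map_one] at h2
    exact a5_ne h2
  · have h1 : Subgroup.closure (Set.range (PresentedGroup.of : Fin 2 → Cfsg.Agent.S3377.PG)) = ⊤ :=
      PresentedGroup.closure_range_of _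
    have h2 : Subgroup.map θ (Subgroup.closure (Set.range (PresentedGroup.of : Fin 2 → Cfsg.Agent.S3377.PG))) = ⊤ := by
      rw [h1, ← MonoidHom.range_eq_map, MonoidHom.range_eq_top]
      exact hθsurj
    rw [MonoidHom.map_closure] at h2
    rw [← h2]
    congr 1
    ext q
    constructor
    · rintro (rfl | rfl)
      · exact ⟨_, ⟨0, rfl⟩, rfl⟩
      · exact ⟨_, ⟨1, rfl⟩, rfl⟩
    · rintro ⟨_, ⟨i, rfl⟩, rfl⟩
      fin_cases i
      · left; rfl
      · right; rfl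

lemma adjust {G : Type u} [Group G] (z : G) (hz2 : z ^ 2 = 1) (hzc : ∀ g : G, g * z = z * g)
    (x₀ : G) (n : ℕ) (hn : Odd n) (hx : x₀ ^ n = 1 ∨ x₀ ^ n = z) :
    ∃ x : G, (x = x₀ ∨ x = x₀ * z) ∧ x ^ n = 1 := by
  rcases hx with h | h
  · exact ⟨x₀, Or.inl rfl, h⟩
  · refine ⟨x₀ * z, Or.inr rfl, ?_⟩
    have hc : Commute x₀ z := hzc x₀
    rw [hc.mul_pow, h]
    obtain ⟨m, rfl⟩ := hn
    rw [← pow_succ', show 2 * m + 1 + 1 = 2 * (m + 1) by ring, pow_mul, hz2, one_pow]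

theorem part1 (G : Type u) [Group G] [Finite G] (h120 : Nat.card G = 120)
    (hns : ¬ Group.IsSolvable G)
    (hQ : ∀ P : Sylow 2 G, Nonempty ((P : Subgroup G) ≃* QuaternionGroup 2)) :
    Nonempty (G ≃* SL25) := by
  classical
  haveI : Fact (Nat.Prime 2) := ⟨by norm_num⟩
  obtain ⟨K, hKn, z, hK2, hzK, hz1, hz2, hQns⟩ := structure_120 G h120 hns hQ
  -- K = {1, z}
  have hKelts : ∀ k ∈ K, k = 1 ∨ k = z := by
    have hle : Subgroup.zpowers z ≤ K := by
      rw [Subgroup.zpowers_le]; exact hzK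
    have hord : orderOf z = 2 := orderOf_eq_prime hz2 hz1
    have heq : Subgroup.zpowers z = K := by
      apply Subgroup.eq_of_le_of_card_ge hle
      rw [Nat.card_zpowers, hord, hK2]
    intro k hk
    rw [← heq] at hk
    obtain ⟨i, rfl⟩ := Subgroup.mem_zpowers_iff.mp hk
    rcases Int.even_or_odd' i with ⟨j, rfl | rfl⟩
    · left
      rw [zpow_mul, zpow_ofNat, hz2, one_zpow]
    · right
      rw [zpow_add, zpow_mul, zpow_ofNat, hz2, one_zpow, one_mul, zpow_one]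
  have hzc : ∀ g : G, g * z = z * g := by
    intro g
    have h1 : g * z * g⁻¹ ∈ K := hKn.conj_mem z hzK g
    rcases hKelts _ h1 with h | h
    · exfalso
      apply hz1
      have h2 : z = g⁻¹ * (g * z * g⁻¹) * g := by group
      rw [h2, h]
      group
    · calc g * z = (g * z * g⁻¹) * g := by group
        _ = z * g := by rw [h]
  have hzinv : z⁻¹ = z := by
    rw [inv_eq_iff_mul_eq_one, ← sq, hz2]
  have hQ60 : Nat.card (G ⧸ K) = 60 := by
    have := Subgroup.card_mul_index K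
    rw [Subgroup.index_eq_card, h120, hK2] at this
    omega
  haveI := simple_of_60 (G ⧸ K) hQ60 hQns
  obtain ⟨a, b, ha3, hb5, hab2, hab1, hgen⟩ := gens_60 (G ⧸ K) hQ60
  obtain ⟨x₀, rfl⟩ := QuotientGroup.mk_surjective a
  obtain ⟨y₀, rfl⟩ := QuotientGroup.mk_surjective b
  have hx₀ : x₀ ^ 3 = 1 ∨ x₀ ^ 3 = z := by
    apply hKelts
    rw [← QuotientGroup.eq_one_iff, QuotientGroup.mk_pow]
    exact ha3
  have hy₀ : y₀ ^ 5 = 1 ∨ y₀ ^ 5 = z := by
    apply hKelts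
    rw [← QuotientGroup.eq_one_iff, QuotientGroup.mk_pow]
    exact hb5
  obtain ⟨x, hxx, hx3⟩ := adjust z hz2 hzc x₀ 3 (by decide) hx₀
  obtain ⟨y, hyy, hy5⟩ := adjust z hz2 hzc y₀ 5 (by decide) hy₀
  have hzmk : ((z : G) : G ⧸ K) = 1 := (QuotientGroup.eq_one_iff z).mpr hzK
  have hxmk : ((x : G) : G ⧸ K) = (x₀ : G ⧸ K) := by
    rcases hxx with rfl | rfl
    · rfl
    · rw [QuotientGroup.mk_mul, hzmk, mul_one]
  have hymk : ((y : G) : G ⧸ K) = (y₀ : G ⧸ K) := by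
    rcases hyy with rfl | rfl
    · rfl
    · rw [QuotientGroup.mk_mul, hzmk, mul_one]
  rw [← hxmk, ← hymk] at hab2 hab1 hgen
  have hxy : (x * y) ^ 2 = 1 ∨ (x * y) ^ 2 = z := by
    apply hKelts
    rw [← QuotientGroup.eq_one_iff, QuotientGroup.mk_pow, QuotientGroup.mk_mul]
    exact hab2
  rcases hxy with hxy | hxy
  · -- contradiction: two involutions in a quaternion group
    exfalso
    set t := x * y with ht
    have htK : t ∉ K := by
      intro h
      apply hab1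
      rw [← QuotientGroup.mk_mul]
      exact (QuotientGroup.eq_one_iff t).mpr h
    have ht1 : t ≠ 1 := fun h => htK (h ▸ K.one_mem)
    have htz : t ≠ z := fun h => htK (h ▸ hzK)
    have hpt : IsPGroup 2 (Subgroup.zpowers t) := by
      apply IsPGroup.of_card (n := 1)
      rw [Nat.card_zpowers, orderOf_eq_prime hxy ht1, pow_one]
    obtain ⟨P, hP⟩ := hpt.exists_le_sylow
    have htP : t ∈ (P : Subgroup G) := hP (Subgroup.mem_zpowers t)
    have hKp : IsPGroup 2 K := IsPGroup.of_card (n := 1) (by rw [hK2, pow_one])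
    have hsup : (P : Subgroup G) ⊔ K = P :=
      P.is_maximal' (IsPGroup.to_sup_of_normal_right P.isPGroup' hKp) le_sup_left
    have hzP : z ∈ (P : Subgroup G) := by
      rw [← hsup]
      exact Subgroup.mem_sup_right hzK
    obtain ⟨ι⟩ := hQ P
    have e1 : ι ⟨t, htP⟩ = 1 ∨ ι ⟨t, htP⟩ = QuaternionGroup.a 2 := by
      apply q8_invol
      rw [← map_pow]
      have : (⟨t, htP⟩ : (P : Subgroup G)) ^ 2 = 1 := Subtype.ext (by simpa using hxy)
      rw [this, map_one]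
    have e2 : ι ⟨z, hzP⟩ = 1 ∨ ι ⟨z, hzP⟩ = QuaternionGroup.a 2 := by
      apply q8_invol
      rw [← map_pow]
      have : (⟨z, hzP⟩ : (P : Subgroup G)) ^ 2 = 1 := Subtype.ext (by simpa using hz2)
      rw [this, map_one]
    have e1' : ι ⟨t, htP⟩ = QuaternionGroup.a 2 := by
      rcases e1 with h | h
      · exfalso
        have := ι.injective (h.trans (map_one ι).symm)
        exact ht1 (congrArg Subtype.val this)
      · exact h
    have e2' : ι ⟨z, hzP⟩ = QuaternionGroup.a 2 := by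
      rcases e2 with h | h
      · exfalso
        have := ι.injective (h.trans (map_one ι).symm)
        exact hz1 (congrArg Subtype.val this)
      · exact h
    have := ι.injective (e1'.trans e2'.symm)
    exact htz (congrArg Subtype.val this)
  · -- the presentation maps onto G
    have hrel := lift_rels x y z hx3 hy5 hz2
      (by rw [hzinv, ← hzc x, mul_assoc x z z, ← sq, hz2, mul_one, mul_inv_cancel])
      (by rw [hzinv, ← hzc y, mul_assoc y z z, ← sq, hz2, mul_one, mul_inv_cancel])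
      (by rw [hxy, mul_inv_cancel])
    let f : PG →* G := PresentedGroup.toGroup hrel
    have hfX : ∀ i : Fin 3, f (X i) = ![x, y, z] i := fun i => PresentedGroup.toGroup.of hrel
    have hxr : x ∈ f.range := ⟨X 0, hfX 0⟩
    have hyr : y ∈ f.range := ⟨X 1, hfX 1⟩
    have hzr : z ∈ f.range := ⟨X 2, hfX 2⟩
    have hlift : ∀ q ∈ Subgroup.closure ({(x : G ⧸ K), (y : G ⧸ K)} : Set (G ⧸ K)),
        ∃ h ∈ f.range, (h : G ⧸ K) = q := by
      intro q hq
      induction hq using Subgroup.closure_induction with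
      | mem q hq =>
        rcases hq with rfl | rfl
        · exact ⟨x, hxr, rfl⟩
        · exact ⟨y, hyr, rfl⟩
      | one => exact ⟨1, f.range.one_mem, rfl⟩
      | mul q₁ q₂ _ _ ih₁ ih₂ =>
        obtain ⟨h₁, hh₁, rfl⟩ := ih₁
        obtain ⟨h₂, hh₂, rfl⟩ := ih₂
        exact ⟨h₁ * h₂, f.range.mul_mem hh₁ hh₂, rfl⟩
      | inv q _ ih =>
        obtain ⟨h₁, hh₁, rfl⟩ := ih
        exact ⟨h₁⁻¹, f.range.inv_mem hh₁, rfl⟩
    have hfsurj : Function.Surjective f := by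
      rw [← MonoidHom.range_eq_top, eq_top_iff]
      intro g _
      obtain ⟨h, hh, hhg⟩ := hlift (g : G ⧸ K) (by rw [hgen]; exact Subgroup.mem_top _)
      have h1 : h⁻¹ * g ∈ K := QuotientGroup.eq.mp hhg
      rcases hKelts _ h1 with h2 | h2
      · have : g = h := by
          have := inv_mul_eq_one.mp h2
          exact this.symm
        rw [this]; exact hh
      · have : g = h * z := by
          rw [← h2]; group
        rw [this]; exact f.range.mul_mem hh hzr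
    haveI := finite_PG
    have hbij : Function.Bijective f :=
      hfsurj.bijective_of_nat_card_le (by rw [h120]; exact card_PG_le)
    obtain ⟨e⟩ := pres
    exact ⟨(MulEquiv.ofBijective f hbij).symm.trans e⟩


/-- Every non-solvable group of order 120 whose Sylow 2-subgroups are quaternion of order 8 is isomorphic to SL(2,5), and SL(2,5) has the presentation ⟨x, y, z | x³ = y⁵ = z² = 1, z⁻¹xz = x, z⁻¹yz = y, (xy)² = z⟩. -/
theorem result :
    (∀ (G : Type*) [Group G] [Finite G], Nat.card G = 120 → ¬ Group.IsSolvable G →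
      (∀ P : Sylow 2 G, Nonempty ((P : Subgroup G) ≃* QuaternionGroup 2)) →
      Nonempty (G ≃* Matrix.SpecialLinearGroup (Fin 2) (ZMod 5))) ∧
    Nonempty (PresentedGroup ({FreeGroup.of (0 : Fin 3) ^ 3, FreeGroup.of (1 : Fin 3) ^ 5, FreeGroup.of (2 : Fin 3) ^ 2,
        (FreeGroup.of (2 : Fin 3))⁻¹ * FreeGroup.of 0 * FreeGroup.of 2 * (FreeGroup.of (0 : Fin 3))⁻¹,
        (FreeGroup.of (2 : Fin 3))⁻¹ * FreeGroup.of 1 * FreeGroup.of 2 * (FreeGroup.of (1 : Fin 3))⁻¹,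
        (FreeGroup.of (0 : Fin 3) * FreeGroup.of 1) ^ 2 * (FreeGroup.of (2 : Fin 3))⁻¹} : Set (FreeGroup (Fin 3)))
      ≃* Matrix.SpecialLinearGroup (Fin 2) (ZMod 5)) := by
  exact ⟨fun G _ _ h120 hns hQ => part1 G h120 hns hQ, pres⟩

end Cfsg.Agent.S3378
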