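import Cfsg.Statements.S5112
import Mathlib

set_option autoImplicit false
open Cfsg

namespace Cfsg.Agent.S5112

theorem aut_trivial_of_odd {G : Type*} [Group G] (c y : G) (k : ℕ) (hk : 1 ≤ k)
    (hc : orderOf c = 2 ^ k)
    (hcov : ∀ g : G, (∃ i : ℕ, g = c ^ i) ∨ (∃ i : ℕ, g = y * c ^ i))
    (hord : ∀ i : ℕ, orderOf (y * c ^ i) ≠ 2 ^ k)
    (hy : ∀ i : ℕ, y ≠ c ^ i)
    (β : MulAut G) (q : ℕ) (hq : Nat.Coprime q 2) (hβ : β ^ q = 1) : β = 1 := by
  have hq0 : q ≠ 0 := by
    rintro rfl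
    simp at hq
  -- Step 1
  have hβc : β c = c := by
    have hord1 : orderOf (β c) = 2 ^ k := by rw [MulEquiv.orderOf_eq, hc]
    rcases hcov (β c) with ⟨u, hu⟩ | ⟨i, hi⟩
    · have hpow : ∀ t : ℕ, (β ^ t) c = c ^ (u ^ t) := by
        intro t
        induction t with
        | zero => simp
        | succ t ih =>
          rw [pow_succ', MulAut.mul_apply, ih, map_pow, hu, ← pow_mul, pow_succ']
      have h1 := hpow q
      rw [hβ] at h1
      have h2 : c ^ (u ^ q) = c ^ 1 := by
        rw [pow_one]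
        exact h1.symm
      rw [pow_eq_pow_iff_modEq, hc] at h2
      have h3 : ((u : ZMod (2 ^ k)) ^ q) = 1 := by
        have := (ZMod.natCast_eq_natCast_iff _ _ _).mpr h2
        simpa using this
      obtain ⟨w, hw⟩ := IsUnit.of_pow_eq_one h3 hq0
      have hwq : w ^ q = 1 := by
        apply Units.ext
        rw [Units.val_pow_eq_pow_val, hw, h3]
        rfl
      have hwt : w ^ (2 ^ (k - 1)) = 1 := by
        have := ZMod.pow_totient w
        rw [Nat.totient_prime_pow Nat.prime_two (by omega : 0 < k)] at this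
        simpa using this
      have ho1 : orderOf w ∣ q := orderOf_dvd_of_pow_eq_one hwq
      have ho2 : orderOf w ∣ 2 ^ (k - 1) := orderOf_dvd_of_pow_eq_one hwt
      have hcop : Nat.Coprime q (2 ^ (k - 1)) := Nat.Coprime.pow_right _ hq
      have ho : orderOf w = 1 := Nat.eq_one_of_dvd_coprimes hcop ho1 ho2
      have hw1 : w = 1 := orderOf_eq_one_iff.mp ho
      have hu1 : (u : ZMod (2 ^ k)) = ((1 : ℕ) : ZMod (2 ^ k)) := by
        rw [← hw, hw1]
        simp
      have hu2 := (ZMod.natCast_eq_natCast_iff _ _ _).mp hu1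
      have h4 : c ^ u = c ^ 1 := by
        rw [pow_eq_pow_iff_modEq, hc]
        exact hu2
      rw [hu, h4, pow_one]
    · exfalso
      rw [hi] at hord1
      exact hord i hord1
  have hβcpow : ∀ i : ℕ, β (c ^ i) = c ^ i := by
    intro i
    rw [map_pow, hβc]
  -- Step 2
  have hβy : β y = y := by
    rcases hcov (β y) with ⟨i, hi⟩ | ⟨j, hj⟩
    · exfalso
      rw [← hβcpow i] at hi
      exact hy i (β.injective hi)
    · have hpow : ∀ t : ℕ, (β ^ t) y = y * c ^ (t * j) := by
        intro t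
        induction t with
        | zero => simp
        | succ t ih =>
          rw [pow_succ', MulAut.mul_apply, ih, map_mul, hβcpow, hj, mul_assoc, ← pow_add]
          congr 2
          ring
      have h1 := hpow q
      rw [hβ] at h1
      have h2 : c ^ (q * j) = 1 := by
        have : y = y * c ^ (q * j) := h1
        exact mul_eq_left.mp this.symm
      have h3 : 2 ^ k ∣ q * j := by
        rw [← hc]
        exact orderOf_dvd_of_pow_eq_one h2
      have hcop : Nat.Coprime (2 ^ k) q := (Nat.Coprime.pow_right _ hq).symm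
      have h4 : 2 ^ k ∣ j := hcop.dvd_of_dvd_mul_left h3
      have h5 : c ^ j = 1 := by
        rw [← hc] at h4
        exact orderOf_dvd_iff_pow_eq_one.mp h4
      rw [hj, h5, mul_one]
  -- Step 3
  apply MulEquiv.ext
  intro g
  rcases hcov g with ⟨i, rfl⟩ | ⟨i, rfl⟩
  · rw [hβcpow]
    rfl
  · rw [map_mul, hβcpow, hβy]
    rfl

theorem dihedral_aut (k : ℕ) (hk : 3 ≤ k) (β : MulAut (DihedralGroup (2 ^ k))) (q : ℕ)
    (hq : Nat.Coprime q 2) (hβ : β ^ q = 1) : β = 1 := by
  have hlt : 2 ^ 3 ≤ 2 ^ k := Nat.pow_le_pow_right (by norm_num) hk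
  refine aut_trivial_of_odd (DihedralGroup.r 1) (DihedralGroup.sr 0) k (by omega)
    DihedralGroup.orderOf_r_one ?_ ?_ ?_ β q hq hβ
  · intro g
    cases g with
    | r i =>
      left
      refine ⟨i.val, ?_⟩
      rw [DihedralGroup.r_one_pow, ZMod.natCast_zmod_val]
    | sr i =>
      right
      refine ⟨i.val, ?_⟩
      rw [DihedralGroup.r_one_pow, ZMod.natCast_zmod_val, DihedralGroup.sr_mul_r, zero_add]
  · intro i
    rw [DihedralGroup.r_one_pow, DihedralGroup.sr_mul_r, DihedralGroup.orderOf_sr]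
    omega
  · intro i
    rw [DihedralGroup.r_one_pow]
    exact fun h => by cases h

theorem quaternion_aut (k : ℕ) (hk : 2 ≤ k) (β : MulAut (QuaternionGroup (2 ^ k))) (q : ℕ)
    (hq : Nat.Coprime q 2) (hβ : β ^ q = 1) : β = 1 := by
  have hlt : 2 ^ 2 ≤ 2 ^ k := Nat.pow_le_pow_right (by norm_num) hk
  have hc : orderOf (QuaternionGroup.a 1 : QuaternionGroup (2 ^ k)) = 2 ^ (k + 1) := by
    rw [QuaternionGroup.orderOf_a_one, pow_succ, mul_comm]
  refine aut_trivial_of_odd (QuaternionGroup.a 1) (QuaternionGroup.xa 0) (k + 1) (by omega)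
    hc ?_ ?_ ?_ β q hq hβ
  · intro g
    cases g with
    | a i =>
      left
      refine ⟨i.val, ?_⟩
      rw [QuaternionGroup.a_one_pow, ZMod.natCast_zmod_val]
    | xa i =>
      right
      refine ⟨i.val, ?_⟩
      rw [QuaternionGroup.a_one_pow, ZMod.natCast_zmod_val, QuaternionGroup.xa_mul_a, zero_add]
  · intro i
    rw [QuaternionGroup.a_one_pow, QuaternionGroup.xa_mul_a, QuaternionGroup.orderOf_xa]
    have : 2 ^ (k + 1) = 2 * 2 ^ k := by ring
    omega
  · intro i
    rw [QuaternionGroup.a_one_pow]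
    exact fun h => by cases h

theorem isPGroup_of_coprime_trivial {G : Type*} [Group G] [Finite G] {p : ℕ} [Fact p.Prime]
    (h : ∀ (g : G) (m : ℕ), m.Coprime p → g ^ m = 1 → g = 1) : IsPGroup p G := by
  intro g
  have hp : p.Prime := Fact.out
  obtain ⟨k, m, hm, hkm⟩ := Nat.exists_eq_pow_mul_and_not_dvd (orderOf_pos g).ne' p hp.ne_one
  refine ⟨k, h (g ^ p ^ k) m ?_ ?_⟩
  · exact (Nat.Coprime.symm ((Nat.Prime.coprime_iff_not_dvd hp).mpr hm))
  · rw [← pow_mul, ← hkm, pow_orderOf_eq_one]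

/-- If S is a dihedral or generalized quaternion 2-group of order at least 16, then in every saturated fusion system over S (at the prime 2) the automorphism group Aut_F(S) consists of the inner automorphisms of S. -/
theorem result {Ω : Type*} [Group Ω] {S : Subgroup Ω} [Finite S] (n : ℕ) (hn : 4 ≤ n) (hshape : Nonempty (S ≃* DihedralGroup (2 ^ (n - 1))) ∨ Nonempty (S ≃* QuaternionGroup (2 ^ (n - 2)))) (F : Cfsg.FusionSystem S) (hF : F.IsSaturated 2) : F.autGroup S = Cfsg.Inn S := by
  haveI : Fact (Nat.Prime 2) := ⟨Nat.prime_two⟩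
  have hfin : Finite (MulAut S) :=
    Finite.of_injective (fun α : MulAut S => (α : S → S)) DFunLike.coe_injective
  -- Aut(S) is a 2-group
  have hAut : ∀ (β : MulAut S) (q : ℕ), q.Coprime 2 → β ^ q = 1 → β = 1 := by
    intro β q hq hβ
    rcases hshape with ⟨⟨e⟩⟩ | ⟨⟨e⟩⟩
    · have h1 : (MulAut.congr e β) ^ q = 1 := by rw [← map_pow, hβ, map_one]
      have h2 := dihedral_aut (n - 1) (by omega) _ q hq h1
      exact (MulAut.congr e).injective (by rw [h2, map_one])
    · have h1 : (MulAut.congr e β) ^ q = 1 := by rw [← map_pow, hβ, map_one]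
      have h2 := quaternion_aut (n - 2) (by omega) _ q hq h1
      exact (MulAut.congr e).injective (by rw [h2, map_one])
  have hp2 : IsPGroup 2 (MulAut S) := isPGroup_of_coprime_trivial hAut
  -- S is fully automized
  obtain ⟨Q, ⟨φ, hφ, hφQ⟩, ⟨hQS, Sy, hSy⟩, -⟩ := hF S le_rfl
  have hQ : Q = S := by
    apply Subgroup.eq_of_le_of_card_ge hQS
    rw [← hφQ]
    exact le_of_eq (Nat.card_congr (Equiv.ofInjective φ (F.injective_of_mem hφ)))
  subst hQ
  apply le_antisymm
  · intro α hα
    have htop : (⊤ : Subgroup (F.autGroup Q)) = Sy :=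
      Sy.3 ((hp2.to_subgroup _).to_subgroup ⊤) le_top
    have h1 : (⟨α, hα⟩ : F.autGroup Q) ∈ (Sy : Subgroup (F.autGroup Q)) := by
      rw [← htop]
      exact Subgroup.mem_top _
    rw [hSy, Subgroup.mem_subgroupOf] at h1
    have h2 : autInducedBy Q Q ≤ Cfsg.Inn Q := by
      rw [autInducedBy, Subgroup.closure_le]
      rintro γ ⟨g, hg, hγ⟩
      refine ⟨⟨g, hg⟩, ?_⟩
      ext x
      rw [hγ x]
      rfl
    exact h2 h1
  · rintro _ ⟨s, rfl⟩
    apply Subgroup.subset_closure
    show Q.subtype.comp (MulAut.conj s).toMonoidHom ∈ F.Hom Q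
    have h1 : conjHom Q (s : Ω) ∈ F.Hom Q := F.conj_mem le_rfl s.2
    have h2 : Q.subtype.comp (MulAut.conj s).toMonoidHom = conjHom Q (s : Ω) := by
      ext x
      rfl
    rw [h2]
    exact h1

end Cfsg.Agent.S5112
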