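import Cfsg.Statements.S0018
import Mathlib

set_option autoImplicit false
open Cfsg

namespace Cfsg.Agent.S0018

/-- a normal subgroup `N` of `G`, nilpotent, all of whose Sylow `q`-subgroups for `q ≠ p`
are trivial as soon as normal `p'`-subgroups of `G` are trivial, is a `p`-group -/
theorem isPGroup_of_nilpotent_normal {G : Type*} [Group G] [Finite G] (p : ℕ) [Fact p.Prime]
    (h : ∀ K : Subgroup G, K.Normal → (Nat.card K).Coprime p → K = ⊥)
    (N : Subgroup G) [hN : N.Normal] (hnil : Group.IsNilpotent N) : IsPGroup p N := by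
  have hnc : NormalizerCondition N := Group.normalizerCondition_of_isNilpotent
  have key : ∀ q : ℕ, q.Prime → q ∣ Nat.card N → q = p := by
    intro q hq hqd
    by_contra hqp
    have hqf : Fact q.Prime := ⟨hq⟩
    obtain Q : Sylow q N := default
    have hQn : (Q : Subgroup N).Normal := Sylow.normal_of_normalizerCondition hnc Q
    have hQc : (Q : Subgroup N).Characteristic := Sylow.characteristic_of_normal Q hQn
    have hQG : ((Q : Subgroup N).map N.subtype).Normal := inferInstance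
    have hcard : Nat.card ((Q : Subgroup N).map N.subtype) = Nat.card (Q : Subgroup N) :=
      Subgroup.card_map_of_injective N.subtype_injective
    obtain ⟨e, he⟩ := IsPGroup.iff_card.1 Q.2
    have hcop : (Nat.card ((Q : Subgroup N).map N.subtype)).Coprime p := by
      rw [hcard, he]
      exact Nat.Coprime.pow_left e ((Nat.coprime_primes hq Fact.out).2 hqp)
    have hbot := h _ hQG hcop
    have hQbot : (Q : Subgroup N) = ⊥ :=
      (Subgroup.map_eq_bot_iff_of_injective _ N.subtype_injective).1 hbot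
    exact Q.ne_bot_of_dvd_card hqd hQbot
  have hcardN : Nat.card N = p ^ (Nat.card N).primeFactorsList.length :=
    Nat.eq_prime_pow_of_unique_prime_dvd Nat.card_pos.ne' (fun {d} hd hdd => key d hd hdd)
  exact IsPGroup.of_card hcardN

theorem centralizer_pCore_le {G : Type*} [Group G] [Finite G] [Group.IsSolvable G] (p : ℕ) [Fact p.Prime]
    (h : Cfsg.pPrimeCore p G = ⊥) :
    Subgroup.centralizer (Cfsg.pCore p G : Set G) ≤ Cfsg.pCore p G := by
  by_contra hnot
  have hPn : (Cfsg.pCore p G).Normal := Subgroup.sSup_normal _ (fun _ h => h.1)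
  have hfin : {N : Subgroup G | N.Normal ∧ N ≤ Subgroup.centralizer (Cfsg.pCore p G : Set G) ∧
      ¬ N ≤ Cfsg.pCore p G}.Finite := Set.toFinite _
  obtain ⟨N, hN⟩ := hfin.exists_minimal
    ⟨Subgroup.centralizer (Cfsg.pCore p G : Set G), inferInstance, le_rfl, hnot⟩
  obtain ⟨⟨hNn, hNC, hNP⟩, hmin⟩ := hN
  have hNne : N ≠ ⊥ := fun h0 => hNP (h0 ▸ bot_le)
  have hder_ne : ⁅N, N⁆ ≠ N := by
    intro h1
    have : Nontrivial N := (Subgroup.nontrivial_iff_ne_bot N).2 hNne
    have hlt := Group.IsSolvable.commutator_lt_top_of_nontrivial (G := N)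
    have : (commutator N).map N.subtype = (⊤ : Subgroup N).map N.subtype := by
      rw [Subgroup.map_subtype_commutator, h1, ← MonoidHom.range_eq_map, Subgroup.range_subtype]
    exact hlt.ne (Subgroup.map_injective N.subtype_injective this)
  have hder_le : ⁅N, N⁆ ≤ N := Subgroup.commutator_le_self N
  have hderP : ⁅N, N⁆ ≤ Cfsg.pCore p G := by
    by_contra hnb
    have h1 : N ≤ ⁅N, N⁆ := hmin ⟨inferInstance, hder_le.trans hNC, hnb⟩ hder_le
    exact hder_ne (le_antisymm hder_le h1)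
  have hnil : Group.IsNilpotent N := by
    rw [Subgroup.isNilpotent_iff_lowerCentralSeries]
    refine ⟨2, ?_⟩
    show ⁅⁅N, N⁆, N⁆ = ⊥
    rw [Subgroup.commutator_eq_bot_iff_le_centralizer]
    intro z hz
    rw [Subgroup.mem_centralizer_iff]
    intro n hn
    exact (Subgroup.mem_centralizer_iff.1 (hNC hn) z (hderP hz)).symm
  have hpg : IsPGroup p N := by
    apply isPGroup_of_nilpotent_normal p _ N hnil
    intro K hK hKc
    have h1 : K ≤ Cfsg.pPrimeCore p G := le_sSup ⟨hK, hKc⟩
    rw [h] at h1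
    exact le_bot_iff.1 h1
  exact hNP (le_sSup ⟨hNn, hpg⟩)


theorem sSup_mem_of_sup_closed {G : Type*} [Group G] [Finite G] (S : Set (Subgroup G))
    (hne : S.Nonempty) (hsup : ∀ A ∈ S, ∀ B ∈ S, A ⊔ B ∈ S) : sSup S ∈ S := by
  obtain ⟨M, hM⟩ := (Set.toFinite S).exists_maximal hne
  have : sSup S = M := by
    apply le_antisymm
    · apply sSup_le
      intro N hN
      have h1 := hM.2 (hsup N hN M hM.1) le_sup_right
      exact le_sup_left.trans h1
    · exact le_sSup hM.1
  rw [this]; exact hM.1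

theorem pow_card_mul_card_eq_one {G : Type*} [Group G] [Finite G] (N₁ N₂ : Subgroup G)
    [N₂.Normal] (g : G) (hg : g ∈ N₁ ⊔ N₂) : g ^ (Nat.card N₁ * Nat.card N₂) = 1 := by
  have h1 : (QuotientGroup.mk' N₂) g ∈ N₁.map (QuotientGroup.mk' N₂) := by
    have h2 : (N₁ ⊔ N₂).map (QuotientGroup.mk' N₂) = N₁.map (QuotientGroup.mk' N₂) := by
      rw [Subgroup.map_sup]
      have : N₂.map (QuotientGroup.mk' N₂) = ⊥ := by
        rw [Subgroup.map_eq_bot_iff, QuotientGroup.ker_mk']
      rw [this, sup_bot_eq]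
    rw [← h2]
    exact Subgroup.mem_map_of_mem _ hg
  have h3 : ((QuotientGroup.mk' N₂) g) ^ Nat.card N₁ = 1 := by
    have h4 := pow_card_eq_one' (G := N₁.map (QuotientGroup.mk' N₂)) (x := ⟨_, h1⟩)
    have h5 : ((QuotientGroup.mk' N₂) g) ^ Nat.card (N₁.map (QuotientGroup.mk' N₂)) = 1 :=
      congrArg Subtype.val h4
    obtain ⟨c, hc⟩ := Subgroup.card_map_dvd N₁ (QuotientGroup.mk' N₂)
    rw [hc, pow_mul, h5, one_pow]
  have h6 : g ^ Nat.card N₁ ∈ N₂ := by
    rw [← map_pow] at h3
    exact (QuotientGroup.eq_one_iff _).1 h3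
  have h7 := pow_card_eq_one' (G := N₂) (x := ⟨_, h6⟩)
  rw [pow_mul]
  exact congrArg Subtype.val h7

theorem coprime_card_of_forall_pow {G : Type*} [Group G] [Finite G] (p : ℕ) [Fact p.Prime]
    (N : Subgroup G) (m : ℕ) (hm : m.Coprime p) (h : ∀ g ∈ N, g ^ m = 1) :
    (Nat.card N).Coprime p := by
  rw [Nat.coprime_comm, Nat.Prime.coprime_iff_not_dvd Fact.out]
  intro hd
  obtain ⟨x, hx⟩ := exists_prime_orderOf_dvd_card' (G := N) p hd
  have h1 : (x : G) ^ m = 1 := h x x.2
  have h2 : orderOf (x : G) ∣ m := orderOf_dvd_of_pow_eq_one h1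
  rw [Subgroup.orderOf_coe, hx] at h2
  exact (Nat.Prime.coprime_iff_not_dvd Fact.out).1 hm.symm h2

theorem pPrimeCore_spec {G : Type*} [Group G] [Finite G] (p : ℕ) [Fact p.Prime] :
    (Cfsg.pPrimeCore p G).Normal ∧ (Nat.card (Cfsg.pPrimeCore p G)).Coprime p := by
  apply sSup_mem_of_sup_closed {N : Subgroup G | N.Normal ∧ (Nat.card N).Coprime p}
  · refine ⟨⊥, inferInstance, ?_⟩
    simp
  · rintro A ⟨hAn, hAc⟩ B ⟨hBn, hBc⟩
    refine ⟨inferInstance, ?_⟩
    exact coprime_card_of_forall_pow p (A ⊔ B) _ (Nat.Coprime.mul_left hAc hBc)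
      (fun g hg => pow_card_mul_card_eq_one A B g hg)

theorem pCore_spec {G : Type*} [Group G] [Finite G] (p : ℕ) [Fact p.Prime] :
    (Cfsg.pCore p G).Normal ∧ IsPGroup p (Cfsg.pCore p G) := by
  apply sSup_mem_of_sup_closed {N : Subgroup G | N.Normal ∧ IsPGroup p N}
  · exact ⟨⊥, inferInstance, IsPGroup.of_bot⟩
  · rintro A ⟨hAn, hAc⟩ B ⟨hBn, hBc⟩
    exact ⟨inferInstance, hAc.to_sup_of_normal_right hBc⟩

/-- A finite solvable group whose Sylow p-subgroups are abelian has p-length one: a Sylow p-subgroup together with the largest normal subgroup of order prime to p generates a normal subgroup. -/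
theorem result {G : Type*} [Group G] [Finite G] [Group.IsSolvable G]
    (p : ℕ) [Fact p.Prime] (P : Sylow p G) (hP : IsMulCommutative P) :
    ((P : Subgroup G) ⊔ Cfsg.pPrimeCore p G).Normal := by
  obtain ⟨hKn, hKc⟩ := pPrimeCore_spec (G := G) p
  -- the quotient has trivial p'-core
  have hbar : Cfsg.pPrimeCore p (G ⧸ Cfsg.pPrimeCore p G) = ⊥ := by
    rw [eq_bot_iff]
    apply sSup_le
    rintro N ⟨hNn, hNc⟩
    have hcn : (N.comap (QuotientGroup.mk' (Cfsg.pPrimeCore p G))).Normal := inferInstance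
    have hcc : (Nat.card (N.comap (QuotientGroup.mk' (Cfsg.pPrimeCore p G)))).Coprime p := by
      apply coprime_card_of_forall_pow p _ (Nat.card N * Nat.card (Cfsg.pPrimeCore p G))
        (Nat.Coprime.mul_left hNc hKc)
      intro g hg
      have h1 : ((QuotientGroup.mk' (Cfsg.pPrimeCore p G)) g) ^ Nat.card N = 1 := by
        have h2 := pow_card_eq_one' (G := N) (x := ⟨_, hg⟩)
        exact congrArg Subtype.val h2
      have h3 : g ^ Nat.card N ∈ Cfsg.pPrimeCore p G := by
        rw [← map_pow] at h1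
        exact (QuotientGroup.eq_one_iff _).1 h1
      have h4 := pow_card_eq_one' (G := Cfsg.pPrimeCore p G) (x := ⟨_, h3⟩)
      rw [pow_mul]
      exact congrArg Subtype.val h4
    have hle : N.comap (QuotientGroup.mk' (Cfsg.pPrimeCore p G)) ≤ Cfsg.pPrimeCore p G :=
      le_sSup ⟨hcn, hcc⟩
    intro x hx
    obtain ⟨g, rfl⟩ := QuotientGroup.mk'_surjective (Cfsg.pPrimeCore p G) x
    have hg : g ∈ N.comap (QuotientGroup.mk' (Cfsg.pPrimeCore p G)) := hx
    rw [Subgroup.mem_bot]
    exact (QuotientGroup.eq_one_iff _).2 (hle hg)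
  have hcent := centralizer_pCore_le (G := G ⧸ Cfsg.pPrimeCore p G) p hbar
  obtain ⟨hRn, hRp⟩ := pCore_spec (G := G ⧸ Cfsg.pPrimeCore p G) p
  have hsurj := QuotientGroup.mk'_surjective (Cfsg.pPrimeCore p G)
  have hRP : Cfsg.pCore p (G ⧸ Cfsg.pPrimeCore p G) ≤
      (P : Subgroup G).map (QuotientGroup.mk' (Cfsg.pPrimeCore p G)) := by
    have := hRp.le_sylow_of_normal (P.mapSurjective hsurj)
    rwa [Sylow.coe_mapSurjective] at this
  have hPR : (P : Subgroup G).map (QuotientGroup.mk' (Cfsg.pPrimeCore p G)) ≤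
      Cfsg.pCore p (G ⧸ Cfsg.pPrimeCore p G) := by
    refine le_trans ?_ hcent
    intro x hx
    rw [Subgroup.mem_centralizer_iff]
    intro r hr
    have hab : IsMulCommutative ((P : Subgroup G).map (QuotientGroup.mk' (Cfsg.pPrimeCore p G))) :=
      Subgroup.map_isMulCommutative _ _
    have := isMulCommutative_iff.1 hab ⟨r, hRP hr⟩ ⟨x, hx⟩
    exact congrArg Subtype.val this
  have heq : (P : Subgroup G).map (QuotientGroup.mk' (Cfsg.pPrimeCore p G)) =
      Cfsg.pCore p (G ⧸ Cfsg.pPrimeCore p G) := le_antisymm hPR hRP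
  have hnorm : (((P : Subgroup G).map (QuotientGroup.mk' (Cfsg.pPrimeCore p G))).comap
      (QuotientGroup.mk' (Cfsg.pPrimeCore p G))).Normal := by
    rw [heq]; infer_instance
  rw [Subgroup.comap_map_eq, QuotientGroup.ker_mk'] at hnorm
  exact hnorm

end Cfsg.Agent.S0018
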