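import Cfsg.Statements.S0711
import Mathlib

set_option autoImplicit false
open Cfsg

namespace Cfsg.Agent.S0711

open Equiv

section
variable {α : Type*} [Fintype α] [DecidableEq α]

omit [Fintype α] [DecidableEq α] in
theorem perm_apply_inv (g : Perm α) (x : α) : g (g⁻¹ x) = x := g.apply_symm_apply x

omit [DecidableEq α] in
/-- extension of a partial injection in a multiply transitive group -/
theorem exists_perm_of_mt (G : Subgroup (Perm α)) {k : ℕ} (hkn : k ≤ Fintype.card α)
    (hG : MulAction.IsMultiplyPretransitive G α k) (s : Finset α) (hs : s.card ≤ k)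
    (f : α → α) (hf : Set.InjOn f s) : ∃ u ∈ G, ∀ x ∈ s, u x = f x := by
  have hG' : MulAction.IsMultiplyPretransitive G α s.card :=
    MulAction.isMultiplyPretransitive_of_le (n := k) hs (by rwa [Nat.card_eq_fintype_card])
  let e : Fin s.card ≃ s := s.equivFin.symm
  let x : Fin s.card ↪ α := ⟨fun i => (e i : α), fun i j h => e.injective (Subtype.ext h)⟩
  let y : Fin s.card ↪ α :=
    ⟨fun i => f (e i : α), fun i j h => e.injective (Subtype.ext (hf (e i).2 (e j).2 h))⟩
  obtain ⟨u, hu⟩ := hG'.exists_smul_eq x y
  refine ⟨u, u.2, fun a ha => ?_⟩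
  have h1 : (u • x) (e.symm ⟨a, ha⟩) = y (e.symm ⟨a, ha⟩) :=
    congrArg (fun t : Fin s.card ↪ α => t (e.symm ⟨a, ha⟩)) hu
  have h2 : (u • x) (e.symm ⟨a, ha⟩) = (u : Perm α) (x (e.symm ⟨a, ha⟩)) := rfl
  have h3 : x (e.symm ⟨a, ha⟩) = a := by
    change ((e (e.symm ⟨a, ha⟩) : s) : α) = a
    rw [Equiv.apply_symm_apply]
  have h4 : y (e.symm ⟨a, ha⟩) = f a := by
    change f ((e (e.symm ⟨a, ha⟩) : s) : α) = f a
    rw [Equiv.apply_symm_apply]
  rw [h2, h3, h4] at h1
  exact h1

theorem exists_almost_invariant (g : Perm α) (j : ℕ) (hj : j ≤ g.support.card) :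
    ∃ A : Finset α, A ⊆ g.support ∧ A.card = j ∧ (A.filter (fun y => g y ∉ A)).card ≤ 1 := by
  induction j with
  | zero => exact ⟨∅, Finset.empty_subset _, rfl, by simp⟩
  | succ j ih =>
    obtain ⟨A, hA, hAc, hE⟩ := ih (Nat.le_of_succ_le hj)
    by_cases hex : ∃ y0 ∈ A, g y0 ∉ A
    · obtain ⟨y0, hy0, hgy0⟩ := hex
      refine ⟨insert (g y0) A, ?_, ?_, ?_⟩
      · intro x hx
        rcases Finset.mem_insert.mp hx with rfl | h
        · exact Perm.apply_mem_support.mpr (hA hy0)
        · exact hA h
      · rw [Finset.card_insert_of_notMem hgy0, hAc]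
      · have hsub : (insert (g y0) A).filter (fun y => g y ∉ insert (g y0) A) ⊆ {g y0} := by
          intro y hy
          rw [Finset.mem_filter] at hy
          obtain ⟨hyA, hgy⟩ := hy
          rw [Finset.mem_singleton]
          rcases Finset.mem_insert.mp hyA with h | h
          · exact h
          · exfalso
            have hgyA : g y ∉ A := fun h' => hgy (Finset.mem_insert_of_mem h')
            have hyE : y ∈ A.filter (fun y => g y ∉ A) := Finset.mem_filter.mpr ⟨h, hgyA⟩
            have hy0E : y0 ∈ A.filter (fun y => g y ∉ A) := Finset.mem_filter.mpr ⟨hy0, hgy0⟩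
            have : y = y0 := Finset.card_le_one.mp hE y hyE y0 hy0E
            apply hgy; rw [this]; exact Finset.mem_insert_self _ _
        exact le_trans (Finset.card_le_card hsub) (by simp)
    · push Not at hex
      have hw : ∃ w ∈ g.support, w ∉ A := by
        by_contra hcon
        push Not at hcon
        have := Finset.card_le_card (show g.support ⊆ A from hcon)
        omega
      obtain ⟨w, hw, hwA⟩ := hw
      refine ⟨insert w A, ?_, ?_, ?_⟩
      · intro x hx
        rcases Finset.mem_insert.mp hx with rfl | h
        · exact hw
        · exact hA h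
      · rw [Finset.card_insert_of_notMem hwA, hAc]
      · have hsub : (insert w A).filter (fun y => g y ∉ insert w A) ⊆ {w} := by
          intro y hy
          rw [Finset.mem_filter] at hy
          obtain ⟨hyA, hgy⟩ := hy
          rw [Finset.mem_singleton]
          rcases Finset.mem_insert.mp hyA with h | h
          · exact h
          · exfalso
            exact hgy (Finset.mem_insert_of_mem (hex y h))
        exact le_trans (Finset.card_le_card hsub) (by simp)

theorem card_bound (g u : Perm α) (A I : Finset α) (hA : A ⊆ g.support) (hI : I ⊆ g.support)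
    (hIu : ∀ y ∈ I, u y ∈ g.support) (hu : ∀ y ∈ A, u y = y) :
    (g⁻¹ * u⁻¹ * g * u).support.card + I.card + A.card
      ≤ 2 * g.support.card + (A.filter (fun y => g y ∉ A)).card := by
  have hmem' : ∀ y, y ∈ (u⁻¹ * g * u).support ↔ u y ∈ g.support := by
    intro y
    rw [Perm.mem_support, Perm.mem_support, Perm.mul_apply, Perm.mul_apply]
    constructor
    · intro h h'
      apply h
      rw [h']
      exact u.symm_apply_apply y
    · intro h h'
      apply h
      have := congrArg u h'
      rwa [perm_apply_inv] at this
  have h1 : (g⁻¹ * u⁻¹ * g * u).support ⊆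
      (g.support ∪ (u⁻¹ * g * u).support) \ A.filter (fun y => g y ∈ A) := by
    intro y hy
    rw [Finset.mem_sdiff]
    constructor
    · have : g⁻¹ * u⁻¹ * g * u = g⁻¹ * (u⁻¹ * g * u) := by group
      rw [this] at hy
      have := Perm.support_mul_le _ _ hy
      rwa [Perm.support_inv] at this
    · intro hyA
      rw [Finset.mem_filter] at hyA
      rw [Perm.mem_support] at hy
      apply hy
      simp only [Perm.mul_apply]
      rw [hu y hyA.1]
      have : u⁻¹ (g y) = g y := by
        rw [Perm.inv_eq_iff_eq, hu _ hyA.2]
      rw [this]
      exact g.symm_apply_apply y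
  have h2 : I ⊆ g.support ∩ (u⁻¹ * g * u).support := by
    intro y hy
    rw [Finset.mem_inter]
    exact ⟨hI hy, (hmem' y).mpr (hIu y hy)⟩
  have h3 : A.filter (fun y => g y ∈ A) ⊆ g.support ∪ (u⁻¹ * g * u).support := by
    intro y hy
    exact Finset.mem_union_left _ (hA (Finset.mem_filter.mp hy).1)
  have h4 : (u⁻¹ * g * u).support.card = g.support.card := by
    have := Perm.card_support_conj (σ := u⁻¹) (τ := g)
    rwa [inv_inv] at this
  have h5 := Finset.card_filter_add_card_filter_not (s := A) (p := fun y => g y ∈ A)
  have h6 := Finset.card_union_add_card_inter g.support (u⁻¹ * g * u).support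
  have h7 := Finset.card_sdiff_of_subset h3
  have h8 := Finset.card_le_card h1
  have h9 := Finset.card_le_card h2
  have h10 := Finset.card_le_card h3
  omega

theorem reduce_step (G : Subgroup (Perm α)) {k : ℕ} (hkn : k ≤ Fintype.card α)
    (hG : MulAction.IsMultiplyPretransitive G α k) (g : Perm α) (hg : g ∈ G)
    (hm4 : 4 ≤ g.support.card) (hmk : g.support.card < 2 * k - 2)
    (hz : ∃ z, z ∉ g.support) :
    ∃ c ∈ G, c ≠ 1 ∧ c.support.card < g.support.card := by
  obtain ⟨z0, hz0⟩ := hz
  have hj : ∃ j, j ≤ k - 1 ∧ j + 1 ≤ g.support.card ∧ g.support.card < 2 * j ∧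
      (j + 1 = g.support.card ∨ j = k - 1) := by
    by_cases h : k - 1 ≤ g.support.card - 1
    · exact ⟨k - 1, le_refl _, by omega, by omega, Or.inr rfl⟩
    · exact ⟨g.support.card - 1, by omega, by omega, by omega, Or.inl (by omega)⟩
  obtain ⟨j, hj1, hj2, hj3, hj4⟩ := hj
  obtain ⟨A, hA, hAc, hE⟩ := exists_almost_invariant g j (by omega)
  have hcmem : ∀ u ∈ G, g⁻¹ * u⁻¹ * g * u ∈ G := fun u hu =>
    G.mul_mem (G.mul_mem (G.mul_mem (G.inv_mem hg) (G.inv_mem hu)) hg) hu
  by_cases hex : ∃ y0 ∈ A, g y0 ∉ A
  · obtain ⟨y0, hy0, hgy0⟩ := hex
    have hwΓ : g y0 ∈ g.support := Perm.apply_mem_support.mpr (hA hy0)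
    have hE1 : (A.filter (fun y => g y ∉ A)).card ≤ 1 := hE
    by_cases hz' : ∃ z ∈ g.support, z ∉ A ∧ z ≠ g y0
    · obtain ⟨z, hzΓ, hzA, hzw⟩ := hz'
      have hinj : Set.InjOn (fun a => if a = g y0 then z else a) (insert (g y0) A : Finset α) := by
        intro a ha b hb hab
        simp only [Finset.coe_insert, Set.mem_insert_iff, Finset.mem_coe] at ha hb
        simp only at hab
        by_cases h1 : a = g y0 <;> by_cases h2 : b = g y0
        · rw [h1, h2]
        · rw [if_pos h1, if_neg h2] at hab
          exact absurd (hab ▸ (hb.resolve_left h2)) hzA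
        · rw [if_neg h1, if_pos h2] at hab
          exact absurd (hab ▸ (ha.resolve_left h1)) hzA
        · rwa [if_neg h1, if_neg h2] at hab
      have hcard : (insert (g y0) A).card ≤ k := by
        rw [Finset.card_insert_of_notMem hgy0, hAc]; omega
      obtain ⟨u, huG, hu⟩ := exists_perm_of_mt G hkn hG _ hcard _ hinj
      have huw : u (g y0) = z := by
        have := hu (g y0) (Finset.mem_insert_self _ _)
        simpa using this
      have huA : ∀ y ∈ A, u y = y := by
        intro y hy
        have := hu y (Finset.mem_insert_of_mem hy)
        have hne : y ≠ g y0 := fun h => hgy0 (h ▸ hy)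
        simpa [hne] using this
      refine ⟨_, hcmem u huG, ?_, ?_⟩
      · intro hc
        have h1 := congrArg (fun σ : Perm α => σ y0) hc
        simp only [Perm.mul_apply, Perm.one_apply] at h1
        rw [huA y0 hy0] at h1
        have h2 : u⁻¹ (g y0) = g y0 := by
          have := congrArg g h1
          rwa [perm_apply_inv] at this
        rw [Perm.inv_eq_iff_eq, huw] at h2
        exact hzw h2.symm
      · have hb := card_bound g u A (insert (g y0) A) hA
          (by
            intro x hx
            rcases Finset.mem_insert.mp hx with rfl | h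
            · exact hwΓ
            · exact hA h)
          (by
            intro x hx
            rcases Finset.mem_insert.mp hx with rfl | h
            · rw [huw]; exact hzΓ
            · rw [huA x h]; exact hA h)
          huA
        rw [Finset.card_insert_of_notMem hgy0, hAc] at hb
        omega
    · push Not at hz'
      have hsub : g.support ⊆ insert (g y0) A := by
        intro x hx
        by_cases hxA : x ∈ A
        · exact Finset.mem_insert_of_mem hxA
        · rw [hz' x hx hxA]; exact Finset.mem_insert_self _ _
      have hcardΓ : g.support.card ≤ j + 1 := by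
        have := Finset.card_le_card hsub
        rwa [Finset.card_insert_of_notMem hgy0, hAc] at this
      have hinj : Set.InjOn (fun a => if a = g y0 then z0 else a) (insert (g y0) A : Finset α) := by
        intro a ha b hb hab
        simp only [Finset.coe_insert, Set.mem_insert_iff, Finset.mem_coe] at ha hb
        simp only at hab
        by_cases h1 : a = g y0 <;> by_cases h2 : b = g y0
        · rw [h1, h2]
        · rw [if_pos h1, if_neg h2] at hab
          exact absurd (hA (hab ▸ (hb.resolve_left h2))) hz0
        · rw [if_neg h1, if_pos h2] at hab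
          exact absurd (hA (hab ▸ (ha.resolve_left h1))) hz0
        · rwa [if_neg h1, if_neg h2] at hab
      have hcard : (insert (g y0) A).card ≤ k := by
        rw [Finset.card_insert_of_notMem hgy0, hAc]; omega
      obtain ⟨u, huG, hu⟩ := exists_perm_of_mt G hkn hG _ hcard _ hinj
      have huw : u (g y0) = z0 := by
        have := hu (g y0) (Finset.mem_insert_self _ _)
        simpa using this
      have huA : ∀ y ∈ A, u y = y := by
        intro y hy
        have := hu y (Finset.mem_insert_of_mem hy)
        have hne : y ≠ g y0 := fun h => hgy0 (h ▸ hy)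
        simpa [hne] using this
      refine ⟨_, hcmem u huG, ?_, ?_⟩
      · intro hc
        have h1 := congrArg (fun σ : Perm α => σ y0) hc
        simp only [Perm.mul_apply, Perm.one_apply] at h1
        rw [huA y0 hy0] at h1
        have h2 : u⁻¹ (g y0) = g y0 := by
          have := congrArg g h1
          rwa [perm_apply_inv] at this
        rw [Perm.inv_eq_iff_eq, huw] at h2
        exact hz0 (h2 ▸ hwΓ)
      · have hb := card_bound g u A A hA hA
          (by
            intro x hx
            rw [huA x hx]; exact hA hx)
          huA
        rw [hAc] at hb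
        omega
  · push Not at hex
    have hE0 : (A.filter (fun y => g y ∉ A)).card = 0 := by
      rw [Finset.card_eq_zero, Finset.filter_eq_empty_iff]
      intro y hy h
      exact h (hex y hy)
    have hw : ∃ w ∈ g.support, w ∉ A := by
      by_contra hcon
      push Not at hcon
      have := Finset.card_le_card (show g.support ⊆ A from hcon)
      omega
    obtain ⟨w, hwΓ, hwA⟩ := hw
    have hinj : Set.InjOn (fun a => if a = w then z0 else a) (insert w A : Finset α) := by
      intro a ha b hb hab
      simp only [Finset.coe_insert, Set.mem_insert_iff, Finset.mem_coe] at ha hb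
      simp only at hab
      by_cases h1 : a = w <;> by_cases h2 : b = w
      · rw [h1, h2]
      · rw [if_pos h1, if_neg h2] at hab
        exact absurd (hA (hab ▸ (hb.resolve_left h2))) hz0
      · rw [if_neg h1, if_pos h2] at hab
        exact absurd (hA (hab ▸ (ha.resolve_left h1))) hz0
      · rwa [if_neg h1, if_neg h2] at hab
    have hcard : (insert w A).card ≤ k := by
      rw [Finset.card_insert_of_notMem hwA, hAc]; omega
    obtain ⟨u, huG, hu⟩ := exists_perm_of_mt G hkn hG _ hcard _ hinj
    have huw : u w = z0 := by
      have := hu w (Finset.mem_insert_self _ _)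
      simpa using this
    have huA : ∀ y ∈ A, u y = y := by
      intro y hy
      have := hu y (Finset.mem_insert_of_mem hy)
      have hne : y ≠ w := fun h => hwA (h ▸ hy)
      simpa [hne] using this
    refine ⟨_, hcmem u huG, ?_, ?_⟩
    · intro hc
      have h1 := congrArg (fun σ : Perm α => σ w) hc
      simp only [Perm.mul_apply, Perm.one_apply] at h1
      rw [huw] at h1
      have hgz : g z0 = z0 := by
        by_contra h
        exact hz0 (Perm.mem_support.mpr h)
      rw [hgz] at h1
      have h2 : u⁻¹ z0 = g w := by
        have := congrArg g h1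
        rwa [perm_apply_inv] at this
      rw [Perm.inv_eq_iff_eq] at h2
      have h3 : u w = u (g w) := by rw [huw]; exact h2
      have h4 : w = g w := u.injective h3
      exact (Perm.mem_support.mp hwΓ) h4.symm
    · have hb := card_bound g u A A hA hA
        (by
          intro x hx
          rw [huA x hx]; exact hA hx)
        huA
      rw [hAc, hE0] at hb
      omega

theorem small_support (G : Subgroup (Perm α)) {k : ℕ} (hk : 3 ≤ k) (hkn : k ≤ Fintype.card α)
    (hG : MulAction.IsMultiplyPretransitive G α k) (m : ℕ) :
    ∀ g : Perm α, g ∈ G → g ≠ 1 → g.support.card = m → m < 2 * k - 2 →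
    ∃ h : Perm α, h ∈ G ∧ h ≠ 1 ∧ h.support.card ≤ 3 := by
  induction m using Nat.strong_induction_on with
  | _ m ih =>
    intro g hg hg1 hgm hmk
    by_cases hm3 : m ≤ 3
    · exact ⟨g, hg, hg1, by omega⟩
    · by_cases hz : ∃ z, z ∉ g.support
      · obtain ⟨c, hc, hc1, hcm⟩ := reduce_step G hkn hG g hg (by omega) (by omega) hz
        exact ih c.support.card (by omega) c hc hc1 rfl (by omega)
      · push Not at hz
        -- `g` has full support: find an element with a fixed point
        have hcard3 : 2 < Fintype.card α := by omega
        obtain ⟨a, b, c, hab, hac, hbc⟩ := Fintype.two_lt_card_iff.mp hcard3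
        have hinj : Set.InjOn (fun x => if x = b then c else x) (({a, b} : Finset α) : Set α) := by
          intro x hx y hy hxy
          simp only [Finset.coe_insert, Finset.coe_singleton, Set.mem_insert_iff,
            Set.mem_singleton_iff] at hx hy
          simp only at hxy
          rcases hx with rfl | rfl <;> rcases hy with rfl | rfl
          · rfl
          · rw [if_neg hab, if_pos rfl] at hxy; exact absurd hxy hac
          · rw [if_pos rfl, if_neg hab] at hxy; exact absurd hxy.symm hac
          · rfl
        have hcard : ({a, b} : Finset α).card ≤ k := by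
          rw [Finset.card_pair hab]; omega
        obtain ⟨u, huG, hu⟩ := exists_perm_of_mt G hkn hG _ hcard _ hinj
        have hua : u a = a := by
          have := hu a (by simp)
          simpa [hab] using this
        have hub : u b = c := by
          have := hu b (by simp)
          simpa using this
        have hu1 : u ≠ 1 := by
          rintro rfl
          rw [Perm.one_apply] at hub
          exact hbc hub
        have hsupp : u.support.card < m := by
          have h1 : u.support ⊆ Finset.univ.erase a := by
            intro x hx
            rw [Finset.mem_erase]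
            refine ⟨?_, Finset.mem_univ _⟩
            rintro rfl
            exact (Perm.mem_support.mp hx) hua
          have h2 := Finset.card_le_card h1
          rw [Finset.card_erase_of_mem (Finset.mem_univ a), Finset.card_univ] at h2
          have h3 : g.support = Finset.univ := Finset.eq_univ_iff_forall.mpr hz
          rw [h3, Finset.card_univ] at hgm
          omega
        exact ih u.support.card hsupp u huG hu1 rfl (by omega)

end

/-- A `k`-transitive permutation group (`k ≥ 3`) with a non-identity element of support smaller than `2k - 2` contains a non-identity element of support at most 3, and therefore contains the alternating group. -/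
theorem result {α : Type*} [Fintype α] [DecidableEq α] (G : Subgroup (Equiv.Perm α)) {k : ℕ} (hk : 3 ≤ k) (hkn : k ≤ Fintype.card α) (hG : MulAction.IsMultiplyPretransitive G α k) (g : Equiv.Perm α) (hg : g ∈ G) (hg1 : g ≠ 1) (hsupp : g.support.card < 2 * k - 2) : (∃ h : Equiv.Perm α, h ∈ G ∧ h ≠ 1 ∧ h.support.card ≤ 3) ∧ alternatingGroup α ≤ G := by
  obtain ⟨h, hhG, hh1, hh3⟩ := small_support G hk hkn hG _ g hg hg1 rfl hsupp
  refine ⟨⟨h, hhG, hh1, hh3⟩, ?_⟩
  have h2 : MulAction.IsMultiplyPretransitive G α 2 :=
    MulAction.isMultiplyPretransitive_of_le (n := k) (by omega)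
      (by rwa [Nat.card_eq_fintype_card])
  have hprim : MulAction.IsPreprimitive G α := MulAction.isPreprimitive_of_is_two_pretransitive h2
  have h2le := Perm.two_le_card_support_of_ne_one hh1
  rcases Nat.lt_or_ge h.support.card 3 with h3 | h3
  · have hswap : h.IsSwap := Perm.card_support_eq_two.mp (by omega)
    have := Perm.subgroup_eq_top_of_isPreprimitive_of_isSwap_mem hprim h hswap hhG
    rw [this]; exact le_top
  · have h3c : h.IsThreeCycle := _root_.card_support_eq_three_iff.mp (by omega)
    exact Perm.alternatingGroup_le_of_isPreprimitive_of_isThreeCycle_mem hprim h3c hhG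

end Cfsg.Agent.S0711
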