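import Cfsg.Statements.S0254
import Mathlib
import Cfsg.Agent.Lib.Helper6.Ord60
import Cfsg.Agent.Lib.Helper6.PSLCard
import Cfsg.Agent.Lib.Helper47.SLGen

set_option autoImplicit false
open Cfsg

namespace Cfsg.Agent.S0254

open Matrix

/-- the field with nine elements, `F_3[w]` with `w^2 = -1` -/
abbrev F9 : Type := QuadraticAlgebra (ZMod 3) 2 0

/-- `2 × 2` matrices over `F9` -/
abbrev M9 : Type := Matrix (Fin 2) (Fin 2) F9

/-- `SL_2(9)` -/
abbrev S9 : Type := Matrix.SpecialLinearGroup (Fin 2) F9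

instance factF9 : Fact (∀ r : ZMod 3, r ^ 2 ≠ 2 + 0 * r) := ⟨by decide⟩

instance fintypeF9 : Fintype F9 :=
  Fintype.ofEquiv _ (QuadraticAlgebra.equivProd (2 : ZMod 3) 0).symm

theorem card_F9 : Fintype.card F9 = 9 := by
  rw [Fintype.card_congr (QuadraticAlgebra.equivProd (2 : ZMod 3) 0)]
  rfl

/-! Elements of `F9` are coded by `0..8` (`x + 3 y` for `x + y w`), matrices by base-9 numbers. -/

def MULT : ℕ := 134933521601014739983835492958995385744646755219336662194622111016280497100512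

def ADDT : ℕ := 96051920073429517465643282160833405478053728016721738867077621179668491191620

def objs : Fin 6 → List ℕ :=
  ![
    [1728, 1998, 1629, 6024, 6330, 3867, 3903, 973, 1216, 757, 784, 5620, 3220, 272, 542, 101, 4487, 4883, 2330, 2456],
    [1728, 1998, 1557, 5970, 6096, 3759, 4155, 973, 1216, 757, 784, 5404, 3436, 272, 542, 173, 4595, 4631, 2384, 2690],
    [1728, 1629, 1557, 6024, 6096, 3759, 3903, 811, 892, 739, 748, 5287, 3013, 542, 173, 101, 4595, 4883, 2330, 2690],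
    [1998, 1629, 1557, 5970, 6330, 3867, 4155, 811, 892, 739, 748, 5197, 3103, 272, 173, 101, 4487, 4631, 2384, 2456],
    [6024, 5970, 3759, 3867, 973, 1216, 739, 748, 5620, 5404, 5197, 5287, 3436, 3220, 3013, 3103, 4487, 4595, 2384, 2330],
    [6330, 6096, 3903, 4155, 811, 892, 757, 784, 5620, 5404, 5197, 5287, 3436, 3220, 3013, 3103, 4631, 4883, 2690, 2456] ]

/-- coded multiplication of `F9` -/
def mulF (a b : ℕ) : ℕ := MULT / 9 ^ (9 * a + b) % 9

/-- coded addition of `F9` -/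
def addF (a b : ℕ) : ℕ := ADDT / 9 ^ (9 * a + b) % 9

/-- evaluate the argument first -/
def force {α : Type} (x : ℕ) (f : ℕ → α) : α := Nat.rec (f 0) (fun n _ => f (n + 1)) x

theorem force_eq {α : Type} (x : ℕ) (f : ℕ → α) : force x f = f x := by
  cases x <;> rfl

/-- coded matrix multiplication -/
def mulM (m n : ℕ) : ℕ :=
  force m fun m => force n fun n =>
    addF (mulF (m % 9) (n % 9)) (mulF (m / 9 % 9) (n / 81 % 9)) +
    9 * addF (mulF (m % 9) (n / 9 % 9)) (mulF (m / 9 % 9) (n / 729 % 9)) +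
    81 * addF (mulF (m / 81 % 9) (n % 9)) (mulF (m / 729 % 9) (n / 81 % 9)) +
    729 * addF (mulF (m / 81 % 9) (n / 9 % 9)) (mulF (m / 729 % 9) (n / 729 % 9))

/-- coded conjugation -/
def conjM (g g' m : ℕ) : ℕ := mulM (mulM g m) g'

/-- membership test -/
def memN (x : ℕ) (l : List ℕ) : Bool := force x fun x => l.contains x

/-- the generators (elementary matrices) with their inverses -/
def gens : List (ℕ × ℕ) := [(739, 748), (757, 784), (811, 892), (973, 1216)]

set_option maxRecDepth 1000000 in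
theorem D2 : ∀ p ∈ gens, ∀ k : Fin 6, ∃ k' : Fin 6,
    (∀ A ∈ objs k, memN (conjM p.1 p.2 A) (objs k') = true) ∧
    (∀ B ∈ objs k', memN (conjM p.2 p.1 B) (objs k) = true) := by decide +kernel

set_option maxRecDepth 1000000 in
theorem D3 : ∀ k k' : Fin 6, k = k' ∨ ∃ A ∈ objs k, memN A (objs k') = false := by
  decide +kernel

set_option maxRecDepth 1000000 in
theorem D4 : ∃ k : Fin 6, ∃ A ∈ objs k, memN (conjM 739 748 A) (objs k) = false := by
  decide +kernel

set_option maxRecDepth 1000000 in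
theorem D6 : ∀ k : Fin 6, ∀ A ∈ objs k, A < 6561 := by decide +kernel

theorem D5 : ∀ c : F9, ∃ a b : Fin 3, c = a.val • (1 : F9) + b.val • (⟨0, 1⟩ : F9) := by decide

theorem memN_iff (x : ℕ) (l : List ℕ) : memN x l = true ↔ x ∈ l := by
  simp [memN, force_eq]

/-- decoding of field elements -/
def f9 (e : ℕ) : F9 := ⟨((e % 3 : ℕ) : ZMod 3), ((e / 3 % 3 : ℕ) : ZMod 3)⟩

/-- decoding of matrices -/
def dec (m : ℕ) : M9 := !![f9 (m % 9), f9 (m / 9 % 9); f9 (m / 81 % 9), f9 (m / 729 % 9)]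

theorem f9_mulF : ∀ a < 9, ∀ b < 9, f9 (mulF a b) = f9 a * f9 b := by decide +kernel

theorem f9_addF : ∀ a < 9, ∀ b < 9, f9 (addF a b) = f9 a + f9 b := by decide +kernel

theorem f9_inj : ∀ a < 9, ∀ b < 9, f9 a = f9 b → a = b := by decide +kernel

theorem dec_apply00 (m : ℕ) : dec m 0 0 = f9 (m % 9) := rfl
theorem dec_apply01 (m : ℕ) : dec m 0 1 = f9 (m / 9 % 9) := rfl
theorem dec_apply10 (m : ℕ) : dec m 1 0 = f9 (m / 81 % 9) := rfl
theorem dec_apply11 (m : ℕ) : dec m 1 1 = f9 (m / 729 % 9) := rfl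

theorem mulM_eq (m n : ℕ) : mulM m n =
    addF (mulF (m % 9) (n % 9)) (mulF (m / 9 % 9) (n / 81 % 9)) +
    9 * addF (mulF (m % 9) (n / 9 % 9)) (mulF (m / 9 % 9) (n / 729 % 9)) +
    81 * addF (mulF (m / 81 % 9) (n % 9)) (mulF (m / 729 % 9) (n / 81 % 9)) +
    729 * addF (mulF (m / 81 % 9) (n / 9 % 9)) (mulF (m / 729 % 9) (n / 729 % 9)) := by
  unfold mulM
  rw [force_eq, force_eq]

theorem addF_lt (a b : ℕ) : addF a b < 9 := Nat.mod_lt _ (by norm_num)

theorem mulF_lt (a b : ℕ) : mulF a b < 9 := Nat.mod_lt _ (by norm_num)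

theorem mulM_lt (m n : ℕ) : mulM m n < 6561 := by
  rw [mulM_eq]
  have h1 := addF_lt (mulF (m % 9) (n % 9)) (mulF (m / 9 % 9) (n / 81 % 9))
  have h2 := addF_lt (mulF (m % 9) (n / 9 % 9)) (mulF (m / 9 % 9) (n / 729 % 9))
  have h3 := addF_lt (mulF (m / 81 % 9) (n % 9)) (mulF (m / 729 % 9) (n / 81 % 9))
  have h4 := addF_lt (mulF (m / 81 % 9) (n / 9 % 9)) (mulF (m / 729 % 9) (n / 729 % 9))
  omega

theorem dec_mulM (m n : ℕ) : dec (mulM m n) = dec m * dec n := by
  have h9 : ∀ k : ℕ, k % 9 < 9 := fun k => Nat.mod_lt _ (by norm_num)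
  rw [mulM_eq]
  have h1 := addF_lt (mulF (m % 9) (n % 9)) (mulF (m / 9 % 9) (n / 81 % 9))
  have h2 := addF_lt (mulF (m % 9) (n / 9 % 9)) (mulF (m / 9 % 9) (n / 729 % 9))
  have h3 := addF_lt (mulF (m / 81 % 9) (n % 9)) (mulF (m / 729 % 9) (n / 81 % 9))
  have h4 := addF_lt (mulF (m / 81 % 9) (n / 9 % 9)) (mulF (m / 729 % 9) (n / 729 % 9))
  generalize he1 : addF (mulF (m % 9) (n % 9)) (mulF (m / 9 % 9) (n / 81 % 9)) = e1 at h1 ⊢
  generalize he2 : addF (mulF (m % 9) (n / 9 % 9)) (mulF (m / 9 % 9) (n / 729 % 9)) = e2 at h2 ⊢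
  generalize he3 : addF (mulF (m / 81 % 9) (n % 9)) (mulF (m / 729 % 9) (n / 81 % 9)) = e3 at h3 ⊢
  generalize he4 : addF (mulF (m / 81 % 9) (n / 9 % 9)) (mulF (m / 729 % 9) (n / 729 % 9)) = e4
    at h4 ⊢
  have d1 : (e1 + 9 * e2 + 81 * e3 + 729 * e4) % 9 = e1 := by omega
  have d2 : (e1 + 9 * e2 + 81 * e3 + 729 * e4) / 9 % 9 = e2 := by omega
  have d3 : (e1 + 9 * e2 + 81 * e3 + 729 * e4) / 81 % 9 = e3 := by omega
  have d4 : (e1 + 9 * e2 + 81 * e3 + 729 * e4) / 729 % 9 = e4 := by omega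
  refine Matrix.ext fun i j => ?_
  fin_cases i <;> fin_cases j
  · show dec _ 0 0 = (dec m * dec n) 0 0
    rw [dec_apply00, d1, Matrix.mul_apply, Fin.sum_univ_two, dec_apply00, dec_apply01,
      dec_apply00, dec_apply10, ← he1, f9_addF _ (mulF_lt _ _) _ (mulF_lt _ _),
      f9_mulF _ (h9 _) _ (h9 _), f9_mulF _ (h9 _) _ (h9 _)]
  · show dec _ 0 1 = (dec m * dec n) 0 1
    rw [dec_apply01, d2, Matrix.mul_apply, Fin.sum_univ_two, dec_apply00, dec_apply01,
      dec_apply01, dec_apply11, ← he2, f9_addF _ (mulF_lt _ _) _ (mulF_lt _ _),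
      f9_mulF _ (h9 _) _ (h9 _), f9_mulF _ (h9 _) _ (h9 _)]
  · show dec _ 1 0 = (dec m * dec n) 1 0
    rw [dec_apply10, d3, Matrix.mul_apply, Fin.sum_univ_two, dec_apply10, dec_apply11,
      dec_apply00, dec_apply10, ← he3, f9_addF _ (mulF_lt _ _) _ (mulF_lt _ _),
      f9_mulF _ (h9 _) _ (h9 _), f9_mulF _ (h9 _) _ (h9 _)]
  · show dec _ 1 1 = (dec m * dec n) 1 1
    rw [dec_apply11, d4, Matrix.mul_apply, Fin.sum_univ_two, dec_apply10, dec_apply11,
      dec_apply01, dec_apply11, ← he4, f9_addF _ (mulF_lt _ _) _ (mulF_lt _ _),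
      f9_mulF _ (h9 _) _ (h9 _), f9_mulF _ (h9 _) _ (h9 _)]

theorem dec_inj (m n : ℕ) (hm : m < 6561) (hn : n < 6561) (h : dec m = dec n) : m = n := by
  have h9 : ∀ k : ℕ, k % 9 < 9 := fun k => Nat.mod_lt _ (by norm_num)
  have h00 := congrFun (congrFun h 0) 0
  have h01 := congrFun (congrFun h 0) 1
  have h10 := congrFun (congrFun h 1) 0
  have h11 := congrFun (congrFun h 1) 1
  rw [dec_apply00, dec_apply00] at h00
  rw [dec_apply01, dec_apply01] at h01
  rw [dec_apply10, dec_apply10] at h10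
  rw [dec_apply11, dec_apply11] at h11
  have e1 := f9_inj _ (h9 _) _ (h9 _) h00
  have e2 := f9_inj _ (h9 _) _ (h9 _) h01
  have e3 := f9_inj _ (h9 _) _ (h9 _) h10
  have e4 := f9_inj _ (h9 _) _ (h9 _) h11
  omega

theorem dec_conjM (g g' m : ℕ) : dec (conjM g g' m) = dec g * dec m * dec g' := by
  unfold conjM
  rw [dec_mulM, dec_mulM]

theorem dec_gen :
    dec 739 = 1 + Matrix.single 0 1 (1 : F9) ∧ dec 748 = 1 + Matrix.single 0 1 (-1 : F9) ∧
    dec 757 = 1 + Matrix.single 0 1 (⟨0, 1⟩ : F9) ∧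
    dec 784 = 1 + Matrix.single 0 1 (-⟨0, 1⟩ : F9) ∧
    dec 811 = 1 + Matrix.single 1 0 (1 : F9) ∧ dec 892 = 1 + Matrix.single 1 0 (-1 : F9) ∧
    dec 973 = 1 + Matrix.single 1 0 (⟨0, 1⟩ : F9) ∧
    dec 1216 = 1 + Matrix.single 1 0 (-⟨0, 1⟩ : F9) := by decide +kernel

/-- the action on sets of matrices by conjugation -/
def act (g : S9) (s : Finset M9) : Finset M9 := s.image (fun M => g.1 * M * (g⁻¹).1)

theorem act_one (s : Finset M9) : act 1 s = s := by
  unfold act
  have hid : (fun M : M9 => (1 : S9).1 * M * ((1 : S9)⁻¹).1) = id := by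
    funext M
    rw [inv_one]
    show (1 : M9) * M * (1 : M9) = M
    rw [Matrix.one_mul, Matrix.mul_one]
  rw [hid, Finset.image_id]

theorem act_mul (g h : S9) (s : Finset M9) : act (g * h) s = act g (act h s) := by
  unfold act
  rw [Finset.image_image]
  refine Finset.image_congr ?_
  intro M _
  show (g * h).1 * M * ((g * h)⁻¹).1 = g.1 * (h.1 * M * (h⁻¹).1) * (g⁻¹).1
  rw [_root_.mul_inv_rev]
  show g.1 * h.1 * M * ((h⁻¹).1 * (g⁻¹).1) = g.1 * (h.1 * M * (h⁻¹).1) * (g⁻¹).1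
  simp only [Matrix.mul_assoc]

theorem act_injective (g : S9) : Function.Injective (act g) := by
  intro s t h
  have := congrArg (act g⁻¹) h
  rwa [← act_mul, ← act_mul, inv_mul_cancel, act_one, act_one] at this

/-- the six sets of matrices -/
def sF (k : Fin 6) : Finset M9 := ((objs k).map dec).toFinset

theorem mem_sF (k : Fin 6) (M : M9) : M ∈ sF k ↔ ∃ A ∈ objs k, dec A = M := by
  simp [sF]

/-- the family of the six sets -/
def L : Finset (Finset M9) := Finset.univ.image sF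

theorem sF_injective : Function.Injective sF := by
  intro k k' h
  rcases D3 k k' with hk | ⟨A, hA, hA'⟩
  · exact hk
  · exfalso
    have h1 : dec A ∈ sF k := (mem_sF k _).mpr ⟨A, hA, rfl⟩
    rw [h] at h1
    obtain ⟨B, hB, hBA⟩ := (mem_sF k' _).mp h1
    have hBA' : B = A := dec_inj B A (D6 k' B hB) (D6 k A hA) hBA
    rw [hBA'] at hB
    have := (memN_iff A (objs k')).mpr hB
    rw [hA'] at this
    exact Bool.false_ne_true this

theorem card_L : Fintype.card {s // s ∈ L} = 6 := by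
  rw [Fintype.card_coe, L, Finset.card_image_of_injective _ sF_injective]
  rfl

theorem act_eq (g : S9) (p q : ℕ) (hp : dec p = g.1) (hq : dec q = (g⁻¹).1) (k k' : Fin 6)
    (h1 : ∀ A ∈ objs k, memN (conjM p q A) (objs k') = true)
    (h2 : ∀ B ∈ objs k', memN (conjM q p B) (objs k) = true) : act g (sF k) = sF k' := by
  have hgg : g.1 * (g⁻¹).1 = 1 := congrArg Subtype.val (mul_inv_cancel g)
  ext M
  constructor
  · intro hM
    obtain ⟨N, hN, rfl⟩ := Finset.mem_image.mp hM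
    obtain ⟨A, hA, rfl⟩ := (mem_sF k N).mp hN
    rw [mem_sF]
    exact ⟨conjM p q A, (memN_iff _ _).mp (h1 A hA), by rw [dec_conjM, hp, hq]⟩
  · intro hM
    obtain ⟨B, hB, rfl⟩ := (mem_sF k' M).mp hM
    refine Finset.mem_image.mpr ⟨dec (conjM q p B), ?_, ?_⟩
    · rw [mem_sF]
      exact ⟨conjM q p B, (memN_iff _ _).mp (h2 B hB), rfl⟩
    · rw [dec_conjM, hp, hq]
      calc g.1 * ((g⁻¹).1 * dec B * g.1) * (g⁻¹).1
          = (g.1 * (g⁻¹).1) * dec B * (g.1 * (g⁻¹).1) := by simp only [Matrix.mul_assoc]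
        _ = dec B := by rw [hgg, Matrix.one_mul, Matrix.mul_one]

/-- the subgroup preserving the family -/
def stabL : Subgroup S9 where
  carrier := {g | ∀ s ∈ L, act g s ∈ L}
  mul_mem' := by
    intro a b ha hb s hs
    rw [act_mul]
    exact ha _ (hb s hs)
  one_mem' := by
    intro s hs
    rwa [act_one]
  inv_mem' := by
    intro a ha s hs
    have himg : L.image (act a) = L := by
      apply Finset.eq_of_subset_of_card_le
      · intro t ht
        obtain ⟨s', hs', rfl⟩ := Finset.mem_image.mp ht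
        exact ha s' hs'
      · rw [Finset.card_image_of_injective _ (act_injective a)]
    have hs2 : s ∈ L.image (act a) := by
      rw [himg]
      exact hs
    obtain ⟨s', hs', rfl⟩ := Finset.mem_image.mp hs2
    rw [← act_mul, inv_mul_cancel, act_one]
    exact hs'

theorem gen_mem (g : S9) (p : ℕ × ℕ) (hp : p ∈ gens) (h1 : dec p.1 = g.1)
    (h2 : dec p.2 = (g⁻¹).1) : g ∈ stabL := by
  intro s hs
  obtain ⟨k, -, rfl⟩ := Finset.mem_image.mp hs
  obtain ⟨k', hk1, hk2⟩ := D2 p hp k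
  rw [act_eq g p.1 p.2 h1 h2 k k' hk1 hk2]
  exact Finset.mem_image_of_mem _ (Finset.mem_univ _)

theorem transv_mem_aux (i j : Fin 2) (hij : i ≠ j) (p q : ℕ × ℕ) (hp : p ∈ gens) (hq : q ∈ gens)
    (h1 : dec p.1 = 1 + Matrix.single i j (1 : F9))
    (h1' : dec p.2 = 1 + Matrix.single i j (-1 : F9))
    (hw : dec q.1 = 1 + Matrix.single i j (⟨0, 1⟩ : F9))
    (hw' : dec q.2 = 1 + Matrix.single i j (-⟨0, 1⟩ : F9)) :
    ∀ c : F9, SpecialLinearGroup.transvection hij c ∈ stabL := by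
  let K : AddSubgroup F9 :=
    { carrier := {c | SpecialLinearGroup.transvection hij c ∈ stabL}
      zero_mem' := by
        rw [Set.mem_ofPred_eq, SpecialLinearGroup.transvection_coeff_zero]
        exact stabL.one_mem
      add_mem' := fun {a b} ha hb => by
        rw [Set.mem_ofPred_eq, SpecialLinearGroup.transvection_add]
        exact stabL.mul_mem ha hb
      neg_mem' := fun {a} ha => by
        rw [Set.mem_ofPred_eq, ← SpecialLinearGroup.transvection_inv]
        exact stabL.inv_mem ha }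
  have k1 : (1 : F9) ∈ K := by
    refine gen_mem _ p hp ?_ ?_
    · rw [h1]; rfl
    · rw [h1', SpecialLinearGroup.transvection_inv]; rfl
  have kw : (⟨0, 1⟩ : F9) ∈ K := by
    refine gen_mem _ q hq ?_ ?_
    · rw [hw]; rfl
    · rw [hw', SpecialLinearGroup.transvection_inv]; rfl
  intro c
  obtain ⟨a, b, rfl⟩ := D5 c
  exact K.add_mem (K.nsmul_mem k1 _) (K.nsmul_mem kw _)

theorem transv_mem (i j : Fin 2) (hij : i ≠ j) (c : F9) :
    SpecialLinearGroup.transvection hij c ∈ stabL := by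
  obtain ⟨g1, g2, g3, g4, g5, g6, g7, g8⟩ := dec_gen
  have hcases : (i = 0 ∧ j = 1) ∨ (i = 1 ∧ j = 0) := by
    revert hij
    revert i j
    decide
  rcases hcases with ⟨rfl, rfl⟩ | ⟨rfl, rfl⟩
  · exact transv_mem_aux 0 1 hij (739, 748) (757, 784) (by simp [gens]) (by simp [gens])
      g1 g2 g3 g4 c
  · exact transv_mem_aux 1 0 hij (811, 892) (973, 1216) (by simp [gens]) (by simp [gens])
      g5 g6 g7 g8 c

theorem stabL_eq_top : stabL = ⊤ :=
  Cfsg.Agent.Lib.Helper47.eq_top_of_transvection_mem stabL transv_mem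

theorem inv_all (g : S9) (s : Finset M9) (hs : s ∈ L) : act g s ∈ L := by
  have : g ∈ stabL := by rw [stabL_eq_top]; trivial
  exact this s hs

/-- the action on the six sets -/
def actL : MulAction S9 {s // s ∈ L} where
  smul g s := ⟨act g s.1, inv_all g s.1 s.2⟩
  one_smul s := Subtype.ext (act_one s.1)
  mul_smul g h s := Subtype.ext (act_mul g h s.1)

/-- the permutation representation on the six sets -/
def phi : S9 →* Equiv.Perm {s // s ∈ L} := @MulAction.toPermHom S9 {s // s ∈ L} _ actL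

theorem phi_apply (g : S9) (s : {s // s ∈ L}) : (phi g s).1 = act g s.1 := rfl

theorem phi_eq_one_of_comm (g : S9) (hg : ∀ M : M9, g.1 * M = M * g.1) : phi g = 1 := by
  refine Equiv.ext fun s => Subtype.ext ?_
  rw [phi_apply]
  show act g s.1 = s.1
  unfold act
  have hgg : g.1 * (g⁻¹).1 = 1 := congrArg Subtype.val (mul_inv_cancel g)
  have hid : (fun M : M9 => g.1 * M * (g⁻¹).1) = id := by
    funext M
    rw [hg, Matrix.mul_assoc, hgg, Matrix.mul_one]
    rfl
  rw [hid, Finset.image_id]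

theorem phi_ne_one : phi (SpecialLinearGroup.transvection (zero_ne_one : (0 : Fin 2) ≠ 1) 1) ≠ 1 := by
  obtain ⟨g1, g2, -⟩ := dec_gen
  obtain ⟨k, A, hA, hAk⟩ := D4
  intro h
  have hs : sF k ∈ L := Finset.mem_image_of_mem _ (Finset.mem_univ _)
  have h1 := phi_apply (SpecialLinearGroup.transvection (zero_ne_one : (0 : Fin 2) ≠ 1) 1)
    ⟨sF k, hs⟩
  rw [h] at h1
  have h2 : dec (conjM 739 748 A) ∈
      act (SpecialLinearGroup.transvection (zero_ne_one : (0 : Fin 2) ≠ 1) 1) (sF k) := by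
    refine Finset.mem_image.mpr ⟨dec A, (mem_sF k _).mpr ⟨A, hA, rfl⟩, ?_⟩
    rw [dec_conjM, g1, g2, SpecialLinearGroup.transvection_inv]
    rfl
  rw [← h1] at h2
  obtain ⟨B, hB, hBA⟩ := (mem_sF k _).mp h2
  have hBA' : B = conjM 739 748 A := dec_inj B _ (D6 k B hB) (mulM_lt _ _) hBA
  rw [hBA'] at hB
  have := (memN_iff _ (objs k)).mpr hB
  rw [hAk] at this
  exact Bool.false_ne_true this

/-- PSL_2(9) is isomorphic to A_6. -/
theorem result {F : Type*} [Field F] [Fintype F] (hF : Fintype.card F = 9) : Nonempty (Matrix.ProjectiveSpecialLinearGroup (Fin 2) F ≃* alternatingGroup (Fin 6)) := by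
  classical
  have e : F ≃+* F9 := FiniteField.ringEquivOfCardEq (by rw [hF, card_F9])
  have hs : IsSimpleGroup (Matrix.ProjectiveSpecialLinearGroup (Fin 2) F) :=
    Matrix.ProjectiveSpecialLinearGroup.rank_two_simple
      (by rw [Nat.card_eq_fintype_card, hF]; norm_num)
  let ψ : Matrix.SpecialLinearGroup (Fin 2) F →* Equiv.Perm {s // s ∈ L} :=
    phi.comp (Matrix.SpecialLinearGroup.map (e : F →+* F9))
  have hcenter : Subgroup.center (Matrix.SpecialLinearGroup (Fin 2) F) ≤ ψ.ker := by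
    intro z hz
    rw [MonoidHom.mem_ker]
    obtain ⟨r, -, hr⟩ := Matrix.SpecialLinearGroup.mem_center_iff.mp hz
    show phi (Matrix.SpecialLinearGroup.map (e : F →+* F9) z) = 1
    apply phi_eq_one_of_comm
    intro M
    have h1 : (Matrix.SpecialLinearGroup.map (e : F →+* F9) z).1 = (e r) • (1 : M9) := by
      refine Matrix.ext fun i j => ?_
      rw [Matrix.SpecialLinearGroup.map_apply_coe, ← hr, RingHom.mapMatrix_apply,
        Matrix.map_apply, Matrix.scalar_apply, Matrix.diagonal_apply, Matrix.smul_apply,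
        Matrix.one_apply]
      by_cases hij : i = j <;> simp [hij]
    rw [h1, Matrix.smul_mul, Matrix.mul_smul, Matrix.one_mul, Matrix.mul_one]
  let ψ' : Matrix.ProjectiveSpecialLinearGroup (Fin 2) F →* Equiv.Perm {s // s ∈ L} :=
    QuotientGroup.lift _ ψ hcenter
  have hne : ψ'.ker ≠ ⊤ := by
    intro htop
    let g₀ : S9 := SpecialLinearGroup.transvection (zero_ne_one : (0 : Fin 2) ≠ 1) 1
    let g : Matrix.SpecialLinearGroup (Fin 2) F :=
      Matrix.SpecialLinearGroup.map (e.symm : F9 →+* F) g₀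
    have hg : Matrix.SpecialLinearGroup.map (e : F →+* F9) g = g₀ := by
      apply Subtype.ext
      refine Matrix.ext fun i j => ?_
      show (e : F →+* F9) ((e.symm : F9 →+* F) (g₀.1 i j)) = g₀.1 i j
      exact e.apply_symm_apply _
    have h1 : ψ' (QuotientGroup.mk g) = 1 := by
      have : (QuotientGroup.mk g : Matrix.ProjectiveSpecialLinearGroup (Fin 2) F) ∈ ψ'.ker := by
        rw [htop]; trivial
      exact this
    have h2 : ψ' (QuotientGroup.mk g) = phi g₀ := by
      show ψ g = phi g₀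
      show phi (Matrix.SpecialLinearGroup.map (e : F →+* F9) g) = phi g₀
      rw [hg]
    rw [h2] at h1
    exact phi_ne_one h1
  have hinj : Function.Injective ψ' :=
    (MonoidHom.ker_eq_bot_iff ψ').mp ((ψ'.normal_ker.eq_bot_or_eq_top).resolve_right hne)
  have hc := Cfsg.Agent.Lib.Helper6.card_psl hF 2 (by norm_num)
  have h360 : Nat.card (Matrix.ProjectiveSpecialLinearGroup (Fin 2) F) = 360 := by
    rw [Fin.prod_univ_two] at hc
    norm_num [-Nat.card_eq_fintype_card] at hc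
    omega
  exact Cfsg.Agent.Lib.Helper6.equiv_alt_of_injective 6 card_L ψ' hinj (by rw [h360]; rfl)

end Cfsg.Agent.S0254
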