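import Cfsg.Statements.S0013
import Mathlib

set_option autoImplicit false
open Cfsg

namespace Cfsg.Agent.S0013

open scoped commutatorElement

theorem frattini_eq_bot_of_elementary {E : Type*} [CommGroup E] [Finite E] (p : ℕ) (hp : p.Prime)
    (hexp : ∀ a : E, a ^ p = 1) : frattini E = ⊥ := by
  rw [eq_bot_iff]
  intro x hx
  rw [Subgroup.mem_bot]
  by_contra hx1
  obtain ⟨K, -, hK⟩ := Finite.exists_le_maximal (p := fun K : Subgroup E => x ∉ K) (a := ⊥)
    (by rw [Subgroup.mem_bot]; exact hx1)
  have hKco : IsCoatom K := by
    constructor
    · intro h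
      apply hK.1
      rw [h]; trivial
    · intro K' hK'
      have hxK' : x ∈ K' := by
        by_contra h
        exact absurd (hK.2 h hK'.le) (not_le_of_gt hK')
      rw [eq_top_iff]
      intro g _
      by_cases hg : g ∈ K
      · exact hK'.le hg
      · have hlt : K < K ⊔ Subgroup.zpowers g := by
          apply lt_of_le_of_ne le_sup_left
          intro h
          apply hg
          rw [h]
          exact (le_sup_right : Subgroup.zpowers g ≤ K ⊔ Subgroup.zpowers g) (Subgroup.mem_zpowers g)
        have hxs : x ∈ K ⊔ Subgroup.zpowers g := by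
          by_contra h
          exact absurd (hK.2 h hlt.le) (not_le_of_gt hlt)
        obtain ⟨k, hk, z, hz, hkz⟩ := Subgroup.mem_sup.mp hxs
        obtain ⟨i, rfl⟩ := Subgroup.mem_zpowers_iff.mp hz
        have hpi : ¬ (p : ℤ) ∣ i := by
          rintro ⟨j, rfl⟩
          apply hK.1
          rw [← hkz, zpow_mul, zpow_natCast, hexp, one_zpow, mul_one]
          exact hk
        have hcop : IsCoprime (p : ℤ) i := (Nat.prime_iff_prime_int.mp hp).coprime_iff_not_dvd.mpr hpi
        obtain ⟨a, b, hab⟩ := hcop
        have hg' : g = (g ^ i) ^ b := by
          have h1 : g = g ^ (a * (p : ℤ) + b * i) := by rw [hab, zpow_one]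
          have h2 : g ^ (a * (p : ℤ) + b * i) = (g ^ i) ^ b := by
            rw [zpow_add, mul_comm a, zpow_mul, zpow_natCast, hexp, one_zpow, one_mul, mul_comm b, zpow_mul]
          rw [← h2]; exact h1
        have hgi : g ^ i = k⁻¹ * x := by rw [← hkz]; group
        rw [hg', hgi]
        exact K'.zpow_mem (K'.mul_mem (K'.inv_mem (hK'.le hk)) hxK') b
  exact hK.1 (frattini_le_coatom hKco hx)

/-- In a finite p-group the Frattini subgroup is the smallest normal subgroup with elementary abelian quotient: it lies below any normal subgroup containing all commutators and all p-th powers. -/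
theorem result {G : Type*} [Group G] [Finite G] (p : ℕ) [Fact p.Prime]
    (hG : IsPGroup p G) (N : Subgroup G) [N.Normal] (hcomm : commutator G ≤ N) (hpow : ∀ x : G, x ^ p ∈ N) :
    frattini G ≤ N := by
  have hp : p.Prime := Fact.out
  letI : CommGroup (G ⧸ N) :=
    { (inferInstance : Group (G ⧸ N)) with
      mul_comm := by
        intro a b
        induction a using QuotientGroup.induction_on with
        | H x =>
          induction b using QuotientGroup.induction_on with
          | H y =>
            rw [← QuotientGroup.mk_mul, ← QuotientGroup.mk_mul]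
            apply QuotientGroup.eq.mpr
            have : (x * y)⁻¹ * (y * x) = ⁅y⁻¹, x⁻¹⁆ := by simp [commutatorElement_def, mul_assoc]
            rw [this]
            apply hcomm
            rw [commutator_def]
            exact Subgroup.commutator_mem_commutator (Subgroup.mem_top _) (Subgroup.mem_top _) }
  have hexp : ∀ a : G ⧸ N, a ^ p = 1 := by
    intro a
    induction a using QuotientGroup.induction_on with
    | H x =>
      rw [← QuotientGroup.mk_pow, QuotientGroup.eq_one_iff]
      exact hpow x
  have hbot : frattini (G ⧸ N) = ⊥ := frattini_eq_bot_of_elementary p hp hexp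
  have hle := frattini_le_comap_frattini_of_surjective (QuotientGroup.mk'_surjective N)
  rw [hbot] at hle
  intro x hx
  have := hle hx
  rw [Subgroup.mem_comap, Subgroup.mem_bot] at this
  exact (QuotientGroup.eq_one_iff x).mp this

end Cfsg.Agent.S0013
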