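import Cfsg.Statements.S3761
import Mathlib
import Cfsg.Agent.Lib.Helper12.NormAbCyc2

set_option autoImplicit false
open Cfsg

namespace Cfsg.Agent.S3761

/-! ### Number theory -/

theorem nt1 (p : ℕ) [hp : Fact p.Prime] (hodd : Odd p) (n k : ℕ) (hk : 1 ≤ k)
    (h : p ^ n ∣ k ^ p - 1) (hn : 1 ≤ n) : p ^ (n - 1) ∣ k - 1 := by
  rcases Nat.lt_or_ge 1 k with hk1 | hk1
  swap
  · have : k = 1 := by omega
    subst this; simp
  have hpk : p ∣ k ^ p - 1 := (dvd_pow_self p (by omega)).trans h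
  have hkp1 : 1 ≤ k ^ p := Nat.one_le_pow _ _ (by omega)
  have hnk : ¬ p ∣ k := by
    intro hd
    have h1 : p ∣ k ^ p := dvd_pow hd hp.out.ne_zero
    have h2 : p ∣ 1 := by
      have := Nat.dvd_sub h1 hpk
      rwa [Nat.sub_sub_self hkp1] at this
    exact hp.out.one_lt.ne' (Nat.dvd_one.1 h2)
  have hk1' : p ∣ k - 1 := by
    have h1 : (k : ZMod p) ^ p = k := ZMod.pow_card _
    have h2 : ((k ^ p - 1 : ℕ) : ZMod p) = 0 := (ZMod.natCast_eq_zero_iff _ _).2 hpk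
    rw [Nat.cast_sub hkp1, Nat.cast_pow, h1, Nat.cast_one] at h2
    rw [← ZMod.natCast_eq_zero_iff, Nat.cast_sub (by omega), Nat.cast_one]
    exact h2
  have hval := padicValNat.pow_sub_pow hodd hk1 hk1' hnk (n := p) hp.out.ne_zero
  rw [one_pow, padicValNat_self] at hval
  have hne : k ^ p - 1 ≠ 0 := by
    have := Nat.one_lt_pow hp.out.ne_zero hk1
    omega
  have h3 := (padicValNat_dvd_iff_le hne).1 h
  rw [padicValNat_dvd_iff_le (by omega)]
  omega

theorem nt2 (n k : ℕ) (hk : Odd k) (h : 2 ^ n ∣ k ^ 2 - 1) :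
    2 ^ (n - 1) ∣ k - 1 ∨ 2 ^ (n - 1) ∣ k + 1 := by
  obtain ⟨a, rfl⟩ := hk
  have e1 : (2 * a + 1) ^ 2 - 1 = 4 * (a * (a + 1)) := by
    have : (2 * a + 1) ^ 2 = 4 * (a * (a + 1)) + 1 := by ring
    omega
  rw [e1] at h
  have e2 : 2 * a + 1 - 1 = 2 * a := by omega
  have e3 : 2 * a + 1 + 1 = 2 * (a + 1) := by ring
  rw [e2, e3]
  rcases Nat.lt_or_ge n 3 with hn | hn
  · left
    have h1 : 2 ^ (n - 1) ∣ 2 ^ 1 := pow_dvd_pow 2 (by omega)
    exact h1.trans (by simp)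
  · obtain ⟨m, rfl⟩ : ∃ m, n = m + 2 := ⟨n - 2, by omega⟩
    have h1 : 2 ^ m ∣ a * (a + 1) := by
      have h2 : 2 ^ (m + 2) = 4 * 2 ^ m := by ring
      rw [h2] at h
      exact Nat.dvd_of_mul_dvd_mul_left (by norm_num) h
    have e4 : m + 2 - 1 = m + 1 := by omega
    rw [e4, pow_succ, mul_comm (2 ^ m) 2]
    rcases Nat.even_or_odd a with ha | ha
    · left
      have hc : Nat.Coprime (2 ^ m) (a + 1) := by
        apply Nat.Coprime.pow_left
        rw [Nat.Prime.coprime_iff_not_dvd Nat.prime_two]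
        rcases ha with ⟨b, rfl⟩
        omega
      exact Nat.mul_dvd_mul_left 2 (hc.dvd_of_dvd_mul_right h1)
    · right
      have hc : Nat.Coprime (2 ^ m) a := by
        apply Nat.Coprime.pow_left
        rw [Nat.Prime.coprime_iff_not_dvd Nat.prime_two]
        rcases ha with ⟨b, rfl⟩
        omega
      exact Nat.mul_dvd_mul_left 2 (hc.dvd_of_dvd_mul_left h1)

/-! ### A power formula in class two -/

theorem pow_mul_formula {G : Type*} [Group G] (w y d : G) (hd : y * w * y⁻¹ * w⁻¹ = d)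
    (hdw : d * w = w * d) (hdy : d * y = y * d) (m : ℕ) :
    (w * y) ^ m = w ^ m * y ^ m * d ^ m.choose 2 := by
  have hyw : y * w = d * w * y := by rw [← hd]; group
  have aux : ∀ m : ℕ, y ^ m * w = d ^ m * w * y ^ m := by
    intro m
    induction m with
    | zero => simp
    | succ m ih =>
      have hdy' : d ^ m * y = y * d ^ m := (Commute.pow_left (show Commute d y from hdy) m).eq
      calc y ^ (m + 1) * w = y * (y ^ m * w) := by rw [pow_succ']; group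
        _ = y * (d ^ m * w * y ^ m) := by rw [ih]
        _ = (y * d ^ m) * w * y ^ m := by group
        _ = d ^ m * (y * w) * y ^ m := by rw [← hdy']; group
        _ = d ^ m * (d * w * y) * y ^ m := by rw [hyw]
        _ = d ^ (m + 1) * w * y ^ (m + 1) := by rw [pow_succ, pow_succ']; group
  induction m with
  | zero => simp
  | succ m ih =>
    have hdw' : ∀ j : ℕ, d ^ j * w = w * d ^ j := fun j =>
      (Commute.pow_left (show Commute d w from hdw) j).eq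
    have hdy' : ∀ j i : ℕ, d ^ j * y ^ i = y ^ i * d ^ j := fun j i =>
      (Commute.pow_pow (show Commute d y from hdy) j i).eq
    have hdwp : ∀ j i : ℕ, d ^ j * w ^ i = w ^ i * d ^ j := fun j i =>
      (Commute.pow_pow (show Commute d w from hdw) j i).eq
    have hch : (m + 1).choose 2 = m + m.choose 2 := by
      rw [Nat.choose_succ_succ, Nat.choose_one_right]
    calc (w * y) ^ (m + 1) = (w * y) ^ m * (w * y) := pow_succ _ _
      _ = w ^ m * y ^ m * d ^ m.choose 2 * (w * y) := by rw [ih]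
      _ = w ^ m * y ^ m * (d ^ m.choose 2 * w) * y := by group
      _ = w ^ m * (y ^ m * w) * d ^ m.choose 2 * y := by rw [hdw']; group
      _ = w ^ m * (d ^ m * w * y ^ m) * d ^ m.choose 2 * y := by rw [aux]
      _ = w ^ m * (d ^ m * w) * (y ^ m * d ^ m.choose 2) * y := by group
      _ = w ^ m * (w * d ^ m) * (d ^ m.choose 2 * y ^ m) * y := by rw [hdw', hdy']
      _ = w ^ (m + 1) * (d ^ m * d ^ m.choose 2) * y ^ (m + 1) := by
          rw [pow_succ w, pow_succ y]; group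
      _ = w ^ (m + 1) * (d ^ (m + 1).choose 2 * y ^ (m + 1)) := by
          rw [hch, pow_add]; group
      _ = w ^ (m + 1) * y ^ (m + 1) * d ^ (m + 1).choose 2 := by rw [hdy']; group


/-! ### The cyclic normal subgroup -/

theorem mem_cent_pc {G : Type*} [Group G] (p : ℕ) (U : Subgroup G) (h : G) :
    h ∈ Subgroup.centralizer (Cfsg.powerClosure p 1 U : Set G) ↔ ∀ x ∈ U, x ^ p * h = h * x ^ p := by
  constructor
  · intro hh x hx
    exact Subgroup.mem_centralizer_iff.1 hh (x ^ p)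
      (Subgroup.subset_closure ⟨x, hx, by rw [pow_one]⟩)
  · intro hh
    have hle : Cfsg.powerClosure p 1 U ≤ Subgroup.centralizer ({h} : Set G) := by
      unfold Cfsg.powerClosure
      rw [Subgroup.closure_le]
      rintro y ⟨x, hx, rfl⟩
      show x ^ p ^ 1 ∈ Subgroup.centralizer ({h} : Set G)
      rw [Subgroup.mem_centralizer_iff]
      intro g hg
      rw [Set.mem_singleton_iff] at hg
      rw [hg, pow_one]
      exact (hh x hx).symm
    rw [Subgroup.mem_centralizer_iff]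
    intro y hy
    have h1 := Subgroup.mem_centralizer_iff.1 (hle hy) h rfl
    exact h1.symm

/-- the standing hypotheses: `U = ⟨u⟩` is a self-centralizing normal subgroup of order `p^n`. -/
structure Setup {G : Type*} [Group G] (p n : ℕ) (U : Subgroup G) (u : G) : Prop where
  hp : p.Prime
  hu : u ∈ U
  hgen : ∀ w ∈ U, ∃ i : ℕ, w = u ^ i
  ho : orderOf u = p ^ n
  hUn : U.Normal
  hC : Subgroup.centralizer (U : Set G) = U

namespace Setup

variable {G : Type*} [Group G] {p n : ℕ} {U : Subgroup G} {u : G}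

theorem comm (S : Setup p n U u) : ∀ a ∈ U, ∀ b ∈ U, a * b = b * a := by
  intro a ha b hb
  obtain ⟨i, rfl⟩ := S.hgen a ha
  obtain ⟨j, rfl⟩ := S.hgen b hb
  rw [← pow_add, ← pow_add, add_comm]

theorem pow_eq (S : Setup p n U u) (a b : ℕ) : u ^ a = u ^ b ↔ a ≡ b [MOD p ^ n] := by
  rw [pow_eq_pow_iff_modEq, S.ho]

theorem pow_eq_one (S : Setup p n U u) (a : ℕ) : u ^ a = 1 ↔ p ^ n ∣ a := by
  rw [← S.ho, orderOf_dvd_iff_pow_eq_one]

theorem act (S : Setup p n U u) (g : G) : ∃ k : ℕ, 1 ≤ k ∧ g * u * g⁻¹ = u ^ k := by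
  have h1 : g * u * g⁻¹ ∈ U := S.hUn.conj_mem u S.hu g
  obtain ⟨i, hi⟩ := S.hgen _ h1
  refine ⟨i + p ^ n, by have := pow_pos S.hp.pos n; omega, ?_⟩
  rw [hi, pow_add, ← S.ho, pow_orderOf_eq_one, mul_one]

theorem act_pow (S : Setup p n U u) (g : G) (k : ℕ) (hk : g * u * g⁻¹ = u ^ k) :
    ∀ w ∈ U, g * w * g⁻¹ = w ^ k := by
  intro w hw
  obtain ⟨i, rfl⟩ := S.hgen w hw
  rw [← conj_pow, hk, ← pow_mul, ← pow_mul, mul_comm]

theorem mem_U_iff (S : Setup p n U u) (g : G) : g ∈ U ↔ g * u * g⁻¹ = u := by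
  constructor
  · intro hg
    rw [S.comm g hg u S.hu, mul_inv_cancel_right]
  · intro h
    rw [← S.hC, Subgroup.mem_centralizer_iff]
    intro w hw
    have h1 := S.act_pow g 1 (by rw [pow_one]; exact h) w hw
    rw [pow_one] at h1
    calc w * g = (g * w * g⁻¹) * g := by rw [h1]
      _ = g * w := by group

theorem mem_M_iff (S : Setup p n U u) (g : G) :
    g ∈ Subgroup.centralizer (Cfsg.powerClosure p 1 U : Set G) ↔ g * u ^ p * g⁻¹ = u ^ p := by
  rw [mem_cent_pc]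
  constructor
  · intro h
    rw [← h u S.hu, mul_inv_cancel_right]
  · intro h x hx
    obtain ⟨i, rfl⟩ := S.hgen x hx
    have h1 : g * (u ^ p) ^ i * g⁻¹ = (u ^ p) ^ i := by rw [← conj_pow, h]
    rw [← pow_mul, mul_comm i p, pow_mul]
    calc (u ^ p) ^ i * g = (g * (u ^ p) ^ i * g⁻¹) * g := by rw [h1]
      _ = g * (u ^ p) ^ i := by group

theorem U_le_M (S : Setup p n U u) :
    U ≤ Subgroup.centralizer (Cfsg.powerClosure p 1 U : Set G) := by
  intro g hg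
  rw [S.mem_M_iff]
  rw [S.comm g hg _ (U.pow_mem S.hu p), mul_inv_cancel_right]

/-- the element of order `p` of `U` -/
def z (_ : Setup p n U u) : G := u ^ p ^ (n - 1)

theorem z_mem (S : Setup p n U u) : S.z ∈ U := U.pow_mem S.hu _

theorem z_pow (S : Setup p n U u) (hn : 1 ≤ n) : S.z ^ p = 1 := by
  unfold z
  rw [← pow_mul, ← pow_succ, Nat.sub_add_cancel hn, ← S.ho, pow_orderOf_eq_one]

theorem z_order (S : Setup p n U u) (hn : 1 ≤ n) : orderOf S.z = p := by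
  unfold z
  rw [orderOf_pow_of_dvd (pow_pos S.hp.pos _).ne' (by rw [S.ho]; exact pow_dvd_pow p (by omega)),
    S.ho, Nat.pow_div (by omega) S.hp.pos]
  have e : n - (n - 1) = 1 := by omega
  rw [e, pow_one]

theorem z_ne (S : Setup p n U u) (hn : 1 ≤ n) : S.z ≠ 1 := by
  intro h
  have h1 := S.z_order hn
  rw [h, orderOf_one] at h1
  exact S.hp.one_lt.ne h1

theorem omega (S : Setup p n U u) (hn : 1 ≤ n) (w : G) (hw : w ∈ U) (hwp : w ^ p = 1) :
    ∃ j : ℕ, w = S.z ^ j := by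
  obtain ⟨i, rfl⟩ := S.hgen w hw
  rw [← pow_mul, S.pow_eq_one] at hwp
  obtain ⟨m, rfl⟩ : ∃ m, n = m + 1 := ⟨n - 1, by omega⟩
  rw [pow_succ] at hwp
  have h1 : p ^ m ∣ i := Nat.dvd_of_mul_dvd_mul_right S.hp.pos hwp
  obtain ⟨j, rfl⟩ := h1
  refine ⟨j, ?_⟩
  unfold z
  rw [pow_mul]
  rfl

theorem z_conj (S : Setup p n U u) (hn : 1 ≤ n) (g : G) : ∃ j : ℕ, g * S.z * g⁻¹ = S.z ^ j := by
  apply S.omega hn _ (S.hUn.conj_mem _ S.z_mem g)
  rw [conj_pow, S.z_pow hn]; group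

theorem act_iter (S : Setup p n U u) (g : G) (k : ℕ) (hk : g * u * g⁻¹ = u ^ k) :
    ∀ m : ℕ, g ^ m * u * (g ^ m)⁻¹ = u ^ k ^ m := by
  intro m
  induction m with
  | zero => simp
  | succ m ih =>
    have e : g ^ (m + 1) * u * (g ^ (m + 1))⁻¹ = g * (g ^ m * u * (g ^ m)⁻¹) * g⁻¹ := by
      rw [pow_succ']; group
    rw [e, ih, S.act_pow g k hk _ (U.pow_mem S.hu _), ← pow_mul, pow_succ]

/-- an element outside `U` with `p`-th power in `U` acts with `k^p ≡ 1`, `k ≢ 1`. -/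
theorem exp_modEq (S : Setup p n U u) (g : G) (hg : g ^ p ∈ U) (k : ℕ)
    (hk : g * u * g⁻¹ = u ^ k) : k ^ p ≡ 1 [MOD p ^ n] := by
  have h1 := S.act_iter g k hk p
  rw [(S.mem_U_iff (g ^ p)).1 hg] at h1
  have h2 : u ^ k ^ p = u ^ 1 := by rw [pow_one]; exact h1.symm
  exact (S.pow_eq _ _).1 h2

theorem two_le_n (S : Setup p n U u) (g : G) (hgU : g ∉ U) (hg : g ^ p ∈ U) : 2 ≤ n := by
  by_contra hn
  haveI := Fact.mk S.hp
  obtain ⟨k, hk1, hk⟩ := S.act g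
  have h1 := S.exp_modEq g hg k hk
  have h2 : k ^ p ≡ k [MOD p] := by
    rw [← ZMod.natCast_eq_natCast_iff]
    push_cast
    exact ZMod.pow_card _
  have h3 : p ^ n ∣ p := by
    have : n ≤ 1 := by omega
    calc p ^ n ∣ p ^ 1 := pow_dvd_pow p this
      _ = p := pow_one p
  have h4 : k ≡ 1 [MOD p ^ n] := ((h2.of_dvd h3).symm).trans h1
  apply hgU
  rw [S.mem_U_iff, hk]
  have := (S.pow_eq k 1).2 h4
  rw [this, pow_one]

theorem mem_M_of_odd (S : Setup p n U u) (hodd : Odd p) (g : G) (hgU : g ∉ U) (hg : g ^ p ∈ U) :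
    g ∈ Subgroup.centralizer (Cfsg.powerClosure p 1 U : Set G) := by
  haveI := Fact.mk S.hp
  have hn := S.two_le_n g hgU hg
  obtain ⟨k, hk1, hk⟩ := S.act g
  have h1 := S.exp_modEq g hg k hk
  have h2 : p ^ n ∣ k ^ p - 1 := (Nat.modEq_iff_dvd' (Nat.one_le_pow _ _ hk1)).1 h1.symm
  obtain ⟨j, hj⟩ := nt1 p hodd n k hk1 h2 (by omega)
  have hk' : k = p ^ (n - 1) * j + 1 := by omega
  rw [S.mem_M_iff, S.act_pow g k hk _ (U.pow_mem S.hu p), ← pow_mul, hk', mul_add, mul_one,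
    ← mul_assoc, ← pow_succ', Nat.sub_add_cancel (by omega), pow_add, pow_mul, ← S.ho,
    pow_orderOf_eq_one, one_pow, one_mul]

theorem z_sq_pow (S : Setup 2 n U u) (hn : 1 ≤ n) (j : ℕ) : S.z ^ j = 1 ∨ S.z ^ j = S.z := by
  have hz := S.z_pow hn
  rcases Nat.even_or_odd j with ⟨i, rfl⟩ | ⟨i, rfl⟩
  · left; rw [← two_mul, pow_mul, hz, one_pow]
  · right; rw [pow_succ, pow_mul, hz, one_pow, one_mul]

theorem trich (S : Setup 2 n U u) (g : G) (hgU : g ∉ U) (hg : g ^ 2 ∈ U) :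
    g * u * g⁻¹ = u * S.z ∨ g * u * g⁻¹ = u⁻¹ ∨ g * u * g⁻¹ = u⁻¹ * S.z := by
  have hn := S.two_le_n g hgU hg
  obtain ⟨k, hk1, hk⟩ := S.act g
  have h1 := S.exp_modEq g hg k hk
  have h2 : 2 ^ n ∣ k ^ 2 - 1 := (Nat.modEq_iff_dvd' (Nat.one_le_pow _ _ hk1)).1 h1.symm
  have hodd : Odd k := by
    rcases Nat.even_or_odd k with ⟨b, rfl⟩ | h
    · exfalso
      have h3 : 2 ∣ (b + b) ^ 2 - 1 := (dvd_pow_self 2 (by omega)).trans h2
      have h4 : (b + b) ^ 2 = 2 * (2 * b * b) := by ring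
      have h5 : 1 ≤ 2 * b * b := by
        have : 1 ≤ b := by omega
        nlinarith
      omega
    · exact h
  have hcomm : S.z * u = u * S.z := S.comm _ S.z_mem _ S.hu
  rcases nt2 n k hodd h2 with ⟨j, hj⟩ | ⟨j, hj⟩
  · have hk' : k = 2 ^ (n - 1) * j + 1 := by omega
    have h3 : u ^ k = S.z ^ j * u := by
      rw [hk', pow_succ, pow_mul]; rfl
    rcases S.z_sq_pow (by omega) j with h4 | h4
    · exfalso
      apply hgU
      rw [S.mem_U_iff, hk, h3, h4, one_mul]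
    · left
      rw [hk, h3, h4, hcomm]
  · have h3 : u ^ k * u = S.z ^ j := by
      rw [← pow_succ, hj, pow_mul]; rfl
    have h4 : u ^ k = S.z ^ j * u⁻¹ := eq_mul_inv_of_mul_eq h3
    rcases S.z_sq_pow (by omega) j with h5 | h5
    · right; left
      rw [hk, h4, h5, one_mul]
    · right; right
      rw [hk, h4, h5]
      have : S.z * u⁻¹ = u⁻¹ * S.z := S.comm _ S.z_mem _ (U.inv_mem S.hu)
      exact this


/-! ### The subgroup `M = C_G(U^p)` -/

theorem z_central_M (S : Setup p n U u) (hn : 2 ≤ n) (h : G)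
    (hM : h ∈ Subgroup.centralizer (Cfsg.powerClosure p 1 U : Set G)) : h * S.z * h⁻¹ = S.z := by
  have h1 := (mem_cent_pc p U h).1 hM (u ^ p ^ (n - 2)) (U.pow_mem S.hu _)
  have h2 : (u ^ p ^ (n - 2)) ^ p = S.z := by
    unfold z
    rw [← pow_mul, ← pow_succ]
    congr 2
    omega
  rw [h2] at h1
  rw [← h1, mul_inv_cancel_right]

theorem zpow_central_M (S : Setup p n U u) (hn : 2 ≤ n) (h : G)
    (hM : h ∈ Subgroup.centralizer (Cfsg.powerClosure p 1 U : Set G)) (j : ℕ) :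
    h * S.z ^ j * h⁻¹ = S.z ^ j := by
  rw [← conj_pow, S.z_central_M hn h hM]

theorem M_act (S : Setup p n U u) (hn : 2 ≤ n) (h : G)
    (hM : h ∈ Subgroup.centralizer (Cfsg.powerClosure p 1 U : Set G)) :
    ∃ j : ℕ, h * u * h⁻¹ = u * S.z ^ j := by
  obtain ⟨k, hk1, hk⟩ := S.act h
  have h1 := (S.mem_M_iff h).1 hM
  rw [S.act_pow h k hk _ (U.pow_mem S.hu p), ← pow_mul, S.pow_eq] at h1
  have hle : p ≤ p * k := Nat.le_mul_of_pos_right p hk1
  have h2 : p ^ n ∣ p * k - p := (Nat.modEq_iff_dvd' hle).1 h1.symm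
  have h3 : p * k - p = p * (k - 1) := by rw [Nat.mul_sub, mul_one]
  obtain ⟨m, rfl⟩ : ∃ m, n = m + 1 := ⟨n - 1, by omega⟩
  rw [h3, pow_succ, mul_comm (p ^ m) p] at h2
  have h4 : p ^ m ∣ k - 1 := Nat.dvd_of_mul_dvd_mul_left S.hp.pos h2
  obtain ⟨j, hj⟩ := h4
  refine ⟨j, ?_⟩
  have hk' : k = 1 + p ^ m * j := by omega
  rw [hk, hk', pow_add, pow_one, pow_mul]
  rfl

theorem M_comm (S : Setup p n U u) (hn : 2 ≤ n) (h : G)
    (hM : h ∈ Subgroup.centralizer (Cfsg.powerClosure p 1 U : Set G)) (w : G) (hw : w ∈ U) :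
    ∃ j : ℕ, h * w * h⁻¹ = w * S.z ^ j := by
  obtain ⟨j, hj⟩ := S.M_act hn h hM
  obtain ⟨i, rfl⟩ := S.hgen w hw
  refine ⟨j * i, ?_⟩
  have hc : Commute u (S.z ^ j) := S.comm _ S.hu _ (U.pow_mem S.z_mem _)
  rw [← conj_pow, hj, hc.mul_pow, ← pow_mul]

theorem M_normal (S : Setup p n U u) (g h : G)
    (hM : h ∈ Subgroup.centralizer (Cfsg.powerClosure p 1 U : Set G)) :
    g * h * g⁻¹ ∈ Subgroup.centralizer (Cfsg.powerClosure p 1 U : Set G) := by
  rw [mem_cent_pc]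
  intro x hx
  have hx' : g⁻¹ * x * g⁻¹⁻¹ ∈ U := S.hUn.conj_mem x hx g⁻¹
  have h1 := (mem_cent_pc p U h).1 hM _ hx'
  rw [conj_pow, inv_inv] at h1
  calc x ^ p * (g * h * g⁻¹) = g * (g⁻¹ * x ^ p * g * h) * g⁻¹ := by group
    _ = g * (h * (g⁻¹ * x ^ p * g)) * g⁻¹ := by rw [h1]
    _ = g * h * g⁻¹ * x ^ p := by group

/-- powers of an element of `M` act on `u` by powers of the same `z^j`. -/
theorem M_act_pow (S : Setup p n U u) (hn : 2 ≤ n) (h : G)
    (hM : h ∈ Subgroup.centralizer (Cfsg.powerClosure p 1 U : Set G)) (j : ℕ)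
    (hj : h * u * h⁻¹ = u * S.z ^ j) (m : ℕ) :
    h ^ m * u * (h ^ m)⁻¹ = u * S.z ^ (j * m) := by
  induction m with
  | zero => simp
  | succ m ih =>
    have e : h ^ (m + 1) * u * (h ^ (m + 1))⁻¹ = h * (h ^ m * u * (h ^ m)⁻¹) * h⁻¹ := by
      rw [pow_succ']; group
    have e2 : h * (u * S.z ^ (j * m)) * h⁻¹ = (h * u * h⁻¹) * (h * S.z ^ (j * m) * h⁻¹) := by
      group
    rw [e, ih, e2, hj, S.zpow_central_M hn h hM, mul_assoc, ← pow_add, mul_add, mul_one,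
      add_comm]

theorem M_pow_mem (S : Setup p n U u) (hn : 2 ≤ n) (h : G)
    (hM : h ∈ Subgroup.centralizer (Cfsg.powerClosure p 1 U : Set G)) : h ^ p ∈ U := by
  obtain ⟨j, hj⟩ := S.M_act hn h hM
  rw [S.mem_U_iff, S.M_act_pow hn h hM j hj p, mul_comm j p, pow_mul, S.z_pow (by omega), one_pow,
    mul_one]


theorem relIndex_M (S : Setup p n U u) [Finite G] (hn : 2 ≤ n) (s : G)
    (hsM : s ∈ Subgroup.centralizer (Cfsg.powerClosure p 1 U : Set G)) (hsU : s ∉ U) :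
    U.relIndex (Subgroup.centralizer (Cfsg.powerClosure p 1 U : Set G)) = p := by
  haveI := Fact.mk S.hp
  have hmul : ∀ a b : ↥(Subgroup.centralizer (Cfsg.powerClosure p 1 U : Set G)),
      ((a * b : ↥(Subgroup.centralizer (Cfsg.powerClosure p 1 U : Set G))) : G) * u *
          ((a * b : ↥(Subgroup.centralizer (Cfsg.powerClosure p 1 U : Set G))) : G)⁻¹ * u⁻¹
        = ((a : G) * u * (a : G)⁻¹ * u⁻¹) * ((b : G) * u * (b : G)⁻¹ * u⁻¹) := by
    intro a b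
    obtain ⟨i, hi⟩ := S.M_act hn a a.2
    obtain ⟨j, hj⟩ := S.M_act hn b b.2
    have e1 : ((a * b : ↥(Subgroup.centralizer (Cfsg.powerClosure p 1 U : Set G))) : G)
        = (a : G) * (b : G) := rfl
    have e2 : (a : G) * (b : G) * u * ((a : G) * (b : G))⁻¹ * u⁻¹
        = (a : G) * ((b : G) * u * (b : G)⁻¹) * (a : G)⁻¹ * u⁻¹ := by group
    have e3 : (a : G) * (u * S.z ^ j) * (a : G)⁻¹
        = ((a : G) * u * (a : G)⁻¹) * ((a : G) * S.z ^ j * (a : G)⁻¹) := by group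
    rw [e1, e2, hj, e3, hi, S.zpow_central_M hn a a.2]
    group
  let θ : ↥(Subgroup.centralizer (Cfsg.powerClosure p 1 U : Set G)) →* G :=
    MonoidHom.mk' (fun a => (a : G) * u * (a : G)⁻¹ * u⁻¹) hmul
  have hθ : ∀ a, θ a = (a : G) * u * (a : G)⁻¹ * u⁻¹ := fun a => rfl
  have hker : θ.ker = U.subgroupOf (Subgroup.centralizer (Cfsg.powerClosure p 1 U : Set G)) := by
    ext a
    rw [MonoidHom.mem_ker, Subgroup.mem_subgroupOf, hθ, S.mem_U_iff, mul_inv_eq_one]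
  have hrange : θ.range ≤ Subgroup.zpowers S.z := by
    rintro x ⟨a, rfl⟩
    obtain ⟨i, hi⟩ := S.M_act hn a a.2
    rw [hθ, hi]
    have hc : S.z ^ i * u⁻¹ = u⁻¹ * S.z ^ i := S.comm _ (U.pow_mem S.z_mem _) _ (U.inv_mem S.hu)
    have e : u * S.z ^ i * u⁻¹ = S.z ^ i := by rw [mul_assoc, hc, mul_inv_cancel_left]
    rw [e]
    exact Subgroup.pow_mem _ (Subgroup.mem_zpowers _) _
  have hne : θ.range ≠ ⊥ := by
    intro hbot
    have h1 : θ ⟨s, hsM⟩ ∈ θ.range := ⟨_, rfl⟩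
    rw [hbot, Subgroup.mem_bot, hθ, mul_inv_eq_one] at h1
    exact hsU ((S.mem_U_iff s).2 h1)
  have hcard : Nat.card θ.range = p := by
    have h1 := Subgroup.card_dvd_of_le hrange
    rw [Nat.card_zpowers, S.z_order (by omega)] at h1
    rcases (Nat.dvd_prime S.hp).1 h1 with h2 | h2
    · exact absurd ((Subgroup.one_lt_card_iff_ne_bot _).2 hne) (by omega)
    · exact h2
  unfold Subgroup.relIndex
  rw [← hker, Subgroup.index_ker, hcard]


theorem pow_dvd_of_M (S : Setup p n U u) (hn : 2 ≤ n) (s : G)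
    (hsM : s ∈ Subgroup.centralizer (Cfsg.powerClosure p 1 U : Set G)) (hsU : s ∉ U) :
    ∃ v ∈ U, s ^ p = v ^ p := by
  have h1 := S.M_pow_mem hn s hsM
  obtain ⟨a, ha⟩ := S.hgen _ h1
  by_cases hpa : p ∣ a
  · obtain ⟨b, rfl⟩ := hpa
    exact ⟨u ^ b, U.pow_mem S.hu _, by rw [ha, ← pow_mul, mul_comm]⟩
  · exfalso
    apply hsU
    have hcop : Nat.Coprime a (p ^ n) :=
      Nat.Coprime.pow_right n ((Nat.Prime.coprime_iff_not_dvd S.hp).2 hpa).symm
    have hlt : 1 < p ^ n := Nat.one_lt_pow (by omega) S.hp.one_lt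
    obtain ⟨b, -, hb⟩ := Nat.exists_mul_mod_eq_one_of_coprime hcop hlt
    have h2 : (s ^ p) ^ b = u := by
      rw [ha, ← pow_mul]
      have h3 : u ^ (a * b) = u ^ 1 := (S.pow_eq _ _).2 (by
        show a * b % p ^ n = 1 % p ^ n
        rw [hb, Nat.mod_eq_of_lt hlt])
      rw [h3, pow_one]
    rw [S.mem_U_iff]
    have hc : Commute s ((s ^ p) ^ b) := ((Commute.refl s).pow_right p).pow_right b
    rw [← h2, hc.eq, mul_inv_cancel_right]

theorem sq_aux {m : ℕ} (S : Setup 2 (m + 3) U u) (s v : G)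
    (hsM : s ∈ Subgroup.centralizer (Cfsg.powerClosure 2 1 U : Set G)) (hsU : s ∉ U)
    (hv : v ∈ U) (hsv : s ^ 2 = v ^ 2) : (v ^ (2 ^ (m + 1) - 1) * s) ^ 2 = 1 := by
  have hn : 2 ≤ m + 3 := by omega
  obtain ⟨j, hj⟩ := S.M_act hn s hsM
  have hj' : s * u * s⁻¹ = u * S.z := by
    rcases S.z_sq_pow (by omega) j with h | h
    · exfalso; apply hsU; rw [S.mem_U_iff, hj, h, mul_one]
    · rw [hj, h]
  have hk : s * u * s⁻¹ = u ^ (1 + 2 ^ (m + 2)) := by
    rw [hj', pow_add, pow_one]; rfl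
  have hvn : v ^ 2 ^ (m + 3) = 1 := by
    obtain ⟨i, rfl⟩ := S.hgen v hv
    rw [← pow_mul, mul_comm, pow_mul, ← S.ho, pow_orderOf_eq_one, one_pow]
  obtain ⟨w, hw⟩ : ∃ w, w = v ^ (2 ^ (m + 1) - 1) := ⟨_, rfl⟩
  have hwU : w ∈ U := by rw [hw]; exact U.pow_mem hv _
  have hd : s * w * s⁻¹ * w⁻¹ = w ^ 2 ^ (m + 2) := by
    rw [S.act_pow s _ hk _ hwU, mul_inv_eq_iff_eq_mul, ← pow_succ, add_comm]
  have hdw : w ^ 2 ^ (m + 2) * w = w * w ^ 2 ^ (m + 2) := ((Commute.refl w).pow_left _).eq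
  have hdy : w ^ 2 ^ (m + 2) * s = s * w ^ 2 ^ (m + 2) := by
    have h1 := (mem_cent_pc 2 U s).1 hsM (w ^ 2 ^ (m + 1)) (U.pow_mem hwU _)
    rw [← pow_mul, ← pow_succ] at h1
    exact h1
  have h2 := pow_mul_formula w s _ hd hdw hdy 2
  rw [← hw, h2, hsv, hw]
  have hc : Nat.choose 2 2 = 1 := by decide
  rw [hc, pow_one, ← pow_mul, ← pow_mul, ← pow_add, ← pow_add]
  have hE : (2 ^ (m + 1) - 1) * 2 + 2 + (2 ^ (m + 1) - 1) * 2 ^ (m + 2) = 2 ^ (m + 3) * 2 ^ m := by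
    obtain ⟨r, hr⟩ : ∃ r, 2 ^ m = r := ⟨_, rfl⟩
    have h3 : 1 ≤ r := by rw [← hr]; exact Nat.one_le_two_pow
    have e1 : 2 ^ (m + 1) = 2 * r := by rw [pow_succ, hr]; ring
    have e2 : 2 ^ (m + 2) = 4 * r := by rw [pow_add, hr]; ring
    have e3 : 2 ^ (m + 3) = 8 * r := by rw [pow_add, hr]; ring
    rw [e1, e2, e3, hr]
    obtain ⟨a, rfl⟩ : ∃ a, r = a + 1 := ⟨r - 1, by omega⟩
    have e4 : 2 * (a + 1) - 1 = 2 * a + 1 := by omega
    rw [e4]; ring
  rw [hE, pow_mul, hvn, one_pow]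

theorem exists_t (S : Setup p n U u) (hn : 2 ≤ n) (s : G)
    (hsM : s ∈ Subgroup.centralizer (Cfsg.powerClosure p 1 U : Set G)) (hsU : s ∉ U)
    (hpn : p ≠ 2 ∨ 3 ≤ n) :
    ∃ t ∈ Subgroup.centralizer (Cfsg.powerClosure p 1 U : Set G), t ∉ U ∧ t ^ p = 1 := by
  obtain ⟨v, hv, hsv⟩ := S.pow_dvd_of_M hn s hsM hsU
  have key : ∀ w ∈ U, w * s ∈ Subgroup.centralizer (Cfsg.powerClosure p 1 U : Set G) ∧
      w * s ∉ U := by
    intro w hw
    refine ⟨Subgroup.mul_mem _ (S.U_le_M hw) hsM, fun h => hsU ?_⟩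
    have := U.mul_mem (U.inv_mem hw) h
    rwa [inv_mul_cancel_left] at this
  by_cases hp2 : p = 2
  · subst hp2
    have hn3 : 3 ≤ n := by
      rcases hpn with h | h
      · exact absurd rfl h
      · exact h
    obtain ⟨m, rfl⟩ : ∃ m, n = m + 3 := ⟨n - 3, by omega⟩
    exact ⟨_, (key _ (U.pow_mem hv _)).1, (key _ (U.pow_mem hv _)).2, S.sq_aux s v hsM hsU hv hsv⟩
  · refine ⟨v⁻¹ * s, (key _ (U.inv_mem hv)).1, (key _ (U.inv_mem hv)).2, ?_⟩
    obtain ⟨j, hj⟩ := S.M_comm hn s hsM v⁻¹ (U.inv_mem hv)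
    have hd : s * v⁻¹ * s⁻¹ * (v⁻¹)⁻¹ = S.z ^ j := by
      rw [hj, inv_inv]
      have hc : S.z ^ j * v = v * S.z ^ j := S.comm _ (U.pow_mem S.z_mem _) _ hv
      rw [mul_assoc, hc, inv_mul_cancel_left]
    have hdw : S.z ^ j * v⁻¹ = v⁻¹ * S.z ^ j :=
      S.comm _ (U.pow_mem S.z_mem _) _ (U.inv_mem hv)
    have hdy : S.z ^ j * s = s * S.z ^ j := by
      have h1 := S.zpow_central_M hn s hsM j
      calc S.z ^ j * s = (s * S.z ^ j * s⁻¹) * s := by rw [h1]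
        _ = s * S.z ^ j := by group
    have h2 := pow_mul_formula v⁻¹ s _ hd hdw hdy p
    rw [h2, hsv, inv_pow, inv_mul_cancel, one_mul]
    obtain ⟨c, hc⟩ : p ∣ p.choose 2 :=
      S.hp.dvd_choose_self (by norm_num) (by have := S.hp.two_le; omega)
    rw [hc, ← pow_mul, mul_comm j, mul_assoc, pow_mul, S.z_pow (by omega), one_pow]


theorem order_p_mem (S : Setup p n U u) (hn : 2 ≤ n) (hpn : p ≠ 2 ∨ 3 ≤ n) (t : G)
    (htM : t ∈ Subgroup.centralizer (Cfsg.powerClosure p 1 U : Set G)) (htU : t ∉ U)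
    (htp : t ^ p = 1) (x : G)
    (hxM : x ∈ Subgroup.centralizer (Cfsg.powerClosure p 1 U : Set G)) (hxp : x ^ p = 1) :
    ∃ i j : ℕ, x = t ^ j * S.z ^ i := by
  have hzp := S.z_pow (show 1 ≤ n by omega)
  obtain ⟨b, hb⟩ := S.M_act hn t htM
  have hpb : ¬ p ∣ b := by
    rintro ⟨c, rfl⟩
    apply htU
    rw [S.mem_U_iff, hb, pow_mul, hzp, one_pow, mul_one]
  obtain ⟨i, hi⟩ := S.M_act hn x hxM
  have hcop : Nat.Coprime b p := ((Nat.Prime.coprime_iff_not_dvd S.hp).2 hpb).symm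
  obtain ⟨b', -, hb'⟩ := Nat.exists_mul_mod_eq_one_of_coprime hcop S.hp.one_lt
  have hzb : S.z ^ (b * b') = S.z := by
    have h1 : S.z ^ (b * b') = S.z ^ 1 := by
      rw [pow_eq_pow_iff_modEq, S.z_order (by omega)]
      show b * b' % p = 1 % p
      rw [hb', Nat.mod_eq_of_lt S.hp.one_lt]
    rw [h1, pow_one]
  obtain ⟨a, ha⟩ : ∃ a, a = t ^ (b' * i) := ⟨_, rfl⟩
  have haM : a ∈ Subgroup.centralizer (Cfsg.powerClosure p 1 U : Set G) := by
    rw [ha]; exact Subgroup.pow_mem _ htM _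
  have hap : a ^ p = 1 := by rw [ha, ← pow_mul, mul_comm, pow_mul, htp, one_pow]
  have hau : a * u * a⁻¹ = u * S.z ^ i := by
    rw [ha, S.M_act_pow hn t htM b hb (b' * i), ← mul_assoc, pow_mul, hzb]
  have hwU : a⁻¹ * x ∈ U := by
    rw [S.mem_U_iff]
    have e : a⁻¹ * x * u * (a⁻¹ * x)⁻¹ = a⁻¹ * (x * u * x⁻¹) * a := by group
    rw [e, hi, ← hau]; group
  obtain ⟨w, hw⟩ : ∃ w, w = a⁻¹ * x := ⟨_, rfl⟩
  rw [← hw] at hwU
  have hx : x = a * w := by rw [hw]; group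
  obtain ⟨l, hl⟩ := S.M_comm hn a haM w⁻¹ (U.inv_mem hwU)
  have hd : w * a * w⁻¹ * a⁻¹ = S.z ^ l := by
    have e : w * a * w⁻¹ * a⁻¹ = w * (a * w⁻¹ * a⁻¹) := by group
    rw [e, hl, mul_inv_cancel_left]
  have hdw : S.z ^ l * a = a * S.z ^ l := by
    have h1 := S.zpow_central_M hn a haM l
    calc S.z ^ l * a = (a * S.z ^ l * a⁻¹) * a := by rw [h1]
      _ = a * S.z ^ l := by group
  have hdy : S.z ^ l * w = w * S.z ^ l := S.comm _ (U.pow_mem S.z_mem _) _ hwU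
  have h2 := pow_mul_formula a w _ hd hdw hdy p
  rw [← hx, hxp, hap, one_mul] at h2
  have hwp : w ^ p = 1 := by
    by_cases hp2 : p = 2
    · subst hp2
      have hn3 : 3 ≤ n := by
        rcases hpn with h | h
        · exact absurd rfl h
        · exact h
      have hc : Nat.choose 2 2 = 1 := by decide
      rw [hc, pow_one] at h2
      have hw2 : w ^ 2 = (S.z ^ l)⁻¹ := eq_inv_of_mul_eq_one_left h2.symm
      have hw4 : w ^ 4 = 1 := by
        have e4 : w ^ 4 = (w ^ 2) ^ 2 := by rw [← pow_mul]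
        rw [e4, hw2, inv_pow, ← pow_mul, mul_comm, pow_mul, hzp, one_pow, inv_one]
      obtain ⟨c, hc'⟩ := S.hgen w hwU
      rw [hc', ← pow_mul, S.pow_eq_one] at hw4
      obtain ⟨m, rfl⟩ : ∃ m, n = m + 3 := ⟨n - 3, by omega⟩
      have h3 : 2 ^ (m + 3) = 2 ^ (m + 1) * 4 := by rw [pow_add, pow_add]; norm_num; ring
      rw [h3] at hw4
      have h4 : 2 ^ (m + 1) ∣ c := Nat.dvd_of_mul_dvd_mul_right (by norm_num) hw4
      obtain ⟨c', rfl⟩ := h4
      have h5 : w = (u ^ (2 ^ m * c')) ^ 2 := by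
        rw [hc', ← pow_mul]; congr 1; rw [pow_succ]; ring
      have h6 := (mem_cent_pc 2 U a).1 haM (u ^ (2 ^ m * c')) (U.pow_mem S.hu _)
      rw [← h5] at h6
      rw [h6, mul_inv_cancel_right, mul_inv_cancel] at hd
      rw [hw2, ← hd, inv_one]
    · obtain ⟨c, hc⟩ : p ∣ p.choose 2 :=
        S.hp.dvd_choose_self (by norm_num) (by have := S.hp.two_le; omega)
      rw [hc, ← pow_mul, mul_comm l, mul_assoc, pow_mul, hzp, one_pow, mul_one] at h2
      exact h2.symm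
  obtain ⟨i', hi'⟩ := S.omega (by omega) w hwU hwp
  exact ⟨i', b' * i, by rw [hx, ha, hi']⟩


theorem zpowers_z_normal (S : Setup p n U u) (hn : 1 ≤ n) : (Subgroup.zpowers S.z).Normal := by
  constructor
  intro x hx g
  obtain ⟨k, rfl⟩ := Subgroup.mem_zpowers_iff.1 hx
  obtain ⟨j, hj⟩ := S.z_conj hn g
  rw [← conj_zpow, hj]
  exact Subgroup.zpow_mem _ (Subgroup.pow_mem _ (Subgroup.mem_zpowers _) _) _

theorem caseI (S : Setup p n U u) [Finite G] (hn : 2 ≤ n) (hpn : p ≠ 2 ∨ 3 ≤ n) (s : G)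
    (hsM : s ∈ Subgroup.centralizer (Cfsg.powerClosure p 1 U : Set G)) (hsU : s ∉ U) :
    U.relIndex (Subgroup.centralizer (Cfsg.powerClosure p 1 U : Set G)) = p ∧
    Cfsg.IsElementaryAbelian p
      (Cfsg.omegaOne p (Subgroup.centralizer (Cfsg.powerClosure p 1 U : Set G))) ∧
    Nat.card ↥(Cfsg.omegaOne p (Subgroup.centralizer (Cfsg.powerClosure p 1 U : Set G))) = p ^ 2 ∧
    (Cfsg.omegaOne p (Subgroup.centralizer (Cfsg.powerClosure p 1 U : Set G))).Characteristic := by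
  haveI := Fact.mk S.hp
  have hn1 : 1 ≤ n := by omega
  have hzp := S.z_pow hn1
  obtain ⟨t, htM, htU, htp⟩ := S.exists_t hn s hsM hsU hpn
  have hstruct := S.order_p_mem hn hpn t htM htU htp
  have htz : Commute t S.z := by
    have h1 := S.z_central_M hn t htM
    show t * S.z = S.z * t
    calc t * S.z = (t * S.z * t⁻¹) * t := by group
      _ = S.z * t := by rw [h1]
  have hct : Commute t t := Commute.refl t
  have hcz : Commute S.z S.z := Commute.refl _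
  have hcomm : ∀ i j i' j' : ℕ, Commute (t ^ j * S.z ^ i) (t ^ j' * S.z ^ i') := by
    intro i j i' j'
    exact ((hct.pow_pow j j').mul_right (htz.pow_pow j i')).mul_left
      (((htz.symm).pow_pow i j').mul_right (hcz.pow_pow i i'))
  have hpow : ∀ i j : ℕ, (t ^ j * S.z ^ i) ^ p = 1 := by
    intro i j
    rw [(htz.pow_pow j i).mul_pow, ← pow_mul, ← pow_mul, mul_comm j, mul_comm i, pow_mul, pow_mul,
      htp, hzp, one_pow, one_pow, one_mul]
  have hΩsub : ∀ x ∈ Subgroup.centralizer (Cfsg.powerClosure p 1 U : Set G), x ^ p = 1 →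
      x ∈ Cfsg.omegaOne p (Subgroup.centralizer (Cfsg.powerClosure p 1 U : Set G)) := by
    intro x hx hxp
    unfold Cfsg.omegaOne
    exact Subgroup.subset_closure
      (show x ∈ {x : G | x ∈ Subgroup.centralizer (Cfsg.powerClosure p 1 U : Set G) ∧ x ^ p = 1}
        from ⟨hx, hxp⟩)
  have hΩ : ∀ x, x ∈ Cfsg.omegaOne p (Subgroup.centralizer (Cfsg.powerClosure p 1 U : Set G)) ↔
      ∃ i j : ℕ, x = t ^ j * S.z ^ i := by
    intro x
    constructor
    · intro hx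
      unfold Cfsg.omegaOne at hx
      induction hx using Subgroup.closure_induction with
      | mem y hy => exact hstruct y hy.1 hy.2
      | one => exact ⟨0, 0, by simp⟩
      | mul y y' _ _ ih ih' =>
        obtain ⟨i, j, rfl⟩ := ih
        obtain ⟨i', j', rfl⟩ := ih'
        refine ⟨i + i', j + j', ?_⟩
        have hc : Commute (S.z ^ i) (t ^ j') := (htz.symm).pow_pow i j'
        rw [pow_add, pow_add]
        calc t ^ j * S.z ^ i * (t ^ j' * S.z ^ i')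
            = t ^ j * (S.z ^ i * t ^ j') * S.z ^ i' := by group
          _ = t ^ j * (t ^ j' * S.z ^ i) * S.z ^ i' := by rw [hc.eq]
          _ = t ^ j * t ^ j' * (S.z ^ i * S.z ^ i') := by group
      | inv y _ ih =>
        obtain ⟨i, j, rfl⟩ := ih
        refine ⟨i * (p - 1), j * (p - 1), ?_⟩
        apply inv_eq_of_mul_eq_one_right
        have e : ∀ k : ℕ, k + k * (p - 1) = p * k := by
          intro k
          obtain ⟨q, hq⟩ : ∃ q, p = q + 1 := ⟨p - 1, by have := S.hp.pos; omega⟩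
          rw [hq, Nat.add_sub_cancel]; ring
        have hc : Commute (S.z ^ i) (t ^ (j * (p - 1))) := (htz.symm).pow_pow _ _
        calc t ^ j * S.z ^ i * (t ^ (j * (p - 1)) * S.z ^ (i * (p - 1)))
            = t ^ j * (S.z ^ i * t ^ (j * (p - 1))) * S.z ^ (i * (p - 1)) := by group
          _ = t ^ j * (t ^ (j * (p - 1)) * S.z ^ i) * S.z ^ (i * (p - 1)) := by rw [hc.eq]
          _ = (t ^ j * t ^ (j * (p - 1))) * (S.z ^ i * S.z ^ (i * (p - 1))) := by group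
          _ = 1 := by
            rw [← pow_add, ← pow_add, e, e, pow_mul, pow_mul, htp, hzp, one_pow, one_pow, one_mul]
    · rintro ⟨i, j, rfl⟩
      exact Subgroup.mul_mem _ (Subgroup.pow_mem _ (hΩsub t htM htp) _)
        (Subgroup.pow_mem _ (hΩsub _ (S.U_le_M S.z_mem) hzp) _)
  have hΩM : ∀ x ∈ Cfsg.omegaOne p (Subgroup.centralizer (Cfsg.powerClosure p 1 U : Set G)),
      x ∈ Subgroup.centralizer (Cfsg.powerClosure p 1 U : Set G) := by
    intro x hx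
    obtain ⟨i, j, rfl⟩ := (hΩ x).1 hx
    exact Subgroup.mul_mem _ (Subgroup.pow_mem _ htM _) (Subgroup.pow_mem _ (S.U_le_M S.z_mem) _)
  have hΩp : ∀ x ∈ Cfsg.omegaOne p (Subgroup.centralizer (Cfsg.powerClosure p 1 U : Set G)),
      x ^ p = 1 := by
    intro x hx
    obtain ⟨i, j, rfl⟩ := (hΩ x).1 hx
    exact hpow i j
  refine ⟨S.relIndex_M hn s hsM hsU, ⟨⟨⟨?_⟩⟩, hΩp⟩, ?_, ?_⟩
  · rintro ⟨x, hx⟩ ⟨y, hy⟩
    obtain ⟨i, j, rfl⟩ := (hΩ x).1 hx
    obtain ⟨i', j', rfl⟩ := (hΩ y).1 hy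
    exact Subtype.ext (hcomm i j i' j').eq
  · -- the order
    haveI := S.zpowers_z_normal hn1
    have hsup : Cfsg.omegaOne p (Subgroup.centralizer (Cfsg.powerClosure p 1 U : Set G)) =
        Subgroup.zpowers t ⊔ Subgroup.zpowers S.z := by
      apply le_antisymm
      · intro x hx
        obtain ⟨i, j, rfl⟩ := (hΩ x).1 hx
        exact Subgroup.mul_mem _
          (Subgroup.mem_sup_left (Subgroup.pow_mem _ (Subgroup.mem_zpowers _) _))
          (Subgroup.mem_sup_right (Subgroup.pow_mem _ (Subgroup.mem_zpowers _) _))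
      · rw [sup_le_iff, Subgroup.zpowers_le, Subgroup.zpowers_le]
        exact ⟨hΩsub t htM htp, hΩsub _ (S.U_le_M S.z_mem) hzp⟩
    have hto : orderOf t = p := orderOf_eq_prime htp (fun h => htU (h ▸ U.one_mem))
    have hinf : Subgroup.zpowers S.z ⊓ Subgroup.zpowers t = ⊥ := by
      have h1 : Nat.card ↥(Subgroup.zpowers S.z ⊓ Subgroup.zpowers t) ∣ p := by
        have := Subgroup.card_dvd_of_le
          (inf_le_right : Subgroup.zpowers S.z ⊓ Subgroup.zpowers t ≤ Subgroup.zpowers t)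
        rwa [Nat.card_zpowers, hto] at this
      rcases (Nat.dvd_prime S.hp).1 h1 with h2 | h2
      · exact Subgroup.eq_bot_of_card_eq _ h2
      · exfalso
        have h3 : Subgroup.zpowers S.z ⊓ Subgroup.zpowers t = Subgroup.zpowers t :=
          Subgroup.eq_of_le_of_card_ge inf_le_right (by rw [h2, Nat.card_zpowers, hto])
        have h4 : t ∈ Subgroup.zpowers S.z ⊓ Subgroup.zpowers t := by
          rw [h3]; exact Subgroup.mem_zpowers t
        exact htU ((Subgroup.zpowers_le.2 S.z_mem) h4.1)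
    have h1 := Subgroup.relIndex_mul_relIndex (⊥ : Subgroup G) (Subgroup.zpowers S.z)
      (Subgroup.zpowers t ⊔ Subgroup.zpowers S.z) bot_le le_sup_right
    rw [Subgroup.relIndex_bot_left, Subgroup.relIndex_bot_left, Subgroup.relIndex_sup_right,
      ← Subgroup.inf_relIndex_right, hinf, Subgroup.relIndex_bot_left, Nat.card_zpowers,
      Nat.card_zpowers, S.z_order hn1, hto] at h1
    rw [hsup, ← h1, sq]
  · -- characteristic
    rw [Subgroup.characteristic_iff_map_le]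
    intro φ e he
    obtain ⟨x, hx, rfl⟩ := Subgroup.mem_map.1 he
    have hxp := hΩp x hx
    have hφ : ∀ y, φ.toMonoidHom y = φ y := fun y => rfl
    rw [hφ]
    have hep : (φ x) ^ p = 1 := by rw [← map_pow, hxp, map_one]
    apply hΩsub _ _ hep
    -- the commutator of `φ x` with `u`
    have hnorm : ∀ g : G, ∀ y ∈ Cfsg.omegaOne p
        (Subgroup.centralizer (Cfsg.powerClosure p 1 U : Set G)),
        g * y * g⁻¹ ∈ Cfsg.omegaOne p (Subgroup.centralizer (Cfsg.powerClosure p 1 U : Set G)) := by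
      intro g y hy
      apply hΩsub _ (S.M_normal g y (hΩM y hy))
      rw [conj_pow, hΩp y hy]; group
    obtain ⟨c, hc⟩ : ∃ c, c = φ x * u * (φ x)⁻¹ * u⁻¹ := ⟨_, rfl⟩
    have hcU : c ∈ U := by
      rw [hc]; exact U.mul_mem (S.hUn.conj_mem u S.hu _) (U.inv_mem S.hu)
    have hcp : c ^ p = 1 := by
      -- c = φ (x * (φ⁻¹ u) x⁻¹ (φ⁻¹ u)⁻¹)
      have h1 : c = φ (x * (φ.symm u * x⁻¹ * (φ.symm u)⁻¹)) := by
        rw [hc]; simp [mul_assoc]
      have h2 : x * (φ.symm u * x⁻¹ * (φ.symm u)⁻¹) ∈ Cfsg.omegaOne p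
          (Subgroup.centralizer (Cfsg.powerClosure p 1 U : Set G)) :=
        Subgroup.mul_mem _ hx (hnorm _ _ (Subgroup.inv_mem _ hx))
      rw [h1, ← map_pow, hΩp _ h2, map_one]
    obtain ⟨j, hj⟩ := S.omega hn1 c hcU hcp
    rw [S.mem_M_iff]
    have h3 : φ x * u * (φ x)⁻¹ = S.z ^ j * u := by
      rw [← hj, hc]; group
    have hcu : Commute (S.z ^ j) u := S.comm _ (U.pow_mem S.z_mem _) _ S.hu
    rw [← conj_pow, h3, hcu.mul_pow, ← pow_mul, mul_comm j, pow_mul, hzp, one_pow, one_mul]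


/-! ### The case `M = U` (or `n = 2`) for `p = 2` -/

theorem z_central2 (S : Setup 2 n U u) (hn : 1 ≤ n) (g : G) : g * S.z * g⁻¹ = S.z := by
  obtain ⟨j, hj⟩ := S.z_conj hn g
  rcases S.z_sq_pow hn j with h | h
  · exfalso
    rw [h] at hj
    apply S.z_ne hn
    have e : S.z = g⁻¹ * (g * S.z * g⁻¹) * g := by group
    rw [e, hj]; group
  · rw [hj, h]

theorem actII (S : Setup 2 n U u)
    (hII : 3 ≤ n → ∀ s ∈ Subgroup.centralizer (Cfsg.powerClosure 2 1 U : Set G), s ∈ U)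
    (h : G) (hU : h ∉ U) (h2 : h ^ 2 ∈ U) :
    h * u * h⁻¹ = u⁻¹ ∨ (h * u * h⁻¹ = u⁻¹ * S.z ∧ 3 ≤ n) := by
  have hn := S.two_le_n h hU h2
  rcases S.trich h hU h2 with h1 | h1 | h1
  · have hM : h ∈ Subgroup.centralizer (Cfsg.powerClosure 2 1 U : Set G) := by
      rw [S.mem_M_iff, ← conj_pow, h1, (show Commute u S.z from S.comm _ S.hu _ S.z_mem).mul_pow,
        S.z_pow (by omega), mul_one]
    by_cases hn3 : 3 ≤ n
    · exact absurd (hII hn3 h hM) hU
    · have hn2 : n = 2 := by omega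
      subst hn2
      left
      rw [h1]
      have hz2 : S.z = u ^ 2 := rfl
      have h4 : u ^ 4 = 1 := by
        have := S.ho
        rw [show (4 : ℕ) = 2 ^ 2 from rfl, ← S.ho]; exact pow_orderOf_eq_one u
      rw [hz2, eq_inv_iff_mul_eq_one]
      calc u * u ^ 2 * u = u ^ 4 := by group
        _ = 1 := h4
  · left; exact h1
  · by_cases hn3 : 3 ≤ n
    · right; exact ⟨h1, hn3⟩
    · exfalso
      have hn2 : n = 2 := by omega
      subst hn2
      apply hU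
      have hz2 : S.z = u ^ 2 := rfl
      rw [S.mem_U_iff, h1, hz2]
      group

theorem sq_mem_II (S : Setup 2 n U u) (hG : IsPGroup 2 G)
    (hII : 3 ≤ n → ∀ s ∈ Subgroup.centralizer (Cfsg.powerClosure 2 1 U : Set G), s ∈ U)
    (hn : 2 ≤ n) (x : G) : x ^ 2 ∈ U := by
  by_contra hx2
  have hxU : x ∉ U := fun h => hx2 (U.pow_mem h 2)
  have hex : ∃ j, x ^ 2 ^ j ∈ U := by
    obtain ⟨k, hk⟩ := hG x
    exact ⟨k, by rw [hk]; exact U.one_mem⟩
  classical
  have hspec := Nat.find_spec hex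
  have hmin := fun m => Nat.find_min hex (m := m)
  obtain ⟨j, hj⟩ : ∃ j, Nat.find hex = j := ⟨_, rfl⟩
  rw [hj] at hspec hmin
  have hj2 : 2 ≤ j := by
    by_contra hlt
    have h01 : j = 0 ∨ j = 1 := by omega
    rcases h01 with rfl | rfl
    · apply hxU; simpa using hspec
    · apply hx2; simpa using hspec
  obtain ⟨i, rfl⟩ : ∃ i, j = i + 2 := ⟨j - 2, by omega⟩
  obtain ⟨y, hy⟩ : ∃ y, y = x ^ 2 ^ i := ⟨_, rfl⟩
  have hy4 : (y ^ 2) ^ 2 ∈ U := by
    have e : (y ^ 2) ^ 2 = x ^ 2 ^ (i + 2) := by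
      rw [hy, ← pow_mul, ← pow_mul]; congr 1; ring
    rw [e]; exact hspec
  have hy2 : y ^ 2 ∉ U := by
    have e : y ^ 2 = x ^ 2 ^ (i + 1) := by rw [hy, ← pow_mul, ← pow_succ]
    rw [e]
    exact hmin (i + 1) (by omega)
  obtain ⟨l, hl1, hl⟩ := S.act y
  have hact2 : y ^ 2 * u * (y ^ 2)⁻¹ = u ^ l ^ 2 := S.act_iter y l hl 2
  have hmod4 : ¬ 4 ∣ l ^ 2 + 1 := by
    intro h
    have h' : (l ^ 2 + 1) % 4 = 0 := Nat.mod_eq_zero_of_dvd h
    have hl4 : l % 4 = 0 ∨ l % 4 = 1 ∨ l % 4 = 2 ∨ l % 4 = 3 := by omega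
    rcases hl4 with h0 | h0 | h0 | h0 <;> simp [Nat.add_mod, Nat.pow_mod, h0] at h'
  have h4n : 4 ∣ 2 ^ n := by
    calc 4 = 2 ^ 2 := by norm_num
      _ ∣ 2 ^ n := pow_dvd_pow 2 hn
  rcases S.actII hII (y ^ 2) hy2 hy4 with h1 | ⟨h1, hn3⟩
  · rw [hact2] at h1
    have h5 : u ^ (l ^ 2 + 1) = 1 := by rw [pow_succ, h1, inv_mul_cancel]
    rw [S.pow_eq_one] at h5
    exact hmod4 (h4n.trans h5)
  · rw [hact2] at h1
    have h5 : u ^ (l ^ 2 + 1) = u ^ 2 ^ (n - 1) := by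
      rw [pow_succ, h1]
      have hc : S.z * u = u * S.z := S.comm _ S.z_mem _ S.hu
      rw [mul_assoc, hc, inv_mul_cancel_left]; rfl
    rw [S.pow_eq] at h5
    have h6 : l ^ 2 + 1 ≡ 2 ^ (n - 1) [MOD 4] := h5.of_dvd h4n
    have h7 : 4 ∣ 2 ^ (n - 1) := by
      calc 4 = 2 ^ 2 := by norm_num
        _ ∣ 2 ^ (n - 1) := pow_dvd_pow 2 (by omega)
    exact hmod4 ((Nat.modEq_zero_iff_dvd).1 (h6.trans ((Nat.modEq_zero_iff_dvd).2 h7)))

theorem mul_mem_II (S : Setup 2 n U u) (hG : IsPGroup 2 G)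
    (hII : 3 ≤ n → ∀ s ∈ Subgroup.centralizer (Cfsg.powerClosure 2 1 U : Set G), s ∈ U)
    (hn : 2 ≤ n) (g h : G) (hg : g ∉ U) (hh : h ∉ U) : h * g ∈ U := by
  have hg2 := S.sq_mem_II hG hII hn g
  have hh2 := S.sq_mem_II hG hII hn h
  have hzc := S.z_central2 (by omega : 1 ≤ n)
  have hzu : S.z * u = u * S.z := S.comm _ S.z_mem _ S.hu
  have hzz : S.z * S.z = 1 := by rw [← sq]; exact S.z_pow (by omega)
  have hzi : S.z⁻¹ = S.z := inv_eq_of_mul_eq_one_right hzz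
  have e : h * g * u * (h * g)⁻¹ = h * (g * u * g⁻¹) * h⁻¹ := by group
  have hinv : ∀ a b : G, h * (a * b) * h⁻¹ = (h * a * h⁻¹) * (h * b * h⁻¹) := by
    intros; group
  have hinv' : h * u⁻¹ * h⁻¹ = (h * u * h⁻¹)⁻¹ := by group
  have hMem : h * g * u * (h * g)⁻¹ = u * S.z → 3 ≤ n → h * g ∈ U := by
    intro h5 hn3
    apply hII hn3
    rw [S.mem_M_iff, ← conj_pow, h5, (show Commute u S.z from hzu.symm).mul_pow,
      S.z_pow (by omega), mul_one]
  rcases S.actII hII g hg hg2 with h1 | ⟨h1, hn3⟩ <;>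
    rcases S.actII hII h hh hh2 with h3 | ⟨h3, hn3'⟩
  · rw [S.mem_U_iff, e, h1, hinv', h3, inv_inv]
  · apply hMem _ hn3'
    rw [e, h1, hinv', h3, mul_inv_rev, inv_inv, hzi, hzu]
  · apply hMem _ hn3
    rw [e, h1, hinv, hinv', h3, inv_inv, hzc]
  · rw [S.mem_U_iff, e, h1, hinv, hinv', h3, hzc, mul_inv_rev, inv_inv, hzi, hzu, mul_assoc, hzz,
      mul_one]

theorem index_II (S : Setup 2 n U u) [Finite G] (hG : IsPGroup 2 G)
    (hII : 3 ≤ n → ∀ s ∈ Subgroup.centralizer (Cfsg.powerClosure 2 1 U : Set G), s ∈ U)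
    (hn : 2 ≤ n) (g : G) (hg : g ∉ U) : U.index = 2 := by
  rw [Subgroup.index_eq_two_iff]
  refine ⟨g, fun b => ?_⟩
  by_cases hb : b ∈ U
  · refine Or.inr ⟨hb, fun h => hg ?_⟩
    have := U.mul_mem (U.inv_mem hb) h
    rwa [inv_mul_cancel_left] at this
  · exact Or.inl ⟨S.mul_mem_II hG hII hn g b hg hb, hb⟩


theorem caseII (S : Setup 2 n U u) [Finite G] (hG : IsPGroup 2 G)
    (hII : 3 ≤ n → ∀ s ∈ Subgroup.centralizer (Cfsg.powerClosure 2 1 U : Set G), s ∈ U)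
    (g : G) (hg : g ∉ U) (hg2 : g ^ 2 ∈ U) (hcardU : Nat.card U = 2 ^ n) :
    Nat.card G = 2 ^ (n + 1) ∧ ((∃ m : ℕ, Nonempty (G ≃* DihedralGroup m)) ∨
      (∃ m : ℕ, Nonempty (G ≃* QuaternionGroup m)) ∨ Cfsg.IsQuasiDihedral G) := by
  haveI : Fact (Nat.Prime 2) := ⟨Nat.prime_two⟩
  have hn := S.two_le_n g hg hg2
  have hidx := S.index_II hG hII hn g hg
  have hcard : Nat.card G = 2 ^ (n + 1) := by
    rw [← U.card_mul_index, hidx, hcardU, pow_succ]
  refine ⟨hcard, ?_⟩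
  have hzz := S.z_pow (by omega : 1 ≤ n)
  have hact := S.actII hII g hg hg2
  have h6 : g * g ^ 2 * g⁻¹ = g ^ 2 := by group
  obtain ⟨i, hi⟩ := S.hgen _ hg2
  have hg2' : g ^ 2 = 1 ∨ g ^ 2 = S.z := by
    have hw4 : (g ^ 2) ^ 2 = 1 := by
      rcases hact with h1 | ⟨h1, hn3⟩
      · have h5 : g * g ^ 2 * g⁻¹ = (g ^ 2)⁻¹ := by
          rw [hi, ← conj_pow, h1, inv_pow]
        rw [h6] at h5
        rw [sq]; exact mul_eq_one_iff_eq_inv.2 h5
      · have h5 : g * g ^ 2 * g⁻¹ = (g ^ 2)⁻¹ * S.z ^ i := by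
          rw [hi, ← conj_pow, h1,
            (show Commute u⁻¹ S.z from S.comm _ (U.inv_mem S.hu) _ S.z_mem).mul_pow, inv_pow]
        rw [h6] at h5
        have h7 : (g ^ 2) ^ 2 = S.z ^ i := by
          calc (g ^ 2) ^ 2 = g ^ 2 * g ^ 2 := sq _
            _ = g ^ 2 * ((g ^ 2)⁻¹ * S.z ^ i) := by rw [← h5]
            _ = S.z ^ i := by group
        rcases Nat.even_or_odd i with ⟨i₁, rfl⟩ | ⟨i₁, rfl⟩
        · rw [h7, ← two_mul, pow_mul, hzz, one_pow]
        · exfalso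
          have h8 : S.z ^ (2 * i₁ + 1) = S.z := by rw [pow_succ, pow_mul, hzz, one_pow, one_mul]
          rw [h8, hi, ← pow_mul] at h7
          have h9 : u ^ ((2 * i₁ + 1) * 2) = u ^ 2 ^ (n - 1) := h7
          rw [S.pow_eq] at h9
          have h4n : 4 ∣ 2 ^ n := by
            calc 4 = 2 ^ 2 := by norm_num
              _ ∣ 2 ^ n := pow_dvd_pow 2 hn
          have h10 : (2 * i₁ + 1) * 2 ≡ 2 ^ (n - 1) [MOD 4] := h9.of_dvd h4n
          have h11 : 4 ∣ 2 ^ (n - 1) := by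
            calc 4 = 2 ^ 2 := by norm_num
              _ ∣ 2 ^ (n - 1) := pow_dvd_pow 2 (by omega)
          have h12 : 2 ^ (n - 1) % 4 = 0 := Nat.mod_eq_zero_of_dvd h11
          obtain ⟨r, hr⟩ : ∃ r, 2 ^ (n - 1) = r := ⟨_, rfl⟩
          rw [hr] at h10 h12
          unfold Nat.ModEq at h10
          omega
    obtain ⟨j, hj⟩ := S.omega (by omega) _ hg2 hw4
    rw [hj]; exact S.z_sq_pow (by omega) j
  rcases hact with h1 | ⟨h1, hn3⟩
  · rcases hg2' with h2 | h2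
    · left
      exact ⟨2 ^ n, Cfsg.Agent.Lib.Helper12.nonempty_mulEquiv_dihedral (pow_pos (by norm_num) n) u g
        (by rw [hcard, pow_succ, mul_comm]) S.ho (fun h => hg (Subgroup.zpowers_le.2 S.hu h)) h2 h1⟩
    · right; left
      obtain ⟨m, rfl⟩ : ∃ m, n = m + 2 := ⟨n - 2, by omega⟩
      refine ⟨2 ^ (m + 1), Cfsg.Agent.Lib.Helper12.nonempty_mulEquiv_quaternion ?_ u g ?_ ?_ h2 h1⟩
      · calc 2 = 2 ^ 1 := by norm_num
          _ ≤ 2 ^ (m + 1) := Nat.pow_le_pow_right (by norm_num) (by omega)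
      · rw [hcard]; ring
      · rw [S.ho]; ring
  · right; right
    refine ⟨n, hn3, hcard, u, ?_⟩
    have hconj : g * u * g⁻¹ = u ^ (2 ^ (n - 1) - 1) := by
      rw [h1, inv_mul_eq_iff_eq_mul, ← pow_succ']
      have h1le : 1 ≤ 2 ^ (n - 1) := Nat.one_le_two_pow
      rw [Nat.sub_add_cancel h1le]
      rfl
    rcases hg2' with h2 | h2
    · exact ⟨g, S.ho, orderOf_eq_prime h2 (fun h => hg (h ▸ U.one_mem)), hconj⟩
    · refine ⟨g * u, S.ho, orderOf_eq_prime ?_ ?_, ?_⟩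
      · calc (g * u) ^ 2 = (g * u * g⁻¹) * g ^ 2 * u := by rw [sq, sq]; group
          _ = u⁻¹ * S.z * S.z * u := by rw [h1, h2]
          _ = 1 := by rw [mul_assoc u⁻¹, ← sq, hzz, mul_one, inv_mul_cancel]
      · intro h
        apply hg
        have e : g = u⁻¹ := eq_inv_of_mul_eq_one_left h
        rw [e]; exact U.inv_mem S.hu
      · rw [← hconj]; group

end Setup

theorem result {G : Type*} [Group G] [Finite G] {p : ℕ} [Fact p.Prime] (hG : IsPGroup p G) (hna : ¬ IsMulCommutative G) (U : Subgroup G) [U.Normal] (hU : IsCyclic U) (n : ℕ) (hUn : Nat.card U = p ^ n) (hC : Subgroup.centralizer (U : Set G) = U) : (p = 2 ∧ Nat.card G = 2 ^ (n + 1) ∧ ((∃ m : ℕ, Nonempty (G ≃* DihedralGroup m)) ∨ (∃ m : ℕ, Nonempty (G ≃* QuaternionGroup m)) ∨ Cfsg.IsQuasiDihedral G)) ∨ (U.relIndex (Subgroup.centralizer (Cfsg.powerClosure p 1 U : Set G)) = p ∧ Cfsg.IsElementaryAbelian p (Cfsg.omegaOne p (Subgroup.centralizer (Cfsg.powerClosure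 p 1 U : Set G))) ∧ Nat.card ↥(Cfsg.omegaOne p (Subgroup.centralizer (Cfsg.powerClosure p 1 U : Set G))) = p ^ 2 ∧ (Cfsg.omegaOne p (Subgroup.centralizer (Cfsg.powerClosure p 1 U : Set G))).Characteristic) := by
  have hp : p.Prime := Fact.out
  obtain ⟨g0, hg0⟩ := IsCyclic.exists_monoid_generator (α := U)
  have S : Setup p n U (g0 : G) :=
    { hp := hp
      hu := g0.2
      hgen := by
        intro w hw
        obtain ⟨i, hi⟩ := (Submonoid.mem_powers_iff _ _).1 (hg0 ⟨w, hw⟩)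
        refine ⟨i, ?_⟩
        have := congrArg Subtype.val hi
        exact this.symm
      ho := by
        rw [Subgroup.orderOf_coe, ← hUn]
        apply orderOf_eq_card_of_forall_mem_zpowers
        intro x
        obtain ⟨i, hi⟩ := (Submonoid.mem_powers_iff _ _).1 (hg0 x)
        exact ⟨i, by simpa using hi⟩
      hUn := inferInstance
      hC := hC }
  have hex : ∃ h, h ∉ U := by
    by_contra hall
    push Not at hall
    exact hna ⟨⟨fun a b => S.comm a (hall a) b (hall b)⟩⟩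
  obtain ⟨h, hh⟩ := hex
  have hex2 : ∃ j, h ^ p ^ j ∈ U := by
    obtain ⟨k, hk⟩ := hG h
    exact ⟨k, by rw [hk]; exact U.one_mem⟩
  classical
  have hspec := Nat.find_spec hex2
  have hmin := fun m => Nat.find_min hex2 (m := m)
  obtain ⟨j, hj⟩ : ∃ j, Nat.find hex2 = j := ⟨_, rfl⟩
  rw [hj] at hspec hmin
  have hj0 : j ≠ 0 := by
    rintro rfl
    apply hh
    simpa using hspec
  obtain ⟨i, rfl⟩ : ∃ i, j = i + 1 := ⟨j - 1, by omega⟩
  have hgU : h ^ p ^ i ∉ U := hmin i (by omega)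
  have hgp : (h ^ p ^ i) ^ p ∈ U := by rw [← pow_mul, ← pow_succ]; exact hspec
  have hn := S.two_le_n _ hgU hgp
  by_cases hI : (∃ s, s ∈ Subgroup.centralizer (Cfsg.powerClosure p 1 U : Set G) ∧ s ∉ U) ∧
      (p ≠ 2 ∨ 3 ≤ n)
  · obtain ⟨⟨s, hsM, hsU⟩, hpn⟩ := hI
    exact Or.inr (S.caseI hn hpn s hsM hsU)
  · left
    have hp2 : p = 2 := by
      by_contra hp2
      exact hI ⟨⟨_, S.mem_M_of_odd (hp.odd_of_ne_two hp2) _ hgU hgp, hgU⟩, Or.inl hp2⟩
    subst hp2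
    have hII : 3 ≤ n → ∀ s ∈ Subgroup.centralizer (Cfsg.powerClosure 2 1 U : Set G), s ∈ U := by
      intro hn3 s hs
      by_contra hsU
      exact hI ⟨⟨s, hs, hsU⟩, Or.inr hn3⟩
    exact ⟨rfl, S.caseII hG hII _ hgU hgp hUn⟩

end Cfsg.Agent.S3761
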