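import Cfsg.Statements.S4565
import Mathlib
import Cfsg.Agent.Lib.Helper21.Ext
import Cfsg.Agent.Lib.Helper35.Ind
import Cfsg.Agent.Lib.Helper4.CharDecomp
import Cfsg.Agent.Lib.Helper83.Ortho
import Cfsg.Agent.Lib.Helper83.Quot
import Cfsg.Agent.Lib.Helper83.IrrBasic
import Cfsg.Agent.Lib.Helper20.Clifford
import Cfsg.Agent.S0868
-- import your own Cfsg.Agent.* helpers here

set_option autoImplicit false
open Cfsg

namespace Cfsg.Agent.S4565

open scoped ComplexConjugate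
open Cfsg.Agent.Lib

/-- An invariant irreducible character of a normal subgroup with cyclic quotient extends. -/
theorem cyclic_ext {G : Type*} [Group G] [Finite G] (N : Subgroup G) [hN : N.Normal]
    (hcyc : IsCyclic (G ⧸ N)) (θ : N → ℂ) (hθ : IsIrrCharacter N θ)
    (hinv : ∀ (g : G) (n : N), θ (MulAut.conjNormal g n) = θ n) :
    ∃ μ : G → ℂ, IsIrrCharacter G μ ∧ ∀ n : N, μ n = θ n := by
  obtain ⟨d, ρ, hρ, rfl⟩ := hθ
  haveI := hρ
  have hnt : Nontrivial (Fin d → ℂ) := Helper5.irr_nontrivial ρ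
  have hsurj := Helper21.pi1_surjective N ρ hinv
  -- the quotient Γ / N₀ is abelian
  let f : Helper21.gam N ρ ⧸ (Helper21.nEmb N ρ).range →* G ⧸ N :=
    QuotientGroup.lift _ ((QuotientGroup.mk' N).comp (Helper21.pi1 N ρ)) (by
      rintro x ⟨n, rfl⟩
      rw [MonoidHom.mem_ker, MonoidHom.comp_apply, Helper21.pi1_nEmb]
      exact (QuotientGroup.eq_one_iff _).mpr n.2)
  have hker : f.ker ≤ Subgroup.center (Helper21.gam N ρ ⧸ (Helper21.nEmb N ρ).range) := by
    intro a ha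
    obtain ⟨x, rfl⟩ := QuotientGroup.mk_surjective a
    rw [MonoidHom.mem_ker] at ha
    have hx : Helper21.pi1 N ρ x ∈ N := (QuotientGroup.eq_one_iff _).mp ha
    obtain ⟨c, hc⟩ := Helper21.exists_zc_of_pi1_eq N ρ x (Helper21.nEmb N ρ ⟨_, hx⟩)
      (by rw [Helper21.pi1_nEmb])
    have h1 : (QuotientGroup.mk x : Helper21.gam N ρ ⧸ (Helper21.nEmb N ρ).range) =
        QuotientGroup.mk (Helper21.zc N ρ c) := by
      rw [hc, QuotientGroup.mk_mul]
      have : (QuotientGroup.mk (Helper21.nEmb N ρ ⟨_, hx⟩) :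
          Helper21.gam N ρ ⧸ (Helper21.nEmb N ρ).range) = 1 :=
        (QuotientGroup.eq_one_iff _).mpr ⟨_, rfl⟩
      rw [this, mul_one]
    rw [h1, Subgroup.mem_center_iff]
    intro b
    obtain ⟨y, rfl⟩ := QuotientGroup.mk_surjective b
    rw [← QuotientGroup.mk_mul, ← QuotientGroup.mk_mul, Helper21.zc_central]
  have hab : ∀ a b : Helper21.gam N ρ ⧸ (Helper21.nEmb N ρ).range, a * b = b * a :=
    fun a b => (f.isMulCommutative_of_isCyclic_of_ker_le_center hker).is_comm.comm a b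
  have hcomm : commutator (Helper21.gam N ρ ⧸ (Helper21.nEmb N ρ).range) = ⊥ := by
    rw [commutator_eq_bot_iff_center_eq_top, eq_top_iff]
    intro a _
    rw [Subgroup.mem_center_iff]
    intro b
    exact hab b a
  have hdisj : ∀ c : ℂˣ, (QuotientGroup.mk' (Helper21.nEmb N ρ).range (Helper21.zc N ρ c)) ∈
      commutator (Helper21.gam N ρ ⧸ (Helper21.nEmb N ρ).range) → c = 1 := by
    intro c hc
    rw [hcomm, Subgroup.mem_bot] at hc
    have h1 : Helper21.zc N ρ c ∈ (Helper21.nEmb N ρ).range := (QuotientGroup.eq_one_iff _).mp hc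
    obtain ⟨n, hn⟩ := h1
    have h2 : (n : G) = 1 := by
      have := congrArg (Helper21.pi1 N ρ) hn
      rw [Helper21.pi1_nEmb, Helper21.pi1_zc] at this
      exact this
    have h3 : n = 1 := Subtype.ext h2
    rw [h3, map_one] at hn
    have h4 := congrArg (Helper21.pi2 N ρ) hn
    rw [Helper21.pi2_zc, map_one] at h4
    apply Helper21.sc_injective (V := Fin d → ℂ)
    rw [← h4, map_one]
  obtain ⟨σ, hσ⟩ := Helper21.exists_ext_of_disjoint N ρ hsurj hdisj
  obtain ⟨h1, h2⟩ := Helper21.irr_of_res N σ ρ hσ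
  exact ⟨σ.character, h1, h2⟩

/-- A character whose degree is accounted for by one irreducible constituent is a multiple of it. -/
theorem eq_smul_of_degree {H : Type*} [Group H] [Fintype (IrrCharacter H)]
    (Φ : H → ℂ) (m : IrrCharacter H → ℕ)
    (hm : Φ = ∑ ψ : IrrCharacter H, (m ψ : ℂ) • (ψ : H → ℂ)) (χ : IrrCharacter H)
    (h1 : Φ 1 = (m χ : ℂ) * (χ : H → ℂ) 1) : Φ = (m χ : ℂ) • (χ : H → ℂ) := by
  classical
  have hd : ∀ ψ : IrrCharacter H, (ψ : H → ℂ) 1 = (charDegree (ψ : H → ℂ) : ℂ) :=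
    fun ψ => (Helper83.irr_degree ψ.2).2
  have hpos : ∀ ψ : IrrCharacter H, 0 < charDegree (ψ : H → ℂ) :=
    fun ψ => (Helper83.irr_degree ψ.2).1
  have h2 : ∑ ψ : IrrCharacter H, m ψ * charDegree (ψ : H → ℂ) = m χ * charDegree (χ : H → ℂ) := by
    have h3 : Φ 1 = ∑ ψ : IrrCharacter H, (m ψ : ℂ) * (ψ : H → ℂ) 1 := by
      rw [hm]; simp [Finset.sum_apply]
    rw [h1] at h3
    simp only [hd] at h3
    exact_mod_cast h3.symm
  have h4 : ∀ ψ : IrrCharacter H, ψ ≠ χ → m ψ = 0 := by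
    intro ψ hψ
    rw [← Finset.add_sum_erase Finset.univ _ (Finset.mem_univ χ)] at h2
    have h5 : ∑ ψ' ∈ Finset.univ.erase χ, m ψ' * charDegree (ψ' : H → ℂ) = 0 := by omega
    have h6 := (Finset.sum_eq_zero_iff.mp h5) ψ (Finset.mem_erase.mpr ⟨hψ, Finset.mem_univ _⟩)
    rcases Nat.mul_eq_zero.mp h6 with h | h
    · exact h
    · exact absurd h (hpos ψ).ne'
  rw [hm]
  rw [Finset.sum_eq_single χ]
  · intro ψ _ hψ
    rw [h4 ψ hψ]; simp
  · intro h; exact absurd (Finset.mem_univ _) h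

/-- A fully ramified character vanishes off the normal subgroup. -/
theorem vanish_off {H : Type*} [Group H] [Fintype H] (Z : Subgroup H) [Fintype Z] (χ : H → ℂ)
    (hχ : IsIrrCharacter H χ) (θ : Z → ℂ) (hθ : IsIrrCharacter Z θ) (e : ℕ)
    (he : e ^ 2 = Z.index) (hres : ∀ z : Z, χ z = (e : ℂ) * θ z) :
    ∀ h : H, h ∉ Z → χ h = 0 := by
  classical
  have hH : (Nat.card H : ℂ) ≠ 0 := by exact_mod_cast (Nat.card_pos (α := H)).ne'
  have hZ : (Nat.card Z : ℂ) ≠ 0 := by exact_mod_cast (Nat.card_pos (α := Z)).ne'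
  have h1 : ∑ h : H, χ h * conj (χ h) = (Nat.card H : ℂ) := by
    have := Helper35.classInner_irr' hχ hχ
    rw [if_pos rfl] at this
    unfold classInner at this
    rw [inv_mul_eq_iff_eq_mul₀ hH, mul_one] at this
    exact this
  have h2 : ∑ z : Z, θ z * conj (θ z) = (Nat.card Z : ℂ) := by
    have := Helper35.classInner_irr' hθ hθ
    rw [if_pos rfl] at this
    unfold classInner at this
    rw [inv_mul_eq_iff_eq_mul₀ hZ, mul_one] at this
    exact this
  have h3 : ∑ z : Z, χ z * conj (χ z) = (Nat.card H : ℂ) := by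
    have : ∀ z : Z, χ z * conj (χ z) = (e : ℂ) ^ 2 * (θ z * conj (θ z)) := by
      intro z
      rw [hres z, map_mul, Complex.conj_natCast]; ring
    simp_rw [this]
    rw [← Finset.mul_sum, h2, ← Subgroup.card_mul_index Z, ← he]
    push_cast; ring
  -- real version
  have h1r : ∑ h : H, Complex.normSq (χ h) = (Nat.card H : ℝ) := by
    have : ((∑ h : H, Complex.normSq (χ h) : ℝ) : ℂ) = ((Nat.card H : ℝ) : ℂ) := by
      push_cast
      rw [← h1]
      exact Finset.sum_congr rfl fun h _ => (Complex.mul_conj _).symm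
    exact_mod_cast this
  have h3r : ∑ z : Z, Complex.normSq (χ z) = (Nat.card H : ℝ) := by
    have : ((∑ z : Z, Complex.normSq (χ z) : ℝ) : ℂ) = ((Nat.card H : ℝ) : ℂ) := by
      push_cast
      rw [← h3]
      exact Finset.sum_congr rfl fun h _ => (Complex.mul_conj _).symm
    exact_mod_cast this
  have h4 : ∑ h ∈ Finset.univ.filter (fun h : H => h ∈ Z), Complex.normSq (χ h) =
      ∑ z : Z, Complex.normSq (χ z) :=
    Finset.sum_subtype (Finset.univ.filter (fun h : H => h ∈ Z)) (by simp)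
      (fun h => Complex.normSq (χ h))
  have h5 := Finset.sum_filter_add_sum_filter_not Finset.univ (fun h : H => h ∈ Z)
    (fun h => Complex.normSq (χ h))
  rw [h4, h3r, h1r] at h5
  have h6 : ∑ h ∈ Finset.univ.filter (fun h : H => ¬ h ∈ Z), Complex.normSq (χ h) = 0 := by
    linarith
  intro h hh
  have h7 := (Finset.sum_eq_zero_iff_of_nonneg (fun h _ => Complex.normSq_nonneg (χ h))).mp h6 h
    (Finset.mem_filter.mpr ⟨Finset.mem_univ _, hh⟩)
  exact Complex.normSq_eq_zero.mp h7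

/-- A character of `H` whose restriction to `Z` is a multiple of `θ` is a multiple of the fully
ramified character `χ`, hence vanishes off `Z`. -/
theorem mult_vanish {H : Type*} [Group H] [Fintype H] (Z : Subgroup H) [Fintype Z]
    (χ : IrrCharacter H) (θ : Z → ℂ) (hθ : IsIrrCharacter Z θ) (e : ℕ)
    (he : e ^ 2 = Z.index) (hres : ∀ z : Z, (χ : H → ℂ) z = (e : ℂ) * θ z)
    (Φ : H → ℂ) (hΦ : IsCharacter H Φ) (c : ℂ) (hΦZ : ∀ z : Z, Φ z = c * θ z) :
    ∀ h : H, h ∉ Z → Φ h = 0 := by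
  classical
  have hfin := Helper4.irr_finite (G := H)
  letI : Fintype (IrrCharacter H) := Fintype.ofFinite _
  have hθθ : classInner θ θ = 1 := by
    have := Helper35.classInner_irr' hθ hθ
    rwa [if_pos rfl] at this
  have he0 : e ≠ 0 := by
    rintro rfl
    have : Z.index = 0 := by rw [← he]; simp
    exact Subgroup.index_ne_zero_of_finite this
  have hec : (e : ℂ) ≠ 0 := by exact_mod_cast he0
  have hχcf : IsClassFunction H (χ : H → ℂ) :=
    Helper35.isClassFunction_of_isCharacter (Helper35.isChar_of_irr χ.2)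
  have hΦcf : IsClassFunction H Φ := Helper35.isClassFunction_of_isCharacter hΦ
  -- θ^H = e χ
  have hΘ : IsCharacter H (indFun Z θ) := Helper35.isCharacter_indFun Z (Helper35.isChar_of_irr hθ)
  obtain ⟨n, hn⟩ := Helper4.exists_decomp_of_isCharacter (indFun Z θ) hΘ
  have hnχ : (n χ : ℂ) = e := by
    have h1 : classInner (indFun Z θ) (χ : H → ℂ) = (n χ : ℂ) := by
      rw [hn]; exact Helper4.classInner_sum_irr _ χ
    rw [← h1, Helper4.frobenius_reciprocity Z θ _ hχcf]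
    have h2 : (fun z : Z => (χ : H → ℂ) z) = fun z : Z => (e : ℂ) * θ z := funext hres
    rw [h2]
    unfold classInner at hθθ ⊢
    have h3 : ∀ z : Z, θ z * conj ((e : ℂ) * θ z) = (e : ℂ) * (θ z * conj (θ z)) := by
      intro z; rw [map_mul, Complex.conj_natCast]; ring
    simp_rw [h3]
    rw [← Finset.mul_sum, mul_left_comm, hθθ, mul_one]
  have hΘeq : indFun Z θ = (n χ : ℂ) • (χ : H → ℂ) := by
    apply eq_smul_of_degree _ n hn χ
    rw [Helper35.indFun_one_eq, hnχ, ← he]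
    have := hres 1
    rw [OneMemClass.coe_one] at this
    rw [this]; push_cast; ring
  -- decomposition of Φ
  obtain ⟨m, hm⟩ := Helper4.exists_decomp_of_isCharacter Φ hΦ
  have hmχ : classInner Φ (χ : H → ℂ) = (m χ : ℂ) := by
    rw [hm]; exact Helper4.classInner_sum_irr _ χ
  have hc : c = (e : ℂ) * (m χ : ℂ) := by
    have h1 : classInner Φ (indFun Z θ) = c := by
      rw [Helper35.frobenius_reciprocity' Z θ Φ hΦcf]
      have h2 : Helper35.res Z Φ = fun z : Z => c * θ z := funext hΦZ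
      rw [h2]
      unfold classInner at hθθ ⊢
      have h3 : ∀ z : Z, c * θ z * conj (θ z) = c * (θ z * conj (θ z)) := fun z => by ring
      simp_rw [h3]
      rw [← Finset.mul_sum, mul_left_comm, hθθ, mul_one]
    rw [← h1, hΘeq, hnχ]
    have h4 : classInner Φ ((e : ℂ) • (χ : H → ℂ)) = (e : ℂ) * classInner Φ (χ : H → ℂ) := by
      unfold classInner
      have h5 : ∀ g : H, Φ g * conj (((e : ℂ) • (χ : H → ℂ)) g) =
          (e : ℂ) * (Φ g * conj ((χ : H → ℂ) g)) := by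
        intro g
        rw [Pi.smul_apply, smul_eq_mul, map_mul, Complex.conj_natCast]; ring
      simp_rw [h5]
      rw [← Finset.mul_sum]; ring
    rw [h4, hmχ]
  have hΦeq : Φ = (m χ : ℂ) • (χ : H → ℂ) := by
    apply eq_smul_of_degree _ m hm χ
    have h1 := hΦZ 1
    have h2 := hres 1
    rw [OneMemClass.coe_one] at h1 h2
    rw [h1, h2, hc]; ring
  have hvan := vanish_off Z (χ : H → ℂ) χ.2 θ hθ e he hres
  intro h hh
  rw [hΦeq, Pi.smul_apply, hvan h hh, smul_zero]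

/-- The restriction to `Z` of a character induced from `K ≥ Z`. -/
theorem ind_res {H : Type*} [Group H] [Fintype H] (Z K : Subgroup H) [hZ : Z.Normal]
    (hZK : Z ≤ K) (θ : Z → ℂ)
    (hθinv : ∀ (x : H) (z : Z) (h : x⁻¹ * (z : H) * x ∈ Z), θ ⟨x⁻¹ * (z : H) * x, h⟩ = θ z)
    (φ : K → ℂ) (b : ℂ) (hφ : ∀ z : Z, φ ⟨(z : H), hZK z.2⟩ = b * θ z) (z : Z) :
    indFun K φ z = ((Nat.card K : ℂ)⁻¹ * (Nat.card H : ℂ) * b) * θ z := by
  unfold indFun
  have h1 : ∀ x : H, extendByZero K φ (x⁻¹ * (z : H) * x) = b * θ z := by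
    intro x
    have hx : x⁻¹ * (z : H) * x ∈ Z := by
      have := hZ.conj_mem (z : H) z.2 x⁻¹
      rwa [inv_inv] at this
    have h2 : extendByZero K φ (x⁻¹ * (z : H) * x) = φ ⟨x⁻¹ * (z : H) * x, hZK hx⟩ :=
      Subtype.val_injective.extend_apply φ 0 (⟨x⁻¹ * (z : H) * x, hZK hx⟩ : K)
    rw [h2, hφ ⟨x⁻¹ * (z : H) * x, hx⟩, hθinv x z hx]
  simp_rw [h1]
  rw [Finset.sum_const, Finset.card_univ, nsmul_eq_mul, ← Nat.card_eq_fintype_card]
  ring

/-- Somewhere on each coset of `N`, an irreducible character restricting irreducibly to `N` is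
non-zero. -/
theorem exists_ne_zero_coset {K : Type*} [Group K] [Fintype K] (N : Subgroup K) [N.Normal]
    [Fintype N] (μ : K → ℂ) (hμ : IsIrrCharacter K μ)
    (hμN : IsIrrCharacter N (fun n : N => μ n)) (g : K) :
    ∃ k : K, (k : K ⧸ N) = (g : K ⧸ N) ∧ μ k ≠ 0 := by
  classical
  by_contra hcon
  push Not at hcon
  set ξ : K → ℂ := fun k => if (k : K ⧸ N) = (g : K ⧸ N) then 1 else 0 with hξdef
  have hξ : ∀ (k : K) (n : N), ξ (n * k) = ξ k := by
    intro k n
    simp only [hξdef]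
    have : (((n : K) * k : K) : K ⧸ N) = (k : K ⧸ N) := by
      rw [QuotientGroup.mk_mul, (QuotientGroup.eq_one_iff (n : K)).mpr n.2, one_mul]
    rw [this]
  have h1 := S0868.classInner_mul_ext N hμ hμN hξ hξ
  have h2 : ξ * μ = 0 := by
    funext k
    simp only [Pi.mul_apply, Pi.zero_apply, hξdef]
    split_ifs with h
    · rw [hcon k h, mul_zero]
    · rw [zero_mul]
  rw [h2] at h1
  have h3 : classInner (0 : K → ℂ) 0 = 0 := by simp [classInner]
  rw [h3] at h1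
  have hK : (Nat.card K : ℂ) ≠ 0 := by exact_mod_cast (Nat.card_pos (α := K)).ne'
  unfold classInner at h1
  have h4 : ∑ k : K, ξ k * conj (ξ k) = 0 := by
    rcases mul_eq_zero.mp h1.symm with h | h
    · exact absurd h (inv_ne_zero hK)
    · exact h
  have h5 : ∀ k : K, ξ k * conj (ξ k) = ξ k := by
    intro k; simp only [hξdef]; split_ifs <;> simp
  simp_rw [h5] at h4
  have h6 : ∑ k : K, ξ k =
      ((Finset.univ.filter (fun k : K => (k : K ⧸ N) = (g : K ⧸ N))).card : ℂ) := by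
    simp only [hξdef]; rw [Finset.sum_boole]
  rw [h6] at h4
  have h7 : (Finset.univ.filter (fun k : K => (k : K ⧸ N) = (g : K ⧸ N))).card ≠ 0 := by
    apply Finset.card_ne_zero_of_mem (a := g); simp
  exact h7 (by exact_mod_cast h4)

/-- Fourier inversion over the characters of `K / Z`. -/
theorem fourier_vanish {H : Type*} [Group H] [Fintype H] (Z K : Subgroup H) [hZ : Z.Normal]
    (hcomm : ∀ a b : ↥K ⧸ Z.subgroupOf K, a * b = b * a)
    (μ : K → ℂ) (hμ : IsIrrCharacter K μ)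
    (hvan : ∀ β : IrrCharacter (↥K ⧸ Z.subgroupOf K), ∀ h : H, h ∉ Z →
      indFun K (fun k : K => (β : ↥K ⧸ Z.subgroupOf K → ℂ) (k : ↥K ⧸ Z.subgroupOf K) * μ k) h = 0)
    (g : K) (hgZ : (g : H) ∉ Z)
    (hcen : ∀ x : H, x⁻¹ * (g : H) * x * (g : H)⁻¹ ∈ Z → x ∈ K) :
    μ g = 0 := by
  classical
  letI : Fintype K := Fintype.ofFinite K
  letI : Fintype (↥K ⧸ Z.subgroupOf K) := Fintype.ofFinite _
  have hfin := Helper4.irr_finite (G := ↥K ⧸ Z.subgroupOf K)
  letI : Fintype (IrrCharacter (↥K ⧸ Z.subgroupOf K)) := Fintype.ofFinite _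
  have hcK : (Nat.card K : ℂ) ≠ 0 := by exact_mod_cast (Nat.card_pos (α := K)).ne'
  have h1 : ∀ β : IrrCharacter (↥K ⧸ Z.subgroupOf K), ∑ x : H, extendByZero K
      (fun k : K => (β : ↥K ⧸ Z.subgroupOf K → ℂ) (k : ↥K ⧸ Z.subgroupOf K) * μ k)
      (x⁻¹ * (g : H) * x) = 0 := by
    intro β
    have := hvan β (g : H) hgZ
    unfold indFun at this
    exact (mul_eq_zero.mp this).resolve_left (inv_ne_zero hcK)
  have h2 : ∑ β : IrrCharacter (↥K ⧸ Z.subgroupOf K),
      conj ((β : ↥K ⧸ Z.subgroupOf K → ℂ) (g : ↥K ⧸ Z.subgroupOf K)) * ∑ x : H, extendByZero K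
      (fun k : K => (β : ↥K ⧸ Z.subgroupOf K → ℂ) (k : ↥K ⧸ Z.subgroupOf K) * μ k)
      (x⁻¹ * (g : H) * x) = 0 := by
    apply Finset.sum_eq_zero; intro β _; rw [h1 β, mul_zero]
  simp_rw [Finset.mul_sum] at h2
  rw [Finset.sum_comm] at h2
  have h3 : ∀ x : H, ∑ β : IrrCharacter (↥K ⧸ Z.subgroupOf K),
      conj ((β : ↥K ⧸ Z.subgroupOf K → ℂ) (g : ↥K ⧸ Z.subgroupOf K)) * extendByZero K
      (fun k : K => (β : ↥K ⧸ Z.subgroupOf K → ℂ) (k : ↥K ⧸ Z.subgroupOf K) * μ k)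
      (x⁻¹ * (g : H) * x) =
      if x ∈ K then (Nat.card (Subgroup.centralizer
        ({(g : ↥K ⧸ Z.subgroupOf K)} : Set (↥K ⧸ Z.subgroupOf K))) : ℂ) * μ g else 0 := by
    intro x
    by_cases hxK : x⁻¹ * (g : H) * x ∈ K
    · have hext : ∀ β : IrrCharacter (↥K ⧸ Z.subgroupOf K), extendByZero K
          (fun k : K => (β : ↥K ⧸ Z.subgroupOf K → ℂ) (k : ↥K ⧸ Z.subgroupOf K) * μ k)
          (x⁻¹ * (g : H) * x) =
          (β : ↥K ⧸ Z.subgroupOf K → ℂ) ((⟨x⁻¹ * (g : H) * x, hxK⟩ : K) : ↥K ⧸ Z.subgroupOf K) *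
            μ ⟨x⁻¹ * (g : H) * x, hxK⟩ := by
        intro β
        exact Subtype.val_injective.extend_apply _ _ (⟨x⁻¹ * (g : H) * x, hxK⟩ : K)
      simp_rw [hext]
      have hsum : ∑ β : IrrCharacter (↥K ⧸ Z.subgroupOf K),
          conj ((β : ↥K ⧸ Z.subgroupOf K → ℂ) (g : ↥K ⧸ Z.subgroupOf K)) *
          ((β : ↥K ⧸ Z.subgroupOf K → ℂ) ((⟨x⁻¹ * (g : H) * x, hxK⟩ : K) : ↥K ⧸ Z.subgroupOf K) *
            μ ⟨x⁻¹ * (g : H) * x, hxK⟩) =
          (∑ β : IrrCharacter (↥K ⧸ Z.subgroupOf K),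
            (β : ↥K ⧸ Z.subgroupOf K → ℂ) ((⟨x⁻¹ * (g : H) * x, hxK⟩ : K) : ↥K ⧸ Z.subgroupOf K) *
            conj ((β : ↥K ⧸ Z.subgroupOf K → ℂ) (g : ↥K ⧸ Z.subgroupOf K))) *
            μ ⟨x⁻¹ * (g : H) * x, hxK⟩ := by
        rw [Finset.sum_mul]; exact Finset.sum_congr rfl fun β _ => by ring
      rw [hsum, Helper83.column_orthogonality]
      by_cases hx : x ∈ K
      · rw [if_pos hx]
        have hkeq : (⟨x⁻¹ * (g : H) * x, hxK⟩ : K) = (⟨x, hx⟩ : K)⁻¹ * g * ((⟨x, hx⟩ : K)⁻¹)⁻¹ := by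
          apply Subtype.ext; simp
        have hconj : IsConj (g : ↥K ⧸ Z.subgroupOf K)
            ((⟨x⁻¹ * (g : H) * x, hxK⟩ : K) : ↥K ⧸ Z.subgroupOf K) := by
          rw [isConj_iff]
          refine ⟨(((⟨x, hx⟩ : K)⁻¹ : K) : ↥K ⧸ Z.subgroupOf K), ?_⟩
          rw [hkeq]; rfl
        rw [if_pos hconj]
        have hμeq : μ ⟨x⁻¹ * (g : H) * x, hxK⟩ = μ g := by
          have hcf := Helper35.isClassFunction_of_isCharacter (Helper35.isChar_of_irr hμ)
          rw [hkeq]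
          exact hcf g (⟨x, hx⟩ : K)⁻¹
        rw [hμeq]
      · rw [if_neg hx]
        have hnc : ¬ IsConj (g : ↥K ⧸ Z.subgroupOf K)
            ((⟨x⁻¹ * (g : H) * x, hxK⟩ : K) : ↥K ⧸ Z.subgroupOf K) := by
          intro hc
          rw [isConj_iff] at hc
          obtain ⟨c, hc⟩ := hc
          have heq : (g : ↥K ⧸ Z.subgroupOf K) =
              ((⟨x⁻¹ * (g : H) * x, hxK⟩ : K) : ↥K ⧸ Z.subgroupOf K) := by
            rw [← hc, hcomm c (g : ↥K ⧸ Z.subgroupOf K), mul_inv_cancel_right]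
          have hmem : g⁻¹ * (⟨x⁻¹ * (g : H) * x, hxK⟩ : K) ∈ Z.subgroupOf K :=
            QuotientGroup.eq.mp heq
          apply hx; apply hcen
          have h5 : (g : H)⁻¹ * (x⁻¹ * (g : H) * x) ∈ Z := by
            have := Subgroup.mem_subgroupOf.mp hmem
            simpa using this
          have h6 := hZ.conj_mem _ h5 (g : H)
          have h7 : (g : H) * ((g : H)⁻¹ * (x⁻¹ * (g : H) * x)) * (g : H)⁻¹ =
              x⁻¹ * (g : H) * x * (g : H)⁻¹ := by group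
          rwa [h7] at h6
        rw [if_neg hnc, zero_mul]
    · have hext : ∀ β : IrrCharacter (↥K ⧸ Z.subgroupOf K), extendByZero K
          (fun k : K => (β : ↥K ⧸ Z.subgroupOf K → ℂ) (k : ↥K ⧸ Z.subgroupOf K) * μ k)
          (x⁻¹ * (g : H) * x) = 0 := by
        intro β
        unfold extendByZero
        rw [Function.extend_apply']
        · rfl
        · rintro ⟨k, hk⟩; exact hxK (hk ▸ k.2)
      simp_rw [hext, mul_zero, Finset.sum_const_zero]
      have hx : x ∉ K := fun hx => hxK (K.mul_mem (K.mul_mem (K.inv_mem hx) g.2) hx)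
      rw [if_neg hx]
  simp_rw [h3] at h2
  rw [Finset.sum_ite, Finset.sum_const_zero, add_zero, Finset.sum_const, nsmul_eq_mul] at h2
  have hne1 : ((Finset.univ.filter (fun x : H => x ∈ K)).card : ℂ) ≠ 0 := by
    have : (Finset.univ.filter (fun x : H => x ∈ K)).card ≠ 0 := by
      apply Finset.card_ne_zero_of_mem (a := (1 : H)); simp [K.one_mem]
    exact_mod_cast this
  have hne2 : (Nat.card (Subgroup.centralizer
      ({(g : ↥K ⧸ Z.subgroupOf K)} : Set (↥K ⧸ Z.subgroupOf K))) : ℂ) ≠ 0 := by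
    exact_mod_cast (Nat.card_pos (α := Subgroup.centralizer
      ({(g : ↥K ⧸ Z.subgroupOf K)} : Set (↥K ⧸ Z.subgroupOf K)))).ne'
  rcases mul_eq_zero.mp h2 with h | h
  · exact absurd h hne1
  · rcases mul_eq_zero.mp h with h' | h'
    · exact absurd h' hne2
    · exact h'

/-- Let χ be an irreducible character of the finite group H that is fully ramified over the normal subgroup Z: the restriction of χ to Z is e times an irreducible character of Z with e ^ 2 equal to the index of Z. If Z ≠ H, then H/Z has no cyclic subgroup that is its own centralizer. -/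
theorem result {H : Type*} [Group H] [Finite H] (Z : Subgroup H) [Z.Normal] (χ : Cfsg.IrrCharacter H) (hfr : ∃ (θ : Cfsg.IrrCharacter ↥Z) (e : ℕ), e ^ 2 = Z.index ∧ ∀ z : ↥Z, (χ : H → ℂ) z = (e : ℂ) * (θ : ↥Z → ℂ) z) (hZ : Z ≠ ⊤) (C : Subgroup (H ⧸ Z)) (hC : IsCyclic C) : Subgroup.centralizer (C : Set (H ⧸ Z)) ≠ C := by
  classical
  intro hcent
  obtain ⟨θ, e, he, hres⟩ := hfr
  letI : Fintype H := Fintype.ofFinite H
  letI : Fintype Z := Fintype.ofFinite Z
  have he0 : e ≠ 0 := by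
    rintro rfl
    have : Z.index = 0 := by rw [← he]; simp
    exact Subgroup.index_ne_zero_of_finite this
  have hec : (e : ℂ) ≠ 0 := by exact_mod_cast he0
  have hχcf : IsClassFunction H (χ : H → ℂ) :=
    Helper35.isClassFunction_of_isCharacter (Helper35.isChar_of_irr χ.2)
  have hθval : ∀ z : Z, (θ : Z → ℂ) z = (χ : H → ℂ) z / e := fun z => by
    rw [hres z]; field_simp
  have hθinv : ∀ (x : H) (z : Z) (h : x⁻¹ * (z : H) * x ∈ Z),
      (θ : Z → ℂ) ⟨x⁻¹ * (z : H) * x, h⟩ = (θ : Z → ℂ) z := by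
    intro x z h
    rw [hθval, hθval]
    have := hχcf (z : H) x⁻¹
    rw [inv_inv] at this
    show (χ : H → ℂ) (x⁻¹ * (z : H) * x) / e = _
    rw [this]
  obtain ⟨c, hc⟩ := hC.exists_generator
  obtain ⟨g, hg⟩ := QuotientGroup.mk_surjective (c : H ⧸ Z)
  set K : Subgroup H := C.comap (QuotientGroup.mk' Z) with hKdef
  have hmemK : ∀ x : H, x ∈ K ↔ (x : H ⧸ Z) ∈ C := fun x => Iff.rfl
  have hZK : Z ≤ K := by
    intro z hz
    rw [hmemK, (QuotientGroup.eq_one_iff z).mpr hz]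
    exact C.one_mem
  have hpow : ∀ y : H ⧸ Z, y ∈ C → ∃ i : ℤ, y = (c : H ⧸ Z) ^ i := by
    intro y hy
    obtain ⟨i, hi⟩ := Subgroup.mem_zpowers_iff.mp (hc ⟨y, hy⟩)
    refine ⟨i, ?_⟩
    have := congrArg Subtype.val hi
    simpa using this.symm
  have hc1 : (c : H ⧸ Z) ≠ 1 := by
    intro h1
    have hCbot : C = ⊥ := by
      rw [eq_bot_iff]
      intro y hy
      obtain ⟨i, hi⟩ := hpow y hy
      rw [hi, h1, one_zpow]; exact Subgroup.mem_bot.mpr rfl
    have htop : (⊤ : Subgroup (H ⧸ Z)) = ⊥ := by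
      rw [← hCbot, ← hcent, hCbot]; symm; rw [eq_top_iff]; intro y _
      rw [Subgroup.mem_centralizer_iff]; intro h hh
      have : h = 1 := hh
      rw [this]; simp
    apply hZ
    rw [eq_top_iff]
    intro x _
    have : (x : H ⧸ Z) ∈ (⊤ : Subgroup (H ⧸ Z)) := Subgroup.mem_top _
    rw [htop, Subgroup.mem_bot] at this
    exact (QuotientGroup.eq_one_iff x).mp this
  have hcen : ∀ g' : H, (g' : H ⧸ Z) = c → ∀ x : H, x⁻¹ * g' * x * g'⁻¹ ∈ Z → x ∈ K := by
    intro g' hg' x hx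
    rw [hmemK, ← hcent, Subgroup.mem_centralizer_iff]
    intro y hy
    obtain ⟨i, hi⟩ := hpow y hy
    have hcomm : (g' : H ⧸ Z) * (x : H ⧸ Z) = (x : H ⧸ Z) * (g' : H ⧸ Z) := by
      have h1 := (QuotientGroup.eq_one_iff _).mpr hx
      simp only [QuotientGroup.mk_mul, QuotientGroup.mk_inv] at h1
      have h2 : ((x : H ⧸ Z))⁻¹ * (g' : H ⧸ Z) * (x : H ⧸ Z) = (g' : H ⧸ Z) := by
        rw [← mul_inv_eq_one]; exact h1
      calc (g' : H ⧸ Z) * (x : H ⧸ Z)
          = (x : H ⧸ Z) * (((x : H ⧸ Z))⁻¹ * (g' : H ⧸ Z) * (x : H ⧸ Z)) := by group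
        _ = _ := by rw [h2]
    rw [hi, ← hg']
    exact (Commute.zpow_left (show Commute (g' : H ⧸ Z) (x : H ⧸ Z) from hcomm) i).eq
  have hgK : g ∈ K := by rw [hmemK, hg]; exact c.2
  letI : Fintype K := Fintype.ofFinite K
  set N : Subgroup K := Z.subgroupOf K with hNdef
  letI : Fintype N := Fintype.ofFinite N
  let eN : ↥N ≃* ↥Z := Subgroup.subgroupOfEquivOfLe hZK
  have heN : ∀ n : N, ((eN n : Z) : H) = ((n : K) : H) := fun n => rfl
  set θ' : N → ℂ := fun n => (θ : Z → ℂ) (eN n) with hθ'def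
  have hθ' : IsIrrCharacter N θ' :=
    Helper20.irr_comp_surjective eN.toMonoidHom eN.surjective θ.2
  have hθ'inv : ∀ (k : K) (n : N), θ' (MulAut.conjNormal k n) = θ' n := by
    intro k n
    have h1 : (k : H) * ((eN n : Z) : H) * (k : H)⁻¹ ∈ Z :=
      ‹Z.Normal›.conj_mem _ (eN n).2 _
    have h2 : eN (MulAut.conjNormal k n) = ⟨(k : H) * ((eN n : Z) : H) * (k : H)⁻¹, h1⟩ := by
      apply Subtype.ext
      rw [heN]
      simp [MulAut.conjNormal_apply, heN]
    show (θ : Z → ℂ) (eN (MulAut.conjNormal k n)) = (θ : Z → ℂ) (eN n)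
    rw [h2]
    have h3 : ((k : H)⁻¹)⁻¹ * ((eN n : Z) : H) * (k : H)⁻¹ ∈ Z := by rwa [inv_inv]
    have := hθinv (k : H)⁻¹ (eN n) h3
    rw [← this]
    have h4 : (⟨(k : H) * ((eN n : Z) : H) * (k : H)⁻¹, h1⟩ : Z) =
        ⟨((k : H)⁻¹)⁻¹ * ((eN n : Z) : H) * (k : H)⁻¹, h3⟩ := Subtype.ext (by simp)
    rw [h4]
  have hcycQ : IsCyclic (↥K ⧸ N) := by
    let f₀ : ↥K →* ↥C := ((QuotientGroup.mk' Z).comp K.subtype).codRestrict C (fun k => k.2)
    have hker : N ≤ f₀.ker := by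
      intro k hk
      rw [MonoidHom.mem_ker]
      apply Subtype.ext
      show ((k : H) : H ⧸ Z) = 1
      exact (QuotientGroup.eq_one_iff _).mpr (Subgroup.mem_subgroupOf.mp hk)
    let f : ↥K ⧸ N →* ↥C := QuotientGroup.lift N f₀ hker
    have hf : Function.Injective f := by
      rw [injective_iff_map_eq_one]
      intro q hq
      obtain ⟨k, rfl⟩ := QuotientGroup.mk_surjective q
      have h1 : f₀ k = 1 := hq
      have h2 : ((k : H) : H ⧸ Z) = 1 := congrArg Subtype.val h1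
      exact (QuotientGroup.eq_one_iff k).mpr
        (Subgroup.mem_subgroupOf.mpr ((QuotientGroup.eq_one_iff _).mp h2))
    exact isCyclic_of_injective f hf
  have hcommQ : ∀ a b : ↥K ⧸ N, a * b = b * a := by
    intro a b
    obtain ⟨q, hq⟩ := hcycQ.exists_generator
    obtain ⟨i, rfl⟩ := Subgroup.mem_zpowers_iff.mp (hq a)
    obtain ⟨j, rfl⟩ := Subgroup.mem_zpowers_iff.mp (hq b)
    exact zpow_mul_comm q i j
  obtain ⟨μ, hμ, hμN⟩ := cyclic_ext N hcycQ θ' hθ' hθ'inv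
  have hμN' : IsIrrCharacter N (fun n : N => μ n) := by
    have : (fun n : N => μ n) = θ' := funext hμN
    rw [this]; exact hθ'
  obtain ⟨k, hk, hμk⟩ := exists_ne_zero_coset N μ hμ hμN' (⟨g, hgK⟩ : K)
  have hkc : ((k : H) : H ⧸ Z) = c := by
    rw [← hg]
    have h1 : k⁻¹ * (⟨g, hgK⟩ : K) ∈ N := QuotientGroup.eq.mp hk
    apply QuotientGroup.eq.mpr
    have h2 := Subgroup.mem_subgroupOf.mp h1
    simpa using h2
  have hkZ : (k : H) ∉ Z := fun h =>
    hc1 (by rw [← hkc]; exact (QuotientGroup.eq_one_iff _).mpr h)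
  have hvan : ∀ β : IrrCharacter (↥K ⧸ N), ∀ h : H, h ∉ Z →
      indFun K (fun k : K => (β : ↥K ⧸ N → ℂ) (k : ↥K ⧸ N) * μ k) h = 0 := by
    intro β
    have hφ : IsCharacter K (fun k : K => (β : ↥K ⧸ N → ℂ) (k : ↥K ⧸ N) * μ k) :=
      Helper35.isCharacter_mul (Helper35.isChar_of_irr (Helper83.irr_inflate N β.2))
        (Helper35.isChar_of_irr hμ)
    have hΦ := Helper35.isCharacter_indFun K hφ
    apply mult_vanish Z χ (θ : Z → ℂ) θ.2 e he hres _ hΦ
      ((Nat.card K : ℂ)⁻¹ * (Nat.card H : ℂ) * (β : ↥K ⧸ N → ℂ) 1)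
    intro z
    apply ind_res Z K hZK (θ : Z → ℂ) hθinv
    intro z'
    have h1 : ((⟨(z' : H), hZK z'.2⟩ : K) : ↥K ⧸ N) = 1 :=
      (QuotientGroup.eq_one_iff _).mpr (Subgroup.mem_subgroupOf.mpr z'.2)
    have h2 : μ ⟨(z' : H), hZK z'.2⟩ = (θ : Z → ℂ) z' := by
      have := hμN ⟨⟨(z' : H), hZK z'.2⟩, Subgroup.mem_subgroupOf.mpr z'.2⟩
      rw [this]
      show (θ : Z → ℂ) (eN _) = (θ : Z → ℂ) z'
      congr 1
    show (β : ↥K ⧸ N → ℂ) ((⟨(z' : H), hZK z'.2⟩ : K) : ↥K ⧸ N) * μ ⟨(z' : H), hZK z'.2⟩ = _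
    rw [h1, h2]
  have := fourier_vanish Z K hcommQ μ hμ hvan k hkZ (hcen (k : H) hkc)
  exact hμk this

end Cfsg.Agent.S4565
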