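import Cfsg.Statements.S4501
import Mathlib
import Cfsg.Agent.Lib.Helper29.S4501P0
import Cfsg.Agent.Lib.Helper62.S4501O1
import Cfsg.Agent.Lib.Helper62.S4501O2
import Cfsg.Agent.Lib.Helper30.S4501Part1
import Cfsg.Agent.Lib.Helper30.S4501Core
import Cfsg.Agent.S0494
import Cfsg.Agent.S0495

set_option autoImplicit false
open Cfsg

namespace Cfsg.Agent.S4501

/-- Let G be a non-abelian finite simple group and p, q distinct primes. If the order of G is 4·p^a·q^b with a ≤ 2, then G is isomorphic to the alternating group of degree 5. If the order of G is 3·p^a·q^b with a ≤ 2, then G is isomorphic to the alternating group of degree 5 or to PSL(2,7). -/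
theorem result {G : Type*} [Group G] [Finite G] [IsSimpleGroup G] (hna : ∃ x y : G, x * y ≠ y * x) (p q a b : ℕ) (hp : p.Prime) (hq : q.Prime) (hpq : p ≠ q) (ha : a ≤ 2) : (Nat.card G = 4 * p ^ a * q ^ b → Nonempty (G ≃* alternatingGroup (Fin 5))) ∧ (Nat.card G = 3 * p ^ a * q ^ b → Nonempty (G ≃* alternatingGroup (Fin 5)) ∨ Nonempty (G ≃* Matrix.ProjectiveSpecialLinearGroup (Fin 2) (ZMod 7))) := by
  haveI : Fact (Nat.Prime 7) := ⟨by norm_num⟩
  have h60 : Nat.card G = 60 → Nonempty (G ≃* alternatingGroup (Fin 5)) :=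
    fun h => Cfsg.Agent.S0494.result h
  have h168 : Nat.card G = 168 →
      Nonempty (G ≃* Matrix.ProjectiveSpecialLinearGroup (Fin 2) (ZMod 7)) :=
    fun h => Cfsg.Agent.S0495.result h (F := ZMod 7) (ZMod.card 7)
  refine ⟨fun hG => h60 (Cfsg.Agent.Lib.Helper30.S4501.part_one hna p q a b hp hq hG), fun hG => ?_⟩
  -- 3 ∈ {p, q}: two primes
  by_cases hp3 : p = 3
  · exact (Cfsg.Agent.Lib.Helper30.S4501.P0.two_primes hna 3 q (a + 1) b Nat.prime_three hq (by rw [hG, hp3]; ring)).elim
  by_cases hq3 : q = 3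
  · exact (Cfsg.Agent.Lib.Helper30.S4501.P0.two_primes hna p 3 a (b + 1) hp Nat.prime_three (by rw [hG, hq3]; ring)).elim
  by_cases hp2 : p = 2
  · -- p = 2
    subst hp2
    have ha3 : a = 0 ∨ a = 1 ∨ a = 2 := by omega
    rcases ha3 with rfl | rfl | rfl
    · exact (Cfsg.Agent.Lib.Helper30.S4501.P0.two_primes hna 3 q 1 b Nat.prime_three hq (by rw [hG]; ring)).elim
    · have hqo : Odd q := hq.odd_of_ne_two (fun h => hpq h.symm)
      exact (Cfsg.Agent.Lib.Helper30.S4501.O2.twice_odd hna (3 * q ^ b) ((by decide : Odd 3).mul hqo.pow) (by rw [hG]; ring)).elim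
    · exact Or.inl (h60 (Cfsg.Agent.Lib.Helper30.S4501.part_one hna 3 q 1 b Nat.prime_three hq (by rw [hG]; ring)))
  by_cases hq2 : q = 2
  · subst hq2
    have hp5 : 5 ≤ p := by
      have := hp.two_le
      rcases Nat.lt_or_ge p 5 with h | h
      · interval_cases p
        · exact absurd rfl hp2
        · exact absurd rfl hp3
        · exact absurd hp (by decide)
      · exact h
    rcases Cfsg.Agent.Lib.Helper30.S4501.core hna p a b hp hp5 ha hG with h | h
    · exact Or.inl (h60 h)
    · exact Or.inr (h168 h)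
  · -- odd order
    exfalso
    have hcp : Nat.Coprime (p ^ a * q ^ b) 6 := by
      have h6 : (6 : ℕ) = 2 * 3 := by norm_num
      rw [h6]
      have hp2' : Nat.Coprime p 2 := (Nat.coprime_primes hp Nat.prime_two).mpr hp2
      have hp3' : Nat.Coprime p 3 := (Nat.coprime_primes hp Nat.prime_three).mpr hp3
      have hq2' : Nat.Coprime q 2 := (Nat.coprime_primes hq Nat.prime_two).mpr hq2
      have hq3' : Nat.Coprime q 3 := (Nat.coprime_primes hq Nat.prime_three).mpr hq3
      exact Nat.Coprime.mul_left ((hp2'.mul_right hp3').pow_left a) ((hq2'.mul_right hq3').pow_left b)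
    exact Cfsg.Agent.Lib.Helper30.S4501.O1.odd_three hna (p ^ a * q ^ b) hcp (by rw [hG]; ring)

end Cfsg.Agent.S4501
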