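import Cfsg.Statements.S4911
import Mathlib
import Cfsg.Agent.Lib.Helper85.FixTable
import Cfsg.Agent.Lib.Helper83.Ortho
import Cfsg.Agent.Lib.Helper82.PQ
import Cfsg.Agent.Lib.Helper21.Loc
import Cfsg.Agent.Lib.Helper4.CharDual
import Cfsg.Agent.Lib.Helper4.CharExp2
import Cfsg.Agent.Lib.Helper84.Gagola4
-- import your own Cfsg.Agent.* helpers here

set_option autoImplicit false
open Cfsg

namespace Cfsg.Agent.S4911

set_option linter.style.haveILetI false
open scoped ComplexConjugate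
open Cfsg.Agent.Lib Cfsg.Agent.Lib.Helper85

section General

variable {K : Type*} [Group K] {Γ : Type*} [Group Γ] (φ : Γ →* MulAut K)

/-- the action on classes induced by an action by automorphisms -/
@[instance_reducible]
def actCls : MulAction Γ (ConjClasses K) where
  smul g C := ConjClasses.map (φ g).toMonoidHom C
  one_smul C := by
    obtain ⟨n, rfl⟩ := ConjClasses.mk_surjective C
    show ConjClasses.mk ((φ 1) n) = ConjClasses.mk n
    simp
  mul_smul g h C := by
    obtain ⟨n, rfl⟩ := ConjClasses.mk_surjective C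
    show ConjClasses.mk ((φ (g * h)) n) = ConjClasses.mk ((φ g) ((φ h) n))
    simp

/-- the action on irreducible characters induced by an action by automorphisms -/
@[instance_reducible]
def actIrr : MulAction Γ (IrrCharacter K) where
  smul g χ := ⟨fun k => χ.1 ((φ g⁻¹) k), Helper84.irr_comp_mulEquiv (φ g⁻¹) χ⟩
  one_smul χ := by
    apply Subtype.ext
    funext k
    show χ.1 ((φ 1⁻¹) k) = χ.1 k
    simp
  mul_smul g h χ := by
    apply Subtype.ext
    funext k
    show χ.1 ((φ (g * h)⁻¹) k) = χ.1 ((φ h⁻¹) ((φ g⁻¹) k))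
    simp [mul_inv_rev]

theorem actCls_mk (g : Γ) (k : K) :
    (actCls φ).smul g (ConjClasses.mk k) = ConjClasses.mk ((φ g) k) := rfl

theorem actIrr_apply (g : Γ) (χ : IrrCharacter K) (k : K) :
    ((actIrr φ).smul g χ).1 k = χ.1 ((φ g⁻¹) k) := rfl

/-- the inverse class -/
def invCls (C : ConjClasses K) : ConjClasses K :=
  Quotient.map (fun k => k⁻¹) (fun a b (h : IsConj a b) => by
    show IsConj a⁻¹ b⁻¹
    obtain ⟨c, hc⟩ := isConj_iff.mp h
    exact isConj_iff.mpr ⟨c, by rw [← hc]; group⟩) C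

theorem invCls_mk (k : K) : invCls (ConjClasses.mk k) = ConjClasses.mk k⁻¹ := rfl

theorem invCls_invCls (C : ConjClasses K) : invCls (invCls C) = C := by
  obtain ⟨n, rfl⟩ := ConjClasses.mk_surjective C
  rw [invCls_mk, invCls_mk, inv_inv]

theorem compat (g : Γ) (χ : IrrCharacter K) (k k' : K)
    (h : ConjClasses.mk k' = (actCls φ).smul g (ConjClasses.mk k)) :
    ((actIrr φ).smul g χ).1 k' = χ.1 k := by
  rw [actCls_mk, ConjClasses.mk_eq_mk_iff_isConj] at h
  rw [actIrr_apply]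
  apply Helper83.irr_isConj χ.2
  obtain ⟨c, hc⟩ := isConj_iff.mp h
  refine isConj_iff.mpr ⟨(φ g⁻¹) c, ?_⟩
  rw [← map_inv, ← map_mul, ← map_mul, hc]
  simp

theorem smul_invCls (g : Γ) (C : ConjClasses K) :
    (actCls φ).smul g (invCls C) = invCls ((actCls φ).smul g C) := by
  obtain ⟨n, rfl⟩ := ConjClasses.mk_surjective C
  rw [invCls_mk, actCls_mk, actCls_mk, invCls_mk, map_inv]

/-- the complex conjugate irreducible character -/
noncomputable def conjIrr [Fintype K] (χ : IrrCharacter K) : IrrCharacter K :=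
  ⟨fun k => conj (χ.1 k), Helper4.irr_conj χ⟩

theorem conjIrr_conjIrr [Fintype K] (χ : IrrCharacter K) : conjIrr (conjIrr χ) = χ := by
  apply Subtype.ext
  funext k
  show conj (conj (χ.1 k)) = χ.1 k
  simp

theorem smul_conjIrr [Fintype K] (g : Γ) (χ : IrrCharacter K) :
    (actIrr φ).smul g (conjIrr χ) = conjIrr ((actIrr φ).smul g χ) := rfl

/-- size of a class -/
noncomputable def sz (C : ConjClasses K) : ℕ := Nat.card {x : K // ConjClasses.mk x = C}

theorem sz_smul (g : Γ) (C : ConjClasses K) : sz ((actCls φ).smul g C) = sz C := by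
  unfold sz
  symm
  apply Nat.card_congr
  refine Equiv.subtypeEquiv (φ g).toEquiv ?_
  intro k
  show ConjClasses.mk k = C ↔ ConjClasses.mk ((φ g) k) = (actCls φ).smul g C
  rw [← actCls_mk]
  constructor
  · intro h; rw [h]
  · intro h
    exact (@MulAction.injective Γ (ConjClasses K) _ (actCls φ) g) h

theorem sz_mul_card [Finite K] (C : ConjClasses K) :
    sz C * Nat.card (Subgroup.centralizer ({Quotient.out C} : Set K)) = Nat.card K := by
  rw [← Helper83.card_conj_mul_card_centralizer (Quotient.out C)]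
  congr 1
  unfold sz
  apply Nat.card_congr
  apply Equiv.subtypeEquivRight
  intro x
  have hr : ConjClasses.mk (Quotient.out C) = C := by
    rw [← ConjClasses.quotient_mk_eq_mk]; exact Quotient.out_eq C
  rw [← hr, ConjClasses.mk_eq_mk_iff_isConj, hr]
  exact ⟨fun h => h.symm, fun h => h.symm⟩

theorem real_fixed_count [Finite K] (p : ℕ) [hp : Fact p.Prime] (hΓ : IsPGroup p Γ)
    (hK : ¬ p ∣ Nat.card K) :
    Nat.card {θ : IrrCharacter K // (∀ k : K, ((θ : K → ℂ) k).im = 0) ∧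
        ∀ (g : Γ) (k : K), (θ : K → ℂ) ((φ g) k) = (θ : K → ℂ) k} =
      Nat.card {c : ConjClasses K // (∀ k : K, ConjClasses.mk k = c → IsConj k k⁻¹) ∧
        ∀ (g : Γ) (k : K), ConjClasses.mk k = c → ConjClasses.mk ((φ g) k) = c} := by
  classical
  let _ : Fintype K := Fintype.ofFinite K
  have hfinI := Helper4.irr_finite (G := K)
  let _ : Fintype (IrrCharacter K) := Fintype.ofFinite _
  let _ : Fintype (ConjClasses K) := Fintype.ofFinite _
  obtain ⟨M, hM⟩ := Helper82.exists_isPModular p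
  haveI : M.IsMaximal := hM.2.1
  letI : Field (AlgInt ⧸ M) := Ideal.Quotient.field M
  have hcast : ∀ n : ℕ, ((n : ℕ) : AlgInt ⧸ M) = Ideal.Quotient.mk M (n : AlgInt) := fun n =>
    (map_natCast (Ideal.Quotient.mk M) n).symm
  have hcast0 : ∀ n : ℕ, ((n : ℕ) : AlgInt ⧸ M) = 0 ↔ p ∣ n := by
    intro n
    rw [hcast, Ideal.Quotient.eq_zero_iff_mem, Helper21.pmod_natCast_mem_iff hM]
  haveI : CharP (AlgInt ⧸ M) p :=
    (CharP.charP_iff_prime_eq_zero hp.out).mpr ((hcast0 p).mpr dvd_rfl)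
  letI iA : MulAction Γ (ConjClasses K) := actCls φ
  letI iB : MulAction Γ (IrrCharacter K) := actIrr φ
  have hr : ∀ C : ConjClasses K, ConjClasses.mk (Quotient.out C) = C := by
    intro C
    rw [← ConjClasses.quotient_mk_eq_mk]; exact Quotient.out_eq C
  -- the tables
  let XA : IrrCharacter K → ConjClasses K → AlgInt := fun χ C =>
    ⟨χ.1 (Quotient.out C), Helper82.irr_isIntegral χ _⟩
  let YF : ConjClasses K → IrrCharacter K → AlgInt ⧸ M := fun C χ =>
    ((Nat.card K : ℕ) : AlgInt ⧸ M)⁻¹ * ((sz C : ℕ) : AlgInt ⧸ M) *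
      Ideal.Quotient.mk M ⟨χ.1 (Quotient.out C)⁻¹, Helper82.irr_isIntegral χ _⟩
  have hK0 : ((Nat.card K : ℕ) : AlgInt ⧸ M) ≠ 0 := fun h => hK ((hcast0 _).mp h)
  have CO : ∀ C D : ConjClasses K,
      ∑ χ : IrrCharacter K, YF C χ * Ideal.Quotient.mk M (XA χ D) = if C = D then 1 else 0 := by
    intro C D
    have h1 : ∑ χ : IrrCharacter K, YF C χ * Ideal.Quotient.mk M (XA χ D) =
        ((Nat.card K : ℕ) : AlgInt ⧸ M)⁻¹ * ((sz C : ℕ) : AlgInt ⧸ M) *
          Ideal.Quotient.mk M (∑ χ : IrrCharacter K,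
            (⟨χ.1 (Quotient.out C)⁻¹, Helper82.irr_isIntegral χ _⟩ : AlgInt) * XA χ D) := by
      rw [map_sum, Finset.mul_sum]
      apply Finset.sum_congr rfl
      intro χ _
      rw [map_mul]
      ring
    have h2 : (∑ χ : IrrCharacter K,
        (⟨χ.1 (Quotient.out C)⁻¹, Helper82.irr_isIntegral χ _⟩ : AlgInt) * XA χ D) =
        if C = D then
          ((Nat.card (Subgroup.centralizer ({Quotient.out C} : Set K)) : ℕ) : AlgInt) else 0 := by
      apply Subtype.ext
      have h3 : ((∑ χ : IrrCharacter K,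
          (⟨χ.1 (Quotient.out C)⁻¹, Helper82.irr_isIntegral χ _⟩ : AlgInt) * XA χ D : AlgInt) : ℂ) =
          ∑ χ : IrrCharacter K, χ.1 (Quotient.out D) * conj (χ.1 (Quotient.out C)) := by
        rw [AddSubmonoidClass.coe_finsetSum]
        apply Finset.sum_congr rfl
        intro χ _
        show χ.1 (Quotient.out C)⁻¹ * χ.1 (Quotient.out D) = _
        rw [Helper4.irr_inv, mul_comm]
      rw [h3, Helper83.column_orthogonality]
      have hiff : IsConj (Quotient.out C) (Quotient.out D) ↔ C = D := by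
        rw [← ConjClasses.mk_eq_mk_iff_isConj, hr, hr]
      by_cases hCD : C = D
      · rw [if_pos (hiff.mpr hCD), if_pos hCD]
        simp
      · rw [if_neg (fun h => hCD (hiff.mp h)), if_neg hCD]
        simp
    rw [h1, h2]
    by_cases hCD : C = D
    · rw [if_pos hCD, if_pos hCD, ← hcast, mul_assoc, ← Nat.cast_mul, sz_mul_card]
      exact inv_mul_cancel₀ hK0
    · rw [if_neg hCD, if_neg hCD, map_zero, mul_zero]
  have hcard : Fintype.card (ConjClasses K) = Fintype.card (IrrCharacter K) := by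
    rw [← Nat.card_eq_fintype_card, ← Nat.card_eq_fintype_card, Helper4.card_irr]
  have RO := FixTable.right_inv_of_left_inv hcard
    (fun χ C => Ideal.Quotient.mk M (XA χ C)) YF CO
  -- equivariance
  have hXeq : ∀ (g : Γ) (χ : IrrCharacter K) (C : ConjClasses K),
      Ideal.Quotient.mk M (XA (g • χ) (g • C)) = Ideal.Quotient.mk M (XA χ C) := by
    intro g χ C
    congr 1
    apply Subtype.ext
    show (g • χ).1 (Quotient.out (g • C)) = χ.1 (Quotient.out C)
    apply compat φ g χ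
    rw [hr, hr]
    rfl
  have hYeq : ∀ (g : Γ) (C : ConjClasses K) (χ : IrrCharacter K),
      YF (g • C) (g • χ) = YF C χ := by
    intro g C χ
    show ((Nat.card K : ℕ) : AlgInt ⧸ M)⁻¹ * ((sz (g • C) : ℕ) : AlgInt ⧸ M) *
      Ideal.Quotient.mk M ⟨(g • χ).1 (Quotient.out (g • C))⁻¹, Helper82.irr_isIntegral _ _⟩ =
      ((Nat.card K : ℕ) : AlgInt ⧸ M)⁻¹ * ((sz C : ℕ) : AlgInt ⧸ M) *
      Ideal.Quotient.mk M ⟨χ.1 (Quotient.out C)⁻¹, Helper82.irr_isIntegral χ _⟩
    have h1 : sz (g • C) = sz C := sz_smul φ g C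
    have h2 : (g • χ).1 (Quotient.out (g • C))⁻¹ = χ.1 (Quotient.out C)⁻¹ := by
      apply compat φ g χ
      rw [← invCls_mk, ← invCls_mk, hr, hr]
      exact (smul_invCls φ g C).symm
    rw [h1]
    congr 2
    exact Subtype.ext h2
  -- restriction to the fixed points
  have CO0 := FixTable.restricted_inverse hΓ (fun χ C => Ideal.Quotient.mk M (XA χ C)) YF
    hXeq hYeq CO
  have RO0 := FixTable.restricted_inverse hΓ YF (fun χ C => Ideal.Quotient.mk M (XA χ C))
    hYeq hXeq RO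
  obtain ⟨Z, hZ1, hZ2⟩ := FixTable.exists_complex_inverse (Ideal.Quotient.mk M)
    (AlgInt.val : AlgInt →ₐ[ℤ] ℂ).toRingHom Subtype.val_injective
    (fun (b : {χ : IrrCharacter K // ∀ g : Γ, g • χ = χ})
      (a : {C : ConjClasses K // ∀ g : Γ, g • C = C}) => XA b.1 a.1)
    (fun a b => YF a.1 b.1) CO0 RO0
  -- the involutions
  let σA : Equiv.Perm {C : ConjClasses K // ∀ g : Γ, g • C = C} :=
    Function.Involutive.toPerm (fun a => ⟨invCls a.1, fun g => by
      show (actCls φ).smul g (invCls a.1) = invCls a.1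
      rw [smul_invCls]
      exact congrArg invCls (a.2 g)⟩) (fun a => Subtype.ext (invCls_invCls a.1))
  let σB : Equiv.Perm {χ : IrrCharacter K // ∀ g : Γ, g • χ = χ} :=
    Function.Involutive.toPerm (fun b => ⟨conjIrr b.1, fun g => by
      show (actIrr φ).smul g (conjIrr b.1) = conjIrr b.1
      rw [smul_conjIrr]
      exact congrArg conjIrr (b.2 g)⟩) (fun b => Subtype.ext (conjIrr_conjIrr b.1))
  have hσ : ∀ (b : {χ : IrrCharacter K // ∀ g : Γ, g • χ = χ})
      (a : {C : ConjClasses K // ∀ g : Γ, g • C = C}),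
      (AlgInt.val : AlgInt →ₐ[ℤ] ℂ).toRingHom (XA (σB b).1 (σA a).1) =
        (AlgInt.val : AlgInt →ₐ[ℤ] ℂ).toRingHom (XA b.1 a.1) := by
    intro b a
    show conj (b.1.1 (Quotient.out (invCls a.1))) = b.1.1 (Quotient.out a.1)
    have h1 : b.1.1 (Quotient.out (invCls a.1)) = b.1.1 (Quotient.out a.1)⁻¹ := by
      apply Helper83.irr_isConj b.1.2
      rw [← ConjClasses.mk_eq_mk_iff_isConj, hr, ← invCls_mk, hr]
    rw [h1, Helper4.irr_inv]
    simp
  have hcount := FixTable.card_fixed_eq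
    (fun (b : {χ : IrrCharacter K // ∀ g : Γ, g • χ = χ})
      (a : {C : ConjClasses K // ∀ g : Γ, g • C = C}) =>
      (AlgInt.val : AlgInt →ₐ[ℤ] ℂ).toRingHom (XA b.1 a.1)) Z hZ1 hZ2 σA σB hσ
  -- identification of the two sides
  have eL : Nat.card {θ : IrrCharacter K // (∀ k : K, ((θ : K → ℂ) k).im = 0) ∧
        ∀ (g : Γ) (k : K), (θ : K → ℂ) ((φ g) k) = (θ : K → ℂ) k} =
      Fintype.card {b : {χ : IrrCharacter K // ∀ g : Γ, g • χ = χ} // σB b = b} := by
    rw [← Nat.card_eq_fintype_card]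
    apply Nat.card_congr
    refine
      { toFun := fun θ => ⟨⟨θ.1, fun g => ?_⟩, ?_⟩
        invFun := fun b => ⟨b.1.1, ?_, ?_⟩
        left_inv := fun θ => rfl
        right_inv := fun b => rfl }
    · apply Subtype.ext
      funext k
      show θ.1.1 ((φ g⁻¹) k) = θ.1.1 k
      exact θ.2.2 g⁻¹ k
    · apply Subtype.ext
      apply Subtype.ext
      funext k
      show conj (θ.1.1 k) = θ.1.1 k
      exact Complex.conj_eq_iff_im.mpr (θ.2.1 k)
    · intro k
      have h1 := congrArg (fun x => x.1.1 k) b.2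
      exact Complex.conj_eq_iff_im.mp h1
    · intro g k
      have h1 := congrArg (fun x => x.1 k) (b.1.2 g⁻¹)
      have h2 : (g⁻¹ • b.1.1).1 k = b.1.1.1 ((φ g) k) := by
        show b.1.1.1 ((φ g⁻¹⁻¹) k) = _
        rw [inv_inv]
      rw [← h2]
      exact h1
  have eR : Nat.card {c : ConjClasses K // (∀ k : K, ConjClasses.mk k = c → IsConj k k⁻¹) ∧
        ∀ (g : Γ) (k : K), ConjClasses.mk k = c → ConjClasses.mk ((φ g) k) = c} =
      Fintype.card {a : {C : ConjClasses K // ∀ g : Γ, g • C = C} // σA a = a} := by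
    rw [← Nat.card_eq_fintype_card]
    apply Nat.card_congr
    refine
      { toFun := fun c => ⟨⟨c.1, fun g => ?_⟩, ?_⟩
        invFun := fun a => ⟨a.1.1, ?_, ?_⟩
        left_inv := fun c => rfl
        right_inv := fun a => rfl }
    · obtain ⟨k, hk⟩ := ConjClasses.mk_surjective c.1
      have h1 := c.2.2 g k hk
      rw [← hk]
      rw [← hk] at h1
      exact h1
    · apply Subtype.ext
      show invCls c.1 = c.1
      obtain ⟨k, hk⟩ := ConjClasses.mk_surjective c.1
      have h1 := c.2.1 k hk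
      rw [← hk, invCls_mk]
      exact (ConjClasses.mk_eq_mk_iff_isConj.mpr h1).symm
    · intro k hk
      have h1 : invCls a.1.1 = a.1.1 := congrArg (fun x => x.1) a.2
      rw [← hk, invCls_mk, ConjClasses.mk_eq_mk_iff_isConj] at h1
      exact h1.symm
    · intro g k hk
      have h1 := a.1.2 g
      rw [← hk] at h1
      rw [← hk]
      exact h1
  rw [eL, eR]
  exact hcount

end General

section Sub

variable {G : Type*} [Group G]

/-- the conjugation action of a subgroup `P` normalizing `K` on `K` -/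
def conjHom (P K : Subgroup G) (hPK : P ≤ Subgroup.normalizer (K : Set G)) : ↥P →* MulAut ↥K where
  toFun x :=
    { toFun := fun k => ⟨(x : G) * k * (x : G)⁻¹,
        (Subgroup.mem_normalizer_iff.mp (hPK x.2) k).mp k.2⟩
      invFun := fun k => ⟨(x : G)⁻¹ * k * (x : G),
        (Subgroup.mem_normalizer_iff''.mp (hPK x.2) k).mp k.2⟩
      left_inv := fun k => Subtype.ext (by simp [mul_assoc])
      right_inv := fun k => Subtype.ext (by simp [mul_assoc])
      map_mul' := fun a b => Subtype.ext (by simp [mul_assoc]) }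
  map_one' := by
    ext k
    simp
  map_mul' a b := by
    ext k
    simp [mul_assoc]

theorem conjHom_apply (P K : Subgroup G) (hPK : P ≤ Subgroup.normalizer (K : Set G)) (x : ↥P)
    (k : ↥K) : ((conjHom P K hPK x) k : G) = (x : G) * k * (x : G)⁻¹ := rfl

end Sub

/-- Let P and K be subgroups of a finite group with P a p-group normalizing K and K of order prime to p. Then the number of P-invariant real-valued irreducible complex characters of K equals the number of conjugacy classes of K that are real (closed under inversion) and P-invariant. Moreover, if every real-valued irreducible character of K is P-invariant, then every real element of K (one conjugate in K to its inverse) is conjugate in K to an element centralized by P. -/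
theorem result {G : Type*} [Group G] [Finite G] (p : ℕ) [Fact p.Prime] (P K : Subgroup G) (hP : IsPGroup p ↥P) (hK : ¬ p ∣ Nat.card ↥K) (hPK : P ≤ Subgroup.normalizer (K : Set G)) : Nat.card {θ : Cfsg.IrrCharacter ↥K // (∀ k : ↥K, ((θ : ↥K → ℂ) k).im = 0) ∧ (∀ x ∈ P, ∀ k k' : ↥K, (k' : G) = x * (k : G) * x⁻¹ → (θ : ↥K → ℂ) k' = (θ : ↥K → ℂ) k)} = Nat.card {c : ConjClasses ↥K // (∀ k : ↥K, ConjClasses.mk k = c → IsConj k k⁻¹) ∧ ∀ k : ↥K, ConjClasses.mk k = c → ∀ x ∈ P, ∀ k' : ↥K, (k' : G) = x * (k : G) * x⁻¹ → ConjClasses.mk k' = c} ∧ ((∀ θ : Cfsg.IrrCharacter ↥K, (∀ k : ↥K, ((θ : ↥K → ℂ) k).im = 0) → (∀ x ∈ P, ∀ k k' : ↥K, (k' : G) = x * (k : G) * x⁻¹ → (θ : ↥K → ℂ) k' = (θ : ↥K → ℂ) k)) → ∀ k : ↥K, IsConj k k⁻¹ → ∃ k' : ↥K, IsConj k k' ∧ ∀ x ∈ P, x * (k' : G) * x⁻¹ = (k' : G)) := by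
  classical
  set φ : ↥P →* MulAut ↥K := conjHom P K hPK with hφ
  have hφa : ∀ (x : ↥P) (k : ↥K), ((φ x) k : G) = (x : G) * k * (x : G)⁻¹ := fun x k => rfl
  -- translation of the invariance conditions
  have hch : ∀ θ : IrrCharacter ↥K,
      (∀ x ∈ P, ∀ k k' : ↥K, (k' : G) = x * (k : G) * x⁻¹ → (θ : ↥K → ℂ) k' = (θ : ↥K → ℂ) k) ↔
      (∀ (g : ↥P) (k : ↥K), (θ : ↥K → ℂ) ((φ g) k) = (θ : ↥K → ℂ) k) := by
    intro θ
    constructor
    · intro h g k
      exact h g.1 g.2 k ((φ g) k) (hφa g k)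
    · intro h x hx k k' hk'
      have : k' = (φ ⟨x, hx⟩) k := Subtype.ext (by rw [hk', hφa])
      rw [this]
      exact h ⟨x, hx⟩ k
  have hcl : ∀ c : ConjClasses ↥K,
      (∀ k : ↥K, ConjClasses.mk k = c → ∀ x ∈ P, ∀ k' : ↥K, (k' : G) = x * (k : G) * x⁻¹ →
        ConjClasses.mk k' = c) ↔
      (∀ (g : ↥P) (k : ↥K), ConjClasses.mk k = c → ConjClasses.mk ((φ g) k) = c) := by
    intro c
    constructor
    · intro h g k hk
      exact h k hk g.1 g.2 ((φ g) k) (hφa g k)
    · intro h k hk x hx k' hk'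
      have : k' = (φ ⟨x, hx⟩) k := Subtype.ext (by rw [hk', hφa])
      rw [this]
      exact h ⟨x, hx⟩ k hk
  have main := real_fixed_count φ p hP hK
  have part1 : Nat.card {θ : Cfsg.IrrCharacter ↥K // (∀ k : ↥K, ((θ : ↥K → ℂ) k).im = 0) ∧ (∀ x ∈ P, ∀ k k' : ↥K, (k' : G) = x * (k : G) * x⁻¹ → (θ : ↥K → ℂ) k' = (θ : ↥K → ℂ) k)} = Nat.card {c : ConjClasses ↥K // (∀ k : ↥K, ConjClasses.mk k = c → IsConj k k⁻¹) ∧ ∀ k : ↥K, ConjClasses.mk k = c → ∀ x ∈ P, ∀ k' : ↥K, (k' : G) = x * (k : G) * x⁻¹ → ConjClasses.mk k' = c} := by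
    rw [Nat.card_congr (Equiv.subtypeEquivRight (fun θ => and_congr Iff.rfl (hch θ))),
      Nat.card_congr (Equiv.subtypeEquivRight (fun c => and_congr Iff.rfl (hcl c)))]
    exact main
  refine ⟨part1, ?_⟩
  intro hall k hk
  -- the trivial action
  have triv := real_fixed_count (1 : ↥P →* MulAut ↥K) p hP hK
  have hfinC : Finite (ConjClasses ↥K) := inferInstance
  -- every real class is `P`-invariant
  have hsub : {c : ConjClasses ↥K | (∀ k : ↥K, ConjClasses.mk k = c → IsConj k k⁻¹) ∧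
        ∀ (g : ↥P) (k : ↥K), ConjClasses.mk k = c → ConjClasses.mk ((φ g) k) = c} ⊆
      {c : ConjClasses ↥K | (∀ k : ↥K, ConjClasses.mk k = c → IsConj k k⁻¹) ∧
        ∀ (g : ↥P) (k : ↥K), ConjClasses.mk k = c →
          ConjClasses.mk (((1 : ↥P →* MulAut ↥K) g) k) = c} := by
    intro c hc
    exact ⟨hc.1, fun g k hk => hk⟩
  have hcardeq : Nat.card {θ : IrrCharacter ↥K // (∀ k : ↥K, ((θ : ↥K → ℂ) k).im = 0) ∧
        ∀ (g : ↥P) (k : ↥K), (θ : ↥K → ℂ) ((φ g) k) = (θ : ↥K → ℂ) k} =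
      Nat.card {θ : IrrCharacter ↥K // (∀ k : ↥K, ((θ : ↥K → ℂ) k).im = 0) ∧
        ∀ (g : ↥P) (k : ↥K), (θ : ↥K → ℂ) (((1 : ↥P →* MulAut ↥K) g) k) = (θ : ↥K → ℂ) k} := by
    apply Nat.card_congr
    apply Equiv.subtypeEquivRight
    intro θ
    constructor
    · intro h
      exact ⟨h.1, fun g k => rfl⟩
    · intro h
      exact ⟨h.1, (hch θ).mp (hall θ h.1)⟩
  have hseteq := Set.eq_of_subset_of_ncard_le hsub (by
    rw [← Nat.card_coe_set_eq, ← Nat.card_coe_set_eq]
    exact le_of_eq (by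
      show Nat.card {c : ConjClasses ↥K // (∀ k : ↥K, ConjClasses.mk k = c → IsConj k k⁻¹) ∧
        ∀ (g : ↥P) (k : ↥K), ConjClasses.mk k = c →
          ConjClasses.mk (((1 : ↥P →* MulAut ↥K) g) k) = c} =
        Nat.card {c : ConjClasses ↥K // (∀ k : ↥K, ConjClasses.mk k = c → IsConj k k⁻¹) ∧
        ∀ (g : ↥P) (k : ↥K), ConjClasses.mk k = c → ConjClasses.mk ((φ g) k) = c}
      rw [← triv, ← main, hcardeq])) (Set.toFinite _)
  have hreal : ∀ k₁ : ↥K, ConjClasses.mk k₁ = ConjClasses.mk k → IsConj k₁ k₁⁻¹ := by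
    intro k₁ hk₁
    have h1 : IsConj k₁ k := ConjClasses.mk_eq_mk_iff_isConj.mp hk₁
    obtain ⟨c, hc⟩ := isConj_iff.mp h1
    have h2 : IsConj k⁻¹ k₁⁻¹ := isConj_iff.mpr ⟨c⁻¹, by rw [← hc]; group⟩
    exact h1.trans (hk.trans h2)
  have hmem : (ConjClasses.mk k : ConjClasses ↥K) ∈
      {c : ConjClasses ↥K | (∀ k : ↥K, ConjClasses.mk k = c → IsConj k k⁻¹) ∧
        ∀ (g : ↥P) (k : ↥K), ConjClasses.mk k = c → ConjClasses.mk ((φ g) k) = c} := by
    rw [hseteq]
    exact ⟨hreal, fun g k₁ hk₁ => hk₁⟩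
  have hinv := hmem.2
  -- the action of `P` on the class of `k`
  let act : MulAction ↥P {k' : ↥K // ConjClasses.mk k' = ConjClasses.mk k} :=
    { smul := fun g s => ⟨(φ g) s.1, hinv g s.1 s.2⟩
      one_smul := fun s => Subtype.ext (by
        show (φ 1) s.1 = s.1
        simp)
      mul_smul := fun g h s => Subtype.ext (by
        show (φ (g * h)) s.1 = (φ g) ((φ h) s.1)
        simp) }
  have hcard : ¬ p ∣ Nat.card {k' : ↥K // ConjClasses.mk k' = ConjClasses.mk k} := by
    intro hdvd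
    apply hK
    have h1 := sz_mul_card (ConjClasses.mk k : ConjClasses ↥K)
    rw [← h1]
    exact Dvd.dvd.mul_right hdvd _
  obtain ⟨s, hs⟩ := hP.nonempty_fixed_point_of_prime_not_dvd_card
    {k' : ↥K // ConjClasses.mk k' = ConjClasses.mk k} hcard
  refine ⟨s.1, (ConjClasses.mk_eq_mk_iff_isConj.mp s.2).symm, ?_⟩
  intro x hx
  have h1 := congrArg (fun t => (t.1 : G)) (hs ⟨x, hx⟩)
  exact h1

end Cfsg.Agent.S4911
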