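import Cfsg.Statements.S4444
import Mathlib
import Cfsg.Agent.Lib.Helper5.GlMain

set_option autoImplicit false
open Cfsg

namespace Cfsg.Agent.S4444

/-- The Glauberman correspondence for a p-group of operators. Inside a finite group Γ let S normalise G with the orders of G and S coprime, S a p-group, and let C = G ⊓ C(S) be the fixed points. Call an irreducible character χ of G S-invariant when χ(s g s⁻¹) = χ(g) for s ∈ S, g ∈ G. Then: (i) for every S-invariant χ there is exactly one irreducible character β of C whose multiplicity [χ_C, β] in the restriction of χ is not divisible by p; (ii) that multiplicity is ≡ 1 or ≡ −1 (mod p); (iii) distinct S-invariant χ give distinct β; (iv) every irreducible character of C arises in this way. So χ ↦ β is a bijection from the S-invariant irreducible characters of G onto the irreducible characters of C. -/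
theorem result {Γ : Type*} [Group Γ] [Fintype Γ] (G S : Subgroup Γ) [Fintype G] (hnorm : ∀ s ∈ S, ∀ g ∈ G, s * g * s⁻¹ ∈ G) (hcop : (Nat.card G).Coprime (Nat.card S)) (p : ℕ) (hp : p.Prime) (hS : IsPGroup p S) (C : Subgroup Γ) [Fintype C] (hC : C = G ⊓ Subgroup.centralizer (S : Set Γ)) (hCG : C ≤ G) : (∀ χ : Cfsg.IrrCharacter G, (∀ s ∈ S, ∀ g g' : G, (g' : Γ) = s * g * s⁻¹ → (χ : G → ℂ) g' = (χ : G → ℂ) g) → ∃! β : Cfsg.IrrCharacter C, ∃ m : ℕ, Cfsg.classInner (fun c : C => (χ : G → ℂ) ⟨c, hCG c.2⟩) (β : C → ℂ) = (m : ℂ) ∧ ¬ p ∣ m) ∧ (∀ χ : Cfsg.IrrCharacter G, (∀ s ∈ S, ∀ g g' : G, (g' : Γ) = s * g * s⁻¹ → (χ : G → ℂ) g' = (χ : G → ℂ) g) → ∀ β : Cfsg.IrrCharacter C, ∀ m : ℕ, Cfsg.classInner (fun c : C => (χ : G → ℂ) ⟨c, hCG c.2⟩) (β : C → ℂ) = (m : ℂ) → ¬ p ∣ m → ((m : ℤ) ≡ 1 [ZMOD p] ∨ (m : ℤ) ≡ -1 [ZMOD p])) ∧ (∀ χ χ' : Cfsg.IrrCharacter G, (∀ s ∈ S, ∀ g g' : G, (g' :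 Γ) = s * g * s⁻¹ → (χ : G → ℂ) g' = (χ : G → ℂ) g) → (∀ s ∈ S, ∀ g g' : G, (g' : Γ) = s * g * s⁻¹ → (χ' : G → ℂ) g' = (χ' : G → ℂ) g) → ∀ β : Cfsg.IrrCharacter C, ∀ m m' : ℕ, Cfsg.classInner (fun c : C => (χ : G → ℂ) ⟨c, hCG c.2⟩) (β : C → ℂ) = (m : ℂ) → ¬ p ∣ m → Cfsg.classInner (fun c : C => (χ' : G → ℂ) ⟨c, hCG c.2⟩) (β : C → ℂ) = (m' : ℂ) → ¬ p ∣ m' → χ = χ') ∧ (∀ β : Cfsg.IrrCharacter C, ∃ χ : Cfsg.IrrCharacter G, (∀ s ∈ S, ∀ g g' : G, (g' : Γ) = s * g * s⁻¹ → (χ : G → ℂ) g' = (χ : G → ℂ) g) ∧ ∃ m : ℕ, Cfsg.classInner (fun c : C => (χ : G → ℂ) ⟨c, hCG c.2⟩) (β : C → ℂ) = (m : ℂ) ∧ ¬ p ∣ m) := by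
  classical
  haveI : Fact p.Prime := ⟨hp⟩
  let φ : S →* MulAut G :=
    Lib.Helper5.resAut ((MulAut.conj).comp S.subtype) G (fun w b hb => hnorm w w.2 b hb)
  have hφ : ∀ (s : S) (g : G), ((φ s g : G) : Γ) = s * g * (s : Γ)⁻¹ := fun s g => rfl
  let j : C →* G := Subgroup.inclusion hCG
  have hj : Function.Injective j := Subgroup.inclusion_injective hCG
  have hrange : ∀ g : G, g ∈ j.range ↔ ∀ s, φ s g = g := by
    intro g
    constructor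
    · rintro ⟨c, rfl⟩ s
      apply Subtype.ext
      rw [hφ]
      have hc : (c : Γ) ∈ G ⊓ Subgroup.centralizer (S : Set Γ) := hC ▸ c.2
      have h1 := (Subgroup.mem_centralizer_iff.mp hc.2) s s.2
      change (s : Γ) * (c : Γ) * (s : Γ)⁻¹ = (c : Γ)
      rw [h1, mul_inv_cancel_right]
    · intro h
      have hg : (g : Γ) ∈ C := by
        rw [hC]
        refine ⟨g.2, Subgroup.mem_centralizer_iff.mpr ?_⟩
        intro s hs
        have h1 := congrArg Subtype.val (h ⟨s, hs⟩)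
        rw [hφ] at h1
        change s * (g : Γ) * s⁻¹ = g at h1
        calc s * (g : Γ) = s * (g : Γ) * s⁻¹ * s := by group
          _ = g * s := by rw [h1]
      exact ⟨⟨g, hg⟩, Subtype.ext rfl⟩
  have hcop' : (Fintype.card G).Coprime (Nat.card S) := by
    rwa [Nat.card_eq_fintype_card] at hcop
  have main := Lib.Helper5.gl_pgroup p φ j hS hcop' hj hrange
  have hinv : ∀ χ : IrrCharacter G, (∀ s ∈ S, ∀ g g' : G, (g' : Γ) = s * g * s⁻¹ →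
      (χ : G → ℂ) g' = (χ : G → ℂ) g) → ∀ (s : S) (g : G), (χ : G → ℂ) (φ s g) = (χ : G → ℂ) g :=
    fun χ h s g => h s s.2 g (φ s g) (hφ s g)
  have hinv' : ∀ χ : IrrCharacter G, (∀ (s : S) (g : G), (χ : G → ℂ) (φ s g) = (χ : G → ℂ) g) →
      (∀ s ∈ S, ∀ g g' : G, (g' : Γ) = s * g * s⁻¹ → (χ : G → ℂ) g' = (χ : G → ℂ) g) := by
    intro χ h s hs g g' hg'
    have h1 : g' = φ ⟨s, hs⟩ g := Subtype.ext (hg'.trans (hφ ⟨s, hs⟩ g).symm)
    rw [h1]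
    exact h ⟨s, hs⟩ g
  refine ⟨?_, ?_, ?_, ?_⟩
  · intro χ hχ
    obtain ⟨β₀, ⟨m, hm, hpm⟩, hdiv⟩ := main.ex χ (hinv χ hχ)
    refine ⟨β₀, ⟨m, hm, Lib.Helper5.pm_not_dvd p m hpm⟩, ?_⟩
    rintro β ⟨m', hm', hpm'⟩
    by_contra hne
    obtain ⟨m₂, hm₂, hd⟩ := hdiv β hne
    have hm'' : Cfsg.classInner (fun c : C => (χ : G → ℂ) (j c)) (β : C → ℂ) = (m' : ℂ) := hm'
    rw [hm''] at hm₂
    have h1 : m' = m₂ := by exact_mod_cast hm₂
    exact hpm' (h1 ▸ hd)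
  · intro χ hχ β m hm hpm
    obtain ⟨β₀, ⟨m₀, hm₀, hpm₀⟩, hdiv⟩ := main.ex χ (hinv χ hχ)
    have hm'' : Cfsg.classInner (fun c : C => (χ : G → ℂ) (j c)) (β : C → ℂ) = (m : ℂ) := hm
    have hβ : β = β₀ := by
      by_contra hne
      obtain ⟨m₂, hm₂, hd⟩ := hdiv β hne
      rw [hm''] at hm₂
      have h1 : m = m₂ := by exact_mod_cast hm₂
      exact hpm (h1 ▸ hd)
    subst hβ
    rw [hm''] at hm₀
    have h1 : m = m₀ := by exact_mod_cast hm₀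
    rw [h1]
    exact hpm₀
  · intro χ χ' hχ hχ' β m m' hm hpm hm' hpm'
    exact main.inj χ χ' (hinv χ hχ) (hinv χ' hχ') β m m' hm hpm hm' hpm'
  · intro β
    obtain ⟨χ, hχ, m, hm, hpm⟩ := main.surj β
    exact ⟨χ, hinv' χ hχ, m, hm, hpm⟩

end Cfsg.Agent.S4444
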