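import Cfsg.Statements.S5124
import Cfsg.Agent.Lib.Helper90.Basic

set_option autoImplicit false
open Cfsg

namespace Cfsg.Agent.S5124

open Cfsg.FusionSystem Cfsg.Agent.Lib.Helper90

/-! ### `G = O^p(G) · P` -/

theorem pResidual_conj_mem {G : Type*} [Group G] (p : ℕ) {n : G} (hn : n ∈ pResidual p G) (g : G) :
    g * n * g⁻¹ ∈ pResidual p G := by
  induction hn using Subgroup.closure_induction with
  | mem x hx =>
    apply Subgroup.subset_closure
    show Nat.Coprime (orderOf (g * x * g⁻¹)) p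
    have h1 : orderOf (MulAut.conj g x) = orderOf x := MulEquiv.orderOf_eq (MulAut.conj g) x
    rw [MulAut.conj_apply] at h1
    rw [h1]
    exact hx
  | one => simp
  | mul x y _ _ hx hy =>
    have : g * (x * y) * g⁻¹ = (g * x * g⁻¹) * (g * y * g⁻¹) := by group
    rw [this]
    exact Subgroup.mul_mem _ hx hy
  | inv x _ hx =>
    have : g * x⁻¹ * g⁻¹ = (g * x * g⁻¹)⁻¹ := by group
    rw [this]
    exact Subgroup.inv_mem _ hx

theorem pResidual_normal {G : Type*} [Group G] (p : ℕ) : (pResidual p G).Normal :=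
  ⟨fun _ hn g => pResidual_conj_mem p hn g⟩

theorem mem_pResidual_of_pow_eq_one {G : Type*} [Group G] (p : ℕ) {g : G} {m : ℕ}
    (hm : m.Coprime p) (h : g ^ m = 1) : g ∈ pResidual p G := by
  apply Subgroup.subset_closure
  show Nat.Coprime (orderOf g) p
  exact Nat.Coprime.coprime_dvd_left (orderOf_dvd_of_pow_eq_one h) hm

theorem isPGroup_quotient_pResidual {G : Type*} [Group G] [Finite G] (p : ℕ) [Fact p.Prime]
    [hN : (pResidual p G).Normal] : IsPGroup p (G ⧸ pResidual p G) := by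
  intro q
  obtain ⟨a, rfl⟩ := QuotientGroup.mk_surjective q
  have hp : p.Prime := Fact.out
  obtain ⟨k, m, hm, hkm⟩ := Nat.exists_eq_pow_mul_and_not_dvd (orderOf_pos a).ne' p hp.ne_one
  refine ⟨k, ?_⟩
  have hmem : a ^ p ^ k ∈ pResidual p G := by
    apply mem_pResidual_of_pow_eq_one p (m := m)
    · exact (Nat.Coprime.symm ((Nat.Prime.coprime_iff_not_dvd hp).mpr hm))
    · rw [← pow_mul, ← hkm, pow_orderOf_eq_one]
  rw [← QuotientGroup.mk_pow]
  exact (QuotientGroup.eq_one_iff _).mpr hmem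

theorem pResidual_sup_sylow {G : Type*} [Group G] [Finite G] (p : ℕ) [Fact p.Prime]
    (Sy : Sylow p G) : pResidual p G ⊔ (Sy : Subgroup G) = ⊤ := by
  have hp : p.Prime := Fact.out
  have := pResidual_normal (G := G) p
  have hq := isPGroup_quotient_pResidual (G := G) p
  obtain ⟨j, hj⟩ := IsPGroup.iff_card.mp hq
  have hidx : (pResidual p G).index = p ^ j := by
    rw [Subgroup.index_eq_card]
    exact hj
  have h1 : (pResidual p G ⊔ (Sy : Subgroup G)).index ∣ p ^ j :=
    hidx ▸ Subgroup.index_dvd_of_le le_sup_left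
  have h2 : (pResidual p G ⊔ (Sy : Subgroup G)).index ∣ (Sy : Subgroup G).index :=
    Subgroup.index_dvd_of_le le_sup_right
  obtain ⟨i, -, hi⟩ := (Nat.dvd_prime_pow hp).mp h1
  rw [← Subgroup.index_eq_one]
  cases i with
  | zero => simpa using hi
  | succ i =>
    exfalso
    apply Sy.not_dvd_index
    refine dvd_trans ?_ h2
    rw [hi, pow_succ]
    exact dvd_mul_left p _

theorem exists_mul_of_pResidual_sylow {G : Type*} [Group G] [Finite G] (p : ℕ) [Fact p.Prime]
    (Sy : Sylow p G) (a : G) : ∃ b ∈ pResidual p G, ∃ s ∈ (Sy : Subgroup G), a = b * s := by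
  have := pResidual_normal (G := G) p
  have h : a ∈ pResidual p G ⊔ (Sy : Subgroup G) := by
    rw [pResidual_sup_sylow]
    exact Subgroup.mem_top a
  obtain ⟨b, hb, s, hs, hbs⟩ := Subgroup.mem_sup_of_normal_left.mp h
  exact ⟨b, hb, s, hs, hbs.symm⟩

/-! ### The hyperfocal subgroup -/

variable {Ω : Type*} [Group Ω] {S : Subgroup Ω}

theorem hyp_le (F : FusionSystem S) (p : ℕ) : F.hyperfocalSubgroup p ≤ S := by
  unfold hyperfocalSubgroup
  rw [Subgroup.closure_le]
  rintro y ⟨P, α, x, hP, hα, rfl⟩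
  exact S.mul_mem (S.inv_mem (hP x.2)) (hP ((α : MulAut P) x).2)

theorem gen_mem (F : FusionSystem S) (p : ℕ) {P : Subgroup Ω} (hP : P ≤ S) (α : F.autGroup P)
    (hα : α ∈ pResidual p (F.autGroup P)) (x : P) :
    (x : Ω)⁻¹ * (((α : MulAut P) x : P) : Ω) ∈ F.hyperfocalSubgroup p :=
  Subgroup.subset_closure ⟨P, α, x, hP, hα, rfl⟩

theorem conj_gen (F : FusionSystem S) (p : ℕ) {s : Ω} (hs : s ∈ S) {P : Subgroup Ω} (hP : P ≤ S)
    (α : F.autGroup P) (hα : α ∈ pResidual p (F.autGroup P)) :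
    ∀ x : P, s * ((x : Ω)⁻¹ * (((α : MulAut P) x : P) : Ω)) * s⁻¹ ∈ F.hyperfocalSubgroup p := by
  induction hα using Subgroup.closure_induction with
  | mem α hα =>
    intro x
    have hP' : P.map (MulAut.conj s).toMonoidHom ≤ S := by
      rintro _ ⟨y, hy, rfl⟩
      exact S.mul_mem (S.mul_mem hs (hP hy)) (S.inv_mem hs)
    let e : P ≃* P.map (MulAut.conj s).toMonoidHom :=
      Subgroup.equivMapOfInjective P (MulAut.conj s).toMonoidHom (MulAut.conj s).injective
    have he : ∀ y : P, ((e y : P.map (MulAut.conj s).toMonoidHom) : Ω) = s * y * s⁻¹ := fun y => rfl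
    have hα' : MulAut.congr e (α : MulAut P) ∈ F.autGroup (P.map (MulAut.conj s).toMonoidHom) := by
      rw [mem_autGroup_iff F hP']
      have h1 : Mor F (P.map (MulAut.conj s).toMonoidHom) (fun y => s⁻¹ * y * s⁻¹⁻¹) :=
        mor_conj F hP' (S.inv_mem hs)
      have h2 : Mor F P (autFun P (α : MulAut P)) := (mem_autGroup_iff F hP _).mp α.2
      have h3 : Mor F P (fun y => s * y * s⁻¹) := mor_conj F hP hs
      have hmem1 : ∀ y ∈ P.map (MulAut.conj s).toMonoidHom, s⁻¹ * y * s⁻¹⁻¹ ∈ P := by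
        rintro _ ⟨z, hz, rfl⟩
        have : s⁻¹ * ((MulAut.conj s).toMonoidHom z) * s⁻¹⁻¹ = z := by
          show s⁻¹ * (s * z * s⁻¹) * s⁻¹⁻¹ = z
          group
        rw [this]
        exact hz
      have h4 := (h1.comp h2 hmem1).comp h3 (fun y hy => autFun_mem _ (hmem1 y hy))
      refine h4.congr ?_
      intro y hy
      rw [autFun_apply' _ hy]
      show s * autFun P (α : MulAut P) (s⁻¹ * y * s⁻¹⁻¹) * s⁻¹ = _
      have h5 : (e.symm ⟨y, hy⟩ : Ω) = s⁻¹ * y * s⁻¹⁻¹ := by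
        have h6 := he (e.symm ⟨y, hy⟩)
        rw [e.apply_symm_apply] at h6
        have h6' : y = s * (e.symm ⟨y, hy⟩ : Ω) * s⁻¹ := h6
        calc (e.symm ⟨y, hy⟩ : Ω) = s⁻¹ * (s * (e.symm ⟨y, hy⟩ : Ω) * s⁻¹) * s⁻¹⁻¹ := by group
          _ = s⁻¹ * y * s⁻¹⁻¹ := by rw [← h6']
      rw [← h5, autFun_apply]
      rfl
    have hord : orderOf (⟨MulAut.congr e (α : MulAut P), hα'⟩ :
        F.autGroup (P.map (MulAut.conj s).toMonoidHom)) = orderOf α := by
      rw [← Subgroup.orderOf_coe, ← Subgroup.orderOf_coe]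
      exact MulEquiv.orderOf_eq (MulAut.congr e) _
    have hres : (⟨MulAut.congr e (α : MulAut P), hα'⟩ :
        F.autGroup (P.map (MulAut.conj s).toMonoidHom)) ∈
        pResidual p (F.autGroup (P.map (MulAut.conj s).toMonoidHom)) := by
      apply Subgroup.subset_closure
      show Nat.Coprime (orderOf _) p
      rw [hord]
      exact hα
    have h7 := gen_mem F p hP' _ hres (e x)
    have h8 : ((e x : P.map (MulAut.conj s).toMonoidHom) : Ω)⁻¹ *
        ((MulAut.congr e (α : MulAut P) (e x) : P.map (MulAut.conj s).toMonoidHom) : Ω) =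
        s * ((x : Ω)⁻¹ * (((α : MulAut P) x : P) : Ω)) * s⁻¹ := by
      have h9 : MulAut.congr e (α : MulAut P) (e x) = e ((α : MulAut P) x) := by
        show e ((α : MulAut P) (e.symm (e x))) = _
        rw [e.symm_apply_apply]
      rw [h9, he, he]
      group
    rw [← h8]
    exact h7
  | one =>
    intro x
    have : s * ((x : Ω)⁻¹ * ((((1 : F.autGroup P) : MulAut P) x : P) : Ω)) * s⁻¹ = 1 := by
      show s * ((x : Ω)⁻¹ * (x : Ω)) * s⁻¹ = 1
      group
    rw [this]
    exact Subgroup.one_mem _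
  | mul α β _ _ hα hβ =>
    intro x
    have h1 := hβ x
    have h2 := hα ((β : MulAut P) x)
    have : s * ((x : Ω)⁻¹ * ((((α * β : F.autGroup P) : MulAut P) x : P) : Ω)) * s⁻¹ =
        (s * ((x : Ω)⁻¹ * (((β : MulAut P) x : P) : Ω)) * s⁻¹) *
        (s * ((((β : MulAut P) x : P) : Ω)⁻¹ *
          (((α : MulAut P) ((β : MulAut P) x) : P) : Ω)) * s⁻¹) := by
      show s * ((x : Ω)⁻¹ * (((α : MulAut P) ((β : MulAut P) x) : P) : Ω)) * s⁻¹ = _
      group
    rw [this]
    exact Subgroup.mul_mem _ h1 h2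
  | inv α _ hα =>
    intro x
    have h1 := hα ((α : MulAut P)⁻¹ x)
    have h2 : (α : MulAut P) ((α : MulAut P)⁻¹ x) = x := by simp
    rw [h2] at h1
    have : s * ((x : Ω)⁻¹ * ((((α⁻¹ : F.autGroup P) : MulAut P) x : P) : Ω)) * s⁻¹ =
        (s * ((((α : MulAut P)⁻¹ x : P) : Ω)⁻¹ * (x : Ω)) * s⁻¹)⁻¹ := by
      show s * ((x : Ω)⁻¹ * (((α : MulAut P)⁻¹ x : P) : Ω)) * s⁻¹ = _
      group
    rw [this]
    exact Subgroup.inv_mem _ h1

theorem hyp_conj_mem (F : FusionSystem S) (p : ℕ) {s : Ω} (hs : s ∈ S) {y : Ω}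
    (hy : y ∈ F.hyperfocalSubgroup p) : s * y * s⁻¹ ∈ F.hyperfocalSubgroup p := by
  unfold hyperfocalSubgroup at hy
  induction hy using Subgroup.closure_induction with
  | mem y hy =>
    obtain ⟨P, α, x, hP, hα, rfl⟩ := hy
    exact conj_gen F p hs hP α hα x
  | one =>
    have : s * 1 * s⁻¹ = 1 := by group
    rw [this]
    exact Subgroup.one_mem _
  | mul a b _ _ ha hb =>
    have : s * (a * b) * s⁻¹ = (s * a * s⁻¹) * (s * b * s⁻¹) := by group
    rw [this]
    exact Subgroup.mul_mem _ ha hb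
  | inv a _ ha =>
    have : s * a⁻¹ * s⁻¹ = (s * a * s⁻¹)⁻¹ := by group
    rw [this]
    exact Subgroup.inv_mem _ ha

theorem aut_preserves [Finite S] (p : ℕ) [Fact p.Prime] (F : FusionSystem S) {P : Subgroup Ω}
    (hfa : F.IsFullyAutomized p P) (β : MulAut P) (hβ : β ∈ F.autGroup P) (x : P)
    (hx : (x : Ω) ∈ F.hyperfocalSubgroup p) : ((β x : P) : Ω) ∈ F.hyperfocalSubgroup p := by
  obtain ⟨hPS, Sy, hSy⟩ := hfa
  have : Finite P := finite_of_le hPS
  have : Finite (MulAut P) :=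
    Finite.of_injective (fun α : MulAut P => (α : P → P)) DFunLike.coe_injective
  obtain ⟨b, hb, σ, hσ, hbσ⟩ := exists_mul_of_pResidual_sylow p Sy (⟨β, hβ⟩ : F.autGroup P)
  have hσ' : (σ : MulAut P) ∈ autInducedBy S P := by
    have h1 : σ ∈ (Sy : Subgroup (F.autGroup P)) := hσ
    rw [hSy] at h1
    exact Subgroup.mem_subgroupOf.mp h1
  obtain ⟨a, ha, hσa⟩ := (mem_autInducedBy_iff S P _).mp hσ'
  have hβeq : β = (b : MulAut P) * (σ : MulAut P) := by
    have := congrArg Subtype.val hbσ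
    exact this
  have h1 : (((σ : MulAut P) x : P) : Ω) ∈ F.hyperfocalSubgroup p := by
    rw [hσa]
    exact hyp_conj_mem F p ha hx
  have h2 := gen_mem F p hPS b hb ((σ : MulAut P) x)
  have h3 : ((β x : P) : Ω) = (((σ : MulAut P) x : P) : Ω) *
      ((((σ : MulAut P) x : P) : Ω)⁻¹ * (((b : MulAut P) ((σ : MulAut P) x) : P) : Ω)) := by
    rw [hβeq]
    show (((b : MulAut P) ((σ : MulAut P) x) : P) : Ω) = _
    group
  rw [h3]
  exact Subgroup.mul_mem _ h1 h2

/-- In a saturated fusion system over a finite p-group S the hyperfocal subgroup is strongly closed in the system. -/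
theorem result {Ω : Type*} [Group Ω] {S : Subgroup Ω} [Finite S] (p : ℕ) [Fact p.Prime] (hS : IsPGroup p S) (F : Cfsg.FusionSystem S) (hF : F.IsSaturated p) : F.StronglyClosed (F.hyperfocalSubgroup p) := by
  have key : ∀ (P : Subgroup Ω) (f : Ω → Ω), Mor F P f →
      ∀ x ∈ P, (x ∈ F.hyperfocalSubgroup p ↔ f x ∈ F.hyperfocalSubgroup p) := by
    refine alperin_induction hS hF
      (fun P f => ∀ x ∈ P, (x ∈ F.hyperfocalSubgroup p ↔ f x ∈ F.hyperfocalSubgroup p))
      ?_ ?_ ?_ ?_ ?_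
    · intro P f g hgood hfg x hx
      rw [← hfg x hx]
      exact hgood x hx
    · intro P P₀ f _ hgood h0 x hx
      exact hgood x (h0 hx)
    · intro P Q f g _ _ hPQ hf hg x hx
      exact (hf x hx).trans (hg (f x) (hPQ x hx))
    · intro P f hf hgood y hy
      obtain ⟨x, hx, rfl⟩ := hf.mem_img.mp hy
      rw [hf.invFn_apply hx]
      exact (hgood x hx).symm
    · intro P hfa _ _ f hf hfP x hx
      have : Finite P := finite_of_le hfa.1
      obtain ⟨α, hα, hαf⟩ := exists_aut_of_mor hf hfP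
      constructor
      · intro hxT
        rw [← hαf ⟨x, hx⟩]
        exact aut_preserves p F hfa α hα ⟨x, hx⟩ hxT
      · intro hfT
        rw [← hαf ⟨x, hx⟩] at hfT
        have h1 := aut_preserves p F hfa α⁻¹ (Subgroup.inv_mem _ hα) (α ⟨x, hx⟩) hfT
        have h2 : α⁻¹ (α ⟨x, hx⟩) = ⟨x, hx⟩ := by simp
        rw [h2] at h1
        exact h1
  refine ⟨hyp_le F p, fun R hR φ hφ x => ?_⟩
  have h1 := (key R (extFun R φ) (mor_of_hom hφ) x x.2).mp (hR x.2)
  rw [extFun_apply] at h1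
  exact h1

end Cfsg.Agent.S5124
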