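import Cfsg.Statements.S0218
import Mathlib

set_option autoImplicit false
open Cfsg

namespace Cfsg.Agent.S0218

theorem val_eq_of_order {m : ℕ} (hm : 0 < m) (v : ℕ) (hv : v < 2 * m)
    (h : 2 * m / (2 * m).gcd v = 2) : v = m := by
  have hd : (2 * m).gcd v ∣ 2 * m := Nat.gcd_dvd_left _ _
  have hd2 : (2 * m).gcd v ∣ v := Nat.gcd_dvd_right _ _
  have h1 : 2 * m = 2 * (2 * m).gcd v := by
    have := Nat.div_mul_cancel hd
    rw [h] at this
    omega
  have h2 : (2 * m).gcd v = m := by omega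
  rw [h2] at hd2
  obtain ⟨k, hk⟩ := hd2
  have hk1 : k < 2 := by
    by_contra hk2
    have : 2 ≤ k := by omega
    have : m * 2 ≤ m * k := Nat.mul_le_mul_left m this
    omega
  interval_cases k
  · simp only [mul_zero] at hk
    subst hk
    simp at h2
    omega
  · omega

/-- The generalized quaternion group of order 2^(n+3) contains exactly one element of order 2. -/
theorem result (n : ℕ) : Nat.card {x : QuaternionGroup (2 ^ (n + 1)) // orderOf x = 2} = 1 := by
  have hm : 0 < 2 ^ (n + 1) := by positivity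
  have : NeZero (2 ^ (n + 1)) := ⟨hm.ne'⟩
  have : NeZero (2 * 2 ^ (n + 1)) := ⟨by positivity⟩
  have key : ∀ x : QuaternionGroup (2 ^ (n + 1)), orderOf x = 2 →
      x = QuaternionGroup.a ((2 ^ (n + 1) : ℕ) : ZMod (2 * 2 ^ (n + 1))) := by
    intro x hx
    rcases x with i | i
    · rw [QuaternionGroup.orderOf_a] at hx
      have hv := val_eq_of_order hm i.val (ZMod.val_lt i) hx
      congr 1
      calc i = ((i.val : ℕ) : ZMod (2 * 2 ^ (n + 1))) := (ZMod.natCast_zmod_val i).symm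
        _ = _ := by rw [hv]
    · rw [QuaternionGroup.orderOf_xa] at hx
      omega
  rw [Nat.card_eq_one_iff_unique]
  refine ⟨⟨fun a b => Subtype.ext ((key a.1 a.2).trans (key b.1 b.2).symm)⟩,
    ⟨⟨QuaternionGroup.a ((2 ^ (n + 1) : ℕ) : ZMod (2 * 2 ^ (n + 1))), ?_⟩⟩⟩
  · rw [QuaternionGroup.orderOf_a, ZMod.val_natCast, Nat.mod_eq_of_lt (by omega)]
    have : (2 * 2 ^ (n + 1)).gcd (2 ^ (n + 1)) = 2 ^ (n + 1) :=
      Nat.gcd_eq_right (Dvd.intro_left 2 rfl)
    rw [this]
    exact Nat.mul_div_cancel 2 hm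

end Cfsg.Agent.S0218
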