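import Cfsg.Statements.S0064
import Mathlib

set_option autoImplicit false
open Cfsg

namespace Cfsg.Agent.S0064

theorem result {G : Type*} [Group G] [Finite G] :
    Group.IsNilpotent G ↔ ∀ H : Subgroup G, H.IsSubnormal := by
  constructor
  · intro hnil H
    have hNC : NormalizerCondition G := Group.normalizerCondition_of_isNilpotent
    induction H using WellFoundedGT.induction with
    | ind H ih =>
      by_cases hH : H = ⊤
      · rw [hH]; exact Subgroup.IsSubnormal.top
      · have hlt := hNC H (lt_top_iff_ne_top.mpr hH)
        exact Subgroup.IsSubnormal.step H _ hlt.le (ih _ hlt) Subgroup.normal_in_normalizer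
  · intro h
    refine (Group.isNilpotent_of_finite_tfae (G := G)).out 2 0 rfl rfl |>.mp ?_
    intro M hM
    rcases (h M).lt_normal with hM' | ⟨K, hK, hMK, hKtop⟩
    · exact absurd hM' hM.1
    · rcases eq_or_lt_of_le hMK with heq | hlt
      · rw [heq]; exact hK
      · exact absurd (hM.2 K hlt) hKtop.ne
end Cfsg.Agent.S0064
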