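import Mathlib
import Cfsg.Statements.S0130

set_option autoImplicit false
open Cfsg
open scoped commutatorElement

namespace Cfsg.Agent.S0130

variable {G : Type*} [Group G]

/-- class-2 commutation: `t^m s = c^m s t^m` when `t s = c s t` and `c` commutes with `s`, `t` -/
theorem pow_mul_of_comm {c s t : G} (hct : Commute c t)
    (h : t * s = c * s * t) : ∀ m : ℕ, t ^ m * s = c ^ m * s * t ^ m := by
  intro m
  induction m with
  | zero => simp
  | succ m ih =>
    have e1 : t ^ m * c = c * t ^ m := ((hct.pow_right m).eq).symm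
    calc t ^ (m + 1) * s = t ^ m * (t * s) := by rw [pow_succ, mul_assoc]
      _ = t ^ m * (c * s * t) := by rw [h]
      _ = (t ^ m * c) * s * t := by simp only [mul_assoc]
      _ = c * (t ^ m * s) * t := by rw [e1]; simp only [mul_assoc]
      _ = c * (c ^ m * s * t ^ m) * t := by rw [ih]
      _ = c ^ (m + 1) * s * t ^ (m + 1) := by
          rw [pow_succ' c, pow_succ t]; simp only [mul_assoc]

/-- class-2 power formula -/
theorem mul_pow_of_comm {c s t : G} (hcs : Commute c s) (hct : Commute c t)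
    (h : t * s = c * s * t) : ∀ m : ℕ, (s * t) ^ m = s ^ m * t ^ m * c ^ (m.choose 2) := by
  intro m
  induction m with
  | zero => simp
  | succ m ih =>
    have h1 := pow_mul_of_comm hct h m
    have hC : (m + 1).choose 2 = m + m.choose 2 := by
      rw [Nat.choose_succ_succ' m 1, Nat.choose_one_right]
    have e1 : c ^ m.choose 2 * (s * t) = s * t * c ^ m.choose 2 :=
      ((hcs.mul_right hct).pow_left _).eq
    have e2 : c ^ m * s = s * c ^ m := (hcs.pow_left m).eq
    have e3 : c ^ m * t ^ (m + 1) = t ^ (m + 1) * c ^ m := ((hct.pow_left m).pow_right _).eq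
    calc (s * t) ^ (m + 1) = s ^ m * t ^ m * c ^ m.choose 2 * (s * t) := by rw [pow_succ, ih]
      _ = s ^ m * t ^ m * ((s * t) * c ^ m.choose 2) := by rw [← e1]; simp only [mul_assoc]
      _ = s ^ m * (t ^ m * s) * t * c ^ m.choose 2 := by simp only [mul_assoc]
      _ = s ^ m * (c ^ m * s * t ^ m) * t * c ^ m.choose 2 := by rw [h1]
      _ = s ^ m * (c ^ m * s) * (t ^ m * t) * c ^ m.choose 2 := by simp only [mul_assoc]
      _ = s ^ m * (s * c ^ m) * t ^ (m + 1) * c ^ m.choose 2 := by rw [e2, ← pow_succ]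
      _ = s ^ m * s * (c ^ m * t ^ (m + 1)) * c ^ m.choose 2 := by simp only [mul_assoc]
      _ = s ^ (m + 1) * (t ^ (m + 1) * c ^ m) * c ^ m.choose 2 := by rw [e3, ← pow_succ]
      _ = s ^ (m + 1) * t ^ (m + 1) * c ^ (m + 1).choose 2 := by
          rw [hC, pow_add c m (m.choose 2)]; simp only [mul_assoc]

/-- the stabilizer of the coset `yA` under conjugation -/
def stab (A : Subgroup G) [hAn : A.Normal] (y : G) : Subgroup G where
  carrier := {g | ⁅g, y⁆ ∈ A}
  one_mem' := by
    show ⁅(1 : G), y⁆ ∈ A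
    rw [commutatorElement_one_left]
    exact A.one_mem
  mul_mem' := by
    intro a b ha hb
    have e : ⁅a * b, y⁆ = a * ⁅b, y⁆ * a⁻¹ * ⁅a, y⁆ := by
      simp only [commutatorElement_def]; group
    show ⁅a * b, y⁆ ∈ A
    rw [e]
    exact A.mul_mem (hAn.conj_mem _ hb a) ha
  inv_mem' := by
    intro a ha
    have e : ⁅a⁻¹, y⁆ = a⁻¹ * (⁅a, y⁆)⁻¹ * a⁻¹⁻¹ := by
      simp only [commutatorElement_def]; group
    show ⁅a⁻¹, y⁆ ∈ A
    rw [e]
    exact hAn.conj_mem _ (A.inv_mem ha) a⁻¹

theorem mem_stab {A : Subgroup G} [A.Normal] {y g : G} : g ∈ stab A y ↔ ⁅g, y⁆ ∈ A := Iff.rfl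

theorem comm_symm_mem {A : Subgroup G} {a b : G} (h : ⁅a, b⁆ ∈ A) : ⁅b, a⁆ ∈ A := by
  rw [← commutatorElement_inv]
  exact A.inv_mem h

/-- the key step: there is no `y ∈ C_G(A) ∖ A` with `y^p ∈ A` and `y^(p^n) = 1` -/
theorem no_bad {p : ℕ} [Fact p.Prime] [Finite G] (hG : IsPGroup p G) (n : ℕ) (hn : p ^ n ≠ 2)
    (A : Subgroup G) [hAn : A.Normal] (hA : IsMulCommutative A) (hAe : ∀ a ∈ A, a ^ p ^ n = 1)
    (hmax : ∀ B : Subgroup G, B.Normal → IsMulCommutative B → (∀ b ∈ B, b ^ p ^ n = 1) →
      A ≤ B → B = A)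
    (y₀ : G) (hy₀C : y₀ ∈ Subgroup.centralizer (A : Set G)) (hy₀A : y₀ ∉ A)
    (hy₀q : y₀ ^ p ^ n = 1) (hy₀p : y₀ ^ p ∈ A) : False := by
  classical
  have hp : p.Prime := Fact.out
  let X := {y : G // y ∈ Subgroup.centralizer (A : Set G) ∧ y ∉ A ∧ y ^ p ^ n = 1 ∧ y ^ p ∈ A}
  have hne : Nonempty X := ⟨⟨y₀, hy₀C, hy₀A, hy₀q, hy₀p⟩⟩
  obtain ⟨⟨y, hyC, hyA, hyq, hyp⟩, hymax⟩ :=
    Finite.exists_max (fun z : X => Nat.card (stab A z.1))
  set N := stab A y with hN
  have hcentA : ∀ {s : G}, s ∈ Subgroup.centralizer (A : Set G) → ∀ a ∈ A, a * s = s * a :=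
    fun hs a ha => Subgroup.mem_centralizer_iff.mp hs a ha
  by_cases hNtop : N = ⊤
  · -- `A⟨y⟩` is a larger normal abelian subgroup of exponent dividing `p^n`
    have hall : ∀ g : G, ⁅g, y⁆ ∈ A := fun g => by
      have : g ∈ N := hNtop ▸ Subgroup.mem_top g
      exact this
    set T : Set G := (A : Set G) ∪ {y} with hT
    set B := Subgroup.closure T with hB
    have hTcomm : ∀ u ∈ T, ∀ v ∈ T, u * v = v * u := by
      intro u hu v hv
      rcases hu with hu | hu <;> rcases hv with hv | hv
      · exact congrArg Subtype.val (hA.is_comm.comm ⟨u, hu⟩ ⟨v, hv⟩)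
      · rw [Set.mem_singleton_iff] at hv
        subst hv
        exact hcentA hyC u hu
      · rw [Set.mem_singleton_iff] at hu
        subst hu
        exact (hcentA hyC v hv).symm
      · rw [Set.mem_singleton_iff] at hu hv
        rw [hu, hv]
    have h1 : B ≤ Subgroup.centralizer T := by
      rw [hB, Subgroup.closure_le]
      intro u hu
      exact Subgroup.mem_centralizer_iff.mpr fun v hv => hTcomm v hv u hu
    have h2 : B ≤ Subgroup.centralizer (B : Set G) := by
      rw [hB, Subgroup.closure_le]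
      intro u hu
      refine Subgroup.mem_centralizer_iff.mpr fun b hb => ?_
      exact (Subgroup.mem_centralizer_iff.mp (h1 hb) u hu).symm
    have hBc : ∀ b₁ ∈ B, ∀ b₂ ∈ B, b₁ * b₂ = b₂ * b₁ := fun b₁ hb₁ b₂ hb₂ =>
      Subgroup.mem_centralizer_iff.mp (h2 hb₂) b₁ hb₁
    have hAB : A ≤ B := fun a ha => Subgroup.subset_closure (Or.inl ha)
    have hyB : y ∈ B := Subgroup.subset_closure (Or.inr rfl)
    have hBn : B.Normal := by
      refine ⟨fun b hb g => ?_⟩
      induction hb using Subgroup.closure_induction with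
      | mem u hu =>
        rcases hu with hu | hu
        · exact hAB (hAn.conj_mem u hu g)
        · rw [Set.mem_singleton_iff] at hu
          subst hu
          have e : g * u * g⁻¹ = ⁅g, u⁆ * u := by
            simp only [commutatorElement_def]; group
          rw [e]
          exact B.mul_mem (hAB (hall g)) hyB
      | one => simp
      | mul a b _ _ iha ihb =>
        have e : g * (a * b) * g⁻¹ = (g * a * g⁻¹) * (g * b * g⁻¹) := by group
        rw [e]
        exact B.mul_mem iha ihb
      | inv a _ iha =>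
        have e : g * a⁻¹ * g⁻¹ = (g * a * g⁻¹)⁻¹ := by group
        rw [e]
        exact B.inv_mem iha
    have hBe : ∀ b ∈ B, b ^ p ^ n = 1 := by
      intro b hb
      induction hb using Subgroup.closure_induction with
      | mem u hu =>
        rcases hu with hu | hu
        · exact hAe u hu
        · rw [Set.mem_singleton_iff] at hu
          subst hu
          exact hyq
      | one => simp
      | mul a b ha hb iha ihb =>
        have hc : Commute a b := hBc a ha b hb
        rw [hc.mul_pow, iha, ihb, mul_one]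
      | inv a _ iha => rw [inv_pow, iha, inv_one]
    have hBA := hmax B hBn ⟨⟨fun a b => Subtype.ext (hBc a a.2 b b.2)⟩⟩ hBe hAB
    exact hyA (hBA ▸ hyB)
  · have hlt : N < ⊤ := lt_top_iff_ne_top.mpr hNtop
    have hnil : Group.IsNilpotent G := hG.isNilpotent
    have hnc := Group.normalizerCondition_of_isNilpotent (G := G) N hlt
    obtain ⟨h, hhN, hhn⟩ := SetLike.exists_of_lt hnc
    have hyN : y ∈ N := by
      show ⁅y, y⁆ ∈ A
      rw [commutatorElement_self]
      exact A.one_mem
    -- the subgroup `S`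
    let S : Subgroup G :=
      { carrier := {s | s ∈ Subgroup.centralizer (A : Set G) ∧ s ∈ N ∧ (∀ m ∈ N, ⁅s, m⁆ ∈ A) ∧
          s ^ p ∈ A ∧ s ^ p ^ n = 1}
        one_mem' := by
          refine ⟨Subgroup.one_mem _, N.one_mem, fun m _ => ?_, ?_, one_pow _⟩
          · rw [commutatorElement_one_left]; exact A.one_mem
          · rw [one_pow]; exact A.one_mem
        mul_mem' := by
          rintro s t ⟨hsC, hsN, hsm, hsp, hsq⟩ ⟨htC, htN, htm, htp, htq⟩
          have hcA : ⁅t, s⁆ ∈ A := htm s hsN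
          have hcs : Commute ⁅t, s⁆ s := hcentA hsC _ hcA
          have hct : Commute ⁅t, s⁆ t := hcentA htC _ hcA
          have hts : t * s = ⁅t, s⁆ * s * t := by
            rw [commutatorElement_def]; group
          have hcp : ⁅t, s⁆ ^ p = 1 := by
            have e1 := pow_mul_of_comm hct hts p
            have e2 : t ^ p * s = s * t ^ p := hcentA hsC _ htp
            rw [e2, mul_assoc] at e1
            exact (mul_eq_right.mp e1.symm)
          refine ⟨Subgroup.mul_mem _ hsC htC, N.mul_mem hsN htN, fun m hm => ?_, ?_, ?_⟩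
          · have e : ⁅s * t, m⁆ = s * ⁅t, m⁆ * s⁻¹ * ⁅s, m⁆ := by
              simp only [commutatorElement_def]; group
            rw [e]
            exact A.mul_mem (hAn.conj_mem _ (htm m hm) s) (hsm m hm)
          · rw [mul_pow_of_comm hcs hct hts p]
            exact A.mul_mem (A.mul_mem hsp htp) (A.pow_mem hcA _)
          · rw [mul_pow_of_comm hcs hct hts (p ^ n), hsq, htq, one_mul, one_mul]
            obtain ⟨k, hk⟩ := hp.dvd_choose_pow (k := 2) (n := n) (by norm_num) (Ne.symm hn)
            rw [hk, pow_mul, hcp, one_pow]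
        inv_mem' := by
          rintro s ⟨hsC, hsN, hsm, hsp, hsq⟩
          refine ⟨Subgroup.inv_mem _ hsC, N.inv_mem hsN, fun m hm => ?_, ?_, ?_⟩
          · have e : ⁅s⁻¹, m⁆ = s⁻¹ * (⁅s, m⁆)⁻¹ * s⁻¹⁻¹ := by
              simp only [commutatorElement_def]; group
            rw [e]
            exact hAn.conj_mem _ (A.inv_mem (hsm m hm)) s⁻¹
          · rw [inv_pow]; exact A.inv_mem hsp
          · rw [inv_pow, hsq, inv_one] }
    have hyS : y ∈ S :=
      ⟨hyC, hyN, fun m hm => comm_symm_mem (mem_stab.mp hm), hyp, hyq⟩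
    -- `S` is invariant under `h`
    have hinv : ∀ s ∈ S, h * s * h⁻¹ ∈ S := by
      rintro s ⟨hsC, hsN, hsm, hsp, hsq⟩
      refine ⟨?_, (Subgroup.mem_normalizer_iff.mp hhN s).mp hsN, fun m hm => ?_, ?_, ?_⟩
      · refine Subgroup.mem_centralizer_iff.mpr fun a ha => ?_
        have ha' : h⁻¹ * a * h⁻¹⁻¹ ∈ A := hAn.conj_mem a ha h⁻¹
        have e := hcentA hsC _ ha'
        have e1 : a * (h * s * h⁻¹) = h * ((h⁻¹ * a * h⁻¹⁻¹) * s) * h⁻¹ := by group
        have e2 : h * s * h⁻¹ * a = h * (s * (h⁻¹ * a * h⁻¹⁻¹)) * h⁻¹ := by group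
        rw [e1, e2, e]
      · have hm' : h⁻¹ * m * h ∈ N := by
          refine (Subgroup.mem_normalizer_iff.mp hhN _).mpr ?_
          have e : h * (h⁻¹ * m * h) * h⁻¹ = m := by group
          rw [e]
          exact hm
        have e : ⁅h * s * h⁻¹, m⁆ = h * ⁅s, h⁻¹ * m * h⁆ * h⁻¹ := by
          simp only [commutatorElement_def]; group
        rw [e]
        exact hAn.conj_mem _ (hsm _ hm') h
      · rw [conj_pow]
        exact hAn.conj_mem _ hsp h
      · rw [conj_pow, hsq, mul_one, mul_inv_cancel]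
    -- iterated commutators with `h`
    let xs : ℕ → G := fun i => Nat.rec y (fun _ x => ⁅x, h⁆) i
    have hxs0 : xs 0 = y := rfl
    have hxss : ∀ i, xs (i + 1) = ⁅xs i, h⁆ := fun i => rfl
    have hxsS : ∀ i, xs i ∈ S := by
      intro i
      induction i with
      | zero => exact hyS
      | succ i ih =>
        rw [hxss]
        have e : ⁅xs i, h⁆ = xs i * (h * xs i * h⁻¹)⁻¹ := by
          simp only [commutatorElement_def]; group
        rw [e]
        exact S.mul_mem ih (S.inv_mem (hinv _ ih))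
    have hxsL : ∀ i, xs i ∈ (⊤ : Subgroup G).lowerCentralSeries i := by
      intro i
      induction i with
      | zero => exact Subgroup.mem_top _
      | succ i ih =>
        rw [hxss, Subgroup.lowerCentralSeries_succ]
        exact Subgroup.commutator_mem_commutator ih (Subgroup.mem_top h)
    have hex : ∃ i, xs i ∈ A := by
      refine ⟨Group.nilpotencyClass G, ?_⟩
      have := hxsL (Group.nilpotencyClass G)
      rw [Subgroup.lowerCentralSeries_nilpotencyClass, Subgroup.mem_bot] at this
      rw [this]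
      exact A.one_mem
    have hi0 : Nat.find hex ≠ 0 := by
      intro h0
      have := Nat.find_spec hex
      rw [h0] at this
      exact hyA this
    obtain ⟨k, hk⟩ := Nat.exists_eq_succ_of_ne_zero hi0
    have hkA : xs k ∉ A := Nat.find_min hex (by rw [hk]; exact Nat.lt_succ_self k)
    have hk1A : xs (k + 1) ∈ A := by
      have := Nat.find_spec hex
      rwa [hk] at this
    obtain ⟨hsC, hsN, hsm, hsp, hsq⟩ := hxsS k
    have hle : N ≤ stab A (xs k) := fun m hm => comm_symm_mem (hsm m hm)
    have hh : h ∈ stab A (xs k) := by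
      show ⁅h, xs k⁆ ∈ A
      exact comm_symm_mem (by rw [← hxss]; exact hk1A)
    have hcard := hymax ⟨xs k, hsC, hkA, hsq, hsp⟩
    have heq := Subgroup.eq_of_le_of_card_ge hle hcard
    exact hhn (heq ▸ hh)

/-- If A is maximal among the normal abelian subgroups of exponent dividing p^n of a p-group (p^n ≠ 2), then A contains every element of order dividing p^n in its centralizer. -/
theorem result {G : Type*} [Group G] [Finite G] {p : ℕ} [Fact p.Prime] (hG : IsPGroup p G) (n : ℕ) (hn : p ^ n ≠ 2) (A : Subgroup G) [A.Normal] (hA : IsMulCommutative A) (hAe : ∀ a ∈ A, a ^ p ^ n = 1) (hmax : ∀ B : Subgroup G, B.Normal → IsMulCommutative B → (∀ b ∈ B, b ^ p ^ n = 1) → A ≤ B → B = A) (x : G) (hx : x ∈ Subgroup.centralizer (A : Set G)) (hxn : x ^ p ^ n = 1) : x ∈ A := by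
  classical
  by_contra hxA
  have hex : ∃ j, x ^ p ^ j ∈ A := ⟨n, by rw [hxn]; exact A.one_mem⟩
  have hj0 : Nat.find hex ≠ 0 := by
    intro h0
    have := Nat.find_spec hex
    rw [h0, pow_zero, pow_one] at this
    exact hxA this
  obtain ⟨k, hk⟩ := Nat.exists_eq_succ_of_ne_zero hj0
  have hkA : x ^ p ^ k ∉ A := Nat.find_min hex (by rw [hk]; exact Nat.lt_succ_self k)
  have hk1A : (x ^ p ^ k) ^ p ∈ A := by
    have := Nat.find_spec hex
    rw [hk, Nat.succ_eq_add_one, pow_succ, pow_mul] at this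
    exact this
  have hq : (x ^ p ^ k) ^ p ^ n = 1 := by
    rw [← pow_mul, mul_comm, pow_mul, hxn, one_pow]
  exact no_bad hG n hn A hA hAe hmax (x ^ p ^ k) (Subgroup.pow_mem _ hx _) hkA hq hk1A

end Cfsg.Agent.S0130
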