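import Cfsg.Statements.S4856
import Cfsg.Agent.Lib.Helper84.Core

set_option autoImplicit false
open Cfsg

namespace Cfsg.Agent.S4856

open Cfsg.Agent.Lib.Helper84
open scoped ComplexConjugate

universe u

section
variable {G : Type u} [Group G] [Fintype G]

/-- `∑_y χ(y a y⁻¹ b) = |G| χ(a) χ(b) / χ(1)`. -/
theorem sum_conj_mul (χ : IrrCharacter G) (a b : G) :
    ∑ y : G, χ.1 (y * a * y⁻¹ * b) = (Nat.card G : ℂ) * χ.1 a * χ.1 b / χ.1 1 := by
  classical
  have key := irr_schur χ (fun g => ((Finset.univ.filter (fun y : G => y * a * y⁻¹ = g)).card : ℂ))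
    (by
      intro g h
      congr 1
      refine Finset.card_bij' (fun y _ => h⁻¹ * y) (fun y _ => h * y) ?_ ?_ ?_ ?_
      · intro y hy
        simp only [Finset.mem_filter, Finset.mem_univ, true_and] at hy ⊢
        have : y * a * y⁻¹ = h * g * h⁻¹ := hy
        calc h⁻¹ * y * a * (h⁻¹ * y)⁻¹ = h⁻¹ * (y * a * y⁻¹) * h := by group
          _ = g := by rw [this]; group
      · intro y hy
        simp only [Finset.mem_filter, Finset.mem_univ, true_and] at hy ⊢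
        calc h * y * a * (h * y)⁻¹ = h * (y * a * y⁻¹) * h⁻¹ := by group
          _ = h * g * h⁻¹ := by rw [hy]
      · intro y _; simp
      · intro y _; simp) b
  have h1 : ∀ (F : G → ℂ), ∑ g : G, ((Finset.univ.filter (fun y : G => y * a * y⁻¹ = g)).card : ℂ) * F g
      = ∑ y : G, F (y * a * y⁻¹) := by
    intro F
    have : ∀ g : G, ((Finset.univ.filter (fun y : G => y * a * y⁻¹ = g)).card : ℂ) * F g
        = ∑ y : G, if y * a * y⁻¹ = g then F (y * a * y⁻¹) else 0 := by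
      intro g
      rw [← Finset.sum_filter, Finset.sum_congr rfl (fun y hy => by
        rw [(Finset.mem_filter.mp hy).2]), Finset.sum_const, nsmul_eq_mul]
    simp_rw [this]
    rw [Finset.sum_comm]
    refine Finset.sum_congr rfl (fun y _ => ?_)
    simp
  rw [h1 (fun g => χ.1 (g * b)), h1 (fun g => χ.1 g)] at key
  rw [key]
  have : ∀ y : G, χ.1 (y * a * y⁻¹) = χ.1 a := fun y => irr_conj_inv χ a y
  simp_rw [this]
  rw [Finset.sum_const, Finset.card_univ, nsmul_eq_mul, Nat.card_eq_fintype_card]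

theorem sum_inv_mul (χ : IrrCharacter G) (h : G) :
    ∑ x : G, χ.1 x⁻¹ * χ.1 (x * h) = (Nat.card G : ℂ) * χ.1 h / χ.1 1 := by
  have key := irr_schur χ (fun g => χ.1 g⁻¹) (by
    intro g k
    have : (k * g * k⁻¹)⁻¹ = k * g⁻¹ * k⁻¹ := by group
    rw [this, irr_conj_inv]) h
  rw [key]
  congr 2
  have := irr_row_orth χ χ
  simp only [if_true] at this
  rw [← this]
  refine Finset.sum_congr rfl (fun g _ => ?_)
  rw [irr_inv, mul_comm]

theorem irr_comm (χ : IrrCharacter G) (a b : G) : χ.1 (a * b) = χ.1 (b * a) := by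
  have := irr_conj_inv χ (a * b) a⁻¹
  rw [← this]
  simp

theorem irr_one_conj (χ : IrrCharacter G) : conj (χ.1 1) = χ.1 1 := by
  rw [irr_one]; simp

theorem irr_one_ne (χ : IrrCharacter G) : χ.1 1 ≠ 0 := by
  rw [irr_one]
  exact_mod_cast (irr_degree_pos χ).ne'

open Classical in
theorem indicator_eq [Fintype (IrrCharacter G)] (w : G) :
    ∑ χ : IrrCharacter G, χ.1 w * χ.1 1 = if w = 1 then (Nat.card G : ℂ) else 0 := by
  classical
  have := irr_col_orth (G := G) w 1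
  simp_rw [irr_one_conj] at this
  rw [this]
  by_cases hw : w = 1
  · subst hw
    simp only [IsConj.refl, if_true]
    have : Subgroup.centralizer ({1} : Set G) = ⊤ := by
      ext x; simp [Subgroup.mem_centralizer_iff]
    rw [this]
    simp
  · have : ¬ IsConj w 1 := by
      intro h
      exact hw (isConj_one_left.mp h)
    simp [this, hw]

theorem double_sum (χ : IrrCharacter G) (z : G) :
    ∑ x : G, ∑ y : G, χ.1 (x * y * x⁻¹ * y⁻¹ * z⁻¹) =
      (Nat.card G : ℂ) ^ 2 * χ.1 z⁻¹ / (χ.1 1) ^ 2 := by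
  have hne := irr_one_ne χ
  have h1 : ∀ x : G, ∑ y : G, χ.1 (x * y * x⁻¹ * y⁻¹ * z⁻¹) =
      (Nat.card G : ℂ) * χ.1 x⁻¹ * χ.1 (x * z⁻¹) / χ.1 1 := by
    intro x
    have : ∀ y : G, χ.1 (x * y * x⁻¹ * y⁻¹ * z⁻¹) = χ.1 (y * x⁻¹ * y⁻¹ * (z⁻¹ * x)) := by
      intro y
      have h := irr_comm χ x (y * x⁻¹ * y⁻¹ * z⁻¹)
      have e1 : x * (y * x⁻¹ * y⁻¹ * z⁻¹) = x * y * x⁻¹ * y⁻¹ * z⁻¹ := by group
      have e2 : y * x⁻¹ * y⁻¹ * z⁻¹ * x = y * x⁻¹ * y⁻¹ * (z⁻¹ * x) := by group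
      rw [e1, e2] at h
      exact h
    simp_rw [this]
    rw [sum_conj_mul, irr_comm χ z⁻¹ x]
  simp_rw [h1]
  have h2 : ∑ x : G, (Nat.card G : ℂ) * χ.1 x⁻¹ * χ.1 (x * z⁻¹) / χ.1 1
      = (Nat.card G : ℂ) / χ.1 1 * ∑ x : G, χ.1 x⁻¹ * χ.1 (x * z⁻¹) := by
    rw [Finset.mul_sum]
    refine Finset.sum_congr rfl (fun x _ => ?_)
    ring
  rw [h2, sum_inv_mul]
  field_simp

end

theorem result {G : Type*} [Group G] [Finite G] (z : G) : (Nat.card {xy : G × G // xy.1 * xy.2 * xy.1⁻¹ * xy.2⁻¹ = z} : ℂ) = (Nat.card G : ℂ) * ∑ᶠ χ : Cfsg.IrrCharacter G, (χ : G → ℂ) z / (χ : G → ℂ) 1 := by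
  classical
  letI := Fintype.ofFinite G
  have : Finite (IrrCharacter G) := irr_finite
  letI := Fintype.ofFinite (IrrCharacter G)
  rw [finsum_eq_sum_of_fintype]
  have hn : (Nat.card G : ℂ) ≠ 0 := by
    exact_mod_cast Nat.card_pos.ne'
  -- count as a double sum
  have hcount : (Nat.card {xy : G × G // xy.1 * xy.2 * xy.1⁻¹ * xy.2⁻¹ = z} : ℂ) =
      ∑ x : G, ∑ y : G, if x * y * x⁻¹ * y⁻¹ * z⁻¹ = 1 then (1 : ℂ) else 0 := by
    rw [Nat.card_eq_fintype_card, Fintype.card_subtype, Finset.card_filter]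
    push_cast
    rw [Fintype.sum_prod_type]
    refine Finset.sum_congr rfl (fun x _ => Finset.sum_congr rfl (fun y _ => ?_))
    have : x * y * x⁻¹ * y⁻¹ = z ↔ x * y * x⁻¹ * y⁻¹ * z⁻¹ = 1 := by
      rw [mul_inv_eq_one]
    simp only [this]
  have hmain : (Nat.card G : ℂ) * (Nat.card {xy : G × G // xy.1 * xy.2 * xy.1⁻¹ * xy.2⁻¹ = z} : ℂ)
      = (Nat.card G : ℂ) ^ 2 * ∑ χ : IrrCharacter G, χ.1 z⁻¹ / χ.1 1 := by
    rw [hcount, Finset.mul_sum]
    have : ∀ x : G, (Nat.card G : ℂ) * ∑ y : G, (if x * y * x⁻¹ * y⁻¹ * z⁻¹ = 1 then (1 : ℂ) else 0)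
        = ∑ y : G, ∑ χ : IrrCharacter G, χ.1 (x * y * x⁻¹ * y⁻¹ * z⁻¹) * χ.1 1 := by
      intro x
      rw [Finset.mul_sum]
      refine Finset.sum_congr rfl (fun y _ => ?_)
      rw [indicator_eq]
      by_cases hxy : x * y * x⁻¹ * y⁻¹ * z⁻¹ = 1
      · rw [if_pos hxy, if_pos hxy, mul_one]
      · rw [if_neg hxy, if_neg hxy, mul_zero]
    simp_rw [this]
    have : ∑ x : G, ∑ y : G, ∑ χ : IrrCharacter G, χ.1 (x * y * x⁻¹ * y⁻¹ * z⁻¹) * χ.1 1
        = ∑ χ : IrrCharacter G, χ.1 1 * ∑ x : G, ∑ y : G, χ.1 (x * y * x⁻¹ * y⁻¹ * z⁻¹) := by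
      have e1 : ∀ x : G, ∑ y : G, ∑ χ : IrrCharacter G, χ.1 (x * y * x⁻¹ * y⁻¹ * z⁻¹) * χ.1 1
          = ∑ χ : IrrCharacter G, ∑ y : G, χ.1 (x * y * x⁻¹ * y⁻¹ * z⁻¹) * χ.1 1 :=
        fun x => Finset.sum_comm
      simp_rw [e1]
      rw [Finset.sum_comm]
      refine Finset.sum_congr rfl (fun χ _ => ?_)
      rw [Finset.mul_sum]
      refine Finset.sum_congr rfl (fun x _ => ?_)
      rw [Finset.mul_sum]
      refine Finset.sum_congr rfl (fun y _ => ?_)
      ring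
    rw [this, Finset.mul_sum]
    refine Finset.sum_congr rfl (fun χ _ => ?_)
    rw [double_sum]
    have hne := irr_one_ne χ
    field_simp
  have hval : (Nat.card {xy : G × G // xy.1 * xy.2 * xy.1⁻¹ * xy.2⁻¹ = z} : ℂ)
      = (Nat.card G : ℂ) * ∑ χ : IrrCharacter G, χ.1 z⁻¹ / χ.1 1 := by
    have h := hmain
    rw [pow_two, mul_assoc] at h
    exact mul_left_cancel₀ hn h
  have hconj := congrArg (starRingEnd ℂ) hval
  rw [Complex.conj_natCast, map_mul, Complex.conj_natCast, map_sum] at hconj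
  rw [hconj]
  congr 1
  refine Finset.sum_congr rfl (fun χ _ => ?_)
  rw [map_div₀, irr_inv, Complex.conj_conj, irr_one_conj]

end Cfsg.Agent.S4856
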