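import Cfsg.Statements.S0167
import Mathlib
import Cfsg.Agent.S4856

set_option autoImplicit false
open Cfsg

namespace Cfsg.Agent.S0167

/-- An element g of a finite group is a commutator if and only if the sum over the irreducible characters χ of χ g / χ 1 is nonzero. -/
theorem result {G : Type*} [Group G] [Finite G] (g : G) : (∃ a b : G, g = a * b * a⁻¹ * b⁻¹) ↔ ∑ᶠ χ : Cfsg.IrrCharacter G, (χ : G → ℂ) g / (χ : G → ℂ) 1 ≠ 0 := by
  have key := Cfsg.Agent.S4856.result g
  have hG : (Nat.card G : ℂ) ≠ 0 := by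
    exact_mod_cast (Nat.card_pos (α := G)).ne'
  constructor
  · rintro ⟨a, b, hab⟩
    intro h0
    rw [h0, mul_zero] at key
    have h1 : Nat.card {xy : G × G // xy.1 * xy.2 * xy.1⁻¹ * xy.2⁻¹ = g} = 0 := by
      exact_mod_cast key
    have h2 : 0 < Nat.card {xy : G × G // xy.1 * xy.2 * xy.1⁻¹ * xy.2⁻¹ = g} := by
      haveI : Nonempty {xy : G × G // xy.1 * xy.2 * xy.1⁻¹ * xy.2⁻¹ = g} := ⟨⟨(a, b), hab.symm⟩⟩
      exact Nat.card_pos
    omega
  · intro hne
    have h1 : Nat.card {xy : G × G // xy.1 * xy.2 * xy.1⁻¹ * xy.2⁻¹ = g} ≠ 0 := by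
      intro h0
      rw [h0, Nat.cast_zero] at key
      rcases mul_eq_zero.mp key.symm with h | h
      · exact hG h
      · exact hne h
    have h2 : Nonempty {xy : G × G // xy.1 * xy.2 * xy.1⁻¹ * xy.2⁻¹ = g} := by
      by_contra hemp
      rw [not_nonempty_iff] at hemp
      exact h1 Nat.card_of_isEmpty
    obtain ⟨⟨⟨a, b⟩, hab⟩⟩ := h2
    exact ⟨a, b, hab.symm⟩

end Cfsg.Agent.S0167
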