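import Cfsg.Statements.S0200
import Mathlib
import Cfsg.Agent.Lib.Helper5.BaerSuzuki

set_option autoImplicit false
open Cfsg

namespace Cfsg.Agent.S0200

theorem closure_pair_isPGroup {G : Type*} [Group G] (t s : G) (ht : orderOf t = 2)
    (hs : s * s = 1) (k : ℕ) (hu : orderOf (t * s) = 2 ^ k) :
    IsPGroup 2 (Subgroup.closure ({t, s} : Set G)) := by
  have : Fact (Nat.Prime 2) := ⟨Nat.prime_two⟩
  have ht2 : t * t = 1 := by
    have := pow_orderOf_eq_one t
    rw [ht, pow_two] at this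
    exact this
  have htinv : t⁻¹ = t := inv_eq_of_mul_eq_one_left ht2
  have hsinv : s⁻¹ = s := inv_eq_of_mul_eq_one_left hs
  have h1 : IsPGroup 2 (Subgroup.zpowers t) :=
    IsPGroup.of_card (n := 1) (by rw [Nat.card_zpowers, ht, pow_one])
  have h2 : IsPGroup 2 (Subgroup.zpowers (t * s)) :=
    IsPGroup.of_card (n := k) (by rw [Nat.card_zpowers, hu])
  have h3 : Subgroup.zpowers t ≤ Subgroup.normalizer (Subgroup.zpowers (t * s) : Set G) := by
    rw [Subgroup.zpowers_le, Subgroup.mem_normalizer_iff_map_conj_eq, MonoidHom.map_zpowers]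
    have h4 : (MulAut.conj t) (t * s) = (t * s)⁻¹ := by
      rw [MulAut.conj_apply, mul_inv_rev, hsinv, htinv]
      calc t * (t * s) * t = (t * t) * s * t := by group
        _ = s * t := by rw [ht2, one_mul]
    change Subgroup.zpowers ((MulAut.conj t) (t * s)) = _
    rw [h4, Subgroup.zpowers_inv]
  have h4 := h1.to_sup_of_normal_right' h2 h3
  apply h4.to_le
  apply (Subgroup.closure_le _).mpr
  rintro w (rfl | rfl)
  · exact Subgroup.mem_sup_left (Subgroup.mem_zpowers _)
  · have h5 : t⁻¹ * (t * w) ∈ Subgroup.zpowers t ⊔ Subgroup.zpowers (t * w) :=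
      Subgroup.mul_mem _ (Subgroup.mem_sup_left (Subgroup.inv_mem _ (Subgroup.mem_zpowers t)))
        (Subgroup.mem_sup_right (Subgroup.mem_zpowers (t * w)))
    rwa [inv_mul_cancel_left] at h5

/-- An involution lying in no normal 2-subgroup of a finite group inverts a nontrivial element of odd order (a consequence of the Baer–Suzuki Theorem). -/
theorem result {G : Type*} [Group G] [Finite G] (t : G) (ht : orderOf t = 2) (hO : ∀ N : Subgroup G, N.Normal → IsPGroup 2 N → t ∉ N) : ∃ h : G, h ≠ 1 ∧ Odd (orderOf h) ∧ t * h * t⁻¹ = h⁻¹ := by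
  classical
  have : Fact (Nat.Prime 2) := ⟨Nat.prime_two⟩
  have ht2 : t * t = 1 := by
    have := pow_orderOf_eq_one t
    rw [ht, pow_two] at this
    exact this
  have htinv : t⁻¹ = t := inv_eq_of_mul_eq_one_left ht2
  by_contra hcon
  have hpair : ∀ g : G, IsPGroup 2 (Subgroup.closure ({t, g * t * g⁻¹} : Set G)) := by
    intro g
    have hs2 : (g * t * g⁻¹) * (g * t * g⁻¹) = 1 := by
      calc (g * t * g⁻¹) * (g * t * g⁻¹) = g * (t * t) * g⁻¹ := by group
        _ = 1 := by rw [ht2]; group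
    have hsinv : (g * t * g⁻¹)⁻¹ = g * t * g⁻¹ := inv_eq_of_mul_eq_one_left hs2
    have hinv : t * (t * (g * t * g⁻¹)) * t⁻¹ = (t * (g * t * g⁻¹))⁻¹ := by
      rw [htinv, mul_inv_rev, hsinv, htinv]
      calc t * (t * (g * t * g⁻¹)) * t = (t * t) * (g * t * g⁻¹) * t := by group
        _ = g * t * g⁻¹ * t := by rw [ht2, one_mul]
    have hm : orderOf (t * (g * t * g⁻¹)) ≠ 0 := (orderOf_pos _).ne'
    obtain ⟨k, r, hr, hkr⟩ := Nat.exists_eq_two_pow_mul_odd hm
    by_cases hr1 : r = 1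
    · exact closure_pair_isPGroup t _ ht hs2 k (by rw [hkr, hr1, mul_one])
    · exfalso
      apply hcon
      refine ⟨(t * (g * t * g⁻¹)) ^ (2 ^ k), ?_, ?_, ?_⟩
      · intro h1
        have h2 := orderOf_dvd_of_pow_eq_one h1
        rw [hkr] at h2
        have h3 : r ∣ 1 := by
          have h4 : 2 ^ k * r ∣ 2 ^ k * 1 := by simpa using h2
          exact (Nat.mul_dvd_mul_iff_left (by positivity)).mp h4
        exact hr1 (Nat.dvd_one.mp h3)
      · have h5 : orderOf ((t * (g * t * g⁻¹)) ^ (2 ^ k)) = r := by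
          rw [orderOf_pow_of_dvd (by positivity) (by rw [hkr]; exact dvd_mul_right _ _), hkr]
          exact Nat.mul_div_cancel_left r (by positivity)
        rw [h5]
        exact hr
      · rw [← conj_pow, hinv, inv_pow]
  let K : Set G := {a | ∃ g : G, a = g * t * g⁻¹}
  have hKc : ∀ x ∈ K, ∀ g : G, g * x * g⁻¹ ∈ K := by
    rintro _ ⟨k, rfl⟩ g
    exact ⟨g * k, by group⟩
  have hKp : ∀ x ∈ K, ∀ y ∈ K, IsPGroup 2 (Subgroup.closure ({x, y} : Set G)) := by
    rintro _ ⟨a, rfl⟩ _ ⟨b, rfl⟩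
    have h1 := (hpair (a⁻¹ * b)).map (MulAut.conj a).toMonoidHom
    apply h1.to_le
    apply (Subgroup.closure_le _).mpr
    rintro w (rfl | rfl)
    · exact Subgroup.mem_map.mpr ⟨t, Subgroup.subset_closure (by simp), by
        simp only [MulEquiv.coe_toMonoidHom, MulAut.conj_apply]⟩
    · refine Subgroup.mem_map.mpr ⟨a⁻¹ * b * t * (a⁻¹ * b)⁻¹, Subgroup.subset_closure (by simp), ?_⟩
      simp only [MulEquiv.coe_toMonoidHom, MulAut.conj_apply]
      group
  obtain ⟨N, hN, hNp, hKN⟩ := Cfsg.Agent.Lib.Helper5.baer_suzuki_set K hKc hKp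
  exact hO N hN hNp (hKN ⟨1, by simp⟩)

end Cfsg.Agent.S0200
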