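import Cfsg.Statements.S0228
import Mathlib
import Cfsg.Agent.Lib.Helper6.Ord60
import Cfsg.Agent.Lib.Helper23.Syl

set_option autoImplicit false
open Cfsg

namespace Cfsg.Agent.S0228

open Cfsg.Agent.Lib.Helper6 Cfsg.Agent.Lib.Helper23

/-- A group of order 12 in which no involution is central is isomorphic to the alternating group on four letters. -/
theorem result {G : Type*} [Group G] [Finite G] (hG : Nat.card G = 12) (hz : ∀ z : G, orderOf z = 2 → z ∉ Subgroup.center G) : Nonempty (G ≃* alternatingGroup (Fin 4)) := by
  classical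
  have : Fact (Nat.Prime 2) := ⟨Nat.prime_two⟩
  have : Fact (Nat.Prime 3) := ⟨Nat.prime_three⟩
  have h12 : Nat.card G = 3 ^ 1 * 4 := by rw [hG]; norm_num
  have h12' : Nat.card G = 2 ^ 2 * 3 := by rw [hG]; norm_num
  have hmem := card_sylow_mem_filter (G := G) (p := 3) h12 (by norm_num)
  rw [show (Nat.divisors 4).filter (fun d => d % 3 = 1) = {1, 4} from by decide] at hmem
  simp only [Finset.mem_insert, Finset.mem_singleton] at hmem
  have hS3 : ∀ R : Sylow 3 G, Nat.card (R : Subgroup G) = 3 := by
    intro R
    have := sylow_card_of_eq h12 (by norm_num) R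
    simpa using this
  obtain ⟨P⟩ : Nonempty (Sylow 3 G) := inferInstance
  have hP3 := hS3 P
  rcases hmem with h1 | h4
  · exfalso
    have hsub : Subsingleton (Sylow 3 G) := (Nat.card_eq_one_iff_unique.mp h1).1
    have hnorm : (P : Subgroup G).Normal := Sylow.normal_of_subsingleton P
    have hN : Subgroup.normalizer ((P : Subgroup G) : Set G) = ⊤ :=
      Subgroup.normalizer_eq_top_iff.mpr hnorm
    have hdvd := relIndex_centralizer_normalizer_dvd_pred (P : Subgroup G) hP3
    rw [hN, Subgroup.relIndex_top_right] at hdvd
    have hCcard : 2 ∣ Nat.card (Subgroup.centralizer ((P : Subgroup G) : Set G)) := by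
      have h1 := Subgroup.card_mul_index (Subgroup.centralizer ((P : Subgroup G) : Set G))
      rw [hG] at h1
      have hi : (Subgroup.centralizer ((P : Subgroup G) : Set G)).index = 1 ∨
          (Subgroup.centralizer ((P : Subgroup G) : Set G)).index = 2 := by
        have h2 := Nat.le_of_dvd (by norm_num) hdvd
        have h0 : (Subgroup.centralizer ((P : Subgroup G) : Set G)).index ≠ 0 :=
          Subgroup.index_ne_zero_of_finite
        omega
      rcases hi with hi | hi <;> rw [hi] at h1 <;> omega
    obtain ⟨z, hzord⟩ := exists_prime_orderOf_dvd_card' 2 hCcard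
    have hzG : orderOf (z : G) = 2 := by rw [Subgroup.orderOf_coe, hzord]
    apply hz z hzG
    have hzp : IsPGroup 2 (Subgroup.zpowers (z : G)) := by
      apply IsPGroup.of_card (n := 1)
      rw [Nat.card_zpowers, hzG]
      rfl
    obtain ⟨Q, hQ⟩ := hzp.exists_le_sylow
    have hQ4 : Nat.card (Q : Subgroup G) = 2 ^ 2 := sylow_card_of_eq h12' (by norm_num) Q
    have hQc : ∀ a b : (Q : Subgroup G), a * b = b * a :=
      (IsPGroup.isMulCommutative_of_card_eq_prime_sq hQ4).is_comm.comm
    have hPZ : (P : Subgroup G) ≤ Subgroup.centralizer ({(z : G)} : Set G) := by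
      intro x hx
      rw [Subgroup.mem_centralizer_singleton_iff]
      have h1 := z.2
      rw [Subgroup.mem_centralizer_iff] at h1
      exact h1 x hx
    have hQZ : (Q : Subgroup G) ≤ Subgroup.centralizer ({(z : G)} : Set G) := by
      intro x hx
      rw [Subgroup.mem_centralizer_singleton_iff]
      have hzQ : (z : G) ∈ (Q : Subgroup G) := hQ (Subgroup.mem_zpowers _)
      exact congrArg Subtype.val (hQc ⟨x, hx⟩ ⟨z, hzQ⟩)
    have h3 : 3 ∣ Nat.card (Subgroup.centralizer ({(z : G)} : Set G)) := by
      have := Subgroup.card_dvd_of_le hPZ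
      rwa [hP3] at this
    have h4 : 4 ∣ Nat.card (Subgroup.centralizer ({(z : G)} : Set G)) := by
      have := Subgroup.card_dvd_of_le hQZ
      rwa [hQ4] at this
    have hZtop : Subgroup.centralizer ({(z : G)} : Set G) = ⊤ := by
      apply Subgroup.eq_top_of_card_eq
      have hd : Nat.card (Subgroup.centralizer ({(z : G)} : Set G)) ∣ 12 :=
        hG ▸ Subgroup.card_subgroup_dvd_card _
      have h12dvd : 3 * 4 ∣ Nat.card (Subgroup.centralizer ({(z : G)} : Set G)) :=
        Nat.Coprime.mul_dvd_of_dvd_of_dvd (by norm_num) h3 h4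
      rw [hG]
      exact Nat.dvd_antisymm hd h12dvd
    rw [Subgroup.mem_center_iff]
    intro g
    have hg : g ∈ Subgroup.centralizer ({(z : G)} : Set G) := by rw [hZtop]; trivial
    rw [Subgroup.mem_centralizer_singleton_iff] at hg
    exact hg
  · have := Fintype.ofFinite (Sylow 3 G)
    let φ : G →* Equiv.Perm (Sylow 3 G) := MulAction.toPermHom G (Sylow 3 G)
    have hinj : Function.Injective φ := by
      rw [injective_iff_map_eq_one]
      intro g hg
      have hfix : ∀ R : Sylow 3 G, g • R = R := by
        intro R
        have := congrArg (fun σ => σ R) hg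
        exact this
      have hmemN : ∀ R : Sylow 3 G, g ∈ (R : Subgroup G) := by
        intro R
        have h1 : g ∈ Subgroup.normalizer ((R : Subgroup G) : Set G) :=
          Sylow.smul_eq_iff_mem_normalizer.mp (hfix R)
        have hidx : (Subgroup.normalizer ((R : Subgroup G) : Set G)).index = 4 :=
          (Sylow.card_eq_index_normalizer R).symm.trans h4
        have hcardN : Nat.card (Subgroup.normalizer ((R : Subgroup G) : Set G)) = 3 := by
          have := Subgroup.card_mul_index (Subgroup.normalizer ((R : Subgroup G) : Set G))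
          rw [hidx, hG] at this
          omega
        have heq : (R : Subgroup G) = Subgroup.normalizer ((R : Subgroup G) : Set G) :=
          Subgroup.eq_of_le_of_card_ge Subgroup.le_normalizer (by rw [hcardN, hS3 R])
        rw [heq]
        exact h1
      obtain ⟨R₁, R₂, hne⟩ : ∃ R₁ R₂ : Sylow 3 G, R₁ ≠ R₂ := by
        have h1 : 1 < Nat.card (Sylow 3 G) := by rw [h4]; norm_num
        have hnt : Nontrivial (Sylow 3 G) := Finite.one_lt_card_iff_nontrivial.mp h1
        exact exists_pair_ne _
      by_contra hg1
      have hord : orderOf g = 3 := by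
        have h1 : orderOf g ∣ 3 := by
          have := Subgroup.orderOf_dvd_natCard _ (hmemN R₁)
          rwa [hS3 R₁] at this
        rcases (Nat.dvd_prime Nat.prime_three).mp h1 with h2 | h2
        · exact absurd (orderOf_eq_one_iff.mp h2) hg1
        · exact h2
      have e1 : Subgroup.zpowers g = R₁ :=
        Subgroup.eq_of_le_of_card_ge (Subgroup.zpowers_le.mpr (hmemN R₁))
          (by rw [Nat.card_zpowers, hord, hS3 R₁])
      have e2 : Subgroup.zpowers g = R₂ :=
        Subgroup.eq_of_le_of_card_ge (Subgroup.zpowers_le.mpr (hmemN R₂))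
          (by rw [Nat.card_zpowers, hord, hS3 R₂])
      exact hne (Sylow.ext (e1.symm.trans e2))
    exact equiv_alt_of_injective 4 (by rw [← Nat.card_eq_fintype_card, h4]) φ hinj
      (by rw [hG]; rfl)

end Cfsg.Agent.S0228
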