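import Cfsg.Statements.S0252
import Mathlib

set_option autoImplicit false
open Cfsg

namespace Cfsg.Agent.S0252

theorem card_sl {F : Type*} [Field F] [Fintype F] {q : ℕ} (hF : Fintype.card F = q) (n : ℕ) (hn : 1 ≤ n) : (q - 1) * Nat.card (Matrix.SpecialLinearGroup (Fin n) F) = ∏ i : Fin n, (q ^ n - q ^ (i : ℕ)) := by
  classical
  subst hF
  rw [← Matrix.card_GL_field n]
  have : Nonempty (Fin n) := ⟨⟨0, hn⟩⟩
  have hsurj : Function.Surjective (Matrix.GeneralLinearGroup.det : GL (Fin n) F →* Fˣ) :=
    Matrix.GeneralLinearGroup.det_surjective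
  have h1 : Nat.card (Matrix.GeneralLinearGroup.det : GL (Fin n) F →* Fˣ).ker *
      Nat.card (Matrix.GeneralLinearGroup.det : GL (Fin n) F →* Fˣ).range = Nat.card (GL (Fin n) F) := by
    rw [← Subgroup.index_ker]
    exact Subgroup.card_mul_index _
  have h2 : Nat.card (Matrix.GeneralLinearGroup.det : GL (Fin n) F →* Fˣ).range = Fintype.card F - 1 := by
    rw [MonoidHom.range_eq_top.mpr hsurj, Subgroup.card_top, Nat.card_eq_fintype_card,
      Fintype.card_units]
  have h3 : Nat.card (Matrix.GeneralLinearGroup.det : GL (Fin n) F →* Fˣ).ker =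
      Nat.card (Matrix.SpecialLinearGroup (Fin n) F) := by
    refine (Nat.card_congr ?_).symm
    refine Equiv.ofBijective (fun A => ⟨Matrix.SpecialLinearGroup.toGL A, ?_⟩) ⟨?_, ?_⟩
    · rw [MonoidHom.mem_ker]
      apply Units.ext
      simp [Matrix.GeneralLinearGroup.det]
    · intro A B h
      have := congrArg Subtype.val h
      exact Matrix.SpecialLinearGroup.toGL_injective this
    · rintro ⟨g, hg⟩
      rw [MonoidHom.mem_ker] at hg
      have hdet : (g : Matrix (Fin n) (Fin n) F).det = 1 := by
        have := congrArg Units.val hg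
        simpa [Matrix.GeneralLinearGroup.det] using this
      refine ⟨⟨(g : Matrix (Fin n) (Fin n) F), hdet⟩, ?_⟩
      apply Subtype.ext
      apply Units.ext
      rfl
  rw [← h1, h2, h3, mul_comm]

theorem card_center_sl {F : Type*} [Field F] [Fintype F] {q : ℕ} (hF : Fintype.card F = q) (n : ℕ) (hn : 1 ≤ n) :
    Nat.card (Subgroup.center (Matrix.SpecialLinearGroup (Fin n) F)) = Nat.gcd n (q - 1) := by
  classical
  rw [Nat.card_congr (Matrix.SpecialLinearGroup.center_equiv_rootsOfUnity).toEquiv]
  simp only [Fintype.card_fin]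
  rw [max_eq_left hn, rootsOfUnity_eq_ker, IsCyclic.card_powMonoidHom_ker, Nat.card_eq_fintype_card,
    Fintype.card_units, hF, Nat.gcd_comm]

theorem card_psl {F : Type*} [Field F] [Fintype F] {q : ℕ} (hF : Fintype.card F = q) (n : ℕ) (hn : 1 ≤ n) : Nat.gcd n (q - 1) * ((q - 1) * Nat.card (Matrix.ProjectiveSpecialLinearGroup (Fin n) F)) = ∏ i : Fin n, (q ^ n - q ^ (i : ℕ)) := by
  classical
  rw [← card_sl hF n hn, ← card_center_sl hF n hn]
  have h1 : Nat.card (Subgroup.center (Matrix.SpecialLinearGroup (Fin n) F)) *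
      Nat.card (Matrix.ProjectiveSpecialLinearGroup (Fin n) F) =
      Nat.card (Matrix.SpecialLinearGroup (Fin n) F) := by
    rw [← Subgroup.index_eq_card]
    exact Subgroup.card_mul_index _
  rw [← h1]
  ring

theorem equiv_alt_of_injective {G α : Type*} [Group G] [Finite G] [Fintype α] [DecidableEq α]
    (n : ℕ) (hα : Fintype.card α = n) (φ : G →* Equiv.Perm α) (hφ : Function.Injective φ)
    (hcard : 2 * Nat.card G = n.factorial) :
    Nonempty (G ≃* alternatingGroup (Fin n)) := by
  let e : α ≃ Fin n := Fintype.equivFinOfCardEq hα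
  let ψ : G →* Equiv.Perm (Fin n) := (e.permCongrHom.toMonoidHom).comp φ
  have hψ : Function.Injective ψ := e.permCongrHom.injective.comp hφ
  have hrange : ψ.range = alternatingGroup (Fin n) := by
    apply Equiv.Perm.eq_alternatingGroup_of_index_eq_two
    have h1 : Nat.card ψ.range = Nat.card G :=
      (Nat.card_congr (MonoidHom.ofInjective hψ).toEquiv).symm
    have h2 := Subgroup.card_mul_index ψ.range
    rw [h1, Nat.card_perm, Nat.card_fin, ← hcard] at h2
    have hpos : 0 < Nat.card G := Nat.card_pos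
    have h3 : Nat.card G * ψ.range.index = Nat.card G * 2 := by rw [h2]; ring
    exact Nat.eq_of_mul_eq_mul_left hpos h3
  exact ⟨(MonoidHom.ofInjective hψ).trans (MulEquiv.subgroupCongr hrange)⟩

theorem card_proj {F : Type*} [Field F] [Fintype F] {q : ℕ} (hF : Fintype.card F = q) :
    Nat.card (Projectivization F (Fin 2 → F)) = q + 1 := by
  rw [Projectivization.card_of_finrank_two F (Fin 2 → F) (by simp), Nat.card_eq_fintype_card, hF]

theorem psl_equiv_alt {F : Type*} [Field F] [Fintype F] {q : ℕ} (hF : Fintype.card F = q)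
    (hcard : 2 * Nat.card (Matrix.ProjectiveSpecialLinearGroup (Fin 2) F) = (q + 1).factorial) :
    Nonempty (Matrix.ProjectiveSpecialLinearGroup (Fin 2) F ≃* alternatingGroup (Fin (q + 1))) := by
  classical
  have := Fintype.ofFinite (Projectivization F (Fin 2 → F))
  refine equiv_alt_of_injective (q + 1) ?_ Projectivization.PSLAction.toPermHom
    Matrix.ProjectiveSpecialLinearGroup.toPermHom_injective hcard
  rw [← Nat.card_eq_fintype_card, card_proj hF]


/-- PSL_2(4) is isomorphic to A_5. -/
theorem result {F : Type*} [Field F] [Fintype F] (hF : Fintype.card F = 4) : Nonempty (Matrix.ProjectiveSpecialLinearGroup (Fin 2) F ≃* alternatingGroup (Fin 5)) := by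
  have h1 := card_psl hF 2 (by omega)
  rw [Fin.prod_univ_two] at h1
  norm_num at h1
  have h2 : 2 * Nat.card (Matrix.ProjectiveSpecialLinearGroup (Fin 2) F) = (4 + 1).factorial := by
    have h3 : Nat.factorial (4 + 1) = 120 := by decide
    rw [h3]
    omega
  exact psl_equiv_alt hF h2

end Cfsg.Agent.S0252
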