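import Cfsg.Statements.S0338
import Cfsg.Agent.Lib.Helper9.Zassenhaus

set_option autoImplicit false
open Cfsg

namespace Cfsg.Agent.S0338

open Cfsg.Agent.Lib.Helper9 in
/-- A Zassenhaus group of odd degree is a simple group. -/
theorem result {G Ω : Type*} [Group G] [MulAction G Ω] [Fintype Ω]
    (hZ : Cfsg.IsZassenhausGroup G Ω) (hodd : Odd (Fintype.card Ω)) : IsSimpleGroup G := by
  have hD := zdata_of_zassenhaus hZ
  have hfaith := hD.faithful
  have hfin : Finite G := Finite.of_injective (MulAction.toPermHom G Ω) MulAction.toPerm_injective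
  have noreg := noreg_of_zassenhaus hZ
  have hodd' : Odd (Nat.card Ω) := by rwa [Nat.card_eq_fintype_card]
  have hnt : Nontrivial G := by
    obtain ⟨g, hg, -⟩ := hD.fix
    exact ⟨⟨g, 1, hg⟩⟩
  refine ⟨fun N hNn => ?_⟩
  by_cases hN : N = ⊥
  · exact Or.inl hN
  · exact Or.inr (hD.normal_eq_top_of_odd noreg hodd' N hNn hN)

end Cfsg.Agent.S0338
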