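import Cfsg.Statements.S0344
import Cfsg.Agent.Lib.Helper23.ZassSimple
import Cfsg.Agent.S0729

set_option autoImplicit false
open Cfsg

namespace Cfsg.Agent.S0344

/-- A finite simple Zassenhaus group with a two-point stabiliser of even order is isomorphic to `PSL₂(F)` for a finite
field `F` with more than three elements. -/
theorem result {G Ω : Type*} [Group G] [Finite G] [MulAction G Ω] [Finite Ω]
    (hZ : Cfsg.IsZassenhausGroup G Ω) [IsSimpleGroup G]
    {a b : Ω} (hab : a ≠ b) (heven : Even (Nat.card ↥(MulAction.stabilizer G a ⊓ MulAction.stabilizer G b))) :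
    ∃ (F : Type) (_ : Field F) (_ : Fintype F), 3 < Fintype.card F ∧ Nonempty (G ≃* Matrix.ProjectiveSpecialLinearGroup (Fin 2) F) := by
  classical
  have := Fintype.ofFinite Ω
  exact Cfsg.Agent.Lib.Helper23.zass_simple_even_psl hZ hab heven
    (fun he h6 G' h3 hs _ _ _ hab hac hbc s hsa hsb hsc =>
      Cfsg.Agent.S0729.result he h6 G' h3 hs hab hac hbc s hsa hsb hsc)

end Cfsg.Agent.S0344
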