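import Cfsg.Statements.S0427
import Mathlib
import Cfsg.Agent.Lib.Helper11.S3622

set_option autoImplicit false
open Cfsg

namespace Cfsg.Agent.S0427

open Finset Cfsg.Agent.Lib.Helper9 Cfsg.Agent.Lib.Helper11

theorem adj_iff {α : Type*} [Fintype α] [DecidableEq α] {B : Set (Finset α)}
    (hB : Cfsg.IsSteinerSystem 3 6 B) (b c : B) :
    (Cfsg.blockGraph B).Adj b c ↔ ((b : Finset α) ∩ (c : Finset α)).card = 0 := by
  unfold Cfsg.blockGraph
  rw [SimpleGraph.fromRel_adj, card_eq_zero, ← disjoint_iff_inter_eq_empty]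
  constructor
  · rintro ⟨-, h | h⟩
    · exact h
    · exact h.symm
  · intro h
    refine ⟨?_, Or.inl h⟩
    rintro rfl
    rw [disjoint_self_iff_empty] at h
    have := hB.1 b b.2
    rw [h] at this
    simp at this

theorem ncard_subtype {α : Type*} [Fintype α] [DecidableEq α] (B : Set (Finset α))
    (P : Finset α → Prop) [DecidablePred P] :
    {u : B | P (u : Finset α)}.ncard = ((blocksFin B).filter P).card := by
  rw [← Set.ncard_image_of_injective _ Subtype.val_injective, ← Set.ncard_coe_finset]
  congr 1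
  ext c
  simp only [Set.mem_image, Set.mem_ofPred_eq, Subtype.exists, exists_and_right, exists_eq_right,
    coe_filter, mem_blocksFin]
  constructor
  · rintro ⟨hc, hP⟩
    exact ⟨hc, hP⟩
  · rintro ⟨hc, hP⟩
    exact ⟨hc, hP⟩

/-- The block graph (adjacent = disjoint) of an S(3, 6, 22) is strongly regular with parameters (77, 16, 0, 4). -/
theorem result {α : Type*} [Fintype α] (hα : Fintype.card α = 22) {B : Set (Finset α)} (hB : Cfsg.IsSteinerSystem 3 6 B) [Fintype B] [DecidableRel (Cfsg.blockGraph B).Adj] : (Cfsg.blockGraph B).IsSRGWith 77 16 0 4 := by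
  classical
  refine ⟨?_, ?_, ?_, ?_⟩
  · rw [← Nat.card_eq_fintype_card, Nat.card_coe_set_eq, ncard_eq_card_blocksFin]
    exact card_blocks_3_6_22 hα hB
  · intro v
    rw [← SimpleGraph.card_neighborSet_eq_degree, ← Nat.card_eq_fintype_card,
      Nat.card_coe_set_eq]
    have : (Cfsg.blockGraph B).neighborSet v =
        {u : B | ((v : Finset α) ∩ (u : Finset α)).card = 0} := by
      ext u
      rw [SimpleGraph.mem_neighborSet, adj_iff hB]
      rfl
    rw [this, ncard_subtype B (fun u => ((v : Finset α) ∩ u).card = 0)]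
    exact (interNum_3_6_22 hα hB v.2).1
  · intro v w hvw
    rw [← Nat.card_eq_fintype_card, Nat.card_coe_set_eq]
    have : (Cfsg.blockGraph B).commonNeighbors v w =
        {u : B | ((v : Finset α) ∩ (u : Finset α)).card = 0 ∧
          ((w : Finset α) ∩ (u : Finset α)).card = 0} := by
      ext u
      rw [SimpleGraph.mem_commonNeighbors, adj_iff hB, adj_iff hB]
      rfl
    rw [this, ncard_subtype B (fun u => ((v : Finset α) ∩ u).card = 0 ∧
      ((w : Finset α) ∩ u).card = 0)]
    exact card_disjoint_both_of_disjoint hα hB v.2 w.2 ((adj_iff hB v w).mp hvw)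
  · intro v w hne hvw
    rw [← Nat.card_eq_fintype_card, Nat.card_coe_set_eq]
    have : (Cfsg.blockGraph B).commonNeighbors v w =
        {u : B | ((v : Finset α) ∩ (u : Finset α)).card = 0 ∧
          ((w : Finset α) ∩ (u : Finset α)).card = 0} := by
      ext u
      rw [SimpleGraph.mem_commonNeighbors, adj_iff hB, adj_iff hB]
      rfl
    rw [this, ncard_subtype B (fun u => ((v : Finset α) ∩ u).card = 0 ∧
      ((w : Finset α) ∩ u).card = 0)]
    have hne' : (v : Finset α) ≠ (w : Finset α) := fun h => hne (Subtype.ext h)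
    rcases inter_card_3_6_22 hα hB v.2 w.2 hne' with h | h
    · exact absurd ((adj_iff hB v w).mpr h) hvw
    · exact card_disjoint_both_of_inter hα hB v.2 w.2 h

end Cfsg.Agent.S0427
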