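import Cfsg.Statements.S0428
import Mathlib
import Cfsg.Agent.Lib.Helper11.S3622

set_option autoImplicit false
open Cfsg

namespace Cfsg.Agent.S0428

open Finset Cfsg.Agent.Lib.Helper9 Cfsg.Agent.Lib.Helper11

section
variable {α : Type*} {B : Set (Finset α)}

theorem adj_def (x y : Option (α ⊕ B)) : (Cfsg.pointBlockGraph B).Adj x y ↔
    x ≠ y ∧ (Cfsg.pointBlockRel B x y ∨ Cfsg.pointBlockRel B y x) := by
  unfold Cfsg.pointBlockGraph
  rw [SimpleGraph.fromRel_adj]

theorem adj_none_none : ¬ (Cfsg.pointBlockGraph B).Adj none none := by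
  rw [adj_def]; simp

theorem adj_none_inl (a : α) : (Cfsg.pointBlockGraph B).Adj none (some (Sum.inl a)) := by
  rw [adj_def]; simp [Cfsg.pointBlockRel]

theorem adj_inl_none (a : α) : (Cfsg.pointBlockGraph B).Adj (some (Sum.inl a)) none := by
  rw [adj_def]; simp [Cfsg.pointBlockRel]

theorem adj_none_inr (b : B) : ¬ (Cfsg.pointBlockGraph B).Adj none (some (Sum.inr b)) := by
  rw [adj_def]; simp [Cfsg.pointBlockRel]

theorem adj_inr_none (b : B) : ¬ (Cfsg.pointBlockGraph B).Adj (some (Sum.inr b)) none := by
  rw [adj_def]; simp [Cfsg.pointBlockRel]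

theorem adj_inl_inl (a a' : α) :
    ¬ (Cfsg.pointBlockGraph B).Adj (some (Sum.inl a)) (some (Sum.inl a')) := by
  rw [adj_def]; simp [Cfsg.pointBlockRel]

theorem adj_inl_inr (a : α) (b : B) :
    (Cfsg.pointBlockGraph B).Adj (some (Sum.inl a)) (some (Sum.inr b)) ↔ a ∈ (b : Finset α) := by
  rw [adj_def]; simp [Cfsg.pointBlockRel]

theorem adj_inr_inl (a : α) (b : B) :
    (Cfsg.pointBlockGraph B).Adj (some (Sum.inr b)) (some (Sum.inl a)) ↔ a ∈ (b : Finset α) := by
  rw [adj_def]; simp [Cfsg.pointBlockRel]

theorem adj_inr_inr [Fintype α] [DecidableEq α] (hB : Cfsg.IsSteinerSystem 3 6 B) (b c : B) :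
    (Cfsg.pointBlockGraph B).Adj (some (Sum.inr b)) (some (Sum.inr c)) ↔
      ((b : Finset α) ∩ (c : Finset α)).card = 0 := by
  rw [adj_def, card_eq_zero, ← disjoint_iff_inter_eq_empty]
  simp only [Cfsg.pointBlockRel]
  constructor
  · rintro ⟨-, h | h⟩
    · exact h
    · exact h.symm
  · intro h
    refine ⟨?_, Or.inl h⟩
    intro heq
    have hbc : b = c := by
      injection heq with h1
      injection h1
    subst hbc
    rw [disjoint_self_iff_empty] at h
    have := hB.1 b b.2
    rw [h] at this
    simp at this

theorem ncard_subtype [Fintype α] [DecidableEq α] (B : Set (Finset α))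
    (P : Finset α → Prop) [DecidablePred P] :
    {u : B | P (u : Finset α)}.ncard = ((blocksFin B).filter P).card := by
  rw [← Set.ncard_image_of_injective _ Subtype.val_injective, ← Set.ncard_coe_finset]
  congr 1
  ext c
  simp only [Set.mem_image, Set.mem_ofPred_eq, Subtype.exists, exists_and_right, exists_eq_right,
    coe_filter, mem_blocksFin]
  constructor
  · rintro ⟨hc, hP⟩
    exact ⟨hc, hP⟩
  · rintro ⟨hc, hP⟩
    exact ⟨hc, hP⟩

theorem ncard_eq_sum {V : Type*} [Fintype V] (S : Set V) [DecidablePred (· ∈ S)] :
    S.ncard = ∑ x : V, if x ∈ S then 1 else 0 := by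
  rw [← Finset.card_filter, ← Set.ncard_coe_finset]
  congr 1
  ext x
  simp

theorem ncard_decomp [Fintype α] [Fintype B] (S : Set (Option (α ⊕ B))) [Decidable (none ∈ S)] :
    S.ncard = (if none ∈ S then 1 else 0) + {a : α | some (Sum.inl a) ∈ S}.ncard +
      {b : B | some (Sum.inr b) ∈ S}.ncard := by
  classical
  rw [ncard_eq_sum S, ncard_eq_sum {a : α | some (Sum.inl a) ∈ S},
    ncard_eq_sum {b : B | some (Sum.inr b) ∈ S}, Fintype.sum_option, Fintype.sum_sum_type]
  simp only [Set.mem_ofPred_eq, add_assoc]
  congr 1
  split_ifs <;> rfl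

end

/-- The point-block graph of an S(3, 6, 22) is strongly regular with parameters (100, 22, 0, 6). -/
theorem result {α : Type*} [Fintype α] (hα : Fintype.card α = 22) {B : Set (Finset α)} (hB : Cfsg.IsSteinerSystem 3 6 B) [Fintype B] [DecidableRel (Cfsg.pointBlockGraph B).Adj] : (Cfsg.pointBlockGraph B).IsSRGWith 100 22 0 6 := by
  classical
  have hBcard : Fintype.card B = 77 := by
    rw [← Nat.card_eq_fintype_card, Nat.card_coe_set_eq, ncard_eq_card_blocksFin]
    exact card_blocks_3_6_22 hα hB
  have hαn : (Set.univ : Set α).ncard = 22 := by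
    rw [Set.ncard_univ, Nat.card_eq_fintype_card, hα]
  -- neighbourhoods
  have nb : ∀ v : Option (α ⊕ B), ((Cfsg.pointBlockGraph B).neighborSet v).ncard = 22 := by
    intro v
    rw [ncard_decomp]
    rcases v with _ | p | b
    · have h1 : none ∉ (Cfsg.pointBlockGraph B).neighborSet none := by
        rw [SimpleGraph.mem_neighborSet]; exact adj_none_none
      have h2 : {a : α | some (Sum.inl a) ∈ (Cfsg.pointBlockGraph B).neighborSet none} =
          Set.univ := by
        ext a
        simp only [Set.mem_ofPred_eq, SimpleGraph.mem_neighborSet, adj_none_inl, Set.mem_univ]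
      have h3 : {b : B | some (Sum.inr b) ∈ (Cfsg.pointBlockGraph B).neighborSet none} = ∅ := by
        ext b
        simp only [Set.mem_ofPred_eq, SimpleGraph.mem_neighborSet, adj_none_inr,
          Set.mem_empty_iff_false]
      rw [if_neg h1, h2, h3, hαn, Set.ncard_empty]
    · have h1 : none ∈ (Cfsg.pointBlockGraph B).neighborSet (some (Sum.inl p)) := by
        rw [SimpleGraph.mem_neighborSet]; exact adj_inl_none p
      have h2 : {a : α | some (Sum.inl a) ∈
          (Cfsg.pointBlockGraph B).neighborSet (some (Sum.inl p))} = ∅ := by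
        ext a
        simp only [Set.mem_ofPred_eq, SimpleGraph.mem_neighborSet, adj_inl_inl,
          Set.mem_empty_iff_false]
      have h3 : {b : B | some (Sum.inr b) ∈
          (Cfsg.pointBlockGraph B).neighborSet (some (Sum.inl p))} =
          {b : B | p ∈ (b : Finset α)} := by
        ext b
        simp only [Set.mem_ofPred_eq, SimpleGraph.mem_neighborSet, adj_inl_inr]
      rw [if_pos h1, h2, h3, Set.ncard_empty, ncard_subtype B (fun c => p ∈ c),
        card_blocks_point_3_6_22 hα hB p]
    · have h1 : none ∉ (Cfsg.pointBlockGraph B).neighborSet (some (Sum.inr b)) := by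
        rw [SimpleGraph.mem_neighborSet]; exact adj_inr_none b
      have h2 : {a : α | some (Sum.inl a) ∈
          (Cfsg.pointBlockGraph B).neighborSet (some (Sum.inr b))} = ((b : Finset α) : Set α) := by
        ext a
        simp only [Set.mem_ofPred_eq, SimpleGraph.mem_neighborSet, adj_inr_inl, mem_coe]
      have h3 : {c : B | some (Sum.inr c) ∈
          (Cfsg.pointBlockGraph B).neighborSet (some (Sum.inr b))} =
          {c : B | ((b : Finset α) ∩ (c : Finset α)).card = 0} := by
        ext c
        simp only [Set.mem_ofPred_eq, SimpleGraph.mem_neighborSet, adj_inr_inr hB]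
      rw [if_neg h1, h2, h3, Set.ncard_coe_finset, hB.1 b b.2,
        ncard_subtype B (fun c => ((b : Finset α) ∩ c).card = 0)]
      have := (interNum_3_6_22 hα hB b.2).1
      unfold interNum at this
      rw [this]
  -- common neighbours
  have cn : ∀ v w : Option (α ⊕ B), v ≠ w →
      ((Cfsg.pointBlockGraph B).commonNeighbors v w).ncard =
        if (Cfsg.pointBlockGraph B).Adj v w then 0 else 6 := by
    intro v w hvw
    rw [ncard_decomp]
    rcases v with _ | p | b <;> rcases w with _ | q | c
    · exact absurd rfl hvw
    · -- none, point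
      have h1 : none ∉ (Cfsg.pointBlockGraph B).commonNeighbors none (some (Sum.inl q)) := by
        rw [SimpleGraph.mem_commonNeighbors]; exact fun h => adj_none_none h.1
      have h2 : {a : α | some (Sum.inl a) ∈
          (Cfsg.pointBlockGraph B).commonNeighbors none (some (Sum.inl q))} = ∅ := by
        ext a
        simp only [Set.mem_ofPred_eq, SimpleGraph.mem_commonNeighbors, adj_inl_inl, and_false,
          Set.mem_empty_iff_false]
      have h3 : {b : B | some (Sum.inr b) ∈
          (Cfsg.pointBlockGraph B).commonNeighbors none (some (Sum.inl q))} = ∅ := by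
        ext b
        simp only [Set.mem_ofPred_eq, SimpleGraph.mem_commonNeighbors, adj_none_inr, false_and,
          Set.mem_empty_iff_false]
      rw [if_neg h1, h2, h3, Set.ncard_empty, Set.ncard_empty, if_pos (adj_none_inl q)]
    · -- none, block
      have h1 : none ∉ (Cfsg.pointBlockGraph B).commonNeighbors none (some (Sum.inr c)) := by
        rw [SimpleGraph.mem_commonNeighbors]; exact fun h => adj_none_none h.1
      have h2 : {a : α | some (Sum.inl a) ∈
          (Cfsg.pointBlockGraph B).commonNeighbors none (some (Sum.inr c))} =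
          ((c : Finset α) : Set α) := by
        ext a
        simp only [Set.mem_ofPred_eq, SimpleGraph.mem_commonNeighbors, adj_none_inl, adj_inr_inl,
          true_and, mem_coe]
      have h3 : {b : B | some (Sum.inr b) ∈
          (Cfsg.pointBlockGraph B).commonNeighbors none (some (Sum.inr c))} = ∅ := by
        ext b
        simp only [Set.mem_ofPred_eq, SimpleGraph.mem_commonNeighbors, adj_none_inr, false_and,
          Set.mem_empty_iff_false]
      rw [if_neg h1, h2, h3, Set.ncard_empty, Set.ncard_coe_finset, hB.1 c c.2,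
        if_neg (adj_none_inr c)]
    · -- point, none
      have h1 : none ∉ (Cfsg.pointBlockGraph B).commonNeighbors (some (Sum.inl p)) none := by
        rw [SimpleGraph.mem_commonNeighbors]; exact fun h => adj_none_none h.2
      have h2 : {a : α | some (Sum.inl a) ∈
          (Cfsg.pointBlockGraph B).commonNeighbors (some (Sum.inl p)) none} = ∅ := by
        ext a
        simp only [Set.mem_ofPred_eq, SimpleGraph.mem_commonNeighbors, adj_inl_inl, false_and,
          Set.mem_empty_iff_false]
      have h3 : {b : B | some (Sum.inr b) ∈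
          (Cfsg.pointBlockGraph B).commonNeighbors (some (Sum.inl p)) none} = ∅ := by
        ext b
        simp only [Set.mem_ofPred_eq, SimpleGraph.mem_commonNeighbors, adj_none_inr, and_false,
          Set.mem_empty_iff_false]
      rw [if_neg h1, h2, h3, Set.ncard_empty, Set.ncard_empty, if_pos (adj_inl_none p)]
    · -- point, point
      have hpq : p ≠ q := fun h => hvw (by rw [h])
      have h1 : none ∈ (Cfsg.pointBlockGraph B).commonNeighbors (some (Sum.inl p))
          (some (Sum.inl q)) := by
        rw [SimpleGraph.mem_commonNeighbors]; exact ⟨adj_inl_none p, adj_inl_none q⟩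
      have h2 : {a : α | some (Sum.inl a) ∈
          (Cfsg.pointBlockGraph B).commonNeighbors (some (Sum.inl p)) (some (Sum.inl q))} = ∅ := by
        ext a
        simp only [Set.mem_ofPred_eq, SimpleGraph.mem_commonNeighbors, adj_inl_inl, false_and,
          Set.mem_empty_iff_false]
      have h3 : {b : B | some (Sum.inr b) ∈
          (Cfsg.pointBlockGraph B).commonNeighbors (some (Sum.inl p)) (some (Sum.inl q))} =
          {b : B | p ∈ (b : Finset α) ∧ q ∈ (b : Finset α)} := by
        ext b
        simp only [Set.mem_ofPred_eq, SimpleGraph.mem_commonNeighbors, adj_inl_inr]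
      rw [if_pos h1, h2, h3, Set.ncard_empty, ncard_subtype B (fun c => p ∈ c ∧ q ∈ c),
        card_blocks_pair_3_6_22 hα hB hpq, if_neg (adj_inl_inl p q)]
    · -- point, block
      have h1 : none ∉ (Cfsg.pointBlockGraph B).commonNeighbors (some (Sum.inl p))
          (some (Sum.inr c)) := by
        rw [SimpleGraph.mem_commonNeighbors]; exact fun h => adj_inr_none c h.2
      have h2 : {a : α | some (Sum.inl a) ∈
          (Cfsg.pointBlockGraph B).commonNeighbors (some (Sum.inl p)) (some (Sum.inr c))} = ∅ := by
        ext a
        simp only [Set.mem_ofPred_eq, SimpleGraph.mem_commonNeighbors, adj_inl_inl, false_and,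
          Set.mem_empty_iff_false]
      have h3 : {b : B | some (Sum.inr b) ∈
          (Cfsg.pointBlockGraph B).commonNeighbors (some (Sum.inl p)) (some (Sum.inr c))} =
          {b : B | p ∈ (b : Finset α) ∧ ((c : Finset α) ∩ (b : Finset α)).card = 0} := by
        ext b
        simp only [Set.mem_ofPred_eq, SimpleGraph.mem_commonNeighbors, adj_inl_inr,
          adj_inr_inr hB]
      rw [if_neg h1, h2, h3, Set.ncard_empty,
        ncard_subtype B (fun d => p ∈ d ∧ ((c : Finset α) ∩ d).card = 0)]
      by_cases hpc : p ∈ (c : Finset α)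
      · rw [if_pos ((adj_inl_inr p c).mpr hpc)]
        simp only [zero_add, card_eq_zero, filter_eq_empty_iff]
        rintro d - ⟨hpd, hcd⟩
        have : p ∈ (c : Finset α) ∩ d := mem_inter.mpr ⟨hpc, hpd⟩
        rw [hcd] at this
        simp at this
      · rw [if_neg (fun h => hpc ((adj_inl_inr p c).mp h)),
          card_point_disjoint_3_6_22 hα hB c.2 hpc]
    · -- block, none
      have h1 : none ∉ (Cfsg.pointBlockGraph B).commonNeighbors (some (Sum.inr b)) none := by
        rw [SimpleGraph.mem_commonNeighbors]; exact fun h => adj_none_none h.2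
      have h2 : {a : α | some (Sum.inl a) ∈
          (Cfsg.pointBlockGraph B).commonNeighbors (some (Sum.inr b)) none} =
          ((b : Finset α) : Set α) := by
        ext a
        simp only [Set.mem_ofPred_eq, SimpleGraph.mem_commonNeighbors, adj_none_inl, adj_inr_inl,
          and_true, mem_coe]
      have h3 : {c : B | some (Sum.inr c) ∈
          (Cfsg.pointBlockGraph B).commonNeighbors (some (Sum.inr b)) none} = ∅ := by
        ext c
        simp only [Set.mem_ofPred_eq, SimpleGraph.mem_commonNeighbors, adj_none_inr, and_false,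
          Set.mem_empty_iff_false]
      rw [if_neg h1, h2, h3, Set.ncard_empty, Set.ncard_coe_finset, hB.1 b b.2,
        if_neg (adj_inr_none b)]
    · -- block, point
      have h1 : none ∉ (Cfsg.pointBlockGraph B).commonNeighbors (some (Sum.inr b))
          (some (Sum.inl q)) := by
        rw [SimpleGraph.mem_commonNeighbors]; exact fun h => adj_inr_none b h.1
      have h2 : {a : α | some (Sum.inl a) ∈
          (Cfsg.pointBlockGraph B).commonNeighbors (some (Sum.inr b)) (some (Sum.inl q))} = ∅ := by
        ext a
        simp only [Set.mem_ofPred_eq, SimpleGraph.mem_commonNeighbors, adj_inl_inl, and_false,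
          Set.mem_empty_iff_false]
      have h3 : {c : B | some (Sum.inr c) ∈
          (Cfsg.pointBlockGraph B).commonNeighbors (some (Sum.inr b)) (some (Sum.inl q))} =
          {c : B | q ∈ (c : Finset α) ∧ ((b : Finset α) ∩ (c : Finset α)).card = 0} := by
        ext c
        simp only [Set.mem_ofPred_eq, SimpleGraph.mem_commonNeighbors, adj_inl_inr,
          adj_inr_inr hB]
        exact and_comm
      rw [if_neg h1, h2, h3, Set.ncard_empty,
        ncard_subtype B (fun d => q ∈ d ∧ ((b : Finset α) ∩ d).card = 0)]
      by_cases hqb : q ∈ (b : Finset α)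
      · rw [if_pos ((adj_inr_inl q b).mpr hqb)]
        simp only [zero_add, card_eq_zero, filter_eq_empty_iff]
        rintro d - ⟨hqd, hbd⟩
        have : q ∈ (b : Finset α) ∩ d := mem_inter.mpr ⟨hqb, hqd⟩
        rw [hbd] at this
        simp at this
      · rw [if_neg (fun h => hqb ((adj_inr_inl q b).mp h)),
          card_point_disjoint_3_6_22 hα hB b.2 hqb]
    · -- block, block
      have hbc : (b : Finset α) ≠ (c : Finset α) := by
        intro h
        apply hvw
        rw [Subtype.ext h]
      have h1 : none ∉ (Cfsg.pointBlockGraph B).commonNeighbors (some (Sum.inr b))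
          (some (Sum.inr c)) := by
        rw [SimpleGraph.mem_commonNeighbors]; exact fun h => adj_inr_none b h.1
      have h2 : {a : α | some (Sum.inl a) ∈
          (Cfsg.pointBlockGraph B).commonNeighbors (some (Sum.inr b)) (some (Sum.inr c))} =
          (((b : Finset α) ∩ (c : Finset α) : Finset α) : Set α) := by
        ext a
        simp only [Set.mem_ofPred_eq, SimpleGraph.mem_commonNeighbors, adj_inr_inl, mem_coe,
          mem_inter]
      have h3 : {d : B | some (Sum.inr d) ∈
          (Cfsg.pointBlockGraph B).commonNeighbors (some (Sum.inr b)) (some (Sum.inr c))} =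
          {d : B | ((b : Finset α) ∩ (d : Finset α)).card = 0 ∧
            ((c : Finset α) ∩ (d : Finset α)).card = 0} := by
        ext d
        simp only [Set.mem_ofPred_eq, SimpleGraph.mem_commonNeighbors, adj_inr_inr hB]
      rw [if_neg h1, h2, h3, Set.ncard_coe_finset,
        ncard_subtype B (fun d => ((b : Finset α) ∩ d).card = 0 ∧ ((c : Finset α) ∩ d).card = 0)]
      rcases inter_card_3_6_22 hα hB b.2 c.2 hbc with h | h
      · rw [if_pos ((adj_inr_inr hB b c).mpr h), h,
          card_disjoint_both_of_disjoint hα hB b.2 c.2 h]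
      · rw [if_neg (fun h' => by rw [(adj_inr_inr hB b c).mp h'] at h; omega), h,
          card_disjoint_both_of_inter hα hB b.2 c.2 h]
  refine ⟨?_, ?_, ?_, ?_⟩
  · rw [Fintype.card_option, Fintype.card_sum, hα, hBcard]
  · intro v
    rw [← SimpleGraph.card_neighborSet_eq_degree, ← Nat.card_eq_fintype_card,
      Nat.card_coe_set_eq]
    exact nb v
  · intro v w hvw
    rw [← Nat.card_eq_fintype_card, Nat.card_coe_set_eq, cn v w hvw.ne, if_pos hvw]
  · intro v w hne hvw
    rw [← Nat.card_eq_fintype_card, Nat.card_coe_set_eq, cn v w hne, if_neg hvw]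

end Cfsg.Agent.S0428
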