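import Cfsg.Statements.S0436
import Mathlib

set_option autoImplicit false
open Cfsg

namespace Cfsg.Agent.S0436

theorem sq_one_of_mem {G : Type*} [Group G] {E : Set G} (hE : Cfsg.IsThreeTranspositionSet E)
    {a : G} (ha : a ∈ E) : a * a = 1 := by
  rw [← pow_two, ← hE.1 a ha, pow_orderOf_eq_one]

theorem commute_of_sq {G : Type*} [Group G] {a e : G} (ha : a * a = 1) (he : e * e = 1)
    (h : (e * a) ^ 2 = 1) : Commute e a := by
  have hainv : a⁻¹ = a := inv_eq_of_mul_eq_one_left ha
  have heinv : e⁻¹ = e := inv_eq_of_mul_eq_one_left he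
  have h2 : e * a * (e * a) = 1 := by rw [← pow_two]; exact h
  have : e * a = (e * a)⁻¹ := (inv_eq_of_mul_eq_one_left h2).symm
  rw [mul_inv_rev, hainv, heinv] at this
  exact this

theorem key {G : Type*} [Group G] {E : Set G} (hE : Cfsg.IsThreeTranspositionSet E) {a b e : G} (ha : a ∈ E) (hb : b ∈ E) (he : e ∈ E) (hab : a ≠ b) (hcomm : Commute a b) (h : Commute e (a * b)) : Commute e a := by
  have ha2 := sq_one_of_mem hE ha
  have hb2 := sq_one_of_mem hE hb
  have he2 := sq_one_of_mem hE he
  have hainv : a⁻¹ = a := inv_eq_of_mul_eq_one_left ha2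
  have hbinv : b⁻¹ = b := inv_eq_of_mul_eq_one_left hb2
  have heinv : e⁻¹ = e := inv_eq_of_mul_eq_one_left he2
  by_contra hea
  have h3 : (e * a) ^ 3 = 1 := by
    rcases hE.2 e he a ha with h2 | h3
    · exact absurd (commute_of_sq ha2 he2 h2) hea
    · exact h3
  have hy2 : (a * b) ^ 2 = 1 := by
    rw [hcomm.mul_pow, pow_two, pow_two, ha2, hb2, one_mul]
  have hxy : Commute (e * a) (a * b) := by
    apply Commute.mul_left h
    exact (Commute.refl a).mul_right hcomm
  have heb : e * b = (e * a) * (a * b) := by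
    simp only [mul_assoc]
    rw [← mul_assoc a a b, ha2, one_mul]
  rcases hE.2 e he b hb with h2 | h3'
  · rw [heb, hxy.mul_pow, hy2, mul_one] at h2
    have : e * a = 1 := by
      have h4 : (e * a) ^ 3 = (e * a) ^ 2 * (e * a) := pow_succ _ _
      rw [h3, h2, one_mul] at h4
      exact h4.symm
    apply hea
    have h5 : e = a := by
      rw [← hainv]; exact eq_inv_of_mul_eq_one_left this
    rw [h5]
  · rw [heb, hxy.mul_pow, h3, one_mul] at h3'
    have h4 : (a * b) ^ 3 = (a * b) ^ 2 * (a * b) := pow_succ _ _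
    rw [h3', hy2, one_mul] at h4
    apply hab
    rw [← hbinv]
    exact eq_inv_of_mul_eq_one_left h4.symm

/-- For distinct commuting members a, b of a set of 3-transpositions E, a member e of E centralises the product a * b if and only if it centralises both a and b. -/
theorem result {G : Type*} [Group G] {E : Set G} (hE : Cfsg.IsThreeTranspositionSet E) {a b e : G} (ha : a ∈ E) (hb : b ∈ E) (he : e ∈ E) (hab : a ≠ b) (hcomm : Commute a b) : Commute e (a * b) ↔ (Commute e a ∧ Commute e b) := by
  constructor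
  · intro h
    have h1 := key hE ha hb he hab hcomm h
    refine ⟨h1, ?_⟩
    have : b = a⁻¹ * (a * b) := by rw [inv_mul_cancel_left]
    rw [this]
    exact h1.inv_right.mul_right h
  · rintro ⟨h1, h2⟩
    exact h1.mul_right h2

end Cfsg.Agent.S0436
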