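import Cfsg.Statements.S0437
import Mathlib

set_option autoImplicit false
open Cfsg

namespace Cfsg.Agent.S0437

theorem sq_one_of_mem {G : Type*} [Group G] {E : Set G} (hE : Cfsg.IsThreeTranspositionSet E)
    {a : G} (ha : a ∈ E) : a * a = 1 := by
  rw [← pow_two, ← hE.1 a ha, pow_orderOf_eq_one]

theorem commute_of_sq {G : Type*} [Group G] {a e : G} (ha : a * a = 1) (he : e * e = 1)
    (h : (e * a) ^ 2 = 1) : Commute e a := by
  have hainv : a⁻¹ = a := inv_eq_of_mul_eq_one_left ha
  have heinv : e⁻¹ = e := inv_eq_of_mul_eq_one_left he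
  have h2 : e * a * (e * a) = 1 := by rw [← pow_two]; exact h
  have : e * a = (e * a)⁻¹ := (inv_eq_of_mul_eq_one_left h2).symm
  rw [mul_inv_rev, hainv, heinv] at this
  exact this

theorem key {G : Type*} [Group G] {E : Set G} (hE : Cfsg.IsThreeTranspositionSet E) {a b e : G} (ha : a ∈ E) (hb : b ∈ E) (he : e ∈ E) (hab : a ≠ b) (hcomm : Commute a b) (h : Commute e (a * b)) : Commute e a := by
  have ha2 := sq_one_of_mem hE ha
  have hb2 := sq_one_of_mem hE hb
  have he2 := sq_one_of_mem hE he
  have hainv : a⁻¹ = a := inv_eq_of_mul_eq_one_left ha2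
  have hbinv : b⁻¹ = b := inv_eq_of_mul_eq_one_left hb2
  have heinv : e⁻¹ = e := inv_eq_of_mul_eq_one_left he2
  by_contra hea
  have h3 : (e * a) ^ 3 = 1 := by
    rcases hE.2 e he a ha with h2 | h3
    · exact absurd (commute_of_sq ha2 he2 h2) hea
    · exact h3
  have hy2 : (a * b) ^ 2 = 1 := by
    rw [hcomm.mul_pow, pow_two, pow_two, ha2, hb2, one_mul]
  have hxy : Commute (e * a) (a * b) := by
    apply Commute.mul_left h
    exact (Commute.refl a).mul_right hcomm
  have heb : e * b = (e * a) * (a * b) := by
    simp only [mul_assoc]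
    rw [← mul_assoc a a b, ha2, one_mul]
  rcases hE.2 e he b hb with h2 | h3'
  · rw [heb, hxy.mul_pow, hy2, mul_one] at h2
    have : e * a = 1 := by
      have h4 : (e * a) ^ 3 = (e * a) ^ 2 * (e * a) := pow_succ _ _
      rw [h3, h2, one_mul] at h4
      exact h4.symm
    apply hea
    have h5 : e = a := by
      rw [← hainv]; exact eq_inv_of_mul_eq_one_left this
    rw [h5]
  · rw [heb, hxy.mul_pow, h3, one_mul] at h3'
    have h4 : (a * b) ^ 3 = (a * b) ^ 2 * (a * b) := pow_succ _ _
    rw [h3', hy2, one_mul] at h4
    apply hab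
    rw [← hbinv]
    exact eq_inv_of_mul_eq_one_left h4.symm

theorem braid {G : Type*} [Group G] {a e : G} (ha : a * a = 1) (he : e * e = 1)
    (h : (e * a) ^ 3 = 1) : e * a * e = a * e * a := by
  have hainv : a⁻¹ = a := inv_eq_of_mul_eq_one_left ha
  have heinv : e⁻¹ = e := inv_eq_of_mul_eq_one_left he
  have h1 : e * a * e * (a * e * a) = 1 := by
    rw [← h]
    simp only [pow_succ, pow_zero, one_mul, mul_assoc]
  have h2 := eq_inv_of_mul_eq_one_left h1
  rw [h2, mul_inv_rev, mul_inv_rev, hainv, heinv, mul_assoc]

theorem core {G : Type*} [Group G] {a b c e : G} (ha2 : a * a = 1) (hb2 : b * b = 1)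
    (hc2 : c * c = 1) (he2 : e * e = 1) (h₁ : Commute a b) (h₂ : Commute a c) (h₃ : Commute b c)
    (hz : Commute e (a * b * c)) (R1 : e * a * e = a * e * a) (R2 : e * b * e = b * e * b)
    (R3 : e * c * e = c * e * c) : e = c := by
  have hyc : Commute (a * b) c := h₂.mul_left h₃
  have hy2 : (a * b) * (a * b) = 1 := by
    rw [← pow_two, h₁.mul_pow, pow_two, pow_two, ha2, hb2, one_mul]
  have hcyc : c * (a * b) * c = a * b := by
    rw [← hyc.eq, mul_assoc, hc2, mul_one]
  have he_eq : (a * b) * c * e * (c * (a * b)) = e := by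
    rw [← hz.eq]
    calc e * (a * b * c) * (c * (a * b)) = e * ((a * b) * (c * c) * (a * b)) := by
          simp only [mul_assoc]
      _ = e := by rw [hc2, mul_one, hy2, mul_one]
  have hA : c * e * c = (a * b) * e * (a * b) := by
    calc c * e * c = c * ((a * b) * c * e * (c * (a * b))) * c := by rw [he_eq]
      _ = (c * (a * b) * c) * e * (c * (a * b) * c) := by simp only [mul_assoc]
      _ = (a * b) * e * (a * b) := by rw [hcyc]
  have haba : a * b * a = b := by
    rw [h₁.eq, mul_assoc, ha2, mul_one]
  have hB1 : (a * b) * e * (a * b) = a * e * b * e * a := by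
    calc (a * b) * e * (a * b) = (a * b) * e * (b * a) := by rw [← h₁.eq]
      _ = a * (b * e * b) * a := by simp only [mul_assoc]
      _ = a * (e * b * e) * a := by rw [R2]
      _ = a * e * b * e * a := by simp only [mul_assoc]
  have hB2 : e * ((a * b) * e * (a * b)) * e = a * e * b * e * a := by
    calc e * ((a * b) * e * (a * b)) * e = e * (a * e * b * e * a) * e := by rw [hB1]
      _ = (e * a * e) * b * (e * a * e) := by simp only [mul_assoc]
      _ = (a * e * a) * b * (a * e * a) := by rw [R1]
      _ = a * e * (a * b * a) * e * a := by simp only [mul_assoc]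
      _ = a * e * b * e * a := by rw [haba]
  have h5 : c * e * c = c := by
    calc c * e * c = (a * b) * e * (a * b) := hA
      _ = e * ((a * b) * e * (a * b)) * e := by rw [hB2, hB1]
      _ = e * (c * e * c) * e := by rw [hA]
      _ = e * (e * c * e) * e := by rw [R3]
      _ = (e * e) * c * (e * e) := by simp only [mul_assoc]
      _ = c := by rw [he2, one_mul, mul_one]
  have h6 : e * c = 1 := by
    have : c * (e * c) = c * 1 := by rw [← mul_assoc, h5, mul_one]
    exact mul_left_cancel this
  have hcinv : c⁻¹ = c := inv_eq_of_mul_eq_one_left hc2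
  rw [← hcinv]
  exact eq_inv_of_mul_eq_one_left h6

/-- For three distinct, pairwise commuting members a, b, c of a set of 3-transpositions E, a member e of E centralises a * b * c if and only if it centralises each of a, b and c. -/
theorem result {G : Type*} [Group G] {E : Set G} (hE : Cfsg.IsThreeTranspositionSet E) {a b c e : G} (ha : a ∈ E) (hb : b ∈ E) (hc : c ∈ E) (he : e ∈ E) (hab : a ≠ b) (hac : a ≠ c) (hbc : b ≠ c) (h₁ : Commute a b) (h₂ : Commute a c) (h₃ : Commute b c) : Commute e (a * b * c) ↔ (Commute e a ∧ Commute e b ∧ Commute e c) := by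
  have ha2 := sq_one_of_mem hE ha
  have hb2 := sq_one_of_mem hE hb
  have hc2 := sq_one_of_mem hE hc
  have he2 := sq_one_of_mem hE he
  constructor
  · intro hz
    have caseA : Commute e a → (Commute e a ∧ Commute e b ∧ Commute e c) := by
      intro hea
      have hbc' : Commute e (b * c) := by
        have : b * c = a⁻¹ * (a * b * c) := by simp only [mul_assoc, inv_mul_cancel_left]
        rw [this]
        exact hea.inv_right.mul_right hz
      have heb := key hE hb hc he hbc h₃ hbc'
      refine ⟨hea, heb, ?_⟩
      have : c = b⁻¹ * (b * c) := by rw [inv_mul_cancel_left]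
      rw [this]
      exact heb.inv_right.mul_right hbc'
    by_cases hea : Commute e a
    · exact caseA hea
    by_cases heb : Commute e b
    · have hac' : Commute e (a * c) := by
        have : a * c = b⁻¹ * (a * b * c) := by
          rw [h₁.eq]; simp only [mul_assoc, inv_mul_cancel_left]
        rw [this]
        exact heb.inv_right.mul_right hz
      exact caseA (key hE ha hc he hac h₂ hac')
    by_cases hec : Commute e c
    · have hab' : Commute e (a * b) := by
        have : a * b = (a * b * c) * c⁻¹ := by rw [mul_inv_cancel_right]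
        rw [this]
        exact hz.mul_right hec.inv_right
      exact caseA (key hE ha hb he hab h₁ hab')
    exfalso
    have h3a : (e * a) ^ 3 = 1 := by
      rcases hE.2 e he a ha with h2 | h3
      · exact absurd (commute_of_sq ha2 he2 h2) hea
      · exact h3
    have h3b : (e * b) ^ 3 = 1 := by
      rcases hE.2 e he b hb with h2 | h3
      · exact absurd (commute_of_sq hb2 he2 h2) heb
      · exact h3
    have h3c : (e * c) ^ 3 = 1 := by
      rcases hE.2 e he c hc with h2 | h3
      · exact absurd (commute_of_sq hc2 he2 h2) hec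
      · exact h3
    have := core ha2 hb2 hc2 he2 h₁ h₂ h₃ hz (braid ha2 he2 h3a) (braid hb2 he2 h3b)
      (braid hc2 he2 h3c)
    apply hec
    rw [this]
  · rintro ⟨h1, h2, h3⟩
    exact (h1.mul_right h2).mul_right h3

end Cfsg.Agent.S0437
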