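import Cfsg.Statements.S0438
import Mathlib

set_option autoImplicit false
open Cfsg

namespace Cfsg.Agent.S0438

/-- Let E be a set of 3-transpositions closed under conjugation, and x an involutory automorphism of the group mapping E to itself. If some a in E fails to commute with its image x a, then x fixes an element of E. -/
theorem result {G : Type*} [Group G] {E : Set G} (hE : Cfsg.IsThreeTranspositionSet E) (hconj : ∀ g : G, ∀ d ∈ E, g * d * g⁻¹ ∈ E) (x : G ≃* G) (hx : ∀ g : G, x (x g) = g) (hxE : ∀ d ∈ E, x d ∈ E) {a : G} (ha : a ∈ E) (h : ¬ Commute a (x a)) : ∃ d ∈ E, x d = d := by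
  obtain ⟨hord, hprod⟩ := hE
  have hb : x a ∈ E := hxE a ha
  have ha2 : a * a = 1 := by
    have := hord a ha
    rw [← pow_two, ← this, pow_orderOf_eq_one]
  have hb2 : x a * x a = 1 := by
    rw [← map_mul, ha2, map_one]
  have hainv : a⁻¹ = a := inv_eq_of_mul_eq_one_left ha2
  have hbinv : (x a)⁻¹ = x a := inv_eq_of_mul_eq_one_left hb2
  refine ⟨a * x a * a⁻¹, hconj a (x a) hb, ?_⟩
  rcases hprod a ha (x a) hb with h2 | h3
  · exfalso
    apply h
    have h2' : a * x a * (a * x a) = 1 := by rw [← pow_two]; exact h2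
    have : a * x a = (a * x a)⁻¹ := (inv_eq_of_mul_eq_one_left h2').symm
    rw [mul_inv_rev, hainv, hbinv] at this
    exact this
  · have h3' : a * x a * (a * x a) * (a * x a) = 1 := by
      rw [← h3, pow_succ, pow_two]
    rw [map_mul, map_mul, map_inv, hx, hainv, hbinv]
    have : x a * a * x a = (a * x a * a)⁻¹ := by
      symm
      apply inv_eq_of_mul_eq_one_left
      calc x a * a * x a * (a * x a * a) = x a * (a * x a * (a * x a) * (a * x a)) * (x a)⁻¹ := by
            rw [hbinv]; simp only [mul_assoc]; rw [hb2, mul_one]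
        _ = 1 := by rw [h3', mul_one, mul_inv_cancel]
    rw [this, mul_inv_rev, mul_inv_rev, hainv, hbinv, mul_assoc]

end Cfsg.Agent.S0438
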