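import Cfsg.Statements.S0499
import Cfsg.Agent.Lib.Helper75.Frobenius

set_option autoImplicit false
open Cfsg

namespace Cfsg.Agent.S0499

/-- A non-abelian finite simple group of even order has order divisible by 12, 16 or 56. -/
theorem result {G : Type*} [Group G] [Finite G] [IsSimpleGroup G]
    (hG : ¬ IsMulCommutative G) (h2 : Even (Nat.card G)) :
    12 ∣ Nat.card G ∨ 16 ∣ Nat.card G ∨ 56 ∣ Nat.card G := by
  classical
  have : Fact (Nat.Prime 2) := ⟨Nat.prime_two⟩
  by_contra hcon
  push Not at hcon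
  obtain ⟨h12, h16, h56⟩ := hcon
  -- Step 1: the Frobenius condition fails (no normal 2-complement in a simple group)
  have hnF : ¬ Cfsg.Agent.Lib.Helper75.FrobCond 2 G := by
    intro hF
    obtain ⟨N, hNn, hNc, k, hk⟩ := Cfsg.Agent.Lib.Helper75.npc_of_frobCond hF
    rcases hNn.eq_bot_or_eq_top with h | h
    · rw [h, Subgroup.index_bot] at hk
      have hp : IsPGroup 2 G := IsPGroup.of_card hk
      have hc : Subgroup.center G ≠ ⊥ := by
        have := hp.center_nontrivial
        exact (Subgroup.nontrivial_iff_ne_bot _).mp this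
      have hct : Subgroup.center G = ⊤ :=
        ((inferInstance : (Subgroup.center G).Normal).eq_bot_or_eq_top).resolve_left hc
      apply hG
      refine ⟨⟨fun a b => ?_⟩⟩
      have ha : a ∈ Subgroup.center G := by rw [hct]; trivial
      exact (Subgroup.mem_center_iff.mp ha b).symm
    · rw [h, Subgroup.card_top, Nat.Coprime, Nat.gcd_eq_right (even_iff_two_dvd.mp h2)] at hNc
      omega
  unfold Cfsg.Agent.Lib.Helper75.FrobCond at hnF
  push Not at hnF
  obtain ⟨B, hB, z, hzN, hzo, hzC⟩ := hnF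
  -- Step 2: reduce to an element acting with prime order
  have hmin : ∀ n : ℕ, ∀ z : G, orderOf z = n → z ∈ Subgroup.normalizer (B : Set G) →
      (orderOf z).Coprime 2 → z ∉ Subgroup.centralizer (B : Set G) →
      ∃ (z' : G) (q : ℕ), q.Prime ∧ z' ∈ Subgroup.normalizer (B : Set G) ∧
        z' ∉ Subgroup.centralizer (B : Set G) ∧ q ∣ orderOf z' ∧ (orderOf z').Coprime 2 ∧
        z' ^ q ∈ Subgroup.centralizer (B : Set G) := by
    intro n
    induction n using Nat.strong_induction_on with
    | _ n ih =>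
      intro z hn hzN hzo hzC
      have hz1 : orderOf z ≠ 1 := by
        intro h
        rw [orderOf_eq_one_iff] at h
        rw [h] at hzC
        exact hzC (Subgroup.one_mem _)
      obtain ⟨q, hq, hqd⟩ := Nat.exists_prime_and_dvd hz1
      by_cases hc : z ^ q ∈ Subgroup.centralizer (B : Set G)
      · exact ⟨z, q, hq, hzN, hzC, hqd, hzo, hc⟩
      · have hord : orderOf (z ^ q) < orderOf z := by
          rw [orderOf_pow' z hq.ne_zero, Nat.gcd_eq_right hqd]
          exact Nat.div_lt_self (orderOf_pos z) hq.one_lt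
        exact ih (orderOf (z ^ q)) (by rw [← hn]; exact hord) (z ^ q) rfl
          (Subgroup.pow_mem _ hzN q) (Nat.Coprime.coprime_dvd_left (orderOf_pow_dvd q) hzo) hc
  obtain ⟨z', q, hq, hzN', hzC', hqd, hzo', hzq⟩ := hmin _ z rfl hzN hzo hzC
  have hq2 : q ≠ 2 := by
    rintro rfl
    have := Nat.Coprime.coprime_dvd_left hqd hzo'
    revert this
    decide
  have hqG : q ∣ Nat.card G := hqd.trans (orderOf_dvd_natCard z')
  -- Step 3: the conjugation map on `B` and its fixed points
  have hmem : ∀ b : B, z' * b * z'⁻¹ ∈ B :=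
    fun b => (Subgroup.mem_normalizer_iff.mp hzN' b).mp b.2
  let f : Function.End B := fun b => ⟨z' * b * z'⁻¹, hmem b⟩
  have hfpow : ∀ (n : ℕ) (b : B), (((f ^ n) b : B) : G) = z' ^ n * b * (z' ^ n)⁻¹ := by
    intro n
    induction n with
    | zero =>
      intro b
      rw [pow_zero, pow_zero]
      show (b : G) = 1 * (b : G) * 1⁻¹
      group
    | succ n ih =>
      intro b
      rw [pow_succ]
      show (((f ^ n) (f b) : B) : G) = _
      rw [ih (f b)]
      show z' ^ n * (z' * b * z'⁻¹) * (z' ^ n)⁻¹ = _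
      rw [pow_succ]
      group
  have hfq : f ^ q ^ 1 = 1 := by
    rw [pow_one]
    funext b
    apply Subtype.ext
    rw [hfpow]
    have h1 := Subgroup.mem_centralizer_iff.mp hzq b b.2
    show z' ^ q * (b : G) * (z' ^ q)⁻¹ = (b : G)
    rw [← h1]
    group
  have : Fact q.Prime := ⟨hq⟩
  have : Fintype B := Fintype.ofFinite B
  have hmod := Equiv.Perm.card_fixedPoints_modEq (f := f) (p := q) (n := 1) hfq
  set D : Subgroup B := (Subgroup.centralizer {z'}).subgroupOf B with hD
  have hfix : Fintype.card (Function.fixedPoints f) = Nat.card D := by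
    rw [← Nat.card_eq_fintype_card]
    apply Nat.card_congr
    refine Equiv.subtypeEquivRight (fun b => ?_)
    rw [hD, Subgroup.mem_subgroupOf, Subgroup.mem_centralizer_iff]
    constructor
    · intro hb h hh
      rw [Set.mem_singleton_iff] at hh
      subst hh
      have h1 : f b = b := hb
      have h2 : h * (b : G) * h⁻¹ = (b : G) := congrArg (fun x : B => (x : G)) h1
      calc h * (b : G) = h * (b : G) * h⁻¹ * h := by group
        _ = (b : G) * h := by rw [h2]
    · intro hb
      have h1 := hb z' rfl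
      show f b = b
      apply Subtype.ext
      show z' * (b : G) * z'⁻¹ = (b : G)
      rw [h1]
      group
  have hDdvd : Nat.card D ∣ Nat.card B := Subgroup.card_subgroup_dvd_card D
  have hDne : Nat.card D ≠ Nat.card B := by
    intro heq
    have htop : D = ⊤ := Subgroup.eq_top_of_card_eq D heq
    apply hzC'
    rw [Subgroup.mem_centralizer_iff]
    intro b hb
    have h1 : (⟨b, hb⟩ : B) ∈ D := by rw [htop]; trivial
    rw [hD, Subgroup.mem_subgroupOf, Subgroup.mem_centralizer_iff] at h1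
    exact (h1 z' rfl).symm
  obtain ⟨m, hm⟩ := IsPGroup.iff_card.mp hB
  have hBG : Nat.card B ∣ Nat.card G := Subgroup.card_subgroup_dvd_card B
  have h2m : 2 ^ m ∣ Nat.card G := hm ▸ hBG
  have hm3 : m ≤ 3 := by
    by_contra h
    push Not at h
    apply h16
    exact (pow_dvd_pow 2 (show 4 ≤ m by omega)).trans h2m
  obtain ⟨j, hjm, hj⟩ := (Nat.dvd_prime_pow Nat.prime_two).mp (hm ▸ hDdvd)
  have hjlt : j < m := by
    refine lt_of_le_of_ne hjm ?_
    rintro rfl
    exact hDne (by rw [hj, hm])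
  rw [hfix, ← Nat.card_eq_fintype_card, hm, hj] at hmod
  have hdiv : q ∣ 2 ^ m - 2 ^ j :=
    (Nat.modEq_iff_dvd' (Nat.pow_le_pow_right (by norm_num) hjm)).mp hmod.symm
  have hq2le := hq.two_le
  have h6 : (m = 1 ∧ j = 0) ∨ (m = 2 ∧ j = 0) ∨ (m = 2 ∧ j = 1) ∨ (m = 3 ∧ j = 0) ∨
      (m = 3 ∧ j = 1) ∨ (m = 3 ∧ j = 2) := by omega
  rcases h6 with ⟨rfl, rfl⟩ | ⟨rfl, rfl⟩ | ⟨rfl, rfl⟩ | ⟨rfl, rfl⟩ | ⟨rfl, rfl⟩ | ⟨rfl, rfl⟩
  · have h : q ∣ 1 := hdiv
    have := Nat.le_of_dvd one_pos h
    omega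
  · have h : q ∣ 3 := hdiv
    have h3 := Nat.le_of_dvd (by norm_num) h
    have hq3 : q = 3 := by omega
    subst hq3
    exact h12 (Nat.Coprime.mul_dvd_of_dvd_of_dvd (by decide : Nat.Coprime 3 4) hqG h2m)
  · have h : q ∣ 2 := hdiv
    have := Nat.le_of_dvd (by norm_num) h
    omega
  · have h : q ∣ 7 := hdiv
    rcases (Nat.dvd_prime (by norm_num : Nat.Prime 7)).mp h with h1 | h1
    · omega
    · subst h1
      exact h56 (Nat.Coprime.mul_dvd_of_dvd_of_dvd (by decide : Nat.Coprime 7 8) hqG h2m)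
  · have h : q ∣ 2 * 3 := hdiv
    rcases (Nat.Prime.dvd_mul hq).mp h with h1 | h1
    · have := Nat.le_of_dvd (by norm_num) h1
      omega
    · have h3 := Nat.le_of_dvd (by norm_num) h1
      have hq3 : q = 3 := by omega
      subst hq3
      have h4 : 4 ∣ Nat.card G := (by norm_num : 4 ∣ 2 ^ 3).trans h2m
      exact h12 (Nat.Coprime.mul_dvd_of_dvd_of_dvd (by decide : Nat.Coprime 3 4) hqG h4)
  · have h : q ∣ 2 ^ 2 := hdiv
    have h1 := Nat.Prime.dvd_of_dvd_pow hq h
    have := Nat.le_of_dvd (by norm_num) h1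
    omega

end Cfsg.Agent.S0499
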