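import Cfsg.Statements.S0829
import Mathlib

set_option autoImplicit false
open Cfsg

namespace Cfsg.Agent.S0829

section field
variable {F : Type*} [Field F] [Fintype F] {q : ℕ}

theorem two_le_q (hF : Fintype.card F = q ^ 2) : 2 ≤ q := by
  have h1 : 2 ≤ Fintype.card F := Fintype.one_lt_card
  rw [hF] at h1
  by_contra h
  have : q ≤ 1 := by omega
  have : q ^ 2 ≤ 1 ^ 2 := Nat.pow_le_pow_left this 2
  omega

theorem exists_frob (hF : Fintype.card F = q ^ 2) : ∃ φ : F →+* F, ∀ x, φ x = x ^ q := by
  obtain ⟨p, hp⟩ := CharP.exists F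
  obtain ⟨k, hpprime, hk⟩ := FiniteField.card F p
  haveI : Fact p.Prime := ⟨hpprime⟩
  have hq : q ∣ p ^ (k : ℕ) := by rw [← hk, hF]; exact dvd_pow_self q (by norm_num)
  obtain ⟨j, -, rfl⟩ := (Nat.dvd_prime_pow hpprime).1 hq
  exact ⟨iterateFrobenius F p j, fun x => by simp [iterateFrobenius_def]⟩

theorem pow_qq (hF : Fintype.card F = q ^ 2) (x : F) : (x ^ q) ^ q = x := by
  rw [← pow_mul, ← sq, ← hF, FiniteField.pow_card]

theorem card_roots_le [DecidableEq F] (P : Polynomial F) (hP : P ≠ 0) :
    (Finset.univ.filter (fun x => P.eval x = 0)).card ≤ P.natDegree := by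
  calc (Finset.univ.filter (fun x => P.eval x = 0)).card
      ≤ P.roots.toFinset.card := Finset.card_le_card (fun x hx => by
        simp only [Finset.mem_filter, Finset.mem_univ, true_and] at hx
        simp [Polynomial.mem_roots hP, hx])
    _ ≤ Multiset.card P.roots := Multiset.toFinset_card_le _
    _ ≤ P.natDegree := Polynomial.card_roots' P

theorem fiber_card {α β : Type*} [DecidableEq β] (s : Finset α) (t : Finset β) (f : α → β)
    (k : ℕ) (hmaps : ∀ a ∈ s, f a ∈ t)
    (hfib : ∀ b ∈ t, (s.filter (fun a => f a = b)).card ≤ k) (hcard : k * t.card ≤ s.card) :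
    ∀ b ∈ t, (s.filter (fun a => f a = b)).card = k := by
  have h1 := Finset.card_eq_sum_card_fiberwise (f := f) (s := s) (t := t) hmaps
  by_contra hcon
  push Not at hcon
  obtain ⟨b, hb, hne⟩ := hcon
  have hlt : ∑ b ∈ t, (s.filter (fun a => f a = b)).card < ∑ _b ∈ t, k :=
    Finset.sum_lt_sum hfib ⟨b, hb, lt_of_le_of_ne (hfib b hb) hne⟩
  rw [Finset.sum_const, smul_eq_mul, mul_comm] at hlt
  omega

open Polynomial in
theorem trace_fiber [DecidableEq F] (hF : Fintype.card F = q ^ 2) (c : F) (hc : c ^ q = c) :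
    (Finset.univ.filter (fun μ : F => μ ^ q + μ = c)).card = q := by
  obtain ⟨φ, hφ⟩ := exists_frob hF
  have hq := two_le_q hF
  have hfix : (Finset.univ.filter (fun c : F => c ^ q = c)).card ≤ q := by
    have := card_roots_le (X ^ q - X : F[X]) (FiniteField.X_pow_card_sub_X_ne_zero F hq)
    rw [FiniteField.X_pow_card_sub_X_natDegree_eq F hq] at this
    refine le_trans (Finset.card_le_card ?_) this
    intro x hx
    simp only [Finset.mem_filter, Finset.mem_univ, true_and] at hx ⊢
    simp [hx]
  have key := fiber_card (Finset.univ : Finset F) (Finset.univ.filter (fun c : F => c ^ q = c))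
    (fun μ => μ ^ q + μ) q ?_ ?_ ?_
  · have := key c (by simp [hc])
    simpa using this
  · intro μ _
    simp only [Finset.mem_filter, Finset.mem_univ, true_and]
    rw [← hφ, map_add, hφ, hφ, pow_qq hF, add_comm]
  · intro b _
    have hdeg : (X ^ q + (X - C b) : F[X]).natDegree = q := by
      rw [natDegree_add_eq_left_of_natDegree_lt]
      · simp
      · rw [natDegree_X_sub_C, natDegree_X_pow]; omega
    have hne : (X ^ q + (X - C b) : F[X]) ≠ 0 := by
      intro h; rw [h] at hdeg; simp at hdeg; omega
    have := card_roots_le _ hne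
    rw [hdeg] at this
    refine le_trans (Finset.card_le_card ?_) this
    intro x hx
    simp only [Finset.mem_filter, Finset.mem_univ, true_and] at hx ⊢
    simp only [eval_add, eval_pow, eval_X, eval_sub, eval_C]
    rw [← hx]; ring
  · rw [Finset.card_univ, hF, sq]
    exact Nat.mul_le_mul_left q hfix

open Polynomial in
theorem norm_fiber [DecidableEq F] (hF : Fintype.card F = q ^ 2) (c : F) (hc : c ^ q = c)
    (hc0 : c ≠ 0) :
    (Finset.univ.filter (fun x : F => x ^ (q + 1) = c)).card = q + 1 := by
  have hq := two_le_q hF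
  have hfix : (Finset.univ.filter (fun c : F => c ^ q = c ∧ c ≠ 0)).card + 1 ≤ q := by
    have := card_roots_le (X ^ q - X : F[X]) (FiniteField.X_pow_card_sub_X_ne_zero F hq)
    rw [FiniteField.X_pow_card_sub_X_natDegree_eq F hq] at this
    refine le_trans ?_ this
    have h0 : (0 : F) ∉ Finset.univ.filter (fun c : F => c ^ q = c ∧ c ≠ 0) := by simp
    rw [← Finset.card_insert_of_notMem h0]
    apply Finset.card_le_card
    intro x hx
    simp only [Finset.mem_insert, Finset.mem_filter, Finset.mem_univ, true_and] at hx ⊢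
    rcases hx with rfl | hx
    · simp; omega
    · simp [hx.1]
  have key := fiber_card (Finset.univ.filter (fun x : F => x ≠ 0))
    (Finset.univ.filter (fun c : F => c ^ q = c ∧ c ≠ 0))
    (fun x => x ^ (q + 1)) (q + 1) ?_ ?_ ?_
  · have := key c (by simp [hc, hc0])
    refine Eq.trans ?_ this
    congr 1
    ext x
    simp only [Finset.mem_filter, Finset.mem_univ, true_and]
    constructor
    · intro h
      refine ⟨?_, h⟩
      rintro rfl
      simp at h
      exact hc0 h.symm
    · exact fun h => h.2
  · intro x hx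
    simp only [Finset.mem_filter, Finset.mem_univ, true_and] at hx ⊢
    refine ⟨?_, pow_ne_zero _ hx⟩
    rw [← pow_mul, add_mul, one_mul, pow_add, pow_mul, pow_qq hF, mul_comm, ← pow_succ]
  · intro b _
    have hdeg : (X ^ (q + 1) - C b : F[X]).natDegree = q + 1 := natDegree_X_pow_sub_C
    have hne : (X ^ (q + 1) - C b : F[X]) ≠ 0 := X_pow_sub_C_ne_zero (by omega) b
    have := card_roots_le _ hne
    rw [hdeg] at this
    refine le_trans (Finset.card_le_card ?_) this
    intro x hx
    simp only [Finset.mem_filter, Finset.mem_univ, true_and] at hx ⊢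
    simp [hx.2]
  · rw [Finset.filter_ne', Finset.card_erase_of_mem (Finset.mem_univ _), Finset.card_univ, hF]
    have h1 : (q + 1) * (Finset.univ.filter (fun c : F => c ^ q = c ∧ c ≠ 0)).card ≤
        (q + 1) * (q - 1) := Nat.mul_le_mul_left _ (by omega)
    have h2 : (q + 1) * (q - 1) = q ^ 2 - 1 := by
      obtain ⟨r, rfl⟩ : ∃ r, q = r + 1 := ⟨q - 1, by omega⟩
      simp only [Nat.add_sub_cancel]
      have : (r + 1) ^ 2 = (r + 1 + 1) * r + 1 := by ring
      omega
    omega

end field

section count
variable {F : Type*} [Field F] [Fintype F] {q : ℕ}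

theorem herm_self_succ (n : ℕ) (y : Fin (n + 1) → F) :
    hermForm (n + 1) F q y y = (y 0) ^ (q + 1) + hermForm n F q (Fin.tail y) (Fin.tail y) := by
  simp only [hermForm, Fin.sum_univ_succ, Fin.tail, pow_succ]
  ring

theorem herm_fix (hF : Fintype.card F = q ^ 2) (n : ℕ) (x : Fin n → F) :
    (hermForm n F q x x) ^ q = hermForm n F q x x := by
  obtain ⟨φ, hφ⟩ := exists_frob hF
  rw [← hφ, hermForm, map_sum]
  refine Finset.sum_congr rfl (fun i _ => ?_)
  rw [map_mul, hφ, hφ, pow_qq hF, mul_comm]

theorem iso_zero : Nat.card {x : Fin 0 → F // hermForm 0 F q x x = 0} = 1 := by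
  rw [Nat.card_eq_one_iff_unique]
  exact ⟨⟨fun a b => Subtype.ext (Subsingleton.elim _ _)⟩, ⟨⟨0, by simp [hermForm]⟩⟩⟩

theorem iso_succ (hF : Fintype.card F = q ^ 2) (n : ℕ) :
    Nat.card {x : Fin (n + 1) → F // hermForm (n + 1) F q x x = 0} +
      q * Nat.card {x : Fin n → F // hermForm n F q x x = 0} = (q + 1) * q ^ (2 * n) := by
  classical
  have e : {y : Fin (n + 1) → F // hermForm (n + 1) F q y y = 0} ≃
      {p : F × (Fin n → F) // p.1 ^ (q + 1) + hermForm n F q p.2 p.2 = 0} :=
    (Fin.consEquiv (fun _ => F)).symm.subtypeEquiv (fun y => by rw [herm_self_succ]; rfl)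
  rw [Nat.card_congr e, Nat.card_eq_fintype_card, Nat.card_eq_fintype_card, Fintype.card_subtype,
    Fintype.card_subtype]
  rw [Finset.card_filter, Fintype.sum_prod_type_right]
  have h1 : ∀ x' : Fin n → F,
      (∑ x : F, if x ^ (q + 1) + hermForm n F q x' x' = 0 then 1 else 0) =
        if hermForm n F q x' x' = 0 then 1 else q + 1 := by
    intro x'
    rw [← Finset.card_filter]
    split_ifs with h0
    · rw [h0, Finset.card_eq_one]
      refine ⟨0, ?_⟩
      ext x
      simp
    · have hfix : (- hermForm n F q x' x') ^ q = - hermForm n F q x' x' := by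
        obtain ⟨φ, hφ⟩ := exists_frob hF
        rw [← hφ, map_neg, hφ, herm_fix hF]
      have := norm_fiber hF (- hermForm n F q x' x') hfix (neg_ne_zero.2 h0)
      refine Eq.trans ?_ this
      congr 1
      ext x
      simp [add_eq_zero_iff_eq_neg]
  simp_rw [h1]
  rw [Finset.sum_ite, Finset.sum_const, Finset.sum_const, smul_eq_mul, smul_eq_mul, mul_one]
  have h2 := Finset.card_filter_add_card_filter_not
    (s := (Finset.univ : Finset (Fin n → F))) (fun x' => hermForm n F q x' x' = 0)
  rw [Finset.card_univ, Fintype.card_fun, Fintype.card_fin, hF, ← pow_mul] at h2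
  rw [← h2]
  ring

end count

section herm
variable {F : Type*} [Field F] [Fintype F] {q : ℕ}

theorem herm_add_smul_left (n : ℕ) (w v u : Fin n → F) (c : F) :
    hermForm n F q (w + c • v) u = hermForm n F q w u + c * hermForm n F q v u := by
  simp only [hermForm, Pi.add_apply, Pi.smul_apply, smul_eq_mul, Finset.mul_sum,
    ← Finset.sum_add_distrib]
  exact Finset.sum_congr rfl (fun i _ => by ring)

theorem herm_add_smul_right (hF : Fintype.card F = q ^ 2) (n : ℕ) (u w v : Fin n → F) (c : F) :
    hermForm n F q u (w + c • v) = hermForm n F q u w + c ^ q * hermForm n F q u v := by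
  obtain ⟨φ, hφ⟩ := exists_frob hF
  simp only [hermForm, Pi.add_apply, Pi.smul_apply, smul_eq_mul, Finset.mul_sum,
    ← Finset.sum_add_distrib]
  refine Finset.sum_congr rfl (fun i _ => ?_)
  rw [← hφ (w i + c * v i), map_add, map_mul, hφ, hφ, hφ]
  ring

theorem herm_conj (hF : Fintype.card F = q ^ 2) (n : ℕ) (u v : Fin n → F) :
    hermForm n F q v u = (hermForm n F q u v) ^ q := by
  obtain ⟨φ, hφ⟩ := exists_frob hF
  rw [← hφ, hermForm, hermForm, map_sum]
  refine Finset.sum_congr rfl (fun i _ => ?_)
  rw [map_mul, hφ, hφ, pow_qq hF, mul_comm]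

theorem herm_norm_add_smul (hF : Fintype.card F = q ^ 2) (n : ℕ) (w v : Fin n → F) (c : F) :
    hermForm n F q (w + c • v) (w + c • v) = hermForm n F q w w + c ^ q * hermForm n F q w v
      + c * (hermForm n F q w v) ^ q + c ^ (q + 1) * hermForm n F q v v := by
  rw [herm_add_smul_left, herm_add_smul_right hF, herm_add_smul_right hF, herm_conj hF n w v]
  ring

/-- the linear functional `w ↦ h(w, v)` -/
def hermL (n : ℕ) (q : ℕ) (v : Fin n → F) : (Fin n → F) →ₗ[F] F where
  toFun w := hermForm n F q w v
  map_add' w w' := by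
    have := herm_add_smul_left (q := q) n w w' v 1
    simpa using this
  map_smul' c w := by
    have := herm_add_smul_left (q := q) n 0 w v c
    simpa [hermForm] using this

theorem hermL_apply (n : ℕ) (v w : Fin n → F) : hermL n q v w = hermForm n F q w v := rfl

theorem hermL_ne_zero (hF : Fintype.card F = q ^ 2) (n : ℕ) (v : Fin n → F) (hv : v ≠ 0) :
    hermL n q v ≠ 0 := by
  classical
  obtain ⟨i, hi⟩ := Function.ne_iff.1 hv
  intro h
  have := congrArg (fun f => f (Pi.single i 1)) h
  simp only [hermL_apply, hermForm, LinearMap.zero_apply] at this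
  rw [Finset.sum_eq_single i] at this
  · simp only [Pi.single_eq_same, one_mul] at this
    exact hi (by simpa using pow_eq_zero_iff (two_le_q hF |> fun h => by omega) |>.1 this)
  · intro j _ hj
    simp [Pi.single_eq_of_ne hj]
  · simp

theorem finrank_ker_hermL (hF : Fintype.card F = q ^ 2) (k : ℕ) (v : Fin (k + 1) → F)
    (hv : v ≠ 0) : Module.finrank F (LinearMap.ker (hermL (k + 1) q v)) = k := by
  have h1 := LinearMap.finrank_range_add_finrank_ker (hermL (k + 1) q v)
  have h2 : Module.finrank F (Fin (k + 1) → F) = k + 1 := by simp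
  have h3 : Module.finrank F (LinearMap.range (hermL (k + 1) q v)) = 1 := by
    have hsurj : Function.Surjective (hermL (k + 1) q v) := by
      obtain ⟨w, hw⟩ : ∃ w, hermL (k + 1) q v w ≠ 0 := by
        by_contra h
        simp only [not_exists, not_not] at h
        exact hermL_ne_zero hF _ v hv (LinearMap.ext h)
      intro c
      exact ⟨(c / hermL (k + 1) q v w) • w, by simp [hw]⟩
    rw [LinearMap.range_eq_top.2 hsurj]; simp
  omega

theorem card_sub {n : ℕ} (W : Submodule F (Fin n → F)) :
    Nat.card W = Fintype.card F ^ Module.finrank F W := by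
  classical
  rw [Nat.card_eq_fintype_card]
  exact Module.card_eq_pow_finrank

theorem card_filter_mem {n : ℕ} [DecidableEq F]
    (W : Submodule F (Fin n → F)) [DecidablePred (· ∈ W)] :
    (Finset.univ.filter (fun w => w ∈ W)).card = Fintype.card F ^ Module.finrank F W := by
  rw [← card_sub, Nat.card_eq_fintype_card]
  exact (Fintype.card_of_subtype _ (by simp)).symm

theorem perp_count (hF : Fintype.card F = q ^ 2) (k : ℕ) (v : Fin (k + 1) → F) (hv : v ≠ 0)
    (hv0 : hermForm (k + 1) F q v v = 0) :
    q * Nat.card {w : Fin (k + 1) → F // hermForm (k + 1) F q w w = 0 ∧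
        hermForm (k + 1) F q w v = 0} + q ^ (2 * k + 2) =
      q * Nat.card {w : Fin (k + 1) → F // hermForm (k + 1) F q w w = 0} + q ^ (2 * k) := by
  classical
  have hq := two_le_q hF
  rw [Nat.card_eq_fintype_card, Nat.card_eq_fintype_card, Fintype.card_subtype,
    Fintype.card_subtype]
  -- a = S₀ + E
  have hsplit := Finset.card_filter_add_card_filter_not
    (s := Finset.univ.filter (fun w : Fin (k + 1) → F => hermForm (k + 1) F q w w = 0))
    (fun w => hermForm (k + 1) F q w v = 0)
  rw [Finset.filter_filter, Finset.filter_filter] at hsplit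
  -- kernel count
  have hker : (Finset.univ.filter (fun w : Fin (k + 1) → F => hermForm (k + 1) F q w v = 0)).card
      = q ^ (2 * k) := by
    have := card_filter_mem (LinearMap.ker (hermL (k + 1) q v))
    rw [finrank_ker_hermL hF k v hv, hF, ← pow_mul] at this
    rw [← this]
    congr 1
  have hD := Finset.card_filter_add_card_filter_not
    (s := (Finset.univ : Finset (Fin (k + 1) → F)))
    (fun w => hermForm (k + 1) F q w v = 0)
  rw [hker, Finset.card_univ, Fintype.card_fun, Fintype.card_fin, hF, ← pow_mul] at hD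
  -- main double count
  have hmain : q ^ 2 * (Finset.univ.filter (fun w : Fin (k + 1) → F =>
      hermForm (k + 1) F q w w = 0 ∧ ¬ hermForm (k + 1) F q w v = 0)).card =
      (Finset.univ.filter (fun w : Fin (k + 1) → F => ¬ hermForm (k + 1) F q w v = 0)).card * q := by
    have h1 : ∀ c : F, ((Finset.univ.filter (fun w : Fin (k + 1) → F =>
        ¬ hermForm (k + 1) F q w v = 0)).filter
          (fun w => hermForm (k + 1) F q (w + c • v) (w + c • v) = 0)).card =
        (Finset.univ.filter (fun w : Fin (k + 1) → F =>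
          hermForm (k + 1) F q w w = 0 ∧ ¬ hermForm (k + 1) F q w v = 0)).card := by
      intro c
      apply Finset.card_nbij' (fun w => w + c • v) (fun w => w - c • v)
      · intro w hw
        simp only [Finset.coe_filter, Finset.mem_filter, Finset.mem_univ, true_and,
          Set.mem_ofPred_eq] at hw ⊢
        refine ⟨hw.2, ?_⟩
        rw [herm_add_smul_left, hv0, mul_zero, add_zero]
        exact hw.1
      · intro w hw
        simp only [Finset.coe_filter, Finset.mem_filter, Finset.mem_univ, true_and,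
          Set.mem_ofPred_eq] at hw ⊢
        refine ⟨?_, ?_⟩
        · rw [sub_eq_add_neg, ← neg_smul, herm_add_smul_left, hv0, mul_zero, add_zero]
          exact hw.2
        · rw [sub_add_cancel]; exact hw.1
      · intro w _; simp
      · intro w _; simp
    have h2 : ∀ w ∈ Finset.univ.filter (fun w : Fin (k + 1) → F =>
        ¬ hermForm (k + 1) F q w v = 0),
        (Finset.univ.filter (fun c : F =>
          hermForm (k + 1) F q (w + c • v) (w + c • v) = 0)).card = q := by
      intro w hw
      simp only [Finset.mem_filter, Finset.mem_univ, true_and] at hw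
      have hfix : (- hermForm (k + 1) F q w w) ^ q = - hermForm (k + 1) F q w w := by
        obtain ⟨φ, hφ⟩ := exists_frob hF
        rw [← hφ, map_neg, hφ, herm_fix hF]
      refine Eq.trans ?_ (trace_fiber hF (- hermForm (k + 1) F q w w) hfix)
      have ht : (hermForm (k + 1) F q w v) ^ q ≠ 0 := pow_ne_zero _ hw
      apply Finset.card_nbij' (fun c => c * (hermForm (k + 1) F q w v) ^ q)
        (fun μ => μ / (hermForm (k + 1) F q w v) ^ q)
      · intro c hc
        simp only [Finset.coe_filter, Finset.mem_univ, true_and,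
          Set.mem_ofPred_eq] at hc ⊢
        rw [herm_norm_add_smul hF, hv0, mul_zero, add_zero] at hc
        rw [mul_pow, pow_qq hF]
        linear_combination hc
      · intro μ hμ
        simp only [Finset.coe_filter, Finset.mem_univ, true_and,
          Set.mem_ofPred_eq] at hμ ⊢
        rw [herm_norm_add_smul hF, hv0, mul_zero, add_zero, div_pow, pow_qq hF,
          div_mul_cancel₀ _ ht]
        have hw' : hermForm (k + 1) F q w v ≠ 0 := hw
        field_simp
        linear_combination hμ
      · intro c _; field_simp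
      · intro μ _; field_simp
    calc q ^ 2 * (Finset.univ.filter (fun w : Fin (k + 1) → F =>
          hermForm (k + 1) F q w w = 0 ∧ ¬ hermForm (k + 1) F q w v = 0)).card
        = ∑ c : F, ((Finset.univ.filter (fun w : Fin (k + 1) → F =>
            ¬ hermForm (k + 1) F q w v = 0)).filter
              (fun w => hermForm (k + 1) F q (w + c • v) (w + c • v) = 0)).card := by
          simp_rw [h1]
          rw [Finset.sum_const, Finset.card_univ, hF, smul_eq_mul]
      _ = ∑ c : F, ∑ w ∈ Finset.univ.filter (fun w : Fin (k + 1) → F =>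
            ¬ hermForm (k + 1) F q w v = 0),
              (if hermForm (k + 1) F q (w + c • v) (w + c • v) = 0 then 1 else 0) := by
          simp_rw [Finset.card_filter]
      _ = ∑ w ∈ Finset.univ.filter (fun w : Fin (k + 1) → F =>
            ¬ hermForm (k + 1) F q w v = 0), ∑ c : F,
              (if hermForm (k + 1) F q (w + c • v) (w + c • v) = 0 then 1 else 0) :=
          Finset.sum_comm
      _ = ∑ w ∈ Finset.univ.filter (fun w : Fin (k + 1) → F =>
            ¬ hermForm (k + 1) F q w v = 0), q := by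
          refine Finset.sum_congr rfl (fun w hw => ?_)
          rw [← Finset.card_filter]
          exact h2 w hw
      _ = _ := by rw [Finset.sum_const, smul_eq_mul]
  -- conclude
  have hE : q * (Finset.univ.filter (fun w : Fin (k + 1) → F =>
      hermForm (k + 1) F q w w = 0 ∧ ¬ hermForm (k + 1) F q w v = 0)).card =
      (Finset.univ.filter (fun w : Fin (k + 1) → F => ¬ hermForm (k + 1) F q w v = 0)).card := by
    have : q * (q * (Finset.univ.filter (fun w : Fin (k + 1) → F =>
      hermForm (k + 1) F q w w = 0 ∧ ¬ hermForm (k + 1) F q w v = 0)).card) =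
      q * (Finset.univ.filter (fun w : Fin (k + 1) → F =>
        ¬ hermForm (k + 1) F q w v = 0)).card := by
      rw [← mul_assoc, ← sq, hmain, mul_comm]
    exact Nat.eq_of_mul_eq_mul_left (by omega) this
  have e1 : q ^ (2 * (k + 1)) = q ^ (2 * k + 2) := by ring_nf
  rw [e1] at hD
  rw [← hsplit, ← hD, mul_add, hE]
  ring

end herm

section lines
variable {F : Type*} [Field F] [Fintype F] {q : ℕ}

theorem herm_add_left (n : ℕ) (u u' x : Fin n → F) :
    hermForm n F q (u + u') x = hermForm n F q u x + hermForm n F q u' x := by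
  have := herm_add_smul_left (q := q) n u u' x 1
  simpa using this

theorem herm_smul_left (n : ℕ) (c : F) (u x : Fin n → F) :
    hermForm n F q (c • u) x = c * hermForm n F q u x := by
  simp only [hermForm, Pi.smul_apply, smul_eq_mul, Finset.mul_sum]
  exact Finset.sum_congr rfl (fun i _ => by ring)

theorem herm_add_right (hF : Fintype.card F = q ^ 2) (n : ℕ) (u x x' : Fin n → F) :
    hermForm n F q u (x + x') = hermForm n F q u x + hermForm n F q u x' := by
  have := herm_add_smul_right hF n u x x' 1
  simpa using this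

theorem herm_smul_right (n : ℕ) (c : F) (u x : Fin n → F) :
    hermForm n F q u (c • x) = c ^ q * hermForm n F q u x := by
  simp only [hermForm, Pi.smul_apply, smul_eq_mul, Finset.mul_sum, mul_pow]
  exact Finset.sum_congr rfl (fun i _ => by ring)

theorem finrank_pair {V : Type*} [AddCommGroup V] [Module F V] (v w : V) (hv : v ≠ 0)
    (hw : w ∉ Submodule.span F {v}) : Module.finrank F (Submodule.span F {v, w}) = 2 := by
  have hli : LinearIndependent F ![w, v] := by
    rw [linearIndependent_fin2]
    refine ⟨by simpa using hv, fun a ha => hw ?_⟩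
    rw [Submodule.mem_span_singleton]
    exact ⟨a, by simpa using ha⟩
  have := finrank_span_eq_card hli
  have hr : Set.range ![w, v] = {v, w} := by
    ext x; simp [eq_comm]
  rw [hr] at this
  simpa using this

theorem lines_through (hF : Fintype.card F = q ^ 2) (n : ℕ) (v : Fin n → F) (hv : v ≠ 0)
    (hv0 : hermForm n F q v v = 0) :
    Nat.card {W : Submodule F (Fin n → F) // Module.finrank F W = 2 ∧ v ∈ W ∧
        ∀ u ∈ W, ∀ x ∈ W, hermForm n F q u x = 0} * (q ^ 4 - q ^ 2) + q ^ 2 =
      Nat.card {w : Fin n → F // hermForm n F q w w = 0 ∧ hermForm n F q w v = 0} := by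
  classical
  haveI : Fintype (Submodule F (Fin n → F)) := Fintype.ofFinite _
  rw [Nat.card_eq_fintype_card, Nat.card_eq_fintype_card, Fintype.card_subtype,
    Fintype.card_subtype]
  set t := Finset.univ.filter (fun W : Submodule F (Fin n → F) =>
    Module.finrank F W = 2 ∧ v ∈ W ∧ ∀ u ∈ W, ∀ x ∈ W, hermForm n F q u x = 0) with ht
  set s := Finset.univ.filter (fun w : Fin n → F =>
    (hermForm n F q w w = 0 ∧ hermForm n F q w v = 0) ∧ w ∉ Submodule.span F {v}) with hs
  have key := Finset.card_mul_eq_card_mul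
    (fun (w : Fin n → F) (W : Submodule F (Fin n → F)) => w ∈ W)
    (s := s) (t := t) (m := 1) (n := q ^ 4 - q ^ 2) ?_ ?_
  · have hsc : s.card + q ^ 2 = (Finset.univ.filter (fun w : Fin n → F =>
        hermForm n F q w w = 0 ∧ hermForm n F q w v = 0)).card := by
      have h1 : s = (Finset.univ.filter (fun w : Fin n → F =>
          hermForm n F q w w = 0 ∧ hermForm n F q w v = 0)) \
          (Finset.univ.filter (fun w => w ∈ Submodule.span F {v})) := by
        ext w; simp [hs]
      have h2 : (Finset.univ.filter (fun w => w ∈ Submodule.span F {v})).card = q ^ 2 := by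
        rw [card_filter_mem, finrank_span_singleton hv, pow_one, hF]
      rw [h1, ← h2]
      apply Finset.card_sdiff_add_card_eq_card
      intro w
      simp only [Finset.mem_filter, Finset.mem_univ, true_and]
      intro hw
      obtain ⟨c, rfl⟩ := Submodule.mem_span_singleton.1 hw
      simp [herm_smul_left, herm_smul_right, hv0]
    rw [← hsc, ← key, mul_one]
  · intro w hw
    simp only [hs, Finset.mem_filter, Finset.mem_univ, true_and] at hw
    obtain ⟨⟨hww, hwv⟩, hwsp⟩ := hw
    have hvw : hermForm n F q v w = 0 := by rw [herm_conj hF, hwv]; simp; have := two_le_q hF; omega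
    rw [Finset.card_eq_one]
    refine ⟨Submodule.span F {v, w}, ?_⟩
    ext W
    simp only [Finset.bipartiteAbove, Finset.mem_filter, Finset.mem_singleton, ht,
      Finset.mem_univ, true_and]
    constructor
    · rintro ⟨⟨hfr, hvW, -⟩, hwW⟩
      symm
      apply Submodule.eq_of_le_of_finrank_eq
      · rw [Submodule.span_le]
        rintro x (rfl | rfl) <;> assumption
      · rw [hfr]; exact finrank_pair v w hv hwsp
    · rintro rfl
      refine ⟨⟨finrank_pair v w hv hwsp, Submodule.subset_span (by simp), ?_⟩,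
        Submodule.subset_span (by simp)⟩
      intro u hu x hx
      obtain ⟨a, b, rfl⟩ := Submodule.mem_span_pair.1 hu
      obtain ⟨c, d, rfl⟩ := Submodule.mem_span_pair.1 hx
      simp only [herm_add_left, herm_smul_left, herm_add_right hF, herm_smul_right, hv0, hww,
        hwv, hvw, mul_zero, add_zero]
  · intro W hW
    simp only [ht, Finset.mem_filter, Finset.mem_univ, true_and] at hW
    obtain ⟨hfr, hvW, hiso⟩ := hW
    have : s.bipartiteBelow (fun w W => w ∈ W) W = (Finset.univ.filter (fun w => w ∈ W)) \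
        (Finset.univ.filter (fun w => w ∈ Submodule.span F {v})) := by
      ext w
      simp only [Finset.bipartiteBelow, hs, Finset.mem_filter, Finset.mem_univ, true_and,
        Finset.mem_sdiff]
      constructor
      · rintro ⟨⟨-, h2⟩, h3⟩; exact ⟨h3, h2⟩
      · rintro ⟨h3, h2⟩; exact ⟨⟨⟨hiso w h3 w h3, hiso w h3 v hvW⟩, h2⟩, h3⟩
    rw [this, Finset.card_sdiff_of_subset, card_filter_mem, card_filter_mem, hfr,
      finrank_span_singleton hv, pow_one, hF, ← pow_mul]
    intro w
    simp only [Finset.mem_filter, Finset.mem_univ, true_and]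
    intro hw
    exact ((Submodule.span_singleton_le_iff_mem v W).2 hvW) hw

theorem total_lines (hF : Fintype.card F = q ^ 2) (n : ℕ) (l : ℕ)
    (hl : ∀ v : Fin n → F, v ≠ 0 → hermForm n F q v v = 0 →
      Nat.card {W : Submodule F (Fin n → F) // Module.finrank F W = 2 ∧ v ∈ W ∧
        ∀ u ∈ W, ∀ x ∈ W, hermForm n F q u x = 0} = l) :
    (Nat.card {v : Fin n → F // hermForm n F q v v = 0} - 1) * l =
      Nat.card {W : Submodule F (Fin n → F) // Module.finrank F W = 2 ∧
        ∀ u ∈ W, ∀ x ∈ W, hermForm n F q u x = 0} * (q ^ 4 - 1) := by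
  classical
  haveI : Fintype (Submodule F (Fin n → F)) := Fintype.ofFinite _
  rw [Nat.card_eq_fintype_card, Nat.card_eq_fintype_card, Fintype.card_subtype,
    Fintype.card_subtype]
  set t := Finset.univ.filter (fun W : Submodule F (Fin n → F) =>
    Module.finrank F W = 2 ∧ ∀ u ∈ W, ∀ x ∈ W, hermForm n F q u x = 0) with ht
  set s := (Finset.univ.filter (fun v : Fin n → F => hermForm n F q v v = 0)).erase 0 with hs
  have key := Finset.card_mul_eq_card_mul
    (fun (w : Fin n → F) (W : Submodule F (Fin n → F)) => w ∈ W)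
    (s := s) (t := t) (m := l) (n := q ^ 4 - 1) ?_ ?_
  · rw [← key, hs, Finset.card_erase_of_mem
      (Finset.mem_filter.2 ⟨Finset.mem_univ _, by simp [hermForm]⟩)]
  · intro v hv
    simp only [hs, Finset.mem_erase, Finset.mem_filter, Finset.mem_univ, true_and] at hv
    have := hl v hv.1 hv.2
    rw [Nat.card_eq_fintype_card, Fintype.card_subtype] at this
    rw [← this]
    congr 1
    ext W
    simp only [Finset.bipartiteAbove, Finset.mem_filter, ht, Finset.mem_univ, true_and]
    tauto
  · intro W hW
    simp only [ht, Finset.mem_filter, Finset.mem_univ, true_and] at hW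
    obtain ⟨hfr, hiso⟩ := hW
    have : s.bipartiteBelow (fun w W => w ∈ W) W =
        (Finset.univ.filter (fun w => w ∈ W)).erase 0 := by
      ext w
      simp only [Finset.bipartiteBelow, hs, Finset.mem_filter, Finset.mem_univ, true_and,
        Finset.mem_erase]
      constructor
      · rintro ⟨⟨h1, -⟩, h3⟩; exact ⟨h1, h3⟩
      · rintro ⟨h1, h3⟩; exact ⟨⟨h1, hiso w h3 w h3⟩, h3⟩
    rw [this, Finset.card_erase_of_mem (by simp), card_filter_mem, hfr, hF, ← pow_mul]

end lines

theorem q4_pos (q : ℕ) (hq : 2 ≤ q) :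
    (0 : ℤ) < (q : ℤ) ^ 4 - (q : ℤ) ^ 2 ∧ (0 : ℤ) < (q : ℤ) ^ 4 - 1 ∧ (0 : ℤ) < (q : ℤ) := by
  have h3 : (2 : ℤ) ≤ q := by exact_mod_cast hq
  have h5 : (4 : ℤ) ≤ (q : ℤ) ^ 2 := by nlinarith
  have h6 := mul_nonneg (sub_nonneg.2 h5) (sub_nonneg.2 h5)
  refine ⟨by nlinarith, by nlinarith, by linarith⟩

/-- The unitary quadrangle of PSU_4(q): with |F| = q², the number of 2-dimensional subspaces of F^4 on which the Hermitian form Σ x_i y_i^q vanishes is (q + 1)(q³ + 1). -/
theorem result {F : Type*} [Field F] [Fintype F] {q : ℕ} (hF : Fintype.card F = q ^ 2) : Nat.card {W : Submodule F (Fin 4 → F) // Module.finrank F W = 2 ∧ ∀ u ∈ W, ∀ v ∈ W, Cfsg.hermForm 4 F q u v = 0} = (q + 1) * (q ^ 3 + 1) := by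
  have hq := two_le_q hF
  obtain ⟨hp1, hp2, hp3⟩ := q4_pos q hq
  have a0 := iso_zero (F := F) (q := q)
  have a1 := iso_succ hF 0
  have a2 := iso_succ hF 1
  have a3 := iso_succ hF 2
  have a4 := iso_succ hF 3
  rw [a0] at a1
  simp only [Nat.reduceAdd, Nat.reduceMul] at a1 a2 a3 a4
  generalize Nat.card {x : Fin 1 → F // hermForm 1 F q x x = 0} = A1 at a1 a2
  generalize Nat.card {x : Fin 2 → F // hermForm 2 F q x x = 0} = A2 at a2 a3
  generalize Nat.card {x : Fin 3 → F // hermForm 3 F q x x = 0} = A3 at a3 a4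
  have hl : ∀ v : Fin 4 → F, v ≠ 0 → hermForm 4 F q v v = 0 →
      Nat.card {W : Submodule F (Fin 4 → F) // Module.finrank F W = 2 ∧ v ∈ W ∧
        ∀ u ∈ W, ∀ x ∈ W, hermForm 4 F q u x = 0} = q + 1 := by
    intro v hv hv0
    have h1 := perp_count hF 3 v hv hv0
    have h2 := lines_through hF 4 v hv hv0
    simp only [Nat.reduceAdd, Nat.reduceMul] at h1
    generalize Nat.card {W : Submodule F (Fin 4 → F) // Module.finrank F W = 2 ∧ v ∈ W ∧
        ∀ u ∈ W, ∀ x ∈ W, hermForm 4 F q u x = 0} = L at h2 ⊢
    generalize Nat.card {w : Fin 4 → F // hermForm 4 F q w w = 0 ∧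
        hermForm 4 F q w v = 0} = S at h1 h2
    generalize Nat.card {x : Fin 4 → F // hermForm 4 F q x x = 0} = A4 at a4 h1
    have hle : q ^ 2 ≤ q ^ 4 := Nat.pow_le_pow_right (by omega) (by norm_num)
    zify [hle] at h1 h2 a1 a2 a3 a4 ⊢
    have hne : (q : ℤ) * ((q : ℤ) ^ 4 - (q : ℤ) ^ 2) ≠ 0 := by positivity
    apply mul_right_cancel₀ hne
    linear_combination (q : ℤ) * h2 + h1 + (q : ℤ) * a4 - (q : ℤ) ^ 2 * a3 + (q : ℤ) ^ 3 * a2
      - (q : ℤ) ^ 4 * a1
  have h3 := total_lines hF 4 (q + 1) hl
  have hle4 : 1 ≤ q ^ 4 := Nat.one_le_pow _ _ (by omega)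
  have hA : 1 ≤ Nat.card {v : Fin 4 → F // hermForm 4 F q v v = 0} := by
    have : 0 < Nat.card {v : Fin 4 → F // hermForm 4 F q v v = 0} :=
      Nat.card_pos_iff.2 ⟨⟨⟨0, by simp [hermForm]⟩⟩, inferInstance⟩
    omega
  generalize Nat.card {W : Submodule F (Fin 4 → F) // Module.finrank F W = 2 ∧
      ∀ u ∈ W, ∀ x ∈ W, hermForm 4 F q u x = 0} = T at h3 ⊢
  generalize Nat.card {x : Fin 4 → F // hermForm 4 F q x x = 0} = A4 at a4 h3 hA
  zify [hle4, hA] at h3 a1 a2 a3 a4 ⊢
  have hne : ((q : ℤ) ^ 4 - 1) ≠ 0 := ne_of_gt hp2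
  apply mul_right_cancel₀ hne
  linear_combination -h3 + ((q : ℤ) + 1) * a4 - ((q : ℤ) + 1) * (q : ℤ) * a3
    + ((q : ℤ) + 1) * (q : ℤ) ^ 2 * a2 - ((q : ℤ) + 1) * (q : ℤ) ^ 3 * a1

end Cfsg.Agent.S0829
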