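import Cfsg.Statements.S0877
import Cfsg.Agent.Lib.Helper4.BrSuz

set_option autoImplicit false
open Cfsg

namespace Cfsg.Agent.S0877

open Cfsg.Agent.Lib.Helper4

/-- Let H be a subgroup of the finite group G whose order is coprime to its index. Suppose that elements of H conjugate in G are conjugate in H, and that every subgroup E of G that is elementary for some prime (in the sense used for Brauer's characterisation of characters) and whose order divides the order of H is conjugate to a subgroup of H. Then there is a normal subgroup K with K ⊔ H = ⊤ and K ⊓ H trivial. -/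
theorem result {G : Type*} [Group G] [Finite G] (H : Subgroup G) (hHall : Nat.Coprime (Nat.card H) H.index) (hfus : ∀ x ∈ H, ∀ y ∈ H, IsConj x y → ∃ h ∈ H, h * x * h⁻¹ = y) (helem : ∀ (E : Subgroup G) (p : ℕ), p.Prime → Cfsg.IsElementary p E → Nat.card E ∣ Nat.card H → ∃ g : G, E.map (MulAut.conj g).toMonoidHom ≤ H) : ∃ K : Subgroup G, K.Normal ∧ K ⊔ H = ⊤ ∧ K ⊓ H = ⊥ := by
  classical
  let _ : Fintype G := Fintype.ofFinite G
  let _ : Fintype H := Fintype.ofFinite H
  have hmn : Nat.card G = H.index * Nat.card H := (Subgroup.index_mul_card H).symm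
  have hcop : Nat.Coprime H.index (Nat.card H) := hHall.symm
  obtain ⟨a, ham, han⟩ := Nat.chineseRemainder hcop 0 1
  have hex : ∀ x : G, ∃ y : H, IsConj (x ^ a) (y : G) := by
    intro x
    have hel := isElementary_of_isCyclic 2 Nat.prime_two (Subgroup.zpowers (x ^ a))
    have hcard : Nat.card (Subgroup.zpowers (x ^ a)) ∣ Nat.card H := by
      rw [Nat.card_zpowers]
      exact orderOf_pow_dvd_of_modEq hmn ham x
    obtain ⟨t, ht⟩ := helem _ 2 Nat.prime_two hel hcard
    have hmem : t * x ^ a * t⁻¹ ∈ H := by
      apply ht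
      exact ⟨x ^ a, Subgroup.mem_zpowers _, by simp [MulAut.conj_apply]⟩
    exact ⟨⟨_, hmem⟩, isConj_iff.mpr ⟨t, rfl⟩⟩
  choose σ hσ using hex
  exact brauer_suzuki_aux H hmn rfl hcop ham han hfus helem σ hσ

end Cfsg.Agent.S0877
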