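import Cfsg.Statements.S0887
import Cfsg.Agent.Lib.Helper83.ProjDeg
import Cfsg.Agent.Lib.Helper20.Ito
import Cfsg.Agent.S0854

set_option autoImplicit false
open Cfsg

namespace Cfsg.Agent.S0887

open Cfsg.Agent.Lib

/-- Let N be a normal subgroup of the finite group G, χ an irreducible character of G and ϑ an irreducible character of N having nonzero inner product with the restriction of χ. If χ 1 = c and ϑ 1 = d as natural numbers, then d divides c and c / d divides the index of N. -/
theorem result {G : Type*} [Group G] [Fintype G] (N : Subgroup G) [N.Normal] [Fintype N] (χ : G → ℂ) (hχ : Cfsg.IsIrrCharacter G χ) (ϑ : N → ℂ) (hϑ : Cfsg.IsIrrCharacter N ϑ) (hcon : Cfsg.classInner (fun n : N => χ n) ϑ ≠ 0) (c d : ℕ) (hc : χ 1 = c) (hd : ϑ 1 = d) : d ∣ c ∧ c / d ∣ N.index := by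
  classical
  have hN : N.Normal := inferInstance
  set T := Helper20.inertia N ϑ with hTdef
  let _ : Fintype T := Fintype.ofFinite _
  have hNT : N ≤ T := Helper20.le_inertia N
    (Helper35.isClassFunction_of_isCharacter (Helper35.isChar_of_irr hϑ))
  have hT : ∀ g : G, g ∈ T ↔ ∀ n : N, ϑ ⟨g * n * g⁻¹, hN.conj_mem (n : G) n.2 g⟩ = ϑ n := by
    intro g
    rw [hTdef, Helper20.mem_inertia]
    constructor
    · intro h n; exact congrFun h n
    · intro h; funext n; exact h n
  obtain ⟨ψ, hψ, hind, hmult⟩ := Cfsg.Agent.S0854.result N ϑ hϑ T hT hNT χ hχ hcon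
  have hcon' : classInner (fun n : N => ψ ⟨(n : G), hNT n.2⟩) ϑ ≠ 0 := by rw [hmult]; exact hcon
  have hres := Cfsg.Agent.S0854.inertia_res N ϑ hϑ T (fun g hg => (hT g).mp hg) hNT ψ hψ hcon'
  obtain ⟨e, he⟩ : ∃ e : ℕ, classInner (fun n : N => χ n) ϑ = e :=
    Helper35.classInner_char_nat (Helper35.isCharacter_res N (Helper35.isChar_of_irr hχ))
      (Helper35.isChar_of_irr hϑ)
  rw [hmult, he] at hres
  let f : N.subgroupOf T →* N := (Subgroup.subgroupOfEquivOfLe hNT).toMonoidHom
  have hθ' : IsIrrCharacter (N.subgroupOf T) (fun x => ϑ (f x)) :=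
    Helper20.irr_comp_surjective f (Subgroup.subgroupOfEquivOfLe hNT).surjective hϑ
  have hres' : ∀ x : N.subgroupOf T, ψ x = e * ϑ (f x) := by
    intro x
    exact hres (f x)
  have hdvd := Helper83.mult_dvd_index (N.subgroupOf T) hψ hθ' e hres'
  have hχ1 : χ 1 = (T.index : ℂ) * ψ 1 := by
    rw [← hind]
    exact Helper35.indFun_one_eq T ψ
  have hψ1 : ψ 1 = e * d := by
    have h1 := hres 1
    rw [hd] at h1
    exact h1
  have hcnat : c = T.index * (e * d) := by
    have h1 : (c : ℂ) = ((T.index * (e * d) : ℕ) : ℂ) := by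
      rw [← hc, hχ1, hψ1]
      push_cast
      ring
    exact_mod_cast h1
  have hdpos : 0 < d := by
    have h1 := Helper83.irr_degree hϑ
    rw [hd] at h1
    have h2 : d = charDegree ϑ := by exact_mod_cast h1.2
    rw [h2]
    exact h1.1
  constructor
  · rw [hcnat, ← mul_assoc]
    exact Dvd.intro_left _ rfl
  · have h1 : c / d = T.index * e := by
      rw [hcnat, ← mul_assoc, Nat.mul_div_cancel _ hdpos]
    rw [h1, ← Subgroup.relIndex_mul_index hNT, mul_comm]
    exact Nat.mul_dvd_mul hdvd (dvd_refl _)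

end Cfsg.Agent.S0887
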