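import Mathlib
import Cfsg.Statements.S3225

set_option autoImplicit false
open Cfsg

namespace Cfsg.Agent.S3225

open Subgroup MulAction

/-- the sign homomorphism attached to a subgroup of index two -/
noncomputable def signHom {K : Type*} [Group K] (M : Subgroup K) (h : M.index = 2) : K →* ℤˣ where
  toFun k := by classical exact if k ∈ M then 1 else -1
  map_one' := by simp [M.one_mem]
  map_mul' a b := by
    classical
    by_cases ha : a ∈ M <;> by_cases hb : b ∈ M <;>
      simp [Subgroup.mul_mem_iff_of_index_two h, ha, hb]

theorem signHom_mem {K : Type*} [Group K] (M : Subgroup K) (h : M.index = 2) {k : K}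
    (hk : k ∈ M) : signHom M h k = 1 := by
  classical
  simp [signHom, hk]

theorem signHom_not_mem {K : Type*} [Group K] (M : Subgroup K) (h : M.index = 2) {k : K}
    (hk : k ∉ M) : signHom M h k = -1 := by
  classical
  simp [signHom, hk]

/-- Let G be a finite group of even order with no subgroup of index 2, S a Sylow 2-subgroup of G and M a subgroup of index 2 in S such that, for some n ≥ 1, every element of S outside M has order greater than 2^(n−1). Then every element of S of order 2ⁿ is conjugate in G to an element of M. -/
theorem result {G : Type*} [Group G] [Finite G] (hev : Even (Nat.card G))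
    (hG : ∀ H : Subgroup G, H.index ≠ 2) (S : Sylow 2 G) (M : Subgroup G) (hMS : M ≤ (S : Subgroup G)) (hM : M.relIndex (S : Subgroup G) = 2)
    (n : ℕ) (hn : 1 ≤ n) (hord : ∀ y ∈ (S : Subgroup G), y ∉ M → 2 ^ (n - 1) < orderOf y)
    (x : G) (hx : x ∈ (S : Subgroup G)) (hxn : orderOf x = 2 ^ n) :
    ∃ g : G, g * x * g⁻¹ ∈ M := by
  by_contra hcon
  push Not at hcon
  classical
  have hM' : (M.subgroupOf (S : Subgroup G)).index = 2 := hM
  let ϕ : (S : Subgroup G) →* ℤˣ := signHom (M.subgroupOf (S : Subgroup G)) hM'
  have : Fintype (Quotient (orbitRel (zpowers x) (G ⧸ (S : Subgroup G)))) := Fintype.ofFinite _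
  have hodd : Odd (S : Subgroup G).index := by
    have h := S.not_dvd_index
    exact Nat.odd_iff.mpr (Nat.two_dvd_ne_zero.mp h)
  have key : MonoidHom.transfer ϕ x = -1 := by
    rw [MonoidHom.transfer_eq_prod_quotient_orbitRel_zpowers_quot]
    have hq : ∀ q : Quotient (orbitRel (zpowers x) (G ⧸ (S : Subgroup G))),
        ϕ ⟨q.out.out⁻¹ * x ^ Function.minimalPeriod (x • ·) q.out * q.out.out,
          QuotientGroup.out_conj_pow_minimalPeriod_mem (S : Subgroup G) x q.out⟩ =
        (-1) ^ Function.minimalPeriod (x • ·) q.out := by
      intro q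
      have hmem := QuotientGroup.out_conj_pow_minimalPeriod_mem (S : Subgroup G) x q.out
      have hdvd : Function.minimalPeriod (x • ·) q.out ∣ 2 ^ n := by
        rw [← MulAction.pow_smul_eq_iff_minimalPeriod_dvd, ← hxn, pow_orderOf_eq_one, one_smul]
      obtain ⟨j, hj, hjm⟩ := (Nat.dvd_prime_pow Nat.prime_two).1 hdvd
      rcases Nat.eq_zero_or_pos j with hj0 | hjpos
      · -- minimal period one
        have hm1 : Function.minimalPeriod (x • ·) q.out = 1 := by rw [hjm, hj0, pow_zero]
        have hnot : q.out.out⁻¹ * x ^ Function.minimalPeriod (x • ·) q.out * q.out.out ∉ M := by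
          rw [hm1, pow_one]
          have := hcon (q.out.out⁻¹)
          simpa using this
        have hpow : (-1 : ℤˣ) ^ Function.minimalPeriod (x • ·) q.out = -1 := by
          rw [hm1, pow_one]
        rw [hpow]
        apply signHom_not_mem
        rw [Subgroup.mem_subgroupOf]
        exact hnot
      · -- minimal period an even power of two
        have hin : q.out.out⁻¹ * x ^ Function.minimalPeriod (x • ·) q.out * q.out.out ∈ M := by
          by_contra hnot
          have h1 := hord _ hmem hnot
          have h2 : orderOf (q.out.out⁻¹ * x ^ Function.minimalPeriod (x • ·) q.out * q.out.out) =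
              orderOf (x ^ Function.minimalPeriod (x • ·) q.out) := by
            have := (MulAut.conj (q.out.out⁻¹)).orderOf_eq (x ^ Function.minimalPeriod (x • ·) q.out)
            simpa using this
          rw [h2, hjm, orderOf_pow' _ (by positivity), hxn] at h1
          have h3 : Nat.gcd (2 ^ n) (2 ^ j) = 2 ^ j := Nat.gcd_eq_right (pow_dvd_pow 2 hj)
          rw [h3, Nat.pow_div hj (by norm_num)] at h1
          have h4 : 2 ^ (n - j) ≤ 2 ^ (n - 1) := Nat.pow_le_pow_right (by norm_num) (by omega)
          omega
        have heven : Even (Function.minimalPeriod (x • ·) q.out) := by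
          rw [hjm]
          exact (Nat.even_pow.mpr ⟨even_two, by omega⟩)
        rw [heven.neg_one_pow]
        apply signHom_mem
        rw [Subgroup.mem_subgroupOf]
        exact hin
    rw [Finset.prod_congr rfl (fun q _ => hq q), Finset.prod_pow_eq_pow_sum,
      ← index_eq_sum_minimalPeriod (S : Subgroup G) x]
    exact hodd.neg_one_pow
  apply hG (MonoidHom.transfer ϕ).ker
  rw [Subgroup.index_ker]
  have htop : (MonoidHom.transfer ϕ).range = ⊤ := by
    rw [eq_top_iff]
    intro u _
    rcases Int.units_eq_one_or u with h | h
    · rw [h]; exact one_mem _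
    · rw [h, ← key]; exact ⟨x, rfl⟩
  rw [htop, Subgroup.card_top, Nat.card_eq_fintype_card, Fintype.card_units_int]

end Cfsg.Agent.S3225
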