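import Cfsg.Statements.S0950
import Cfsg.Agent.S3225
import Cfsg.Agent.Lib.Helper75.Pronormal

set_option autoImplicit false
open Cfsg

namespace Cfsg.Agent.S0950

open Cfsg.Agent.Lib.Helper75.Pron

theorem q8_sq : ∀ y : QuaternionGroup 2, y ^ 2 = 1 → y = 1 ∨ y = QuaternionGroup.a 2 := by decide
theorem q8_pow4 : ∀ y : QuaternionGroup 2, y ^ 4 = 1 := by decide
theorem q8_conj : ∀ s y : QuaternionGroup 2, s * y * s⁻¹ = y ∨ s * y * s⁻¹ = y⁻¹ := by decide

section
variable {G : Type*} [Group G] [Finite G]

/-- the structure we use of a quaternion Sylow subgroup -/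
structure QData (S : Subgroup G) (z : G) : Prop where
  card : Nat.card S = 8
  sq : ∀ y ∈ S, y ^ 2 = 1 → y = 1 ∨ y = z
  pow4 : ∀ y ∈ S, y ^ 4 = 1
  conj : ∀ s ∈ S, ∀ y ∈ S, s * y * s⁻¹ = y ∨ s * y * s⁻¹ = y⁻¹

theorem qdata_of_equiv (S : Subgroup G) (e : S ≃* QuaternionGroup 2) :
    ∃ z : G, QData S z := by
  refine ⟨((e.symm (QuaternionGroup.a 2) : S) : G), ?_, ?_, ?_, ?_⟩
  · rw [Nat.card_congr e.toEquiv, Nat.card_eq_fintype_card, QuaternionGroup.card]
  · intro y hy h2
    have h := q8_sq (e ⟨y, hy⟩) (by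
      rw [← map_pow]
      have : (⟨y, hy⟩ : S) ^ 2 = 1 := Subtype.ext (by simpa using h2)
      rw [this, map_one])
    rcases h with h | h
    · left
      have : (⟨y, hy⟩ : S) = 1 := by
        apply e.injective; rw [h, map_one]
      simpa using congrArg Subtype.val this
    · right
      have : (⟨y, hy⟩ : S) = e.symm (QuaternionGroup.a 2) := by
        apply e.injective; rw [h, MulEquiv.apply_symm_apply]
      exact congrArg Subtype.val this
  · intro y hy
    have h := q8_pow4 (e ⟨y, hy⟩)
    rw [← map_pow] at h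
    have : (⟨y, hy⟩ : S) ^ 4 = 1 := by
      apply e.injective; rw [h, map_one]
    simpa using congrArg Subtype.val this
  · intro s hs y hy
    have h := q8_conj (e ⟨s, hs⟩) (e ⟨y, hy⟩)
    rw [← map_inv, ← map_mul, ← map_mul, ← map_inv] at h
    rcases h with h | h
    · left
      have := e.injective h
      simpa using congrArg Subtype.val this
    · right
      have := e.injective h
      simpa using congrArg Subtype.val this

/-- a subgroup of order four of a quaternion group is cyclic, generated by an element of order 4 -/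
theorem exists_gen {S : Subgroup G} {z : G} (hS : QData S z) (A : Subgroup G) (hA : A ≤ S)
    (hA4 : Nat.card A = 4) : ∃ a ∈ A, orderOf a = 4 ∧ A = Subgroup.zpowers a := by
  have h1 : ∃ a ∈ A, a ^ 2 ≠ 1 := by
    by_contra hcon
    push Not at hcon
    have hsub : (A : Set G) ⊆ {1, z} := by
      intro y hy
      rcases hS.sq y (hA hy) (hcon y hy) with h | h
      · left; exact h
      · right; exact h
    have h2 : (A : Set G).ncard ≤ ({1, z} : Set G).ncard :=
      Set.ncard_le_ncard hsub (Set.toFinite _)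
    have h3 : ({1, z} : Set G).ncard ≤ 2 := by
      have := Set.ncard_insert_le (1 : G) ({z} : Set G)
      rw [Set.ncard_singleton] at this
      exact this
    have h4 : (A : Set G).ncard = Nat.card A := rfl
    omega
  obtain ⟨a, haA, ha2⟩ := h1
  have ha4 : a ^ 4 = 1 := hS.pow4 a (hA haA)
  have hord : orderOf a = 4 := by
    have hd : orderOf a ∣ 4 := orderOf_dvd_of_pow_eq_one ha4
    have hle : orderOf a ≤ 4 := Nat.le_of_dvd (by norm_num) hd
    have hne2 : ¬ orderOf a ∣ 2 := fun h => ha2 (orderOf_dvd_iff_pow_eq_one.mp h)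
    interval_cases h : orderOf a
    · simp at hd
    · exact absurd (one_dvd 2) hne2
    · exact absurd dvd_rfl hne2
    · norm_num at hd
    · rfl
  refine ⟨a, haA, hord, ?_⟩
  symm
  apply Subgroup.eq_of_le_of_card_ge
  · rw [Subgroup.zpowers_le]; exact haA
  · rw [Nat.card_zpowers, hord, hA4]

theorem z_mem {S : Subgroup G} {z : G} (hS : QData S z) (A : Subgroup G) (hA : A ≤ S)
    (hA4 : Nat.card A = 4) : z ∈ A := by
  obtain ⟨a, haA, hord, -⟩ := exists_gen hS A hA hA4
  have h1 : (a ^ 2) ^ 2 = 1 := by
    rw [← pow_mul]; exact hS.pow4 a (hA haA)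
  have h2 : a ^ 2 ≠ 1 := by
    intro h
    have := orderOf_dvd_of_pow_eq_one h
    rw [hord] at this
    norm_num at this
  rcases hS.sq (a ^ 2) (S.pow_mem (hA haA) 2) h1 with h | h
  · exact absurd h h2
  · rw [← h]; exact A.pow_mem haA 2

theorem le_normalizer {S : Subgroup G} {z : G} (hS : QData S z) (A : Subgroup G) (hA : A ≤ S)
    (hA4 : Nat.card A = 4) : S ≤ Subgroup.normalizer (A : Set G) := by
  obtain ⟨a, haA, hord, hAa⟩ := exists_gen hS A hA hA4
  intro s hs
  apply mem_normalizer_of_cj
  apply Subgroup.eq_of_le_of_card_ge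
  · rw [cj_def, hAa, MonoidHom.map_zpowers, Subgroup.zpowers_le, ← hAa]
    change s * a * s⁻¹ ∈ A
    rcases hS.conj s hs a (hA haA) with h | h
    · rw [h]; exact haA
    · rw [h]; exact A.inv_mem haA
  · rw [card_cj]

end

/-- Let S be a Sylow 2-subgroup of the finite group G that is isomorphic to the quaternion group of order 8, and suppose S has no normal complement in G. Then any two subgroups of order 4 of S are conjugate by an element of the normalizer of S. -/
theorem result {G : Type*} [Group G] [Finite G] (S : Sylow 2 G) (e : (S : Subgroup G) ≃* QuaternionGroup 2) (hnc : ∀ N : Subgroup G, N.Normal → ¬ Subgroup.IsComplement' N (S : Subgroup G)) (A B : Subgroup G) (hA : A ≤ S) (hB : B ≤ S) (hA4 : Nat.card A = 4) (hB4 : Nat.card B = 4) : ∃ n ∈ Subgroup.normalizer ((S : Subgroup G) : Set G), B = A.map (MulAut.conj n).toMonoidHom := by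
  obtain ⟨z, hS⟩ := qdata_of_equiv (S : Subgroup G) e
  have hS8 : Nat.card (S : Subgroup G) = 8 := hS.card
  have h8G : 8 ∣ Nat.card G := hS8 ▸ Subgroup.card_subgroup_dvd_card _
  have hev : Even (Nat.card G) := (even_iff_two_dvd).mpr (dvd_trans (by norm_num) h8G)
  -- no subgroup of index 2
  have hG : ∀ H : Subgroup G, H.index ≠ 2 := by
    intro H hH
    have hHn : H.Normal := Subgroup.normal_of_index_eq_two hH
    have hsyl : SylIn 2 ((S : Subgroup G) ⊓ H) H := sylIn_inf_normal S H
    obtain ⟨P, hP⟩ := exists_sylow_of_sylIn hsyl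
    -- the order of S ⊓ H is 4
    have hrel : H.relIndex (S : Subgroup G) = 2 := by
      have h1 : H.relIndex (S : Subgroup G) ∣ 2 := by
        have := Subgroup.relIndex_dvd_index_of_normal H (S : Subgroup G)
        rwa [hH] at this
      rcases (Nat.dvd_prime Nat.prime_two).mp h1 with h | h
      · exfalso
        have hle : (S : Subgroup G) ≤ H := Subgroup.relIndex_eq_one.mp h
        have := Subgroup.index_dvd_of_le hle
        rw [hH] at this
        exact S.not_dvd_index this
      · exact h
    have hc4 : Nat.card ((S : Subgroup G) ⊓ H : Subgroup G) = 4 := by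
      have := relIndex_mul_card_inf H (S : Subgroup G)
      rw [hrel, hS8, inf_comm] at this
      omega
    have hcP : Nat.card (P : Subgroup H) = 4 := by
      rw [← Subgroup.card_subtype, hP, hc4]
    obtain ⟨a, haA, hord, -⟩ := exists_gen hS _ inf_le_left hc4
    rw [← hP] at haA
    obtain ⟨a', ha'P, rfl⟩ := haA
    have hcyc : IsCyclic (P : Subgroup H) := by
      apply isCyclic_of_orderOf_eq_card (⟨a', ha'P⟩ : (P : Subgroup H))
      rw [hcP, ← hord, ← Subgroup.orderOf_coe]
      exact (Subgroup.orderOf_coe a').symm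
    have h4H : 4 ∣ Nat.card H := hcP ▸ Subgroup.card_subgroup_dvd_card _
    have hmin : (Nat.card H).minFac = 2 :=
      (Nat.minFac_eq_two_iff _).mpr (dvd_trans (by norm_num) h4H)
    have hcompl := IsCyclic.isComplement' hmin hcyc
    set K := (MonoidHom.transferSylow P (hcyc.normalizer_le_centralizer hmin)).ker with hK
    have hKn : K.Normal := by rw [hK]; infer_instance
    have hKodd : ¬ 2 ∣ Nat.card K := by
      rw [← hcompl.index_eq_card]; exact P.not_dvd_index
    have hKP : Nat.card K * 4 = Nat.card H := by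
      rw [← hcP]; exact hcompl.card_mul_card
    have hquot : Nat.card (H ⧸ K) = 4 := by
      have h1 : K.index * Nat.card K = Nat.card H := Subgroup.index_mul_card K
      have h2 : K.index = Nat.card (H ⧸ K) := rfl
      have hpos : 0 < Nat.card K := Nat.card_pos
      rw [← h2]
      nlinarith
    have hcop : Nat.Coprime (Nat.card K) 4 := by
      have : Nat.Coprime (Nat.card K) 2 :=
        (Nat.coprime_comm.mp ((Nat.Prime.coprime_iff_not_dvd Nat.prime_two).mpr hKodd))
      exact Nat.Coprime.pow_right 2 this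
    have hNn : (K.map H.subtype).Normal := by
      constructor
      intro x hx g
      obtain ⟨k, hk, rfl⟩ := hx
      have hmem : g * (k : G) * g⁻¹ ∈ H := hHn.conj_mem _ k.2 g
      refine ⟨⟨g * (k : G) * g⁻¹, hmem⟩, ?_, rfl⟩
      apply (QuotientGroup.eq_one_iff (N := K) _).mp
      set q : H ⧸ K := ((⟨g * (k : G) * g⁻¹, hmem⟩ : H) : H ⧸ K) with hq
      have h1 : q ^ Nat.card K = 1 := by
        rw [hq, ← QuotientGroup.mk_pow]
        have : (⟨g * (k : G) * g⁻¹, hmem⟩ : H) ^ Nat.card K = 1 := by
          apply Subtype.ext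
          simp only [Subgroup.coe_pow, Subgroup.coe_one]
          rw [conj_pow]
          have hk1 : (⟨k, hk⟩ : K) ^ Nat.card K = 1 := pow_card_eq_one'
          have hk2 : (k : G) ^ Nat.card K = 1 := by
            have h5 : ((⟨k, hk⟩ : K) : H) ^ Nat.card K = 1 := by
              rw [← Subgroup.coe_pow, hk1]; rfl
            have h6 : (k : H) ^ Nat.card K = 1 := h5
            rw [← Subgroup.coe_pow, h6]; rfl
          rw [hk2]; group
        rw [this]; rfl
      have h2 : q ^ 4 = 1 := by
        rw [← hquot]; exact pow_card_eq_one'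
      have h3 : orderOf q ∣ Nat.card K := orderOf_dvd_of_pow_eq_one h1
      have h4 : orderOf q ∣ 4 := orderOf_dvd_of_pow_eq_one h2
      exact orderOf_eq_one_iff.mp (Nat.eq_one_of_dvd_coprimes hcop h3 h4)
    apply hnc (K.map H.subtype) hNn
    apply Subgroup.isComplement'_of_coprime
    · rw [Subgroup.card_subtype, hS8]
      have h1 : H.index * Nat.card H = Nat.card G := Subgroup.index_mul_card H
      rw [hH] at h1
      omega
    · rw [Subgroup.card_subtype, hS8]
      have : Nat.Coprime (Nat.card K) 2 :=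
        (Nat.coprime_comm.mp ((Nat.Prime.coprime_iff_not_dvd Nat.prime_two).mpr hKodd))
      exact Nat.Coprime.pow_right 3 this
  -- Thompson transfer
  have hM : A.relIndex (S : Subgroup G) = 2 := by
    have := relIndex_mul_card_inf A (S : Subgroup G)
    rw [inf_of_le_left hA, hA4, hS8] at this
    omega
  have hzA : z ∈ A := z_mem hS A hA hA4
  have hord : ∀ y ∈ (S : Subgroup G), y ∉ A → 2 ^ (2 - 1) < orderOf y := by
    intro y hy hyA
    by_contra hcon
    push Not at hcon
    have hpos : 0 < orderOf y := orderOf_pos y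
    have hy2 : y ^ 2 = 1 := by
      have : orderOf y = 1 ∨ orderOf y = 2 := by
        norm_num at hcon; omega
      rcases this with h | h
      · rw [orderOf_eq_one_iff.mp h, one_pow]
      · rw [← h, pow_orderOf_eq_one]
    rcases hS.sq y hy hy2 with h | h
    · exact hyA (h ▸ A.one_mem)
    · exact hyA (h ▸ hzA)
  obtain ⟨b, hbB, hbord, hBb⟩ := exists_gen hS B hB hB4
  obtain ⟨g, hg⟩ := Cfsg.Agent.S3225.result hev hG S A hA hM 2 (by norm_num) hord b (hB hbB)
    (by rw [hbord]; norm_num)
  have hAB : cj g B = A := by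
    apply Subgroup.eq_of_le_of_card_ge
    · rw [cj_def, hBb, MonoidHom.map_zpowers, Subgroup.zpowers_le]
      exact hg
    · rw [card_cj, hA4, hB4]
  -- Sylow in the normalizer of A
  have hSA : (S : Subgroup G) ≤ Subgroup.normalizer (A : Set G) := le_normalizer hS A hA hA4
  have hSB : (S : Subgroup G) ≤ Subgroup.normalizer (B : Set G) := le_normalizer hS B hB hB4
  have hgSA : cj g (S : Subgroup G) ≤ Subgroup.normalizer (A : Set G) := by
    intro y hy
    rw [mem_cj] at hy
    apply mem_normalizer_of_cj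
    have h1 : cj (g⁻¹ * y * g) B = B := cj_of_mem_normalizer (hSB hy)
    rw [← hAB, ← cj_mul]
    have : y * g = g * (g⁻¹ * y * g) := by group
    rw [this, cj_mul, h1]
  have hs1 : SylIn 2 (S : Subgroup G) (Subgroup.normalizer (A : Set G)) :=
    sylIn_of_sylow_le S hSA
  have hs2 : SylIn 2 (cj g (S : Subgroup G)) (Subgroup.normalizer (A : Set G)) := by
    have h1 := (sylIn_top_of_sylow S).conj g
    rw [cj_of_normal g ⊤] at h1
    exact h1.of_le hgSA le_top
  obtain ⟨m, hm, hmS⟩ := hs2.exists_cj_eq hs1
  rw [← cj_mul] at hmS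
  refine ⟨(m * g)⁻¹, Subgroup.inv_mem _ (mem_normalizer_of_cj hmS), ?_⟩
  change B = cj (m * g)⁻¹ A
  have h1 : cj (m * g) B = A := by
    rw [cj_mul, hAB]; exact cj_of_mem_normalizer hm
  rw [← h1, cj_inv_cj]

end Cfsg.Agent.S0950
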