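import Cfsg.Statements.S0974
import Cfsg.Agent.Lib.Helper23.ExcGroup

set_option autoImplicit false
open Cfsg

namespace Cfsg.Agent.S0974

/-- No finite simple group has order 3648 = 2^6 * 3 * 19. -/
theorem result {G : Type*} [Group G] [Finite G] [IsSimpleGroup G] : Nat.card G ≠ 3648 := by
  intro h
  have : Fact (Nat.Prime 19) := ⟨by norm_num⟩
  have hG : ¬ IsMulCommutative G :=
    Cfsg.Agent.Lib.Helper23.not_comm_of_simple_of_not_prime (by rw [h]; norm_num)
  have h1 : Nat.card G = 19 ^ 1 * 192 := h.trans (by norm_num)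
  have hm : ¬ 19 ∣ 192 := by norm_num
  have hmem := Cfsg.Agent.Lib.Helper23.card_sylow_mem_filter h1 hm
  have hne := Cfsg.Agent.Lib.Helper23.simple_sylow_card_ne_one h1 hm (by norm_num) (by norm_num)
  rw [show (Nat.divisors 192).filter (fun d => d % 19 = 1) = {1, 96} from by decide +kernel]
    at hmem
  simp only [Finset.mem_insert, Finset.mem_singleton] at hmem
  have hn : Nat.card (Sylow 19 G) = 96 := by
    rcases hmem with h2 | h2
    · exact absurd h2 hne
    · exact h2
  obtain ⟨d, hd2, hd, hd1, hmod⟩ := Cfsg.Agent.Lib.Helper23.simple_exc_two hG (p := 19) (m := 192)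
    (by norm_num) (h.trans (by norm_num)) hm (by rw [hn])
  rw [h] at hd hd1
  have key : ∀ d ∈ Nat.divisors 3648, 2 ≤ d → (d + 1) ∣ 3648 →
      ¬ (d % 19 = 1 ∨ (d + 2) % 19 = 0) := by decide +kernel
  exact key d (Nat.mem_divisors.mpr ⟨hd, by norm_num⟩) hd2 hd1 hmod

end Cfsg.Agent.S0974
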