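import Cfsg.Statements.S0979
import Cfsg.Agent.Lib.Helper23.ExcGroup3

set_option autoImplicit false
open Cfsg

namespace Cfsg.Agent.S0979

/-- No finite simple group has order 5472 = 2^5 * 3^2 * 19. -/
theorem result {G : Type*} [Group G] [Finite G] [IsSimpleGroup G] : Nat.card G ≠ 5472 := by
  intro h
  have : Fact (Nat.Prime 19) := ⟨by norm_num⟩
  have hG : ¬ IsMulCommutative G :=
    Cfsg.Agent.Lib.Helper23.not_comm_of_simple_of_not_prime (by rw [h]; norm_num)
  have h1 : Nat.card G = 19 ^ 1 * 288 := h.trans (by norm_num)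
  have hm : ¬ 19 ∣ 288 := by norm_num
  have hmem := Cfsg.Agent.Lib.Helper23.card_sylow_mem_filter h1 hm
  have hne := Cfsg.Agent.Lib.Helper23.simple_sylow_card_ne_one h1 hm (by norm_num) (by norm_num)
  rw [show (Nat.divisors 288).filter (fun d => d % 19 = 1) = {1, 96} from by decide +kernel]
    at hmem
  simp only [Finset.mem_insert, Finset.mem_singleton] at hmem
  have hn : Nat.card (Sylow 19 G) = 96 := by
    rcases hmem with h2 | h2
    · exact absurd h2 hne
    · exact h2
  obtain ⟨x₁, x₂, x₃, hx1, hx2, hx3, hd1, hd2, hd3, hsum, hm1, hm2, hm3⟩ :=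
    Cfsg.Agent.Lib.Helper23.simple_exc_three hG (p := 19) (m := 288)
      (by norm_num) (h.trans (by norm_num)) hm (by rw [hn])
  rw [h] at hd1 hd2 hd3
  have key : ∀ d ∈ Nat.divisors 5472, 2 ≤ d →
      (d % 19 = 1 → d = 96) ∧ ((d + 1) % 19 = 0 → d = 18) := by decide +kernel
  have hx : ∀ x : ℤ, 2 ≤ x.natAbs → x.natAbs ∣ 5472 → (19 : ℤ) ∣ x - 1 → x = 96 ∨ x = -18 := by
    intro x h2 hd hm
    have hmemd : x.natAbs ∈ Nat.divisors 5472 := Nat.mem_divisors.mpr ⟨hd, by norm_num⟩
    obtain ⟨k1, k2⟩ := key _ hmemd h2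
    rcases Int.natAbs_eq x with hx | hx
    · left
      have h3 : x.natAbs % 19 = 1 := by omega
      have h4 := k1 h3
      omega
    · right
      have h3 : (x.natAbs + 1) % 19 = 0 := by omega
      have h4 := k2 h3
      omega
  have hcast : ((19 : ℕ) : ℤ) = 19 := rfl
  rw [hcast] at hm1 hm2 hm3
  rcases hx x₁ hx1 hd1 hm1 with e1 | e1 <;> rcases hx x₂ hx2 hd2 hm2 with e2 | e2
  · have e3 : x₃.natAbs = 193 := by omega
    rw [e3] at hd3
    norm_num at hd3
  · have e3 : x₃.natAbs = 79 := by omega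
    rw [e3] at hd3
    norm_num at hd3
  · have e3 : x₃.natAbs = 79 := by omega
    rw [e3] at hd3
    norm_num at hd3
  · have e3 : x₃.natAbs = 35 := by omega
    rw [e3] at hd3
    norm_num at hd3

end Cfsg.Agent.S0979
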