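-- Statement S0980 (row 980): the theorem Cfsg.not_simple_of_card_5760.
-- Proof: project "Cole" of helper80 (Cfsg/Agent/Lib/Helper80/Co*.lean): principal 5-block
-- (DOne.core) + determinant trick at involutions + class-constant formula; pieces by the team.
import Cfsg.Statements.S0980
import Cfsg.Agent.Lib.Helper23.Syl
import Cfsg.Agent.Lib.Helper64.BRG5
import Cfsg.Agent.Lib.Helper34.BRG4
import Cfsg.Agent.Lib.Helper74.BRG3
import Cfsg.Agent.Lib.Helper80.CoINVC
import Cfsg.Agent.Lib.Helper80.CoL96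
import Cfsg.Agent.Lib.Helper80.CoD10

set_option autoImplicit false
open Cfsg

namespace Cfsg.Agent.S0980

/-- No finite simple group has order 5760 = 2^7 * 3^2 * 5. -/
theorem result {G : Type*} [Group G] [Finite G] [IsSimpleGroup G] : Nat.card G ≠ 5760 := by
  intro hcard
  haveI : Fact (Nat.Prime 5) := ⟨by norm_num⟩
  have hG : ¬ IsCyclic G := by
    intro hc
    have hcomm : IsMulCommutative G := ⟨⟨fun a b => by
      obtain ⟨g, hg⟩ := hc.exists_generator
      obtain ⟨i, rfl⟩ := Subgroup.mem_zpowers_iff.mp (hg a)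
      obtain ⟨j, rfl⟩ := Subgroup.mem_zpowers_iff.mp (hg b)
      rw [← zpow_add, ← zpow_add, add_comm]⟩⟩
    exact Cfsg.Agent.Lib.Helper23.not_comm_of_simple_of_not_prime
      (by rw [hcard]; norm_num) hcomm
  obtain ⟨P⟩ : Nonempty (Sylow 5 G) := inferInstance
  have hP : Nat.card P = 5 := by
    have h := Cfsg.Agent.Lib.Helper23.sylow_card_of_eq (p := 5) (k := 1) (m := 1152)
      (by rw [hcard]; norm_num) (by norm_num) P
    simpa using h
  obtain ⟨n, v, hS, hv, hCc, hNc, hidx, hcardG⟩ :=
    Cfsg.Agent.Lib.Helper10.BR.card_decomp 5 P hP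
  obtain ⟨e, hedef⟩ : ∃ e, (Subgroup.centralizer ((P : Subgroup G) : Set G)).relIndex
      (Subgroup.normalizer ((P : Subgroup G) : Set G)) = e := ⟨_, rfl⟩
  have he1 : e ≠ 1 := by
    rw [← hedef]
    exact Cfsg.Agent.Lib.Helper10.BR.relIndex_ne_one hG 5 P hP
  have hedvd : e ∣ 4 := by
    rw [← hedef]
    exact Cfsg.Agent.Lib.Helper10.BR.relIndex_dvd 5 P hP
  rw [hedef] at hNc hidx hcardG
  rw [hcard] at hcardG
  have he : e = 2 ∨ e = 4 := by
    have hle : e ≤ 4 := Nat.le_of_dvd (by norm_num) hedvd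
    have hpos : 0 < e := Nat.pos_of_dvd_of_pos hedvd (by norm_num)
    interval_cases e
    · exact absurd rfl he1
    · exact Or.inl rfl
    · norm_num at hedvd
    · exact Or.inr rfl
  by_cases hv2 : 2 ∣ v
  · haveI : Fact (Nat.Prime 2) := ⟨Nat.prime_two⟩
    obtain ⟨y, hy⟩ := exists_prime_orderOf_dvd_card'
      (G := Subgroup.centralizer ((P : Subgroup G) : Set G)) 2
      (by rw [hCc]; exact Dvd.dvd.mul_left hv2 5)
    have hy1 : (y : G) ≠ 1 := by
      intro h
      have h1 : y = 1 := Subtype.ext h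
      rw [h1, orderOf_one] at hy
      omega
    have hy2 : (y : G) * (y : G) = 1 := by
      have h1 : y ^ 2 = 1 := by rw [← hy]; exact pow_orderOf_eq_one y
      have h2 := congrArg Subtype.val h1
      simpa [pow_two] using h2
    exact Cfsg.Agent.Lib.Helper80.Cole.invc_false (Or.inr hcard) P hP (y : G) y.2 hy1 hy2
  · rcases he with rfl | rfl
    · have hvle : v ≤ 576 := by
        have hd : 2 * (5 * v) ∣ 5760 := Dvd.intro_left _ hcardG.symm
        have := Nat.le_of_dvd (by norm_num) hd
        omega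
      have key : v = 1 ∧ n = 115 := by
        interval_cases v <;> omega
      obtain ⟨rfl, rfl⟩ := key
      exact Cfsg.Agent.Lib.Helper80.Cole.d10_false hG 5 (by norm_num) P hP (by rw [hCc])
        (by rw [hNc]) 7 (by rw [hcard]; norm_num) (by rw [hcard]; norm_num)
    · have hvle : v ≤ 288 := by
        have hd : 4 * (5 * v) ∣ 5760 := Dvd.intro_left _ hcardG.symm
        have := Nat.le_of_dvd (by norm_num) hd
        omega
      have key : v = 3 ∧ n = 19 := by
        interval_cases v <;> omega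
      obtain ⟨rfl, rfl⟩ := key
      exact Cfsg.Agent.Lib.Helper80.Cole.l96_false hcard P hP (by rw [hCc]) (by rw [hNc])

end Cfsg.Agent.S0980
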