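import Cfsg.Statements.S0996
import Cfsg.Agent.Lib.Helper5.BQMain
import Cfsg.Agent.S0999

set_option autoImplicit false
open Cfsg

namespace Cfsg.Agent.S0996

/-- Let G be a finite perfect group containing an element z of prime order p whose centralizer is the cyclic group it generates, and suppose the number 1 + n * p of Sylow p-subgroups satisfies n < (p + 3) / 2. Then p > 3 and G is isomorphic to the projective special linear group of dimension 2 over the field with p elements, or p - 1 is a power of 2 and G is isomorphic to that group over the field with p - 1 elements. -/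
theorem result {G : Type*} [Group G] [Finite G] (hperf : commutator G = ⊤) (p : ℕ) [Fact p.Prime] (z : G) (hz : orderOf z = p) (hC : Subgroup.centralizer ({z} : Set G) = Subgroup.zpowers z) (hn : 2 * Nat.card (Sylow p G) < (p + 1) * (p + 2)) : (∃ (F : Type) (_ : Field F) (_ : Fintype F), Fintype.card F = p ∧ 3 < p ∧ Nonempty (G ≃* Matrix.ProjectiveSpecialLinearGroup (Fin 2) F)) ∨ (∃ (m : ℕ) (F : Type) (_ : Field F) (_ : Fintype F), Fintype.card F = 2 ^ m ∧ p = 2 ^ m + 1 ∧ 3 < p ∧ Nonempty (G ≃* Matrix.ProjectiveSpecialLinearGroup (Fin 2) F)) := by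
  have hp := (Fact.out : p.Prime)
  obtain ⟨P, hP⟩ := Cfsg.Agent.Lib.Helper5.BQ.exists_sylow_eq_zpowers p z hz hC
  have hz1 : z ≠ 1 := by
    rintro rfl
    rw [orderOf_one] at hz
    exact hp.ne_one hz.symm
  haveI : Nontrivial G := ⟨⟨z, 1, hz1⟩⟩
  haveI : IsSimpleGroup G := ⟨fun K hK => by
    by_contra hcon
    push Not at hcon
    haveI := hK
    exact hcon.1 (Cfsg.Agent.Lib.Helper5.BQ.normal_trivial hperf p z hz hC P hP hn K hcon.2
      (Cfsg.Agent.Lib.Helper5.BQ.normal_coprime hperf p z hz hC P hP K hcon.2))⟩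
  have hG : ¬ IsCyclic G := by
    intro hcyc
    have hcomm : ∀ a b : G, a * b = b * a := by
      intro a b
      obtain ⟨g, hg⟩ := hcyc.exists_generator
      obtain ⟨i, rfl⟩ := Subgroup.mem_zpowers_iff.mp (hg a)
      obtain ⟨j, rfl⟩ := Subgroup.mem_zpowers_iff.mp (hg b)
      rw [← zpow_add, ← zpow_add, add_comm]
    have hbot : commutator G = ⊥ := by
      rw [commutator_def, Subgroup.commutator_eq_bot_iff_le_centralizer]
      intro a _
      rw [Subgroup.mem_centralizer_iff]
      intro b _
      exact hcomm b a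
    rw [hbot] at hperf
    exact bot_ne_top hperf
  have hcardP : Nat.card P = p := by
    have h1 : Nat.card (P : Subgroup G) = p := by rw [hP, Nat.card_zpowers, hz]
    exact h1
  have hCP : Subgroup.centralizer ((P : Subgroup G) : Set G) = (P : Subgroup G) := by
    rw [hP]
    refine le_antisymm ?_ ?_
    · intro g hg
      rw [← hC, Subgroup.mem_centralizer_iff]
      intro w hw
      rw [Set.mem_singleton_iff] at hw
      subst hw
      exact (Subgroup.mem_centralizer_iff.mp hg) w (Subgroup.mem_zpowers w)
    · intro g hg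
      rw [Subgroup.mem_centralizer_iff]
      intro w hw
      obtain ⟨i, rfl⟩ := Subgroup.mem_zpowers_iff.mp hw
      obtain ⟨j, rfl⟩ := Subgroup.mem_zpowers_iff.mp hg
      rw [← zpow_add, ← zpow_add, add_comm]
  have hdvd : p ∣ Nat.card G := by
    rw [← hz]
    exact orderOf_dvd_natCard z
  have hbig := Cfsg.Agent.Lib.Helper5.BQ.main_lt hG p P hcardP hCP hn
  exact Cfsg.Agent.S0999.result hG p hp hdvd hbig


end Cfsg.Agent.S0996
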