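import Cfsg.Statements.S1011
import Cfsg.Agent.Lib.Helper23.G504
import Cfsg.Agent.Lib.Helper23.CitMain

set_option autoImplicit false
open Cfsg

namespace Cfsg.Agent.S1011

/-- A simple group of order 504 is isomorphic to the projective special linear group of dimension 2 over the field with 8 elements. -/
theorem result {G : Type*} [Group G] [Finite G] [IsSimpleGroup G] (h : Nat.card G = 504) {F : Type*} [Field F] [Fintype F] (hF : Fintype.card F = 8) : Nonempty (G ≃* Matrix.ProjectiveSpecialLinearGroup (Fin 2) F) := by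
  classical
  have hC := Cfsg.Agent.Lib.Helper23.g504_invCent h
  obtain ⟨T⟩ : Nonempty (Sylow 2 G) := inferInstance
  have h1 : Nat.card G = 2 ^ 3 * 63 := h.trans (by norm_num)
  have hm : ¬ 2 ∣ 63 := by norm_num
  have hT : Nat.card (T : Subgroup G) = 8 := by
    simpa using Cfsg.Agent.Lib.Helper23.sylow_card_of_eq h1 hm T
  have hne := Cfsg.Agent.Lib.Helper23.simple_sylow_card_ne_one h1 hm (by norm_num) (by norm_num)
  have hpos : 0 < Nat.card (Sylow 2 G) := Nat.card_pos
  exact Cfsg.Agent.Lib.Helper23.cit_psl2_of_card hC T (by omega) (by omega) (hF.trans hT.symm)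

end Cfsg.Agent.S1011
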