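import Cfsg.Statements.S1016
import Cfsg.Agent.Lib.Helper23.Syl
import Cfsg.Agent.Lib.Helper23.Syl2
import Cfsg.Agent.Lib.Helper23.SimpleGen
import Cfsg.Agent.Lib.Helper76.N22Count
import Cfsg.Agent.Lib.Helper76.SylPrime

set_option autoImplicit false
set_option linter.style.haveILetI false
open Cfsg

namespace Cfsg.Agent.S1016

open Subgroup
open Cfsg.Agent.Lib.Helper23
open Cfsg.Agent.Lib.Helper76.N22
open Cfsg.Agent.Lib.Helper76.SylPrime

/-- No finite simple group has order 1440 = 2^5 * 3^2 * 5. -/
theorem result {G : Type*} [Group G] [Finite G] [IsSimpleGroup G] : Nat.card G ≠ 1440 := by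
  intro hcard
  have hG : ¬ IsMulCommutative G :=
    not_comm_of_simple_of_not_prime (by rw [hcard]; norm_num)
  haveI : Fact (Nat.Prime 5) := ⟨by norm_num⟩
  haveI : Fact (Nat.Prime 3) := ⟨by norm_num⟩
  haveI : Fact (Nat.Prime 2) := ⟨by norm_num⟩
  have h5 : Nat.card G = 5 ^ 1 * 288 := by rw [hcard]; norm_num
  have hm : ¬ 5 ∣ 288 := by norm_num
  have hc : ∀ Q : Sylow 5 G, Nat.card (Q : Subgroup G) = 5 := fun Q => by
    have := sylow_card_of_eq h5 hm Q
    simpa using this
  have hn1 : Nat.card (Sylow 5 G) ≠ 1 :=
    simple_sylow_card_ne_one h5 hm (by norm_num) (by norm_num)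
  have hmem := card_sylow_mem_filter h5 hm
  have hfilter : (Nat.divisors 288).filter (fun d => d % 5 = 1) = {1, 6, 16, 36, 96} := by
    decide +kernel
  rw [hfilter] at hmem
  simp only [Finset.mem_insert, Finset.mem_singleton] at hmem
  obtain ⟨P⟩ : Nonempty (Sylow 5 G) := inferInstance
  obtain ⟨r, c, hr, hr1, hC, hN, hmul⟩ := card_centralizer_mul hG hc P
  rw [hcard] at hmul
  have hr4 : r = 2 ∨ r = 4 := by
    have hle : r ≤ 4 := Nat.le_of_dvd (by norm_num) hr
    have hpos : 1 ≤ r := Nat.pos_of_dvd_of_pos hr (by norm_num)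
    interval_cases r <;> simp_all
  rcases hmem with h | h | h | h | h
  · exact hn1 h
  · -- n_5 = 6
    have hidx : Nat.card (Sylow 5 G) = (normalizer ((P : Subgroup G) : Set G)).index :=
      Sylow.card_eq_index_normalizer P
    rw [h] at hidx
    have hne : normalizer ((P : Subgroup G) : Set G) ≠ ⊤ := by
      intro htop
      rw [htop, Subgroup.index_top] at hidx
      omega
    have h1 := simple_two_mul_card_dvd_factorial hG _ hne
    rw [← hidx, hcard] at h1
    revert h1
    decide
  · -- n_5 = 16
    rw [h] at hmul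
    have hc9 : c = 9 := by
      rcases hr4 with rfl | rfl <;> omega
    rw [hc9] at hC
    have h9 : 3 ^ 2 ∣ Nat.card (centralizer ((P : Subgroup G) : Set G)) := by
      rw [hC]; norm_num
    obtain ⟨K, hK⟩ := Sylow.exists_subgroup_card_pow_prime 3 h9
    have hR : Nat.card (K.map (centralizer ((P : Subgroup G) : Set G)).subtype) = 9 := by
      rw [Subgroup.card_map_of_injective (Subgroup.subtype_injective _), hK]
      norm_num
    have hfix : ∀ a ∈ K.map (centralizer ((P : Subgroup G) : Set G)).subtype, a ≠ 1 →
        (MulAction.fixedBy (Sylow 5 G) a).ncard = 1 := by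
      rintro _ ⟨k, hk, rfl⟩ ha1
      have hkC : (k : G) ∈ centralizer ((P : Subgroup G) : Set G) := k.2
      have h1 := fix_mod P (k : G) hkC
      have hk9 : (k : G) ^ 3 ^ 2 = 1 := by
        have h2 : (⟨k, hk⟩ : K) ^ Nat.card K = 1 := pow_card_eq_one'
        rw [hK] at h2
        have h3 := congrArg Subtype.val h2
        have h4 := congrArg Subtype.val h3
        simpa using h4
      have h2 := fix_modEq_of_pow (p := 5) 3 (k : G) 2 hk9
      have h3 := fix_lt hG hn1 (k : G) ha1
      rw [h] at h2 h3
      show (MulAction.fixedBy (Sylow 5 G) (k : G)).ncard = 1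
      omega
    have hdvd := card_dvd_of_fix (Ω := Sylow 5 G)
      (K.map (centralizer ((P : Subgroup G) : Set G)).subtype) 1 (by rw [h]; norm_num) hfix
    rw [hR, h] at hdvd
    omega
  · -- n_5 = 36
    rw [h] at hmul
    have hC2 : 2 ∣ Nat.card (centralizer ((P : Subgroup G) : Set G)) := by
      rw [hC]
      rcases hr4 with rfl | rfl
      · have : c = 4 := by omega
        rw [this]; norm_num
      · have : c = 2 := by omega
        rw [this]; norm_num
    have hCle : Nat.card (centralizer ((P : Subgroup G) : Set G)) ≤ 20 := by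
      rw [hC]
      rcases hr4 with rfl | rfl <;> omega
    obtain ⟨t, htC, ht1, ht2⟩ := exists_mem_pow_eq_one _ 2 hC2
    have htP : t • P = P := smul_eq_of_mem_centralizer P t htC
    have hf1 := fix_mod P t htC
    have hf2 := fix_mod_four hG hn1 t ht1 ht2
    have hf3 := fix_lt hG hn1 t ht1
    rw [h] at hf2 hf3
    have hf : (MulAction.fixedBy (Sylow 5 G) t).ncard = 16 := by omega
    have hcent : ∀ Q : Sylow 5 G, t • Q = Q → t ∈ centralizer ((Q : Subgroup G) : Set G) := by
      intro Q hQ
      by_contra hQC
      have := fix_le_of_not_centralizer hc Q t hQ hQC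
      rw [hf, h] at this
      omega
    have hcz := card_centralizer_eq P t htP hcent
    rw [hf] at hcz
    have hd5 : 5 ∣ Nat.card (centralizer ({t} : Set G) ⊓
        normalizer ((P : Subgroup G) : Set G) : Subgroup G) := by
      have hle : (P : Subgroup G) ≤ centralizer ({t} : Set G) ⊓
          normalizer ((P : Subgroup G) : Set G) := by
        refine le_inf ?_ Subgroup.le_normalizer
        intro x hx
        rw [Subgroup.mem_centralizer_iff]
        intro w hw
        rw [Set.mem_singleton_iff] at hw
        rw [hw]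
        exact (Subgroup.mem_centralizer_iff.mp htC x hx).symm
      have := Subgroup.card_dvd_of_le hle
      rwa [hc P] at this
    have hd2 : 2 ∣ Nat.card (centralizer ({t} : Set G) ⊓
        normalizer ((P : Subgroup G) : Set G) : Subgroup G) := by
      have htt : t ∈ centralizer ({t} : Set G) := by
        rw [Subgroup.mem_centralizer_iff]
        intro w hw
        rw [Set.mem_singleton_iff] at hw
        rw [hw]
      exact dvd_card_of_mem _ 2 t ⟨htt, Subgroup.centralizer_le_normalizer _ htC⟩ ht1 ht2
    have hd10 : 10 ∣ Nat.card (centralizer ({t} : Set G) ⊓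
        normalizer ((P : Subgroup G) : Set G) : Subgroup G) :=
      Nat.Coprime.mul_dvd_of_dvd_of_dvd (by norm_num : Nat.Coprime 2 5) hd2 hd5
    obtain ⟨j, hj⟩ := hd10
    rw [hj] at hcz
    have hidx := Subgroup.card_mul_index (centralizer ({t} : Set G))
    rw [hcz, hcard] at hidx
    have hji : j * (centralizer ({t} : Set G)).index = 9 :=
      Nat.eq_of_mul_eq_mul_left (by norm_num : 0 < 160) (by linarith)
    have hi : (centralizer ({t} : Set G)).index = 1 ∨ (centralizer ({t} : Set G)).index = 3 ∨
        (centralizer ({t} : Set G)).index = 9 := by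
      have hdvd : (centralizer ({t} : Set G)).index ∣ 9 := Dvd.intro_left _ hji
      have hle : (centralizer ({t} : Set G)).index ≤ 9 := Nat.le_of_dvd (by norm_num) hdvd
      have hpos : 1 ≤ (centralizer ({t} : Set G)).index := Nat.pos_of_dvd_of_pos hdvd (by norm_num)
      generalize (centralizer ({t} : Set G)).index = i at *
      interval_cases i <;> simp_all
    have hne : centralizer ({t} : Set G) ≠ ⊤ := simple_centralizer_ne_top hG ht1
    rcases hi with hi | hi | hi
    · exact hne (Subgroup.index_eq_one.mp hi)
    · have h1 := simple_two_mul_card_dvd_factorial hG _ hne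
      rw [hi, hcard] at h1
      revert h1
      decide
    · have hconj := card_conj_modEq (p := 5) (P : Subgroup G) P.2 t
      rw [hi] at hconj
      have hS : ∀ s ∈ insert (1 : G) {s : G | IsConj t s ∧
          s ∈ centralizer ((P : Subgroup G) : Set G)},
          s ∈ centralizer ((P : Subgroup G) : Set G) ∧ s ^ 2 = 1 := by
        intro s hs
        rcases hs with rfl | ⟨hs1, hs2⟩
        · exact ⟨one_mem _, one_pow 2⟩
        · refine ⟨hs2, ?_⟩
          obtain ⟨g, hg⟩ := isConj_iff.mp hs1
          rw [← hg, conj_pow, ht2, mul_one, mul_inv_cancel]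
      have hle := card_invol_le hc P (by norm_num) _ hS
      have hnot : (1 : G) ∉ {s : G | IsConj t s ∧ s ∈ centralizer ((P : Subgroup G) : Set G)} := by
        rintro ⟨h1, -⟩
        exact ht1 (isConj_one_left.mp h1)
      rw [Set.ncard_insert_of_notMem hnot (Set.toFinite _)] at hle
      unfold Nat.ModEq at hconj
      omega
  · -- n_5 = 96
    have h1 := simple_burnside_prime hG (p := 5) (m := 288) (by rw [hcard]) hm
    rw [h] at h1
    exact h1 (by decide)

end Cfsg.Agent.S1016
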