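import Cfsg.Statements.S1017
import Cfsg.Agent.Lib.Helper23.Syl
import Cfsg.Agent.Lib.Helper23.Syl2
import Cfsg.Agent.Lib.Helper23.SimpleGen
import Cfsg.Agent.Lib.Helper76.N22Count
import Cfsg.Agent.Lib.Helper76.SylPrime

set_option autoImplicit false
set_option linter.style.haveILetI false
open Cfsg

namespace Cfsg.Agent.S1017

open Subgroup
open Cfsg.Agent.Lib.Helper23
open Cfsg.Agent.Lib.Helper76.N22
open Cfsg.Agent.Lib.Helper76.SylPrime

/-- an involution centralizing a Sylow 7-subgroup, when `n_7 = 36` -/
theorem key {G : Type*} [Group G] [Finite G] [IsSimpleGroup G] [Fact (Nat.Prime 7)]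
    (hcard : Nat.card G = 2016) (hG : ¬ IsMulCommutative G)
    (hc : ∀ Q : Sylow 7 G, Nat.card (Q : Subgroup G) = 7)
    (hn : Nat.card (Sylow 7 G) = 36) (P : Sylow 7 G)
    (hC : Nat.card (centralizer ((P : Subgroup G) : Set G)) = 7 * 2 ^ 2)
    (hN : Nat.card (normalizer ((P : Subgroup G) : Set G)) = 56)
    (t : G) (ht : t ∈ centralizer ((P : Subgroup G) : Set G)) (ht1 : t ≠ 1) (ht2 : t ^ 2 = 1) :
    (MulAction.fixedBy (Sylow 7 G) t).ncard = 8 ∧
    (∀ Q : Sylow 7 G, t • Q = Q → t ∈ centralizer ((Q : Subgroup G) : Set G)) ∧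
    centralizer ((P : Subgroup G) : Set G) ≤ centralizer ({t} : Set G) ∧
    Nat.card (centralizer ({t} : Set G)) = 224 := by
  haveI : Fact (Nat.Prime 2) := ⟨by norm_num⟩
  have hn1 : Nat.card (Sylow 7 G) ≠ 1 := by rw [hn]; norm_num
  have htP : t • P = P := smul_eq_of_mem_centralizer P t ht
  have hf1 := fix_mod P t ht
  have hf2 := fix_mod_four hG hn1 t ht1 ht2
  have hf3 := fix_lt hG hn1 t ht1
  rw [hn] at hf2 hf3
  have hf : (MulAction.fixedBy (Sylow 7 G) t).ncard = 8 := by omega
  have hcent : ∀ Q : Sylow 7 G, t • Q = Q → t ∈ centralizer ((Q : Subgroup G) : Set G) := by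
    intro Q hQ
    by_contra hQC
    have := fix_le_of_not_centralizer hc Q t hQ hQC
    rw [hf, hn] at this
    omega
  have hCle : centralizer ((P : Subgroup G) : Set G) ≤ centralizer ({t} : Set G) := by
    intro a ha
    rw [Subgroup.mem_centralizer_iff]
    intro w hw
    rw [Set.mem_singleton_iff] at hw
    rw [hw]
    exact (invol_central hc P (by norm_num) 2 hC t a ht ht2 ha).symm
  refine ⟨hf, hcent, hCle, ?_⟩
  have hcz := card_centralizer_eq P t htP hcent
  rw [hf] at hcz
  have h1 : centralizer ((P : Subgroup G) : Set G) ≤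
      centralizer ({t} : Set G) ⊓ normalizer ((P : Subgroup G) : Set G) :=
    le_inf hCle (Subgroup.centralizer_le_normalizer _)
  have h2 := Subgroup.card_dvd_of_le h1
  have h3 := Subgroup.card_dvd_of_le
    (inf_le_right : centralizer ({t} : Set G) ⊓ normalizer ((P : Subgroup G) : Set G) ≤
      normalizer ((P : Subgroup G) : Set G))
  rw [hC] at h2
  rw [hN] at h3
  have h4 := Subgroup.card_dvd_of_le (le_top : centralizer ({t} : Set G) ≤ ⊤)
  rw [Subgroup.card_top, hcard, hcz] at h4
  have hle : Nat.card (centralizer ({t} : Set G) ⊓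
      normalizer ((P : Subgroup G) : Set G) : Subgroup G) ≤ 56 := Nat.le_of_dvd (by norm_num) h3
  have hpos : 0 < Nat.card (centralizer ({t} : Set G) ⊓
      normalizer ((P : Subgroup G) : Set G) : Subgroup G) := Nat.card_pos
  rw [hcz]
  generalize Nat.card (centralizer ({t} : Set G) ⊓
      normalizer ((P : Subgroup G) : Set G) : Subgroup G) = i at *
  interval_cases i <;> revert h2 h3 h4 <;> decide

/-- No finite simple group has order 2016 = 2^5 * 3^2 * 7. -/
theorem result {G : Type*} [Group G] [Finite G] [IsSimpleGroup G] : Nat.card G ≠ 2016 := by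
  intro hcard
  have hG : ¬ IsMulCommutative G :=
    not_comm_of_simple_of_not_prime (by rw [hcard]; norm_num)
  haveI : Fact (Nat.Prime 7) := ⟨by norm_num⟩
  haveI : Fact (Nat.Prime 2) := ⟨by norm_num⟩
  have h7 : Nat.card G = 7 ^ 1 * 288 := by rw [hcard]; norm_num
  have hm : ¬ 7 ∣ 288 := by norm_num
  have hc : ∀ Q : Sylow 7 G, Nat.card (Q : Subgroup G) = 7 := fun Q => by
    have := sylow_card_of_eq h7 hm Q
    simpa using this
  have hn1 : Nat.card (Sylow 7 G) ≠ 1 :=
    simple_sylow_card_ne_one h7 hm (by norm_num) (by norm_num)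
  have hmem := card_sylow_mem_filter h7 hm
  have hfilter : (Nat.divisors 288).filter (fun d => d % 7 = 1) = {1, 8, 36, 288} := by
    decide +kernel
  rw [hfilter] at hmem
  simp only [Finset.mem_insert, Finset.mem_singleton] at hmem
  obtain ⟨P⟩ : Nonempty (Sylow 7 G) := inferInstance
  obtain ⟨r, c, hr, hr1, hC, hN, hmul⟩ := card_centralizer_mul hG hc P
  rw [hcard] at hmul
  have hr6 : r = 2 ∨ r = 3 ∨ r = 6 := by
    have hle : r ≤ 6 := Nat.le_of_dvd (by norm_num) hr
    have hpos : 1 ≤ r := Nat.pos_of_dvd_of_pos hr (by norm_num)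
    interval_cases r <;> simp_all
  rcases hmem with h | h | h | h
  · exact hn1 h
  · -- n_7 = 8
    rw [h] at hmul
    have hfix : ∀ a ∈ centralizer ((P : Subgroup G) : Set G), a ≠ 1 →
        (MulAction.fixedBy (Sylow 7 G) a).ncard = 1 := by
      intro a ha ha1
      have h1 := fix_mod P a ha
      have h3 := fix_lt hG hn1 a ha1
      rw [h] at h3
      omega
    have hdvd := card_dvd_of_fix (Ω := Sylow 7 G) (centralizer ((P : Subgroup G) : Set G)) 1
      (by rw [h]; norm_num) hfix
    rw [hC, h] at hdvd
    have hc1 : 7 * c ≤ 7 := Nat.le_of_dvd (by norm_num) hdvd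
    rcases hr6 with rfl | rfl | rfl <;> omega
  · -- n_7 = 36
    rw [h] at hmul
    have hr2 : r = 2 ∧ c = 4 := by
      rcases hr6 with rfl | rfl | rfl <;> omega
    obtain ⟨rfl, rfl⟩ := hr2
    have hC' : Nat.card (centralizer ((P : Subgroup G) : Set G)) = 7 * 2 ^ 2 := by
      rw [hC]; norm_num
    have hN' : Nat.card (normalizer ((P : Subgroup G) : Set G)) = 56 := by rw [hN]
    have hC2 : 2 ∣ Nat.card (centralizer ((P : Subgroup G) : Set G)) := by
      rw [hC]; norm_num
    obtain ⟨t, htC, ht1, ht2⟩ := exists_mem_pow_eq_one _ 2 hC2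
    obtain ⟨hft, hcentt, hCt, hcardt⟩ := key hcard hG hc h P hC' hN' t htC ht1 ht2
    have hidx := Subgroup.card_mul_index (centralizer ({t} : Set G))
    rw [hcardt, hcard] at hidx
    have hi : (centralizer ({t} : Set G)).index = 9 := by omega
    have hconj := card_conj_modEq (p := 7) (P : Subgroup G) P.2 t
    rw [hi] at hconj
    have htS : t ∈ {s : G | IsConj t s ∧ s ∈ centralizer ((P : Subgroup G) : Set G)} :=
      ⟨IsConj.refl t, htC⟩
    have hex : ∃ s : G, IsConj t s ∧ s ∈ centralizer ((P : Subgroup G) : Set G) ∧ s ≠ t := by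
      by_contra hcon
      push Not at hcon
      have hS : {s : G | IsConj t s ∧ s ∈ centralizer ((P : Subgroup G) : Set G)} = {t} := by
        rw [Set.eq_singleton_iff_unique_mem]
        exact ⟨htS, fun s hs => hcon s hs.1 hs.2⟩
      rw [hS, Set.ncard_singleton] at hconj
      unfold Nat.ModEq at hconj
      omega
    obtain ⟨s, hts, hsC, hst⟩ := hex
    obtain ⟨g, hg⟩ := isConj_iff.mp hts
    have hs1 : s ≠ 1 := by
      intro h1
      rw [h1] at hts
      exact ht1 (isConj_one_left.mp hts)
    have hs2 : s ^ 2 = 1 := by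
      rw [← hg, conj_pow, ht2, mul_one, mul_inv_cancel]
    obtain ⟨hfs, hcents, hCs, hcards⟩ := key hcard hG hc h P hC' hN' s hsC hs1 hs2
    have hcomm : s * t = t * s := Subgroup.mem_centralizer_iff.mp (hCs htC) s rfl
    -- fixed points
    have hsinv : ∀ δ ∈ MulAction.fixedBy (Sylow 7 G) t,
        s • δ ∈ MulAction.fixedBy (Sylow 7 G) t := by
      intro δ hδ
      show t • (s • δ) = s • δ
      have hδ' : t • δ = δ := hδ
      rw [← mul_smul, ← hcomm, mul_smul, hδ']
    have hm2 := card_modEq_fixedBy (Ω := Sylow 7 G) 2 s 1 (by rwa [pow_one]) _ hsinv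
    rw [hft] at hm2
    have hPinv : ∀ x ∈ (P : Subgroup G), ∀ δ ∈ MulAction.fixedBy (Sylow 7 G) t ∩
        MulAction.fixedBy (Sylow 7 G) s, x • δ ∈ MulAction.fixedBy (Sylow 7 G) t ∩
        MulAction.fixedBy (Sylow 7 G) s := by
      intro x hx δ hδ
      exact ⟨fixedBy_invariant P t htC x hx δ hδ.1, fixedBy_invariant P s hsC x hx δ hδ.2⟩
    have hm7 := ncard_mod_of_mem P _ hPinv
      ⟨smul_eq_of_mem_centralizer P t htC, smul_eq_of_mem_centralizer P s hsC⟩
    have hle8 : (MulAction.fixedBy (Sylow 7 G) t ∩ MulAction.fixedBy (Sylow 7 G) s).ncard ≤ 8 := by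
      rw [← hft]
      exact Set.ncard_le_ncard Set.inter_subset_left (Set.toFinite _)
    have hI8 : (MulAction.fixedBy (Sylow 7 G) t ∩ MulAction.fixedBy (Sylow 7 G) s).ncard = 8 := by
      unfold Nat.ModEq at hm2
      omega
    have hIt : MulAction.fixedBy (Sylow 7 G) t ∩ MulAction.fixedBy (Sylow 7 G) s =
        MulAction.fixedBy (Sylow 7 G) t :=
      Set.eq_of_subset_of_ncard_le Set.inter_subset_left (by rw [hI8, hft]) (Set.toFinite _)
    have hIs : MulAction.fixedBy (Sylow 7 G) t ∩ MulAction.fixedBy (Sylow 7 G) s =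
        MulAction.fixedBy (Sylow 7 G) s :=
      Set.eq_of_subset_of_ncard_le Set.inter_subset_right (by rw [hI8, hfs]) (Set.toFinite _)
    have hFeq : MulAction.fixedBy (Sylow 7 G) s = MulAction.fixedBy (Sylow 7 G) t := by
      rw [← hIs, hIt]
    -- the common centralizer
    have hD := card_eq_of_orbit P (centralizer ({s} : Set G) ⊓ centralizer ({t} : Set G))
      (MulAction.fixedBy (Sylow 7 G) t)
      (show P ∈ MulAction.fixedBy (Sylow 7 G) t from smul_eq_of_mem_centralizer P t htC) ?_ ?_
    · rw [hft] at hD
      have hle : centralizer ((P : Subgroup G) : Set G) ≤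
          centralizer ({s} : Set G) ⊓ centralizer ({t} : Set G) ⊓
            normalizer ((P : Subgroup G) : Set G) :=
        le_inf (le_inf hCs hCt) (Subgroup.centralizer_le_normalizer _)
      have hle2 := Subgroup.card_le_of_le hle
      rw [hC] at hle2
      have hD224 : 224 ≤ Nat.card (centralizer ({s} : Set G) ⊓ centralizer ({t} : Set G) :
          Subgroup G) := by
        rw [hD]; omega
      have hDt : centralizer ({s} : Set G) ⊓ centralizer ({t} : Set G) = centralizer ({t} : Set G) :=
        Subgroup.eq_of_le_of_card_ge inf_le_right (by rw [hcardt]; exact hD224)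
      have hDs : centralizer ({s} : Set G) ⊓ centralizer ({t} : Set G) = centralizer ({s} : Set G) :=
        Subgroup.eq_of_le_of_card_ge inf_le_left (by rw [hcards]; exact hD224)
      have hcc : centralizer ({s} : Set G) = centralizer ({t} : Set G) := by rw [← hDs, hDt]
      -- `g` normalizes `C_G(t)`
      have hgN : g ∈ normalizer ((centralizer ({t} : Set G) : Subgroup G) : Set G) := by
        rw [Subgroup.mem_normalizer_iff]
        intro x
        have key2 : x ∈ centralizer ({t} : Set G) ↔ g * x * g⁻¹ ∈ centralizer ({s} : Set G) := by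
          constructor
          · intro hx
            have hx' : t * x = x * t := Subgroup.mem_centralizer_iff.mp hx t rfl
            rw [Subgroup.mem_centralizer_iff]
            intro w hw
            rw [Set.mem_singleton_iff] at hw
            rw [hw, ← hg]
            calc g * t * g⁻¹ * (g * x * g⁻¹) = g * (t * x) * g⁻¹ := by group
              _ = g * (x * t) * g⁻¹ := by rw [hx']
              _ = g * x * g⁻¹ * (g * t * g⁻¹) := by group
          · intro hx
            have hx' : s * (g * x * g⁻¹) = g * x * g⁻¹ * s :=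
              Subgroup.mem_centralizer_iff.mp hx s rfl
            rw [← hg] at hx'
            rw [Subgroup.mem_centralizer_iff]
            intro w hw
            rw [Set.mem_singleton_iff] at hw
            rw [hw]
            calc t * x = g⁻¹ * (g * t * g⁻¹ * (g * x * g⁻¹)) * g := by group
              _ = g⁻¹ * (g * x * g⁻¹ * (g * t * g⁻¹)) * g := by rw [hx']
              _ = x * t := by group
        rw [key2, hcc]
      have hgt : g ∉ centralizer ({t} : Set G) := by
        intro hgt
        apply hst
        have h1 : t * g = g * t := Subgroup.mem_centralizer_iff.mp hgt t rfl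
        rw [← hg, ← h1, mul_inv_cancel_right]
      have hHN := S4304.card_mul_relIndex_of_le
        (Subgroup.le_normalizer : centralizer ({t} : Set G) ≤
          normalizer ((centralizer ({t} : Set G) : Subgroup G) : Set G))
      have hNidx := Subgroup.card_mul_index
        (normalizer ((centralizer ({t} : Set G) : Subgroup G) : Set G))
      rw [← hHN, hcardt, hcard] at hNidx
      have hki : (centralizer ({t} : Set G)).relIndex
          (normalizer ((centralizer ({t} : Set G) : Subgroup G) : Set G)) *
          (normalizer ((centralizer ({t} : Set G) : Subgroup G) : Set G)).index = 9 :=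
        Nat.eq_of_mul_eq_mul_left (by norm_num : 0 < 224) (by linarith)
      have hi3 : (normalizer ((centralizer ({t} : Set G) : Subgroup G) : Set G)).index = 1 ∨
          (normalizer ((centralizer ({t} : Set G) : Subgroup G) : Set G)).index = 3 ∨
          (normalizer ((centralizer ({t} : Set G) : Subgroup G) : Set G)).index = 9 := by
        have hdvd : (normalizer ((centralizer ({t} : Set G) : Subgroup G) : Set G)).index ∣ 9 :=
          Dvd.intro_left _ hki
        have hle : (normalizer ((centralizer ({t} : Set G) : Subgroup G) : Set G)).index ≤ 9 :=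
          Nat.le_of_dvd (by norm_num) hdvd
        have hpos : 1 ≤ (normalizer ((centralizer ({t} : Set G) : Subgroup G) : Set G)).index :=
          Nat.pos_of_dvd_of_pos hdvd (by norm_num)
        generalize (normalizer ((centralizer ({t} : Set G) : Subgroup G) : Set G)).index = i at *
        interval_cases i <;> simp_all
      have hHbot : centralizer ({t} : Set G) ≠ ⊥ := by
        intro hb
        rw [hb, Subgroup.card_bot] at hcardt
        omega
      have hHtop : centralizer ({t} : Set G) ≠ ⊤ := simple_centralizer_ne_top hG ht1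
      have hNtop := simple_normalizer_ne_top _ hHbot hHtop
      rcases hi3 with hi3 | hi3 | hi3
      · exact hNtop (Subgroup.index_eq_one.mp hi3)
      · have h1 := simple_two_mul_card_dvd_factorial hG _ hNtop
        rw [hi3, hcard] at h1
        revert h1
        decide
      · rw [hi3] at hki
        have hrel : (centralizer ({t} : Set G)).relIndex
            (normalizer ((centralizer ({t} : Set G) : Subgroup G) : Set G)) = 1 := by omega
        rw [Subgroup.relIndex_eq_one] at hrel
        exact hgt (hrel hgN)
    · intro d hd Q hQ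
      have hdt : t * d = d * t := Subgroup.mem_centralizer_iff.mp hd.2 t rfl
      have hQ' : t • Q = Q := hQ
      show t • (d • Q) = d • Q
      rw [← mul_smul, hdt, mul_smul, hQ']
    · intro Q hQ x hx
      have hQs : s • Q = Q := by
        have : Q ∈ MulAction.fixedBy (Sylow 7 G) s := by rw [hFeq]; exact hQ
        exact this
      have hQt : t • Q = Q := hQ
      refine Subgroup.mem_inf.mpr ⟨?_, ?_⟩
      · rw [Subgroup.mem_centralizer_iff]
        intro w hw
        rw [Set.mem_singleton_iff] at hw
        rw [hw]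
        exact (Subgroup.mem_centralizer_iff.mp (hcents Q hQs) x hx).symm
      · rw [Subgroup.mem_centralizer_iff]
        intro w hw
        rw [Set.mem_singleton_iff] at hw
        rw [hw]
        exact (Subgroup.mem_centralizer_iff.mp (hcentt Q hQt) x hx).symm
  · -- n_7 = 288
    have h1 := simple_burnside_prime hG (p := 7) (m := 288) (by rw [hcard]) hm
    rw [h] at h1
    exact h1 (by decide)

end Cfsg.Agent.S1017
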