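import Cfsg.Statements.S1020
import Cfsg.Agent.Lib.Helper23.PSL2Main
import Cfsg.Agent.Lib.Helper23.PSL2Cert17

set_option autoImplicit false
open Cfsg

namespace Cfsg.Agent.S1020

/-- A simple group of order 2448 is isomorphic to the projective special linear group of dimension 2 over the field with 17 elements. -/
theorem result {G : Type*} [Group G] [Finite G] [IsSimpleGroup G] (h : Nat.card G = 2448) {F : Type*} [Field F] [Fintype F] (hF : Fintype.card F = 17) : Nonempty (G ≃* Matrix.ProjectiveSpecialLinearGroup (Fin 2) F) := by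
  have : Fact (Nat.Prime 17) := ⟨by norm_num⟩
  have h1 : Nat.card G = 17 ^ 1 * 144 := h.trans (by norm_num)
  have hm : ¬ 17 ∣ 144 := by norm_num
  have hmem := Cfsg.Agent.Lib.Helper23.card_sylow_mem_filter h1 hm
  have hne := Cfsg.Agent.Lib.Helper23.simple_sylow_card_ne_one h1 hm (by norm_num) (by norm_num)
  rw [show (Nat.divisors 144).filter (fun d => d % 17 = 1) = {1, 18} from by decide +kernel]
    at hmem
  simp only [Finset.mem_insert, Finset.mem_singleton] at hmem
  have hn : Nat.card (Sylow 17 G) = 17 + 1 := by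
    rcases hmem with h2 | h2
    · exact absurd h2 hne
    · exact h2
  exact Cfsg.Agent.Lib.Helper23.psl2_recog 8 9 3 Cfsg.Agent.Lib.Helper23.psl2_arith_17
    (h.trans (by norm_num)) hn (Or.inl Cfsg.Agent.Lib.Helper23.psl2_cert_17) hF

end Cfsg.Agent.S1020
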