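import Cfsg.Statements.S1138
import Cfsg.Agent.S1137
import Cfsg.Agent.Lib.Helper55.Sz2Defs
import Cfsg.Agent.Lib.Helper55.Sz2A0
import Cfsg.Agent.Lib.Helper55.Sz2A1
import Cfsg.Agent.Lib.Helper55.Sz2A2
import Cfsg.Agent.Lib.Helper55.Sz2B
import Cfsg.Agent.Lib.Helper55.Sz2C1
import Cfsg.Agent.Lib.Helper55.Sz2C2
import Cfsg.Agent.Lib.Helper55.Sz2E
import Cfsg.Agent.Lib.Helper55.Sz2F

set_option autoImplicit false
open Cfsg

namespace Cfsg.Agent.S1138

open Cfsg.Agent.Lib.Helper55 in
/-- Let `P` be a Suzuki 2-group with `|Z(P)| = q`. Then every square lies in `Z(P)` and `P/Z(P)` is abelian (so elementary abelian), `|P| = q²` or `|P| = q³`, and `P` has exponent 4. -/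
theorem result {P : Type*} [Group P] (hP : Cfsg.IsSuzukiTwoGroup P) :
    (∀ x : P, x * x ∈ Subgroup.center P) ∧ (∀ x y : P, x⁻¹ * y⁻¹ * x * y ∈ Subgroup.center P) ∧
      (Nat.card P = Nat.card (Subgroup.center P) ^ 2 ∨ Nat.card P = Nat.card (Subgroup.center P) ^ 3) ∧
      Monoid.exponent P = 4 := by
  classical
  obtain ⟨hinv, hZ2⟩ := Cfsg.Agent.S1137.result hP
  obtain ⟨hfin, hp, hnab, htwo, K, hK, hreg⟩ := hP
  haveI := hfin
  haveI := hK
  letI : CommGroup ↥K := IsCyclic.commGroup
  have hreg' : Cfsg.Agent.S1137.Reg (K.subtype) := hreg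
  have hc : ∀ x : P, x * x = 1 → x ∈ Subgroup.center P := by
    intro x hx
    by_cases h1 : x = 1
    · rw [h1]; exact Subgroup.one_mem _
    · exact ((hinv x).mp ⟨h1, hx⟩).1
  have hZ : ∀ x : P, x ∈ Subgroup.center P ↔ x * x = 1 := fun x => ⟨hZ2 x, hc x⟩
  -- exponent 4
  have h4 : ∀ x : P, (x * x) * (x * x) = 1 := by
    by_contra hcon
    push Not at hcon
    obtain ⟨x₀, hx₀⟩ := hcon
    obtain ⟨d, hd, hdM, hdC⟩ := Sz2.exists_d0 hp hreg' htwo hnab x₀ hx₀
    obtain ⟨M, C, hconf⟩ := Sz2.conf_of_d0 hp hreg' htwo hnab d hd hdM hdC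
    have hCc := Sz2.C_comm hp hconf
    have hC4 := Sz2.C_exp_four hp hconf hCc
    obtain ⟨S, hgen, p1, p2, p3⟩ := Sz2.exists_gens hp hconf hC4
    exact hx₀ (Sz2.exp4_of_gens hconf hC4 S hgen p1 p2 p3 x₀)
  have hsq : ∀ x : P, x * x ∈ Subgroup.center P := fun x => hc _ (h4 x)
  -- the quotient by the centre has exponent 2, so it is abelian
  have h2Q : ∀ q : P ⧸ Subgroup.center P, q * q = 1 := by
    intro q
    induction q using QuotientGroup.induction_on with
    | H a =>
      rw [← QuotientGroup.mk_mul, QuotientGroup.eq_one_iff]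
      exact hsq a
  have hQcomm : ∀ a b : P ⧸ Subgroup.center P, a * b = b * a := by
    intro a b
    have h1 := h2Q (a * b)
    have ha := h2Q a
    have hb := h2Q b
    calc a * b = a * ((a * b) * (a * b)) * b := by rw [h1, mul_one]
      _ = (a * a) * (b * a) * (b * b) := by group
      _ = b * a := by rw [ha, hb, one_mul, mul_one]
  have hcomm : ∀ x y : P, x⁻¹ * y⁻¹ * x * y ∈ Subgroup.center P := by
    intro x y
    rw [← QuotientGroup.eq_one_iff]
    simp only [QuotientGroup.mk_mul, QuotientGroup.mk_inv]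
    rw [mul_assoc ((x : P ⧸ Subgroup.center P))⁻¹, hQcomm ((y : P ⧸ Subgroup.center P))⁻¹ x]
    group
  -- the order
  have hcardZ : Nat.card {x : P // x * x = 1} = Nat.card (Subgroup.center P) := by
    apply Nat.card_congr
    exact Equiv.subtypeEquivRight (fun x => (hZ x).symm)
  have hle : Nat.card P ≤ Nat.card (Subgroup.center P) ^ 3 := by
    rw [← hcardZ]
    exact Sz2.card_le_cube hc h4
  have hcard := Sz2.card_sq_or_cube hp hreg' htwo hnab hZ hle
  -- exponent exactly 4
  have hexp : Monoid.exponent P = 4 := by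
    have hdvd : Monoid.exponent P ∣ 4 := by
      apply Monoid.exponent_dvd_of_forall_pow_eq_one
      intro x
      have := h4 x
      calc x ^ 4 = (x * x) * (x * x) := by
            rw [show (4 : ℕ) = 2 + 2 from rfl, pow_add, pow_two]
        _ = 1 := this
    have hne2 : ¬ Monoid.exponent P ∣ 2 := by
      intro h2
      obtain ⟨x, y, hxy⟩ := hnab
      have hsq1 : ∀ g : P, g * g = 1 := by
        intro g
        have := Monoid.exponent_dvd_iff_forall_pow_eq_one.mp h2 g
        rw [pow_two] at this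
        exact this
      apply hxy
      have h1 := hsq1 (x * y)
      have hx := hsq1 x
      have hy := hsq1 y
      calc x * y = x * ((x * y) * (x * y)) * y := by rw [h1, mul_one]
        _ = (x * x) * (y * x) * (y * y) := by group
        _ = y * x := by rw [hx, hy, one_mul, mul_one]
    have h4' : (4 : ℕ) = 2 ^ 2 := by norm_num
    rw [h4'] at hdvd
    obtain ⟨j, hj, hje⟩ := (Nat.dvd_prime_pow Nat.prime_two).mp hdvd
    interval_cases j
    · exfalso; apply hne2; rw [hje]; norm_num
    · exfalso; apply hne2; rw [hje]; norm_num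
    · rw [hje]; norm_num
  exact ⟨hsq, hcomm, hcard, hexp⟩

end Cfsg.Agent.S1138
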