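import Cfsg.Statements.S1255
import Mathlib
import Cfsg.Agent.S0111
import Cfsg.Agent.Lib.Helper43.DihSyl2

set_option autoImplicit false
open Cfsg

namespace Cfsg.Agent.S1255

open Cfsg.Agent.Lib.Helper42 Cfsg.Agent.Lib.Helper75 Cfsg.Agent.Lib.Helper14 Cfsg.Agent.Lib.Helper43

theorem orderOf_conj_eq {X : Type*} [Group X] (g t : X) : orderOf (g * t * g⁻¹) = orderOf t :=
  (MulAut.conj g).orderOf_eq t

/-- Let X be a finite group whose Sylow 2-subgroup S is dihedral of order 2m ≥ 4. Then X has no subgroup of index 2 and no isolated involution if and only if either all involutions of X are conjugate, or for every Klein four-subgroup U ≤ S the index |N_X(U) : C_X(U)| equals 3 when |S| = 4 and equals 6 when |S| > 4. -/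
theorem result {X : Type*} [Group X] [Finite X] (S : Sylow 2 X) (m : ℕ) (hm : 2 ≤ m) (eS : (S : Subgroup X) ≃* DihedralGroup m) : ((∀ H : Subgroup X, H.index ≠ 2) ∧ (∀ z : X, ¬ Cfsg.IsIsolatedInvolution z)) ↔ ((∀ a b : X, orderOf a = 2 → orderOf b = 2 → IsConj a b) ∨ (∀ U : Subgroup X, U ≤ S → IsKleinFour U → (Subgroup.centralizer (U : Set X)).relIndex (Subgroup.normalizer (U : Set X)) = (if Nat.card S = 4 then 3 else 6))) := by
  classical
  obtain ⟨k, hk, hmk, ι, hinj, hS, hsurj⟩ := exists_dih_emb S m hm eS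
  have hm0 : NeZero m := ⟨by omega⟩
  obtain ⟨M, hMmem, hMS, hMc, hMi⟩ := dih_cyclic_max S m ι hinj hS hsurj
  obtain ⟨z, hz⟩ : ∃ z, z = ι (DihedralGroup.r (k : ZMod m)) := ⟨_, rfl⟩
  have hzo : orderOf z = 2 := by rw [hz, orderOf_injective ι hinj, dih_orderOf_r_half hk hmk]
  have hzS : z ∈ (S : Subgroup X) := by rw [hz]; exact hS _
  have hz1 : z ≠ 1 := by intro h1; rw [h1, orderOf_one] at hzo; omega
  have hz2 : z * z = 1 := by rw [← pow_two, ← hzo]; exact pow_orderOf_eq_one z
  -- involutions of S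
  have hinvS : ∀ x ∈ (S : Subgroup X), orderOf x = 2 →
      x = z ∨ ∃ i, x = ι (DihedralGroup.sr i) := by
    intro x hx hxo
    obtain ⟨d, rfl⟩ := hsurj x hx
    rw [orderOf_injective ι hinj] at hxo
    rcases dih_involution hk hmk d hxo with rfl | ⟨i, rfl⟩
    · left; rw [hz]
    · right; exact ⟨i, rfl⟩
  have hreflM : ∀ i, ι (DihedralGroup.sr i) ∉ M := by
    intro i hi
    obtain ⟨j, hj⟩ := (hMmem _).mp hi
    have := hinj hj
    cases this
  have hzc : ∀ d, z * ι d = ι d * z := by
    intro d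
    rw [hz, ← map_mul, ← map_mul, dih_r_central _ (zmod_half_add_half hmk)]
  have hzne : ∀ i, z ≠ ι (DihedralGroup.sr i) := by
    intro i h; rw [hz] at h; have := hinj h; cases this
  -- no subgroup of index two: all involutions are conjugate to `z`
  have key1 : (∀ H : Subgroup X, H.index ≠ 2) → ∀ t : X, orderOf t = 2 → IsConj t z := by
    intro hL1 t ht
    obtain ⟨g, hg⟩ := exists_conj_mem_sylow_of_involution S t ht
    have hgo : orderOf (g * t * g⁻¹) = 2 := by rw [orderOf_conj_eq, ht]
    rcases hinvS _ hg hgo with h | ⟨i, h⟩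
    · exact isConj_iff.mpr ⟨g, h⟩
    · have huM : g * t * g⁻¹ ∉ M := by rw [h]; exact hreflM i
      rcases Cfsg.Agent.S0111.result S M hMS hMi _ hgo hg huM with ⟨N, hN, hNi, _⟩ | ⟨g', hg'⟩
      · exact absurd hNi (hL1 N)
      · have hS' := hMS hg'
        have ho' : orderOf (g' * (g * t * g⁻¹) * g'⁻¹) = 2 := by rw [orderOf_conj_eq, hgo]
        rcases hinvS _ hS' ho' with h' | ⟨i', h'⟩
        · refine isConj_iff.mpr ⟨g' * g, ?_⟩
          rw [← h']; group
        · rw [h'] at hg'; exact absurd hg' (hreflM i')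
  -- all involutions conjugate: no subgroup of index two and no isolated involution
  have key2 : (∀ a b : X, orderOf a = 2 → orderOf b = 2 → IsConj a b) →
      (∀ H : Subgroup X, H.index ≠ 2) ∧ (∀ z : X, ¬ Cfsg.IsIsolatedInvolution z) := by
    intro hR1
    obtain ⟨y0, hy0⟩ : ∃ y0, y0 = ι (DihedralGroup.sr 0) := ⟨_, rfl⟩
    obtain ⟨y1, hy1⟩ : ∃ y1, y1 = ι (DihedralGroup.sr 1) := ⟨_, rfl⟩
    have hy0o : orderOf y0 = 2 := by
      rw [hy0, orderOf_injective ι hinj, DihedralGroup.orderOf_sr]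
    have hy1o : orderOf y1 = 2 := by
      rw [hy1, orderOf_injective ι hinj, DihedralGroup.orderOf_sr]
    constructor
    · intro H hH
      have hHn : H.Normal := Subgroup.normal_of_index_eq_two hH
      have hconjH : ∀ a b : X, IsConj a b → a ∈ H → b ∈ H := by
        intro a b hab ha
        obtain ⟨c, rfl⟩ := isConj_iff.mp hab
        exact hHn.conj_mem a ha c
      have hr1 : ι (DihedralGroup.r 1) = y0 * y1 := by
        rw [hy0, hy1, ← map_mul, DihedralGroup.sr_mul_sr, sub_zero]
      have hzpow : z = (ι (DihedralGroup.r 1)) ^ k := by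
        rw [hz, ← map_pow, DihedralGroup.r_one_pow]
      have hzH : z ∈ H := by
        by_cases h0 : y0 ∈ H
        · exact hconjH y0 z (hR1 y0 z hy0o hzo) h0
        · have h1 : y1 ∉ H := fun h => h0 (hconjH y1 y0 (hR1 y1 y0 hy1o hy0o) h)
          have h2 : y0 * y1 ∈ H :=
            (Subgroup.mul_mem_iff_of_index_two hH).mpr
              ⟨fun h => absurd h h0, fun h => absurd h h1⟩
          rw [hzpow, hr1]; exact H.pow_mem h2 k
      have hy0H : y0 ∈ H := hconjH z y0 (hR1 z y0 hzo hy0o) hzH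
      have hy1H : y1 ∈ H := hconjH z y1 (hR1 z y1 hzo hy1o) hzH
      have hSH : (S : Subgroup X) ≤ H := by
        intro x hx
        obtain ⟨d, rfl⟩ := hsurj x hx
        have hrj : ∀ j : ZMod m, ι (DihedralGroup.r j) ∈ H := by
          intro j
          have : ι (DihedralGroup.r j) = (ι (DihedralGroup.r 1)) ^ j.val := by
            rw [← map_pow, DihedralGroup.r_one_pow, ZMod.natCast_zmod_val]
          rw [this, hr1]; exact H.pow_mem (H.mul_mem hy0H hy1H) _
        cases d with
        | r j => exact hrj j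
        | sr i =>
          have : ι (DihedralGroup.sr i) = y0 * ι (DihedralGroup.r i) := by
            rw [hy0, ← map_mul, DihedralGroup.sr_mul_r, zero_add]
          rw [this]; exact H.mul_mem hy0H (hrj i)
      have hdvd : H.index ∣ (S : Subgroup X).index := Subgroup.index_dvd_of_le hSH
      rw [hH] at hdvd
      exact S.not_dvd_index hdvd
    · rintro t ⟨hto, hiso⟩
      obtain ⟨h1, hh1⟩ := isConj_iff.mp (hR1 t z hto hzo)
      obtain ⟨h2, hh2⟩ := isConj_iff.mp (hR1 t y0 hto hy0o)
      have hzy : z * y0 = y0 * z := by rw [hy0]; exact hzc _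
      have hzney : z ≠ y0 := by rw [hy0]; exact hzne 0
      have e1 : t = h1⁻¹ * z * h1 := by rw [← hh1]; group
      have e2 : (h1⁻¹ * h2) * t * (h1⁻¹ * h2)⁻¹ = h1⁻¹ * y0 * h1 := by rw [← hh2]; group
      have hcomm : Commute t ((h1⁻¹ * h2) * t * (h1⁻¹ * h2)⁻¹) := by
        rw [e2]
        show t * (h1⁻¹ * y0 * h1) = (h1⁻¹ * y0 * h1) * t
        rw [e1]
        calc h1⁻¹ * z * h1 * (h1⁻¹ * y0 * h1) = h1⁻¹ * (z * y0) * h1 := by group
          _ = h1⁻¹ * (y0 * z) * h1 := by rw [hzy]
          _ = h1⁻¹ * y0 * h1 * (h1⁻¹ * z * h1) := by group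
      have h3 := hiso _ hcomm
      rw [e2] at h3
      rw [e1] at h3
      exact hzney (mul_left_cancel (mul_right_cancel h3)).symm
  -- the normalizer condition: all involutions are conjugate to `z`
  have key3 : (∀ U : Subgroup X, U ≤ S → IsKleinFour U →
      (Subgroup.centralizer (U : Set X)).relIndex (Subgroup.normalizer (U : Set X)) =
        (if Nat.card S = 4 then 3 else 6)) → ∀ t : X, orderOf t = 2 → IsConj t z := by
    intro hR2 t ht
    obtain ⟨g, hg⟩ := exists_conj_mem_sylow_of_involution S t ht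
    have hgo : orderOf (g * t * g⁻¹) = 2 := by rw [orderOf_conj_eq, ht]
    rcases hinvS _ hg hgo with h | ⟨i, h⟩
    · exact isConj_iff.mpr ⟨g, h⟩
    · obtain ⟨u, hu⟩ : ∃ u, u = g * t * g⁻¹ := ⟨_, rfl⟩
      rw [← hu] at h hg hgo
      have hu1 : u ≠ 1 := by intro h1; rw [h1, orderOf_one] at hgo; omega
      have hu2 : u * u = 1 := by rw [← pow_two, ← hgo]; exact pow_orderOf_eq_one u
      have hzu : z * u = u * z := by rw [h]; exact hzc _
      have hzneu : z ≠ u := by rw [h]; exact hzne i
      obtain ⟨U, hUmem, hUK⟩ := exists_kleinFour z u hz1 hu1 hzneu hz2 hu2 hzu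
      have hUS : U ≤ (S : Subgroup X) := by
        intro x hx
        rcases (hUmem x).mp hx with rfl | rfl | rfl | rfl
        · exact Subgroup.one_mem _
        · exact hzS
        · exact hg
        · exact Subgroup.mul_mem _ hzS hg
      have h3 : 3 ∣ (Subgroup.centralizer (U : Set X)).relIndex
          (Subgroup.normalizer (U : Set X)) := by
        rw [hR2 U hUS hUK]; split_ifs <;> norm_num
      have hc := kleinFour_conj_of_three_dvd U hUK h3 u z
        ((hUmem u).mpr (Or.inr (Or.inr (Or.inl rfl)))) ((hUmem z).mpr (Or.inr (Or.inl rfl)))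
        hu1 hz1
      exact (isConj_iff.mpr ⟨g, hu.symm⟩).trans hc
  constructor
  · rintro ⟨h1, _⟩
    left
    intro a b ha hb
    exact (key1 h1 a ha).trans (key1 h1 b hb).symm
  · rintro (h | h)
    · exact key2 h
    · exact key2 (fun a b ha hb => (key3 h a ha).trans (key3 h b hb).symm)

end Cfsg.Agent.S1255
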