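-- Statement S1282
import Cfsg.Statements.S1282
import Mathlib
import Cfsg.Agent.S1324

set_option autoImplicit false
open Cfsg

namespace Cfsg.Agent.S1282

open Subgroup

/-- If `X` is not contained in `D`, some hyperplane of `A` has fixed points on `X` outside `D`. -/
theorem exists_hyperplane {G : Type*} [Group G] [Finite G] (p : ℕ) [Fact p.Prime]
    (A X D : Subgroup G) (hA : Cfsg.IsElementaryAbelian p A) (hA2 : p ^ 2 ≤ Nat.card ↥A)
    (hX : ¬ p ∣ Nat.card ↥X) (hAX : A ≤ normalizer (X : Set G)) (hXD : ¬ X ≤ D) :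
    ∃ B : Subgroup G, B ≤ A ∧ B.relIndex A ≤ p ∧ ¬ (X ⊓ centralizer (B : Set G) ≤ D) := by
  by_contra hcon
  push Not at hcon
  apply hXD
  calc X = _ := Cfsg.Agent.S1324.result p A X hA hA2 hX hAX
    _ ≤ D := iSup_le fun B => hcon B.1 B.2.1 B.2.2

/-- Two hyperplanes of an elementary abelian group of rank at least 3 meet nontrivially. -/
theorem hyperplanes_meet {G : Type*} [Group G] [Finite G] (p : ℕ) [Fact p.Prime]
    (A B₁ B₂ : Subgroup G) (hA3 : p ^ 3 ≤ Nat.card ↥A)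
    (hB₁i : B₁.relIndex A ≤ p) (hB₂i : B₂.relIndex A ≤ p) : B₁ ⊓ B₂ ≠ ⊥ := by
  have hp := (Fact.out : p.Prime)
  intro h
  have h1 := Subgroup.relIndex_inf_le (H := B₁) (K := B₂) (L := A)
  rw [h, Subgroup.relIndex_bot_left] at h1
  have h2 : B₁.relIndex A * B₂.relIndex A ≤ p * p := Nat.mul_le_mul hB₁i hB₂i
  have h3 : p * p < p ^ 3 := by
    have h4 := hp.one_lt
    have h5 : p * p * 1 < p * p * p :=
      Nat.mul_lt_mul_of_pos_left h4 (Nat.mul_pos hp.pos hp.pos)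
    calc p * p = p * p * 1 := by ring
      _ < p * p * p := h5
      _ = p ^ 3 := by ring
  omega

/-- A proper subgroup `D` of a `q`-group `Q` is properly contained in its normalizer in `Q`. -/
theorem normalizer_inf_not_le {G : Type*} [Group G] [Finite G] (q : ℕ) [Fact q.Prime]
    (D Q : Subgroup G) (hQ : IsPGroup q ↥Q) (hDQ : D ≤ Q) (hne : D ≠ Q) :
    ¬ (normalizer (D : Set G) ⊓ Q ≤ D) := by
  intro hle
  haveI : Group.IsNilpotent Q := hQ.isNilpotent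
  have hlt : D.subgroupOf Q < ⊤ := by
    rw [lt_top_iff_ne_top]; intro h
    rw [Subgroup.subgroupOf_eq_top] at h
    exact hne (le_antisymm hDQ h)
  have hnc := Group.normalizerCondition_of_isNilpotent (G := Q) _ hlt
  obtain ⟨x, hx1, hx2⟩ := SetLike.exists_of_lt hnc
  apply hx2
  rw [Subgroup.mem_subgroupOf]
  apply hle
  refine Subgroup.mem_inf.mpr ⟨?_, x.2⟩
  rw [Subgroup.mem_normalizer_iff] at hx1 ⊢
  intro h
  constructor
  · intro hh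
    have := (hx1 ⟨h, hDQ hh⟩).mp (Subgroup.mem_subgroupOf.mpr hh)
    simpa [Subgroup.mem_subgroupOf] using this
  · intro hh
    have hhQ : h ∈ Q := by
      have h1 : (x : G) * h * (x : G)⁻¹ ∈ Q := hDQ hh
      have : h = (x : G)⁻¹ * ((x : G) * h * (x : G)⁻¹) * (x : G) := by group
      rw [this]
      exact Q.mul_mem (Q.mul_mem (Q.inv_mem x.2) h1) x.2
    have := (hx1 ⟨h, hhQ⟩).mpr (Subgroup.mem_subgroupOf.mpr (by simpa using hh))
    simpa [Subgroup.mem_subgroupOf] using this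

/-- Let A be an elementary abelian p-subgroup of rank at least 3 of a finite group G, q a prime different from p, and Q_1, Q_2 two q-subgroups normalized by A, neither containing the other, with D = Q_1 ∩ Q_2. Then there is a non-identity a ∈ A such that both N_{Q_1}(D) ∩ C_G(a) and N_{Q_2}(D) ∩ C_G(a) are not contained in D. -/
theorem result {G : Type*} [Group G] [Finite G] (p : ℕ) [Fact p.Prime] (A : Subgroup G) (hA : Cfsg.IsElementaryAbelian p A) (hA3 : p ^ 3 ≤ Nat.card ↥A) (q : ℕ) [Fact q.Prime] (hqp : q ≠ p) (Q₁ Q₂ : Subgroup G) (h₁ : IsPGroup q ↥Q₁) (h₂ : IsPGroup q ↥Q₂) (hA₁ : A ≤ Subgroup.normalizer (Q₁ : Set G)) (hA₂ : A ≤ Subgroup.normalizer (Q₂ : Set G)) (hD₁ : Q₁ ⊓ Q₂ ≠ Q₁) (hD₂ : Q₁ ⊓ Q₂ ≠ Q₂) : ∃ a ∈ A, a ≠ 1 ∧ ¬ (Subgroup.normalizer ((Q₁ ⊓ Q₂ : Subgroup G) : Set G) ⊓ Q₁ ⊓ Subgroup.centralizer {a} ≤ Q₁ ⊓ Q₂) ∧ ¬ (Subgroup.normalizer ((Q₁ ⊓ Q₂ : Subgroup G) :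 Set G) ⊓ Q₂ ⊓ Subgroup.centralizer {a} ≤ Q₁ ⊓ Q₂) := by
  have hp := (Fact.out : p.Prime)
  have hq := (Fact.out : q.Prime)
  have hAD : A ≤ normalizer ((Q₁ ⊓ Q₂ : Subgroup G) : Set G) := fun a ha =>
    Cfsg.Agent.Lib.Helper30.normalizer_inf_le _ _ (Subgroup.mem_inf.mpr ⟨hA₁ ha, hA₂ ha⟩)
  have hA2 : p ^ 2 ≤ Nat.card ↥A :=
    le_trans (Nat.pow_le_pow_right hp.pos (by norm_num)) hA3
  have claim : ∀ Q : Subgroup G, IsPGroup q Q → A ≤ normalizer (Q : Set G) → Q₁ ⊓ Q₂ ≤ Q →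
      Q₁ ⊓ Q₂ ≠ Q → ∃ B : Subgroup G, B ≤ A ∧ B.relIndex A ≤ p ∧
        ¬ (normalizer ((Q₁ ⊓ Q₂ : Subgroup G) : Set G) ⊓ Q ⊓ centralizer (B : Set G) ≤ Q₁ ⊓ Q₂) := by
    intro Q hQ hAQ hDQ hne
    apply exists_hyperplane p A (normalizer ((Q₁ ⊓ Q₂ : Subgroup G) : Set G) ⊓ Q) (Q₁ ⊓ Q₂) hA hA2
    · intro hdvd
      have h1 : p ∣ Nat.card Q := dvd_trans hdvd (Subgroup.card_dvd_of_le inf_le_right)
      obtain ⟨n, hn⟩ := IsPGroup.iff_card.mp hQ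
      rw [hn] at h1
      exact hqp ((Nat.prime_dvd_prime_iff_eq hp hq).mp (hp.dvd_of_dvd_pow h1)).symm
    · intro a ha
      exact Cfsg.Agent.Lib.Helper30.normalizer_inf_le _ _
        (Subgroup.mem_inf.mpr ⟨Subgroup.le_normalizer (hAD ha), hAQ ha⟩)
    · exact normalizer_inf_not_le q _ Q hQ hDQ hne
  obtain ⟨B₁, hB₁A, hB₁i, hB₁⟩ := claim Q₁ h₁ hA₁ inf_le_left hD₁
  obtain ⟨B₂, hB₂A, hB₂i, hB₂⟩ := claim Q₂ h₂ hA₂ inf_le_right hD₂
  have hne : B₁ ⊓ B₂ ≠ ⊥ := hyperplanes_meet p A B₁ B₂ hA3 hB₁i hB₂i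
  obtain ⟨⟨a, haB⟩, ha1⟩ := Subgroup.ne_bot_iff_exists_ne_one.mp hne
  have haB₁ : a ∈ B₁ := (Subgroup.mem_inf.mp haB).1
  have haB₂ : a ∈ B₂ := (Subgroup.mem_inf.mp haB).2
  refine ⟨a, hB₁A haB₁, fun h => ha1 (Subtype.ext h), fun hle => hB₁ (le_trans ?_ hle),
    fun hle => hB₂ (le_trans ?_ hle)⟩
  · exact inf_le_inf_left _ (Subgroup.centralizer_le (Set.singleton_subset_iff.mpr haB₁))
  · exact inf_le_inf_left _ (Subgroup.centralizer_le (Set.singleton_subset_iff.mpr haB₂))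

end Cfsg.Agent.S1282
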