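import Cfsg.Statements.S1313
import Cfsg.Agent.Lib.Helper30.Basic

set_option autoImplicit false
open Cfsg

namespace Cfsg.Agent.S1313

theorem card_mulAut_le {F : Type*} [Group F] [Finite F] :
    Nat.card (MulAut F) ≤ (Nat.card F - 1).factorial := by
  classical
  have hfin := Fintype.ofFinite F
  let ι : MulAut F → Equiv.Perm {x : F // x ≠ 1} := fun α =>
    α.toEquiv.subtypeEquiv (fun a => by simp)
  have hι : Function.Injective ι := by
    intro α β hαβ
    ext x
    by_cases hx : x = 1
    · subst hx; simp
    · have := congrArg (fun e => ((e ⟨x, hx⟩ : {x : F // x ≠ 1}) : F)) hαβ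
      simpa [ι] using this
  have h1 := Nat.card_le_card_of_injective ι hι
  have h2 : Nat.card {x : F // x ≠ 1} = Nat.card F - 1 := by
    rw [Nat.card_eq_fintype_card, Nat.card_eq_fintype_card]
    have := Fintype.card_subtype_compl (fun x : F => x = 1)
    rw [Fintype.card_subtype_eq] at this
    exact this
  rw [Nat.card_perm, h2] at h1
  exact h1

open Cfsg.Agent.Lib.Helper30 in
/-- For every finite group H, |H| ≤ |F*(H)|!. -/
theorem result {H : Type*} [Group H] [Finite H] : Nat.card H ≤ Nat.factorial (Nat.card ↥(Cfsg.generalizedFittingSubgroup H)) := by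
  have hFn : (generalizedFittingSubgroup H).Normal := genFitting_normal
  have hker : (MulAut.conjNormal (H := generalizedFittingSubgroup H)).ker
      ≤ generalizedFittingSubgroup H := by
    refine le_trans ?_ centralizer_genFitting_le
    intro g hg
    rw [Subgroup.mem_centralizer_iff]
    intro z hz
    have h1 : MulAut.conjNormal g (⟨z, hz⟩ : generalizedFittingSubgroup H) = ⟨z, hz⟩ := by
      rw [MonoidHom.mem_ker.mp hg]; rfl
    have h2 := congrArg Subtype.val h1
    rw [MulAut.conjNormal_apply] at h2
    calc z * g = (g * z * g⁻¹) * g := by rw [h2]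
      _ = g * z := by group
  have hcard : Nat.card H = Nat.card (MulAut.conjNormal (H := generalizedFittingSubgroup H)).ker
      * Nat.card (MulAut.conjNormal (H := generalizedFittingSubgroup H)).range := by
    rw [← Subgroup.index_ker]
    exact (Subgroup.card_mul_index _).symm
  have h1 : Nat.card (MulAut.conjNormal (H := generalizedFittingSubgroup H)).ker
      ≤ Nat.card (generalizedFittingSubgroup H) := Subgroup.card_le_of_le hker
  have h2 : Nat.card (MulAut.conjNormal (H := generalizedFittingSubgroup H)).range
      ≤ Nat.card (MulAut (generalizedFittingSubgroup H)) := Subgroup.card_le_card_group _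
  have h3 := card_mulAut_le (F := generalizedFittingSubgroup H)
  have hpos : 0 < Nat.card (generalizedFittingSubgroup H) := Nat.card_pos
  calc Nat.card H
      = Nat.card (MulAut.conjNormal (H := generalizedFittingSubgroup H)).ker
        * Nat.card (MulAut.conjNormal (H := generalizedFittingSubgroup H)).range := hcard
    _ ≤ Nat.card (generalizedFittingSubgroup H)
        * (Nat.card (generalizedFittingSubgroup H) - 1).factorial :=
        Nat.mul_le_mul h1 (h2.trans h3)
    _ = (Nat.card (generalizedFittingSubgroup H)).factorial := Nat.mul_factorial_pred hpos.ne'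

end Cfsg.Agent.S1313
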