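import Cfsg.Statements.S1397
import Cfsg.Agent.Lib.Helper32.Uniq7

set_option autoImplicit false
open Cfsg

namespace Cfsg.Agent.S1397

/-- Let G be a minimal simple group of odd order, M a maximal subgroup, p a prime and A₀ an elementary abelian p-subgroup of F(M) of order at least p ^ 3 that is maximal among elementary abelian p-subgroups of F(M). (a) If F(M) is not a p-group, then F(M) ∩ C_G(A₀) lies in exactly one maximal subgroup of G. (b) If F(M) is a p-group and P is a Sylow p-subgroup of M, then p does not divide the index of P in G, and every normal self-centralizing subgroup A of P containing an elementary abelian subgroup of order p ^ 3 is contained in F(M) and lies in exactly one maximal subgroup of G. -/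
theorem result {G : Type*} [Group G] [Finite G] (hG : Cfsg.IsMinSimpleOddOrder G)
    (M : Subgroup G) (hM : IsCoatom M) (p : ℕ) [Fact p.Prime] (A₀ : Subgroup G)
    (hA₀ : A₀ ≤ Cfsg.fittingOf M) (hA₀e : Cfsg.IsElementaryAbelian p A₀) (hA₀3 : p ^ 3 ≤ Nat.card A₀)
    (hA₀max : ∀ B : Subgroup G, B ≤ Cfsg.fittingOf M → Cfsg.IsElementaryAbelian p B → A₀ ≤ B → B = A₀) :
    (¬ IsPGroup p ↥(Cfsg.fittingOf M) → Cfsg.InUniqueMaximal (Cfsg.fittingOf M ⊓ Subgroup.centralizer (A₀ : Set G))) ∧
      (IsPGroup p ↥(Cfsg.fittingOf M) → ∀ P : Sylow p M,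
        ¬ p ∣ ((P : Subgroup M).map M.subtype).index ∧
        ∀ A : Subgroup G, Cfsg.IsSCN ((P : Subgroup M).map M.subtype) A → ¬ Cfsg.PRankLE p 2 ↥A →
          A ≤ Cfsg.fittingOf M ∧ Cfsg.InUniqueMaximal A) := by
  classical
  have hp := (Fact.out : p.Prime)
  have hcomm : ∀ a ∈ A₀, ∀ b ∈ A₀, a * b = b * a := by
    intro a ha b hb
    have h := hA₀e.1
    have := h.1.1 ⟨a, ha⟩ ⟨b, hb⟩
    exact congrArg Subtype.val this
  refine ⟨?_, ?_⟩
  · intro hFnp
    have h := Cfsg.Agent.Lib.Helper32.uniq_centralizer_of_fitting hG hM hA₀ hcomm hA₀e.2 hA₀3 hFnp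
    exact Cfsg.Agent.Lib.Helper32.inUniqueMaximal_of_uniqIn hM
      (inf_le_left.trans (Cfsg.Agent.Lib.Helper32.fittingOf_le M)) h
  · intro hFp P
    have hP := Cfsg.Agent.Lib.Helper32.mem_sylSet_of_sylow P
    have hF1 : Cfsg.fittingOf M ≠ ⊥ := by
      intro h
      have h1 : A₀ = ⊥ := le_bot_iff.mp (h ▸ hA₀)
      rw [h1, Subgroup.card_bot] at hA₀3
      have := Nat.one_lt_pow (n := 3) (by norm_num) hp.one_lt
      omega
    obtain ⟨hPG, hall⟩ := Cfsg.Agent.Lib.Helper32.scn3_of_fitting_pgroup hG hM hFp hF1 hP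
    refine ⟨?_, ?_⟩
    · intro hdvd
      have hcard := hPG.2
      have hmul := Subgroup.card_mul_index ((P : Subgroup M).map M.subtype)
      rw [Subgroup.card_top] at hcard
      have h2 : p ^ ((Nat.card G).factorization p + 1) ∣ Nat.card G := by
        rw [pow_succ]
        have h3 := Nat.mul_dvd_mul_left (Nat.card ((P : Subgroup M).map M.subtype)) hdvd
        rw [hmul, hcard] at h3
        exact h3
      exact Nat.pow_succ_factorization_not_dvd Nat.card_pos.ne' hp h2
    · intro A hA hA3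
      obtain ⟨hAF, hU⟩ := hall A hA hA3
      exact ⟨hAF, Cfsg.Agent.Lib.Helper32.inUniqueMaximal_of_uniqIn hM
        (hAF.trans (Cfsg.Agent.Lib.Helper32.fittingOf_le M)) hU⟩

end Cfsg.Agent.S1397
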