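import Cfsg.Statements.S1398
import Cfsg.Agent.Lib.Helper32.Uniq4
import Cfsg.Agent.S0058

set_option autoImplicit false
open Cfsg

namespace Cfsg.Agent.S1398

/-- Let G be a minimal simple group of odd order, M a maximal subgroup, p a prime, and B a noncyclic elementary abelian p-subgroup of M. If C_G(b) ≤ M for every non-identity b ∈ B, or if every subgroup of G of order coprime to p normalized by B is contained in M, then M is the only maximal subgroup of G containing B. -/
theorem result {G : Type*} [Group G] [Finite G] (hG : Cfsg.IsMinSimpleOddOrder G)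
    (M : Subgroup G) (hM : IsCoatom M) (p : ℕ) [Fact p.Prime] (B : Subgroup G) (hBM : B ≤ M)
    (hBe : Cfsg.IsElementaryAbelian p B) (hBnc : ¬ IsCyclic B)
    (h : (∀ b ∈ B, b ≠ 1 → Subgroup.centralizer ({b} : Set G) ≤ M) ∨
      ∀ Y ∈ Cfsg.invSubgroups ⊤ B (Cfsg.primesNotDvd p), Y ≤ M) :
    Cfsg.InUniqueMaximal B := by
  classical
  have hpp := (Fact.out : p.Prime)
  have hBp : IsPGroup p B := fun g => ⟨1, by rw [pow_one]; exact Subtype.ext (hBe.2 g.1 g.2)⟩
  have hB1 : B ≠ ⊥ := by
    rintro rfl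
    exact hBnc inferInstance
  have hb : ∀ Y : Subgroup G, (Nat.card Y).Coprime p → B ≤ Subgroup.normalizer (Y : Set G) →
      Y ≤ M := by
    intro Y hY hBY
    rcases h with h | h
    · have hBc := hBe.1
      have hcop : (Nat.card B).Coprime (Nat.card Y) := by
        obtain ⟨m, hm⟩ := IsPGroup.iff_card.mp hBp
        rw [hm]; exact Nat.Coprime.pow_left m hY.symm
      have key := Cfsg.Agent.S0058.result B Y hBnc hBY hcop
      rw [← key]
      apply iSup₂_le
      rintro a ⟨haB, ha1⟩
      exact inf_le_right.trans (h a haB ha1)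
    · apply h
      refine ⟨le_top, ?_, hBY⟩
      intro q hq hqY
      refine ⟨hq, ?_⟩
      intro hqp
      have hqeq : q = p := (Nat.prime_dvd_prime_iff_eq hq hpp).mp hqp
      subst hqeq
      exact (Nat.Prime.coprime_iff_not_dvd hq).mp hY.symm hqY
  refine ⟨M, ⟨hM, hBM⟩, ?_⟩
  rintro H ⟨hH, hBH⟩
  exact Cfsg.Agent.Lib.Helper32.uniq_of_inv hG hM hBM hBp hB1 hb H hH hBH

end Cfsg.Agent.S1398
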