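import Cfsg.Statements.S1448
import Mathlib
import Cfsg.Agent.Lib.Helper34.Blk2
import Cfsg.Agent.Lib.Helper34.Blk3
import Cfsg.Agent.Lib.Helper34.Blk4
import Cfsg.Agent.Lib.Helper69.MetaSubgroup
import Cfsg.Agent.S3888

set_option autoImplicit false
open Cfsg

namespace Cfsg.Agent.S1448

/-- Let G be a finite group, p an odd prime, R a nontrivial p-subgroup with no elementary abelian subgroup of order p ^ 3, and A a subgroup of odd order coprime to p normalizing R with [R, A] = R. Then 3 < p, and either R is abelian or R is generated by two elementwise-commuting subgroups R₁, R₂ with R₁ non-abelian of order p ^ 3 and exponent p, R₂ cyclic, and the elements of R₂ of order dividing p generating exactly [R₁, R₁]. -/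
theorem result {G : Type*} [Group G] [Finite G] (p : ℕ) [Fact p.Prime] (hp : p ≠ 2) (R A : Subgroup G) (hR : IsPGroup p R) (hR1 : R ≠ ⊥) (hr : Cfsg.PRankLE p 2 R)
    (hA : (A ≤ Subgroup.normalizer (R : Set G))) (hcop : (Nat.card A).Coprime p) (hAodd : Odd (Nat.card A)) (hRA : ⁅R, A⁆ = R) :
    3 < p ∧ (IsMulCommutative R ∨ ∃ R₁ R₂ : Subgroup G, R₁ ⊔ R₂ = R ∧ (∀ a ∈ R₁, ∀ b ∈ R₂, a * b = b * a) ∧
        ¬ IsMulCommutative R₁ ∧ Nat.card R₁ = p ^ 3 ∧ Monoid.exponent R₁ = p ∧ IsCyclic R₂ ∧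
        Subgroup.closure {x : G | x ∈ R₂ ∧ x ^ p = 1} = ⁅R₁, R₁⁆) := by
  classical
  have hpp : p.Prime := Fact.out
  obtain ⟨θ, hθ⟩ : ∃ θ : ↥A →* MulAut ↥R, θ = Cfsg.Agent.Lib.Helper34.conjAut R A hA := ⟨_, rfl⟩
  have hgen : ∀ N : Subgroup ↥R, (∀ (r : ↥R) (h : ↥A), r * (θ h r)⁻¹ ∈ N) → N = ⊤ := by
    rw [hθ]
    exact Cfsg.Agent.Lib.Helper34.hgen_of_comm R A hA hRA
  have hp3 : 3 < p := by
    by_contra hle
    have hp3' : p = 3 := by
      have h2 := hpp.two_le
      omega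
    have htriv : ∀ a : ↥A, θ a = 1 := by
      intro a
      by_contra hne
      have hord : orderOf (θ a) ≠ 1 := fun h => hne (orderOf_eq_one_iff.mp h)
      obtain ⟨q, hq, hqd⟩ := Nat.exists_prime_and_dvd hord
      have hq' : orderOf ((θ a) ^ (orderOf (θ a) / q)) = q :=
        orderOf_pow_orderOf_div (orderOf_pos _).ne' hqd
      have hqA : q ∣ Nat.card A :=
        dvd_trans hqd (dvd_trans (orderOf_map_dvd θ a) (orderOf_dvd_natCard a))
      have hqp : q ≠ p := by
        rintro rfl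
        exact hpp.one_lt.ne' ((Nat.Coprime.symm hcop).eq_one_of_dvd hqA)
      have h3 := (Cfsg.Agent.Lib.Helper34.prime_order_aut_of_rank2 p hp hR hr _ q hq hqp hq').2
      have h4 : q = 2 := by
        have := hq.two_le
        omega
      rw [h4] at hqA
      obtain ⟨k, hk⟩ := hqA
      obtain ⟨k', hk'⟩ := hAodd
      omega
    have h1 := hgen ⊥ (fun r h => by rw [htriv h]; simp)
    apply hR1
    rw [eq_bot_iff]
    intro g hg
    have h2 : (⟨g, hg⟩ : ↥R) ∈ (⊥ : Subgroup ↥R) := by rw [h1]; exact Subgroup.mem_top _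
    rw [Subgroup.mem_bot] at h2 ⊢
    exact congrArg Subtype.val h2
  refine ⟨hp3, ?_⟩
  obtain ⟨n, hn⟩ := IsPGroup.iff_card.mp hR
  rcases Cfsg.Agent.S3888.result hp n hn hr with hmc |
    ⟨hn3, x, y, z, hclo, hx, hy, hz, hxz, hyz, hxy⟩ |
    ⟨hn4, s, x, y, z, hs, hclo, hx, hy, hz, hyz, hxy, hxz⟩ | ⟨hp3', -, -⟩
  · left
    exact ⟨⟨Cfsg.Agent.Lib.Helper34.metacyclic_comm_of_action hp hR hmc θ hcop hgen⟩⟩
  · rcases Cfsg.Agent.Lib.Helper34.blk_case2 hp hR hr n hn3 hn x y z hclo hx hy hz hxz hyz hxy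
      with hab | ⟨R₁, R₂, h1, h2, h3, h4, h5, h6, h7⟩
    · left
      exact ⟨⟨hab⟩⟩
    · right
      refine ⟨R₁.map R.subtype, R₂.map R.subtype, ?_, ?_, ?_, ?_, ?_, ?_, ?_⟩
      · rw [← Subgroup.map_sup, h1, ← MonoidHom.range_eq_map, Subgroup.range_subtype]
      · rintro _ ⟨a, ha, rfl⟩ _ ⟨b, hb, rfl⟩
        exact congrArg Subtype.val (h2 a ha b hb)
      · rw [Cfsg.Agent.Lib.Helper69.isMulCommutative_map_subtype_iff]
        exact h3
      · rw [Subgroup.card_map_of_injective (Subgroup.subtype_injective R)]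
        exact h4
      · rw [← Monoid.exponent_eq_of_mulEquiv
          (R₁.equivMapOfInjective R.subtype (Subgroup.subtype_injective R))]
        exact h5
      · exact (R₂.equivMapOfInjective R.subtype (Subgroup.subtype_injective R)).isCyclic.mp h6
      · rw [← Subgroup.map_commutator, ← h7, MonoidHom.map_closure]
        congr 1
        ext v
        constructor
        · rintro ⟨⟨w, hw, rfl⟩, hvp⟩
          exact ⟨w, ⟨hw, Subtype.ext (by rw [Subgroup.coe_pow]; exact hvp)⟩, rfl⟩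
        · rintro ⟨w, ⟨hw, hwp⟩, rfl⟩
          refine ⟨⟨w, hw, rfl⟩, ?_⟩
          have h8 := congrArg Subtype.val hwp
          rw [Subgroup.coe_pow] at h8
          exact h8
  · exfalso
    exact Cfsg.Agent.Lib.Helper34.blk_case3 n hn4 hn θ hAodd hgen s x y z hs hclo hx hy hz hyz
      hxy hxz
  · omega

end Cfsg.Agent.S1448
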