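import Cfsg.Statements.S1454
import Mathlib
import Cfsg.Agent.Lib.Helper34.Blk5
import Cfsg.Agent.Lib.Helper34.Narrow3
import Cfsg.Agent.Lib.Helper34.Rank2b
import Cfsg.Agent.S1448

set_option autoImplicit false
open Cfsg

namespace Cfsg.Agent.S1454

/-- Let G be a finite group, p an odd prime, R a narrow p-subgroup and A a solvable subgroup of odd order normalizing R with A ∩ C_G(R) = 1. Then [A, A] ≤ O_p(A) and the index of O_p(A) in A is coprime to p; if R has an elementary abelian subgroup of order p ^ 3 then the order of every element of A of order coprime to p divides p − 1; and if the order of A is a prime not dividing p(p − 1), then 2·#A divides p + 1, and if in addition [R, A] = R and R is non-abelian then #R = p ^ 3. -/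
theorem result {G : Type*} [Group G] [Finite G] (p : ℕ) [Fact p.Prime] (hp : p ≠ 2) (R A : Subgroup G) (hR : IsPGroup p R) (hRn : Cfsg.IsNarrow p R)
    (hA : (A ≤ Subgroup.normalizer (R : Set G))) (hAs : Group.IsSolvable A) (hAodd : Odd (Nat.card A)) (hfaith : A ⊓ Subgroup.centralizer (R : Set G) = ⊥) :
    (commutator ↥A ≤ Cfsg.pCore p ↥A ∧ ((Cfsg.pCore p ↥A).index).Coprime p) ∧
      (¬ Cfsg.PRankLE p 2 R → ∀ a ∈ A, (orderOf a).Coprime p → orderOf a ∣ p - 1) ∧
      ((Nat.card A).Prime → ¬ Nat.card A ∣ p * (p - 1) →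
        2 * Nat.card A ∣ p + 1 ∧ (⁅R, A⁆ = R → ¬ IsMulCommutative R → Nat.card R = p ^ 3)) := by
  classical
  have hpp : p.Prime := Fact.out
  obtain ⟨θ, hθ⟩ : ∃ θ : ↥A →* MulAut ↥R, θ = Cfsg.Agent.Lib.Helper34.conjAut R A hA := ⟨_, rfl⟩
  have hinj : ∀ a : ↥A, θ a = 1 → a = 1 := by
    intro a ha
    have h1 : (a : G) ∈ A ⊓ Subgroup.centralizer (R : Set G) := by
      refine ⟨a.2, ?_⟩
      show (a : G) ∈ Subgroup.centralizer (R : Set G)
      rw [Subgroup.mem_centralizer_iff]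
      intro r hr
      have h2 := Cfsg.Agent.Lib.Helper34.conjAut_apply R A hA a ⟨r, hr⟩
      rw [← hθ, ha] at h2
      have h3 : r = (a : G) * r * (a : G)⁻¹ := h2
      have h4 : (a : G) * r * (a : G)⁻¹ * a = r * a := by rw [← h3]
      rw [← h4]
      group
    rw [hfaith, Subgroup.mem_bot] at h1
    exact Subtype.ext h1
  have hcomP : IsPGroup p (commutator ↥A) := by
    by_cases hrk : PRankLE p 2 R
    · exact Cfsg.Agent.Lib.Helper34.commutator_isPGroup_of_rank2 p hp hR hrk hAs hAodd θ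
        (fun h hh => ⟨0, by rw [hinj h hh]; simp⟩)
    · obtain ⟨N, hNn, hNp, hNc, hNpow⟩ := Cfsg.Agent.Lib.Helper34.narrow_aut hp hR hRn hrk
      rintro ⟨g, hg⟩
      have h1 : θ g ∈ N := by
        have h2 : commutator ↥A ≤ N.comap θ := by
          rw [commutator_eq_closure, Subgroup.closure_le]
          intro x hx
          obtain ⟨a, b, rfl⟩ := mem_commutatorSet_iff.mp hx
          rw [SetLike.mem_coe, Subgroup.mem_comap, commutatorElement_def, map_mul, map_mul,
            map_mul, map_inv, map_inv]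
          exact hNc _ _
        exact h2 hg
      obtain ⟨k, hk⟩ := hNp ⟨θ g, h1⟩
      refine ⟨k, ?_⟩
      have h3 : θ (g ^ (p ^ k)) = 1 := by
        rw [map_pow]
        exact congrArg Subtype.val hk
      exact Subtype.ext (hinj _ h3)
  have hb : ¬ PRankLE p 2 R → ∀ a ∈ A, (orderOf a).Coprime p → orderOf a ∣ p - 1 := by
    intro hrk a ha hcop
    obtain ⟨N, hNn, hNp, hNc, hNpow⟩ := Cfsg.Agent.Lib.Helper34.narrow_aut hp hR hRn hrk
    obtain ⟨k, hk⟩ := hNp ⟨(θ ⟨a, ha⟩) ^ (p - 1), hNpow _⟩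
    have h3 : θ ((⟨a, ha⟩ : ↥A) ^ ((p - 1) * p ^ k)) = 1 := by
      rw [map_pow, pow_mul]
      exact congrArg Subtype.val hk
    have h4 := hinj _ h3
    have h5 : a ^ ((p - 1) * p ^ k) = 1 := congrArg Subtype.val h4
    have h6 := orderOf_dvd_of_pow_eq_one h5
    exact (Nat.Coprime.pow_right k hcop).dvd_of_dvd_mul_right h6
  refine ⟨Cfsg.Agent.Lib.Helper34.pCore_of_commutator_pgroup p hcomP, hb, ?_⟩
  intro hq hq1
  have hqp : Nat.card A ≠ p := by
    intro h
    exact hq1 (h ▸ Dvd.intro _ rfl)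
  have hq2 : ¬ Nat.card A ∣ p - 1 := fun h => hq1 (Dvd.dvd.mul_left h p)
  have hcop : (Nat.card A).Coprime p := (Nat.coprime_primes hq hpp).mpr hqp
  obtain ⟨a, ha1⟩ : ∃ a : ↥A, a ≠ 1 := by
    haveI : Nontrivial ↥A := (Finite.one_lt_card_iff_nontrivial).mp hq.one_lt
    exact exists_ne 1
  have hoa : orderOf a = Nat.card A := by
    rcases (Nat.dvd_prime hq).mp (orderOf_dvd_natCard a) with h | h
    · exact absurd (orderOf_eq_one_iff.mp h) ha1
    · exact h
  have hoθ : orderOf (θ a) = Nat.card A := by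
    rw [← hoa]
    exact orderOf_injective θ ((injective_iff_map_eq_one θ).mpr hinj) a
  have hrk : PRankLE p 2 R := by
    by_contra hrk
    have h1 := hb hrk a a.2 (by rw [Subgroup.orderOf_coe, hoa]; exact hcop)
    rw [Subgroup.orderOf_coe, hoa] at h1
    exact hq2 h1
  have h2 := (Cfsg.Agent.Lib.Helper34.prime_order_aut_of_rank2 p hp hR hrk (θ a) (Nat.card A) hq
    hqp hoθ).1
  refine ⟨?_, ?_⟩
  · have h3 : p ^ 2 - 1 = (p - 1) * (p + 1) := by
      obtain ⟨m, rfl⟩ : ∃ m, p = m + 1 := ⟨p - 1, by have := hpp.one_le; omega⟩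
      have h4 : (m + 1) ^ 2 = m * (m + 1 + 1) + 1 := by ring
      rw [h4, Nat.add_sub_cancel, Nat.add_sub_cancel]
    rw [h3] at h2
    have h4 : Nat.card A ∣ p + 1 := (hq.dvd_mul.mp h2).resolve_left hq2
    have h5 : 2 ∣ p + 1 := by
      obtain ⟨m, hm⟩ := hpp.odd_of_ne_two hp
      exact ⟨m + 1, by omega⟩
    have h6 : Nat.Coprime 2 (Nat.card A) := by
      rw [Nat.prime_two.coprime_iff_not_dvd]
      rintro ⟨k, hk⟩
      obtain ⟨k', hk'⟩ := hAodd
      omega
    exact Nat.Coprime.mul_dvd_of_dvd_of_dvd h6 h5 h4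
  · intro hRA hnc
    have hR1 : R ≠ ⊥ := by
      rintro rfl
      exact hnc ⟨⟨fun x y => Subsingleton.elim _ _⟩⟩
    obtain ⟨-, h7⟩ := Cfsg.Agent.S1448.result p hp R A hR hR1 hrk hA hcop hAodd hRA
    rcases h7 with h7 | ⟨R₁, R₂, h8, h9, -, -, h10, h11, -⟩
    · exact absurd h7 hnc
    · exact Cfsg.Agent.Lib.Helper34.card_cube_of_action p R A hR hrk hA hq hq1 hRA hnc R₁ R₂ h8
        h9 h10 h11

end Cfsg.Agent.S1454
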