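import Cfsg.Statements.S1612
import Cfsg.Agent.Lib.Helper11.Rank3D
import Cfsg.Agent.Lib.Helper11.Rank3E

set_option autoImplicit false
open Cfsg

namespace Cfsg.Agent.S1612

open Cfsg.Agent.Lib.Helper11

theorem isPGroup_closure {G : Type*} [Group G] {E : Set G} (hsq : ∀ e ∈ E, e * e = 1)
    (hc : ∀ a ∈ E, ∀ b ∈ E, Commute a b) : IsPGroup 2 (Subgroup.closure E) := by
  have h1 : ∀ x ∈ Subgroup.closure E, ∀ e ∈ E, Commute x e := by
    intro x hx e he
    induction hx using Subgroup.closure_induction with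
    | mem y hy => exact hc y hy e he
    | one => exact Commute.one_left e
    | mul a b _ _ iha ihb => exact iha.mul_left ihb
    | inv a _ iha => exact iha.inv_left
  have h2 : ∀ x ∈ Subgroup.closure E, ∀ y ∈ Subgroup.closure E, Commute x y := by
    intro x hx y hy
    induction hy using Subgroup.closure_induction with
    | mem e he => exact h1 x hx e he
    | one => exact Commute.one_right x
    | mul a b _ _ iha ihb => exact iha.mul_right ihb
    | inv a _ iha => exact iha.inv_right
  have h3 : ∀ x ∈ Subgroup.closure E, x * x = 1 := by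
    intro x hx
    induction hx using Subgroup.closure_induction with
    | mem e he => exact hsq e he
    | one => exact one_mul 1
    | mul a b ha hb iha ihb =>
      have := (h2 a ha b hb).eq
      calc a * b * (a * b) = a * (b * a) * b := by group
        _ = a * (a * b) * b := by rw [← this]
        _ = (a * a) * (b * b) := by group
        _ = 1 := by rw [iha, ihb, one_mul]
    | inv a _ iha =>
      calc a⁻¹ * a⁻¹ = (a * a)⁻¹ := by group
        _ = 1 := by rw [iha, inv_one]
  intro g
  refine ⟨1, ?_⟩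
  apply Subtype.ext
  rw [pow_one, Subgroup.coe_pow, pow_two]
  exact h3 g.1 g.2

/-- a commuting set of maximum size contains every member of the class lying in a 2-subgroup
that contains the set -/
theorem mem_of_pgroup {G : Type*} [Group G] [Finite G] {D : Set G}
    (hD : Cfsg.IsThreeTranspositionClass D) {E : Set G} (hE : E ⊆ D)
    (hmax : ∀ E' : Set G, E' ⊆ D → (∀ a ∈ E', ∀ b ∈ E', Commute a b) → E'.ncard ≤ E.ncard)
    {S : Subgroup G} (hS : IsPGroup 2 S) (hES : E ⊆ S) {x : G} (hxD : x ∈ D) (hxS : x ∈ S) :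
    x ∈ E := by
  have hcomm : ∀ a ∈ {y : G | y ∈ D ∧ y ∈ S}, ∀ b ∈ {y : G | y ∈ D ∧ y ∈ S}, Commute a b := by
    rintro a ⟨haD, haS⟩ b ⟨hbD, hbS⟩
    apply tt_commute_of_sq hD haD hbD
    rcases hD.1.2 a haD b hbD with h2 | h3
    · exact h2
    · obtain ⟨k, hk⟩ := hS ⟨a * b, S.mul_mem haS hbS⟩
      have hk' : (a * b) ^ 2 ^ k = 1 := by
        have := congrArg Subtype.val hk
        rwa [Subgroup.coe_pow] at this
      have h1 : a * b = 1 :=
        eq_one_of_pow_prime_pow Nat.prime_two Nat.prime_three (by norm_num) hk' h3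
      rw [h1, one_pow]
  have hsub : E ⊆ {y : G | y ∈ D ∧ y ∈ S} := fun e he => ⟨hE he, hES he⟩
  have hle := hmax _ (fun y hy => hy.1) hcomm
  have heq := Set.eq_of_subset_of_ncard_le hsub hle (Set.toFinite _)
  rw [heq]
  exact ⟨hxD, hxS⟩

/-- In a 3-transposition group (no solvable normal subgroup, perfect derived group), the normaliser of a commuting set of transpositions of maximum size contains a Sylow 2-subgroup and is doubly transitive on the set. -/
theorem result {G : Type*} [Group G] [Finite G] (hsol : ∀ N : Subgroup G, N.Normal → Group.IsSolvable ↥N → N = ⊥) (hperf : ⁅commutator G, commutator G⁆ = commutator G) {D : Set G} (hD : Cfsg.IsThreeTranspositionClass D) {E : Set G} (hE : E ⊆ D) (hc : ∀ a ∈ E, ∀ b ∈ E, Commute a b) (hmax : ∀ E' : Set G, E' ⊆ D → (∀ a ∈ E', ∀ b ∈ E', Commute a b) → E'.ncard ≤ E.ncard) : (∃ P : Sylow 2 G, (P : Subgroup G) ≤ Subgroup.normalizer E) ∧ ∀ a ∈ E, ∀ b ∈ E, ∀ c ∈ E, ∀ d ∈ E, a ≠ b → c ≠ d → ∃ g ∈ Subgroup.normalizer E, g * a * g⁻¹ = c ∧ g * b * g⁻¹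 = d := by
  have hprim := ttPrim_of_fischer hsol hperf hD
  have hsq : ∀ e ∈ E, e * e = 1 := fun e he => tt_sq hD (hE he)
  have hpE : IsPGroup 2 (Subgroup.closure E) := isPGroup_closure hsq hc
  constructor
  · obtain ⟨P, hP⟩ := hpE.exists_le_sylow
    refine ⟨P, ?_⟩
    have hEP : E ⊆ ((P : Subgroup G) : Set G) := fun e he => hP (Subgroup.subset_closure he)
    intro g hg
    rw [Subgroup.mem_set_normalizer_iff]
    intro y
    constructor
    · intro hy
      exact mem_of_pgroup hD hE hmax P.isPGroup' hEP (tt_conj_mem hD (hE hy) g)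
        (Subgroup.mul_mem _ (Subgroup.mul_mem _ hg (hEP hy)) (Subgroup.inv_mem _ hg))
    · intro hy
      have h1 : y = g⁻¹ * (g * y * g⁻¹) * g⁻¹⁻¹ := by group
      rw [h1]
      exact mem_of_pgroup hD hE hmax P.isPGroup' hEP (tt_conj_mem hD (hE hy) g⁻¹)
        (Subgroup.mul_mem _ (Subgroup.mul_mem _ (Subgroup.inv_mem _ hg) (hEP hy))
          (Subgroup.inv_mem _ (Subgroup.inv_mem _ hg)))
  · intro a ha b hb c hc' d hd hab hcd
    obtain ⟨g₀, hg1, hg2⟩ := tt_pairs hprim (hE ha) (hE hb) (hE hc') (hE hd) hab hcd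
      (hc a ha b hb) (hc c hc' d hd)
    -- the conjugate set
    have hE₁D : ttcj g₀ '' E ⊆ D := by
      rintro y ⟨e, he, rfl⟩; exact ttcj_mem hD (hE he) g₀
    have hE₁c : ∀ x ∈ ttcj g₀ '' E, ∀ y ∈ ttcj g₀ '' E, Commute x y := by
      rintro x ⟨e, he, rfl⟩ y ⟨f, hf, rfl⟩
      exact (ttcj_commute_iff g₀ e f).mpr (hc e he f hf)
    have hE₁sq : ∀ e ∈ ttcj g₀ '' E, e * e = 1 := fun e he => tt_sq hD (hE₁D he)
    have hpE₁ : IsPGroup 2 (Subgroup.closure (ttcj g₀ '' E)) := isPGroup_closure hE₁sq hE₁c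
    -- both sets lie in the centraliser of c and d
    have hEC : ∀ e ∈ E, e ∈ Subgroup.centralizer ({c, d} : Set G) := by
      intro e he
      rw [Subgroup.mem_centralizer_iff]
      intro x hx
      rcases hx with hx | hx
      · rw [hx]; exact (hc c hc' e he).eq
      · rw [Set.mem_singleton_iff] at hx
        rw [hx]; exact (hc d hd e he).eq
    have hE₁C : ∀ e ∈ ttcj g₀ '' E, e ∈ Subgroup.centralizer ({c, d} : Set G) := by
      rintro y ⟨e, he, rfl⟩
      rw [Subgroup.mem_centralizer_iff]
      intro x hx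
      rcases hx with hx | hx
      · rw [hx, ← hg1]; exact ((ttcj_commute_iff g₀ a e).mpr (hc a ha e he)).eq
      · rw [Set.mem_singleton_iff] at hx
        rw [hx, ← hg2]; exact ((ttcj_commute_iff g₀ b e).mpr (hc b hb e he)).eq
    obtain ⟨S, hS⟩ := (hpE.comap_subtype
      (K := Subgroup.centralizer ({c, d} : Set G))).exists_le_sylow
    obtain ⟨S₁, hS₁⟩ := (hpE₁.comap_subtype
      (K := Subgroup.centralizer ({c, d} : Set G))).exists_le_sylow
    obtain ⟨h, hh⟩ := MulAction.exists_smul_eq (↥(Subgroup.centralizer ({c, d} : Set G))) S₁ S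
    have hhc : Commute (h : G) c := by
      have := h.2
      rw [Subgroup.mem_centralizer_iff] at this
      exact (this c (Or.inl rfl)).symm
    have hhd : Commute (h : G) d := by
      have := h.2
      rw [Subgroup.mem_centralizer_iff] at this
      exact (this d (Or.inr rfl)).symm
    -- the 2-subgroup of G coming from S
    have hS'p : IsPGroup 2 ((S : Subgroup ↥(Subgroup.centralizer ({c, d} : Set G))).map
        (Subgroup.centralizer ({c, d} : Set G)).subtype) :=
      S.isPGroup'.map (Subgroup.centralizer ({c, d} : Set G)).subtype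
    have hES' : E ⊆ (((S : Subgroup ↥(Subgroup.centralizer ({c, d} : Set G))).map
        (Subgroup.centralizer ({c, d} : Set G)).subtype : Subgroup G) : Set G) := by
      intro e he
      refine Subgroup.mem_map.mpr ⟨⟨e, hEC e he⟩, hS ?_, rfl⟩
      exact Subgroup.subset_closure he
    have hmain : ∀ e ∈ E, ttcj ((h : G) * g₀) e ∈ E := by
      intro e he
      have he₁ : ttcj g₀ e ∈ ttcj g₀ '' E := ⟨e, he, rfl⟩
      have hmem₁ : (⟨ttcj g₀ e, hE₁C _ he₁⟩ : ↥(Subgroup.centralizer ({c, d} : Set G)))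
          ∈ (S₁ : Subgroup ↥(Subgroup.centralizer ({c, d} : Set G))) := by
        apply hS₁
        exact Subgroup.subset_closure he₁
      have hmem : h * (⟨ttcj g₀ e, hE₁C _ he₁⟩ : ↥(Subgroup.centralizer ({c, d} : Set G))) * h⁻¹
          ∈ (S : Subgroup ↥(Subgroup.centralizer ({c, d} : Set G))) := by
        rw [← hh, Sylow.coe_subgroup_smul]
        exact Subgroup.smul_mem_pointwise_smul _ (MulAut.conj h) _ hmem₁
      apply mem_of_pgroup hD hE hmax hS'p hES' (ttcj_mem hD (hE he) _)
      refine Subgroup.mem_map.mpr ⟨_, hmem, ?_⟩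
      rw [ttcj_mul]
      rfl
    refine ⟨(h : G) * g₀, ?_, ?_, ?_⟩
    · rw [Subgroup.mem_set_normalizer_iff]
      intro y
      constructor
      · intro hy; exact hmain y hy
      · intro hy
        have himg : ttcj ((h : G) * g₀) '' E = E := by
          apply Set.eq_of_subset_of_ncard_le
          · rintro z ⟨e, he, rfl⟩; exact hmain e he
          · rw [Set.ncard_image_of_injective _ (ttcj_injective _)]
          · exact Set.toFinite _
        have hy' : ttcj ((h : G) * g₀) y ∈ ttcj ((h : G) * g₀) '' E := by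
          rw [himg]; exact hy
        obtain ⟨e, he, hey⟩ := hy'
        rw [← ttcj_inj hey]; exact he
    · have : ttcj ((h : G) * g₀) a = c := by rw [ttcj_mul, hg1, ttcj_comm hhc]
      exact this
    · have : ttcj ((h : G) * g₀) b = d := by rw [ttcj_mul, hg2, ttcj_comm hhd]
      exact this

end Cfsg.Agent.S1612
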