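import Cfsg.Statements.S1615
import Cfsg.Agent.Lib.Helper11.Rank3D
import Cfsg.Agent.Lib.Helper11.F15Lam
import Cfsg.Agent.Lib.Helper88.F15EXN
import Cfsg.Agent.Lib.Helper14.F15POW
import Cfsg.Agent.Lib.Helper4.F15SRG
import Cfsg.Agent.Lib.Helper60.F15NT
import Cfsg.Agent.Lib.Helper19.F15FIN
import Cfsg.Agent.Lib.Helper6.F15CNT

set_option autoImplicit false
open Cfsg

namespace Cfsg.Agent.S1615

open Cfsg.Agent.Lib.Helper11

theorem f15_srg {G : Type*} [Group G] {D : Set G} [Finite G] (h : TTPrim D)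
    (hlam : ∀ d ∈ D, ∀ a ∈ ttNb D d, ∀ b ∈ ttNb D d, Commute a b → a = b)
    {x p q : G} (hx : x ∈ D) (hp : p ∈ D) (hq : q ∈ D) (hpq : ¬ Commute p q)
    (hk : 3 ≤ (ttNb D x).ncard) :
    ∃ s : ℕ, s * s = (ttM D p q).ncard * (ttM D p q).ncard +
        4 * ((ttNb D x).ncard - (ttM D p q).ncard) ∧
      s ∣ (ttNb D x).ncard * ((ttNb D x).ncard + (ttM D p q).ncard - 3) := by
  obtain ⟨h1, h2, h3, h4, h5⟩ := Cfsg.Agent.Lib.Helper6.F15.f15_cnt h hlam hx hp hq hpq
  haveI : Nonempty D := ⟨⟨x, hx⟩⟩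
  exact Cfsg.Agent.Lib.Helper4.F15.srg_tf (V := D) (fun u v => u ≠ v ∧ Commute (u : G) (v : G))
    (fun u v huv => ⟨huv.1.symm, huv.2.symm⟩) (fun u hu => hu.1 rfl) _ _ hk h4 h5 h1 h2 h3

theorem f15_main {G : Type*} [Group G] {D : Set G} [Finite G] (h : TTPrim D) {x : G} (hx : x ∈ D)
    (hnc : ¬ Cfsg.oddCore ↥(Subgroup.closure (ttNb D x)) ≤
      Subgroup.center ↥(Subgroup.closure (ttNb D x))) :
    Nonempty (G ≃* Equiv.Perm (Fin 5)) := by
  have hD := h.1
  obtain ⟨N, hN⟩ := Cfsg.Agent.Lib.Helper88.F15.f15_exists_N h hx hnc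
  have hlam := f15_lambda0 h hx hN
  have hlamall := f15_lambda0_all hD hx hlam
  obtain ⟨a0, ha0D, ha0x, ha0c⟩ := h.2.2.1 x hx
  have ha0 : a0 ∈ ttNb D x := ⟨ha0D, ha0x, ha0c⟩
  obtain ⟨a, ha, n, hn, e, he, hex, hea, hea', -⟩ := f15_sep h hx hN ha0
  obtain ⟨ha', hfix⟩ := f15_orbit hD hN ha hn
  set a' := n * a * n⁻¹ with ha'def
  have hne : a' ≠ a := fun h' => hea' (h' ▸ hea)
  have hnca : ¬ Commute a a' := fun h' => hne (hfix h')
  have ha'' : a * a' * a ∈ ttNb D x := ttNb_cj hD ha ha'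
  have hainv : a⁻¹ = a := tt_inv hD ha.1
  have hcj : a * a' * a = ttcj a a' := by rw [ttcj_def, hainv]
  have hfin : (ttNb D x).Finite := Set.toFinite _
  -- the common neighbours of x and e
  have hMsub : ttM D x e ⊆ ttNb D x := by
    rintro u ⟨huD, hux, hue⟩
    exact ⟨huD, fun h1 => hex (h1 ▸ hue).symm, hux.symm⟩
  have haM : a ∈ ttM D x e := ⟨ha.1, ha.2.2.symm, hea.symm⟩
  have hlt : (ttM D x e).ncard < (ttNb D x).ncard := by
    apply Set.ncard_lt_ncard _ hfin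
    refine ⟨hMsub, fun hsup => ?_⟩
    exact hea' (hsup ha').2.2.symm
  obtain ⟨r, hr⟩ := Cfsg.Agent.Lib.Helper14.F15.tt_pow3 hD (E := ttNb D x) (fun y hy => hy.1) ⟨a, ha⟩ hlam
    (fun u hu v hv => ttNb_cj hD hu hv)
  obtain ⟨t, ht⟩ := Cfsg.Agent.Lib.Helper14.F15.tt_pow3 hD (E := ttM D x e) (fun y hy => hy.1) ⟨a, haM⟩
    (fun u hu v hv huv => hlam u (hMsub hu) v (hMsub hv) huv)
    (by
      intro u hu v hv
      have h1 := ttNb_cj hD (hMsub hu) (hMsub hv)
      have h2 : u * v * u = ttcj u v := by rw [ttcj_def, tt_inv hD hu.1]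
      refine ⟨h1.1, h1.2.2.symm, ?_⟩
      rw [h2]
      exact (commute_ttcj hu.2.2.symm hv.2.2.symm).symm)
  have hMpos : 0 < (ttM D x e).ncard := by
    rw [Set.ncard_pos (hfin.subset hMsub)]
    exact ⟨a, haM⟩
  have hk3 : 3 ≤ (ttNb D x).ncard := by
    rw [hr]
    rcases r with _ | r
    · rw [hr] at hlt; simp at hlt; omega
    · calc 3 = 3 ^ 1 := by norm_num
        _ ≤ 3 ^ (r + 1) := Nat.pow_le_pow_right (by norm_num) (by omega)
  obtain ⟨s, hs, hdvd⟩ := f15_srg h hlamall hx hx he (fun hc => hex hc.symm) hk3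
  have hk : (ttNb D x).ncard = 3 := Cfsg.Agent.Lib.Helper60.F15.f15_nt hr ht hlt hs hdvd
  have hall : ∀ y ∈ ttNb D x, y = a ∨ y = a' ∨ y = a * a' * a := by
    have h1 : ({a, a', a * a' * a} : Set G) ⊆ ttNb D x := by
      intro u hu
      rcases hu with rfl | rfl | rfl
      · exact ha
      · exact ha'
      · exact ha''
    have h2 : ({a, a', a * a' * a} : Set G).ncard = 3 := by
      rw [Set.ncard_eq_three]
      refine ⟨a, a', a * a' * a, hne.symm, ?_, ?_, rfl⟩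
      · intro h3
        rw [hcj] at h3
        have h4 : ttcj a a = ttcj a a' := by rw [ttcj_self]; exact h3
        exact hne (ttcj_inj h4).symm
      · intro h3
        rw [hcj] at h3
        exact hnca (commute_of_ttcj h3.symm)
    have h3 := Set.eq_of_subset_of_ncard_le h1 (by rw [hk, h2]) hfin
    intro y hy
    rw [← h3] at hy
    exact hy
  exact Cfsg.Agent.Lib.Helper19.F15.f15_final h hx ha ha' hnca hall he hex hea hea'


/-- If O(⟨D_x⟩) is not central in ⟨D_x⟩ for some transposition x, the 3-transposition group is the symmetric group of degree 5. -/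
theorem result {G : Type*} [Group G] [Finite G] (hsol : ∀ N : Subgroup G, N.Normal → Group.IsSolvable ↥N → N = ⊥) (hperf : ⁅commutator G, commutator G⁆ = commutator G) {D : Set G} (hD : Cfsg.IsThreeTranspositionClass D) (x : G) (hx : x ∈ D) (h : ¬ Cfsg.oddCore ↥(Subgroup.closure {y : G | y ∈ D ∧ y ≠ x ∧ Commute x y}) ≤ Subgroup.center ↥(Subgroup.closure {y : G | y ∈ D ∧ y ≠ x ∧ Commute x y})) : Nonempty (G ≃* Equiv.Perm (Fin 5)) := by
  have hprim := ttPrim_of_fischer hsol hperf hD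
  exact f15_main hprim hx h

end Cfsg.Agent.S1615
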