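import Cfsg.Statements.S1679
import Mathlib
import Cfsg.Agent.Lib.Helper39.SuzOrd
import Cfsg.Agent.Lib.Helper38.CosetIso
import Cfsg.Agent.Lib.Helper99.G24Chk

set_option autoImplicit false
open Cfsg

namespace Cfsg.Agent.S1679

open Cfsg.Lie Cfsg.Agent.Lib.Helper38 Cfsg.Agent.Lib.Helper39.SuzOrd Cfsg.Agent.Lib.Helper39.Ord
  Cfsg.Agent.Lib.Helper99.G24 Cfsg.Agent.Lib.Helper99.U42

set_option maxRecDepth 100000
set_option maxHeartbeats 0

/-! ### The homomorphism onto the Chevalley group -/

/-- the images of the generators in the Chevalley group -/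
def img (s : ℕ) : ↥(chevG2.group F4) := ⟨imgU s, imgU_mem s⟩

theorem img_sq : ∀ s, img s * img s = 1 := fun s => Subtype.ext (imgU_sq s)

theorem img_ge : ∀ s, 6 ≤ s → img s = 1 := fun s hs => Subtype.ext (imgU_ge s hs)

theorem rels_ok : ∀ w ∈ W6, prodT TS w = idT := by decide +kernel

theorem img_rel : ∀ w ∈ W6, (w.map img).prod = 1 := by
  intro w hw
  apply Subtype.ext
  have h := map_list_prod (chevG2.group F4).subtype (w.map img)
  rw [List.map_map] at h
  have e : (⇑(chevG2.group F4).subtype ∘ img) = imgU := rfl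
  rw [e] at h
  exact h.trans (imgU_word w (rels_ok w hw))

/-- the homomorphism of the presented group into the Chevalley group -/
noncomputable def θ0 : WP 6 W6 →* ↥(chevG2.group F4) := WP.lift 6 W6 img img_sq img_ge img_rel

theorem θ0_gen (s : ℕ) : θ0 (WP.gen 6 W6 s) = img s :=
  WP.lift_gen 6 W6 img img_sq img_ge img_rel s

/-- the homomorphism into the general linear group -/
noncomputable def θ' : WP 6 W6 →* GL chevG2.Idx F4 := (chevG2.group F4).subtype.comp θ0

theorem imgU_range (s : ℕ) : imgU s ∈ θ'.range := by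
  refine ⟨WP.gen 6 W6 s, ?_⟩
  show ((θ0 (WP.gen 6 W6 s) : ↥(chevG2.group F4)) : GL chevG2.Idx F4) = imgU s
  rw [θ0_gen]
  rfl

theorem θ0_bij : Function.Bijective θ0 := by
  have : Finite (WP 6 W6) := cardF.1
  have h1 : 4095 * (1024 * 60) ≤ Nat.card θ'.range := card_lb θ'.range imgU_range
  have h2 : Nat.card (WP 6 W6) ≤ 416 * (280 * 2160) := cardF.2
  have hbij : Function.Bijective θ'.rangeRestrict :=
    θ'.rangeRestrict_surjective.bijective_of_nat_card_le (by omega)
  constructor
  · intro x y hxy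
    apply hbij.1
    apply Subtype.ext
    show ((θ0 x : ↥(chevG2.group F4)) : GL chevG2.Idx F4) = θ0 y
    rw [hxy]
  · intro y
    have hy : (y : GL chevG2.Idx F4) ∈ θ'.range := group_le θ'.range imgU_range y.2
    obtain ⟨x, hx⟩ := hy
    exact ⟨x, Subtype.ext hx⟩

/-! ### The subgroup of the Suzuki group -/

theorem equiv_H1 : Nonempty (WP 6 W6 ≃* H1) := by
  obtain ⟨ψ, hψ⟩ := sub_hom γ hγ SuzP.words SuzP.of_words 6 W6 (fun s => decide (s < 6))
    (act_ge 6) okG
  have : Finite (WP 6 W6) := cardF.1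
  have hrange : ψ.range = Sk γ 6 := by
    have h1 : ψ.range = Subgroup.map ψ ⊤ := MonoidHom.range_eq_map ψ
    rw [h1, ← WP.closure_gen 6 W6, MonoidHom.map_closure]
    unfold Sk
    congr 1
    rw [Set.image_image]
    apply Set.image_congr
    intro s hs
    have hs' : s < 6 := hs
    rw [hψ s]
    simp [hs']
  have hcard : Nat.card (WP 6 W6) ≤ Nat.card ψ.range := by
    rw [hrange, c6]
    exact cardF.2.trans (by norm_num)
  have hbij : Function.Bijective ψ.rangeRestrict :=
    ψ.rangeRestrict_surjective.bijective_of_nat_card_le hcard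
  have hinj : Function.Injective ψ := by
    intro x y hxy
    apply hbij.1
    exact Subtype.ext hxy
  exact ⟨(MonoidHom.ofInjective hinj).trans (MulEquiv.subgroupCongr (hrange.trans H1_eq.symm))⟩

/-- In the presented sporadic Suzuki group (generators a, …, g), the subgroup generated by the images of a, …, f is isomorphic to the adjoint Chevalley group of type G₂ over a field with four elements. -/
theorem result : ∃ (K : Type) (_ : Field K) (_ : Fintype K), Fintype.card K = 4 ∧ Nonempty ((((Subgroup.closure ({Cfsg.Spor.Suz.a, Cfsg.Spor.Suz.b, Cfsg.Spor.Suz.c, Cfsg.Spor.Suz.d, Cfsg.Spor.Suz.e, Cfsg.Spor.Suz.f} : Set (FreeGroup Cfsg.Spor.Suz.Gen))).map (PresentedGroup.mk (Cfsg.Spor.coxRelators Cfsg.Spor.Suz.edges ∪ {r | r ∈ Cfsg.Spor.Suz.extra})))) ≃* Cfsg.Lie.chevG2.group K) := by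
  obtain ⟨e1⟩ := equiv_H1
  exact ⟨F4, inferInstance, inferInstance, F4.card,
    ⟨e1.symm.trans (MulEquiv.ofBijective θ0 θ0_bij)⟩⟩

end Cfsg.Agent.S1679
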