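import Mathlib
import Cfsg.Statements.S1892
import Cfsg.Agent.Lib.Helper40.HallHigman

set_option autoImplicit false
open Cfsg

namespace Cfsg.Agent.S1892

open Cfsg.Agent.Lib.Helper40
open scoped commutatorElement

lemma comm_mul' {G : Type*} [Group G] (u g h : G) :
    ⁅u, g * h⁆ = ⁅u, g⁆ * (g * ⁅u, h⁆ * g⁻¹) := by
  simp only [commutatorElement_def]; group

lemma comm_inv' {G : Type*} [Group G] (u g : G) :
    ⁅u, g⁻¹⁆ = g⁻¹ * ⁅u, g⁆⁻¹ * g := by
  simp only [commutatorElement_def]; group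

lemma comm_conj' {G : Type*} [Group G] (u x a : G) :
    ⁅u, x * a * x⁻¹⁆ = x * ⁅x⁻¹ * u * x, a⁆ * x⁻¹ := by
  simp only [commutatorElement_def]; group

/-- coprime action: if `c = [u, x]` commutes with `x`, `c` is a `p`-element and the order of `x`
is prime to `p`, then `c = 1`. -/
lemma comm_eq_one_of_coprime {G : Type*} [Group G] {p : ℕ} (u x : G) (j : ℕ)
    (hc : ⁅u, x⁆ * x = x * ⁅u, x⁆) (hcp : ⁅u, x⁆ ^ p ^ j = 1)
    (hx : (orderOf x).Coprime p) : ⁅u, x⁆ = 1 := by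
  have h1 : u * x * u⁻¹ = ⁅u, x⁆ * x := by
    rw [commutatorElement_def]; group
  have h2 : ∀ k : ℕ, u * x ^ k * u⁻¹ = ⁅u, x⁆ ^ k * x ^ k := by
    intro k
    have : u * x ^ k * u⁻¹ = (u * x * u⁻¹) ^ k := by
      rw [conj_pow]
    rw [this, h1, (show Commute ⁅u, x⁆ x from hc).mul_pow]
  have h3 := h2 (orderOf x)
  rw [pow_orderOf_eq_one, mul_one, mul_one, mul_inv_cancel] at h3
  have h4 : ⁅u, x⁆ ^ (Nat.gcd (orderOf x) (p ^ j)) = 1 := pow_gcd_eq_one.2 ⟨h3.symm, hcp⟩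
  rw [Nat.Coprime.pow_right j hx, pow_one] at h4
  exact h4

/-- Let S be a finite p-solvable group with no nontrivial normal subgroup of order prime to p, A a p-subgroup of S, and Q a nontrivial A-invariant subgroup of order prime to p with [A, Q] = Q. Then the commutator [O_p(S), A, Q] is nontrivial. -/
theorem result {S : Type*} [Group S] [Finite S] {p : ℕ} [Fact p.Prime]
    (hS : Cfsg.IsPSolvable p S) (hred : Cfsg.pPrimeCore p S = ⊥)
    (A Q : Subgroup S) (hA : IsPGroup p A) (hQ : ¬ p ∣ Nat.card Q) (hQ1 : Q ≠ ⊥)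
    (hinv : ∀ a ∈ A, ∀ x ∈ Q, a * x * a⁻¹ ∈ Q) (hAQ : ⁅A, Q⁆ = Q) :
    ⁅⁅Cfsg.pCore p S, A⁆, Q⁆ ≠ ⊥ := by
  have hp : p.Prime := Fact.out
  intro hbot
  have hPn : (pCore p S).Normal := pCore_normal' p
  have hPp : IsPGroup p ↥(pCore p S) := pCore_isPGroup' p
  -- `Q` centralizes `M = [P, A]`
  have hcentM : ∀ m ∈ ⁅pCore p S, A⁆, ∀ x ∈ Q, x * m = m * x := by
    intro m hm x hx
    have := Subgroup.commutator_eq_bot_iff_le_centralizer.mp hbot hm
    exact Subgroup.mem_centralizer_iff.mp this x hx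
  have hML : ⁅pCore p S, A⁆ ≤ pCore p S := Subgroup.commutator_le_left _ _
  -- `A` normalizes `M`
  have hMA : ∀ a ∈ A, ∀ m ∈ ⁅pCore p S, A⁆, a * m * a⁻¹ ∈ ⁅pCore p S, A⁆ := by
    intro a ha m hm
    have h1 : (⁅pCore p S, A⁆).map (MulAut.conj a).toMonoidHom = ⁅pCore p S, A⁆ := by
      rw [Subgroup.map_commutator]
      congr 1
      · apply le_antisymm
        · rintro _ ⟨y, hy, rfl⟩
          exact hPn.conj_mem y hy a
        · intro y hy
          refine ⟨a⁻¹ * y * a, ?_, by simp [mul_assoc]⟩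
          simpa using hPn.conj_mem y hy a⁻¹
      · apply le_antisymm
        · rintro _ ⟨y, hy, rfl⟩
          exact A.mul_mem (A.mul_mem ha hy) (A.inv_mem ha)
        · intro y hy
          exact ⟨a⁻¹ * y * a, A.mul_mem (A.mul_mem (A.inv_mem ha) hy) ha, by simp [mul_assoc]⟩
    rw [← h1]
    exact ⟨m, hm, rfl⟩
  -- Step 1: `[P, Q] ≤ M`
  have step1 : ∀ x ∈ Q, ∀ u ∈ pCore p S, ⁅u, x⁆ ∈ ⁅pCore p S, A⁆ := by
    have key : ∀ x ∈ ⁅A, Q⁆, x ∈ Q ∧ ∀ u ∈ pCore p S, ⁅u, x⁆ ∈ ⁅pCore p S, A⁆ := by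
      intro x hx
      rw [Subgroup.commutator_def] at hx
      induction hx using Subgroup.closure_induction with
      | mem y hy =>
        obtain ⟨a, ha, x, hx, rfl⟩ := hy
        have hmem : ⁅a, x⁆ ∈ Q := by
          rw [commutatorElement_def]
          exact Q.mul_mem (hinv a ha x hx) (Q.inv_mem hx)
        refine ⟨hmem, fun u hu => ?_⟩
        have e : ⁅a, x⁆ = a * (x * a⁻¹ * x⁻¹) := by
          rw [commutatorElement_def]; group
        rw [e, comm_mul']
        apply Subgroup.mul_mem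
        · exact Subgroup.commutator_mem_commutator hu ha
        · apply hMA a ha
          rw [comm_conj']
          have h1 : ⁅x⁻¹ * u * x, a⁻¹⁆ ∈ ⁅pCore p S, A⁆ := by
            apply Subgroup.commutator_mem_commutator _ (A.inv_mem ha)
            simpa using hPn.conj_mem u hu x⁻¹
          rw [hcentM _ h1 x hx, mul_inv_cancel_right]
          exact h1
      | one =>
        refine ⟨Q.one_mem, fun u _ => ?_⟩
        simp
      | mul g h _ _ hg hh =>
        refine ⟨Q.mul_mem hg.1 hh.1, fun u hu => ?_⟩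
        rw [comm_mul']
        apply Subgroup.mul_mem _ (hg.2 u hu)
        rw [hcentM _ (hh.2 u hu) g hg.1, mul_inv_cancel_right]
        exact hh.2 u hu
      | inv g _ hg =>
        refine ⟨Q.inv_mem hg.1, fun u hu => ?_⟩
        rw [comm_inv']
        have h1 : (⁅u, g⁆)⁻¹ ∈ ⁅pCore p S, A⁆ := Subgroup.inv_mem _ (hg.2 u hu)
        rw [mul_assoc, ← hcentM _ h1 g hg.1, inv_mul_cancel_left]
        exact h1
    intro x hx u hu
    have hx' : x ∈ ⁅A, Q⁆ := by rw [hAQ]; exact hx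
    exact (key x hx').2 u hu
  -- Step 2: `Q` centralizes `P`
  have hQcop : ∀ x ∈ Q, (orderOf x).Coprime p := by
    intro x hx
    have h2 : orderOf x ∣ Nat.card Q := by
      have := orderOf_dvd_natCard (⟨x, hx⟩ : Q)
      rwa [Subgroup.orderOf_mk] at this
    exact Nat.Coprime.coprime_dvd_left h2 ((Nat.Prime.coprime_iff_not_dvd hp).2 hQ).symm
  have step2 : Q ≤ Subgroup.centralizer (pCore p S : Set S) := by
    intro x hx
    rw [Subgroup.mem_centralizer_iff]
    intro u hu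
    have hc := step1 x hx u hu
    obtain ⟨j, hj⟩ := hPp ⟨⁅u, x⁆, hML hc⟩
    have hj' : ⁅u, x⁆ ^ p ^ j = 1 := by simpa using congrArg Subtype.val hj
    have h1 := comm_eq_one_of_coprime (p := p) u x j (hcentM _ hc x hx).symm hj' (hQcop x hx)
    exact (commutatorElement_eq_one_iff_mul_comm.mp h1)
  -- Step 3: Hall–Higman
  have hQP : Q ≤ pCore p S := step2.trans (centralizer_pCore_le hS hred)
  apply hQ1
  rw [eq_bot_iff]
  intro x hx
  rw [Subgroup.mem_bot]
  obtain ⟨j, hj⟩ := hPp ⟨x, hQP hx⟩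
  have hj' : x ^ p ^ j = 1 := by simpa using congrArg Subtype.val hj
  have h1 : x ^ (Nat.gcd (orderOf x) (p ^ j)) = 1 := pow_gcd_eq_one.2 ⟨pow_orderOf_eq_one x, hj'⟩
  rw [Nat.Coprime.pow_right j (hQcop x hx), pow_one] at h1
  exact h1

end Cfsg.Agent.S1892
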