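import Cfsg.Statements.S1895
import Mathlib
import Cfsg.Agent.Lib.Helper40.ChiefMain
import Cfsg.Agent.Lib.Helper40.Chief7
import Cfsg.Agent.Lib.Helper40.PiCore
import Cfsg.Agent.Lib.Helper75.FrattiniAct
import Cfsg.Agent.Lib.Helper81.PSolv2

set_option autoImplicit false
open Cfsg

namespace Cfsg.Agent.S1895

open Cfsg.Agent.Lib.Helper40 Cfsg.Agent.Lib.Helper40.Chief in
/-- Let p be an odd prime and G a finite p-solvable group with no elementary abelian subgroup of order p³. Then every chief factor H/K of G (H, K normal in G with no normal subgroup of G strictly between them) whose order is a power of p has order p or p². -/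
theorem result {G : Type*} [Group G] [Finite G] {p : ℕ} [Fact p.Prime] (hp : p ≠ 2)
    (hG : Cfsg.IsPSolvable p G) (hr : Cfsg.PRankLE p 2 G)
    (H K : Subgroup G) [H.Normal] [K.Normal] (hKH : K < H) (hpow : ∃ n : ℕ, K.relIndex H = p ^ n)
    (hchief : ∀ L : Subgroup G, L.Normal → K ≤ L → L ≤ H → L = K ∨ L = H) :
    K.relIndex H = p ∨ K.relIndex H = p ^ 2 := by
  have hpp : p.Prime := Fact.out
  obtain ⟨n, hn⟩ := hpow
  have hch : IsChief H K := ⟨inferInstance, inferInstance, hKH, hchief⟩
  have hNc : (Nat.card (Cfsg.pPrimeCore p G)).Coprime p :=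
    Cfsg.Agent.Lib.Helper81.pPrimeCore_coprime p
  obtain ⟨hch', hn'⟩ := chief_quotient (Cfsg.pPrimeCore p G) hNc hch hn
  have hle : n ≤ 2 := main_reduced hp
    (Cfsg.Agent.Lib.Helper75.Fratt.isPSolvable_quotient (Cfsg.pPrimeCore p G) hG)
    (pPrimeCore_quotient hpp) (prankLE_quotient (Cfsg.pPrimeCore p G) hNc 2 hr) hch' hn'
  have hn1 : n ≠ 0 := by
    rintro rfl
    rw [pow_zero, Subgroup.relIndex_eq_one] at hn
    exact (not_le_of_gt hKH) hn
  rw [hn]
  have : n = 1 ∨ n = 2 := by omega
  rcases this with rfl | rfl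
  · left; rw [pow_one]
  · right; rfl

end Cfsg.Agent.S1895
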