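import Cfsg.Statements.S1897
import Mathlib
import Cfsg.Agent.Lib.Helper7.SUCenter
import Cfsg.Agent.Lib.Helper7.Hurwitz168
import Cfsg.Agent.Lib.Helper7.L27Data
import Cfsg.Agent.S0495

set_option autoImplicit false
open Cfsg

namespace Cfsg.Agent.S1897

open Cfsg.Agent.Lib.Helper7

section transfer

variable {F : Type*} [Field F] [Fintype F] (hF : Fintype.card F = 3 ^ 2) (e : F ≃+* K9)

/-- the element of `SU(3, F)` given by a coded unitary matrix of determinant one -/
noncomputable def suOf (x : M9) (hd : det9 x = 1) (hu : x.adj.mul x = one9) : Cfsg.SU 3 F 3 :=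
  suMk hF ((e.symm : K9 →+* F).mapMatrix (toC x))
    (by rw [← RingHom.map_det, toC_det, hd, map_one])
    (by
      intro i j
      have h := congrArg (e.symm : K9 →+* F) (toC_unit x hu i j)
      rw [map_sum] at h
      simp only [map_mul, map_pow] at h
      rw [Cfsg.hermForm]
      simp only [colFr, RingHom.mapMatrix_apply, Matrix.map_apply]
      rw [h]
      split_ifs <;> simp)

/-- matrices of `SU(3, F)` transported to `K9` -/
noncomputable def phi : Cfsg.SU 3 F 3 →* Matrix (Fin 3) (Fin 3) K9 :=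
  ((e : F →+* K9).mapMatrix.toMonoidHom).comp ((slToMat 3 F).comp (Cfsg.SU 3 F 3).subtype)

theorem phi_apply (g : Cfsg.SU 3 F 3) (i j : Fin 3) :
    phi e g i j = e ((g.1 : Matrix (Fin 3) (Fin 3) F) i j) := rfl

theorem phi_injective : Function.Injective (phi e : Cfsg.SU 3 F 3 → Matrix (Fin 3) (Fin 3) K9) := by
  intro g g' h
  apply Subtype.ext
  apply Subtype.ext
  funext i j
  have h1 := congrFun (congrFun h i) j
  rw [phi_apply, phi_apply] at h1
  exact e.injective h1

theorem phi_suOf (x : M9) (hd : det9 x = 1) (hu : x.adj.mul x = one9) :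
    phi e (suOf hF e x hd hu) = toC x := by
  funext i j
  rw [phi_apply]
  simp [suOf, suMk]

include hF e in
theorem exists_L27 :
    ∃ G : Subgroup (Cfsg.SU 3 F 3), Nat.card G = 168 ∧ IsSimpleGroup G := by
  obtain ⟨a, hadef⟩ : ∃ a, a = suOf hF e a0 a0_det a0_unit := ⟨_, rfl⟩
  obtain ⟨b, hbdef⟩ : ∃ b, b = suOf hF e b0 b0_det b0_unit := ⟨_, rfl⟩
  have hpa : phi e a = toC a0 := by rw [hadef, phi_suOf]
  have hpb : phi e b = toC b0 := by rw [hbdef, phi_suOf]
  have hinj := phi_injective e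
  have ha : a ^ 2 = 1 := hinj (by rw [map_pow, hpa, a0_sq, map_one])
  have hb : b ^ 3 = 1 := hinj (by rw [map_pow, hpb, b0_cube, map_one])
  have hab : (a * b) ^ 7 = 1 := hinj (by rw [map_pow, map_mul, hpa, hpb, ab_pow, map_one])
  have hcard : Nat.card (Subgroup.closure ({a, b} : Set (Cfsg.SU 3 F 3))) = 168 := by
    have h1 : ((Subgroup.closure ({a, b} : Set (Cfsg.SU 3 F 3)) : Subgroup (Cfsg.SU 3 F 3)) :
        Set (Cfsg.SU 3 F 3)) = (Submonoid.closure ({a, b} : Set (Cfsg.SU 3 F 3)) : Set _) := by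
      rw [← Subgroup.closure_toSubmonoid_of_finite]; rfl
    have h2 : (phi e) '' ((Subgroup.closure ({a, b} : Set (Cfsg.SU 3 F 3)) :
        Subgroup (Cfsg.SU 3 F 3)) : Set (Cfsg.SU 3 F 3)) = Lm '' (Set.Iio 168) := by
      rw [h1]
      have h3 : (phi e) '' (Submonoid.closure ({a, b} : Set (Cfsg.SU 3 F 3)) : Set _) =
          ((Submonoid.closure ({a, b} : Set (Cfsg.SU 3 F 3))).map (phi e) : Set _) := rfl
      rw [h3, MonoidHom.map_mclosure, Set.image_pair, hpa, hpb]
      ext X
      rw [SetLike.mem_coe, mem_closure_iff]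
      constructor
      · rintro ⟨k, hk, rfl⟩; exact ⟨k, hk, rfl⟩
      · rintro ⟨k, hk, rfl⟩; exact ⟨k, hk, rfl⟩
    have hI : (Set.Iio 168 : Set ℕ).ncard = 168 := by
      rw [← Finset.coe_range, Set.ncard_coe_finset, Finset.card_range]
    have h4 : Nat.card (Subgroup.closure ({a, b} : Set (Cfsg.SU 3 F 3))) =
        ((Subgroup.closure ({a, b} : Set (Cfsg.SU 3 F 3)) : Subgroup (Cfsg.SU 3 F 3)) :
          Set (Cfsg.SU 3 F 3)).ncard := Nat.card_coe_set_eq _
    rw [h4, ← Set.ncard_image_of_injective _ hinj, h2, Set.ncard_image_of_injOn, hI]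
    intro j hj k hk h
    exact Lm_inj j k hj hk h
  refine ⟨Subgroup.closure ({a, b} : Set (Cfsg.SU 3 F 3)), hcard, ?_⟩
  have hma : a ∈ Subgroup.closure ({a, b} : Set (Cfsg.SU 3 F 3)) :=
    Subgroup.subset_closure (by simp)
  have hmb : b ∈ Subgroup.closure ({a, b} : Set (Cfsg.SU 3 F 3)) :=
    Subgroup.subset_closure (by simp)
  refine simple_of_237 hcard ⟨a, hma⟩ ⟨b, hmb⟩ (Subtype.ext ?_) (Subtype.ext ?_) (Subtype.ext ?_)
    (Subtype.val ⁻¹' ({a, b} : Set (Cfsg.SU 3 F 3))) ?_ Subgroup.closure_closure_coe_preimage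
  · simpa using ha
  · simpa using hb
  · simpa using hab
  · rintro ⟨s, hs⟩ hs2
    rcases hs2 with h | h
    · left; exact Subtype.ext h
    · right; exact Subtype.ext h

end transfer

/-- The projective special unitary group PSU₃(3) (realised over the field with 9 elements) has a subgroup isomorphic to PSL₂(7). -/
theorem result {F : Type*} [Field F] [Fintype F] (hF : Fintype.card F = 9)
    {K : Type*} [Field K] [Fintype K] (hK : Fintype.card K = 7) :
    ∃ H : Subgroup (Cfsg.PSU 3 F 3), Nonempty (H ≃* Matrix.ProjectiveSpecialLinearGroup (Fin 2) K) := by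
  have hF2 : Fintype.card F = 3 ^ 2 := hF.trans (by norm_num)
  let e : F ≃+* K9 := FiniteField.ringEquivOfCardEq (hF.trans card_K9.symm)
  obtain ⟨G, hG168, hGs⟩ := exists_L27 hF2 e
  have hc : Subgroup.center (Cfsg.SU 3 F 3) = ⊥ := by
    rw [← Subgroup.card_eq_one, card_center_SU hF2 3 (by norm_num)]
    rfl
  have hinj : Function.Injective (QuotientGroup.mk' (Subgroup.center (Cfsg.SU 3 F 3))) := by
    rw [← MonoidHom.ker_eq_bot_iff, QuotientGroup.ker_mk', hc]
  haveI := hGs
  obtain ⟨e2⟩ := Cfsg.Agent.S0495.result (G := G) hG168 hK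
  exact ⟨G.map (QuotientGroup.mk' (Subgroup.center (Cfsg.SU 3 F 3))),
    ⟨(G.equivMapOfInjective _ hinj).symm.trans e2⟩⟩

end Cfsg.Agent.S1897
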