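import Cfsg.Statements.S1898
import Mathlib

set_option autoImplicit false
open Cfsg

namespace Cfsg.Agent.S1898

theorem sq_mul_aux {X : Type*} [Group X] (x y c : X) (hc : ∀ g : X, g * c = c * g)
    (h1 : y * x = x * y * c) : (x * y) * (x * y) = (x * x) * (y * y) * c := by
  calc (x * y) * (x * y) = x * (y * x) * y := by group
    _ = x * (x * y * c) * y := by rw [h1]
    _ = x * x * y * (c * y) := by group
    _ = x * x * y * (y * c) := by rw [← hc y]
    _ = (x * x) * (y * y) * c := by group

theorem sq_central_aux {X : Type*} [Group X] (x y c : X) (hc : ∀ g : X, g * c = c * g)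
    (h1 : x * y = y * x * c) (h2 : c * c = 1) : (x * x) * y = y * (x * x) := by
  calc (x * x) * y = x * (x * y) := by group
    _ = x * (y * x * c) := by rw [h1]
    _ = (x * y) * x * c := by group
    _ = (y * x * c) * x * c := by rw [h1]
    _ = y * x * (c * x) * c := by group
    _ = y * x * (x * c) * c := by rw [← hc x]
    _ = y * (x * x) * (c * c) := by group
    _ = y * (x * x) := by rw [h2, mul_one]

theorem four_mul_aux {X : Type*} [Group X] (x y c : X) (hc : ∀ g : X, g * c = c * g)
    (h1 : (x * y) * (x * y) = (x * x) * (y * y) * c) (h2 : c * c = 1)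
    (e1 : (y * y) * (x * x) = (x * x) * (y * y)) :
    ((x * y) * (x * y)) * ((x * y) * (x * y)) = ((x * x) * (x * x)) * ((y * y) * (y * y)) := by
  calc ((x * y) * (x * y)) * ((x * y) * (x * y))
      = ((x * x) * (y * y) * c) * ((x * x) * (y * y) * c) := by rw [h1]
    _ = (x * x) * (y * y) * (c * ((x * x) * (y * y))) * c := by group
    _ = (x * x) * (y * y) * (((x * x) * (y * y)) * c) * c := by rw [← hc ((x * x) * (y * y))]
    _ = (x * x) * ((y * y) * (x * x)) * (y * y) * (c * c) := by group
    _ = (x * x) * ((x * x) * (y * y)) * (y * y) * 1 := by rw [e1, h2]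
    _ = ((x * x) * (x * x)) * ((y * y) * (y * y)) := by group

theorem pow_four_eq {X : Type*} [Group X] (x : X) : x ^ 4 = (x * x) * (x * x) := by
  simp [pow_succ, mul_assoc]

/-- Let X be a finite 2-group whose derived subgroup is elementary abelian and central. Then the subgroup generated by the elements of order dividing 4 has exponent dividing 4, and every automorphism of X fixing each element of order dividing 4 has 2-power order. -/
theorem result {X : Type*} [Group X] [Finite X] (hX : IsPGroup 2 X)
    (hel : Cfsg.IsElementaryAbelian 2 (commutator X)) (hcen : commutator X ≤ Subgroup.center X) :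
    (∀ x ∈ Subgroup.closure {g : X | g ^ 4 = 1}, x ^ 4 = 1) ∧
      ∀ φ : MulAut X, (∀ g : X, g ^ 4 = 1 → φ g = g) → ∃ k : ℕ, φ ^ (2 ^ k) = 1 := by
  -- commutators are central of order dividing 2
  have hcomm_mem : ∀ a b : X, a * b * a⁻¹ * b⁻¹ ∈ commutator X := by
    intro a b
    rw [commutator_def]
    exact Subgroup.commutator_mem_commutator (Subgroup.mem_top a) (Subgroup.mem_top b)
  have hc_cen : ∀ a b g : X, g * (a * b * a⁻¹ * b⁻¹) = (a * b * a⁻¹ * b⁻¹) * g := by
    intro a b g
    have := hcen (hcomm_mem a b)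
    rw [Subgroup.mem_center_iff] at this
    exact this g
  have hc_sq : ∀ a b : X, (a * b * a⁻¹ * b⁻¹) * (a * b * a⁻¹ * b⁻¹) = 1 := by
    intro a b
    have := hel.2 _ (hcomm_mem a b)
    rwa [pow_two] at this
  -- squares are central
  have hsq_cen : ∀ x y : X, (x * x) * y = y * (x * x) := by
    intro x y
    exact sq_central_aux x y (x⁻¹ * y⁻¹ * x⁻¹⁻¹ * y⁻¹⁻¹) (hc_cen _ _) (by group) (hc_sq _ _)
  -- (x y)^4 = x^4 y^4
  have hfour : ∀ x y : X, (x * y) ^ 4 = x ^ 4 * y ^ 4 := by
    intro x y
    rw [pow_four_eq, pow_four_eq, pow_four_eq]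
    have h1 := sq_mul_aux x y (y⁻¹ * x⁻¹ * y⁻¹⁻¹ * x⁻¹⁻¹) (hc_cen _ _) (by group)
    exact four_mul_aux x y _ (hc_cen _ _) h1 (hc_sq _ _) (hsq_cen y (x * x))
  refine ⟨?_, ?_⟩
  · intro x hx
    induction hx using Subgroup.closure_induction with
    | mem y hy => exact hy
    | one => simp
    | mul a b _ _ iha ihb => rw [hfour, iha, ihb, one_mul]
    | inv a _ iha => rw [inv_pow, iha, inv_one]
  · intro φ hφ
    have hfin : IsOfFinOrder φ := isOfFinOrder_of_finite φ
    have hNpos : 0 < orderOf φ := hfin.orderOf_pos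
    obtain ⟨k, m, hm, hNkm⟩ := Nat.exists_eq_two_pow_mul_odd hNpos.ne'
    refine ⟨k, ?_⟩
    set ψ : MulAut X := φ ^ (2 ^ k) with hψ
    have hψm : ψ ^ m = 1 := by
      rw [hψ, ← pow_mul, ← hNkm, pow_orderOf_eq_one]
    have hφpow : ∀ (j : ℕ) (g : X), g ^ 4 = 1 → (φ ^ j) g = g := by
      intro j
      induction j with
      | zero => intro g _; simp
      | succ j ih =>
        intro g hg
        rw [pow_succ, MulAut.mul_apply, hφ g hg, ih g hg]
    have hψfix : ∀ g : X, g ^ 4 = 1 → ψ g = g := fun g hg => hφpow _ g hg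
    -- main claim
    have key : ∀ n : ℕ, ∀ x : X, x ^ (2 ^ n) = 1 → ψ x = x := by
      intro n
      induction n with
      | zero =>
        intro x hx
        apply hψfix
        have : x = 1 := by simpa using hx
        rw [this]; simp
      | succ n ih =>
        intro x hx
        have hx2 : (x * x) ^ (2 ^ n) = 1 := by
          rw [← pow_two, ← pow_mul, ← pow_succ']; exact hx
        have h1 : ψ (x * x) = x * x := ih _ hx2
        set t : X := x⁻¹ * ψ x with ht
        have hψx : ψ x = x * t := by rw [ht]; group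
        have h2 : (x * t) * (x * t) = x * x := by
          rw [← hψx, ← map_mul, h1]
        have h4 : t * x * t = x := by
          have : x * (t * x * t) = x * x := by rw [← h2]; group
          exact mul_left_cancel this
        have h3 : x⁻¹ * t * x = t⁻¹ := by
          calc x⁻¹ * t * x = x⁻¹ * (t * x * t) * t⁻¹ := by group
            _ = x⁻¹ * x * t⁻¹ := by rw [h4]
            _ = t⁻¹ := by group
        have h5 : t * t = t * x⁻¹ * t⁻¹ * x⁻¹⁻¹ := by
          calc t * t = t * (t⁻¹)⁻¹ := by group
            _ = t * (x⁻¹ * t * x)⁻¹ := by rw [h3]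
            _ = t * x⁻¹ * t⁻¹ * x⁻¹⁻¹ := by group
        have h6 : t ^ 4 = 1 := by
          rw [pow_four_eq, h5]; exact hc_sq _ _
        have h7 : ψ t = t := hψfix t h6
        have h8 : ∀ j : ℕ, (ψ ^ j) x = x * t ^ j := by
          intro j
          induction j with
          | zero => simp
          | succ j ihj =>
            rw [pow_succ', MulAut.mul_apply, ihj, map_mul, map_pow, h7, hψx, pow_succ', mul_assoc]
        have h9 : t ^ m = 1 := by
          have := h8 m
          rw [hψm] at this
          simpa using this.symm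
        have h10 : orderOf t ∣ 4 := orderOf_dvd_of_pow_eq_one h6
        have h11 : orderOf t ∣ m := orderOf_dvd_of_pow_eq_one h9
        have h12 : Nat.Coprime 4 m := by
          have : Nat.Coprime 2 m := Nat.coprime_two_left.mpr hm
          exact Nat.Coprime.pow_left 2 this
        have h13 : orderOf t = 1 := Nat.eq_one_of_dvd_coprimes h12 h10 h11
        have h14 : t = 1 := orderOf_eq_one_iff.mp h13
        rw [hψx, h14, mul_one]
    ext x
    obtain ⟨n, hn⟩ := hX x
    simpa using key n x hn

end Cfsg.Agent.S1898
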