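import Cfsg.Statements.S1899
import Mathlib

set_option autoImplicit false
open Cfsg

namespace Cfsg.Agent.S1899

/-- If `H ⊓ K = ⊥` in a finite group then `|H| * |K| ≤ |A|`. -/
theorem card_mul_le_of_disjoint {A : Type*} [Group A] [Finite A] (H K : Subgroup A) (h : H ⊓ K = ⊥) :
    Nat.card H * Nat.card K ≤ Nat.card A := by
  have hd : Disjoint H K := disjoint_iff.mpr h
  have := Nat.card_le_card_of_injective _ (Subgroup.mul_injective_of_disjoint hd)
  rwa [Nat.card_prod] at this

/-- Let a dihedral group of order 2n, n odd and n > 1, act on a finite abelian 2-group A through automorphisms d and t with d^n = 1, t² = 1 and t d t⁻¹ = d⁻¹, and suppose that d fixes only the identity. Then A is the internal direct product of C_A(t) and its image under d. -/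
theorem result {A : Type*} [CommGroup A] [Finite A] (hA : IsPGroup 2 A)
    {n : ℕ} (hn : Odd n) (hn1 : 1 < n) (d t : MulAut A) (hd : d ^ n = 1) (ht : t ^ 2 = 1) (hdt : t * d * t⁻¹ = d⁻¹)
    (hfix : ∀ a : A, d a = a → a = 1) :
    (MulEquiv.toMonoidHom t).eqLocus (MonoidHom.id A) ⊓ ((MulEquiv.toMonoidHom t).eqLocus (MonoidHom.id A)).map d.toMonoidHom = ⊥ ∧
      (MulEquiv.toMonoidHom t).eqLocus (MonoidHom.id A) ⊔ ((MulEquiv.toMonoidHom t).eqLocus (MonoidHom.id A)).map d.toMonoidHom = ⊤ := by
  -- basic relations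
  have htt : ∀ a : A, t (t a) = a := by
    intro a
    have : (t ^ 2) a = a := by rw [ht]; rfl
    simpa [pow_two] using this
  have htinv : t⁻¹ = t := by
    have : t * t = 1 := by rw [← pow_two]; exact ht
    exact inv_eq_of_mul_eq_one_left this
  -- t d t = d⁻¹, as functions: t (d (t a)) = d⁻¹ a
  have htdt : ∀ a : A, t (d (t a)) = d⁻¹ a := by
    intro a
    have : (t * d * t⁻¹) a = d⁻¹ a := by rw [hdt]
    rw [htinv] at this
    simpa using this
  have hdinv : ∀ a : A, d (d⁻¹ a) = a := fun a => by simp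
  have hinvd : ∀ a : A, d⁻¹ (d a) = a := fun a => by simp
  -- if d (d a) = a then a = 1
  have hd2 : ∀ a : A, d (d a) = a → a = 1 := by
    intro a ha
    obtain ⟨m, hm⟩ := hn
    have h1 : ∀ j : ℕ, (d ^ (2 * j)) a = a := by
      intro j
      induction j with
      | zero => simp
      | succ j ih =>
        have : d ^ (2 * (j + 1)) = d ^ (2 * j) * (d * d) := by
          rw [mul_add, pow_add]; simp [pow_two]
        rw [this, MulAut.mul_apply, MulAut.mul_apply, ha, ih]
    have h2 : (d ^ n) a = a := by rw [hd]; rfl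
    rw [hm, pow_succ', MulAut.mul_apply, h1 m] at h2
    exact hfix a h2
  have hd3 : ∀ a : A, d a = d⁻¹ a → a = 1 := by
    intro a ha
    apply hd2
    rw [ha, hdinv]
  set C : Subgroup A := (MulEquiv.toMonoidHom t).eqLocus (MonoidHom.id A) with hC
  have hCmem : ∀ a : A, a ∈ C ↔ t a = a := fun a => Iff.rfl
  have hdCmem : ∀ b : A, b ∈ C.map d.toMonoidHom ↔ t (d⁻¹ b) = d⁻¹ b := by
    intro b
    rw [Subgroup.mem_map]
    constructor
    · rintro ⟨a, ha, rfl⟩
      simp only [MulEquiv.coe_toMonoidHom]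
      rw [hinvd]
      exact (hCmem a).mp ha
    · intro hb
      exact ⟨d⁻¹ b, (hCmem _).mpr hb, hdinv b⟩
  -- I = elements inverted by t
  let I : Subgroup A :=
    { carrier := {a | t a = a⁻¹}
      one_mem' := by simp
      mul_mem' := by
        intro a b ha hb
        change t a = a⁻¹ at ha
        change t b = b⁻¹ at hb
        change t (a * b) = (a * b)⁻¹
        rw [map_mul, ha, hb, mul_inv]
      inv_mem' := by
        intro a ha
        change t a = a⁻¹ at ha
        change t a⁻¹ = a⁻¹⁻¹
        rw [map_inv, ha] }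
  have hImem : ∀ a : A, a ∈ I ↔ t a = a⁻¹ := fun a => Iff.rfl
  have hdImem : ∀ b : A, b ∈ I.map d.toMonoidHom ↔ t (d⁻¹ b) = (d⁻¹ b)⁻¹ := by
    intro b
    rw [Subgroup.mem_map]
    constructor
    · rintro ⟨a, ha, rfl⟩
      simp only [MulEquiv.coe_toMonoidHom]
      rw [hinvd]
      exact (hImem a).mp ha
    · intro hb
      exact ⟨d⁻¹ b, (hImem _).mpr hb, hdinv b⟩
  have hCdC : C ⊓ C.map d.toMonoidHom = ⊥ := by
    rw [eq_bot_iff]
    intro a ha
    rw [Subgroup.mem_inf] at ha
    rw [Subgroup.mem_bot]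
    have h1 := (hCmem a).mp ha.1
    have h2 := (hdCmem a).mp ha.2
    apply hd3
    have h3 : t (d a) = d⁻¹ a := by
      have := htdt a
      rwa [h1] at this
    calc d a = t (t (d a)) := (htt _).symm
      _ = t (d⁻¹ a) := by rw [h3]
      _ = d⁻¹ a := h2
  have hIdI : I ⊓ I.map d.toMonoidHom = ⊥ := by
    rw [eq_bot_iff]
    intro a ha
    rw [Subgroup.mem_inf] at ha
    rw [Subgroup.mem_bot]
    have h1 := (hImem a).mp ha.1
    have h2 := (hdImem a).mp ha.2
    apply hd3
    have h3 : t (d a) = (d⁻¹ a)⁻¹ := by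
      have := htdt a
      rw [h1, map_inv, map_inv] at this
      rw [← this, inv_inv]
    calc d a = t (t (d a)) := (htt _).symm
      _ = t ((d⁻¹ a)⁻¹) := by rw [h3]
      _ = (t (d⁻¹ a))⁻¹ := by rw [map_inv]
      _ = d⁻¹ a := by rw [h2, inv_inv]
  -- counting
  let ν : A →* A :=
    { toFun := fun a => a⁻¹ * t a
      map_one' := by simp
      map_mul' := by
        intro a b
        rw [map_mul, mul_inv]
        exact mul_mul_mul_comm _ _ _ _ }
  have hker : ν.ker = C := by
    ext a
    rw [MonoidHom.mem_ker, hCmem]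
    change a⁻¹ * t a = 1 ↔ t a = a
    rw [inv_mul_eq_one]
    exact eq_comm
  have hrange : ν.range ≤ I := by
    rintro _ ⟨a, rfl⟩
    rw [hImem]
    change t (a⁻¹ * t a) = (a⁻¹ * t a)⁻¹
    rw [map_mul, htt, map_inv, mul_inv, inv_inv, mul_comm]
  have hcA : Nat.card C * Nat.card ν.range = Nat.card A := by
    rw [← hker, ← Subgroup.index_ker]
    exact Subgroup.card_mul_index _
  have hcI : Nat.card ν.range ≤ Nat.card I := Subgroup.card_le_of_le hrange
  have hdinj : Function.Injective d.toMonoidHom := d.injective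
  have hcdC : Nat.card (C.map d.toMonoidHom) = Nat.card C := Subgroup.card_map_of_injective hdinj
  have hcdI : Nat.card (I.map d.toMonoidHom) = Nat.card I := Subgroup.card_map_of_injective hdinj
  have h1 : Nat.card C * Nat.card C ≤ Nat.card A := by
    have := card_mul_le_of_disjoint _ _ hCdC
    rwa [hcdC] at this
  have h2 : Nat.card I * Nat.card I ≤ Nat.card A := by
    have := card_mul_le_of_disjoint _ _ hIdI
    rwa [hcdI] at this
  have h3 : Nat.card A ≤ Nat.card C * Nat.card I := by
    rw [← hcA]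
    exact Nat.mul_le_mul_left _ hcI
  have hApos : 0 < Nat.card A := Nat.card_pos
  have h4 : Nat.card A ≤ Nat.card C * Nat.card C := by
    have h5 : Nat.card A * Nat.card A ≤ (Nat.card C * Nat.card C) * Nat.card A := by
      calc Nat.card A * Nat.card A ≤ (Nat.card C * Nat.card I) * (Nat.card C * Nat.card I) :=
            Nat.mul_le_mul h3 h3
        _ = (Nat.card C * Nat.card C) * (Nat.card I * Nat.card I) := by ring
        _ ≤ (Nat.card C * Nat.card C) * Nat.card A := Nat.mul_le_mul_left _ h2
    exact Nat.le_of_mul_le_mul_right h5 hApos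
  have h6 : Nat.card C * Nat.card (C.map d.toMonoidHom) = Nat.card A := by
    rw [hcdC]; exact le_antisymm h1 h4
  refine ⟨hCdC, ?_⟩
  exact (Subgroup.isComplement'_of_card_mul_and_disjoint h6 (disjoint_iff.mpr hCdC)).sup_eq_top

end Cfsg.Agent.S1899
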