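import Cfsg.Statements.S1900
import Cfsg.Agent.S0058
import Cfsg.Agent.Lib.Helper41.CoprimeQ

set_option autoImplicit false
open Cfsg

namespace Cfsg.Agent.S1900

open Cfsg.Agent.Lib.Helper41

lemma centralizer_zpowers_eq {S : Type*} [Group S] (e : S) :
    Subgroup.centralizer ((Subgroup.zpowers e : Subgroup S) : Set S) =
      Subgroup.centralizer {e} := by
  apply le_antisymm
  · exact Subgroup.centralizer_le (by simp)
  · intro c hc
    rw [Subgroup.mem_centralizer_iff] at hc ⊢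
    intro g hg
    obtain ⟨k, rfl⟩ := Subgroup.mem_zpowers_iff.1 hg
    have h1 : Commute e c := hc e rfl
    exact (h1.zpow_left k).eq

/-- Let S = PQ be a finite group with P a normal Sylow p-subgroup and Q elementary abelian of order q², q a prime different from p. If exactly two subgroups X₁, X₂ of order q in Q have a nontrivial centralizer in P, then P is the internal direct product of C_P(X₁) and C_P(X₂): they commute elementwise, meet trivially and generate P. -/
theorem result {S : Type*} [Group S] [Finite S] {p q : ℕ} [Fact p.Prime] [Fact q.Prime] (hpq : p ≠ q)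
    (P : Sylow p S) [(P : Subgroup S).Normal] (Q : Subgroup S) (hQ : Cfsg.IsElementaryAbelian q Q) (hQc : Nat.card Q = q ^ 2)
    (hS : (P : Subgroup S) ⊔ Q = ⊤)
    (X₁ X₂ : Subgroup S) (h₁ : X₁ ≤ Q) (h₂ : X₂ ≤ Q) (h₁₂ : X₁ ≠ X₂) (hc₁ : Nat.card X₁ = q) (hc₂ : Nat.card X₂ = q)
    (hf₁ : (P : Subgroup S) ⊓ Subgroup.centralizer (X₁ : Set S) ≠ ⊥)
    (hf₂ : (P : Subgroup S) ⊓ Subgroup.centralizer (X₂ : Set S) ≠ ⊥)
    (honly : ∀ X : Subgroup S, X ≤ Q → Nat.card X = q →
      (P : Subgroup S) ⊓ Subgroup.centralizer (X : Set S) ≠ ⊥ → X = X₁ ∨ X = X₂) :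
    ⁅(P : Subgroup S) ⊓ Subgroup.centralizer (X₁ : Set S), (P : Subgroup S) ⊓ Subgroup.centralizer (X₂ : Set S)⁆ = ⊥ ∧
      ((P : Subgroup S) ⊓ Subgroup.centralizer (X₁ : Set S)) ⊓ ((P : Subgroup S) ⊓ Subgroup.centralizer (X₂ : Set S)) = ⊥ ∧
      ((P : Subgroup S) ⊓ Subgroup.centralizer (X₁ : Set S)) ⊔ ((P : Subgroup S) ⊓ Subgroup.centralizer (X₂ : Set S)) = P := by
  have hp : p.Prime := Fact.out
  have hq : q.Prime := Fact.out
  have hgen1 : ∀ X : Subgroup S, X ≤ Q → Nat.card X = q →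
      ∃ x ∈ X, Subgroup.zpowers x = X ∧ orderOf x = q := by
    intro X hX hc
    have hnt : Nontrivial X := by
      rw [← Finite.one_lt_card_iff_nontrivial, hc]; exact hq.one_lt
    obtain ⟨⟨x, hxX⟩, hx1⟩ := exists_ne (1 : X)
    have hx1' : x ≠ 1 := fun h => hx1 (Subtype.ext h)
    have hxq : x ^ q = 1 := hQ.2 x (hX hxX)
    have ho : orderOf x = q := by
      have h0 := orderOf_dvd_of_pow_eq_one hxq
      rcases (Nat.dvd_prime hq).1 h0 with h | h
      · exact absurd (orderOf_eq_one_iff.1 h) hx1'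
      · exact h
    refine ⟨x, hxX, ?_, ho⟩
    apply Subgroup.eq_of_le_of_card_ge (Subgroup.zpowers_le.2 hxX)
    rw [Nat.card_zpowers, ho, hc]
  obtain ⟨x₁, hx₁X, hz₁, ho₁⟩ := hgen1 X₁ h₁ hc₁
  obtain ⟨x₂, hx₂X, hz₂, ho₂⟩ := hgen1 X₂ h₂ hc₂
  have hxy : x₁ * x₂ = x₂ * x₁ := by
    have h0 := hQ.1.is_comm.comm ⟨x₁, h₁ hx₁X⟩ ⟨x₂, h₂ hx₂X⟩
    exact congrArg Subtype.val h0
  have hx1q : x₁ ^ q = 1 := hQ.2 x₁ (h₁ hx₁X)
  have hx2q : x₂ ^ q = 1 := hQ.2 x₂ (h₂ hx₂X)
  have hC1 : Subgroup.centralizer (X₁ : Set S) = Subgroup.centralizer {x₁} := by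
    rw [← hz₁]; exact centralizer_zpowers_eq x₁
  have hC2 : Subgroup.centralizer (X₂ : Set S) = Subgroup.centralizer {x₂} := by
    rw [← hz₂]; exact centralizer_zpowers_eq x₂
  have hx₂notin : x₂ ∉ X₁ := by
    intro h
    apply h₁₂
    symm
    apply Subgroup.eq_of_le_of_card_ge
    · rw [← hz₂]; exact Subgroup.zpowers_le.2 h
    · rw [hc₁, hc₂]
  have hx₁notin : x₁ ∉ X₂ := by
    intro h
    apply h₁₂
    apply Subgroup.eq_of_le_of_card_ge
    · rw [← hz₁]; exact Subgroup.zpowers_le.2 h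
    · rw [hc₁, hc₂]
  have hmix : ∀ k, 0 < k → k < q →
      (P : Subgroup S) ⊓ Subgroup.centralizer {x₁ ^ k * x₂} = ⊥ := by
    intro k hk0 hkq
    have heQ : x₁ ^ k * x₂ ∈ Q := Q.mul_mem (Q.pow_mem (h₁ hx₁X) k) (h₂ hx₂X)
    have he1 : x₁ ^ k * x₂ ≠ 1 := by
      intro h
      apply hx₂notin
      have h0 : x₂ = (x₁ ^ k)⁻¹ := eq_inv_of_mul_eq_one_right h
      rw [h0]; exact X₁.inv_mem (X₁.pow_mem hx₁X k)
    have heo : orderOf (x₁ ^ k * x₂) = q := by
      have h0 := orderOf_dvd_of_pow_eq_one (hQ.2 _ heQ)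
      rcases (Nat.dvd_prime hq).1 h0 with h | h
      · exact absurd (orderOf_eq_one_iff.1 h) he1
      · exact h
    by_contra hne
    have hne' : (P : Subgroup S) ⊓
        Subgroup.centralizer ((Subgroup.zpowers (x₁ ^ k * x₂) : Subgroup S) : Set S) ≠ ⊥ := by
      rw [centralizer_zpowers_eq]; exact hne
    rcases honly (Subgroup.zpowers (x₁ ^ k * x₂)) (Subgroup.zpowers_le.2 heQ)
      (by rw [Nat.card_zpowers, heo]) hne' with h | h
    · apply hx₂notin
      have heX : x₁ ^ k * x₂ ∈ X₁ := h ▸ Subgroup.mem_zpowers _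
      have h0 : x₂ = (x₁ ^ k)⁻¹ * (x₁ ^ k * x₂) := by group
      rw [h0]; exact X₁.mul_mem (X₁.inv_mem (X₁.pow_mem hx₁X k)) heX
    · apply hx₁notin
      have heX : x₁ ^ k * x₂ ∈ X₂ := h ▸ Subgroup.mem_zpowers _
      have h1 : x₁ ^ k ∈ X₂ := by
        have h0 : x₁ ^ k = (x₁ ^ k * x₂) * x₂⁻¹ := by group
        rw [h0]; exact X₂.mul_mem heX (X₂.inv_mem hx₂X)
      have hcop : Nat.Coprime k (orderOf x₁) := by
        rw [ho₁]
        exact (Nat.coprime_of_lt_prime (Nat.pos_iff_ne_zero.1 hk0) hkq hq).symm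
      obtain ⟨m, hm⟩ := exists_pow_eq_self_of_coprime hcop
      rw [← hm]; exact X₂.pow_mem h1 m
  have hPnorm : ∀ g : S, g ∈ Subgroup.normalizer ((P : Subgroup S) : Set S) := fun g => by
    rw [Subgroup.normalizer_eq_top]; exact Subgroup.mem_top g
  have hcopP : ∀ X : Subgroup S, X ≤ P → q.Coprime (Nat.card X) := by
    intro X hX
    have hXp : IsPGroup p X := P.isPGroup'.to_le hX
    obtain ⟨n, hn⟩ := IsPGroup.iff_card.1 hXp
    rw [hn]; exact Nat.Coprime.pow_right _ ((Nat.coprime_primes hq hp).2 (Ne.symm hpq))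
  have hnil : Group.IsNilpotent (P : Subgroup S) := P.isPGroup'.isNilpotent
  have hgenX : ∀ X : Subgroup S, X ≤ P → x₁ ∈ Subgroup.normalizer (X : Set S) →
      x₂ ∈ Subgroup.normalizer (X : Set S) →
      X ≤ (X ⊓ Subgroup.centralizer {x₁}) ⊔ (X ⊓ Subgroup.centralizer {x₂}) := by
    intro X hXP hn1 hn2
    have hsolv : Group.IsSolvable X :=
      solvable_of_solvable_injective (f := Subgroup.inclusion hXP)
        (Subgroup.inclusion_injective hXP)
    have h0 := Cfsg.Agent.S0058.gen_sub q x₁ x₂ hxy hx1q hx2q X hn1 hn2 (hcopP X hXP)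
    refine le_trans h0 (sup_le le_sup_left (iSup_le fun i => ?_))
    by_cases hi : i = 0
    · subst hi
      simp only [ZMod.val_zero, pow_zero, one_mul]
      exact le_sup_right
    · have hv0 : 0 < i.val := Nat.pos_of_ne_zero (fun h => hi ((ZMod.val_eq_zero i).1 h))
      have hvq : i.val < q := ZMod.val_lt i
      have h5 := hmix i.val hv0 hvq
      refine le_trans (inf_le_inf_right _ hXP) ?_
      rw [h5]; exact bot_le
  have h3 : ((P : Subgroup S) ⊓ Subgroup.centralizer (X₁ : Set S)) ⊔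
      ((P : Subgroup S) ⊓ Subgroup.centralizer (X₂ : Set S)) = P := by
    apply le_antisymm (sup_le inf_le_left inf_le_left)
    rw [hC1, hC2]
    exact hgenX P le_rfl (hPnorm x₁) (hPnorm x₂)
  have hboth : ∀ c : S, c ∈ (P : Subgroup S) → x₁ * c = c * x₁ → x₂ * c = c * x₂ → c = 1 := by
    intro c hcP e1 e2
    have hc : c ∈ (P : Subgroup S) ⊓ Subgroup.centralizer {x₁ ^ 1 * x₂} := by
      refine Subgroup.mem_inf.2 ⟨hcP, ?_⟩
      rw [Subgroup.mem_centralizer_iff]
      intro g hg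
      rw [Set.mem_singleton_iff] at hg
      subst hg
      rw [pow_one, mul_assoc, e2, ← mul_assoc, e1, mul_assoc]
    rw [hmix 1 one_pos hq.one_lt, Subgroup.mem_bot] at hc
    exact hc
  have h2 : ((P : Subgroup S) ⊓ Subgroup.centralizer (X₁ : Set S)) ⊓
      ((P : Subgroup S) ⊓ Subgroup.centralizer (X₂ : Set S)) = ⊥ := by
    rw [hC1, hC2, eq_bot_iff]
    intro c hc
    obtain ⟨⟨hcP, hc1⟩, ⟨_, hc2⟩⟩ := hc
    rw [Subgroup.mem_bot]
    exact hboth c hcP ((Subgroup.mem_centralizer_iff.1 hc1) x₁ rfl)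
      ((Subgroup.mem_centralizer_iff.1 hc2) x₂ rfl)
  have h1 : ⁅(P : Subgroup S) ⊓ Subgroup.centralizer (X₁ : Set S),
      (P : Subgroup S) ⊓ Subgroup.centralizer (X₂ : Set S)⁆ = ⊥ := by
    rw [hC1, hC2, Subgroup.commutator_eq_bot_iff_le_centralizer]
    let τ : MulAut (P : Subgroup S) := MulAut.conjNormal x₁
    let σ : MulAut (P : Subgroup S) := MulAut.conjNormal x₂
    have hτ : ∀ v : (P : Subgroup S), ((τ v : (P : Subgroup S)) : S) = x₁ * v * x₁⁻¹ :=
      fun v => MulAut.conjNormal_apply x₁ v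
    have hσ : ∀ v : (P : Subgroup S), ((σ v : (P : Subgroup S)) : S) = x₂ * v * x₂⁻¹ :=
      fun v => MulAut.conjNormal_apply x₂ v
    have hτfix : ∀ v : (P : Subgroup S), x₁ * (v : S) = v * x₁ → τ v = v := by
      intro v hv
      apply Subtype.ext
      rw [hτ, hv, mul_assoc, mul_inv_cancel, mul_one]
    have hσfix : ∀ v : (P : Subgroup S), x₂ * (v : S) = v * x₂ → σ v = v := by
      intro v hv
      apply Subtype.ext
      rw [hσ, hv, mul_assoc, mul_inv_cancel, mul_one]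
    have hτfix' : ∀ v : (P : Subgroup S), τ v = v → x₁ * (v : S) = v * x₁ := by
      intro v hv
      have h0 := congrArg Subtype.val hv
      rw [hτ] at h0
      exact mul_inv_eq_iff_eq_mul.1 h0
    have hσfix' : ∀ v : (P : Subgroup S), σ v = v → x₂ * (v : S) = v * x₂ := by
      intro v hv
      have h0 := congrArg Subtype.val hv
      rw [hσ] at h0
      exact mul_inv_eq_iff_eq_mul.1 h0
    have hst : ∀ v, σ (τ v) = τ (σ v) := by
      intro v
      apply Subtype.ext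
      rw [hσ, hτ, hτ, hσ]
      have e1 : x₂ * x₁ = x₁ * x₂ := hxy.symm
      have e2 : x₁⁻¹ * x₂⁻¹ = x₂⁻¹ * x₁⁻¹ := by rw [← mul_inv_rev, ← mul_inv_rev, e1]
      calc x₂ * (x₁ * ↑v * x₁⁻¹) * x₂⁻¹ = (x₂ * x₁) * ↑v * (x₁⁻¹ * x₂⁻¹) := by
            simp only [mul_assoc]
        _ = (x₁ * x₂) * ↑v * (x₂⁻¹ * x₁⁻¹) := by rw [e1, e2]
        _ = x₁ * (x₂ * ↑v * x₂⁻¹) * x₁⁻¹ := by simp only [mul_assoc]
    have hfix : ∀ v, σ v = v → τ v = v → v = 1 := by
      intro v hsv htv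
      exact Subtype.ext (hboth v v.2 (hτfix' v htv) (hσfix' v hsv))
    have hgen : ∀ j, Subgroup.upperCentralSeries (P : Subgroup S) j ≤
        Subgroup.closure ({v | v ∈ Subgroup.upperCentralSeries (P : Subgroup S) j ∧ τ v = v} ∪
          {v | v ∈ Subgroup.upperCentralSeries (P : Subgroup S) j ∧ σ v = v}) := by
      intro j
      have hXP : (Subgroup.upperCentralSeries (P : Subgroup S) j).map (P : Subgroup S).subtype
          ≤ P := by
        rintro _ ⟨v, _, rfl⟩; exact v.2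
      have hinv : ∀ (φ : MulAut (P : Subgroup S)) (v : (P : Subgroup S)),
          v ∈ Subgroup.upperCentralSeries (P : Subgroup S) j →
          φ v ∈ Subgroup.upperCentralSeries (P : Subgroup S) j := by
        intro φ v hv
        have h0 := Subgroup.comap_upperCentralSeries φ j
        rw [← h0] at hv; exact hv
      have hn1 : x₁ ∈ Subgroup.normalizer
          (((Subgroup.upperCentralSeries (P : Subgroup S) j).map (P : Subgroup S).subtype :
            Subgroup S) : Set S) := by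
        apply Subgroup.mem_normalizer_fintype
        rintro _ ⟨v, hv, rfl⟩
        exact ⟨τ v, hinv τ v hv, hτ v⟩
      have hn2 : x₂ ∈ Subgroup.normalizer
          (((Subgroup.upperCentralSeries (P : Subgroup S) j).map (P : Subgroup S).subtype :
            Subgroup S) : Set S) := by
        apply Subgroup.mem_normalizer_fintype
        rintro _ ⟨v, hv, rfl⟩
        exact ⟨σ v, hinv σ v hv, hσ v⟩
      have h0 := hgenX _ hXP hn1 hn2
      intro u hu
      have hu' : (u : S) ∈ (Subgroup.upperCentralSeries (P : Subgroup S) j).map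
          (P : Subgroup S).subtype := ⟨u, hu, rfl⟩
      have h5 := h0 hu'
      have h6 : ((Subgroup.upperCentralSeries (P : Subgroup S) j).map (P : Subgroup S).subtype ⊓
            Subgroup.centralizer {x₁}) ⊔
          ((Subgroup.upperCentralSeries (P : Subgroup S) j).map (P : Subgroup S).subtype ⊓
            Subgroup.centralizer {x₂}) ≤
          (Subgroup.closure
            ({v | v ∈ Subgroup.upperCentralSeries (P : Subgroup S) j ∧ τ v = v} ∪
            {v | v ∈ Subgroup.upperCentralSeries (P : Subgroup S) j ∧ σ v = v})).map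
            (P : Subgroup S).subtype := by
        apply sup_le
        · rintro w ⟨⟨v, hvZ, rfl⟩, hw2⟩
          refine ⟨v, Subgroup.subset_closure (Or.inl ⟨hvZ, ?_⟩), rfl⟩
          exact hτfix v ((Subgroup.mem_centralizer_iff.1 hw2) x₁ rfl)
        · rintro w ⟨⟨v, hvZ, rfl⟩, hw2⟩
          refine ⟨v, Subgroup.subset_closure (Or.inr ⟨hvZ, ?_⟩), rfl⟩
          exact hσfix v ((Subgroup.mem_centralizer_iff.1 hw2) x₂ rfl)
      obtain ⟨u', hu'', hu'''⟩ := h6 h5
      have h7 : u' = u := Subtype.ext hu'''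
      rw [← h7]; exact hu''
    have hcomm := commute_of_fix_gen σ τ hst hfix hgen
    intro a ha
    rw [Subgroup.mem_centralizer_iff]
    intro b hb
    obtain ⟨haP, haC⟩ := ha
    obtain ⟨hbP, hbC⟩ := hb
    have hta : τ ⟨a, haP⟩ = ⟨a, haP⟩ :=
      hτfix ⟨a, haP⟩ ((Subgroup.mem_centralizer_iff.1 haC) x₁ rfl)
    have hsb : σ ⟨b, hbP⟩ = ⟨b, hbP⟩ :=
      hσfix ⟨b, hbP⟩ ((Subgroup.mem_centralizer_iff.1 hbC) x₂ rfl)
    have h0 := hcomm ⟨a, haP⟩ ⟨b, hbP⟩ hta hsb
    exact (congrArg Subtype.val h0.eq).symm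
  exact ⟨h1, h2, h3⟩

end Cfsg.Agent.S1900
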