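import Cfsg.Statements.S1901
import Mathlib
import Cfsg.Agent.Lib.Helper41.Cores

set_option autoImplicit false
open Cfsg

namespace Cfsg.Agent.S1901

open Cfsg.Agent.Lib.Helper41

theorem mem_of_pow_mem_of_coprime {G : Type*} [Group G] [Finite G] (N : Subgroup G) (c : G) (k : ℕ)
    (hk : c ^ k ∈ N) (hcop : (orderOf c).Coprime k) : c ∈ N := by
  by_cases ho1 : orderOf c = 1
  · rw [orderOf_eq_one_iff.mp ho1]; exact N.one_mem
  · have ho2 : 1 < orderOf c := by have := orderOf_pos c; omega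
    obtain ⟨j, -, hj⟩ := Nat.exists_mul_mod_eq_one_of_coprime hcop.symm ho2
    have h1 : c ^ (k * j) = c ^ 1 := by
      rw [pow_eq_pow_iff_modEq]
      show k * j % orderOf c = 1 % orderOf c
      rw [hj, Nat.mod_eq_of_lt ho2]
    have h2 : (c ^ k) ^ j ∈ N := N.pow_mem hk j
    rw [← pow_mul, h1, pow_one] at h2
    exact h2

theorem exists_p_element {G : Type*} [Group G] [Finite G] {p : ℕ} [Fact p.Prime] (C N : Subgroup G)
    (h : p ∣ C.relIndex N) : ∃ x ∈ N, x ∉ C ∧ ∃ k : ℕ, orderOf x = p ^ k := by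
  by_contra hcon
  obtain ⟨R⟩ := (inferInstance : Nonempty (Sylow p N))
  have hle : (R : Subgroup N) ≤ C.subgroupOf N := by
    intro r hr
    by_contra hrC
    apply hcon
    refine ⟨(r : G), r.2, fun h' => hrC (Subgroup.mem_subgroupOf.mpr h'), ?_⟩
    obtain ⟨k, hk⟩ := (IsPGroup.iff_orderOf.mp R.isPGroup') ⟨r, hr⟩
    refine ⟨k, ?_⟩
    rw [← hk, Subgroup.orderOf_mk, Subgroup.orderOf_coe]
  have h1 : (C.subgroupOf N).index ∣ (R : Subgroup N).index := Subgroup.index_dvd_of_le hle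
  exact R.not_dvd_index (h.trans h1)

theorem conj_pow_aux {H : Type*} [Group H] (X A C : H) (h1 : X * A * X⁻¹ = C * A)
    (h2 : X * C * X⁻¹ = C) (j : ℕ) : X ^ j * A * (X ^ j)⁻¹ = C ^ j * A := by
  induction j with
  | zero => simp
  | succ j ih =>
    have h3 : X * C ^ j * X⁻¹ = C ^ j := by
      rw [← conj_pow, h2]
    calc X ^ (j + 1) * A * (X ^ (j + 1))⁻¹ = X * (X ^ j * A * (X ^ j)⁻¹) * X⁻¹ := by
          rw [pow_succ']; group
      _ = X * (C ^ j * A) * X⁻¹ := by rw [ih]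
      _ = (X * C ^ j * X⁻¹) * (X * A * X⁻¹) := by group
      _ = C ^ j * (C * A) := by rw [h3, h1]
      _ = C ^ (j + 1) * A := by rw [pow_succ]; group

/-- If `Q₀` centralizes a Sylow `p`-subgroup modulo `N`, every `p`-element normalizing `Q₀`
centralizes `Q₀` modulo `N`. -/
theorem centralizes_mod {G : Type*} [Group G] [Finite G] {p : ℕ} [Fact p.Prime] (P : Sylow p G)
    (N : Subgroup G) [N.Normal] (Q₀ : Subgroup G) (x : G) (k : ℕ) (hxo : orderOf x = p ^ k)
    (hxQ : ∀ c ∈ Q₀, x * c * x⁻¹ ∈ Q₀) (hxQ' : ∀ c ∈ Q₀, x⁻¹ * c * x ∈ Q₀)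
    (hPQ : ∀ c ∈ Q₀, ∀ u ∈ (P : Subgroup G), u * c * u⁻¹ * c⁻¹ ∈ N) :
    ∀ c ∈ Q₀, x * c * x⁻¹ * c⁻¹ ∈ N := by
  let π := QuotientGroup.mk' N
  have hπ : Function.Surjective π := QuotientGroup.mk'_surjective N
  set Qbar : Subgroup (G ⧸ N) := Q₀.map π with hQbar
  let Pbar : Sylow p (G ⧸ N) := P.mapSurjective hπ
  have hPbar : (Pbar : Subgroup (G ⧸ N)) = (P : Subgroup G).map π := Sylow.coe_mapSurjective hπ P
  have hxN : π x ∈ Subgroup.normalizer (Qbar : Set (G ⧸ N)) := by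
    rw [Subgroup.mem_normalizer_iff]
    intro h
    constructor
    · intro hh
      obtain ⟨c, hc, rfl⟩ := Subgroup.mem_map.mp hh
      exact Subgroup.mem_map.mpr ⟨x * c * x⁻¹, hxQ c hc, by simp⟩
    · intro hh
      obtain ⟨c, hc, hce⟩ := Subgroup.mem_map.mp hh
      refine Subgroup.mem_map.mpr ⟨x⁻¹ * c * x, hxQ' c hc, ?_⟩
      rw [map_mul, map_mul, map_inv, hce]
      group
  have hPC : (Pbar : Subgroup (G ⧸ N)) ≤ Subgroup.centralizer (Qbar : Set (G ⧸ N)) := by
    rw [hPbar]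
    intro u' hu'
    obtain ⟨u, hu, rfl⟩ := Subgroup.mem_map.mp hu'
    rw [Subgroup.mem_centralizer_iff]
    intro c' hc'
    obtain ⟨c, hc, rfl⟩ := Subgroup.mem_map.mp hc'
    have h1 : π (u * c * u⁻¹ * c⁻¹) = 1 := (QuotientGroup.eq_one_iff _).mpr (hPQ c hc u hu)
    rw [map_mul, map_mul, map_mul, map_inv, map_inv] at h1
    have h2 : π u * π c * (π u)⁻¹ = π c := mul_inv_eq_one.mp h1
    calc π c * π u = (π u * π c * (π u)⁻¹) * π u := by rw [h2]
      _ = π u * π c := by group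
  have hPN : (Pbar : Subgroup (G ⧸ N)) ≤ Subgroup.normalizer (Qbar : Set (G ⧸ N)) :=
    hPC.trans (Subgroup.centralizer_le_normalizer _)
  have hxp : IsPGroup p (Subgroup.zpowers (π x)) := by
    have h1 : IsPGroup p (Subgroup.zpowers x) := IsPGroup.of_card (by rw [Nat.card_zpowers, hxo])
    have h2 : Subgroup.zpowers (π x) = (Subgroup.zpowers x).map π := by
      rw [MonoidHom.map_zpowers]
    rw [h2]
    exact h1.map π
  obtain ⟨n, hn, hnx⟩ := exists_conj_mem_sylow_of_mem Pbar _ hPN (π x) hxN hxp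
  have hz := hPC hnx
  rw [Subgroup.mem_centralizer_iff] at hz
  intro c hc
  have hq : π c ∈ Qbar := Subgroup.mem_map_of_mem π hc
  have hnq : n * π c * n⁻¹ ∈ Qbar := ((Subgroup.mem_normalizer_iff.mp hn) (π c)).mp hq
  have h1 := hz _ hnq
  have h2 : π x * π c = π c * π x := by
    have h3 : n * (π x * π c) * n⁻¹ = n * (π c * π x) * n⁻¹ := by
      calc n * (π x * π c) * n⁻¹ = (n * π x * n⁻¹) * (n * π c * n⁻¹) := by group
        _ = (n * π c * n⁻¹) * (n * π x * n⁻¹) := h1.symm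
        _ = n * (π c * π x) * n⁻¹ := by group
    exact mul_left_cancel (mul_right_cancel h3)
  rw [← QuotientGroup.eq_one_iff]
  show π (x * c * x⁻¹ * c⁻¹) = 1
  rw [map_mul, map_mul, map_mul, map_inv, map_inv, h2]
  group

/-- Let G be a finite p-solvable group and Q a subgroup of order prime to p such that p divides the index of C_G(Q) in N_G(Q). Then Q normalizes no Sylow p-subgroup of G. -/
theorem result {G : Type*} [Group G] [Finite G] {p : ℕ} [Fact p.Prime]
    (hG : Cfsg.IsPSolvable p G) (Q : Subgroup G) (hQ : ¬ p ∣ Nat.card Q)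
    (hA : p ∣ (Subgroup.centralizer (Q : Set G)).relIndex (Subgroup.normalizer (Q : Set G)))
    (P : Sylow p G) : ¬ Q ≤ Subgroup.normalizer ((P : Subgroup G) : Set G) := by
  intro hQP
  obtain ⟨x, hxN, hxC, k, hxo⟩ := exists_p_element _ _ hA
  obtain ⟨n, H, hH0, hHn, hmono, hnorm, hstep⟩ := hG
  have hQcop : (Nat.card Q).Coprime p := ((Nat.Prime.coprime_iff_not_dvd Fact.out).mpr hQ).symm
  have hQord : ∀ c ∈ Q, ∀ j : ℕ, (orderOf c).Coprime (p ^ j) := by
    intro c hc j
    have h1 : orderOf (⟨c, hc⟩ : Q) ∣ Nat.card Q := orderOf_dvd_natCard _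
    rw [Subgroup.orderOf_mk] at h1
    exact Nat.Coprime.pow_right j (Nat.Coprime.coprime_dvd_left h1 hQcop)
  have hxQ : ∀ c ∈ Q, x * c * x⁻¹ ∈ Q := fun c hc => ((Subgroup.mem_normalizer_iff.mp hxN) c).mp hc
  have hxQ' : ∀ c ∈ Q, x⁻¹ * c * x ∈ Q := by
    intro c hc
    have := ((Subgroup.mem_normalizer_iff.mp (Subgroup.inv_mem _ hxN)) c).mp hc
    simpa using this
  have hcommQ : ∀ a ∈ Q, x * a * x⁻¹ * a⁻¹ ∈ Q := fun a ha => Q.mul_mem (hxQ a ha) (Q.inv_mem ha)
  -- main descending induction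
  have key : ∀ d : ℕ, ∀ j : Fin (n + 1), (j : ℕ) + d = n → ∀ a ∈ Q, x * a * x⁻¹ * a⁻¹ ∈ H j := by
    intro d
    induction d with
    | zero =>
      intro j hj a _
      have : j = Fin.last n := Fin.ext (by simpa using hj)
      rw [this, hHn]; exact Subgroup.mem_top _
    | succ d ih =>
      intro j hj a ha
      have hjn : (j : ℕ) < n := by omega
      set i : Fin n := ⟨j, hjn⟩ with hi
      have hcast : i.castSucc = j := Fin.ext rfl
      have hIH : ∀ a ∈ Q, x * a * x⁻¹ * a⁻¹ ∈ H i.succ := ih i.succ (by simp [hi]; omega)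
      rw [← hcast]
      haveI hNn : (H i.castSucc).Normal := hnorm _
      haveI hMn : (H i.succ).Normal := hnorm _
      have hNM : H i.castSucc ≤ H i.succ := hmono (Fin.castSucc_lt_succ (i := i)).le
      set c := x * a * x⁻¹ * a⁻¹ with hc
      have hcQ : c ∈ Q := hcommQ a ha
      have hcM : c ∈ H i.succ := hIH a ha
      rcases hstep i with ⟨m, hm⟩ | hcop
      · -- p-group factor
        have h1 : c ^ (p ^ m) ∈ H i.castSucc := by
          rw [← hm]; exact Subgroup.pow_relIndex_mem _ hcM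
        exact mem_of_pow_mem_of_coprime _ c _ h1 (hQord c hcQ m)
      · -- p'-factor
        set Q₀ : Subgroup G := Q ⊓ H i.succ with hQ₀
        have hxQ₀ : ∀ c ∈ Q₀, x * c * x⁻¹ ∈ Q₀ := fun c hc =>
          Subgroup.mem_inf.mpr ⟨hxQ c (Subgroup.mem_inf.mp hc).1, hMn.conj_mem c (Subgroup.mem_inf.mp hc).2 x⟩
        have hxQ₀' : ∀ c ∈ Q₀, x⁻¹ * c * x ∈ Q₀ := fun c hc =>
          Subgroup.mem_inf.mpr ⟨hxQ' c (Subgroup.mem_inf.mp hc).1, by
            have := hMn.conj_mem c (Subgroup.mem_inf.mp hc).2 x⁻¹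
            simpa using this⟩
        have hPQ : ∀ c ∈ Q₀, ∀ u ∈ (P : Subgroup G), u * c * u⁻¹ * c⁻¹ ∈ H i.castSucc := by
          intro c hc u hu
          have hcQ' : c ∈ Q := (Subgroup.mem_inf.mp hc).1
          have hcM' : c ∈ H i.succ := (Subgroup.mem_inf.mp hc).2
          have h1 : c * u⁻¹ * c⁻¹ ∈ (P : Subgroup G) :=
            ((Subgroup.mem_normalizer_iff.mp (hQP hcQ')) u⁻¹).mp ((P : Subgroup G).inv_mem hu)
          have h2 : u * c * u⁻¹ * c⁻¹ ∈ (P : Subgroup G) := by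
            have : u * c * u⁻¹ * c⁻¹ = u * (c * u⁻¹ * c⁻¹) := by group
            rw [this]; exact (P : Subgroup G).mul_mem hu h1
          have h3 : u * c * u⁻¹ * c⁻¹ ∈ H i.succ :=
            (H i.succ).mul_mem (hMn.conj_mem c hcM' u) ((H i.succ).inv_mem hcM')
          have h4 : (u * c * u⁻¹ * c⁻¹) ^ ((H i.castSucc).relIndex (H i.succ)) ∈ H i.castSucc :=
            Subgroup.pow_relIndex_mem _ h3
          obtain ⟨e, he⟩ := (IsPGroup.iff_orderOf.mp P.isPGroup') ⟨_, h2⟩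
          rw [Subgroup.orderOf_mk] at he
          refine mem_of_pow_mem_of_coprime _ _ _ h4 ?_
          rw [he]
          exact Nat.Coprime.pow_left e hcop.symm
        have hcl2 := centralizes_mod P (H i.castSucc) Q₀ x k hxo hxQ₀ hxQ₀' hPQ
        -- now work modulo N
        let π := QuotientGroup.mk' (H i.castSucc)
        have hcQ₀ : c ∈ Q₀ := Subgroup.mem_inf.mpr ⟨hcQ, hcM⟩
        have e1 : π x * π a * (π x)⁻¹ = π c * π a := by
          rw [hc]; simp only [map_mul, map_inv]; group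
        have e2 : π x * π c * (π x)⁻¹ = π c := by
          have h5 : π (x * c * x⁻¹ * c⁻¹) = 1 := (QuotientGroup.eq_one_iff _).mpr (hcl2 c hcQ₀)
          rw [map_mul, map_mul, map_mul, map_inv, map_inv] at h5
          exact mul_inv_eq_one.mp h5
        have e3 := conj_pow_aux (π x) (π a) (π c) e1 e2 (p ^ k)
        have e4 : π x ^ (p ^ k) = 1 := by
          rw [← map_pow, ← hxo, pow_orderOf_eq_one, map_one]
        rw [e4] at e3
        have e5 : π c ^ (p ^ k) = 1 := by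
          have : π a = π c ^ (p ^ k) * π a := by simpa using e3
          exact (mul_eq_right.mp this.symm)
        have e6 : c ^ (p ^ k) ∈ H i.castSucc := by
          rw [← QuotientGroup.eq_one_iff]
          show π (c ^ (p ^ k)) = 1
          rw [map_pow]; exact e5
        exact mem_of_pow_mem_of_coprime _ c _ e6 (hQord c hcQ k)
  apply hxC
  rw [Subgroup.mem_centralizer_iff]
  intro a ha
  have h1 := key n 0 (by simp) a ha
  rw [hH0, Subgroup.mem_bot] at h1
  have h2 : x * a * x⁻¹ = a := mul_inv_eq_one.mp h1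
  calc a * x = (x * a * x⁻¹) * x := by rw [h2]
    _ = x * a := by group

end Cfsg.Agent.S1901
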