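import Cfsg.Statements.S1902
import Cfsg.Agent.S1302
import Cfsg.Agent.S0629
import Cfsg.Agent.Lib.Helper14.SL2Solv3

set_option autoImplicit false
open Cfsg

namespace Cfsg.Agent.S1902

/-- Let p be an odd prime, G a finite p-solvable group, and B an elementary abelian subgroup of order p² such that B is the subgroup generated by the elements of order p of some Sylow p-subgroup of C_G(b₀), for some nontrivial b₀ ∈ B. Then every B-invariant subgroup of G of order prime to p lies in O_{p'}(G). -/
theorem result {G : Type*} [Group G] [Finite G] {p : ℕ} [Fact p.Prime] (hp : p ≠ 2)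
    (hG : Cfsg.IsPSolvable p G) (B : Subgroup G) (hB : Cfsg.IsElementaryAbelian p B) (hBc : Nat.card B = p ^ 2)
    (b₀ : G) (hb₀ : b₀ ∈ B) (hb₁ : b₀ ≠ 1) (P : Sylow p ↥(Subgroup.centralizer ({b₀} : Set G)))
    (hBP : B = Subgroup.closure {x : G | x ∈ ((P : Subgroup ↥(Subgroup.centralizer ({b₀} : Set G))).map
      (Subgroup.centralizer ({b₀} : Set G)).subtype : Subgroup G) ∧ orderOf x = p})
    (Q : Subgroup G) (hQ : ¬ p ∣ Nat.card Q) (hinv : ∀ b ∈ B, ∀ x ∈ Q, b * x * b⁻¹ ∈ Q) :
    Q ≤ Cfsg.pPrimeCore p G := by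
  classical
  have hpr := (Fact.out : p.Prime)
  -- p-constrained
  have hX : Cfsg.IsPConstrained p G := by
    obtain ⟨P0⟩ : Nonempty (Sylow p ↥(Cfsg.pPrimePCore p G)) := inferInstance
    exact Cfsg.Agent.S0629.result P0 (Cfsg.Agent.Lib.Helper14.isPSolvable_subgroup hG _)
  have hBcomm : IsMulCommutative ↥B := hB.1
  have hBcomm' : ∀ a ∈ B, ∀ b ∈ B, a * b = b * a := by
    intro a ha b hb
    have := hBcomm.is_comm.comm (⟨a, ha⟩ : B) ⟨b, hb⟩
    exact congrArg Subtype.val this
  have hBp : IsPGroup p ↥B := by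
    intro b
    refine ⟨1, ?_⟩
    have := hB.2 b.1 b.2
    apply Subtype.ext
    simpa using this
  have hord : ∀ b ∈ B, b ≠ 1 → orderOf b = p := by
    intro b hb hb1
    have hd := orderOf_dvd_of_pow_eq_one (hB.2 b hb)
    rcases (Nat.dvd_prime hpr).mp hd with h | h
    · exact absurd (orderOf_eq_one_iff.mp h) hb1
    · exact h
  have hAQ : B ≤ Subgroup.normalizer (Q : Set G) := by
    intro b hb
    rw [Subgroup.mem_normalizer_iff]
    intro x
    constructor
    · intro hx; exact hinv b hb x hx
    · intro hx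
      have := hinv b⁻¹ (B.inv_mem hb) _ hx
      simpa [mul_assoc] using this
  have hBC : B ≤ Subgroup.centralizer ({b₀} : Set G) := by
    intro b hb
    rw [Subgroup.mem_centralizer_singleton_iff]
    exact hBcomm' b hb b₀ hb₀
  have hΩ : ∀ x ∈ Subgroup.centralizer (B : Set G), orderOf x = p → x ∈ B := by
    intro x hx hxp
    have hxC : x ∈ Subgroup.centralizer ({b₀} : Set G) := by
      rw [Subgroup.mem_centralizer_singleton_iff]
      exact (Subgroup.mem_centralizer_iff.mp hx b₀ hb₀).symm
    have hzp : IsPGroup p ↥(Subgroup.zpowers x) := by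
      apply IsPGroup.of_card (n := 1)
      rw [Nat.card_zpowers, hxp, pow_one]
    have hxN : Subgroup.zpowers x ≤ Subgroup.normalizer (B : Set G) :=
      (Subgroup.zpowers_le.mpr hx).trans (Subgroup.centralizer_le_normalizer _)
    have hKp : IsPGroup p ↥(Subgroup.zpowers x ⊔ B) :=
      IsPGroup.to_sup_of_normal_right' hzp hBp hxN
    have hKC : Subgroup.zpowers x ⊔ B ≤ Subgroup.centralizer ({b₀} : Set G) :=
      sup_le (Subgroup.zpowers_le.mpr hxC) hBC
    have hKp' : IsPGroup p ↥((Subgroup.zpowers x ⊔ B).subgroupOf (Subgroup.centralizer ({b₀} : Set G))) :=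
      hKp.comap_of_injective (Subgroup.centralizer ({b₀} : Set G)).subtype
        (Subgroup.centralizer ({b₀} : Set G)).subtype_injective
    obtain ⟨P', hP'⟩ := hKp'.exists_le_sylow
    obtain ⟨g, hg⟩ := MulAction.exists_smul_eq (↥(Subgroup.centralizer ({b₀} : Set G))) P P'
    -- every k ∈ K satisfies g⁻¹ k g ∈ P
    have hconj : ∀ k ∈ Subgroup.zpowers x ⊔ B,
        (g : G)⁻¹ * k * g ∈ ((P : Subgroup ↥(Subgroup.centralizer ({b₀} : Set G))).map
          (Subgroup.centralizer ({b₀} : Set G)).subtype : Subgroup G) := by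
      intro k hk
      have hkC : k ∈ Subgroup.centralizer ({b₀} : Set G) := hKC hk
      have h1 : (⟨k, hkC⟩ : ↥(Subgroup.centralizer ({b₀} : Set G))) ∈
          (P' : Subgroup ↥(Subgroup.centralizer ({b₀} : Set G))) := hP' (by
        rw [Subgroup.mem_subgroupOf]; exact hk)
      rw [← hg, Sylow.coe_subgroup_smul, Subgroup.mem_pointwise_smul_iff_inv_smul_mem] at h1
      refine ⟨_, h1, ?_⟩
      simp [MulAut.smul_def]
    have hB' : ∀ y, y ∈ ((P : Subgroup ↥(Subgroup.centralizer ({b₀} : Set G))).map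
        (Subgroup.centralizer ({b₀} : Set G)).subtype : Subgroup G) → orderOf y = p → y ∈ B := by
      intro y hy hyp
      rw [hBP]
      exact Subgroup.subset_closure ⟨hy, hyp⟩
    have hordc : ∀ k : G, orderOf ((g : G)⁻¹ * k * g) = orderOf k := by
      intro k
      have : (g : G)⁻¹ * k * g = MulAut.conj (g : G)⁻¹ k := by simp [MulAut.conj_apply]
      rw [this]
      exact MulEquiv.orderOf_eq _ _
    -- conjugation by g⁻¹ maps B into B
    have hBB : ∀ b ∈ B, (g : G)⁻¹ * b * g ∈ B := by
      intro b hb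
      by_cases hb1 : b = 1
      · subst hb1; simp
      · apply hB' _ (hconj b (Subgroup.mem_sup_right hb))
        rw [hordc]; exact hord b hb hb1
    -- the map is a bijection of B
    have hfin : Finite ↥B := inferInstance
    let f : ↥B → ↥B := fun b => ⟨(g : G)⁻¹ * b.1 * g, hBB b.1 b.2⟩
    have hfinj : Function.Injective f := by
      intro a b hab
      have : (g : G)⁻¹ * a.1 * g = (g : G)⁻¹ * b.1 * g := congrArg Subtype.val hab
      apply Subtype.ext
      have h2 := mul_right_cancel this
      exact mul_left_cancel h2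
    have hfsurj : Function.Surjective f := Finite.surjective_of_injective hfinj
    have hxB : (g : G)⁻¹ * x * g ∈ B := by
      apply hB' _ (hconj x (Subgroup.mem_sup_left (Subgroup.mem_zpowers x)))
      rw [hordc]; exact hxp
    obtain ⟨b, hb⟩ := hfsurj ⟨_, hxB⟩
    have : (g : G)⁻¹ * b.1 * g = (g : G)⁻¹ * x * g := congrArg Subtype.val hb
    have h2 := mul_left_cancel (mul_right_cancel this)
    rw [← h2]; exact b.2
  exact Cfsg.Agent.S1302.result p hp hX B hBcomm hBp hΩ Q hQ hAQ

end Cfsg.Agent.S1902
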