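import Cfsg.Statements.S1905
import Cfsg.Agent.Lib.Helper28.SE
import Cfsg.Agent.Lib.Helper41.Cores

set_option autoImplicit false
open Cfsg

namespace Cfsg.Agent.S1905

open Cfsg.Agent.Lib.Helper28 Cfsg.Agent.Lib.Helper41

/-- Let M be a subgroup of even order of a finite group S such that M contains the centralizer in S of each of its involutions and the normal core of M in S has odd order. Then all involutions of S are conjugate. If moreover N_S(X) ≤ M for a Sylow 2-subgroup X of M and I is an involution in the centre of X, then all involutions of M are conjugate in M and M = M₀ C_M(I) for some subgroup M₀ of M of odd order. -/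
theorem result {S : Type*} [Group S] [Finite S] (M : Subgroup S) (hM : Even (Nat.card M))
    (hC : ∀ i ∈ M, orderOf i = 2 → Subgroup.centralizer ({i} : Set S) ≤ M) (hcore : Odd (Nat.card M.normalCore)) :
    (∀ x y : S, orderOf x = 2 → orderOf y = 2 → IsConj x y) ∧
      ∀ (X : Sylow 2 M) (I : M), I ∈ (Subgroup.center ↥(X : Subgroup ↥M)).map (X : Subgroup ↥M).subtype → orderOf I = 2 →
        Subgroup.normalizer (((X : Subgroup M).map M.subtype : Subgroup S) : Set S) ≤ M →
        (∀ x y : M, orderOf x = 2 → orderOf y = 2 → IsConj x y) ∧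
          ∃ M₀ : Subgroup M, Odd (Nat.card M₀) ∧
            ∀ m : M, ∃ a ∈ M₀, ∃ c ∈ Subgroup.centralizer ({I} : Set M), m = a * c := by
  have h2 : Fact (Nat.Prime 2) := ⟨Nat.prime_two⟩
  obtain ⟨i₀', hi₀'⟩ := exists_prime_orderOf_dvd_card' (G := M) 2 (even_iff_two_dvd.1 hM)
  have hi₀ : orderOf (i₀' : S) = 2 := by rw [Subgroup.orderOf_coe]; exact hi₀'
  have hi₀M : (i₀' : S) ∈ M := i₀'.2
  have hcomm : ∀ i ∈ M, orderOf i = 2 → ∀ g : S, g * i = i * g → g ∈ M := by
    intro i hiM hi g hg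
    apply hC i hiM hi
    rw [Subgroup.mem_centralizer_iff]
    intro h hh
    rw [Set.mem_singleton_iff] at hh
    subst hh
    exact hg.symm
  have key1 : ∀ x : S, orderOf x = 2 → IsConj (i₀' : S) x := by
    by_contra hne
    push Not at hne
    obtain ⟨x₀, hx₀, hx₀c⟩ := hne
    have hJM : ∀ j : S, orderOf j = 2 → ¬ IsConj (i₀' : S) j → j ∈ M := by
      intro j hj hjc
      rcases dihedral_lemma (inv_iff.1 hi₀).2 (inv_iff.1 hj).2 with
        ⟨z, hz, hzi, hzj⟩ | ⟨w, hww, hw⟩
      · have hzM : z ∈ M := hcomm _ hi₀M hi₀ z hzi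
        exact hcomm z hzM hz j hzj.symm
      · exact absurd (isConj_iff.2 ⟨w, hw⟩) hjc
    have hconj : Group.conjugatesOfSet {j : S | orderOf j = 2 ∧ ¬ IsConj (i₀' : S) j} ⊆
        (M : Set S) := by
      intro y hy
      obtain ⟨j, hj, hjy⟩ := Group.mem_conjugatesOfSet_iff.1 hy
      obtain ⟨c, hc⟩ := isConj_iff.1 hjy
      apply hJM
      · rw [← hc]; exact inv_conj hj.1 c
      · exact fun h => hj.2 (h.trans hjy.symm)
    have hN : Subgroup.normalClosure {j : S | orderOf j = 2 ∧ ¬ IsConj (i₀' : S) j} ≤ M :=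
      (Subgroup.closure_le M).2 hconj
    have hN' := Subgroup.normal_le_normalCore.2 hN
    have hx₀N : x₀ ∈ M.normalCore := hN' (Subgroup.subset_normalClosure ⟨hx₀, hx₀c⟩)
    have hdvd := Subgroup.orderOf_dvd_natCard _ hx₀N
    rw [hx₀] at hdvd
    exact (Nat.not_even_iff_odd.2 hcore) (even_iff_two_dvd.2 hdvd)
  refine ⟨fun x y hx hy => (key1 x hx).symm.trans (key1 y hy), ?_⟩
  intro X I hI hIo hN
  have hX'M : (X : Subgroup M).map M.subtype ≤ M := by
    rintro _ ⟨v, _, rfl⟩; exact v.2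
  have hX'p : IsPGroup 2 ((X : Subgroup M).map M.subtype) := X.isPGroup'.map M.subtype
  have hX'idx : ¬ 2 ∣ ((X : Subgroup M).map M.subtype).relIndex M := by
    have h0 : ((X : Subgroup M).map M.subtype).subgroupOf M = (X : Subgroup M) :=
      Subgroup.comap_map_eq_self_of_injective (Subgroup.subtype_injective M) _
    rw [Subgroup.relIndex, h0]
    exact X.not_dvd_index
  have hI' : orderOf (I : S) = 2 := by rw [Subgroup.orderOf_coe]; exact hIo
  have hIcen : ∀ y ∈ (X : Subgroup M).map M.subtype, y * (I : S) = (I : S) * y := by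
    rintro _ ⟨v, hv, rfl⟩
    obtain ⟨c, hc, hcI⟩ := hI
    have h0 := Subgroup.mem_center_iff.1 hc ⟨v, hv⟩
    have h1 := congrArg (fun z : (X : Subgroup M) => ((z : M) : S)) h0
    rw [← hcI]
    simpa using h1
  have hA : ∀ h : S, h * (I : S) * h⁻¹ ∈ M → h ∈ M := by
    intro h hh
    have hz : orderOf (h * (I : S) * h⁻¹) = 2 := inv_conj hI' h
    have hR'M : ((X : Subgroup M).map M.subtype).map (MulAut.conj h).toMonoidHom ≤ M := by
      rintro _ ⟨y, hy, rfl⟩
      apply hcomm _ hh hz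
      have e := hIcen y hy
      show h * y * h⁻¹ * (h * (I : S) * h⁻¹) = h * (I : S) * h⁻¹ * (h * y * h⁻¹)
      calc h * y * h⁻¹ * (h * (I : S) * h⁻¹) = h * (y * (I : S)) * h⁻¹ := by group
        _ = h * ((I : S) * y) * h⁻¹ := by rw [e]
        _ = _ := by group
    have hR'p : IsPGroup 2 (((X : Subgroup M).map M.subtype).map (MulAut.conj h).toMonoidHom) :=
      hX'p.map _
    obtain ⟨m, hm, hmx⟩ := exists_conj_le_of_not_dvd_relIndex M _ _ hX'p hX'idx hR'M hR'p
    have hmh : m * h ∈ Subgroup.normalizer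
        ((((X : Subgroup M).map M.subtype : Subgroup S)) : Set S) := by
      apply Subgroup.mem_normalizer_fintype
      intro y hy
      have h0 := hmx (h * y * h⁻¹) ⟨y, hy, rfl⟩
      have e : m * h * y * (m * h)⁻¹ = m * (h * y * h⁻¹) * m⁻¹ := by group
      rw [e]; exact h0
    have h1 := hN hmh
    have e : h = m⁻¹ * (m * h) := by group
    rw [e]; exact M.mul_mem (M.inv_mem hm) h1
  have hB : ∀ i ∈ M, orderOf i = 2 → ∀ g : S, g * i * g⁻¹ ∈ M → g ∈ M := by
    intro i hiM hi g hg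
    have hR'p : IsPGroup 2 (Subgroup.zpowers i) := by
      apply IsPGroup.of_card (n := 1)
      rw [Nat.card_zpowers, hi, pow_one]
    obtain ⟨m, hm, hmx⟩ := exists_conj_le_of_not_dvd_relIndex M _ _ hX'p hX'idx
      (Subgroup.zpowers_le.2 hiM) hR'p
    have h1 : m * i * m⁻¹ ∈ (X : Subgroup M).map M.subtype := hmx i (Subgroup.mem_zpowers i)
    have h2 := hIcen _ h1
    have h3 : (m⁻¹ * (I : S) * m) * i = i * (m⁻¹ * (I : S) * m) := by
      calc (m⁻¹ * (I : S) * m) * i = m⁻¹ * ((I : S) * (m * i * m⁻¹)) * m := by group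
        _ = m⁻¹ * ((m * i * m⁻¹) * (I : S)) * m := by rw [h2]
        _ = _ := by group
    have h4 : g * (m⁻¹ * (I : S) * m) * g⁻¹ ∈ M := by
      apply hcomm (g * i * g⁻¹) hg (inv_conj hi g)
      calc g * (m⁻¹ * (I : S) * m) * g⁻¹ * (g * i * g⁻¹)
          = g * ((m⁻¹ * (I : S) * m) * i) * g⁻¹ := by group
        _ = g * (i * (m⁻¹ * (I : S) * m)) * g⁻¹ := by rw [h3]
        _ = _ := by group
    have h5 : g * m⁻¹ ∈ M := by
      apply hA
      have e : g * m⁻¹ * (I : S) * (g * m⁻¹)⁻¹ = g * (m⁻¹ * (I : S) * m) * g⁻¹ := by group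
      rw [e]; exact h4
    have e : g = g * m⁻¹ * m := by group
    rw [e]; exact M.mul_mem h5 hm
  have hSE : Cfsg.IsStronglyEmbedded M := by
    refine ⟨?_, hM, ?_⟩
    · intro htop
      have h0 : M.normalCore = M := by
        rw [htop]; exact Subgroup.normalCore_eq_self ⊤
      rw [h0] at hcore
      exact (Nat.not_even_iff_odd.2 hcore) hM
    · intro g hg
      by_contra hodd
      rw [Nat.not_odd_iff_even] at hodd
      obtain ⟨t', ht'⟩ := exists_prime_orderOf_dvd_card'
        (G := ↥(M ⊓ M.map (MulAut.conj g).toMonoidHom)) 2 (even_iff_two_dvd.1 hodd)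
      have ht : orderOf (t' : S) = 2 := by rw [Subgroup.orderOf_coe]; exact ht'
      have htM : (t' : S) ∈ M := (Subgroup.mem_inf.1 t'.2).1
      have htg : g⁻¹ * (t' : S) * g ∈ M := (mem_conj_iff M g _).1 (Subgroup.mem_inf.1 t'.2).2
      apply hg
      apply hB (g⁻¹ * (t' : S) * g) htg ?_ g ?_
      · have h0 := inv_conj ht g⁻¹
        simpa using h0
      · have e : g * (g⁻¹ * (t' : S) * g) * g⁻¹ = (t' : S) := by group
        rw [e]; exact htM
  obtain ⟨u, hu, huM⟩ := se_exists_inv_out hSE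
  refine ⟨?_, ?_⟩
  · intro x y hx hy
    have hx' : orderOf (x : S) = 2 := by rw [Subgroup.orderOf_coe]; exact hx
    have hy' : orderOf (y : S) = 2 := by rw [Subgroup.orderOf_coe]; exact hy
    obtain ⟨d, hd, hdxy⟩ := se_conj_in hSE hu huM hx' x.2 hy' y.2
    exact isConj_iff.2 ⟨⟨d, (Subgroup.mem_inf.1 hd).1⟩, Subtype.ext (by simpa using hdxy)⟩
  · refine ⟨(M ⊓ M.map (MulAut.conj u).toMonoidHom).subgroupOf M, ?_, ?_⟩
    · have h0 := hSE.2.2 u huM
      rwa [Nat.card_congr (Subgroup.subgroupOfEquivOfLe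
        (inf_le_left : M ⊓ M.map (MulAut.conj u).toMonoidHom ≤ M)).toEquiv]
    · intro m
      have hmI : orderOf ((m : S) * (I : S) * (m : S)⁻¹) = 2 := inv_conj hI' _
      obtain ⟨d, hd, hdI⟩ := se_conj_in hSE hu huM hI' I.2 hmI
        (M.mul_mem (M.mul_mem m.2 I.2) (M.inv_mem m.2))
      refine ⟨⟨d, (Subgroup.mem_inf.1 hd).1⟩, Subgroup.mem_subgroupOf.2 hd,
        (⟨d, (Subgroup.mem_inf.1 hd).1⟩ : M)⁻¹ * m, ?_, by group⟩
      rw [Subgroup.mem_centralizer_iff]
      intro h hh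
      rw [Set.mem_singleton_iff] at hh
      subst hh
      apply Subtype.ext
      show (h : S) * (d⁻¹ * (m : S)) = d⁻¹ * (m : S) * (h : S)
      have e1 : (h : S) = d⁻¹ * ((m : S) * (h : S) * (m : S)⁻¹) * d := by rw [← hdI]; group
      calc (h : S) * (d⁻¹ * (m : S))
          = d⁻¹ * ((m : S) * (h : S) * (m : S)⁻¹) * d * (d⁻¹ * (m : S)) := by rw [← e1]
        _ = d⁻¹ * (m : S) * (h : S) := by group

end Cfsg.Agent.S1905
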