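import Cfsg.Statements.S1906
import Cfsg.Agent.Lib.Helper40.Extremal
import Cfsg.Agent.Lib.Helper6.S1906Core
import Cfsg.Agent.Lib.Helper6.S1906NEG
import Cfsg.Agent.Lib.Helper6.S1906DER
import Cfsg.Agent.Lib.Helper6.S1906TRIV

set_option autoImplicit false
open Cfsg

namespace Cfsg.Agent.S1906

open Cfsg.Agent.Lib.Helper6.S1906

/-- Let G be a finite group with no subgroup of index 2 whose Sylow 2-subgroup X embeds in GL₃(F) for a finite field F of odd order. If X contains an elementary abelian subgroup of order 8, then X is abelian. -/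
theorem result {G : Type*} [Group G] [Finite G] (hG : ∀ H : Subgroup G, H.index ≠ 2) (X : Sylow 2 G)
    {F : Type*} [Field F] [Fintype F] (hF : Odd (Fintype.card F))
    (f : ↥(X : Subgroup G) →* GL (Fin 3) F) (hf : Function.Injective f)
    (E : Subgroup G) (hE : E ≤ (X : Subgroup G)) (hEa : Cfsg.IsElementaryAbelian 2 E) (hE8 : Nat.card E = 8) :
    IsMulCommutative (X : Subgroup G) := by
  by_contra hna
  have hfact : Fact (Nat.Prime 2) := ⟨Nat.prime_two⟩
  -- `2 ≠ 0` in `F`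
  have h2 : (2 : F) ≠ 0 := by
    intro h
    have hchar : ringChar F = 2 :=
      CharP.ringChar_of_prime_eq_zero Nat.prime_two (by exact_mod_cast h)
    have h3 := FiniteField.even_card_iff_char_two.mp hchar
    rcases hF with ⟨k, hk⟩
    omega
  have hneg : (-1 : Fˣ) ≠ 1 := by
    intro h
    have h3 := congrArg (fun u : Fˣ => (u : F)) h
    simp only [Units.val_neg, Units.val_one] at h3
    apply h2
    linear_combination -h3
  -- the matrix-valued homomorphism
  obtain ⟨fm, hfmdef⟩ : ∃ fm : ↥(X : Subgroup G) →* Matrix (Fin 3) (Fin 3) F,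
      fm = (Units.coeHom _).comp f := ⟨_, rfl⟩
  have hfmval : ∀ x : ↥(X : Subgroup G), fm x = ((f x : GL (Fin 3) F) : Matrix (Fin 3) (Fin 3) F) := by
    intro x; rw [hfmdef]; rfl
  have hfm : Function.Injective fm := by
    intro a b hab
    rw [hfmval, hfmval] at hab
    exact hf (Units.ext hab)
  -- the element `y` of `E` acting as `-1`
  have hsqE : ∀ a : ↥E, a * a = 1 := by
    intro a
    apply Subtype.ext
    rw [Subgroup.coe_mul, Subgroup.coe_one, ← pow_two]
    exact hEa.2 a.1 a.2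
  have hfE : Function.Injective (fm.comp (Subgroup.inclusion hE)) :=
    hfm.comp (Subgroup.inclusion_injective hE)
  obtain ⟨e, he⟩ := neg_one_mem h2 hsqE hE8 (fm.comp (Subgroup.inclusion hE)) hfE
  obtain ⟨y, hyE⟩ := e
  have hyX : y ∈ (X : Subgroup G) := hE hyE
  have hfy : fm ⟨y, hyX⟩ = -1 := he
  have hyc : ∀ x : ↥(X : Subgroup G), (⟨y, hyX⟩ : ↥(X : Subgroup G)) * x = x * ⟨y, hyX⟩ := by
    intro x
    apply hfm
    rw [map_mul, map_mul, hfy, neg_one_mul, mul_neg_one]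
  have hy2 : y ^ 2 = 1 := hEa.2 y hyE
  have hy1 : y ≠ 1 := by
    intro h
    have h1 : fm ⟨y, hyX⟩ = 1 := by
      have h3 : (⟨y, hyX⟩ : ↥(X : Subgroup G)) = 1 := Subtype.ext h
      rw [h3, map_one]
    rw [hfy] at h1
    have h3 := congrFun (congrFun h1 0) 0
    simp only [Matrix.neg_apply, Matrix.one_apply_eq] at h3
    apply h2
    linear_combination -h3
  have hyo : orderOf y = 2 := orderOf_eq_prime hy2 hy1
  -- the determinant character
  obtain ⟨ϕ, hϕdef⟩ : ∃ ϕ : ↥(X : Subgroup G) →* Fˣ,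
      ϕ = (Matrix.GeneralLinearGroup.det).comp f := ⟨_, rfl⟩
  have hϕ : ∀ x : ↥(X : Subgroup G), ((ϕ x : Fˣ) : F) = (fm x).det := by
    intro x; rw [hϕdef, hfmval]; rfl
  have hϕy : ϕ ⟨y, hyX⟩ = -1 := by
    apply Units.ext
    rw [hϕ, hfy, Matrix.det_neg, Matrix.det_one]
    simp only [Fintype.card_fin, mul_one, Units.val_neg, Units.val_one]
    norm_num
  -- the kernel of `ϕ` as a subgroup of `G`
  obtain ⟨T, hT⟩ : ∃ T : Subgroup G, T = ϕ.ker.map (X : Subgroup G).subtype := ⟨_, rfl⟩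
  have hker : ∀ s : ↥(X : Subgroup G), ϕ s = 1 ↔ (s : G) ∈ T := by
    intro s
    rw [hT, Subgroup.mem_map]
    constructor
    · intro h
      exact ⟨s, MonoidHom.mem_ker.mpr h, rfl⟩
    · rintro ⟨s', hs', hss'⟩
      have h3 : s' = s := Subtype.ext hss'
      rw [← h3]
      exact MonoidHom.mem_ker.mp hs'
  have hTS : T ≤ (X : Subgroup G) := by
    rw [hT]
    exact Subgroup.map_subtype_le _
  have hTn : (T.subgroupOf (X : Subgroup G)).Normal := by
    have h3 : T.subgroupOf (X : Subgroup G) = ϕ.ker := by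
      ext s
      rw [Subgroup.mem_subgroupOf, MonoidHom.mem_ker]
      exact (hker s).symm
    rw [h3]
    infer_instance
  have hinv : ∀ a : Fˣ, a ^ 2 = 1 → a = 1 ∨ a = ϕ ⟨y, hyX⟩ := by
    intro a ha
    rw [hϕy]
    have h1 : (a : F) ^ 2 = 1 := by
      have h3 := congrArg (fun u : Fˣ => (u : F)) ha
      simpa using h3
    rcases sq_eq_one_iff.mp h1 with h | h
    · left; exact Units.ext h
    · right; exact Units.ext (by simpa using h)
  have hyT : y ∉ T := by
    intro h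
    have h3 := (hker ⟨y, hyX⟩).mpr h
    rw [hϕy] at h3
    exact hneg h3
  have htr : MonoidHom.transfer ϕ y = 1 := transfer_eq_one hG X ϕ y
  obtain ⟨g, hgT, -, hmap⟩ :=
    Cfsg.Agent.Lib.Helper40.extremal_conjugation X T hTS hTn ϕ hker y hyo hyX hinv hyT htr
  -- conjugation by `g` maps `X` into `X`
  have hfw : ∀ x ∈ (X : Subgroup G), g * x * g⁻¹ ∈ (X : Subgroup G) := by
    intro x hx
    have hxC : x ∈ (X : Subgroup G) ⊓ Subgroup.centralizer {y} :=
      Subgroup.mem_inf.mpr ⟨hx, Subgroup.mem_centralizer_singleton_iff.mpr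
        (congrArg Subtype.val (hyc ⟨x, hx⟩)).symm⟩
    have h1 : g * x * g⁻¹ ∈
        ((X : Subgroup G) ⊓ Subgroup.centralizer {y}).map (MulAut.conj g).toMonoidHom :=
      Subgroup.mem_map.mpr ⟨x, hxC, by simp [MulAut.conj_apply]⟩
    exact (hmap h1).1
  have hback : ∀ x ∈ (X : Subgroup G), g⁻¹ * x * g ∈ (X : Subgroup G) := by
    have hinj : Function.Injective
        (fun x : ↥(X : Subgroup G) => (⟨g * x.1 * g⁻¹, hfw x.1 x.2⟩ : ↥(X : Subgroup G))) := by
      intro a b hab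
      have h3 := congrArg Subtype.val hab
      simp only at h3
      apply Subtype.ext
      have h4 := congrArg (fun u => g⁻¹ * u * g) h3
      simpa [mul_assoc] using h4
    have hsurj := Finite.surjective_of_injective hinj
    intro x hx
    obtain ⟨x₀, hx₀⟩ := hsurj ⟨x, hx⟩
    have h3 : g * x₀.1 * g⁻¹ = x := congrArg Subtype.val hx₀
    rw [← h3]
    have h4 : g⁻¹ * (g * x₀.1 * g⁻¹) * g = x₀.1 := by group
    rw [h4]
    exact x₀.2
  -- the conjugate `t = g y g⁻¹` is a central involution of `X` of determinant `1`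
  have htX : g * y * g⁻¹ ∈ (X : Subgroup G) := hTS hgT
  have htc : ∀ x : ↥(X : Subgroup G),
      (⟨g * y * g⁻¹, htX⟩ : ↥(X : Subgroup G)) * x = x * ⟨g * y * g⁻¹, htX⟩ := by
    intro x
    apply Subtype.ext
    have h3 : y * (g⁻¹ * x.1 * g) = (g⁻¹ * x.1 * g) * y :=
      congrArg Subtype.val (hyc ⟨g⁻¹ * x.1 * g, hback x.1 x.2⟩)
    show g * y * g⁻¹ * x.1 = x.1 * (g * y * g⁻¹)
    calc g * y * g⁻¹ * x.1 = g * (y * (g⁻¹ * x.1 * g)) * g⁻¹ := by group
      _ = g * ((g⁻¹ * x.1 * g) * y) * g⁻¹ := by rw [h3]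
      _ = x.1 * (g * y * g⁻¹) := by group
  have ht2 : (⟨g * y * g⁻¹, htX⟩ : ↥(X : Subgroup G)) * ⟨g * y * g⁻¹, htX⟩ = 1 := by
    apply Subtype.ext
    show g * y * g⁻¹ * (g * y * g⁻¹) = 1
    have h3 : y * y = 1 := by rw [← pow_two]; exact hy2
    calc g * y * g⁻¹ * (g * y * g⁻¹) = g * (y * y) * g⁻¹ := by group
      _ = 1 := by rw [h3]; group
  have ht1 : (⟨g * y * g⁻¹, htX⟩ : ↥(X : Subgroup G)) ≠ 1 := by
    intro h
    have h3 : g * y * g⁻¹ = 1 := congrArg Subtype.val h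
    apply hy1
    have h4 : y = g⁻¹ * (g * y * g⁻¹) * g := by group
    rw [h4, h3]
    group
  have hdet : (fm ⟨g * y * g⁻¹, htX⟩).det = 1 := by
    rw [← hϕ, (hker ⟨g * y * g⁻¹, htX⟩).mpr hgT]
    rfl
  have hna' : ¬ ∀ a b : ↥(X : Subgroup G), a * b = b * a := fun h => hna ⟨⟨h⟩⟩
  have hmem := central_inv_mem_commutator h2 X.isPGroup' hna' fm hfm ⟨g * y * g⁻¹, htX⟩ htc ht2
    ht1 hdet
  -- conjugation by `g⁻¹` as an endomorphism of `X`
  let c' : ↥(X : Subgroup G) →* ↥(X : Subgroup G) :=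
    { toFun := fun x => ⟨g⁻¹ * x.1 * g, hback x.1 x.2⟩
      map_one' := by
        apply Subtype.ext
        show g⁻¹ * 1 * g = 1
        group
      map_mul' := by
        intro a b
        apply Subtype.ext
        show g⁻¹ * (a.1 * b.1) * g = g⁻¹ * a.1 * g * (g⁻¹ * b.1 * g)
        group }
  have hψ : (ϕ.comp c') ⟨g * y * g⁻¹, htX⟩ = 1 :=
    MonoidHom.mem_ker.mp (Abelianization.commutator_subset_ker (ϕ.comp c') hmem)
  have hc' : c' ⟨g * y * g⁻¹, htX⟩ = ⟨y, hyX⟩ := by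
    apply Subtype.ext
    show g⁻¹ * (g * y * g⁻¹) * g = y
    group
  rw [MonoidHom.comp_apply, hc', hϕy] at hψ
  exact hneg hψ

end Cfsg.Agent.S1906
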