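import Cfsg.Statements.S1907
import Mathlib
import Cfsg.Agent.Lib.Helper41.Cores

set_option autoImplicit false
open Cfsg

namespace Cfsg.Agent.S1907

open Cfsg.Agent.Lib.Helper41

theorem part_a {G : Type*} [Group G] [Finite G] {p : ℕ} [Fact p.Prime] (P : Sylow p G)
    (y : G) (hyN : y ∈ Subgroup.normalizer (((P : Subgroup G) ⊓ Cfsg.pPrimePCore p G : Subgroup G) : Set G))
    (k : ℕ) (hk : orderOf y = p ^ k) (d : G) (hd : d ∈ Cfsg.pPrimeCore p G)
    (hy' : d⁻¹ * y * d ∈ Subgroup.normalizer (((P : Subgroup G) ⊓ Cfsg.pPrimePCore p G : Subgroup G) : Set G)) :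
    ∃ d₁ ∈ Cfsg.pPrimeCore p G ⊓ Subgroup.centralizer ({y} : Set G),
      ∃ d₂ ∈ Cfsg.pPrimeCore p G ⊓ Subgroup.centralizer (((P : Subgroup G) ⊓ Cfsg.pPrimePCore p G : Subgroup G) : Set G),
        d = d₁ * d₂ := by
  set D := Cfsg.pPrimeCore p G with hD
  set L := Cfsg.pPrimePCore p G with hL
  set H : Subgroup G := (P : Subgroup G) ⊓ L with hH
  have hLn : L.Normal := pPrimePCore_normal' p
  have hHp : IsPGroup p H := P.isPGroup'.to_le inf_le_left
  have hyp : IsPGroup p (Subgroup.zpowers y) := IsPGroup.of_card (by rw [Nat.card_zpowers, hk])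
  set y' := d⁻¹ * y * d with hy'def
  have hy'p : IsPGroup p (Subgroup.zpowers y') := by
    have hmap : Subgroup.zpowers y' = (Subgroup.zpowers y).map (MulAut.conj d⁻¹).toMonoidHom := by
      rw [MonoidHom.map_zpowers]
      simp [hy'def]
    rw [hmap]
    exact hyp.map _
  set R : Subgroup G := Subgroup.zpowers y ⊔ H with hR
  set R' : Subgroup G := Subgroup.zpowers y' ⊔ H with hR'
  have hRp : IsPGroup p R :=
    hyp.to_sup_of_normal_right' hHp (by rw [Subgroup.zpowers_le]; exact hyN)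
  have hR'p : IsPGroup p R' :=
    hy'p.to_sup_of_normal_right' hHp (by rw [Subgroup.zpowers_le]; exact hy')
  set M : Subgroup G := R ⊔ D with hM
  have hidx : ¬ p ∣ R.relIndex M := by
    rw [hM, relIndex_sup_of_normal]
    intro h
    have h1 : p ∣ Nat.card D := h.trans (Subgroup.relIndex_dvd_card R D)
    have h2 : (Nat.card D).Coprime p := card_pPrimeCore_coprime p
    exact (Nat.Prime.coprime_iff_not_dvd Fact.out).mp h2.symm h1
  have hyR : y ∈ R := (le_sup_left : Subgroup.zpowers y ≤ R) (Subgroup.mem_zpowers y)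
  have hHR : H ≤ R := le_sup_right
  have hR'M : R' ≤ M := by
    rw [hR']
    refine sup_le ?_ (hHR.trans le_sup_left)
    rw [Subgroup.zpowers_le]
    have hdM : d ∈ M := (le_sup_right : D ≤ M) hd
    have hyM : y ∈ M := (le_sup_left : R ≤ M) hyR
    exact M.mul_mem (M.mul_mem (M.inv_mem hdM) hyM) hdM
  obtain ⟨m, hmM, hm⟩ := exists_conj_le_of_not_dvd_relIndex M R R' hRp hidx hR'M hR'p
  obtain ⟨r, hr, e, he, rfl⟩ := Subgroup.mem_sup_of_normal_right.mp hmM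
  have hconj : ∀ x ∈ R', e * x * e⁻¹ ∈ R := by
    intro x hx
    have h1 := hm x hx
    have h2 := R.mul_mem (R.mul_mem (R.inv_mem hr) h1) hr
    have h3 : r⁻¹ * (r * e * x * (r * e)⁻¹) * r = e * x * e⁻¹ := by group
    rwa [h3] at h2
  have hRL : ∀ x ∈ R, x ∈ L → x ∈ H := by
    intro x hxR hxL
    obtain ⟨s, hs, d', hd', rfl⟩ := pPrimePCore_decomp P hxL
    have hsR : s ∈ R := hHR hs
    have hd'R : d' ∈ R := by
      have := R.mul_mem (R.inv_mem hsR) hxR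
      simpa using this
    have h1 : d' = 1 := eq_one_of_mem_pGroup_of_mem_pPrimeCore R hRp hd'R hd'
    rw [h1, mul_one]; exact hs
  have heH : ∀ h ∈ H, e * h * e⁻¹ = h := by
    intro h hh
    have h1 : e * h * e⁻¹ ∈ R := hconj h ((le_sup_right : H ≤ R') hh)
    have h2 : e * h * e⁻¹ ∈ L := hLn.conj_mem h hh.2 e
    have h3 : e * h * e⁻¹ ∈ H := hRL _ h1 h2
    have h4 : e * h * e⁻¹ * h⁻¹ ∈ H := H.mul_mem h3 (H.inv_mem hh)
    have h5 : e * h * e⁻¹ * h⁻¹ ∈ D := by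
      have h6 : e * h * e⁻¹ * h⁻¹ = e * (h * e⁻¹ * h⁻¹) := by group
      rw [h6]
      exact D.mul_mem he ((Cfsg.pPrimeCore_normal p G).conj_mem e⁻¹ (D.inv_mem he) h)
    exact mul_inv_eq_one.mp (eq_one_of_mem_pGroup_of_mem_pPrimeCore H hHp h4 h5)
  set f := d * e⁻¹ with hf
  have hfD : f ∈ D := D.mul_mem hd (D.inv_mem he)
  have hfy : f⁻¹ * y * f = y := by
    have h1 : e * y' * e⁻¹ ∈ R :=
      hconj y' ((le_sup_left : Subgroup.zpowers y' ≤ R') (Subgroup.mem_zpowers y'))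
    have h1' : f⁻¹ * y * f ∈ R := by
      have h7 : f⁻¹ * y * f = e * y' * e⁻¹ := by rw [hf, hy'def]; group
      rw [h7]; exact h1
    have h2 : f⁻¹ * y * f * y⁻¹ ∈ R := R.mul_mem h1' (R.inv_mem hyR)
    have h3 : f⁻¹ * y * f * y⁻¹ ∈ D := by
      have h6 : f⁻¹ * y * f * y⁻¹ = f⁻¹ * (y * f * y⁻¹) := by group
      rw [h6]
      exact D.mul_mem (D.inv_mem hfD) ((Cfsg.pPrimeCore_normal p G).conj_mem f hfD y)
    exact mul_inv_eq_one.mp (eq_one_of_mem_pGroup_of_mem_pPrimeCore R hRp h2 h3)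
  refine ⟨f, Subgroup.mem_inf.mpr ⟨hfD, ?_⟩, e, Subgroup.mem_inf.mpr ⟨he, ?_⟩, by rw [hf]; group⟩
  · rw [Subgroup.mem_centralizer_singleton_iff]
    calc f * y = f * (f⁻¹ * y * f) := by rw [hfy]
      _ = y * f := by group
  · rw [Subgroup.mem_centralizer_iff]
    intro h hh
    have := heH h hh
    calc h * e = (e * h * e⁻¹) * e := by rw [this]
      _ = e * h := by group

/-- Let P be a Sylow p-subgroup of a finite group G, H = P ∩ O_{p',p}(G), N = N_G(H) and D = O_{p'}(G). (a) If y is an element of p-power order of N and d ∈ D with d⁻¹ y d ∈ N, then d = d₁ d₂ with d₁ ∈ C_D(y) and d₂ ∈ C_D(H). (b) Two elements of P that are conjugate in G are conjugate in N. -/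
theorem result {G : Type*} [Group G] [Finite G] {p : ℕ} [Fact p.Prime] (P : Sylow p G) :
    (∀ y ∈ Subgroup.normalizer (((P : Subgroup G) ⊓ Cfsg.pPrimePCore p G : Subgroup G) : Set G), (∃ k : ℕ, orderOf y = p ^ k) →
      ∀ d ∈ Cfsg.pPrimeCore p G, d⁻¹ * y * d ∈ Subgroup.normalizer (((P : Subgroup G) ⊓ Cfsg.pPrimePCore p G : Subgroup G) : Set G) →
        ∃ d₁ ∈ Cfsg.pPrimeCore p G ⊓ Subgroup.centralizer ({y} : Set G),
          ∃ d₂ ∈ Cfsg.pPrimeCore p G ⊓ Subgroup.centralizer (((P : Subgroup G) ⊓ Cfsg.pPrimePCore p G : Subgroup G) : Set G), d = d₁ * d₂) ∧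
    ∀ x y : G, x ∈ (P : Subgroup G) → y ∈ (P : Subgroup G) → IsConj x y →
      ∃ n ∈ Subgroup.normalizer (((P : Subgroup G) ⊓ Cfsg.pPrimePCore p G : Subgroup G) : Set G), n * x * n⁻¹ = y := by
  refine ⟨fun y hyN ⟨k, hk⟩ d hd hy' => part_a P y hyN k hk d hd hy', ?_⟩
  intro x y hx hy hxy
  set D := Cfsg.pPrimeCore p G with hD
  set L := Cfsg.pPrimePCore p G with hL
  set H : Subgroup G := (P : Subgroup G) ⊓ L with hH
  set N := Subgroup.normalizer (H : Set G) with hN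
  have hLn : L.Normal := pPrimePCore_normal' p
  have hPN : (P : Subgroup G) ≤ N := by
    rw [hN, Subgroup.le_normalizer_iff]
    intro h hh k hk
    exact ⟨(P : Subgroup G).mul_mem ((P : Subgroup G).mul_mem hh hk.1) ((P : Subgroup G).inv_mem hh),
      hLn.conj_mem k hk.2 h⟩
  have hHN : H ≤ N := Subgroup.le_normalizer
  obtain ⟨c, hc⟩ := isConj_iff.mp hxy
  have hfr : N ⊔ L = ⊤ := frattini_inf P L
  have hcmem : c ∈ N ⊔ L := by rw [hfr]; exact Subgroup.mem_top c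
  obtain ⟨n, hn, l, hl, rfl⟩ := Subgroup.mem_sup_of_normal_right.mp hcmem
  obtain ⟨s, hs, d, hd, rfl⟩ := pPrimePCore_decomp P hl
  set n' := n * s with hn'
  have hn'N : n' ∈ N := N.mul_mem hn (hHN hs)
  -- y = n' d x d⁻¹ n'⁻¹
  have hy2 : d * x * d⁻¹ = n'⁻¹ * y * n' := by
    rw [← hc, hn']; group
  have hxN : x ∈ N := hPN hx
  have hyN : y ∈ N := hPN hy
  obtain ⟨k, hk⟩ : ∃ k : ℕ, orderOf x = p ^ k := by
    obtain ⟨k, hk⟩ := (IsPGroup.iff_orderOf.mp P.isPGroup') ⟨x, hx⟩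
    exact ⟨k, by rw [← hk, Subgroup.orderOf_mk]⟩
  have h1 : (d⁻¹)⁻¹ * x * d⁻¹ ∈ N := by
    rw [inv_inv, hy2]
    exact N.mul_mem (N.mul_mem (N.inv_mem hn'N) hyN) hn'N
  obtain ⟨d₁, hd₁, d₂, hd₂, hdd⟩ := part_a P x hxN k hk d⁻¹ (D.inv_mem hd) h1
  have hd₁x : d₁ * x = x * d₁ := by
    have := (Subgroup.mem_inf.mp hd₁).2
    rw [Subgroup.mem_centralizer_singleton_iff] at this
    exact this
  have hd₂N : d₂ ∈ N := Subgroup.centralizer_le_normalizer _ (Subgroup.mem_inf.mp hd₂).2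
  refine ⟨n' * d₂⁻¹, N.mul_mem hn'N (N.inv_mem hd₂N), ?_⟩
  have h2 : d = d₂⁻¹ * d₁⁻¹ := by
    have : d⁻¹⁻¹ = (d₁ * d₂)⁻¹ := by rw [hdd]
    rw [inv_inv] at this
    rw [this]; group
  have h3 : d₁⁻¹ * x * d₁ = x := by
    calc d₁⁻¹ * x * d₁ = d₁⁻¹ * (x * d₁) := by group
      _ = d₁⁻¹ * (d₁ * x) := by rw [hd₁x]
      _ = x := by group
  calc n' * d₂⁻¹ * x * (n' * d₂⁻¹)⁻¹ = n' * (d₂⁻¹ * (d₁⁻¹ * x * d₁) * d₂) * n'⁻¹ := by
        rw [h3]; group
    _ = n' * (d * x * d⁻¹) * n'⁻¹ := by rw [h2]; group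
    _ = y := by rw [hy2]; group

end Cfsg.Agent.S1907
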