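import Cfsg.Statements.S1924
import Mathlib
import Cfsg.Agent.Lib.Helper2.PNilp
import Cfsg.Agent.Lib.Helper41.Cores

set_option autoImplicit false
open Cfsg

namespace Cfsg.Agent.S1924

open Cfsg.Agent.Lib.Helper41

/-- A permutation of order dividing the even number `N`, all of whose powers `σ ^ j` (`0 < j < N`)
are fixed-point-free, on a set of `N * m` points with `m` odd, is odd. -/
theorem sign_of_free {X : Type*} [Fintype X] [DecidableEq X] (σ : Equiv.Perm X) (N m : ℕ)
    (hN : Even N) (hN0 : 0 < N) (hcard : Fintype.card X = N * m) (hσN : σ ^ N = 1)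
    (hfree : ∀ j, 0 < j → j < N → ∀ x, (σ ^ j) x ≠ x) (hm : Odd m) :
    Equiv.Perm.sign σ = -1 := by
  have hN2 : 2 ≤ N := by obtain ⟨t, ht⟩ := hN; omega
  have hall : ∀ n ∈ σ.cycleType, n = N := by
    intro n hn
    have h1 : n ∣ N := (Equiv.Perm.dvd_of_mem_cycleType hn).trans (orderOf_dvd_of_pow_eq_one hσN)
    have h2 : 2 ≤ n := Equiv.Perm.two_le_of_mem_cycleType hn
    by_contra hne
    have h3 : n < N := lt_of_le_of_ne (Nat.le_of_dvd hN0 h1) hne
    obtain ⟨c, τ, rfl, hd, hc, hcn⟩ := Equiv.Perm.mem_cycleType_iff.mp hn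
    have hne' : c.support.Nonempty := by
      rw [← Finset.card_pos, hcn]; omega
    obtain ⟨x, hx⟩ := hne'
    have hτx : τ x = x := by
      rcases hd x with h | h
      · exact absurd h (Equiv.Perm.mem_support.mp hx)
      · exact h
    apply hfree n (by omega) h3 x
    rw [hd.commute.mul_pow, Equiv.Perm.mul_apply,
      Equiv.Perm.pow_apply_eq_self_of_apply_eq_self hτx, ← hcn, ← hc.orderOf, pow_orderOf_eq_one,
      Equiv.Perm.one_apply]
  have hsupp : σ.support = Finset.univ := by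
    ext x
    simp only [Equiv.Perm.mem_support, Finset.mem_univ, iff_true]
    have := hfree 1 one_pos (by omega) x
    rwa [pow_one] at this
  have hsum : σ.cycleType.sum = N * m := by
    rw [Equiv.Perm.sum_cycleType, hsupp, Finset.card_univ, hcard]
  have hrep : σ.cycleType = Multiset.replicate (Multiset.card σ.cycleType) N :=
    Multiset.eq_replicate.mpr ⟨rfl, hall⟩
  have hcardm : Multiset.card σ.cycleType = m := by
    have h1 : σ.cycleType.sum = Multiset.card σ.cycleType * N := by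
      conv_lhs => rw [hrep]
      rw [Multiset.sum_replicate, smul_eq_mul]
    rw [hsum] at h1
    have : N * m = N * Multiset.card σ.cycleType := by rw [h1, mul_comm]
    exact (Nat.eq_of_mul_eq_mul_left hN0 this).symm
  rw [Equiv.Perm.sign_of_cycleType, hsum, hcardm]
  have : Odd (N * m + m) := Even.add_odd (hN.mul_right m) hm
  exact this.neg_one_pow

theorem exists_sign_hom {H : Type*} [Group H] [Finite H] (T : Subgroup H) :
    ∃ s : H →* ℤˣ, ∀ (y : H) (N m : ℕ), Even N → 0 < N → y ^ N = 1 →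
      (∀ j, 0 < j → j < N → ∀ h : H, h⁻¹ * y ^ j * h ∉ T) → Odd m → T.index = N * m →
      s y = -1 := by
  classical
  letI : Fintype (H ⧸ T) := Fintype.ofFinite _
  refine ⟨Equiv.Perm.sign.comp (MulAction.toPermHom H (H ⧸ T)), ?_⟩
  intro y N m hN hN0 hyN hfree hm hidx
  show Equiv.Perm.sign (MulAction.toPermHom H (H ⧸ T) y) = -1
  apply sign_of_free _ N m hN hN0 _ _ _ hm
  · rw [← Nat.card_eq_fintype_card, ← Subgroup.index_eq_card, hidx]
  · rw [← map_pow, hyN, map_one]
  · intro j hj0 hjN x hx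
    obtain ⟨h, rfl⟩ := QuotientGroup.mk_surjective x
    rw [← map_pow] at hx
    have hx' : ((y ^ j * h : H) : H ⧸ T) = (h : H ⧸ T) := hx
    rw [QuotientGroup.eq] at hx'
    apply hfree j hj0 hjN h
    have : h⁻¹ * y ^ j * h = ((y ^ j * h)⁻¹ * h)⁻¹ := by group
    rw [this]; exact T.inv_mem hx'

/-- One step of Thompson's transfer argument: the kernel of the sign of the action on cosets. -/
theorem thompson_step {G : Type*} [Group G] [Finite G] (H T : Subgroup G) :
    ∃ H₁ : Subgroup G, H₁ ≤ H ∧ H₁.relIndex H ∣ 2 ∧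
      (∀ R : Subgroup G, R ≤ H → (∀ f : R →* ℤˣ, ∀ r, f r = 1) → R ≤ H₁) ∧
      (∀ a ∈ H, ∀ b ∈ H, a ∉ H₁ → b ∉ H₁ → a * b ∈ H₁) ∧
      (∀ y ∈ H, ∀ N m : ℕ, Even N → 0 < N → y ^ N = 1 →
        (∀ j, 0 < j → j < N → ∀ h ∈ H, h⁻¹ * y ^ j * h ∉ T) → Odd m →
        T.relIndex H = N * m → y ∉ H₁) := by
  obtain ⟨s, hs⟩ := exists_sign_hom (T.subgroupOf H)
  refine ⟨s.ker.map H.subtype, ?_, ?_, ?_, ?_, ?_⟩
  · rintro _ ⟨x, _, rfl⟩; exact x.2
  · have h1 : (s.ker.map H.subtype).relIndex H = s.ker.index := by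
      show ((s.ker.map H.subtype).subgroupOf H).index = s.ker.index
      rw [← Subgroup.comap_subtype, Subgroup.comap_map_eq_self_of_injective H.subtype_injective]
    rw [h1, Subgroup.index_ker]
    have h2 := Subgroup.card_subgroup_dvd_card s.range
    rwa [Nat.card_eq_fintype_card (α := ℤˣ), Fintype.card_units_int] at h2
  · intro R hRH hR r hr
    refine ⟨⟨r, hRH hr⟩, ?_, rfl⟩
    exact hR (s.comp (Subgroup.inclusion hRH)) ⟨r, hr⟩
  · intro a ha b hb ha' hb'
    have h1 : s ⟨a, ha⟩ ≠ 1 := fun h => ha' ⟨⟨a, ha⟩, h, rfl⟩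
    have h2 : s ⟨b, hb⟩ ≠ 1 := fun h => hb' ⟨⟨b, hb⟩, h, rfl⟩
    have h1' : s ⟨a, ha⟩ = -1 := (Int.units_eq_one_or _).resolve_left h1
    have h2' : s ⟨b, hb⟩ = -1 := (Int.units_eq_one_or _).resolve_left h2
    refine ⟨⟨a, ha⟩ * ⟨b, hb⟩, ?_, rfl⟩
    rw [SetLike.mem_coe, MonoidHom.mem_ker, map_mul, h1', h2']; simp
  · intro y hy N m hN hN0 hyN hfree hm hidx
    rintro ⟨x, hx, hxy⟩
    have hxe : x = ⟨y, hy⟩ := Subtype.ext hxy
    subst hxe
    have := hs ⟨y, hy⟩ N m hN hN0 (Subtype.ext (by simpa using hyN)) (by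
      intro j hj0 hjN h hmem
      exact hfree j hj0 hjN h h.2 (by simpa [Subgroup.mem_subgroupOf] using hmem)) hm hidx
    rw [MonoidHom.mem_ker.mp hx] at this
    exact absurd this (by decide)

theorem card_mul_le_card_sup {G : Type*} [Group G] [Finite G] (A B : Subgroup G) (h : A ⊓ B = ⊥) :
    Nat.card A * Nat.card B ≤ Nat.card (A ⊔ B : Subgroup G) := by
  rw [← card_mul_relIndex_of_le (le_sup_left : A ≤ A ⊔ B)]
  apply Nat.mul_le_mul_left
  have h1 : A.relIndex B = Nat.card B := by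
    rw [← Subgroup.inf_relIndex_right, h, Subgroup.relIndex_bot_left]
  rw [← h1]
  exact Subgroup.relIndex_le_of_le_right le_sup_right
    (Subgroup.index_ne_zero_of_finite : (A.subgroupOf (A ⊔ B)).index ≠ 0)

/-- The inductive transfer chain along a cyclic `2`-subgroup. -/
theorem chain {G : Type*} [Group G] [Finite G] (R T : Subgroup G)
    (hR : ∀ f : R →* ℤˣ, ∀ r, f r = 1) (hTR : T ≤ R) :
    ∀ (n : ℕ) (H C : Subgroup G), Nat.card C = n → R ≤ H → C ≤ H → IsCyclic C → IsPGroup 2 C →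
      (∃ m, Odd m ∧ T.relIndex H = Nat.card C * m) →
      (∀ c ∈ C, c ≠ 1 → ∀ g ∈ H, g * c * g⁻¹ ∉ T) → R ⊓ C = ⊥ := by
  intro n
  induction n using Nat.strong_induction_on with
  | _ n ih =>
    intro H C hCn hRH hCH hCc hC2 ⟨m, hm, hidx⟩ hconj
    by_cases hC1 : C = ⊥
    · rw [hC1, inf_bot_eq]
    have := hCc
    obtain ⟨g, hg⟩ := IsCyclic.exists_ofOrder_eq_natCard (α := C)
    have hyC : (g : G) ∈ C := g.2
    have hyo : orderOf (g : G) = Nat.card C := by rw [Subgroup.orderOf_coe, hg]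
    obtain ⟨k, hk⟩ := IsPGroup.iff_card.mp hC2
    have hk0 : k ≠ 0 := by
      rintro rfl
      rw [pow_zero] at hk
      exact hC1 (Subgroup.card_eq_one.mp hk)
    have hNeven : Even (Nat.card C) := by rw [hk]; exact (Nat.even_pow.mpr ⟨even_two, hk0⟩)
    have hN0 : 0 < Nat.card C := Nat.card_pos
    obtain ⟨H₁, hH₁H, hH₁2, hH₁R, -, hH₁y⟩ := thompson_step H T
    have hyH₁ : (g : G) ∉ H₁ := hH₁y _ (hCH hyC) (Nat.card C) m hNeven hN0
      (by rw [← hyo, pow_orderOf_eq_one]) (by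
        intro j hj0 hjN h hh
        have hne : (g : G) ^ j ≠ 1 := pow_ne_one_of_lt_orderOf hj0.ne' (by rw [hyo]; exact hjN)
        have := hconj ((g : G) ^ j) (C.pow_mem hyC j) hne h⁻¹ (H.inv_mem hh)
        rwa [inv_inv] at this) hm hidx
    have hRH₁ : R ≤ H₁ := hH₁R R hRH hR
    have hH₁rel : H₁.relIndex H = 2 := by
      have hne1 : H₁.relIndex H ≠ 1 := fun h => hyH₁ (Subgroup.relIndex_eq_one.mp h (hCH hyC))
      rcases (Nat.dvd_prime Nat.prime_two).mp hH₁2 with h | h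
      · exact absurd h hne1
      · exact h
    have hC₁rel : (C ⊓ H₁).relIndex C = 2 := by
      rw [Subgroup.inf_relIndex_left]
      have hne1 : H₁.relIndex C ≠ 1 := fun h => hyH₁ (Subgroup.relIndex_eq_one.mp h hyC)
      have hne0 : H₁.relIndex C ≠ 0 :=
        (Subgroup.index_ne_zero_of_finite : (H₁.subgroupOf C).index ≠ 0)
      have hle : H₁.relIndex C ≤ H₁.relIndex H :=
        Subgroup.relIndex_le_of_le_right hCH (by rw [hH₁rel]; norm_num)
      omega
    have hC₁card : Nat.card (C ⊓ H₁ : Subgroup G) * 2 = Nat.card C := by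
      rw [← hC₁rel]; exact card_mul_relIndex_of_le inf_le_left
    have hTH₁ : T ≤ H₁ := hTR.trans hRH₁
    have hTrel : T.relIndex H₁ = Nat.card (C ⊓ H₁ : Subgroup G) * m := by
      have e1 := Subgroup.relIndex_mul_relIndex T H₁ H hTH₁ hH₁H
      rw [hH₁rel, hidx, ← hC₁card] at e1
      have : T.relIndex H₁ * 2 = Nat.card (C ⊓ H₁ : Subgroup G) * m * 2 := by rw [e1]; ring
      exact Nat.eq_of_mul_eq_mul_right two_pos this
    have hlt : Nat.card (C ⊓ H₁ : Subgroup G) < n := by omega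
    have hC₁cyc : IsCyclic (C ⊓ H₁ : Subgroup G) := Subgroup.isCyclic_of_le inf_le_left
    have h := ih _ hlt H₁ (C ⊓ H₁) rfl hRH₁ inf_le_right hC₁cyc (hC2.to_le inf_le_left)
      ⟨m, hm, hTrel⟩ (fun c hc hc1 g hg => hconj c hc.1 hc1 g (hH₁H hg))
    rw [eq_bot_iff]
    intro x hx
    rw [← h]
    exact Subgroup.mem_inf.mpr ⟨hx.1, Subgroup.mem_inf.mpr ⟨hx.2, hRH₁ hx.1⟩⟩

theorem exists_pow_orderOf_two {G : Type*} [Group G] (c : G) (hc : c ≠ 1) (k : ℕ)
    (hk : c ^ 2 ^ k = 1) : ∃ j : ℕ, orderOf (c ^ j) = 2 := by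
  obtain ⟨a, -, ha⟩ := (Nat.dvd_prime_pow Nat.prime_two).mp (orderOf_dvd_of_pow_eq_one hk)
  have ha0 : a ≠ 0 := by
    rintro rfl
    rw [pow_zero, orderOf_eq_one_iff] at ha
    exact hc ha
  refine ⟨2 ^ (a - 1), ?_⟩
  haveI : Fact (Nat.Prime 2) := ⟨Nat.prime_two⟩
  apply orderOf_eq_prime
  · rw [← pow_mul, ← pow_succ, Nat.sub_add_cancel (Nat.pos_of_ne_zero ha0), ← ha,
      pow_orderOf_eq_one]
  · apply pow_ne_one_of_lt_orderOf (by positivity)
    rw [ha]
    exact Nat.pow_lt_pow_right (by norm_num) (by omega)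

/-- In a dihedral group, every element outside a cyclic subgroup of index `2` is an involution. -/
theorem dihedral_outside_cyclic {D : Type*} [Group D] [Finite D] (n : ℕ) (hn : 2 ≤ n)
    (e : D ≃* DihedralGroup n) (C : Subgroup D) (hC : IsCyclic C) (hCi : C.index = 2) (x : D)
    (hx : x ∉ C) : orderOf x = 2 := by
  have hcardD : Nat.card D = 2 * n := by rw [Nat.card_congr e.toEquiv, DihedralGroup.nat_card]
  have hcardC : Nat.card C = n := by
    have := C.card_mul_index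
    rw [hCi, hcardD] at this
    omega
  have : Finite (DihedralGroup n) := Finite.of_equiv D e.toEquiv
  rw [← e.orderOf_eq]
  cases hex : e x with
  | sr i => exact DihedralGroup.orderOf_sr i
  | r i =>
    have := hC
    obtain ⟨g, hg⟩ := IsCyclic.exists_ofOrder_eq_natCard (α := C)
    have hgo : orderOf (e (g : D)) = n := by rw [e.orderOf_eq, Subgroup.orderOf_coe, hg, hcardC]
    cases heg : e (g : D) with
    | sr j =>
      rw [heg, DihedralGroup.orderOf_sr] at hgo
      subst hgo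
      have hi : i ≠ 0 := by
        rintro rfl
        apply hx
        have h1 : e x = 1 := by rw [hex]; rfl
        have h2 : x = 1 := (map_eq_one_iff e e.injective).mp h1
        rw [h2]; exact C.one_mem
      have key : ∀ t : ZMod 2, t ≠ 0 → t = 1 := by decide
      have hi1 : i = 1 := key i hi
      rw [hi1, DihedralGroup.orderOf_r_one]
    | r j =>
      exfalso
      apply hx
      have hrot : ∀ t : ZMod n, (DihedralGroup.r t : DihedralGroup n)
          ∈ Subgroup.zpowers (DihedralGroup.r 1 : DihedralGroup n) := by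
        intro t
        have : NeZero n := ⟨by omega⟩
        rw [← ZMod.natCast_zmod_val t, ← DihedralGroup.r_one_pow]
        exact Subgroup.pow_mem _ (Subgroup.mem_zpowers _) _
      have hle : Subgroup.zpowers (DihedralGroup.r j : DihedralGroup n)
          ≤ Subgroup.zpowers (DihedralGroup.r 1 : DihedralGroup n) := by
        rw [Subgroup.zpowers_le]; exact hrot j
      have heq : Subgroup.zpowers (DihedralGroup.r j : DihedralGroup n)
          = Subgroup.zpowers (DihedralGroup.r 1 : DihedralGroup n) := by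
        apply Subgroup.eq_of_le_of_card_ge hle
        rw [Nat.card_zpowers, Nat.card_zpowers, DihedralGroup.orderOf_r_one, ← heg, hgo]
      have hmem : e x ∈ Subgroup.zpowers (e (g : D)) := by
        rw [hex, heg, heq]; exact hrot i
      obtain ⟨t, ht⟩ := Subgroup.mem_zpowers_iff.mp hmem
      have hxg : x = (g : D) ^ t := by
        apply e.injective
        rw [map_zpow, ht]
      rw [hxg]
      exact C.zpow_mem g.2 t

/-- A consequence of Thompson's transfer lemma. Let G be a finite group, L a subgroup with O²(L) = L, T a Sylow 2-subgroup of L and S a Sylow 2-subgroup of G containing T. Suppose D ≤ S is a dihedral subgroup of order at least 4 (the four-group counts) with D ∩ T = 1 and S = TD as a set of products (so |S| = |T|·|D|), and C ≤ D is cyclic of index 2 in D. If no involution of D outside C is G-conjugate to an involution of the subgroup generated by T and C, and the involution of C is not G-conjugate to any involution of T, then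 G has a normal subgroup K, containing every Sylow 2-subgroup of L as a Sylow 2-subgroup, with G = KD. -/
theorem result {G : Type*} [Group G] [Finite G] (L T S D C : Subgroup G) (hL : Cfsg.pResidual 2 ↥L = ⊤)
    (hTL : T ≤ L) (hT2 : IsPGroup 2 T) (hTsyl : ¬ 2 ∣ T.relIndex L)
    (hS2 : IsPGroup 2 S) (hSsyl : ¬ 2 ∣ S.index) (hTS : T ≤ S)
    (hDS : D ≤ S) (hDih : ∃ n : ℕ, 2 ≤ n ∧ Nonempty (↥D ≃* DihedralGroup n)) (hDT : D ⊓ T = ⊥) (hTD : T ⊔ D = S) (hTDc : Nat.card T * Nat.card D = Nat.card S)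
    (hCD : C ≤ D) (hC : IsCyclic ↥C) (hCi : C.relIndex D = 2)
    (h1 : ∀ x ∈ D, x ∉ C → orderOf x = 2 → ∀ g : G, g * x * g⁻¹ ∈ T ⊔ C → False)
    (h2 : ∀ c ∈ C, orderOf c = 2 → ∀ g : G, g * c * g⁻¹ ∈ T → False) :
    ∃ K : Subgroup G, K.Normal ∧ K ⊔ D = ⊤ ∧
      ∀ T' : Subgroup G, T' ≤ L → IsPGroup 2 T' → ¬ 2 ∣ T'.relIndex L → T' ≤ K ∧ ¬ 2 ∣ T'.relIndex K := by
  classical
  have : Fact (Nat.Prime 2) := ⟨Nat.prime_two⟩
  have hDC2 : Nat.card C * 2 = Nat.card D := by rw [← hCi]; exact card_mul_relIndex_of_le hCD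
  obtain ⟨n, hn, ⟨e⟩⟩ := hDih
  have hinv : ∀ x ∈ D, x ∉ C → orderOf x = 2 := by
    intro x hxD hxC
    have hcyc : IsCyclic (C.subgroupOf D) := (Subgroup.subgroupOfEquivOfLe hCD).isCyclic.mpr hC
    have := dihedral_outside_cyclic n hn e (C.subgroupOf D) hcyc hCi ⟨x, hxD⟩
      (by simpa [Subgroup.mem_subgroupOf] using hxC)
    rwa [Subgroup.orderOf_mk] at this
  obtain ⟨x₀, hx₀D, hx₀C⟩ : ∃ x ∈ D, x ∉ C := by
    by_contra hcon
    push Not at hcon
    have : C.relIndex D = 1 := Subgroup.relIndex_eq_one.mpr hcon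
    omega
  have hKn : (Cfsg.pResidual 2 G).Normal := Cfsg.Agent.Lib.Helper2.pResidual_normal 2
  have hKhom : ∀ f : (Cfsg.pResidual 2 G) →* ℤˣ, ∀ r, f r = 1 := by
    intro f
    have hcl : Subgroup.closure (((↑) : Cfsg.pResidual 2 G → G) ⁻¹'
        {g : G | Nat.Coprime (orderOf g) 2}) = ⊤ := Subgroup.closure_closure_coe_preimage
    have hker : f.ker = ⊤ := by
      rw [eq_top_iff, ← hcl, Subgroup.closure_le]
      intro k hk
      have hk' : Nat.Coprime (orderOf (k : G)) 2 := hk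
      rw [SetLike.mem_coe, MonoidHom.mem_ker]
      have h1 : orderOf (f k) ∣ orderOf (k : G) := by
        rw [Subgroup.orderOf_coe]; exact orderOf_map_dvd f k
      have h2 : orderOf (f k) ∣ 2 := orderOf_dvd_of_pow_eq_one (Int.units_sq _)
      have h3 : orderOf (f k) = 1 :=
        Nat.Coprime.eq_one_of_dvd (Nat.Coprime.coprime_dvd_left h1 hk') h2
      exact orderOf_eq_one_iff.mp h3
    intro r
    have : r ∈ f.ker := by rw [hker]; trivial
    exact this
  have hLK : L ≤ Cfsg.pResidual 2 G := by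
    intro l hl
    have h1 : (⟨l, hl⟩ : L) ∈ Cfsg.pResidual 2 ↥L := by rw [hL]; trivial
    unfold Cfsg.pResidual at h1
    have h2 : ∀ z : L, z ∈ Subgroup.closure {g : ↥L | Nat.Coprime (orderOf g) 2} →
        (z : G) ∈ Cfsg.pResidual 2 G := by
      intro z hz
      induction hz using Subgroup.closure_induction with
      | mem z hz =>
        exact Subgroup.subset_closure (by
          show Nat.Coprime (orderOf (z : G)) 2
          rw [Subgroup.orderOf_coe]; exact hz)
      | one => exact Subgroup.one_mem _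
      | mul a b _ _ ha hb => exact Subgroup.mul_mem _ ha hb
      | inv a _ ha => exact Subgroup.inv_mem _ ha
    exact h2 _ h1
  have hTK : T ≤ Cfsg.pResidual 2 G := hTL.trans hLK
  let Ssyl : Sylow 2 G := hS2.toSylow hSsyl
  have hSsylc : (Ssyl : Subgroup G) = S := rfl
  have hSodd : Odd S.index := Nat.odd_iff.mpr (by omega)
  have hTCbot : T ⊓ C = ⊥ := by
    rw [eq_bot_iff]; intro z hz; rw [← hDT]; exact ⟨hCD hz.2, hz.1⟩
  have hMS : T ⊔ C ≤ S := sup_le hTS (hCD.trans hDS)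
  have hx₀M : x₀ ∉ T ⊔ C := fun h => h1 x₀ hx₀D hx₀C (hinv x₀ hx₀D hx₀C) 1 (by simpa using h)
  have hcardM : Nat.card T * Nat.card C ≤ Nat.card (T ⊔ C : Subgroup G) :=
    card_mul_le_card_sup T C hTCbot
  have hMrel : (T ⊔ C).relIndex S = 2 := by
    have h3 := card_mul_relIndex_of_le hMS
    have hne1 : (T ⊔ C).relIndex S ≠ 1 := fun h =>
      hx₀M (Subgroup.relIndex_eq_one.mp h (hDS hx₀D))
    have hne0 : (T ⊔ C).relIndex S ≠ 0 :=
      (Subgroup.index_ne_zero_of_finite : ((T ⊔ C).subgroupOf S).index ≠ 0)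
    have h4 : Nat.card (T ⊔ C : Subgroup G) * (T ⊔ C).relIndex S
        ≤ Nat.card (T ⊔ C : Subgroup G) * 2 := by
      rw [h3, ← hTDc, ← hDC2, ← mul_assoc]
      exact Nat.mul_le_mul_right 2 hcardM
    have hpos : 0 < Nat.card (T ⊔ C : Subgroup G) := Nat.card_pos
    have h5 : (T ⊔ C).relIndex S ≤ 2 := Nat.le_of_mul_le_mul_left h4 hpos
    omega
  have hMidx : (T ⊔ C).index = 2 * S.index := by
    rw [← hMrel, Subgroup.relIndex_mul_index hMS]
  obtain ⟨G₁, -, hG₁2, hG₁R, hG₁mul, hG₁y⟩ := thompson_step (⊤ : Subgroup G) (T ⊔ C)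
  have hxG₁ : ∀ x ∈ D, x ∉ C → x ∉ G₁ := by
    intro x hxD hxC
    apply hG₁y x (Subgroup.mem_top x) 2 S.index even_two two_pos
    · rw [← hinv x hxD hxC, pow_orderOf_eq_one]
    · intro j hj0 hj2 h _
      have hj1 : j = 1 := by omega
      subst hj1
      rw [pow_one]
      intro hmem
      exact h1 x hxD hxC (hinv x hxD hxC) h⁻¹ (by rwa [inv_inv])
    · exact hSodd
    · rw [Subgroup.relIndex_top_right, hMidx]
  have hKG₁ : Cfsg.pResidual 2 G ≤ G₁ := hG₁R _ le_top hKhom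
  have hCG₁ : C ≤ G₁ := by
    intro c hc
    have h3 : x₀⁻¹ * c ∉ C := fun h => hx₀C (by
      have := C.mul_mem hc (C.inv_mem h)
      simpa using this)
    have := hG₁mul x₀ (Subgroup.mem_top _) (x₀⁻¹ * c) (Subgroup.mem_top _) (hxG₁ x₀ hx₀D hx₀C)
      (hxG₁ _ (D.mul_mem (D.inv_mem hx₀D) (hCD hc)) h3)
    simpa using this
  have hG₁idx : G₁.index = 2 := by
    rw [Subgroup.relIndex_top_right] at hG₁2
    have hne1 : G₁.index ≠ 1 := fun h => hxG₁ x₀ hx₀D hx₀C (by
      rw [Subgroup.index_eq_one.mp h]; trivial)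
    rcases (Nat.dvd_prime Nat.prime_two).mp hG₁2 with h | h
    · exact absurd h hne1
    · exact h
  have hTG₁ : T ≤ G₁ := hTK.trans hKG₁
  have hG₁S : Nat.card (G₁ ⊓ S : Subgroup G) = Nat.card T * Nat.card C := by
    have hMle : T ⊔ C ≤ G₁ ⊓ S := le_inf (sup_le hTG₁ hCG₁) hMS
    have hne1 : (G₁ ⊓ S).relIndex S ≠ 1 := fun h =>
      hxG₁ x₀ hx₀D hx₀C (Subgroup.relIndex_eq_one.mp h (hDS hx₀D)).1
    have hne0 : (G₁ ⊓ S).relIndex S ≠ 0 :=
      (Subgroup.index_ne_zero_of_finite : ((G₁ ⊓ S).subgroupOf S).index ≠ 0)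
    have h3 := card_mul_relIndex_of_le (inf_le_right : G₁ ⊓ S ≤ S)
    have h4 : Nat.card (T ⊔ C : Subgroup G) ≤ Nat.card (G₁ ⊓ S : Subgroup G) :=
      Subgroup.card_le_of_le hMle
    have h5 : Nat.card (G₁ ⊓ S : Subgroup G) * 2 ≤ Nat.card T * Nat.card C * 2 := by
      calc Nat.card (G₁ ⊓ S : Subgroup G) * 2
          ≤ Nat.card (G₁ ⊓ S : Subgroup G) * (G₁ ⊓ S).relIndex S :=
            Nat.mul_le_mul_left _ (by omega)
        _ = Nat.card T * Nat.card C * 2 := by rw [h3, ← hTDc, ← hDC2, mul_assoc]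
    omega
  have hTrel : T.relIndex G₁ = Nat.card C * S.index := by
    have e1 := Subgroup.relIndex_mul_index hTG₁
    have e2 := Subgroup.relIndex_mul_index hTS
    have e3 := card_mul_relIndex_of_le hTS
    have hTpos : 0 < Nat.card T := Nat.card_pos
    have e4 : T.relIndex S = Nat.card D := by
      apply Nat.eq_of_mul_eq_mul_left hTpos; rw [e3, hTDc]
    rw [hG₁idx] at e1
    rw [e4, ← hDC2] at e2
    have : T.relIndex G₁ * 2 = Nat.card C * S.index * 2 := by rw [e1, ← e2]; ring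
    exact Nat.eq_of_mul_eq_mul_right two_pos this
  have hC2 : IsPGroup 2 C := hS2.to_le (hCD.trans hDS)
  have hKC : Cfsg.pResidual 2 G ⊓ C = ⊥ :=
    chain (Cfsg.pResidual 2 G) T hKhom hTK (Nat.card C) G₁ C rfl hKG₁ hCG₁ hC hC2
      ⟨S.index, hSodd, hTrel⟩ (by
        intro c hc hc1 g _ hgT
        obtain ⟨k, hk⟩ := hC2 ⟨c, hc⟩
        have hk' : c ^ 2 ^ k = 1 := by
          have := congrArg Subtype.val hk
          simpa using this
        obtain ⟨j, hj⟩ := exists_pow_orderOf_two c hc1 k hk'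
        exact h2 (c ^ j) (C.pow_mem hc j) hj g (by rw [← conj_pow]; exact T.pow_mem hgT j))
  have hKS : Cfsg.pResidual 2 G ⊓ S = T := by
    symm
    apply Subgroup.eq_of_le_of_card_ge (le_inf hTK hTS)
    have h6 : (Cfsg.pResidual 2 G ⊓ S) ⊓ C = ⊥ := by rw [inf_right_comm, hKC, bot_inf_eq]
    have h7 := card_mul_le_card_sup (Cfsg.pResidual 2 G ⊓ S) C h6
    have h8 : (Cfsg.pResidual 2 G ⊓ S) ⊔ C ≤ G₁ ⊓ S :=
      sup_le (inf_le_inf_right S hKG₁) (le_inf hCG₁ (hCD.trans hDS))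
    have h9 := Subgroup.card_le_of_le h8
    rw [hG₁S] at h9
    have hCpos : 0 < Nat.card C := Nat.card_pos
    exact Nat.le_of_mul_le_mul_right (h7.trans h9) hCpos
  refine ⟨Cfsg.pResidual 2 G, hKn, ?_, ?_⟩
  · have h10 : (Ssyl : Subgroup G) ⊔ Cfsg.pResidual 2 G = ⊤ :=
      Cfsg.Agent.Lib.Helper2.sylow_sup_pResidual Ssyl
    rw [eq_top_iff, ← h10]
    apply sup_le _ le_sup_left
    rw [hSsylc, ← hTD]
    exact sup_le (hTK.trans le_sup_left) le_sup_right
  · intro T' hT'L hT'2 hT'syl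
    refine ⟨hT'L.trans hLK, ?_⟩
    have h11 : ¬ 2 ∣ T.relIndex (Cfsg.pResidual 2 G) := by
      have := sylow_inf_normal_not_dvd Ssyl (Cfsg.pResidual 2 G)
      rwa [hSsylc, inf_comm, hKS] at this
    have h12 := Subgroup.relIndex_mul_relIndex T L (Cfsg.pResidual 2 G) hTL hLK
    have h13 := Subgroup.relIndex_mul_relIndex T' L (Cfsg.pResidual 2 G) hT'L hLK
    intro hdvd
    rw [← h13] at hdvd
    rcases (Nat.Prime.dvd_mul Nat.prime_two).mp hdvd with h | h
    · exact hT'syl h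
    · exact h11 (by rw [← h12]; exact Dvd.dvd.mul_left h _)

end Cfsg.Agent.S1924
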