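import Cfsg.Statements.S1932
import Cfsg.Agent.Lib.Helper3.CT3
import Cfsg.Agent.Lib.Helper32.PConstr
import Cfsg.Agent.Lib.Helper31.PComp

set_option autoImplicit false
open Cfsg

namespace Cfsg.Agent.S1932

/-- Let G be a finite group that is 2-constrained and has no section isomorphic to the symmetric group of degree 4, and let S be a Sylow 2-subgroup of G of nilpotency class at most 2. Then G = N_G(J(S))·O_{2'}(G), where J(S) is the Thompson subgroup generated by the elementary abelian subgroups of S of largest order. -/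
theorem result {G : Type*} [Group G] [Finite G] (hcon : Cfsg.IsPConstrained 2 G) (hS4 : ¬ Cfsg.Involves (Equiv.Perm (Fin 4)) G) (S : Sylow 2 G) (hcl : Subgroup.lowerCentralSeries (S : Subgroup G) 2 = ⊥) : Subgroup.normalizer ((Cfsg.thompsonSubgroupOf 2 (S : Subgroup G)) : Set G) ⊔ Cfsg.pPrimeCore 2 G = ⊤ := by
  haveI : Fact (Nat.Prime 2) := ⟨Nat.prime_two⟩
  obtain ⟨O, hOdef⟩ : ∃ O : Subgroup G, O = pPrimeCore 2 G := ⟨_, rfl⟩
  rw [← hOdef]
  haveI hOn : O.Normal := by rw [hOdef]; infer_instance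
  obtain ⟨π, hπ⟩ : ∃ π : G →* G ⧸ O, π = QuotientGroup.mk' O := ⟨_, rfl⟩
  have hsurj : Function.Surjective π := by rw [hπ]; exact QuotientGroup.mk'_surjective O
  have hcop : (Nat.card O).Coprime 2 := by
    rw [hOdef]; exact Cfsg.Agent.Lib.Helper14.pPrimeCore_coprime
  obtain ⟨k, hk⟩ := IsPGroup.iff_card.mp S.isPGroup'
  have hcop' : (Nat.card O).Coprime (Nat.card (S : Subgroup G)) := by
    rw [hk]; exact Nat.Coprime.pow_right k hcop
  have hinj : ∀ s ∈ (S : Subgroup G), π s = 1 → s = 1 := by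
    intro s hs h1
    have hsO : s ∈ O := by
      rw [hπ, QuotientGroup.mk'_apply, QuotientGroup.eq_one_iff] at h1
      exact h1
    exact Cfsg.Agent.S0057.inf_triv hcop' hs hsO
  have hJmap : thompsonSubgroupOf 2 ((S : Subgroup G).map π) =
      (thompsonSubgroupOf 2 (S : Subgroup G)).map π :=
    Cfsg.Agent.S0609.thompsonOf_map π hinj
  have hCbar : Subgroup.centralizer ((pCore 2 (G ⧸ O) : Subgroup (G ⧸ O)) : Set (G ⧸ O)) ≤
      pCore 2 (G ⧸ O) := by
    subst hOdef
    exact Cfsg.Agent.Lib.Helper32.centralizer_pCore_quot_le hcon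
  have hS4bar : ¬ Involves (Equiv.Perm (Fin 4)) (G ⧸ O) :=
    fun h => hS4 (Cfsg.Agent.Lib.Helper2.involves_of_quotient O h)
  have hclbar : Subgroup.lowerCentralSeries
      ((S.mapSurjective hsurj : Sylow 2 (G ⧸ O)) : Subgroup (G ⧸ O)) 2 = ⊥ := by
    rw [Sylow.coe_mapSurjective]
    show ⁅⁅(S : Subgroup G).map π, (S : Subgroup G).map π⁆, (S : Subgroup G).map π⁆ = ⊥
    rw [← Subgroup.map_commutator, ← Subgroup.map_commutator]
    have : ⁅⁅(S : Subgroup G), (S : Subgroup G)⁆, (S : Subgroup G)⁆ = ⊥ := hcl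
    rw [this, Subgroup.map_bot]
  have key := Cfsg.Agent.Lib.Helper3.CT.core_aux' (Nat.card (G ⧸ O)) (G ⧸ O) rfl hCbar hS4bar
    (S.mapSurjective hsurj) hclbar
  rw [Sylow.coe_mapSurjective, hJmap] at key
  obtain ⟨J, hJ⟩ : ∃ J : Subgroup G, J = thompsonSubgroupOf 2 (S : Subgroup G) := ⟨_, rfl⟩
  rw [← hJ] at key ⊢
  have hJS : J ≤ (S : Subgroup G) := by rw [hJ]; exact Cfsg.Agent.Lib.Helper14.thompsonOf_le _
  haveI hDn : (J ⊔ O).Normal := by
    have h1 : (J.map π).Normal := Subgroup.normalizer_eq_top_iff.mp key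
    have h2 : J ⊔ O = (J.map π).comap π := by
      rw [Subgroup.comap_map_eq, hπ, QuotientGroup.ker_mk']
    rw [h2]
    exact h1.comap π
  have hJO : J ⊓ O = ⊥ := by
    rw [eq_bot_iff]
    intro x hx
    exact Subgroup.mem_bot.mpr
      (Cfsg.Agent.S0057.inf_triv hcop' (hJS (Subgroup.mem_inf.mp hx).1) (Subgroup.mem_inf.mp hx).2)
  have hJnO : J ≤ Subgroup.normalizer (O : Set G) := by
    rw [Subgroup.normalizer_eq_top_iff.mpr hOn]; exact le_top
  have h1 := Cfsg.Agent.Lib.Helper14.card_sup_mul_card_inf hJnO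
  rw [hJO, Subgroup.card_bot, mul_one] at h1
  have h2 := Cfsg.Agent.Lib.Helper14.card_mul_relIndex (le_sup_left : J ≤ J ⊔ O)
  have hrel : J.relIndex (J ⊔ O) = Nat.card O := by
    have hpos : 0 < Nat.card J := Nat.card_pos
    have : Nat.card J * J.relIndex (J ⊔ O) = Nat.card J * Nat.card O := by rw [h2, h1]
    exact Nat.eq_of_mul_eq_mul_left hpos this
  have hP1 : IsPGroup 2 (J.subgroupOf (J ⊔ O)) :=
    (S.isPGroup'.to_le hJS).comap_of_injective (J ⊔ O).subtype (J ⊔ O).subtype_injective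
  have hP2 : ¬ 2 ∣ (J.subgroupOf (J ⊔ O)).index := by
    show ¬ 2 ∣ J.relIndex (J ⊔ O)
    rw [hrel]
    intro hdvd
    have := Nat.Coprime.eq_one_of_dvd hcop.symm hdvd
    omega
  have hfr := Sylow.normalizer_sup_eq_top (hP1.toSylow hP2)
  rw [IsPGroup.toSylow_coe, Subgroup.map_subgroupOf_eq_of_le le_sup_left] at hfr
  rw [← sup_assoc, sup_eq_left.mpr Subgroup.le_normalizer] at hfr
  exact hfr

end Cfsg.Agent.S1932
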