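import Cfsg.Statements.S1939

set_option autoImplicit false
open Cfsg

namespace Cfsg.Agent.S1939

/-- Sylow conjugacy inside a subgroup `N` containing the Sylow subgroup `S`:
a `p`-subgroup `R ≤ N` is conjugated into `S` by an element of `N`. -/
theorem exists_conj_mem_sylow_of_le {G : Type*} [Group G] [Finite G] {p : ℕ} [Fact p.Prime] (S : Sylow p G)
    (N : Subgroup G) (hSN : (S : Subgroup G) ≤ N) (R : Subgroup G) (hR : IsPGroup p R) (hRN : R ≤ N) :
    ∃ x ∈ N, ∀ r ∈ R, x * r * x⁻¹ ∈ (S : Subgroup G) := by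
  classical
  -- Sylow subgroup of N
  let S' : Sylow p N := S.subtype hSN
  have hR' : IsPGroup p (R.subgroupOf N) := hR.comap_subtype
  obtain ⟨Q, hQ⟩ := hR'.exists_le_sylow
  obtain ⟨x, hx⟩ := MulAction.exists_smul_eq N Q S'
  refine ⟨x, x.2, ?_⟩
  intro r hr
  have h1 : (⟨r, hRN hr⟩ : N) ∈ (Q : Subgroup N) := hQ (by simpa [Subgroup.mem_subgroupOf] using hr)
  have h2 : x * (⟨r, hRN hr⟩ : N) * x⁻¹ ∈ ((x • Q : Sylow p N) : Subgroup N) := by
    rw [Sylow.coe_subgroup_smul]
    have := Subgroup.smul_mem_pointwise_smul _ (MulAut.conj x) _ h1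
    simpa [MulAut.smul_def] using this
  rw [hx] at h2
  have h3 : x * (⟨r, hRN hr⟩ : N) * x⁻¹ ∈ (S : Subgroup G).subgroupOf N := h2
  simpa [Subgroup.mem_subgroupOf] using h3

/-- Let S be a Sylow p-subgroup of the finite group G and a an element of S that is the only G-conjugate of a lying in S. Then every power of a has the same property: for every n, the only G-conjugate of a^n lying in S is a^n. -/
theorem result {G : Type*} [Group G] [Finite G] {p : ℕ} [Fact p.Prime] (S : Sylow p G) (a : G)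
    (haS : a ∈ (S : Subgroup G)) (hwc : ∀ g : G, g * a * g⁻¹ ∈ (S : Subgroup G) → g * a * g⁻¹ = a) (n : ℕ) :
    ∀ g : G, g * a ^ n * g⁻¹ ∈ (S : Subgroup G) → g * a ^ n * g⁻¹ = a ^ n := by
  intro g hg
  -- a is central in S
  have hcen : ∀ s ∈ (S : Subgroup G), s * a = a * s := by
    intro s hs
    have h1 := hwc s ((S : Subgroup G).mul_mem ((S : Subgroup G).mul_mem hs haS) ((S : Subgroup G).inv_mem hs))
    calc s * a = (s * a * s⁻¹) * s := by group
      _ = a * s := by rw [h1]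
  set b := a ^ n with hb
  -- S centralizes b
  have hSb : (S : Subgroup G) ≤ Subgroup.centralizer ({b} : Set G) := by
    intro s hs
    rw [Subgroup.mem_centralizer_singleton_iff]
    have : Commute s a := hcen s hs
    exact (this.pow_right n).eq
  -- g⁻¹ a g centralizes b
  have hgab : g⁻¹ * a * g ∈ Subgroup.centralizer ({b} : Set G) := by
    rw [Subgroup.mem_centralizer_singleton_iff]
    have h1 : (g * b * g⁻¹) * a = a * (g * b * g⁻¹) := hcen _ hg
    calc g⁻¹ * a * g * b = g⁻¹ * (a * (g * b * g⁻¹)) * g := by group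
      _ = g⁻¹ * ((g * b * g⁻¹) * a) * g := by rw [h1]
      _ = b * (g⁻¹ * a * g) := by group
  -- the cyclic group generated by g⁻¹ a g is a p-group in the centralizer
  have hpa : IsPGroup p (Subgroup.zpowers a) := by
    have : Subgroup.zpowers a ≤ (S : Subgroup G) := by
      rw [Subgroup.zpowers_le]; exact haS
    exact S.isPGroup'.to_le this
  have hR : IsPGroup p (Subgroup.zpowers (g⁻¹ * a * g)) := by
    have hmap : Subgroup.zpowers (g⁻¹ * a * g) = (Subgroup.zpowers a).map (MulAut.conj g⁻¹).toMonoidHom := by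
      rw [MonoidHom.map_zpowers]
      simp
    rw [hmap]
    exact hpa.map _
  have hRN : Subgroup.zpowers (g⁻¹ * a * g) ≤ Subgroup.centralizer ({b} : Set G) := by
    rw [Subgroup.zpowers_le]; exact hgab
  obtain ⟨x, hxN, hx⟩ := exists_conj_mem_sylow_of_le S _ hSb _ hR hRN
  have h1 := hx (g⁻¹ * a * g) (Subgroup.mem_zpowers _)
  have h2 : (x * g⁻¹) * a * (x * g⁻¹)⁻¹ ∈ (S : Subgroup G) := by
    have : (x * g⁻¹) * a * (x * g⁻¹)⁻¹ = x * (g⁻¹ * a * g) * x⁻¹ := by group
    rw [this]; exact h1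
  have h3 := hwc _ h2
  -- so x g⁻¹ commutes with a, hence with b
  have h4 : (x * g⁻¹) * a = a * (x * g⁻¹) := by
    calc (x * g⁻¹) * a = ((x * g⁻¹) * a * (x * g⁻¹)⁻¹) * (x * g⁻¹) := by group
      _ = a * (x * g⁻¹) := by rw [h3]
  have h5 : (x * g⁻¹) * b = b * (x * g⁻¹) := by
    have : Commute (x * g⁻¹) a := h4
    exact (this.pow_right n).eq
  have h6 : x * b = b * x := by
    rw [Subgroup.mem_centralizer_singleton_iff] at hxN
    exact hxN
  -- g⁻¹ commutes with b
  have h7 : g⁻¹ * b = b * g⁻¹ := by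
    calc g⁻¹ * b = x⁻¹ * ((x * g⁻¹) * b) := by group
      _ = x⁻¹ * (b * (x * g⁻¹)) := by rw [h5]
      _ = x⁻¹ * (b * x) * g⁻¹ := by group
      _ = x⁻¹ * (x * b) * g⁻¹ := by rw [h6]
      _ = b * g⁻¹ := by group
  calc g * b * g⁻¹ = g * (b * g⁻¹) := by group
    _ = g * (g⁻¹ * b) := by rw [h7]
    _ = b := by group

end Cfsg.Agent.S1939
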