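import Cfsg.Statements.S1940
import Mathlib

set_option autoImplicit false
open Cfsg

namespace Cfsg.Agent.S1940

/-- The norm of a `T`-fixed element over the cosets of `T` in `L`. -/
noncomputable def normT {L M : Type*} [Group L] [Finite L] [CommGroup M] [MulDistribMulAction L M]
    (T : Subgroup L) (c : M) : M :=
  letI := Fintype.ofFinite (L ⧸ T)
  ∏ q : L ⧸ T, ((Quotient.out q : L) • c)

theorem normT_fixed {L M : Type*} [Group L] [Finite L] [CommGroup M] [MulDistribMulAction L M]
    (T : Subgroup L) (c : M) (hc : ∀ t ∈ T, t • c = c) (l : L) : l • normT T c = normT T c := by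
  unfold normT
  letI := Fintype.ofFinite (L ⧸ T)
  rw [Finset.smul_prod']
  have h1 : ∀ q : L ⧸ T, l • ((Quotient.out q : L) • c) = (Quotient.out (l • q) : L) • c := by
    intro q
    have h2 : ((l • q : L ⧸ T)) = QuotientGroup.mk (l * Quotient.out q) := by
      conv_lhs => rw [← QuotientGroup.out_eq' q]
      rfl
    have h3 : (QuotientGroup.mk (Quotient.out (l • q)) : L ⧸ T) = QuotientGroup.mk (l * Quotient.out q) := by
      rw [QuotientGroup.out_eq', h2]
    have h4 : (Quotient.out (l • q) : L)⁻¹ * (l * Quotient.out q) ∈ T := QuotientGroup.eq.mp h3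
    have h5 := hc _ h4
    calc l • ((Quotient.out q : L) • c) = (l * Quotient.out q) • c := by rw [mul_smul]
      _ = ((Quotient.out (l • q) : L) * ((Quotient.out (l • q) : L)⁻¹ * (l * Quotient.out q))) • c := by
          congr 1; group
      _ = (Quotient.out (l • q) : L) • c := by rw [mul_smul, h5]
  simp_rw [h1]
  exact Fintype.prod_equiv (MulAction.toPerm l) _ _ (fun q => rfl)

theorem normT_mod {L M : Type*} [Group L] [Finite L] [CommGroup M] [MulDistribMulAction L M]
    (T : Subgroup L) (c : M) (N : Subgroup M) (hN : ∀ l : L, (l • c) * c⁻¹ ∈ N) :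
    normT T c * (c ^ T.index)⁻¹ ∈ N := by
  unfold normT
  letI := Fintype.ofFinite (L ⧸ T)
  have h1 : (∏ q : L ⧸ T, ((Quotient.out q : L) • c)) * (c ^ T.index)⁻¹
      = ∏ q : L ⧸ T, (((Quotient.out q : L) • c) * c⁻¹) := by
    rw [Finset.prod_mul_distrib, Finset.prod_const, Finset.card_univ, Subgroup.index_eq_card,
      Nat.card_eq_fintype_card, inv_pow]
  rw [h1]
  exact Subgroup.prod_mem _ (fun q _ => hN _)

/-- Let the finite group L act by automorphisms on the finite abelian group M, and let N be an L-invariant subgroup of M such that M/N is a p-group on which L acts trivially (every l • m lies in the coset mN). If every element of M is a product of an element of N and an element fixed by a Sylow p-subgroup T of L, then every element of M is a product of an element of N and an element fixed by all of L. -/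
theorem result {L : Type*} [Group L] [Finite L] {M : Type*} [CommGroup M] [Finite M] [MulDistribMulAction L M]
    {p : ℕ} [Fact p.Prime] (N : Subgroup M) (hN : ∀ (l : L) (m : M), m ∈ N → l • m ∈ N)
    (hquot : IsPGroup p (M ⧸ N)) (htriv : ∀ (l : L) (m : M), (l • m) * m⁻¹ ∈ N) (T : Sylow p L)
    (hT : ∀ m : M, ∃ n ∈ N, ∃ c : M, (∀ t ∈ (T : Subgroup L), t • c = c) ∧ m = n * c) :
    ∀ m : M, ∃ n ∈ N, ∃ c : M, (∀ l : L, l • c = c) ∧ m = n * c := by
  intro m
  obtain ⟨n, hn, c, hc, rfl⟩ := hT m
  set k := (T : Subgroup L).index with hk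
  have hkp : ¬ p ∣ k := T.not_dvd_index
  set c' := normT (T : Subgroup L) c with hc'
  have hfix : ∀ l : L, l • c' = c' := normT_fixed _ c hc
  have hmod : c' * (c ^ k)⁻¹ ∈ N := normT_mod _ c N (fun l => htriv l c)
  -- order of the image of c in M ⧸ N
  obtain ⟨a, ha⟩ := hquot (QuotientGroup.mk c : M ⧸ N)
  set o := orderOf (QuotientGroup.mk c : M ⧸ N) with ho
  have hodvd : o ∣ p ^ a := orderOf_dvd_of_pow_eq_one ha
  have hcop : Nat.Coprime k o := by
    have h1 : Nat.Coprime k (p ^ a) :=
      Nat.Coprime.pow_right a ((Nat.Prime.coprime_iff_not_dvd Fact.out).mpr hkp).symm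
    exact Nat.Coprime.coprime_dvd_right hodvd h1
  by_cases ho1 : o = 1
  · -- c ∈ N
    have h1 : (QuotientGroup.mk c : M ⧸ N) = 1 := orderOf_eq_one_iff.mp ho1
    have h2 : c ∈ N := (QuotientGroup.eq_one_iff c).mp h1
    exact ⟨n * c, N.mul_mem hn h2, 1, fun l => smul_one l, by simp⟩
  · have hopos : 0 < o := orderOf_pos _
    have ho2 : 1 < o := by omega
    obtain ⟨j, -, hj⟩ := Nat.exists_mul_mod_eq_one_of_coprime hcop ho2
    refine ⟨n * (c * (c' ^ j)⁻¹), N.mul_mem hn ?_, c' ^ j, fun l => by rw [smul_pow', hfix], by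
      simp [mul_assoc]⟩
    -- c * (c'^j)⁻¹ ∈ N
    rw [← QuotientGroup.eq_one_iff]
    have h1 : (QuotientGroup.mk c' : M ⧸ N) = (QuotientGroup.mk c : M ⧸ N) ^ k := by
      have := (QuotientGroup.eq_one_iff _).mpr hmod
      rw [QuotientGroup.mk_mul, QuotientGroup.mk_inv, QuotientGroup.mk_pow, mul_inv_eq_one] at this
      exact this
    have h2 : (QuotientGroup.mk c : M ⧸ N) ^ (k * j) = (QuotientGroup.mk c : M ⧸ N) := by
      have : (QuotientGroup.mk c : M ⧸ N) ^ (k * j) = (QuotientGroup.mk c : M ⧸ N) ^ 1 := by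
        rw [pow_eq_pow_iff_modEq]
        show k * j % o = 1 % o
        rw [hj, Nat.mod_eq_of_lt ho2]
      rw [this, pow_one]
    rw [QuotientGroup.mk_mul, QuotientGroup.mk_inv, QuotientGroup.mk_pow, h1, ← pow_mul, h2,
      mul_inv_cancel]

end Cfsg.Agent.S1940
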