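import Cfsg.Statements.S1941
import Mathlib
import Cfsg.Agent.Lib.Helper30.Basic
import Cfsg.Agent.Lib.Helper30.PType
import Cfsg.Agent.Lib.Helper41.Cores

set_option autoImplicit false
open Cfsg

namespace Cfsg.Agent.S1941

open Cfsg.Agent.Lib.Helper30

/-- Let G be a finite group with no nontrivial normal subgroup of order prime to p, T a Sylow p-subgroup of G and E(G) the layer of G (the subgroup generated by its components). An automorphism of G of p-power order that fixes T and E(G) elementwise is inner. -/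
theorem result {G : Type*} [Group G] [Finite G] {p : ℕ} [Fact p.Prime] (hcore : Cfsg.pPrimeCore p G = ⊥)
    (T : Sylow p G) (α : MulAut G) (hα : ∃ j : ℕ, orderOf α = p ^ j) (hfixT : ∀ x ∈ (T : Subgroup G), α x = x)
    (hfixE : ∀ x ∈ Cfsg.layer G, α x = x) : ∃ g : G, ∀ x : G, α x = g * x * g⁻¹ := by
  classical
  have hp : p.Prime := Fact.out
  have hF : Cfsg.fittingSubgroup G = Cfsg.pCore p G :=
    fitting_eq_pCore_of_pPrimeCore_eq_bot p hcore
  have hFT : Cfsg.fittingSubgroup G ≤ (T : Subgroup G) := by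
    rw [hF]; exact Cfsg.Agent.Lib.Helper41.pCore_le_sylow T
  have hFstar : ∀ x ∈ Cfsg.generalizedFittingSubgroup G, α x = x := by
    have hle : Cfsg.generalizedFittingSubgroup G ≤ (α.toMonoidHom).eqLocus (MonoidHom.id G) :=
      sup_le (fun x hx => hfixE x hx) (fun x hx => hfixT x (hFT hx))
    exact fun x hx => hle hx
  have hFn : (Cfsg.generalizedFittingSubgroup G).Normal := genFitting_normal
  have hZn : (Subgroup.centralizer (Cfsg.generalizedFittingSubgroup G : Set G)).Normal :=
    Subgroup.normal_centralizer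
  have hZle : Subgroup.centralizer (Cfsg.generalizedFittingSubgroup G : Set G)
      ≤ Cfsg.generalizedFittingSubgroup G := centralizer_genFitting_le
  have hZcomm : ∀ a ∈ Subgroup.centralizer (Cfsg.generalizedFittingSubgroup G : Set G),
      ∀ b ∈ Subgroup.centralizer (Cfsg.generalizedFittingSubgroup G : Set G), a * b = b * a := by
    intro a ha b hb
    exact Subgroup.mem_centralizer_iff.mp hb a (hZle ha)
  letI : CommGroup ↥(Subgroup.centralizer (Cfsg.generalizedFittingSubgroup G : Set G)) :=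
    { (inferInstance : Group ↥(Subgroup.centralizer (Cfsg.generalizedFittingSubgroup G : Set G))) with
      mul_comm := fun a b => Subtype.ext (hZcomm a a.2 b b.2) }
  have hZnil : Group.IsNilpotent ↥(Subgroup.centralizer (Cfsg.generalizedFittingSubgroup G : Set G)) :=
    inferInstance
  have hZF : Subgroup.centralizer (Cfsg.generalizedFittingSubgroup G : Set G) ≤ Cfsg.pCore p G := by
    rw [← hF]
    exact le_fitting_of_subnormal_nilpotent hZn.isSubnormal hZnil
  have hZp : IsPGroup p ↥(Subgroup.centralizer (Cfsg.generalizedFittingSubgroup G : Set G)) :=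
    (Cfsg.Agent.Lib.Helper41.pCore_isPGroup p).to_le hZF
  have hc : ∀ g : G, g⁻¹ * α g ∈ Subgroup.centralizer (Cfsg.generalizedFittingSubgroup G : Set G) := by
    intro g
    rw [Subgroup.mem_centralizer_iff]
    intro x hx
    have h1 : α (g * x * g⁻¹) = g * x * g⁻¹ := hFstar _ (hFn.conj_mem x hx g)
    rw [map_mul, map_mul, map_inv, hFstar x hx] at h1
    calc x * (g⁻¹ * α g) = g⁻¹ * (g * x * g⁻¹) * α g := by group
      _ = g⁻¹ * (α g * x * (α g)⁻¹) * α g := by rw [h1]
      _ = g⁻¹ * α g * x := by group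
  let cZ : G → ↥(Subgroup.centralizer (Cfsg.generalizedFittingSubgroup G : Set G)) :=
    fun g => ⟨g⁻¹ * α g, hc g⟩
  have hcZT : ∀ t ∈ (T : Subgroup G), cZ t = 1 := by
    intro t ht
    apply Subtype.ext
    show t⁻¹ * α t = 1
    rw [hfixT t ht, inv_mul_cancel]
  have hcocycle : ∀ a b : G, cZ (a * b) = MulAut.conjNormal b⁻¹ (cZ a) * cZ b := by
    intro a b
    apply Subtype.ext
    rw [Subgroup.coe_mul, MulAut.conjNormal_apply]
    show (a * b)⁻¹ * α (a * b) = b⁻¹ * (a⁻¹ * α a) * b⁻¹⁻¹ * (b⁻¹ * α b)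
    rw [map_mul]; group
  let f : G ⧸ (T : Subgroup G) → ↥(Subgroup.centralizer (Cfsg.generalizedFittingSubgroup G : Set G)) :=
    fun q => Quotient.liftOn' q (fun g => cZ g⁻¹) (by
      intro a b hab
      rw [QuotientGroup.leftRel_apply] at hab
      show cZ a⁻¹ = cZ b⁻¹
      have hb : b⁻¹ = (a⁻¹ * b)⁻¹ * a⁻¹ := by group
      rw [hb, hcocycle, hcZT _ (Subgroup.inv_mem _ hab), map_one, one_mul])
  have hf : ∀ (h g : G), f (h • (QuotientGroup.mk g : G ⧸ (T : Subgroup G)))
      = MulAut.conjNormal h (f (QuotientGroup.mk g)) * cZ h⁻¹ := by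
    intro h g
    show cZ (h * g)⁻¹ = MulAut.conjNormal h (cZ g⁻¹) * cZ h⁻¹
    rw [mul_inv_rev, hcocycle, inv_inv]
  letI : Fintype (G ⧸ (T : Subgroup G)) := Fintype.ofFinite _
  have hwh : ∀ h : G, (∏ q : G ⧸ (T : Subgroup G), f q)
      = MulAut.conjNormal h (∏ q : G ⧸ (T : Subgroup G), f q)
        * cZ h⁻¹ ^ Fintype.card (G ⧸ (T : Subgroup G)) := by
    intro h
    have h1 : ∏ q : G ⧸ (T : Subgroup G), f (h • q) = ∏ q : G ⧸ (T : Subgroup G), f q :=
      Fintype.prod_equiv (MulAction.toPerm h) _ _ (fun q => rfl)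
    have h2 : ∀ q : G ⧸ (T : Subgroup G), f (h • q) = MulAut.conjNormal h (f q) * cZ h⁻¹ := by
      intro q
      induction q using QuotientGroup.induction_on with
      | H g => exact hf h g
    have h3 : ∏ q : G ⧸ (T : Subgroup G), f (h • q)
        = MulAut.conjNormal h (∏ q : G ⧸ (T : Subgroup G), f q)
          * cZ h⁻¹ ^ Fintype.card (G ⧸ (T : Subgroup G)) := by
      simp only [h2]
      rw [Finset.prod_mul_distrib, Finset.prod_const, Finset.card_univ, ← map_prod]
    exact h1.symm.trans h3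
  have hncop : (Nat.card ↥(Subgroup.centralizer (Cfsg.generalizedFittingSubgroup G : Set G))).Coprime
      (Fintype.card (G ⧸ (T : Subgroup G))) := by
    obtain ⟨e, he⟩ := IsPGroup.iff_card.mp hZp
    rw [he]
    apply Nat.Coprime.pow_left
    rw [Nat.Prime.coprime_iff_not_dvd hp, ← Nat.card_eq_fintype_card, ← Subgroup.index_eq_card]
    exact T.not_dvd_index
  obtain ⟨v, hv⟩ := (powCoprime hncop).surjective (∏ q : G ⧸ (T : Subgroup G), f q)
  have hv' : v ^ Fintype.card (G ⧸ (T : Subgroup G)) = ∏ q : G ⧸ (T : Subgroup G), f q := hv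
  refine ⟨(v : G)⁻¹, fun x => ?_⟩
  have h1 := hwh x⁻¹
  rw [inv_inv, ← hv', map_pow, ← mul_pow] at h1
  have h2 : v = MulAut.conjNormal x⁻¹ v * cZ x := (powCoprime hncop).injective h1
  have h3 := congrArg Subtype.val h2
  rw [Subgroup.coe_mul, MulAut.conjNormal_apply, inv_inv] at h3
  have h4 : (v : G) = x⁻¹ * v * α x := by
    have e : x⁻¹ * (v : G) * x * (x⁻¹ * α x) = x⁻¹ * v * α x := by group
    rw [← e]; exact h3
  have h5 : α x = (v : G)⁻¹ * x * v := by
    calc α x = (x⁻¹ * (v : G))⁻¹ * (x⁻¹ * v * α x) := by group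
      _ = (x⁻¹ * (v : G))⁻¹ * v := by rw [← h4]
      _ = (v : G)⁻¹ * x * v := by group
  rw [h5, inv_inv]

end Cfsg.Agent.S1941
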