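import Cfsg.Statements.S1944
import Mathlib
import Cfsg.Agent.Lib.Helper41.Cores

set_option autoImplicit false
open Cfsg

namespace Cfsg.Agent.S1944

open Cfsg.Agent.Lib.Helper41

/-- The norm of an element over the cosets of `T` in `L`. -/
noncomputable def normT {L M : Type*} [Group L] [Finite L] [CommGroup M] [MulDistribMulAction L M]
    (T : Subgroup L) (c : M) : M :=
  letI := Fintype.ofFinite (L ⧸ T)
  ∏ q : L ⧸ T, ((Quotient.out q : L) • c)

theorem normT_fixed {L M : Type*} [Group L] [Finite L] [CommGroup M] [MulDistribMulAction L M]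
    (T : Subgroup L) (c : M) (hc : ∀ t ∈ T, t • c = c) (l : L) : l • normT T c = normT T c := by
  unfold normT
  letI := Fintype.ofFinite (L ⧸ T)
  rw [Finset.smul_prod']
  have h1 : ∀ q : L ⧸ T, l • ((Quotient.out q : L) • c) = (Quotient.out (l • q) : L) • c := by
    intro q
    have h2 : ((l • q : L ⧸ T)) = QuotientGroup.mk (l * Quotient.out q) := by
      conv_lhs => rw [← QuotientGroup.out_eq' q]
      rfl
    have h3 : (QuotientGroup.mk (Quotient.out (l • q)) : L ⧸ T) = QuotientGroup.mk (l * Quotient.out q) := by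
      rw [QuotientGroup.out_eq', h2]
    have h4 : (Quotient.out (l • q) : L)⁻¹ * (l * Quotient.out q) ∈ T := QuotientGroup.eq.mp h3
    have h5 := hc _ h4
    calc l • ((Quotient.out q : L) • c) = (l * Quotient.out q) • c := by rw [mul_smul]
      _ = ((Quotient.out (l • q) : L) * ((Quotient.out (l • q) : L)⁻¹ * (l * Quotient.out q))) • c := by
          congr 1; group
      _ = (Quotient.out (l • q) : L) • c := by rw [mul_smul, h5]
  simp_rw [h1]
  exact Fintype.prod_equiv (MulAction.toPerm l) _ _ (fun q => rfl)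

theorem normT_mul {L M : Type*} [Group L] [Finite L] [CommGroup M] [MulDistribMulAction L M]
    (T : Subgroup L) (a b : M) : normT T (a * b) = normT T a * normT T b := by
  unfold normT
  letI := Fintype.ofFinite (L ⧸ T)
  rw [← Finset.prod_mul_distrib]
  exact Finset.prod_congr rfl (fun q _ => smul_mul' _ _ _)

theorem normT_one {L M : Type*} [Group L] [Finite L] [CommGroup M] [MulDistribMulAction L M]
    (T : Subgroup L) : normT T (1 : M) = 1 := by
  unfold normT
  letI := Fintype.ofFinite (L ⧸ T)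
  exact Finset.prod_eq_one (fun q _ => smul_one _)

theorem normT_inv {L M : Type*} [Group L] [Finite L] [CommGroup M] [MulDistribMulAction L M]
    (T : Subgroup L) (a : M) : normT T a⁻¹ = (normT T a)⁻¹ := by
  have h := normT_mul T a a⁻¹
  rw [mul_inv_cancel, normT_one] at h
  exact eq_inv_of_mul_eq_one_right h.symm

theorem normT_of_fixed {L M : Type*} [Group L] [Finite L] [CommGroup M] [MulDistribMulAction L M]
    (T : Subgroup L) (w : M) (hw : ∀ l : L, l • w = w) : normT T w = w ^ T.index := by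
  unfold normT
  letI := Fintype.ofFinite (L ⧸ T)
  rw [Finset.prod_congr rfl (fun q _ => hw _), Finset.prod_const, Finset.card_univ,
    Subgroup.index_eq_card, Nat.card_eq_fintype_card]

/-- Fixed points of the whole group form a direct factor of the fixed points of a subgroup of index
prime to `p`, on an abelian `p`-group. -/
theorem fixed_points_direct_factor {X M : Type*} [Group X] [Finite X] [CommGroup M] [Finite M]
    [MulDistribMulAction X M] {p : ℕ} [Fact p.Prime] (hM : IsPGroup p M) (T : Subgroup X)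
    (hT : ¬ p ∣ T.index) :
    ∃ K : Subgroup M, (∀ a ∈ K, ∀ t ∈ T, t • a = a) ∧
      (∀ a ∈ K, (∀ x : X, x • a = a) → a = 1) ∧
      (∀ a : M, (∀ t ∈ T, t • a = a) → ∃ w : M, (∀ x : X, x • w = w) ∧ ∃ k ∈ K, a = w * k) := by
  set k := T.index with hk
  have hpow : ∀ a : M, a ^ k = 1 → a = 1 := by
    intro a ha
    obtain ⟨j, hj⟩ := (IsPGroup.iff_orderOf.mp hM) a
    have h1 : orderOf a ∣ k := orderOf_dvd_of_pow_eq_one ha
    rw [← orderOf_eq_one_iff]
    rw [hj] at h1 ⊢
    have h2 : (p ^ j).Coprime k := Nat.Coprime.pow_left j ((Nat.Prime.coprime_iff_not_dvd Fact.out).mpr hT)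
    exact Nat.Coprime.eq_one_of_dvd h2 h1
  let K : Subgroup M :=
    { carrier := {a | (∀ t ∈ T, t • a = a) ∧ normT T a = 1}
      one_mem' := ⟨fun t _ => smul_one t, normT_one T⟩
      mul_mem' := by
        rintro a b ⟨ha1, ha2⟩ ⟨hb1, hb2⟩
        refine ⟨fun t ht => by rw [smul_mul', ha1 t ht, hb1 t ht], ?_⟩
        rw [normT_mul, ha2, hb2, mul_one]
      inv_mem' := by
        rintro a ⟨ha1, ha2⟩
        refine ⟨fun t ht => by rw [smul_inv', ha1 t ht], ?_⟩
        rw [normT_inv, ha2, inv_one] }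
  refine ⟨K, fun a ha => ha.1, ?_, ?_⟩
  · intro a ha hfix
    have h1 : normT T a = a ^ k := normT_of_fixed T a hfix
    rw [ha.2] at h1
    exact hpow a h1.symm
  · intro a ha
    set w₀ := normT T a with hw₀
    have hw₀fix : ∀ x : X, x • w₀ = w₀ := normT_fixed T a ha
    set o := orderOf w₀ with ho
    have hcop : Nat.Coprime k o := by
      obtain ⟨j, hj⟩ := (IsPGroup.iff_orderOf.mp hM) w₀
      rw [ho, hj]
      exact (Nat.Coprime.pow_left j ((Nat.Prime.coprime_iff_not_dvd Fact.out).mpr hT)).symm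
    by_cases ho1 : o = 1
    · have h1 : w₀ = 1 := orderOf_eq_one_iff.mp ho1
      exact ⟨1, fun x => smul_one x, a, ⟨ha, h1⟩, by simp⟩
    · have hopos : 0 < o := orderOf_pos _
      have ho2 : 1 < o := by omega
      obtain ⟨j, -, hj⟩ := Nat.exists_mul_mod_eq_one_of_coprime hcop ho2
      set w := w₀ ^ j with hw
      have hwfix : ∀ x : X, x • w = w := fun x => by rw [hw, smul_pow', hw₀fix]
      have hwk : w ^ k = w₀ := by
        rw [hw, ← pow_mul, mul_comm]
        have : w₀ ^ (k * j) = w₀ ^ 1 := by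
          rw [pow_eq_pow_iff_modEq]
          show k * j % o = 1 % o
          rw [hj, Nat.mod_eq_of_lt ho2]
        rw [this, pow_one]
      refine ⟨w, hwfix, w⁻¹ * a, ⟨fun t ht => by rw [smul_mul', smul_inv', hwfix, ha t ht], ?_⟩, by simp⟩
      rw [normT_mul, normT_inv, normT_of_fixed T w hwfix, hwk, inv_mul_cancel]

open scoped IsMulCommutative in
/-- Let S be a Sylow p-subgroup of the finite group G and suppose that the centre Z(S) lies in O_{p',p}(G). The elements of S each of which is its only G-conjugate in S form a subgroup W of Z(S); W is then a direct factor of Z(S): there is a subgroup K of Z(S) with W ∩ K = 1 and WK = Z(S). -/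
theorem result {G : Type*} [Group G] [Finite G] {p : ℕ} [Fact p.Prime] (S : Sylow p G)
    (hZ : ((S : Subgroup G) ⊓ Subgroup.centralizer ((S : Subgroup G) : Set G)) ≤ Cfsg.pPrimePCore p G) :
    ∃ W K : Subgroup G, (∀ x : G, x ∈ W ↔ (x ∈ (S : Subgroup G) ∧ ∀ g : G, g * x * g⁻¹ ∈ (S : Subgroup G) → g * x * g⁻¹ = x)) ∧
      K ≤ ((S : Subgroup G) ⊓ Subgroup.centralizer ((S : Subgroup G) : Set G)) ∧ W ⊓ K = ⊥ ∧ W ⊔ K = ((S : Subgroup G) ⊓ Subgroup.centralizer ((S : Subgroup G) : Set G)) := by
  set D := Cfsg.pPrimeCore p G with hD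
  set L := Cfsg.pPrimePCore p G with hL
  have hLn : L.Normal := pPrimePCore_normal' p
  have hDn : D.Normal := Cfsg.pPrimeCore_normal p G
  let π := QuotientGroup.mk' D
  have hπ : Function.Surjective π := QuotientGroup.mk'_surjective D
  have hπone : ∀ d ∈ D, π d = 1 := fun d hd => (QuotientGroup.eq_one_iff d).mpr hd
  have hπker : ∀ g : G, π g = 1 → g ∈ D := fun g hg => (QuotientGroup.eq_one_iff g).mp hg
  set ZS : Subgroup G := (S : Subgroup G) ⊓ Subgroup.centralizer ((S : Subgroup G) : Set G) with hZS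
  set W : Subgroup G := (S : Subgroup G) ⊓ (Subgroup.center (G ⧸ D)).comap π with hW
  have hSD : ∀ x ∈ (S : Subgroup G), x ∈ D → x = 1 := fun x hx hx' =>
    eq_one_of_mem_pGroup_of_mem_pPrimeCore (S : Subgroup G) S.isPGroup' hx hx'
  -- W ≤ ZS
  have hWZS : W ≤ ZS := by
    intro x hx
    refine Subgroup.mem_inf.mpr ⟨hx.1, ?_⟩
    rw [Subgroup.mem_centralizer_iff]
    intro s hs
    have hxc : π x ∈ Subgroup.center (G ⧸ D) := hx.2
    rw [Subgroup.mem_center_iff] at hxc
    have h1 : π (s * x * s⁻¹ * x⁻¹) = 1 := by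
      rw [map_mul, map_mul, map_mul, map_inv, map_inv, hxc (π s)]
      group
    have h2 : s * x * s⁻¹ * x⁻¹ ∈ (S : Subgroup G) :=
      (S : Subgroup G).mul_mem ((S : Subgroup G).mul_mem ((S : Subgroup G).mul_mem hs hx.1)
        ((S : Subgroup G).inv_mem hs)) ((S : Subgroup G).inv_mem hx.1)
    have h3 := hSD _ h2 (hπker _ h1)
    have h4 : s * x * s⁻¹ = x := mul_inv_eq_one.mp h3
    calc s * x = (s * x * s⁻¹) * s := by group
      _ = x * s := by rw [h4]
  -- characterization of W
  have hWchar : ∀ x : G, x ∈ W ↔ (x ∈ (S : Subgroup G) ∧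
      ∀ g : G, g * x * g⁻¹ ∈ (S : Subgroup G) → g * x * g⁻¹ = x) := by
    intro x
    constructor
    · intro hx
      refine ⟨hx.1, ?_⟩
      intro g hg
      have hxc : π x ∈ Subgroup.center (G ⧸ D) := hx.2
      rw [Subgroup.mem_center_iff] at hxc
      have h1 : π (g * x * g⁻¹ * x⁻¹) = 1 := by
        rw [map_mul, map_mul, map_mul, map_inv, map_inv, hxc (π g)]
        group
      have h2 : g * x * g⁻¹ * x⁻¹ ∈ (S : Subgroup G) :=
        (S : Subgroup G).mul_mem hg ((S : Subgroup G).inv_mem hx.1)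
      exact mul_inv_eq_one.mp (hSD _ h2 (hπker _ h1))
    · rintro ⟨hxS, hwc⟩
      refine ⟨hxS, ?_⟩
      -- x is central in S
      have hxcen : ∀ s ∈ (S : Subgroup G), s * x = x * s := by
        intro s hs
        have h1 := hwc s ((S : Subgroup G).mul_mem ((S : Subgroup G).mul_mem hs hxS)
          ((S : Subgroup G).inv_mem hs))
        calc s * x = (s * x * s⁻¹) * s := by group
          _ = x * s := by rw [h1]
      have hxZS : x ∈ ZS := by
        refine Subgroup.mem_inf.mpr ⟨hxS, ?_⟩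
        rw [Subgroup.mem_centralizer_iff]
        exact hxcen
      have hxL : x ∈ L := hZ hxZS
      show π x ∈ Subgroup.center (G ⧸ D)
      rw [Subgroup.mem_center_iff]
      intro gbar
      obtain ⟨g, rfl⟩ := hπ gbar
      set y := g * x * g⁻¹ with hy
      have hyL : y ∈ L := hLn.conj_mem x hxL g
      have hxp : IsPGroup p (Subgroup.zpowers x) :=
        S.isPGroup'.to_le (by rw [Subgroup.zpowers_le]; exact hxS)
      have hyp : IsPGroup p (Subgroup.zpowers y) := by
        have hmap : Subgroup.zpowers y = (Subgroup.zpowers x).map (MulAut.conj g).toMonoidHom := by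
          rw [MonoidHom.map_zpowers]
          simp [hy]
        rw [hmap]
        exact hxp.map _
      have hHp : IsPGroup p ((S : Subgroup G) ⊓ L : Subgroup G) := S.isPGroup'.to_le inf_le_left
      obtain ⟨m, hmL, hm⟩ := exists_conj_le_of_not_dvd_relIndex L ((S : Subgroup G) ⊓ L)
        (Subgroup.zpowers y) hHp (sylow_inf_normal_not_dvd S L)
        (by rw [Subgroup.zpowers_le]; exact hyL) hyp
      have h1 : m * y * m⁻¹ ∈ (S : Subgroup G) := (hm y (Subgroup.mem_zpowers y)).1
      have h2 : (m * g) * x * (m * g)⁻¹ = x := by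
        apply hwc
        have : (m * g) * x * (m * g)⁻¹ = m * y * m⁻¹ := by rw [hy]; group
        rw [this]; exact h1
      obtain ⟨s, hs, d, hd, rfl⟩ := pPrimePCore_decomp S hmL
      have h3 : g * x * g⁻¹ = d⁻¹ * x * d := by
        have h4 : g * x * g⁻¹ = (s * d)⁻¹ * ((s * d * g) * x * (s * d * g)⁻¹) * (s * d) := by group
        rw [h4, h2]
        have h5 := hxcen s hs.1
        calc (s * d)⁻¹ * x * (s * d) = d⁻¹ * s⁻¹ * (x * s) * d := by group
          _ = d⁻¹ * s⁻¹ * (s * x) * d := by rw [h5]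
          _ = d⁻¹ * x * d := by group
      have h6 : π (g * x * g⁻¹) = π x := by
        rw [h3, map_mul, map_mul, map_inv, hπone d hd]
        group
      rw [map_mul, map_mul, map_inv] at h6
      calc π g * π x = (π g * π x * (π g)⁻¹) * π g := by group
        _ = π x * π g := by rw [h6]
  -- the abelian normal p-subgroup A of the quotient
  set Rbar : Subgroup (G ⧸ D) := Cfsg.pCore p (G ⧸ D) with hRbar
  have hRbarn : Rbar.Normal := Cfsg.pCore_normal p (G ⧸ D)
  set A : Subgroup (G ⧸ D) := Rbar ⊓ Subgroup.centralizer (Rbar : Set (G ⧸ D)) with hA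
  haveI hAn : A.Normal := by rw [hA]; infer_instance
  haveI hAc : IsMulCommutative A := by
    rw [isMulCommutative_iff]
    rintro ⟨a, ha⟩ ⟨b, hb⟩
    apply Subtype.ext
    have h1 := (Subgroup.mem_inf.mp ha).2
    rw [Subgroup.mem_centralizer_iff] at h1
    exact (h1 b (Subgroup.mem_inf.mp hb).1).symm
  have hAp : IsPGroup p A := (pCore_isPGroup p).to_le inf_le_left
  let Sbar : Sylow p (G ⧸ D) := S.mapSurjective hπ
  have hSbar : (Sbar : Subgroup (G ⧸ D)) = (S : Subgroup G).map π := Sylow.coe_mapSurjective hπ S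
  have hRS : Rbar ≤ (S : Subgroup G).map π := by rw [← hSbar]; exact pCore_le_sylow Sbar
  -- π maps ZS into A
  have hZA : ∀ z ∈ ZS, π z ∈ A := by
    intro z hz
    refine Subgroup.mem_inf.mpr ⟨hZ hz, ?_⟩
    rw [Subgroup.mem_centralizer_iff]
    intro r hr
    obtain ⟨s, hs, rfl⟩ := Subgroup.mem_map.mp (hRS hr)
    have h1 := (Subgroup.mem_inf.mp hz).2
    rw [Subgroup.mem_centralizer_iff] at h1
    rw [← map_mul, ← map_mul, h1 s hs]
  -- the acting group and the subgroup T
  let T : Subgroup (ConjAct (G ⧸ D)) :=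
    (Sbar : Subgroup (G ⧸ D)).comap (ConjAct.ofConjAct : ConjAct (G ⧸ D) ≃* G ⧸ D).toMonoidHom
  have hTidx : ¬ p ∣ T.index := by
    have : T.index = (Sbar : Subgroup (G ⧸ D)).index :=
      Subgroup.index_comap_of_surjective _ (ConjAct.ofConjAct : ConjAct (G ⧸ D) ≃* G ⧸ D).surjective
    rw [this]
    exact Sbar.not_dvd_index
  haveI : Finite (ConjAct (G ⧸ D)) := Finite.of_equiv (G ⧸ D) ConjAct.toConjAct.toEquiv
  obtain ⟨KA, hKA1, hKA2, hKA3⟩ :=
    fixed_points_direct_factor (X := ConjAct (G ⧸ D)) (M := A) hAp T hTidx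
  have hsmul : ∀ (g : ConjAct (G ⧸ D)) (a : A),
      ((g • a : A) : G ⧸ D) = ConjAct.ofConjAct g * (a : G ⧸ D) * (ConjAct.ofConjAct g)⁻¹ := by
    intro g a
    rw [ConjAct.Subgroup.val_conj_smul, ConjAct.smul_def]
  -- T-fixed elements: those commuting with π S
  have hTfix : ∀ z (hz : z ∈ ZS), ∀ t ∈ T, t • (⟨π z, hZA z hz⟩ : A) = ⟨π z, hZA z hz⟩ := by
    intro z hz t ht
    apply Subtype.ext
    rw [hsmul]
    have ht' : ConjAct.ofConjAct t ∈ (S : Subgroup G).map π := by rw [← hSbar]; exact ht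
    obtain ⟨s, hs, hst⟩ := Subgroup.mem_map.mp ht'
    have h1 := (Subgroup.mem_inf.mp hz).2
    rw [Subgroup.mem_centralizer_iff] at h1
    show ConjAct.ofConjAct t * π z * (ConjAct.ofConjAct t)⁻¹ = π z
    rw [← hst, ← map_mul, h1 s hs, map_mul]
    group
  -- the complement
  set K : Subgroup G := ZS ⊓ (KA.map A.subtype).comap π with hK
  have hKmem : ∀ z (hz : z ∈ ZS), z ∈ K ↔ (⟨π z, hZA z hz⟩ : A) ∈ KA := by
    intro z hz
    constructor
    · intro h
      obtain ⟨a, ha, hae⟩ := Subgroup.mem_map.mp h.2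
      have : a = ⟨π z, hZA z hz⟩ := Subtype.ext hae
      rw [← this]; exact ha
    · intro h
      exact ⟨hz, Subgroup.mem_map.mpr ⟨_, h, rfl⟩⟩
  refine ⟨W, K, hWchar, inf_le_left, ?_, ?_⟩
  · rw [eq_bot_iff]
    intro x hx
    rw [Subgroup.mem_bot]
    have hxW : x ∈ W := hx.1
    have hxK : x ∈ K := hx.2
    have hxZS : x ∈ ZS := hWZS hxW
    have h1 := (hKmem x hxZS).mp hxK
    have hxc : π x ∈ Subgroup.center (G ⧸ D) := hxW.2
    rw [Subgroup.mem_center_iff] at hxc
    have h2 : (⟨π x, hZA x hxZS⟩ : A) = 1 := by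
      apply hKA2 _ h1
      intro g
      apply Subtype.ext
      rw [hsmul]
      show ConjAct.ofConjAct g * π x * (ConjAct.ofConjAct g)⁻¹ = π x
      rw [hxc]; group
    have h3 : π x = 1 := congrArg Subtype.val h2
    exact hSD x hxW.1 (hπker x h3)
  · apply le_antisymm
    · exact sup_le hWZS inf_le_left
    · intro z hz
      obtain ⟨w, hwfix, k, hk, hzwk⟩ := hKA3 ⟨π z, hZA z hz⟩ (hTfix z hz)
      -- w = π s with s ∈ S
      obtain ⟨s, hs, hsw⟩ := Subgroup.mem_map.mp (hRS w.2.1)
      have hsW : s ∈ W := by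
        refine ⟨hs, ?_⟩
        show π s ∈ Subgroup.center (G ⧸ D)
        rw [Subgroup.mem_center_iff]
        intro gbar
        have h1 := hwfix (ConjAct.toConjAct gbar)
        have h2 := congrArg Subtype.val h1
        rw [hsmul, ConjAct.ofConjAct_toConjAct] at h2
        rw [hsw]
        calc gbar * (w : G ⧸ D) = (gbar * (w : G ⧸ D) * gbar⁻¹) * gbar := by group
          _ = (w : G ⧸ D) * gbar := by rw [h2]
      have hsZS : s ∈ ZS := hWZS hsW
      have hszZS : s⁻¹ * z ∈ ZS := ZS.mul_mem (ZS.inv_mem hsZS) hz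
      have hszK : s⁻¹ * z ∈ K := by
        rw [hKmem _ hszZS]
        have : (⟨π (s⁻¹ * z), hZA _ hszZS⟩ : A) = k := by
          apply Subtype.ext
          have h3 : π z = (w : G ⧸ D) * (k : G ⧸ D) := congrArg Subtype.val hzwk
          show π (s⁻¹ * z) = (k : G ⧸ D)
          rw [map_mul, map_inv, hsw, h3]
          group
        rw [this]; exact hk
      have : z = s * (s⁻¹ * z) := by group
      rw [this]
      exact Subgroup.mul_mem_sup hsW hszK

end Cfsg.Agent.S1944
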