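import Cfsg.Statements.S1947
import Mathlib
import Cfsg.Agent.S0071
import Cfsg.Agent.Lib.Helper41.Crit

set_option autoImplicit false
open Cfsg

namespace Cfsg.Agent.S1947

open Cfsg.Agent.Lib.Helper41

/-- If `g` has order coprime to `p`, the `p`-element `c = d⁻¹ * (g * d * g⁻¹)` is centralized by
`g`, then `g` centralizes `d`. -/
theorem conj_eq_of_comm_fixed {G : Type*} [Group G] {p : ℕ} (g d : G)
    (hcop : (orderOf g).Coprime p) (k : ℕ) (hc : (d⁻¹ * (g * d * g⁻¹)) ^ p ^ k = 1)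
    (hfix : g * (d⁻¹ * (g * d * g⁻¹)) * g⁻¹ = d⁻¹ * (g * d * g⁻¹)) : g * d * g⁻¹ = d := by
  have hgd : g * d * g⁻¹ = d * (d⁻¹ * (g * d * g⁻¹)) := by group
  have hconjpow : ∀ j : ℕ, g * (d⁻¹ * (g * d * g⁻¹)) ^ j * g⁻¹ = (d⁻¹ * (g * d * g⁻¹)) ^ j := by
    intro j
    rw [← conj_pow, hfix]
  have h1 : ∀ j : ℕ, g ^ j * d * (g ^ j)⁻¹ = d * (d⁻¹ * (g * d * g⁻¹)) ^ j := by
    intro j
    induction j with
    | zero => simp
    | succ j ih =>
      calc g ^ (j + 1) * d * (g ^ (j + 1))⁻¹ = g * (g ^ j * d * (g ^ j)⁻¹) * g⁻¹ := by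
            rw [pow_succ']; group
        _ = g * (d * (d⁻¹ * (g * d * g⁻¹)) ^ j) * g⁻¹ := by rw [ih]
        _ = (g * d * g⁻¹) * (g * (d⁻¹ * (g * d * g⁻¹)) ^ j * g⁻¹) := by group
        _ = d * (d⁻¹ * (g * d * g⁻¹)) * (d⁻¹ * (g * d * g⁻¹)) ^ j := by rw [hconjpow, ← hgd]
        _ = d * (d⁻¹ * (g * d * g⁻¹)) ^ (j + 1) := by rw [pow_succ', mul_assoc]
  have h2 : (d⁻¹ * (g * d * g⁻¹)) ^ orderOf g = 1 := by
    have h := h1 (orderOf g)
    rw [pow_orderOf_eq_one, one_mul, inv_one, mul_one] at h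
    exact mul_eq_left.mp h.symm
  have ho1 : orderOf (d⁻¹ * (g * d * g⁻¹)) ∣ orderOf g := orderOf_dvd_of_pow_eq_one h2
  have ho2 : orderOf (d⁻¹ * (g * d * g⁻¹)) ∣ p ^ k := orderOf_dvd_of_pow_eq_one hc
  have ho : orderOf (d⁻¹ * (g * d * g⁻¹)) = 1 :=
    Nat.Coprime.eq_one_of_dvd (Nat.Coprime.pow_right k (Nat.Coprime.coprime_dvd_left ho1 hcop)) ho2
  have h3 : d⁻¹ * (g * d * g⁻¹) = 1 := orderOf_eq_one_iff.mp ho
  exact (inv_mul_eq_one.mp h3).symm

theorem result {G : Type*} [Group G] [Finite G] {p : ℕ} [Fact p.Prime] (n : ℕ)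
    (h : ∀ a : G, (a ^ p = 1 ∨ (p = 2 ∧ a ^ 4 = 1)) → a ∈ Subgroup.upperCentralSeries G n) : Cfsg.HasNormalPComplement p G := by
  let P : Sylow p G := default
  obtain ⟨N, hN, hc⟩ := (Cfsg.Agent.S0071.result P).mpr (by
    intro Q hQ g hg hcop
    by_contra hnc
    have hQp : IsPGroup p Q := P.isPGroup'.to_le hQ
    obtain ⟨D, hDQ, hDinv, hDgen, hDexp, hDne⟩ := exists_crit_sub Q hQp g hg hcop hnc
    apply hDne
    have hfix : ∀ k : ℕ, ∀ d ∈ D, d ∈ Subgroup.upperCentralSeries G k → g * d * g⁻¹ = d := by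
      intro k
      induction k with
      | zero =>
        intro d _ hd
        rw [Subgroup.upperCentralSeries_zero, Subgroup.mem_bot] at hd
        rw [hd]; group
      | succ k ih =>
        intro d hd hdz
        have hcD : d⁻¹ * (g * d * g⁻¹) ∈ D := D.mul_mem (D.inv_mem hd) (hDinv d hd)
        have hcZ : d⁻¹ * (g * d * g⁻¹) ∈ Subgroup.upperCentralSeries G k := by
          have h1 := Subgroup.mem_upperCentralSeries_succ_iff.mp
            ((Subgroup.upperCentralSeries G (k + 1)).inv_mem hdz) g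
          have : d⁻¹ * (g * d * g⁻¹) = d⁻¹ * g * d⁻¹⁻¹ * g⁻¹ := by group
          rw [this]; exact h1
        obtain ⟨j, hj⟩ := hQp ⟨_, hDQ hcD⟩
        have hj' : (d⁻¹ * (g * d * g⁻¹)) ^ p ^ j = 1 := by
          have := congrArg Subtype.val hj
          simpa using this
        exact conj_eq_of_comm_fixed g d hcop j hj' (ih _ hcD hcZ)
    rw [eq_bot_iff]
    refine hDgen.trans ?_
    rw [Subgroup.closure_le]
    rintro _ ⟨d, hd, rfl⟩
    rw [hfix n d hd (h d (hDexp d hd))]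
    simp)
  exact ⟨P, N, hN, hc⟩

end Cfsg.Agent.S1947
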