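import Cfsg.Statements.S1948
import Mathlib
import Cfsg.Agent.Lib.Helper41.Cores
import Cfsg.Agent.Lib.Helper41.Cores2

set_option autoImplicit false
open Cfsg

namespace Cfsg.Agent.S1948

open Cfsg.Agent.Lib.Helper41

/-- Let S be a Sylow p-subgroup of the finite group G. Then G = N_G(S)·O_{p'}(G) if and only if G is p-constrained and N_G(S) controls fusion in S, in the sense that whenever a subgroup Q of S has a conjugate g Q g⁻¹ inside S, the element g is a product n c with n normalizing S and c centralizing Q. -/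
theorem result {G : Type*} [Group G] [Finite G] {p : ℕ} [Fact p.Prime] (S : Sylow p G) :
    Subgroup.normalizer ((S : Subgroup G) : Set G) ⊔ Cfsg.pPrimeCore p G = ⊤ ↔
      (Cfsg.IsPConstrained p G ∧
        ∀ Q : Subgroup G, Q ≤ (S : Subgroup G) → ∀ g : G, Q.map (MulAut.conj g).toMonoidHom ≤ (S : Subgroup G) →
          ∃ n ∈ Subgroup.normalizer ((S : Subgroup G) : Set G), ∃ c ∈ Subgroup.centralizer (Q : Set G), g = n * c) := by
  set D := Cfsg.pPrimeCore p G with hD
  set L := Cfsg.pPrimePCore p G with hL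
  set N := Subgroup.normalizer ((S : Subgroup G) : Set G) with hN
  have hLn : L.Normal := pPrimePCore_normal' p
  have hDn : D.Normal := Cfsg.pPrimeCore_normal p G
  have hSN : (S : Subgroup G) ≤ N := Subgroup.le_normalizer
  constructor
  · intro htop
    -- S ⊔ D is normal
    have hSDn : ((S : Subgroup G) ⊔ D).Normal := by
      rw [← Subgroup.normalizer_eq_top_iff, eq_top_iff, ← htop]
      refine sup_le ?_ ((le_sup_right : D ≤ (S : Subgroup G) ⊔ D).trans Subgroup.le_normalizer)
      rw [Subgroup.le_normalizer_iff]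
      intro h hh k hk
      obtain ⟨s, hs, d, hd, rfl⟩ := Subgroup.mem_sup_of_normal_right.mp hk
      have h1 : h * (s * d) * h⁻¹ = (h * s * h⁻¹) * (h * d * h⁻¹) := by group
      rw [h1]
      refine Subgroup.mul_mem_sup ?_ (hDn.conj_mem d hd h)
      exact ((Subgroup.mem_normalizer_iff.mp hh) s).mp hs
    have hSL : (S : Subgroup G) ≤ L := mem_pPrimePCore_of_normal_sup (S : Subgroup G) S.isPGroup' hSDn
    -- quotient
    let π := QuotientGroup.mk' D
    have hπ : Function.Surjective π := QuotientGroup.mk'_surjective D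
    let T : Sylow p (G ⧸ D) := S.mapSurjective hπ
    have hTcoe : (T : Subgroup (G ⧸ D)) = (S : Subgroup G).map π := Sylow.coe_mapSurjective hπ S
    have hTn : (T : Subgroup (G ⧸ D)).Normal := by
      rw [hTcoe]
      have : (S : Subgroup G).map π = ((S : Subgroup G) ⊔ D).map π := by
        rw [Subgroup.map_sup]
        have : D.map π = ⊥ := by
          rw [Subgroup.map_eq_bot_iff, QuotientGroup.ker_mk']
        rw [this, sup_bot_eq]
      rw [this]
      exact hSDn.map π hπ
    have hcore : Cfsg.pPrimeCore p (G ⧸ D) = ⊥ := pPrimeCore_quotient_eq_bot p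
    have hCT : Subgroup.centralizer ((T : Subgroup (G ⧸ D)) : Set (G ⧸ D)) ≤ T :=
      centralizer_normal_sylow_le T hcore
    have hCS : Subgroup.centralizer ((S : Subgroup G) : Set G) ≤ L := by
      intro c hc
      rw [mem_pPrimePCore_iff]
      have h1 : π c ∈ Subgroup.centralizer ((T : Subgroup (G ⧸ D)) : Set (G ⧸ D)) := by
        rw [Subgroup.mem_centralizer_iff]
        intro t ht
        have ht' : t ∈ (S : Subgroup G).map π := by rw [← hTcoe]; exact ht
        obtain ⟨s, hs, rfl⟩ := Subgroup.mem_map.mp ht'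
        rw [Subgroup.mem_centralizer_iff] at hc
        rw [← map_mul, ← map_mul, hc s hs]
      have h2 : π c ∈ (T : Subgroup (G ⧸ D)) := hCT h1
      exact le_pCore (T : Subgroup (G ⧸ D)) T.isPGroup' h2
    refine ⟨?_, ?_⟩
    · -- p-constrained
      intro P c hc
      have hP'p : IsPGroup p ((P : Subgroup L).map L.subtype) := P.isPGroup'.map _
      have hidx : ¬ p ∣ ((P : Subgroup L).map L.subtype).relIndex L := by
        have : ((P : Subgroup L).map L.subtype).relIndex L = (P : Subgroup L).index := by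
          unfold Subgroup.relIndex Subgroup.subgroupOf
          rw [Subgroup.comap_map_eq_self_of_injective L.subtype_injective]
        rw [this]
        exact P.not_dvd_index
      obtain ⟨m, hmL, hm⟩ := exists_conj_le_of_not_dvd_relIndex L ((P : Subgroup L).map L.subtype)
        (S : Subgroup G) hP'p hidx hSL S.isPGroup'
      -- m⁻¹ c m centralizes S
      have h1 : m⁻¹ * c * m ∈ Subgroup.centralizer ((S : Subgroup G) : Set G) := by
        rw [Subgroup.mem_centralizer_iff]
        intro s hs
        rw [Subgroup.mem_centralizer_iff] at hc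
        have h2 := hc (m * s * m⁻¹) (hm s hs)
        calc s * (m⁻¹ * c * m) = m⁻¹ * ((m * s * m⁻¹) * c) * m := by group
          _ = m⁻¹ * (c * (m * s * m⁻¹)) * m := by rw [h2]
          _ = m⁻¹ * c * m * s := by group
      have h3 : m⁻¹ * c * m ∈ L := hCS h1
      have h4 : m * (m⁻¹ * c * m) * m⁻¹ ∈ L := L.mul_mem (L.mul_mem hmL h3) (L.inv_mem hmL)
      have h5 : m * (m⁻¹ * c * m) * m⁻¹ = c := by group
      rwa [h5] at h4
    · -- control of fusion
      intro Q hQS g hg
      have hgmem : g ∈ N ⊔ D := by rw [htop]; exact Subgroup.mem_top g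
      obtain ⟨n, hn, d, hd, rfl⟩ := Subgroup.mem_sup_of_normal_right.mp hgmem
      refine ⟨n, hn, d, ?_, rfl⟩
      rw [Subgroup.mem_centralizer_iff]
      intro x hx
      have h1 : (n * d) * x * (n * d)⁻¹ ∈ (S : Subgroup G) := by
        apply hg
        exact Subgroup.mem_map.mpr ⟨x, hx, rfl⟩
      have h2 : d * x * d⁻¹ ∈ (S : Subgroup G) := by
        have h3 : (n * d) * x * (n * d)⁻¹ = n * (d * x * d⁻¹) * n⁻¹ := by group
        rw [h3] at h1
        exact ((Subgroup.mem_normalizer_iff.mp hn) _).mpr h1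
      have h4 : d * x * d⁻¹ * x⁻¹ ∈ (S : Subgroup G) :=
        (S : Subgroup G).mul_mem h2 ((S : Subgroup G).inv_mem (hQS hx))
      have h5 : d * x * d⁻¹ * x⁻¹ ∈ D := by
        have h6 : d * x * d⁻¹ * x⁻¹ = d * (x * d⁻¹ * x⁻¹) := by group
        rw [h6]
        exact D.mul_mem hd (hDn.conj_mem d⁻¹ (D.inv_mem hd) x)
      have h7 : d * x * d⁻¹ * x⁻¹ = 1 :=
        eq_one_of_mem_pGroup_of_mem_pPrimeCore (S : Subgroup G) S.isPGroup' h4 h5
      have h8 : d * x * d⁻¹ = x := mul_inv_eq_one.mp h7
      calc x * d = (d * x * d⁻¹) * d := by rw [h8]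
        _ = d * x := by group
  · rintro ⟨hcon, hctrl⟩
    rw [eq_top_iff]
    intro g _
    set H : Subgroup G := (S : Subgroup G) ⊓ L with hH
    have hfr : Subgroup.normalizer (H : Set G) ⊔ L = ⊤ := frattini_inf S L
    have hgmem : g ∈ Subgroup.normalizer (H : Set G) ⊔ L := by rw [hfr]; exact Subgroup.mem_top g
    obtain ⟨n, hn, l, hl, rfl⟩ := Subgroup.mem_sup_of_normal_right.mp hgmem
    -- n = n₁ c with n₁ ∈ N, c ∈ C(H)
    have hHS : H ≤ (S : Subgroup G) := inf_le_left
    have hnH : H.map (MulAut.conj n).toMonoidHom ≤ (S : Subgroup G) := by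
      have : H.map (MulAut.conj n).toMonoidHom = H := Subgroup.mem_normalizer_iff_map_conj_eq.mp hn
      rw [this]; exact hHS
    obtain ⟨n₁, hn₁, c, hc, rfl⟩ := hctrl H hHS n hnH
    -- c ∈ L by p-constraint
    obtain ⟨Q, hQ⟩ := exists_sylow_of_normal S L
    have hcL : c ∈ L := by
      have := hcon Q
      rw [hQ] at this
      exact this hc
    have hclL : c * l ∈ L := L.mul_mem hcL hl
    obtain ⟨s, hs, d, hd, hsd⟩ := pPrimePCore_decomp S hclL
    have h1 : n₁ * c * l = (n₁ * s) * d := by
      calc n₁ * c * l = n₁ * (c * l) := by group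
        _ = n₁ * (s * d) := by rw [hsd]
        _ = (n₁ * s) * d := by group
    rw [h1]
    exact Subgroup.mul_mem_sup (N.mul_mem hn₁ (hSN (hHS hs))) hd

end Cfsg.Agent.S1948
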