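import Cfsg.Statements.S1949
import Cfsg.Agent.Lib.Helper41.CritSub
import Cfsg.Agent.Lib.Helper41.Crit
import Cfsg.Agent.Lib.Helper2.PNilp

set_option autoImplicit false
open Cfsg

namespace Cfsg.Agent.S1949

open Cfsg.Agent.Lib.Helper41
open scoped commutatorElement

/-- Let P be a finite p-group and G a group of automorphisms of P containing the inner automorphisms. Then there is a G-invariant subgroup D of P, contained in the subgroup generated by the elements x⁻¹α(x) with x in P and α in O^p(G), of exponent dividing p when p is odd and dividing 4 when p = 2, with [D, P] ≤ Z(D), such that every automorphism in G of order prime to p that fixes D elementwise is the identity; moreover every maximal abelian subgroup A of D is normal in P and every automorphism in G fixing A elementwise has p-power order. -/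
theorem result {P : Type*} [Group P] [Finite P] {p : ℕ} [Fact p.Prime] (hP : IsPGroup p P)
    (G : Subgroup (MulAut P)) (hG : Cfsg.Inn P ≤ G) :
    ∃ D : Subgroup P,
      (∀ α ∈ G, D.map α.toMonoidHom = D) ∧
      D ≤ Subgroup.closure {y : P | ∃ α ∈ Cfsg.pResidual p ↥G, ∃ x : P, y = x⁻¹ * (α : MulAut P) x} ∧
      (∀ d ∈ D, d ^ p = 1 ∨ (p = 2 ∧ d ^ 4 = 1)) ∧
      ⁅D, (⊤ : Subgroup P)⁆ ≤ D ⊓ Subgroup.centralizer (D : Set P) ∧
      (∀ α ∈ G, (orderOf α).Coprime p → (∀ d ∈ D, α d = d) → α = 1) ∧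
      ∀ A : Subgroup P, A ≤ D → IsMulCommutative ↥A →
        (∀ B : Subgroup P, A ≤ B → B ≤ D → IsMulCommutative ↥B → B = A) →
        A.Normal ∧ ∀ α ∈ G, (∀ a ∈ A, α a = a) → ∃ k : ℕ, orderOf α = p ^ k := by
  have hp : p.Prime := Fact.out
  obtain ⟨C, M, hCinv, hMinv, hMC, hCM, hQ, hC2, hC3, hfaith⟩ := exists_critical hP G hG
  have hCn : C.Normal := normal_of_inv G hG C hCinv
  have hMn : M.Normal := normal_of_inv G hG M hMinv
  obtain ⟨n, hn⟩ : ∃ n : ℕ, n = if p = 2 then 4 else p := ⟨_, rfl⟩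
  have hpn : ∃ j, n * (n - 1) / 2 = p * j := by
    by_cases h2 : p = 2
    · refine ⟨3, ?_⟩; rw [hn, if_pos h2, h2]
    · refine ⟨(p - 1) / 2, ?_⟩
      rw [hn, if_neg h2]
      obtain ⟨k, hk⟩ := hp.odd_of_ne_two h2
      exact Nat.mul_div_assoc p (by omega : 2 ∣ p - 1)
  have hcomm_pow : ∀ x ∈ C, ∀ y ∈ C, ∀ c, y * x = x * y * c → c ∈ M ∧ c ^ p = 1 := by
    intro x hx y hy c hc
    have hcM : c ∈ M := by
      have e : c = y⁻¹ * ⁅x⁻¹, y⁆ * y⁻¹⁻¹ := by
        have e1 : c = (x * y)⁻¹ * (y * x) := by rw [hc]; group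
        rw [e1, commutatorElement_def]; group
      rw [e]
      exact hMn.conj_mem _ (hC2 x⁻¹ (C.inv_mem hx) y) y⁻¹
    refine ⟨hcM, ?_⟩
    have hcy : Commute c y := (Subgroup.mem_centralizer_iff.1 (hCM hy)) c hcM
    have h1 := pow_mul_comm_central x y c hc hcy p
    have h2 : y ^ p * x = x * y ^ p := (Subgroup.mem_centralizer_iff.1 (hCM hx)) (y ^ p) (hC3 y hy)
    rw [h2] at h1
    have h3 : x * y ^ p * 1 = x * y ^ p * c ^ p := by rw [mul_one]; exact h1
    exact (mul_left_cancel h3).symm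
  have hpow_mul : ∀ x ∈ C, ∀ y ∈ C, (x * y) ^ n = x ^ n * y ^ n := by
    intro x hx y hy
    obtain ⟨hcM, hcp⟩ := hcomm_pow x hx y hy ((x * y)⁻¹ * (y * x)) (by group)
    have hcx : Commute ((x * y)⁻¹ * (y * x)) x :=
      (Subgroup.mem_centralizer_iff.1 (hCM hx)) _ hcM
    have hcy : Commute ((x * y)⁻¹ * (y * x)) y :=
      (Subgroup.mem_centralizer_iff.1 (hCM hy)) _ hcM
    have h1 := mul_pow_central x y _ (by group) hcx hcy n
    obtain ⟨j, hj⟩ := hpn
    rw [h1, hj, pow_mul, hcp, one_pow, mul_one]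
  have hC₁C : Subgroup.closure {y : P | ∃ α ∈ Cfsg.pResidual p ↥G, ∃ x ∈ C,
      y = x⁻¹ * (α : MulAut P) x} ≤ C := by
    rw [Subgroup.closure_le]
    rintro _ ⟨α, _, x, hx, rfl⟩
    exact C.mul_mem (C.inv_mem hx) (hCinv _ α.2 x hx)
  have hC₁le : Subgroup.closure {y : P | ∃ α ∈ Cfsg.pResidual p ↥G, ∃ x ∈ C,
      y = x⁻¹ * (α : MulAut P) x} ≤
      Subgroup.closure {y : P | ∃ α ∈ Cfsg.pResidual p ↥G, ∃ x : P,
        y = x⁻¹ * (α : MulAut P) x} := by
    apply Subgroup.closure_mono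
    rintro _ ⟨α, hα, x, _, rfl⟩
    exact ⟨α, hα, x, rfl⟩
  have hC₁inv : ∀ β ∈ G, ∀ x ∈ Subgroup.closure {y : P | ∃ α ∈ Cfsg.pResidual p ↥G, ∃ x ∈ C,
      y = x⁻¹ * (α : MulAut P) x}, β x ∈ Subgroup.closure {y : P | ∃ α ∈ Cfsg.pResidual p ↥G,
      ∃ x ∈ C, y = x⁻¹ * (α : MulAut P) x} := by
    intro β hβ x hx
    have hmap : (Subgroup.closure {y : P | ∃ α ∈ Cfsg.pResidual p ↥G, ∃ x ∈ C,
        y = x⁻¹ * (α : MulAut P) x}).map β.toMonoidHom ≤
        Subgroup.closure {y : P | ∃ α ∈ Cfsg.pResidual p ↥G, ∃ x ∈ C,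
        y = x⁻¹ * (α : MulAut P) x} := by
      rw [MonoidHom.map_closure, Subgroup.closure_le]
      rintro _ ⟨_, ⟨α, hα, x, hx, rfl⟩, rfl⟩
      apply Subgroup.subset_closure
      have hKn : (Cfsg.pResidual p ↥G).Normal := Cfsg.Agent.Lib.Helper2.pResidual_normal p
      refine ⟨⟨β, hβ⟩ * α * ⟨β, hβ⟩⁻¹, hKn.conj_mem α hα ⟨β, hβ⟩, β x, hCinv β hβ x hx, ?_⟩
      show β (x⁻¹ * (α : MulAut P) x) = (β x)⁻¹ * ((β * (α : MulAut P) * β⁻¹) (β x))
      rw [map_mul, map_inv, MulAut.mul_apply, MulAut.mul_apply, MulAut.inv_apply_self]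
    exact hmap (Subgroup.mem_map_of_mem _ hx)
  let D : Subgroup P :=
    { carrier := {x | x ∈ Subgroup.closure {y : P | ∃ α ∈ Cfsg.pResidual p ↥G, ∃ x ∈ C,
        y = x⁻¹ * (α : MulAut P) x} ∧ x ^ n = 1}
      one_mem' := ⟨Subgroup.one_mem _, one_pow _⟩
      mul_mem' := by
        rintro a b ⟨ha, han⟩ ⟨hb, hbn⟩
        exact ⟨Subgroup.mul_mem _ ha hb,
          by rw [hpow_mul a (hC₁C ha) b (hC₁C hb), han, hbn, one_mul]⟩
      inv_mem' := by
        rintro a ⟨ha, han⟩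
        exact ⟨Subgroup.inv_mem _ ha, by rw [inv_pow, han, inv_one]⟩ }
  have hDinv : ∀ α ∈ G, ∀ x ∈ D, α x ∈ D := by
    intro α hα x hx
    exact ⟨hC₁inv α hα x hx.1, by rw [← map_pow, hx.2, map_one]⟩
  have hDn : D.Normal := normal_of_inv G hG D hDinv
  have hDC : D ≤ C := fun x hx => hC₁C hx.1
  have hfour : ⁅D, (⊤ : Subgroup P)⁆ ≤ D ⊓ Subgroup.centralizer (D : Set P) := by
    rw [Subgroup.commutator_le]
    intro d hd g _
    refine Subgroup.mem_inf.2 ⟨?_, ?_⟩
    · rw [commutatorElement_def]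
      have e : d * g * d⁻¹ * g⁻¹ = d * (g * d⁻¹ * g⁻¹) := by group
      rw [e]; exact D.mul_mem hd (hDn.conj_mem _ (D.inv_mem hd) g)
    · have h1 : ⁅d, g⁆ ∈ M := hC2 d (hDC hd) g
      have h2 : M ≤ Subgroup.centralizer (C : Set P) := by
        intro m hm
        rw [Subgroup.mem_centralizer_iff]
        intro c hc
        exact ((Subgroup.mem_centralizer_iff.1 (hCM hc)) m hm).symm
      exact Subgroup.centralizer_le hDC (h2 h1)
  have hfive : ∀ α ∈ G, (orderOf α).Coprime p → (∀ d ∈ D, α d = d) → α = 1 := by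
    intro α hα hcop hfix
    apply hfaith α hα hcop
    have hC₁fix : ∀ x ∈ Subgroup.closure {y : P | ∃ α ∈ Cfsg.pResidual p ↥G, ∃ x ∈ C,
        y = x⁻¹ * (α : MulAut P) x}, α x = x := by
      apply Cfsg.Agent.Lib.Helper90.aut_fix_of_fix_small α hcop hn
        (Nat.card (Subgroup.closure {y : P | ∃ α ∈ Cfsg.pResidual p ↥G, ∃ x ∈ C,
        y = x⁻¹ * (α : MulAut P) x})) _ le_rfl inferInstance (hP.to_subgroup _) (hC₁inv α hα)
      · intro x _; rw [pow_orderOf_eq_one]; rfl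
      · intro x hx hxn; exact hfix x ⟨hx, hxn⟩
    intro c hc
    obtain ⟨k, hk⟩ := hP (c⁻¹ * α c)
    apply Cfsg.Agent.Lib.Helper90.aut_fix_of_fix_comm α hcop c ?_ ?_ hk
    · apply hC₁fix
      apply Subgroup.subset_closure
      refine ⟨⟨α, hα⟩, ?_, c, hc, rfl⟩
      apply Subgroup.subset_closure
      show Nat.Coprime (orderOf (⟨α, hα⟩ : ↥G)) p
      rw [← Subgroup.orderOf_coe]
      exact hcop
    · rw [pow_orderOf_eq_one]; rfl
  refine ⟨D, ?_, ?_, ?_, hfour, hfive, ?_⟩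
  · intro α hα
    apply le_antisymm
    · rintro _ ⟨x, hx, rfl⟩; exact hDinv α hα x hx
    · intro x hx
      exact ⟨α⁻¹ x, hDinv α⁻¹ (G.inv_mem hα) x hx, MulAut.apply_inv_self P α x⟩
  · exact fun x hx => hC₁le hx.1
  · intro d hd
    by_cases h2 : p = 2
    · right
      refine ⟨h2, ?_⟩
      have h0 := hd.2
      rw [hn, if_pos h2] at h0
      exact h0
    · left
      have h0 := hd.2
      rw [hn, if_neg h2] at h0
      exact h0
  · intro A hAD hAc hAmax
    have hself : ∀ x ∈ D, (∀ a ∈ A, x * a = a * x) → x ∈ A := by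
      intro x hx hxa
      have hBc : IsMulCommutative ↥(Subgroup.closure ((A : Set P) ∪ {x})) := by
        apply Subgroup.isMulCommutative_closure
        rintro a (ha | ha) b (hb | hb)
        · exact congrArg Subtype.val (hAc.is_comm.comm ⟨a, ha⟩ ⟨b, hb⟩)
        · rw [Set.mem_singleton_iff] at hb; rw [hb]; exact (hxa a ha).symm
        · rw [Set.mem_singleton_iff] at ha; rw [ha]; exact hxa b hb
        · rw [Set.mem_singleton_iff] at ha hb; rw [ha, hb]
      have hAB : A ≤ Subgroup.closure ((A : Set P) ∪ {x}) :=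
        fun a ha => Subgroup.subset_closure (Or.inl ha)
      have hBD : Subgroup.closure ((A : Set P) ∪ {x}) ≤ D := by
        rw [Subgroup.closure_le]
        rintro a (ha | ha)
        · exact hAD ha
        · rw [Set.mem_singleton_iff] at ha; rw [ha]; exact hx
      have hBA := hAmax _ hAB hBD hBc
      rw [← hBA]; exact Subgroup.subset_closure (Or.inr rfl)
    have hAn : A.Normal := by
      constructor
      intro a ha g
      have h1 : ⁅a, g⁆ ∈ D ⊓ Subgroup.centralizer (D : Set P) :=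
        hfour (Subgroup.commutator_mem_commutator (hAD ha) (Subgroup.mem_top g))
      have h2 : ⁅a, g⁆ ∈ A := by
        apply hself _ (Subgroup.mem_inf.1 h1).1
        intro a' ha'
        exact ((Subgroup.mem_centralizer_iff.1 (Subgroup.mem_inf.1 h1).2) a' (hAD ha')).symm
      have e : g * a * g⁻¹ = (⁅a, g⁆)⁻¹ * a := by rw [commutatorElement_def]; group
      rw [e]; exact A.mul_mem (A.inv_mem h2) ha
    refine ⟨hAn, ?_⟩
    intro α hα hfixA
    have hn0 : orderOf α ≠ 0 := (orderOf_pos α).ne'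
    obtain ⟨e, m, hm, hem⟩ := Nat.exists_eq_pow_mul_and_not_dvd hn0 p hp.ne_one
    have hpe : p ^ e ≠ 0 := (pow_pos hp.pos e).ne'
    have hβo : orderOf (α ^ p ^ e) = m := by
      rw [orderOf_pow' α hpe, hem, Nat.gcd_eq_right (dvd_mul_right _ _)]
      exact Nat.mul_div_cancel_left m (pow_pos hp.pos e)
    have hβcop : (orderOf (α ^ p ^ e)).Coprime p := by
      rw [hβo]; exact ((Nat.Prime.coprime_iff_not_dvd hp).2 hm).symm
    have hβG : α ^ p ^ e ∈ G := G.pow_mem hα _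
    have hβA : ∀ a ∈ A, (α ^ p ^ e) a = a := by
      intro a ha
      have h0 : ∀ k : ℕ, (α ^ k) a = a := by
        intro k
        induction k with
        | zero => simp
        | succ k ih => rw [pow_succ, MulAut.mul_apply, hfixA a ha, ih]
      exact h0 _
    have hβ1 : α ^ p ^ e = 1 := by
      apply hfive _ hβG hβcop
      intro d hd
      obtain ⟨k, hk⟩ := hP (d⁻¹ * (α ^ p ^ e) d)
      apply Cfsg.Agent.Lib.Helper90.aut_fix_of_fix_comm (α ^ p ^ e) hβcop d ?_ ?_ hk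
      · apply hβA
        apply hself _ (D.mul_mem (D.inv_mem hd) (hDinv _ hβG d hd))
        intro a ha
        have h1 : d * a * d⁻¹ ∈ A := hAn.conj_mem a ha d
        have h2 := hβA _ h1
        rw [map_mul, map_mul, map_inv, hβA a ha] at h2
        have h3 : (α ^ p ^ e) d * a = d * a * d⁻¹ * (α ^ p ^ e) d := by rw [← h2]; group
        calc d⁻¹ * (α ^ p ^ e) d * a = d⁻¹ * ((α ^ p ^ e) d * a) := by group
          _ = d⁻¹ * (d * a * d⁻¹ * (α ^ p ^ e) d) := by rw [h3]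
          _ = a * (d⁻¹ * (α ^ p ^ e) d) := by group
      · rw [pow_orderOf_eq_one]; rfl
    refine ⟨e, ?_⟩
    rw [hβ1, orderOf_one] at hβo
    rw [hem, ← hβo, mul_one]

end Cfsg.Agent.S1949
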