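import Cfsg.Statements.S1952
import Mathlib

set_option autoImplicit false
open Cfsg

namespace Cfsg.Agent.S1952

open Polynomial in
theorem poly_key {p : ℕ} [Fact p.Prime] {V : Type*} [AddCommGroup V] [Module (ZMod p) V]
    (σ : Module.End (ZMod p) V) (hσ : σ ^ p = 1) (W : Submodule (ZMod p) V) (hW : ∀ w ∈ W, σ w ∈ W)
    (x : V) (hx : (∑ i ∈ Finset.range p, σ ^ i) x ∉ W)
    (g : Polynomial (ZMod p)) (hg : g ≠ 0) (hdeg : g.natDegree < p) :
    Polynomial.aeval σ g x ∉ W := by
  intro hmem
  have hp : p.Prime := Fact.out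
  have hpow : ∀ n : ℕ, ∀ w ∈ W, (σ ^ n) w ∈ W := by
    intro n
    induction n with
    | zero => intro w hw; simpa using hw
    | succ n ih => intro w hw; rw [pow_succ, Module.End.mul_apply]; exact ih _ (hW w hw)
  have hinv : ∀ q : (ZMod p)[X], ∀ w ∈ W, aeval σ q w ∈ W := by
    intro q
    induction q using Polynomial.induction_on' with
    | add q₁ q₂ h₁ h₂ =>
      intro w hw
      rw [map_add, LinearMap.add_apply]
      exact W.add_mem (h₁ w hw) (h₂ w hw)
    | monomial n a =>
      intro w hw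
      rw [aeval_monomial]
      simp only [Module.End.mul_apply, Module.algebraMap_end_apply]
      exact W.smul_mem a (hpow n w hw)
  obtain ⟨h, hgh, hnd⟩ := exists_eq_pow_rootMultiplicity_mul_and_not_dvd g hg 1
  set k := rootMultiplicity 1 g with hk
  have hh0 : h ≠ 0 := by
    rintro rfl
    rw [mul_zero] at hgh
    exact hg hgh
  have hkp : k < p := by
    have h1 : g.natDegree = k + h.natDegree := by
      conv_lhs => rw [hgh]
      rw [natDegree_mul (pow_ne_zero _ (X_sub_C_ne_zero 1)) hh0, natDegree_pow, natDegree_X_sub_C,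
        mul_one]
    omega
  have hc : h.eval 1 ≠ 0 := fun h0 => hnd (dvd_iff_isRoot.mpr h0)
  obtain ⟨h₁, hh₁⟩ : X - C 1 ∣ h - C (h.eval 1) := X_sub_C_dvd_sub_C_eval
  have e1 : (X - C (1 : ZMod p)) ^ p = X ^ p - 1 := by
    rw [sub_pow_char, ← C_pow, one_pow, C_1]
  have e2 : (X - C (1 : ZMod p)) ^ (p - 1) = ∑ i ∈ Finset.range p, X ^ i := by
    have h3 : (X - C (1 : ZMod p)) ^ (p - 1) * (X - C 1) = (∑ i ∈ Finset.range p, X ^ i) * (X - C 1) := by
      calc (X - C (1 : ZMod p)) ^ (p - 1) * (X - C 1) = (X - C 1) ^ p := by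
            rw [← pow_succ, Nat.sub_add_cancel hp.one_le]
        _ = X ^ p - 1 := e1
        _ = (∑ i ∈ Finset.range p, X ^ i) * (X - 1) := (geom_sum_mul X p).symm
        _ = (∑ i ∈ Finset.range p, X ^ i) * (X - C 1) := by rw [C_1]
    exact mul_right_cancel₀ (X_sub_C_ne_zero 1) h3
  have e3 : (X - C (1 : ZMod p)) ^ (p - 1 - k) * g
      = C (h.eval 1) * ∑ i ∈ Finset.range p, X ^ i + (X ^ p - 1) * h₁ := by
    have h4 : h = C (h.eval 1) + (X - C 1) * h₁ := by rw [← hh₁]; ring
    calc (X - C (1 : ZMod p)) ^ (p - 1 - k) * g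
        = (X - C 1) ^ (p - 1 - k) * ((X - C 1) ^ k * h) := by rw [← hgh]
      _ = (X - C 1) ^ (p - 1) * h := by
          rw [← mul_assoc, ← pow_add]
          congr 2
          omega
      _ = (X - C 1) ^ (p - 1) * (C (h.eval 1) + (X - C 1) * h₁) := by rw [← h4]
      _ = C (h.eval 1) * (X - C 1) ^ (p - 1) + (X - C 1) ^ (p - 1 + 1) * h₁ := by ring
      _ = C (h.eval 1) * ∑ i ∈ Finset.range p, X ^ i + (X ^ p - 1) * h₁ := by
          rw [Nat.sub_add_cancel hp.one_le, e2, e1]
  have e4 := congrArg (fun q => aeval σ q x) e3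
  simp only [map_mul, map_add, map_sub, map_pow, aeval_X, aeval_C, map_sum, map_one, hσ, sub_self,
    zero_mul, add_zero, Module.End.mul_apply, Module.algebraMap_end_apply] at e4
  have h5 : (aeval σ ((X - C (1 : ZMod p)) ^ (p - 1 - k))) (aeval σ g x) ∈ W := hinv _ _ hmem
  apply hx
  have h6 : h.eval 1 • (∑ i ∈ Finset.range p, σ ^ i) x ∈ W := by
    rw [← e4]
    simpa [map_pow, map_sub, aeval_X, aeval_C] using h5
  have h7 := W.smul_mem (h.eval 1)⁻¹ h6
  rwa [smul_smul, inv_mul_cancel₀ hc, one_smul] at h7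

open Polynomial in
theorem module_count {p : ℕ} [Fact p.Prime] {V : Type*} [AddCommGroup V] [Module (ZMod p) V] [Finite V]
    (σ : Module.End (ZMod p) V) (hσ : σ ^ p = 1) (W : Submodule (ZMod p) V) (hW : ∀ w ∈ W, σ w ∈ W)
    (x : V) (hx : (∑ i ∈ Finset.range p, σ ^ i) x ∉ W) :
    p ^ p * Nat.card W ≤ Nat.card V := by
  have hp : p.Prime := Fact.out
  let poly : (Fin p → ZMod p) → (ZMod p)[X] := fun e => ∑ i : Fin p, C (e i) * X ^ (i : ℕ)
  have hcoeff : ∀ (e : Fin p → ZMod p) (j : Fin p), (poly e).coeff (j : ℕ) = e j := by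
    intro e j
    simp only [poly, finsetSum_coeff, coeff_C_mul_X_pow]
    rw [Finset.sum_eq_single j]
    · simp
    · intro b _ hb
      rw [if_neg]
      intro h
      exact hb (Fin.ext h.symm)
    · intro h; exact absurd (Finset.mem_univ j) h
  have hsub : ∀ e e' : Fin p → ZMod p, poly e - poly e' = poly (e - e') := by
    intro e e'
    simp only [poly, ← Finset.sum_sub_distrib]
    refine Finset.sum_congr rfl (fun i _ => ?_)
    rw [Pi.sub_apply, C_sub, sub_mul]
  let L : (Fin p → ZMod p) → V ⧸ W := fun e => Submodule.Quotient.mk (aeval σ (poly e) x)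
  have hL : Function.Injective L := by
    intro e e' hee
    by_contra hne
    have h1 : aeval σ (poly e) x - aeval σ (poly e') x ∈ W := (Submodule.Quotient.eq W).mp hee
    have h2 : aeval σ (poly (e - e')) x ∈ W := by
      rw [← hsub, map_sub, LinearMap.sub_apply]; exact h1
    have hg : poly (e - e') ≠ 0 := by
      intro h0
      apply hne
      funext j
      have := hcoeff (e - e') j
      rw [h0, coeff_zero, Pi.sub_apply] at this
      exact sub_eq_zero.mp this.symm
    have hdeg : (poly (e - e')).natDegree < p := by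
      rw [natDegree_lt_iff_degree_lt hg]
      exact degree_sum_fin_lt _
    exact poly_key σ hσ W hW x hx _ hg hdeg h2
  have : Finite (V ⧸ W) := Finite.of_surjective _ (Submodule.Quotient.mk_surjective W)
  have h3 := Nat.card_le_card_of_injective L hL
  rw [Nat.card_fun, Nat.card_zmod, Nat.card_eq_fintype_card, Fintype.card_fin] at h3
  rw [Submodule.card_eq_card_quotient_mul_card W]
  calc p ^ p * Nat.card W = Nat.card W * p ^ p := mul_comm _ _
    _ ≤ Nat.card W * Nat.card (V ⧸ W) := Nat.mul_le_mul_left _ h3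

theorem group_count {p : ℕ} [Fact p.Prime] {M : Type*} [CommGroup M] [Finite M] (hM : ∀ a : M, a ^ p = 1)
    (σ : M →* M) (hσ : ∀ a : M, σ^[p] a = a) (C : Subgroup M) (hC : ∀ c ∈ C, σ c ∈ C)
    (x : M) (hx : ∏ i ∈ Finset.range p, σ^[i] x ∉ C) :
    p ^ p * Nat.card C ≤ Nat.card M := by
  have : Module (ZMod p) (Additive M) := AddCommGroup.zmodModule (n := p) (fun v => by
    show Additive.ofMul ((Additive.toMul v) ^ p) = 0
    rw [hM]; rfl)
  let σ' : Module.End (ZMod p) (Additive M) := (MonoidHom.toAdditive σ).toZModLinearMap p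
  have hσ'app : ∀ v : Additive M, σ' v = Additive.ofMul (σ (Additive.toMul v)) := fun v => rfl
  have hσ'iter : ∀ (n : ℕ) (v : Additive M), (σ' ^ n) v = Additive.ofMul (σ^[n] (Additive.toMul v)) := by
    intro n
    induction n with
    | zero => intro v; simp
    | succ n ih =>
      intro v
      rw [pow_succ, Module.End.mul_apply, ih, hσ'app, Function.iterate_succ_apply]
      rfl
  have hσ' : σ' ^ p = 1 := by
    ext v
    rw [hσ'iter, hσ]
    rfl
  let W : Submodule (ZMod p) (Additive M) := AddSubgroup.toZModSubmodule p (Subgroup.toAddSubgroup C)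
  have hWmem : ∀ v : Additive M, v ∈ W ↔ Additive.toMul v ∈ C := fun v => Iff.rfl
  have hW : ∀ w ∈ W, σ' w ∈ W := by
    intro w hw
    rw [hWmem] at hw ⊢
    exact hC _ hw
  have hx' : (∑ i ∈ Finset.range p, σ' ^ i) (Additive.ofMul x) ∉ W := by
    rw [hWmem, LinearMap.sum_apply]
    have : ∑ i ∈ Finset.range p, (σ' ^ i) (Additive.ofMul x)
        = Additive.ofMul (∏ i ∈ Finset.range p, σ^[i] x) := by
      rw [ofMul_prod]
      exact Finset.sum_congr rfl (fun i _ => hσ'iter i _)
    rw [this]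
    exact hx
  have h1 := module_count σ' hσ' W hW (Additive.ofMul x) hx'
  have h2 : Nat.card W = Nat.card C :=
    Nat.card_congr (Equiv.subtypeEquiv Additive.toMul (fun v => Iff.rfl))
  have h3 : Nat.card (Additive M) = Nat.card M := Nat.card_congr Additive.toMul
  rw [h2, h3] at h1
  exact h1


theorem exists_index_p_avoiding {p : ℕ} [Fact p.Prime] {M : Type*} [CommGroup M] [Finite M]
    (hM : ∀ a : M, a ^ p = 1) (z : M) (hz : z ≠ 1) :
    ∃ B : Subgroup M, z ∉ B ∧ B.index = p := by
  have hp : p.Prime := Fact.out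
  have key : ∀ a c : M, c ∈ Subgroup.zpowers a → c ≠ 1 → a ∈ Subgroup.zpowers c := by
    intro a c hc hc1
    have ha1 : a ≠ 1 := by
      rintro rfl
      rw [Subgroup.zpowers_one_eq_bot, Subgroup.mem_bot] at hc
      exact hc1 hc
    have hoa : orderOf a = p := orderOf_eq_prime (hM a) ha1
    have hcard : Nat.card (Subgroup.zpowers a) = p := by rw [Nat.card_zpowers, hoa]
    have hoc : orderOf c = p := orderOf_eq_prime (hM c) hc1
    have hle : Subgroup.zpowers c ≤ Subgroup.zpowers a := by
      rw [Subgroup.zpowers_le]; exact hc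
    have heq : Subgroup.zpowers c = Subgroup.zpowers a := by
      apply Subgroup.eq_of_le_of_card_ge hle
      rw [hcard, Nat.card_zpowers, hoc]
    rw [heq]
    exact Subgroup.mem_zpowers a
  obtain ⟨B, hB⟩ := Set.Finite.exists_maximal (s := {B : Subgroup M | z ∉ B}) (Set.toFinite _)
    ⟨⊥, by simpa using hz⟩
  have hzB : z ∉ B := hB.prop
  have hmax : ∀ B' : Subgroup M, B ≤ B' → z ∉ B' → B' ≤ B := fun B' hle hz' => hB.le_of_ge hz' hle
  refine ⟨B, hzB, ?_⟩
  have hsup : B ⊔ Subgroup.zpowers z = ⊤ := by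
    rw [eq_top_iff]
    intro a _
    by_cases ha : a ∈ B
    · exact Subgroup.mem_sup_left ha
    · have h1 : z ∈ B ⊔ Subgroup.zpowers a := by
        by_contra h
        exact ha (hmax _ le_sup_left h (Subgroup.mem_sup_right (Subgroup.mem_zpowers a)))
      obtain ⟨b, hb, c, hc, hbc⟩ := Subgroup.mem_sup.mp h1
      have hc1 : c ≠ 1 := by
        rintro rfl
        rw [mul_one] at hbc
        exact hzB (hbc ▸ hb)
      have h2 := key a c hc hc1
      have h3 : c ∈ B ⊔ Subgroup.zpowers z := by
        have : c = b⁻¹ * z := by rw [← hbc]; group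
        rw [this]
        exact Subgroup.mul_mem _ (Subgroup.mem_sup_left (B.inv_mem hb))
          (Subgroup.mem_sup_right (Subgroup.mem_zpowers z))
      exact (Subgroup.zpowers_le.mpr h3) h2
  have hinf : B ⊓ Subgroup.zpowers z = ⊥ := by
    rw [eq_bot_iff]
    intro c hc
    rw [Subgroup.mem_bot]
    by_contra hc1
    have h1 := key z c (Subgroup.mem_inf.mp hc).2 hc1
    exact hzB ((Subgroup.zpowers_le.mpr (Subgroup.mem_inf.mp hc).1) h1)
  rw [← Subgroup.relIndex_top_right, ← hsup, Subgroup.relIndex_sup_left, ← Subgroup.inf_relIndex_right,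
    hinf, Subgroup.relIndex_bot_left, Nat.card_zpowers]
  exact orderOf_eq_prime (hM z) hz

theorem abelian_side {p : ℕ} [Fact p.Prime] {M : Type*} [CommGroup M] [Finite M]
    (hM : ∀ a : M, a ^ p = 1) (σ : M →* M) (hσ : ∀ a : M, σ^[p] a = a) (x : M)
    (hx : ∏ i ∈ Finset.range p, σ^[i] x ≠ 1) :
    ∃ B : Subgroup M, B.index = p ∧
      ∀ C : Subgroup M, C ≤ B → (∀ c ∈ C, σ c ∈ C) → p ^ p * Nat.card C ≤ Nat.card M := by
  obtain ⟨B, hzB, hB⟩ := exists_index_p_avoiding hM _ hx
  exact ⟨B, hB, fun C hCB hC => group_count hM σ hσ C hC x (fun h => hzB (hCB h))⟩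


/-- Let P be a finite p-group with a normal elementary abelian subgroup A of index p, and let x ∈ A and y ∈ P with y outside A. If the product of the p conjugates y^(-i) x y^i (i = 0, …, p−1) is not the identity, then the wreath product Z_p ≀ Z_p, realised as a Sylow p-subgroup of the symmetric group of degree p², is a homomorphic image of P. -/
theorem result {P : Type*} [Group P] [Finite P] {p : ℕ} [Fact p.Prime] (hP : IsPGroup p P) (A : Subgroup P) [A.Normal]
    (hA : Cfsg.IsElementaryAbelian p A) (hidx : A.index = p) (x y : P) (hx : x ∈ A) (hy : y ∉ A)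
    (hprod : ((List.range p).map (fun i => (y ^ i)⁻¹ * x * y ^ i)).prod ≠ 1) :
    ∃ (Q : Sylow p (Equiv.Perm (Fin (p ^ 2)))) (f : P →* ↥(Q : Subgroup (Equiv.Perm (Fin (p ^ 2))))), Function.Surjective f := by
  classical
  have hp : p.Prime := Fact.out
  have hcomm : ∀ a b : A, a * b = b * a := fun a b => hA.1.is_comm.comm a b
  let : CommGroup A := { (inferInstance : Group A) with mul_comm := hcomm }
  have hM : ∀ a : A, a ^ p = 1 := fun a => Subtype.ext (by simpa using hA.2 a a.2)
  let σ : A →* A := (MulAut.conjNormal (y⁻¹) : MulAut A).toMonoidHom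
  have hσval : ∀ a : A, ((σ a : A) : P) = y⁻¹ * a * y := by
    intro a
    show ((MulAut.conjNormal y⁻¹ a : A) : P) = _
    rw [MulAut.conjNormal_apply, inv_inv]
  have hσiter : ∀ (n : ℕ) (a : A), ((σ^[n] a : A) : P) = (y ^ n)⁻¹ * a * y ^ n := by
    intro n
    induction n with
    | zero => intro a; simp
    | succ n ih =>
      intro a
      rw [Function.iterate_succ_apply', hσval, ih, pow_succ, mul_inv_rev]
      simp only [mul_assoc]
  have hyp : y ^ p ∈ A := by
    have := A.pow_index_mem y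
    rwa [hidx] at this
  have hσp : ∀ a : A, σ^[p] a = a := by
    intro a
    apply Subtype.ext
    rw [hσiter]
    have h1 := congrArg Subtype.val (hcomm ⟨y ^ p, hyp⟩ a)
    simp only [Subgroup.coe_mul] at h1
    rw [mul_assoc, ← h1, inv_mul_cancel_left]
  have hz : ∀ n : ℕ, ((∏ i ∈ Finset.range n, σ^[i] ⟨x, hx⟩ : A) : P)
      = ((List.range n).map (fun i => (y ^ i)⁻¹ * x * y ^ i)).prod := by
    intro n
    induction n with
    | zero => simp
    | succ n ih =>
      rw [Finset.prod_range_succ, Subgroup.coe_mul, ih, hσiter, List.range_succ, List.map_append,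
        List.prod_append]
      simp
  have hz1 : ∏ i ∈ Finset.range p, σ^[i] (⟨x, hx⟩ : A) ≠ 1 := by
    intro h
    apply hprod
    rw [← hz p, h]
    rfl
  obtain ⟨B', hB'idx, hB'⟩ := abelian_side hM σ hσp ⟨x, hx⟩ hz1
  set B : Subgroup P := B'.map A.subtype with hBdef
  have hBA : B ≤ A := by
    rintro _ ⟨b, _, rfl⟩
    exact b.2
  have hBidx : B.index = p ^ 2 := by
    rw [hBdef, Subgroup.index_map_subtype, hB'idx, hidx, pow_two]
  set N : Subgroup P := B.normalCore with hNdef
  have hNB : N ≤ B := Subgroup.normalCore_le B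
  have hNn : N.Normal := Subgroup.normalCore_normal B
  have hcount : p ^ p * Nat.card N ≤ Nat.card A := by
    have h1 := hB' (N.subgroupOf A) ?_ ?_
    · rwa [Nat.card_congr (Subgroup.subgroupOfEquivOfLe (hNB.trans hBA)).toEquiv] at h1
    · intro c hc
      rw [Subgroup.mem_subgroupOf] at hc
      obtain ⟨b, hb, hbc⟩ := hNB hc
      have : b = c := Subtype.ext hbc
      rwa [← this]
    · intro c hc
      rw [Subgroup.mem_subgroupOf] at hc ⊢
      rw [hσval]
      have := hNn.conj_mem _ hc y⁻¹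
      rwa [inv_inv] at this
  have hcardP : Nat.card P = Nat.card A * p := by
    rw [← A.card_mul_index, hidx]
  have hNidx : p ^ (p + 1) ≤ N.index := by
    have h1 := N.card_mul_index
    have hNpos : 0 < Nat.card N := Nat.card_pos
    have h2 : Nat.card N * p ^ (p + 1) ≤ Nat.card N * N.index := by
      rw [h1, hcardP, pow_succ]
      calc Nat.card N * (p ^ p * p) = (p ^ p * Nat.card N) * p := by ring
        _ ≤ Nat.card A * p := Nat.mul_le_mul_right _ hcount
    exact Nat.le_of_mul_le_mul_left h2 hNpos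
  have hcardq : Nat.card (P ⧸ B) = p ^ 2 := by
    rw [← Subgroup.index_eq_card, hBidx]
  let e : (P ⧸ B) ≃ Fin (p ^ 2) := Finite.equivFinOfCardEq hcardq
  let ψ : P →* Equiv.Perm (Fin (p ^ 2)) :=
    (e.permCongrHom : Equiv.Perm (P ⧸ B) ≃* Equiv.Perm (Fin (p ^ 2))).toMonoidHom.comp
      (MulAction.toPermHom P (P ⧸ B))
  have hker : ψ.ker = N := by
    rw [hNdef, Subgroup.normalCore_eq_ker]
    ext g
    rw [MonoidHom.mem_ker, MonoidHom.mem_ker]
    show e.permCongrHom (MulAction.toPermHom P (P ⧸ B) g) = 1 ↔ _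
    exact map_eq_one_iff _ e.permCongrHom.injective
  have hrange : p ^ (p + 1) ≤ Nat.card ψ.range := by
    rw [← Subgroup.index_ker, hker]
    exact hNidx
  have hrp : IsPGroup p ψ.range := hP.of_surjective ψ.rangeRestrict ψ.rangeRestrict_surjective
  obtain ⟨Q, hQ⟩ := hrp.exists_le_sylow
  have hQcard : Nat.card Q = p ^ (p + 1) := by
    rw [Q.card_eq_multiplicity, Nat.card_perm, Nat.card_eq_fintype_card, Fintype.card_fin, pow_two,
      Nat.factorization_factorial_mul hp]
    have : (p).factorial.factorization p = 1 := by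
      have := Nat.factorization_factorial_mul (n := 1) hp
      rw [mul_one] at this
      rw [this]; simp
    rw [this, add_comm]
  have heq : ψ.range = Q := Subgroup.eq_of_le_of_card_ge hQ (by rw [hQcard]; exact hrange)
  refine ⟨Q, ψ.codRestrict (Q : Subgroup _) (fun g => hQ (MonoidHom.mem_range.mpr ⟨g, rfl⟩)), ?_⟩
  rintro ⟨q, hq⟩
  have : q ∈ ψ.range := by rw [heq]; exact hq
  obtain ⟨g, rfl⟩ := this
  exact ⟨g, rfl⟩

end Cfsg.Agent.S1952
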