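import Cfsg.Statements.S2010
import Cfsg.Agent.Lib.Helper14.S4Free
import Cfsg.Agent.Lib.Helper14.ClassTwo
import Cfsg.Agent.Lib.Helper75.PSolvOfSolv
import Cfsg.Agent.Lib.Helper31.PComp
import Cfsg.Agent.Lib.Helper2.NPC

set_option autoImplicit false
open Cfsg

namespace Cfsg.Agent.S2010

open Cfsg.Agent.Lib.Helper14

universe u

/-- the core case: trivial `2'`-core. -/
theorem core_aux : ∀ (n : ℕ) (G : Type u) [Group G] [Finite G], Nat.card G = n →
    Group.IsSolvable G → pPrimeCore 2 G = ⊥ → ¬ Involves (Equiv.Perm (Fin 4)) G →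
    ∀ S : Sylow 2 G, Subgroup.lowerCentralSeries (S : Subgroup G) 2 = ⊥ →
    Subgroup.normalizer (thompsonSubgroupOf 2 (S : Subgroup G) : Set G) = ⊤ := by
  intro n
  induction n using Nat.strong_induction_on with
  | _ n ih =>
  intro G _ _ hn hsolv hO hS4 S hcl
  haveI : Fact (Nat.Prime 2) := ⟨Nat.prime_two⟩
  by_contra hM
  obtain ⟨J, hJ⟩ : ∃ J : Subgroup G, J = thompsonSubgroupOf 2 (S : Subgroup G) := ⟨_, rfl⟩
  rw [← hJ] at hM
  have hsep : IsPSolvable 2 G :=
    Cfsg.Agent.Lib.Helper75.PSS.isPSolvable_of_isSolvable 2 Nat.prime_two G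
  have hCQ : Subgroup.centralizer (pCore 2 G : Set G) ≤ pCore 2 G :=
    Cfsg.Agent.Lib.Helper40.centralizer_pCore_le hsep hO
  obtain ⟨Q, hQ⟩ : ∃ Q : Subgroup G, Q = pCore 2 G := ⟨_, rfl⟩
  rw [← hQ] at hCQ
  haveI hQn : Q.Normal := by rw [hQ]; exact Cfsg.Agent.Lib.Helper40.pCore_normal' 2
  have hQS : Q ≤ (S : Subgroup G) := by rw [hQ]; exact pCore_le_sylow S
  have hQ2 : IsPGroup 2 Q := by rw [hQ]; exact pCore_isPGroup
  have hNS : Subgroup.normalizer ((S : Subgroup G) : Set G) ≤ Subgroup.normalizer (J : Set G) := by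
    rw [hJ]; exact normalizer_le_normalizer_thompsonOf _
  have hSM : (S : Subgroup G) ≤ Subgroup.normalizer (J : Set G) :=
    Subgroup.le_normalizer.trans hNS
  -- Step 1: proper subgroups containing `S` normalize `J`
  have step1 : ∀ H : Subgroup G, (S : Subgroup G) ≤ H → H ≠ ⊤ →
      H ≤ Subgroup.normalizer (J : Set G) := by
    intro H hSH hHtop
    have hlt : Nat.card ↥H < n := by
      rw [← hn]
      by_contra hge
      exact hHtop (Subgroup.eq_top_of_le_card H (not_lt.mp hge))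
    have hOH : pPrimeCore 2 ↥H = ⊥ :=
      pPrimeCore_subgroup_eq_bot (by rw [← hQ]; exact hCQ) H (by rw [← hQ]; exact hQS.trans hSH)
    have hS4H : ¬ Involves (Equiv.Perm (Fin 4)) ↥H :=
      fun h => hS4 (Cfsg.Agent.Lib.Helper2.involves_of_subgroup H h)
    have hclH : Subgroup.lowerCentralSeries ((S.subtype hSH : Sylow 2 ↥H) : Subgroup ↥H) 2 = ⊥ := by
      rw [Sylow.coe_subtype]
      show ⁅⁅(S : Subgroup G).subgroupOf H, (S : Subgroup G).subgroupOf H⁆,
        (S : Subgroup G).subgroupOf H⁆ = ⊥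
      apply (Subgroup.map_eq_bot_iff_of_injective _ H.subtype_injective).mp
      rw [Subgroup.map_commutator, Subgroup.map_commutator, Subgroup.map_subgroupOf_eq_of_le hSH]
      exact hcl
    have key := ih (Nat.card ↥H) hlt ↥H rfl inferInstance hOH hS4H (S.subtype hSH) hclH
    rw [Sylow.coe_subtype] at key
    rw [hJ]
    exact le_normalizer_thompsonOf_of_subgroup _ H hSH key
  -- Step 3: the normal closure of `S` is `G`
  have step3 : Subgroup.normalClosure ((S : Subgroup G) : Set G) = ⊤ := by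
    by_contra hL
    have hSL : (S : Subgroup G) ≤ Subgroup.normalClosure ((S : Subgroup G) : Set G) :=
      Subgroup.le_normalClosure
    have hLM := step1 _ hSL hL
    have hfr := normalizer_inf_sup_eq_top (Subgroup.normalClosure ((S : Subgroup G) : Set G)) S
    rw [inf_eq_left.mpr hSL] at hfr
    apply hM
    rw [eq_top_iff, ← hfr]
    exact sup_le hNS hLM
  -- Step 4: `G` acts trivially on `Q / N`
  obtain ⟨Z, hZ⟩ : ∃ Z : Subgroup G, Z = (S : Subgroup G) ⊓
    Subgroup.centralizer ((S : Subgroup G) : Set G) := ⟨_, rfl⟩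
  have hZS : Z ≤ (S : Subgroup G) := by rw [hZ]; exact inf_le_left
  have hZc : Z ≤ Subgroup.centralizer ((S : Subgroup G) : Set G) := by rw [hZ]; exact inf_le_right
  have hZQ : Z ≤ Q := fun z hz => hCQ (Subgroup.centralizer_le hQS (hZc hz))
  have hZcomm : ∀ x ∈ Z, ∀ y ∈ Z, x * y = y * x := by
    intro x hx y hy
    exact (Subgroup.mem_centralizer_iff.mp (hZc hx) y (hZS hy)).symm
  obtain ⟨N, hN⟩ : ∃ N : Subgroup G, N = Subgroup.normalClosure (Z : Set G) := ⟨_, rfl⟩
  haveI hNn : N.Normal := by rw [hN]; exact Subgroup.normalClosure_normal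
  have hZN : Z ≤ N := by rw [hN]; exact Subgroup.le_normalClosure
  haveI hCn : (Subgroup.centralizer (Q : Set G)).Normal := Subgroup.normal_centralizer
  have hNZQ : N ≤ Q ⊓ Subgroup.centralizer (Q : Set G) := by
    rw [hN]
    apply Subgroup.normalClosure_le_normal
    intro z hz
    exact Subgroup.mem_inf.mpr ⟨hZQ hz, Subgroup.centralizer_le hQS (hZc hz)⟩
  have hNQ : N ≤ Q := hNZQ.trans inf_le_left
  have hNcomm : ∀ x ∈ N, ∀ y ∈ N, x * y = y * x := by
    intro x hx y hy
    exact (Subgroup.mem_centralizer_iff.mp (hNZQ hx).2 y (hNQ hy)).symm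
  have hSS : ⁅(S : Subgroup G), (S : Subgroup G)⁆ ≤ Z := by
    rw [hZ]
    refine le_inf ?_ ?_
    · rw [Subgroup.commutator_le]
      intro a ha b hb
      rw [commutatorElement_def]
      exact Subgroup.mul_mem _ (Subgroup.mul_mem _ (Subgroup.mul_mem _ ha hb)
        (Subgroup.inv_mem _ ha)) (Subgroup.inv_mem _ hb)
    · exact Subgroup.commutator_eq_bot_iff_le_centralizer.mp hcl
  have hstab : stabSub Q N = ⊤ := by
    rw [eq_top_iff, ← step3]
    apply Subgroup.normalClosure_le_normal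
    intro s hs
    rw [SetLike.mem_coe, mem_stabSub]
    intro q hq
    apply hZN
    apply hSS
    rw [← commutatorElement_def]
    exact Subgroup.commutator_mem_commutator hs (hQS hq)
  have hQN : ∀ g : G, ∀ q ∈ Q, g * q * g⁻¹ * q⁻¹ ∈ N := by
    intro g
    have : g ∈ stabSub Q N := by rw [hstab]; exact Subgroup.mem_top g
    exact mem_stabSub.mp this
  -- Step 5: `Ω₁(Z(S))` is central
  have hTF : IsThompsonFactorizable 2 G := by
    by_contra h
    exact hS4 (involves_S4_of_not_factorizable hsep hO h)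
  obtain ⟨Z₁, hZ₁⟩ : ∃ Z₁ : Subgroup G, Z₁ = omegaOne 2 ((S : Subgroup G) ⊓
    Subgroup.centralizer ((S : Subgroup G) : Set G)) := ⟨_, rfl⟩
  have hZ₁Z : Z₁ ≤ Z := by rw [hZ₁, hZ]; exact omegaOne_le _
  have hZ₁c : ∀ z ∈ Z₁, ∀ g : G, g * z = z * g := by
    by_contra hcon
    have hC1 : Subgroup.centralizer (Z₁ : Set G) ≠ ⊤ := by
      intro h
      apply hcon
      intro z hz g
      have : g ∈ Subgroup.centralizer (Z₁ : Set G) := by rw [h]; exact Subgroup.mem_top g
      exact (Subgroup.mem_centralizer_iff.mp this z hz).symm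
    have hSC1 : (S : Subgroup G) ≤ Subgroup.centralizer (Z₁ : Set G) := by
      intro s hs
      rw [Subgroup.mem_centralizer_iff]
      intro z hz
      exact (Subgroup.mem_centralizer_iff.mp (hZc (hZ₁Z hz)) s hs).symm
    have hC1M := step1 _ hSC1 hC1
    apply hM
    rw [eq_top_iff]
    intro g _
    obtain ⟨x, hx, c, hc, m, hm, rfl⟩ := hTF S g
    rw [hO, Subgroup.mem_bot] at hx
    subst hx
    rw [one_mul]
    rw [← hZ₁] at hc
    rw [← hJ] at hm
    exact Subgroup.mul_mem _ (hC1M hc) hm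
  have hZ₁2 : ∀ z ∈ Z₁, z ^ 2 = 1 := by
    rw [hZ₁]
    have := ea_omegaOne_of_comm (p := 2) (H := (S : Subgroup G) ⊓
      Subgroup.centralizer ((S : Subgroup G) : Set G)) (by rw [← hZ]; exact hZcomm)
    exact this.2
  haveI hZ₁n : Z₁.Normal := normal_of_central Z₁ hZ₁c
  haveI hV₁n : (omegaTwo N hNcomm).Normal := omegaTwo_normal N hNcomm
  have hstab2 : stabSub (omegaTwo N hNcomm) Z₁ = ⊤ := by
    rw [eq_top_iff, ← step3]
    apply Subgroup.normalClosure_le_normal
    intro s hs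
    rw [SetLike.mem_coe, mem_stabSub]
    intro v hv
    rw [mem_omegaTwo] at hv
    rw [hZ₁, ← hZ]
    apply mem_omegaOne_of_mem
    · apply hSS
      rw [← commutatorElement_def]
      exact Subgroup.commutator_mem_commutator hs (hQS (hNQ hv.1))
    · have h1 : s * v * s⁻¹ ∈ N := hNn.conj_mem v hv.1 s
      have h2 : Commute (s * v * s⁻¹) v⁻¹ := hNcomm _ h1 _ (N.inv_mem hv.1)
      rw [h2.mul_pow, conj_pow, hv.2, inv_pow, hv.2]
      group
  -- Step 6: elements of odd order are trivial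
  have hodd : ∀ x : G, Odd (orderOf x) → x = 1 := by
    intro x hx
    have hcop2 : ∀ k : ℕ, (orderOf x).Coprime (2 ^ k) := fun k =>
      Nat.Coprime.pow_right k (Nat.coprime_two_right.mpr hx)
    have h6a : ∀ v ∈ N, v ^ 2 = 1 → x * v = v * x := by
      intro v hvN hv2
      have hcZ : x * v * x⁻¹ * v⁻¹ ∈ Z₁ := by
        have : x ∈ stabSub (omegaTwo N hNcomm) Z₁ := by rw [hstab2]; exact Subgroup.mem_top x
        exact mem_stabSub.mp this v (mem_omegaTwo.mpr ⟨hvN, hv2⟩)
      have h := hcop2 1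
      rw [pow_one] at h
      exact comm_of_stab_coprime (hZ₁c _ hcZ x) (hZ₁2 _ hcZ) h
    have h6b : ∀ k : ℕ, ∀ v ∈ N, v ^ 2 ^ k = 1 → x * v = v * x := by
      intro k
      induction k with
      | zero =>
        intro v _ hv
        rw [pow_zero, pow_one] at hv
        rw [hv, mul_one, one_mul]
      | succ k ihk =>
        intro v hvN hv
        have hv2 : x * v ^ 2 = v ^ 2 * x :=
          ihk (v ^ 2) (N.pow_mem hvN 2) (by rw [← pow_mul, ← pow_succ']; exact hv)
        have hcN : x * v * x⁻¹ * v⁻¹ ∈ N := N.mul_mem (hNn.conj_mem v hvN x) (N.inv_mem hvN)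
        have hc2 : (x * v * x⁻¹ * v⁻¹) ^ 2 = 1 := by
          have h2 : Commute (x * v * x⁻¹) v⁻¹ := hNcomm _ (hNn.conj_mem v hvN x) _ (N.inv_mem hvN)
          rw [h2.mul_pow, conj_pow, hv2, mul_inv_cancel_right, inv_pow, mul_inv_cancel]
        have h := hcop2 1
        rw [pow_one] at h
        exact comm_of_stab_coprime (h6a _ hcN hc2) hc2 h
    have h6b' : ∀ v ∈ N, x * v = v * x := by
      intro v hv
      obtain ⟨k, hk⟩ := hQ2 ⟨v, hNQ hv⟩
      exact h6b k v hv (congrArg Subtype.val hk)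
    have h6c : ∀ q ∈ Q, x * q = q * x := by
      intro q hq
      have hcN := hQN x q hq
      obtain ⟨k, hk⟩ := hQ2 ⟨_, hNQ hcN⟩
      exact comm_of_stab_coprime (h6b' _ hcN) (congrArg Subtype.val hk) (hcop2 k)
    have hxQ : x ∈ Q := by
      apply hCQ
      rw [Subgroup.mem_centralizer_iff]
      intro q hq
      exact (h6c q hq).symm
    obtain ⟨k, hk⟩ := hQ2 ⟨x, hxQ⟩
    have hk' : x ^ 2 ^ k = 1 := congrArg Subtype.val hk
    have h1 : orderOf x ∣ 2 ^ k := orderOf_dvd_of_pow_eq_one hk'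
    have h2 : orderOf x = 1 := by
      have h3 := Nat.dvd_gcd (dvd_refl (orderOf x)) h1
      rw [hcop2 k] at h3
      exact Nat.dvd_one.mp h3
    exact orderOf_eq_one_iff.mp h2
  -- `G` is a `2`-group
  have hG2 : IsPGroup 2 G := by
    intro g
    obtain ⟨k, m', hm', hm⟩ := Nat.exists_eq_pow_mul_and_not_dvd (orderOf_pos g).ne' 2 (by norm_num)
    refine ⟨k, ?_⟩
    apply hodd
    have h1 : orderOf (g ^ 2 ^ k) = m' := by
      rw [orderOf_pow_of_dvd (by positivity) ⟨m', hm⟩, hm, Nat.mul_div_cancel_left _ (by positivity)]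
    rw [h1]
    exact Nat.odd_iff.mpr (by omega)
  have hStop : (S : Subgroup G) = ⊤ := by
    obtain ⟨j, hj⟩ := hG2.index (S : Subgroup G)
    have h1 := S.not_dvd_index
    rw [hj] at h1
    have hj0 : j = 0 := by
      by_contra h0
      exact h1 (dvd_pow_self 2 h0)
    rw [hj0, pow_zero] at hj
    exact Subgroup.index_eq_one.mp hj
  apply hM
  rw [eq_top_iff, ← hStop]
  exact hSM

/-- Let G be a finite solvable group with no section isomorphic to the symmetric group of degree 4, whose Sylow 2-subgroup S has nilpotency class at most 2. Then G = N_G(J_e(S)) · O_{2'}(G), where J_e(S) is the subgroup generated by the elementary abelian subgroups of S of largest order. -/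
theorem result {G : Type*} [Group G] [Finite G]
    [Group.IsSolvable G] (hS4 : ¬ Cfsg.Involves (Equiv.Perm (Fin 4)) G) (S : Sylow 2 G)
    (hcl : Subgroup.lowerCentralSeries (S : Subgroup G) 2 = ⊥) :
    Subgroup.normalizer ((Cfsg.thompsonSubgroupOf 2 (S : Subgroup G)) : Set G) ⊔ Cfsg.pPrimeCore 2 G = ⊤ := by
  haveI : Fact (Nat.Prime 2) := ⟨Nat.prime_two⟩
  obtain ⟨O, hOdef⟩ : ∃ O : Subgroup G, O = pPrimeCore 2 G := ⟨_, rfl⟩
  rw [← hOdef]
  haveI hOn : O.Normal := by rw [hOdef]; infer_instance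
  obtain ⟨π, hπ⟩ : ∃ π : G →* G ⧸ O, π = QuotientGroup.mk' O := ⟨_, rfl⟩
  have hsurj : Function.Surjective π := by rw [hπ]; exact QuotientGroup.mk'_surjective O
  have hcop : (Nat.card O).Coprime 2 := by rw [hOdef]; exact pPrimeCore_coprime
  obtain ⟨k, hk⟩ := IsPGroup.iff_card.mp S.isPGroup'
  have hcop' : (Nat.card O).Coprime (Nat.card (S : Subgroup G)) := by
    rw [hk]; exact Nat.Coprime.pow_right k hcop
  have hinj : ∀ s ∈ (S : Subgroup G), π s = 1 → s = 1 := by
    intro s hs h1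
    have hsO : s ∈ O := by
      rw [hπ, QuotientGroup.mk'_apply, QuotientGroup.eq_one_iff] at h1
      exact h1
    exact Cfsg.Agent.S0057.inf_triv hcop' hs hsO
  have hJmap : thompsonSubgroupOf 2 ((S : Subgroup G).map π) =
      (thompsonSubgroupOf 2 (S : Subgroup G)).map π :=
    Cfsg.Agent.S0609.thompsonOf_map π hinj
  have hObar : pPrimeCore 2 (G ⧸ O) = ⊥ := by
    subst hOdef
    exact Cfsg.Agent.Lib.Helper31.pPrimeCore_quotient_eq_bot 2
  have hS4bar : ¬ Involves (Equiv.Perm (Fin 4)) (G ⧸ O) :=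
    fun h => hS4 (Cfsg.Agent.Lib.Helper2.involves_of_quotient O h)
  have hclbar : Subgroup.lowerCentralSeries
      ((S.mapSurjective hsurj : Sylow 2 (G ⧸ O)) : Subgroup (G ⧸ O)) 2 = ⊥ := by
    rw [Sylow.coe_mapSurjective]
    show ⁅⁅(S : Subgroup G).map π, (S : Subgroup G).map π⁆, (S : Subgroup G).map π⁆ = ⊥
    rw [← Subgroup.map_commutator, ← Subgroup.map_commutator]
    have : ⁅⁅(S : Subgroup G), (S : Subgroup G)⁆, (S : Subgroup G)⁆ = ⊥ := hcl
    rw [this, Subgroup.map_bot]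
  have key := core_aux (Nat.card (G ⧸ O)) (G ⧸ O) rfl inferInstance hObar hS4bar
    (S.mapSurjective hsurj) hclbar
  rw [Sylow.coe_mapSurjective, hJmap] at key
  obtain ⟨J, hJ⟩ : ∃ J : Subgroup G, J = thompsonSubgroupOf 2 (S : Subgroup G) := ⟨_, rfl⟩
  rw [← hJ] at key ⊢
  have hJS : J ≤ (S : Subgroup G) := by rw [hJ]; exact thompsonOf_le _
  haveI hDn : (J ⊔ O).Normal := by
    have h1 : (J.map π).Normal := Subgroup.normalizer_eq_top_iff.mp key
    have h2 : J ⊔ O = (J.map π).comap π := by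
      rw [Subgroup.comap_map_eq, hπ, QuotientGroup.ker_mk']
    rw [h2]
    exact h1.comap π
  -- `J` is a Sylow subgroup of `J ⊔ O`
  have hJO : J ⊓ O = ⊥ := by
    rw [eq_bot_iff]
    intro x hx
    exact Subgroup.mem_bot.mpr
      (Cfsg.Agent.S0057.inf_triv hcop' (hJS (Subgroup.mem_inf.mp hx).1) (Subgroup.mem_inf.mp hx).2)
  have hJnO : J ≤ Subgroup.normalizer (O : Set G) := by
    rw [Subgroup.normalizer_eq_top_iff.mpr hOn]; exact le_top
  have h1 := card_sup_mul_card_inf hJnO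
  rw [hJO, Subgroup.card_bot, mul_one] at h1
  have h2 := card_mul_relIndex (le_sup_left : J ≤ J ⊔ O)
  have hrel : J.relIndex (J ⊔ O) = Nat.card O := by
    have hpos : 0 < Nat.card J := Nat.card_pos
    have : Nat.card J * J.relIndex (J ⊔ O) = Nat.card J * Nat.card O := by rw [h2, h1]
    exact Nat.eq_of_mul_eq_mul_left hpos this
  have hP1 : IsPGroup 2 (J.subgroupOf (J ⊔ O)) :=
    (S.isPGroup'.to_le hJS).comap_of_injective (J ⊔ O).subtype (J ⊔ O).subtype_injective
  have hP2 : ¬ 2 ∣ (J.subgroupOf (J ⊔ O)).index := by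
    show ¬ 2 ∣ J.relIndex (J ⊔ O)
    rw [hrel]
    intro hdvd
    have := Nat.Coprime.eq_one_of_dvd hcop.symm hdvd
    omega
  have hfr := Sylow.normalizer_sup_eq_top (hP1.toSylow hP2)
  rw [IsPGroup.toSylow_coe, Subgroup.map_subgroupOf_eq_of_le le_sup_left] at hfr
  rw [← sup_assoc, sup_eq_left.mpr Subgroup.le_normalizer] at hfr
  exact hfr

end Cfsg.Agent.S2010
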