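import Cfsg.Statements.S2015
import Cfsg.Agent.Lib.Helper42.Sec17

set_option autoImplicit false
open Cfsg

universe u

namespace Cfsg.Agent.S2015

open Cfsg.Agent.Lib.Helper42

theorem inducedFunctor_range {p : ℕ} [Fact p.Prime] {P G : Type u} [Group P] [Finite P]
    [Group G] (hP : IsPGroup p P) (ι : P →* G) (hι : Function.Injective ι) :
    Cfsg.inducedFunctor (G := G) Cfsg.kInfLower ι.range = (Cfsg.kInfLower P).map ι := by
  have h1 := inducedFunctor_map (isCharPFunctor_kInfLower p) ι (⊤ : Subgroup P)
    (hP.to_subgroup ⊤) hι.injOn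
  rw [← MonoidHom.range_eq_map] at h1
  rw [h1]
  congr 1
  have h2 := map_kInfLower (Subgroup.topEquiv : ↥(⊤ : Subgroup P) ≃* P)
  exact h2

/-- For p ≥ 5, every finite p-group P has a characteristic subgroup K containing Z(P), depending only on P, whose normalizer controls transfer wherever P is a Sylow subgroup: for every finite group G and every embedding ι of P onto a Sylow p-subgroup of G, the intersection of ι(P) with the derived subgroup of G equals its intersection with the derived subgroup of N_G(ι(K)). -/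
theorem result (p : ℕ) [Fact p.Prime] (hp : 5 ≤ p) (P : Type u) [Group P] [Finite P] (hP : IsPGroup p P) : ∃ K : Subgroup P, K.Characteristic ∧ Subgroup.center P ≤ K ∧ ∀ (G : Type u) [Group G] [Finite G] (ι : P →* G), Function.Injective ι → (∃ T : Sylow p G, (T : Subgroup G) = ι.range) → ι.range ⊓ commutator G = ι.range ⊓ (commutator ↥(Subgroup.normalizer ((K.map ι : Subgroup G) : Set G))).map (Subgroup.normalizer ((K.map ι : Subgroup G) : Set G)).subtype := by
  refine ⟨Cfsg.kInfLower P, ?_, (center_le_kInf hP).1, ?_⟩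
  · exact Subgroup.characteristic_iff_map_eq.2 (fun φ => map_kInfLower φ)
  · intro G _ _ ι hι ⟨T, hT⟩
    obtain ⟨T₀, -, hT₀p, hT₀i, hT₀eq⟩ := kInfLower_controlsTransfer hp G
    rw [top_inf_eq] at hT₀eq
    rw [Subgroup.relIndex_top_right] at hT₀i
    let T' : Sylow p G := IsPGroup.toSylow hT₀p hT₀i
    obtain ⟨g, hg⟩ := MulAction.exists_smul_eq G T' T
    have hgT : cj g T₀ = ι.range := by
      rw [← hT, ← hg, coe_smul_sylow]
      rfl
    have h1 := congrArg (cj g) hT₀eq
    rw [cj_inf, cj_inf, hgT] at h1
    have h2 : cj g ⁅(⊤ : Subgroup G), (⊤ : Subgroup G)⁆ = commutator G := by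
      show (⁅(⊤ : Subgroup G), (⊤ : Subgroup G)⁆).map (MulAut.conj g).toMonoidHom = commutator G
      rw [Subgroup.map_commutator, ← MonoidHom.range_eq_map,
        MonoidHom.range_eq_top.2 (MulAut.conj g).surjective]
      rfl
    have hfin : Finite T₀ := inferInstance
    have h3 : cj g (Cfsg.inducedFunctor (G := G) Cfsg.kInfLower T₀) =
        (Cfsg.kInfLower P).map ι := by
      have h4 := inducedFunctor_map (isCharPFunctor_kInfLower p) (MulAut.conj g).toMonoidHom T₀
        hT₀p (MulAut.conj g).injective.injOn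
      have h5 : T₀.map (MulAut.conj g).toMonoidHom = ι.range := hgT
      rw [h5, inducedFunctor_range hP ι hι] at h4
      exact h4.symm
    have h6 : cj g ⁅Subgroup.normalizer
        ((Cfsg.inducedFunctor (G := G) Cfsg.kInfLower T₀ : Subgroup G) : Set G),
        Subgroup.normalizer
        ((Cfsg.inducedFunctor (G := G) Cfsg.kInfLower T₀ : Subgroup G) : Set G)⁆ =
        ⁅Subgroup.normalizer (((Cfsg.kInfLower P).map ι : Subgroup G) : Set G),
          Subgroup.normalizer (((Cfsg.kInfLower P).map ι : Subgroup G) : Set G)⁆ := by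
      show (⁅Subgroup.normalizer
        ((Cfsg.inducedFunctor (G := G) Cfsg.kInfLower T₀ : Subgroup G) : Set G),
        Subgroup.normalizer
        ((Cfsg.inducedFunctor (G := G) Cfsg.kInfLower T₀ : Subgroup G) : Set G)⁆).map
          (MulAut.conj g).toMonoidHom = _
      rw [Subgroup.map_commutator]
      have h7 := normalizer_cj g (Cfsg.inducedFunctor (G := G) Cfsg.kInfLower T₀)
      rw [h3] at h7
      rw [h7]
    rw [h2, h6] at h1
    rw [h1, Subgroup.map_subtype_commutator]

end Cfsg.Agent.S2015
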