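import Cfsg.Statements.S2135
import Cfsg.Agent.Lib.Helper37.J3Fin
import Cfsg.Agent.Lib.Helper37.Inv.Glue
import Cfsg.Agent.Lib.Helper46.J3IV
import Cfsg.Agent.Lib.Helper46.J3IW
import Cfsg.Agent.Lib.Helper5.J3IS1
import Cfsg.Agent.Lib.Helper5.J3IS2
import Cfsg.Agent.Lib.Helper99.J3IS
import Cfsg.Agent.Lib.Helper43.J3IX

set_option autoImplicit false
open Cfsg

namespace Cfsg.Agent.S2135

/-- For any field with 4 elements and any element ω of it with ω² + ω + 1 = 0: in the Janko group J₃ (the group generated by explicit 9 × 9 matrices over that field built from ω, taken modulo its centre) all involutions are conjugate, and the centraliser C of an involution has a normal extraspecial subgroup Q of order 32 containing no elementary abelian subgroup of order 8, complemented in C, with C / Q isomorphic to the alternating group of degree 5 (shape 2^{1+4}_-:A₅). -/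
theorem result {F : Type*} [Field F] [Fintype F] (hF : Fintype.card F = 4) (ω : F) (hω : ω ^ 2 + ω + 1 = 0) : (∀ x y : Cfsg.Spor.J3 F ω, orderOf x = 2 → orderOf y = 2 → IsConj x y) ∧ ∃ t : Cfsg.Spor.J3 F ω, orderOf t = 2 ∧ ∃ (Q : Subgroup ↥(Subgroup.centralizer ({t} : Set (Cfsg.Spor.J3 F ω)))) (_ : Q.Normal), Cfsg.IsExtraspecial 2 Q ∧ Nat.card Q = 32 ∧ (∀ E : Subgroup Q, Cfsg.IsElementaryAbelian 2 E → Nat.card E ≤ 2 ^ 2) ∧ (∃ H : Subgroup ↥(Subgroup.centralizer ({t} : Set (Cfsg.Spor.J3 F ω))), Q.IsComplement' H) ∧ Nonempty (↥(Subgroup.centralizer ({t} : Set (Cfsg.Spor.J3 F ω))) ⧸ Q ≃* ↥(alternatingGroup (Fin 5))) := by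
  have h2 := Cfsg.Agent.Lib.Helper37.J3.two_eq_zero_of_card hF
  have hω' := Cfsg.Agent.Lib.Helper37.J3.om_sq_of h2 hω
  have hF4 := Cfsg.Agent.Lib.Helper37.J3.four_elems hF h2 hω'
  have hJ := Cfsg.Agent.Lib.Helper37.J3.card_J3 h2 hω' hF4
  have : Finite (Cfsg.Spor.J3 F ω) := Nat.finite_of_card_ne_zero (by rw [hJ]; norm_num)
  obtain ⟨x, hx, hxinj⟩ := Cfsg.Agent.Lib.Helper37.Inv.class_data h2 hω' hF4
  obtain ⟨q, h, hqt, hqmul, hqinj, hht, hhmul, hhinj, hnorm, hdisj, hA5, hinv⟩ :=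
    Cfsg.Agent.Lib.Helper37.Inv.inv_data h2 hω' hF4
  have hW := Cfsg.Agent.Lib.Helper46.J3IW.card_centralizer_le
    (Cfsg.Agent.Lib.Helper37.Inv.tJ h2 hω') 26163 x hx hxinj
  rw [hJ] at hW
  have hcard : Nat.card (Subgroup.centralizer
      ({Cfsg.Agent.Lib.Helper37.Inv.tJ h2 hω'} : Set (Cfsg.Spor.J3 F ω))) ≤ 1920 := by omega
  have hqm : ∀ i < 32, ∀ j < 32, Cfsg.Agent.Lib.Helper37.Inv.qm i j < 32 := by decide
  obtain ⟨hall, hC, hstruct⟩ := Cfsg.Agent.Lib.Helper99.J3IS.centralizer_structure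
    (Cfsg.Agent.Lib.Helper37.Inv.tJ h2 hω') Cfsg.Agent.Lib.Helper37.Inv.qm
    (fun P _ f => Cfsg.Agent.Lib.Helper43.J3IX.extra_of_table f)
    (fun G _ n hn f => Cfsg.Agent.Lib.Helper5.J3IS1.exists_subgroup_of_table n hn f)
    (fun C _ _ Q H => Cfsg.Agent.Lib.Helper5.J3IS2.split_structure Q H)
    hqm hcard q h hqt hqmul hqinj hht hhmul hhinj hnorm hdisj hA5
  have hodd : ¬ 2 ∣ (Subgroup.centralizer
      ({Cfsg.Agent.Lib.Helper37.Inv.tJ h2 hω'} : Set (Cfsg.Spor.J3 F ω))).index := by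
    have hi := Subgroup.card_mul_index (Subgroup.centralizer
      ({Cfsg.Agent.Lib.Helper37.Inv.tJ h2 hω'} : Set (Cfsg.Spor.J3 F ω)))
    rw [hC, hJ] at hi
    omega
  refine ⟨Cfsg.Agent.Lib.Helper46.J3IV.invol_conj_of_odd_index _ hodd ?_,
    Cfsg.Agent.Lib.Helper37.Inv.tJ h2 hω', Cfsg.Agent.Lib.Helper37.Inv.tJ_order h2 hω' hF4, hstruct⟩
  intro y hy hy2
  obtain ⟨i, hi, j, hj, rfl⟩ := hall y hy
  exact hinv i hi j hj hy2

end Cfsg.Agent.S2135
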