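import Cfsg.Statements.S2162

set_option autoImplicit false
open Cfsg

namespace Cfsg.Agent.S2162

open Module

/-- A basis adapted to a square-zero endomorphism. -/
theorem exists_adapted_basis {F V : Type*} [Field F] [AddCommGroup V] [Module F V] [FiniteDimensional F V]
    (N : V →ₗ[F] V) (hN : N ∘ₗ N = 0) (ℓ m : ℕ) (hℓ : finrank F (LinearMap.range N) = ℓ)
    (hm : ℓ + ℓ + m = finrank F V) :
    ∃ b : Basis (Fin ℓ ⊕ (Fin ℓ ⊕ Fin m)) F V,
      (∀ i, N (b (Sum.inl i)) = b (Sum.inr (Sum.inl i))) ∧ (∀ k, N (b (Sum.inr k)) = 0) := by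
  have hRK : LinearMap.range N ≤ LinearMap.ker N := by
    rintro x ⟨y, rfl⟩
    rw [LinearMap.mem_ker]
    have := congrArg (fun f => f y) hN
    simpa using this
  obtain ⟨W, hW⟩ := Submodule.exists_isCompl (LinearMap.ker N)
  let eWR : W ≃ₗ[F] LinearMap.range N :=
    ((LinearMap.ker N).quotientEquivOfIsCompl W hW).symm.trans N.quotKerEquivRange
  have eWR_apply : ∀ w : W, ((eWR w : LinearMap.range N) : V) = N w := by
    intro w
    simp [eWR]
  let R' : Submodule F (LinearMap.ker N) := Submodule.comap (LinearMap.ker N).subtype (LinearMap.range N)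
  obtain ⟨C, hC⟩ := Submodule.exists_isCompl R'
  let eR'R : R' ≃ₗ[F] LinearMap.range N := Submodule.comapSubtypeEquivOfLe hRK
  have hR' : finrank F R' = ℓ := by rw [LinearEquiv.finrank_eq eR'R, hℓ]
  have hK : ℓ + finrank F (LinearMap.ker N) = finrank F V := by
    rw [← hℓ]; exact LinearMap.finrank_range_add_finrank_ker N
  have hCm : finrank F C = m := by
    have := Submodule.finrank_add_eq_of_isCompl hC
    omega
  let bR : Basis (Fin ℓ) F (LinearMap.range N) := Module.finBasisOfFinrankEq F _ hℓ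
  let bW : Basis (Fin ℓ) F W := bR.map eWR.symm
  let bR' : Basis (Fin ℓ) F R' := bR.map eR'R.symm
  let bC : Basis (Fin m) F C := Module.finBasisOfFinrankEq F _ hCm
  let bK : Basis (Fin ℓ ⊕ Fin m) F (LinearMap.ker N) := (bR'.prod bC).map (Submodule.prodEquivOfIsCompl R' C hC)
  let b : Basis (Fin ℓ ⊕ (Fin ℓ ⊕ Fin m)) F V := (bW.prod bK).map (Submodule.prodEquivOfIsCompl W (LinearMap.ker N) hW.symm)
  have hb_inl : ∀ i, b (Sum.inl i) = (bW i : V) := by
    intro i
    simp [b, Basis.map_apply, Basis.prod_apply, Submodule.coe_prodEquivOfIsCompl']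
  have hb_inr : ∀ k, b (Sum.inr k) = ((bK k : LinearMap.ker N) : V) := by
    intro k
    simp [b, Basis.map_apply, Basis.prod_apply, Submodule.coe_prodEquivOfIsCompl']
  have hbK_inl : ∀ i, ((bK (Sum.inl i) : LinearMap.ker N) : V) = (bR i : V) := by
    intro i
    simp only [bK, bR', eR'R, Basis.map_apply, Basis.prod_apply, Submodule.coe_prodEquivOfIsCompl', Sum.elim_inl,
      Function.comp_apply, LinearMap.inl_apply, Submodule.coe_zero, add_zero, ZeroMemClass.coe_zero]
    have := Submodule.comapSubtypeEquivOfLe_apply_coe hRK ((Submodule.comapSubtypeEquivOfLe hRK).symm (bR i))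
    rw [LinearEquiv.apply_symm_apply] at this
    exact this.symm
  refine ⟨b, ?_, ?_⟩
  · intro i
    rw [hb_inl, hb_inr, hbK_inl, ← eWR_apply]
    simp [bW, Basis.map_apply]
  · intro k
    rw [hb_inr]
    exact (bK k).2

/-- Two square-zero endomorphisms of the same rank are conjugate, by a map of determinant one when
squares exist. -/
theorem exists_conj {F : Type*} [Field F] {n : ℕ} (hsq : ∀ x : F, IsSquare x)
    (Na Nb : (Fin n → F) →ₗ[F] (Fin n → F)) (ha : Na ∘ₗ Na = 0) (hb : Nb ∘ₗ Nb = 0)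
    (hr : finrank F (LinearMap.range Na) = finrank F (LinearMap.range Nb))
    (hpos : 0 < finrank F (LinearMap.range Na)) :
    ∃ T : (Fin n → F) →ₗ[F] (Fin n → F), LinearMap.det T = 1 ∧ T ∘ₗ Na = Nb ∘ₗ T := by
  obtain ⟨ℓ, hℓ⟩ : ∃ ℓ, finrank F (LinearMap.range Na) = ℓ := ⟨_, rfl⟩
  have hV : finrank F (Fin n → F) = n := by simp
  have h2ℓ : ℓ + ℓ ≤ n := by
    have hRK : LinearMap.range Na ≤ LinearMap.ker Na := by
      rintro x ⟨y, rfl⟩
      rw [LinearMap.mem_ker]
      have := congrArg (fun f => f y) ha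
      simpa using this
    have h1 := LinearMap.finrank_range_add_finrank_ker Na
    have h2 := Submodule.finrank_mono hRK
    omega
  obtain ⟨m, hm⟩ : ∃ m, ℓ + ℓ + m = n := ⟨n - (ℓ + ℓ), by omega⟩
  obtain ⟨ba, ha1, ha2⟩ := exists_adapted_basis Na ha ℓ m hℓ (by rw [hV]; exact hm)
  obtain ⟨bb, hb1, hb2⟩ := exists_adapted_basis Nb hb ℓ m (by rw [← hr]; exact hℓ) (by rw [hV]; exact hm)
  let e : (Fin n → F) ≃ₗ[F] (Fin n → F) := ba.equiv bb (Equiv.refl _)
  have he : ∀ i, e (ba i) = bb i := fun i => by simp [e]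
  have heN : (e : (Fin n → F) →ₗ[F] (Fin n → F)) ∘ₗ Na = Nb ∘ₗ (e : (Fin n → F) →ₗ[F] (Fin n → F)) := by
    apply ba.ext
    rintro (i | k)
    · simp only [LinearMap.comp_apply, LinearEquiv.coe_coe, ha1, he, hb1]
    · simp only [LinearMap.comp_apply, LinearEquiv.coe_coe, ha2, he, hb2, map_zero]
  have hdet : IsUnit (LinearMap.det (e : (Fin n → F) →ₗ[F] (Fin n → F))) := LinearEquiv.isUnit_det' e
  obtain ⟨μ, hμ⟩ := hsq (LinearMap.det (e : (Fin n → F) →ₗ[F] (Fin n → F)))⁻¹
  have hℓpos : 0 < ℓ := by rw [← hℓ]; exact hpos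
  let i0 : Fin ℓ := ⟨0, hℓpos⟩
  let z : Fin ℓ ⊕ (Fin ℓ ⊕ Fin m) → F := fun i =>
    match i with
    | Sum.inl i => if i = i0 then μ else 1
    | Sum.inr (Sum.inl i) => if i = i0 then μ else 1
    | Sum.inr (Sum.inr _) => 1
  let Z : (Fin n → F) →ₗ[F] (Fin n → F) := ba.constr F (fun i => z i • ba i)
  have hZ : ∀ i, Z (ba i) = z i • ba i := fun i => by simp [Z]
  have hZN : Z ∘ₗ Na = Na ∘ₗ Z := by
    apply ba.ext
    rintro (i | k)
    · simp only [LinearMap.comp_apply, ha1, hZ, map_smul]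
      rfl
    · simp only [LinearMap.comp_apply, ha2, hZ, map_smul, map_zero, smul_zero]
  have hZdet : LinearMap.det Z = μ * μ := by
    rw [← LinearMap.det_toMatrix ba]
    have hmat : LinearMap.toMatrix ba ba Z = Matrix.diagonal z := by
      ext i j
      rw [LinearMap.toMatrix_apply, hZ, Matrix.diagonal_apply]
      by_cases hij : j = i
      · subst hij; simp
      · have hij' : ¬ i = j := fun h => hij h.symm
        simp [hij, hij', Finsupp.single_apply]
    rw [hmat, Matrix.det_diagonal, Fintype.prod_sum_type, Fintype.prod_sum_type]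
    simp [z]
  refine ⟨(e : (Fin n → F) →ₗ[F] (Fin n → F)) ∘ₗ Z, ?_, ?_⟩
  · rw [LinearMap.det_comp, hZdet, ← hμ]
    exact mul_inv_cancel₀ hdet.ne_zero
  · rw [LinearMap.comp_assoc, hZN, ← LinearMap.comp_assoc, heN, LinearMap.comp_assoc]

theorem sq_zero_of_involution {F : Type*} [Field F] [CharP F 2] {n : ℕ} (A : Matrix (Fin n) (Fin n) F)
    (hA : A * A = 1) : (A - 1) * (A - 1) = 0 := by
  have h2 : A + A = 0 := by
    ext i j
    simp only [Matrix.add_apply, Matrix.zero_apply]
    exact CharTwo.add_self_eq_zero _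
  have : (A - 1) * (A - 1) = A * A - (A + A) + 1 := by
    rw [sub_mul, mul_sub, mul_sub]
    simp only [mul_one, one_mul]
    abel
  rw [this, hA, h2]
  simp only [sub_zero]
  ext i j
  simp only [Matrix.add_apply, Matrix.zero_apply]
  exact CharTwo.add_self_eq_zero _

/-- Conjugacy of involutions in the special linear group over a finite field of characteristic two, in dimension at least 3: two elements of order 2 of SL_n(F) are conjugate in SL_n(F) exactly when the matrices a − 1 and b − 1 have the same rank (the rank of a − 1 is the dimension of the commutator space [V, a]). -/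
theorem result {F : Type*} [Field F] [Fintype F] [CharP F 2] {n : ℕ} (hn : 3 ≤ n) (a b : Matrix.SpecialLinearGroup (Fin n) F) (ha : orderOf a = 2) (hb : orderOf b = 2) :
    IsConj a b ↔ ((a : Matrix (Fin n) (Fin n) F) - 1).rank = ((b : Matrix (Fin n) (Fin n) F) - 1).rank := by
  constructor
  · intro h
    rw [isConj_iff] at h
    obtain ⟨c, hc⟩ := h
    have hc' : (b : Matrix (Fin n) (Fin n) F) = (c : Matrix (Fin n) (Fin n) F) * a * (c⁻¹ : Matrix.SpecialLinearGroup (Fin n) F) := by
      rw [← hc]; simp only [Matrix.SpecialLinearGroup.coe_mul]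
    have hcc : (c : Matrix (Fin n) (Fin n) F) * (c⁻¹ : Matrix.SpecialLinearGroup (Fin n) F) = 1 := by
      rw [← Matrix.SpecialLinearGroup.coe_mul, mul_inv_cancel, Matrix.SpecialLinearGroup.coe_one]
    have h1 : (b : Matrix (Fin n) (Fin n) F) - 1 = (c : Matrix (Fin n) (Fin n) F) * ((a : Matrix (Fin n) (Fin n) F) - 1) * (c⁻¹ : Matrix.SpecialLinearGroup (Fin n) F) := by
      rw [hc', mul_sub, sub_mul, mul_one, hcc]
    rw [h1]
    have hu1 : IsUnit (c : Matrix (Fin n) (Fin n) F).det := by rw [c.det_coe]; exact isUnit_one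
    have hu2 : IsUnit ((c⁻¹ : Matrix.SpecialLinearGroup (Fin n) F) : Matrix (Fin n) (Fin n) F).det := by
      rw [(c⁻¹).det_coe]; exact isUnit_one
    rw [Matrix.rank_mul_eq_left_of_isUnit_det _ _ hu2, Matrix.rank_mul_eq_right_of_isUnit_det _ _ hu1]
  · intro hrank
    have hsq : ∀ x : F, IsSquare x := FiniteField.isSquare_of_char_two (CharP.ringChar_of_prime_eq_zero Nat.prime_two (CharTwo.two_eq_zero)) 
    have haa : (a : Matrix (Fin n) (Fin n) F) * a = 1 := by
      have := pow_orderOf_eq_one a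
      rw [ha, pow_two] at this
      rw [← Matrix.SpecialLinearGroup.coe_mul, this, Matrix.SpecialLinearGroup.coe_one]
    have hbb : (b : Matrix (Fin n) (Fin n) F) * b = 1 := by
      have := pow_orderOf_eq_one b
      rw [hb, pow_two] at this
      rw [← Matrix.SpecialLinearGroup.coe_mul, this, Matrix.SpecialLinearGroup.coe_one]
    have ha1 : a ≠ 1 := by
      intro h; rw [h, orderOf_one] at ha; omega
    have hNa := sq_zero_of_involution _ haa
    have hNb := sq_zero_of_involution _ hbb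
    have hNa' : Matrix.toLin' ((a : Matrix (Fin n) (Fin n) F) - 1) ∘ₗ Matrix.toLin' ((a : Matrix (Fin n) (Fin n) F) - 1) = 0 := by
      rw [← Matrix.toLin'_mul, hNa, map_zero]
    have hNb' : Matrix.toLin' ((b : Matrix (Fin n) (Fin n) F) - 1) ∘ₗ Matrix.toLin' ((b : Matrix (Fin n) (Fin n) F) - 1) = 0 := by
      rw [← Matrix.toLin'_mul, hNb, map_zero]
    have hpos : 0 < finrank F (LinearMap.range (Matrix.toLin' ((a : Matrix (Fin n) (Fin n) F) - 1))) := by
      rw [Module.finrank_pos_iff_exists_ne_zero]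
      have hne : Matrix.toLin' ((a : Matrix (Fin n) (Fin n) F) - 1) ≠ 0 := by
        intro h0
        apply ha1
        have : (a : Matrix (Fin n) (Fin n) F) - 1 = 0 := by
          have := congrArg LinearMap.toMatrix' h0
          rwa [LinearMap.toMatrix'_toLin', map_zero] at this
        apply Subtype.ext
        rw [Matrix.SpecialLinearGroup.coe_one]
        exact sub_eq_zero.mp this
      obtain ⟨v, hv⟩ : ∃ v, Matrix.toLin' ((a : Matrix (Fin n) (Fin n) F) - 1) v ≠ 0 := by
        by_contra hcon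
        push_neg at hcon
        exact hne (LinearMap.ext hcon)
      exact ⟨⟨_, LinearMap.mem_range_self _ v⟩, fun h => hv (congrArg Subtype.val h)⟩
    obtain ⟨T, hTdet, hT⟩ := exists_conj hsq (Matrix.toLin' ((a : Matrix (Fin n) (Fin n) F) - 1))
      (Matrix.toLin' ((b : Matrix (Fin n) (Fin n) F) - 1)) hNa' hNb' hrank hpos
    let P : Matrix (Fin n) (Fin n) F := LinearMap.toMatrix' T
    have hPdet : P.det = 1 := by rw [LinearMap.det_toMatrix', hTdet]
    have hPN : P * ((a : Matrix (Fin n) (Fin n) F) - 1) = ((b : Matrix (Fin n) (Fin n) F) - 1) * P := by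
      have := congrArg LinearMap.toMatrix' hT
      rw [LinearMap.toMatrix'_comp, LinearMap.toMatrix'_comp, LinearMap.toMatrix'_toLin', LinearMap.toMatrix'_toLin'] at this
      exact this
    have hPab : P * (a : Matrix (Fin n) (Fin n) F) = (b : Matrix (Fin n) (Fin n) F) * P := by
      rw [mul_sub, sub_mul, mul_one, one_mul] at hPN
      exact sub_left_injective hPN
    rw [isConj_iff]
    obtain ⟨c, hc⟩ : ∃ c : Matrix.SpecialLinearGroup (Fin n) F, (c : Matrix (Fin n) (Fin n) F) = P :=
      ⟨⟨P, hPdet⟩, rfl⟩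
    refine ⟨c, ?_⟩
    rw [mul_inv_eq_iff_eq_mul]
    apply Subtype.ext
    simp only [Matrix.SpecialLinearGroup.coe_mul]
    rw [hc]
    exact hPab

end Cfsg.Agent.S2162
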