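import Cfsg.Statements.S2163

set_option autoImplicit false
open Cfsg

namespace Cfsg.Agent.S2163

/-- the nilpotent part -/
def eMat (F : Type*) [Field F] (n ℓ : ℕ) : Matrix (Fin n) (Fin n) F :=
  Matrix.of (fun i j : Fin n => if j.val < ℓ ∧ i.val = j.val + (n - ℓ) then (1 : F) else 0)

theorem eMat_mul_self (F : Type*) [Field F] (n ℓ : ℕ) (h2 : 2 * ℓ ≤ n) :
    eMat F n ℓ * eMat F n ℓ = 0 := by
  ext i k
  simp only [Matrix.mul_apply, eMat, Matrix.of_apply, Matrix.zero_apply]
  apply Finset.sum_eq_zero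
  intro j _
  by_cases h : (j.val < ℓ ∧ i.val = j.val + (n - ℓ))
  · have : ¬ (k.val < ℓ ∧ j.val = k.val + (n - ℓ)) := by omega
    simp [this]
  · simp [h]

theorem eMat_lower (F : Type*) [Field F] (n ℓ : ℕ) (h1 : 1 ≤ ℓ) (h2 : 2 * ℓ ≤ n) :
    (1 + eMat F n ℓ).IsLowerTriangular := by
  intro i j hij
  have hij' : i.val < j.val := hij
  have hne : i ≠ j := by
    intro h; subst h; exact lt_irrefl _ hij'
  have : ¬ (j.val < ℓ ∧ i.val = j.val + (n - ℓ)) := by omega
  simp [eMat, Matrix.one_apply, hne, this]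

theorem eMat_det (F : Type*) [Field F] (n ℓ : ℕ) (h1 : 1 ≤ ℓ) (h2 : 2 * ℓ ≤ n) :
    (1 + eMat F n ℓ).det = 1 := by
  rw [Matrix.det_of_isLowerTriangular _ (eMat_lower F n ℓ h1 h2)]
  apply Finset.prod_eq_one
  intro i _
  have : ¬ (i.val < ℓ ∧ i.val = i.val + (n - ℓ)) := by omega
  simp only [eMat, Matrix.add_apply, Matrix.one_apply_eq, Matrix.of_apply, if_neg this, add_zero]

theorem eMat_rank (F : Type*) [Field F] (n ℓ : ℕ) (h2 : 2 * ℓ ≤ n) :
    (eMat F n ℓ).rank = ℓ := by
  apply le_antisymm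
  · -- factor through Fin ℓ
    let A : Matrix (Fin n) (Fin ℓ) F := Matrix.of (fun i k => if i.val = k.val + (n - ℓ) then (1 : F) else 0)
    let B : Matrix (Fin ℓ) (Fin n) F := Matrix.of (fun k j => if j.val = k.val then (1 : F) else 0)
    have hAB : eMat F n ℓ = A * B := by
      ext i j
      simp only [Matrix.mul_apply, eMat, Matrix.of_apply, A, B]
      by_cases hj : j.val < ℓ
      · rw [Finset.sum_eq_single (⟨j.val, hj⟩ : Fin ℓ)]
        · simp [hj]
        · intro k _ hk
          have : ¬ (j.val = k.val) := by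
            intro h; apply hk; ext; exact h.symm
          simp [this]
        · intro h; exact absurd (Finset.mem_univ _) h
      · have : ∀ k : Fin ℓ, ¬ (j.val = k.val) := by
          intro k h; have := k.isLt; omega
        simp [hj, this]
    rw [hAB]
    calc (A * B).rank ≤ A.rank := Matrix.rank_mul_le_left A B
      _ ≤ ℓ := Matrix.rank_le_width A
  · have hsub : (eMat F n ℓ).submatrix (fun k : Fin ℓ => (⟨k.val + (n - ℓ), by have := k.isLt; omega⟩ : Fin n))
        (fun k : Fin ℓ => (⟨k.val, by have := k.isLt; omega⟩ : Fin n)) = 1 := by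
      ext a b
      simp only [Matrix.submatrix_apply, eMat, Matrix.of_apply, Matrix.one_apply]
      by_cases hab : a = b
      · subst hab; simp
      · have : ¬ (a.val = b.val) := by
          intro h; apply hab; ext; omega
        simp [hab, this]
    have := Matrix.rank_submatrix_le (eMat F n ℓ) (fun k : Fin ℓ => (⟨k.val + (n - ℓ), by have := k.isLt; omega⟩ : Fin n))
        (fun k : Fin ℓ => (⟨k.val, by have := k.isLt; omega⟩ : Fin n))
    rw [hsub, Matrix.rank_one, Fintype.card_fin] at this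
    exact this

/-- Over a finite field of characteristic two and for n ≥ 3: for every ℓ with 1 ≤ ℓ and 2ℓ ≤ n, the matrix j_ℓ that is the identity plus the entries 1 in positions (n − ℓ + i, i) for i < ℓ (an identity block of size ℓ in the lower left corner) lies in SL_n(F), has order 2, and j_ℓ − 1 has rank ℓ. Together with the conjugacy criterion by rank, these matrices represent the conjugacy classes of involutions of SL_n(F). -/
theorem result {F : Type*} [Field F] [Fintype F] [CharP F 2] {n : ℕ} (hn : 3 ≤ n) (ℓ : ℕ) (h1 : 1 ≤ ℓ) (h2 : 2 * ℓ ≤ n) :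
    ∃ a : Matrix.SpecialLinearGroup (Fin n) F, (a : Matrix (Fin n) (Fin n) F) = 1 + Matrix.of (fun i j : Fin n => if j.val < ℓ ∧ i.val = j.val + (n - ℓ) then (1 : F) else 0) ∧ orderOf a = 2 ∧ ((a : Matrix (Fin n) (Fin n) F) - 1).rank = ℓ := by
  refine ⟨⟨1 + eMat F n ℓ, eMat_det F n ℓ h1 h2⟩, rfl, ?_, ?_⟩
  · have : Fact (Nat.Prime 2) := ⟨Nat.prime_two⟩
    apply orderOf_eq_prime
    · apply Subtype.ext
      show (1 + eMat F n ℓ) ^ 2 = 1
      have h2E : eMat F n ℓ + eMat F n ℓ = 0 := by
        ext i j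
        simp only [Matrix.add_apply, Matrix.zero_apply]
        exact CharTwo.add_self_eq_zero _
      rw [pow_two, add_mul, mul_add, mul_add, eMat_mul_self F n ℓ h2]
      simp only [one_mul, mul_one, add_zero]
      rw [add_assoc, h2E]
      simp
    · intro h
      have h' : (1 + eMat F n ℓ : Matrix (Fin n) (Fin n) F) = 1 := congrArg Subtype.val h
      have h'' : eMat F n ℓ = 0 := by simpa using h'
      have hr := eMat_rank F n ℓ h2
      rw [h'', Matrix.rank_zero] at hr
      omega
  · show ((1 + eMat F n ℓ : Matrix (Fin n) (Fin n) F) - 1).rank = ℓ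
    rw [add_sub_cancel_left]
    exact eMat_rank F n ℓ h2

end Cfsg.Agent.S2163
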