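import Mathlib
import Cfsg.Statements.S2164
import Cfsg.Agent.S0829
import Cfsg.Agent.Lib.Helper44.UnitaryInv

set_option autoImplicit false
open Cfsg

namespace Cfsg.Agent.S2164

open Cfsg.Agent.Lib.Helper44
open scoped Matrix

section Herm

variable {F : Type*} [Field F]

/-- the hermitian form `Σ x_i σ(y_i)` as a sesquilinear map, semilinear in the first argument:
`hB σ n y x = Σ x_i σ(y_i)` -/
noncomputable def hB (σ : F →+* F) (n : ℕ) : (Fin n → F) →ₛₗ[σ] (Fin n → F) →ₗ[F] F :=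
  LinearMap.mk₂'ₛₗ σ (RingHom.id F) (fun y x => ∑ i, x i * σ (y i))
    (by intro y₁ y₂ x; simp [mul_add, Finset.sum_add_distrib])
    (by intro c y x; simp only [Pi.smul_apply, smul_eq_mul, map_mul, Finset.mul_sum]
        exact Finset.sum_congr rfl (fun i _ => by ring))
    (by intro y x₁ x₂; simp [add_mul, Finset.sum_add_distrib])
    (by intro c y x; simp only [Pi.smul_apply, smul_eq_mul, RingHom.id_apply, Finset.mul_sum]
        exact Finset.sum_congr rfl (fun i _ => by ring))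

theorem hB_apply (σ : F →+* F) (n : ℕ) (x y : Fin n → F) :
    hB σ n y x = ∑ i, x i * σ (y i) := rfl

theorem hB_eq_herm (σ : F →+* F) {q : ℕ} (hσ : ∀ x, σ x = x ^ q) (n : ℕ) (x y : Fin n → F) :
    hB σ n y x = hermForm n F q x y := by
  rw [hB_apply]
  unfold hermForm
  simp only [hσ]

theorem hB_symm (σ : F →+* F) (hσ2 : ∀ a : F, σ (σ a) = a) (n : ℕ) : (hB σ n).IsSymm := by
  refine ⟨fun x y => ?_⟩
  rw [hB_apply, hB_apply, map_sum]
  refine Finset.sum_congr rfl (fun i _ => ?_)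
  rw [map_mul, hσ2, mul_comm]

theorem hB_nondeg (σ : F →+* F) (n : ℕ) : (hB σ n).Nondegenerate := by
  constructor
  · intro x hx
    ext i
    have := hx (Pi.single i 1)
    rw [hB_apply] at this
    simpa [Pi.single_apply] using this
  · intro y hy
    ext i
    have := hy (Pi.single i 1)
    rw [hB_apply] at this
    simpa [Pi.single_apply] using this

/-- the determinant of a unitary map has norm one -/
theorem det_norm (σ : F →+* F) (n : ℕ) (f : (Fin n → F) →ₗ[F] (Fin n → F))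
    (hf : ∀ u v, hB σ n (f u) (f v) = hB σ n u v) :
    σ (LinearMap.det f) * LinearMap.det f = 1 := by
  have key : (LinearMap.toMatrix' f).transpose * (LinearMap.toMatrix' f).map σ = 1 := by
    ext j k
    have h := hf (Pi.single k 1) (Pi.single j 1)
    rw [hB_apply, hB_apply] at h
    rw [Matrix.mul_apply]
    simp only [Matrix.transpose_apply, Matrix.map_apply, LinearMap.toMatrix'_apply]
    rw [h]
    by_cases hjk : j = k
    · subst hjk
      simp [Pi.single_apply]
    · simp [Pi.single_apply, hjk, Ne.symm hjk]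
  have h2 := congrArg Matrix.det key
  rw [Matrix.det_mul, Matrix.det_transpose, Matrix.det_one, LinearMap.det_toMatrix'] at h2
  have h3 : ((LinearMap.toMatrix' f).map σ).det = σ (LinearMap.det f) := by
    rw [← LinearMap.det_toMatrix' f, RingHom.map_det]
    rfl
  rw [h3] at h2
  rw [mul_comm]
  exact h2

end Herm

section Main

variable {F : Type*} [Field F] [Fintype F] [CharP F 2] {n q : ℕ}

omit [CharP F 2] in
theorem frob_ne_id (hF : Fintype.card F = q ^ 2) (σ : F →+* F) (hσ : ∀ x, σ x = x ^ q) :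
    σ ≠ RingHom.id F := by
  classical
  intro h
  have hq := Cfsg.Agent.S0829.two_le_q hF
  have hall : ∀ x : F, x ^ q = x := fun x => by rw [← hσ, h, RingHom.id_apply]
  have h1 := Cfsg.Agent.S0829.card_roots_le (Polynomial.X ^ q - Polynomial.X : Polynomial F)
    (FiniteField.X_pow_card_sub_X_ne_zero F hq)
  rw [FiniteField.X_pow_card_sub_X_natDegree_eq F hq] at h1
  have h2 : (Finset.univ.filter (fun x : F => Polynomial.eval x
      (Polynomial.X ^ q - Polynomial.X : Polynomial F) = 0)) = Finset.univ := by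
    apply Finset.filter_true_of_mem
    intro x _
    simp [hall x]
  rw [h2, Finset.card_univ, hF] at h1
  nlinarith

theorem even_q (hF : Fintype.card F = q ^ 2) : 2 ∣ q := by
  have h1 : ((Fintype.card F : ℕ) : F) = 0 := Nat.cast_card_eq_zero F
  rw [hF] at h1
  have h2 : 2 ∣ q ^ 2 := (CharP.cast_eq_zero_iff F 2 (q ^ 2)).1 h1
  exact Nat.Prime.dvd_of_dvd_pow Nat.prime_two h2

omit [Fintype F] [CharP F 2] in
theorem rank_of_isConj (a b : Matrix.SpecialLinearGroup (Fin n) F) (h : IsConj a b) :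
    ((a : Matrix (Fin n) (Fin n) F) - 1).rank = ((b : Matrix (Fin n) (Fin n) F) - 1).rank := by
  obtain ⟨S, hS⟩ := isConj_iff.1 h
  have h1 : S * a = b * S := by rw [← hS]; group
  have h2 : (S : Matrix (Fin n) (Fin n) F) * (a : Matrix (Fin n) (Fin n) F)
      = (b : Matrix (Fin n) (Fin n) F) * (S : Matrix (Fin n) (Fin n) F) := by
    have := congrArg (fun x : Matrix.SpecialLinearGroup (Fin n) F => (x : Matrix (Fin n) (Fin n) F)) h1
    simpa using this
  have hdet : IsUnit (S : Matrix (Fin n) (Fin n) F).det := by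
    rw [S.det_coe]; exact isUnit_one
  have h3 : (S : Matrix (Fin n) (Fin n) F) * ((a : Matrix (Fin n) (Fin n) F) - 1)
      = ((b : Matrix (Fin n) (Fin n) F) - 1) * (S : Matrix (Fin n) (Fin n) F) := by
    rw [mul_sub, sub_mul, h2, mul_one, one_mul]
  rw [← Matrix.rank_mul_eq_right_of_isUnit_det _ _ hdet, h3,
    Matrix.rank_mul_eq_left_of_isUnit_det _ _ hdet]

theorem main (hF : Fintype.card F = q ^ 2) (a b : ↥(Cfsg.SU n F q)) (ha : a * a = 1)
    (hb : b * b = 1) (ha1 : a ≠ 1)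
    (hr : (((a : Matrix.SpecialLinearGroup (Fin n) F) : Matrix (Fin n) (Fin n) F) - 1).rank
      = (((b : Matrix.SpecialLinearGroup (Fin n) F) : Matrix (Fin n) (Fin n) F) - 1).rank) :
    IsConj a b := by
  obtain ⟨σ, hσ⟩ := Cfsg.Agent.S0829.exists_frob hF
  have hσ2 : ∀ x : F, σ (σ x) = x := fun x => by
    rw [hσ, hσ]; exact Cfsg.Agent.S0829.pow_qq hF x
  have hσne : σ ≠ RingHom.id F := frob_ne_id hF σ hσ
  have h2F : (2 : F) = 0 := CharTwo.two_eq_zero
  obtain ⟨A, hA⟩ : ∃ A : Matrix (Fin n) (Fin n) F,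
      A = ((a : Matrix.SpecialLinearGroup (Fin n) F) : Matrix (Fin n) (Fin n) F) := ⟨_, rfl⟩
  obtain ⟨A', hA'⟩ : ∃ A' : Matrix (Fin n) (Fin n) F,
      A' = ((b : Matrix.SpecialLinearGroup (Fin n) F) : Matrix (Fin n) (Fin n) F) := ⟨_, rfl⟩
  rw [← hA, ← hA'] at hr
  have hAA : A * A = 1 := by
    have := congrArg (fun x : ↥(Cfsg.SU n F q) =>
      ((x : Matrix.SpecialLinearGroup (Fin n) F) : Matrix (Fin n) (Fin n) F)) ha
    rw [hA]
    simpa using this
  have hAA' : A' * A' = 1 := by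
    have := congrArg (fun x : ↥(Cfsg.SU n F q) =>
      ((x : Matrix.SpecialLinearGroup (Fin n) F) : Matrix (Fin n) (Fin n) F)) hb
    rw [hA']
    simpa using this
  have hAiso : ∀ u v, hB σ n (A *ᵥ u) (A *ᵥ v) = hB σ n u v := by
    intro u v
    rw [hB_eq_herm σ hσ, hB_eq_herm σ hσ, hA]
    exact a.2 v u
  have hAiso' : ∀ u v, hB σ n (A' *ᵥ u) (A' *ᵥ v) = hB σ n u v := by
    intro u v
    rw [hB_eq_herm σ hσ, hB_eq_herm σ hσ, hA']
    exact b.2 v u
  -- the general facts for an involution matrix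
  have gen : ∀ M : Matrix (Fin n) (Fin n) F, M * M = 1 →
      (∀ u v, hB σ n (M *ᵥ u) (M *ᵥ v) = hB σ n u v) →
      (∀ x y, hB σ n ((M - 1).mulVecLin x) y = hB σ n x ((M - 1).mulVecLin y)) ∧
      (∀ x, (M - 1).mulVecLin ((M - 1).mulVecLin x) = 0) := by
    intro M hMM hM
    have happ : ∀ x, (M - 1).mulVecLin x = M *ᵥ x - x := by
      intro x
      rw [Matrix.mulVecLin_apply, Matrix.sub_mulVec, Matrix.one_mulVec]
    constructor
    · intro x y
      rw [happ, happ, map_sub, map_sub, LinearMap.sub_apply]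
      congr 1
      rw [← hM (M *ᵥ x) y, Matrix.mulVec_mulVec, hMM, Matrix.one_mulVec]
    · intro x
      rw [happ, happ, Matrix.mulVec_sub, Matrix.mulVec_mulVec, hMM, Matrix.one_mulVec]
      have : x - M *ᵥ x - (M *ᵥ x - x) = (2 : F) • (x - M *ᵥ x) := by rw [two_smul]; abel
      rw [this, h2F, zero_smul]
  obtain ⟨hN, hN2⟩ := gen A hAA hAiso
  obtain ⟨hN', hN'2⟩ := gen A' hAA' hAiso'
  have hrank : Module.finrank F (LinearMap.range (A - 1).mulVecLin)
      = Module.finrank F (LinearMap.range (A' - 1).mulVecLin) := hr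
  obtain ⟨g, hg, hgN⟩ := exists_isometry_conj σ hσne hσ2 (hB σ n) (hB_symm σ hσ2 n)
    (hB_nondeg σ n) _ _ hN hN2 hN' hN'2 hrank
  have hN0 : (A - 1).mulVecLin ≠ 0 := by
    intro h
    apply ha1
    apply Subtype.ext
    apply Subtype.ext
    show ((a : Matrix.SpecialLinearGroup (Fin n) F) : Matrix (Fin n) (Fin n) F) = 1
    rw [← hA]
    have h' : A - 1 = 0 := by
      apply Matrix.toLin'.injective
      rw [Matrix.toLin'_apply', h, map_zero]
    exact sub_eq_zero.1 h'
  have hd := det_norm σ n (g : (Fin n → F) →ₗ[F] (Fin n → F)) hg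
  obtain ⟨d, hd'⟩ : ∃ d, d = LinearMap.det (g : (Fin n → F) →ₗ[F] (Fin n → F)) := ⟨_, rfl⟩
  rw [← hd'] at hd
  have hd0 : d ≠ 0 := by
    intro h
    rw [h, mul_zero] at hd
    exact zero_ne_one hd
  obtain ⟨r, hr2⟩ := even_q hF
  have hdq : σ d⁻¹ * d⁻¹ = 1 := by
    rw [map_inv₀, ← mul_inv, hd, inv_one]
  have hμ : σ (d⁻¹ ^ (r + 1)) * d⁻¹ ^ (r + 1) = 1 := by
    rw [map_pow, ← mul_pow, hdq, one_pow]
  have hμ2 : (d⁻¹ ^ (r + 1)) ^ 2 = d⁻¹ := by
    have e : d⁻¹ ^ (q + 1) = 1 := by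
      rw [pow_succ, ← hσ, hdq]
    rw [← pow_mul, show (r + 1) * 2 = q + 1 + 1 by omega, pow_succ, e, one_mul]
  obtain ⟨c, hc, hcN, hcdet⟩ := exists_centralizer_det σ hσne hσ2 (hB σ n) (hB_symm σ hσ2 n)
    (hB_nondeg σ n) _ hN hN2 hN0 _ hμ
  rw [hμ2] at hcdet
  obtain ⟨g', hg'⟩ : ∃ g' : (Fin n → F) →ₗ[F] (Fin n → F),
      g' = (g : (Fin n → F) →ₗ[F] (Fin n → F)) ∘ₗ c := ⟨_, rfl⟩
  have hg'app : ∀ x, g' x = g (c x) := fun x => by rw [hg']; rfl
  have hg'det : (LinearMap.toMatrix' g').det = 1 := by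
    rw [LinearMap.det_toMatrix', hg', LinearMap.det_comp, ← hd', hcdet, mul_inv_cancel₀ hd0]
  have hg'iso : ∀ u v, hB σ n (g' u) (g' v) = hB σ n u v := by
    intro u v
    rw [hg'app, hg'app, hg, hc]
  have hconj : LinearMap.toMatrix' g' * A = A' * LinearMap.toMatrix' g' := by
    apply Matrix.toLin'.injective
    apply LinearMap.ext
    intro x
    rw [Matrix.toLin'_mul, Matrix.toLin'_mul, Matrix.toLin'_toMatrix', LinearMap.comp_apply,
      LinearMap.comp_apply, Matrix.toLin'_apply, Matrix.toLin'_apply]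
    have e1 : A *ᵥ x = (A - 1).mulVecLin x + x := by
      rw [Matrix.mulVecLin_apply, Matrix.sub_mulVec, Matrix.one_mulVec, sub_add_cancel]
    have e2 : A' *ᵥ (g' x) = (A' - 1).mulVecLin (g' x) + g' x := by
      rw [Matrix.mulVecLin_apply, Matrix.sub_mulVec, Matrix.one_mulVec, sub_add_cancel]
    rw [e1, e2, map_add, hg'app, hg'app, hcN, hgN]
  let S : Matrix.SpecialLinearGroup (Fin n) F := ⟨LinearMap.toMatrix' g', hg'det⟩
  have hS : S ∈ Cfsg.SU n F q := by
    intro u v
    show hermForm n F q (Matrix.mulVec (LinearMap.toMatrix' g') u)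
      (Matrix.mulVec (LinearMap.toMatrix' g') v) = hermForm n F q u v
    rw [← hB_eq_herm σ hσ, ← hB_eq_herm σ hσ, LinearMap.toMatrix'_mulVec,
      LinearMap.toMatrix'_mulVec, hg'iso]
  refine isConj_iff.2 ⟨⟨S, hS⟩, ?_⟩
  rw [mul_inv_eq_iff_eq_mul]
  apply Subtype.ext
  apply Subtype.ext
  show LinearMap.toMatrix' g' * ((a : Matrix.SpecialLinearGroup (Fin n) F) : Matrix (Fin n) (Fin n) F)
    = ((b : Matrix.SpecialLinearGroup (Fin n) F) : Matrix (Fin n) (Fin n) F) * LinearMap.toMatrix' g'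
  rw [← hA, ← hA']
  exact hconj

theorem result_aux {F : Type*} [Field F] [Fintype F] [CharP F 2] {n q : ℕ}
    (hF : Fintype.card F = q ^ 2) (a b : ↥(Cfsg.SU n F q)) (ha : orderOf a = 2)
    (hb : orderOf b = 2) :
    (IsConj a b ↔ IsConj (a : Matrix.SpecialLinearGroup (Fin n) F) (b : Matrix.SpecialLinearGroup (Fin n) F)) ∧
    (IsConj a b ↔ (((a : Matrix.SpecialLinearGroup (Fin n) F) : Matrix (Fin n) (Fin n) F) - 1).rank = (((b : Matrix.SpecialLinearGroup (Fin n) F) : Matrix (Fin n) (Fin n) F) - 1).rank) := by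
  have ha2 : a * a = 1 := by rw [← pow_two, ← ha, pow_orderOf_eq_one]
  have hb2 : b * b = 1 := by rw [← pow_two, ← hb, pow_orderOf_eq_one]
  have ha1 : a ≠ 1 := by
    intro h
    rw [h, orderOf_one] at ha
    omega
  have h12 : IsConj a b → IsConj (a : Matrix.SpecialLinearGroup (Fin n) F)
      (b : Matrix.SpecialLinearGroup (Fin n) F) := fun h =>
    (Cfsg.SU n F q).subtype.map_isConj h
  exact ⟨⟨h12, fun h => main hF a b ha2 hb2 ha1 (rank_of_isConj _ _ h)⟩,
    ⟨fun h => rank_of_isConj _ _ (h12 h), fun h => main hF a b ha2 hb2 ha1 h⟩⟩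

end Main

/-- Conjugacy of involutions in the special unitary group SU_n(q), q even, n ≥ 3, realised over the field F with q² elements as the matrices of determinant 1 preserving the form Σ u_i v_i^q: for two elements of order 2 of SU_n(q) the following are equivalent — they are conjugate in SU_n(q); they are conjugate in SL_n(F); the matrices a − 1 and b − 1 have the same rank. -/
theorem result {F : Type*} [Field F] [Fintype F] [CharP F 2] {n q : ℕ} (hF : Fintype.card F = q ^ 2) (hn : 3 ≤ n) (a b : ↥(Cfsg.SU n F q)) (ha : orderOf a = 2) (hb : orderOf b = 2) :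
    (IsConj a b ↔ IsConj (a : Matrix.SpecialLinearGroup (Fin n) F) (b : Matrix.SpecialLinearGroup (Fin n) F)) ∧
    (IsConj a b ↔ (((a : Matrix.SpecialLinearGroup (Fin n) F) : Matrix (Fin n) (Fin n) F) - 1).rank = (((b : Matrix.SpecialLinearGroup (Fin n) F) : Matrix (Fin n) (Fin n) F) - 1).rank) := by
  have _ := hn
  exact result_aux hF a b ha hb

end Cfsg.Agent.S2164
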