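import Cfsg.Statements.S2165

set_option autoImplicit false
open Cfsg

namespace Cfsg.Agent.S2165

/-- the involution of the coordinates -/
def sig (n ℓ : ℕ) (h2 : 2 * ℓ ≤ n) (i : Fin n) : Fin n :=
  if h : i.val < ℓ then ⟨i.val + (n - ℓ), by have := i.isLt; omega⟩
  else if h' : n - ℓ ≤ i.val then ⟨i.val - (n - ℓ), by have := i.isLt; omega⟩
  else i

theorem sig_val (n ℓ : ℕ) (h2 : 2 * ℓ ≤ n) (i : Fin n) :
    (sig n ℓ h2 i).val = if i.val < ℓ then i.val + (n - ℓ) else if n - ℓ ≤ i.val then i.val - (n - ℓ) else i.val := by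
  unfold sig
  split_ifs <;> rfl

theorem sig_sig (n ℓ : ℕ) (h2 : 2 * ℓ ≤ n) (i : Fin n) : sig n ℓ h2 (sig n ℓ h2 i) = i := by
  apply Fin.ext
  rw [sig_val, sig_val]
  have := i.isLt
  split_ifs <;> omega

/-- the permutation matrix -/
def pMat (F : Type*) [Field F] (n ℓ : ℕ) : Matrix (Fin n) (Fin n) F :=
  Matrix.of (fun i j : Fin n => if (j.val < ℓ ∧ i.val = j.val + (n - ℓ)) ∨ (i.val < ℓ ∧ j.val = i.val + (n - ℓ)) ∨ (i = j ∧ ℓ ≤ i.val ∧ i.val < n - ℓ) then (1 : F) else 0)

theorem pMat_apply (F : Type*) [Field F] (n ℓ : ℕ) (h2 : 2 * ℓ ≤ n) (i j : Fin n) :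
    pMat F n ℓ i j = if j = sig n ℓ h2 i then 1 else 0 := by
  have hi := i.isLt
  have hj := j.isLt
  have key : ((j.val < ℓ ∧ i.val = j.val + (n - ℓ)) ∨ (i.val < ℓ ∧ j.val = i.val + (n - ℓ)) ∨ (i = j ∧ ℓ ≤ i.val ∧ i.val < n - ℓ)) ↔ j = sig n ℓ h2 i := by
    rw [Fin.ext_iff (a := j), sig_val, Fin.ext_iff]
    split_ifs <;> omega
  simp only [pMat, Matrix.of_apply]
  by_cases h : j = sig n ℓ h2 i
  · rw [if_pos (key.mpr h), if_pos h]
  · rw [if_neg (fun h' => h (key.mp h')), if_neg h]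

theorem pMat_mulVec (F : Type*) [Field F] (n ℓ : ℕ) (h2 : 2 * ℓ ≤ n) (u : Fin n → F) (i : Fin n) :
    (Matrix.mulVec (pMat F n ℓ) u) i = u (sig n ℓ h2 i) := by
  simp only [Matrix.mulVec, dotProduct, pMat_apply F n ℓ h2]
  rw [Finset.sum_eq_single (sig n ℓ h2 i)]
  · simp
  · intro b _ hb; simp [hb]
  · intro h; exact absurd (Finset.mem_univ _) h

theorem pMat_mul_self (F : Type*) [Field F] (n ℓ : ℕ) (h2 : 2 * ℓ ≤ n) :
    pMat F n ℓ * pMat F n ℓ = 1 := by
  ext i k
  rw [Matrix.mul_apply]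
  simp only [pMat_apply F n ℓ h2]
  rw [Finset.sum_eq_single (sig n ℓ h2 i)]
  · simp only [if_true, one_mul, sig_sig, Matrix.one_apply]
    by_cases h : i = k
    · subst h; simp
    · have : ¬ k = i := fun h' => h h'.symm
      simp [h, this]
  · intro b _ hb; simp [hb]
  · intro h; exact absurd (Finset.mem_univ _) h

theorem pMat_det (F : Type*) [Field F] [CharP F 2] (n ℓ : ℕ) (h2 : 2 * ℓ ≤ n) :
    (pMat F n ℓ).det = 1 := by
  have h := congrArg Matrix.det (pMat_mul_self F n ℓ h2)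
  rw [Matrix.det_mul, Matrix.det_one] at h
  have h' : ((pMat F n ℓ).det - 1) * ((pMat F n ℓ).det - 1) = 0 := by
    have : ((pMat F n ℓ).det - 1) * ((pMat F n ℓ).det - 1)
        = (pMat F n ℓ).det * (pMat F n ℓ).det - ((pMat F n ℓ).det + (pMat F n ℓ).det) + 1 := by ring
    rw [this, h, CharTwo.add_self_eq_zero]
    simp [CharTwo.add_self_eq_zero]
  have := mul_self_eq_zero.mp h'
  exact sub_eq_zero.mp this

theorem sig_iff (n ℓ : ℕ) (h2 : 2 * ℓ ≤ n) (i j : Fin n) :
    j = sig n ℓ h2 i ↔ ((i.val < ℓ ∧ j.val = i.val + (n - ℓ)) ∨ (n - ℓ ≤ i.val ∧ j.val + (n - ℓ) = i.val) ∨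
      (ℓ ≤ i.val ∧ i.val < n - ℓ ∧ j.val = i.val)) := by
  have hi := i.isLt
  have hj := j.isLt
  rw [Fin.ext_iff, sig_val]
  split_ifs <;> omega

theorem pMat_sub_one_rank (F : Type*) [Field F] [CharP F 2] (n ℓ : ℕ) (h2 : 2 * ℓ ≤ n) :
    (pMat F n ℓ - 1).rank = ℓ := by
  apply le_antisymm
  · let A : Matrix (Fin n) (Fin ℓ) F := Matrix.of (fun i k => if i.val = k.val ∨ i.val = k.val + (n - ℓ) then (1 : F) else 0)
    let B : Matrix (Fin ℓ) (Fin n) F := Matrix.of (fun k j => if j.val = k.val ∨ j.val = k.val + (n - ℓ) then (1 : F) else 0)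
    have hAB : pMat F n ℓ - 1 = A * B := by
      ext i j
      have hi := i.isLt
      have hj := j.isLt
      have e2 : (i = j) ↔ i.val = j.val := Fin.ext_iff
      simp only [Matrix.mul_apply, Matrix.sub_apply, Matrix.one_apply, pMat_apply F n ℓ h2, Matrix.of_apply, A, B,
        sig_iff]
      simp only [e2]
      by_cases hil : i.val < ℓ
      · rw [Finset.sum_eq_single (⟨i.val, hil⟩ : Fin ℓ)]
        · simp only []
          split_ifs <;> first | omega | (simp [CharTwo.sub_eq_add]; done) | (simp at * <;> omega)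
        · intro k _ hk
          have hk' : ¬ (i.val = k.val) := fun h => hk (Fin.ext h.symm)
          have hk'' : ¬ (i.val = k.val + (n - ℓ)) := by have := k.isLt; omega
          simp [hk', hk'']
        · intro h; exact absurd (Finset.mem_univ _) h
      · by_cases hiu : n - ℓ ≤ i.val
        · rw [Finset.sum_eq_single (⟨i.val - (n - ℓ), by omega⟩ : Fin ℓ)]
          · simp only []
            split_ifs <;> first | omega | (simp [CharTwo.sub_eq_add]; done) | (simp at * <;> omega)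
          · intro k _ hk
            have hk' : ¬ (i.val = k.val + (n - ℓ)) := by
              intro h; apply hk; apply Fin.ext; simp; omega
            have hk'' : ¬ (i.val = k.val) := by have := k.isLt; omega
            simp [hk', hk'']
          · intro h; exact absurd (Finset.mem_univ _) h
        · have hz : ∀ k : Fin ℓ, ¬ (i.val = k.val ∨ i.val = k.val + (n - ℓ)) := by
            intro k; have := k.isLt; omega
          simp only [hz, if_false, zero_mul, Finset.sum_const_zero]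
          split_ifs <;> first | omega | (simp [CharTwo.sub_eq_add]; done) | (simp at * <;> omega)
    rw [hAB]
    calc (A * B).rank ≤ A.rank := Matrix.rank_mul_le_left A B
      _ ≤ ℓ := Matrix.rank_le_width A
  · have hsub : (pMat F n ℓ - 1).submatrix (fun k : Fin ℓ => (⟨k.val, by have := k.isLt; omega⟩ : Fin n))
        (fun k : Fin ℓ => (⟨k.val + (n - ℓ), by have := k.isLt; omega⟩ : Fin n)) = 1 := by
      ext a b
      have ha := a.isLt
      have hb := b.isLt
      have e2 : ∀ i j : Fin n, (i = j) ↔ i.val = j.val := fun i j => Fin.ext_iff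
      have e3 : (a = b) ↔ a.val = b.val := Fin.ext_iff
      simp only [Matrix.submatrix_apply, Matrix.sub_apply, pMat_apply F n ℓ h2, Matrix.one_apply, sig_iff]
      simp only [e2, e3]
      split_ifs <;> first | omega | (simp; done) | (simp at * <;> omega)
    have := Matrix.rank_submatrix_le (pMat F n ℓ - 1) (fun k : Fin ℓ => (⟨k.val, by have := k.isLt; omega⟩ : Fin n))
        (fun k : Fin ℓ => (⟨k.val + (n - ℓ), by have := k.isLt; omega⟩ : Fin n))
    rw [hsub, Matrix.rank_one, Fintype.card_fin] at this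
    exact this

/-- In SU_n(q), q even, n ≥ 3 (matrices of determinant 1 over the field with q² elements preserving Σ u_i v_i^q): for every ℓ with 1 ≤ ℓ and 2ℓ ≤ n, the permutation matrix of the involution of {0, …, n−1} exchanging i and n − ℓ + i for each i < ℓ lies in SU_n(q), has order 2, and differs from the identity by a matrix of rank ℓ. So every rank between 1 and n/2 occurs for involutions of SU_n(q). -/
theorem result {F : Type*} [Field F] [Fintype F] [CharP F 2] {n q : ℕ} (hF : Fintype.card F = q ^ 2) (hn : 3 ≤ n) (ℓ : ℕ) (h1 : 1 ≤ ℓ) (h2 : 2 * ℓ ≤ n) :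
    ∃ a : ↥(Cfsg.SU n F q), (((a : Matrix.SpecialLinearGroup (Fin n) F) : Matrix (Fin n) (Fin n) F) = Matrix.of (fun i j : Fin n => if (j.val < ℓ ∧ i.val = j.val + (n - ℓ)) ∨ (i.val < ℓ ∧ j.val = i.val + (n - ℓ)) ∨ (i = j ∧ ℓ ≤ i.val ∧ i.val < n - ℓ) then (1 : F) else 0)) ∧ orderOf a = 2 ∧ ((((a : Matrix.SpecialLinearGroup (Fin n) F) : Matrix (Fin n) (Fin n) F)) - 1).rank = ℓ := by
  have hmem : (⟨pMat F n ℓ, pMat_det F n ℓ h2⟩ : Matrix.SpecialLinearGroup (Fin n) F) ∈ Cfsg.SU n F q := by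
    intro u v
    show Cfsg.hermForm n F q (Matrix.mulVec (pMat F n ℓ) u) (Matrix.mulVec (pMat F n ℓ) v) = Cfsg.hermForm n F q u v
    unfold Cfsg.hermForm
    simp only [pMat_mulVec F n ℓ h2]
    exact Equiv.sum_comp (Function.Involutive.toPerm (sig n ℓ h2) (sig_sig n ℓ h2)) (fun i => u i * v i ^ q)
  refine ⟨⟨⟨pMat F n ℓ, pMat_det F n ℓ h2⟩, hmem⟩, rfl, ?_, ?_⟩
  · have : Fact (Nat.Prime 2) := ⟨Nat.prime_two⟩
    apply orderOf_eq_prime
    · apply Subtype.ext
      apply Subtype.ext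
      show (pMat F n ℓ) ^ 2 = 1
      rw [pow_two, pMat_mul_self F n ℓ h2]
    · intro h
      have h' : (pMat F n ℓ : Matrix (Fin n) (Fin n) F) = 1 := congrArg (fun x => x.val.val) h
      have hr := pMat_sub_one_rank F n ℓ h2
      rw [h', sub_self, Matrix.rank_zero] at hr
      omega
  · show ((pMat F n ℓ : Matrix (Fin n) (Fin n) F) - 1).rank = ℓ
    exact pMat_sub_one_rank F n ℓ h2

end Cfsg.Agent.S2165
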