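import Cfsg.Statements.S2167

set_option autoImplicit false
open Cfsg

namespace Cfsg.Agent.S2167

open Module Matrix

/-- An alternating matrix of odd size is singular. -/
theorem det_eq_zero_of_alt_odd {R : Type*} [CommRing R] {r : ℕ} (M : Matrix (Fin r) (Fin r) R)
    (hdiag : ∀ i, M i i = 0) (hskew : ∀ i j, M i j = - M j i) (hr : Odd r) : M.det = 0 := by
  rw [Matrix.det_apply]
  apply Finset.sum_involution (fun σ _ => σ⁻¹)
  · intro σ _
    have h1 : ∏ i, M (σ⁻¹ i) i = ∏ j, M j (σ j) := by
      rw [← Equiv.prod_comp σ (fun i => M (σ⁻¹ i) i)]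
      simp
    have h2 : ∏ j, M j (σ j) = - ∏ j, M (σ j) j := by
      have : ∀ j, M j (σ j) = - M (σ j) j := fun j => hskew _ _
      simp only [this]
      rw [Finset.prod_neg, Finset.card_univ, Fintype.card_fin, hr.neg_one_pow]
      ring
    rw [Equiv.Perm.sign_inv, h1, h2, smul_neg, add_neg_cancel]
  · intro σ _ hne hσ
    apply hne
    have hσσ : σ * σ = 1 := by
      nth_rewrite 1 [← hσ]
      exact inv_mul_cancel σ
    have : Fact (Nat.Prime 2) := ⟨Nat.prime_two⟩
    let f : Function.End (Fin r) := fun x => σ x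
    have hf : f ^ 2 ^ 1 = 1 := by
      rw [pow_one, pow_two]
      funext x
      show σ (σ x) = x
      have := congrArg (fun τ : Equiv.Perm (Fin r) => τ x) hσσ
      simpa using this
    have hmod := Equiv.Perm.card_fixedPoints_modEq (f := f) (p := 2) (n := 1) hf
    rw [Fintype.card_fin] at hmod
    have hpos : 0 < Fintype.card (Function.fixedPoints f) := by
      by_contra h0
      have h0' : Fintype.card (Function.fixedPoints f) = 0 := by omega
      rw [h0'] at hmod
      have : r % 2 = 0 := hmod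
      rcases hr with ⟨k, hk⟩
      omega
    obtain ⟨⟨i, hi⟩⟩ := Fintype.card_pos_iff.mp hpos
    have hi' : σ i = i := hi
    have : ∏ j, M (σ j) j = 0 := by
      apply Finset.prod_eq_zero (Finset.mem_univ i)
      rw [hi', hdiag]
    rw [this, smul_zero]
  · intro σ _; exact inv_inv σ
  · intro σ _; exact Finset.mem_univ _

/-- A matrix whose quadratic form vanishes identically has even rank. -/
theorem even_rank_of_alt {F : Type*} [Field F] {n : Type*} [Fintype n] [DecidableEq n] (S : Matrix n n F)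
    (hS : ∀ v : n → F, v ⬝ᵥ S *ᵥ v = 0) : Even S.rank := by
  have hpol : ∀ u v : n → F, u ⬝ᵥ S *ᵥ v = - (v ⬝ᵥ S *ᵥ u) := by
    intro u v
    have h := hS (u + v)
    rw [Matrix.mulVec_add, add_dotProduct, dotProduct_add, dotProduct_add, hS u, hS v] at h
    simp only [zero_add, add_zero] at h
    exact eq_neg_of_add_eq_zero_left h
  obtain ⟨U, hU⟩ := Submodule.exists_isCompl (LinearMap.ker (Matrix.toLin' S))
  have hfin : finrank F U = S.rank := by
    have h1 := Submodule.finrank_add_eq_of_isCompl hU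
    have h2 := LinearMap.finrank_range_add_finrank_ker (Matrix.toLin' S)
    have h3 : S.rank = finrank F (LinearMap.range (Matrix.toLin' S)) := rfl
    omega
  obtain ⟨r, hr⟩ : ∃ r, S.rank = r := ⟨_, rfl⟩
  rw [hr] at hfin ⊢
  let bU : Basis (Fin r) F U := Module.finBasisOfFinrankEq F U hfin
  let G : Matrix (Fin r) (Fin r) F := Matrix.of fun i j => (bU i : n → F) ⬝ᵥ S *ᵥ (bU j : n → F)
  have hGdet : G.det ≠ 0 := by
    intro hdet
    obtain ⟨c, hc, hGc⟩ := Matrix.exists_mulVec_eq_zero_iff.mpr hdet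
    apply hc
    let u : U := ∑ j, c j • bU j
    have hu : ∀ i, (bU i : n → F) ⬝ᵥ S *ᵥ (u : n → F) = 0 := by
      intro i
      have hu' : (u : n → F) = ∑ j, c j • (bU j : n → F) := by
        simp [u]
      calc (bU i : n → F) ⬝ᵥ S *ᵥ (u : n → F) = ∑ j, c j * G i j := by
            rw [hu', Matrix.mulVec_sum, dotProduct_sum]
            simp [Matrix.mulVec_smul, dotProduct_smul, G]
        _ = (G *ᵥ c) i := by
            simp [Matrix.mulVec, dotProduct, mul_comm]
        _ = 0 := by rw [hGc]; rfl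
    have hu2 : ∀ w : U, (w : n → F) ⬝ᵥ S *ᵥ (u : n → F) = 0 := by
      intro w
      have hw' : (w : n → F) = ∑ i, bU.repr w i • (bU i : n → F) := by
        have h := congrArg (fun x : U => (x : n → F)) (bU.sum_repr w)
        simp only [Submodule.coe_sum, Submodule.coe_smul] at h
        exact h.symm
      rw [hw', sum_dotProduct]
      apply Finset.sum_eq_zero
      intro i _
      rw [smul_dotProduct, hu i, smul_zero]
    have hu3 : ∀ v : n → F, v ⬝ᵥ S *ᵥ (u : n → F) = 0 := by
      intro v
      have hv : v ∈ (LinearMap.ker (Matrix.toLin' S)) ⊔ U := by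
        rw [hU.sup_eq_top]; trivial
      obtain ⟨k, hk, w, hw, rfl⟩ := Submodule.mem_sup.mp hv
      rw [add_dotProduct, hu2 ⟨w, hw⟩, add_zero, hpol]
      have : S *ᵥ k = 0 := by
        have := LinearMap.mem_ker.mp hk
        rwa [Matrix.toLin'_apply] at this
      rw [this, dotProduct_zero, neg_zero]
    have hu4 : S *ᵥ (u : n → F) = 0 := by
      funext i
      have := hu3 (Pi.single i 1)
      simpa using this
    have hu5 : (u : n → F) ∈ LinearMap.ker (Matrix.toLin' S) := by
      rw [LinearMap.mem_ker, Matrix.toLin'_apply]; exact hu4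
    have hu6 : (u : n → F) = 0 := by
      have := hU.disjoint
      rw [Submodule.disjoint_def] at this
      exact this _ hu5 u.2
    have hu7 : u = 0 := Subtype.ext hu6
    have hli := bU.linearIndependent
    rw [Fintype.linearIndependent_iff] at hli
    funext j
    exact hli c hu7 j
  by_contra hodd
  rw [Nat.not_even_iff_odd] at hodd
  apply hGdet
  apply det_eq_zero_of_alt_odd G _ _ hodd
  · intro i; exact hS _
  · intro i j; exact hpol _ _

theorem sympForm_self {F : Type*} [Field F] (m : ℕ) (v : Fin m ⊕ Fin m → F) : Cfsg.sympForm m F v v = 0 := by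
  unfold Cfsg.sympForm
  simp only [dotProduct, Matrix.mulVec, Matrix.J, Fintype.sum_sum_type, Matrix.fromBlocks_apply₁₁,
    Matrix.fromBlocks_apply₁₂, Matrix.fromBlocks_apply₂₁, Matrix.fromBlocks_apply₂₂, Matrix.zero_apply, zero_mul,
    Finset.sum_const_zero, zero_add, add_zero, Matrix.neg_apply, Matrix.one_apply]
  simp only [neg_mul, ite_mul, one_mul, zero_mul, Finset.sum_neg_distrib, Finset.sum_ite_eq, Finset.mem_univ, if_true,
    mul_neg]
  rw [neg_add_eq_zero]
  apply Finset.sum_congr rfl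
  intro i _
  ring

theorem symp_preserve {F : Type*} [Field F] (m : ℕ) (A : Matrix (Fin m ⊕ Fin m) (Fin m ⊕ Fin m) F)
    (hA : A ∈ Matrix.symplecticGroup (Fin m) F) (u v : Fin m ⊕ Fin m → F) :
    Cfsg.sympForm m F (A *ᵥ u) (A *ᵥ v) = Cfsg.sympForm m F u v := by
  unfold Cfsg.sympForm
  have h := (SymplecticGroup.mem_iff'.mp hA)
  rw [Matrix.mulVec_mulVec, Matrix.dotProduct_mulVec, Matrix.vecMul_mulVec, ← Matrix.dotProduct_mulVec,
    ← Matrix.mul_assoc, h]

/-- For an involution t of the symplectic group Sp_{2m}(F), m ≥ 2, F a finite field of characteristic two (matrices A with A J Aᵀ = J acting on column vectors, alternating form f(u, v) = u ⬝ (J v)): the set V(t) of vectors v with f(v, t v) = 0 has either q^{2m} or q^{2m−1} elements, q the order of F (it is a subspace of codimension at most 1), and if it is the whole space then t − 1 has even rank. -/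
theorem result {F : Type*} [Field F] [Fintype F] [CharP F 2] {m : ℕ} (hm : 2 ≤ m) (a : ↥(Matrix.symplecticGroup (Fin m) F)) (ha : orderOf a = 2) :
    (Nat.card {v : Fin m ⊕ Fin m → F // Cfsg.sympForm m F v (Matrix.mulVec ((a : ↥(Matrix.symplecticGroup (Fin m) F)) : Matrix (Fin m ⊕ Fin m) (Fin m ⊕ Fin m) F) v) = 0} = Fintype.card F ^ (2 * m) ∨ Nat.card {v : Fin m ⊕ Fin m → F // Cfsg.sympForm m F v (Matrix.mulVec ((a : ↥(Matrix.symplecticGroup (Fin m) F)) : Matrix (Fin m ⊕ Fin m) (Fin m ⊕ Fin m) F) v) = 0} * Fintype.card F = Fintype.card F ^ (2 * m)) ∧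
    ((∀ v : Fin m ⊕ Fin m → F, Cfsg.sympForm m F v (Matrix.mulVec ((a : ↥(Matrix.symplecticGroup (Fin m) F)) : Matrix (Fin m ⊕ Fin m) (Fin m ⊕ Fin m) F) v) = 0) → Even (((a : ↥(Matrix.symplecticGroup (Fin m) F)) : Matrix (Fin m ⊕ Fin m) (Fin m ⊕ Fin m) F) - 1).rank) := by
  obtain ⟨A, hA⟩ := a
  have hAA : A * A = 1 := by
    have := pow_orderOf_eq_one (⟨A, hA⟩ : ↥(Matrix.symplecticGroup (Fin m) F))
    rw [ha, pow_two] at this
    exact congrArg Subtype.val this
  show (Nat.card {v : Fin m ⊕ Fin m → F // Cfsg.sympForm m F v (A *ᵥ v) = 0} = Fintype.card F ^ (2 * m) ∨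
      Nat.card {v : Fin m ⊕ Fin m → F // Cfsg.sympForm m F v (A *ᵥ v) = 0} * Fintype.card F = Fintype.card F ^ (2 * m)) ∧
    ((∀ v : Fin m ⊕ Fin m → F, Cfsg.sympForm m F v (A *ᵥ v) = 0) → Even (A - 1).rank)
  have hcardV : Nat.card (Fin m ⊕ Fin m → F) = Fintype.card F ^ (2 * m) := by
    rw [Nat.card_eq_fintype_card, Fintype.card_fun, Fintype.card_sum, Fintype.card_fin, two_mul]
  -- bilinearity facts
  have hadd_left : ∀ u v w : Fin m ⊕ Fin m → F, Cfsg.sympForm m F (u + v) w = Cfsg.sympForm m F u w + Cfsg.sympForm m F v w := by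
    intro u v w; unfold Cfsg.sympForm; rw [add_dotProduct]
  have hadd_right : ∀ u v w : Fin m ⊕ Fin m → F, Cfsg.sympForm m F u (v + w) = Cfsg.sympForm m F u v + Cfsg.sympForm m F u w := by
    intro u v w; unfold Cfsg.sympForm; rw [Matrix.mulVec_add, dotProduct_add]
  have hsmul_left : ∀ (c : F) (u w : Fin m ⊕ Fin m → F), Cfsg.sympForm m F (c • u) w = c * Cfsg.sympForm m F u w := by
    intro c u w; unfold Cfsg.sympForm; rw [smul_dotProduct, smul_eq_mul]
  have hsmul_right : ∀ (c : F) (u w : Fin m ⊕ Fin m → F), Cfsg.sympForm m F u (c • w) = c * Cfsg.sympForm m F u w := by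
    intro c u w; unfold Cfsg.sympForm; rw [Matrix.mulVec_smul, dotProduct_smul, smul_eq_mul]
  have hskew : ∀ u v : Fin m ⊕ Fin m → F, Cfsg.sympForm m F u v = - Cfsg.sympForm m F v u := by
    intro u v
    have h := sympForm_self m (u + v)
    rw [hadd_left, hadd_right, hadd_right, sympForm_self, sympForm_self] at h
    simp only [zero_add, add_zero] at h
    exact eq_neg_of_add_eq_zero_left h
  have hcross : ∀ u v : Fin m ⊕ Fin m → F, Cfsg.sympForm m F u (A *ᵥ v) + Cfsg.sympForm m F v (A *ᵥ u) = 0 := by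
    intro u v
    have h1 : Cfsg.sympForm m F v (A *ᵥ u) = - Cfsg.sympForm m F (A *ᵥ u) v := hskew _ _
    have h2 : Cfsg.sympForm m F (A *ᵥ u) v = Cfsg.sympForm m F (A *ᵥ (A *ᵥ u)) (A *ᵥ v) := (symp_preserve m A hA _ _).symm
    rw [h1, h2, Matrix.mulVec_mulVec, hAA, Matrix.one_mulVec, add_neg_cancel]
  let g : (Fin m ⊕ Fin m → F) →+ F :=
    { toFun := fun v => Cfsg.sympForm m F v (A *ᵥ v)
      map_zero' := by
        show Cfsg.sympForm m F 0 (A *ᵥ 0) = 0
        unfold Cfsg.sympForm; simp
      map_add' := by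
        intro u v
        show Cfsg.sympForm m F (u + v) (A *ᵥ (u + v)) = Cfsg.sympForm m F u (A *ᵥ u) + Cfsg.sympForm m F v (A *ᵥ v)
        rw [Matrix.mulVec_add, hadd_left, hadd_right, hadd_right]
        have := hcross u v
        linear_combination this }
  have hg : ∀ v, g v = Cfsg.sympForm m F v (A *ᵥ v) := fun v => rfl
  have hgsmul : ∀ (c : F) v, g (c • v) = c * c * g v := by
    intro c v
    rw [hg, hg, Matrix.mulVec_smul, hsmul_left, hsmul_right]
    ring
  constructor
  · by_cases hall : ∀ v, g v = 0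
    · left
      rw [← hcardV]
      exact Nat.card_congr (Equiv.subtypeUnivEquiv hall)
    · right
      push_neg at hall
      obtain ⟨v0, hv0⟩ := hall
      have hsq : ∀ x : F, IsSquare x :=
        FiniteField.isSquare_of_char_two (CharP.ringChar_of_prime_eq_zero Nat.prime_two (CharTwo.two_eq_zero))
      have hrange : g.range = ⊤ := by
        rw [eq_top_iff]
        intro x _
        obtain ⟨c, hc⟩ := hsq (x / g v0)
        refine ⟨c • v0, ?_⟩
        rw [hgsmul, ← hc]
        field_simp
      have h1 := AddSubgroup.card_mul_index g.ker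
      rw [AddSubgroup.index_ker, hrange, hcardV] at h1
      have h2 : Nat.card (⊤ : AddSubgroup F) = Fintype.card F := by
        rw [Nat.card_congr (AddSubgroup.topEquiv (G := F)).toEquiv, Nat.card_eq_fintype_card]
      rw [h2] at h1
      exact h1
  · intro hall
    have hS : ∀ v : Fin m ⊕ Fin m → F, v ⬝ᵥ (Matrix.J (Fin m) F * (A - 1)) *ᵥ v = 0 := by
      intro v
      rw [← Matrix.mulVec_mulVec, Matrix.sub_mulVec, Matrix.one_mulVec, Matrix.mulVec_sub, dotProduct_sub]
      have h1 := hall v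
      have h2 := sympForm_self m v
      unfold Cfsg.sympForm at h1 h2
      rw [h1, h2, sub_zero]
    have := even_rank_of_alt _ hS
    rwa [Matrix.rank_mul_eq_right_of_isUnit_det _ _ (Matrix.isUnit_det_J (Fin m) F)] at this

end Cfsg.Agent.S2167
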