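import Mathlib
import Cfsg.Statements.S2169
import Cfsg.Agent.Lib.Helper44.Dickson
import Cfsg.Agent.Lib.Helper51.Gram

set_option autoImplicit false
open Cfsg

namespace Cfsg.Agent.S2169

open Cfsg.Agent.Lib.Helper51 Cfsg.Agent.Lib.Helper44

theorem result_aux {F : Type*} [Field F] [Fintype F] [CharP F 2] {m : ℕ} (hm : 4 ≤ m) :
    ∀ t : ↥(Cfsg.isometryGroup F (Cfsg.quadFormPlus m F)),
    t ∈ Cfsg.Omega F (Cfsg.quadFormPlus m F) ↔ Even ((((t : ↥(Cfsg.isometryGroup F (Cfsg.quadFormPlus m F))) : GL (Fin m ⊕ Fin m) F) : Matrix (Fin m ⊕ Fin m) (Fin m ⊕ Fin m) F) - 1).rank := by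
  have h2 : (2 : F) = 0 := CharTwo.two_eq_zero
  have hQ : (QuadraticMap.polarBilin (QPlus m F)).Nondegenerate := by
    apply nondegenerate_of_det_gram_ne_zero
    rw [det_gram_QPlus]
    exact pow_ne_zero _ (neg_ne_zero.mpr one_ne_zero)
  have hcard : Fintype.card F ≠ 2 ∨ Fintype.card (Fin m ⊕ Fin m) ≠ 4 := by
    right
    simp only [Fintype.card_sum, Fintype.card_fin]
    omega
  haveI : Nonempty (Fin m ⊕ Fin m) := ⟨Sum.inl ⟨0, by omega⟩⟩
  have key := mem_commutator_iff_even_rank (QPlus m F) h2 hQ hcard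
  rw [coe_QPlus] at key
  exact key

/-- For the hyperbolic quadratic form Σ x_i y_i in dimension 2m over a finite field F of characteristic two, m ≥ 4 (plus type): an element of order 2 of the full isometry group O lies in the commutator subgroup Ω of O exactly when t − 1 has even rank. -/
theorem result {F : Type*} [Field F] [Fintype F] [CharP F 2] {m : ℕ} (hm : 4 ≤ m) (t : ↥(Cfsg.isometryGroup F (Cfsg.quadFormPlus m F))) (ht : orderOf t = 2) :
    t ∈ Cfsg.Omega F (Cfsg.quadFormPlus m F) ↔ Even ((((t : ↥(Cfsg.isometryGroup F (Cfsg.quadFormPlus m F))) : GL (Fin m ⊕ Fin m) F) : Matrix (Fin m ⊕ Fin m) (Fin m ⊕ Fin m) F) - 1).rank := by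
  exact result_aux hm t

end Cfsg.Agent.S2169
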