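import Cfsg.Statements.S2172
import Mathlib
import Cfsg.Agent.Lib.Helper52.InvolTwo
import Cfsg.Agent.Lib.Helper52.OmegaPlus

set_option autoImplicit false
open Cfsg

namespace Cfsg.Agent.S2172

open Cfsg.Agent.Lib.Helper52 Cfsg.Agent.Lib.Helper51 Module

theorem conj_range {ι : Type} [Fintype ι] [DecidableEq ι] {F : Type*} [Field F]
    (Q : QuadraticForm F (ι → F)) (t s h : ↥(Cfsg.isometryGroup F ⇑Q)) (hh : h * t * h⁻¹ = s) :
    LinearMap.range (Matrix.toLin' (((s : Matrix.GeneralLinearGroup ι F) : Matrix ι ι F) - 1))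
      = (LinearMap.range (Matrix.toLin' (((t : Matrix.GeneralLinearGroup ι F) :
          Matrix ι ι F) - 1))).map
        (Matrix.mulVecLin ((h : Matrix.GeneralLinearGroup ι F) : Matrix ι ι F)) := by
  have hmul : h * t = s * h := by rw [← hh]; group
  have hM : ((h : Matrix.GeneralLinearGroup ι F) : Matrix ι ι F)
      * ((t : Matrix.GeneralLinearGroup ι F) : Matrix ι ι F)
      = ((s : Matrix.GeneralLinearGroup ι F) : Matrix ι ι F)
        * ((h : Matrix.GeneralLinearGroup ι F) : Matrix ι ι F) := by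
    rw [← coe_mul', ← coe_mul', hmul]
  have key : ∀ x : ι → F, ((h : Matrix.GeneralLinearGroup ι F) : Matrix ι ι F).mulVec
      ((((t : Matrix.GeneralLinearGroup ι F) : Matrix ι ι F) - 1).mulVec x)
      = (((s : Matrix.GeneralLinearGroup ι F) : Matrix ι ι F) - 1).mulVec
        (((h : Matrix.GeneralLinearGroup ι F) : Matrix ι ι F).mulVec x) := by
    intro x
    rw [Matrix.mulVec_mulVec, Matrix.mulVec_mulVec, Matrix.mul_sub, Matrix.sub_mul, hM, mul_one,
      one_mul]
  apply le_antisymm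
  · rintro y ⟨x, rfl⟩
    refine ⟨(((t : Matrix.GeneralLinearGroup ι F) : Matrix ι ι F) - 1).mulVec
      ((((h⁻¹ : ↥(Cfsg.isometryGroup F ⇑Q)) : Matrix.GeneralLinearGroup ι F) :
        Matrix ι ι F).mulVec x), ⟨_, rfl⟩, ?_⟩
    rw [Matrix.mulVecLin_apply, key, coe_inv_mulVec, Matrix.toLin'_apply]
  · rintro y ⟨z, ⟨x, rfl⟩, rfl⟩
    refine ⟨((h : Matrix.GeneralLinearGroup ι F) : Matrix ι ι F).mulVec x, ?_⟩
    rw [Matrix.toLin'_apply, Matrix.mulVecLin_apply, Matrix.toLin'_apply, key]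

/-- Splitting of involution classes from O to Ω for the hyperbolic quadratic form Q = Σ x_i y_i in dimension 2m over a finite field F of characteristic two, m ≥ 4. Let t, s be involutions of the commutator subgroup Ω that are conjugate in the full isometry group O. If it is not the case that t − 1 has rank m and Q(v + t v) = 0 for every vector v, then t and s are conjugate by an element of Ω. If t − 1 has rank m and Q(v + t v) = 0 for all v, then t and s are conjugate by an element of Ω exactly when the intersection of the images of t − 1 and s − 1 has even dimension (so the class of t in O meets at most two classes of Ω). -/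
theorem result {F : Type*} [Field F] [Fintype F] [CharP F 2] {m : ℕ} (hm : 4 ≤ m) (t s : ↥(Cfsg.isometryGroup F (Cfsg.quadFormPlus m F))) (ht : orderOf t = 2) (hs : orderOf s = 2) (htO : t ∈ Cfsg.Omega F (Cfsg.quadFormPlus m F)) (hsO : s ∈ Cfsg.Omega F (Cfsg.quadFormPlus m F)) (hconj : IsConj t s) :
    (¬ (((((t : ↥(Cfsg.isometryGroup F (Cfsg.quadFormPlus m F))) : GL (Fin m ⊕ Fin m) F) : Matrix (Fin m ⊕ Fin m) (Fin m ⊕ Fin m) F) - 1).rank = m ∧ ∀ v : Fin m ⊕ Fin m → F, Cfsg.quadFormPlus m F (v + Matrix.mulVec (((t : ↥(Cfsg.isometryGroup F (Cfsg.quadFormPlus m F))) : GL (Fin m ⊕ Fin m) F) : Matrix (Fin m ⊕ Fin m) (Fin m ⊕ Fin m) F) v) = 0) →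
      ∃ g ∈ Cfsg.Omega F (Cfsg.quadFormPlus m F), g * t * g⁻¹ = s) ∧
    ((((((t : ↥(Cfsg.isometryGroup F (Cfsg.quadFormPlus m F))) : GL (Fin m ⊕ Fin m) F) : Matrix (Fin m ⊕ Fin m) (Fin m ⊕ Fin m) F) - 1).rank = m ∧ ∀ v : Fin m ⊕ Fin m → F, Cfsg.quadFormPlus m F (v + Matrix.mulVec (((t : ↥(Cfsg.isometryGroup F (Cfsg.quadFormPlus m F))) : GL (Fin m ⊕ Fin m) F) : Matrix (Fin m ⊕ Fin m) (Fin m ⊕ Fin m) F) v) = 0) →
      ((∃ g ∈ Cfsg.Omega F (Cfsg.quadFormPlus m F), g * t * g⁻¹ = s) ↔
        Even (Module.finrank F ↥(LinearMap.range (Matrix.toLin' ((((t : ↥(Cfsg.isometryGroup F (Cfsg.quadFormPlus m F))) : GL (Fin m ⊕ Fin m) F) : Matrix (Fin m ⊕ Fin m) (Fin m ⊕ Fin m) F) - 1)) ⊓ LinearMap.range (Matrix.toLin' ((((s : ↥(Cfsg.isometryGroup F (Cfsg.quadFormPlus m F))) : GL (Fin m ⊕ Fin m) F) : Matrix (Fin m ⊕ Fin m) (Fin m ⊕ Fin m) F) - 1)))))) := by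
  classical
  revert t s
  rw [← coe_QPlus m F]
  intro t s ht hs htO hsO hconj
  have h2 : (2 : F) = 0 := CharTwo.two_eq_zero
  have hQ : (QuadraticMap.polarBilin (QPlus m F)).Nondegenerate := QPlus_nondegenerate
  have hcard : Fintype.card F ≠ 2 ∨ Fintype.card (Fin m ⊕ Fin m) ≠ 4 := by
    right
    simp only [Fintype.card_sum, Fintype.card_fin]
    omega
  obtain ⟨g₀, hg₀⟩ := isConj_iff.mp hconj
  have htt : t * t = 1 := by
    have h1 := pow_orderOf_eq_one t
    rw [ht] at h1
    rw [← pow_two]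
    exact h1
  set M := ((t : Matrix.GeneralLinearGroup (Fin m ⊕ Fin m) F) :
    Matrix (Fin m ⊕ Fin m) (Fin m ⊕ Fin m) F) with hM
  have hplus : ∀ v : Fin m ⊕ Fin m → F, v + M.mulVec v = (M - 1).mulVec v := by
    intro v
    rw [Matrix.sub_mulVec, Matrix.one_mulVec, sub_eq_add_neg, add_comm]
    congr 1
    funext i
    rw [Pi.neg_apply]
    linear_combination (v i) * h2
  constructor
  · intro hA
    rcases exists_fixed_nonsingular_or (QPlus m F) h2 hQ t htt with
      ⟨u, hu, htu⟩ | ⟨hts, hfr, hrange⟩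
    · exact exists_conj_mem_commutator_two _ h2 hQ hcard t s g₀ hg₀ u hu htu
    · exfalso
      apply hA
      constructor
      · have hrk := finrank_fixSpace_add_rank M
        rw [Fintype.card_sum, Fintype.card_fin] at hfr hrk
        rw [← hM] at hfr
        omega
      · intro v
        apply hts
        rw [← hrange, hplus]
        exact ⟨v, rfl⟩
  · rintro ⟨hrank, hQv⟩
    set Xt := LinearMap.range (Matrix.toLin' (M - 1)) with hXt
    have hXt_fr : finrank F Xt = m := hrank
    have hXt0 : ∀ x ∈ Xt, QPlus m F x = 0 := by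
      rintro x ⟨v, rfl⟩
      rw [Matrix.toLin'_apply, ← hplus]
      exact hQv v
    have hmeven : Even m := by
      rw [← hrank]
      exact (mem_commutator_iff_even_rank_two (QPlus m F) h2 hQ hcard t).mp htO
    constructor
    · rintro ⟨g, hgΩ, hg⟩
      obtain ⟨vs, hvs, rfl, hev⟩ :=
        exists_even_reflList_of_mem_commutator (QPlus m F) hQ hcard hgΩ
      have hpar := (parity_reflList vs hvs Xt hXt_fr hXt0).mpr hev
      rw [← conj_range (QPlus m F) t s _ hg] at hpar
      have hle : finrank F ↥(Xt ⊓ LinearMap.range (Matrix.toLin'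
          (((s : Matrix.GeneralLinearGroup (Fin m ⊕ Fin m) F) :
            Matrix (Fin m ⊕ Fin m) (Fin m ⊕ Fin m) F) - 1))) ≤ m := by
        exact le_trans (Submodule.finrank_mono inf_le_left) (le_of_eq hXt_fr)
      rw [Nat.even_sub hle] at hpar
      exact hpar.mp hmeven
    · intro hd
      obtain ⟨vs, hvs, rfl⟩ := exists_reflList (QPlus m F) hQ hcard g₀
      have hpar := parity_reflList vs hvs Xt hXt_fr hXt0
      rw [← conj_range (QPlus m F) t s _ hg₀] at hpar
      have hle : finrank F ↥(Xt ⊓ LinearMap.range (Matrix.toLin'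
          (((s : Matrix.GeneralLinearGroup (Fin m ⊕ Fin m) F) :
            Matrix (Fin m ⊕ Fin m) (Fin m ⊕ Fin m) F) - 1))) ≤ m := by
        exact le_trans (Submodule.finrank_mono inf_le_left) (le_of_eq hXt_fr)
      refine ⟨_, reflList_mem_commutator_two (QPlus m F) h2 hQ hcard vs hvs (hpar.mp ?_), hg₀⟩
      rw [Nat.even_sub hle]
      exact ⟨fun _ => hd, fun _ => hmeven⟩

end Cfsg.Agent.S2172
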