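import Cfsg.Statements.S2173
import Mathlib
import Cfsg.Agent.Lib.Helper52.InvolTwo
import Cfsg.Agent.Lib.Helper44.OrthForms

set_option autoImplicit false
open Cfsg

namespace Cfsg.Agent.S2173

open Cfsg.Agent.Lib.Helper52 Cfsg.Agent.Lib.Helper51

/-- For the quadratic form Σ x_i y_i + (z₁² + c z₁ z₂ + d z₂²) in dimension 2m with anisotropic binary part over a finite field F of characteristic two, m ≥ 4 (minus type): two involutions of the commutator subgroup Ω that are conjugate in the full isometry group O are conjugate by an element of Ω (no class of involutions of O inside Ω splits). -/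
theorem result {F : Type*} [Field F] [Fintype F] [CharP F 2] {m : ℕ} (hm : 4 ≤ m) (c d : F) (hcd : ∀ z₁ z₂ : F, z₁ ^ 2 + c * z₁ * z₂ + d * z₂ ^ 2 = 0 → z₁ = 0 ∧ z₂ = 0) (t s : ↥(Cfsg.isometryGroup F (Cfsg.quadFormMinus (m - 1) F c d))) (ht : orderOf t = 2) (hs : orderOf s = 2) (htO : t ∈ Cfsg.Omega F (Cfsg.quadFormMinus (m - 1) F c d)) (hsO : s ∈ Cfsg.Omega F (Cfsg.quadFormMinus (m - 1) F c d)) (hconj : IsConj t s) :
    ∃ g ∈ Cfsg.Omega F (Cfsg.quadFormMinus (m - 1) F c d), g * t * g⁻¹ = s := by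
  classical
  revert t s
  rw [← coe_QMinus (m - 1) F c d]
  intro t s ht hs htO hsO hconj
  have h2 : (2 : F) = 0 := CharTwo.two_eq_zero
  have hQ := Cfsg.Agent.Lib.Helper44.nondeg_QMinus_two (m - 1) c d hcd
  have hcard : Fintype.card F ≠ 2 ∨ Fintype.card ((Fin (m - 1) ⊕ Fin (m - 1)) ⊕ Fin 2) ≠ 4 := by
    right
    simp only [Fintype.card_sum, Fintype.card_fin]
    omega
  obtain ⟨g, hg⟩ := isConj_iff.mp hconj
  have htt : t * t = 1 := by
    have h1 := pow_orderOf_eq_one t
    rw [ht] at h1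
    rw [← pow_two]
    exact h1
  rcases exists_fixed_nonsingular_or (QMinus (m - 1) F c d) h2 hQ t htt with
    ⟨u, hu, htu⟩ | ⟨hts, hfr, -⟩
  · exact exists_conj_mem_commutator_two _ h2 hQ hcard t s g hg u hu htu
  · exfalso
    have hle := finrank_le_of_ts_QMinus c d hcd hQ _ hts
    simp only [Fintype.card_sum, Fintype.card_fin] at hfr
    omega

end Cfsg.Agent.S2173
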