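import Cfsg.Statements.S2174
import Cfsg.Agent.Lib.Helper25.InvF4

set_option autoImplicit false
open Cfsg

namespace Cfsg.Agent.S2174

/-- Conjugacy classes of involutions in the Chevalley group of type F₄ over a finite field F of characteristic two (the matrix group generated by the root elements x_r(t)). In this problem's root numbering for type F₄ (the Chevalley data module; fundamental roots p₁, p₂ short and p₃, p₄ long; roots indexed by their coefficient vectors in increasing order) let r = 47 be the highest root (2,4,3,2), s = 44 the highest short root (2,3,2,1), and α = 39 = (1,2,2,1), β = 45 = (2,4,2,1), an orthogonal short/long pair; consider the four elements x_r(1), x_s(1), x_r(1)x_s(1), x_α(1)x_β(1). Then: each invertible matrix equal to one of these four products lies in the group and has order 2; every element of order 2 of the group is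 conjugate in the group to one of them; and no two of them are conjugate in the group (so, the four matrices being distinct, the group has exactly four conjugacy classes of involutions). -/
theorem result {F : Type*} [Field F] [Fintype F] [CharP F 2] :
    (∀ y : GL Cfsg.Lie.chevF4.Idx F, ((y : GL Cfsg.Lie.chevF4.Idx F) : Matrix Cfsg.Lie.chevF4.Idx Cfsg.Lie.chevF4.Idx F) ∈ [Cfsg.Lie.chevF4.x F 47 1, Cfsg.Lie.chevF4.x F 44 1, Cfsg.Lie.chevF4.x F 47 1 * Cfsg.Lie.chevF4.x F 44 1, Cfsg.Lie.chevF4.x F 39 1 * Cfsg.Lie.chevF4.x F 45 1] → y ∈ Cfsg.Lie.chevF4.group F ∧ orderOf y = 2) ∧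
    (∀ g ∈ Cfsg.Lie.chevF4.group F, orderOf g = 2 → ∃ y ∈ Cfsg.Lie.chevF4.group F, ((y : GL Cfsg.Lie.chevF4.Idx F) : Matrix Cfsg.Lie.chevF4.Idx Cfsg.Lie.chevF4.Idx F) ∈ [Cfsg.Lie.chevF4.x F 47 1, Cfsg.Lie.chevF4.x F 44 1, Cfsg.Lie.chevF4.x F 47 1 * Cfsg.Lie.chevF4.x F 44 1, Cfsg.Lie.chevF4.x F 39 1 * Cfsg.Lie.chevF4.x F 45 1] ∧ ∃ h ∈ Cfsg.Lie.chevF4.group F, h * g * h⁻¹ = y) ∧
    (∀ y₁ ∈ Cfsg.Lie.chevF4.group F, ∀ y₂ ∈ Cfsg.Lie.chevF4.group F, ((y₁ : GL Cfsg.Lie.chevF4.Idx F) : Matrix Cfsg.Lie.chevF4.Idx Cfsg.Lie.chevF4.Idx F) ∈ [Cfsg.Lie.chevF4.x F 47 1, Cfsg.Lie.chevF4.x F 44 1, Cfsg.Lie.chevF4.x F 47 1 * Cfsg.Lie.chevF4.x F 44 1, Cfsg.Lie.chevF4.x F 39 1 * Cfsg.Lie.chevF4.x F 45 1] → ((y₂ : GL Cfsg.Lie.chevF4.Idx F) : Matrix Cfsg.Lie.chevF4.Idx Cfsg.Lie.chevF4.Idx F) ∈ [Cfsg.Lie.chevF4.x F 47 1, Cfsg.Lie.chevF4.x F 44 1, Cfsg.Lie.chevF4.x F 47 1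 * Cfsg.Lie.chevF4.x F 44 1, Cfsg.Lie.chevF4.x F 39 1 * Cfsg.Lie.chevF4.x F 45 1] →
      (∃ h ∈ Cfsg.Lie.chevF4.group F, h * y₁ * h⁻¹ = y₂) → ((y₁ : GL Cfsg.Lie.chevF4.Idx F) : Matrix Cfsg.Lie.chevF4.Idx Cfsg.Lie.chevF4.Idx F) = ((y₂ : GL Cfsg.Lie.chevF4.Idx F) : Matrix Cfsg.Lie.chevF4.Idx Cfsg.Lie.chevF4.Idx F)) := by
  have hmem : ∀ M : Matrix Cfsg.Lie.chevF4.Idx Cfsg.Lie.chevF4.Idx F,
      M ∈ [Cfsg.Lie.chevF4.x F 47 1, Cfsg.Lie.chevF4.x F 44 1, Cfsg.Lie.chevF4.x F 47 1 * Cfsg.Lie.chevF4.x F 44 1, Cfsg.Lie.chevF4.x F 39 1 * Cfsg.Lie.chevF4.x F 45 1] ↔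
      ∃ Y ∈ Cfsg.Agent.Lib.Helper25.f4Std, M = Cfsg.Agent.Lib.Helper25.xProd F Cfsg.Lie.chevF4 Y := by
    intro M
    simp [Cfsg.Agent.Lib.Helper25.f4Std, Cfsg.Agent.Lib.Helper25.xProd, Matrix.mul_assoc]
  refine ⟨?_, ?_, ?_⟩
  · intro y hy
    obtain ⟨Y, hY, e⟩ := (hmem _).1 hy
    exact Cfsg.Agent.Lib.Helper25.f4_part1 Y hY y e
  · intro g hg h2
    obtain ⟨c, hc, Y, hY, h⟩ := Cfsg.Agent.Lib.Helper25.f4_class g hg h2
    exact ⟨c * g * c⁻¹, mul_mem (mul_mem hc hg) (inv_mem hc), (hmem _).2 ⟨Y, hY, h⟩, c, hc, rfl⟩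
  · intro y₁ _ y₂ _ hy₁ hy₂ hconj
    obtain ⟨h, hhm, hh⟩ := hconj
    obtain ⟨Y₁, hY₁, e₁⟩ := (hmem _).1 hy₁
    obtain ⟨Y₂, hY₂, e₂⟩ := (hmem _).1 hy₂
    have e1 : ((h : GL Cfsg.Lie.chevF4.Idx F) : Matrix Cfsg.Lie.chevF4.Idx Cfsg.Lie.chevF4.Idx F) *
        (y₁ : Matrix Cfsg.Lie.chevF4.Idx Cfsg.Lie.chevF4.Idx F) =
        (y₂ : Matrix Cfsg.Lie.chevF4.Idx Cfsg.Lie.chevF4.Idx F) *
          (h : Matrix Cfsg.Lie.chevF4.Idx Cfsg.Lie.chevF4.Idx F) := by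
      have : h * y₁ = y₂ * h := by rw [← hh]; group
      rw [← Units.val_mul, ← Units.val_mul, this]
    by_cases hYY : Y₁ = Y₂
    · rw [e₁, e₂, hYY]
    · exact absurd (by rw [← e₁, ← e₂]; exact e1)
        (Cfsg.Agent.Lib.Helper25.f4_not_conj Y₁ hY₁ Y₂ hY₂ hYY h hhm)

end Cfsg.Agent.S2174
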