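import Cfsg.Statements.S2175
import Cfsg.Agent.Lib.Helper25.InvE6

set_option autoImplicit false
open Cfsg

namespace Cfsg.Agent.S2175

/-- Conjugacy classes of involutions in the Chevalley group of type E₆ over a finite field F of characteristic two (the matrix group generated by the root elements x_r(t)). In this problem's root numbering for type E₆ (the Chevalley data module; fundamental roots numbered so that p₁–p₃–p₄–p₅–p₆ is the long chain of the diagram and p₂ is joined to p₄; roots indexed by their coefficient vectors in increasing order) let r = 71 be the highest root (1,2,2,3,2,1), α = 68 = (1,1,2,2,1,1), β = 66 = (1,1,1,2,2,1), γ = 55 = (0,1,1,2,2,1), δ = 65 = (1,1,1,2,1,1), ε = 67 = (1,1,2,2,1,0) (α ⊥ β and γ, δ, ε pairwise orthogonal); consider x_r(1), x_α(1)x_β(1) and x_γ(1)x_δ(1)x_ε(1). Then: each invertible matrix equal to one of these three products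 lies in the group and has order 2; every element of order 2 of the group is conjugate in the group to one of them; and no two of them are conjugate in the group (so, the three matrices being distinct, the group has exactly three conjugacy classes of involutions). -/
theorem result {F : Type*} [Field F] [Fintype F] [CharP F 2] :
    (∀ y : GL Cfsg.Lie.chevE6.Idx F, ((y : GL Cfsg.Lie.chevE6.Idx F) : Matrix Cfsg.Lie.chevE6.Idx Cfsg.Lie.chevE6.Idx F) ∈ [Cfsg.Lie.chevE6.x F 71 1, Cfsg.Lie.chevE6.x F 68 1 * Cfsg.Lie.chevE6.x F 66 1, Cfsg.Lie.chevE6.x F 55 1 * Cfsg.Lie.chevE6.x F 65 1 * Cfsg.Lie.chevE6.x F 67 1] → y ∈ Cfsg.Lie.chevE6.group F ∧ orderOf y = 2) ∧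
    (∀ g ∈ Cfsg.Lie.chevE6.group F, orderOf g = 2 → ∃ y ∈ Cfsg.Lie.chevE6.group F, ((y : GL Cfsg.Lie.chevE6.Idx F) : Matrix Cfsg.Lie.chevE6.Idx Cfsg.Lie.chevE6.Idx F) ∈ [Cfsg.Lie.chevE6.x F 71 1, Cfsg.Lie.chevE6.x F 68 1 * Cfsg.Lie.chevE6.x F 66 1, Cfsg.Lie.chevE6.x F 55 1 * Cfsg.Lie.chevE6.x F 65 1 * Cfsg.Lie.chevE6.x F 67 1] ∧ ∃ h ∈ Cfsg.Lie.chevE6.group F, h * g * h⁻¹ = y) ∧
    (∀ y₁ ∈ Cfsg.Lie.chevE6.group F, ∀ y₂ ∈ Cfsg.Lie.chevE6.group F, ((y₁ : GL Cfsg.Lie.chevE6.Idx F) : Matrix Cfsg.Lie.chevE6.Idx Cfsg.Lie.chevE6.Idx F) ∈ [Cfsg.Lie.chevE6.x F 71 1, Cfsg.Lie.chevE6.x F 68 1 * Cfsg.Lie.chevE6.x F 66 1, Cfsg.Lie.chevE6.x F 55 1 * Cfsg.Lie.chevE6.x F 65 1 * Cfsg.Lie.chevE6.x F 67 1] → ((y₂ : GL Cfsg.Lie.chevE6.Idx F) : Matrix Cfsg.Lie.chevE6.Idx Cfsg.Lie.chevE6.Idx F) ∈ [Cfsg.Lie.chevE6.x F 71 1, Cfsg.Lie.chevE6.x F 68 1 * Cfsg.Lie.chevE6.x F 66 1, Cfsg.Lie.chevE6.x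 F 55 1 * Cfsg.Lie.chevE6.x F 65 1 * Cfsg.Lie.chevE6.x F 67 1] →
      (∃ h ∈ Cfsg.Lie.chevE6.group F, h * y₁ * h⁻¹ = y₂) → ((y₁ : GL Cfsg.Lie.chevE6.Idx F) : Matrix Cfsg.Lie.chevE6.Idx Cfsg.Lie.chevE6.Idx F) = ((y₂ : GL Cfsg.Lie.chevE6.Idx F) : Matrix Cfsg.Lie.chevE6.Idx Cfsg.Lie.chevE6.Idx F)) := by
  have hx1 : Cfsg.Agent.Lib.Helper25.xProd F Cfsg.Lie.chevE6 [71] = Cfsg.Lie.chevE6.x F 71 1 := by
    simp [Cfsg.Agent.Lib.Helper25.xProd]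
  have hx2 : Cfsg.Agent.Lib.Helper25.xProd F Cfsg.Lie.chevE6 [68, 66] =
      Cfsg.Lie.chevE6.x F 68 1 * Cfsg.Lie.chevE6.x F 66 1 := by
    simp [Cfsg.Agent.Lib.Helper25.xProd]
  have hx3 : Cfsg.Agent.Lib.Helper25.xProd F Cfsg.Lie.chevE6 [55, 65, 67] =
      Cfsg.Lie.chevE6.x F 55 1 * Cfsg.Lie.chevE6.x F 65 1 * Cfsg.Lie.chevE6.x F 67 1 := by
    simp [Cfsg.Agent.Lib.Helper25.xProd, Matrix.mul_assoc]
  refine ⟨?_, ?_, ?_⟩
  · intro y hy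
    simp only [List.mem_cons, List.not_mem_nil, or_false] at hy
    rcases hy with hy | hy | hy
    · exact Cfsg.Agent.Lib.Helper25.e6_part1 [71] (Or.inl rfl) y (hy.trans hx1.symm)
    · exact Cfsg.Agent.Lib.Helper25.e6_part1 [68, 66] (Or.inr (Or.inl rfl)) y (hy.trans hx2.symm)
    · exact Cfsg.Agent.Lib.Helper25.e6_part1 [55, 65, 67] (Or.inr (Or.inr rfl)) y (hy.trans hx3.symm)
  · intro g hg h2
    obtain ⟨c, hc, h⟩ := Cfsg.Agent.Lib.Helper25.e6_class g hg h2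
    refine ⟨c * g * c⁻¹, mul_mem (mul_mem hc hg) (inv_mem hc), ?_, c, hc, rfl⟩
    simp only [List.mem_cons, List.not_mem_nil, or_false]
    rcases h with h | h | h
    · exact Or.inl (h.trans hx1)
    · exact Or.inr (Or.inl (h.trans hx2))
    · exact Or.inr (Or.inr (h.trans hx3))
  · intro y₁ _ y₂ _ hy₁ hy₂ hconj
    obtain ⟨h, _, hh⟩ := hconj
    have e1 : ((h : GL Cfsg.Lie.chevE6.Idx F) : Matrix Cfsg.Lie.chevE6.Idx Cfsg.Lie.chevE6.Idx F) *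
        (y₁ : Matrix Cfsg.Lie.chevE6.Idx Cfsg.Lie.chevE6.Idx F) =
        (y₂ : Matrix Cfsg.Lie.chevE6.Idx Cfsg.Lie.chevE6.Idx F) *
          (h : Matrix Cfsg.Lie.chevE6.Idx Cfsg.Lie.chevE6.Idx F) := by
      have : h * y₁ = y₂ * h := by rw [← hh]; group
      rw [← Units.val_mul, ← Units.val_mul, this]
    have e2 : ((h⁻¹ : GL Cfsg.Lie.chevE6.Idx F) : Matrix Cfsg.Lie.chevE6.Idx Cfsg.Lie.chevE6.Idx F) *
        (y₂ : Matrix Cfsg.Lie.chevE6.Idx Cfsg.Lie.chevE6.Idx F) =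
        (y₁ : Matrix Cfsg.Lie.chevE6.Idx Cfsg.Lie.chevE6.Idx F) *
          ((h⁻¹ : GL Cfsg.Lie.chevE6.Idx F) : Matrix Cfsg.Lie.chevE6.Idx Cfsg.Lie.chevE6.Idx F) := by
      have : h⁻¹ * y₂ = y₁ * h⁻¹ := by rw [← hh]; group
      rw [← Units.val_mul, ← Units.val_mul, this]
    obtain ⟨n12, n13, n23⟩ := Cfsg.Agent.Lib.Helper25.e6_not_conj (F := F) h
    obtain ⟨m12, m13, m23⟩ := Cfsg.Agent.Lib.Helper25.e6_not_conj (F := F) h⁻¹
    simp only [List.mem_cons, List.not_mem_nil, or_false] at hy₁ hy₂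
    rcases hy₁ with hy₁ | hy₁ | hy₁ <;> rcases hy₂ with hy₂ | hy₂ | hy₂
    · rw [hy₁, hy₂]
    · exact absurd (by rw [hx1, hx2, ← hy₁, ← hy₂]; exact e1) n12
    · exact absurd (by rw [hx1, hx3, ← hy₁, ← hy₂]; exact e1) n13
    · exact absurd (by rw [hx1, hx2, ← hy₁, ← hy₂]; exact e2) m12
    · rw [hy₁, hy₂]
    · exact absurd (by rw [hx2, hx3, ← hy₁, ← hy₂]; exact e1) n23
    · exact absurd (by rw [hx1, hx3, ← hy₁, ← hy₂]; exact e2) m13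
    · exact absurd (by rw [hx2, hx3, ← hy₁, ← hy₂]; exact e2) m23
    · rw [hy₁, hy₂]

end Cfsg.Agent.S2175
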