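import Cfsg.Statements.S2185
import Cfsg.Agent.Lib.Helper99.TFChk6

set_option autoImplicit false
open Cfsg

namespace Cfsg.Agent.S2185

/-- In the group ²F₄(2) (realised inside the Chevalley group of type F₄ over the field with two elements, θ the identity) every element of order 2 lies in the commutator subgroup (the Tits group, of index 2): there are no involutions outside it. -/
theorem result (g : ↥(Cfsg.Lie.twistedF4 (ZMod 2) 1)) (hg : orderOf g = 2) :
    g ∈ commutator ↥(Cfsg.Lie.twistedF4 (ZMod 2) 1) := by
  have hgg : g * g = 1 := by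
    have h := pow_orderOf_eq_one g
    rwa [hg, pow_two] at h
  have h2 : g.1 * g.1 = 1 := by
    have h := congrArg Subtype.val hgg
    rw [Subgroup.coe_mul, Subgroup.coe_one] at h
    exact h
  have hD := Cfsg.Agent.Lib.Helper99.TF.involution_mem_Df g.1 g.2 h2
  obtain ⟨y, hy, hyg⟩ := Subgroup.mem_map.mp hD
  rw [Subgroup.subtype_apply] at hyg
  have e : y = g := Subtype.ext hyg
  rw [← e]
  exact hy

end Cfsg.Agent.S2185
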