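import Cfsg.Statements.S2222
import Mathlib
import Cfsg.Agent.Lib.Helper45.SwapMatching3

set_option autoImplicit false
set_option linter.style.haveILetI false
open Cfsg

namespace Cfsg.Agent.S2222

open Equiv Cfsg.Agent.Lib.Helper45
open scoped Pointwise

/-- Sylow 2-subgroups of alternating groups of degree at least 6: odd-order normalizing elements
are trivial -/
theorem alt_odd_normalizer_trivial (n : ℕ) (hn : 6 ≤ n) (S : Sylow 2 (alternatingGroup (Fin n)))
    (g : alternatingGroup (Fin n)) (hodd : Odd (orderOf g))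
    (hg : g ∈ Subgroup.normalizer
      ((S : Subgroup (alternatingGroup (Fin n))) : Set (alternatingGroup (Fin n)))) :
    g = 1 := by
  classical
  have hS' : IsPGroup 2 ((S : Subgroup (alternatingGroup (Fin n))).map
      (alternatingGroup (Fin n)).subtype) := S.isPGroup'.map _
  obtain ⟨T, hT⟩ := hS'.exists_le_sylow
  have factA : ∀ t : Perm (Fin n), t ∈ (T : Subgroup (Perm (Fin n))) →
      ∀ ht : t ∈ alternatingGroup (Fin n),
        (⟨t, ht⟩ : alternatingGroup (Fin n)) ∈ (S : Subgroup (alternatingGroup (Fin n))) := by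
    have h1 : IsPGroup 2 ((T : Subgroup (Perm (Fin n))).subgroupOf (alternatingGroup (Fin n))) :=
      T.isPGroup'.comap_subtype
    have h2 : (S : Subgroup (alternatingGroup (Fin n))) ≤
        (T : Subgroup (Perm (Fin n))).subgroupOf (alternatingGroup (Fin n)) := by
      intro s hs
      rw [Subgroup.mem_subgroupOf]
      exact hT ⟨s, hs, rfl⟩
    have h3 := S.is_maximal' h1 h2
    intro t ht htA
    rw [← h3, Subgroup.mem_subgroupOf]
    exact ht
  obtain ⟨e, hM⟩ := swaps_structure n (Fintype.card_fin n) T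
  -- normalizing elements preserve the swaps of T
  have hconj : ∀ y : alternatingGroup (Fin n), y ∈ Subgroup.normalizer
      ((S : Subgroup (alternatingGroup (Fin n))) : Set (alternatingGroup (Fin n))) →
      ∀ τ ∈ swapsIn (T : Subgroup (Perm (Fin n))),
        (y : Perm (Fin n)) * τ * (y : Perm (Fin n))⁻¹ ∈ swapsIn (T : Subgroup (Perm (Fin n))) := by
    intro y hy τ hτ
    have hsub := swaps_subset (X := Fin n) (by rw [Fintype.card_fin]; exact hn) T
      ((y : Perm (Fin n)) • T) (by
      intro t ht hsign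
      rw [Sylow.smul_def, Sylow.pointwise_smul_def,
        Subgroup.mem_pointwise_smul_iff_inv_smul_mem] at ht
      have h1 : (MulAut.conj (y : Perm (Fin n)))⁻¹ • t =
          (y : Perm (Fin n))⁻¹ * t * (y : Perm (Fin n)) := by
        rw [← map_inv, MulAut.smul_def, MulAut.conj_apply, inv_inv]
      rw [h1] at ht
      have h2 : (y : Perm (Fin n))⁻¹ * t * (y : Perm (Fin n)) ∈ alternatingGroup (Fin n) := by
        rw [Perm.mem_alternatingGroup, Perm.sign_mul, Perm.sign_mul, hsign, mul_one,
          ← Perm.sign_mul, inv_mul_cancel, Perm.sign_one]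
      have h3 := factA _ ht h2
      have h4 := (Subgroup.mem_normalizer_iff.mp hy _).mp h3
      have h5 : t = ((y * ⟨_, h2⟩ * y⁻¹ : alternatingGroup (Fin n)) : Perm (Fin n)) := by
        change t = (y : Perm (Fin n)) * ((y : Perm (Fin n))⁻¹ * t * (y : Perm (Fin n))) *
          (y : Perm (Fin n))⁻¹
        group
      rw [h5]
      exact hT ⟨_, h4, rfl⟩)
    apply hsub
    refine ⟨?_, isSwap_conj _ hτ.2⟩
    rw [Sylow.smul_def, Sylow.pointwise_smul_def, Subgroup.mem_pointwise_smul_iff_inv_smul_mem]
    have h1 : (MulAut.conj (y : Perm (Fin n)))⁻¹ •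
        ((y : Perm (Fin n)) * τ * (y : Perm (Fin n))⁻¹) = τ := by
      rw [← map_inv, MulAut.smul_def, MulAut.conj_apply]
      group
    rw [h1]
    exact hτ.1
  have hgM : (g : Perm (Fin n)) ∈ Subgroup.normalizer (swapsIn (T : Subgroup (Perm (Fin n)))) := by
    rw [Subgroup.mem_set_normalizer_iff]
    intro τ
    constructor
    · exact hconj g hg τ
    · intro h'
      have hg' : g⁻¹ ∈ Subgroup.normalizer
          ((S : Subgroup (alternatingGroup (Fin n))) : Set (alternatingGroup (Fin n))) :=
        Subgroup.inv_mem _ hg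
      have := hconj g⁻¹ hg' _ h'
      have e1 : ((g⁻¹ : alternatingGroup (Fin n)) : Perm (Fin n)) *
          ((g : Perm (Fin n)) * τ * (g : Perm (Fin n))⁻¹) *
          ((g⁻¹ : alternatingGroup (Fin n)) : Perm (Fin n))⁻¹ = τ := by
        rw [Subgroup.coe_inv]
        group
      rwa [e1] at this
  obtain ⟨Q, hQ⟩ := image_sylow T
  haveI : Finite ↥(swapsIn (T : Subgroup (Perm (Fin n)))) :=
    Finite.of_injective _ Subtype.val_injective
  letI : Fintype ↥(swapsIn (T : Subgroup (Perm (Fin n)))) := Fintype.ofFinite _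
  have h3 : 0 < n / 2 := by omega
  have hτ₀ : sw e ⟨0, h3⟩ ∈ swapsIn (T : Subgroup (Perm (Fin n))) := (hM _).mpr ⟨_, rfl⟩
  have hτ₀N : sw e ⟨0, h3⟩ ∈ Subgroup.normalizer (swapsIn (T : Subgroup (Perm (Fin n)))) :=
    le_normalizer_swapsIn' _ hτ₀.1
  have hψτ₀ : conjAct (swapsIn (T : Subgroup (Perm (Fin n)))) ⟨_, hτ₀N⟩ = 1 := by
    apply Equiv.ext
    intro τ
    apply Subtype.ext
    rw [conjAct_apply]
    obtain ⟨i, hi⟩ := (hM _).mp τ.2
    change sw e ⟨0, h3⟩ * (τ : Perm (Fin n)) * (sw e ⟨0, h3⟩)⁻¹ = τ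
    rw [hi, sw_comm, mul_assoc, mul_inv_cancel, mul_one]
  have key := sym_odd_normalizer_trivial (n / 2) ↥(swapsIn (T : Subgroup (Perm (Fin n))))
    (by rw [← Nat.card_eq_fintype_card, card_swapsIn hM]) Q
    (conjAct _ ⟨(g : Perm (Fin n)), hgM⟩)
    (by
      apply Odd.of_dvd_nat hodd
      have := orderOf_map_dvd (conjAct (swapsIn (T : Subgroup (Perm (Fin n)))))
        ⟨(g : Perm (Fin n)), hgM⟩
      rwa [Subgroup.orderOf_mk, Subgroup.orderOf_coe] at this)
    (by
      apply mem_normalizer_of_conj_mem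
      have heven : ∀ y : ↥(Subgroup.normalizer (swapsIn (T : Subgroup (Perm (Fin n))))),
          (y : Perm (Fin n)) ∈ (T : Subgroup (Perm (Fin n))) →
          Perm.sign (y : Perm (Fin n)) = 1 →
          conjAct _ ⟨(g : Perm (Fin n)), hgM⟩ * conjAct _ y *
            (conjAct _ ⟨(g : Perm (Fin n)), hgM⟩)⁻¹ ∈
            (Q : Subgroup (Perm ↥(swapsIn (T : Subgroup (Perm (Fin n)))))) := by
        intro y hyT hsign
        rw [hQ]
        refine ⟨⟨(g : Perm (Fin n)), hgM⟩ * y * ⟨(g : Perm (Fin n)), hgM⟩⁻¹, ?_,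
          by simp only [map_mul, map_inv]⟩
        rw [SetLike.mem_coe, Subgroup.mem_subgroupOf]
        have hyA : (y : Perm (Fin n)) ∈ alternatingGroup (Fin n) :=
          Perm.mem_alternatingGroup.mpr hsign
        have h4 := factA _ hyT hyA
        have h5 := (Subgroup.mem_normalizer_iff.mp hg _).mp h4
        exact hT ⟨_, h5, rfl⟩
      intro q hq
      rw [hQ] at hq
      obtain ⟨y, hy, rfl⟩ := hq
      rw [SetLike.mem_coe, Subgroup.mem_subgroupOf] at hy
      rcases Int.units_eq_one_or (Perm.sign (y : Perm (Fin n))) with hs | hs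
      · exact heven y hy hs
      · have h6 := heven (y * ⟨_, hτ₀N⟩)
          ((T : Subgroup (Perm (Fin n))).mul_mem hy hτ₀.1) (by
          change Perm.sign ((y : Perm (Fin n)) * sw e ⟨0, h3⟩) = 1
          rw [Perm.sign_mul, hs, hτ₀.2.sign_eq]
          rfl)
        rw [map_mul, hψτ₀, mul_one] at h6
        exact h6)
  have hg1 : (g : Perm (Fin n)) = 1 := by
    apply odd_central_trivial hM _ (by rwa [Subgroup.orderOf_coe])
    intro τ hτ
    have := congrArg (fun f : Perm ↥(swapsIn (T : Subgroup (Perm (Fin n)))) =>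
      ((f ⟨τ, hτ⟩ : ↥(swapsIn (T : Subgroup (Perm (Fin n))))) : Perm (Fin n))) key
    exact this
  exact Subtype.ext hg1

theorem map_conj_eq_self {G : Type*} [Group G] (H : Subgroup G) (y : G)
    (hy : y ∈ Subgroup.normalizer (H : Set G)) : H.map (MulAut.conj y).toMonoidHom = H := by
  ext x
  constructor
  · rintro ⟨h, hh, rfl⟩
    exact (Subgroup.mem_normalizer_iff.mp hy h).mp hh
  · intro hx
    refine ⟨y⁻¹ * x * y, (Subgroup.mem_normalizer_iff''.mp hy x).mp hx, ?_⟩
    simp [MulAut.conj_apply]
    group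

theorem pronormal_of_sylow {G : Type*} [Group G] [Finite G] {p : ℕ} [Fact p.Prime] (S : Sylow p G)
    (H : Subgroup G) (hSH : (S : Subgroup G) ≤ H)
    (hN : ∀ y ∈ Subgroup.normalizer ((S : Subgroup G) : Set G),
      H.map (MulAut.conj y).toMonoidHom = H) : Cfsg.IsPronormal H := by
  intro g
  have h1 : (S : Subgroup G) ≤ H ⊔ H.map (MulAut.conj g).toMonoidHom := hSH.trans le_sup_left
  have h2 : ((g • S : Sylow p G) : Subgroup G) ≤ H ⊔ H.map (MulAut.conj g).toMonoidHom := by
    intro x hx
    apply le_sup_right (a := H)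
    rw [Sylow.smul_def, Sylow.pointwise_smul_def,
      Subgroup.mem_pointwise_smul_iff_inv_smul_mem] at hx
    refine ⟨(MulAut.conj g)⁻¹ • x, hSH hx, ?_⟩
    rw [← map_inv, MulAut.smul_def, MulAut.conj_apply]
    simp [MulAut.conj_apply]
    group
  obtain ⟨k, hk⟩ := MulAction.exists_smul_eq ↥(H ⊔ H.map (MulAut.conj g).toMonoidHom)
    (S.subtype h1) ((g • S).subtype h2)
  rw [Sylow.smul_subtype] at hk
  have hk' : (k : G) • S = g • S := Sylow.subtype_injective hk
  refine ⟨k, k.2, ?_⟩
  have h3 : ((k : G)⁻¹ * g) • S = S := by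
    rw [mul_smul, ← hk', inv_smul_smul]
  have h4 := Sylow.smul_eq_iff_mem_normalizer.mp h3
  have h5 := hN _ h4
  have h6 : (MulAut.conj g).toMonoidHom =
      (MulAut.conj (k : G)).toMonoidHom.comp (MulAut.conj ((k : G)⁻¹ * g)).toMonoidHom := by
    ext x
    simp [MulAut.conj_apply]
    group
  have h7 : Subgroup.map (MulAut.conj (k : G)).toMonoidHom
      (Subgroup.map (MulAut.conj ((k : G)⁻¹ * g)).toMonoidHom H) =
      Subgroup.map (MulAut.conj g).toMonoidHom H := by
    rw [Subgroup.map_map, ← h6]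
  exact h7.symm.trans (congrArg (Subgroup.map (MulAut.conj (k : G)).toMonoidHom) h5)

theorem exists_sylow_le_of_odd_index {G : Type*} [Group G] [Finite G] (H : Subgroup G)
    (hH : Odd H.index) : ∃ S : Sylow 2 G, (S : Subgroup G) ≤ H := by
  obtain ⟨S₀⟩ : Nonempty (Sylow 2 H) := inferInstance
  have h1 : IsPGroup 2 ((S₀ : Subgroup H).map H.subtype) := S₀.isPGroup'.map _
  have h2 : ¬ 2 ∣ ((S₀ : Subgroup H).map H.subtype).index := by
    rw [Subgroup.index_map_subtype]
    intro h
    rcases (Nat.Prime.dvd_mul Nat.prime_two).mp h with h | h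
    · exact S₀.not_dvd_index h
    · exact (Nat.not_even_iff_odd.mpr hH) (even_iff_two_dvd.mpr h)
  have h3 : ∀ x ∈ (S₀ : Subgroup H).map H.subtype, x ∈ H := by
    rintro _ ⟨x, _, rfl⟩
    exact x.2
  refine ⟨h1.toSylow h2, ?_⟩
  intro x hx
  apply h3
  have := IsPGroup.toSylow_coe h1 h2
  rw [← this]
  exact hx

theorem pronormal_of_max {G : Type*} [Group G] [Finite G] (H : Subgroup G)
    (hmax : ∀ K : Subgroup G, H ≤ K → K = H ∨ K = ⊤) : Cfsg.IsPronormal H := by
  intro g
  rcases hmax (H ⊔ H.map (MulAut.conj g).toMonoidHom) le_sup_left with h | h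
  · refine ⟨1, Subgroup.one_mem _, ?_⟩
    have h1 : H.map (MulAut.conj g).toMonoidHom ≤ H := le_sup_right.trans (le_of_eq h)
    have h2 : Nat.card (H.map (MulAut.conj g).toMonoidHom) = Nat.card H :=
      Subgroup.card_map_of_injective (MulAut.conj g).injective
    have h3 : H.map (MulAut.conj g).toMonoidHom = H :=
      Subgroup.eq_of_le_of_card_ge h1 (le_of_eq h2.symm)
    rw [h3]
    ext x
    simp
  · exact ⟨g, h ▸ Subgroup.mem_top g, rfl⟩

theorem pronormal_of_prime_index {G : Type*} [Group G] [Finite G] (H : Subgroup G)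
    (hp : H.index.Prime) : Cfsg.IsPronormal H := by
  apply pronormal_of_max
  intro K hK
  have h1 := Subgroup.relIndex_mul_index hK
  rcases (Nat.dvd_prime hp).mp (Dvd.intro_left _ h1) with h2 | h2
  · right
    exact Subgroup.index_eq_one.mp h2
  · left
    rw [h2] at h1
    have h3 : H.relIndex K = 1 := by
      have hpos := hp.pos
      nlinarith
    exact le_antisymm (Subgroup.relIndex_eq_one.mp h3) hK

theorem card_alt_five : Nat.card (alternatingGroup (Fin 5)) = 60 := by
  have h := two_mul_card_alternatingGroup (α := Fin 5)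
  rw [Fintype.card_perm, Fintype.card_fin] at h
  rw [Nat.card_eq_fintype_card]
  have : (5 : ℕ).factorial = 120 := by decide
  omega

/-- In the alternating group of degree n ≥ 5 every subgroup H of odd index is pronormal: for every element g, the subgroups H and gHg⁻¹ are conjugate by an element of the subgroup they generate. -/
theorem result (n : ℕ) (hn : 5 ≤ n)
    (H : Subgroup (alternatingGroup (Fin n))) (hH : Odd H.index) : Cfsg.IsPronormal H := by
  by_cases h6 : 6 ≤ n
  · obtain ⟨S, hS⟩ := exists_sylow_le_of_odd_index H hH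
    apply pronormal_of_sylow S H hS
    intro y hy
    apply map_conj_eq_self
    apply Subgroup.le_normalizer
    apply hS
    -- the normalizer of S is a 2-group
    have hpg : IsPGroup 2 ↥(Subgroup.normalizer
        ((S : Subgroup (alternatingGroup (Fin n))) : Set (alternatingGroup (Fin n)))) := by
      intro z
      have hz0 : orderOf (z : alternatingGroup (Fin n)) ≠ 0 := (orderOf_pos _).ne'
      obtain ⟨k, m, hm, hkm⟩ := Nat.exists_eq_two_pow_mul_odd hz0
      refine ⟨k, ?_⟩
      apply Subtype.ext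
      rw [Subgroup.coe_pow, Subgroup.coe_one]
      apply alt_odd_normalizer_trivial n h6 S
      · rw [orderOf_pow_of_dvd (pow_ne_zero k (by norm_num)) (Dvd.intro _ hkm.symm), hkm,
          Nat.mul_div_cancel_left _ (by positivity)]
        exact hm
      · exact Subgroup.pow_mem _ z.2 _
    have := S.is_maximal' hpg Subgroup.le_normalizer
    rw [← this]
    exact hy
  · have h5 : n = 5 := by omega
    subst h5
    have hdvd : H.index ∣ 60 := by
      rw [← card_alt_five]
      exact Subgroup.index_dvd_card H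
    have hmem : H.index ∈ (Nat.divisors 60).filter (fun d => d % 2 = 1) := by
      rw [Finset.mem_filter, Nat.mem_divisors]
      exact ⟨⟨hdvd, by norm_num⟩, Nat.odd_iff.mp hH⟩
    have hset : (Nat.divisors 60).filter (fun d => d % 2 = 1) = {1, 3, 5, 15} := by decide
    rw [hset] at hmem
    simp only [Finset.mem_insert, Finset.mem_singleton] at hmem
    rcases hmem with h | h | h | h
    · apply pronormal_of_max
      intro K hK
      right
      rw [Subgroup.index_eq_one.mp h] at hK
      exact top_le_iff.mp hK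
    · exact pronormal_of_prime_index H (by rw [h]; norm_num)
    · exact pronormal_of_prime_index H (by rw [h]; norm_num)
    · have hcard : Nat.card H = 2 ^ 2 := by
        have := Subgroup.card_mul_index H
        rw [h, card_alt_five] at this
        omega
      have hpg : IsPGroup 2 H := IsPGroup.of_card hcard
      have hnd : ¬ 2 ∣ H.index := by rw [h]; norm_num
      have hS := pronormal_of_sylow (hpg.toSylow hnd) H (by rw [IsPGroup.toSylow_coe])
        (by
          intro y hy
          rw [IsPGroup.toSylow_coe] at hy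
          exact map_conj_eq_self H y hy)
      exact hS

end Cfsg.Agent.S2222
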