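import Cfsg.Statements.S2231
import Mathlib

set_option autoImplicit false
open Cfsg

namespace Cfsg.Agent.S2231

/-- All `p`-subgroups are abelian. -/
def AbP (p : ℕ) (G : Type*) [Group G] : Prop :=
  ∀ Q : Subgroup G, IsPGroup p Q → ∀ a ∈ Q, ∀ b ∈ Q, a * b = b * a

theorem AbP.of_injective {p : ℕ} {G H : Type*} [Group G] [Group H] (f : H →* G)
    (hf : Function.Injective f) (h : AbP p G) : AbP p H := by
  intro Q hQ a ha b hb
  have := h (Q.map f) (hQ.map f) (f a) (Subgroup.mem_map_of_mem f ha) (f b)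
    (Subgroup.mem_map_of_mem f hb)
  apply hf
  rw [map_mul, map_mul, this]

theorem AbP.of_surjective {p : ℕ} [Fact p.Prime] {G H : Type*} [Group G] [Finite G] [Group H]
    (f : G →* H) (hf : Function.Surjective f) (h : AbP p G) : AbP p H := by
  intro Q hQ a ha b hb
  have : Finite H := Finite.of_surjective f hf
  obtain ⟨S⟩ : Nonempty (Sylow p (Q.comap f)) := inferInstance
  let g : Q.comap f →* Q := f.subgroupComap Q
  have hg : Function.Surjective g := f.subgroupComap_surjective_of_surjective Q hf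
  have h1 : ((S : Subgroup (Q.comap f)).map g).index ∣ (S : Subgroup (Q.comap f)).index :=
    Subgroup.index_map_dvd _ hg
  have h2 : ¬ p ∣ (S : Subgroup (Q.comap f)).index := S.not_dvd_index
  obtain ⟨k, hk⟩ := IsPGroup.index hQ ((S : Subgroup (Q.comap f)).map g)
  have htop : (S : Subgroup (Q.comap f)).map g = ⊤ := by
    rw [← Subgroup.index_eq_one, hk]
    rcases k with _ | k
    · simp
    · exfalso
      apply h2
      refine dvd_trans ?_ h1
      rw [hk]
      exact dvd_pow_self p (Nat.succ_ne_zero k)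
  obtain ⟨a', ha', haa⟩ : (⟨a, ha⟩ : Q) ∈ (S : Subgroup (Q.comap f)).map g := htop ▸ Subgroup.mem_top _
  obtain ⟨b', hb', hbb⟩ : (⟨b, hb⟩ : Q) ∈ (S : Subgroup (Q.comap f)).map g := htop ▸ Subgroup.mem_top _
  have hab := (h.of_injective (Q.comap f).subtype Subtype.val_injective)
    (S : Subgroup (Q.comap f)) S.isPGroup' a' ha' b' hb'
  have := congrArg g hab
  rw [map_mul, map_mul, haa, hbb] at this
  exact congrArg Subtype.val this

theorem AbP.of_involves {p : ℕ} [Fact p.Prime] {G : Type*} {H : Type*} [Group G] [Finite G] [Group H]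
    (h : AbP p G) (hi : Cfsg.Involves H G) : AbP p H := by
  obtain ⟨K, R, hn, ⟨e⟩⟩ := hi
  have h1 : AbP p K := h.of_injective K.subtype Subtype.val_injective
  have h2 : AbP p (K ⧸ R.subgroupOf K) :=
    h1.of_surjective (QuotientGroup.mk' (R.subgroupOf K)) (QuotientGroup.mk'_surjective _)
  exact h2.of_injective e.symm.toMonoidHom e.symm.injective

/-- upper unitriangular matrices in `SL₃(ZMod p)`, as a submonoid -/
def utMon (p : ℕ) : Submonoid (Matrix.SpecialLinearGroup (Fin 3) (ZMod p)) where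
  carrier := {M | (M : Matrix (Fin 3) (Fin 3) (ZMod p)) 0 0 = 1 ∧
    (M : Matrix (Fin 3) (Fin 3) (ZMod p)) 1 1 = 1 ∧
    (M : Matrix (Fin 3) (Fin 3) (ZMod p)) 2 2 = 1 ∧
    (M : Matrix (Fin 3) (Fin 3) (ZMod p)) 1 0 = 0 ∧
    (M : Matrix (Fin 3) (Fin 3) (ZMod p)) 2 0 = 0 ∧
    (M : Matrix (Fin 3) (Fin 3) (ZMod p)) 2 1 = 0}
  mul_mem' := by
    rintro A B ⟨a1, a2, a3, a4, a5, a6⟩ ⟨b1, b2, b3, b4, b5, b6⟩
    refine ⟨?_, ?_, ?_, ?_, ?_, ?_⟩ <;>
      simp [Matrix.SpecialLinearGroup.coe_mul, Matrix.mul_apply, Fin.sum_univ_three,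
        a1, a2, a3, a4, a5, a6, b1, b2, b3, b4, b5, b6]
  one_mem' := by simp

def utSub (p : ℕ) [Fact p.Prime] : Subgroup (Matrix.SpecialLinearGroup (Fin 3) (ZMod p)) where
  toSubmonoid := utMon p
  inv_mem' := by
    intro A hA
    have h1 : A⁻¹ = A ^ (orderOf A - 1) := by
      rw [eq_comm, ← mul_eq_one_iff_eq_inv', ← pow_succ', Nat.sub_add_cancel (orderOf_pos A),
        pow_orderOf_eq_one]
    change A⁻¹ ∈ utMon p
    rw [h1]
    exact pow_mem hA _

theorem utSub_pow (p : ℕ) [Fact p.Prime] (hp : p ≠ 2)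
    (M : Matrix.SpecialLinearGroup (Fin 3) (ZMod p)) (hM : M ∈ utSub p) : M ^ p = 1 := by
  obtain ⟨a1, a2, a3, a4, a5, a6⟩ := hM
  have hp3 : 3 ≤ p := by
    have := (Fact.out : p.Prime).two_le
    omega
  apply Subtype.ext
  rw [Matrix.SpecialLinearGroup.coe_pow, Matrix.SpecialLinearGroup.coe_one]
  set N : Matrix (Fin 3) (Fin 3) (ZMod p) := (M : Matrix (Fin 3) (Fin 3) (ZMod p)) - 1 with hN
  have hN3 : N ^ 3 = 0 := by
    ext i j
    fin_cases i <;> fin_cases j <;>
      simp [hN, pow_succ, Matrix.mul_apply, Fin.sum_univ_three, a1, a2, a3, a4, a5, a6]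
  have hNp : N ^ p = 0 := by
    have h3 : N ^ p = N ^ 3 * N ^ (p - 3) := by
      rw [← pow_add]
      congr 1
      omega
    rw [h3, hN3, zero_mul]
  have hM : (M : Matrix (Fin 3) (Fin 3) (ZMod p)) = 1 + N := by rw [hN]; abel
  rw [hM, add_pow_char_of_commute _ (Commute.one_left N), one_pow, hNp, add_zero]

def elA (p : ℕ) : Matrix.SpecialLinearGroup (Fin 3) (ZMod p) :=
  ⟨!![1, 1, 0; 0, 1, 0; 0, 0, 1], by simp [Matrix.det_fin_three]⟩

def elB (p : ℕ) : Matrix.SpecialLinearGroup (Fin 3) (ZMod p) :=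
  ⟨!![1, 0, 0; 0, 1, 1; 0, 0, 1], by simp [Matrix.det_fin_three]⟩

theorem not_abP_qd (p : ℕ) [Fact p.Prime] (hp : p ≠ 2) : ¬ AbP p ↥(Cfsg.qd p) := by
  intro h
  have hA : elA p ∈ Cfsg.qd p :=
    Subgroup.subset_closure (by refine ⟨?_, ?_, ?_⟩ <;> simp [elA])
  have hB : elB p ∈ Cfsg.qd p :=
    Subgroup.subset_closure (by refine ⟨?_, ?_, ?_⟩ <;> simp [elB])
  have hAu : elA p ∈ utSub p := by
    refine ⟨?_, ?_, ?_, ?_, ?_, ?_⟩ <;> simp [elA]
  have hBu : elB p ∈ utSub p := by
    refine ⟨?_, ?_, ?_, ?_, ?_, ?_⟩ <;> simp [elB]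
  have hQ : IsPGroup p ((utSub p).subgroupOf (Cfsg.qd p)) := by
    rintro ⟨g, hg⟩
    refine ⟨1, ?_⟩
    apply Subtype.ext
    apply Subtype.ext
    have := utSub_pow p hp g.1 (Subgroup.mem_subgroupOf.mp hg)
    simpa using this
  have hc := h _ hQ ⟨elA p, hA⟩ (Subgroup.mem_subgroupOf.mpr hAu) ⟨elB p, hB⟩
    (Subgroup.mem_subgroupOf.mpr hBu)
  have hc' : elA p * elB p = elB p * elA p := congrArg Subtype.val hc
  have hc'' : ((elA p * elB p : Matrix.SpecialLinearGroup (Fin 3) (ZMod p)) :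
      Matrix (Fin 3) (Fin 3) (ZMod p)) 0 2 =
      ((elB p * elA p : Matrix.SpecialLinearGroup (Fin 3) (ZMod p)) :
      Matrix (Fin 3) (Fin 3) (ZMod p)) 0 2 := by rw [hc']
  rw [Matrix.SpecialLinearGroup.coe_mul, Matrix.SpecialLinearGroup.coe_mul] at hc''
  simp [elA, elB, Matrix.mul_apply, Fin.sum_univ_three] at hc''

/-- upper unitriangular matrices of `SL₂(K)` -/
def uHom (K : Type*) [Field K] : Multiplicative K →* Matrix.SpecialLinearGroup (Fin 2) K where
  toFun x := ⟨!![1, Multiplicative.toAdd x; 0, 1], by simp [Matrix.det_fin_two]⟩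
  map_one' := by
    apply Subtype.ext
    ext i j
    fin_cases i <;> fin_cases j <;> simp
  map_mul' x y := by
    apply Subtype.ext
    change (!![1, Multiplicative.toAdd (x * y); 0, 1] : Matrix (Fin 2) (Fin 2) K) =
      !![1, Multiplicative.toAdd x; 0, 1] * !![1, Multiplicative.toAdd y; 0, 1]
    ext i j
    fin_cases i <;> fin_cases j <;>
      simp [Matrix.mul_apply, Fin.sum_univ_two, add_comm]

def elL (K : Type*) [Field K] : Matrix.SpecialLinearGroup (Fin 2) K :=
  ⟨!![1, 0; 1, 1], by simp [Matrix.det_fin_two]⟩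

def ubar (K : Type*) [Field K] :
    Multiplicative K →* Matrix.ProjectiveSpecialLinearGroup (Fin 2) K :=
  (QuotientGroup.mk' (Subgroup.center (Matrix.SpecialLinearGroup (Fin 2) K))).comp (uHom K)

theorem ubar_injective (K : Type*) [Field K] : Function.Injective (ubar K) := by
  rw [injective_iff_map_eq_one]
  intro x hx
  have hx' : uHom K x ∈ Subgroup.center (Matrix.SpecialLinearGroup (Fin 2) K) := by
    rw [← QuotientGroup.eq_one_iff]
    exact hx
  have hc := Subgroup.mem_center_iff.mp hx' (elL K)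
  have hc' : ((elL K * uHom K x : Matrix.SpecialLinearGroup (Fin 2) K) :
      Matrix (Fin 2) (Fin 2) K) 1 1 =
      ((uHom K x * elL K : Matrix.SpecialLinearGroup (Fin 2) K) : Matrix (Fin 2) (Fin 2) K) 1 1 := by
    rw [hc]
  rw [Matrix.SpecialLinearGroup.coe_mul, Matrix.SpecialLinearGroup.coe_mul] at hc'
  simp [elL, uHom, Matrix.mul_apply, Fin.sum_univ_two] at hc'
  exact Multiplicative.toAdd.injective hc'

theorem abP_psl (p : ℕ) [Fact p.Prime] (K : Type*) [Field K] [Fintype K] [CharP K p] :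
    AbP p (Matrix.ProjectiveSpecialLinearGroup (Fin 2) K) := by
  classical
  have hpp : p.Prime := Fact.out
  obtain ⟨f, -, hf⟩ := FiniteField.card K p
  have hq2 : 2 ≤ Fintype.card K := Fintype.one_lt_card
  have hcardR : Nat.card (ubar K).range = Fintype.card K := by
    have h0 : Nat.card (Multiplicative K) = Nat.card (ubar K).range :=
      Nat.card_congr (Equiv.ofInjective _ (ubar_injective K))
    rw [← h0, ← Nat.card_eq_fintype_card]
    exact Nat.card_congr Multiplicative.toAdd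
  have hR : IsPGroup p (ubar K).range := IsPGroup.of_card (n := f) (by rw [hcardR, hf])
  have hGL : Nat.card (GL (Fin 2) K) =
      (Fintype.card K ^ 2 - 1) * (Fintype.card K ^ 2 - Fintype.card K) := by
    rw [Matrix.card_GL_field]
    simp [Fin.prod_univ_two]
  have h1 : Nat.card (Matrix.ProjectiveSpecialLinearGroup (Fin 2) K) ∣
      Nat.card (Matrix.SpecialLinearGroup (Fin 2) K) := Subgroup.card_quotient_dvd_card _
  have h2 : Nat.card (Matrix.SpecialLinearGroup (Fin 2) K) ∣ Nat.card (GL (Fin 2) K) :=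
    Subgroup.card_dvd_of_injective Matrix.SpecialLinearGroup.toGL
      Matrix.SpecialLinearGroup.toGL_injective
  have h3 : Fintype.card K * (ubar K).range.index ∣
      (Fintype.card K ^ 2 - 1) * (Fintype.card K ^ 2 - Fintype.card K) := by
    rw [← hcardR, Subgroup.card_mul_index, hcardR, ← hGL]
    exact h1.trans h2
  have hnd : ¬ p ∣ (ubar K).range.index := by
    intro hdvd
    have h4 : (Fintype.card K ^ 2 - 1) * (Fintype.card K ^ 2 - Fintype.card K) =
        Fintype.card K * ((Fintype.card K ^ 2 - 1) * (Fintype.card K - 1)) := by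
      have : Fintype.card K ^ 2 - Fintype.card K = Fintype.card K * (Fintype.card K - 1) := by
        rw [pow_two, Nat.mul_sub_one]
      rw [this]
      ring
    rw [h4] at h3
    have h5 : (ubar K).range.index ∣ (Fintype.card K ^ 2 - 1) * (Fintype.card K - 1) :=
      Nat.dvd_of_mul_dvd_mul_left (by omega) h3
    have h6 : p ∣ (Fintype.card K ^ 2 - 1) * (Fintype.card K - 1) := hdvd.trans h5
    have hpq : p ∣ Fintype.card K := by
      rw [hf]
      exact dvd_pow_self p (PNat.ne_zero f)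
    rcases (Nat.Prime.dvd_mul hpp).mp h6 with h | h
    · have h7 : p ∣ Fintype.card K ^ 2 := dvd_pow hpq two_ne_zero
      have h8 : p ∣ Fintype.card K ^ 2 - (Fintype.card K ^ 2 - 1) := Nat.dvd_sub h7 h
      have h9 : Fintype.card K ^ 2 - (Fintype.card K ^ 2 - 1) = 1 := by
        have : 1 ≤ Fintype.card K ^ 2 := Nat.one_le_pow _ _ (by omega)
        omega
      rw [h9] at h8
      exact hpp.one_lt.ne' (Nat.dvd_one.mp h8)
    · have h8 : p ∣ Fintype.card K - (Fintype.card K - 1) := Nat.dvd_sub hpq h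
      have h9 : Fintype.card K - (Fintype.card K - 1) = 1 := by omega
      rw [h9] at h8
      exact hpp.one_lt.ne' (Nat.dvd_one.mp h8)
  let P₀ : Sylow p (Matrix.ProjectiveSpecialLinearGroup (Fin 2) K) := hR.toSylow hnd
  intro Q hQ a ha b hb
  obtain ⟨P', hP'⟩ := hQ.exists_le_sylow
  obtain ⟨g, hg⟩ := MulAction.exists_smul_eq (Matrix.ProjectiveSpecialLinearGroup (Fin 2) K) P' P₀
  have hmem : ∀ y ∈ (P' : Subgroup (Matrix.ProjectiveSpecialLinearGroup (Fin 2) K)),
      g * y * g⁻¹ ∈ (ubar K).range := by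
    intro y hy
    have h : g * y * g⁻¹ ∈ ((g • P' : Sylow p (Matrix.ProjectiveSpecialLinearGroup (Fin 2) K)) :
        Subgroup (Matrix.ProjectiveSpecialLinearGroup (Fin 2) K)) := ⟨y, hy, rfl⟩
    rw [hg] at h
    exact h
  obtain ⟨x, hx⟩ := hmem a (hP' ha)
  obtain ⟨y, hy⟩ := hmem b (hP' hb)
  have hc : g * a * g⁻¹ * (g * b * g⁻¹) = g * b * g⁻¹ * (g * a * g⁻¹) := by
    rw [← hx, ← hy, ← map_mul, ← map_mul, mul_comm]
  calc a * b = g⁻¹ * (g * a * g⁻¹ * (g * b * g⁻¹)) * g := by group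
    _ = g⁻¹ * (g * b * g⁻¹ * (g * a * g⁻¹)) * g := by rw [hc]
    _ = b * a := by group

/-- Let p be an odd prime and K a finite field of characteristic p. Then Qd(p) (the natural semidirect product of an elementary abelian group of order p² by SL₂(p)) is not involved in the projective special linear group PSL₂(K). -/
theorem result {p : ℕ} [Fact p.Prime] (hp : p ≠ 2) {K : Type*} [Field K] [Fintype K] [CharP K p] : ¬ Cfsg.Involves ↥(Cfsg.qd p) (Matrix.ProjectiveSpecialLinearGroup (Fin 2) K) := by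
  intro hi
  exact not_abP_qd p hp ((abP_psl p K).of_involves hi)

end Cfsg.Agent.S2231
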