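import Cfsg.Statements.S2240
import Mathlib
import Cfsg.Agent.Lib.Helper45.SzU
import Cfsg.Agent.Lib.Helper45.SwapMatching3

set_option autoImplicit false
set_option linter.style.haveILetI false
open Cfsg

namespace Cfsg.Agent.S2240

open Matrix Cfsg.Agent.Lib.Helper8.Sz Cfsg.Agent.Lib.Helper45.SzU Cfsg.Agent.Lib.Helper45
open scoped Pointwise

theorem exists_TI {F : Type*} [Field F] [Fintype F] {m : ℕ} (hm : 1 ≤ m)
    (hF : Fintype.card F = 2 ^ (2 * m + 1)) (n : ℕ) (hn : 2 ≤ n) (hdvd : n ∣ 2 * m + 1) :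
    ∃ E : Subgroup ↥(Cfsg.Sz F m), Cfsg.IsElementaryAbelian 2 E ∧ Nat.card ↥E = 2 ^ n ∧
      ∀ x : ↥(Cfsg.Sz F m), E ⊓ E.map (MulAut.conj x).toMonoidHom ≠ ⊥ →
        x ∈ Subgroup.normalizer (E : Set ↥(Cfsg.Sz F m)) := by
  haveI := charP_two hF
  letI := ZMod.algebra F 2
  have hfr : Module.finrank (ZMod 2) F = 2 * m + 1 := by
    have := FiniteField.pow_finrank_eq_card 2 F
    rw [hF] at this
    exact Nat.pow_right_injective (le_refl 2) this
  have hn0 : n ≠ 0 := by omega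
  obtain ⟨f⟩ := FiniteField.nonempty_algHom_of_finrank_dvd (F := ZMod 2) (K := GaloisField 2 n)
    (L := F) (by rw [GaloisField.finrank 2 hn0, hfr]; exact hdvd)
  have hfinj : Function.Injective f := f.toRingHom.injective
  haveI : Finite ↥(Cfsg.Sz F m) := by
    apply Nat.finite_of_card_ne_zero
    rw [card_Sz hm hF]
    have h2 : 2 ≤ 2 ^ (2 * m + 1) := Nat.le_self_pow (by omega) 2
    have : 0 < 2 ^ (2 * m + 1) - 1 := by omega
    positivity
  let E : Subgroup ↥(Cfsg.Sz F m) :=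
    { carrier := {g | ∃ k : GaloisField 2 n, (g : SpecialLinearGroup (Fin 4) F) = Tg m 0 (f k)}
      mul_mem' := by
        rintro g h ⟨k, hg⟩ ⟨k', hh⟩
        refine ⟨k + k', ?_⟩
        rw [Subgroup.coe_mul, hg, hh, Tg_mul hF, map_add, th_zero, zero_mul, add_zero, add_zero]
      one_mem' := ⟨0, by rw [map_zero, Tg_zero]; rfl⟩
      inv_mem' := by
        rintro g ⟨k, hg⟩
        refine ⟨k, ?_⟩
        rw [Subgroup.coe_inv, hg, Tg_inv hF, th_zero, zero_mul, add_zero] }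
  have hE : ∀ g : ↥(Cfsg.Sz F m), g ∈ E ↔
      ∃ k : GaloisField 2 n, (g : SpecialLinearGroup (Fin 4) F) = Tg m 0 (f k) := fun g => Iff.rfl
  refine ⟨E, ⟨⟨⟨?_⟩⟩, ?_⟩, ?_, ?_⟩
  · rintro ⟨g, k, hg⟩ ⟨h, k', hh⟩
    apply Subtype.ext
    apply Subtype.ext
    change (g : SpecialLinearGroup (Fin 4) F) * h = h * g
    rw [hg, hh, Tg_mul hF, Tg_mul hF, th_zero, zero_mul, add_zero, add_zero, add_zero,
      add_comm]
  · rintro g ⟨k, hg⟩
    apply Subtype.ext
    rw [Subgroup.coe_pow, hg, sq, Tg_mul hF, th_zero, zero_mul, add_zero, add_zero, add_self hF,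
      Tg_zero]
    rfl
  · have hbij : Function.Bijective (fun k : GaloisField 2 n =>
        (⟨⟨Tg m 0 (f k), Tg_mem hF _ _⟩, k, rfl⟩ : E)) := by
      constructor
      · intro k k' hkk'
        have h1 : Tg m (0 : F) (f k) = Tg m 0 (f k') :=
          congrArg (fun x : E => ((x : ↥(Cfsg.Sz F m)) : SpecialLinearGroup (Fin 4) F)) hkk'
        exact hfinj (Tg_inj h1).2
      · rintro ⟨g, k, hg⟩
        exact ⟨k, Subtype.ext (Subtype.ext hg.symm)⟩
    rw [← Nat.card_congr (Equiv.ofBijective _ hbij), GaloisField.card 2 n hn0]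
  · intro x hx
    obtain ⟨g, hgE, hg1⟩ : ∃ g ∈ E ⊓ E.map (MulAut.conj x).toMonoidHom, g ≠ 1 := by
      by_contra hcon
      push Not at hcon
      exact hx ((Subgroup.eq_bot_iff_forall _).mpr hcon)
    obtain ⟨⟨k₂, hk₂⟩, ⟨g₁, ⟨k₁, hk₁⟩, hg₁⟩⟩ := hgE
    have hg₁' : (x : SpecialLinearGroup (Fin 4) F) * Tg m 0 (f k₁) *
        (x : SpecialLinearGroup (Fin 4) F)⁻¹ = Tg m 0 (f k₂) := by
      rw [← hk₁, ← hk₂, ← hg₁]
      rfl
    have hk₂0 : f k₂ ≠ 0 := by
      intro h0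
      apply hg1
      apply Subtype.ext
      rw [hk₂, h0, Tg_zero]
      rfl
    have hfix : (x : SpecialLinearGroup (Fin 4) F) • Pinf F = Pinf F := by
      apply Tg_fix hF 0 (f k₂) (fun h => hk₂0 h.2) _ (smul_mem_of_mem_Sz x.2 Pinf_mem)
      rw [← hg₁', mul_smul, mul_smul, inv_smul_smul, Tg_smul_Pinf]
    obtain ⟨c, d, s, hcs⟩ := fix_inf_decomp hm hF x.2 hfix
    have hconj : ∀ b : F, (x : SpecialLinearGroup (Fin 4) F) * Tg m 0 b *
        (x : SpecialLinearGroup (Fin 4) F)⁻¹ = Tg m 0 (th m (s : F) * s ^ 2 * b) := by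
      intro b
      rw [hcs, conj_formula hF]
      congr 1
      · rw [mul_zero]
      · rw [mul_zero, mul_zero, th_zero, zero_mul, add_zero, add_zero]
    obtain ⟨l, hl⟩ : ∃ l : GaloisField 2 n, f l = th m (s : F) * s ^ 2 := by
      have e2 : Tg m 0 (th m (s : F) * s ^ 2 * f k₁) = Tg m 0 (f k₂) := by
        rw [← hconj, hg₁']
      have e3 := (Tg_inj e2).2
      have hk₁0 : f k₁ ≠ 0 := by
        intro h0
        rw [h0, mul_zero] at e3
        exact hk₂0 e3.symm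
      refine ⟨k₂ / k₁, ?_⟩
      rw [map_div₀, ← e3]
      field_simp
    apply mem_normalizer_of_conj_mem
    rintro h ⟨k, hk⟩
    refine ⟨l * k, ?_⟩
    rw [Subgroup.coe_mul, Subgroup.coe_mul, Subgroup.coe_inv, hk, hconj, map_mul, hl]

theorem chi_surj {F : Type*} [Field F] [Fintype F] {m : ℕ}
    (hF : Fintype.card F = 2 ^ (2 * m + 1)) (l : Fˣ) :
    ∃ s : Fˣ, th m (s : F) * (s : F) ^ 2 = l := by
  have hinj : Function.Injective (powMonoidHom (2 ^ (m + 1) + 2) : Fˣ →* Fˣ) := by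
    rw [injective_iff_map_eq_one]
    intro s hs
    have h1 : th m (s : F) * (s : F) ^ 2 = 1 := by
      have := congrArg (fun u : Fˣ => (u : F)) hs
      simp only [powMonoidHom_apply, Units.val_pow_eq_pow_val, Units.val_one] at this
      rw [th_def, ← pow_add]
      exact this
    have h2 : ((s : F) * th m (s : F)) ^ 2 = 1 := by
      have := congrArg (th m) h1
      rw [th_mul, th_th hF, th_pow, th_one] at this
      rw [mul_pow]
      exact this
    have h3 := sq_eq_one hF h2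
    have h4 : (s : F) = 1 := by
      have : th m (s : F) * (s : F) ^ 2 = ((s : F) * th m (s : F)) * s := by ring
      rw [this, h3, one_mul] at h1
      exact h1
    exact Units.ext h4
  obtain ⟨s, hs⟩ := (Finite.injective_iff_surjective.mp hinj) l
  refine ⟨s, ?_⟩
  have := congrArg (fun u : Fˣ => (u : F)) hs
  simp only [powMonoidHom_apply, Units.val_pow_eq_pow_val] at this
  rw [th_def, ← pow_add]
  exact this

theorem dvd_of_TI {F : Type*} [Field F] [Fintype F] {m : ℕ} (hm : 1 ≤ m)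
    (hF : Fintype.card F = 2 ^ (2 * m + 1)) (n : ℕ) (hn : 2 ≤ n)
    (E : Subgroup ↥(Cfsg.Sz F m)) (hE : Cfsg.IsElementaryAbelian 2 E) (hcard : Nat.card ↥E = 2 ^ n)
    (hTI : ∀ x : ↥(Cfsg.Sz F m), E ⊓ E.map (MulAut.conj x).toMonoidHom ≠ ⊥ →
        x ∈ Subgroup.normalizer (E : Set ↥(Cfsg.Sz F m))) : n ∣ 2 * m + 1 := by
  classical
  haveI := charP_two hF
  haveI : Finite ↥(Cfsg.Sz F m) := by
    apply Nat.finite_of_card_ne_zero
    rw [card_Sz hm hF]
    have h2 : 2 ≤ 2 ^ (2 * m + 1) := Nat.le_self_pow (by omega) 2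
    have : 0 < 2 ^ (2 * m + 1) - 1 := by omega
    positivity
  obtain ⟨P, hP⟩ := (IsPGroup.of_card hcard).exists_le_sylow
  obtain ⟨x, hx⟩ := exists_conj_mem_U hm hF P
  -- elements of E are conjugates of central translations
  have hform : ∀ g ∈ E, ∃ b : F, ((x⁻¹ * g * x : ↥(Cfsg.Sz F m)) : SpecialLinearGroup (Fin 4) F) =
      Tg m 0 b := by
    intro g hg
    obtain ⟨a, b, hab⟩ := (hx g).mp (hP hg)
    have hsq : (x⁻¹ * g * x) * (x⁻¹ * g * x) = 1 := by
      have h2 : g * g = 1 := by rw [← sq]; exact hE.2 g hg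
      have : (x⁻¹ * g * x) * (x⁻¹ * g * x) = x⁻¹ * (g * g) * x := by group
      rw [this, h2]
      group
    have hsq' := congrArg Subtype.val hsq
    rw [Subgroup.coe_mul, hab, Tg_mul hF] at hsq'
    have h0 : Tg m (a + a) (b + b + th m a * a) = Tg m 0 0 := by rw [Tg_zero]; exact hsq'
    have h1 := (Tg_inj h0).2
    rw [add_self hF, zero_add] at h1
    have ha : a = 0 := by
      rcases mul_eq_zero.mp h1 with h | h
      · exact th_eq_zero h
      · exact h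
    exact ⟨b, by rw [hab, ha]⟩
  choose! β hβ using hform
  have hβinj : ∀ g ∈ E, ∀ g' ∈ E, β g = β g' → g = g' := by
    intro g hg g' hg' h
    have h1 : x⁻¹ * g * x = x⁻¹ * g' * x := by
      apply Subtype.ext
      rw [hβ g hg, hβ g' hg', h]
    have h2 : g = x * (x⁻¹ * g * x) * x⁻¹ := by group
    rw [h2, h1]
    group
  have hβ1 : β 1 = 0 := by
    have h1 := hβ 1 E.one_mem
    have h2 : (x⁻¹ * 1 * x : ↥(Cfsg.Sz F m)) = 1 := by group
    rw [h2] at h1
    have h3 : Tg m (0 : F) 0 = Tg m 0 (β 1) := by rw [Tg_zero]; exact h1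
    exact (Tg_inj h3).2.symm
  have hβ0 : ∀ g ∈ E, β g = 0 → g = 1 := fun g hg h => hβinj g hg 1 E.one_mem (by rw [h, hβ1])
  -- the key closure property
  have claimT : ∀ l : Fˣ, ∀ g₁ ∈ E, g₁ ≠ 1 → (∃ g₂ ∈ E, β g₂ = (l : F) * β g₁) →
      ∀ g ∈ E, ∃ g' ∈ E, β g' = (l : F) * β g := by
    intro l g₁ hg₁ hg₁1 ⟨g₂, hg₂, hβ₂⟩ g hg
    obtain ⟨s, hs⟩ := chi_surj hF l
    have hHmem : Hg m s ∈ Cfsg.Sz F m := Hg_mem hF s
    have hy : ∀ h ∈ E, ((x * ⟨Hg m s, hHmem⟩ * x⁻¹ * h * (x * ⟨Hg m s, hHmem⟩ * x⁻¹)⁻¹ :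
        ↥(Cfsg.Sz F m)) : SpecialLinearGroup (Fin 4) F) =
        (x : SpecialLinearGroup (Fin 4) F) * Tg m 0 ((l : F) * β h) *
          (x : SpecialLinearGroup (Fin 4) F)⁻¹ := by
      intro h hh
      have e1 : x * ⟨Hg m s, hHmem⟩ * x⁻¹ * h * (x * ⟨Hg m s, hHmem⟩ * x⁻¹)⁻¹ =
          x * (⟨Hg m s, hHmem⟩ * (x⁻¹ * h * x) * (⟨Hg m s, hHmem⟩ : ↥(Cfsg.Sz F m))⁻¹) * x⁻¹ := by
        group
      rw [e1]
      have hβ' : (x : SpecialLinearGroup (Fin 4) F)⁻¹ * h * x = Tg m 0 (β h) := by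
        have := hβ h hh
        simpa only [Subgroup.coe_mul, Subgroup.coe_inv] using this
      simp only [Subgroup.coe_mul, Subgroup.coe_inv]
      rw [hβ']
      have e2 : Hg m s * Tg m 0 (β h) * (Hg m s)⁻¹ = Tg m 0 ((l : F) * β h) := by
        rw [Hg_mul_Tg hF, mul_zero, hs]
        group
      rw [e2]
    -- g₂ is a common element
    have hcommon : g₂ = x * ⟨Hg m s, hHmem⟩ * x⁻¹ * g₁ * (x * ⟨Hg m s, hHmem⟩ * x⁻¹)⁻¹ := by
      have h1 : x⁻¹ * g₂ * x = x⁻¹ * (x * ⟨Hg m s, hHmem⟩ * x⁻¹ * g₁ *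
          (x * ⟨Hg m s, hHmem⟩ * x⁻¹)⁻¹) * x := by
        apply Subtype.ext
        rw [hβ g₂ hg₂, hβ₂]
        simp only [Subgroup.coe_mul, Subgroup.coe_inv] at hy ⊢
        rw [hy g₁ hg₁]
        group
      have h2 : g₂ = x * (x⁻¹ * g₂ * x) * x⁻¹ := by group
      rw [h2, h1]
      group
    have hg₂1 : g₂ ≠ 1 := by
      intro h
      apply hg₁1
      rw [h] at hcommon
      have : g₁ = (x * ⟨Hg m s, hHmem⟩ * x⁻¹)⁻¹ * (x * ⟨Hg m s, hHmem⟩ * x⁻¹ * g₁ *
          (x * ⟨Hg m s, hHmem⟩ * x⁻¹)⁻¹) * (x * ⟨Hg m s, hHmem⟩ * x⁻¹) := by group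
      rw [this, ← hcommon]
      group
    have hnorm := hTI (x * ⟨Hg m s, hHmem⟩ * x⁻¹) (by
      intro hbot
      have : g₂ ∈ E ⊓ E.map (MulAut.conj (x * ⟨Hg m s, hHmem⟩ * x⁻¹)).toMonoidHom :=
        ⟨hg₂, ⟨g₁, hg₁, by rw [hcommon]; rfl⟩⟩
      rw [hbot, Subgroup.mem_bot] at this
      exact hg₂1 this)
    have hmem := (Subgroup.mem_normalizer_iff.mp hnorm g).mp hg
    refine ⟨_, hmem, ?_⟩
    have h3 := hβ _ hmem
    have h4 : ((x⁻¹ * (x * ⟨Hg m s, hHmem⟩ * x⁻¹ * g * (x * ⟨Hg m s, hHmem⟩ * x⁻¹)⁻¹) * x :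
        ↥(Cfsg.Sz F m)) : SpecialLinearGroup (Fin 4) F) = Tg m 0 ((l : F) * β g) := by
      simp only [Subgroup.coe_mul, Subgroup.coe_inv] at hy ⊢
      rw [hy g hg]
      group
    rw [h4] at h3
    exact ((Tg_inj h3).2).symm
  -- a nontrivial element
  obtain ⟨g₀, hg₀, hg₀1⟩ : ∃ g₀ ∈ E, g₀ ≠ 1 := by
    by_contra hcon
    push Not at hcon
    have : E = ⊥ := (Subgroup.eq_bot_iff_forall _).mpr hcon
    rw [this, Subgroup.card_bot] at hcard
    have : 2 ^ n ≥ 2 ^ 2 := Nat.pow_le_pow_right (by norm_num) hn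
    omega
  have hb₀ : β g₀ ≠ 0 := fun h => hg₀1 (hβ0 g₀ hg₀ h)
  -- the subgroup of the multiplicative group
  let K : Subgroup Fˣ :=
    { carrier := {u | ∃ g ∈ E, β g = (u : F) * β g₀}
      mul_mem' := by
        rintro u v ⟨g, hg, hgu⟩ ⟨g', hg', hgv⟩
        obtain ⟨g'', hg'', h⟩ := claimT u g₀ hg₀ hg₀1 ⟨g, hg, hgu⟩ g' hg'
        refine ⟨g'', hg'', ?_⟩
        rw [h, hgv, Units.val_mul, mul_assoc]
      one_mem' := ⟨g₀, hg₀, by rw [Units.val_one, one_mul]⟩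
      inv_mem' := by
        intro u hu
        have hpow : ∀ k : ℕ, ∃ g ∈ E, β g = ((u ^ k : Fˣ) : F) * β g₀ := by
          intro k
          induction k with
          | zero => exact ⟨g₀, hg₀, by rw [pow_zero, Units.val_one, one_mul]⟩
          | succ k ih =>
            obtain ⟨g, hg, hgu⟩ := hu
            obtain ⟨g', hg', hgk⟩ := ih
            obtain ⟨g'', hg'', h⟩ := claimT u g₀ hg₀ hg₀1 ⟨g, hg, hgu⟩ g' hg'
            refine ⟨g'', hg'', ?_⟩
            rw [h, hgk, pow_succ', Units.val_mul, mul_assoc]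
        have hinv : u⁻¹ = u ^ (orderOf u - 1) := by
          apply inv_eq_of_mul_eq_one_right
          rw [← pow_succ', Nat.sub_add_cancel (orderOf_pos u), pow_orderOf_eq_one]
        rw [hinv]
        exact hpow _ }
  have hKcard : Nat.card K = 2 ^ n - 1 := by
    have hbij : Function.Bijective (fun u : K => (⟨u.2.choose, u.2.choose_spec.1,
        fun h => hb₀ (by
          have h1 := u.2.choose_spec.2
          rw [h, hβ1] at h1
          rcases mul_eq_zero.mp h1.symm with h2 | h2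
          · exact absurd h2 (Units.ne_zero _)
          · exact h2)⟩ : {g : ↥(Cfsg.Sz F m) // g ∈ E ∧ g ≠ 1})) := by
      constructor
      · intro u v huv
        have h1 := congrArg Subtype.val huv
        simp only at h1
        have h2 := u.2.choose_spec.2
        have h3 := v.2.choose_spec.2
        rw [h1, h3] at h2
        apply Subtype.ext
        apply Units.ext
        exact (mul_right_cancel₀ hb₀ h2).symm
      · rintro ⟨g, hg, hg1⟩
        have hbg : β g ≠ 0 := fun h => hg1 (hβ0 g hg h)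
        have hu : Units.mk0 (β g / β g₀) (div_ne_zero hbg hb₀) ∈ K :=
          ⟨g, hg, by rw [Units.val_mk0]; field_simp⟩
        refine ⟨⟨_, hu⟩, ?_⟩
        apply Subtype.ext
        simp only
        apply hβinj _ hu.choose_spec.1 g hg
        rw [hu.choose_spec.2, Units.val_mk0]
        field_simp
    rw [Nat.card_congr (Equiv.ofBijective _ hbij)]
    have h1 : Nat.card {g : ↥(Cfsg.Sz F m) // g ∈ E ∧ g ≠ 1} =
        ((E : Set ↥(Cfsg.Sz F m)) \ {1}).ncard := by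
      rw [← Nat.card_coe_set_eq]
      rfl
    rw [h1, Set.ncard_sdiff_singleton_of_mem E.one_mem, ← Nat.card_coe_set_eq]
    exact congrArg (fun k => k - 1) hcard
  have hdvd : 2 ^ n - 1 ∣ 2 ^ (2 * m + 1) - 1 := by
    have h1 := Subgroup.card_subgroup_dvd_card K
    rw [hKcard, Nat.card_units, Nat.card_eq_fintype_card, hF] at h1
    exact h1
  have hgcd := Nat.pow_sub_one_gcd_pow_sub_one 2 n (2 * m + 1)
  rw [Nat.gcd_eq_left hdvd] at hgcd
  have h2 : 2 ^ n = 2 ^ (n.gcd (2 * m + 1)) := by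
    have h3 : 1 ≤ 2 ^ n := Nat.one_le_two_pow
    have h4 : 1 ≤ 2 ^ (n.gcd (2 * m + 1)) := Nat.one_le_two_pow
    omega
  have h5 := Nat.pow_right_injective (le_refl 2) h2
  rw [h5]
  exact Nat.gcd_dvd_right _ _

/-- Elementary abelian TI-subgroups of the Suzuki group: let q = 2^(2m+1) with m ≥ 1, the group realised as the stabiliser in SL₄ of the Suzuki–Tits ovoid, and n ≥ 2. There is an elementary abelian 2-subgroup E of order 2^n that is a TI-subgroup (every conjugate of E meeting E nontrivially is E itself) if and only if n divides 2m + 1. -/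
theorem result {F : Type*} [Field F] [Fintype F] {m : ℕ} (hm : 1 ≤ m) (hF : Fintype.card F = 2 ^ (2 * m + 1)) (n : ℕ) (hn : 2 ≤ n) :
    (∃ E : Subgroup ↥(Cfsg.Sz F m), Cfsg.IsElementaryAbelian 2 E ∧ Nat.card ↥E = 2 ^ n ∧
      ∀ x : ↥(Cfsg.Sz F m), E ⊓ E.map (MulAut.conj x).toMonoidHom ≠ ⊥ → x ∈ Subgroup.normalizer (E : Set ↥(Cfsg.Sz F m))) ↔ n ∣ 2 * m + 1 := by
  constructor
  · rintro ⟨E, hE, hcard, hTI⟩
    exact dvd_of_TI hm hF n hn E hE hcard hTI
  · exact exists_TI hm hF n hn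

end Cfsg.Agent.S2240
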