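import Cfsg.Statements.S2241
import Mathlib
import Cfsg.Agent.Lib.Helper45.SzU

set_option autoImplicit false
open Cfsg

namespace Cfsg.Agent.S2241

open Matrix Cfsg.Agent.Lib.Helper8.Sz Cfsg.Agent.Lib.Helper45.SzU
open scoped Pointwise

theorem real_iff {F : Type*} [Field F] [Fintype F] {m : ℕ} (hm : 1 ≤ m)
    (hF : Fintype.card F = 2 ^ (2 * m + 1)) (a b : F) (hab : ¬ (a = 0 ∧ b = 0))
    (g₀ : ↥(Cfsg.Sz F m)) (hg₀ : (g₀ : SpecialLinearGroup (Fin 4) F) = Tg m a b) :
    IsConj g₀ g₀⁻¹ ↔ orderOf g₀ = 2 := by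
  have hchar := charP_two hF
  have hsq : ((g₀ * g₀ : ↥(Cfsg.Sz F m)) : SpecialLinearGroup (Fin 4) F) =
      Tg m 0 (th m a * a) := by
    rw [Subgroup.coe_mul, hg₀, Tg_mul hF]
    congr 1
    · exact add_self hF a
    · have := add_self hF b
      linear_combination this
  by_cases ha : a = 0
  · subst ha
    have h2 : g₀ * g₀ = 1 := by
      apply Subtype.ext
      rw [hsq, th_zero, zero_mul, Tg_zero]
      rfl
    have hne : g₀ ≠ 1 := by
      intro h
      rw [h] at hg₀
      have : Tg m (0 : F) 0 = Tg m 0 b := by rw [Tg_zero]; exact hg₀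
      exact hab ⟨rfl, (Tg_inj this).2.symm⟩
    have hinv : g₀⁻¹ = g₀ := inv_eq_of_mul_eq_one_left h2
    constructor
    · intro _
      exact orderOf_eq_prime (by rw [sq]; exact h2) hne
    · intro _
      rw [hinv]
  · have hne2 : g₀ * g₀ ≠ 1 := by
      intro h
      have h' := congrArg Subtype.val h
      rw [hsq] at h'
      have : Tg m (0 : F) (th m a * a) = Tg m 0 0 := by rw [Tg_zero]; exact h'
      have h3 := (Tg_inj this).2
      rcases mul_eq_zero.mp h3 with h4 | h4
      · exact ha (th_eq_zero h4)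
      · exact ha h4
    constructor
    · intro hconj
      exfalso
      obtain ⟨c, hc⟩ := isConj_iff.mp hconj
      have hc' : (c : SpecialLinearGroup (Fin 4) F) * Tg m a b *
          (c : SpecialLinearGroup (Fin 4) F)⁻¹ = Tg m a (b + th m a * a) := by
        have := congrArg Subtype.val hc
        rw [Subgroup.coe_mul, Subgroup.coe_mul, Subgroup.coe_inv, Subgroup.coe_inv, hg₀,
          Tg_inv hF] at this
        exact this
      have hfix : (c : SpecialLinearGroup (Fin 4) F) • Pinf F = Pinf F := by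
        apply Tg_fix hF a (b + th m a * a) (fun h => ha h.1) _ (smul_mem_of_mem_Sz c.2 Pinf_mem)
        rw [← hc', mul_smul, mul_smul, inv_smul_smul, Tg_smul_Pinf]
      obtain ⟨c₁, d₁, s, hcs⟩ := fix_inf_decomp hm hF c.2 hfix
      rw [hcs, conj_formula hF] at hc'
      obtain ⟨e1, e2⟩ := Tg_inj hc'
      have hs : th m (s : F) = 1 := by
        have : th m (s : F) * a = 1 * a := by rw [e1, one_mul]
        exact mul_right_cancel₀ ha this
      have hs1 : (s : F) = 1 := th_inj hF (by rw [hs, th_one])
      rw [hs, hs1] at e2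
      simp only [one_mul, one_pow, mul_one] at e2
      have e3 : th m c₁ * a + th m a * c₁ = th m a * a := by linear_combination e2
      have hθa : th m a ≠ 0 := th_ne_zero ha
      have hc₁ : c₁ = c₁ / a * a := by field_simp
      have e4 : th m (c₁ / a) + c₁ / a = 1 := by
        have e3' : th m (c₁ / a * a) * a + th m a * (c₁ / a * a) = th m a * a := by
          rw [← hc₁]; exact e3
        rw [th_mul] at e3'
        have : (th m (c₁ / a) + c₁ / a) * (th m a * a) = 1 * (th m a * a) := by
          linear_combination e3'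
        exact mul_right_cancel₀ (mul_ne_zero hθa ha) this
      have e5 : (c₁ / a) ^ 2 + th m (c₁ / a) = 1 := by
        have := congrArg (th m) e4
        rw [th_add hF, th_th hF, th_one] at this
        exact this
      have e6 : (c₁ / a) ^ 2 + c₁ / a = 0 := by
        have h2 := add_self hF (th m (c₁ / a))
        have h3 : (1 : F) + 1 = 0 := add_self hF 1
        linear_combination e4 + e5 - h2 + h3
      have e7 : c₁ / a * (c₁ / a + 1) = 0 := by linear_combination e6
      rcases mul_eq_zero.mp e7 with h0 | h0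
      · rw [h0, th_zero, zero_add] at e4
        exact zero_ne_one e4
      · have ht1 : c₁ / a = 1 := by
          have := add_self hF (1 : F)
          linear_combination h0 - this
        rw [ht1, th_one] at e4
        have := add_self hF (1 : F)
        rw [this] at e4
        exact zero_ne_one e4
    · intro h2
      exfalso
      apply hne2
      rw [← sq, ← h2]
      exact pow_orderOf_eq_one g₀

/-- Real 2-elements of the Suzuki group: with q = 2^(2m+1), m ≥ 1, and the group realised as the stabiliser in SL₄ of the Suzuki–Tits ovoid, a non-identity element of a Sylow 2-subgroup is conjugate to its inverse if and only if it is an involution; in particular no element of order 4 is conjugate to its inverse. -/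
theorem result {F : Type*} [Field F] [Fintype F] {m : ℕ} (hm : 1 ≤ m) (hF : Fintype.card F = 2 ^ (2 * m + 1)) (P : Sylow 2 ↥(Cfsg.Sz F m)) (g : ↥(Cfsg.Sz F m)) (hg : g ∈ (P : Subgroup ↥(Cfsg.Sz F m))) (h1 : g ≠ 1) :
    IsConj g g⁻¹ ↔ orderOf g = 2 := by
  obtain ⟨x, hx⟩ := exists_conj_mem_U hm hF P
  obtain ⟨a, b, hab⟩ := (hx g).mp hg
  have hne : ¬ (a = 0 ∧ b = 0) := by
    rintro ⟨rfl, rfl⟩
    rw [Tg_zero] at hab
    apply h1
    have h3 : x⁻¹ * g * x = 1 := Subtype.ext hab
    have h2 : g = x * (x⁻¹ * g * x) * x⁻¹ := by group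
    rw [h2, h3]
    group
  have key := real_iff hm hF a b hne (x⁻¹ * g * x) hab
  have e1 : orderOf (x⁻¹ * g * x) = orderOf g := by
    have := (MulAut.conj x⁻¹).orderOf_eq g
    rw [MulAut.conj_apply, inv_inv] at this
    exact this
  have e2 : IsConj (x⁻¹ * g * x) (x⁻¹ * g * x)⁻¹ ↔ IsConj g g⁻¹ := by
    rw [isConj_iff, isConj_iff]
    constructor
    · rintro ⟨c, hc⟩
      refine ⟨x * c * x⁻¹, ?_⟩
      have : x * c * x⁻¹ * g * (x * c * x⁻¹)⁻¹ = x * (c * (x⁻¹ * g * x) * c⁻¹) * x⁻¹ := by group
      rw [this, hc]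
      group
    · rintro ⟨c, hc⟩
      refine ⟨x⁻¹ * c * x, ?_⟩
      have : x⁻¹ * c * x * (x⁻¹ * g * x) * (x⁻¹ * c * x)⁻¹ = x⁻¹ * (c * g * c⁻¹) * x := by group
      rw [this, hc]
      group
  rw [← e2, ← e1]
  exact key

end Cfsg.Agent.S2241
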