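import Cfsg.Statements.S2249
-- import your own Cfsg.Agent.* helpers here
import Cfsg.Agent.Lib.Helper47.GLSylMain

set_option autoImplicit false
open Cfsg

namespace Cfsg.Agent.S2249

open Cfsg.Agent.Lib.Helper47

/-- The normal 2-rank of the general linear group over a finite field of odd order q: for n ≥ 1 and S a Sylow 2-subgroup of GL_n(F), the largest rank of an elementary abelian subgroup of S that is normal in S equals n when q ≡ 1 (mod 4) and ⌊(n + 1)/2⌋ when q ≡ 3 (mod 4). -/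
theorem result {F : Type*} [Field F] [Fintype F] {q : ℕ} (hF : Fintype.card F = q) (hodd : Odd q) (n : ℕ) (hn : 1 ≤ n) (S : Sylow 2 (Matrix.GeneralLinearGroup (Fin n) F)) :
    (q % 4 = 1 → ((∃ E : Subgroup ↥(S : Subgroup (Matrix.GeneralLinearGroup (Fin n) F)), E.Normal ∧ Cfsg.IsElementaryAbelian 2 E ∧ 2 ^ (n) ≤ Nat.card ↥E) ∧
      ∀ E : Subgroup ↥(S : Subgroup (Matrix.GeneralLinearGroup (Fin n) F)), E.Normal → Cfsg.IsElementaryAbelian 2 E → Nat.card ↥E ≤ 2 ^ (n))) ∧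
    (q % 4 = 3 → ((∃ E : Subgroup ↥(S : Subgroup (Matrix.GeneralLinearGroup (Fin n) F)), E.Normal ∧ Cfsg.IsElementaryAbelian 2 E ∧ 2 ^ ((n + 1) / 2) ≤ Nat.card ↥E) ∧
      ∀ E : Subgroup ↥(S : Subgroup (Matrix.GeneralLinearGroup (Fin n) F)), E.Normal → Cfsg.IsElementaryAbelian 2 E → Nat.card ↥E ≤ 2 ^ ((n + 1) / 2))) := by
  classical
  have h2 : (2 : F) ≠ 0 := gl_two_ne_zero (hF ▸ hodd)
  refine ⟨fun h => ⟨?_, ?_⟩, fun h => ⟨?_, ?_⟩⟩
  · obtain ⟨E, hEn, hEc, hE2, hEcard⟩ :=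
      gl_sylow_hasNE_one_mod_four (by rw [hF]; exact h) n hn S
    exact ⟨E, hEn, ⟨⟨⟨fun a b => Subtype.ext (hEc a a.2 b b.2)⟩⟩,
      fun a ha => hE2 a ha⟩, by rw [hEcard]⟩
  · intro E _ hE
    exact gl_sylow_elemAb_le h2 n S E
      (fun x hx y hy => congrArg Subtype.val (hE.1.is_comm.comm ⟨x, hx⟩ ⟨y, hy⟩)) hE.2
  · obtain ⟨E, hEn, hEc, hE2, hEcard⟩ :=
      (gl_sylow_three_mod_four (by rw [hF]; exact h) n hn S).1
    exact ⟨E, hEn, ⟨⟨⟨fun a b => Subtype.ext (hEc a a.2 b b.2)⟩⟩,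
      fun a ha => hE2 a ha⟩, by rw [hEcard]⟩
  · intro E hEn hE
    exact (gl_sylow_three_mod_four (by rw [hF]; exact h) n hn S).2 E hEn
      (fun x hx y hy => congrArg Subtype.val (hE.1.is_comm.comm ⟨x, hx⟩ ⟨y, hy⟩)) hE.2

end Cfsg.Agent.S2249
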