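import Cfsg.Statements.S2250
-- import your own Cfsg.Agent.* helpers here
import Cfsg.Agent.S0245
import Cfsg.Agent.Lib.Helper81.ValTwo
import Cfsg.Agent.Lib.Helper47.SpSylNE
import Cfsg.Agent.Lib.Helper47.CommInvol
import Cfsg.Agent.Lib.Helper47.SpConj

set_option autoImplicit false
open Cfsg

namespace Cfsg.Agent.S2250

open Cfsg.Agent.Lib.Helper47

/-- The normal 2-rank of the symplectic group over a finite field of odd order: for n ≥ 1 and S a Sylow 2-subgroup of Sp_{2n}(F), the largest rank of an elementary abelian subgroup of S that is normal in S equals n. -/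
theorem result {F : Type*} [Field F] [Fintype F] (hF : Odd (Fintype.card F)) (n : ℕ) (hn : 1 ≤ n) (S : Sylow 2 ↥(Matrix.symplecticGroup (Fin n) F)) :
    ((∃ E : Subgroup ↥(S : Subgroup ↥(Matrix.symplecticGroup (Fin n) F)), E.Normal ∧ Cfsg.IsElementaryAbelian 2 E ∧ 2 ^ (n) ≤ Nat.card ↥E) ∧
      ∀ E : Subgroup ↥(S : Subgroup ↥(Matrix.symplecticGroup (Fin n) F)), E.Normal → Cfsg.IsElementaryAbelian 2 E → Nat.card ↥E ≤ 2 ^ (n)) := by
  classical
  have hfact : Fact (Nat.Prime 2) := ⟨Nat.prime_two⟩
  have hfin : Finite (Matrix.symplecticGroup (Fin n) F) :=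
    Finite.of_injective Subtype.val Subtype.val_injective
  constructor
  · obtain ⟨T, _, _, φ, hT, hdvd, hne, hφ⟩ := (hasSylNE_all (hasSylNE_base hF) n hn).exists_hom
    have hcard := Cfsg.Agent.S0245.result (F := F) (q := Fintype.card F) rfl n
    have hq1 : 1 < Fintype.card F := Fintype.one_lt_card
    have hval : (Nat.card (Matrix.symplecticGroup (Fin n) F)).factorization 2 =
        n * padicValNat 2 (Fintype.card F ^ 2 - 1) + padicValNat 2 n.factorial := by
      rw [Nat.factorization_def _ Nat.prime_two, hcard,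
        Cfsg.Agent.Lib.Helper81.ValTwo.val_card_sp hq1 hF n]
    obtain ⟨E, hEn, hEc, hE2, hEcard⟩ :=
      hasNE_sylow_of_hom φ hφ hT (by rw [hval]; exact hdvd) hne S
    exact ⟨E, hEn, ⟨⟨⟨fun a b => Subtype.ext (hEc a a.2 b b.2)⟩⟩, fun a ha => hE2 a ha⟩,
      by rw [hEcard]⟩
  · intro E _ hE
    obtain ⟨hEcomm, hE2⟩ := hE
    have h2 : (2 : F) ≠ 0 := by
      intro h0
      have h1 : ((Fintype.card F : ℕ) : F) = 0 := FiniteField.cast_card_eq_zero F
      obtain ⟨k, hk⟩ := hF
      rw [hk] at h1
      push_cast at h1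
      rw [h0, zero_mul, zero_add] at h1
      exact one_ne_zero h1
    obtain ⟨f, hf⟩ : ∃ f : E → Module.End F (Fin n ⊕ Fin n → F), ∀ x : E,
        f x = Matrix.toLin' (((x : ↥(S : Subgroup ↥(Matrix.symplecticGroup (Fin n) F))) :
          ↥(Matrix.symplecticGroup (Fin n) F)) : Matrix (Fin n ⊕ Fin n) (Fin n ⊕ Fin n) F) :=
      ⟨_, fun x => rfl⟩
    have hinj : Function.Injective f := by
      intro x y hxy
      rw [hf, hf] at hxy
      exact Subtype.ext (Subtype.ext (Subtype.ext (Matrix.toLin'.injective hxy)))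
    have hmul : ∀ x y : E, f x * f y = f (x * y) := by
      intro x y
      rw [hf, hf, hf]
      exact (Matrix.toLin'_mul _ _).symm
    have hone : f 1 = 1 := by
      rw [hf]
      exact Matrix.toLin'_one
    have hbound := card_comm_invol_le h2 (2 * n) (Fin n ⊕ Fin n → F) (spForm (Fin n) F)
      (by rw [Module.finrank_fintype_fun_eq_card, Fintype.card_sum, Fintype.card_fin]; ring)
      spForm_isSForm spForm_nondeg spForm_alt (Set.range f)
      (by
        rintro _ ⟨x, rfl⟩
        rw [hmul, ← hone]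
        congr 1
        apply Subtype.ext
        have := hE2 x.1 x.2
        rw [pow_two] at this
        exact this)
      (by
        rintro _ ⟨x, rfl⟩ _ ⟨y, rfl⟩
        rw [hmul, hmul]
        congr 1
        exact hEcomm.is_comm.comm x y)
      (by
        rintro _ ⟨x, rfl⟩ u v
        rw [hf]
        exact spForm_isometry (x : ↥(S : Subgroup ↥(Matrix.symplecticGroup (Fin n) F))).1.2 u v)
    rw [Nat.mul_div_cancel_left n (by norm_num)] at hbound
    rw [← Nat.card_range_of_injective hinj]
    exact hbound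

end Cfsg.Agent.S2250
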