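import Cfsg.Statements.S2256
import Cfsg.Agent.Lib.Helper45.NilC3d
import Cfsg.Agent.Lib.Helper62.NilPermA

set_option autoImplicit false
open Cfsg

namespace Cfsg.Agent.S2256

open Cfsg.Agent.Lib.Helper45.NilC3 in
theorem result  (n : ℕ) (hn : n % 4 = 3) (h7 : 7 ≤ n)
    (P : Sylow 2 (alternatingGroup (Fin (n - 3)))) :
    (∀ N : Subgroup (alternatingGroup (Fin n)), Group.IsNilpotent N → Nat.card N ≤ 3 * Nat.card P) ∧
    (∃ M : Subgroup (alternatingGroup (Fin n)), Group.IsNilpotent M ∧ Nat.card M = 3 * Nat.card P ∧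
      Nonempty (M ≃* (↥(P : Subgroup (alternatingGroup (Fin (n - 3)))) × Multiplicative (ZMod 3)))) ∧
    (∀ N₁ N₂ : Subgroup (alternatingGroup (Fin n)), Group.IsNilpotent N₁ → Group.IsNilpotent N₂ →
      Nat.card N₁ = 3 * Nat.card P → Nat.card N₂ = 3 * Nat.card P →
      ∃ g : alternatingGroup (Fin n), N₂ = N₁.map (MulAut.conj g).toMonoidHom) := by
  have h3 : 3 ≤ n := by omega
  have hnt : Nontrivial (Fin (n - 3)) := Fin.nontrivial_iff_two_le.2 (by omega)
  have hP : Nat.card P = 2 ^ (Nat.card (alternatingGroup (Fin (n - 3)))).factorization 2 :=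
    Sylow.card_eq_multiplicity P
  have hA : 2 * Nat.card (alternatingGroup (Fin (n - 3))) = (n - 3).factorial := by
    rw [two_mul_nat_card_alternatingGroup, Nat.card_perm, Nat.card_fin]
  have he : (n - 3).factorial.factorization 2 =
      (Nat.card (alternatingGroup (Fin (n - 3)))).factorization 2 + 1 := by
    rw [← hA, Nat.factorization_mul (by norm_num) Nat.card_pos.ne']
    simp [Nat.Prime.factorization_self Nat.prime_two, add_comm]
  have hnd : ¬ 2 ^ (Nat.card (alternatingGroup (Fin (n - 3)))).factorization 2 ∣ (n - 4).factorial := by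
    intro h
    have h1 : n - 3 = (n - 4) + 1 := by omega
    have h2 : (n - 3).factorial = (n - 3) * (n - 4).factorial := by
      rw [h1, Nat.factorial_succ]
    have h3 : (n - 3).factorial.factorization 2 =
        (n - 3).factorization 2 + (n - 4).factorial.factorization 2 := by
      rw [h2, Nat.factorization_mul (by omega) (Nat.factorial_ne_zero _)]
      rfl
    have h4 : 2 ≤ (n - 3).factorization 2 := by
      have : 2 ^ 2 ∣ n - 3 := by omega
      exact (Nat.Prime.pow_dvd_iff_le_factorization Nat.prime_two (by omega)).1 this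
    have h5 := (Nat.Prime.pow_dvd_iff_le_factorization Nat.prime_two (Nat.factorial_ne_zero _)).1 h
    omega
  refine ⟨?_, ?_, ?_⟩
  · exact fun N hN =>
      Cfsg.Agent.Lib.Helper62.NilPerm.card_alt_nilpotent_le_three_mul n hn h7 P N hN
  · exact exists_alt h3 (P : Subgroup (alternatingGroup (Fin (n - 3)))) P.isPGroup'.isNilpotent
  · intro N₁ N₂ h₁ h₂ c₁ c₂
    rw [hP] at c₁ c₂
    exact conj_alt_sub (by omega) hnd he N₁ N₂ h₁ h₂ c₁ c₂

end Cfsg.Agent.S2256
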