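import Cfsg.Statements.S2257
import Cfsg.Agent.Lib.Helper45.Sl2Even6

set_option autoImplicit false
open Cfsg

namespace Cfsg.Agent.S2257

open Cfsg.Agent.Lib.Helper45.Sl2Even Cfsg.Agent.Lib.Helper19.Dk Cfsg.Agent.S0809

theorem solv_iff {G : Type*} [Group G] (hmin : ∀ H : Subgroup G, H ≠ ⊤ → Group.IsSolvable H)
    (hns : ¬ Group.IsSolvable G) (H : Subgroup G) : Group.IsSolvable H ↔ H ≠ ⊤ := by
  constructor
  · intro hs hH
    subst hH
    apply hns
    exact Group.isSolvable_of_surjective (f := (Subgroup.topEquiv (G := G)).toMonoidHom)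
      (Subgroup.topEquiv (G := G)).surjective
  · exact hmin H

theorem count_eq (p : ℕ) (hp : p.Prime) {F : Type*} [Field F] [Fintype F]
    (hF : Fintype.card F = 2 ^ p) (h2 : (2 : F) = 0) (x : S2 F) :
    Nat.card {y : P2 F // Group.IsSolvable ↥(Subgroup.closure ({eqvP h2 x, y} : Set (P2 F)))}
      = ngc x := by
  have h4 : 4 ≤ Fintype.card F := by
    rw [hF]
    calc 4 = 2 ^ 2 := by norm_num
      _ ≤ 2 ^ p := Nat.pow_le_pow_right (by norm_num) hp.two_le
  have hmin := (Cfsg.Agent.S0810.result (q := 2 ^ p) hF).2 (Or.inl ⟨p, hp, rfl⟩)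
  have hns := not_solvable_P2 (K := F) h4
  rw [ngc_equiv (eqvP h2) x]
  apply Nat.card_congr
  exact Equiv.subtypeEquivRight (fun y => solv_iff hmin.2.2 hns _)

theorem result (p : ℕ) (hp : p.Prime) {F : Type*} [Field F] [Fintype F]
    (hF : Fintype.card F = 2 ^ p) (x : Matrix.ProjectiveSpecialLinearGroup (Fin 2) F) :
    (orderOf x = 2 → Nat.card {y : Matrix.ProjectiveSpecialLinearGroup (Fin 2) F // Group.IsSolvable ↥(Subgroup.closure ({x, y} : Set (Matrix.ProjectiveSpecialLinearGroup (Fin 2) F)))} = 3 * 2 ^ p * (2 ^ p - 1)) ∧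
    (x ≠ 1 → orderOf x ∣ 2 ^ p - 1 → Nat.card {y : Matrix.ProjectiveSpecialLinearGroup (Fin 2) F // Group.IsSolvable ↥(Subgroup.closure ({x, y} : Set (Matrix.ProjectiveSpecialLinearGroup (Fin 2) F)))} = 2 * 2 ^ p * (2 ^ p - 1)) ∧
    (x ≠ 1 → orderOf x ∣ 2 ^ p + 1 → Nat.card {y : Matrix.ProjectiveSpecialLinearGroup (Fin 2) F // Group.IsSolvable ↥(Subgroup.closure ({x, y} : Set (Matrix.ProjectiveSpecialLinearGroup (Fin 2) F)))} = 2 * (2 ^ p + 1)) := by
  have : CharP F 2 := charP_of_card_eq_prime_pow hF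
  have h2 : (2 : F) = 0 := by
    have := CharP.cast_eq_zero F 2
    exact_mod_cast this
  obtain ⟨x₀, rfl⟩ := (eqvP h2).surjective x
  have hcount := count_eq p hp hF h2 x₀
  have hord : orderOf (eqvP h2 x₀) = orderOf x₀ := MulEquiv.orderOf_eq (eqvP h2) x₀
  have hne : eqvP h2 x₀ ≠ 1 → x₀ ≠ 1 := by
    intro h h'
    apply h
    rw [h', map_one]
  refine ⟨?_, ?_, ?_⟩
  · intro ho
    rw [hord] at ho
    have hx1 : x₀ ≠ 1 := by
      intro h
      rw [h, orderOf_one] at ho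
      omega
    have hxx : x₀ * x₀ = 1 := by
      have h5 := pow_orderOf_eq_one x₀
      rw [ho] at h5
      rw [← pow_two]
      exact h5
    rw [hcount, ngc_invol p hp hF h2 x₀ hx1 hxx, hF]
    ring
  · intro hx1 ho
    rw [hord] at ho
    have hpow : x₀ ^ (Fintype.card F - 1) = 1 := by
      rw [hF]; exact orderOf_dvd_iff_pow_eq_one.1 ho
    rw [hcount, ngc_split p hp hF h2 x₀ (hne hx1) hpow, hF]
    ring
  · intro hx1 ho
    rw [hord] at ho
    have hpow : x₀ ^ (Fintype.card F + 1) = 1 := by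
      rw [hF]; exact orderOf_dvd_iff_pow_eq_one.1 ho
    rw [hcount, ngc_nonsplit p hp hF h2 x₀ (hne hx1) hpow, hF]

end Cfsg.Agent.S2257
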