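import Cfsg.Statements.S2258
import Cfsg.Agent.Lib.Helper45.Sl2Odd7

set_option autoImplicit false
open Cfsg

namespace Cfsg.Agent.S2258

open Cfsg.Agent.Lib.Helper45.Sl2Odd Cfsg.Agent.Lib.Helper45.Sl2Even Cfsg.Agent.Lib.Helper19.Dk
  Cfsg.Agent.S0809

theorem solv_iff {G : Type*} [Group G] (hmin : ∀ H : Subgroup G, H ≠ ⊤ → Group.IsSolvable H)
    (hns : ¬ Group.IsSolvable G) (H : Subgroup G) : Group.IsSolvable H ↔ H ≠ ⊤ := by
  constructor
  · intro hs hH
    subst hH
    apply hns
    exact Group.isSolvable_of_surjective (f := (Subgroup.topEquiv (G := G)).toMonoidHom)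
      (Subgroup.topEquiv (G := G)).surjective
  · exact hmin H

theorem count_eq (p : ℕ) (hp : p.Prime) (hodd : Odd p) {F : Type*} [Field F] [Fintype F]
    (hF : Fintype.card F = 3 ^ p) (x : S2 F) :
    2 * Nat.card {y : P2 F // Group.IsSolvable ↥(Subgroup.closure ({prj F x, y} : Set (P2 F)))}
      = ngz x := by
  obtain ⟨h3, h2, hns⟩ := char_facts p hodd hF
  have h4 : 4 ≤ Fintype.card F := card_gt_three p hp hodd hF
  have hp2 : p ≠ 2 := by
    rintro rfl
    obtain ⟨k, hk⟩ := hodd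
    omega
  have hmin := (Cfsg.Agent.S0810.result (q := 3 ^ p) hF).2 (Or.inr (Or.inl ⟨p, hp, hp2, rfl⟩))
  have hnsol := not_solvable_P2 (K := F) h4
  have e1 : Nat.card {y : P2 F //
        Group.IsSolvable ↥(Subgroup.closure ({prj F x, y} : Set (P2 F)))}
      = Nat.card {y : P2 F // Subgroup.closure ({prj F x, y} : Set (P2 F)) ≠ ⊤} :=
    Nat.card_congr (Equiv.subtypeEquivRight (fun y => solv_iff hmin.2.2 hnsol _))
  have e2 := card_fiber_pred (prj F) prj_surj
    (fun y : P2 F => Subgroup.closure ({prj F x, y} : Set (P2 F)) ≠ ⊤)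
  rw [ker_prj, center_card_two h2] at e2
  rw [e1, ← e2]
  unfold ngz
  exact Nat.card_congr (Equiv.subtypeEquivRight
    (fun y => (ng_iff_map (prj F) prj_surj ker_prj x y).symm))

/-- Let G = PSL_2(F) with F a field of order q = 3^p, p an odd prime, and for x ∈ G call the solubilizer of x the set of y ∈ G such that x and y generate a solvable subgroup. Then the solubilizer of an involution has q(q + 1) elements; that of an element of order 3 has q(q + 5)/2 elements; that of an element of order neither 1 nor 2 dividing q − 1 has q(q − 1) elements; and that of an element of order neither 1 nor 2 dividing q + 1 has q + 1 elements. -/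
theorem result (p : ℕ) (hp : p.Prime) (hodd : Odd p) {F : Type*} [Field F] [Fintype F]
    (hF : Fintype.card F = 3 ^ p) (x : Matrix.ProjectiveSpecialLinearGroup (Fin 2) F) :
    (orderOf x = 2 → Nat.card {y : Matrix.ProjectiveSpecialLinearGroup (Fin 2) F // Group.IsSolvable ↥(Subgroup.closure ({x, y} : Set (Matrix.ProjectiveSpecialLinearGroup (Fin 2) F)))} = 3 ^ p * (3 ^ p + 1)) ∧
    (orderOf x = 3 → 2 * Nat.card {y : Matrix.ProjectiveSpecialLinearGroup (Fin 2) F // Group.IsSolvable ↥(Subgroup.closure ({x, y} : Set (Matrix.ProjectiveSpecialLinearGroup (Fin 2) F)))} = 3 ^ p * (3 ^ p + 5)) ∧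
    (x ≠ 1 → orderOf x ≠ 2 → orderOf x ∣ 3 ^ p - 1 → Nat.card {y : Matrix.ProjectiveSpecialLinearGroup (Fin 2) F // Group.IsSolvable ↥(Subgroup.closure ({x, y} : Set (Matrix.ProjectiveSpecialLinearGroup (Fin 2) F)))} = 3 ^ p * (3 ^ p - 1)) ∧
    (x ≠ 1 → orderOf x ≠ 2 → orderOf x ∣ 3 ^ p + 1 → Nat.card {y : Matrix.ProjectiveSpecialLinearGroup (Fin 2) F // Group.IsSolvable ↥(Subgroup.closure ({x, y} : Set (Matrix.ProjectiveSpecialLinearGroup (Fin 2) F)))} = 3 ^ p + 1) := by
  obtain ⟨h3, h2, hns⟩ := char_facts p hodd hF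
  obtain ⟨x₀, rfl⟩ := prj_surj x
  have hcount := count_eq p hp hodd hF x₀
  have hsc_of_ne : prj F x₀ ≠ 1 → ¬ IsSc x₀ := fun h h' => h ((prj_eq_one_iff x₀).2 h')
  have hpow : ∀ n : ℕ, orderOf (prj F x₀) ∣ n → IsSc (x₀ ^ n) := by
    intro n hn
    rw [← prj_eq_one_iff, map_pow]
    exact orderOf_dvd_iff_pow_eq_one.1 hn
  have hsc2 : prj F x₀ ≠ 1 → orderOf (prj F x₀) ≠ 2 → ¬ IsSc (x₀ * x₀) := by
    intro h1 h2' hsc
    have h5 : (prj F x₀) ^ 2 = 1 := by
      rw [← map_pow, pow_two]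
      exact (prj_eq_one_iff _).2 hsc
    have h6 := orderOf_dvd_of_pow_eq_one h5
    rcases (Nat.dvd_prime Nat.prime_two).1 h6 with h | h
    · exact h1 (orderOf_eq_one_iff.1 h)
    · exact h2' h
  refine ⟨?_, ?_, ?_, ?_⟩
  · intro ho
    have hx1 : prj F x₀ ≠ 1 := by
      intro h
      rw [h, orderOf_one] at ho
      omega
    have hsc := hsc_of_ne hx1
    have hsq : IsSc (x₀ ^ 2) := hpow 2 (by rw [ho])
    have htr : tr x₀ = 0 := by
      rw [pow_two] at hsq
      rcases isSc_eq _ hsq with h | h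
      · exfalso
        rcases sq_eq_one h2 x₀ h with h' | h'
        · exact hsc (by rw [h']; exact isSc_one)
        · exact hsc (by rw [h']; exact isSc_negOne)
      · exact tr_zero_of_sq' x₀ h
    have := ngz_tr0 p hp hodd hF x₀ htr
    rw [← hcount, hF] at this
    exact Nat.eq_of_mul_eq_mul_left (by norm_num : 0 < 2) this
  · intro ho
    have hx1 : prj F x₀ ≠ 1 := by
      intro h
      rw [h, orderOf_one] at ho
      omega
    have := ngz_unip p hp hodd hF x₀ (hsc_of_ne hx1) (hpow 3 (by rw [ho]))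
    rw [← hcount, hF] at this
    exact this
  · intro hx1 ho2 hdvd
    have := ngz_split p hp hodd hF x₀ (hsc2 hx1 ho2) (hpow _ (by rw [hF]; exact hdvd))
    rw [← hcount, hF] at this
    exact Nat.eq_of_mul_eq_mul_left (by norm_num : 0 < 2) this
  · intro hx1 ho2 hdvd
    have := ngz_nonsplit p hp hodd hF x₀ (hsc2 hx1 ho2) (hpow _ (by rw [hF]; exact hdvd))
    rw [← hcount, hF] at this
    exact Nat.eq_of_mul_eq_mul_left (by norm_num : 0 < 2) this

end Cfsg.Agent.S2258
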