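import Cfsg.Statements.S2268
import Mathlib

set_option autoImplicit false
open Cfsg

namespace Cfsg.Agent.S2268

/-- Let G be a finite group with an abelian Sylow p-subgroup P and let Q ≤ P. Then N_G(Q) = (N_G(Q) ∩ N_G(P))·C_G(Q), so that N_G(Q)/C_G(Q) is a homomorphic image of the subgroup (N_G(Q) ∩ N_G(P))/C_G(P) of N_G(P)/C_G(P); in particular the order of N_G(Q)/C_G(Q) divides the order of N_G(P)/C_G(P). -/
theorem result {G : Type*} [Group G] [Finite G] {p : ℕ} [Fact p.Prime]
    (P : Sylow p G) (hP : IsMulCommutative (P : Subgroup G)) (Q : Subgroup G) (hQ : Q ≤ (P : Subgroup G)) :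
    Subgroup.normalizer (Q : Set G) =
      (Subgroup.normalizer (Q : Set G) ⊓ Subgroup.normalizer ((P : Subgroup G) : Set G)) ⊔ Subgroup.centralizer (Q : Set G) ∧
    ((Subgroup.centralizer (Q : Set G)).subgroupOf (Subgroup.normalizer (Q : Set G))).index ∣ ((Subgroup.centralizer ((P : Subgroup G) : Set G)).subgroupOf (Subgroup.normalizer ((P : Subgroup G) : Set G))).index := by
  have hCQN : Subgroup.centralizer (Q : Set G) ≤ Subgroup.normalizer (Q : Set G) :=
    Subgroup.centralizer_le_normalizer _
  have hPCP : (P : Subgroup G) ≤ Subgroup.centralizer ((P : Subgroup G) : Set G) := by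
    intro x hx y hy
    have := hP.is_comm.comm (⟨y, hy⟩ : (P : Subgroup G)) ⟨x, hx⟩
    exact congrArg Subtype.val this
  have hCPCQ : Subgroup.centralizer ((P : Subgroup G) : Set G) ≤ Subgroup.centralizer (Q : Set G) :=
    Subgroup.centralizer_le hQ
  have hPCQ : (P : Subgroup G) ≤ Subgroup.centralizer (Q : Set G) := hPCP.trans hCPCQ
  have key : Subgroup.normalizer (Q : Set G) ≤
      (Subgroup.normalizer (Q : Set G) ⊓ Subgroup.normalizer ((P : Subgroup G) : Set G)) ⊔
        Subgroup.centralizer (Q : Set G) := by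
    intro g hg
    have h2 : ((g • P : Sylow p G) : Subgroup G) ≤ Subgroup.centralizer (Q : Set G) := by
      rintro - ⟨z, hz, rfl⟩
      intro q hq
      have hq' : g⁻¹ * q * g ∈ Q :=
        (Subgroup.mem_normalizer_iff''.mp hg q).mp hq
      have hc := hPCQ hz (g⁻¹ * q * g) hq'
      change q * (g * z * g⁻¹) = (g * z * g⁻¹) * q
      calc q * (g * z * g⁻¹) = g * (g⁻¹ * q * g * z) * g⁻¹ := by group
        _ = g * (z * (g⁻¹ * q * g)) * g⁻¹ := by rw [hc]
        _ = (g * z * g⁻¹) * q := by group
    obtain ⟨h, hh⟩ := MulAction.exists_smul_eq (Subgroup.centralizer (Q : Set G))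
      ((g • P).subtype h2) (P.subtype hPCQ)
    simp_rw [Sylow.smul_subtype, Subgroup.smul_def, smul_smul] at hh
    have hn : (h : G) * g ∈ Subgroup.normalizer ((P : Subgroup G) : Set G) :=
      Sylow.smul_eq_iff_mem_normalizer.mp (Sylow.subtype_injective hh)
    have hg' : g = (h : G)⁻¹ * ((h : G) * g) := by group
    rw [hg']
    exact Subgroup.mul_mem _ (Subgroup.mem_sup_right (inv_mem h.2))
      (Subgroup.mem_sup_left ⟨mul_mem (hCQN h.2) hg, hn⟩)
  have h1 : Subgroup.normalizer (Q : Set G) =
      (Subgroup.normalizer (Q : Set G) ⊓ Subgroup.normalizer ((P : Subgroup G) : Set G)) ⊔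
        Subgroup.centralizer (Q : Set G) :=
    le_antisymm key (sup_le inf_le_left hCQN)
  refine ⟨h1, ?_⟩
  change (Subgroup.centralizer (Q : Set G)).relIndex (Subgroup.normalizer (Q : Set G)) ∣
    (Subgroup.centralizer ((P : Subgroup G) : Set G)).relIndex (Subgroup.normalizer ((P : Subgroup G) : Set G))
  have hA : (Subgroup.centralizer (Q : Set G)).relIndex (Subgroup.normalizer (Q : Set G)) =
      (Subgroup.centralizer (Q : Set G)).relIndex
        (Subgroup.normalizer (Q : Set G) ⊓ Subgroup.normalizer ((P : Subgroup G) : Set G)) := by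
    have h3 := Subgroup.relIndex_sup_right
      ((Subgroup.normalizer (Q : Set G) ⊓ Subgroup.normalizer ((P : Subgroup G) : Set G)).subgroupOf
        (Subgroup.normalizer (Q : Set G)))
      ((Subgroup.centralizer (Q : Set G)).subgroupOf (Subgroup.normalizer (Q : Set G)))
    rw [Subgroup.relIndex_subgroupOf inf_le_left] at h3
    rw [← h3]
    rw [← Subgroup.subgroupOf_sup inf_le_left hCQN, ← h1, Subgroup.subgroupOf_self,
      Subgroup.relIndex_top_right]
    rfl
  rw [hA]
  calc (Subgroup.centralizer (Q : Set G)).relIndex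
        (Subgroup.normalizer (Q : Set G) ⊓ Subgroup.normalizer ((P : Subgroup G) : Set G))
      ∣ (Subgroup.centralizer ((P : Subgroup G) : Set G)).relIndex
        (Subgroup.normalizer (Q : Set G) ⊓ Subgroup.normalizer ((P : Subgroup G) : Set G)) :=
        Subgroup.relIndex_dvd_of_le_left _ hCPCQ
    _ ∣ (Subgroup.centralizer ((P : Subgroup G) : Set G)).relIndex
        (Subgroup.normalizer ((P : Subgroup G) : Set G)) := by
        rw [← Subgroup.relIndex_subgroupOf (inf_le_right : Subgroup.normalizer (Q : Set G) ⊓ Subgroup.normalizer ((P : Subgroup G) : Set G) ≤ Subgroup.normalizer ((P : Subgroup G) : Set G))]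
        exact Subgroup.relIndex_dvd_index_of_normal _ _

end Cfsg.Agent.S2268
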