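import Cfsg.Statements.S2269
import Mathlib

set_option autoImplicit false
open Cfsg

namespace Cfsg.Agent.S2269

/-- If an element `m` of the normalizer inverts a nonidentity element `x` of odd prime power
order in the abelian Sylow subgroup, the automizer has even order. -/
theorem even_index_of_invert {G : Type*} [Group G] [Finite G] {p : ℕ} [Fact p.Prime] (hp : p ≠ 2)
    (P : Sylow p G) (x m : G) (hx : x ∈ (P : Subgroup G)) (hx1 : x ≠ 1)
    (hm : m ∈ Subgroup.normalizer ((P : Subgroup G) : Set G)) (hinv : x⁻¹ = m⁻¹ * x * m) :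
    2 ∣ ((Subgroup.centralizer ((P : Subgroup G) : Set G)).subgroupOf
      (Subgroup.normalizer ((P : Subgroup G) : Set G))).index := by
  set C' := (Subgroup.centralizer ((P : Subgroup G) : Set G)).subgroupOf
      (Subgroup.normalizer ((P : Subgroup G) : Set G)) with hC'
  let mbar : (Subgroup.normalizer ((P : Subgroup G) : Set G)) ⧸ C' := QuotientGroup.mk ⟨m, hm⟩
  have hdvd : orderOf mbar ∣ C'.index := by
    rw [Subgroup.index_eq_card]
    exact orderOf_dvd_natCard mbar
  refine dvd_trans ?_ hdvd
  by_contra hodd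
  have hodd' : Odd (orderOf mbar) := Nat.odd_iff.mpr (Nat.two_dvd_ne_zero.mp hodd)
  obtain ⟨j, hj⟩ := hodd'
  have hpow : mbar ^ (2 * j + 1) = 1 := hj ▸ pow_orderOf_eq_one mbar
  have hmem : (⟨m, hm⟩ : Subgroup.normalizer ((P : Subgroup G) : Set G)) ^ (2 * j + 1) ∈ C' := by
    rw [← QuotientGroup.eq_one_iff]
    exact hpow
  have hmem' : m ^ (2 * j + 1) ∈ Subgroup.centralizer ((P : Subgroup G) : Set G) := by
    have := Subgroup.mem_subgroupOf.mp hmem
    simpa using this
  have hc1 : Commute (m ^ (2 * j + 1)) x := (hmem' x hx).symm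
  have h1 : m * x⁻¹ = x * m := by rw [hinv]; group
  have h2 : m * x = x⁻¹ * m := by
    have h3 : x = m * x⁻¹ * m⁻¹ := by rw [hinv]; group
    have h4 : x⁻¹ = m * x * m⁻¹ := by
      calc x⁻¹ = (m * x⁻¹ * m⁻¹)⁻¹ := by rw [← h3]
        _ = m * x * m⁻¹ := by group
    rw [h4]; group
  have hc2 : Commute (m ^ 2) x := by
    change m ^ 2 * x = x * m ^ 2
    rw [pow_two, mul_assoc, h2, ← mul_assoc, h1, mul_assoc]
  have hc3 : Commute ((m ^ 2) ^ j) x := hc2.pow_left j
  have hc4 : Commute m x := by
    have hm'' : m ^ (2 * j + 1) = (m ^ 2) ^ j * m := by rw [pow_succ, pow_mul]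
    have hm' : m = ((m ^ 2) ^ j)⁻¹ * m ^ (2 * j + 1) := by
      rw [hm'', inv_mul_cancel_left]
    rw [hm']
    exact hc3.inv_left.mul_left hc1
  have hxx : x⁻¹ = x := by
    rw [hinv, mul_assoc, ← hc4.eq, ← mul_assoc, inv_mul_cancel, one_mul]
  have hx2 : x ^ 2 = 1 := by
    rw [pow_two]
    nth_rewrite 1 [← hxx]
    exact inv_mul_cancel x
  obtain ⟨k, hk⟩ := P.isPGroup' ⟨x, hx⟩
  have hk' : x ^ (p ^ k) = 1 := by
    have := congrArg Subtype.val hk
    simpa using this
  have hd1 : orderOf x ∣ 2 := orderOf_dvd_of_pow_eq_one hx2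
  have hd2 : orderOf x ∣ p ^ k := orderOf_dvd_of_pow_eq_one hk'
  have hcop : Nat.Coprime 2 (p ^ k) := by
    apply Nat.Coprime.pow_right
    rw [Nat.coprime_primes Nat.prime_two Fact.out]
    exact fun h => hp h.symm
  have : orderOf x = 1 := Nat.eq_one_of_dvd_coprimes hcop hd1 hd2
  exact hx1 (orderOf_eq_one_iff.mp this)


theorem card_sylow_eq_p (n : ℕ) {p : ℕ} [Fact p.Prime] (hp : p ≠ 2) (hpn : p ≤ n) (hnp : n ≤ p + 1)
    (P : Sylow p (alternatingGroup (Fin n))) :
    Nat.card (P : Subgroup (alternatingGroup (Fin n))) = p := by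
  have hpp : p.Prime := Fact.out
  have hp3 : 3 ≤ p := by
    have := hpp.two_le
    omega
  have : Nontrivial (Fin n) := Fin.nontrivial_iff_two_le.mpr (by omega)
  have h2 : 2 * Nat.card (alternatingGroup (Fin n)) = n.factorial := by
    rw [two_mul_nat_card_alternatingGroup, Nat.card_perm, Nat.card_eq_fintype_card,
      Fintype.card_fin]
  have hne : Nat.card (alternatingGroup (Fin n)) ≠ 0 := Nat.card_pos.ne'
  have hfac : (Nat.card (alternatingGroup (Fin n))).factorization p = 1 := by
    have h3 : (2 * Nat.card (alternatingGroup (Fin n))).factorization p =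
        (Nat.card (alternatingGroup (Fin n))).factorization p := by
      rw [Nat.factorization_mul two_ne_zero hne]
      have : (Nat.factorization 2) p = 0 := by
        apply Nat.factorization_eq_zero_of_not_dvd
        intro hdvd
        have := Nat.le_of_dvd (by norm_num) hdvd
        omega
      simp [this]
    rw [← h3, h2]
    have hlog : Nat.log p n < 2 := by
      apply Nat.log_lt_of_lt_pow (by omega)
      nlinarith
    rw [Nat.factorization_factorial hpp hlog]
    simp only [Finset.sum_Ico_succ_top (le_refl 1), Finset.Ico_self, Finset.sum_empty, zero_add,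
      pow_one]
    rw [Nat.div_eq_iff (by omega)]
    constructor <;> omega
  rw [P.card_eq_multiplicity, hfac, pow_one]

theorem odd_case (n : ℕ) {p : ℕ} [Fact p.Prime] (hp : p ≠ 2)
    (P : Sylow p (alternatingGroup (Fin n)))
    (hP : IsMulCommutative (P : Subgroup (alternatingGroup (Fin n)))) :
    2 ∣ ((Subgroup.centralizer ((P : Subgroup (alternatingGroup (Fin n))) : Set (alternatingGroup (Fin n)))).subgroupOf (Subgroup.normalizer ((P : Subgroup (alternatingGroup (Fin n))) : Set (alternatingGroup (Fin n))))).index ∨ IsCyclic (P : Subgroup (alternatingGroup (Fin n))) := by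
  by_cases hbot : (P : Subgroup (alternatingGroup (Fin n))) = ⊥
  · right
    rw [hbot]
    infer_instance
  · have hdvd : p ∣ Nat.card (P : Subgroup (alternatingGroup (Fin n))) := by
      rcases P.isPGroup'.card_eq_or_dvd with h | h
      · exact absurd (Subgroup.card_eq_one.mp h) hbot
      · exact h
    obtain ⟨x, hx⟩ := exists_prime_orderOf_dvd_card' p hdvd
    have hx1 : (x : alternatingGroup (Fin n)) ≠ 1 := by
      intro h
      have : x = 1 := Subtype.ext h
      rw [this, orderOf_one] at hx
      exact (Fact.out : p.Prime).one_lt.ne hx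
    set σ : Equiv.Perm (Fin n) := ((x : alternatingGroup (Fin n)) : Equiv.Perm (Fin n)) with hσdef
    have hσ : orderOf σ = p := by
      rw [hσdef, Subgroup.orderOf_coe, Subgroup.orderOf_coe, hx]
    by_cases hcent : Subgroup.centralizer {σ} ≤ alternatingGroup (Fin n)
    · right
      rw [Equiv.Perm.centralizer_le_alternating_iff] at hcent
      obtain ⟨_, hcard, hcount⟩ := hcent
      obtain ⟨k, hk⟩ := Equiv.Perm.cycleType_prime_order (σ := σ) (by rw [hσ]; exact Fact.out)
      rw [hσ] at hk
      have hk0 : k = 0 := by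
        have := hcount p
        rw [hk, Multiset.count_replicate_self] at this
        omega
      subst hk0
      have hsum : σ.cycleType.sum = p := by rw [hk]; simp
      have hpn : p ≤ n := by
        have := Equiv.Perm.sum_cycleType_le σ
        rw [hsum, Fintype.card_fin] at this
        exact this
      rw [hsum, Fintype.card_fin] at hcard
      exact isCyclic_of_prime_card (card_sylow_eq_p n hp hpn hcard P)
    · left
      obtain ⟨h, hh, hh'⟩ := SetLike.not_le_iff_exists.mp hcent
      have hcomm : h * σ = σ * h := Subgroup.mem_centralizer_singleton_iff.mp hh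
      have hconj : IsConj σ σ⁻¹ := by
        rw [Equiv.Perm.isConj_iff_cycleType_eq, Equiv.Perm.cycleType_inv]
      obtain ⟨g, hg⟩ := isConj_iff.mp hconj
      obtain ⟨g', hg'A, hg'⟩ : ∃ g' ∈ alternatingGroup (Fin n), g' * σ * g'⁻¹ = σ⁻¹ := by
        by_cases hgA : g ∈ alternatingGroup (Fin n)
        · exact ⟨g, hgA, hg⟩
        · refine ⟨g * h, ?_, ?_⟩
          · rw [Equiv.Perm.mem_alternatingGroup] at hgA hh' ⊢
            rw [map_mul]
            rcases Int.units_eq_one_or (Equiv.Perm.sign g) with h1 | h1 <;>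
              rcases Int.units_eq_one_or (Equiv.Perm.sign h) with h2 | h2 <;> simp_all
          · calc g * h * σ * (g * h)⁻¹ = g * (h * σ * h⁻¹) * g⁻¹ := by group
              _ = g * σ * g⁻¹ := by rw [hcomm, mul_inv_cancel_right]
              _ = σ⁻¹ := hg
      let gA : alternatingGroup (Fin n) := ⟨g', hg'A⟩
      have hxinv : gA * (x : alternatingGroup (Fin n)) * gA⁻¹ = (x : alternatingGroup (Fin n))⁻¹ :=
        Subtype.ext hg'
      have hP' := hP
      obtain ⟨m, hm, hm2⟩ := P.conj_eq_normalizer_conj_of_mem (x : alternatingGroup (Fin n)) gA⁻¹ x.2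
        (by rw [inv_inv, hxinv]; exact inv_mem x.2)
      exact even_index_of_invert hp P x m x.2 hx1 hm (by rw [← hm2, inv_inv, hxinv])


def r6 : Equiv.Perm (Fin 6) := Equiv.swap 0 1 * Equiv.swap 1 2 * Equiv.swap 2 3 * Equiv.swap 4 5
def s6 : Equiv.Perm (Fin 6) := Equiv.swap 0 1 * Equiv.swap 2 3

theorem r6s6_rel : s6 * r6 * s6⁻¹ = r6⁻¹ := by decide
theorem r6_pow : r6 ^ 4 = 1 := by decide
theorem s6_pow : s6 ^ 2 = 1 := by decide
theorem r6s6_ne : r6 * s6 ≠ s6 * r6 := by decide
theorem r6_sign : Equiv.Perm.sign r6 = 1 := by decide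
theorem s6_sign : Equiv.Perm.sign s6 = 1 := by decide

theorem two_case (n : ℕ) (hn : 6 ≤ n) (P : Sylow 2 (alternatingGroup (Fin n)))
    (hP : IsMulCommutative (P : Subgroup (alternatingGroup (Fin n)))) : False := by
  let φ : Equiv.Perm (Fin 6) →* Equiv.Perm (Fin n) :=
    Equiv.Perm.viaEmbeddingHom (Fin.castLEEmb hn)
  have hφ : Function.Injective φ := Equiv.Perm.viaEmbeddingHom_injective _
  have hsign : ∀ e, Equiv.Perm.sign (φ e) = Equiv.Perm.sign e := fun e => by
    let _ : DecidablePred (fun a => a ∈ Set.range (Fin.castLEEmb hn).toFun) :=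
      fun a => Classical.propDecidable _
    exact Equiv.Perm.sign_extendDomain e _
  let r : alternatingGroup (Fin n) :=
    ⟨φ r6, by rw [Equiv.Perm.mem_alternatingGroup, hsign]; exact r6_sign⟩
  let s : alternatingGroup (Fin n) :=
    ⟨φ s6, by rw [Equiv.Perm.mem_alternatingGroup, hsign]; exact s6_sign⟩
  have h1 : s * r * s⁻¹ = r⁻¹ := by
    apply Subtype.ext
    change φ s6 * φ r6 * (φ s6)⁻¹ = (φ r6)⁻¹
    rw [← map_inv, ← map_mul, ← map_mul, ← map_inv, r6s6_rel]
  have h2 : r ^ 4 = 1 := by
    apply Subtype.ext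
    change (φ r6) ^ 4 = 1
    rw [← map_pow, r6_pow, map_one]
  have h3 : s ^ 2 = 1 := by
    apply Subtype.ext
    change (φ s6) ^ 2 = 1
    rw [← map_pow, s6_pow, map_one]
  have h4 : r * s ≠ s * r := by
    intro h
    have h' : φ r6 * φ s6 = φ s6 * φ r6 := congrArg Subtype.val h
    rw [← map_mul, ← map_mul] at h'
    exact r6s6_ne (hφ h')
  have hsinv : s⁻¹ = s := by
    rw [inv_eq_iff_mul_eq_one, ← pow_two, h3]
  have hR : IsPGroup 2 (Subgroup.zpowers r) := by
    rintro ⟨g, hg⟩
    obtain ⟨k, rfl⟩ := Subgroup.mem_zpowers_iff.mp hg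
    refine ⟨2, Subtype.ext ?_⟩
    change (r ^ k) ^ (2 ^ 2) = 1
    rw [← zpow_natCast, ← zpow_mul, mul_comm, zpow_mul, zpow_natCast]
    norm_num [h2]
  have hS : IsPGroup 2 (Subgroup.zpowers s) := by
    rintro ⟨g, hg⟩
    obtain ⟨k, rfl⟩ := Subgroup.mem_zpowers_iff.mp hg
    refine ⟨1, Subtype.ext ?_⟩
    change (s ^ k) ^ (2 ^ 1) = 1
    rw [← zpow_natCast, ← zpow_mul, mul_comm, zpow_mul, zpow_natCast]
    norm_num [h3]
  have hnorm : Subgroup.zpowers s ≤ Subgroup.normalizer (Subgroup.zpowers r : Set _) := by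
    rw [Subgroup.zpowers_le, Subgroup.mem_normalizer_iff]
    intro h
    constructor
    · intro hh
      obtain ⟨k, rfl⟩ := Subgroup.mem_zpowers_iff.mp hh
      rw [← conj_zpow, h1]
      exact Subgroup.zpow_mem _ (inv_mem (Subgroup.mem_zpowers r)) k
    · intro hh
      obtain ⟨k, hk⟩ := Subgroup.mem_zpowers_iff.mp hh
      have : h = s * r ^ k * s⁻¹ := by
        rw [hk, hsinv]
        have hss : s * s = 1 := by rw [← pow_two, h3]
        calc h = (s * s) * h * (s * s) := by rw [hss, one_mul, mul_one]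
          _ = s * (s * h * s) * s := by group
      rw [this, ← conj_zpow, h1]
      exact Subgroup.zpow_mem _ (inv_mem (Subgroup.mem_zpowers r)) k
  have hQ := hS.to_sup_of_normal_right' hR hnorm
  obtain ⟨P', hP'⟩ := hQ.exists_le_sylow
  obtain ⟨g, hg⟩ := MulAction.exists_smul_eq (alternatingGroup (Fin n)) P' P
  have hrP' : r ∈ (P' : Subgroup (alternatingGroup (Fin n))) :=
    hP' (Subgroup.mem_sup_right (Subgroup.mem_zpowers r))
  have hsP' : s ∈ (P' : Subgroup (alternatingGroup (Fin n))) :=
    hP' (Subgroup.mem_sup_left (Subgroup.mem_zpowers s))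
  have hmem : ∀ y ∈ (P' : Subgroup (alternatingGroup (Fin n))),
      g * y * g⁻¹ ∈ (P : Subgroup (alternatingGroup (Fin n))) := by
    intro y hy
    rw [← hg]
    exact ⟨y, hy, rfl⟩
  have hc := hP.is_comm.comm (⟨g * r * g⁻¹, hmem r hrP'⟩ : (P : Subgroup (alternatingGroup (Fin n))))
    ⟨g * s * g⁻¹, hmem s hsP'⟩
  have hc' : g * r * g⁻¹ * (g * s * g⁻¹) = g * s * g⁻¹ * (g * r * g⁻¹) := congrArg Subtype.val hc
  apply h4
  calc r * s = g⁻¹ * (g * r * g⁻¹ * (g * s * g⁻¹)) * g := by group
    _ = g⁻¹ * (g * s * g⁻¹ * (g * r * g⁻¹)) * g := by rw [hc']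
    _ = s * r := by group


set_option maxRecDepth 1000000 in
theorem a5_no_order_four :
    ∀ g : Equiv.Perm (Fin 5), Equiv.Perm.sign g = 1 → g ^ 4 = 1 → g ^ 2 = 1 := by decide

theorem five_case (P : Sylow 2 (alternatingGroup (Fin 5)))
    (hP : IsMulCommutative (P : Subgroup (alternatingGroup (Fin 5)))) :
    ((Subgroup.centralizer ((P : Subgroup (alternatingGroup (Fin 5))) : Set (alternatingGroup (Fin 5)))).subgroupOf (Subgroup.normalizer ((P : Subgroup (alternatingGroup (Fin 5))) : Set (alternatingGroup (Fin 5))))).index = 3 ∧ IsKleinFour (P : Subgroup (alternatingGroup (Fin 5))) := by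
  have hG : Nat.card (alternatingGroup (Fin 5)) = 60 := by
    rw [nat_card_alternatingGroup, Nat.card_eq_fintype_card, Fintype.card_fin]
    rfl
  have hcardP : Nat.card (P : Subgroup (alternatingGroup (Fin 5))) = 4 := by
    obtain ⟨k, hk⟩ := IsPGroup.iff_card.mp P.isPGroup'
    have hmul : Nat.card (P : Subgroup (alternatingGroup (Fin 5))) *
        (P : Subgroup (alternatingGroup (Fin 5))).index = 60 := by
      rw [Subgroup.card_mul_index, hG]
    have hnd : ¬ 2 ∣ (P : Subgroup (alternatingGroup (Fin 5))).index := P.not_dvd_index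
    rw [hk] at hmul ⊢
    have hk5 : k ≤ 5 := by
      by_contra h
      have h : 6 ≤ k := by omega
      have h6 : 2 ^ 6 ≤ 2 ^ k := Nat.pow_le_pow_right (by norm_num) h
      have hpos : 0 < (P : Subgroup (alternatingGroup (Fin 5))).index := by
        rcases Nat.eq_zero_or_pos (P : Subgroup (alternatingGroup (Fin 5))).index with h0 | h0
        · rw [h0] at hmul; omega
        · exact h0
      nlinarith
    interval_cases k <;> norm_num at hmul ⊢ <;> omega
  have hsq : ∀ g : (P : Subgroup (alternatingGroup (Fin 5))), g ^ 2 = 1 := by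
    intro g
    have h4 : g ^ 4 = 1 := by rw [← hcardP]; exact pow_card_eq_one'
    have h4' : ((g : alternatingGroup (Fin 5)) : Equiv.Perm (Fin 5)) ^ 4 = 1 := by
      have := congrArg (fun y : (P : Subgroup (alternatingGroup (Fin 5))) =>
        ((y : alternatingGroup (Fin 5)) : Equiv.Perm (Fin 5))) h4
      simpa using this
    have := a5_no_order_four ((g : alternatingGroup (Fin 5)) : Equiv.Perm (Fin 5))
      (Equiv.Perm.mem_alternatingGroup.mp (g : alternatingGroup (Fin 5)).2) h4'
    apply Subtype.ext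
    apply Subtype.ext
    simpa using this
  have hK : IsKleinFour (P : Subgroup (alternatingGroup (Fin 5))) := by
    refine ⟨hcardP, ?_⟩
    have hd : Monoid.exponent (P : Subgroup (alternatingGroup (Fin 5))) ∣ 2 :=
      Monoid.exponent_dvd_of_forall_pow_eq_one hsq
    rcases (Nat.dvd_prime Nat.prime_two).mp hd with h | h
    · exfalso
      have := Monoid.exp_eq_one_iff.mp h
      have h1 : Nat.card (P : Subgroup (alternatingGroup (Fin 5))) = 1 := Nat.card_unique
      omega
    · exact h
  refine ⟨?_, hK⟩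
  have hPC : (P : Subgroup (alternatingGroup (Fin 5))) ≤
      Subgroup.centralizer ((P : Subgroup (alternatingGroup (Fin 5))) : Set (alternatingGroup (Fin 5))) := by
    intro x hx y hy
    have := hP.is_comm.comm (⟨y, hy⟩ : (P : Subgroup (alternatingGroup (Fin 5)))) ⟨x, hx⟩
    exact congrArg Subtype.val this
  have hidx15 : (P : Subgroup (alternatingGroup (Fin 5))).index = 15 := by
    have := Subgroup.card_mul_index (P : Subgroup (alternatingGroup (Fin 5)))
    rw [hcardP, hG] at this
    omega
  have hd15 : ((Subgroup.centralizer ((P : Subgroup (alternatingGroup (Fin 5))) : Set (alternatingGroup (Fin 5)))).subgroupOf (Subgroup.normalizer ((P : Subgroup (alternatingGroup (Fin 5))) : Set (alternatingGroup (Fin 5))))).index ∣ 15 := by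
    change (Subgroup.centralizer ((P : Subgroup (alternatingGroup (Fin 5))) : Set (alternatingGroup (Fin 5)))).relIndex (Subgroup.normalizer ((P : Subgroup (alternatingGroup (Fin 5))) : Set (alternatingGroup (Fin 5)))) ∣ 15
    rw [← hidx15]
    exact (Subgroup.relIndex_dvd_of_le_left _ hPC).trans
      (Subgroup.relIndex_dvd_index_of_le Subgroup.le_normalizer)
  have hd24 : ((Subgroup.centralizer ((P : Subgroup (alternatingGroup (Fin 5))) : Set (alternatingGroup (Fin 5)))).subgroupOf (Subgroup.normalizer ((P : Subgroup (alternatingGroup (Fin 5))) : Set (alternatingGroup (Fin 5))))).index ∣ 24 := by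
    rw [← Subgroup.normalizerMonoidHom_ker, Subgroup.index_ker]
    have h1 : Nat.card (P : Subgroup (alternatingGroup (Fin 5))).normalizerMonoidHom.range ∣
        Nat.card (MulAut (P : Subgroup (alternatingGroup (Fin 5)))) := Subgroup.card_subgroup_dvd_card _
    have h2 : Nat.card (MulAut (P : Subgroup (alternatingGroup (Fin 5)))) ∣
        Nat.card (Equiv.Perm (P : Subgroup (alternatingGroup (Fin 5)))) :=
      Subgroup.card_dvd_of_injective (MulAut.toPerm _) (fun a b h => MulEquiv.toEquiv_injective h)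
    have h3 : Nat.card (Equiv.Perm (P : Subgroup (alternatingGroup (Fin 5)))) = 24 := by
      rw [Nat.card_perm, hcardP]; rfl
    exact h3 ▸ h1.trans h2
  have hd3 : ((Subgroup.centralizer ((P : Subgroup (alternatingGroup (Fin 5))) : Set (alternatingGroup (Fin 5)))).subgroupOf (Subgroup.normalizer ((P : Subgroup (alternatingGroup (Fin 5))) : Set (alternatingGroup (Fin 5))))).index ∣ 3 :=
    Nat.dvd_gcd hd15 hd24
  have hne1 : ((Subgroup.centralizer ((P : Subgroup (alternatingGroup (Fin 5))) : Set (alternatingGroup (Fin 5)))).subgroupOf (Subgroup.normalizer ((P : Subgroup (alternatingGroup (Fin 5))) : Set (alternatingGroup (Fin 5))))).index ≠ 1 := by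
    intro h1
    have hNC : Subgroup.normalizer ((P : Subgroup (alternatingGroup (Fin 5))) : Set (alternatingGroup (Fin 5))) ≤
        Subgroup.centralizer ((P : Subgroup (alternatingGroup (Fin 5))) : Set (alternatingGroup (Fin 5))) := by
      rw [Subgroup.index_eq_one] at h1
      exact Subgroup.subgroupOf_eq_top.mp h1
    have hcomp := MonoidHom.ker_transferSylow_isComplement' P hNC
    have hker := (MonoidHom.normal_ker (MonoidHom.transferSylow P hNC)).eq_bot_or_eq_top
    have hcard := hcomp.card_mul_card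
    rcases hker with h | h
    · rw [h, Subgroup.card_bot, hcardP, hG] at hcard; omega
    · rw [h, Subgroup.card_top, hcardP, hG] at hcard; omega
  exact ((Nat.dvd_prime Nat.prime_three).mp hd3).resolve_left hne1

/-- Let n ≥ 5 and let P be an abelian Sylow p-subgroup of the alternating group A_n. Then N(P)/C(P) (taken in A_n) has even order, or P is cyclic, except when n = 5 and p = 2, where P is a four-group and N(P)/C(P) has order 3. -/
theorem result (n : ℕ) (hn : 5 ≤ n) {p : ℕ} [Fact p.Prime]
    (P : Sylow p (alternatingGroup (Fin n))) (hP : IsMulCommutative (P : Subgroup (alternatingGroup (Fin n)))) :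
    (¬ (n = 5 ∧ p = 2) → 2 ∣ ((Subgroup.centralizer ((P : Subgroup (alternatingGroup (Fin n))) : Set (alternatingGroup (Fin n)))).subgroupOf (Subgroup.normalizer ((P : Subgroup (alternatingGroup (Fin n))) : Set (alternatingGroup (Fin n))))).index ∨ IsCyclic (P : Subgroup (alternatingGroup (Fin n)))) ∧
    ((n = 5 ∧ p = 2) → ((Subgroup.centralizer ((P : Subgroup (alternatingGroup (Fin n))) : Set (alternatingGroup (Fin n)))).subgroupOf (Subgroup.normalizer ((P : Subgroup (alternatingGroup (Fin n))) : Set (alternatingGroup (Fin n))))).index = 3 ∧ IsKleinFour (P : Subgroup (alternatingGroup (Fin n)))) := by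
  constructor
  · intro hne
    by_cases hp2 : p = 2
    · subst hp2
      have h6 : 6 ≤ n := by
        rcases Nat.lt_or_ge n 6 with h | h
        · exact absurd ⟨by omega, rfl⟩ hne
        · exact h
      exact (two_case n h6 P hP).elim
    · exact odd_case n hp2 P hP
  · rintro ⟨rfl, rfl⟩
    exact five_case P hP

end Cfsg.Agent.S2269
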