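import Cfsg.Statements.S2270
import Mathlib

set_option autoImplicit false
open Cfsg

namespace Cfsg.Agent.S2270

/-- If an element `m` of the normalizer inverts a nonidentity element `x` of odd prime power
order in the abelian Sylow subgroup, the automizer has even order. -/
theorem even_index_of_invert {G : Type*} [Group G] [Finite G] {p : ℕ} [Fact p.Prime] (hp : p ≠ 2)
    (P : Sylow p G) (x m : G) (hx : x ∈ (P : Subgroup G)) (hx1 : x ≠ 1)
    (hm : m ∈ Subgroup.normalizer ((P : Subgroup G) : Set G)) (hinv : x⁻¹ = m⁻¹ * x * m) :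
    2 ∣ ((Subgroup.centralizer ((P : Subgroup G) : Set G)).subgroupOf
      (Subgroup.normalizer ((P : Subgroup G) : Set G))).index := by
  set C' := (Subgroup.centralizer ((P : Subgroup G) : Set G)).subgroupOf
      (Subgroup.normalizer ((P : Subgroup G) : Set G)) with hC'
  let mbar : (Subgroup.normalizer ((P : Subgroup G) : Set G)) ⧸ C' := QuotientGroup.mk ⟨m, hm⟩
  have hdvd : orderOf mbar ∣ C'.index := by
    rw [Subgroup.index_eq_card]
    exact orderOf_dvd_natCard mbar
  refine dvd_trans ?_ hdvd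
  by_contra hodd
  have hodd' : Odd (orderOf mbar) := Nat.odd_iff.mpr (Nat.two_dvd_ne_zero.mp hodd)
  obtain ⟨j, hj⟩ := hodd'
  have hpow : mbar ^ (2 * j + 1) = 1 := hj ▸ pow_orderOf_eq_one mbar
  have hmem : (⟨m, hm⟩ : Subgroup.normalizer ((P : Subgroup G) : Set G)) ^ (2 * j + 1) ∈ C' := by
    rw [← QuotientGroup.eq_one_iff]
    exact hpow
  have hmem' : m ^ (2 * j + 1) ∈ Subgroup.centralizer ((P : Subgroup G) : Set G) := by
    have := Subgroup.mem_subgroupOf.mp hmem
    simpa using this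
  have hc1 : Commute (m ^ (2 * j + 1)) x := (hmem' x hx).symm
  have h1 : m * x⁻¹ = x * m := by rw [hinv]; group
  have h2 : m * x = x⁻¹ * m := by
    have h3 : x = m * x⁻¹ * m⁻¹ := by rw [hinv]; group
    have h4 : x⁻¹ = m * x * m⁻¹ := by
      calc x⁻¹ = (m * x⁻¹ * m⁻¹)⁻¹ := by rw [← h3]
        _ = m * x * m⁻¹ := by group
    rw [h4]; group
  have hc2 : Commute (m ^ 2) x := by
    change m ^ 2 * x = x * m ^ 2
    rw [pow_two, mul_assoc, h2, ← mul_assoc, h1, mul_assoc]
  have hc3 : Commute ((m ^ 2) ^ j) x := hc2.pow_left j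
  have hc4 : Commute m x := by
    have hm'' : m ^ (2 * j + 1) = (m ^ 2) ^ j * m := by rw [pow_succ, pow_mul]
    have hm' : m = ((m ^ 2) ^ j)⁻¹ * m ^ (2 * j + 1) := by
      rw [hm'', inv_mul_cancel_left]
    rw [hm']
    exact hc3.inv_left.mul_left hc1
  have hxx : x⁻¹ = x := by
    rw [hinv, mul_assoc, ← hc4.eq, ← mul_assoc, inv_mul_cancel, one_mul]
  have hx2 : x ^ 2 = 1 := by
    rw [pow_two]
    nth_rewrite 1 [← hxx]
    exact inv_mul_cancel x
  obtain ⟨k, hk⟩ := P.isPGroup' ⟨x, hx⟩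
  have hk' : x ^ (p ^ k) = 1 := by
    have := congrArg Subtype.val hk
    simpa using this
  have hd1 : orderOf x ∣ 2 := orderOf_dvd_of_pow_eq_one hx2
  have hd2 : orderOf x ∣ p ^ k := orderOf_dvd_of_pow_eq_one hk'
  have hcop : Nat.Coprime 2 (p ^ k) := by
    apply Nat.Coprime.pow_right
    rw [Nat.coprime_primes Nat.prime_two Fact.out]
    exact fun h => hp h.symm
  have : orderOf x = 1 := Nat.eq_one_of_dvd_coprimes hcop hd1 hd2
  exact hx1 (orderOf_eq_one_iff.mp this)

/-- Let n ≥ 3, p an odd prime, and P an abelian Sylow p-subgroup of the symmetric group S_n (with p dividing n!, so that P ≠ 1). Then N(P)/C(P) has even order. -/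
theorem result (n : ℕ) (hn : 3 ≤ n) {p : ℕ} [Fact p.Prime] (hp : p ≠ 2) (hpn : p ≤ n)
    (P : Sylow p (Equiv.Perm (Fin n))) (hP : IsMulCommutative (P : Subgroup (Equiv.Perm (Fin n)))) :
    2 ∣ ((Subgroup.centralizer ((P : Subgroup (Equiv.Perm (Fin n))) : Set (Equiv.Perm (Fin n)))).subgroupOf (Subgroup.normalizer ((P : Subgroup (Equiv.Perm (Fin n))) : Set (Equiv.Perm (Fin n))))).index := by
  have hcard : p ∣ Nat.card (Equiv.Perm (Fin n)) := by
    rw [Nat.card_eq_fintype_card, Fintype.card_perm, Fintype.card_fin]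
    exact Nat.dvd_factorial (Fact.out : p.Prime).pos hpn
  have hne : (P : Subgroup (Equiv.Perm (Fin n))) ≠ ⊥ := P.ne_bot_of_dvd_card hcard
  obtain ⟨⟨x, hx⟩, hx1⟩ := Subgroup.ne_bot_iff_exists_ne_one.mp hne
  have hx1' : x ≠ 1 := fun h => hx1 (Subtype.ext h)
  have hconj : IsConj x x⁻¹ := by
    rw [Equiv.Perm.isConj_iff_cycleType_eq, Equiv.Perm.cycleType_inv]
  obtain ⟨g, hg⟩ := isConj_iff.mp hconj
  have hP' := hP
  obtain ⟨m, hm, hm2⟩ := P.conj_eq_normalizer_conj_of_mem x g⁻¹ hx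
    (by rw [inv_inv, hg]; exact inv_mem hx)
  exact even_index_of_invert hp P x m hx hx1' hm (by rw [← hm2, inv_inv, hg])

end Cfsg.Agent.S2270
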