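import Cfsg.Statements.S2278
import Mathlib
import Cfsg.Agent.S0801
import Cfsg.Agent.Lib.Helper65.RegUnipA

set_option autoImplicit false
open Cfsg

namespace Cfsg.Agent.S2278

universe u

open Matrix Cfsg.Agent.Lib.Helper65.RegUnip

variable {F : Type u} [Field F]

/-! ### characteristic 2 -/

/-- The Jordan block. -/
def J3 : Matrix (Fin 3) (Fin 3) F := !![1, 1, 0; 0, 1, 1; 0, 0, 1]

theorem det_J3 : det (J3 : Matrix (Fin 3) (Fin 3) F) = 1 := by
  simp [J3, Matrix.det_fin_three]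

def JS : Matrix.SpecialLinearGroup (Fin 3) F := ⟨J3, det_J3⟩

def V2 (κ : F) : Matrix (Fin 3) (Fin 3) F := !![1, 0, 0; 0, 1, κ ^ 2; κ⁻¹, 0, 1]

theorem det_V2 (κ : F) : det (V2 κ) = 1 := by
  simp [V2, Matrix.det_fin_three]

def V2S (κ : F) : Matrix.SpecialLinearGroup (Fin 3) F := ⟨V2 κ, det_V2 κ⟩

def C2 (κ : F) : Matrix (Fin 3) (Fin 3) F := !![0, 0, 1; κ, 0, 0; 0, κ⁻¹, 0]

theorem det_C2 (κ : F) (hκ : κ ≠ 0) : det (C2 κ) = 1 := by
  simp [C2, Matrix.det_fin_three]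
  field_simp

def C2S (κ : F) (hκ : κ ≠ 0) : Matrix.SpecialLinearGroup (Fin 3) F := ⟨C2 κ, det_C2 κ hκ⟩

theorem C2_conj (κ : F) (hκ : κ ≠ 0) : C2S κ hκ * JS * (C2S κ hκ)⁻¹ = V2S κ := by
  rw [mul_inv_eq_iff_eq_mul]
  apply Subtype.ext
  simp only [Matrix.SpecialLinearGroup.coe_mul]
  show C2 κ * J3 = V2 κ * C2 κ
  ext i j
  fin_cases i <;> fin_cases j <;>
    simp [C2, J3, V2, Matrix.mul_apply, Fin.sum_univ_three] <;> field_simp

theorem J3_nilp : IsNilpotent ((J3 : Matrix (Fin 3) (Fin 3) F) - 1) := by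
  refine ⟨3, ?_⟩
  ext i j
  fin_cases i <;> fin_cases j <;>
    simp [J3, pow_succ, Matrix.mul_apply, Fin.sum_univ_three, Matrix.one_apply]

theorem J3_sq_ne : ((J3 : Matrix (Fin 3) (Fin 3) F) - 1) ^ (3 - 1) ≠ 0 := by
  intro h
  have h1 := congrFun (congrFun h 0) 2
  simp [J3, pow_succ, Matrix.mul_apply, Fin.sum_univ_three, Matrix.one_apply] at h1

theorem eq_top_of_basis_mem {G : Subgroup (Matrix.SpecialLinearGroup (Fin 3) F)}
    (h1 : (![1, 0, 0] : Fin 3 → F) ∈ Ax G) (h2 : (![0, 1, 0] : Fin 3 → F) ∈ Ax G)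
    (h3 : (![0, 0, 1] : Fin 3 → F) ∈ Ax G) : G = ⊤ := by
  apply eq_top_of_Ax
  rw [eq_top_iff]
  intro ψ _
  have e : ψ = ψ 0 • (![1, 0, 0] : Fin 3 → F) + ψ 1 • ![0, 1, 0] + ψ 2 • ![0, 0, 1] := by
    funext i
    fin_cases i <;> simp
  rw [e]
  exact (Ax G).add_mem ((Ax G).add_mem ((Ax G).smul_mem _ h1) ((Ax G).smul_mem _ h2))
    ((Ax G).smul_mem _ h3)

theorem ax3_of_all {G : Subgroup (Matrix.SpecialLinearGroup (Fin 3) F)}
    (hall : ∀ s : F, TvIn G ![1, 0, 0] (s • ![0, 0, 1]))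
    (hall2 : ∀ s : F, TvIn G ![0, 1, 0] (s • ![0, 0, 1])) :
    (![0, 0, 1] : Fin 3 → F) ∈ Ax G := by
  intro w hw
  have hw2 : w 2 = 0 := by simpa [dotProduct, Fin.sum_univ_three] using hw
  have h1 : TvIn G (w 0 • ![1, 0, 0]) ![0, 0, 1] := by
    have := (tvIn_smul_comm (G := G) (v := ![1, 0, 0]) (ψ := ![0, 0, 1]) (w 0)).mpr (hall (w 0))
    exact this
  have h2' : TvIn G (w 1 • ![0, 1, 0]) ![0, 0, 1] := by
    have := (tvIn_smul_comm (G := G) (v := ![0, 1, 0]) (ψ := ![0, 0, 1]) (w 1)).mpr (hall2 (w 1))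
    exact this
  have h3 := h1.add_centre h2'
  have e : w 0 • (![1, 0, 0] : Fin 3 → F) + w 1 • ![0, 1, 0] = w := by
    funext i
    fin_cases i <;> simp [hw2]
  rwa [e] at h3

theorem char2_top (h2 : (2 : F) = 0) (κ : F) (hκ0 : κ ≠ 0)
    (hκ : ∀ x : F, x ≠ 0 → ∃ k : ℕ, κ ^ k = x)
    (G : Subgroup (Matrix.SpecialLinearGroup (Fin 3) F)) (hu : JS ∈ G) (hv : V2S κ ∈ G) :
    G = ⊤ := by
  have seed1 : TvIn G ![1, 0, 0] ![0, 0, 1] := by
    refine ⟨JS * JS, mul_mem hu hu, ?_⟩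
    rw [Matrix.SpecialLinearGroup.coe_mul]
    show J3 * J3 = _
    ext i j
    fin_cases i <;> fin_cases j <;>
      simp [J3, Matrix.mul_apply, Fin.sum_univ_three]
    · linear_combination h2
    · linear_combination h2
  have seed2 : TvIn G ![0, 1, 0] ![κ, 0, 0] := by
    refine ⟨V2S κ * V2S κ, mul_mem hv hv, ?_⟩
    rw [Matrix.SpecialLinearGroup.coe_mul]
    show V2 κ * V2 κ = _
    ext i j
    fin_cases i <;> fin_cases j <;>
      simp [V2, Matrix.mul_apply, Fin.sum_univ_three]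
    · field_simp
    · linear_combination κ ^ 2 * h2
    · linear_combination κ⁻¹ * h2
  have dot1 : ∀ s : F, (s • (![0, 0, 1] : Fin 3 → F)) ⬝ᵥ ![0, 1, 0] = 0 := by
    intro s
    simp [dotProduct, Fin.sum_univ_three]
  have step : ∀ s : F, TvIn G ![1, 0, 0] (s • ![0, 0, 1]) →
      TvIn G ![0, 1, 0] ((κ * s) • ![0, 0, 1]) := by
    intro s hs
    have h1 := TvIn.comm hs seed2 (dot1 s)
    have e : (-((![κ, 0, 0] : Fin 3 → F) ⬝ᵥ ![1, 0, 0])) • (s • (![0, 0, 1] : Fin 3 → F)) =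
        -((κ * s) • ![0, 0, 1]) := by
      funext i
      fin_cases i <;> simp [dotProduct, Fin.sum_univ_three]
    rw [e] at h1
    have h2' := h1.neg_axis
    rwa [neg_neg] at h2'
  have shift : ∀ s : F, TvIn G ![0, 1, 0] (s • ![0, 0, 1]) →
      TvIn G ![1, 0, 0] (s • ![0, 0, 1]) := by
    intro s hs
    have h1 : TvIn G ((↑(JS : Matrix.SpecialLinearGroup (Fin 3) F) : Matrix (Fin 3) (Fin 3) F) *ᵥ ![0, 1, 0]) (s • ![0, 0, 1]) := by
      apply TvIn.conj hu
      have e : (s • (![0, 0, 1] : Fin 3 → F)) ᵥ* (↑(JS : Matrix.SpecialLinearGroup (Fin 3) F) : Matrix (Fin 3) (Fin 3) F) =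
          s • ![0, 0, 1] := by
        show (s • (![0, 0, 1] : Fin 3 → F)) ᵥ* J3 = _
        funext i
        fin_cases i <;> simp [J3, Matrix.vecMul, dotProduct, Fin.sum_univ_three]
      rw [e]
      exact hs
    have e2 : (↑(JS : Matrix.SpecialLinearGroup (Fin 3) F) : Matrix (Fin 3) (Fin 3) F) *ᵥ ![0, 1, 0] = ![1, 1, 0] := by
      show J3 *ᵥ _ = _
      funext i
      fin_cases i <;> simp [J3, Matrix.mulVec, dotProduct, Fin.sum_univ_three]
    rw [e2] at h1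
    have h3 := h1.sub_centre hs
    have e3 : (![1, 1, 0] : Fin 3 → F) - ![0, 1, 0] = ![1, 0, 0] := by
      funext i
      fin_cases i <;> simp
    rwa [e3] at h3
  have hpow : ∀ k : ℕ, TvIn G ![1, 0, 0] ((κ ^ k) • ![0, 0, 1]) := by
    intro k
    induction k with
    | zero => simpa using seed1
    | succ k ih =>
      have h := shift _ (step _ ih)
      rwa [pow_succ, mul_comm]
  have hall : ∀ s : F, TvIn G ![1, 0, 0] (s • ![0, 0, 1]) := by
    intro s
    by_cases hs : s = 0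
    · rw [hs, zero_smul]
      exact tvIn_zero_right G _
    · obtain ⟨k, rfl⟩ := hκ s hs
      exact hpow k
  have hall2 : ∀ s : F, TvIn G ![0, 1, 0] (s • ![0, 0, 1]) := by
    intro s
    have h := step (κ⁻¹ * s) (hall _)
    rwa [← mul_assoc, mul_inv_cancel₀ hκ0, one_mul] at h
  have hAx3 : (![0, 0, 1] : Fin 3 → F) ∈ Ax G := ax3_of_all hall hall2
  have hAx1 : (![1, 0, 0] : Fin 3 → F) ∈ Ax G := by
    have h1 := Ax_vecMul hv hAx3
    have e : (![0, 0, 1] : Fin 3 → F) ᵥ* (↑(V2S κ) : Matrix (Fin 3) (Fin 3) F) =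
        ![κ⁻¹, 0, 1] := by
      show _ ᵥ* V2 κ = _
      funext i
      fin_cases i <;> simp [V2, Matrix.vecMul, dotProduct, Fin.sum_univ_three]
    rw [e] at h1
    have h2' := (Ax G).smul_mem κ ((Ax G).sub_mem h1 hAx3)
    have e2 : κ • ((![κ⁻¹, 0, 1] : Fin 3 → F) - ![0, 0, 1]) = ![1, 0, 0] := by
      funext i
      fin_cases i <;> simp [hκ0]
    rwa [e2] at h2'
  have hAx2 : (![0, 1, 0] : Fin 3 → F) ∈ Ax G := by
    have h1 := Ax_vecMul hu hAx1
    have e : (![1, 0, 0] : Fin 3 → F) ᵥ* (↑(JS : Matrix.SpecialLinearGroup (Fin 3) F) : Matrix (Fin 3) (Fin 3) F) = ![1, 1, 0] := by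
      show _ ᵥ* J3 = _
      funext i
      fin_cases i <;> simp [J3, Matrix.vecMul, dotProduct, Fin.sum_univ_three]
    rw [e] at h1
    have h2' := (Ax G).sub_mem h1 hAx1
    have e2 : (![1, 1, 0] : Fin 3 → F) - ![1, 0, 0] = ![0, 1, 0] := by
      funext i
      fin_cases i <;> simp
    rwa [e2] at h2'
  exact eq_top_of_basis_mem hAx1 hAx2 hAx3

/-! ### odd characteristic -/

def U0 : Matrix (Fin 3) (Fin 3) F := !![3, -4, 0; 1, -1, 0; 1, -1, 1]

theorem det_U0 : det (U0 : Matrix (Fin 3) (Fin 3) F) = 1 := by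
  simp [U0, Matrix.det_fin_three]
  ring

def U0S : Matrix.SpecialLinearGroup (Fin 3) F := ⟨U0, det_U0⟩

def V0 (e : F) : Matrix (Fin 3) (Fin 3) F := !![1, 0, -e; 1, 1, -e; 0, 0, 1]

theorem det_V0 (e : F) : det (V0 e) = 1 := by
  simp [V0, Matrix.det_fin_three]

def V0S (e : F) : Matrix.SpecialLinearGroup (Fin 3) F := ⟨V0 e, det_V0 e⟩

def C0 (d : F) : Matrix (Fin 3) (Fin 3) F :=
  !![0, -d, 0; 0, 0, -d; d⁻¹ ^ 2, -2 * d⁻¹ ^ 2, 0]

theorem det_C0 (d : F) (hd : d ≠ 0) : det (C0 d) = 1 := by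
  simp [C0, Matrix.det_fin_three]
  field_simp

def C0S (d : F) (hd : d ≠ 0) : Matrix.SpecialLinearGroup (Fin 3) F := ⟨C0 d, det_C0 d hd⟩

theorem C0_conj (d : F) (hd : d ≠ 0) : C0S d hd * U0S * (C0S d hd)⁻¹ = V0S (d ^ 3) := by
  rw [mul_inv_eq_iff_eq_mul]
  apply Subtype.ext
  simp only [Matrix.SpecialLinearGroup.coe_mul]
  show C0 d * U0 = V0 (d ^ 3) * C0 d
  ext i j
  fin_cases i <;> fin_cases j <;>
    simp [C0, U0, V0, Matrix.mul_apply, Fin.sum_univ_three] <;> field_simp <;> ring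

theorem U0_nilp : IsNilpotent ((U0 : Matrix (Fin 3) (Fin 3) F) - 1) := by
  refine ⟨3, ?_⟩
  ext i j
  fin_cases i <;> fin_cases j <;>
    simp [U0, pow_succ, Matrix.mul_apply, Fin.sum_univ_three, Matrix.one_apply] <;> ring

theorem U0_sq_ne : ((U0 : Matrix (Fin 3) (Fin 3) F) - 1) ^ (3 - 1) ≠ 0 := by
  intro h
  have h1 := congrFun (congrFun h 2) 0
  simp [U0, pow_succ, Matrix.mul_apply, Fin.sum_univ_three, Matrix.one_apply] at h1
  have h3 : (1 : F) = 0 := by linear_combination h1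
  exact one_ne_zero h3

/-- The affine embedding. -/
def affM (A : Matrix (Fin 2) (Fin 2) F) (w₁ w₂ : F) : Matrix (Fin 3) (Fin 3) F :=
  !![A 0 0, A 0 1, w₁; A 1 0, A 1 1, w₂; 0, 0, 1]

theorem det_affM (A : Matrix (Fin 2) (Fin 2) F) (w₁ w₂ : F) : det (affM A w₁ w₂) = det A := by
  simp [affM, Matrix.det_fin_three, Matrix.det_fin_two]

def aff (A : Matrix.SpecialLinearGroup (Fin 2) F) (w₁ w₂ : F) :
    Matrix.SpecialLinearGroup (Fin 3) F :=
  ⟨affM A.1 w₁ w₂, by rw [det_affM]; exact A.2⟩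

theorem affM_mul (A B : Matrix (Fin 2) (Fin 2) F) (w₁ w₂ x₁ x₂ : F) :
    affM A w₁ w₂ * affM B x₁ x₂ =
      affM (A * B) (w₁ + A 0 0 * x₁ + A 0 1 * x₂) (w₂ + A 1 0 * x₁ + A 1 1 * x₂) := by
  ext i j
  fin_cases i <;> fin_cases j <;>
    simp [affM, Matrix.mul_apply, Fin.sum_univ_three, Fin.sum_univ_two] <;> ring

theorem aff_mul (A B : Matrix.SpecialLinearGroup (Fin 2) F) (w₁ w₂ x₁ x₂ : F) :
    aff A w₁ w₂ * aff B x₁ x₂ =
      aff (A * B) (w₁ + A.1 0 0 * x₁ + A.1 0 1 * x₂) (w₂ + A.1 1 0 * x₁ + A.1 1 1 * x₂) := by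
  apply Subtype.ext
  rw [Matrix.SpecialLinearGroup.coe_mul]
  exact affM_mul A.1 B.1 w₁ w₂ x₁ x₂

theorem aff_one : aff (1 : Matrix.SpecialLinearGroup (Fin 2) F) 0 0 = 1 := by
  apply Subtype.ext
  show affM (1 : Matrix (Fin 2) (Fin 2) F) 0 0 = 1
  ext i j
  fin_cases i <;> fin_cases j <;> simp [affM, Matrix.one_apply]

theorem aff_eq_one (B : Matrix.SpecialLinearGroup (Fin 2) F) (a b : F) (hB : B = 1)
    (ha : a = 0) (hb : b = 0) : aff B a b = 1 := by
  subst hB ha hb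
  exact aff_one

/-- The linear parts of the affine elements of `G`. -/
def affSub (G : Subgroup (Matrix.SpecialLinearGroup (Fin 3) F)) :
    Subgroup (Matrix.SpecialLinearGroup (Fin 2) F) where
  carrier := {A | ∃ w₁ w₂ : F, aff A w₁ w₂ ∈ G}
  mul_mem' := by
    rintro A B ⟨w₁, w₂, hA⟩ ⟨x₁, x₂, hB⟩
    exact ⟨_, _, aff_mul A B w₁ w₂ x₁ x₂ ▸ mul_mem hA hB⟩
  one_mem' := ⟨0, 0, by rw [aff_one]; exact one_mem G⟩
  inv_mem' := by
    rintro A ⟨w₁, w₂, hA⟩
    refine ⟨-(A.1 1 1 * w₁ - A.1 0 1 * w₂), -(-(A.1 1 0) * w₁ + A.1 0 0 * w₂), ?_⟩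
    have hdet : A.1 0 0 * A.1 1 1 - A.1 0 1 * A.1 1 0 = 1 := by
      have := A.2
      rwa [Matrix.det_fin_two] at this
    have h1 : aff A⁻¹ (-(A.1 1 1 * w₁ - A.1 0 1 * w₂)) (-(-(A.1 1 0) * w₁ + A.1 0 0 * w₂)) =
        (aff A w₁ w₂)⁻¹ := by
      symm
      apply inv_eq_of_mul_eq_one_right
      rw [aff_mul]
      apply aff_eq_one
      · exact mul_inv_cancel A
      · linear_combination (-w₁) * hdet
      · linear_combination (-w₂) * hdet
    rw [h1]
    exact inv_mem hA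

def llS : Matrix.SpecialLinearGroup (Fin 2) F := ⟨!![1, 0; 1, 1], by simp [Matrix.det_fin_two]⟩

def uuS (lam : F) : Matrix.SpecialLinearGroup (Fin 2) F :=
  ⟨!![1, lam; 0, 1], by simp [Matrix.det_fin_two]⟩

def ltS (t : F) : Matrix.SpecialLinearGroup (Fin 2) F :=
  ⟨!![1, 0; t, 1], by simp [Matrix.det_fin_two]⟩

def negS : Matrix.SpecialLinearGroup (Fin 2) F :=
  ⟨!![-1, 0; 0, -1], by simp [Matrix.det_fin_two]⟩

theorem tvIn_e1_iff {G : Subgroup (Matrix.SpecialLinearGroup (Fin 3) F)} (s : F) :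
    TvIn G ![s, 0, 0] ![0, 0, 1] ↔ TvIn G ![1, 0, 0] (s • ![0, 0, 1]) := by
  have e : (![s, 0, 0] : Fin 3 → F) = s • ![1, 0, 0] := by
    funext i
    fin_cases i <;> simp
  rw [e]
  exact tvIn_smul_comm s

theorem tvIn_e2_iff {G : Subgroup (Matrix.SpecialLinearGroup (Fin 3) F)} (s : F) :
    TvIn G ![0, s, 0] ![0, 0, 1] ↔ TvIn G ![0, 1, 0] (s • ![0, 0, 1]) := by
  have e : (![0, s, 0] : Fin 3 → F) = s • ![0, 1, 0] := by
    funext i
    fin_cases i <;> simp
  rw [e]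
  exact tvIn_smul_comm s

theorem odd_top (h2 : (2 : F) ≠ 0) (e : F) (he : e ≠ 0)
    (hgen : Subgroup.closure {g : Matrix.SpecialLinearGroup (Fin 2) F |
      (g : Matrix (Fin 2) (Fin 2) F) = !![1, 0; 1, 1] ∨
      (g : Matrix (Fin 2) (Fin 2) F) = !![1, 8 - e; 0, 1]} = ⊤)
    (G : Subgroup (Matrix.SpecialLinearGroup (Fin 3) F)) (hu : U0S ∈ G) (hv : V0S e ∈ G) :
    G = ⊤ := by
  have hL : aff llS (-e) (-e) = V0S e := by
    apply Subtype.ext
    show affM _ _ _ = V0 e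
    ext i j
    fin_cases i <;> fin_cases j <;> simp [affM, llS, V0]
  have hX : aff (uuS (8 - e)) 0 0 = (U0S * V0S e) * (U0S * V0S e) := by
    apply Subtype.ext
    simp only [Matrix.SpecialLinearGroup.coe_mul]
    show affM _ _ _ = (U0 * V0 e) * (U0 * V0 e)
    ext i j
    fin_cases i <;> fin_cases j <;>
      simp [affM, uuS, U0, V0, Matrix.mul_apply, Fin.sum_univ_three] <;> ring
  have hS : affSub G = ⊤ := by
    rw [eq_top_iff, ← hgen, Subgroup.closure_le]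
    rintro g (hg | hg)
    · have h1 : g = llS := Subtype.ext hg
      rw [h1]
      exact ⟨-e, -e, hL ▸ hv⟩
    · have h1 : g = uuS (8 - e) := Subtype.ext hg
      rw [h1]
      exact ⟨0, 0, hX ▸ mul_mem (mul_mem hu hv) (mul_mem hu hv)⟩
  have hmem : ∀ A : Matrix.SpecialLinearGroup (Fin 2) F, ∃ w₁ w₂ : F, aff A w₁ w₂ ∈ G := by
    intro A
    have h1 : A ∈ affSub G := by
      rw [hS]
      trivial
    exact h1
  obtain ⟨z₁, z₂, hz⟩ := hmem negS
  have ht : TvIn G ![2 * e, 2 * e - z₁, 0] ![0, 0, 1] := by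
    have hdot : (![0, 0, 1] : Fin 3 → F) ⬝ᵥ ![2 * e, 2 * e - z₁, 0] = 0 := by
      simp [dotProduct, Fin.sum_univ_three]
    rw [tvIn_iff hdot]
    have h1 : aff negS z₁ z₂ * V0S e * aff negS z₁ z₂ * (V0S e)⁻¹ = tvSL _ _ hdot := by
      rw [mul_inv_eq_iff_eq_mul]
      apply Subtype.ext
      simp only [Matrix.SpecialLinearGroup.coe_mul, tvSL_coe]
      show affM _ z₁ z₂ * V0 e * affM _ z₁ z₂ = (1 + vecMulVec _ _) * V0 e
      ext i j
      fin_cases i <;> fin_cases j <;>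
        simp [affM, negS, V0, Matrix.mul_apply, Fin.sum_univ_three, Matrix.vecMulVec_apply,
          Matrix.add_apply, Matrix.one_apply] <;> ring
    rw [← h1]
    exact mul_mem (mul_mem (mul_mem hz hv) hz) (inv_mem hv)
  have hconj : ∀ (A : Matrix.SpecialLinearGroup (Fin 2) F) (x₁ x₂ : F),
      TvIn G ![x₁, x₂, 0] ![0, 0, 1] →
      TvIn G ![A.1 0 0 * x₁ + A.1 0 1 * x₂, A.1 1 0 * x₁ + A.1 1 1 * x₂, 0] ![0, 0, 1] := by
    intro A x₁ x₂ h
    obtain ⟨w₁, w₂, hA⟩ := hmem A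
    have h1 : TvIn G ((↑(aff A w₁ w₂) : Matrix (Fin 3) (Fin 3) F) *ᵥ ![x₁, x₂, 0])
        ![0, 0, 1] := by
      apply TvIn.conj hA
      have e1 : (![0, 0, 1] : Fin 3 → F) ᵥ* (↑(aff A w₁ w₂) : Matrix (Fin 3) (Fin 3) F) =
          ![0, 0, 1] := by
        show _ ᵥ* affM _ _ _ = _
        funext i
        fin_cases i <;> simp [affM, Matrix.vecMul, dotProduct, Fin.sum_univ_three]
      rw [e1]
      exact h
    have e2 : (↑(aff A w₁ w₂) : Matrix (Fin 3) (Fin 3) F) *ᵥ ![x₁, x₂, 0] =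
        ![A.1 0 0 * x₁ + A.1 0 1 * x₂, A.1 1 0 * x₁ + A.1 1 1 * x₂, 0] := by
      show affM _ _ _ *ᵥ _ = _
      funext i
      fin_cases i <;> simp [affM, Matrix.mulVec, dotProduct, Fin.sum_univ_three]
    rwa [e2] at h1
  have h2e : (2 : F) * e ≠ 0 := mul_ne_zero h2 he
  have h01 : ∀ t : F, TvIn G ![0, t, 0] ![0, 0, 1] := by
    intro t
    have h1 := hconj (ltS (t / (2 * e))) _ _ ht
    have h3 := h1.sub_centre ht
    have e3 : (![(ltS (t / (2 * e))).1 0 0 * (2 * e) + (ltS (t / (2 * e))).1 0 1 * (2 * e - z₁),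
        (ltS (t / (2 * e))).1 1 0 * (2 * e) + (ltS (t / (2 * e))).1 1 1 * (2 * e - z₁), 0] :
        Fin 3 → F) - ![2 * e, 2 * e - z₁, 0] = ![0, t, 0] := by
      funext i
      fin_cases i <;> simp [ltS] <;> field_simp
    rwa [e3] at h3
  have h10 : ∀ s : F, TvIn G ![s, 0, 0] ![0, 0, 1] := by
    intro s
    have h1 := hconj (uuS s) _ _ (h01 1)
    have h3 := h1.sub_centre (h01 1)
    have e3 : (![(uuS s).1 0 0 * 0 + (uuS s).1 0 1 * 1,
        (uuS s).1 1 0 * 0 + (uuS s).1 1 1 * 1, 0] : Fin 3 → F) - ![0, 1, 0] = ![s, 0, 0] := by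
      funext i
      fin_cases i <;> simp [uuS]
    rwa [e3] at h3
  have hAx3 : (![0, 0, 1] : Fin 3 → F) ∈ Ax G :=
    ax3_of_all (fun s => (tvIn_e1_iff s).mp (h10 s)) (fun s => (tvIn_e2_iff s).mp (h01 s))
  have hAxr1 : (![1, -1, 1] : Fin 3 → F) ∈ Ax G := by
    have h1 := Ax_vecMul hu hAx3
    have e1 : (![0, 0, 1] : Fin 3 → F) ᵥ*
        (↑(U0S : Matrix.SpecialLinearGroup (Fin 3) F) : Matrix (Fin 3) (Fin 3) F) =
        ![1, -1, 1] := by
      show _ ᵥ* U0 = _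
      funext i
      fin_cases i <;> simp [U0, Matrix.vecMul, dotProduct, Fin.sum_univ_three]
    rwa [e1] at h1
  have hAxr2 : (![3, -4, 1] : Fin 3 → F) ∈ Ax G := by
    have h1 := Ax_vecMul hu hAxr1
    have e1 : (![1, -1, 1] : Fin 3 → F) ᵥ*
        (↑(U0S : Matrix.SpecialLinearGroup (Fin 3) F) : Matrix (Fin 3) (Fin 3) F) =
        ![3, -4, 1] := by
      show _ ᵥ* U0 = _
      funext i
      fin_cases i <;> simp [U0, Matrix.vecMul, dotProduct, Fin.sum_univ_three] <;> ring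
    rwa [e1] at h1
  have hAx2 : (![0, 1, 0] : Fin 3 → F) ∈ Ax G := by
    have h := (Ax G).sub_mem ((Ax G).sub_mem ((Ax G).smul_mem (3 : F) hAxr1) hAxr2)
      ((Ax G).smul_mem (2 : F) hAx3)
    have e1 : (3 : F) • (![1, -1, 1] : Fin 3 → F) - ![3, -4, 1] - (2 : F) • ![0, 0, 1] =
        ![0, 1, 0] := by
      funext i
      fin_cases i <;> simp <;> ring
    rwa [e1] at h
  have hAx1 : (![1, 0, 0] : Fin 3 → F) ∈ Ax G := by
    have h := (Ax G).sub_mem ((Ax G).add_mem hAxr1 hAx2) hAx3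
    have e1 : (![1, -1, 1] : Fin 3 → F) + ![0, 1, 0] - ![0, 0, 1] = ![1, 0, 0] := by
      funext i
      fin_cases i <;> simp
    rwa [e1] at h
  exact eq_top_of_basis_mem hAx1 hAx2 hAx3

/-! ### field lemmas -/

theorem gen_pow [Fintype F] (ζ : Fˣ) (hζ : ∀ x : Fˣ, x ∈ Subgroup.zpowers ζ) :
    ∀ x : F, x ≠ 0 → ∃ k : ℕ, (ζ : F) ^ k = x := by
  intro x hx
  have h1 := hζ (Units.mk0 x hx)
  rw [← mem_powers_iff_mem_zpowers] at h1
  obtain ⟨k, hk⟩ := h1
  refine ⟨k, ?_⟩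
  have h2 := congrArg (fun u : Fˣ => (u : F)) hk
  simpa using h2

theorem subfield_top_of_cube [Fintype F] (ζ : Fˣ) (hζ : ∀ x : Fˣ, x ∈ Subgroup.zpowers ζ)
    (h4 : Fintype.card F ≠ 4) (K : Subfield F) (hK : (ζ : F) ^ 3 ∈ K) : K = ⊤ := by
  classical
  haveI : Fintype K := Fintype.ofFinite K
  have hq : Fintype.card F = Fintype.card K ^ Module.finrank K F := Module.card_eq_pow_finrank
  have hord : orderOf ζ = Fintype.card F - 1 := by
    rw [orderOf_eq_card_of_forall_mem_zpowers hζ, Nat.card_eq_fintype_card, Fintype.card_units]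
  have hk0 : (⟨(ζ : F) ^ 3, hK⟩ : K) ≠ 0 := by
    intro h
    have h1 := congrArg (fun x : K => (x : F)) h
    simp at h1
  have hk := FiniteField.pow_card_sub_one_eq_one (⟨(ζ : F) ^ 3, hK⟩ : K) hk0
  have h1 : ζ ^ (3 * (Fintype.card K - 1)) = 1 := by
    apply Units.ext
    have h2 : ((ζ : F) ^ 3) ^ (Fintype.card K - 1) = 1 := by
      have h2' := congrArg (fun x : K => (x : F)) hk
      simpa using h2'
    rw [Units.val_pow_eq_pow_val, pow_mul, Units.val_one]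
    exact h2
  have hdvd : Fintype.card F - 1 ∣ 3 * (Fintype.card K - 1) := by
    rw [← hord]
    exact orderOf_dvd_of_pow_eq_one h1
  have hr2 : 2 ≤ Fintype.card K := Fintype.one_lt_card
  have hq2 : 2 ≤ Fintype.card F := Fintype.one_lt_card
  have hle : Fintype.card F - 1 ≤ 3 * (Fintype.card K - 1) := Nat.le_of_dvd (by omega) hdvd
  have hcard : Fintype.card K = Fintype.card F := by
    rcases Nat.lt_or_ge (Module.finrank K F) 2 with hm | hm
    · have hm' : Module.finrank K F = 0 ∨ Module.finrank K F = 1 := by omega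
      rcases hm' with hm' | hm'
      · rw [hm', pow_zero] at hq
        omega
      · rw [hm', pow_one] at hq
        exact hq.symm
    · exfalso
      have h3 : Fintype.card K ^ 2 ≤ Fintype.card F := by
        rw [hq]
        exact Nat.pow_le_pow_right (by omega) hm
      have h5 : Fintype.card F + 2 ≤ 3 * Fintype.card K := by omega
      have hr : Fintype.card K = 2 := by
        by_contra hne
        have h6 : 3 ≤ Fintype.card K := by omega
        nlinarith [h3, h5, h6]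
      rw [hr] at h3 h5
      omega
  rw [eq_top_iff]
  intro x _
  have h7 : K.toSubring.toAddSubgroup = ⊤ := by
    apply AddSubgroup.eq_top_of_card_eq
    rw [Nat.card_eq_fintype_card, Nat.card_eq_fintype_card]
    exact hcard
  have hx : x ∈ K.toSubring.toAddSubgroup := by
    rw [h7]
    trivial
  exact hx

theorem card_ne_of_two_ne [Fintype F] (h2 : (2 : F) ≠ 0) :
    Fintype.card F ≠ 2 ∧ Fintype.card F ≠ 4 := by
  have h0 := Nat.cast_card_eq_zero F
  constructor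
  · intro h
    rw [h] at h0
    exact h2 (by exact_mod_cast h0)
  · intro h
    rw [h] at h0
    have h4 : (2 : F) * 2 = 0 := by
      have : ((4 : ℕ) : F) = 0 := h0
      push_cast at this
      linear_combination this
    rcases mul_eq_zero.mp h4 with h | h <;> exact h2 h

theorem closure_top_of_cube [Fintype F] (h2 : (2 : F) ≠ 0) (ζ : Fˣ)
    (hζ : ∀ x : Fˣ, x ∈ Subgroup.zpowers ζ) (lam c : F) (hc : (ζ : F) ^ 3 = (c - lam) * 8⁻¹ ∨
      (ζ : F) ^ 3 = (lam - c) * 8⁻¹) (hc8 : c = 8) :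
    Subfield.closure ({lam} : Set F) = ⊤ := by
  apply subfield_top_of_cube ζ hζ (card_ne_of_two_ne h2).2
  have hl : lam ∈ Subfield.closure ({lam} : Set F) := Subfield.subset_closure rfl
  have h8 : (8 : F) ∈ Subfield.closure ({lam} : Set F) := by
    have := natCast_mem (Subfield.closure ({lam} : Set F)) 8
    exact_mod_cast this
  subst hc8
  rcases hc with hc | hc
  · rw [hc]
    exact mul_mem (sub_mem h8 hl) (inv_mem h8)
  · rw [hc]
    exact mul_mem (sub_mem hl h8) (inv_mem h8)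

theorem odd_main (h2 : (2 : F) ≠ 0) (d : F) (hd : d ≠ 0)
    (hgen : Subgroup.closure {g : Matrix.SpecialLinearGroup (Fin 2) F |
      (g : Matrix (Fin 2) (Fin 2) F) = !![1, 0; 1, 1] ∨
      (g : Matrix (Fin 2) (Fin 2) F) = !![1, 8 - d ^ 3; 0, 1]} = ⊤) :
    ∃ u g : Matrix.SpecialLinearGroup (Fin 3) F,
      IsNilpotent ((u : Matrix (Fin 3) (Fin 3) F) - 1) ∧
      ((u : Matrix (Fin 3) (Fin 3) F) - 1) ^ (3 - 1) ≠ 0 ∧
      Subgroup.closure ({u, g * u * g⁻¹} : Set (Matrix.SpecialLinearGroup (Fin 3) F)) = ⊤ := by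
  refine ⟨U0S, C0S d hd, U0_nilp, U0_sq_ne, ?_⟩
  apply odd_top h2 (d ^ 3) (pow_ne_zero 3 hd) hgen
  · exact Subgroup.subset_closure (by simp)
  · rw [← C0_conj d hd]
    exact Subgroup.subset_closure (by simp)

theorem main [Fintype F] : ∃ u g : Matrix.SpecialLinearGroup (Fin 3) F,
    IsNilpotent ((u : Matrix (Fin 3) (Fin 3) F) - 1) ∧
    ((u : Matrix (Fin 3) (Fin 3) F) - 1) ^ (3 - 1) ≠ 0 ∧
    Subgroup.closure ({u, g * u * g⁻¹} : Set (Matrix.SpecialLinearGroup (Fin 3) F)) = ⊤ := by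
  classical
  obtain ⟨ζ, hζ⟩ := IsCyclic.exists_generator (α := Fˣ)
  by_cases h2 : (2 : F) = 0
  · refine ⟨JS, C2S (ζ : F) ζ.ne_zero, J3_nilp, J3_sq_ne, ?_⟩
    apply char2_top h2 (ζ : F) ζ.ne_zero (gen_pow ζ hζ)
    · exact Subgroup.subset_closure (by simp)
    · rw [← C2_conj (ζ : F) ζ.ne_zero]
      exact Subgroup.subset_closure (by simp)
  · have h8 : (8 : F) ≠ 0 := by
      have : (8 : F) = 2 ^ 3 := by norm_num
      rw [this]
      exact pow_ne_zero 3 h2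
    have hcard := card_ne_of_two_ne h2
    have hord : orderOf ζ = Fintype.card F - 1 := by
      rw [orderOf_eq_card_of_forall_mem_zpowers hζ, Nat.card_eq_fintype_card, Fintype.card_units]
    have hq2 : 2 ≤ Fintype.card F := Fintype.one_lt_card
    have hz3 : (ζ : F) ^ 3 ≠ 1 := by
      intro h
      have h1 : ζ ^ 3 = 1 := by
        apply Units.ext
        rw [Units.val_pow_eq_pow_val, Units.val_one]
        exact h
      have h3 := orderOf_dvd_of_pow_eq_one h1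
      rw [hord] at h3
      have h5 := Nat.le_of_dvd (by norm_num) h3
      have h6 : Fintype.card F - 1 = 1 ∨ Fintype.card F - 1 = 3 := by
        have h7 : Fintype.card F - 1 ≠ 2 := by
          intro h8
          rw [h8] at h3
          omega
        omega
      rcases h6 with h6 | h6
      · exact hcard.1 (by omega)
      · exact hcard.2 (by omega)
    have hl1 : (8 : F) - (2 * (ζ : F)) ^ 3 ≠ 0 := by
      intro h
      apply hz3
      have h9 : (8 : F) * ((ζ : F) ^ 3 - 1) = 0 := by linear_combination -h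
      rcases mul_eq_zero.mp h9 with h | h
      · exact absurd h h8
      · linear_combination h
    have hc1 : Subfield.closure ({(8 : F) - (2 * (ζ : F)) ^ 3} : Set F) = ⊤ := by
      apply closure_top_of_cube h2 ζ hζ _ 8 _ rfl
      left
      field_simp
      ring
    rcases Cfsg.Agent.S0801.result h2 _ hl1 hc1 with ⟨hgen, -⟩ | ⟨h9, hsq, -⟩
    · exact odd_main h2 (2 * (ζ : F)) (mul_ne_zero h2 ζ.ne_zero) hgen
    · have h9F : (9 : F) = 0 := by
        have h0 := Nat.cast_card_eq_zero F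
        rw [h9] at h0
        exact_mod_cast h0
      have hl2 : (8 : F) - (-2 * (ζ : F)) ^ 3 ≠ 0 := by
        intro hz
        have h257 : (257 : F) = 0 := by
          linear_combination hsq + (32 - (8 - (-2 * (ζ : F)) ^ 3)) * hz
        have h4 : (2 : F) * 2 = 0 := by linear_combination 29 * h9F - h257
        rcases mul_eq_zero.mp h4 with h | h <;> exact h2 h
      have hc2 : Subfield.closure ({(8 : F) - (-2 * (ζ : F)) ^ 3} : Set F) = ⊤ := by
        apply closure_top_of_cube h2 ζ hζ _ 8 _ rfl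
        right
        field_simp
        ring
      rcases Cfsg.Agent.S0801.result h2 _ hl2 hc2 with ⟨hgen, -⟩ | ⟨-, hsq2, -⟩
      · exact odd_main h2 (-2 * (ζ : F)) (mul_ne_zero (neg_ne_zero.mpr h2) ζ.ne_zero) hgen
      · exfalso
        have h10 : (2 : F) ^ 8 * (ζ : F) ^ 3 = 0 := by linear_combination hsq2 - hsq
        exact mul_ne_zero (pow_ne_zero 8 h2) (pow_ne_zero 3 ζ.ne_zero) h10

/-- Let F be a finite field. Then SL_3(F) is generated by two conjugate regular unipotent elements: there are u with u − 1 nilpotent and (u − 1)² ≠ 0, and g, such that u and g u g⁻¹ generate SL_3(F). -/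
theorem result {F : Type*} [Field F] [Fintype F] :
    ∃ u g : Matrix.SpecialLinearGroup (Fin 3) F, IsNilpotent ((u : Matrix (Fin 3) (Fin 3) F) - 1) ∧ ((u : Matrix (Fin 3) (Fin 3) F) - 1) ^ (3 - 1) ≠ 0 ∧
      Subgroup.closure ({u, g * u * g⁻¹} : Set (Matrix.SpecialLinearGroup (Fin 3) F)) = ⊤ := by
  exact main

end Cfsg.Agent.S2278
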