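import Cfsg.Statements.S2280
import Cfsg.Agent.Lib.Helper65.RegUnipC

set_option autoImplicit false
open Cfsg

namespace Cfsg.Agent.S2280

open Cfsg.Agent.Lib.Helper65.RegUnip

/-- Let F be a finite field and n ≥ 3. Then SL_n(F) is generated by three conjugate regular unipotent elements: there are u with u − 1 nilpotent and (u − 1)^(n−1) ≠ 0, and g, h, such that u, g u g⁻¹ and h u h⁻¹ generate SL_n(F). -/
theorem result {F : Type*} [Field F] [Fintype F] (n : ℕ) (hn : 3 ≤ n) :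
    ∃ u g h : Matrix.SpecialLinearGroup (Fin n) F, (IsNilpotent ((u : Matrix (Fin n) (Fin n) F) - 1) ∧ ((u : Matrix (Fin n) (Fin n) F) - 1) ^ (n - 1) ≠ 0) ∧
      Subgroup.closure ({u, g * u * g⁻¹, h * u * h⁻¹} : Set (Matrix.SpecialLinearGroup (Fin n) F)) = ⊤ := by
  obtain ⟨m, rfl⟩ : ∃ m, n = m + 3 := ⟨n - 3, by omega⟩
  obtain ⟨ζ, hζ⟩ := IsCyclic.exists_generator (α := Fˣ)
  have hρ : ∀ x : F, x ≠ 0 → ∃ k : ℕ, 0 < k ∧ (ζ : F) ^ k = x := by
    intro x hx
    have h1 := hζ (Units.mk0 x hx)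
    rw [← mem_powers_iff_mem_zpowers] at h1
    obtain ⟨k, hk⟩ := h1
    have hk' : (ζ : F) ^ k = x := by
      have h2 := congrArg (fun u : Fˣ => (u : F)) hk
      simpa using h2
    rcases Nat.eq_zero_or_pos k with h0 | h0
    · refine ⟨orderOf ζ, orderOf_pos ζ, ?_⟩
      rw [← hk', h0, pow_zero, ← Units.val_pow_eq_pow_val, pow_orderOf_eq_one, Units.val_one]
    · exact ⟨k, h0, hk'⟩
  refine ⟨US (m + 3) F, hS F m (ζ : F), WS F m,
    ⟨isNilpotent_Um_sub_one, Um_sub_one_pow_ne_zero (by omega)⟩, ?_⟩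
  apply eq_top_of_three (ζ : F) hρ
  · exact Subgroup.subset_closure (by simp)
  · exact Subgroup.subset_closure (by simp)
  · exact Subgroup.subset_closure (by simp)

end Cfsg.Agent.S2280
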