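import Cfsg.Statements.S2282
import Cfsg.Agent.Lib.Helper44.SURegAsmC
import Cfsg.Agent.Lib.Helper93.RU3Main

set_option autoImplicit false
open Cfsg

namespace Cfsg.Agent.S2282

/-- Let F be a field with q² elements, n ≥ 3 odd with (n, q) ≠ (3, 2), and SU_n(q) the special unitary group of the standard Hermitian form Σ u_i v_i^q. Then SU_n(q) is generated by three conjugate regular unipotent elements: there are u ∈ SU_n(q) with u − 1 nilpotent and (u − 1)^(n−1) ≠ 0, and g, h ∈ SU_n(q), such that u, g u g⁻¹ and h u h⁻¹ generate SU_n(q). -/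
theorem result {F : Type*} [Field F] [Fintype F] (q : ℕ) (hF : Fintype.card F = q ^ 2) (n : ℕ) (hn : 3 ≤ n) (hodd : Odd n) (h32 : ¬ (n = 3 ∧ q = 2)) :
    ∃ u g h : ↥(Cfsg.SU n F q), (IsNilpotent (((u : Matrix.SpecialLinearGroup (Fin n) F) : Matrix (Fin n) (Fin n) F) - 1) ∧ (((u : Matrix.SpecialLinearGroup (Fin n) F) : Matrix (Fin n) (Fin n) F) - 1) ^ (n - 1) ≠ 0) ∧
      Subgroup.closure ({u, g * u * g⁻¹, h * u * h⁻¹} : Set ↥(Cfsg.SU n F q)) = ⊤ := by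
  by_cases h3 : n = 3
  · subst h3
    have hq2 : 2 ≤ q := Cfsg.Agent.Lib.Helper7.herm_two_le hF
    have hq : 3 ≤ q := by
      rcases Nat.lt_or_ge q 3 with h | h
      · exact absurd ⟨rfl, by omega⟩ h32
      · exact h
    obtain ⟨u, g, ⟨h1, h2⟩, h3⟩ := Cfsg.Agent.Lib.Helper93.RU3.su3_two_regular hF hq
    refine ⟨u, g, 1, ⟨h1, h2⟩, ?_⟩
    have hset : ({u, g * u * g⁻¹, 1 * u * 1⁻¹} : Set ↥(Cfsg.SU 3 F q)) = {u, g * u * g⁻¹} := by
      rw [one_mul, inv_one, mul_one]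
      ext x
      simp only [Set.mem_insert_iff, Set.mem_singleton_iff]
      tauto
    rw [hset]
    exact h3
  · obtain ⟨k, hk⟩ := hodd
    obtain ⟨l, hl⟩ : ∃ l, n = 2 * (l + 2) + 1 := ⟨k - 2, by omega⟩
    obtain ⟨u, g, h, ⟨h1, h2⟩, h3⟩ := Cfsg.Agent.Lib.Helper44.SUReg.su_three_regular hF l hl
    exact ⟨u, g, h, ⟨h1, h2⟩, h3⟩

end Cfsg.Agent.S2282
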