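import Cfsg.Statements.S2286
import Cfsg.Agent.Lib.Helper93.PresMain

set_option autoImplicit false
open Cfsg

namespace Cfsg.Agent.S2286

/-- For every finite field F, SL_2(F) and PSL_2(F) have presentations with 3 generators and at most 9 relations; when F has characteristic 2, PSL_2(F) has a presentation with 3 generators and at most 5 relations. -/
theorem result {F : Type*} [Field F] [Fintype F] :
    (∃ rels : Finset (FreeGroup (Fin 3)), rels.card ≤ 9 ∧ Nonempty (PresentedGroup (↑rels : Set (FreeGroup (Fin 3))) ≃* Matrix.SpecialLinearGroup (Fin 2) F)) ∧ (∃ rels : Finset (FreeGroup (Fin 3)), rels.card ≤ 9 ∧ Nonempty (PresentedGroup (↑rels : Set (FreeGroup (Fin 3))) ≃* Matrix.ProjectiveSpecialLinearGroup (Fin 2) F)) ∧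
    (CharP F 2 → ∃ rels : Finset (FreeGroup (Fin 3)), rels.card ≤ 5 ∧ Nonempty (PresentedGroup (↑rels : Set (FreeGroup (Fin 3))) ≃* Matrix.ProjectiveSpecialLinearGroup (Fin 2) F)) := by
  refine ⟨Cfsg.Agent.Lib.Helper93.Pres.main_sl, ?_, fun h => ?_⟩
  · by_cases h2 : (2 : F) = 0
    · have hc := Cfsg.Agent.Lib.Helper93.Pres.two_eq_zero_or h2
      obtain ⟨rels, hr, hiso⟩ := Cfsg.Agent.Lib.Helper93.Pres.main_psl_even (F := F)
      exact ⟨rels, by omega, hiso⟩
    · exact Cfsg.Agent.Lib.Helper93.Pres.main_psl_odd h2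
  · exact Cfsg.Agent.Lib.Helper93.Pres.main_psl_even

end Cfsg.Agent.S2286
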