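import Cfsg.Statements.S2337
import Cfsg.Agent.Lib.Helper27.SzBridge
import Cfsg.Agent.Lib.Helper27.MinDeg

set_option autoImplicit false
open Cfsg

namespace Cfsg.Agent.S2337

open Cfsg.Agent.Lib.Helper8.Sz
open Cfsg.Agent.Lib.Helper27.SzBridge
open Cfsg.Agent.Lib.Helper27.MinDeg

/-- a representation with trivial action on a space of dimension at least two is reducible -/
theorem not_irreducible_of_trivial {G : Type*} [Group G] {k : ℕ} (hk : 2 ≤ k)
    (ρ : Representation ℂ G (Fin k → ℂ)) (htriv : ∀ g, ρ g = 1) : ¬ ρ.IsIrreducible := by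
  intro hirr
  let i0 : Fin k := ⟨0, by omega⟩
  let i1 : Fin k := ⟨1, by omega⟩
  have h01 : i1 ≠ i0 := by
    intro h
    have := congrArg Fin.val h
    simp [i0, i1] at this
  let σ : Subrepresentation ρ :=
    ⟨Submodule.span ℂ {(Pi.single i0 1 : Fin k → ℂ)}, fun g v hv => by
      rw [htriv g]
      exact hv⟩
  rcases eq_bot_or_eq_top σ with h | h
  · have h1 : σ.toSubmodule = ⊥ := congrArg Subrepresentation.toSubmodule h
    have h2 : (Pi.single i0 1 : Fin k → ℂ) ∈ σ.toSubmodule :=
      Submodule.subset_span (Set.mem_singleton _)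
    rw [h1, Submodule.mem_bot] at h2
    have := congrFun h2 i0
    simp at this
  · have h1 : σ.toSubmodule = ⊤ := congrArg Subrepresentation.toSubmodule h
    have h2 : (Pi.single i1 1 : Fin k → ℂ) ∈ σ.toSubmodule := by
      rw [h1]
      trivial
    obtain ⟨c, hc⟩ := Submodule.mem_span_singleton.mp h2
    have := congrFun hc i1
    simp [h01] at this

/-- For the Suzuki group Sz(q), q = 2^(2m+1) with m ≥ 1 (realised inside Sp₄ over the field with q elements), every irreducible complex representation of degree at least 2 has degree at least 2^m·(q − 1). -/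
theorem result {F : Type*} [Field F] [Fintype F] (m : ℕ) (hm : 1 ≤ m) (hF : Fintype.card F = 2 ^ (2 * m + 1)) :
    (∀ (k : ℕ) (ρ : Representation ℂ (Cfsg.Lie.Sz F (2 ^ (m + 1))) (Fin k → ℂ)), ρ.IsIrreducible → 2 ≤ k → 2 ^ m * (2 ^ (2 * m + 1) - 1) ≤ k) := by
  intro k ρ hirr hk
  have hsimple := isSimpleGroup_LieSz hF hm
  let e := szEquiv hF hm
  let T : F → F → ↥(Cfsg.Lie.Sz F (2 ^ (m + 1))) := fun a b => e (TS hF a b)
  let H : Fˣ → ↥(Cfsg.Lie.Sz F (2 ^ (m + 1))) := fun s => e (HS hF s)
  have hT : ∀ a b a' b', T a b * T a' b' = T (a + a') (b + b' + th m a * a') := by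
    intro a b a' b'
    show e _ * e _ = e _
    rw [← map_mul, TS_mul]
  have hH : ∀ (s : Fˣ) a b,
      H s * T a b = T (th m (s : F) * a) (th m (s : F) * (s : F) ^ 2 * b) * H s := by
    intro s a b
    show e _ * e _ = e _ * e _
    rw [← map_mul, ← map_mul, HS_mul_TS]
  have hρ : ∀ b, ρ (T 0 b) = 1 → b = 0 := by
    intro b hb
    have hmem : T 0 b ∈ MonoidHom.ker ρ := hb
    rcases (MonoidHom.normal_ker ρ).eq_bot_or_eq_top with h | h
    · rw [h, Subgroup.mem_bot] at hmem
      have h1 : TS hF 0 b = 1 := by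
        apply e.injective
        rw [map_one]
        exact hmem
      rw [← TS_zero hF] at h1
      exact (Tg_inj (congrArg Subtype.val h1)).2
    · exfalso
      apply not_irreducible_of_trivial hk ρ _ hirr
      intro g
      have : g ∈ MonoidHom.ker ρ := by rw [h]; trivial
      exact this
  have hmain := min_degree hF T H hT hH ρ hρ
  rwa [Module.finrank_fin_fun] at hmain

end Cfsg.Agent.S2337
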