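import Cfsg.Statements.S2353
-- import your own Cfsg.Agent.* helpers here
import Cfsg.Agent.Lib.Helper47.FreeLaw

set_option autoImplicit false
open Cfsg

namespace Cfsg.Agent.S2353

/-- A non-trivial law holds in PSL_2 over only finitely many finite fields: for every non-trivial element w of the free group on countably many generators there is N such that over every finite field with at least N elements some substitution of elements of PSL_2 into w is not the identity. -/
theorem result (w : FreeGroup ℕ) (hw : w ≠ 1) :
    ∃ N : ℕ, ∀ (F : Type*) [Field F] [Fintype F], N ≤ Fintype.card F →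
      ∃ f : ℕ → Matrix.ProjectiveSpecialLinearGroup (Fin 2) F, FreeGroup.lift f w ≠ 1 := by
  obtain ⟨N, hN⟩ := Cfsg.Agent.Lib.Helper47.exists_not_central w hw
  refine ⟨N, fun F _ _ hF => ?_⟩
  obtain ⟨f, hf⟩ := hN F hF
  refine ⟨fun i => QuotientGroup.mk (f i), ?_⟩
  have h1 : FreeGroup.lift (fun i => (QuotientGroup.mk (f i) :
      Matrix.ProjectiveSpecialLinearGroup (Fin 2) F)) =
      (QuotientGroup.mk' (Subgroup.center (Matrix.SpecialLinearGroup (Fin 2) F))).comp
        (FreeGroup.lift f) := by
    ext i
    simp
  rw [h1, MonoidHom.comp_apply]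
  intro h
  exact hf ((QuotientGroup.eq_one_iff _).mp h)

end Cfsg.Agent.S2353
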