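import Cfsg.Statements.S2354
-- import your own Cfsg.Agent.* helpers here
import Cfsg.Agent.Lib.Helper47.SzLaw

set_option autoImplicit false
open Cfsg

namespace Cfsg.Agent.S2354

open Cfsg.Agent.Lib.Helper47

/-- A non-trivial law holds in only finitely many Suzuki groups: for every non-trivial element w of the free group on countably many generators there is N such that for q = 2^(2m+1) with m ≥ N some substitution of elements of the Suzuki group over the field with q elements into w is not the identity. -/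
theorem result (w : FreeGroup ℕ) (hw : w ≠ 1) :
    ∃ N : ℕ, ∀ (F : Type*) [Field F] [Fintype F] (m : ℕ), 1 ≤ m → N ≤ m →
      Fintype.card F = 2 ^ (2 * m + 1) →
      ∃ f : ℕ → ↥(Cfsg.Lie.Sz F (2 ^ (m + 1))), FreeGroup.lift f w ≠ 1 := by
  refine ⟨wordBound w.toWord + 1, ?_⟩
  intro F _ _ m hm1 hNm hcard
  have he2 : 2 ≤ 2 ^ (m + 1) := by
    calc 2 = 2 ^ 1 := by norm_num
      _ ≤ 2 ^ (m + 1) := Nat.pow_le_pow_right (by norm_num) (by omega)
  have he0 : 2 ^ (m + 1) ≠ 0 := by positivity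
  -- characteristic 2
  have h2 : (2 : F) = 0 := by
    have h := Nat.cast_card_eq_zero F
    rw [hcard] at h
    have h' : (2 : F) ^ (2 * m + 1) = 0 := by exact_mod_cast h
    exact pow_eq_zero_iff (by omega) |>.mp h'
  have hee : ∀ x : F, (x ^ 2 ^ (m + 1)) ^ 2 ^ (m + 1) = x ^ 2 := by
    intro x
    rw [← pow_mul, ← pow_add]
    have : m + 1 + (m + 1) = (2 * m + 1) + 1 := by ring
    rw [this, pow_succ, pow_mul, ← hcard, FiniteField.pow_card]
  have hlt : 2 ^ (m + 1) * wordBound w.toWord < Fintype.card F := by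
    rw [hcard]
    have h1 : wordBound w.toWord < 2 ^ m := lt_of_lt_of_le (by omega) (Nat.lt_two_pow_self).le
    have h3 : 2 ^ (2 * m + 1) = 2 ^ (m + 1) * 2 ^ m := by
      rw [← pow_add]
      congr 1
      ring
    rw [h3]
    exact Nat.mul_lt_mul_of_pos_left h1 (by positivity)
  obtain ⟨t, ht⟩ := sz_word_ne_one F (2 ^ (m + 1)) he2 w hw hlt
  refine ⟨fun i => ⟨uA (t ^ (i + 1)) ((t ^ (i + 1)) ^ 2 ^ (m + 1)) *
      uB (t ^ (i + 1)) ((t ^ (i + 1)) ^ 2 ^ (m + 1)),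
    mul_mem (uA_mem_Sz _ he0 h2 hee _) (uB_mem_Sz _ he0 h2 hee _)⟩, ?_⟩
  intro h
  apply ht
  have h1 := congrArg (Cfsg.Lie.Sz F (2 ^ (m + 1))).subtype h
  rw [map_one] at h1
  rw [← h1]
  have h2 : FreeGroup.lift (fun i => uA (t ^ (i + 1)) ((t ^ (i + 1)) ^ 2 ^ (m + 1)) *
      uB (t ^ (i + 1)) ((t ^ (i + 1)) ^ 2 ^ (m + 1)))
      = (Cfsg.Lie.Sz F (2 ^ (m + 1))).subtype.comp (FreeGroup.lift (fun i =>
        (⟨uA (t ^ (i + 1)) ((t ^ (i + 1)) ^ 2 ^ (m + 1)) *
          uB (t ^ (i + 1)) ((t ^ (i + 1)) ^ 2 ^ (m + 1)),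
        mul_mem (uA_mem_Sz _ he0 h2 hee _) (uB_mem_Sz _ he0 h2 hee _)⟩ :
          ↥(Cfsg.Lie.Sz F (2 ^ (m + 1)))))) := by
    ext i
    simp
  rw [h2, MonoidHom.comp_apply]

end Cfsg.Agent.S2354
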