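import Cfsg.Statements.S2355
-- import your own Cfsg.Agent.* helpers here
import Cfsg.Agent.Lib.Helper47.LawCore
import Cfsg.Agent.Lib.Helper47.ClassicalEmb
import Cfsg.Agent.Lib.Helper47.UnitaryEmb

set_option autoImplicit false
open Cfsg

namespace Cfsg.Agent.S2355

open Cfsg.Agent.Lib.Helper47 Matrix

theorem card_bound {G G₀ : Type*} [Group G] [Group G₀] {ι F : Type*} [Fintype ι] [DecidableEq ι]
    [Field F] [Fintype F] (e : G ≃* G₀ ⧸ Subgroup.center G₀) (f : G₀ → Matrix ι ι F)
    (hf : Function.Injective f) (B D : ℕ) (hF : Fintype.card F ≤ B) (hι : Fintype.card ι ≤ D) :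
    Nat.card G ≤ B ^ (D * D) := by
  have hfin : Finite G₀ := Finite.of_injective f hf
  have h1 : Nat.card G = Nat.card (G₀ ⧸ Subgroup.center G₀) := Nat.card_congr e.toEquiv
  have h2 : Nat.card (G₀ ⧸ Subgroup.center G₀) ≤ Nat.card G₀ :=
    Nat.card_le_card_of_surjective _ (QuotientGroup.mk_surjective)
  have h3 : Nat.card G₀ ≤ Nat.card (Matrix ι ι F) := Nat.card_le_card_of_injective f hf
  have h4 : Nat.card (Matrix ι ι F) = Fintype.card F ^ (Fintype.card ι * Fintype.card ι) := by
    unfold Matrix
    rw [Nat.card_fun, Nat.card_fun, ← pow_mul, Nat.card_eq_fintype_card, Nat.card_eq_fintype_card]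
  have hB : 1 ≤ B := le_trans (Nat.one_le_of_lt Fintype.one_lt_card) hF
  calc Nat.card G ≤ Fintype.card F ^ (Fintype.card ι * Fintype.card ι) := by
        rw [h1, ← h4]
        exact h2.trans h3
    _ ≤ B ^ (Fintype.card ι * Fintype.card ι) := Nat.pow_le_pow_left hF _
    _ ≤ B ^ (D * D) := Nat.pow_le_pow_right hB (Nat.mul_le_mul hι hι)

/-- A non-trivial law is satisfied by only finitely many finite simple groups that are alternating or classical, up to isomorphism: for every non-trivial element w of the free group on countably many generators there is a bound N such that every alternating group of degree ≥ 5 and every simple classical group (linear, symplectic, unitary or orthogonal, in this problem's sense) in which w is a law has order at most N. -/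
theorem result (w : FreeGroup ℕ) (hw : w ≠ 1) :
    ∃ N : ℕ, ∀ (G : Type*) [Group G] [Finite G],
      (Cfsg.IsAlternating G ∨ Cfsg.IsPSL G ∨ Cfsg.IsPSp G ∨ Cfsg.IsPSU G ∨ Cfsg.IsPOmegaOdd G ∨
          Cfsg.IsPOmegaPlus G ∨ Cfsg.IsPOmegaMinus G) →
      (∀ f : ℕ → G, FreeGroup.lift f w = 1) → Nat.card G ≤ N := by
  obtain ⟨N₂, n₀, hSL, hAlt⟩ := exists_witness_bounds w hw
  refine ⟨max (n₀.factorial) ((N₂ ^ 2 + 1) ^ ((2 * n₀ + 2) * (2 * n₀ + 2))), ?_⟩
  intro G _ _ hG hlaw
  have hN2 : N₂ ≤ N₂ ^ 2 + 1 := by nlinarith
  rcases hG with h | h | h | h | h | h | h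
  · -- alternating
    obtain ⟨n, -, ⟨e⟩⟩ := h
    have hn : n < n₀ := by
      by_contra hcon
      obtain ⟨-, k, hk⟩ := hAlt n (not_lt.mp hcon)
      apply hk
      have h1 := hlaw (fun i => e.symm.toMonoidHom (k i))
      rw [lift_comp_hom e.symm.toMonoidHom] at h1
      have h2 : FreeGroup.lift k w = 1 := by simpa using h1
      rw [h2]
      exact Subgroup.one_mem _
    refine le_trans ?_ (le_max_left _ _)
    have h1 : Nat.card G = Nat.card (alternatingGroup (Fin n)) := Nat.card_congr e.toEquiv
    have h2 : Nat.card (alternatingGroup (Fin n)) ≤ Nat.card (Equiv.Perm (Fin n)) :=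
      Nat.card_le_card_of_injective Subtype.val Subtype.val_injective
    rw [h1]
    refine h2.trans ?_
    rw [Nat.card_perm, Nat.card_eq_fintype_card, Fintype.card_fin]
    exact Nat.factorial_le hn.le
  · -- PSL
    obtain ⟨F, _, _, n, hn2, -, ⟨e⟩⟩ := h
    have hcen := law_lift_mem_center w e hlaw
    have hF : Fintype.card F < N₂ := by
      by_contra hcon
      obtain ⟨g, hg⟩ := (hSL F (not_lt.mp hcon)).not_central
        (stdEmb (Fin.castLEEmb hn2)) (stdEmb_injective _)
      exact hg (hcen g)
    have hn : n < n₀ := by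
      by_contra hcon
      obtain ⟨g, hg⟩ := (hAlt n (not_lt.mp hcon)).not_central (permSL F) (permSL_injective F)
      exact hg (hcen g)
    refine le_trans ?_ (le_max_right _ _)
    refine card_bound e (fun g => g.1) Subtype.val_injective _ _ (by omega) ?_
    rw [Fintype.card_fin]
    omega
  · -- PSp
    obtain ⟨F, _, _, m, hm2, -, ⟨e⟩⟩ := h
    have hcen := law_lift_mem_center w e hlaw
    have hF : Fintype.card F < N₂ := by
      by_contra hcon
      obtain ⟨g, hg⟩ := (hSL F (not_lt.mp hcon)).not_central
        ((spEmb m F).comp (SpecialLinearGroup.toGL.comp (stdEmb (Fin.castLEEmb hm2))))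
        ((spEmb_injective m F).comp (SpecialLinearGroup.toGL_injective.comp (stdEmb_injective _)))
      exact hg (hcen g)
    have hm : m < n₀ := by
      by_contra hcon
      obtain ⟨g, hg⟩ := (hAlt m (not_lt.mp hcon)).not_central
        ((spEmb m F).comp ((permGL F).comp (alternatingGroup (Fin m)).subtype))
        ((spEmb_injective m F).comp ((permGL_injective F).comp Subtype.val_injective))
      exact hg (hcen g)
    refine le_trans ?_ (le_max_right _ _)
    refine card_bound e (fun g => g.1) Subtype.val_injective _ _ (by omega) ?_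
    rw [Fintype.card_sum, Fintype.card_fin]
    omega
  · -- PSU
    obtain ⟨F, _, _, n, q, hq, hn3, -, ⟨e⟩⟩ := h
    have hcen := law_lift_mem_center w e hlaw
    have hq' : q < N₂ := by
      by_contra hcon
      obtain ⟨K, _, _, hK, ψ, hψ⟩ := exists_SU_embedding F q n hq hn3
      obtain ⟨g, hg⟩ := (hSL K (le_trans (not_lt.mp hcon) hK)).not_central ψ hψ
      exact hg (hcen g)
    have hn : n < n₀ := by
      by_contra hcon
      obtain ⟨g, hg⟩ := (hAlt n (not_lt.mp hcon)).not_central (permSU n F q)
        (permSU_injective q n)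
      exact hg (hcen g)
    refine le_trans ?_ (le_max_right _ _)
    refine card_bound e (fun g => g.1.1) ?_ _ _ ?_ ?_
    · intro x y hxy
      exact Subtype.ext (Subtype.ext hxy)
    · rw [hq]
      have : q ^ 2 ≤ N₂ ^ 2 := Nat.pow_le_pow_left hq'.le 2
      omega
    · rw [Fintype.card_fin]
      omega
  · -- PΩ odd
    obtain ⟨F, _, _, m, hm3, -, ⟨e⟩⟩ := h
    have hcen := law_lift_mem_center w e hlaw
    have hF : Fintype.card F < N₂ := by
      by_contra hcon
      obtain ⟨g, hg⟩ := (hSL F (not_lt.mp hcon)).not_central_commutator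
        ((oddEmb m F).comp (SpecialLinearGroup.toGL.comp
          (stdEmb (Fin.castLEEmb (show 2 ≤ m by omega)))))
        ((oddEmb_injective m F).comp (SpecialLinearGroup.toGL_injective.comp (stdEmb_injective _)))
      exact hg (hcen g)
    have hm : m < n₀ := by
      by_contra hcon
      obtain ⟨g, hg⟩ := (hAlt m (not_lt.mp hcon)).not_central_commutator
        ((oddEmb m F).comp ((permGL F).comp (alternatingGroup (Fin m)).subtype))
        ((oddEmb_injective m F).comp ((permGL_injective F).comp Subtype.val_injective))
      exact hg (hcen g)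
    refine le_trans ?_ (le_max_right _ _)
    refine card_bound e (fun g => Units.val g.1.1) ?_ _ _ (by omega) ?_
    · intro x y hxy
      exact Subtype.ext (Subtype.ext (Units.ext hxy))
    · simp only [Fintype.card_sum, Fintype.card_fin, Fintype.card_unit]
      omega
  · -- PΩ plus
    obtain ⟨F, _, _, m, hm4, ⟨e⟩⟩ := h
    have hcen := law_lift_mem_center w e hlaw
    have hF : Fintype.card F < N₂ := by
      by_contra hcon
      obtain ⟨g, hg⟩ := (hSL F (not_lt.mp hcon)).not_central_commutator
        ((plusEmb m F).comp (SpecialLinearGroup.toGL.comp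
          (stdEmb (Fin.castLEEmb (show 2 ≤ m by omega)))))
        ((plusEmb_injective m F).comp
          (SpecialLinearGroup.toGL_injective.comp (stdEmb_injective _)))
      exact hg (hcen g)
    have hm : m < n₀ := by
      by_contra hcon
      obtain ⟨g, hg⟩ := (hAlt m (not_lt.mp hcon)).not_central_commutator
        ((plusEmb m F).comp ((permGL F).comp (alternatingGroup (Fin m)).subtype))
        ((plusEmb_injective m F).comp ((permGL_injective F).comp Subtype.val_injective))
      exact hg (hcen g)
    refine le_trans ?_ (le_max_right _ _)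
    refine card_bound e (fun g => Units.val g.1.1) ?_ _ _ (by omega) ?_
    · intro x y hxy
      exact Subtype.ext (Subtype.ext (Units.ext hxy))
    · simp only [Fintype.card_sum, Fintype.card_fin]
      omega
  · -- PΩ minus
    obtain ⟨F, _, _, m, a, b, hm4, -, ⟨e⟩⟩ := h
    have hcen := law_lift_mem_center w e hlaw
    have hF : Fintype.card F < N₂ := by
      by_contra hcon
      obtain ⟨g, hg⟩ := (hSL F (not_lt.mp hcon)).not_central_commutator
        ((minusEmb (m - 1) F a b).comp (SpecialLinearGroup.toGL.comp
          (stdEmb (Fin.castLEEmb (show 2 ≤ m - 1 by omega)))))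
        ((minusEmb_injective (m - 1) F a b).comp
          (SpecialLinearGroup.toGL_injective.comp (stdEmb_injective _)))
      exact hg (hcen g)
    have hm : m - 1 < n₀ := by
      by_contra hcon
      obtain ⟨g, hg⟩ := (hAlt (m - 1) (not_lt.mp hcon)).not_central_commutator
        ((minusEmb (m - 1) F a b).comp ((permGL F).comp (alternatingGroup (Fin (m - 1))).subtype))
        ((minusEmb_injective (m - 1) F a b).comp
          ((permGL_injective F).comp Subtype.val_injective))
      exact hg (hcen g)
    refine le_trans ?_ (le_max_right _ _)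
    refine card_bound e (fun g => Units.val g.1.1) ?_ _ _ (by omega) ?_
    · intro x y hxy
      exact Subtype.ext (Subtype.ext (Units.ext hxy))
    · simp only [Fintype.card_sum, Fintype.card_fin]
      omega

end Cfsg.Agent.S2355
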