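import Cfsg.Statements.S2359
import Cfsg.Agent.Lib.Helper48.QBMain

set_option autoImplicit false
open Cfsg

namespace Cfsg.Agent.S2359

open Cfsg.Agent.Lib.Helper48.QB in
/-- Let R be the small Ree group over the field with q = 3^(2m+1) ≥ 27 elements. If H is a cyclic subgroup of R of order (q−1)/2, then the centralizer of H in R is cyclic of order q−1, and every non-trivial subgroup of H has the same centralizer as H. If H is a cyclic subgroup of order (q+1)/4, then the centralizer of H is abelian of order q+1 with no element of order 4 (so it is the direct product of H and a group of order 4 whose non-identity elements all have order 2), and every non-trivial subgroup of H has the same centralizer as H. -/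
theorem result {K : Type*} [Field K] [Fintype K] {m : ℕ} (hm : 1 ≤ m)
    (hK : Fintype.card K = 3 ^ (2 * m + 1)) (H : Subgroup ↥(Cfsg.Lie.twistedG2 K (3 ^ m))) (hH : IsCyclic H) :
    (Nat.card H = (3 ^ (2 * m + 1) - 1) / 2 →
      IsCyclic ↥(Subgroup.centralizer (H : Set ↥(Cfsg.Lie.twistedG2 K (3 ^ m)))) ∧
        Nat.card ↥(Subgroup.centralizer (H : Set ↥(Cfsg.Lie.twistedG2 K (3 ^ m)))) = 3 ^ (2 * m + 1) - 1 ∧
        ∀ A : Subgroup ↥(Cfsg.Lie.twistedG2 K (3 ^ m)), A ≤ H → A ≠ ⊥ →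
          Subgroup.centralizer (A : Set ↥(Cfsg.Lie.twistedG2 K (3 ^ m))) = Subgroup.centralizer (H : Set ↥(Cfsg.Lie.twistedG2 K (3 ^ m)))) ∧
    (Nat.card H = (3 ^ (2 * m + 1) + 1) / 4 →
      IsMulCommutative ↥(Subgroup.centralizer (H : Set ↥(Cfsg.Lie.twistedG2 K (3 ^ m)))) ∧
        Nat.card ↥(Subgroup.centralizer (H : Set ↥(Cfsg.Lie.twistedG2 K (3 ^ m)))) = 3 ^ (2 * m + 1) + 1 ∧
        (∀ x ∈ Subgroup.centralizer (H : Set ↥(Cfsg.Lie.twistedG2 K (3 ^ m))), orderOf x ≠ 4) ∧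
        ∀ A : Subgroup ↥(Cfsg.Lie.twistedG2 K (3 ^ m)), A ≤ H → A ≠ ⊥ →
          Subgroup.centralizer (A : Set ↥(Cfsg.Lie.twistedG2 K (3 ^ m))) = Subgroup.centralizer (H : Set ↥(Cfsg.Lie.twistedG2 K (3 ^ m)))) := by
  obtain ⟨hA, hB⟩ := ree_keys hm hK
  obtain ⟨q, hq⟩ : ∃ q : ℕ, q = 3 ^ (2 * m + 1) := ⟨_, rfl⟩
  rw [← hq] at hA hB ⊢
  have hq27 : 27 ≤ q := by
    rw [hq]
    calc 27 = 3 ^ 3 := by norm_num
      _ ≤ 3 ^ (2 * m + 1) := Nat.pow_le_pow_right (by norm_num) (by omega)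
  constructor
  · intro hcard
    have key : ∀ x : ↥(Cfsg.Lie.twistedG2 K (3 ^ m)), x ≠ 1 → x ^ ((q - 1) / 2) = 1 →
        IsCyclic (Subgroup.centralizer {x}) ∧ Nat.card (Subgroup.centralizer {x}) = q - 1 := by
      intro x hx hxn
      obtain ⟨y, hy, hyn, hxy⟩ := prime_red ((q - 1) / 2) (fun y hy hyn => by
        obtain ⟨hc, -⟩ := hA y hy hyn
        intro a ha b hb
        haveI := hc
        have h := (IsCyclic.commutative (α := ↥(Subgroup.centralizer {y}))).is_comm.comm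
          ⟨a, ha⟩ ⟨b, hb⟩
        exact congrArg Subtype.val h) x hx hxn
      rw [hxy]
      exact hA y hy hyn
    obtain ⟨⟨x, hx1, hxn, hHx⟩, hAll⟩ := fin_cent ((q - 1) / 2) (q - 1)
      (fun x hx hxn => (key x hx hxn).2) H hH hcard (by omega)
    refine ⟨?_, ?_, hAll⟩
    · rw [hHx]
      exact (key x hx1 hxn).1
    · rw [hHx]
      exact (key x hx1 hxn).2
  · intro hcard
    have key : ∀ x : ↥(Cfsg.Lie.twistedG2 K (3 ^ m)), x ≠ 1 → x ^ ((q + 1) / 4) = 1 →
        Nat.card (Subgroup.centralizer {x}) = q + 1 ∧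
        ∀ a ∈ Subgroup.centralizer {x}, ∀ b ∈ Subgroup.centralizer {x}, a * b = b * a := by
      intro x hx hxn
      obtain ⟨y, hy, hyn, hxy⟩ := prime_red ((q + 1) / 4) (fun y hy hyn => (hB y hy hyn).2)
        x hx hxn
      rw [hxy]
      exact hB y hy hyn
    obtain ⟨⟨x, hx1, hxn, hHx⟩, hAll⟩ := fin_cent ((q + 1) / 4) (q + 1)
      (fun x hx hxn => (key x hx hxn).1) H hH hcard (by omega)
    refine ⟨?_, ?_, fun x _ => Cfsg.Agent.Lib.Helper48.QA.ree_no_order_four hK x, hAll⟩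
    · rw [hHx]
      exact ⟨⟨fun a b => Subtype.ext ((key x hx1 hxn).2 a a.2 b b.2)⟩⟩
    · rw [hHx]
      exact (key x hx1 hxn).1

end Cfsg.Agent.S2359
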