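import Cfsg.Statements.S2360
-- import your own Cfsg.Agent.* helpers here
import Cfsg.Agent.Lib.Helper47.SU3Inv

set_option autoImplicit false
open Cfsg

namespace Cfsg.Agent.S2360

open Cfsg.Agent.Lib.Helper47

/-- Let q be odd, F the field with q² elements and S = SU_3(F) (determinant-one isometries of the standard Hermitian form). Then all involutions of S are conjugate; there are exactly q²(q²−q+1) of them; the centralizer of an involution has order q(q+1)(q²−1), the order of the full unitary group of degree 2; and for two distinct commuting involutions t and x there is exactly one further involution commuting with both. -/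
theorem result {F : Type*} [Field F] [Fintype F] {q : ℕ} (hq : Odd q)
    (hF : Fintype.card F = q ^ 2) (t : ↥(Cfsg.SU 3 F q)) (ht : t ≠ 1) (ht2 : t * t = 1) :
    (∀ x : ↥(Cfsg.SU 3 F q), x ≠ 1 → x * x = 1 → ∃ g : ↥(Cfsg.SU 3 F q), g * t * g⁻¹ = x) ∧
    Nat.card {x : ↥(Cfsg.SU 3 F q) // x ≠ 1 ∧ x * x = 1} = q ^ 2 * (q ^ 2 - q + 1) ∧
    Nat.card ↥(Subgroup.centralizer ({t} : Set ↥(Cfsg.SU 3 F q))) = q * (q + 1) * (q ^ 2 - 1) ∧
    ∀ x : ↥(Cfsg.SU 3 F q), x ≠ 1 → x * x = 1 → x ≠ t → Commute t x →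
      Nat.card {y : ↥(Cfsg.SU 3 F q) // y ≠ 1 ∧ y * y = 1 ∧ y ≠ t ∧ y ≠ x ∧ Commute t y ∧ Commute x y} = 1 := by
  classical
  obtain ⟨p, hCp⟩ := CharP.exists F
  have hpp : p.Prime := CharP.char_is_prime F p
  have : Fact p.Prime := ⟨hpp⟩
  have hq2 : 2 ≤ q := Cfsg.Agent.Lib.Helper7.herm_two_le hF
  have hp2 : p ≠ 2 := by
    intro hp
    obtain ⟨k, _, hk⟩ := FiniteField.card F p
    have h1 : 2 ∣ q ^ 2 := by
      rw [← hF, hk, hp]
      exact dvd_pow_self 2 k.ne_zero
    have h2q : 2 ∣ q := Nat.prime_two.dvd_of_dvd_pow h1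
    exact (Nat.not_even_iff_odd.mpr hq) (even_iff_two_dvd.mpr h2q)
  have h2F : (2 : F) ≠ 0 := two_ne_zero_of_char p hp2
  obtain ⟨σ, hσq, hσ, -⟩ := exists_unitary_data F q hF
  have hneg : sT σ (-1 : Matrix (Fin 2) (Fin 2) F) * (-1) = 1 := by
    ext i j
    fin_cases i <;> fin_cases j <;> simp [sT, Matrix.mul_apply, Fin.sum_univ_two]
  obtain ⟨t₀, ht₀⟩ := exists_SU3_bd (q := q) hσq hσ (-1 : Matrix (Fin 2) (Fin 2) F) 1 hneg
    (by rw [map_one, mul_one]) (by rw [Matrix.det_fin_two]; simp)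
  have ht₀1 : t₀ ≠ 1 := by
    intro h
    have h1 : (t₀.1.1 : Matrix (Fin 3) (Fin 3) F) 0 0 = (1 : Matrix (Fin 3) (Fin 3) F) 0 0 := by
      rw [h]
      rfl
    rw [ht₀] at h1
    simp [bd] at h1
    have h3 : (2 : F) = 0 := by linear_combination (-1 : F) * h1
    exact h2F h3
  have ht₀2 : t₀ * t₀ = 1 := by
    apply su_ext
    rw [su_coe_mul, ht₀, bd_mul]
    simp [bd_one]
  have hconj := su3_involutions_isConj hF p hp2
  have hinv_of_conj : ∀ x : ↥(Cfsg.SU 3 F q), IsConj t x → x ≠ 1 ∧ x * x = 1 := by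
    intro x hx
    obtain ⟨g, hg⟩ := isConj_iff.mp hx
    rw [← hg]
    constructor
    · intro h
      apply ht
      calc t = g⁻¹ * (g * t * g⁻¹) * g := by group
        _ = 1 := by rw [h]; group
    · calc g * t * g⁻¹ * (g * t * g⁻¹) = g * (t * t) * g⁻¹ := by group
        _ = 1 := by rw [ht2]; group
  have hC0 : Nat.card (Subgroup.centralizer ({t₀} : Set ↥(Cfsg.SU 3 F q)))
      = q * (q + 1) * (q ^ 2 - 1) := by
    rw [card_centralizer_bd hσq hσ h2F t₀ ht₀, Cfsg.Agent.Lib.Helper7.card_GU hF 2,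
      Finset.prod_range_succ, Finset.prod_range_succ, Finset.prod_range_zero]
    rw [if_pos (by decide), if_neg (by decide)]
    norm_num
    ring
  have hCt : Nat.card (Subgroup.centralizer ({t} : Set ↥(Cfsg.SU 3 F q)))
      = q * (q + 1) * (q ^ 2 - 1) := by
    obtain ⟨g, hg⟩ := isConj_iff.mp (hconj t₀ t ht₀1 ht₀2 ht ht2)
    rw [← hg, card_centralizer_conj', hC0]
  have hSU : Nat.card ↥(Cfsg.SU 3 F q) = q ^ 3 * (q ^ 2 - 1) * (q ^ 3 + 1) := by
    have h1 := Cfsg.Agent.Lib.Helper7.card_SU hF 3 (by norm_num)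
    rw [Cfsg.Agent.Lib.Helper7.card_GU hF 3, Finset.prod_range_succ, Finset.prod_range_succ,
      Finset.prod_range_succ, Finset.prod_range_zero] at h1
    rw [if_pos (by decide), if_neg (by decide), if_pos (by decide)] at h1
    norm_num at h1
    rw [← Nat.card_eq_fintype_card] at h1
    have hq1 : 0 < q + 1 := by omega
    apply Nat.eq_of_mul_eq_mul_left hq1
    rw [h1]
    ring
  have hcount : Nat.card {x : ↥(Cfsg.SU 3 F q) // x ≠ 1 ∧ x * x = 1}
      * (q * (q + 1) * (q ^ 2 - 1)) = q ^ 3 * (q ^ 2 - 1) * (q ^ 3 + 1) := by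
    rw [← hCt, ← hSU, ← card_conj_mul_card_centralizer t]
    congr 1
    apply Nat.card_congr
    exact Equiv.subtypeEquivRight (fun x =>
      ⟨fun h => hconj t x ht ht2 h.1 h.2, fun h => hinv_of_conj x h⟩)
  refine ⟨fun x hx1 hx2 => isConj_iff.mp (hconj t x ht ht2 hx1 hx2), ?_, hCt, ?_⟩
  · have hqq : q ≤ q ^ 2 := Nat.le_self_pow (by norm_num) q
    have h1q : 1 ≤ q ^ 2 := Nat.one_le_pow _ _ (by omega)
    have hpos : 0 < q * (q + 1) * (q ^ 2 - 1) := by
      have h3 : 0 < q ^ 2 - 1 := by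
        have : 2 ^ 2 ≤ q ^ 2 := Nat.pow_le_pow_left hq2 2
        omega
      positivity
    apply Nat.eq_of_mul_eq_mul_right hpos
    rw [hcount]
    zify [hqq, h1q]
    ring
  · intro x hx1 hx2 hxt hcomm
    obtain ⟨g, hg⟩ := isConj_iff.mp (hconj t₀ t ht₀1 ht₀2 ht ht2)
    have huniq : ∀ y : ↥(Cfsg.SU 3 F q),
        (y ≠ 1 ∧ y * y = 1 ∧ y ≠ t ∧ y ≠ x ∧ Commute t y ∧ Commute x y) → y = t * x := by
      rintro y ⟨hy1, hy2, hyt, hyx, hty, hxy⟩
      have hcx := hcomm.eq
      have hcy := hty.eq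
      have hcxy := hxy.eq
      rw [← hg] at hcx hcy hxt hyt
      have h := third_unique h2F t₀ ht₀ (g⁻¹ * x * g) (g⁻¹ * y * g)
        (by
          intro h
          apply hx1
          calc x = g * (g⁻¹ * x * g) * g⁻¹ := by group
            _ = 1 := by rw [h]; group)
        (by
          calc g⁻¹ * x * g * (g⁻¹ * x * g) = g⁻¹ * (x * x) * g := by group
            _ = 1 := by rw [hx2]; group)
        (by
          intro h
          apply hxt
          calc x = g * (g⁻¹ * x * g) * g⁻¹ := by group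
            _ = g * t₀ * g⁻¹ := by rw [h])
        (by
          calc g⁻¹ * x * g * t₀ = g⁻¹ * (x * (g * t₀ * g⁻¹)) * g := by group
            _ = g⁻¹ * ((g * t₀ * g⁻¹) * x) * g := by rw [hcx]
            _ = t₀ * (g⁻¹ * x * g) := by group)
        (by
          intro h
          apply hy1
          calc y = g * (g⁻¹ * y * g) * g⁻¹ := by group
            _ = 1 := by rw [h]; group)
        (by
          calc g⁻¹ * y * g * (g⁻¹ * y * g) = g⁻¹ * (y * y) * g := by group
            _ = 1 := by rw [hy2]; group)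
        (by
          intro h
          apply hyt
          calc y = g * (g⁻¹ * y * g) * g⁻¹ := by group
            _ = g * t₀ * g⁻¹ := by rw [h])
        (by
          intro h
          apply hyx
          calc y = g * (g⁻¹ * y * g) * g⁻¹ := by group
            _ = g * (g⁻¹ * x * g) * g⁻¹ := by rw [h]
            _ = x := by group)
        (by
          calc g⁻¹ * y * g * t₀ = g⁻¹ * (y * (g * t₀ * g⁻¹)) * g := by group
            _ = g⁻¹ * ((g * t₀ * g⁻¹) * y) * g := by rw [hcy]
            _ = t₀ * (g⁻¹ * y * g) := by group)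
        (by
          calc g⁻¹ * x * g * (g⁻¹ * y * g) = g⁻¹ * (x * y) * g := by group
            _ = g⁻¹ * (y * x) * g := by rw [hcxy]
            _ = g⁻¹ * y * g * (g⁻¹ * x * g) := by group)
      rw [← hg]
      calc y = g * (g⁻¹ * y * g) * g⁻¹ := by group
        _ = g * (t₀ * (g⁻¹ * x * g)) * g⁻¹ := by rw [h]
        _ = g * t₀ * g⁻¹ * x := by group
    rw [Nat.card_eq_one_iff_unique]
    constructor
    · constructor
      rintro ⟨y, hy⟩ ⟨y', hy'⟩
      apply Subtype.ext
      change y = y'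
      rw [huniq y hy, huniq y' hy']
    · refine ⟨⟨t * x, ?_, ?_, ?_, ?_, ?_, ?_⟩⟩
      · intro h
        apply hxt
        calc x = t * (t * x) := by rw [← mul_assoc, ht2, one_mul]
          _ = t := by rw [h, mul_one]
      · calc t * x * (t * x) = t * (x * t) * x := by group
          _ = t * (t * x) * x := by rw [hcomm.eq]
          _ = (t * t) * (x * x) := by group
          _ = 1 := by rw [ht2, hx2, one_mul]
      · intro h
        apply hx1
        calc x = t * (t * x) := by rw [← mul_assoc, ht2, one_mul]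
          _ = 1 := by rw [h, ht2]
      · intro h
        apply ht
        calc t = t * x * x := by rw [mul_assoc, hx2, mul_one]
          _ = 1 := by rw [h, hx2]
      · change t * (t * x) = t * x * t
        rw [mul_assoc t x t, ← hcomm.eq]
      · change x * (t * x) = t * x * x
        rw [← mul_assoc, ← hcomm.eq]

end Cfsg.Agent.S2360
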