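import Mathlib
import Cfsg.Statements.S2450

set_option autoImplicit false
open Cfsg

namespace Cfsg.Agent.S2450

open Matrix Polynomial

/-- trace of the underlying matrix -/
def tr {F : Type*} [Field F] (A : Matrix.SpecialLinearGroup (Fin 2) F) : F :=
  Matrix.trace (A : Matrix (Fin 2) (Fin 2) F)

lemma tr_conj {F : Type*} [Field F] (P A : Matrix.SpecialLinearGroup (Fin 2) F) :
    tr (P * A * P⁻¹) = tr A := by
  unfold tr
  rw [Matrix.SpecialLinearGroup.coe_mul, Matrix.trace_mul_comm, ← Matrix.SpecialLinearGroup.coe_mul,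
    inv_mul_cancel_left]

lemma tr_mul_center_sq {F : Type*} [Field F] (A z : Matrix.SpecialLinearGroup (Fin 2) F)
    (hz : z ∈ Subgroup.center (Matrix.SpecialLinearGroup (Fin 2) F)) :
    tr (A * z) ^ 2 = tr A ^ 2 := by
  rw [Matrix.SpecialLinearGroup.mem_center_iff] at hz
  obtain ⟨r, hr, hrz⟩ := hz
  have hr2 : r ^ 2 = 1 := by simpa using hr
  unfold tr
  rw [Matrix.SpecialLinearGroup.coe_mul, ← hrz]
  have : (A : Matrix (Fin 2) (Fin 2) F) * (Matrix.scalar (Fin 2)) r = r • (A : Matrix (Fin 2) (Fin 2) F) := by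
    ext i j
    simp [Matrix.mul_apply, Matrix.scalar_apply, Matrix.diagonal_apply, mul_comm]
  rw [this, Matrix.trace_smul, smul_eq_mul, mul_pow, hr2, one_mul]

lemma tr_sq_eq_of_mk_eq {F : Type*} [Field F] (X Y : Matrix.SpecialLinearGroup (Fin 2) F)
    (h : (QuotientGroup.mk X : Matrix.ProjectiveSpecialLinearGroup (Fin 2) F) = QuotientGroup.mk Y) :
    tr X ^ 2 = tr Y ^ 2 := by
  have h1 : X⁻¹ * Y ∈ Subgroup.center (Matrix.SpecialLinearGroup (Fin 2) F) := QuotientGroup.eq.mp h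
  have h2 := tr_mul_center_sq X _ h1
  rw [mul_inv_cancel_left] at h2
  exact h2.symm

lemma conj_apply_10 {F : Type*} [Field F] (P A : Matrix.SpecialLinearGroup (Fin 2) F) :
    ((P * A * P⁻¹ : Matrix.SpecialLinearGroup (Fin 2) F) : Matrix (Fin 2) (Fin 2) F) 1 0 =
      ((P : Matrix (Fin 2) (Fin 2) F) 1 0 * (A : Matrix (Fin 2) (Fin 2) F) 0 0 + (P : Matrix (Fin 2) (Fin 2) F) 1 1 * (A : Matrix (Fin 2) (Fin 2) F) 1 0) * (P : Matrix (Fin 2) (Fin 2) F) 1 1
      - ((P : Matrix (Fin 2) (Fin 2) F) 1 0 * (A : Matrix (Fin 2) (Fin 2) F) 0 1 + (P : Matrix (Fin 2) (Fin 2) F) 1 1 * (A : Matrix (Fin 2) (Fin 2) F) 1 1) * (P : Matrix (Fin 2) (Fin 2) F) 1 0 := by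
  simp only [Matrix.SpecialLinearGroup.coe_mul, Matrix.SpecialLinearGroup.coe_inv,
          Matrix.adjugate_fin_two, Matrix.mul_apply, Fin.sum_univ_two]
  simp
  ring

/-- lower unitriangular -/
def lowerU {F : Type*} [Field F] (x : F) : Matrix.SpecialLinearGroup (Fin 2) F :=
  ⟨!![1, 0; x, 1], by simp [Matrix.det_fin_two]⟩
/-- upper unitriangular -/
def upperU {F : Type*} [Field F] (x : F) : Matrix.SpecialLinearGroup (Fin 2) F :=
  ⟨!![1, x; 0, 1], by simp [Matrix.det_fin_two]⟩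
/-- Weyl element -/
def weyl {F : Type*} [Field F] : Matrix.SpecialLinearGroup (Fin 2) F :=
  ⟨!![0, 1; -1, 0], by simp [Matrix.det_fin_two]⟩

lemma exists_conj_ne_zero {F : Type*} [Field F] (A : Matrix.SpecialLinearGroup (Fin 2) F)
    (hA : A ∉ Subgroup.center (Matrix.SpecialLinearGroup (Fin 2) F)) :
    ∃ P : Matrix.SpecialLinearGroup (Fin 2) F,
      ((P * A * P⁻¹ : Matrix.SpecialLinearGroup (Fin 2) F) : Matrix (Fin 2) (Fin 2) F) 1 0 ≠ 0 := by
  by_cases h10 : (A : Matrix (Fin 2) (Fin 2) F) 1 0 = 0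
  · by_cases h01 : (A : Matrix (Fin 2) (Fin 2) F) 0 1 = 0
    · by_cases hd : (A : Matrix (Fin 2) (Fin 2) F) 0 0 = (A : Matrix (Fin 2) (Fin 2) F) 1 1
      · exfalso
        apply hA
        rw [Matrix.SpecialLinearGroup.mem_center_iff]
        refine ⟨(A : Matrix (Fin 2) (Fin 2) F) 0 0, ?_, ?_⟩
        · have hdet := A.det_coe
          rw [Matrix.det_fin_two, h10, h01, ← hd] at hdet
          simp only [Fintype.card_fin]
          linear_combination hdet
        · ext i j
          fin_cases i <;> fin_cases j <;> simp [Matrix.scalar_apply, h10, h01, hd]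
      · refine ⟨lowerU 1, ?_⟩
        rw [conj_apply_10]
        simp [lowerU, h10, h01]
        intro h
        apply hd
        linear_combination h
    · refine ⟨weyl, ?_⟩
      rw [conj_apply_10]
      simp [weyl, h10, h01]
  · exact ⟨1, by simpa using h10⟩

lemma exists_sq_ne {F : Type*} [Field F] [Fintype F] (t0 β γ : F) (hγ : γ ≠ 0)
    (h4 : 4 ≤ Fintype.card F) :
    ∃ x y : F, (t0 + β * x - γ * x ^ 2) ^ 2 ≠ (t0 + β * y - γ * y ^ 2) ^ 2 := by
  by_contra h
  push Not at h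
  have h0 : ∀ x : F, (β * x - γ * x ^ 2) * (2 * t0 + β * x - γ * x ^ 2) = 0 := by
    intro x
    have := h x 0
    simp at this
    linear_combination this
  set q1 : F[X] := C β * X - C γ * X ^ 2 with hq1
  set q2 : F[X] := C (2 * t0) + C β * X - C γ * X ^ 2 with hq2
  have hc1 : q1.coeff 2 = -γ := by
    simp [hq1]
  have hc2 : q2.coeff 2 = -γ := by
    simp [hq2]
  have hd1 : q1.natDegree ≤ 2 := by
    rw [hq1]
    compute_degree
  have hd2 : q2.natDegree ≤ 2 := by
    rw [hq2]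
    compute_degree
  have hq1ne : q1 ≠ 0 := by
    intro h'
    rw [h'] at hc1
    simp at hc1
    exact hγ hc1
  have hq2ne : q2 ≠ 0 := by
    intro h'
    rw [h'] at hc2
    simp at hc2
    exact hγ hc2
  by_cases h2 : (2 : F) = 0
  · -- characteristic 2
    have h0' : ∀ x : F, q1.eval x = 0 := by
      intro x
      have := h0 x
      rw [h2, zero_mul, zero_add] at this
      have h3 : (β * x - γ * x ^ 2) = 0 := mul_self_eq_zero.mp this
      simp [hq1, h3]
    apply hq1ne
    apply Polynomial.eq_zero_of_natDegree_lt_card_of_eval_eq_zero' q1 (Finset.univ : Finset F)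
    · intro x _
      exact h0' x
    · rw [Finset.card_univ]
      omega
  · have h5 : 5 ≤ Fintype.card F := by
      rcases Nat.lt_or_ge 4 (Fintype.card F) with h | h
      · exact h
      · exfalso
        have h44 : Fintype.card F = 4 := le_antisymm h h4
        have := Nat.cast_card_eq_zero F
        rw [h44] at this
        apply h2
        have h22 : (2 : F) * 2 = 0 := by
          norm_num
          exact_mod_cast this
        exact mul_self_eq_zero.mp h22
    have hprod : q1 * q2 = 0 := by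
      apply Polynomial.eq_zero_of_natDegree_lt_card_of_eval_eq_zero' (q1 * q2) (Finset.univ : Finset F)
      · intro x _
        have := h0 x
        simp only [hq1, hq2, Polynomial.eval_mul, Polynomial.eval_sub, Polynomial.eval_add,
          Polynomial.eval_C, Polynomial.eval_X, Polynomial.eval_pow]
        exact this
      · rw [Finset.card_univ]
        have := Polynomial.natDegree_mul_le (p := q1) (q := q2)
        omega
    rcases mul_eq_zero.mp hprod with h | h
    · exact hq1ne h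
    · exact hq2ne h

theorem result {F : Type*} [Field F] [Fintype F] (h4 : 4 ≤ Fintype.card F)
    (a b : Matrix.ProjectiveSpecialLinearGroup (Fin 2) F) (ha : a ≠ 1) (hb : b ≠ 1) (c : Matrix.ProjectiveSpecialLinearGroup (Fin 2) F) :
    {g : Matrix.ProjectiveSpecialLinearGroup (Fin 2) F | ∃ u v : Matrix.ProjectiveSpecialLinearGroup (Fin 2) F, g = (u * a * u⁻¹) * (v * b * v⁻¹)} ≠ {g | IsConj c g} := by
  intro heq
  obtain ⟨A, rfl⟩ := QuotientGroup.mk_surjective a
  obtain ⟨B, rfl⟩ := QuotientGroup.mk_surjective b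
  obtain ⟨C, rfl⟩ := QuotientGroup.mk_surjective c
  have hA : A ∉ Subgroup.center (Matrix.SpecialLinearGroup (Fin 2) F) := by
    intro h
    exact ha ((QuotientGroup.eq_one_iff A).mpr h)
  have hB : B ∉ Subgroup.center (Matrix.SpecialLinearGroup (Fin 2) F) := by
    intro h
    exact hb ((QuotientGroup.eq_one_iff B).mpr h)
  obtain ⟨P, hP⟩ := exists_conj_ne_zero A hA
  obtain ⟨Q, hQ⟩ := exists_conj_ne_zero B hB
  set A' := P * A * P⁻¹ with hA'
  set B' := Q * B * Q⁻¹ with hB'
  have htr : ∀ x : F, tr (A' * (upperU x * B' * (upperU x)⁻¹)) = tr (A' * B') +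
      (((A' : Matrix (Fin 2) (Fin 2) F) 0 0 - (A' : Matrix (Fin 2) (Fin 2) F) 1 1) * (B' : Matrix (Fin 2) (Fin 2) F) 1 0
        + (A' : Matrix (Fin 2) (Fin 2) F) 1 0 * ((B' : Matrix (Fin 2) (Fin 2) F) 1 1 - (B' : Matrix (Fin 2) (Fin 2) F) 0 0)) * x
      - ((A' : Matrix (Fin 2) (Fin 2) F) 1 0 * (B' : Matrix (Fin 2) (Fin 2) F) 1 0) * x ^ 2 := by
    intro x
    simp only [tr, Matrix.SpecialLinearGroup.coe_mul, Matrix.SpecialLinearGroup.coe_inv,
      Matrix.adjugate_fin_two, Matrix.mul_apply, Fin.sum_univ_two, Matrix.trace_fin_two]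
    simp [upperU]
    ring
  obtain ⟨x, y, hxy⟩ := exists_sq_ne (tr (A' * B'))
    (((A' : Matrix (Fin 2) (Fin 2) F) 0 0 - (A' : Matrix (Fin 2) (Fin 2) F) 1 1) * (B' : Matrix (Fin 2) (Fin 2) F) 1 0
        + (A' : Matrix (Fin 2) (Fin 2) F) 1 0 * ((B' : Matrix (Fin 2) (Fin 2) F) 1 1 - (B' : Matrix (Fin 2) (Fin 2) F) 0 0))
    ((A' : Matrix (Fin 2) (Fin 2) F) 1 0 * (B' : Matrix (Fin 2) (Fin 2) F) 1 0) (mul_ne_zero hP hQ) h4
  rw [← htr x, ← htr y] at hxy
  have key : ∀ z : F, tr (A' * (upperU z * B' * (upperU z)⁻¹)) ^ 2 = tr C ^ 2 := by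
    intro z
    have hmem : (QuotientGroup.mk (A' * (upperU z * B' * (upperU z)⁻¹)) : Matrix.ProjectiveSpecialLinearGroup (Fin 2) F) ∈
        {g : Matrix.ProjectiveSpecialLinearGroup (Fin 2) F | ∃ u v : Matrix.ProjectiveSpecialLinearGroup (Fin 2) F,
          g = (u * (QuotientGroup.mk A) * u⁻¹) * (v * (QuotientGroup.mk B) * v⁻¹)} := by
      refine ⟨QuotientGroup.mk P, QuotientGroup.mk (upperU z * Q), ?_⟩
      simp only [hA', hB', ← QuotientGroup.mk_mul, ← QuotientGroup.mk_inv]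
      congr 1
      group
    rw [heq] at hmem
    obtain ⟨h, hh⟩ := isConj_iff.mp hmem
    obtain ⟨H, rfl⟩ := QuotientGroup.mk_surjective h
    rw [← QuotientGroup.mk_inv, ← QuotientGroup.mk_mul, ← QuotientGroup.mk_mul] at hh
    have := tr_sq_eq_of_mk_eq _ _ hh
    rw [tr_conj] at this
    exact this.symm
  exact hxy ((key x).trans (key y).symm)

end Cfsg.Agent.S2450
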