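import Mathlib
import Cfsg.Statements.S2455

set_option autoImplicit false
open Cfsg

namespace Cfsg.Agent.S2455

open Matrix Polynomial

/-- trace of the underlying matrix -/
def tr {F : Type*} [Field F] (A : Matrix.SpecialLinearGroup (Fin 2) F) : F :=
  Matrix.trace (A : Matrix (Fin 2) (Fin 2) F)

lemma tr_eq {F : Type*} [Field F] (A : Matrix.SpecialLinearGroup (Fin 2) F) :
    tr A = (A : Matrix (Fin 2) (Fin 2) F) 0 0 + (A : Matrix (Fin 2) (Fin 2) F) 1 1 :=
  Matrix.trace_fin_two _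

lemma det_eq {F : Type*} [Field F] (A : Matrix.SpecialLinearGroup (Fin 2) F) :
    (A : Matrix (Fin 2) (Fin 2) F) 0 0 * (A : Matrix (Fin 2) (Fin 2) F) 1 1
      - (A : Matrix (Fin 2) (Fin 2) F) 0 1 * (A : Matrix (Fin 2) (Fin 2) F) 1 0 = 1 := by
  have := A.det_coe
  rwa [Matrix.det_fin_two] at this

lemma tr_conj {F : Type*} [Field F] (P A : Matrix.SpecialLinearGroup (Fin 2) F) :
    tr (P * A * P⁻¹) = tr A := by
  unfold tr
  rw [Matrix.SpecialLinearGroup.coe_mul, Matrix.trace_mul_comm, ← Matrix.SpecialLinearGroup.coe_mul,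
    inv_mul_cancel_left]

lemma conj_apply_10 {F : Type*} [Field F] (P A : Matrix.SpecialLinearGroup (Fin 2) F) :
    ((P * A * P⁻¹ : Matrix.SpecialLinearGroup (Fin 2) F) : Matrix (Fin 2) (Fin 2) F) 1 0 =
      ((P : Matrix (Fin 2) (Fin 2) F) 1 0 * (A : Matrix (Fin 2) (Fin 2) F) 0 0 + (P : Matrix (Fin 2) (Fin 2) F) 1 1 * (A : Matrix (Fin 2) (Fin 2) F) 1 0) * (P : Matrix (Fin 2) (Fin 2) F) 1 1
      - ((P : Matrix (Fin 2) (Fin 2) F) 1 0 * (A : Matrix (Fin 2) (Fin 2) F) 0 1 + (P : Matrix (Fin 2) (Fin 2) F) 1 1 * (A : Matrix (Fin 2) (Fin 2) F) 1 1) * (P : Matrix (Fin 2) (Fin 2) F) 1 0 := by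
  simp only [Matrix.SpecialLinearGroup.coe_mul, Matrix.SpecialLinearGroup.coe_inv,
          Matrix.adjugate_fin_two, Matrix.mul_apply, Fin.sum_univ_two]
  simp
  ring

lemma conj_apply_00 {F : Type*} [Field F] (P A : Matrix.SpecialLinearGroup (Fin 2) F) :
    ((P * A * P⁻¹ : Matrix.SpecialLinearGroup (Fin 2) F) : Matrix (Fin 2) (Fin 2) F) 0 0 =
      ((P : Matrix (Fin 2) (Fin 2) F) 0 0 * (A : Matrix (Fin 2) (Fin 2) F) 0 0 + (P : Matrix (Fin 2) (Fin 2) F) 0 1 * (A : Matrix (Fin 2) (Fin 2) F) 1 0) * (P : Matrix (Fin 2) (Fin 2) F) 1 1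
      - ((P : Matrix (Fin 2) (Fin 2) F) 0 0 * (A : Matrix (Fin 2) (Fin 2) F) 0 1 + (P : Matrix (Fin 2) (Fin 2) F) 0 1 * (A : Matrix (Fin 2) (Fin 2) F) 1 1) * (P : Matrix (Fin 2) (Fin 2) F) 1 0 := by
  simp only [Matrix.SpecialLinearGroup.coe_mul, Matrix.SpecialLinearGroup.coe_inv,
          Matrix.adjugate_fin_two, Matrix.mul_apply, Fin.sum_univ_two]
  simp
  ring

/-- lower unitriangular -/
def lowerU {F : Type*} [Field F] (x : F) : Matrix.SpecialLinearGroup (Fin 2) F :=
  ⟨!![1, 0; x, 1], by simp [Matrix.det_fin_two]⟩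
/-- upper unitriangular -/
def upperU {F : Type*} [Field F] (x : F) : Matrix.SpecialLinearGroup (Fin 2) F :=
  ⟨!![1, x; 0, 1], by simp [Matrix.det_fin_two]⟩
/-- Weyl element -/
def weyl {F : Type*} [Field F] : Matrix.SpecialLinearGroup (Fin 2) F :=
  ⟨!![0, 1; -1, 0], by simp [Matrix.det_fin_two]⟩
/-- minus identity -/
def negOne {F : Type*} [Field F] : Matrix.SpecialLinearGroup (Fin 2) F :=
  ⟨!![-1, 0; 0, -1], by simp [Matrix.det_fin_two]⟩
/-- companion matrix of `X^2 - s X + 1` -/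
def comp {F : Type*} [Field F] (s : F) : Matrix.SpecialLinearGroup (Fin 2) F :=
  ⟨!![0, -1; 1, s], by simp [Matrix.det_fin_two]⟩

lemma negOne_mem_center {F : Type*} [Field F] :
    (negOne : Matrix.SpecialLinearGroup (Fin 2) F) ∈ Subgroup.center (Matrix.SpecialLinearGroup (Fin 2) F) := by
  rw [Matrix.SpecialLinearGroup.mem_center_iff]
  refine ⟨-1, by simp, ?_⟩
  ext i j
  fin_cases i <;> fin_cases j <;> simp [negOne, Matrix.scalar_apply]

lemma mk_negOne_mul {F : Type*} [Field F] (Z : Matrix.SpecialLinearGroup (Fin 2) F) :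
    (QuotientGroup.mk (negOne * Z) : Matrix.ProjectiveSpecialLinearGroup (Fin 2) F) = QuotientGroup.mk Z := by
  rw [QuotientGroup.mk_mul, (QuotientGroup.eq_one_iff _).mpr negOne_mem_center, one_mul]

lemma tr_negOne_mul {F : Type*} [Field F] (Z : Matrix.SpecialLinearGroup (Fin 2) F) :
    tr (negOne * Z) = - tr Z := by
  simp only [tr_eq, Matrix.SpecialLinearGroup.coe_mul, Matrix.mul_apply, Fin.sum_univ_two]
  simp [negOne]
  ring

lemma tr_sq_of_mem_center {F : Type*} [Field F] (A : Matrix.SpecialLinearGroup (Fin 2) F)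
    (hA : A ∈ Subgroup.center (Matrix.SpecialLinearGroup (Fin 2) F)) : tr A ^ 2 = 4 := by
  rw [Matrix.SpecialLinearGroup.mem_center_iff] at hA
  obtain ⟨r, hr, hrA⟩ := hA
  have hr2 : r ^ 2 = 1 := by simpa using hr
  rw [tr_eq, ← hrA]
  simp [Matrix.scalar_apply]
  linear_combination 4 * hr2

lemma exists_conj_ne_zero {F : Type*} [Field F] (A : Matrix.SpecialLinearGroup (Fin 2) F)
    (hA : A ∉ Subgroup.center (Matrix.SpecialLinearGroup (Fin 2) F)) :
    ∃ P : Matrix.SpecialLinearGroup (Fin 2) F,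
      ((P * A * P⁻¹ : Matrix.SpecialLinearGroup (Fin 2) F) : Matrix (Fin 2) (Fin 2) F) 1 0 ≠ 0 := by
  by_cases h10 : (A : Matrix (Fin 2) (Fin 2) F) 1 0 = 0
  · by_cases h01 : (A : Matrix (Fin 2) (Fin 2) F) 0 1 = 0
    · by_cases hd : (A : Matrix (Fin 2) (Fin 2) F) 0 0 = (A : Matrix (Fin 2) (Fin 2) F) 1 1
      · exfalso
        apply hA
        rw [Matrix.SpecialLinearGroup.mem_center_iff]
        refine ⟨(A : Matrix (Fin 2) (Fin 2) F) 0 0, ?_, ?_⟩
        · have hdet := A.det_coe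
          rw [Matrix.det_fin_two, h10, h01, ← hd] at hdet
          simp only [Fintype.card_fin]
          linear_combination hdet
        · ext i j
          fin_cases i <;> fin_cases j <;> simp [Matrix.scalar_apply, h10, h01, hd]
      · refine ⟨lowerU 1, ?_⟩
        rw [conj_apply_10]
        simp [lowerU, h10, h01]
        intro h
        apply hd
        linear_combination h
    · refine ⟨weyl, ?_⟩
      rw [conj_apply_10]
      simp [weyl, h10, h01]
  · exact ⟨1, by simpa using h10⟩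

lemma exists_conj_normal {F : Type*} [Field F] (A : Matrix.SpecialLinearGroup (Fin 2) F)
    (hA : A ∉ Subgroup.center (Matrix.SpecialLinearGroup (Fin 2) F)) :
    ∃ P : Matrix.SpecialLinearGroup (Fin 2) F,
      ((P * A * P⁻¹ : Matrix.SpecialLinearGroup (Fin 2) F) : Matrix (Fin 2) (Fin 2) F) 1 0 ≠ 0 ∧
      ((P * A * P⁻¹ : Matrix.SpecialLinearGroup (Fin 2) F) : Matrix (Fin 2) (Fin 2) F) 0 0 = 0 := by
  obtain ⟨P, hP⟩ := exists_conj_ne_zero A hA
  set A1 := P * A * P⁻¹ with hA1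
  set x : F := -((A1 : Matrix (Fin 2) (Fin 2) F) 0 0) / (A1 : Matrix (Fin 2) (Fin 2) F) 1 0 with hx
  have e : upperU x * P * A * (upperU x * P)⁻¹ = upperU x * A1 * (upperU x)⁻¹ := by
    rw [hA1]; group
  refine ⟨upperU x * P, ?_, ?_⟩
  · rw [e, conj_apply_10]
    simpa [upperU] using hP
  · rw [e, conj_apply_00]
    simp [upperU]
    rw [hx]
    field_simp
    ring

lemma exists_conj_eq_comp {F : Type*} [Field F] [Fintype F] (hodd : Fintype.card F % 2 = 1)
    (A : Matrix.SpecialLinearGroup (Fin 2) F) (hs : tr A ^ 2 ≠ 4) :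
    ∃ P : Matrix.SpecialLinearGroup (Fin 2) F, P * A * P⁻¹ = comp (tr A) := by
  have h2 : (2 : F) ≠ 0 := by
    apply Ring.two_ne_zero
    intro h
    have := FiniteField.even_card_iff_char_two.mp h
    omega
  have h4 : (4 : F) ≠ 0 := by
    have : (4 : F) = 2 * 2 := by norm_num
    rw [this]; exact mul_ne_zero h2 h2
  have hA : A ∉ Subgroup.center (Matrix.SpecialLinearGroup (Fin 2) F) := fun h => hs (tr_sq_of_mem_center A h)
  obtain ⟨P0, hP0⟩ := exists_conj_ne_zero A hA
  set A1 := P0 * A * P0⁻¹ with hA1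
  have htr : tr A1 = tr A := tr_conj P0 A
  set a := (A1 : Matrix (Fin 2) (Fin 2) F) 0 0 with ha
  set b := (A1 : Matrix (Fin 2) (Fin 2) F) 0 1 with hb
  set c := (A1 : Matrix (Fin 2) (Fin 2) F) 1 0 with hc
  set d := (A1 : Matrix (Fin 2) (Fin 2) F) 1 1 with hd
  have hdet : a * d - b * c = 1 := det_eq A1
  have hsad : tr A = a + d := by rw [← htr, tr_eq]
  have hD : (a - d) ^ 2 + 4 * b * c ≠ 0 := by
    intro h
    apply hs
    rw [hsad]
    linear_combination h + 4 * hdet
  -- find (u, w) with c w^2 - (D/(4c)) u^2 = 1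
  obtain ⟨w, u, hwu⟩ := FiniteField.exists_root_sum_quadratic
    (f := C c * X ^ 2 - C 1) (g := C (-((a - d) ^ 2 + 4 * b * c) / (4 * c)) * X ^ 2)
    (by
      rw [Polynomial.degree_sub_C (by rw [Polynomial.degree_C_mul_X_pow 2 hP0]; norm_num)]
      exact Polynomial.degree_C_mul_X_pow 2 hP0)
    (by
      apply Polynomial.degree_C_mul_X_pow 2
      exact div_ne_zero (neg_ne_zero.mpr hD) (mul_ne_zero h4 hP0))
    hodd
  simp only [Polynomial.eval_sub, Polynomial.eval_mul, Polynomial.eval_C, Polynomial.eval_pow,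
    Polynomial.eval_X] at hwu
  obtain ⟨v, hv⟩ : ∃ v : F, v = w - (a - d) * u / (2 * c) := ⟨_, rfl⟩
  have hform : -b * u ^ 2 + (a - d) * u * v + c * v ^ 2 = 1 := by
    have e : -b * u ^ 2 + (a - d) * u * v + c * v ^ 2 - 1
        = c * w ^ 2 - 1 + -((a - d) ^ 2 + 4 * b * c) / (4 * c) * u ^ 2 := by
      rw [hv]
      field_simp
      ring
    rw [hwu] at e
    linear_combination e
  let P1 : Matrix.SpecialLinearGroup (Fin 2) F :=
    ⟨!![u, v; -(u * a + v * c), -(u * b + v * d)], by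
      rw [Matrix.det_fin_two]
      simp
      linear_combination hform⟩
  have hcomm : P1 * A1 = comp (tr A) * P1 := by
    ext i j
    fin_cases i <;> fin_cases j
    · simp only [Matrix.SpecialLinearGroup.coe_mul, Matrix.mul_apply, Fin.sum_univ_two]
      simp [P1, comp, ← ha, ← hc]
    · simp only [Matrix.SpecialLinearGroup.coe_mul, Matrix.mul_apply, Fin.sum_univ_two]
      simp [P1, comp, ← hb, ← hd]
    · simp only [Matrix.SpecialLinearGroup.coe_mul, Matrix.mul_apply, Fin.sum_univ_two]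
      simp [P1, comp, ← ha, ← hc, ← hb, ← hd, hsad]
      linear_combination u * hdet
    · simp only [Matrix.SpecialLinearGroup.coe_mul, Matrix.mul_apply, Fin.sum_univ_two]
      simp [P1, comp, ← ha, ← hc, ← hb, ← hd, hsad]
      linear_combination v * hdet
  refine ⟨P1 * P0, ?_⟩
  have : P1 * P0 * A * (P1 * P0)⁻¹ = P1 * A1 * P1⁻¹ := by rw [hA1]; group
  rw [this, hcomm, mul_inv_cancel_right]

lemma exists_conic {F : Type*} [Field F] [Fintype F] (hodd : Fintype.card F % 2 = 1) (s t : F)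
    (hs : s ≠ 0) :
    ∃ ε α m : F, (ε = 1 ∨ ε = -1) ∧ α ^ 2 + t * α * m + m ^ 2 - s * α - ε * s * m + 1 = 0 := by
  have h2 : (2 : F) ≠ 0 := by
    apply Ring.two_ne_zero
    intro h
    have := FiniteField.even_card_iff_char_two.mp h
    omega
  have h4 : (4 : F) ≠ 0 := by
    have : (4 : F) = 2 * 2 := by norm_num
    rw [this]; exact mul_ne_zero h2 h2
  by_cases ht : t ^ 2 = 4
  · have ht0 : t ≠ 0 := by
      intro h
      rw [h] at ht
      simp at ht
      exact h4 ht.symm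
    refine ⟨-t / 2, 1 / (2 * s), -1 / (s * t), ?_, ?_⟩
    · have : (t - 2) * (t + 2) = 0 := by linear_combination ht
      rcases mul_eq_zero.mp this with h | h
      · right
        have : t = 2 := by linear_combination h
        rw [this]; field_simp
      · left
        have : t = -2 := by linear_combination h
        rw [this]; field_simp
    · field_simp
      linear_combination (-1 : F) * ht
  · obtain ⟨β, m, hβm⟩ := FiniteField.exists_root_sum_quadratic
      (f := X ^ 2 - C s * X + C 1) (g := C (1 - t ^ 2 / 4) * X ^ 2 + C (s * (t / 2 - 1)) * X)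
      (by
        compute_degree!)
      (by
        have : (1 - t ^ 2 / 4) ≠ 0 := by
          intro h
          apply ht
          field_simp at h
          linear_combination -h
        compute_degree!)
      hodd
    simp only [Polynomial.eval_sub, Polynomial.eval_add, Polynomial.eval_mul, Polynomial.eval_C, Polynomial.eval_pow,
      Polynomial.eval_X] at hβm
    refine ⟨1, β - t * m / 2, m, Or.inl rfl, ?_⟩
    rw [← hβm]
    field_simp
    ring

lemma sq_eq {F : Type*} [Field F] (X : Matrix.SpecialLinearGroup (Fin 2) F) :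
    (X : Matrix (Fin 2) (Fin 2) F) * (X : Matrix (Fin 2) (Fin 2) F)
      = tr X • (X : Matrix (Fin 2) (Fin 2) F) - 1 := by
  have hdet := det_eq X
  ext i j
  fin_cases i <;> fin_cases j
  · simp [Matrix.mul_apply, Fin.sum_univ_two, tr_eq]
    linear_combination (-1 : F) * hdet
  · simp [Matrix.mul_apply, Fin.sum_univ_two, tr_eq]
    ring
  · simp [Matrix.mul_apply, Fin.sum_univ_two, tr_eq]
    ring
  · simp [Matrix.mul_apply, Fin.sum_univ_two, tr_eq]
    linear_combination (-1 : F) * hdet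

lemma sq_eq_one_of_tr_zero {F : Type*} [Field F] (X : Matrix.SpecialLinearGroup (Fin 2) F)
    (h : tr X = 0) :
    (QuotientGroup.mk X : Matrix.ProjectiveSpecialLinearGroup (Fin 2) F) ^ 2 = 1 := by
  have e : X * X = negOne := by
    apply Subtype.ext
    rw [Matrix.SpecialLinearGroup.coe_mul, sq_eq, h, zero_smul, zero_sub]
    ext i j
    fin_cases i <;> fin_cases j <;> simp [negOne]
  rw [pow_two, ← QuotientGroup.mk_mul, e]
  exact (QuotientGroup.eq_one_iff _).mpr negOne_mem_center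

lemma pow_char_eq_one_of_tr_sq {F : Type*} [Field F] (p : ℕ) [Fact p.Prime] [CharP F p]
    (hp : p ≠ 2) (X : Matrix.SpecialLinearGroup (Fin 2) F) (h : tr X ^ 2 = 4) :
    (QuotientGroup.mk X : Matrix.ProjectiveSpecialLinearGroup (Fin 2) F) ^ p = 1 := by
  have h2 : (2 : F) ≠ 0 := by
    apply Ring.two_ne_zero
    rw [ringChar.eq F p]
    exact hp
  set ε : F := tr X / 2 with hε
  have hε2 : ε ^ 2 = 1 := by
    rw [hε]; field_simp; linear_combination h
  have hs : tr X = 2 * ε := by rw [hε]; field_simp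
  set M : Matrix (Fin 2) (Fin 2) F := (X : Matrix (Fin 2) (Fin 2) F) with hM
  set N : Matrix (Fin 2) (Fin 2) F := M - ε • (1 : Matrix (Fin 2) (Fin 2) F) with hN
  have hNN : N ^ 2 = 0 := by
    rw [pow_two, hN, sub_mul, mul_sub, mul_sub, sq_eq, hs]
    simp only [Matrix.smul_mul, Matrix.mul_smul, Matrix.one_mul, Matrix.mul_one, smul_smul]
    have : ε * ε = 1 := by rw [← pow_two]; exact hε2
    rw [this, one_smul, two_mul, add_smul]
    abel
  have hMeq : M = ε • (1 : Matrix (Fin 2) (Fin 2) F) + N := by rw [hN]; abel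
  have hcomm : Commute (ε • (1 : Matrix (Fin 2) (Fin 2) F)) N :=
    Commute.smul_left (Commute.one_left N) ε
  have hp2 : 2 ≤ p := (Fact.out : p.Prime).two_le
  have hMp : M ^ p = (ε ^ p) • (1 : Matrix (Fin 2) (Fin 2) F) := by
    rw [hMeq, add_pow_char_of_commute p hcomm, pow_eq_zero_of_le hp2 hNN, add_zero, _root_.smul_pow, one_pow]
  rw [← QuotientGroup.mk_pow]
  apply (QuotientGroup.eq_one_iff _).mpr
  rw [Matrix.SpecialLinearGroup.mem_center_iff]
  refine ⟨ε ^ p, ?_, ?_⟩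
  · simp only [Fintype.card_fin]
    rw [← pow_mul, mul_comm, pow_mul, hε2, one_pow]
  · rw [Matrix.SpecialLinearGroup.coe_pow, ← hM, hMp, Matrix.scalar_apply, Matrix.smul_one_eq_diagonal]

theorem result {F : Type*} [Field F] [Fintype F] (p : ℕ) [Fact p.Prime] [CharP F p] (hp : p ≠ 2) (h5 : 5 ≤ Fintype.card F)
    (x : Matrix.ProjectiveSpecialLinearGroup (Fin 2) F) (hx2 : 2 < orderOf x) (hxp : ¬ p ∣ orderOf x) : ∀ g : Matrix.ProjectiveSpecialLinearGroup (Fin 2) F, g ≠ 1 → ∃ u v : Matrix.ProjectiveSpecialLinearGroup (Fin 2) F, g = (u * x * u⁻¹) * (v * x * v⁻¹) := by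
  intro g hg
  obtain ⟨X, rfl⟩ := QuotientGroup.mk_surjective x
  obtain ⟨G, rfl⟩ := QuotientGroup.mk_surjective g
  have hodd : Fintype.card F % 2 = 1 := by
    apply FiniteField.odd_card_of_char_ne_two
    rw [ringChar.eq F p]
    exact hp
  have hs0 : tr X ≠ 0 := by
    intro h
    have h1 := orderOf_dvd_of_pow_eq_one (sq_eq_one_of_tr_zero X h)
    have := Nat.le_of_dvd (by norm_num) h1
    omega
  have hs4 : tr X ^ 2 ≠ 4 := by
    intro h
    have h1 := orderOf_dvd_of_pow_eq_one (pow_char_eq_one_of_tr_sq p hp X h)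
    rcases (Nat.dvd_prime (Fact.out : p.Prime)).mp h1 with h2 | h2
    · omega
    · exact hxp (h2 ▸ dvd_rfl)
  have hG : G ∉ Subgroup.center (Matrix.SpecialLinearGroup (Fin 2) F) := by
    intro h
    exact hg ((QuotientGroup.eq_one_iff G).mpr h)
  obtain ⟨R, hR1, hR0⟩ := exists_conj_normal G hG
  set G' := R * G * R⁻¹ with hG'
  set s := tr X with hs
  set t := tr G' with ht
  set γ := (G' : Matrix (Fin 2) (Fin 2) F) 1 0 with hγ
  have ht' : (G' : Matrix (Fin 2) (Fin 2) F) 1 1 = t := by rw [ht, tr_eq, hR0, zero_add]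
  have hdetG := det_eq G'
  rw [hR0, zero_mul, zero_sub, ← hγ] at hdetG
  obtain ⟨ε, α, m, hε, hconic⟩ := exists_conic hodd s t hs0
  set n := m + t * α - ε * s with hn
  let Y : Matrix.SpecialLinearGroup (Fin 2) F :=
    ⟨!![α, n / γ; γ * m, s - α], by
      rw [Matrix.det_fin_two]
      simp
      field_simp
      rw [hn]
      linear_combination (-1 : F) * hconic⟩
  have hY : tr Y = s := by
    rw [tr_eq]; simp [Y]
  set Z := Y⁻¹ * G' with hZ
  have hZtr : tr Z = ε * s := by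
    rw [tr_eq, hZ]
    simp only [Matrix.SpecialLinearGroup.coe_mul, Matrix.SpecialLinearGroup.coe_inv,
      Matrix.adjugate_fin_two, Matrix.mul_apply, Fin.sum_univ_two]
    simp [Y, hR0, ht', ← hγ]
    field_simp
    rw [hn]
    linear_combination m * hdetG
  obtain ⟨PX, hPX⟩ := exists_conj_eq_comp hodd X hs4
  obtain ⟨PY, hPY⟩ := exists_conj_eq_comp hodd Y (by rw [hY]; exact hs4)
  rw [hY] at hPY
  have hYX : Y = (PY⁻¹ * PX) * X * (PY⁻¹ * PX)⁻¹ := by
    have : Y = PY⁻¹ * (PY * Y * PY⁻¹) * PY := by group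
    rw [this, hPY, ← hPX]; group
  have hZX : ∃ V : Matrix.SpecialLinearGroup (Fin 2) F,
      (QuotientGroup.mk Z : Matrix.ProjectiveSpecialLinearGroup (Fin 2) F) = QuotientGroup.mk (V * X * V⁻¹) := by
    rcases hε with h | h
    · obtain ⟨PZ, hPZ⟩ := exists_conj_eq_comp hodd Z (by rw [hZtr, h, one_mul]; exact hs4)
      rw [hZtr, h, one_mul] at hPZ
      refine ⟨PZ⁻¹ * PX, ?_⟩
      congr 1
      have : Z = PZ⁻¹ * (PZ * Z * PZ⁻¹) * PZ := by group
      rw [this, hPZ, ← hPX]; group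
    · have htW : tr (negOne * Z) = s := by rw [tr_negOne_mul, hZtr, h]; ring
      obtain ⟨PZ, hPZ⟩ := exists_conj_eq_comp hodd (negOne * Z) (by rw [htW]; exact hs4)
      rw [htW] at hPZ
      refine ⟨PZ⁻¹ * PX, ?_⟩
      rw [← mk_negOne_mul Z]
      congr 1
      have : negOne * Z = PZ⁻¹ * (PZ * (negOne * Z) * PZ⁻¹) * PZ := by group
      rw [this, hPZ, ← hPX]; group
  obtain ⟨V, hV⟩ := hZX
  have hGeq : G = R⁻¹ * (Y * Z) * R := by
    rw [hZ, hG']; group
  refine ⟨QuotientGroup.mk (R⁻¹ * (PY⁻¹ * PX)), QuotientGroup.mk (R⁻¹ * V), ?_⟩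
  have e1 : (QuotientGroup.mk G : Matrix.ProjectiveSpecialLinearGroup (Fin 2) F)
      = (QuotientGroup.mk R)⁻¹ * (QuotientGroup.mk Y * QuotientGroup.mk Z) * QuotientGroup.mk R := by
    conv_lhs => rw [hGeq]
    simp only [QuotientGroup.mk_mul, QuotientGroup.mk_inv]
  rw [e1, hV]
  conv_lhs => rw [hYX]
  simp only [QuotientGroup.mk_mul, QuotientGroup.mk_inv]
  group

end Cfsg.Agent.S2455
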