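import Cfsg.Statements.S2457
import Cfsg.Agent.Lib.Helper8.Sz40
import Cfsg.Agent.Lib.Helper27.SzBridge

set_option autoImplicit false
open Cfsg

namespace Cfsg.Agent.S2457

/-- A strong covering result in the direction of Thompson's conjecture (non-identity elements) for the Suzuki groups: let q = 2^(2m+1) ≥ 8, F the field with q elements and Sz(q) the Suzuki group over F. For every element x of Sz(q) of order greater than 2, every non-identity element of Sz(q) is a product of two conjugates of x. -/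
theorem result {F : Type*} [Field F] [Fintype F] (m : ℕ) (hm : 1 ≤ m) (hF : Fintype.card F = 2 ^ (2 * m + 1))
    (x : Cfsg.Lie.Sz F (2 ^ (m + 1))) (hx2 : 2 < orderOf x) : ∀ g : Cfsg.Lie.Sz F (2 ^ (m + 1)), g ≠ 1 → ∃ u v : Cfsg.Lie.Sz F (2 ^ (m + 1)), g = (u * x * u⁻¹) * (v * x * v⁻¹) := by
  intro g hg
  have hx' : 2 < orderOf ((Cfsg.Agent.Lib.Helper27.SzBridge.szEquiv hF hm).symm x) := by
    rw [MulEquiv.orderOf_eq]
    exact hx2
  have hg' : (Cfsg.Agent.Lib.Helper27.SzBridge.szEquiv hF hm).symm g ≠ 1 := by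
    intro h
    apply hg
    have h2 := congrArg (Cfsg.Agent.Lib.Helper27.SzBridge.szEquiv hF hm) h
    rwa [MulEquiv.apply_symm_apply, map_one] at h2
  obtain ⟨u, v, huv⟩ := Cfsg.Agent.Lib.Helper8.Sz.class_square hF hm _ _ hx' hg'
  refine ⟨Cfsg.Agent.Lib.Helper27.SzBridge.szEquiv hF hm u,
    Cfsg.Agent.Lib.Helper27.SzBridge.szEquiv hF hm v, ?_⟩
  have h2 := congrArg (Cfsg.Agent.Lib.Helper27.SzBridge.szEquiv hF hm) huv
  rw [MulEquiv.apply_symm_apply, map_mul, map_mul, map_mul, map_mul, map_mul, map_inv, map_inv,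
    MulEquiv.apply_symm_apply] at h2
  exact h2

end Cfsg.Agent.S2457
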