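import Cfsg.Statements.S2459
import Cfsg.Agent.Lib.Helper49.Sourour3
import Cfsg.Agent.Lib.Helper49.SL33b

set_option autoImplicit false
open Cfsg

namespace Cfsg.Agent.S2459

open Cfsg.Agent.Lib.Helper49

theorem not_dvd_orderOf {F : Type*} [Field F] [Fintype F] (p : ℕ) [Fact p.Prime] [CharP F p]
    (x : Matrix.ProjectiveSpecialLinearGroup (Fin 3) F) (N : ℕ) (hN : x ^ N = 1)
    (hcop : Nat.Coprime N (Fintype.card F)) : ¬ p ∣ orderOf x := by
  intro h
  have h1 : p ∣ N := h.trans (orderOf_dvd_of_pow_eq_one hN)
  have h2 : p ∣ Fintype.card F := (CharP.cast_eq_zero_iff F p _).mp (Nat.cast_card_eq_zero F)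
  have h3 := Nat.dvd_gcd h1 h2
  rw [hcop] at h3
  exact (Fact.out : p.Prime).one_lt.ne' (Nat.dvd_one.mp h3)

/-- A form of Thompson's conjecture for PSL(3,q), q > 2 (covering the non-identity elements), with a semisimple class: for F a finite field of characteristic p with more than 2 elements there is an element x of PSL(3,F) of order prime to p such that every non-identity element of PSL(3,F) is a product of two conjugates of x. -/
theorem result {F : Type*} [Field F] [Fintype F] (p : ℕ) [Fact p.Prime] [CharP F p] (h3 : 3 ≤ Fintype.card F) :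
    ∃ x : Matrix.ProjectiveSpecialLinearGroup (Fin 3) F, ¬ p ∣ orderOf x ∧ ∀ g : Matrix.ProjectiveSpecialLinearGroup (Fin 3) F, g ≠ 1 → ∃ u v : Matrix.ProjectiveSpecialLinearGroup (Fin 3) F, g = (u * x * u⁻¹) * (v * x * v⁻¹) := by
  classical
  rcases Nat.lt_or_ge 3 (Fintype.card F) with h4 | h3'
  · -- the general case: a split torus element
    obtain ⟨a, ha⟩ : ∃ a : F, a ∉ ({0, 1, -1} : Finset F) := by
      by_contra hcon
      push Not at hcon
      have h1 : Finset.univ ⊆ ({0, 1, -1} : Finset F) := fun x _ => hcon x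
      have h2 := Finset.card_le_card h1
      have h3 : ({0, 1, -1} : Finset F).card ≤ 3 := Finset.card_le_three
      rw [Finset.card_univ] at h2
      omega
    simp only [Finset.mem_insert, Finset.mem_singleton, not_or] at ha
    obtain ⟨ha0, ha1, ha2⟩ := ha
    obtain ⟨X, hX⟩ : ∃ X : Matrix.SpecialLinearGroup (Fin 3) F,
        (X : Matrix (Fin 3) (Fin 3) F) = Matrix.diagonal ![1, a, a⁻¹] :=
      ⟨⟨Matrix.diagonal ![1, a, a⁻¹], by simp [Matrix.det_diagonal, Fin.prod_univ_three, ha0]⟩, rfl⟩
    refine ⟨QuotientGroup.mk X, ?_, ?_⟩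
    · apply not_dvd_orderOf p _ (Fintype.card F - 1)
      · have hXpow : X ^ (Fintype.card F - 1) = 1 := by
          apply Subtype.ext
          rw [Matrix.SpecialLinearGroup.coe_pow, hX, Matrix.diagonal_pow,
            Matrix.SpecialLinearGroup.coe_one, ← Matrix.diagonal_one]
          congr 1
          ext i
          fin_cases i <;> simp [FiniteField.pow_card_sub_one_eq_one, ha0]
        rw [← QuotientGroup.mk_pow, hXpow]
        rfl
      · obtain ⟨n, hn⟩ : ∃ n, Fintype.card F = n + 1 := ⟨Fintype.card F - 1, by omega⟩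
        rw [hn]
        simp
    · intro g hg
      apply psl3_cover X ?_ ?_ g hg
      · intro δ hδ
        refine ⟨Matrix.diagonal ![δ, 1, 1], Matrix.diagonal ![δ⁻¹, 1, 1], ?_, ?_, ?_⟩
        · rw [Matrix.diagonal_mul_diagonal, ← Matrix.diagonal_one]
          congr 1
          ext i
          fin_cases i <;> simp [hδ]
        · simp [Matrix.det_diagonal, Fin.prod_univ_three]
        · rw [hX, Matrix.diagonal_mul_diagonal, Matrix.diagonal_mul_diagonal]
          congr 1
          ext i
          exact mul_comm _ _
      · intro G hdet hG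
        rw [hX]
        exact sourour3 a ha0 ha1 ha2 G hdet hG
  · -- the field with three elements: a Singer cycle of order 13
    have hF : Fintype.card F = 3 := le_antisymm h3' h3
    obtain ⟨X, hX⟩ : ∃ X : Matrix.SpecialLinearGroup (Fin 3) F,
        (X : Matrix (Fin 3) (Fin 3) F) = comp33 F := ⟨⟨comp33 F, comp33_det F⟩, rfl⟩
    refine ⟨QuotientGroup.mk X, ?_, ?_⟩
    · apply not_dvd_orderOf p _ 13
      · have hXpow : X ^ 13 = 1 := by
          apply Subtype.ext
          rw [Matrix.SpecialLinearGroup.coe_pow, hX, Matrix.SpecialLinearGroup.coe_one]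
          exact comp33_pow_field hF
        rw [← QuotientGroup.mk_pow, hXpow]
        rfl
      · rw [hF]
        decide
    · intro g hg
      apply psl3_cover X ?_ ?_ g hg
      · intro δ hδ
        have hδ2 : δ ^ 2 = 1 := by
          have h := FiniteField.pow_card_sub_one_eq_one δ hδ
          rwa [hF] at h
        refine ⟨Matrix.scalar (Fin 3) δ, Matrix.scalar (Fin 3) δ⁻¹, ?_, ?_, ?_⟩
        · rw [← map_mul, mul_inv_cancel₀ hδ, map_one]
        · rw [Matrix.scalar_apply, Matrix.det_diagonal, Finset.prod_const, Finset.card_univ,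
            Fintype.card_fin]
          linear_combination δ * hδ2
        · exact (Matrix.scalar_commute δ (fun r' => mul_comm δ r') _).eq
      · intro G hdet hG
        rw [hX]
        exact sl33_factor_field hF G hdet hG

end Cfsg.Agent.S2459
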