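import Cfsg.Statements.S2466
import Cfsg.Agent.Lib.Helper49.AltSpec

set_option autoImplicit false
open Cfsg

namespace Cfsg.Agent.S2466

/-- Adjacency of odd primes in the prime graph of the alternating groups: let r ≠ s be odd primes at most n. The alternating group of degree n has an element of order r·s if and only if r + s ≤ n. -/
theorem result (n r s : ℕ) (hr : r.Prime) (hs : s.Prime) (hr2 : r ≠ 2) (hs2 : s ≠ 2) (hrs : r ≠ s) (hrn : r ≤ n) (hsn : s ≤ n) :
    (r * s ∈ Set.range (orderOf : alternatingGroup (Fin n) → ℕ)) ↔ r + s ≤ n := by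
  rw [Cfsg.Agent.Lib.Helper49.altSpec_iff]
  have hr3 : 3 ≤ r := by
    have := hr.two_le
    omega
  have hs3 : 3 ≤ s := by
    have := hs.two_le
    omega
  have hcop : Nat.Coprime r s := (Nat.coprime_primes hr hs).mpr hrs
  constructor
  · rintro ⟨c, hc2, hsum, -, hlcm⟩
    have hrd : r ∣ c.lcm := by rw [hlcm]; exact dvd_mul_right r s
    have hsd : s ∣ c.lcm := by rw [hlcm]; exact dvd_mul_left s r
    obtain ⟨a, hac, hra⟩ := Cfsg.Agent.Lib.Helper49.prime_dvd_multiset_lcm hr c hrd
    obtain ⟨b, hbc, hsb⟩ := Cfsg.Agent.Lib.Helper49.prime_dvd_multiset_lcm hs c hsd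
    obtain ⟨c', rfl⟩ := Multiset.exists_cons_of_mem hac
    rw [Multiset.sum_cons] at hsum
    have ha2 : 2 ≤ a := hc2 a (Multiset.mem_cons_self a c')
    by_cases hsa : s ∣ a
    · have h1 : r * s ∣ a := hcop.mul_dvd_of_dvd_of_dvd hra hsa
      have h2 : r * s ≤ a := Nat.le_of_dvd (by omega) h1
      have h3 : r + s ≤ r * s := by nlinarith
      omega
    · have hb' : b ∈ c' := by
        rcases Multiset.mem_cons.mp hbc with h | h
        · exact absurd (h ▸ hsb) hsa
        · exact h
      have h1 : b ≤ c'.sum := Multiset.le_sum_of_mem hb'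
      have hb2 : 2 ≤ b := hc2 b hbc
      have h2 : r ≤ a := Nat.le_of_dvd (by omega) hra
      have h3 : s ≤ b := Nat.le_of_dvd (by omega) hsb
      omega
  · intro h
    refine ⟨{r, s}, ?_, ?_, ?_, ?_⟩
    · intro a ha
      simp only [Multiset.insert_eq_cons, Multiset.mem_cons, Multiset.mem_singleton] at ha
      rcases ha with rfl | rfl <;> omega
    · simpa using h
    · have hro : Odd r := hr.odd_of_ne_two hr2
      have hso : Odd s := hs.odd_of_ne_two hs2
      simp only [Multiset.insert_eq_cons, Multiset.sum_cons, Multiset.sum_singleton,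
        Multiset.card_cons, Multiset.card_singleton]
      have : Even (r + s) := hro.add_odd hso
      exact this.add (by decide)
    · simp only [Multiset.insert_eq_cons, Multiset.lcm_cons, Multiset.lcm_singleton,
        normalize_eq]
      exact hcop.lcm_eq_mul

end Cfsg.Agent.S2466
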