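import Cfsg.Statements.S2467
import Cfsg.Agent.Lib.Helper49.AltSpec

set_option autoImplicit false
open Cfsg

namespace Cfsg.Agent.S2467

/-- Adjacency of 2 and an odd prime in the prime graph of the alternating groups: let r be an odd prime at most n, with n ≥ 4. The alternating group of degree n has an element of order 2r if and only if r + 4 ≤ n. -/
theorem result (n r : ℕ) (hn : 4 ≤ n) (hr : r.Prime) (hr2 : r ≠ 2) (hrn : r ≤ n) :
    (2 * r ∈ Set.range (orderOf : alternatingGroup (Fin n) → ℕ)) ↔ r + 4 ≤ n := by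
  rw [Cfsg.Agent.Lib.Helper49.altSpec_iff]
  have hr3 : 3 ≤ r := by
    have := hr.two_le
    omega
  have hro : Odd r := hr.odd_of_ne_two hr2
  have hcop : Nat.Coprime 2 r := (Nat.coprime_primes Nat.prime_two hr).mpr (Ne.symm hr2)
  constructor
  · rintro ⟨c, hc2, hsum, hev, hlcm⟩
    have hrd : r ∣ c.lcm := by rw [hlcm]; exact dvd_mul_left r 2
    have h2d : 2 ∣ c.lcm := by rw [hlcm]; exact dvd_mul_right 2 r
    obtain ⟨d, hdc, hrd'⟩ := Cfsg.Agent.Lib.Helper49.prime_dvd_multiset_lcm hr c hrd
    obtain ⟨b, hbc, h2b⟩ := Cfsg.Agent.Lib.Helper49.prime_dvd_multiset_lcm Nat.prime_two c h2d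
    rw [Cfsg.Agent.Lib.Helper49.even_sum_add_card_iff] at hev
    set e := c.filter (fun a => Even a) with he
    have hbe : b ∈ e := by
      rw [he, Multiset.mem_filter]
      exact ⟨hbc, even_iff_two_dvd.mpr h2b⟩
    have hsplit : c.sum = e.sum + (c.filter (fun a => ¬ Even a)).sum := by
      rw [← Multiset.sum_add, Multiset.filter_add_not]
    have he2 : ∀ a ∈ e, 2 ≤ a := fun a ha => hc2 a (Multiset.mem_of_mem_filter ha)
    have hcard1 : 1 ≤ Multiset.card e := Multiset.card_pos_iff_exists_mem.mpr ⟨b, hbe⟩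
    have hcard2 : 2 ≤ Multiset.card e := by
      rcases hev with ⟨k, hk⟩
      omega
    have hd2 : 2 ≤ d := hc2 d hdc
    by_cases hde : Even d
    · have hde' : d ∈ e := by
        rw [he, Multiset.mem_filter]
        exact ⟨hdc, hde⟩
      obtain ⟨e', he'⟩ := Multiset.exists_cons_of_mem hde'
      have h2r : 2 * r ∣ d := hcop.mul_dvd_of_dvd_of_dvd (even_iff_two_dvd.mp hde) hrd'
      have h2r' : 2 * r ≤ d := Nat.le_of_dvd (by omega) h2r
      have hc' : 1 ≤ Multiset.card e' := by
        rw [he', Multiset.card_cons] at hcard2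
        omega
      obtain ⟨a, ha⟩ := Multiset.card_pos_iff_exists_mem.mp hc'
      have ha2 : 2 ≤ a := he2 a (by rw [he']; exact Multiset.mem_cons_of_mem ha)
      have h1 : a ≤ e'.sum := Multiset.le_sum_of_mem ha
      have h3 : e.sum = d + e'.sum := by rw [he', Multiset.sum_cons]
      omega
    · have hdo : d ∈ c.filter (fun a => ¬ Even a) := by
        rw [Multiset.mem_filter]
        exact ⟨hdc, hde⟩
      have h1 : d ≤ (c.filter (fun a => ¬ Even a)).sum := Multiset.le_sum_of_mem hdo
      have h2 : r ≤ d := Nat.le_of_dvd (by omega) hrd'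
      have h3 : Multiset.card e • 2 ≤ e.sum := Multiset.card_nsmul_le_sum he2
      simp only [smul_eq_mul] at h3
      omega
  · intro h
    refine ⟨{r, 2, 2}, ?_, ?_, ?_, ?_⟩
    · intro a ha
      simp only [Multiset.insert_eq_cons, Multiset.mem_cons, Multiset.mem_singleton] at ha
      rcases ha with rfl | rfl | rfl <;> omega
    · simp only [Multiset.insert_eq_cons, Multiset.sum_cons, Multiset.sum_singleton]
      omega
    · simp only [Multiset.insert_eq_cons, Multiset.sum_cons, Multiset.sum_singleton,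
        Multiset.card_cons, Multiset.card_singleton]
      rcases hro with ⟨k, hk⟩
      exact ⟨k + 4, by omega⟩
    · simp only [Multiset.insert_eq_cons, Multiset.lcm_cons, Multiset.lcm_singleton,
        normalize_eq]
      show Nat.lcm r (Nat.lcm 2 2) = 2 * r
      rw [Nat.lcm_self, Nat.lcm_comm, hcop.lcm_eq_mul]

end Cfsg.Agent.S2467
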