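import Cfsg.Statements.S2471
import Mathlib

set_option autoImplicit false
open Cfsg

namespace Cfsg.Agent.S2471

theorem mat2_CH {F : Type*} [Field F] (M : Matrix (Fin 2) (Fin 2) F) (hdet : M.det = 1)
    (t : F) (ht : M 0 0 + M 1 1 = t) : M * M = t • M - 1 := by
  rw [Matrix.det_fin_two] at hdet
  ext i j
  fin_cases i <;> fin_cases j
  · simp [Matrix.mul_apply, Fin.sum_univ_two]
    linear_combination (-1 : F) * hdet + M 0 0 * ht
  · simp [Matrix.mul_apply, Fin.sum_univ_two]
    linear_combination M 0 1 * ht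
  · simp [Matrix.mul_apply, Fin.sum_univ_two]
    linear_combination M 1 0 * ht
  · simp [Matrix.mul_apply, Fin.sum_univ_two]
    linear_combination (-1 : F) * hdet + M 1 1 * ht

theorem mat2_pow_four {F : Type*} [Field F] (M : Matrix (Fin 2) (Fin 2) F) (hdet : M.det = 1)
    (t : F) (ht : M 0 0 + M 1 1 = t) :
    M ^ 4 - 1 = t • ((t ^ 2 - 2) • M - t • (1 : Matrix (Fin 2) (Fin 2) F)) := by
  have CH := mat2_CH M hdet t ht
  have h4 : M ^ 4 = (M * M) * (M * M) := by
    rw [show (4 : ℕ) = 2 + 2 from rfl, pow_add, pow_two]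
  rw [h4, CH]
  have e1 : (t • M - 1) * (t • M - 1) = (t * t) • (M * M) - (2 * t) • M + 1 := by
    rw [sub_mul, mul_sub, mul_sub, smul_mul_smul_comm, mul_one, one_mul, mul_one, two_mul, add_smul]
    abel
  rw [e1, CH]
  module

theorem mat2_key {F : Type*} [Field F] (p : ℕ) [Fact p.Prime] [CharP F p] (hp : p ≠ 2)
    (M : Matrix (Fin 2) (Fin 2) F) (hdet : M.det = 1) (c : F) (hc : c ^ 2 = 1)
    (hM : M ^ (2 * p) = c • (1 : Matrix (Fin 2) (Fin 2) F)) :
    (∃ e : F, e ^ 2 = 1 ∧ M ^ 2 = e • (1 : Matrix (Fin 2) (Fin 2) F)) ∨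
    (∃ e : F, e ^ 2 = 1 ∧ M ^ p = e • (1 : Matrix (Fin 2) (Fin 2) F)) := by
  have hpp : p.Prime := Fact.out
  have h2F : (2 : F) ≠ 0 := by
    intro h
    have h' : ((2 : ℕ) : F) = 0 := by exact_mod_cast h
    rw [CharP.cast_eq_zero_iff F p 2] at h'
    exact hp ((Nat.prime_dvd_prime_iff_eq hpp Nat.prime_two).mp h')
  obtain ⟨t, ht⟩ : ∃ t : F, M 0 0 + M 1 1 = t := ⟨_, rfl⟩
  have CH := mat2_CH M hdet t ht
  have h4 := mat2_pow_four M hdet t ht
  have h4p : M ^ (4 * p) = 1 := by
    have : 4 * p = (2 * p) * 2 := by ring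
    rw [this, pow_mul, hM, smul_pow, one_pow, hc, one_smul]
  have hN : (M ^ 4 - 1) ^ p = 0 := by
    rw [sub_pow_char_of_commute p (Commute.one_right _), one_pow, ← pow_mul, h4p, sub_self]
  have hdetN : (M ^ 4 - 1).det = 0 := by
    have := congrArg Matrix.det hN
    rw [Matrix.det_pow, Matrix.det_zero] at this
    exact pow_eq_zero_iff (hpp.ne_zero) |>.mp this
  have hdet' := hdet
  rw [Matrix.det_fin_two] at hdet'
  have hdetN' : t ^ 2 * (4 - t ^ 2) = 0 := by
    rw [h4, Matrix.det_fin_two] at hdetN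
    simp only [Matrix.smul_apply, Matrix.sub_apply, Matrix.one_apply_eq, smul_eq_mul,
      Matrix.one_apply_ne, ne_eq, zero_ne_one, not_false_eq_true, one_ne_zero, mul_zero,
      sub_zero, mul_one] at hdetN
    rw [← ht]
    rw [← ht] at hdetN
    linear_combination hdetN - ((M 0 0 + M 1 1) ^ 2 * ((M 0 0 + M 1 1) ^ 2 - 2) ^ 2) * hdet'
  rcases mul_eq_zero.mp hdetN' with h0 | h0
  · left
    have ht0 : t = 0 := pow_eq_zero_iff (two_ne_zero) |>.mp h0
    refine ⟨-1, by ring, ?_⟩
    rw [pow_two, CH, ht0]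
    simp
  · right
    obtain ⟨e, he⟩ : ∃ e : F, 2 * e = t := ⟨t / 2, by field_simp⟩
    have he2 : e ^ 2 = 1 := by
      have : (2 : F) ^ 2 * (e ^ 2 - 1) = 0 := by
        rw [← he] at h0
        linear_combination (-1 : F) * h0
      rcases mul_eq_zero.mp this with h | h
      · exact absurd (pow_eq_zero_iff (two_ne_zero) |>.mp h) h2F
      · linear_combination h
    have hsq : (M - e • (1 : Matrix (Fin 2) (Fin 2) F)) ^ 2 = 0 := by
      rw [pow_two, sub_mul, mul_sub, mul_sub, CH]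
      simp only [smul_mul_assoc, mul_smul_comm, mul_one, one_mul, smul_smul]
      have hee : e * e = 1 := by rw [← pow_two]; exact he2
      rw [hee, ← he]
      module
    have hpow : (M - e • (1 : Matrix (Fin 2) (Fin 2) F)) ^ p = 0 := by
      have h2p : 2 ≤ p := hpp.two_le
      obtain ⟨k, rfl⟩ := Nat.exists_eq_add_of_le h2p
      rw [pow_add, hsq, zero_mul]
    refine ⟨e ^ p, by rw [← pow_mul, mul_comm, pow_mul, he2, one_pow], ?_⟩
    have hsplit : M = e • (1 : Matrix (Fin 2) (Fin 2) F) + (M - e • (1 : Matrix (Fin 2) (Fin 2) F)) := by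
      abel
    have hcomm : Commute (e • (1 : Matrix (Fin 2) (Fin 2) F)) (M - e • (1 : Matrix (Fin 2) (Fin 2) F)) :=
      (Commute.one_left _).smul_left e
    conv_lhs => rw [hsplit]
    rw [add_pow_char_of_commute p hcomm, hpow, add_zero, smul_pow, one_pow]

/-- In PSL(2,q) with q odd, the characteristic p is isolated from 2 in the prime graph: for F a finite field of odd characteristic p with at least 5 elements, PSL(2,F) has no element of order 2p. -/
theorem result {F : Type*} [Field F] [Fintype F] (p : ℕ) [Fact p.Prime] [CharP F p] (hp : p ≠ 2) (h5 : 5 ≤ Fintype.card F) (g : Matrix.ProjectiveSpecialLinearGroup (Fin 2) F) :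
    orderOf g ≠ 2 * p := by
  intro hord
  have hpp : p.Prime := Fact.out
  obtain ⟨A, rfl⟩ := QuotientGroup.mk_surjective g
  have h1 : A ^ (2 * p) ∈ Subgroup.center (Matrix.SpecialLinearGroup (Fin 2) F) := by
    rw [← QuotientGroup.eq_one_iff, QuotientGroup.mk_pow, ← hord, pow_orderOf_eq_one]
  obtain ⟨c, hc, hcA⟩ := Matrix.SpecialLinearGroup.mem_center_iff.mp h1
  have hcard : Fintype.card (Fin 2) = 2 := Fintype.card_fin 2
  rw [hcard] at hc
  have hM : (A : Matrix (Fin 2) (Fin 2) F) ^ (2 * p) = c • (1 : Matrix (Fin 2) (Fin 2) F) := by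
    rw [← Matrix.SpecialLinearGroup.coe_pow, ← hcA, Matrix.scalar_apply, Matrix.smul_one_eq_diagonal]
  have hcenter : ∀ k : ℕ, (∃ e : F, e ^ 2 = 1 ∧
      (A : Matrix (Fin 2) (Fin 2) F) ^ k = e • (1 : Matrix (Fin 2) (Fin 2) F)) →
      (QuotientGroup.mk A : Matrix.ProjectiveSpecialLinearGroup (Fin 2) F) ^ k = 1 := by
    rintro k ⟨e, he, hk⟩
    rw [← QuotientGroup.mk_pow, QuotientGroup.eq_one_iff, Matrix.SpecialLinearGroup.mem_center_iff]
    refine ⟨e, by rw [hcard]; exact he, ?_⟩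
    rw [Matrix.SpecialLinearGroup.coe_pow, hk, Matrix.scalar_apply, Matrix.smul_one_eq_diagonal]
  rcases mat2_key p hp (A : Matrix (Fin 2) (Fin 2) F) A.det_coe c hc hM with h | h
  · have := orderOf_dvd_of_pow_eq_one (hcenter 2 h)
    rw [hord] at this
    have h3 := Nat.le_of_dvd (by norm_num) this
    have := hpp.two_le
    omega
  · have := orderOf_dvd_of_pow_eq_one (hcenter p h)
    rw [hord] at this
    have h3 := Nat.le_of_dvd hpp.pos this
    have := hpp.two_le
    omega

end Cfsg.Agent.S2471
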