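import Cfsg.Statements.S2485
import Cfsg.Agent.Lib.Helper46.Mat2

set_option autoImplicit false
set_option linter.style.haveILetI false
open scoped Pointwise
open Cfsg

namespace Cfsg.Agent.S2485

open Cfsg.Agent.Lib.Helper46

section gen

variable {F : Type*} [Field F]

/-- The elliptic element of order 4 (an involution modulo scalars). -/
noncomputable def A0 (F : Type*) [Field F] : GL (Fin 2) F :=
  Matrix.GeneralLinearGroup.mkOfDetNeZero !![0, -1; 1, 0] (by simp [Matrix.det_fin_two_of])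

theorem coe_A0 : ((A0 F : GL (Fin 2) F) : Matrix (Fin 2) (Fin 2) F) = !![0, -1; 1, 0] := rfl

theorem mk_comm_of_smul (M N : GL (Fin 2) F) (u : Fˣ)
    (h : (M : Matrix (Fin 2) (Fin 2) F) * (N : Matrix (Fin 2) (Fin 2) F) =
      (u : F) • ((N : Matrix (Fin 2) (Fin 2) F) * (M : Matrix (Fin 2) (Fin 2) F))) :
    (QuotientGroup.mk M : GL (Fin 2) F ⧸ Subgroup.center (GL (Fin 2) F)) * QuotientGroup.mk N =
      QuotientGroup.mk N * QuotientGroup.mk M := by
  rw [← QuotientGroup.mk_mul, ← QuotientGroup.mk_mul]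
  have h1 : M * N = N * M * Matrix.GeneralLinearGroup.scalar (Fin 2) u := by
    apply Units.ext
    rw [Units.val_mul, Units.val_mul, Units.val_mul, Matrix.GeneralLinearGroup.coe_scalar, h]
    ext i j
    fin_cases i <;> fin_cases j <;> simp [Matrix.mul_apply, Fin.sum_univ_two] <;> ring
  rw [h1, QuotientGroup.mk_mul,
    (QuotientGroup.eq_one_iff (Matrix.GeneralLinearGroup.scalar (Fin 2) u)).mpr
      (by rw [Matrix.GeneralLinearGroup.center_eq_range_scalar]; exact ⟨u, rfl⟩), mul_one]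

theorem smul_of_mk_comm (M N : GL (Fin 2) F)
    (h : (QuotientGroup.mk M : GL (Fin 2) F ⧸ Subgroup.center (GL (Fin 2) F)) * QuotientGroup.mk N =
      QuotientGroup.mk N * QuotientGroup.mk M) :
    ∃ u : Fˣ, (M : Matrix (Fin 2) (Fin 2) F) * (N : Matrix (Fin 2) (Fin 2) F) =
      (u : F) • ((N : Matrix (Fin 2) (Fin 2) F) * (M : Matrix (Fin 2) (Fin 2) F)) := by
  rw [← QuotientGroup.mk_mul, ← QuotientGroup.mk_mul] at h
  have h1 : (N * M)⁻¹ * (M * N) ∈ Subgroup.center (GL (Fin 2) F) := QuotientGroup.eq.mp h.symm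
  rw [Matrix.GeneralLinearGroup.center_eq_range_scalar] at h1
  obtain ⟨u, hu⟩ := h1
  refine ⟨u, ?_⟩
  have h2 : M * N = N * M * Matrix.GeneralLinearGroup.scalar (Fin 2) u := by
    rw [hu]
    group
  have h3 := congrArg (fun z : GL (Fin 2) F => (z : Matrix (Fin 2) (Fin 2) F)) h2
  simp only [Units.val_mul, Matrix.GeneralLinearGroup.coe_scalar] at h3
  rw [h3]
  ext i j
  fin_cases i <;> fin_cases j <;> simp [Matrix.mul_apply, Fin.sum_univ_two] <;> ring

theorem mk_A0_ne_one :
    (QuotientGroup.mk (A0 F) : GL (Fin 2) F ⧸ Subgroup.center (GL (Fin 2) F)) ≠ 1 := by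
  intro h
  have h1 := (QuotientGroup.eq_one_iff (A0 F)).mp h
  rw [Matrix.GeneralLinearGroup.mem_center_iff_val_mem_range_scalar] at h1
  obtain ⟨a, ha⟩ := h1
  have h3 := congrFun (congrFun ha 1) 0
  rw [coe_A0] at h3
  simp at h3

/-- Two conjugates of the elliptic involution have a common commuting non-trivial element. -/
theorem exists_common (hns : ∀ a c : F, a ^ 2 + c ^ 2 = 0 → a = 0 ∧ c = 0) (h2 : (2 : F) ≠ 0)
    (Y : GL (Fin 2) F) :
    ∃ w : GL (Fin 2) F ⧸ Subgroup.center (GL (Fin 2) F), w ≠ 1 ∧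
      (QuotientGroup.mk (A0 F) : GL (Fin 2) F ⧸ Subgroup.center (GL (Fin 2) F)) * w =
        w * QuotientGroup.mk (A0 F) ∧
      (QuotientGroup.mk (Y * A0 F * Y⁻¹) : GL (Fin 2) F ⧸ Subgroup.center (GL (Fin 2) F)) * w =
        w * QuotientGroup.mk (Y * A0 F * Y⁻¹) := by
  obtain ⟨A2, hA2⟩ : ∃ A2 : GL (Fin 2) F, A2 = Y * A0 F * Y⁻¹ := ⟨_, rfl⟩
  rw [← hA2]
  have htr : (A2 : Matrix (Fin 2) (Fin 2) F).trace = 0 := by
    rw [hA2, gl_trace_conj, coe_A0]
    simp [Matrix.trace_fin_two]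
  rw [Matrix.trace_fin_two] at htr
  obtain ⟨p, hp⟩ : ∃ p : F, (A2 : Matrix (Fin 2) (Fin 2) F) 0 0 = p := ⟨_, rfl⟩
  obtain ⟨r, hr⟩ : ∃ r : F, (A2 : Matrix (Fin 2) (Fin 2) F) 0 1 = r := ⟨_, rfl⟩
  obtain ⟨s, hs⟩ : ∃ s : F, (A2 : Matrix (Fin 2) (Fin 2) F) 1 0 = s := ⟨_, rfl⟩
  have h11 : (A2 : Matrix (Fin 2) (Fin 2) F) 1 1 = -p := by
    rw [← hp]
    linear_combination htr
  have hA2m : (A2 : Matrix (Fin 2) (Fin 2) F) = !![p, r; s, -p] := by
    rw [Matrix.eta_fin_two (A2 : Matrix (Fin 2) (Fin 2) F), hp, hr, hs, h11]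
  by_cases hB : (r + s) ^ 2 + (2 * p) ^ 2 = 0
  · obtain ⟨e1, e2⟩ := hns _ _ hB
    have hp0 : p = 0 := by
      rcases mul_eq_zero.mp e2 with h | h
      · exact absurd h h2
      · exact h
    have hs' : s = -r := by linear_combination e1
    refine ⟨QuotientGroup.mk (A0 F), mk_A0_ne_one, rfl, ?_⟩
    apply mk_comm_of_smul A2 (A0 F) 1
    rw [hA2m, coe_A0, hp0, hs']
    ext i j
    fin_cases i <;> fin_cases j <;> simp [Matrix.mul_apply, Fin.sum_univ_two]
  · have hdet : (!![-(r + s), 2 * p; 2 * p, r + s] : Matrix (Fin 2) (Fin 2) F).det ≠ 0 := by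
      rw [Matrix.det_fin_two_of]
      intro h
      apply hB
      linear_combination -h
    obtain ⟨B, hBm⟩ : ∃ B : GL (Fin 2) F,
        (B : Matrix (Fin 2) (Fin 2) F) = !![-(r + s), 2 * p; 2 * p, r + s] :=
      ⟨Matrix.GeneralLinearGroup.mkOfDetNeZero _ hdet, rfl⟩
    refine ⟨QuotientGroup.mk B, ?_, ?_, ?_⟩
    · intro h
      have h1 := (QuotientGroup.eq_one_iff B).mp h
      rw [Matrix.GeneralLinearGroup.mem_center_iff_val_mem_range_scalar] at h1
      obtain ⟨a, ha⟩ := h1
      have h3 := congrFun (congrFun ha 0) 1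
      have h4 := congrFun (congrFun ha 0) 0
      have h5 := congrFun (congrFun ha 1) 1
      rw [hBm] at h3 h4 h5
      simp at h3 h4 h5
      apply hB
      have h6 : p = 0 := by
        rcases h3 with h | h
        · exact absurd h h2
        · exact h
      have h7 : (2 : F) * (r + s) = 0 := by linear_combination h4 - h5
      have h8 : r + s = 0 := by
        rcases mul_eq_zero.mp h7 with h | h
        · exact absurd h h2
        · exact h
      rw [h6, h8]
      ring
    · apply mk_comm_of_smul (A0 F) B (-1)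
      rw [hBm, coe_A0]
      ext i j
      fin_cases i <;> fin_cases j <;> simp [Matrix.mul_apply, Fin.sum_univ_two]
    · apply mk_comm_of_smul A2 B (-1)
      rw [hBm, hA2m]
      ext i j
      fin_cases i <;> fin_cases j <;> simp [Matrix.mul_apply, Fin.sum_univ_two] <;> ring

theorem card_center_GL2 [Fintype F] :
    Nat.card (Subgroup.center (GL (Fin 2) F)) = Fintype.card F - 1 := by
  rw [Matrix.GeneralLinearGroup.center_eq_range_scalar]
  have hsinj : Function.Injective
      (Matrix.GeneralLinearGroup.scalar (Fin 2) : Fˣ →* GL (Fin 2) F) := by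
    intro u u' h
    have h3 := congrArg (fun z : GL (Fin 2) F => (z : Matrix (Fin 2) (Fin 2) F) 0 0) h
    simp at h3
    exact Units.ext h3
  rw [Nat.card_congr (MonoidHom.ofInjective hsinj).symm.toEquiv, Nat.card_units,
    Nat.card_eq_fintype_card]

theorem card_centralizer_A0 [Fintype F] (hns : ∀ a c : F, a ^ 2 + c ^ 2 = 0 → a = 0 ∧ c = 0)
    (h2 : (2 : F) ≠ 0) :
    (Fintype.card F - 1) * Nat.card (Subgroup.centralizer
      ({(QuotientGroup.mk (A0 F) : GL (Fin 2) F ⧸ Subgroup.center (GL (Fin 2) F))} :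
        Set (GL (Fin 2) F ⧸ Subgroup.center (GL (Fin 2) F)))) =
      2 * (Fintype.card F ^ 2 - 1) := by
  classical
  have hdet1 : ∀ v : {v : F × F // v ≠ 0},
      (!![v.1.1, -v.1.2; v.1.2, v.1.1] : Matrix (Fin 2) (Fin 2) F).det ≠ 0 := by
    intro v h
    rw [Matrix.det_fin_two_of] at h
    have := hns v.1.1 v.1.2 (by linear_combination h)
    exact v.2 (Prod.ext this.1 this.2)
  have hdet2 : ∀ v : {v : F × F // v ≠ 0},
      (!![v.1.1, v.1.2; v.1.2, -v.1.1] : Matrix (Fin 2) (Fin 2) F).det ≠ 0 := by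
    intro v h
    rw [Matrix.det_fin_two_of] at h
    have := hns v.1.1 v.1.2 (by linear_combination -h)
    exact v.2 (Prod.ext this.1 this.2)
  let f1 : {v : F × F // v ≠ 0} → GL (Fin 2) F := fun v =>
    Matrix.GeneralLinearGroup.mkOfDetNeZero _ (hdet1 v)
  let f2 : {v : F × F // v ≠ 0} → GL (Fin 2) F := fun v =>
    Matrix.GeneralLinearGroup.mkOfDetNeZero _ (hdet2 v)
  have hf1 : ∀ v, ((f1 v : GL (Fin 2) F) : Matrix (Fin 2) (Fin 2) F) =
      !![v.1.1, -v.1.2; v.1.2, v.1.1] := fun v => rfl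
  have hf2 : ∀ v, ((f2 v : GL (Fin 2) F) : Matrix (Fin 2) (Fin 2) F) =
      !![v.1.1, v.1.2; v.1.2, -v.1.1] := fun v => rfl
  have hinj : Function.Injective (Sum.elim f1 f2) := by
    apply Function.Injective.sumElim
    · rintro ⟨⟨a, c⟩, hv⟩ ⟨⟨a', c'⟩, hv'⟩ hxy
      have e := congrArg (fun z : GL (Fin 2) F => (z : Matrix (Fin 2) (Fin 2) F)) hxy
      simp only [hf1] at e
      have e00 := congrFun (congrFun e 0) 0
      have e10 := congrFun (congrFun e 1) 0
      simp at e00 e10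
      subst e00
      subst e10
      rfl
    · rintro ⟨⟨a, c⟩, hv⟩ ⟨⟨a', c'⟩, hv'⟩ hxy
      have e := congrArg (fun z : GL (Fin 2) F => (z : Matrix (Fin 2) (Fin 2) F)) hxy
      simp only [hf2] at e
      have e00 := congrFun (congrFun e 0) 0
      have e10 := congrFun (congrFun e 1) 0
      simp at e00 e10
      subst e00
      subst e10
      rfl
    · rintro ⟨⟨a, c⟩, hv⟩ ⟨⟨a', c'⟩, hv'⟩ hxy
      have e := congrArg (fun z : GL (Fin 2) F => (z : Matrix (Fin 2) (Fin 2) F)) hxy
      simp only [hf1, hf2] at e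
      have e00 := congrFun (congrFun e 0) 0
      have e10 := congrFun (congrFun e 1) 0
      have e01 := congrFun (congrFun e 0) 1
      have e11 := congrFun (congrFun e 1) 1
      simp at e00 e10 e01 e11
      apply hv
      have ha : (2 : F) * a = 0 := by linear_combination e00 + e11
      have hc : (2 : F) * c = 0 := by linear_combination e10 - e01
      have ha0 : a = 0 := by
        rcases mul_eq_zero.mp ha with h | h
        · exact absurd h h2
        · exact h
      have hc0 : c = 0 := by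
        rcases mul_eq_zero.mp hc with h | h
        · exact absurd h h2
        · exact h
      rw [ha0, hc0]
      rfl
  have hrange : Set.range (Sum.elim f1 f2) = QuotientGroup.mk ⁻¹'
      ((Subgroup.centralizer
        ({(QuotientGroup.mk (A0 F) : GL (Fin 2) F ⧸ Subgroup.center (GL (Fin 2) F))} :
          Set (GL (Fin 2) F ⧸ Subgroup.center (GL (Fin 2) F))) :
        Subgroup (GL (Fin 2) F ⧸ Subgroup.center (GL (Fin 2) F))) :
        Set (GL (Fin 2) F ⧸ Subgroup.center (GL (Fin 2) F))) := by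
    ext g
    simp only [Set.mem_range, Set.mem_preimage, SetLike.mem_coe, Subgroup.mem_centralizer_iff,
      Set.mem_singleton_iff, forall_eq]
    constructor
    · rintro ⟨v | v, rfl⟩
      · simp only [Sum.elim_inl]
        apply mk_comm_of_smul (A0 F) (f1 v) 1
        rw [hf1, coe_A0]
        ext i j
        fin_cases i <;> fin_cases j <;> simp [Matrix.mul_apply, Fin.sum_univ_two]
      · simp only [Sum.elim_inr]
        apply mk_comm_of_smul (A0 F) (f2 v) (-1)
        rw [hf2, coe_A0]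
        ext i j
        fin_cases i <;> fin_cases j <;> simp [Matrix.mul_apply, Fin.sum_univ_two]
    · intro hcomm
      obtain ⟨u, hu⟩ := smul_of_mk_comm (A0 F) g hcomm
      rw [coe_A0] at hu
      have e00 := congrFun (congrFun hu 0) 0
      have e01 := congrFun (congrFun hu 0) 1
      have e10 := congrFun (congrFun hu 1) 0
      have e11 := congrFun (congrFun hu 1) 1
      simp [Matrix.mul_apply, Fin.sum_univ_two] at e00 e01 e10 e11
      have hgdet : (g : Matrix (Fin 2) (Fin 2) F).det ≠ 0 := (Matrix.isUnits_det_units g).ne_zero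
      rw [Matrix.det_fin_two] at hgdet
      have hv : ((g : Matrix (Fin 2) (Fin 2) F) 0 0, (g : Matrix (Fin 2) (Fin 2) F) 1 0) ≠
          (0 : F × F) := by
        intro h
        have h00 : (g : Matrix (Fin 2) (Fin 2) F) 0 0 = 0 := congrArg Prod.fst h
        have h10 : (g : Matrix (Fin 2) (Fin 2) F) 1 0 = 0 := congrArg Prod.snd h
        apply hgdet
        rw [h00, h10]
        ring
      have hu2 : ((u : F) - 1) * ((u : F) + 1) = 0 := by
        by_cases h00 : (g : Matrix (Fin 2) (Fin 2) F) 0 0 = 0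
        · have h10 : (g : Matrix (Fin 2) (Fin 2) F) 1 0 ≠ 0 := fun h => hv (Prod.ext h00 h)
          have h5 : ((u : F) - 1) * ((u : F) + 1) * (g : Matrix (Fin 2) (Fin 2) F) 1 0 = 0 := by
            linear_combination e00 + (u : F) * e11
          exact (mul_eq_zero.mp h5).resolve_right h10
        · have h5 : ((u : F) - 1) * ((u : F) + 1) * (g : Matrix (Fin 2) (Fin 2) F) 0 0 = 0 := by
            linear_combination -e10 - (u : F) * e01
          exact (mul_eq_zero.mp h5).resolve_right h00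
      rcases mul_eq_zero.mp hu2 with h | h
      · have hu1 : (u : F) = 1 := sub_eq_zero.mp h
        rw [hu1, one_mul] at e00 e01 e10 e11
        refine ⟨Sum.inl ⟨((g : Matrix (Fin 2) (Fin 2) F) 0 0, (g : Matrix (Fin 2) (Fin 2) F) 1 0),
          hv⟩, ?_⟩
        apply Units.ext
        simp only [Sum.elim_inl]
        rw [hf1]
        ext i j
        fin_cases i <;> fin_cases j <;> simp
        · linear_combination e00
        · linear_combination -e01
      · have hu1 : (u : F) = -1 := eq_neg_of_add_eq_zero_left h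
        rw [hu1] at e00 e01 e10 e11
        refine ⟨Sum.inr ⟨((g : Matrix (Fin 2) (Fin 2) F) 0 0, (g : Matrix (Fin 2) (Fin 2) F) 1 0),
          hv⟩, ?_⟩
        apply Units.ext
        simp only [Sum.elim_inr]
        rw [hf2]
        ext i j
        fin_cases i <;> fin_cases j <;> simp
        · linear_combination -e00
        · linear_combination -e01
  have e := QuotientGroup.preimageMkEquivSubgroupProdSet (Subgroup.center (GL (Fin 2) F))
    ((Subgroup.centralizer
        ({(QuotientGroup.mk (A0 F) : GL (Fin 2) F ⧸ Subgroup.center (GL (Fin 2) F))} :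
          Set (GL (Fin 2) F ⧸ Subgroup.center (GL (Fin 2) F))) :
        Subgroup (GL (Fin 2) F ⧸ Subgroup.center (GL (Fin 2) F))) :
        Set (GL (Fin 2) F ⧸ Subgroup.center (GL (Fin 2) F)))
  have h1 := Nat.card_congr e
  rw [← hrange, Nat.card_range_of_injective hinj, Nat.card_sum, Nat.card_prod] at h1
  have hV : Nat.card {v : F × F // v ≠ 0} = Fintype.card F ^ 2 - 1 := by
    rw [Nat.card_eq_fintype_card]
    show Fintype.card {v : F × F // ¬ v = 0} = _
    rw [Fintype.card_subtype_compl, Fintype.card_subtype_eq, Fintype.card_prod, pow_two]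
  have hZ := card_center_GL2 (F := F)
  rw [hV, hZ] at h1
  rw [two_mul]
  exact h1.symm


end gen

/-- Let q = 2^k − 1 ≥ 7 be a prime and let G = PGL(2,q), the general linear group of degree 2 over the field with q elements modulo its centre. Then any two Sylow 2-subgroups of G have a non-trivial intersection: for a Sylow 2-subgroup H and every x ∈ G, H ∩ H^x ≠ 1. -/
theorem result {q k : ℕ} [Fact q.Prime] (hk : q + 1 = 2 ^ k) (hq : 7 ≤ q)
    (H : Sylow 2 (GL (Fin 2) (ZMod q) ⧸ Subgroup.center (GL (Fin 2) (ZMod q))))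
    (x : GL (Fin 2) (ZMod q) ⧸ Subgroup.center (GL (Fin 2) (ZMod q))) :
    (H : Subgroup (GL (Fin 2) (ZMod q) ⧸ Subgroup.center (GL (Fin 2) (ZMod q)))) ⊓ MulAut.conj x • (H : Subgroup _) ≠ ⊥ := by
  classical
  haveI : Fact (Nat.Prime 2) := ⟨Nat.prime_two⟩
  have hk3 : 3 ≤ k := by
    by_contra hlt
    push Not at hlt
    have : 2 ^ k ≤ 2 ^ 2 := Nat.pow_le_pow_right (by norm_num) (by omega)
    omega
  obtain ⟨i, rfl⟩ : ∃ i, k = i + 3 := ⟨k - 3, by omega⟩
  obtain ⟨e, he⟩ : ∃ e, e = 2 ^ i := ⟨_, rfl⟩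
  have he1 : 1 ≤ e := he ▸ Nat.one_le_two_pow
  have hq8 : q + 1 = 8 * e := by
    rw [hk, he]
    ring
  obtain ⟨j, hj⟩ : ∃ j, 4 * e = j + 1 := ⟨4 * e - 1, by omega⟩
  have hqj : q = 2 * j + 1 := by omega
  have hcardF : Fintype.card (ZMod q) = q := ZMod.card q
  have hq4 : q % 4 = 3 := by omega
  have hns1 : ¬ IsSquare (-1 : ZMod q) := by
    rw [ZMod.exists_sq_eq_neg_one_iff]
    omega
  have h2 : (2 : ZMod q) ≠ 0 := by
    intro h
    have h3 : ((2 : ℕ) : ZMod q) = 0 := by exact_mod_cast h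
    rw [ZMod.natCast_eq_zero_iff] at h3
    have := Nat.le_of_dvd (by norm_num) h3
    omega
  have hns : ∀ a c : ZMod q, a ^ 2 + c ^ 2 = 0 → a = 0 ∧ c = 0 := by
    intro a c h
    by_cases hc : c = 0
    · subst hc
      simp at h
      exact ⟨h, rfl⟩
    · exfalso
      apply hns1
      refine ⟨a / c, ?_⟩
      field_simp
      linear_combination -h
  have hPc := card_centralizer_A0 hns h2
  rw [hcardF] at hPc
  have h1 : q - 1 = 2 * j := by omega
  have h3 : q ^ 2 - 1 = 4 * j * (j + 1) := by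
    rw [hqj]
    apply Nat.sub_eq_of_eq_add
    ring
  have h4 : q ^ 2 - q = (2 * j + 1) * (2 * j) := by
    rw [hqj]
    apply Nat.sub_eq_of_eq_add
    ring
  have hj0 : 0 < 2 * j := by omega
  have hP : Nat.card (Subgroup.centralizer
      ({(QuotientGroup.mk (A0 (ZMod q)) :
        GL (Fin 2) (ZMod q) ⧸ Subgroup.center (GL (Fin 2) (ZMod q)))} :
        Set (GL (Fin 2) (ZMod q) ⧸ Subgroup.center (GL (Fin 2) (ZMod q))))) = 2 ^ (i + 4) := by
    rw [h1, h3] at hPc
    have h5 : Nat.card (Subgroup.centralizer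
      ({(QuotientGroup.mk (A0 (ZMod q)) :
        GL (Fin 2) (ZMod q) ⧸ Subgroup.center (GL (Fin 2) (ZMod q)))} :
        Set (GL (Fin 2) (ZMod q) ⧸ Subgroup.center (GL (Fin 2) (ZMod q))))) = 4 * (j + 1) :=
      Nat.eq_of_mul_eq_mul_left hj0 (by rw [hPc]; ring)
    rw [h5, ← hj, he]
    ring
  have hG : Nat.card (GL (Fin 2) (ZMod q)) = (q ^ 2 - 1) * (q ^ 2 - q) := by
    rw [Matrix.card_GL_field, Fin.prod_univ_two, hcardF]
    simp
  have hN : Nat.card (GL (Fin 2) (ZMod q) ⧸ Subgroup.center (GL (Fin 2) (ZMod q))) =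
      2 ^ (i + 4) * (j * (2 * j + 1)) := by
    have h0 := Subgroup.card_eq_card_quotient_mul_card_subgroup
      (Subgroup.center (GL (Fin 2) (ZMod q)))
    rw [hG, card_center_GL2, hcardF, h1, h3, h4] at h0
    have h5 : Nat.card (GL (Fin 2) (ZMod q) ⧸ Subgroup.center (GL (Fin 2) (ZMod q))) =
        4 * (j + 1) * (j * (2 * j + 1)) :=
      Nat.eq_of_mul_eq_mul_right hj0 (by rw [← h0]; ring)
    rw [h5, ← hj, he]
    ring
  have hm2 : ¬ 2 ∣ j * (2 * j + 1) := by
    intro h
    rcases (Nat.Prime.dvd_mul Nat.prime_two).mp h with h | h <;> omega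
  have hm0 : j * (2 * j + 1) ≠ 0 := by
    intro h
    exact hm2 (h ▸ dvd_zero 2)
  have hfac : (Nat.card (GL (Fin 2) (ZMod q) ⧸
      Subgroup.center (GL (Fin 2) (ZMod q)))).factorization 2 = i + 4 := by
    rw [hN, Nat.factorization_mul (pow_ne_zero _ (by norm_num)) hm0,
      Nat.Prime.factorization_pow Nat.prime_two]
    simp [Nat.factorization_eq_zero_of_not_dvd hm2]
  obtain ⟨Psyl, hPsyl⟩ : ∃ Psyl : Sylow 2 (GL (Fin 2) (ZMod q) ⧸
      Subgroup.center (GL (Fin 2) (ZMod q))),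
      (Psyl : Subgroup (GL (Fin 2) (ZMod q) ⧸ Subgroup.center (GL (Fin 2) (ZMod q)))) =
        Subgroup.centralizer ({(QuotientGroup.mk (A0 (ZMod q)) :
          GL (Fin 2) (ZMod q) ⧸ Subgroup.center (GL (Fin 2) (ZMod q)))} :
          Set (GL (Fin 2) (ZMod q) ⧸ Subgroup.center (GL (Fin 2) (ZMod q)))) :=
    ⟨Sylow.ofCard (Subgroup.centralizer ({(QuotientGroup.mk (A0 (ZMod q)) :
          GL (Fin 2) (ZMod q) ⧸ Subgroup.center (GL (Fin 2) (ZMod q)))} :
          Set (GL (Fin 2) (ZMod q) ⧸ Subgroup.center (GL (Fin 2) (ZMod q))))) (by rw [hP, hfac]),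
      rfl⟩
  obtain ⟨g, hg⟩ := MulAction.exists_smul_eq
    (GL (Fin 2) (ZMod q) ⧸ Subgroup.center (GL (Fin 2) (ZMod q))) Psyl H
  have hH : (H : Subgroup (GL (Fin 2) (ZMod q) ⧸ Subgroup.center (GL (Fin 2) (ZMod q)))) =
      MulAut.conj g • Subgroup.centralizer ({(QuotientGroup.mk (A0 (ZMod q)) :
          GL (Fin 2) (ZMod q) ⧸ Subgroup.center (GL (Fin 2) (ZMod q)))} :
          Set (GL (Fin 2) (ZMod q) ⧸ Subgroup.center (GL (Fin 2) (ZMod q)))) := by
    rw [← hg, Sylow.coe_subgroup_smul, hPsyl]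
  obtain ⟨Y, hY⟩ := QuotientGroup.mk_surjective (g⁻¹ * x * g)
  obtain ⟨w, hw1, hwA, hwY⟩ := exists_common hns h2 Y
  intro hbot
  have hmem : g * w * g⁻¹ ∈
      (H : Subgroup (GL (Fin 2) (ZMod q) ⧸ Subgroup.center (GL (Fin 2) (ZMod q)))) ⊓
        MulAut.conj x •
          (H : Subgroup (GL (Fin 2) (ZMod q) ⧸ Subgroup.center (GL (Fin 2) (ZMod q)))) := by
    rw [hH, Subgroup.mem_inf]
    refine ⟨?_, ?_⟩
    · rw [Subgroup.mem_pointwise_smul_iff_inv_smul_mem]
      have h5 : (MulAut.conj g)⁻¹ • (g * w * g⁻¹) = w := by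
        rw [MulAut.smul_def, MulAut.conj_inv_apply]
        group
      rw [h5, Subgroup.mem_centralizer_iff]
      rintro _ rfl
      exact hwA
    · rw [smul_smul, ← map_mul, Subgroup.mem_pointwise_smul_iff_inv_smul_mem]
      have h5 : (MulAut.conj (x * g))⁻¹ • (g * w * g⁻¹) = (g⁻¹ * x * g)⁻¹ * w * (g⁻¹ * x * g) := by
        rw [MulAut.smul_def, MulAut.conj_inv_apply]
        group
      rw [h5, Subgroup.mem_centralizer_iff]
      rintro _ rfl
      rw [← hY]
      rw [QuotientGroup.mk_mul, QuotientGroup.mk_mul, QuotientGroup.mk_inv] at hwY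
      calc (QuotientGroup.mk (A0 (ZMod q)) :
            GL (Fin 2) (ZMod q) ⧸ Subgroup.center (GL (Fin 2) (ZMod q))) *
            ((QuotientGroup.mk Y)⁻¹ * w * QuotientGroup.mk Y)
          = (QuotientGroup.mk Y)⁻¹ * ((QuotientGroup.mk Y * QuotientGroup.mk (A0 (ZMod q)) *
              (QuotientGroup.mk Y)⁻¹) * w) * QuotientGroup.mk Y := by group
        _ = (QuotientGroup.mk Y)⁻¹ * (w * (QuotientGroup.mk Y * QuotientGroup.mk (A0 (ZMod q)) *
              (QuotientGroup.mk Y)⁻¹)) * QuotientGroup.mk Y := by rw [hwY]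
        _ = (QuotientGroup.mk Y)⁻¹ * w * QuotientGroup.mk Y * QuotientGroup.mk (A0 (ZMod q)) := by
            group
  rw [hbot, Subgroup.mem_bot] at hmem
  apply hw1
  have h6 : w = g⁻¹ * (g * w * g⁻¹) * g := by group
  rw [h6, hmem]
  group

end Cfsg.Agent.S2485
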