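import Cfsg.Statements.S2486
import Cfsg.Agent.Lib.Helper74.BorelTwo
import Cfsg.Agent.Lib.Helper74.SylowMeet

set_option autoImplicit false
open scoped Pointwise
open Cfsg

namespace Cfsg.Agent.S2486

/-- Let n ≥ 4 and let G be a finite group with a normal subgroup N of index 2 isomorphic to SL(n,2) and with trivial centralizer in G (so G is the extension of the simple group L_n(2) by its inverse-transpose automorphism, its full automorphism group). Then any two Sylow 2-subgroups of G have a non-trivial intersection: for a Sylow 2-subgroup H and every x ∈ G, H ∩ H^x ≠ 1. -/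
theorem result {G : Type*} [Group G] [Finite G] {n : ℕ} (hn : 4 ≤ n) (N : Subgroup G) [N.Normal]
    (e : N ≃* Matrix.SpecialLinearGroup (Fin n) (ZMod 2)) (hidx : N.index = 2)
    (hC : Subgroup.centralizer (N : Set G) = ⊥)
    (H : Sylow 2 G) (x : G) :
    (H : Subgroup G) ⊓ MulAut.conj x • (H : Subgroup G) ≠ ⊥ := by
  obtain ⟨B, hB, hnorm, w, hw⟩ := Cfsg.Agent.Lib.Helper74.BorelTwo.sl_two_borel n
  -- transport to `N`
  set BN : Subgroup N := B.comap e.toMonoidHom with hBN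
  have hBNmem : ∀ g : N, g ∈ BN ↔ e g ∈ B := fun g => Iff.rfl
  have hmem : ∀ g : G, g ∈ BN.map N.subtype ↔ ∃ h : g ∈ N, e ⟨g, h⟩ ∈ B := by
    intro g
    constructor
    · rintro ⟨g', hg', rfl⟩
      exact ⟨g'.2, hg'⟩
    · rintro ⟨h, hg⟩
      exact ⟨⟨g, h⟩, hg, rfl⟩
  apply Cfsg.Agent.Lib.Helper74.SylowMeet.sylow_meet N hidx (BN.map N.subtype)
    (Subgroup.map_subtype_le BN) ?_ ?_ ((e.symm w : N) : G) ?_ H x
  · -- `2`-group
    rintro ⟨g, hg⟩
    obtain ⟨hgN, hgB⟩ := (hmem g).mp hg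
    obtain ⟨k, hk⟩ := hB ⟨e ⟨g, hgN⟩, hgB⟩
    refine ⟨k, ?_⟩
    apply Subtype.ext
    have h1 : (e ⟨g, hgN⟩) ^ 2 ^ k = 1 := congrArg Subtype.val hk
    rw [← map_pow] at h1
    have h2 : (⟨g, hgN⟩ : N) ^ 2 ^ k = 1 := e.injective (by rw [h1, map_one])
    have h3 : g ^ 2 ^ k = 1 := congrArg Subtype.val h2
    exact h3
  · -- self-normalising
    intro g hgN hg
    rw [hmem]
    refine ⟨hgN, ?_⟩
    apply hnorm
    intro b hb
    have h1 := hg ((e.symm b : N) : G) ((hmem _).mpr ⟨(e.symm b).2, by simpa using hb⟩)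
    obtain ⟨h2, h3⟩ := (hmem _).mp h1
    have e1 : (⟨g * ((e.symm b : N) : G) * g⁻¹, h2⟩ : N) = ⟨g, hgN⟩ * e.symm b * ⟨g, hgN⟩⁻¹ :=
      Subtype.ext rfl
    rw [e1, map_mul, map_mul, map_inv, MulEquiv.apply_symm_apply] at h3
    exact h3
  · -- big cell
    intro g hgN hg
    obtain ⟨b₁, hb₁, b₂, hb₂, e1⟩ := hw (e ⟨g, hgN⟩) (by
      intro b hb hb'
      have h1 := hg ((e.symm b : N) : G) ((hmem _).mpr ⟨(e.symm b).2, by simpa using hb⟩) (by
        rw [hmem]
        have h2 : g * ((e.symm b : N) : G) * g⁻¹ ∈ N :=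
          ((⟨g, hgN⟩ : N) * e.symm b * (⟨g, hgN⟩ : N)⁻¹).2
        refine ⟨h2, ?_⟩
        have e1 : (⟨g * ((e.symm b : N) : G) * g⁻¹, h2⟩ : N) =
            ⟨g, hgN⟩ * e.symm b * ⟨g, hgN⟩⁻¹ := Subtype.ext rfl
        rw [e1, map_mul, map_mul, map_inv, MulEquiv.apply_symm_apply]
        exact hb')
      have h3 : e.symm b = 1 := Subtype.ext h1
      have h4 : b = e (e.symm b) := (MulEquiv.apply_symm_apply e b).symm
      rw [h4, h3, map_one])
    refine ⟨((e.symm b₁ : N) : G), (hmem _).mpr ⟨(e.symm b₁).2, by simpa using hb₁⟩,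
      ((e.symm b₂ : N) : G), (hmem _).mpr ⟨(e.symm b₂).2, by simpa using hb₂⟩, ?_⟩
    have h5 : (⟨g, hgN⟩ : N) = e.symm b₁ * e.symm w * e.symm b₂ := by
      apply e.injective
      rw [map_mul, map_mul, MulEquiv.apply_symm_apply, MulEquiv.apply_symm_apply,
        MulEquiv.apply_symm_apply]
      exact e1
    exact congrArg Subtype.val h5

end Cfsg.Agent.S2486
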