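import Cfsg.Statements.S2487
import Cfsg.Agent.Lib.Helper49.O2Main
import Cfsg.Agent.Lib.Helper49.O2Mat
import Cfsg.Agent.Lib.Helper49.O2Fin
import Cfsg.Agent.Lib.Helper4.O2PLUSCNT

set_option autoImplicit false
open scoped Pointwise
open Cfsg

namespace Cfsg.Agent.S2487

/-- Let m ≥ 4 and let G be the full isometry group of the hyperbolic quadratic form x₁y₁ + ⋯ + x_m y_m on the 2m-dimensional space over the field with 2 elements (the orthogonal group O⁺(2m,2), which contains Ω⁺(2m,2) with index 2). Then any two Sylow 2-subgroups of G have a non-trivial intersection: for a Sylow 2-subgroup H and every x ∈ G, H ∩ H^x ≠ 1. -/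
theorem result {F : Type*} [Field F] [Fintype F] (hF : Fintype.card F = 2) {m : ℕ} (hm : 4 ≤ m)
    (H : Sylow 2 (Cfsg.isometryGroup F (Cfsg.quadFormPlus m F)))
    (x : Cfsg.isometryGroup F (Cfsg.quadFormPlus m F)) :
    (H : Subgroup (Cfsg.isometryGroup F (Cfsg.quadFormPlus m F))) ⊓ MulAut.conj x • (H : Subgroup _) ≠ ⊥ := by
  have hm1 : 1 ≤ m := by omega
  have hmain := Cfsg.Agent.Lib.Helper49.O2Syl.main hF (Cfsg.Agent.Lib.Helper49.O2Syl.QP m F)
    (Cfsg.Agent.Lib.Helper49.O2Syl.nW (Cfsg.Agent.Lib.Helper49.O2Syl.QP m F) ⊥) ⊥ le_rfl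
    (Cfsg.Agent.Lib.Helper49.O2Syl.good_QP m F)
    (Cfsg.Agent.Lib.Helper49.O2Syl.plus_QP_of_count m F
      (Cfsg.Agent.Lib.Helper4.O2Syl.plus_count hF m))
    (Cfsg.Agent.Lib.Helper49.O2Syl.ne_QP m hm1 F)
  exact Cfsg.Agent.Lib.Helper49.O2Syl.sylow_meet_transfer (Cfsg.quadFormPlus m F)
    (Cfsg.Agent.Lib.Helper49.O2Syl.QP m F) (Cfsg.Agent.Lib.Helper49.O2Syl.coe_QP m F).symm
    hmain H x

end Cfsg.Agent.S2487
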