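-- Statement S2488: any two Sylow 2-subgroups of A₆.2² intersect non-trivially.
import Cfsg.Statements.S2488
import Cfsg.Agent.Lib.Helper93.A6Syl

set_option autoImplicit false
open scoped Pointwise
open Cfsg

namespace Cfsg.Agent.S2488

open Cfsg.Agent.Lib.Helper93.A6Syl

section aux

variable {G : Type*} [Group G]

theorem aux_mem (N : Subgroup G) [N.Normal] (hab : ∀ a b : G, a * b * a⁻¹ * b⁻¹ ∈ N)
    (x h d : G) (hd : d ∈ N) : h * x * d * h⁻¹ * x⁻¹ ∈ N := by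
  have e : h * x * d * h⁻¹ * x⁻¹ = (h * x * h⁻¹ * x⁻¹) * (x * (h * d * h⁻¹) * x⁻¹) := by group
  rw [e]
  exact N.mul_mem (hab h x) (Subgroup.Normal.conj_mem inferInstance _
    (Subgroup.Normal.conj_mem inferInstance _ hd h) x)

theorem aux_inj (H D : Subgroup G) (hDH : D ≤ H) (x : G)
    (htriv : ∀ y ∈ H, x⁻¹ * y * x ∈ H → y = 1)
    (h d h' d' : G) (hh : h ∈ H) (hd : d ∈ D) (hh' : h' ∈ H) (hd' : d' ∈ D)
    (heq : h * x * d * h⁻¹ * x⁻¹ = h' * x * d' * h'⁻¹ * x⁻¹) : h = h' ∧ d = d' := by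
  have h0 : h * x * d * h⁻¹ = h' * x * d' * h'⁻¹ := mul_right_cancel heq
  have e1 : x⁻¹ * (h'⁻¹ * h) * x = d' * (h'⁻¹ * h) * d⁻¹ := by
    calc x⁻¹ * (h'⁻¹ * h) * x = x⁻¹ * h'⁻¹ * (h * x * d * h⁻¹) * h * d⁻¹ := by group
      _ = x⁻¹ * h'⁻¹ * (h' * x * d' * h'⁻¹) * h * d⁻¹ := by rw [h0]
      _ = d' * (h'⁻¹ * h) * d⁻¹ := by group
  have hk : h'⁻¹ * h ∈ H := H.mul_mem (H.inv_mem hh') hh
  have hk2 : x⁻¹ * (h'⁻¹ * h) * x ∈ H := by
    rw [e1]
    exact H.mul_mem (H.mul_mem (hDH hd') hk) (H.inv_mem (hDH hd))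
  have h1 := htriv _ hk hk2
  have hhh : h = h' := by
    have e2 : h = h' * (h'⁻¹ * h) := by group
    rw [e2, h1, mul_one]
  refine ⟨hhh, ?_⟩
  subst hhh
  have e3 : d = x⁻¹ * h⁻¹ * (h * x * d * h⁻¹) * h := by group
  have e4 : d' = x⁻¹ * h⁻¹ * (h * x * d' * h⁻¹) * h := by group
  rw [e3, e4, h0]

theorem aux_elt (N H D : Subgroup G) [N.Normal] (hD : D = H ⊓ N) (x : G)
    (htriv : ∀ y ∈ H, x⁻¹ * y * x ∈ H → y = 1)
    (E : Subgroup G) (hE : ∀ y, y ∈ E ↔ x⁻¹ * y * x ∈ D)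
    (h d : G) (hh : h ∈ H) (hd : d ∈ D) :
    TI D E (h * x * d * h⁻¹ * x⁻¹) ∧ (PH D E (h * x * d * h⁻¹ * x⁻¹) ↔ PH D E 1) := by
  have hDH : D ≤ H := by
    rw [hD]
    exact inf_le_left
  have hDN : D ≤ N := by
    rw [hD]
    exact inf_le_right
  have hconj : ∀ k ∈ H, ∀ z ∈ D, k * z * k⁻¹ ∈ D := by
    intro k hk z hz
    rw [hD]
    exact ⟨H.mul_mem (H.mul_mem hk (hDH hz)) (H.inv_mem hk),
      Subgroup.Normal.conj_mem inferInstance _ (hDN hz) k⟩
  have hconj' : ∀ k ∈ H, ∀ z ∈ D, k⁻¹ * z * k ∈ D := by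
    intro k hk z hz
    have := hconj k⁻¹ (H.inv_mem hk) z hz
    rwa [inv_inv] at this
  refine ⟨?_, ?_, ?_⟩
  · intro y hy hyE
    have h1 := (hE _).1 hyE
    have e1 : x⁻¹ * (h⁻¹ * y * h) * x
        = d * (h⁻¹ * (x⁻¹ * ((h * x * d * h⁻¹ * x⁻¹)⁻¹ * y * (h * x * d * h⁻¹ * x⁻¹)) * x) * h)
          * d⁻¹ := by group
    have h2 : x⁻¹ * (h⁻¹ * y * h) * x ∈ H := by
      rw [e1]
      exact H.mul_mem (H.mul_mem (hDH hd) (hDH (hconj' h hh _ h1))) (H.inv_mem (hDH hd))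
    have h3 := htriv _ (hDH (hconj' h hh y hy)) h2
    have e2 : y = h * (h⁻¹ * y * h) * h⁻¹ := by group
    rw [e2, h3]
    group
  · rintro ⟨p, hp, q, hq, hp1, hq1, hsq⟩
    have hq0 := (hE q).1 hq
    have hq2 : d * (h⁻¹ * (x⁻¹ * q * x) * h) * d⁻¹ ∈ D :=
      hconj d (hDH hd) _ (hconj' h hh _ hq0)
    refine ⟨h⁻¹ * p * h, hconj' h hh p hp, x * (d * (h⁻¹ * (x⁻¹ * q * x) * h) * d⁻¹) * x⁻¹, ?_,
      ?_, ?_, ?_⟩
    · rw [hE]
      have e : x⁻¹ * (x * (d * (h⁻¹ * (x⁻¹ * q * x) * h) * d⁻¹) * x⁻¹) * x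
          = d * (h⁻¹ * (x⁻¹ * q * x) * h) * d⁻¹ := by group
      rw [e]
      exact hq2
    · intro hh1
      apply hp1
      have e : p = h * (h⁻¹ * p * h) * h⁻¹ := by group
      rw [e, hh1]
      group
    · intro hh1
      apply hq1
      have e : q = (h * x * d * h⁻¹ * x⁻¹)⁻¹
          * (h * (x * (d * (h⁻¹ * (x⁻¹ * q * x) * h) * d⁻¹) * x⁻¹) * h⁻¹)
          * (h * x * d * h⁻¹ * x⁻¹) := by group
      rw [e, hh1]
      group
    · have e : h⁻¹ * p * h * (1 * (x * (d * (h⁻¹ * (x⁻¹ * q * x) * h) * d⁻¹) * x⁻¹) * 1⁻¹)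
          * (h⁻¹ * p * h * (1 * (x * (d * (h⁻¹ * (x⁻¹ * q * x) * h) * d⁻¹) * x⁻¹) * 1⁻¹))
          = h⁻¹ * (p * (h * x * d * h⁻¹ * x⁻¹ * q * (h * x * d * h⁻¹ * x⁻¹)⁻¹)
            * (p * (h * x * d * h⁻¹ * x⁻¹ * q * (h * x * d * h⁻¹ * x⁻¹)⁻¹))) * h := by group
      rw [e, hsq]
      group
  · rintro ⟨p, hp, q, hq, hp1, hq1, hsq⟩
    have hq0 := (hE q).1 hq
    refine ⟨h * p * h⁻¹, hconj h hh p hp,
      (h * x * d * h⁻¹ * x⁻¹)⁻¹ * (h * q * h⁻¹) * (h * x * d * h⁻¹ * x⁻¹), ?_, ?_, ?_, ?_⟩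
    · rw [hE]
      have e : x⁻¹ * ((h * x * d * h⁻¹ * x⁻¹)⁻¹ * (h * q * h⁻¹) * (h * x * d * h⁻¹ * x⁻¹)) * x
          = h * (d⁻¹ * (x⁻¹ * q * x) * d) * h⁻¹ := by group
      rw [e]
      exact hconj h hh _ (hconj' d (hDH hd) _ hq0)
    · intro hh1
      apply hp1
      have e : p = h⁻¹ * (h * p * h⁻¹) * h := by group
      rw [e, hh1]
      group
    · intro hh1
      apply hq1
      have e : q = h⁻¹ * ((h * x * d * h⁻¹ * x⁻¹)
          * ((h * x * d * h⁻¹ * x⁻¹)⁻¹ * (h * q * h⁻¹) * (h * x * d * h⁻¹ * x⁻¹))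
          * (h * x * d * h⁻¹ * x⁻¹)⁻¹) * h := by group
      rw [e, hh1]
      group
    · have e : h * p * h⁻¹ * (h * x * d * h⁻¹ * x⁻¹
            * ((h * x * d * h⁻¹ * x⁻¹)⁻¹ * (h * q * h⁻¹) * (h * x * d * h⁻¹ * x⁻¹))
            * (h * x * d * h⁻¹ * x⁻¹)⁻¹)
          * (h * p * h⁻¹ * (h * x * d * h⁻¹ * x⁻¹
            * ((h * x * d * h⁻¹ * x⁻¹)⁻¹ * (h * q * h⁻¹) * (h * x * d * h⁻¹ * x⁻¹))
            * (h * x * d * h⁻¹ * x⁻¹)⁻¹))
          = h * (p * (1 * q * 1⁻¹) * (p * (1 * q * 1⁻¹))) * h⁻¹ := by group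
      rw [e, hsq]
      group

theorem factorization_1440 : (1440 : ℕ).factorization 2 = 5 := by
  have e : (1440 : ℕ) = 2 ^ 5 * 45 := by norm_num
  rw [e, Nat.factorization_mul (by norm_num) (by norm_num), Nat.Prime.factorization_pow Nat.prime_two]
  simp [Nat.factorization_eq_zero_of_not_dvd (show ¬ 2 ∣ 45 by norm_num)]

end aux

/-- Let G be a finite group with a normal subgroup N of index 4 isomorphic to the alternating group of degree 6 and with trivial centralizer in G (so G is the full automorphism group of A₆). Then any two Sylow 2-subgroups of G have a non-trivial intersection: for a Sylow 2-subgroup H and every x ∈ G, H ∩ H^x ≠ 1. -/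
theorem result {G : Type*} [Group G] [Finite G] (N : Subgroup G) [N.Normal]
    (e : N ≃* alternatingGroup (Fin 6)) (hidx : N.index = 4)
    (hC : Subgroup.centralizer (N : Set G) = ⊥)
    (H : Sylow 2 G) (x : G) :
    (H : Subgroup G) ⊓ MulAut.conj x • (H : Subgroup G) ≠ ⊥ := by
  intro hbot
  have : Fact (Nat.Prime 2) := ⟨Nat.prime_two⟩
  -- orders
  have hN : Nat.card N = 360 := (Nat.card_congr e.toEquiv).trans card_A6
  have hG : Nat.card G = 1440 := by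
    rw [← Subgroup.card_mul_index N, hN, hidx]
  have hH : Nat.card (H : Subgroup G) = 32 := by
    rw [Sylow.card_eq_multiplicity, hG, factorization_1440]
    norm_num
  have hDcard : Nat.card ((H : Subgroup G) ⊓ N : Subgroup G) = 8 := by
    have h1 : Nat.card ((H : Subgroup G) ⊓ N : Subgroup G) ∣ 360 := by
      rw [← hN]
      exact Subgroup.card_dvd_of_le inf_le_right
    have h2 : ((H : Subgroup G) ⊓ N).relIndex (H : Subgroup G) ∣ 4 := by
      rw [Subgroup.inf_relIndex_left, ← hidx]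
      exact Subgroup.relIndex_dvd_index_of_normal N (H : Subgroup G)
    have h3 := Subgroup.relIndex_mul_index (inf_le_left : (H : Subgroup G) ⊓ N ≤ (H : Subgroup G))
    have h4 := Subgroup.card_mul_index ((H : Subgroup G) ⊓ N)
    have h5 := Subgroup.card_mul_index (H : Subgroup G)
    have hHi : (H : Subgroup G).index = 45 := by
      rw [hH, hG] at h5
      omega
    have hr : ((H : Subgroup G) ⊓ N).relIndex (H : Subgroup G) ≤ 4 := Nat.le_of_dvd (by norm_num) h2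
    have hr0 : 0 < ((H : Subgroup G) ⊓ N).relIndex (H : Subgroup G) := Nat.pos_of_dvd_of_pos h2 (by norm_num)
    rw [← h3, hHi, hG] at h4
    generalize ((H : Subgroup G) ⊓ N).relIndex (H : Subgroup G) = r at *
    generalize Nat.card ((H : Subgroup G) ⊓ N : Subgroup G) = c at *
    have hr' : r = 1 ∨ r = 2 ∨ r = 3 ∨ r = 4 := by omega
    rcases hr' with rfl | rfl | rfl | rfl
    · have : c = 32 := by omega
      subst this
      norm_num at h1
    · have : c = 16 := by omega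
      subst this
      norm_num at h1
    · omega
    · omega
  -- trivial intersection, elementwise
  have htriv : ∀ y ∈ (H : Subgroup G), x⁻¹ * y * x ∈ (H : Subgroup G) → y = 1 := by
    intro y hy hy2
    have hy3 : y ∈ MulAut.conj x • (H : Subgroup G) := by
      rw [Subgroup.mem_pointwise_smul_iff_inv_smul_mem]
      exact hy2
    have hmem : y ∈ (H : Subgroup G) ⊓ MulAut.conj x • (H : Subgroup G) :=
      Subgroup.mem_inf.2 ⟨hy, hy3⟩
    rw [hbot] at hmem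
    exact Subgroup.mem_bot.1 hmem
  -- the conjugate subgroup
  have hE : ∀ y, y ∈ ((H : Subgroup G) ⊓ N).map (MulAut.conj x).toMonoidHom
      ↔ x⁻¹ * y * x ∈ (H : Subgroup G) ⊓ N := by
    intro y
    rw [Subgroup.mem_map_equiv]
    rfl
  have hEcard : Nat.card (((H : Subgroup G) ⊓ N).map (MulAut.conj x).toMonoidHom) = 8 := by
    rw [Subgroup.card_map_of_injective (MulAut.conj x).injective, hDcard]
  have hEN : ((H : Subgroup G) ⊓ N).map (MulAut.conj x).toMonoidHom ≤ N := by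
    intro y hy
    have h1 := ((hE y).1 hy).2
    have e1 : y = x * (x⁻¹ * y * x) * x⁻¹ := by group
    rw [e1]
    exact Subgroup.Normal.conj_mem inferInstance _ h1 x
  -- the quotient is abelian
  have hab : ∀ a b : G, a * b * a⁻¹ * b⁻¹ ∈ N := by
    intro a b
    have hq : Nat.card (G ⧸ N) = 2 ^ 2 := by
      rw [← Subgroup.index_eq_card, hidx]
      norm_num
    have hc := (IsPGroup.isMulCommutative_of_card_eq_prime_sq hq).is_comm.comm
    rw [← QuotientGroup.eq_one_iff]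
    have e1 : ((a * b * a⁻¹ * b⁻¹ : G) : G ⧸ N)
        = (a : G ⧸ N) * (b : G ⧸ N) * (a : G ⧸ N)⁻¹ * (b : G ⧸ N)⁻¹ := rfl
    rw [e1, hc (a : G ⧸ N) (b : G ⧸ N)]
    group
  -- the injection
  set D : Subgroup G := (H : Subgroup G) ⊓ N with hD
  set E : Subgroup G := D.map (MulAut.conj x).toMonoidHom with hEdef
  have hDH : D ≤ (H : Subgroup G) := inf_le_left
  have hDN : D ≤ N := inf_le_right
  let f : ↥(↑H : Subgroup G) × ↥D → {m : G // m ∈ N ∧ TI D E m ∧ (PH D E m ↔ PH D E 1)} :=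
    fun hd => ⟨(hd.1 : G) * x * (hd.2 : G) * (hd.1 : G)⁻¹ * x⁻¹,
      aux_mem N hab x hd.1 hd.2 (hDN hd.2.2),
      aux_elt N (H : Subgroup G) D hD x htriv E hE hd.1 hd.2 hd.1.2 hd.2.2⟩
  have hf : Function.Injective f := by
    rintro ⟨⟨h, hh⟩, ⟨d, hd⟩⟩ ⟨⟨h', hh'⟩, ⟨d', hd'⟩⟩ heq
    have h0 : h * x * d * h⁻¹ * x⁻¹ = h' * x * d' * h'⁻¹ * x⁻¹ := congrArg Subtype.val heq
    obtain ⟨e1, e2⟩ := aux_inj (H : Subgroup G) D hDH x htriv h d h' d' hh hd hh' hd' h0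
    subst e1
    subst e2
    rfl
  have hcount := Nat.card_le_card_of_injective f hf
  rw [Nat.card_prod, hH, hDcard] at hcount
  -- transfer to the alternating group
  have hD1 : Nat.card ((D.comap N.subtype).map e.toMonoidHom) = 8 := by
    rw [Subgroup.card_map_of_injective e.injective, ← hDcard]
    exact Nat.card_congr (Subgroup.subgroupOfEquivOfLe hDN).toEquiv
  have hD2 : Nat.card ((E.comap N.subtype).map e.toMonoidHom) = 8 := by
    rw [Subgroup.card_map_of_injective e.injective, ← hEcard]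
    exact Nat.card_congr (Subgroup.subgroupOfEquivOfLe hEN).toEquiv
  let g : {m : G // m ∈ N ∧ TI D E m ∧ (PH D E m ↔ PH D E 1)} →
      {a : ↥(alternatingGroup (Fin 6)) // TI ((D.comap N.subtype).map e.toMonoidHom)
        ((E.comap N.subtype).map e.toMonoidHom) a ∧
        (PH ((D.comap N.subtype).map e.toMonoidHom) ((E.comap N.subtype).map e.toMonoidHom) a
          ↔ PH D E 1)} :=
    fun m => ⟨e ⟨m.1, m.2.1⟩, by
      rw [TI_map, PH_map, TI_comap N D E hDN, PH_comap N D E hDN hEN]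
      exact m.2.2⟩
  have hg : Function.Injective g := by
    rintro ⟨m, hm⟩ ⟨m', hm'⟩ heq
    have h0 : e ⟨m, hm.1⟩ = e ⟨m', hm'.1⟩ := congrArg Subtype.val heq
    have h1 := e.injective h0
    have h2 : m = m' := congrArg (fun z : N => (z : G)) h1
    subst h2
    rfl
  have hbound := (Nat.card_le_card_of_injective g hg).trans (a6_bound _ _ hD1 hD2 (PH D E 1))
  omega

end Cfsg.Agent.S2488
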