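import Cfsg.Statements.S2505
import Cfsg.Agent.Lib.Helper49.AbelPerm

set_option autoImplicit false
open Cfsg

namespace Cfsg.Agent.S2505

/-- The largest order of an abelian subgroup of the symmetric group of degree n is 3^k when n = 3k, 4·3^(k−1) when n = 3k + 1, and 2·3^k when n = 3k + 2, for every k ≥ 1. -/
theorem result (k : ℕ) (hk : 1 ≤ k) :
    IsGreatest {c : ℕ | ∃ A : Subgroup (Equiv.Perm (Fin (3 * k))), IsMulCommutative A ∧ Nat.card A = c} (3 ^ k) ∧
    IsGreatest {c : ℕ | ∃ A : Subgroup (Equiv.Perm (Fin (3 * k + 1))), IsMulCommutative A ∧ Nat.card A = c}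
      (4 * 3 ^ (k - 1)) ∧
    IsGreatest {c : ℕ | ∃ A : Subgroup (Equiv.Perm (Fin (3 * k + 2))), IsMulCommutative A ∧ Nat.card A = c}
      (2 * 3 ^ k) := by
  obtain ⟨j, rfl⟩ : ∃ j, k = j + 1 := ⟨k - 1, by omega⟩
  refine ⟨⟨?_, ?_⟩, ⟨?_, ?_⟩, ⟨?_, ?_⟩⟩
  · obtain ⟨A, hA, hcard⟩ := Cfsg.Agent.Lib.Helper49.exists_abel_subgroup_of_parts (j + 1)
      (fun _ => 3) (fun _ => by norm_num) (3 * (j + 1)) (by simp; ring)
    exact ⟨A, hA, by rw [hcard]; simp⟩
  · rintro c ⟨A, hA, rfl⟩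
    have := Cfsg.Agent.Lib.Helper49.abel_card_le_maxProd A
    rwa [Fintype.card_fin, Cfsg.Agent.Lib.Helper49.maxProd_three_mul] at this
  · obtain ⟨A, hA, hcard⟩ := Cfsg.Agent.Lib.Helper49.exists_abel_subgroup_of_parts (j + 1)
      (Fin.cons 4 (fun _ => 3)) (fun i => by
        induction i using Fin.cases with
        | zero => simp
        | succ i => simp) (3 * (j + 1) + 1) (by simp [Fin.sum_univ_succ]; ring)
    exact ⟨A, hA, by rw [hcard]; simp [Fin.prod_univ_succ]⟩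
  · rintro c ⟨A, hA, rfl⟩
    have := Cfsg.Agent.Lib.Helper49.abel_card_le_maxProd A
    rwa [Fintype.card_fin, Cfsg.Agent.Lib.Helper49.maxProd_three_mul_add_one] at this
  · obtain ⟨A, hA, hcard⟩ := Cfsg.Agent.Lib.Helper49.exists_abel_subgroup_of_parts (j + 1 + 1)
      (Fin.cons 2 (fun _ => 3)) (fun i => by
        induction i using Fin.cases with
        | zero => simp
        | succ i => simp) (3 * (j + 1) + 2) (by simp [Fin.sum_univ_succ]; ring)
    exact ⟨A, hA, by rw [hcard]; simp [Fin.prod_univ_succ]⟩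
  · rintro c ⟨A, hA, rfl⟩
    have := Cfsg.Agent.Lib.Helper49.abel_card_le_maxProd A
    rwa [Fintype.card_fin, Cfsg.Agent.Lib.Helper49.maxProd_three_mul_add_two] at this

end Cfsg.Agent.S2505
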