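import Cfsg.Statements.S2506
import Cfsg.Agent.Lib.Helper49.AltAbel

set_option autoImplicit false
open scoped Pointwise
open Cfsg

namespace Cfsg.Agent.S2506

open Equiv Cfsg.Agent.Lib.Helper49

theorem conj_transfer (n : ℕ) (A B : Subgroup (alternatingGroup (Fin n))) (g : Perm (Fin n))
    (hg : Perm.sign g = 1)
    (h : B.map (alternatingGroup (Fin n)).subtype =
      (A.map (alternatingGroup (Fin n)).subtype).map (MulAut.conj g).toMonoidHom) :
    ∃ g' : alternatingGroup (Fin n), B = MulAut.conj g' • A := by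
  refine ⟨⟨g, Perm.mem_alternatingGroup.mpr hg⟩, ?_⟩
  ext b
  rw [Subgroup.mem_pointwise_smul_iff_inv_smul_mem]
  constructor
  · intro hb
    have hb1 : (b : Perm (Fin n)) ∈ B.map (alternatingGroup (Fin n)).subtype :=
      Subgroup.mem_map_of_mem _ hb
    rw [h] at hb1
    obtain ⟨a1, ha1, hab⟩ := Subgroup.mem_map.mp hb1
    obtain ⟨a, ha, rfl⟩ := Subgroup.mem_map.mp ha1
    have hab' : g * (a : Perm (Fin n)) * g⁻¹ = (b : Perm (Fin n)) := hab
    have : (MulAut.conj (⟨g, Perm.mem_alternatingGroup.mpr hg⟩ : alternatingGroup (Fin n)))⁻¹ • b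
        = a := by
      apply Subtype.ext
      rw [MulAut.smul_def, MulAut.conj_inv_apply]
      show g⁻¹ * (b : Perm (Fin n)) * g = a
      rw [← hab']
      group
    rw [this]
    exact ha
  · intro hb
    have h1 : (((MulAut.conj (⟨g, Perm.mem_alternatingGroup.mpr hg⟩ :
        alternatingGroup (Fin n)))⁻¹ • b : alternatingGroup (Fin n)) : Perm (Fin n)) ∈
        A.map (alternatingGroup (Fin n)).subtype := Subgroup.mem_map_of_mem _ hb
    have h2 := Subgroup.mem_map_of_mem (MulAut.conj g).toMonoidHom h1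
    rw [← h] at h2
    obtain ⟨b', hb', hbb⟩ := Subgroup.mem_map.mp h2
    have e : b' = b := by
      apply Subtype.ext
      have hbb' : (b' : Perm (Fin n)) = g * (((MulAut.conj (⟨g, Perm.mem_alternatingGroup.mpr hg⟩ :
        alternatingGroup (Fin n)))⁻¹ • b : alternatingGroup (Fin n)) : Perm (Fin n)) * g⁻¹ := hbb
      rw [hbb', MulAut.smul_def, MulAut.conj_inv_apply]
      show g * (g⁻¹ * (b : Perm (Fin n)) * g) * g⁻¹ = b
      group
    rw [← e]
    exact hb'

theorem general_case (n k c : ℕ) (A B : Subgroup (alternatingGroup (Fin n)))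
    (hA : IsMulCommutative A) (hB : IsMulCommutative B)
    (hAmax : ∀ C : Subgroup (alternatingGroup (Fin n)), IsMulCommutative C →
      Nat.card C ≤ Nat.card A)
    (hBmax : ∀ C : Subgroup (alternatingGroup (Fin n)), IsMulCommutative C →
      Nat.card C ≤ Nat.card B)
    (hcase : (c = 0 ∧ n = 3 * k ∧ 3 ^ k ≤ Nat.card A) ∨
      (c = 1 ∧ n = 3 * k + 4 ∧ 4 * 3 ^ k ≤ Nat.card A) ∨
      (c = 2 ∧ n = 3 * k + 8 ∧ 16 * 3 ^ k ≤ Nat.card A)) :
    ∃ g : alternatingGroup (Fin n), B = MulAut.conj g • A := by
  have hcard : Nat.card B = Nat.card A := le_antisymm (hAmax B hB) (hBmax A hA)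
  have hA1 : Nat.card (A.map (alternatingGroup (Fin n)).subtype) = Nat.card A :=
    Subgroup.card_map_of_injective (Subgroup.subtype_injective _)
  have hB1 : Nat.card (B.map (alternatingGroup (Fin n)).subtype) = Nat.card B :=
    Subgroup.card_map_of_injective (Subgroup.subtype_injective _)
  have hAev : A.map (alternatingGroup (Fin n)).subtype ≤ alternatingGroup (Fin n) :=
    Subgroup.map_subtype_le A
  have hBev : B.map (alternatingGroup (Fin n)).subtype ≤ alternatingGroup (Fin n) :=
    Subgroup.map_subtype_le B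
  have hmax : ∀ C : Subgroup (Perm (Fin n)), IsMulCommutative C → C ≤ alternatingGroup (Fin n) →
      Nat.card C ≤ Nat.card (A.map (alternatingGroup (Fin n)).subtype) := by
    intro C hC hle
    have h1 : Nat.card (C.subgroupOf (alternatingGroup (Fin n))) = Nat.card C :=
      Nat.card_congr (Subgroup.subgroupOfEquivOfLe hle).toEquiv
    rw [hA1, ← h1]
    exact hAmax _ inferInstance
  obtain ⟨g, hg, hBA⟩ := abel_conj (A.map (alternatingGroup (Fin n)).subtype)
    (B.map (alternatingGroup (Fin n)).subtype) hAev hBev k c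
    (by rw [Fintype.card_fin, hA1]; exact hcase) (by rw [hA1, hB1, hcard]) hmax
  exact conj_transfer n A B g hg hBA

theorem parts_five (s : Multiset ℕ) (hs : ∀ a ∈ s, 1 ≤ a) (hsum : s.sum = 5)
    (hprod : 6 ≤ s.prod) : s = 2 ::ₘ Multiset.replicate 1 3 := by
  by_cases h3 : 3 ∈ s
  · obtain ⟨u, rfl⟩ := Multiset.exists_cons_of_mem h3
    rw [Multiset.sum_cons] at hsum
    rw [Multiset.prod_cons] at hprod
    rcases Cfsg.Agent.S2504.sum_two_case u (fun a ha => hs a (Multiset.mem_cons_of_mem ha))
      (by omega) with h | h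
    · omega
    · rw [h]
      decide
  · exfalso
    have h1 := Cfsg.Agent.S2504.prod_sq_le s (fun a ha => ⟨hs a ha, fun h => h3 (h ▸ ha)⟩)
    rw [hsum] at h1
    nlinarith

theorem case_five (A B : Subgroup (alternatingGroup (Fin 5)))
    (hA : IsMulCommutative A) (hB : IsMulCommutative B)
    (hAmax : ∀ C : Subgroup (alternatingGroup (Fin 5)), IsMulCommutative C →
      Nat.card C ≤ Nat.card A)
    (hBmax : ∀ C : Subgroup (alternatingGroup (Fin 5)), IsMulCommutative C →
      Nat.card C ≤ Nat.card B) :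
    ∃ g : alternatingGroup (Fin 5), B = MulAut.conj g • A := by
  classical
  have hG : Nat.card (alternatingGroup (Fin 5)) = 60 := by
    have h := two_mul_nat_card_alternatingGroup (α := Fin 5)
    have h2 : Nat.card (Perm (Fin 5)) = 120 := by
      rw [Nat.card_perm, Nat.card_fin]
      rfl
    omega
  have : Fact (Nat.Prime 5) := ⟨by norm_num⟩
  have h5le : ∀ X : Subgroup (alternatingGroup (Fin 5)),
      (∀ C : Subgroup (alternatingGroup (Fin 5)), IsMulCommutative C →
        Nat.card C ≤ Nat.card X) → 5 ≤ Nat.card X := by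
    intro X hX
    obtain ⟨σ, hσ⟩ := exists_prime_orderOf_dvd_card' (G := alternatingGroup (Fin 5)) 5
      (by rw [hG]; norm_num)
    have := hX (Subgroup.zpowers σ) inferInstance
    rwa [Nat.card_zpowers, hσ] at this
  have h5ge : ∀ X : Subgroup (alternatingGroup (Fin 5)), IsMulCommutative X →
      Nat.card X ≤ 5 := by
    intro X hX
    have hc : Nat.card (X.map (alternatingGroup (Fin 5)).subtype) = Nat.card X :=
      Subgroup.card_map_of_injective (Subgroup.subtype_injective _)
    have hev : X.map (alternatingGroup (Fin 5)).subtype ≤ alternatingGroup (Fin 5) :=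
      Subgroup.map_subtype_le X
    have hle6 : Nat.card (X.map (alternatingGroup (Fin 5)).subtype) ≤ 6 := by
      have := abel_card_le_maxProd (X.map (alternatingGroup (Fin 5)).subtype)
      rw [Fintype.card_fin] at this
      exact this
    by_contra hcon
    have h6 : 6 ≤ Nat.card (X.map (alternatingGroup (Fin 5)).subtype) := by omega
    letI : Fintype (MulAction.orbitRel.Quotient (X.map (alternatingGroup (Fin 5)).subtype)
      (Fin 5)) := Fintype.ofFinite _
    have h1 : Nat.card (X.map (alternatingGroup (Fin 5)).subtype) ≤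
        (orbitSizes (X.map (alternatingGroup (Fin 5)).subtype)).prod :=
      abel_card_le_prod_orbits _
    have h2 : (orbitSizes (X.map (alternatingGroup (Fin 5)).subtype)).sum = 5 := by
      have := sum_card_orbits (X.map (alternatingGroup (Fin 5)).subtype)
      rwa [Fintype.card_fin] at this
    have hs1 : ∀ a ∈ orbitSizes (X.map (alternatingGroup (Fin 5)).subtype), 1 ≤ a := by
      intro a ha
      obtain ⟨ω, -, rfl⟩ := Multiset.mem_map.mp ha
      have : Nonempty (MulAction.orbit (X.map (alternatingGroup (Fin 5)).subtype) ω.out) :=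
        ⟨⟨ω.out, MulAction.mem_orbit_self _⟩⟩
      exact Nat.card_pos
    exact no_two_threes _ hev 1 (parts_five _ hs1 h2 (by omega))
  have hA5 : Nat.card A = 5 := le_antisymm (h5ge A hA) (h5le A hAmax)
  have hB5 : Nat.card B = 5 := le_antisymm (h5ge B hB) (h5le B hBmax)
  have key : ∀ X : Subgroup (alternatingGroup (Fin 5)), Nat.card X = 5 →
      ∃ P : Sylow 5 (alternatingGroup (Fin 5)), (P : Subgroup (alternatingGroup (Fin 5))) = X := by
    intro X hX
    have hp : IsPGroup 5 X := IsPGroup.of_card (n := 1) (by rw [hX]; norm_num)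
    obtain ⟨Q, hQ⟩ := hp.exists_le_sylow
    refine ⟨Q, ?_⟩
    obtain ⟨j, hj⟩ := IsPGroup.iff_card.mp Q.2
    have hdvd : Nat.card Q ∣ 60 := by
      have h := Subgroup.card_subgroup_dvd_card (Q : Subgroup (alternatingGroup (Fin 5)))
      rwa [hG] at h
    have hj1 : j ≤ 1 := by
      by_contra hcon
      have h25 : 25 ∣ 5 ^ j := by
        obtain ⟨i, rfl⟩ : ∃ i, j = i + 2 := ⟨j - 2, by omega⟩
        exact ⟨5 ^ i, by ring⟩
      rw [hj] at hdvd
      have := h25.trans hdvd
      omega
    have hcardQ : Nat.card Q ≤ 5 := by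
      rw [hj]
      calc 5 ^ j ≤ 5 ^ 1 := Nat.pow_le_pow_right (by norm_num) hj1
        _ = 5 := by norm_num
    exact (Subgroup.eq_of_le_of_card_ge hQ (by rw [hX]; exact hcardQ)).symm
  obtain ⟨PA, hPA⟩ := key A hA5
  obtain ⟨PB, hPB⟩ := key B hB5
  obtain ⟨g, hg⟩ := MulAction.exists_smul_eq (alternatingGroup (Fin 5)) PA PB
  refine ⟨g, ?_⟩
  rw [← hPA, ← hPB, ← hg, Sylow.coe_subgroup_smul]

theorem trivial_case (n : ℕ) (hn : n = 1 ∨ n = 2) (A B : Subgroup (alternatingGroup (Fin n))) :
    ∃ g : alternatingGroup (Fin n), B = MulAut.conj g • A := by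
  have hsub : Subsingleton (alternatingGroup (Fin n)) := by
    rcases hn with rfl | rfl
    · infer_instance
    · have h := two_mul_nat_card_alternatingGroup (α := Fin 2)
      have h2 : Nat.card (Perm (Fin 2)) = 2 := by
        rw [Nat.card_perm, Nat.card_fin]
        rfl
      exact Finite.card_le_one_iff_subsingleton.mp (by omega)
  refine ⟨1, ?_⟩
  rw [map_one, one_smul, Subgroup.eq_bot_of_subsingleton A, Subgroup.eq_bot_of_subsingleton B]

/-- In the alternating group of any degree, any two abelian subgroups of the largest possible order (among abelian subgroups) are conjugate. -/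
theorem result (n : ℕ)
    (A B : Subgroup (alternatingGroup (Fin n))) (hA : IsMulCommutative A) (hB : IsMulCommutative B)
    (hAmax : ∀ C : Subgroup (alternatingGroup (Fin n)), IsMulCommutative C → Nat.card C ≤ Nat.card A)
    (hBmax : ∀ C : Subgroup (alternatingGroup (Fin n)), IsMulCommutative C → Nat.card C ≤ Nat.card B) :
    ∃ g : alternatingGroup (Fin n), B = MulAut.conj g • A := by
  have hn : n = 1 ∨ n = 2 ∨ n = 5 ∨ (∃ k, n = 3 * k) ∨ (∃ k, n = 3 * (k + 1) + 1) ∨
      (∃ k, n = 3 * (k + 2) + 2) := by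
    have h3 := Nat.mod_add_div n 3
    rcases (by omega : n % 3 = 0 ∨ n % 3 = 1 ∨ n % 3 = 2) with h | h | h
    · right; right; right; left
      exact ⟨n / 3, by omega⟩
    · by_cases h1 : n = 1
      · left
        exact h1
      · right; right; right; right; left
        exact ⟨n / 3 - 1, by omega⟩
    · by_cases h2 : n = 2
      · right; left
        exact h2
      · by_cases h5 : n = 5
        · right; right; left
          exact h5
        · right; right; right; right; right
          exact ⟨n / 3 - 2, by omega⟩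
  rcases hn with rfl | rfl | rfl | ⟨k, rfl⟩ | ⟨k, rfl⟩ | ⟨k, rfl⟩
  · exact trivial_case 1 (Or.inl rfl) A B
  · exact trivial_case 2 (Or.inr rfl) A B
  · exact case_five A B hA hB hAmax hBmax
  · apply general_case (3 * k) k 0 A B hA hB hAmax hBmax
    left
    refine ⟨rfl, rfl, ?_⟩
    rcases k with _ | k
    · rw [pow_zero]
      exact Nat.card_pos
    · obtain ⟨C, hC, hc⟩ := Cfsg.Agent.S2504.exists_of_hasEvenAbel
        (Cfsg.Agent.S2504.hasEvenAbel_three_mul k)
      rw [← hc]
      exact hAmax C hC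
  · apply general_case (3 * (k + 1) + 1) k 1 A B hA hB hAmax hBmax
    right; left
    refine ⟨rfl, by ring, ?_⟩
    obtain ⟨C, hC, hc⟩ := Cfsg.Agent.S2504.exists_of_hasEvenAbel
      (Cfsg.Agent.S2504.hasEvenAbel_four_add k)
    rw [← hc]
    exact hAmax C hC
  · apply general_case (3 * (k + 2) + 2) k 2 A B hA hB hAmax hBmax
    right; right
    refine ⟨rfl, by ring, ?_⟩
    obtain ⟨C, hC, hc⟩ := Cfsg.Agent.S2504.exists_of_hasEvenAbel
      (Cfsg.Agent.S2504.hasEvenAbel_eight_add k)
    rw [← hc]
    exact hAmax C hC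

end Cfsg.Agent.S2506
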