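import Cfsg.Statements.S2513
import Cfsg.Agent.Lib.Helper49.PSLn
import Cfsg.Agent.Lib.Helper49.PPow

set_option autoImplicit false
set_option linter.style.haveILetI false
open Cfsg

namespace Cfsg.Agent.S2513

open Cfsg.Agent.Lib.Helper49

theorem pi_orderOf_dvd_iff {ι : Type*} {X : Type*} [Group X] (f : ι → X) (d : ℕ) :
    orderOf f ∣ d ↔ ∀ i, orderOf (f i) ∣ d := by
  rw [orderOf_dvd_iff_pow_eq_one, funext_iff]
  simp only [Pi.pow_apply, Pi.one_apply, orderOf_dvd_iff_pow_eq_one]

/-- The purely combinatorial part. -/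
theorem main_aux {L : Type*} [Group L] [Finite L] (n : ℕ) (hn : 2 ≤ n)
    (E1 : ∀ d, 1 ≤ d → d ≤ n → ∀ c, c ∣ 2 ^ d - 1 → c ∈ Set.range (orderOf : L → ℕ))
    (N1 : ∀ r e, r.Prime → r ≠ 2 → r ^ (e + 1) ∈ Set.range (orderOf : L → ℕ) →
      ∃ d, 1 ≤ d ∧ d ≤ n ∧ r ^ (e + 1) ∣ 2 ^ d - 1)
    (k : ℕ) (hk : (n + 3) / 2 ≤ k) :
    Set.range (orderOf : (Fin k → L) → ℕ) =
      Set.range (orderOf : (Fin ((n + 3) / 2) → L) → ℕ) := by
  classical
  apply Set.eq_of_subset_of_subset
  · rintro _ ⟨f, rfl⟩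
    obtain ⟨m, hm⟩ : ∃ m, m = orderOf f := ⟨_, rfl⟩
    rw [← hm]
    have hmpos : 0 < m := hm ▸ orderOf_pos f
    -- prime powers dividing m are element orders of L
    have K : ∀ r e, r.Prime → r ^ (e + 1) ∣ m → r ^ (e + 1) ∈ Set.range (orderOf : L → ℕ) := by
      intro r e hr hdvd
      haveI : Fact r.Prime := ⟨hr⟩
      have hrpos : 0 < r ^ (e + 1) := pos_of_ne_zero (pow_ne_zero _ hr.ne_zero)
      have hdiv0 : m / r ^ (e + 1) ≠ 0 := by
        have := Nat.div_pos (Nat.le_of_dvd hmpos hdvd) hrpos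
        omega
      have hg : orderOf (f ^ (m / r ^ (e + 1))) = r ^ (e + 1) := by
        rw [orderOf_pow_of_dvd hdiv0 (hm ▸ Nat.div_dvd_of_dvd hdvd), ← hm]
        exact Nat.div_div_self hdvd (by omega)
      have hne : (f ^ (m / r ^ (e + 1))) ^ (r ^ e) ≠ 1 := by
        intro h
        have h1 := orderOf_dvd_of_pow_eq_one h
        rw [hg] at h1
        have h2 := Nat.le_of_dvd (pos_of_ne_zero (pow_ne_zero _ hr.ne_zero)) h1
        have h3 : r ^ e < r ^ (e + 1) := Nat.pow_lt_pow_right hr.one_lt (by omega)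
        omega
      have hex : ∃ i, ((f ^ (m / r ^ (e + 1))) ^ (r ^ e)) i ≠ 1 := by
        by_contra hcon
        push Not at hcon
        exact hne (funext hcon)
      obtain ⟨i, hi⟩ := hex
      refine ⟨(f ^ (m / r ^ (e + 1))) i, ?_⟩
      apply orderOf_eq_prime_pow
      · exact hi
      · have h1 := pow_orderOf_eq_one (f ^ (m / r ^ (e + 1)))
        rw [hg] at h1
        exact congrFun h1 i
    obtain ⟨t, m', hodd, hmeq⟩ := Nat.exists_eq_two_pow_mul_odd (Nat.pos_iff_ne_zero.mp hmpos)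
    have h2t : 2 ^ t ∈ Set.range (orderOf : L → ℕ) := by
      rcases Nat.eq_zero_or_pos t with rfl | ht
      · exact ⟨1, by simp⟩
      · obtain ⟨t', rfl⟩ : ∃ t', t = t' + 1 := ⟨t - 1, by omega⟩
        exact K 2 t' Nat.prime_two (hmeq ▸ Dvd.intro _ rfl)
    have hm'm : m' ∣ m := hmeq ▸ Dvd.intro_left _ rfl
    obtain ⟨h, hh⟩ : ∃ h, h = n / 2 := ⟨_, rfl⟩
    have hk0 : (n + 3) / 2 = n - h + 1 := by omega
    have hc : ∀ j : Fin ((n + 3) / 2), ∃ x : L, orderOf x =
        if (j : ℕ) + 1 < (n + 3) / 2 then Nat.gcd m' (2 ^ (h + 1 + (j : ℕ)) - 1) else 2 ^ t := by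
      intro j
      split_ifs with hj
      · exact E1 (h + 1 + (j : ℕ)) (by omega) (by omega) _ (Nat.gcd_dvd_right _ _)
      · exact h2t
    choose x hx using hc
    refine ⟨x, ?_⟩
    have hcomp : ∀ j, orderOf (x j) ∣ orderOf x := fun j =>
      (pi_orderOf_dvd_iff x (orderOf x)).mp dvd_rfl j
    apply Nat.dvd_antisymm
    · rw [pi_orderOf_dvd_iff]
      intro j
      rw [hx]
      split_ifs with hj
      · exact dvd_trans (Nat.gcd_dvd_left _ _) hm'm
      · exact hmeq ▸ Dvd.intro _ rfl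
    · rw [hmeq]
      have hcop : Nat.Coprime (2 ^ t) m' :=
        Nat.Coprime.pow_left _ ((Nat.Prime.coprime_iff_not_dvd Nat.prime_two).mpr
            (fun h2 => by
              have := hodd
              rw [Nat.odd_iff] at this
              omega))
      apply hcop.mul_dvd_of_dvd_of_dvd
      · have hlast := hcomp ⟨(n + 3) / 2 - 1, by omega⟩
        rw [hx] at hlast
        rw [if_neg (by simp only; omega)] at hlast
        exact hlast
      · rw [Nat.dvd_iff_prime_pow_dvd_dvd]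
        intro p e hp hpe
        rcases Nat.eq_zero_or_pos e with rfl | he
        · simp
        obtain ⟨e', rfl⟩ : ∃ e', e = e' + 1 := ⟨e - 1, by omega⟩
        have hp2 : p ≠ 2 := by
          rintro rfl
          have h2 : 2 ∣ m' := dvd_trans (dvd_pow_self 2 (by omega)) hpe
          rw [Nat.odd_iff] at hodd
          omega
        obtain ⟨d, hd1, hdn, hd⟩ := N1 p e' hp hp2 (K p e' hp (dvd_trans hpe hm'm))
        obtain ⟨d', hd'⟩ : ∃ d', d' = d * (n / d) := ⟨_, rfl⟩
        have h1 : d' ≤ n := hd' ▸ Nat.mul_div_le n d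
        have h2 : n < d' + d := by
          have := Nat.lt_mul_div_succ n (show 0 < d by omega)
          rw [Nat.mul_add, Nat.mul_one] at this
          omega
        have h3 : d ≤ d' := by
          have : 1 ≤ n / d := Nat.div_pos hdn (by omega)
          rw [hd']
          exact Nat.le_mul_of_pos_right d this
        have h4 : 2 ^ d - 1 ∣ 2 ^ d' - 1 := by
          have := Nat.sub_dvd_pow_sub_pow (2 ^ d) 1 (n / d)
          rwa [one_pow, ← pow_mul, ← hd'] at this
        have hj := hcomp ⟨d' - h - 1, by omega⟩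
        rw [hx] at hj
        rw [if_pos (by simp only; omega)] at hj
        simp only at hj
        have h5 : h + 1 + (d' - h - 1) = d' := by omega
        rw [h5] at hj
        exact dvd_trans (Nat.dvd_gcd hpe (dvd_trans hd h4)) hj
  · rintro _ ⟨f', rfl⟩
    refine ⟨fun i => if h : (i : ℕ) < (n + 3) / 2 then f' ⟨i, h⟩ else 1, ?_⟩
    apply Nat.dvd_antisymm
    · rw [pi_orderOf_dvd_iff]
      intro i
      split_ifs with h
      · exact (pi_orderOf_dvd_iff f' (orderOf f')).mp dvd_rfl _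
      · simp
    · rw [pi_orderOf_dvd_iff]
      intro j
      have h1 := (pi_orderOf_dvd_iff (fun i : Fin k => if h : (i : ℕ) < (n + 3) / 2 then
        f' ⟨i, h⟩ else 1) (orderOf (fun i : Fin k => if h : (i : ℕ) < (n + 3) / 2 then
        f' ⟨i, h⟩ else 1))).mp dvd_rfl ⟨j, by have := j.2; omega⟩
      simp only [Fin.is_lt, dif_pos, Fin.eta] at h1
      exact h1

section F2

variable {F : Type*} [Field F] [Fintype F]

theorem f2_cases (hF : Fintype.card F = 2) (c : F) : c = 0 ∨ c = 1 := by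
  by_cases hc : c = 0
  · exact Or.inl hc
  · right
    have := FiniteField.pow_card_sub_one_eq_one c hc
    rwa [hF, show 2 - 1 = 1 from rfl, pow_one] at this

theorem psl2_pow_eq_one_iff (hF : Fintype.card F = 2) {n : ℕ} (hn : n ≠ 0)
    (A : Matrix.SpecialLinearGroup (Fin n) F) (k : ℕ) :
    (QuotientGroup.mk A : Matrix.ProjectiveSpecialLinearGroup (Fin n) F) ^ k = 1 ↔
      (A : Matrix (Fin n) (Fin n) F) ^ k = 1 := by
  rw [psl_pow_eq_one_iff]
  constructor
  · rintro ⟨c, hc⟩
    rcases f2_cases hF c with rfl | rfl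
    · exfalso
      haveI : Nonempty (Fin n) := ⟨⟨0, Nat.pos_of_ne_zero hn⟩⟩
      have hdet := congrArg Matrix.det hc
      rw [zero_smul, Matrix.det_zero, Matrix.det_pow, A.det_coe, one_pow] at hdet
      exact one_ne_zero hdet
    · rw [hc, one_smul]
  · intro h
    exact ⟨1, by rw [h, one_smul]⟩

end F2

/-- Let F be the field with two elements, n ≥ 2, L = PSL(n, F) and k₀ = ⌊(n + 3)/2⌋. Then for every k ≥ k₀ the direct product of k copies of L has the same set of element orders as the direct product of k₀ copies of L. -/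
theorem result {F : Type*} [Field F] [Fintype F] (hF : Fintype.card F = 2) (n k : ℕ) (hn : 2 ≤ n) (hk : (n + 3) / 2 ≤ k) :
    Set.range (orderOf : (Fin k → Matrix.ProjectiveSpecialLinearGroup (Fin n) F) → ℕ) = Set.range (orderOf : (Fin ((n + 3) / 2) → Matrix.ProjectiveSpecialLinearGroup (Fin n) F) → ℕ) := by
  classical
  haveI : Fact (Nat.Prime 2) := ⟨Nat.prime_two⟩
  haveI : CharP F 2 := charP_of_card_eq_prime hF
  apply main_aux n hn _ _ k hk
  · intro d hd1 hdn c hc
    obtain ⟨m, rfl⟩ : ∃ m, n = d + m := ⟨n - d, by omega⟩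
    obtain ⟨T, hdet, hT1, hT2⟩ := exists_singer_block (F := F) 2 d (by omega) c
      (by rw [hF]; exact hc) (by rw [hF]; simp)
    exact exists_psl_of_pad T hdet c hT2 hT1 m
  · rintro r e hr hr2 ⟨g, hg⟩
    obtain ⟨A, rfl⟩ := QuotientGroup.mk_surjective g
    have h1 : (QuotientGroup.mk A : Matrix.ProjectiveSpecialLinearGroup (Fin n) F) ^
        (r ^ (e + 1)) = 1 := by
      rw [← hg, pow_orderOf_eq_one]
    have h2 : (QuotientGroup.mk A : Matrix.ProjectiveSpecialLinearGroup (Fin n) F) ^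
        (r ^ e) ≠ 1 := by
      intro h
      have h3 := orderOf_dvd_of_pow_eq_one h
      rw [hg] at h3
      have h4 := Nat.le_of_dvd (pos_of_ne_zero (pow_ne_zero _ hr.ne_zero)) h3
      have h5 : r ^ e < r ^ (e + 1) := Nat.pow_lt_pow_right hr.one_lt (by omega)
      omega
    rw [psl2_pow_eq_one_iff hF (by omega)] at h1
    rw [Ne, psl2_pow_eq_one_iff hF (by omega)] at h2
    have hrq : ¬ r ∣ Fintype.card F := by
      rw [hF]
      intro h
      exact hr2 ((Nat.prime_dvd_prime_iff_eq hr Nat.prime_two).mp h)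
    obtain ⟨d, hd1, hdn, hd⟩ := ppow_dvd (A : Matrix (Fin n) (Fin n) F) r e hr hrq h1 h2
    rw [hF] at hd
    exact ⟨d, hd1, hdn, hd⟩

end Cfsg.Agent.S2513
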