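import Cfsg.Statements.S2514
import Mathlib

set_option autoImplicit false
open Cfsg

namespace Cfsg.Agent.S2514

/-- element orders are closed under divisors -/
theorem spec_dvd_closed {X : Type*} [Group X] [Finite X] {n d : ℕ}
    (hn : n ∈ Set.range (orderOf : X → ℕ)) (hd : d ∣ n) : d ∈ Set.range (orderOf : X → ℕ) := by
  obtain ⟨x, rfl⟩ := hn
  have hpos : 0 < orderOf x := orderOf_pos x
  obtain ⟨e, he⟩ := hd
  have he0 : e ≠ 0 := by
    rintro rfl
    rw [mul_zero] at he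
    omega
  have hd0 : d ≠ 0 := by
    rintro rfl
    rw [zero_mul] at he
    omega
  refine ⟨x ^ e, ?_⟩
  rw [orderOf_pow_of_dvd he0 ⟨d, by rw [he, mul_comm]⟩, he]
  exact Nat.mul_div_cancel _ (Nat.pos_of_ne_zero he0)

/-- every element order divides a maximal one -/
theorem spec_dvd_max {X : Type*} [Group X] [Finite X] {n : ℕ}
    (hn : n ∈ Set.range (orderOf : X → ℕ)) :
    ∃ m, (m ∈ Set.range (orderOf : X → ℕ) ∧ ∀ m' ∈ Set.range (orderOf : X → ℕ), m ∣ m' → m' = m) ∧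
      n ∣ m := by
  classical
  have hfin : (Set.range (orderOf : X → ℕ)).Finite := Set.finite_range _
  have hne : ({m | m ∈ Set.range (orderOf : X → ℕ) ∧ n ∣ m}).Nonempty := ⟨n, hn, dvd_rfl⟩
  have hfin2 : ({m | m ∈ Set.range (orderOf : X → ℕ) ∧ n ∣ m}).Finite :=
    hfin.subset (fun m hm => hm.1)
  obtain ⟨m, ⟨hm1, hm2⟩, hmax⟩ := hfin2.exists_maximal hne
  refine ⟨m, ⟨hm1, ?_⟩, hm2⟩
  intro m' hm' hdvd
  obtain ⟨y, rfl⟩ := hm'
  have hpos : 0 < orderOf y := orderOf_pos y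
  have hle : m ≤ orderOf y := Nat.le_of_dvd hpos hdvd
  exact le_antisymm (hmax ⟨⟨y, rfl⟩, dvd_trans hm2 hdvd⟩ hle) hle

theorem pi_orderOf_dvd_iff {ι : Type*} {X : Type*} [Group X] (f : ι → X) (d : ℕ) :
    orderOf f ∣ d ↔ ∀ i, orderOf (f i) ∣ d := by
  rw [orderOf_dvd_iff_pow_eq_one, funext_iff]
  simp only [Pi.pow_apply, Pi.one_apply, orderOf_dvd_iff_pow_eq_one]

theorem prod_orderOf_dvd_iff {X Y : Type*} [Group X] [Group Y] (x : X × Y) (d : ℕ) :
    orderOf x ∣ d ↔ orderOf x.1 ∣ d ∧ orderOf x.2 ∣ d := by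
  rw [Prod.orderOf, Nat.lcm_dvd_iff]

theorem eq_of_forall_dvd_iff {a b : ℕ} (h : ∀ d, a ∣ d ↔ b ∣ d) : a = b :=
  Nat.dvd_antisymm ((h b).mpr dvd_rfl) ((h a).mp dvd_rfl)

theorem aux {G H : Type*} [Group G] [Finite G] [Group H] [Finite H] (k : ℕ)
    (hsub : {n : ℕ | n ∈ Set.range (orderOf : H → ℕ) ∧ ∀ m ∈ Set.range (orderOf : H → ℕ), n ∣ m → m = n} ⊆ {n : ℕ | n ∈ Set.range (orderOf : G → ℕ) ∧ ∀ m ∈ Set.range (orderOf : G → ℕ), n ∣ m → m = n})
    (hfew : ({n : ℕ | n ∈ Set.range (orderOf : G → ℕ) ∧ ∀ m ∈ Set.range (orderOf : G → ℕ), n ∣ m → m = n} \ {n : ℕ | n ∈ Set.range (orderOf : H → ℕ) ∧ ∀ m ∈ Set.range (orderOf : H → ℕ), n ∣ m → m = n}).ncard < k + 1) :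
    Set.range (orderOf : (Fin (k + 1) → G) → ℕ) = Set.range (orderOf : (Fin k → G) × H → ℕ) := by
  classical
  have hHG : ∀ n, n ∈ Set.range (orderOf : H → ℕ) → n ∈ Set.range (orderOf : G → ℕ) := by
    intro n hn
    obtain ⟨m, hm, hnm⟩ := spec_dvd_max hn
    exact spec_dvd_closed (hsub hm).1 hnm
  apply Set.eq_of_subset_of_subset
  · rintro _ ⟨f, rfl⟩
    have hB : ∀ i, ∃ m, (m ∈ Set.range (orderOf : G → ℕ) ∧ ∀ m' ∈ Set.range (orderOf : G → ℕ), m ∣ m' → m' = m) ∧
        orderOf (f i) ∣ m := fun i => spec_dvd_max ⟨f i, rfl⟩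
    choose m hm hfm using hB
    by_cases hcase : ∃ i, m i ∈ {n : ℕ | n ∈ Set.range (orderOf : H → ℕ) ∧ ∀ m ∈ Set.range (orderOf : H → ℕ), n ∣ m → m = n}
    · obtain ⟨i, hi⟩ := hcase
      obtain ⟨h, hh⟩ := spec_dvd_closed hi.1 (hfm i)
      refine ⟨(fun j => f (i.succAbove j), h), ?_⟩
      apply eq_of_forall_dvd_iff
      intro d
      rw [prod_orderOf_dvd_iff, pi_orderOf_dvd_iff, pi_orderOf_dvd_iff]
      simp only
      rw [hh]
      constructor
      · rintro ⟨h1, h2⟩ i'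
        by_cases hi' : i' = i
        · rw [hi']; exact h2
        · obtain ⟨j, rfl⟩ := Fin.exists_succAbove_eq hi'
          exact h1 j
      · intro h1
        exact ⟨fun j => h1 _, h1 i⟩
    · push Not at hcase
      have hmaps : ∀ i ∈ (Set.univ : Set (Fin (k + 1))), m i ∈
          ({n : ℕ | n ∈ Set.range (orderOf : G → ℕ) ∧ ∀ m ∈ Set.range (orderOf : G → ℕ), n ∣ m → m = n} \ {n : ℕ | n ∈ Set.range (orderOf : H → ℕ) ∧ ∀ m ∈ Set.range (orderOf : H → ℕ), n ∣ m → m = n}) :=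
        fun i _ => ⟨hm i, hcase i⟩
      have hfinD : ({n : ℕ | n ∈ Set.range (orderOf : G → ℕ) ∧ ∀ m ∈ Set.range (orderOf : G → ℕ), n ∣ m → m = n} \ {n : ℕ | n ∈ Set.range (orderOf : H → ℕ) ∧ ∀ m ∈ Set.range (orderOf : H → ℕ), n ∣ m → m = n}).Finite :=
        (Set.finite_range (orderOf : G → ℕ)).subset (fun n hn => hn.1.1)
      have hcard : ({n : ℕ | n ∈ Set.range (orderOf : G → ℕ) ∧ ∀ m ∈ Set.range (orderOf : G → ℕ), n ∣ m → m = n} \ {n : ℕ | n ∈ Set.range (orderOf : H → ℕ) ∧ ∀ m ∈ Set.range (orderOf : H → ℕ), n ∣ m → m = n}).ncard < (Set.univ : Set (Fin (k + 1))).ncard := by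
        rw [Set.ncard_univ, Nat.card_eq_fintype_card, Fintype.card_fin]
        exact hfew
      obtain ⟨i, -, j, -, hij, hmij⟩ := Set.exists_ne_map_eq_of_ncard_lt_of_maps_to hcard hmaps hfinD
      have hl : Nat.lcm (orderOf (f i)) (orderOf (f j)) ∣ m i :=
        Nat.lcm_dvd (hfm i) (hmij ▸ hfm j)
      obtain ⟨g0, hg0⟩ := spec_dvd_closed (hm i).1 hl
      refine ⟨(fun l => if i.succAbove l = j then g0 else f (i.succAbove l), 1), ?_⟩
      apply eq_of_forall_dvd_iff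
      intro d
      rw [prod_orderOf_dvd_iff, pi_orderOf_dvd_iff, pi_orderOf_dvd_iff]
      simp only [orderOf_one, one_dvd, and_true]
      obtain ⟨lj, hlj⟩ := Fin.exists_succAbove_eq (Ne.symm hij)
      constructor
      · intro h1 i'
        by_cases hi' : i' = i
        · have := h1 lj
          rw [if_pos hlj, hg0] at this
          rw [hi']
          exact dvd_trans (Nat.dvd_lcm_left _ _) this
        · obtain ⟨l, rfl⟩ := Fin.exists_succAbove_eq hi'
          have := h1 l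
          by_cases hl' : i.succAbove l = j
          · rw [if_pos hl', hg0] at this
            rw [hl']
            exact dvd_trans (Nat.dvd_lcm_right _ _) this
          · rw [if_neg hl'] at this
            exact this
      · intro h1 l
        by_cases hl' : i.succAbove l = j
        · rw [if_pos hl', hg0]
          exact Nat.lcm_dvd (h1 i) (h1 j)
        · rw [if_neg hl']
          exact h1 _
  · rintro _ ⟨⟨f', h⟩, rfl⟩
    obtain ⟨g, hg⟩ := hHG (orderOf h) ⟨h, rfl⟩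
    refine ⟨Fin.snoc f' g, ?_⟩
    apply eq_of_forall_dvd_iff
    intro d
    rw [prod_orderOf_dvd_iff, pi_orderOf_dvd_iff, pi_orderOf_dvd_iff]
    simp only
    constructor
    · intro h1
      refine ⟨fun j => ?_, ?_⟩
      · have := h1 (Fin.castSucc j)
        rwa [Fin.snoc_castSucc] at this
      · have := h1 (Fin.last k)
        rwa [Fin.snoc_last, hg] at this
    · rintro ⟨h1, h2⟩ i
      induction i using Fin.lastCases with
      | last => rw [Fin.snoc_last, hg]; exact h2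
      | cast j => rw [Fin.snoc_castSucc]; exact h1 j

/-- For a finite group X write μ(X) for the set of element orders of X that are maximal under divisibility. Let G and H be finite groups and k ≥ 1 such that μ(H) ⊆ μ(G) and μ(G) has fewer than k elements outside μ(H). Then the direct product of k copies of G has the same set of element orders as the direct product of k − 1 copies of G with H. -/
theorem result {G H : Type*} [Group G] [Finite G] [Group H] [Finite H] (k : ℕ) (hk : 1 ≤ k)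
    (hsub : {n : ℕ | n ∈ Set.range (orderOf : H → ℕ) ∧ ∀ m ∈ Set.range (orderOf : H → ℕ), n ∣ m → m = n} ⊆ {n : ℕ | n ∈ Set.range (orderOf : G → ℕ) ∧ ∀ m ∈ Set.range (orderOf : G → ℕ), n ∣ m → m = n})
    (hfew : ({n : ℕ | n ∈ Set.range (orderOf : G → ℕ) ∧ ∀ m ∈ Set.range (orderOf : G → ℕ), n ∣ m → m = n} \ {n : ℕ | n ∈ Set.range (orderOf : H → ℕ) ∧ ∀ m ∈ Set.range (orderOf : H → ℕ), n ∣ m → m = n}).ncard < k) :
    Set.range (orderOf : (Fin k → G) → ℕ) = Set.range (orderOf : (Fin (k - 1) → G) × H → ℕ) := by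
  obtain ⟨k', rfl⟩ : ∃ k', k = k' + 1 := ⟨k - 1, by omega⟩
  exact aux k' hsub hfew

end Cfsg.Agent.S2514
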