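import Cfsg.Statements.S2516
import Mathlib

set_option autoImplicit false
open Cfsg

namespace Cfsg.Agent.S2516

/-- Let F be a field of characteristic p > 0, V a non-zero finite-dimensional F-vector space, G a finite group and ρ a representation of G on V; form the semidirect product V ⋊ G. For g ∈ G of order k, the coset Vg contains an element of order pk if and only if the minimal polynomial of ρ(g) does not divide 1 + X + ⋯ + X^(k−1). -/
theorem result {F : Type*} [Field F] (p : ℕ) [Fact p.Prime] [CharP F p] {V : Type*} [AddCommGroup V] [Module F V] [FiniteDimensional F V] [Nontrivial V]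
    {G : Type*} [Group G] [Finite G] (ρ : Representation F G V) (g : G) :
    (∃ x : Multiplicative V ⋊[(MulAutMultiplicative V).symm.toMonoidHom.comp
        ((DistribMulAction.toAddAut ((V →ₗ[F] V)ˣ) V).comp ρ.asGroupHom)] G,
        x.right = g ∧ orderOf x = p * orderOf g) ↔
      ¬ (minpoly F (ρ g) ∣ ∑ i ∈ Finset.range (orderOf g), (Polynomial.X : Polynomial F) ^ i) := by
  classical
  have hpp : p.Prime := Fact.out
  set φ : G →* MulAut (Multiplicative V) := (MulAutMultiplicative V).symm.toMonoidHom.comp
        ((DistribMulAction.toAddAut ((V →ₗ[F] V)ˣ) V).comp ρ.asGroupHom) with hφ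
  have hact : ∀ (h : G) (w : V), φ h (Multiplicative.ofAdd w) = Multiplicative.ofAdd (ρ h w) :=
    fun h w => rfl
  have hpow : ∀ (v : V) (n : ℕ), (⟨Multiplicative.ofAdd v, g⟩ : Multiplicative V ⋊[φ] G) ^ n =
      ⟨Multiplicative.ofAdd (∑ i ∈ Finset.range n, (ρ g ^ i) v), g ^ n⟩ := by
    intro v n
    induction n with
    | zero =>
      simp only [pow_zero, Finset.range_zero, Finset.sum_empty, ofAdd_zero]
      rfl
    | succ n ih =>
      rw [pow_succ, ih]
      refine SemidirectProduct.ext ?_ ?_
      · simp only [SemidirectProduct.mul_left]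
        rw [hact, Finset.sum_range_succ, ofAdd_add, map_pow]
      · simp only [SemidirectProduct.mul_right, pow_succ]
  have hz : ∀ (w : V) (j : ℕ), (⟨Multiplicative.ofAdd w, 1⟩ : Multiplicative V ⋊[φ] G) ^ j =
      ⟨Multiplicative.ofAdd (j • w), 1⟩ := by
    intro w j
    induction j with
    | zero =>
      simp only [pow_zero, zero_smul, ofAdd_zero]
      rfl
    | succ j ih =>
      rw [pow_succ, ih]
      refine SemidirectProduct.ext ?_ ?_
      · simp only [SemidirectProduct.mul_left, map_one, MulAut.one_apply, add_smul, one_smul,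
          ofAdd_add]
      · simp only [SemidirectProduct.mul_right, mul_one]
  set k := orderOf g with hk
  have hkpos : 0 < k := orderOf_pos g
  set N : V →ₗ[F] V := ∑ i ∈ Finset.range k, ρ g ^ i with hN
  have haeval : Polynomial.aeval (ρ g) (∑ i ∈ Finset.range k, (Polynomial.X : Polynomial F) ^ i) = N := by
    simp only [map_sum, map_pow, Polynomial.aeval_X, hN]
  have key : ∀ v : V, orderOf (⟨Multiplicative.ofAdd v, g⟩ : Multiplicative V ⋊[φ] G) =
      if N v = 0 then k else p * k := by
    intro v
    set x : Multiplicative V ⋊[φ] G := ⟨Multiplicative.ofAdd v, g⟩ with hx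
    have hxk : x ^ k = ⟨Multiplicative.ofAdd (N v), 1⟩ := by
      rw [hx, hpow, hk, pow_orderOf_eq_one, hN, LinearMap.sum_apply]
    have hdiv : k ∣ orderOf x := by
      rw [hk, orderOf_dvd_iff_pow_eq_one]
      have h1 : x ^ orderOf x = 1 := pow_orderOf_eq_one x
      rw [hx, hpow] at h1
      exact congrArg SemidirectProduct.right h1
    split_ifs with h0
    · apply Nat.dvd_antisymm _ hdiv
      rw [orderOf_dvd_iff_pow_eq_one, hxk, h0, ofAdd_zero]
      rfl
    · have hkj : ∀ j : ℕ, x ^ (k * j) = ⟨Multiplicative.ofAdd (j • N v), 1⟩ := by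
        intro j
        rw [pow_mul, hxk, hz]
      apply Nat.dvd_antisymm
      · rw [orderOf_dvd_iff_pow_eq_one, mul_comm, hkj]
        have : p • N v = 0 := by
          rw [← Nat.cast_smul_eq_nsmul F p (N v), CharP.cast_eq_zero F p, zero_smul]
        rw [this, ofAdd_zero]
        rfl
      · obtain ⟨j, hj⟩ := hdiv
        have h1 : x ^ (k * j) = 1 := by rw [← hj]; exact pow_orderOf_eq_one x
        rw [hkj] at h1
        have h2 : Multiplicative.ofAdd (j • N v) = 1 := congrArg SemidirectProduct.left h1
        have h3 : j • N v = 0 := by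
          rw [← ofAdd_zero] at h2
          exact Multiplicative.ofAdd.injective h2
        rw [← Nat.cast_smul_eq_nsmul F j (N v), smul_eq_zero] at h3
        have h4 : (j : F) = 0 := h3.resolve_right h0
        rw [CharP.cast_eq_zero_iff F p j] at h4
        rw [hj, mul_comm]
        exact Nat.mul_dvd_mul_left k h4
  rw [minpoly.dvd_iff, haeval]
  constructor
  · rintro ⟨x, hxg, hord⟩
    have hx : x = ⟨Multiplicative.ofAdd (Multiplicative.toAdd x.left), g⟩ := by
      refine SemidirectProduct.ext ?_ ?_
      · simp
      · exact hxg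
    rw [hx, key] at hord
    split_ifs at hord with h0
    · exfalso
      have : p = 1 := by
        have h1 : 1 * k = p * k := by rw [one_mul]; exact hord
        exact (Nat.eq_of_mul_eq_mul_right hkpos h1).symm
      exact hpp.one_lt.ne' this
    · intro hN0
      rw [hN0] at h0
      exact h0 rfl
  · intro hN0
    have : ∃ v, N v ≠ 0 := by
      by_contra hcon
      push Not at hcon
      exact hN0 (LinearMap.ext hcon)
    obtain ⟨v, hv⟩ := this
    refine ⟨⟨Multiplicative.ofAdd v, g⟩, rfl, ?_⟩
    rw [key, if_neg hv]

end Cfsg.Agent.S2516
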