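import Cfsg.Statements.S2518
import Cfsg.Agent.Lib.Helper36.G2ThreeCent
import Cfsg.Agent.Lib.Helper36.G2ThreeFin
import Cfsg.Agent.Lib.Helper36.PSL13
import Cfsg.Agent.Lib.Helper23.PSL2C

set_option autoImplicit false
open Cfsg

namespace Cfsg.Agent.S2518

open Cfsg.Agent.Lib.Helper36

theorem prime_dvd_1092 {q : ℕ} (hq : q.Prime) (hd : q ∣ 1092) :
    q = 2 ∨ q = 3 ∨ q = 7 ∨ q = 13 := by
  have h0 : (1092 : ℕ) = 2 ^ 2 * 3 * 7 * 13 := by norm_num
  rw [h0] at hd
  rcases (Nat.Prime.dvd_mul hq).mp hd with h | h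
  · rcases (Nat.Prime.dvd_mul hq).mp h with h | h
    · rcases (Nat.Prime.dvd_mul hq).mp h with h | h
      · exact Or.inl ((Nat.prime_dvd_prime_iff_eq hq Nat.prime_two).mp (hq.dvd_of_dvd_pow h))
      · exact Or.inr (Or.inl ((Nat.prime_dvd_prime_iff_eq hq Nat.prime_three).mp h))
    · exact Or.inr (Or.inr (Or.inl ((Nat.prime_dvd_prime_iff_eq hq (by norm_num)).mp h)))
  · exact Or.inr (Or.inr (Or.inr ((Nat.prime_dvd_prime_iff_eq hq (by norm_num)).mp h)))

/-- Let F₃ be the field with 3 elements and F₁₃ the field with 13 elements. The Chevalley group G₂(F₃) and PSL(2, F₁₃) have the same prime graph: the same prime divisors of their orders, and for distinct primes r, s an element of order rs in one iff in the other. -/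
theorem result {F : Type*} [Field F] [Fintype F] (hF : Fintype.card F = 3) {E : Type*} [Field E] [Fintype E] (hE : Fintype.card E = 13) :
    ((∀ r : ℕ, r.Prime → (r ∣ Nat.card ↥(Cfsg.Lie.chevG2.group F) ↔ r ∣ Nat.card (Matrix.ProjectiveSpecialLinearGroup (Fin 2) E))) ∧
      (∀ r s : ℕ, r.Prime → s.Prime → r ≠ s → ((∃ x : ↥(Cfsg.Lie.chevG2.group F), orderOf x = r * s) ↔ (∃ y : (Matrix.ProjectiveSpecialLinearGroup (Fin 2) E), orderOf y = r * s)))) := by
  obtain ⟨eG⟩ := chev_group_equiv Cfsg.Lie.chevG2 (ZMod.ringEquivOfPrime F Nat.prime_three hF).symm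
  obtain ⟨eP⟩ := Cfsg.Agent.Lib.Helper23.psl_congr (Fin 2)
    (ZMod.ringEquivOfPrime E (by norm_num : Nat.Prime 13) hE).symm
  have hcG : Nat.card ↥(Cfsg.Lie.chevG2.group F) = 4245696 := by
    rw [Nat.card_congr eG.toEquiv]
    exact g3_card
  have hcP := psl13_card hE
  refine ⟨fun r hr => ?_, fun r s hr hs hrs => ?_⟩
  · rw [hcG, hcP]
    constructor
    · intro h
      rcases g3_prime_dvd hr h with rfl | rfl | rfl | rfl <;> decide
    · intro h
      rcases prime_dvd_1092 hr h with rfl | rfl | rfl | rfl <;> decide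
  · have h1 : (∃ x : ↥(Cfsg.Lie.chevG2.group F), orderOf x = r * s) ↔ r * s = 6 := by
      rw [← g3_prime_graph r s hr hs hrs]
      constructor
      · rintro ⟨x, hx⟩
        exact ⟨eG x, by rw [MulEquiv.orderOf_eq]; exact hx⟩
      · rintro ⟨x, hx⟩
        exact ⟨eG.symm x, by rw [MulEquiv.orderOf_eq]; exact hx⟩
    have h2 : (∃ y : Matrix.ProjectiveSpecialLinearGroup (Fin 2) E, orderOf y = r * s)
        ↔ r * s = 6 := by
      rw [← psl13_prime_graph r s hr hs hrs]
      constructor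
      · rintro ⟨y, hy⟩
        exact ⟨eP y, by rw [MulEquiv.orderOf_eq]; exact hy⟩
      · rintro ⟨y, hy⟩
        exact ⟨eP.symm y, by rw [MulEquiv.orderOf_eq]; exact hy⟩
    rw [h1, h2]

end Cfsg.Agent.S2518
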