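import Mathlib
import Cfsg.Statements.S2593
import Cfsg.Agent.Lib.Helper44.InvSp

set_option autoImplicit false
open Cfsg

namespace Cfsg.Agent.S2593

open Cfsg.Agent.Lib.Helper44 Cfsg.Agent.Lib.Helper51

theorem result_aux {F : Type*} [Field F] [Fintype F] [CharP F 2] {m : ℕ} :
    Nat.card {C : ConjClasses ↥(Matrix.symplecticGroup (Fin m) F) // ∃ g : Matrix.symplecticGroup (Fin m) F, ConjClasses.mk g = C ∧ orderOf g = 2} = m + m / 2 := by
  have h2 : (2 : F) = 0 := CharTwo.two_eq_zero
  apply card_inv_classes_abs (fun a : ↥(Matrix.symplecticGroup (Fin m) F) => (smat a - 1).rank)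
    IsAltSp m (m / 2)
  · show ((1 : Matrix (Fin m ⊕ Fin m) (Fin m ⊕ Fin m) F) - 1).rank = 0
    rw [sub_self, Matrix.rank_zero]
  · intro t ht
    exact sp_rank_pos t ht
  · intro t s ht hs
    exact sp_isConj_iff h2 t s ht hs
  · intro t ht
    exact sp_rank_le h2 t ht
  · intro t ht halt
    have he := sp_even_of_alt h2 t ht halt
    have hle := sp_rank_le h2 t ht
    refine ⟨he, ?_⟩
    obtain ⟨r, hr⟩ := he
    omega
  · intro l hl0 hl
    obtain ⟨t, ht1, ht2, ht3⟩ := plus_na h2 m l hl hl0
    obtain ⟨a, ha1, ha2, ha3⟩ := exists_sp_of_orth h2 t ht1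
    refine ⟨a, ha2, ?_, fun h => ht3 (ha3.1 h)⟩
    show (smat a - 1).rank = l
    rw [ha1, ht2]
  · intro j _ hj
    obtain ⟨t, ht1, ht2, ht3⟩ := plus_al h2 m j (by omega)
    obtain ⟨a, ha1, ha2, ha3⟩ := exists_sp_of_orth h2 t ht1
    refine ⟨a, ha2, ?_, ha3.2 ht3⟩
    show (smat a - 1).rank = 2 * j
    rw [ha1, ht2]

/-- Number of conjugacy classes of involutions in the symplectic group Sp_2m(F) over a finite field of characteristic two (m ≥ 1): for each s with 1 ≤ s ≤ m there is one class with rank(t − 1) = s if s is odd and two if s is even (according as v ↦ f(v, tv), f the symplectic form, vanishes identically or not), so m + ⌊m/2⌋ classes in all. -/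
theorem result {F : Type*} [Field F] [Fintype F] [CharP F 2] {m : ℕ} (hm : 1 ≤ m) : Nat.card {C : ConjClasses ↥(Matrix.symplecticGroup (Fin m) F) // ∃ g : Matrix.symplecticGroup (Fin m) F, ConjClasses.mk g = C ∧ orderOf g = 2} = m + m / 2 := by
  have _ := hm
  exact result_aux

end Cfsg.Agent.S2593
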