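import Mathlib
import Cfsg.Statements.S2595
import Cfsg.Agent.Lib.Helper44.InvForms

set_option autoImplicit false
open Cfsg

namespace Cfsg.Agent.S2595

open Cfsg.Agent.Lib.Helper44 Cfsg.Agent.Lib.Helper51

theorem result_aux {F : Type*} [Field F] [Fintype F] [CharP F 2] {m : ℕ} :
    Nat.card {C : ConjClasses ↥(Cfsg.isometryGroup F ⇑(QPlus m F)) // ∃ g : ↥(Cfsg.isometryGroup F ⇑(QPlus m F)), ConjClasses.mk g = C ∧ orderOf g = 2} = m + m / 2 := by
  have h2 : (2 : F) = 0 := CharTwo.two_eq_zero
  have hcard : Fintype.card (Fin m ⊕ Fin m) = 2 * m := by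
    rw [Fintype.card_sum, Fintype.card_fin]; omega
  apply card_inv_classes (QPlus m F) h2 (nondeg_QPlus m F) m (m / 2) hcard
  · intro l hl0 hl
    exact plus_na h2 m l hl hl0
  · intro j _ hj
    exact plus_al h2 m j (by omega)
  · intro t ht halt
    have h1 := two_mul_rank_le (QPlus m F) h2 t ht
    obtain ⟨r, hr⟩ := even_rank_of_alt (QPlus m F) h2 (nondeg_QPlus m F) t ht halt
    rw [hcard] at h1
    omega

/-- Number of conjugacy classes of involutions in the full orthogonal group O⁺_2m(F) of the hyperbolic quadratic form Σ x_i y_i over a finite field of characteristic two (m ≥ 1): one class for each odd s ≤ m and two for each even s with 2 ≤ s ≤ m, where s = rank(t − 1); in all m + ⌊m/2⌋. -/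
theorem result {F : Type*} [Field F] [Fintype F] [CharP F 2] {m : ℕ} (hm : 1 ≤ m) : Nat.card {C : ConjClasses ↥(Cfsg.isometryGroup F (Cfsg.quadFormPlus m F)) // ∃ g : ↥(Cfsg.isometryGroup F (Cfsg.quadFormPlus m F)), ConjClasses.mk g = C ∧ orderOf g = 2} = m + m / 2 := by
  have _ := hm
  have key := result_aux (F := F) (m := m)
  rw [coe_QPlus] at key
  exact key

end Cfsg.Agent.S2595
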