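import Mathlib
import Cfsg.Statements.S2596
import Cfsg.Agent.Lib.Helper44.InvForms

set_option autoImplicit false
open Cfsg

namespace Cfsg.Agent.S2596

open Cfsg.Agent.Lib.Helper44 Cfsg.Agent.Lib.Helper51

theorem result_aux {F : Type*} [Field F] [Fintype F] [CharP F 2] (k : ℕ) (a b : F)
    (hab : ∀ z₁ z₂ : F, z₁ ^ 2 + a * z₁ * z₂ + b * z₂ ^ 2 = 0 → z₁ = 0 ∧ z₂ = 0) :
    Nat.card {C : ConjClasses ↥(Cfsg.isometryGroup F ⇑(QMinus k F a b)) // ∃ g : ↥(Cfsg.isometryGroup F ⇑(QMinus k F a b)), ConjClasses.mk g = C ∧ orderOf g = 2} = (k + 1) + k / 2 := by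
  have h2 : (2 : F) = 0 := CharTwo.two_eq_zero
  have hcard : Fintype.card ((Fin k ⊕ Fin k) ⊕ Fin 2) = 2 * (k + 1) := by
    rw [Fintype.card_sum, Fintype.card_sum, Fintype.card_fin, Fintype.card_fin]; omega
  apply card_inv_classes (QMinus k F a b) h2 (nondeg_QMinus_two k a b hab) (k + 1) (k / 2) hcard
  · intro l hl0 hl
    exact minus_na h2 k l a b (aniso_ne_zero a b hab) hl hl0
  · intro j _ hj
    exact minus_al h2 k j a b (by omega)
  · intro t ht halt
    have h1 := minus_alt_rank_le h2 k a b hab t ht halt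
    obtain ⟨r, hr⟩ := even_rank_of_alt (QMinus k F a b) h2 (nondeg_QMinus_two k a b hab) t ht halt
    omega

/-- Number of conjugacy classes of involutions in the full orthogonal group O⁻_2m(F) of an elliptic quadratic form (Σ_(i<m−1) x_i y_i plus an anisotropic binary form) over a finite field of characteristic two (m ≥ 1): one class for each odd s ≤ m, two for each even s with 2 ≤ s < m and one for s = m when m is even, where s = rank(t − 1); in all m + ⌊(m − 1)/2⌋. -/
theorem result {F : Type*} [Field F] [Fintype F] [CharP F 2] {m : ℕ} (hm : 1 ≤ m) (a b : F) (hab : ∀ z₁ z₂ : F, z₁ ^ 2 + a * z₁ * z₂ + b * z₂ ^ 2 = 0 → z₁ = 0 ∧ z₂ = 0) : Nat.card {C : ConjClasses ↥(Cfsg.isometryGroup F (Cfsg.quadFormMinus (m - 1) F a b)) // ∃ g : ↥(Cfsg.isometryGroup F (Cfsg.quadFormMinus (m - 1) F a b)), ConjClasses.mk g = C ∧ orderOf g = 2} = m + (m - 1) / 2 := by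
  have key := result_aux (F := F) (m - 1) a b hab
  rw [coe_QMinus] at key
  rw [key]
  omega

end Cfsg.Agent.S2596
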