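import Mathlib
import Cfsg.Statements.S2597
import Cfsg.Agent.Lib.Helper44.InvOmega

set_option autoImplicit false
open Cfsg

namespace Cfsg.Agent.S2597

open Cfsg.Agent.Lib.Helper44 Cfsg.Agent.Lib.Helper51

theorem result_aux {F : Type*} [Field F] [Fintype F] [CharP F 2] {m : ℕ} (hm : 1 ≤ m)
    (h : Fintype.card F ≠ 2 ∨ m ≠ 2) :
    Nat.card {C : ConjClasses ↥(Cfsg.Omega F ⇑(QPlus m F)) // ∃ g : ↥(Cfsg.Omega F ⇑(QPlus m F)), ConjClasses.mk g = C ∧ orderOf g = 2} = 2 * (m / 2) + (if Even m then 1 else 0) := by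
  have h2 : (2 : F) = 0 := CharTwo.two_eq_zero
  have hcard : Fintype.card (Fin m ⊕ Fin m) = 2 * m := by
    rw [Fintype.card_sum, Fintype.card_fin]; omega
  have : Nonempty (Fin m ⊕ Fin m) := ⟨Sum.inl ⟨0, hm⟩⟩
  have h' : Fintype.card F ≠ 2 ∨ Fintype.card (Fin m ⊕ Fin m) ≠ 4 := by
    rcases h with h | h
    · exact Or.inl h
    · right
      rw [hcard]
      omega
  have key := card_inv_classes_omega (QPlus m F) h2 (nondeg_QPlus m F) h' m (m / 2) hm hcard
    (fun l hl0 hl => plus_na h2 m l hl hl0)
    (fun j _ hj => plus_al h2 m j (by omega))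
    (fun t ht halt => by
      have h1 := two_mul_rank_le (QPlus m F) h2 t ht
      obtain ⟨r, hr⟩ := even_rank_of_alt (QPlus m F) h2 (nondeg_QPlus m F) t ht halt
      rw [hcard] at h1
      omega)
  rw [key]
  by_cases hev : Even m
  · have : 2 * (m / 2) = m := by
      have := Nat.even_iff.1 hev
      omega
    rw [if_pos hev, if_pos this]
    omega
  · have : ¬ 2 * (m / 2) = m := by
      intro hh
      exact hev ⟨m / 2, by omega⟩
    rw [if_neg hev, if_neg this]
    omega

/-- Number of conjugacy classes of involutions in Ω⁺_2m(F) (the commutator subgroup of the orthogonal group of Σ x_i y_i) over a finite field F of characteristic two, m ≥ 1, excluding the case m = 2 over the field of two elements: the involutions of Ω are those with s = rank(t − 1) even, giving two O-classes for each even s with 2 ≤ s ≤ m, each of which is a single Ω-class except that for m even the class with s = m and v ↦ f(v, tv) identically zero splits in two; in all 2⌊m/2⌋ + 1 classes if m is even and 2⌊m/2⌋ if m is odd. -/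
theorem result {F : Type*} [Field F] [Fintype F] [CharP F 2] {m : ℕ} (hm : 1 ≤ m) (h : Fintype.card F ≠ 2 ∨ m ≠ 2) : Nat.card {C : ConjClasses ↥(Cfsg.Omega F (Cfsg.quadFormPlus m F)) // ∃ g : ↥(Cfsg.Omega F (Cfsg.quadFormPlus m F)), ConjClasses.mk g = C ∧ orderOf g = 2} = 2 * (m / 2) + (if Even m then 1 else 0) := by
  have key := result_aux (F := F) hm h
  rw [coe_QPlus] at key
  exact key

end Cfsg.Agent.S2597
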