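import Mathlib
import Cfsg.Statements.S2598
import Cfsg.Agent.Lib.Helper44.InvOmega
import Cfsg.Agent.Lib.Helper44.InvS5
import Cfsg.Agent.S0824

set_option autoImplicit false
open Cfsg

namespace Cfsg.Agent.S2598

open Cfsg.Agent.Lib.Helper44 Cfsg.Agent.Lib.Helper51

theorem result_aux {F : Type*} [Field F] [Fintype F] [CharP F 2] (k : ℕ) (a b : F)
    (hab : ∀ z₁ z₂ : F, z₁ ^ 2 + a * z₁ * z₂ + b * z₂ ^ 2 = 0 → z₁ = 0 ∧ z₂ = 0)
    (h : Fintype.card F ≠ 2 ∨ k ≠ 1) :
    Nat.card {C : ConjClasses ↥(Cfsg.Omega F ⇑(QMinus k F a b)) // ∃ g : ↥(Cfsg.Omega F ⇑(QMinus k F a b)), ConjClasses.mk g = C ∧ orderOf g = 2} = (k + 1) / 2 + k / 2 := by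
  have h2 : (2 : F) = 0 := CharTwo.two_eq_zero
  have hcard : Fintype.card ((Fin k ⊕ Fin k) ⊕ Fin 2) = 2 * (k + 1) := by
    rw [Fintype.card_sum, Fintype.card_sum, Fintype.card_fin, Fintype.card_fin]; omega
  have : Nonempty ((Fin k ⊕ Fin k) ⊕ Fin 2) := ⟨Sum.inr 0⟩
  have h' : Fintype.card F ≠ 2 ∨ Fintype.card ((Fin k ⊕ Fin k) ⊕ Fin 2) ≠ 4 := by
    rcases h with h | h
    · exact Or.inl h
    · right
      rw [hcard]
      omega
  have key := card_inv_classes_omega (QMinus k F a b) h2 (nondeg_QMinus_two k a b hab) h' (k + 1)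
    (k / 2) (by omega) hcard
    (fun l hl0 hl => minus_na h2 k l a b (aniso_ne_zero a b hab) hl hl0)
    (fun j _ hj => minus_al h2 k j a b (by omega))
    (fun t ht halt => by
      have h1 := minus_alt_rank_le h2 k a b hab t ht halt
      obtain ⟨r, hr⟩ := even_rank_of_alt (QMinus k F a b) h2 (nondeg_QMinus_two k a b hab) t ht
        halt
      omega)
  rw [key, if_neg (by omega)]
  omega

theorem result_special {F : Type*} [Field F] [Fintype F] [CharP F 2] (hF : Fintype.card F = 2)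
    (a b : F)
    (hab : ∀ z₁ z₂ : F, z₁ ^ 2 + a * z₁ * z₂ + b * z₂ ^ 2 = 0 → z₁ = 0 ∧ z₂ = 0) :
    Nat.card {C : ConjClasses ↥(Cfsg.Omega F (Cfsg.quadFormMinus 1 F a b)) // ∃ g : ↥(Cfsg.Omega F (Cfsg.quadFormMinus 1 F a b)), ConjClasses.mk g = C ∧ orderOf g = 2} = 1 := by
  classical
  have hall : ∀ c : F, c = 0 ∨ c = 1 := by
    intro c
    have huniv : ({0, 1} : Finset F) = Finset.univ := by
      apply Finset.eq_of_subset_of_card_le (Finset.subset_univ _)
      rw [Finset.card_univ, hF, Finset.card_pair zero_ne_one]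
    have hc : c ∈ ({0, 1} : Finset F) := by rw [huniv]; exact Finset.mem_univ c
    simpa using hc
  have ha : a = 1 := (hall a).resolve_left (aniso_ne_zero a b hab)
  have hb : b = 1 := by
    refine (hall b).resolve_left (fun hb0 => ?_)
    have := (hab 0 1 (by rw [hb0]; ring)).2
    exact one_ne_zero this
  subst ha hb
  obtain ⟨e⟩ := Cfsg.Agent.S0824.result hF
  exact card_inv_classes_commutator_S5 e

/-- Number of conjugacy classes of involutions in Ω⁻_2m(F) (the commutator subgroup of the orthogonal group of an elliptic quadratic form, Σ_(i<m−1) x_i y_i plus an anisotropic binary form) over a finite field F of characteristic two, m ≥ 1: the involutions of Ω are those with s = rank(t − 1) even, one O-class for each even s with 2 ≤ s ≤ m on which v ↦ f(v, tv) is not identically zero and one for each even s with 2 ≤ s < m on which it is zero (f the polar form; in characteristic 2, f(v, tv) = Q(v + tv)), none of which splits in Ω; in all ⌊m/2⌋ + ⌊(m − 1)/2⌋. -/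
theorem result {F : Type*} [Field F] [Fintype F] [CharP F 2] {m : ℕ} (hm : 1 ≤ m) (a b : F) (hab : ∀ z₁ z₂ : F, z₁ ^ 2 + a * z₁ * z₂ + b * z₂ ^ 2 = 0 → z₁ = 0 ∧ z₂ = 0) : Nat.card {C : ConjClasses ↥(Cfsg.Omega F (Cfsg.quadFormMinus (m - 1) F a b)) // ∃ g : ↥(Cfsg.Omega F (Cfsg.quadFormMinus (m - 1) F a b)), ConjClasses.mk g = C ∧ orderOf g = 2} = m / 2 + (m - 1) / 2 := by
  by_cases hsp : Fintype.card F = 2 ∧ m = 2
  · obtain ⟨hF, rfl⟩ := hsp
    exact result_special hF a b hab
  · have h : Fintype.card F ≠ 2 ∨ m - 1 ≠ 1 := by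
      by_cases hF : Fintype.card F = 2
      · right
        intro hm1
        exact hsp ⟨hF, by omega⟩
      · exact Or.inl hF
    have key := result_aux (F := F) (m - 1) a b hab h
    rw [coe_QMinus] at key
    rw [key]
    omega

end Cfsg.Agent.S2598
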