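import Mathlib
import Cfsg.Statements.S2644
import Cfsg.Agent.S2164
import Cfsg.Agent.Lib.Helper44.UnitaryInv2

set_option autoImplicit false
open Cfsg

namespace Cfsg.Agent.S2644

open Cfsg.Agent.Lib.Helper44 Cfsg.Agent.S2164
open scoped Matrix

section Main

variable {K : Type*} [Field K] [Fintype K] {q n : ℕ}

omit [Fintype K] in
/-- from a linear isometry of determinant one intertwining the two matrices to conjugacy in
`SU_n(q)` -/
theorem isConj_of_linear (σ : K →+* K) (hσ : ∀ x, σ x = x ^ q) (a b : ↥(Cfsg.SU n K q))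
    (g' : (Fin n → K) →ₗ[K] (Fin n → K)) (hdet : LinearMap.det g' = 1)
    (hiso : ∀ u v, hB σ n (g' u) (g' v) = hB σ n u v)
    (hconj : ∀ x, g' (((a : Matrix.SpecialLinearGroup (Fin n) K) : Matrix (Fin n) (Fin n) K) *ᵥ x)
      = ((b : Matrix.SpecialLinearGroup (Fin n) K) : Matrix (Fin n) (Fin n) K) *ᵥ (g' x)) :
    IsConj a b := by
  have hg'det : (LinearMap.toMatrix' g').det = 1 := by
    rw [LinearMap.det_toMatrix', hdet]
  have hmat : LinearMap.toMatrix' g' * ((a : Matrix.SpecialLinearGroup (Fin n) K) : Matrix (Fin n) (Fin n) K)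
      = ((b : Matrix.SpecialLinearGroup (Fin n) K) : Matrix (Fin n) (Fin n) K) * LinearMap.toMatrix' g' := by
    apply Matrix.toLin'.injective
    apply LinearMap.ext
    intro x
    rw [Matrix.toLin'_mul, Matrix.toLin'_mul, Matrix.toLin'_toMatrix', LinearMap.comp_apply,
      LinearMap.comp_apply, Matrix.toLin'_apply, Matrix.toLin'_apply]
    exact hconj x
  let S : Matrix.SpecialLinearGroup (Fin n) K := ⟨LinearMap.toMatrix' g', hg'det⟩
  have hS : S ∈ Cfsg.SU n K q := by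
    intro u v
    show hermForm n K q (Matrix.mulVec (LinearMap.toMatrix' g') u)
      (Matrix.mulVec (LinearMap.toMatrix' g') v) = hermForm n K q u v
    rw [← hB_eq_herm σ hσ, ← hB_eq_herm σ hσ, LinearMap.toMatrix'_mulVec,
      LinearMap.toMatrix'_mulVec, hiso]
  refine isConj_iff.2 ⟨⟨S, hS⟩, ?_⟩
  rw [mul_inv_eq_iff_eq_mul]
  apply Subtype.ext
  apply Subtype.ext
  exact hmat

theorem main (hK : Fintype.card K = q ^ 2) (hn : 3 ≤ n) (s t : ↥(Cfsg.SU n K q))
    (hs1 : (((s : Matrix.SpecialLinearGroup (Fin n) K) : Matrix (Fin n) (Fin n) K) - 1).rank = 1)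
    (hs2 : (((s : Matrix.SpecialLinearGroup (Fin n) K) : Matrix (Fin n) (Fin n) K) - 1)
      * (((s : Matrix.SpecialLinearGroup (Fin n) K) : Matrix (Fin n) (Fin n) K) - 1) = 0)
    (ht1 : (((t : Matrix.SpecialLinearGroup (Fin n) K) : Matrix (Fin n) (Fin n) K) - 1).rank = 1)
    (ht2 : (((t : Matrix.SpecialLinearGroup (Fin n) K) : Matrix (Fin n) (Fin n) K) - 1)
      * (((t : Matrix.SpecialLinearGroup (Fin n) K) : Matrix (Fin n) (Fin n) K) - 1) = 0) :
    IsConj s t := by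
  obtain ⟨σ, hσ⟩ := Cfsg.Agent.S0829.exists_frob hK
  have hσ2 : ∀ x : K, σ (σ x) = x := fun x => by
    rw [hσ, hσ]; exact Cfsg.Agent.S0829.pow_qq hK x
  have hσne : σ ≠ RingHom.id K := frob_ne_id hK σ hσ
  -- a nonzero skew scalar
  obtain ⟨ε, hε0, hε⟩ : ∃ ε : K, ε ≠ 0 ∧ σ ε = -ε := by
    obtain ⟨ζ, hζ⟩ : ∃ ζ : K, σ ζ ≠ ζ := by
      by_contra h
      push Not at h
      exact hσne (RingHom.ext h)
    refine ⟨ζ - σ ζ, fun h => hζ (sub_eq_zero.1 h).symm, ?_⟩
    rw [map_sub, hσ2]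
    ring
  obtain ⟨A, hA⟩ : ∃ A : Matrix (Fin n) (Fin n) K,
      A = ((s : Matrix.SpecialLinearGroup (Fin n) K) : Matrix (Fin n) (Fin n) K) := ⟨_, rfl⟩
  obtain ⟨A', hA'⟩ : ∃ A' : Matrix (Fin n) (Fin n) K,
      A' = ((t : Matrix.SpecialLinearGroup (Fin n) K) : Matrix (Fin n) (Fin n) K) := ⟨_, rfl⟩
  rw [← hA] at hs1 hs2
  rw [← hA'] at ht1 ht2
  have hAiso : ∀ u v, hB σ n (A *ᵥ u) (A *ᵥ v) = hB σ n u v := by
    intro u v
    rw [hB_eq_herm σ hσ, hB_eq_herm σ hσ, hA]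
    exact s.2 v u
  have hAiso' : ∀ u v, hB σ n (A' *ᵥ u) (A' *ᵥ v) = hB σ n u v := by
    intro u v
    rw [hB_eq_herm σ hσ, hB_eq_herm σ hσ, hA']
    exact t.2 v u
  have gen : ∀ M : Matrix (Fin n) (Fin n) K, (M - 1) * (M - 1) = 0 →
      (∀ u v, hB σ n (M *ᵥ u) (M *ᵥ v) = hB σ n u v) →
      (∀ x y, hB σ n ((ε • (M - 1).mulVecLin) x) y = hB σ n x ((ε • (M - 1).mulVecLin) y)) ∧
      (∀ x, (ε • (M - 1).mulVecLin) ((ε • (M - 1).mulVecLin) x) = 0) ∧
      LinearMap.range (ε • (M - 1).mulVecLin) = LinearMap.range (M - 1).mulVecLin := by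
    intro M hMM hM
    have happ : ∀ x, (M - 1).mulVecLin x = M *ᵥ x - x := by
      intro x
      rw [Matrix.mulVecLin_apply, Matrix.sub_mulVec, Matrix.one_mulVec]
    have hsq : ∀ x, (M - 1).mulVecLin ((M - 1).mulVecLin x) = 0 := by
      intro x
      rw [Matrix.mulVecLin_apply, Matrix.mulVecLin_apply, Matrix.mulVec_mulVec, hMM,
        Matrix.zero_mulVec]
    have hskew : ∀ x y, hB σ n ((M - 1).mulVecLin x) y = - hB σ n x ((M - 1).mulVecLin y) := by
      intro x y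
      have e1 : y = M *ᵥ (y - (M - 1).mulVecLin y) := by
        have h1 := hsq y
        rw [happ ((M - 1).mulVecLin y)] at h1
        rw [Matrix.mulVec_sub, sub_eq_zero.1 h1, happ, sub_sub_cancel]
      have e2 : hB σ n (M *ᵥ x) y = hB σ n x (y - (M - 1).mulVecLin y) := by
        conv_lhs => rw [e1]
        rw [hM]
      rw [happ x, map_sub, LinearMap.sub_apply, e2, map_sub]
      ring
    refine ⟨?_, ?_, ?_⟩
    · intro x y
      rw [LinearMap.smul_apply, LinearMap.smul_apply, map_smulₛₗ, LinearMap.smul_apply, map_smul,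
        hskew, hε, smul_eq_mul, smul_eq_mul]
      ring
    · intro x
      rw [LinearMap.smul_apply, LinearMap.smul_apply, map_smul, hsq, smul_zero, smul_zero]
    · apply le_antisymm
      · rintro _ ⟨x, rfl⟩
        exact ⟨ε • x, by rw [map_smul, LinearMap.smul_apply]⟩
      · rintro _ ⟨x, rfl⟩
        exact ⟨ε⁻¹ • x, by
          rw [LinearMap.smul_apply, map_smul, smul_smul, mul_inv_cancel₀ hε0, one_smul]⟩
  obtain ⟨hN, hN2, hNr⟩ := gen A hs2 hAiso
  obtain ⟨hN', hN'2, hN'r⟩ := gen A' ht2 hAiso'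
  have hr1 : Module.finrank K (LinearMap.range (ε • (A - 1).mulVecLin)) = 1 := by
    rw [hNr]; exact hs1
  have hr1' : Module.finrank K (LinearMap.range (ε • (A' - 1).mulVecLin)) = 1 := by
    rw [hN'r]; exact ht1
  obtain ⟨g, hg, hgN⟩ := exists_isometry_conj σ hσne hσ2 (hB σ n) (hB_symm σ hσ2 n)
    (hB_nondeg σ n) _ _ hN hN2 hN' hN'2 (hr1.trans hr1'.symm)
  -- an anisotropic vector in the kernel
  obtain ⟨u, hli, hmem, hsum⟩ := exists_family' σ hσne hσ2 (hB σ n) (hB_symm σ hσ2 n)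
    (hB_nondeg σ n) _ hN hN2 1 hr1
  have hu0 : u 0 ≠ 0 := hli.ne_zero 0
  have huu : hB σ n (u 0) (u 0) = 0 :=
    sesq_range_isotropic σ (hB σ n) _ hN hN2 _ (hmem 0) _ (hmem 0)
  have h3 : 3 ≤ Module.finrank K (Fin n → K) := by
    rw [Module.finrank_fin_fun]; exact hn
  obtain ⟨v, hv1, hv2⟩ := exists_aniso_orth σ hσne (hB σ n) (hB_symm σ hσ2 n) (hB_nondeg σ n)
    h3 (u 0) hu0 huu
  have hNv : (ε • (A - 1).mulVecLin) v = 0 := by
    rw [hsum, Fin.sum_univ_one, hv1, zero_smul]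
  have hd := det_norm σ n (g : (Fin n → K) →ₗ[K] (Fin n → K)) hg
  obtain ⟨d, hd'⟩ : ∃ d, d = LinearMap.det (g : (Fin n → K) →ₗ[K] (Fin n → K)) := ⟨_, rfl⟩
  rw [← hd'] at hd
  have hd0 : d ≠ 0 := by
    intro h
    rw [h, mul_zero] at hd
    exact zero_ne_one hd
  have hdq : σ d⁻¹ * d⁻¹ = 1 := by
    rw [map_inv₀, ← mul_inv, hd, inv_one]
  obtain ⟨c, hc, hcN, hcdet⟩ := exists_centralizer_det_aniso σ (hB σ n) (hB_symm σ hσ2 n)
    _ hN v hNv hv2 _ hdq
  have hcancel : ∀ y z : Fin n → K, ε • y = ε • z → y = z := fun y z h =>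
    smul_right_injective _ hε0 h
  have hcN' : ∀ x, c ((A - 1).mulVecLin x) = (A - 1).mulVecLin (c x) := by
    intro x
    apply hcancel
    have := hcN x
    rw [LinearMap.smul_apply, LinearMap.smul_apply, map_smul] at this
    exact this
  have hgN' : ∀ x, g ((A - 1).mulVecLin x) = (A' - 1).mulVecLin (g x) := by
    intro x
    apply hcancel
    have := hgN x
    rw [LinearMap.smul_apply, LinearMap.smul_apply, map_smul] at this
    exact this
  refine isConj_of_linear σ hσ s t ((g : (Fin n → K) →ₗ[K] (Fin n → K)) ∘ₗ c) ?_ ?_ ?_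
  · rw [LinearMap.det_comp, ← hd', hcdet, mul_inv_cancel₀ hd0]
  · intro x y
    rw [LinearMap.comp_apply, LinearMap.comp_apply]
    exact (hg _ _).trans (hc _ _)
  · intro x
    rw [← hA, ← hA', LinearMap.comp_apply, LinearMap.comp_apply]
    have e1 : A *ᵥ x = (A - 1).mulVecLin x + x := by
      rw [Matrix.mulVecLin_apply, Matrix.sub_mulVec, Matrix.one_mulVec, sub_add_cancel]
    have e2 : ∀ y, A' *ᵥ y = (A' - 1).mulVecLin y + y := by
      intro y
      rw [Matrix.mulVecLin_apply, Matrix.sub_mulVec, Matrix.one_mulVec, sub_add_cancel]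
    rw [e1, e2, map_add, map_add, hcN']
    congr 1
    exact hgN' (c x)

end Main

/-- In the special unitary group SU_n(q) with n ≥ 3 (isometries of Σ u_i v_i^q of determinant one over the field with q² elements), any two transvections (elements t with t − 1 of rank one and square zero) are conjugate. -/
theorem result {K : Type*} [Field K] [Fintype K] {q n : ℕ} (hK : Fintype.card K = q ^ 2) (hn : 3 ≤ n) (s t : ↥(Cfsg.SU n K q)) (hs : Cfsg.IsTransvection (((s : GL (Fin n) K) : Matrix (Fin n) (Fin n) K))) (ht : Cfsg.IsTransvection (((t : GL (Fin n) K) : Matrix (Fin n) (Fin n) K))) : IsConj s t := by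
  exact main hK hn s t hs.1 hs.2 ht.1 ht.2

end Cfsg.Agent.S2644
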