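-- Statement S2648: exact derived length of a Sylow 2-subgroup of Sp_{2n}(q), q odd.
import Cfsg.Statements.S2648
import Cfsg.Agent.Lib.Helper74.SympBase

set_option autoImplicit false
open Cfsg

namespace Cfsg.Agent.S2648

open Cfsg.Agent.Lib.Helper74.LinDL Cfsg.Agent.Lib.Helper74.Wreath Cfsg.Agent.Lib.Helper74.Symp
  Cfsg.Agent.Lib.Helper74.SympBase

/-- A finite `p`-group embedded in a matrix monoid over a field, of degree `d`, has derived
length at most `⌊log₂ d⌋ + 1`. -/
theorem upper_gen {F : Type*} [Field F] {ι : Type*} [Fintype ι] [DecidableEq ι] {P : Type*}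
    [Group P] [Finite P] (p : ℕ) [Fact p.Prime] (hP : IsPGroup p P) (φ : P →* Matrix ι ι F)
    (hφ : Function.Injective φ) :
    derivedSeries P (Nat.log 2 (Fintype.card ι) + 1) = ⊥ := by
  let ρ : Representation (AlgebraicClosure F) P (ι → AlgebraicClosure F) :=
    { toFun := fun g => Matrix.toLin' ((φ g).map (algebraMap F (AlgebraicClosure F)))
      map_one' := by
        rw [map_one, Matrix.map_one _ (map_zero _) (map_one _), Matrix.toLin'_one]
        rfl
      map_mul' := by
        intro a b
        rw [map_mul, Matrix.map_mul, Matrix.toLin'_mul]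
        rfl }
  have h1 := rep_claim p hP ρ (Fintype.card ι) (by rw [Module.finrank_fintype_fun_eq_card])
  rw [eq_bot_iff]
  intro g hg
  have h2 := h1 hg
  rw [MonoidHom.mem_ker] at h2
  have h3 : Matrix.toLin' ((φ g).map (algebraMap F (AlgebraicClosure F))) =
      Matrix.toLin' (1 : Matrix ι ι (AlgebraicClosure F)) := by
    rw [Matrix.toLin'_one]; exact h2
  have h4 := Matrix.toLin'.injective h3
  have h5 : (φ g).map (algebraMap F (AlgebraicClosure F)) =
      (1 : Matrix ι ι F).map (algebraMap F (AlgebraicClosure F)) := by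
    rw [h4, Matrix.map_one _ (map_zero _) (map_one _)]
  have h6 : φ g = 1 := Matrix.map_injective (algebraMap F (AlgebraicClosure F)).injective h5
  rw [Subgroup.mem_bot]
  exact hφ (by rw [h6, map_one])

/-- Let q be odd, F a field with q elements and n ≥ 1. A Sylow 2-subgroup R of the symplectic group Sp_{2n}(F) has derived length exactly k + 1, where 2^k ≤ 2n < 2^{k+1}: the (k+1)-st term of its derived series is trivial and the k-th is not. -/
theorem result {F : Type*} [Field F] [Fintype F] [DecidableEq F] (q : ℕ) (hF : Fintype.card F = q) (hq : Odd q) (n : ℕ) (hn : 1 ≤ n) (R : Sylow 2 ↥(Matrix.symplecticGroup (Fin n) F)) : derivedSeries ↥(R : Subgroup ↥(Matrix.symplecticGroup (Fin n) F)) (Nat.log 2 (2 * n) + 1) = ⊥ ∧ derivedSeries ↥(R : Subgroup ↥(Matrix.symplecticGroup (Fin n) F)) (Nat.log 2 (2 * n)) ≠ ⊥ := by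
  subst hF
  constructor
  · have h1 := upper_gen 2 R.isPGroup'
      ((Matrix.symplecticGroup (Fin n) F).subtype.comp
        (R : Subgroup ↥(Matrix.symplecticGroup (Fin n) F)).subtype)
      (fun a b hab => Subtype.ext (Subtype.ext hab))
    have h2 : Fintype.card (Fin n ⊕ Fin n) = 2 * n := by
      rw [Fintype.card_sum, Fintype.card_fin, two_mul]
    rw [h2] at h1
    exact h1
  · have hlog : Nat.log 2 (2 * n) = 1 + Nat.log 2 n := by
      rw [Nat.log_of_one_lt_of_le (by norm_num) (by omega : 2 ≤ 2 * n),
        Nat.mul_div_cancel_left n (by norm_num), add_comm]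
    rw [hlog]
    have hbase : HasSp F 1 1 := hasSp_base hq
    have hk := hbase.iterate (Nat.log 2 n)
    have hle : 2 ^ Nat.log 2 n ≤ n := Nat.pow_log_le_self 2 (by omega)
    obtain ⟨T, _, _, φ, hT, hder, hinj⟩ := hk.exists_hom hle
    exact sylow_derivedSeries_ne_bot 2 R hT φ hinj _ hder

end Cfsg.Agent.S2648
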