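import Cfsg.Statements.S2683
-- import your own Cfsg.Agent.* helpers here
import Cfsg.Agent.Lib.Helper47.OmcMain

set_option autoImplicit false
open Cfsg

namespace Cfsg.Agent.S2683

open Matrix Cfsg.Agent.Lib.Helper47 Cfsg.Agent.Lib.Helper47.OmcSkel

/-- For the hyperbolic form Σ x_j y_j on F^(2m) over a finite field with q elements, q even (excluding m = 2 over the field of two elements), and an involution x of the orthogonal group with s = rank(x − 1) odd (type b_s; such x lie outside Ω): the elements of Ω (the commutator subgroup of the orthogonal group) commuting with x number q^(2m(s−1) − (3s² − 3s)/2) · |Sp_(s−1)(q)| · |Sp_(2m−2s)(q)|, where |Sp_2k(q)| = q^(k²) Π_(i=1)^k (q^(2i) − 1). -/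
theorem result {F : Type*} [Field F] [Fintype F] [CharP F 2] {q : ℕ} (hF : Fintype.card F = q) {m s : ℕ} (h : Fintype.card F ≠ 2 ∨ m ≠ 2) (x : ↥(Cfsg.isometryGroup F (Cfsg.quadFormPlus m F))) (hx : x ^ 2 = 1) (hs : (((x : Matrix.GeneralLinearGroup (Fin m ⊕ Fin m) F) : Matrix (Fin m ⊕ Fin m) (Fin m ⊕ Fin m) F) - 1).rank = s) (hodd : Odd s) : Nat.card {g : ↥(Cfsg.Omega F (Cfsg.quadFormPlus m F)) // (g : ↥(Cfsg.isometryGroup F (Cfsg.quadFormPlus m F))) * x = x * (g : ↥(Cfsg.isometryGroup F (Cfsg.quadFormPlus m F)))} = q ^ (2 * m * (s - 1) - (3 * s ^ 2 - 3 * s) / 2) * ((q : ℕ) ^ (((s - 1) / 2) ^ 2) * ∏ i : Fin ((s - 1) / 2), (q ^ (2 * ((i : ℕ) + 1)) - 1)) * ((q : ℕ) ^ ((m - s) ^ 2) * ∏ i : Fin (m - s), (q ^ (2 * ((i : ℕ) + 1)) - 1)) := by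
  have hq : 2 ≤ q := by
    rw [← hF]
    exact Fintype.one_lt_card
  have hs' : (omat x - 1).rank = s := hs
  have hst : (((spOfO x : ↥(Matrix.symplecticGroup (Fin m) F)) :
      Matrix (Fin m ⊕ Fin m) (Fin m ⊕ Fin m) F) - 1).rank = s := hs
  have hna : ∃ v, Cfsg.quadFormPlus m F ((omat x - 1) *ᵥ v) ≠ 0 := by
    by_contra hcon
    push Not at hcon
    exact (Nat.not_even_iff_odd.mpr hodd) (alt_conj_std m s x hx hs' hcon).1
  have hsm : s ≤ m := by
    rw [← hs']
    exact rank_le_of_inv m x hx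
  have h1 := card_cent_na hF m s h x hx hs' hna
  have h2 := Cfsg.Agent.S2680.result hF (spOfO x) (spOfO_sq x hx) hst hodd
  exact arith_b q m s _ _ _ _ hq hsm hodd h1 h2

end Cfsg.Agent.S2683
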