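import Cfsg.Statements.S2685
-- import your own Cfsg.Agent.* helpers here
import Cfsg.Agent.Lib.Helper47.OmcMain

set_option autoImplicit false
open Cfsg

namespace Cfsg.Agent.S2685

open Matrix Cfsg.Agent.Lib.Helper47 Cfsg.Agent.Lib.Helper47.OmcSkel

/-- For the hyperbolic form Q = Σ x_j y_j on F^(2m) over a finite field with q elements, q even (excluding m = 2 over the field of two elements), and an involution x of the orthogonal group with s = rank(x − 1) even and Q not vanishing on the image of x − 1 (f(v, xv) ≠ 0 for some v, where f(u, w) = Q(u + w) − Q(u) − Q(w) is the bilinear form of Q; type c_s, which lies in Ω): its centraliser in Ω (the commutator subgroup of the orthogonal group) has order q^(2m(s−1) − (3s² − 5s)/2 − 1) · |Sp_(s−2)(q)| · |Sp_(2m−2s)(q)|. -/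
theorem result {F : Type*} [Field F] [Fintype F] [CharP F 2] {q : ℕ} (hF : Fintype.card F = q) {m s : ℕ} (h : Fintype.card F ≠ 2 ∨ m ≠ 2) (x : ↥(Cfsg.isometryGroup F (Cfsg.quadFormPlus m F))) (hx : x ^ 2 = 1) (hs : (((x : Matrix.GeneralLinearGroup (Fin m ⊕ Fin m) F) : Matrix (Fin m ⊕ Fin m) (Fin m ⊕ Fin m) F) - 1).rank = s) (heven : Even s) (hna : ∃ v : Fin m ⊕ Fin m → F, Cfsg.quadFormPlus m F ((((x : Matrix.GeneralLinearGroup (Fin m ⊕ Fin m) F) : Matrix (Fin m ⊕ Fin m) (Fin m ⊕ Fin m) F) - 1).mulVec v) ≠ 0) : Nat.card {g : ↥(Cfsg.Omega F (Cfsg.quadFormPlus m F)) // (g : ↥(Cfsg.isometryGroup F (Cfsg.quadFormPlus m F))) * x = x * (g : ↥(Cfsg.isometryGroup F (Cfsg.quadFormPlus m F)))} = q ^ (2 * m * (s - 1) - (3 * s ^ 2 - 5 * s) / 2 - 1) * ((q : ℕ) ^ (((s - 2) / 2) ^ 2) * ∏ i : Fin ((s - 2) / 2), (q ^ (2 * ((i : ℕ) + 1)) - 1)) * ((q : ℕ) ^ ((m - s) ^ 2) * ∏ i : Fin (m - s), (q ^ (2 * ((i : ℕ) + 1)) - 1)) := by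
  have hq : 2 ≤ q := by
    rw [← hF]
    exact Fintype.one_lt_card
  have hs' : (omat x - 1).rank = s := hs
  have hst : (((spOfO x : ↥(Matrix.symplecticGroup (Fin m) F)) :
      Matrix (Fin m ⊕ Fin m) (Fin m ⊕ Fin m) F) - 1).rank = s := hs
  have hna' : ∃ v, Cfsg.quadFormPlus m F ((omat x - 1) *ᵥ v) ≠ 0 := hna
  have hsm : s ≤ m := by
    rw [← hs']
    exact rank_le_of_inv m x hx
  have hs0 : s ≠ 0 := by
    rintro rfl
    obtain ⟨v, hv⟩ := hna'
    apply hv
    have hr : LinearMap.range (omat x - 1).mulVecLin = ⊥ := by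
      rw [← Submodule.finrank_eq_zero]
      exact hs'
    have hmem : (omat x - 1) *ᵥ v ∈ LinearMap.range (omat x - 1).mulVecLin := ⟨v, rfl⟩
    rw [hr, Submodule.mem_bot] at hmem
    rw [hmem]
    exact qplus_zero m
  have hs2 : 2 ≤ s := by
    obtain ⟨k, hk⟩ := heven
    omega
  have h1 := card_cent_na hF m s h x hx hs' hna'
  have hnaS : ∃ v : Fin m ⊕ Fin m → F, Cfsg.sympForm m F v
      (((spOfO x : ↥(Matrix.symplecticGroup (Fin m) F)) :
        Matrix (Fin m ⊕ Fin m) (Fin m ⊕ Fin m) F).mulVec v) ≠ 0 := by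
    obtain ⟨v, hv⟩ := hna'
    refine ⟨v, fun hh => hv ?_⟩
    rw [qplus_sub_one m (omat x) (omat_qplus x) v]
    exact hh
  have h2 := Cfsg.Agent.S2682.result hF (spOfO x) (spOfO_sq x hx) hst heven hnaS
  exact arith_c q m s _ _ _ _ hq hsm heven hs2 h1 h2

end Cfsg.Agent.S2685
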