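import Cfsg.Statements.S2731
import Cfsg.Agent.Lib.Helper54.BalF
import Cfsg.Agent.Lib.Helper68.BalI
import Cfsg.Agent.Lib.Helper51.BalD
import Cfsg.Agent.S2735

set_option autoImplicit false
open Cfsg

namespace Cfsg.Agent.S2731

/-- A criterion for the failure of local balance in almost simple groups whose socle is an odd-dimensional orthogonal group Ω_{2m+1}(F) (m ≥ 3, |F| odd; the form x₀² + Σ xᵢ yᵢ). Let F be a finite field of characteristic r and K the (simple) group in question; let A be a group of automorphisms of K containing all inner automorphisms, and x ∈ A an automorphism of prime order p ≠ r that is not inner-diagonal (not induced by a similarity of the form). Then the largest normal subgroup of C_A(x) of order prime to p is nontrivial if and only if x is a field automorphism of K (conjugate under Aut(K) to a non-identity standard field automorphism) and p does not divide the number of fixed points of x on K. -/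
theorem result {F : Type*} [Field F] [Fintype F] {r : ℕ} [Fact r.Prime] [CharP F r] (hodd : Odd (Fintype.card F)) {m : ℕ} (hm : 3 ≤ m) (hK : IsSimpleGroup (Cfsg.POmega F (Cfsg.quadFormOdd m F))) (A : Subgroup (MulAut (Cfsg.POmega F (Cfsg.quadFormOdd m F)))) (hinn : ∀ k : Cfsg.POmega F (Cfsg.quadFormOdd m F), MulAut.conj k ∈ A) {p : ℕ} [Fact p.Prime] (hpr : p ≠ r) (x : MulAut (Cfsg.POmega F (Cfsg.quadFormOdd m F))) (hxA : x ∈ A) (hord : orderOf x = p) (hnot : ¬ Cfsg.IsInnerDiagonalAutPOmegaOdd m x) :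
    Cfsg.pPrimeCore p ↥(A ⊓ Subgroup.centralizer {x}) ≠ ⊥ ↔ (Cfsg.IsFieldAutClassPOmega (Cfsg.quadFormOdd m F) x ∧ Nat.Coprime p (Nat.card ↥(MonoidHom.eqLocus x.toMonoidHom (MonoidHom.id (Cfsg.POmega F (Cfsg.quadFormOdd m F)))))) := by
  classical
  obtain ⟨Q, hq, hQ, hn, h8⟩ := Cfsg.Agent.Lib.Helper51.OAF.odd_data hodd hm
  have h2 : (2 : F) ≠ 0 := Cfsg.Agent.Lib.Helper51.two_ne_zero_of_odd_card hodd
  have hγ : Cfsg.gammaPOmega F (Cfsg.quadFormOdd m F) = ⊤ := by
    rw [← hq]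
    exact Cfsg.Agent.Lib.Helper52.OA.gamma_eq_top Q hQ hn h8
  have hQv : ∀ v, Q v = Cfsg.quadFormOdd m F v := fun v => congrFun hq v
  have hinv : ∀ (τ : F ≃+* F) (v : Unit ⊕ (Fin m ⊕ Fin m) → F),
      Q (fun i => τ (v i)) = τ (Q v) := by
    intro τ v
    rw [hQv, hQv]
    simp [Cfsg.quadFormOdd, map_add, map_sum, map_mul, map_pow]
  have hv : ∃ v, Q v ≠ 0 := by
    refine ⟨Pi.single (Sum.inl ()) 1, ?_⟩
    rw [hQv]
    simp [Cfsg.quadFormOdd]
  have hQ0 : ∀ σ : RingAut F, ⇑(Cfsg.Agent.Lib.Helper65.LS2.Q10 σ Q (hinv σ)) =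
      Cfsg.quadFormOdd m ↥(Cfsg.Agent.Lib.Helper65.LS2.fixSub σ) := by
    intro σ
    funext w
    apply Subtype.ext
    rw [Cfsg.Agent.Lib.Helper65.LS2.coe_Q10, hQv, Cfsg.Agent.Lib.Helper65.LS2.quadFormOdd_up]
  refine Cfsg.Agent.Lib.Helper54.Bal.balance_generic Q (Cfsg.quadFormOdd m F) hq h2 hQ hn hγ hinv hv
    ?_ ?_ ?_ A hinn x hxA hord hnot
  · intro σ
    letI : Fintype ↥(Cfsg.Agent.Lib.Helper65.LS2.fixSub σ) := Fintype.ofFinite _
    rw [hQ0 σ]
    exact Cfsg.Agent.Lib.Helper68.Bal.exists_invol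
      (Cfsg.Agent.Lib.Helper54.Bal.two_ne_zero_fixSub σ h2) (by omega)
  · intro σ γ hG hτ
    refine Cfsg.Agent.Lib.Helper51.BalD.exists_descent σ Q (hinv σ) h2 ?_ γ hG hτ
    refine ⟨Pi.single (Sum.inl ()) 1, ?_⟩
    intro h
    have h' := congrArg Subtype.val h
    rw [Cfsg.Agent.Lib.Helper65.LS2.coe_Q10, Cfsg.Agent.Lib.Helper65.LS2.up_single, hQv] at h'
    simp [Cfsg.quadFormOdd] at h'
  · intro x' δ hx' p' hp' hxp' hδ hord'
    exact (Cfsg.Agent.S2735.result hodd hm x' δ hx' hp' hxp' hδ).1 hord'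

end Cfsg.Agent.S2731
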