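import Cfsg.Statements.S2898
import Mathlib
import Cfsg.Agent.Lib.Helper57.Basic
import Cfsg.Agent.Lib.Helper57.PCore

set_option autoImplicit false
open Cfsg

namespace Cfsg.Agent.S2898

open Cfsg.Agent.Lib.Helper57
open scoped Pointwise

theorem card_sup_dvd_mul {G : Type*} [Group G] [Finite G] (A B : Subgroup G) [B.Normal] :
    Nat.card ↥(A ⊔ B) ∣ Nat.card ↥A * Nat.card ↥B := by
  have h1 : Nat.card ↥B * B.relIndex (A ⊔ B) = Nat.card ↥(A ⊔ B) := by
    have := Subgroup.relIndex_mul_relIndex ⊥ B (A ⊔ B) bot_le le_sup_right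
    rwa [Subgroup.relIndex_bot_left, Subgroup.relIndex_bot_left] at this
  rw [Subgroup.relIndex_sup_right] at h1
  rw [← h1, mul_comm]
  exact Nat.mul_dvd_mul (Subgroup.relIndex_dvd_card B A) dvd_rfl

theorem coprime_card_pPrimeCore {G : Type*} [Group G] [Finite G] (p : ℕ) :
    (Nat.card ↥(pPrimeCore p G)).Coprime p := by
  have key : (pPrimeCore p G).Normal ∧ (Nat.card ↥(pPrimeCore p G)).Coprime p := by
    unfold pPrimeCore
    have hfin : ({N : Subgroup G | N.Normal ∧ (Nat.card ↥N).Coprime p}).Finite := Set.toFinite _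
    have h1 : hfin.toFinset.sup id = sSup {N : Subgroup G | N.Normal ∧ (Nat.card ↥N).Coprime p} := by
      rw [Finset.sup_id_eq_sSup, Set.Finite.coe_toFinset]
    rw [← h1]
    refine Finset.sup_induction (p := fun N : Subgroup G => N.Normal ∧ (Nat.card ↥N).Coprime p)
      ?_ ?_ ?_
    · exact ⟨inferInstance, by simp⟩
    · rintro A ⟨hA1, hA2⟩ B ⟨hB1, hB2⟩
      refine ⟨inferInstance, ?_⟩
      exact Nat.Coprime.coprime_dvd_left (card_sup_dvd_mul A B) (Nat.Coprime.mul_left hA2 hB2)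
    · intro b hb
      exact hfin.mem_toFinset.mp hb
  exact key.2

theorem exists_center_mem_of_normal_ne_bot {P : Type*} [Group P] [Finite P] {p : ℕ}
    [Fact p.Prime] (hP : IsPGroup p P) (N : Subgroup P) [N.Normal] (hN : N ≠ ⊥) :
    ∃ z ∈ N, z ≠ 1 ∧ z ∈ Subgroup.center P := by
  have hNp : IsPGroup p ↥N := hP.to_subgroup N
  have hnt : Nontrivial ↥N := (Subgroup.nontrivial_iff_ne_bot N).mpr hN
  have dvd : p ∣ Nat.card ↥N := by
    obtain ⟨n, hn0, hn⟩ := hNp.nontrivial_iff_card.mp hnt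
    exact hn.symm ▸ dvd_pow_self _ (ne_of_gt hn0)
  have h1 : (1 : ↥N) ∈ MulAction.fixedPoints (ConjAct P) ↥N := by
    intro g
    exact smul_one g
  obtain ⟨b, hb, hb1⟩ :=
    (hP.of_equiv ConjAct.toConjAct).exists_fixed_point_of_prime_dvd_card_of_fixed_point ↥N dvd h1
  refine ⟨(b : P), b.2, ?_, ?_⟩
  · intro h
    apply hb1
    ext
    simp [h]
  · rw [Subgroup.mem_center_iff]
    intro g
    have h2 := hb (ConjAct.toConjAct g)
    have h3 : g * (b : P) * g⁻¹ = b := by
      have := congrArg Subtype.val h2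
      rwa [ConjAct.Subgroup.val_conj_smul, ConjAct.toConjAct_smul] at this
    calc g * (b : P) = g * (b : P) * g⁻¹ * g := by simp
      _ = (b : P) * g := by rw [h3]

/-- a central element of order `p` in a nontrivial Sylow `p`-subgroup, possibly inside a
normal subgroup `C` meeting the Sylow subgroup nontrivially -/
theorem exists_central_orderOf {G : Type*} [Group G] [Finite G] {p : ℕ} [Fact p.Prime]
    (S : Sylow p G) (C : Subgroup G) [C.Normal] (hne : (S : Subgroup G) ⊓ C ≠ ⊥) :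
    ∃ z ∈ (S : Subgroup G), z ∈ C ∧ (∀ s ∈ (S : Subgroup G), s * z = z * s) ∧ orderOf z = p := by
  have hSp : IsPGroup p ↥(S : Subgroup G) := S.isPGroup'
  have hCn : (C.subgroupOf (S : Subgroup G)).Normal := Subgroup.Normal.subgroupOf inferInstance _
  have hCne : C.subgroupOf (S : Subgroup G) ≠ ⊥ := by
    intro h0
    apply hne
    rw [eq_bot_iff]
    intro x hx
    have h1 : (⟨x, hx.1⟩ : ↥(S : Subgroup G)) ∈ C.subgroupOf (S : Subgroup G) :=
      Subgroup.mem_subgroupOf.mpr hx.2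
    rw [h0, Subgroup.mem_bot] at h1
    rw [Subgroup.mem_bot]
    exact congrArg Subtype.val h1
  obtain ⟨z₀, hz₀C, hz₀ne, hz₀c⟩ := exists_center_mem_of_normal_ne_bot hSp _ hCne
  set Z := C.subgroupOf (S : Subgroup G) ⊓ Subgroup.center ↥(S : Subgroup G) with hZ
  have hZne : Z ≠ ⊥ := by
    intro h0
    have : z₀ ∈ Z := ⟨hz₀C, hz₀c⟩
    rw [h0, Subgroup.mem_bot] at this
    exact hz₀ne this
  have hZp : IsPGroup p ↥Z := hSp.to_subgroup Z
  obtain ⟨y, hyZ, hy⟩ := exists_orderOf_eq_of_ne_bot hZp hZne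
  refine ⟨(y : G), y.2, Subgroup.mem_subgroupOf.mp hyZ.1, ?_, (Subgroup.orderOf_coe y).trans hy⟩
  intro s hs
  have := (Subgroup.mem_center_iff.mp hyZ.2) ⟨s, hs⟩
  exact congrArg Subtype.val this

/-- Let G be a finite group of even order with parabolic characteristic 2. If the centre of G ⧸ O(G) is trivial, then O(G) = 1. -/
theorem result {G : Type*} [Group G] [Finite G] (h2 : 2 ∣ Nat.card G) (hG : Cfsg.IsOfParabolicCharacteristic 2 G) [hN : (Cfsg.oddCore G).Normal] (hZ : Subgroup.center (G ⧸ Cfsg.oddCore G) = ⊥) : Cfsg.oddCore G = ⊥ := by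
  have : Fact (Nat.Prime 2) := ⟨Nat.prime_two⟩
  set D := Cfsg.oddCore G with hD
  have hDodd : (Nat.card ↥D).Coprime 2 := coprime_card_pPrimeCore 2
  have hDn : D.Normal := hN
  let S : Sylow 2 G := default
  have hSne : (S : Subgroup G) ≠ ⊥ := S.ne_bot_of_dvd_card h2
  -- Claim A
  have claimA : ∀ z : G, orderOf z = 2 → (∀ s ∈ (S : Subgroup G), s * z = z * s) →
      ∀ d ∈ D, d * z = z * d → d = 1 := by
    intro z hz2 hzS d hdD hdz
    set R := Subgroup.zpowers z with hR
    have hRp : IsPGroup 2 ↥R := IsPGroup.of_card (n := 1) (by rw [Nat.card_zpowers, hz2, pow_one])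
    have hRne : R ≠ ⊥ := by
      intro h0
      have : z = 1 := Subgroup.zpowers_eq_bot.mp h0
      rw [this, orderOf_one] at hz2
      omega
    set N := Subgroup.normalizer (R : Set G) with hNdef
    have hSN : (S : Subgroup G) ≤ N := by
      intro s hs
      apply centralizer_singleton_le_normalizer_zpowers z
      rw [mem_centralizer_singleton]
      exact (hzS s hs).symm
    have hpar : IsParabolic 2 N := ⟨S, hSN⟩
    have hchar := hG R hRp hRne hpar
    have hdN : d ∈ N := by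
      apply centralizer_singleton_le_normalizer_zpowers z
      rw [mem_centralizer_singleton]
      exact hdz.symm
    have hMn : (D.subgroupOf N).Normal := hDn.subgroupOf N
    have hQn : (pCore 2 ↥N).Normal := pCore_normal 2 ↥N
    have hdisj : Disjoint (D.subgroupOf N) (pCore 2 ↥N) := by
      rw [Subgroup.disjoint_def]
      intro x hxM hxQ
      obtain ⟨k, hk⟩ := (isPGroup_pCore 2 ↥N) ⟨x, hxQ⟩
      have hk' : x ^ (2 ^ k) = 1 := congrArg Subtype.val hk
      have hxD : (x : G) ∈ D := Subgroup.mem_subgroupOf.mp hxM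
      have h1 : orderOf (x : G) ∣ Nat.card ↥D := by
        have := orderOf_dvd_natCard (⟨(x : G), hxD⟩ : ↥D)
        rwa [Subgroup.orderOf_mk] at this
      have h2' : orderOf (x : G) ∣ 2 ^ k := by
        apply orderOf_dvd_of_pow_eq_one
        have := congrArg Subtype.val hk'
        simpa using this
      have h3 : orderOf (x : G) = 1 :=
        Nat.eq_one_of_dvd_coprimes (Nat.Coprime.pow_right k hDodd) h1 h2'
      exact Subtype.ext (orderOf_eq_one_iff.mp h3)
    have hcomm : (⟨d, hdN⟩ : ↥N) ∈ Subgroup.centralizer (pCore 2 ↥N : Set ↥N) := by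
      rw [Subgroup.mem_centralizer_iff]
      intro q hq
      exact ((Subgroup.commute_of_normal_of_disjoint _ _ hMn hQn hdisj ⟨d, hdN⟩ q
        (Subgroup.mem_subgroupOf.mpr hdD) hq).eq).symm
    have hdQ := hchar hcomm
    have := Subgroup.disjoint_def.mp hdisj (Subgroup.mem_subgroupOf.mpr hdD) hdQ
    exact congrArg Subtype.val this
  -- inversion
  have hinv : ∀ z : G, orderOf z = 2 → (∀ s ∈ (S : Subgroup G), s * z = z * s) →
      ∀ a ∈ D, z * a * z⁻¹ = a⁻¹ := by
    intro z hz2 hzS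
    have hzz : z * z = 1 := by
      have := pow_orderOf_eq_one z
      rwa [hz2, pow_two] at this
    have hzinv : z⁻¹ = z := inv_eq_of_mul_eq_one_left hzz
    let f : ↥D → ↥D := fun d =>
      ⟨(d : G)⁻¹ * (z * d * z⁻¹), D.mul_mem (D.inv_mem d.2) (hDn.conj_mem d d.2 z)⟩
    have hinj : Function.Injective f := by
      intro d e hde
      have h : (d : G)⁻¹ * (z * d * z⁻¹) = (e : G)⁻¹ * (z * e * z⁻¹) := congrArg Subtype.val hde
      have hc : ((e : G) * (d : G)⁻¹) * z = z * ((e : G) * (d : G)⁻¹) := by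
        have h1 : (e : G) * ((d : G)⁻¹ * (z * d * z⁻¹)) = z * e * z⁻¹ := by
          rw [h]; simp [mul_assoc]
        calc (e : G) * (d : G)⁻¹ * z
            = ((e : G) * ((d : G)⁻¹ * (z * d * z⁻¹))) * z * (d : G)⁻¹ := by simp [mul_assoc]
          _ = (z * e * z⁻¹) * z * (d : G)⁻¹ := by rw [h1]
          _ = z * ((e : G) * (d : G)⁻¹) := by simp [mul_assoc]
      have := claimA z hz2 hzS _ (D.mul_mem e.2 (D.inv_mem d.2)) hc
      exact Subtype.ext (mul_inv_eq_one.mp this).symm
    have hsurj : Function.Surjective f := Finite.injective_iff_surjective.mp hinj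
    intro a ha
    obtain ⟨d, hd⟩ := hsurj ⟨a, ha⟩
    have ha' : a = (d : G)⁻¹ * (z * d * z⁻¹) := (congrArg Subtype.val hd).symm
    rw [ha', hzinv]
    have e1 : z * ((d : G)⁻¹ * (z * d * z)) * z = z * (d : G)⁻¹ * z * d * (z * z) := by
      simp [mul_assoc]
    have e2 : ((d : G)⁻¹ * (z * d * z))⁻¹ = z⁻¹ * (d : G)⁻¹ * z⁻¹ * d := by
      simp [mul_assoc]
    rw [e1, e2, hzz, hzinv, mul_one]
  -- C = C_G(D)
  set C := Subgroup.centralizer (D : Set G) with hC
  have hCn : C.Normal := Subgroup.normal_centralizer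
  by_cases hSC : (S : Subgroup G) ⊓ C = ⊥
  · -- C has odd order
    have hCodd : (Nat.card ↥C).Coprime 2 := by
      rw [Nat.coprime_comm, Nat.Prime.coprime_iff_not_dvd Nat.prime_two]
      intro hdvd
      let T : Sylow 2 ↥C := default
      have hTne : (T : Subgroup ↥C) ≠ ⊥ := T.ne_bot_of_dvd_card hdvd
      obtain ⟨g, hg⟩ := exists_conj_sylow_ge_top S ((T : Subgroup ↥C).map C.subtype)
        (T.isPGroup'.map _)
      obtain ⟨t, ht1⟩ := (Subgroup.ne_bot_iff_exists_ne_one).mp hTne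
      have h1 : g⁻¹ * ((t : ↥C) : G) * g ∈ (S : Subgroup G) :=
        (mem_smul_sylow S g _).mp (hg ⟨(t : ↥C), t.2, rfl⟩)
      have h2 : g⁻¹ * ((t : ↥C) : G) * g ∈ C := by
        have := hCn.conj_mem ((t : ↥C) : G) (t : ↥C).2 g⁻¹
        simpa using this
      have h3 : g⁻¹ * ((t : ↥C) : G) * g ∈ (S : Subgroup G) ⊓ C := ⟨h1, h2⟩
      rw [hSC, Subgroup.mem_bot] at h3
      apply ht1
      have h4 : ((t : ↥C) : G) = g * (g⁻¹ * ((t : ↥C) : G) * g) * g⁻¹ := by simp [mul_assoc]
      rw [h3] at h4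
      ext
      simpa using h4
    have hCD : C ≤ D := by
      show C ≤ sSup {N : Subgroup G | N.Normal ∧ (Nat.card ↥N).Coprime 2}
      exact le_sSup ⟨hCn, hCodd⟩
    -- central involution
    have hS1 : (S : Subgroup G) ⊓ (⊤ : Subgroup G) ≠ ⊥ := by
      rw [inf_top_eq]; exact hSne
    obtain ⟨z, hzS, -, hzc, hz2⟩ := exists_central_orderOf S ⊤ hS1
    have hzz : z * z = 1 := by
      have := pow_orderOf_eq_one z
      rwa [hz2, pow_two] at this
    have hzinv : z⁻¹ = z := inv_eq_of_mul_eq_one_left hzz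
    have hzgC : ∀ g : G, z * (g * z * g⁻¹) ∈ C := by
      intro g
      rw [hC, Subgroup.mem_centralizer_iff]
      intro d hd
      have h1 : g⁻¹ * d * g ∈ D := by
        have := hDn.conj_mem d hd g⁻¹
        simpa using this
      have h2' := hinv z hz2 hzc _ h1
      have h3 : (g * z * g⁻¹) * d * (g * z * g⁻¹)⁻¹ = d⁻¹ := by
        have e : (g * z * g⁻¹) * d * (g * z * g⁻¹)⁻¹ = g * (z * (g⁻¹ * d * g) * z⁻¹) * g⁻¹ := by
          simp [mul_assoc]
        rw [e, h2']
        simp [mul_assoc]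
      have h4 := hinv z hz2 hzc _ (D.inv_mem hd)
      rw [inv_inv] at h4
      have h5 : (z * (g * z * g⁻¹)) * d * (z * (g * z * g⁻¹))⁻¹ = d := by
        have e : (z * (g * z * g⁻¹)) * d * (z * (g * z * g⁻¹))⁻¹
            = z * ((g * z * g⁻¹) * d * (g * z * g⁻¹)⁻¹) * z⁻¹ := by
          simp [mul_assoc]
        rw [e, h3, h4]
      calc d * (z * (g * z * g⁻¹))
          = ((z * (g * z * g⁻¹)) * d * (z * (g * z * g⁻¹))⁻¹) * (z * (g * z * g⁻¹)) := by rw [h5]
        _ = z * (g * z * g⁻¹) * d := by simp [mul_assoc]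
    have hzcenter : (QuotientGroup.mk z : G ⧸ Cfsg.oddCore G) ∈
        Subgroup.center (G ⧸ Cfsg.oddCore G) := by
      rw [Subgroup.mem_center_iff]
      intro q
      obtain ⟨g, rfl⟩ := QuotientGroup.mk_surjective q
      rw [← QuotientGroup.mk_mul, ← QuotientGroup.mk_mul, QuotientGroup.eq]
      have h1 := hCD (hzgC g⁻¹)
      have e : (g * z)⁻¹ * (z * g) = z * (g⁻¹ * z * g⁻¹⁻¹) := by
        simp [mul_assoc, hzinv]
      rw [e]
      exact h1
    rw [hZ, Subgroup.mem_bot, QuotientGroup.eq_one_iff] at hzcenter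
    exfalso
    have h1 : orderOf z ∣ Nat.card ↥D := by
      have := orderOf_dvd_natCard (⟨z, hzcenter⟩ : ↥D)
      rwa [Subgroup.orderOf_mk] at this
    rw [hz2] at h1
    have := Nat.Coprime.eq_one_of_dvd hDodd.symm h1
    omega
  · obtain ⟨z, hzS, hzC, hzc, hz2⟩ := exists_central_orderOf S C hSC
    rw [eq_bot_iff]
    intro d hd
    rw [Subgroup.mem_bot]
    apply claimA z hz2 hzc d hd
    rw [hC, Subgroup.mem_centralizer_iff] at hzC
    exact hzC d hd

end Cfsg.Agent.S2898
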