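import Cfsg.Statements.S2905
import Mathlib
import Cfsg.Agent.Lib.Helper57.PMin

set_option autoImplicit false
open Cfsg

namespace Cfsg.Agent.S2905

open Cfsg.Agent.Lib.Helper57

/-- Let P be a finite p-minimal group (a Sylow p-subgroup S is not normal and lies in a unique maximal subgroup M of P) and let F be the normal core of M. Then: every subnormal subgroup N of P contained in M satisfies N ∩ S ≤ O_p(P); if O^p(P) has a normal Sylow p-subgroup then the order of P has at most two prime divisors; every normal subgroup N of P either contains O^p(P) or is contained in F; and O^p(P)F ⧸ F is a minimal normal subgroup of P ⧸ F. -/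
theorem result {P : Type*} [Group P] [Finite P] {p : ℕ} [Fact p.Prime] (hP : Cfsg.IsPMinimal p P) (S : Sylow p P) (M : Subgroup P) (hM : IsCoatom M) (hSM : (S : Subgroup P) ≤ M) [hF : M.normalCore.Normal] : (∀ N : Subgroup P, N.IsSubnormal → N ≤ M → N ⊓ (S : Subgroup P) ≤ Cfsg.pCore p P) ∧ ((∀ T : Sylow p ↥(Cfsg.pResidual p P), (T : Subgroup ↥(Cfsg.pResidual p P)).Normal) → (Nat.card P).primeFactors.card ≤ 2) ∧ (∀ N : Subgroup P, N.Normal → Cfsg.pResidual p P ≤ N ∨ N ≤ M.normalCore) ∧ (∀ N : Subgroup P, N.Normal → M.normalCore ≤ N → N ≤ Cfsg.pResidual p P ⊔ M.normalCore → N = M.normalCore ∨ N = Cfsg.pResidual p P ⊔ M.normalCore) ∧ M.normalCore < Cfsg.pResidual p P ⊔ M.normalCore := by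
  refine ⟨?_, ?_, ?_, ?_, ?_⟩
  · intro N hN hNM
    have h1 := subnormal_le_core_of_coatom hM N hN hNM
    have h2 := pmin_sylow_inf_normal_le_pCore hP S hM hSM M.normalCore (Subgroup.normalCore_le M)
    calc N ⊓ (S : Subgroup P) ≤ (S : Subgroup P) ⊓ M.normalCore := by
          rw [inf_comm]; exact inf_le_inf_left _ h1
      _ ≤ pCore p P := h2
  · intro hT
    have hOn : (pResidual p P).Normal := Cfsg.Agent.Lib.Helper56.pResidual_normal p P
    obtain ⟨T, hTQ⟩ := Cfsg.Agent.Lib.Helper41.exists_sylow_of_normal S (pResidual p P)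
    have hTn := hT T
    have hQn : ((S : Subgroup P) ⊓ pResidual p P).Normal := by
      rw [← Subgroup.normalizer_eq_top_iff]
      apply top_unique
      rw [← Cfsg.Agent.Lib.Helper56.sylow_sup_pResidual p S]
      apply sup_le (sylow_le_normalizer_inf_normal S (pResidual p P))
      rw [← hTQ]
      intro o ho
      apply Subgroup.mem_normalizer_fintype
      rintro _ ⟨t, ht, rfl⟩
      exact ⟨⟨o, ho⟩ * t * ⟨o, ho⟩⁻¹, hTn.conj_mem t ht ⟨o, ho⟩, rfl⟩
    exact pmin_two_primes hP S hM hSM ((S : Subgroup P) ⊓ pResidual p P) inf_le_left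
      (Cfsg.Agent.Lib.Helper41.sylow_inf_normal_not_dvd S (pResidual p P))
  · intro N hN
    exact pmin_normal_dichotomy hP S hM hSM N hN
  · intro N hN hFN hNO
    rcases pmin_normal_dichotomy hP S hM hSM N hN with h | h
    · right; exact le_antisymm hNO (sup_le h hFN)
    · left; exact le_antisymm h hFN
  · refine lt_of_le_of_ne le_sup_right ?_
    intro h
    have h1 : pResidual p P ≤ M.normalCore := by rw [h]; exact le_sup_left
    exact pmin_pResidual_not_le S hM hSM (h1.trans (Subgroup.normalCore_le M))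

end Cfsg.Agent.S2905
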