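import Cfsg.Statements.S2906
import Mathlib
import Cfsg.Agent.Lib.Helper57.PMin
import Cfsg.Agent.Lib.Helper57.SylSubnormal
import Cfsg.Agent.Lib.Helper30.Basic
import Cfsg.Agent.Lib.Helper30.Cores

set_option autoImplicit false
open Cfsg

namespace Cfsg.Agent.S2906

open Cfsg.Agent.Lib.Helper57 Cfsg.Agent.Lib.Helper30

/-- product decomposition when `B` normalizes `A` -/
theorem mem_sup_of_le_normalizer {G : Type*} [Group G] {A B : Subgroup G}
    (h : B ≤ Subgroup.normalizer (A : Set G)) {g : G}
    (hg : g ∈ A ⊔ B) : ∃ a ∈ A, ∃ b ∈ B, g = a * b := by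
  let Q : Subgroup G :=
    { carrier := {g | ∃ a ∈ A, ∃ b ∈ B, g = a * b}
      mul_mem' := by
        rintro _ _ ⟨a, ha, b, hb, rfl⟩ ⟨a', ha', b', hb', rfl⟩
        refine ⟨a * (b * a' * b⁻¹),
          mul_mem ha ((Subgroup.mem_normalizer_iff.mp (h hb) a').mp ha'), b * b', mul_mem hb hb',
          by group⟩
      one_mem' := ⟨1, one_mem _, 1, one_mem _, by simp⟩
      inv_mem' := by
        rintro _ ⟨a, ha, b, hb, rfl⟩
        refine ⟨b⁻¹ * a⁻¹ * b⁻¹⁻¹,
          (Subgroup.mem_normalizer_iff.mp (h (inv_mem hb)) a⁻¹).mp (inv_mem ha), b⁻¹, inv_mem hb,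
          by group⟩ }
  have hle : A ⊔ B ≤ Q :=
    sup_le (fun a ha => ⟨a, ha, 1, one_mem _, by simp⟩) (fun b hb => ⟨1, one_mem _, b, hb, by simp⟩)
  exact hle hg

/-- `p`-minimality may be checked on one Sylow `p`-subgroup -/
theorem isPMinimal_of_sylow {G : Type*} [Group G] [Finite G] {p : ℕ} [Fact p.Prime] (S₀ : Sylow p G)
    (h1 : ¬ (S₀ : Subgroup G).Normal)
    (h2 : ∃! M : Subgroup G, IsCoatom M ∧ (S₀ : Subgroup G) ≤ M) :
    IsPMinimal p G := by
  intro S'
  obtain ⟨x, rfl⟩ := MulAction.exists_smul_eq G S₀ S'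
  constructor
  · intro hn
    apply h1
    have h3 : x⁻¹ • (x • S₀) = x • S₀ := @Sylow.smul_eq_of_normal _ _ _ x⁻¹ (x • S₀) hn
    rw [inv_smul_smul] at h3
    rw [h3]; exact hn
  · obtain ⟨M, ⟨hM, hSM⟩, huniq⟩ := h2
    let e : Subgroup G ≃o Subgroup G := (MulAut.conj x).mapSubgroup
    have hcoe : ((x • S₀ : Sylow p G) : Subgroup G) = e (S₀ : Subgroup G) := by
      rw [Sylow.coe_subgroup_smul]; rfl
    refine ⟨e M, ⟨(OrderIso.isCoatom_iff e M).mpr hM, ?_⟩, ?_⟩
    · rw [hcoe]; exact e.monotone hSM
    · rintro M' ⟨hM', hSM'⟩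
      have h3 : IsCoatom (e.symm M') := (OrderIso.isCoatom_iff e.symm M').mpr hM'
      have h4 : (S₀ : Subgroup G) ≤ e.symm M' := by
        rw [hcoe] at hSM'
        have := e.symm.monotone hSM'
        rwa [e.symm_apply_apply] at this
      have h5 := huniq (e.symm M') ⟨h3, h4⟩
      rw [← h5]; exact (e.apply_symm_apply M').symm

section
variable {P : Type*} [Group P] [Finite P] {p : ℕ} [Fact p.Prime]

/-- a normal subgroup inside `M` is nilpotent when `O_p(P) = 1` -/
theorem normal_le_coatom_nilpotent
    (hP : IsPMinimal p P) (hOp : pCore p P = ⊥) (S : Sylow p P) {M : Subgroup P}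
    (hM : IsCoatom M) (hSM : (S : Subgroup P) ≤ M) (N : Subgroup P) [hN : N.Normal]
    (hNM : N ≤ M) : Group.IsNilpotent ↥N := by
  have h1 : (S : Subgroup P) ⊓ N = ⊥ := by
    have := pmin_sylow_inf_normal_le_pCore hP S hM hSM N hNM
    rw [hOp] at this; exact le_bot_iff.mp this
  have hpN : ¬ p ∣ Nat.card N := by
    have := Cfsg.Agent.Lib.Helper41.sylow_inf_normal_not_dvd S N
    rw [h1, Subgroup.relIndex_bot_left] at this; exact this
  have key : ∀ (r : ℕ) [Fact r.Prime] (R' : Sylow r ↥N), (R' : Subgroup ↥N).Normal := by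
    intro r hr R'
    obtain ⟨R, hR⟩ := Cfsg.Agent.Lib.Helper66.exists_invariant_sylow S.2 N hpN r
    have hfr := Sylow.normalizer_sup_eq_top R
    have hRn : ((R : Subgroup ↥N).map N.subtype).Normal := by
      by_contra hn
      have h3 : Subgroup.normalizer (((R : Subgroup ↥N).map N.subtype : Subgroup P) : Set P) ≠ ⊤ :=
        fun h => hn (Subgroup.normalizer_eq_top_iff.mp h)
      have h4 := pmin_le_of_sylow_le hP S hM hSM hR h3
      exact hM.1 (top_le_iff.mp (hfr ▸ sup_le h4 hNM))
    have hRn' : (R : Subgroup ↥N).Normal := by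
      constructor
      intro n hn g
      obtain ⟨m, hm, hmeq⟩ := hRn.conj_mem (n : P) ⟨n, hn, rfl⟩ (g : P)
      have : m = g * n * g⁻¹ := Subtype.ext (by simpa using hmeq)
      rw [← this]; exact hm
    obtain ⟨n, rfl⟩ := MulAction.exists_smul_eq ↥N R R'
    rw [@Sylow.smul_eq_of_normal _ _ _ n R hRn']; exact hRn'
  exact ((Group.isNilpotent_of_finite_tfae (G := ↥N)).out 0 3).mpr (fun r hr R' => @key r hr R')

theorem isPGroup_quot_pResidual' [hn : (pResidual p P).Normal] :
    IsPGroup p (P ⧸ pResidual p P) := by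
  intro x
  obtain ⟨g, rfl⟩ := QuotientGroup.mk_surjective x
  obtain ⟨k, hk⟩ := Cfsg.Agent.Lib.Helper56.exists_pow_mem_pResidual p g
  exact ⟨k, by rw [← QuotientGroup.mk_pow]; exact (QuotientGroup.eq_one_iff _).mpr hk⟩

/-- perfect subgroups lie in `O^p` -/
theorem perfect_le_pResidual (L : Subgroup P) (hL : ⁅L, L⁆ = L) : L ≤ pResidual p P := by
  have hOn : (pResidual p P).Normal := Cfsg.Agent.Lib.Helper56.pResidual_normal p P
  set π := QuotientGroup.mk' (pResidual p P) with hπ
  have h1 : ⁅L.map π, L.map π⁆ = L.map π := by rw [← Subgroup.map_commutator, hL]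
  have h2 : IsPGroup p ↥(L.map π) := isPGroup_quot_pResidual'.to_subgroup _
  have h3 : L.map π = ⊥ := by
    by_contra hne
    have hnt : Nontrivial ↥(L.map π) := (Subgroup.nontrivial_iff_ne_bot _).mpr hne
    have hperf : Group.IsPerfect ↥(L.map π) := Subgroup.isPerfect_iff.mpr h1
    have hnil : Group.IsNilpotent ↥(L.map π) := h2.isNilpotent
    exact Group.IsPerfect.not_isNilpotent ↥(L.map π) hnil
  have h4 := (Subgroup.map_eq_bot_iff L).mp h3
  rwa [hπ, QuotientGroup.ker_mk'] at h4

end

section
variable {P : Type*} [Group P] [Finite P] {p : ℕ} [Fact p.Prime]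

omit [Fact p.Prime] in
/-- `S` normalizes the join of the `S`-conjugates of any subgroup -/
theorem sylow_le_normalizer_iSup_conj (S : Sylow p P) (D : Subgroup P) :
    (S : Subgroup P) ≤ Subgroup.normalizer
      ((⨆ s : ↥(S : Subgroup P), D.map (MulAut.conj (s : P)).toMonoidHom : Subgroup P) : Set P) := by
  intro t ht
  apply Subgroup.mem_normalizer_fintype
  intro y hy
  have hle : (⨆ s : ↥(S : Subgroup P), D.map (MulAut.conj (s : P)).toMonoidHom) ≤
      (⨆ s : ↥(S : Subgroup P), D.map (MulAut.conj (s : P)).toMonoidHom).comap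
        (MulAut.conj t).toMonoidHom := by
    apply iSup_le
    intro s
    rw [← Subgroup.map_le_iff_le_comap, Subgroup.map_map]
    have h1 : (MulAut.conj t).toMonoidHom.comp (MulAut.conj (s : P)).toMonoidHom
        = (MulAut.conj (t * s)).toMonoidHom := by
      ext x; simp [mul_assoc]
    rw [h1]
    exact le_iSup (fun s : ↥(S : Subgroup P) => D.map (MulAut.conj (s : P)).toMonoidHom)
      ⟨t * s, mul_mem ht s.2⟩
  have := hle hy
  simpa using this

theorem comp_le_normalizer_comp {L K : Subgroup P} (hL : IsComponent L) (hK : IsComponent K) :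
    L ≤ Subgroup.normalizer (K : Set P) := by
  by_cases h : L = K
  · rw [h]; exact Subgroup.le_normalizer
  · have := components_commute hL hK h
    rw [Subgroup.commutator_eq_bot_iff_le_centralizer] at this
    exact this.trans (Subgroup.centralizer_le_normalizer _)

theorem layer_le_normalizer_comp {K : Subgroup P} (hK : IsComponent K) :
    layer P ≤ Subgroup.normalizer (K : Set P) :=
  sSup_le (fun _ hL => comp_le_normalizer_comp hL hK)

theorem layer_facts (hP : IsPMinimal p P) (hOp : pCore p P = ⊥) (S : Sylow p P) {M : Subgroup P}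
    (hM : IsCoatom M) (hSM : (S : Subgroup P) ≤ M) (K : Subgroup P) (hK : IsComponent K) :
    pResidual p P = layer P ∧ fittingSubgroup P ≤ layer P ∧
      layer P = ⨆ s : ↥(S : Subgroup P), K.map (MulAut.conj (s : P)).toMonoidHom := by
  have hEn : (layer P).Normal := layer_normal
  have hKE : K ≤ layer P := comp_le_layer hK
  have hcore : M.normalCore ≤ M := Subgroup.normalCore_le M
  have hOE : pResidual p P ≤ layer P := by
    rcases pmin_normal_dichotomy hP S hM hSM (layer P) hEn with h | h
    · exact h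
    · exfalso
      have hnil := normal_le_coatom_nilpotent hP hOp S hM hSM (layer P) (h.trans hcore)
      exact comp_not_le_solvable hK (N := layer P) inferInstance hKE
  have hEO : layer P ≤ pResidual p P :=
    sSup_le (fun L hL => perfect_le_pResidual L (comp_perfect hL))
  have hO : pResidual p P = layer P := le_antisymm hOE hEO
  refine ⟨hO, ?_, ?_⟩
  · have hFn : (fittingSubgroup P).Normal := fitting_normal
    have hFnil : Group.IsNilpotent ↥(fittingSubgroup P) := fitting_nilpotent
    rw [← hO]
    rcases pmin_normal_dichotomy hP S hM hSM (fittingSubgroup P) hFn with h | h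
    · exfalso
      exact comp_not_le_solvable hK (N := fittingSubgroup P) inferInstance
        (hKE.trans (hEO.trans h))
    · have h1 : (S : Subgroup P) ⊓ fittingSubgroup P = ⊥ := by
        have := pmin_sylow_inf_normal_le_pCore hP S hM hSM (fittingSubgroup P) (h.trans hcore)
        rw [hOp] at this; exact le_bot_iff.mp this
      have hpF : ¬ p ∣ Nat.card (fittingSubgroup P) := by
        have := Cfsg.Agent.Lib.Helper41.sylow_inf_normal_not_dvd S (fittingSubgroup P)
        rw [h1, Subgroup.relIndex_bot_left] at this; exact this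
      intro x hx
      apply Subgroup.subset_closure
      show Nat.Coprime (orderOf x) p
      have h2 : orderOf x ∣ Nat.card (fittingSubgroup P) := by
        have := orderOf_dvd_natCard (⟨x, hx⟩ : fittingSubgroup P)
        rwa [Subgroup.orderOf_mk] at this
      exact (Nat.Coprime.symm ((Nat.Prime.coprime_iff_not_dvd (Fact.out : p.Prime)).mpr
        (fun h3 => hpF (h3.trans h2))))
  · set N₀ := ⨆ s : ↥(S : Subgroup P), K.map (MulAut.conj (s : P)).toMonoidHom with hN₀
    have hcomp : ∀ s : ↥(S : Subgroup P),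
        IsComponent (K.map (MulAut.conj (s : P)).toMonoidHom) :=
      fun s => isComponent_map_equiv (MulAut.conj (s : P)) hK
    have hN₀E : N₀ ≤ layer P := iSup_le (fun s => comp_le_layer (hcomp s))
    have hKN₀ : K ≤ N₀ := by
      have h1 : K.map (MulAut.conj ((1 : ↥(S : Subgroup P)) : P)).toMonoidHom = K := by
        ext x; simp
      calc K = K.map (MulAut.conj ((1 : ↥(S : Subgroup P)) : P)).toMonoidHom := h1.symm
        _ ≤ N₀ := le_iSup (fun s : ↥(S : Subgroup P) =>
            K.map (MulAut.conj (s : P)).toMonoidHom) 1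
    have hSN : (S : Subgroup P) ≤ Subgroup.normalizer (N₀ : Set P) :=
      sylow_le_normalizer_iSup_conj S K
    have hEN : layer P ≤ Subgroup.normalizer (N₀ : Set P) := by
      apply sSup_le
      intro L hL
      refine le_trans ?_ (Subgroup.iInf_normalizer_le_normalizer_iSup _)
      exact le_iInf (fun s => comp_le_normalizer_comp hL (hcomp s))
    have hN₀n : N₀.Normal := by
      rw [← Subgroup.normalizer_eq_top_iff]
      apply top_unique
      rw [← Cfsg.Agent.Lib.Helper56.sylow_sup_pResidual p S]
      exact sup_le hSN (hOE.trans hEN)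
    rcases pmin_normal_dichotomy hP S hM hSM N₀ hN₀n with h | h
    · exact le_antisymm (hEO.trans h) hN₀E
    · exfalso
      have hnil := normal_le_coatom_nilpotent hP hOp S hM hSM N₀ (h.trans hcore)
      exact comp_not_le_solvable hK (N := N₀) inferInstance hKN₀

end

section
variable {P : Type*} [Group P] [Finite P] {p : ℕ} [Fact p.Prime]

/-- a `p`-subgroup of `K` containing `S ⊓ K` (for `K` subnormal) equals `S ⊓ K` -/
theorem pgroup_le_sylow_inf {K : Subgroup P} (hK : K.IsSubnormal) (S : Sylow p P)
    {Q₁ : Subgroup P} (hQ₁ : IsPGroup p ↥Q₁) (hle : (S : Subgroup P) ⊓ K ≤ Q₁) (hQK : Q₁ ≤ K) :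
    Q₁ ≤ (S : Subgroup P) ⊓ K := by
  have h1 := sylow_inf_subnormal_not_dvd hK S
  have h2 : ((S : Subgroup P) ⊓ K).relIndex Q₁ * Q₁.relIndex K
      = ((S : Subgroup P) ⊓ K).relIndex K := Subgroup.relIndex_mul_relIndex _ _ _ hle hQK
  have h3 : ¬ p ∣ ((S : Subgroup P) ⊓ K).relIndex Q₁ :=
    fun h => h1 (h2 ▸ Dvd.dvd.mul_right h _)
  have h4 : ((S : Subgroup P) ⊓ K).relIndex Q₁ ∣ Nat.card Q₁ := Subgroup.relIndex_dvd_card _ _
  obtain ⟨n, hn⟩ := hQ₁.exists_card_eq
  rw [hn] at h4
  obtain ⟨m, -, hm⟩ := (Nat.dvd_prime_pow (Fact.out : p.Prime)).mp h4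
  have hm0 : m = 0 := by
    by_contra hne
    apply h3
    rw [hm]
    exact dvd_pow_self p hne
  rw [hm0, pow_zero] at hm
  exact Subgroup.relIndex_eq_one.mp hm

theorem pmin_comp (hP : IsPMinimal p P) (hOp : pCore p P = ⊥) (S : Sylow p P) {M : Subgroup P}
    (hM : IsCoatom M) (hSM : (S : Subgroup P) ≤ M) (K : Subgroup P) (hK : IsComponent K) :
    IsPMinimal p ↥(K ⊔ ((S : Subgroup P) ⊓ Subgroup.normalizer (K : Set P))) := by
  obtain ⟨hO, hFE, hE⟩ := layer_facts hP hOp S hM hSM K hK
  set T := (S : Subgroup P) ⊓ Subgroup.normalizer (K : Set P) with hT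
  set X := K ⊔ T with hX
  have hTN : T ≤ Subgroup.normalizer (K : Set P) := inf_le_right
  have hTS : T ≤ (S : Subgroup P) := inf_le_left
  have hKX : K ≤ X := le_sup_left
  have hTX : T ≤ X := le_sup_right
  have hTp : IsPGroup p ↥T := S.2.to_le hTS
  have hSKT : (S : Subgroup P) ⊓ K ≤ T :=
    le_inf inf_le_left (inf_le_right.trans Subgroup.le_normalizer)
  have hcomp : ∀ s : ↥(S : Subgroup P),
      IsComponent (K.map (MulAut.conj (s : P)).toMonoidHom) :=
    fun s => isComponent_map_equiv (MulAut.conj (s : P)) hK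
  have hKM : ¬ K ≤ M := by
    intro h
    apply pmin_pResidual_not_le S hM hSM
    rw [hO, hE]
    apply iSup_le
    rintro ⟨s, hs⟩ _ ⟨k, hk, rfl⟩
    exact M.mul_mem (M.mul_mem (hSM hs) (h hk)) (M.inv_mem (hSM hs))
  have hdecomp : ∀ x ∈ X, ∃ k ∈ K, ∃ t ∈ T, x = k * t :=
    fun x hx => mem_sup_of_le_normalizer hTN hx
  let S₀ : Sylow p ↥X :=
    { toSubgroup := T.subgroupOf X
      isPGroup' := hTp.comap_subtype
      is_maximal' := by
        intro Q hQ hTQ
        apply le_antisymm _ hTQ
        intro x hxQ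
        rw [Subgroup.mem_subgroupOf]
        obtain ⟨k, hk, t, ht, hxkt⟩ := hdecomp (x : P) x.2
        have htQ : (⟨t, hTX ht⟩ : ↥X) ∈ Q := hTQ (Subgroup.mem_subgroupOf.mpr ht)
        have hkQ : (⟨k, hKX hk⟩ : ↥X) ∈ Q := by
          have : (⟨k, hKX hk⟩ : ↥X) = x * (⟨t, hTX ht⟩ : ↥X)⁻¹ := by
            apply Subtype.ext
            simp [hxkt]
          rw [this]; exact Q.mul_mem hxQ (Q.inv_mem htQ)
        have hQ₁ : IsPGroup p ↥(Q.map X.subtype ⊓ K) := (hQ.map X.subtype).to_le inf_le_left
        have hle : (S : Subgroup P) ⊓ K ≤ Q.map X.subtype ⊓ K := by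
          refine le_inf ?_ inf_le_right
          intro y hy
          exact ⟨⟨y, hTX (hSKT hy)⟩, hTQ (Subgroup.mem_subgroupOf.mpr (hSKT hy)), rfl⟩
        have hkk := pgroup_le_sylow_inf hK.1 S hQ₁ hle inf_le_right
          (show k ∈ Q.map X.subtype ⊓ K from ⟨⟨_, hkQ, rfl⟩, hk⟩)
        rw [hxkt]
        exact T.mul_mem (hSKT hkk) ht }
  have hS₀ : (S₀ : Subgroup ↥X) = T.subgroupOf X := rfl
  apply isPMinimal_of_sylow S₀
  · intro hn
    rw [hS₀, Subgroup.normal_subgroupOf_iff_le_normalizer hTX] at hn
    have hKT : K ⊓ T ≤ pCore p P := by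
      apply le_pCore_of_subnormal _ (hTp.to_le inf_le_right)
      apply Subgroup.IsSubnormal.trans (inf_le_left : K ⊓ T ≤ K) _ hK.1
      apply Subgroup.Normal.isSubnormal
      rw [Subgroup.normal_subgroupOf_iff_le_normalizer inf_le_left]
      intro k hk
      rw [Subgroup.mem_normalizer_iff]
      intro x
      have hkT := Subgroup.mem_normalizer_iff.mp (hn (hKX hk)) x
      constructor
      · rintro ⟨hxK, hxT⟩
        exact ⟨K.mul_mem (K.mul_mem hk hxK) (K.inv_mem hk), hkT.mp hxT⟩
      · rintro ⟨hxK, hxT⟩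
        refine ⟨?_, hkT.mpr hxT⟩
        have := K.mul_mem (K.mul_mem (K.inv_mem hk) hxK) hk
        have e : k⁻¹ * (k * x * k⁻¹) * k = x := by group
        rwa [e] at this
    rw [hOp] at hKT
    have hSK : (S : Subgroup P) ⊓ K = ⊥ := by
      apply le_bot_iff.mp
      exact (le_inf inf_le_right hSKT).trans hKT
    have hpK : ¬ p ∣ Nat.card K := by
      have := sylow_inf_subnormal_not_dvd hK.1 S
      rw [hSK, Subgroup.relIndex_bot_left] at this; exact this
    have hpE : ¬ p ∣ Nat.card (layer P) := by
      have hcop : (Nat.card (pPrimeCore p ↥(layer P))).Coprime p := pPrimeCore_coprime p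
      have hle : layer P ≤ (pPrimeCore p ↥(layer P)).map (layer P).subtype := by
        conv_lhs => rw [hE]
        apply iSup_le
        intro s
        have hKsE : K.map (MulAut.conj (s : P)).toMonoidHom ≤ layer P := comp_le_layer (hcomp s)
        have h1 : ((K.map (MulAut.conj (s : P)).toMonoidHom).subgroupOf (layer P)).Normal := by
          rw [Subgroup.normal_subgroupOf_iff_le_normalizer hKsE]
          exact layer_le_normalizer_comp (hcomp s)
        have h2 : (Nat.card
            ((K.map (MulAut.conj (s : P)).toMonoidHom).subgroupOf (layer P))).Coprime p := by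
          rw [Nat.card_congr (Subgroup.subgroupOfEquivOfLe hKsE).toEquiv,
            Subgroup.card_map_of_injective (MulAut.conj (s : P)).injective]
          exact (Nat.Coprime.symm ((Nat.Prime.coprime_iff_not_dvd (Fact.out : p.Prime)).mpr hpK))
        have h3 := le_pPrimeCore_of_normal h1 h2
        have h4 := Subgroup.map_mono (f := (layer P).subtype) h3
        rwa [Subgroup.map_subgroupOf_eq_of_le hKsE] at h4
      have hdvd : Nat.card (layer P) ∣ Nat.card (pPrimeCore p ↥(layer P)) := by
        have := Subgroup.card_dvd_of_le hle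
        rwa [Subgroup.card_map_of_injective (Subgroup.subtype_injective _)] at this
      intro h
      exact (Nat.Prime.coprime_iff_not_dvd (Fact.out : p.Prime)).mp hcop.symm (h.trans hdvd)
    have h2p : (Nat.card P).primeFactors.card ≤ 2 := by
      apply pmin_two_primes hP S hM hSM ⊥ bot_le
      rw [Subgroup.relIndex_bot_left, hO]; exact hpE
    have hEne : Nat.card (layer P) ≠ 1 := by
      intro h
      have h1 : layer P = ⊥ := Subgroup.card_eq_one.mp h
      exact comp_ne_bot hK (le_bot_iff.mp (h1 ▸ comp_le_layer hK))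
    have hpP : p ∣ Nat.card P := by
      by_contra hnd
      apply (hP S).1
      have h0 : (S : Subgroup P) = ⊥ := by
        have h1 := S.card_eq_multiplicity
        rw [Nat.factorization_eq_zero_of_not_dvd hnd, pow_zero] at h1
        exact Subgroup.card_eq_one.mp h1
      rw [h0]; infer_instance
    set r := (Nat.card (layer P)).minFac with hr
    have hrp : r.Prime := Nat.minFac_prime hEne
    have hrE : r ∣ Nat.card (layer P) := Nat.minFac_dvd _
    have hEP : Nat.card (layer P) ∣ Nat.card P := Subgroup.card_subgroup_dvd_card _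
    have hrne : r ≠ p := fun h => hpE (h ▸ hrE)
    have hall : ∀ {q : ℕ}, q.Prime → q ∣ Nat.card (layer P) → q = r := by
      intro q hq hqE
      by_contra hqr
      have hqp : q ≠ p := fun h => hpE (h ▸ hqE)
      have hsub : ({p, r, q} : Finset ℕ) ⊆ (Nat.card P).primeFactors := by
        intro a ha
        simp only [Finset.mem_insert, Finset.mem_singleton] at ha
        rcases ha with rfl | rfl | rfl
        · exact Nat.mem_primeFactors.mpr ⟨Fact.out, hpP, Nat.card_pos.ne'⟩
        · exact Nat.mem_primeFactors.mpr ⟨hrp, hrE.trans hEP, Nat.card_pos.ne'⟩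
        · exact Nat.mem_primeFactors.mpr ⟨hq, hqE.trans hEP, Nat.card_pos.ne'⟩
      have hc3 : ({p, r, q} : Finset ℕ).card = 3 := by
        rw [Finset.card_eq_three]
        exact ⟨p, r, q, fun h => hrne h.symm, fun h => hqp h.symm, fun h => hqr h.symm, rfl⟩
      have := Finset.card_le_card hsub
      omega
    have hcardE : Nat.card (layer P) = r ^ (Nat.card (layer P)).primeFactorsList.length :=
      Nat.eq_prime_pow_of_unique_prime_dvd Nat.card_pos.ne' hall
    have hrf : Fact r.Prime := ⟨hrp⟩
    have hEr : IsPGroup r ↥(layer P) := IsPGroup.of_card hcardE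
    have hEnil : Group.IsNilpotent ↥(layer P) := hEr.isNilpotent
    exact comp_not_le_solvable hK (N := layer P) inferInstance (comp_le_layer hK)
  · have claimB : ∀ Y : Subgroup P, T ≤ Y → Y ≤ X → Y ≠ X → Y ⊓ K ≤ M := by
      intro Y hTY hYX hYne
      by_contra hDM
      set D := Y ⊓ K with hD
      have hDK : D ≤ K := inf_le_right
      have hTD : ∀ t ∈ T, ∀ x ∈ D, t * x * t⁻¹ ∈ D := by
        intro t ht x hx
        refine ⟨Y.mul_mem (Y.mul_mem (hTY ht) hx.1) (Y.inv_mem (hTY ht)), ?_⟩
        exact (Subgroup.mem_normalizer_iff.mp (hTN ht) x).mp hx.2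
      set Yh := ⨆ s : ↥(S : Subgroup P), D.map (MulAut.conj (s : P)).toMonoidHom with hYh
      have hDYh : D ≤ Yh := by
        have h1 : D.map (MulAut.conj ((1 : ↥(S : Subgroup P)) : P)).toMonoidHom = D := by
          ext x; simp
        calc D = D.map (MulAut.conj ((1 : ↥(S : Subgroup P)) : P)).toMonoidHom := h1.symm
          _ ≤ Yh := le_iSup (fun s : ↥(S : Subgroup P) =>
              D.map (MulAut.conj (s : P)).toMonoidHom) 1
      have hSYh : (S : Subgroup P) ≤ Subgroup.normalizer (Yh : Set P) :=
        sylow_le_normalizer_iSup_conj S D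
      have htop : Yh ⊔ (S : Subgroup P) = ⊤ := by
        by_contra hne
        have := pmin_le_of_sylow_le hP S hM hSM le_sup_right hne
        exact hDM (hDYh.trans (le_sup_left.trans this))
      have hYhle : Yh ≤ D ⊔ Subgroup.centralizer (K : Set P) := by
        apply iSup_le
        intro s
        by_cases hs : (s : P) ∈ Subgroup.normalizer (K : Set P)
        · refine le_trans ?_ le_sup_left
          rintro _ ⟨x, hx, rfl⟩
          exact hTD s ⟨s.2, hs⟩ x hx
        · refine le_trans ?_ le_sup_right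
          have hne : K.map (MulAut.conj (s : P)).toMonoidHom ≠ K := by
            intro h
            apply hs
            rw [Subgroup.mem_normalizer_iff_map_conj_eq]
            exact h
          have hc := components_commute (hcomp s) hK hne
          rw [Subgroup.commutator_eq_bot_iff_le_centralizer] at hc
          exact (Subgroup.map_mono hDK).trans hc
      have hkey : ∀ k ∈ K, ∃ d ∈ D, ∃ c ∈ Subgroup.centralizer (K : Set P), ∃ s ∈ T,
          k = d * c * s := by
        intro k hk
        have hk1 : k ∈ Yh ⊔ (S : Subgroup P) := by rw [htop]; trivial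
        obtain ⟨y, hy, s, hs, hkys⟩ := mem_sup_of_le_normalizer hSYh hk1
        obtain ⟨d, hd, c, hc, hydc⟩ :=
          mem_sup_of_commute (A := D) (B := Subgroup.centralizer (K : Set P))
            (fun a ha b hb => ((Subgroup.mem_centralizer_iff.mp hb) a (hDK ha))) (hYhle hy)
        refine ⟨d, hd, c, hc, s, ⟨hs, ?_⟩, by rw [hkys, hydc]⟩
        have e : s = c⁻¹ * (d⁻¹ * k) := by rw [hkys, hydc]; group
        rw [e]
        have hcN : c ∈ Subgroup.normalizer (K : Set P) := Subgroup.centralizer_le_normalizer _ hc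
        have hdkN : d⁻¹ * k ∈ Subgroup.normalizer (K : Set P) :=
          Subgroup.le_normalizer (K.mul_mem (K.inv_mem (hDK hd)) hk)
        exact (Subgroup.normalizer (K : Set P)).mul_mem
          ((Subgroup.normalizer (K : Set P)).inv_mem hcN) hdkN
      have hact : ∀ c ∈ Subgroup.centralizer (K : Set P), ∀ s ∈ T, ∀ x ∈ K,
          (c * s) * x * (c * s)⁻¹ = s * x * s⁻¹ := by
        intro c hc s hs x hx
        have h1 : s * x * s⁻¹ ∈ K := (Subgroup.mem_normalizer_iff.mp (hTN hs) x).mp hx
        have h2 := (Subgroup.mem_centralizer_iff.mp hc) _ h1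
        calc (c * s) * x * (c * s)⁻¹ = c * (s * x * s⁻¹) * c⁻¹ := by group
          _ = (s * x * s⁻¹) * c * c⁻¹ := by rw [h2]
          _ = s * x * s⁻¹ := by group
      have hKD : K ≤ Subgroup.normalizer (D : Set P) := by
        intro k hk
        obtain ⟨d, hd, c, hc, s, hs, hkdcs⟩ := hkey k hk
        apply Subgroup.mem_normalizer_fintype
        intro x hx
        have e : k * x * k⁻¹ = d * ((c * s) * x * (c * s)⁻¹) * d⁻¹ := by rw [hkdcs]; group
        rw [e, hact c hc s hs x (hDK hx)]
        exact D.mul_mem (D.mul_mem hd (hTD s hs x hx)) (D.inv_mem hd)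
      have hDn : (D.subgroupOf K).Normal :=
        (Subgroup.normal_subgroupOf_iff_le_normalizer hDK).mpr hKD
      rcases qs_normal_eq_top_or_le_center hK.2 (D.subgroupOf K) with h | h
      · rw [Subgroup.subgroupOf_eq_top] at h
        exact hYne (le_antisymm hYX (sup_le (h.trans inf_le_left) hTY))
      · have hDc : D ≤ Subgroup.centralizer (K : Set P) := by
          intro d hd
          rw [Subgroup.mem_centralizer_iff]
          intro x hx
          have h1 := h (show (⟨d, hDK hd⟩ : ↥K) ∈ D.subgroupOf K from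
            Subgroup.mem_subgroupOf.mpr hd)
          have h2 := Subgroup.mem_center_iff.mp h1 ⟨x, hx⟩
          exact congrArg Subtype.val h2
        have hSKD : (S : Subgroup P) ⊓ K ≤ D := le_inf (hSKT.trans hTY) inf_le_right
        have hSK : (S : Subgroup P) ⊓ K = ⊥ := by
          apply le_bot_iff.mp
          rw [← hOp]
          apply le_pCore_of_subnormal _ (S.2.to_le inf_le_left)
          apply Subgroup.IsSubnormal.trans (inf_le_right : (S : Subgroup P) ⊓ K ≤ K) _ hK.1
          apply Subgroup.Normal.isSubnormal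
          rw [Subgroup.normal_subgroupOf_iff_le_normalizer inf_le_right]
          intro k hk
          apply Subgroup.mem_normalizer_fintype
          intro x hx
          have h1 := (Subgroup.mem_centralizer_iff.mp (hDc (hSKD hx))) k hk
          have e : k * x * k⁻¹ = x := by rw [h1]; group
          rw [e]; exact hx
        have hpK : ¬ p ∣ Nat.card K := by
          have := sylow_inf_subnormal_not_dvd hK.1 S
          rw [hSK, Subgroup.relIndex_bot_left] at this; exact this
        have hKC : K ≤ Subgroup.centralizer (K : Set P) := by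
          intro k hk
          obtain ⟨d, hd, c, hc, s, hs, hkdcs⟩ := hkey k hk
          have hk' : c * s ∈ K := by
            have e : c * s = d⁻¹ * k := by rw [hkdcs]; group
            rw [e]; exact K.mul_mem (K.inv_mem (hDK hd)) hk
          have hgen : ∀ (g : P) (n : ℕ) (x : P),
              g ^ (n + 1) * x * (g ^ (n + 1))⁻¹ = g * (g ^ n * x * (g ^ n)⁻¹) * g⁻¹ := by
            intro g n x
            rw [pow_succ', mul_inv_rev]
            simp only [mul_assoc]
          have hpow : ∀ n : ℕ, ∀ x ∈ K,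
              (c * s) ^ n * x * ((c * s) ^ n)⁻¹ = s ^ n * x * (s ^ n)⁻¹ := by
            intro n
            induction n with
            | zero => intro x _; simp
            | succ n ih =>
              intro x hx
              have h1 : s ^ n * x * (s ^ n)⁻¹ ∈ K := by
                have hsn : s ^ n ∈ Subgroup.normalizer (K : Set P) := pow_mem (hTN hs) n
                exact (Subgroup.mem_normalizer_iff.mp hsn x).mp hx
              calc (c * s) ^ (n + 1) * x * ((c * s) ^ (n + 1))⁻¹
                  = (c * s) * ((c * s) ^ n * x * ((c * s) ^ n)⁻¹) * (c * s)⁻¹ := hgen _ n x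
                _ = (c * s) * (s ^ n * x * (s ^ n)⁻¹) * (c * s)⁻¹ := by rw [ih x hx]
                _ = s * (s ^ n * x * (s ^ n)⁻¹) * s⁻¹ := hact c hc s hs _ h1
                _ = s ^ (n + 1) * x * (s ^ (n + 1))⁻¹ := (hgen s n x).symm
          obtain ⟨a, ha⟩ := hTp ⟨s, hs⟩
          have ha' : s ^ p ^ a = 1 := by simpa using congrArg Subtype.val ha
          have hcent : (c * s) ^ p ^ a ∈ Subgroup.centralizer (K : Set P) := by
            rw [Subgroup.mem_centralizer_iff]
            intro x hx
            have h3 := hpow (p ^ a) x hx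
            rw [ha'] at h3
            have h2 : (c * s) ^ p ^ a * x * ((c * s) ^ p ^ a)⁻¹ = x := by simpa using h3
            calc x * (c * s) ^ p ^ a
                = ((c * s) ^ p ^ a * x * ((c * s) ^ p ^ a)⁻¹) * (c * s) ^ p ^ a := by rw [h2]
              _ = (c * s) ^ p ^ a * x := by group
          have hcop : (p ^ a).Coprime (orderOf (c * s)) := by
            apply Nat.Coprime.pow_left
            rw [Nat.Prime.coprime_iff_not_dvd (Fact.out : p.Prime)]
            intro hdv
            apply hpK
            have h3 : orderOf (c * s) ∣ Nat.card K := by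
              have := orderOf_dvd_natCard (⟨c * s, hk'⟩ : ↥K)
              rwa [Subgroup.orderOf_mk] at this
            exact hdv.trans h3
          obtain ⟨m, hm⟩ := exists_pow_eq_self_of_coprime hcop
          have hcs : c * s ∈ Subgroup.centralizer (K : Set P) := by
            rw [← hm]; exact pow_mem hcent m
          have e : k = d * (c * s) := by rw [hkdcs]; group
          rw [e]
          exact mul_mem (hDc hd) hcs
        have hKK : ⁅K, K⁆ = ⊥ := Subgroup.commutator_eq_bot_iff_le_centralizer.mpr hKC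
        rw [comp_perfect hK] at hKK
        exact comp_ne_bot hK hKK
    set MX := (M ⊓ K) ⊔ T with hMX
    have hMXM : MX ≤ M := sup_le inf_le_left (hTS.trans hSM)
    have hmain : ∀ Y' : Subgroup ↥X, (S₀ : Subgroup ↥X) ≤ Y' → Y' ≠ ⊤ →
        Y' ≤ MX.subgroupOf X := by
      intro Y' hSY hYne
      set Y := Y'.map X.subtype with hY
      have hTY : T ≤ Y := by
        intro t ht
        exact ⟨⟨t, hTX ht⟩, hSY (Subgroup.mem_subgroupOf.mpr ht), rfl⟩
      have hYX : Y ≤ X := Subgroup.map_subtype_le _
      have hYne' : Y ≠ X := by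
        intro h
        apply hYne
        rw [eq_top_iff]
        intro x _
        have hxY : (x : P) ∈ Y := by rw [h]; exact x.2
        obtain ⟨y, hy, hyx⟩ := hxY
        have hyx' : y = x := Subtype.ext hyx
        rw [← hyx']; exact hy
      have hB := claimB Y hTY hYX hYne'
      intro y hy
      rw [Subgroup.mem_subgroupOf]
      obtain ⟨k, hk, t, ht, hykt⟩ := hdecomp (y : P) y.2
      have hyY : (y : P) ∈ Y := ⟨y, hy, rfl⟩
      have hkY : k ∈ Y := by
        have e : k = (y : P) * t⁻¹ := by rw [hykt]; group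
        rw [e]; exact Y.mul_mem hyY (Y.inv_mem (hTY ht))
      rw [hykt]
      exact Subgroup.mul_mem_sup ⟨hB ⟨hkY, hk⟩, hk⟩ ht
    have hMXne : MX.subgroupOf X ≠ ⊤ := by
      intro h
      rw [Subgroup.subgroupOf_eq_top] at h
      exact hKM (hKX.trans (h.trans hMXM))
    have hS₀MX : (S₀ : Subgroup ↥X) ≤ MX.subgroupOf X := by
      rw [hS₀]
      intro x hx
      rw [Subgroup.mem_subgroupOf] at hx ⊢
      exact (le_sup_right : T ≤ MX) hx
    refine ⟨MX.subgroupOf X, ⟨⟨hMXne, ?_⟩, hS₀MX⟩, ?_⟩
    · intro B hB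
      by_contra hBne
      exact lt_irrefl _ (lt_of_lt_of_le hB (hmain B (hS₀MX.trans hB.le) hBne))
    · rintro M'' ⟨hM'', hSM''⟩
      have h1 := hmain M'' hSM'' hM''.1
      by_contra hne
      exact hMXne (hM''.2 _ (lt_of_le_of_ne h1 hne))

end

/-- Let P be a finite p-minimal group with O_p(P) = 1, S a Sylow p-subgroup of P and K a component of P. Then O^p(P) = F*(P) = E(P) is generated by the S-conjugates of K, and the subgroup K·N_S(K) is again p-minimal. -/
theorem result {P : Type*} [Group P] [Finite P] {p : ℕ} [Fact p.Prime] (hP : Cfsg.IsPMinimal p P) (hOp : Cfsg.pCore p P = ⊥) (S : Sylow p P) (K : Subgroup P) (hK : Cfsg.IsComponent K) : Cfsg.pResidual p P = Cfsg.generalizedFittingSubgroup P ∧ Cfsg.generalizedFittingSubgroup P = Cfsg.layer P ∧ Cfsg.layer P = ⨆ s : ↥(S : Subgroup P), K.map (MulAut.conj (s : P)).toMonoidHom ∧ Cfsg.IsPMinimal p ↥(K ⊔ ((S : Subgroup P) ⊓ Subgroup.normalizer (K : Set P))) := by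
  obtain ⟨M, ⟨hM, hSM⟩, -⟩ := (hP S).2
  obtain ⟨hO, hFE, hE⟩ := layer_facts hP hOp S hM hSM K hK
  have hgf : generalizedFittingSubgroup P = layer P := by
    unfold generalizedFittingSubgroup
    exact sup_eq_left.mpr hFE
  exact ⟨hO.trans hgf.symm, hgf, hE, pmin_comp hP hOp S hM hSM K hK⟩

end Cfsg.Agent.S2906
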