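import Cfsg.Statements.S2907
import Mathlib

set_option autoImplicit false
open Cfsg

namespace Cfsg.Agent.S2907

/-- the commutator map `y ↦ x y x⁻¹ y⁻¹` when all commutators are central -/
def commHom {X : Type*} [Group X] (x : X)
    (h : ∀ y : X, x * y * x⁻¹ * y⁻¹ ∈ Subgroup.center X) : X →* X :=
  MonoidHom.mk' (fun y => x * y * x⁻¹ * y⁻¹) (by
    intro a b
    have hb := Subgroup.mem_center_iff.mp (h b) a
    calc x * (a * b) * x⁻¹ * (a * b)⁻¹ = x * a * x⁻¹ * ((x * b * x⁻¹ * b⁻¹) * a⁻¹) := by group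
      _ = x * a * x⁻¹ * (a⁻¹ * (x * b * x⁻¹ * b⁻¹)) := by
          congr 1
          have : a⁻¹ * (x * b * x⁻¹ * b⁻¹) = (x * b * x⁻¹ * b⁻¹) * a⁻¹ := by
            rw [eq_mul_inv_iff_mul_eq, mul_assoc, ← hb, inv_mul_cancel_left]
          exact this.symm
      _ = x * a * x⁻¹ * a⁻¹ * (x * b * x⁻¹ * b⁻¹) := by group)

theorem commHom_apply {X : Type*} [Group X] (x : X)
    (h : ∀ y : X, x * y * x⁻¹ * y⁻¹ ∈ Subgroup.center X) (y : X) :
    commHom x h y = x * y * x⁻¹ * y⁻¹ := rfl

/-- Let X be a finite semi-extraspecial p-group and x an element of X outside the centre. Then the index of C_X(x) in X equals the order of Z(X), and the commutators [x, y], y ∈ X, form exactly the centre Z(X). -/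
theorem result {X : Type*} [Group X] [Finite X] {p : ℕ} [Fact p.Prime] (hX : Cfsg.IsSemiExtraspecial p X) (x : X) (hx : x ∉ Subgroup.center X) : (Subgroup.centralizer ({x} : Set X)).index = Nat.card ↥(Subgroup.center X) ∧ {z : X | ∃ y : X, z = x * y * x⁻¹ * y⁻¹} = (Subgroup.center X : Set X) := by
  obtain ⟨⟨hp, hfr, hcm⟩, hsemi⟩ := hX
  have hc : ∀ y : X, x * y * x⁻¹ * y⁻¹ ∈ Subgroup.center X := by
    intro y
    rw [← hcm, commutator_def]
    exact Subgroup.commutator_mem_commutator (Subgroup.mem_top x) (Subgroup.mem_top y)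
  set φ := commHom x hc with hφ
  have hker : φ.ker = Subgroup.centralizer ({x} : Set X) := by
    ext y
    rw [MonoidHom.mem_ker, commHom_apply, Subgroup.mem_centralizer_iff]
    simp only [Set.mem_singleton_iff, forall_eq]
    constructor
    · intro h
      have : x * y = (x * y * x⁻¹ * y⁻¹) * (y * x) := by group
      rw [this, h, one_mul]
    · intro h
      have : x * y * x⁻¹ * y⁻¹ = (x * y) * (y * x)⁻¹ := by group
      rw [this, h, mul_inv_cancel]
  have hrle : φ.range ≤ Subgroup.center X := by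
    rintro _ ⟨y, rfl⟩
    exact hc y
  have hreq : φ.range = Subgroup.center X := by
    by_contra hne
    have hlt : (φ.range).subgroupOf (Subgroup.center X) ≠ ⊤ := by
      intro h
      apply hne
      exact le_antisymm hrle (Subgroup.subgroupOf_eq_top.mp h)
    obtain ⟨M, hM, hRM⟩ := (eq_top_or_exists_le_coatom _).resolve_left hlt
    set Y := M.map (Subgroup.center X).subtype with hY
    have hYle : Y ≤ Subgroup.center X := Subgroup.map_subtype_le M
    have hYM : Y.subgroupOf (Subgroup.center X) = M := by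
      exact Subgroup.comap_map_eq_self_of_injective (Subgroup.subtype_injective _) M
    have hRY : φ.range ≤ Y := by
      intro z hz
      have : (⟨z, hrle hz⟩ : Subgroup.center X) ∈ M := hRM (by
        rw [Subgroup.mem_subgroupOf]; exact hz)
      exact ⟨_, this, rfl⟩
    obtain ⟨hYn, hext⟩ := hsemi Y hYle (by rw [hYM]; exact hM)
    obtain ⟨z₀, hz₀⟩ : ∃ z₀ : Subgroup.center X, z₀ ∉ M := by
      by_contra h
      push Not at h
      exact hM.1 (eq_top_iff.mpr fun z _ => h z)
    have hz₀Y : (z₀ : X) ∉ Y := by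
      rintro ⟨w, hw, hwz⟩
      apply hz₀
      have : w = z₀ := Subtype.ext hwz
      rwa [← this]
    have hxc : (QuotientGroup.mk x : X ⧸ Y) ∈ Subgroup.center (X ⧸ Y) := by
      rw [Subgroup.mem_center_iff]
      intro g
      induction g using QuotientGroup.induction_on with
      | H y =>
        have e : x * y = (x * y * x⁻¹ * y⁻¹) * (y * x) := by group
        have h1 : ((x * y : X) : X ⧸ Y)
            = ((x * y * x⁻¹ * y⁻¹ : X) : X ⧸ Y) * ((y * x : X) : X ⧸ Y) := by
          rw [← QuotientGroup.mk_mul, ← e]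
        have : ((x * y * x⁻¹ * y⁻¹ : X) : X ⧸ Y) = 1 :=
          (QuotientGroup.eq_one_iff _).mpr (hRY ⟨y, rfl⟩)
        rw [this, one_mul] at h1
        exact h1.symm
    have hzc : (QuotientGroup.mk (z₀ : X) : X ⧸ Y) ∈ Subgroup.center (X ⧸ Y) := by
      rw [Subgroup.mem_center_iff]
      intro g
      induction g using QuotientGroup.induction_on with
      | H y =>
        rw [← QuotientGroup.mk_mul, ← QuotientGroup.mk_mul]
        rw [Subgroup.mem_center_iff.mp z₀.2 y]
    have hzne : (⟨QuotientGroup.mk (z₀ : X), hzc⟩ : Subgroup.center (X ⧸ Y)) ≠ 1 := by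
      intro h
      have h' : (QuotientGroup.mk (z₀ : X) : X ⧸ Y) = 1 := congrArg Subtype.val h
      exact hz₀Y ((QuotientGroup.eq_one_iff _).mp h')
    have htop := zpowers_eq_top_of_prime_card hext.2 hzne
    have hxmem : (⟨QuotientGroup.mk x, hxc⟩ : Subgroup.center (X ⧸ Y)) ∈
        Subgroup.zpowers (⟨QuotientGroup.mk (z₀ : X), hzc⟩ : Subgroup.center (X ⧸ Y)) := by
      rw [htop]; trivial
    obtain ⟨k, hk⟩ := Subgroup.mem_zpowers_iff.mp hxmem
    have hk' : (QuotientGroup.mk ((z₀ : X) ^ k) : X ⧸ Y) = QuotientGroup.mk x := by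
      have := congrArg Subtype.val hk
      simpa using this
    rw [QuotientGroup.eq] at hk'
    apply hx
    have h1 : ((z₀ : X) ^ k)⁻¹ * x ∈ Subgroup.center X := hYle hk'
    have h2 : (z₀ : X) ^ k ∈ Subgroup.center X := Subgroup.zpow_mem _ z₀.2 k
    have := Subgroup.mul_mem _ h2 h1
    simpa using this
  constructor
  · rw [← hker, Subgroup.index_ker, hreq]
  · rw [← hreq]
    ext z
    simp only [Set.mem_ofPred_eq, SetLike.mem_coe, MonoidHom.mem_range]
    constructor
    · rintro ⟨y, rfl⟩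
      exact ⟨y, rfl⟩
    · rintro ⟨y, rfl⟩
      exact ⟨y, rfl⟩

end Cfsg.Agent.S2907
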