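import Cfsg.Statements.S2908
import Cfsg.Agent.S0026
import Mathlib

set_option autoImplicit false
open Cfsg

namespace Cfsg.Agent.S2908

open scoped commutatorElement

/-- the product set `L * C` as a subgroup, when `C` normalizes `L` -/
def mulSub {G : Type*} [Group G] (L C : Subgroup G)
    (h : C ≤ Subgroup.normalizer (L : Set G)) : Subgroup G where
  carrier := {x | ∃ l ∈ L, ∃ c ∈ C, x = l * c}
  mul_mem' := by
    rintro _ _ ⟨l, hl, c, hc, rfl⟩ ⟨l', hl', c', hc', rfl⟩
    refine ⟨l * (c * l' * c⁻¹), L.mul_mem hl ((Subgroup.mem_normalizer_iff.mp (h hc) l').mp hl'),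
      c * c', C.mul_mem hc hc', by group⟩
  one_mem' := ⟨1, L.one_mem, 1, C.one_mem, by simp⟩
  inv_mem' := by
    rintro _ ⟨l, hl, c, hc, rfl⟩
    refine ⟨c⁻¹ * l⁻¹ * c⁻¹⁻¹, (Subgroup.mem_normalizer_iff.mp (h (C.inv_mem hc)) l⁻¹).mp
      (L.inv_mem hl), c⁻¹, C.inv_mem hc, by group⟩

theorem exists_mul_of_mem_sup {G : Type*} [Group G] {L C : Subgroup G}
    (h : C ≤ Subgroup.normalizer (L : Set G)) {x : G} (hx : x ∈ L ⊔ C) :
    ∃ l ∈ L, ∃ c ∈ C, x = l * c := by
  have h1 : L ⊔ C ≤ mulSub L C h := by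
    apply sup_le
    · intro l hl
      exact ⟨l, hl, 1, C.one_mem, by simp⟩
    · intro c hc
      exact ⟨1, L.one_mem, c, hc, by simp⟩
  exact h1 hx

/-- Let P be a p-subgroup of a finite group, normalized by a p-subgroup A and by a subgroup B of order prime to p that commutes elementwise with A. If [P, B] ≤ [P, A], then B centralizes P. -/
theorem result {G : Type*} [Group G] [Finite G] {p : ℕ} [Fact p.Prime] (P A B : Subgroup G) (hP : IsPGroup p ↥P) (hA : IsPGroup p ↥A) (hB : ¬ p ∣ Nat.card ↥B) (hnA : A ≤ Subgroup.normalizer (P : Set G)) (hnB : B ≤ Subgroup.normalizer (P : Set G)) (hAB : ⁅A, B⁆ = ⊥) (hcomm : ⁅P, B⁆ ≤ ⁅P, A⁆) : ⁅P, B⁆ = ⊥ := by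
  have hp : p.Prime := Fact.out
  -- coprime action decomposition
  have hcop : (Nat.card ↥B).Coprime (Nat.card ↥P) := by
    obtain ⟨n, hn⟩ := IsPGroup.iff_card.mp hP
    rw [hn]
    exact Nat.Coprime.pow_right n ((Nat.Prime.coprime_iff_not_dvd hp).mpr hB).symm
  have hPnil : Group.IsNilpotent ↥P := hP.isNilpotent
  have hPsolv : Group.IsSolvable ↥P := inferInstance
  set C := P ⊓ Subgroup.centralizer (B : Set G) with hC
  have hdec : ⁅P, B⁆ ⊔ C = P := Cfsg.Agent.S0026.result B P hnB hcop (Or.inr hPsolv)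
  -- the nilpotent group H = P ⊔ A
  set H := P ⊔ A with hH
  have hHp : IsPGroup p ↥H := by
    rw [hH, sup_comm]
    exact IsPGroup.to_sup_of_normal_right' hA hP hnA
  have hHnil : Group.IsNilpotent ↥H := hHp.isNilpotent
  obtain ⟨n, hn⟩ := (Subgroup.isNilpotent_iff_lowerCentralSeries H).mp hHnil
  have hCP : C ≤ P := inf_le_left
  have hPH : P ≤ H := le_sup_left
  have hAH : A ≤ H := le_sup_right
  have hab : ∀ a ∈ A, ∀ b ∈ B, a * b = b * a := by
    intro a ha b hb
    have h1 : ⁅a, b⁆ ∈ ⁅A, B⁆ := Subgroup.commutator_mem_commutator ha hb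
    rw [hAB, Subgroup.mem_bot] at h1
    exact commutatorElement_eq_one_iff_mul_comm.mp h1
  -- C is A-invariant
  have hCA : ∀ c ∈ C, ∀ a ∈ A, ⁅c, a⁆ ∈ C := by
    intro c hc a ha
    have hc1 : c ∈ P := hc.1
    have hc2 : c ∈ Subgroup.centralizer (B : Set G) := hc.2
    rw [Subgroup.mem_centralizer_iff] at hc2
    have h1 : a * c⁻¹ * a⁻¹ ∈ C := by
      refine ⟨(Subgroup.mem_normalizer_iff.mp (hnA ha) _).mp (P.inv_mem hc1), ?_⟩
      show a * c⁻¹ * a⁻¹ ∈ Subgroup.centralizer (B : Set G)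
      rw [Subgroup.mem_centralizer_iff]
      intro b hb
      have e1 := hab a ha b hb
      have e2 : b * c = c * b := hc2 b hb
      have e3 : b * c⁻¹ = c⁻¹ * b := by
        rw [eq_inv_mul_iff_mul_eq, ← mul_assoc, ← e2, mul_assoc, mul_inv_cancel, mul_one]
      have e4 : b * a⁻¹ = a⁻¹ * b := by
        rw [eq_inv_mul_iff_mul_eq, ← mul_assoc, e1, mul_assoc, mul_inv_cancel, mul_one]
      calc b * (a * c⁻¹ * a⁻¹) = (b * a) * c⁻¹ * a⁻¹ := by group
        _ = (a * b) * c⁻¹ * a⁻¹ := by rw [e1]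
        _ = a * (b * c⁻¹) * a⁻¹ := by group
        _ = a * (c⁻¹ * b) * a⁻¹ := by rw [e3]
        _ = a * c⁻¹ * (b * a⁻¹) := by group
        _ = a * c⁻¹ * (a⁻¹ * b) := by rw [e4]
        _ = a * c⁻¹ * a⁻¹ * b := by group
    have : ⁅c, a⁆ = c * (a * c⁻¹ * a⁻¹) := by
      rw [commutatorElement_def]; group
    rw [this]
    exact C.mul_mem hc h1
  have key : ∀ i : ℕ, P ≤ H.lowerCentralSeries i ⊔ C := by
    intro i
    induction i with
    | zero =>
      rw [Subgroup.lowerCentralSeries_zero]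
      exact hPH.trans le_sup_left
    | succ i ih =>
      rw [Subgroup.lowerCentralSeries_succ]
      have hnorm : C ≤ Subgroup.normalizer ((H.lowerCentralSeries i : Subgroup G) : Set G) :=
        (hCP.trans hPH).trans (H.self_le_normalizer_lowerCentralSeries i)
      have h1 : ⁅P, A⁆ ≤ ⁅H.lowerCentralSeries i, H⁆ ⊔ C := by
        rw [Subgroup.commutator_le]
        intro x hx a ha
        obtain ⟨l, hl, c, hc, rfl⟩ := exists_mul_of_mem_sup hnorm (ih hx)
        have e : ⁅l * c, a⁆ = ⁅l, ⁅c, a⁆⁆ * ⁅c, a⁆ * ⁅l, a⁆ := by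
          simp only [commutatorElement_def]; group
        rw [e]
        have hca := hCA c hc a ha
        refine Subgroup.mul_mem _ (Subgroup.mul_mem _ ?_ ?_) ?_
        · exact Subgroup.mem_sup_left
            (Subgroup.commutator_mem_commutator hl (hPH (hCP hca)))
        · exact Subgroup.mem_sup_right hca
        · exact Subgroup.mem_sup_left (Subgroup.commutator_mem_commutator hl (hAH ha))
      calc P = ⁅P, B⁆ ⊔ C := hdec.symm
        _ ≤ (⁅H.lowerCentralSeries i, H⁆ ⊔ C) ⊔ C := sup_le_sup_right (hcomm.trans h1) C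
        _ = ⁅H.lowerCentralSeries i, H⁆ ⊔ C := by rw [sup_assoc, sup_idem]
  have hPC : P ≤ C := by
    have := key n
    rwa [hn, bot_sup_eq] at this
  rw [Subgroup.commutator_eq_bot_iff_le_centralizer]
  exact hPC.trans inf_le_right

end Cfsg.Agent.S2908
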