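import Cfsg.Statements.S2909
import Mathlib
import Cfsg.Agent.S1324
import Cfsg.Agent.S0028
import Cfsg.Agent.S2908

set_option autoImplicit false
open Cfsg

namespace Cfsg.Agent.S2909

open scoped commutatorElement

theorem mem_cent_single {G : Type*} [Group G] (x z : G) :
    z ∈ Subgroup.centralizer ({x} : Set G) ↔ x * z = z * x := by
  rw [Subgroup.mem_centralizer_iff]
  simp

theorem cent_zpowers {G : Type*} [Group G] (z : G) :
    Subgroup.centralizer (Subgroup.zpowers z : Set G) = Subgroup.centralizer ({z} : Set G) := by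
  rw [Subgroup.zpowers_eq_closure, Subgroup.centralizer_closure]

/-- generation by centralizers of nonidentity elements (from S1324) -/
theorem le_of_centralizers {G : Type*} [Group G] [Finite G] {p : ℕ} [Fact p.Prime]
    (U R K : Subgroup G)
    (hU : Cfsg.IsElementaryAbelian p U) (hnc : ¬ IsCyclic ↥U) (hR : ¬ p ∣ Nat.card ↥R)
    (hRU : U ≤ Subgroup.normalizer (R : Set G))
    (h : ∀ u ∈ U, u ≠ 1 → R ⊓ Subgroup.centralizer ({u} : Set G) ≤ K) : R ≤ K := by
  have hp := (Fact.out : p.Prime)
  have hUp : IsPGroup p ↥U := by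
    rintro ⟨a, ha⟩
    exact ⟨1, by apply Subtype.ext; simpa using hU.2 a ha⟩
  obtain ⟨k, hk⟩ := hUp.exists_card_eq
  have hk2 : 2 ≤ k := by
    by_contra hlt
    apply hnc
    interval_cases k
    · have : Subsingleton ↥U := (Nat.card_eq_one_iff_unique.mp (by simpa using hk)).1
      infer_instance
    · exact isCyclic_of_prime_card (p := p) (by simpa using hk)
  have hcard : p ^ 2 ≤ Nat.card ↥U := by rw [hk]; exact Nat.pow_le_pow_right hp.pos hk2
  have hgen := Cfsg.Agent.S1324.result p U R hU hcard hR hRU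
  rw [hgen]
  apply iSup_le
  rintro ⟨B, hBU, hBidx⟩
  have hBne : B ≠ ⊥ := by
    rintro rfl
    rw [Subgroup.relIndex_bot_left] at hBidx
    have h1 : p < p ^ 2 := by nlinarith [hp.one_lt]
    omega
  obtain ⟨⟨u, huB⟩, hu1⟩ := (Subgroup.ne_bot_iff_exists_ne_one).mp hBne
  have hu1' : u ≠ 1 := fun h => hu1 (Subtype.ext h)
  exact le_trans (inf_le_inf_left R (Subgroup.centralizer_le (Set.singleton_subset_iff.mpr huB)))
    (h u (hBU huB) hu1')

theorem mem_normalizer_commutator {G : Type*} [Group G] (A B : Subgroup G) {r : G}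
    (hA : r ∈ Subgroup.normalizer (A : Set G)) (hB : r ∈ Subgroup.normalizer (B : Set G)) :
    r ∈ Subgroup.normalizer ((⁅A, B⁆ : Subgroup G) : Set G) := by
  rw [Subgroup.mem_normalizer_iff_map_conj_eq] at hA hB ⊢
  rw [Subgroup.map_commutator, hA, hB]

/-- if `U` acts trivially on `E / W` then so does `[X, U]` for `X` normalizing `W` (and `E`). -/
theorem comm_comm_le {G : Type*} [Group G] (E W X U : Subgroup G) [E.Normal]
    (hXW : X ≤ Subgroup.normalizer (W : Set G)) (hUW : U ≤ Subgroup.normalizer (W : Set G))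
    (hEU : ⁅E, U⁆ ≤ W) : ⁅E, ⁅X, U⁆⁆ ≤ W := by
  let K : Subgroup G :=
    { carrier := {g | g ∈ Subgroup.normalizer (W : Set G) ∧ ∀ e ∈ E, ⁅e, g⁆ ∈ W}
      one_mem' := ⟨Subgroup.one_mem _, fun e _ => by
        rw [commutatorElement_def]; simp⟩
      mul_mem' := by
        rintro g h ⟨hg, hg'⟩ ⟨hh, hh'⟩
        refine ⟨Subgroup.mul_mem _ hg hh, fun e he => ?_⟩
        have e1 : ⁅e, g * h⁆ = ⁅e, g⁆ * (g * ⁅e, h⁆ * g⁻¹) := by
          simp only [commutatorElement_def]; group
        rw [e1]
        exact W.mul_mem (hg' e he) ((Subgroup.mem_normalizer_iff.mp hg _).mp (hh' e he))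
      inv_mem' := by
        rintro g ⟨hg, hg'⟩
        refine ⟨Subgroup.inv_mem _ hg, fun e he => ?_⟩
        have e1 : ⁅e, g⁻¹⁆ = g⁻¹ * (⁅e, g⁆)⁻¹ * g⁻¹⁻¹ := by
          simp only [commutatorElement_def]; group
        rw [e1]
        exact (Subgroup.mem_normalizer_iff.mp (Subgroup.inv_mem _ hg) _).mp (W.inv_mem (hg' e he)) }
  have hUK : U ≤ K := by
    intro v hv
    exact ⟨hUW hv, fun e he => hEU (Subgroup.commutator_mem_commutator he hv)⟩
  have hconj : ∀ x ∈ Subgroup.normalizer (W : Set G), ∀ g ∈ K, x * g * x⁻¹ ∈ K := by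
    rintro x hx g ⟨hg, hg'⟩
    refine ⟨Subgroup.mul_mem _ (Subgroup.mul_mem _ hx hg) (Subgroup.inv_mem _ hx), fun e he => ?_⟩
    have e1 : ⁅e, x * g * x⁻¹⁆ = x * ⁅x⁻¹ * e * x⁻¹⁻¹, g⁆ * x⁻¹ := by
      simp only [commutatorElement_def]; group
    rw [e1]
    have he' : x⁻¹ * e * x⁻¹⁻¹ ∈ E := (inferInstance : E.Normal).conj_mem e he x⁻¹
    exact (Subgroup.mem_normalizer_iff.mp hx _).mp (hg' _ he')
  have hXUK : ⁅X, U⁆ ≤ K := by
    rw [Subgroup.commutator_le]
    intro r hr v hv
    have e1 : ⁅r, v⁆ = (r * v * r⁻¹) * v⁻¹ := by rw [commutatorElement_def]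
    rw [e1]
    exact K.mul_mem (hconj r (hXW hr) v (hUK hv)) (K.inv_mem (hUK hv))
  rw [Subgroup.commutator_le]
  intro e he q hq
  exact (hXUK hq).2 e he

/-- Let p be a prime, E a normal p-subgroup of the finite group G, and U a non-cyclic elementary abelian p-subgroup of G such that either C_E(U) = C_E(u) for every nontrivial u ∈ U, or [E, U] = [E, ⟨u⟩] for every nontrivial u ∈ U. If R is a subgroup of order prime to p normalized by U, then [R, U] centralizes E. -/
theorem result {G : Type*} [Group G] [Finite G] {p : ℕ} [Fact p.Prime] (E : Subgroup G) [E.Normal] (hE : IsPGroup p ↥E) (U : Subgroup G) (hU : Cfsg.IsElementaryAbelian p U) (hnc : ¬ IsCyclic ↥U) (hcond : (∀ u ∈ U, u ≠ 1 → E ⊓ Subgroup.centralizer (U : Set G) = E ⊓ Subgroup.centralizer ({u} : Set G)) ∨ (∀ u ∈ U, u ≠ 1 → ⁅E, U⁆ = ⁅E, Subgroup.zpowers u⁆)) (R : Subgroup G) (hR : ¬ p ∣ Nat.card ↥R) (hRU : U ≤ Subgroup.normalizer (R : Set G)) : ⁅R, U⁆ ≤ Subgroup.centralizer (E : Set G) := by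
  have hp := (Fact.out : p.Prime)
  have hUcomm : ∀ a ∈ U, ∀ b ∈ U, a * b = b * a := by
    intro a ha b hb
    have h := hU.1.is_comm.comm (⟨a, ha⟩ : U) ⟨b, hb⟩
    exact congrArg Subtype.val h
  have hEN : Subgroup.normalizer (E : Set G) = ⊤ := Subgroup.normalizer_eq_top E
  have key : ∀ u ∈ U, u ≠ 1 →
      ⁅R ⊓ Subgroup.centralizer ({u} : Set G), U⁆ ≤ Subgroup.centralizer (E : Set G) := by
    intro u huU hu1
    set Ru := R ⊓ Subgroup.centralizer ({u} : Set G) with hRu
    set Q := ⁅Ru, U⁆ with hQ
    have hUnormRu : ∀ v ∈ U, ∀ r ∈ Ru, v * r * v⁻¹ ∈ Ru := by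
      intro v hv r hr
      refine ⟨(Subgroup.mem_normalizer_iff.mp (hRU hv) r).mp hr.1, ?_⟩
      change v * r * v⁻¹ ∈ Subgroup.centralizer ({u} : Set G)
      rw [mem_cent_single]
      have h1 : u * r = r * u := (mem_cent_single u r).mp hr.2
      have h2 : u * v = v * u := hUcomm u huU v hv
      have h3 : u * v⁻¹ = v⁻¹ * u := by
        have := hUcomm u huU v⁻¹ (U.inv_mem hv)
        exact this
      calc u * (v * r * v⁻¹) = (u * v) * r * v⁻¹ := by group
        _ = v * (u * r) * v⁻¹ := by rw [h2]; group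
        _ = v * r * (u * v⁻¹) := by rw [h1]; group
        _ = v * r * v⁻¹ * u := by rw [h3]; group
    have hQRu : Q ≤ Ru := by
      rw [hQ, Subgroup.commutator_le]
      intro r hr v hv
      have e1 : ⁅r, v⁆ = r * (v * r⁻¹ * v⁻¹) := by rw [commutatorElement_def]; group
      rw [e1]
      exact Ru.mul_mem hr (hUnormRu v hv r⁻¹ (Ru.inv_mem hr))
    have hQR : Q ≤ R := hQRu.trans inf_le_left
    have hQu : Q ≤ Subgroup.centralizer ({u} : Set G) := hQRu.trans inf_le_right
    have hQp : ¬ p ∣ Nat.card ↥Q := fun h => hR (h.trans (Subgroup.card_dvd_of_le hQR))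
    have hup : IsPGroup p ↥(Subgroup.zpowers u) := by
      rintro ⟨x, hx⟩
      obtain ⟨k, rfl⟩ := Subgroup.mem_zpowers_iff.mp hx
      refine ⟨1, ?_⟩
      apply Subtype.ext
      simp only [pow_one, Subgroup.coe_pow, Subgroup.coe_one]
      rw [← zpow_natCast, ← zpow_mul, mul_comm, zpow_mul, zpow_natCast, hU.2 u huU, one_zpow]
    have huQ : Subgroup.zpowers u ≤ Subgroup.centralizer (Q : Set G) := by
      rw [Subgroup.zpowers_le]
      rw [Subgroup.mem_centralizer_iff]
      intro q hq
      have := (mem_cent_single u q).mp (hQu hq)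
      exact this.symm
    rcases hcond with hc | hc
    · -- Thompson's P × Q lemma
      apply Cfsg.Agent.S0028.result p (Subgroup.zpowers u) Q E hup
        ((Nat.Prime.coprime_iff_not_dvd hp).mpr hQp).symm hE huQ
        (by rw [hEN]; exact le_top) (by rw [hEN]; exact le_top)
      rw [cent_zpowers, ← hc u huU hu1]
      -- Q centralizes F = C_E(U)
      rw [Subgroup.le_centralizer_iff, hQ, Subgroup.commutator_le]
      intro r hr v hv
      rw [Subgroup.mem_centralizer_iff]
      intro f hf0
      have hf := Subgroup.mem_inf.mp hf0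
      have hfE : f ∈ E := hf.1
      have hfU : ∀ w ∈ U, w * f = f * w := fun w hw =>
        ((Subgroup.mem_centralizer_iff.mp hf.2) w hw)
      -- r⁻¹ f r ∈ C_E(u) = C_E(U)
      have hf' : r⁻¹ * f * r ∈ E ⊓ Subgroup.centralizer (U : Set G) := by
        rw [hc u huU hu1]
        refine ⟨?_, ?_⟩
        · have := (inferInstance : E.Normal).conj_mem f hfE r⁻¹
          simpa using this
        · change r⁻¹ * f * r ∈ Subgroup.centralizer ({u} : Set G)
          rw [mem_cent_single]
          have h1 : u * r = r * u := (mem_cent_single u r).mp hr.2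
          have h1' : u * r⁻¹ = r⁻¹ * u := by
            calc u * r⁻¹ = r⁻¹ * (r * u) * r⁻¹ := by group
              _ = r⁻¹ * (u * r) * r⁻¹ := by rw [h1]
              _ = r⁻¹ * u := by group
          have h2 : u * f = f * u := hfU u huU
          calc u * (r⁻¹ * f * r) = (u * r⁻¹) * f * r := by group
            _ = r⁻¹ * (u * f) * r := by rw [h1']; group
            _ = r⁻¹ * f * (u * r) := by rw [h2]; group
            _ = r⁻¹ * f * r * u := by rw [h1]; group
      have hv1 : v * (r⁻¹ * f * r) = (r⁻¹ * f * r) * v :=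
        (Subgroup.mem_centralizer_iff.mp hf'.2) v hv
      have hv2 : v⁻¹ * f = f * v⁻¹ := hfU v⁻¹ (U.inv_mem hv)
      -- goal: f * ⁅r, v⁆ = ⁅r, v⁆ * f
      rw [commutatorElement_def]
      calc f * (r * v * r⁻¹ * v⁻¹) = r * ((r⁻¹ * f * r) * v) * r⁻¹ * v⁻¹ := by group
        _ = r * (v * (r⁻¹ * f * r)) * r⁻¹ * v⁻¹ := by rw [hv1]
        _ = r * v * r⁻¹ * (f * v⁻¹) := by group
        _ = r * v * r⁻¹ * (v⁻¹ * f) := by rw [hv2]
        _ = r * v * r⁻¹ * v⁻¹ * f := by group
    · -- [E, U] = [E, u]
      have hW := hc u huU hu1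
      have hEQ : ⁅E, Q⁆ = ⊥ := by
        apply Cfsg.Agent.S2908.result E (Subgroup.zpowers u) Q hE hup hQp
          (by rw [hEN]; exact le_top) (by rw [hEN]; exact le_top)
        · rw [Subgroup.commutator_eq_bot_iff_le_centralizer]; exact huQ
        · rw [← hW, hQ]
          apply comm_comm_le E ⁅E, U⁆ Ru U
          · -- Ru normalizes [E, u]
            rw [hW]
            intro r hr
            have hrn : r ∈ Subgroup.normalizer (Subgroup.zpowers u : Set G) := by
              rw [Subgroup.mem_normalizer_iff]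
              intro x
              have h1 : u * r = r * u := (mem_cent_single u r).mp hr.2
              have hcz : r ∈ Subgroup.centralizer (Subgroup.zpowers u : Set G) := by
                rw [cent_zpowers]; exact hr.2
              constructor
              · intro hx
                have := (Subgroup.mem_centralizer_iff.mp hcz) x hx
                have e : r * x * r⁻¹ = x := by rw [← this]; group
                rw [e]; exact hx
              · intro hx
                have := (Subgroup.mem_centralizer_iff.mp hcz) _ hx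
                have e : x = r * x * r⁻¹ := by
                  have h3 : r * x * r⁻¹ * r = r * (r * x * r⁻¹) := this
                  have h4 : r * x = r * (r * x * r⁻¹) := by rw [← h3]; group
                  exact mul_left_cancel h4
                rw [e]; exact hx
            have hrE : r ∈ Subgroup.normalizer (E : Set G) := by rw [hEN]; trivial
            exact mem_normalizer_commutator E (Subgroup.zpowers u) hrE hrn
          · intro v hv
            have hvU : v ∈ Subgroup.normalizer (U : Set G) := Subgroup.le_normalizer hv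
            have hvE : v ∈ Subgroup.normalizer (E : Set G) := by rw [hEN]; trivial
            exact mem_normalizer_commutator E U hvE hvU
          · exact le_rfl
      rw [Subgroup.commutator_comm, Subgroup.commutator_eq_bot_iff_le_centralizer] at hEQ
      exact hEQ
  -- conclude
  have hCn : (Subgroup.centralizer (E : Set G)).Normal := inferInstance
  rw [Subgroup.commutator_le]
  intro r hr v hv
  let C := Subgroup.centralizer (E : Set G)
  let K : Subgroup G :=
    (Subgroup.centralizer ({(QuotientGroup.mk v : G ⧸ C)} : Set (G ⧸ C))).comap (QuotientGroup.mk' C)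
  have hK : ∀ x : G, x ∈ K ↔ ⁅x, v⁆ ∈ C := by
    intro x
    change (QuotientGroup.mk x : G ⧸ C) ∈ Subgroup.centralizer ({(QuotientGroup.mk v : G ⧸ C)} : Set (G ⧸ C)) ↔ _
    rw [mem_cent_single, ← QuotientGroup.eq_one_iff (N := C), commutatorElement_def]
    simp only [QuotientGroup.mk_mul, QuotientGroup.mk_inv]
    constructor
    · intro h
      rw [← h]; group
    · intro h
      have : (QuotientGroup.mk x : G ⧸ C) * QuotientGroup.mk v
          = (QuotientGroup.mk x * QuotientGroup.mk v * (QuotientGroup.mk x)⁻¹ * (QuotientGroup.mk v)⁻¹)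
            * QuotientGroup.mk v * QuotientGroup.mk x := by group
      rw [this, h, one_mul]
  have hRK : R ≤ K := by
    apply le_of_centralizers U R K hU hnc hR hRU
    intro u huU hu1 x hx
    rw [hK]
    exact key u huU hu1 (Subgroup.commutator_mem_commutator hx hv)
  exact (hK r).mp (hRK hr)

end Cfsg.Agent.S2909
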