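import Cfsg.Statements.S2910
import Cfsg.Agent.Lib.Helper2.Frob
import Cfsg.Agent.Lib.Helper90.Coprime

set_option autoImplicit false
open Cfsg

namespace Cfsg.Agent.S2910

open Cfsg.Agent.Lib.Helper2

/-- Let p be an odd prime dividing the order of the finite group G and P a Sylow p-subgroup of G. If Ω₁(P) (generated by the elements of order dividing p) is contained in the centre of G, then G has a normal p-complement. In particular, if G is quasisimple then Ω₁(P) is not central in G. -/
theorem result {G : Type*} [Group G] [Finite G] {p : ℕ} [Fact p.Prime] (hp : p ≠ 2) (hdiv : p ∣ Nat.card G) (P : Sylow p G) (hZ : Cfsg.omegaOne p (P : Subgroup G) ≤ Subgroup.center G) : Cfsg.HasNormalPComplement p G ∧ ¬ Cfsg.IsQuasisimple G := by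
  have hF : FrobCond P := by
    intro Q hQP g hg hcop
    rw [Subgroup.mem_centralizer_iff]
    have hn : p = if p = 2 then 4 else p := by rw [if_neg hp]
    have hpow : ∀ x ∈ Q, (MulAut.conj g ^ orderOf g) x = x := by
      intro x _
      rw [← map_pow, pow_orderOf_eq_one, map_one, MulAut.one_apply]
    have hinv : ∀ x ∈ Q, MulAut.conj g x ∈ Q := by
      intro x hx
      rw [MulAut.conj_apply]
      exact (Subgroup.mem_normalizer_iff.1 hg x).1 hx
    have hsmall : ∀ x ∈ Q, x ^ p = 1 → MulAut.conj g x = x := by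
      intro x hx hxp
      have h1 : x ∈ Cfsg.omegaOne p (P : Subgroup G) := Subgroup.subset_closure ⟨hQP hx, hxp⟩
      have h2 := Subgroup.mem_center_iff.1 (hZ h1) g
      rw [MulAut.conj_apply, h2, mul_inv_cancel_right]
    have key := Cfsg.Agent.Lib.Helper90.aut_fix_of_fix_small (MulAut.conj g) hcop hn
      (Nat.card Q) Q le_rfl inferInstance (P.isPGroup'.to_le hQP) hinv hpow hsmall
    intro x hx
    have h3 := key x hx
    rw [MulAut.conj_apply] at h3
    calc x * g = g * x * g⁻¹ * g := by rw [h3]
      _ = g * x := by group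
  have hc := isComplement'_pResidual_of_frobCond P hF
  haveI : (Cfsg.pResidual p G).Normal := pResidual_normal p
  refine ⟨⟨P, Cfsg.pResidual p G, pResidual_normal p, hc⟩, ?_⟩
  rintro ⟨hperf, -⟩
  haveI := hperf
  -- `G / O^p(G)` is a perfect `p`-group, hence trivial
  have hpq : IsPGroup p (G ⧸ Cfsg.pResidual p G) := by
    intro q
    obtain ⟨g, rfl⟩ := QuotientGroup.mk_surjective q
    obtain ⟨k, hk⟩ := pow_mem_pResidual p g
    exact ⟨k, by rw [← QuotientGroup.mk_pow]; exact (QuotientGroup.eq_one_iff _).mpr hk⟩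
  haveI : Group.IsNilpotent (G ⧸ Cfsg.pResidual p G) := hpq.isNilpotent
  have hsub : Subsingleton (G ⧸ Cfsg.pResidual p G) := by
    by_contra hns
    rw [not_subsingleton_iff_nontrivial] at hns
    exact Group.IsPerfect.not_isNilpotent (G ⧸ Cfsg.pResidual p G) inferInstance
  have htop : Cfsg.pResidual p G = ⊤ := by
    rw [← Subgroup.index_eq_one, Subgroup.index_eq_card]
    exact Nat.card_eq_one_iff_unique.2 ⟨hsub, ⟨1⟩⟩
  -- then `P` is trivial
  have hP : Nat.card (P : Subgroup G) = 1 := by
    have h1 := hc.symm.index_eq_card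
    rw [htop, Subgroup.index_top] at h1
    exact h1.symm
  have hnd := P.not_dvd_index
  have h2 := Subgroup.card_mul_index (P : Subgroup G)
  rw [hP, one_mul] at h2
  rw [h2] at hnd
  exact hnd hdiv

end Cfsg.Agent.S2910
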