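import Cfsg.Statements.S2924
import Mathlib
import Cfsg.Agent.Lib.Helper30.Invol
import Cfsg.Agent.Lib.Helper31.Basic
import Cfsg.Agent.Lib.Helper58.CharP
import Cfsg.Agent.Lib.Helper57.CharP
import Cfsg.Agent.Lib.Helper1.NilMax

set_option autoImplicit false
open Cfsg

namespace Cfsg.Agent.S2924

open Cfsg.Agent.Lib
open scoped Pointwise

universe u

section general

variable {X : Type u} [Group X]

/-- The odd core of a subgroup, as a subgroup of the ambient group. -/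
abbrev W (H : Subgroup X) : Subgroup X := (oddCore ↥H).map H.subtype

theorem W_le (H : Subgroup X) : W H ≤ H := Subgroup.map_subtype_le _

theorem W_odd [Finite X] (H : Subgroup X) : (Nat.card (W H)).Coprime 2 := by
  show (Nat.card ((pPrimeCore 2 ↥H).map H.subtype)).Coprime 2
  rw [Helper30.card_map_subtype]
  exact Helper30.pPrimeCore_coprime 2

theorem W_norm (H : Subgroup X) : H ≤ Subgroup.normalizer (W H : Set X) := by
  haveI : (pPrimeCore 2 ↥H).Normal := by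
    haveI := Helper30.pPrimeCore_characteristic (G := ↥H) 2
    infer_instance
  exact Helper30.le_normalizer_map_subtype (pPrimeCore 2 ↥H)

theorem le_W [Finite X] {N H : Subgroup X} (hNH : N ≤ H)
    (hn : H ≤ Subgroup.normalizer (N : Set X)) (hc : (Nat.card N).Coprime 2) : N ≤ W H := by
  have h1 : (N.subgroupOf H).Normal := (Subgroup.normal_subgroupOf_iff_le_normalizer hNH).mpr hn
  have h2 : (Nat.card (N.subgroupOf H)).Coprime 2 := by
    rw [Nat.card_congr (Subgroup.subgroupOfEquivOfLe hNH).toEquiv]; exact hc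
  have h3 : N.subgroupOf H ≤ pPrimeCore 2 ↥H := Helper30.le_pPrimeCore_of_normal h1 h2
  have h4 := Subgroup.map_mono (f := H.subtype) h3
  rw [Subgroup.map_subgroupOf_eq_of_le hNH] at h4
  exact h4

theorem W_conj (H : Subgroup X) (g : X) :
    (W H).map (MulAut.conj g).toMonoidHom = W (H.map (MulAut.conj g).toMonoidHom) :=
  Helper31.coreOf_map 2 (MulAut.conj g) H

theorem pow_card_mem {K : Subgroup X} {x : X} (hx : x ∈ K) : x ^ Nat.card K = 1 := by
  have h := pow_card_eq_one' (G := ↥K) (x := ⟨x, hx⟩)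
  have h2 := congrArg Subtype.val h
  rw [Subgroup.coe_pow] at h2
  exact h2

theorem odd_elt {N : Subgroup X} (hN : (Nat.card N).Coprime 2) {x : X} (hx : x ∈ N) :
    (orderOf x).Coprime 2 :=
  Nat.Coprime.coprime_dvd_left (orderOf_dvd_of_pow_eq_one (pow_card_mem hx)) hN

theorem eq_one_of_two_odd {Q : Subgroup X} (hQ : IsPGroup 2 Q) {x : X} (hx : x ∈ Q)
    (hodd : (orderOf x).Coprime 2) : x = 1 :=
  Helper58.eq_one_of_coprime_of_pElement x hodd (Helper58.exists_pow_eq_one_of_mem hQ hx)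

theorem sq_root {d : X} (hn : (orderOf d).Coprime 2) :
    d ^ ((orderOf d + 1) / 2) * d ^ ((orderOf d + 1) / 2) = d := by
  have hodd : orderOf d % 2 = 1 := by
    rcases Nat.mod_two_eq_zero_or_one (orderOf d) with h | h
    · exfalso
      have h2 : 2 ∣ orderOf d := Nat.dvd_of_mod_eq_zero h
      have := Nat.Coprime.eq_one_of_dvd hn.symm h2
      omega
    · exact h
  rw [← pow_add]
  have : (orderOf d + 1) / 2 + (orderOf d + 1) / 2 = orderOf d + 1 := by omega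
  rw [this, pow_succ, pow_orderOf_eq_one, one_mul]

/-- Thompson `A × B` in the form used here. -/
theorem AB [Finite X] {Q : Subgroup X} (hQ : IsPGroup 2 Q) {y : X} (hy2 : y ^ 2 = 1)
    (hyQ : y ∈ Subgroup.normalizer (Q : Set X)) {D : Subgroup X}
    (hDQ : D ≤ Subgroup.normalizer (Q : Set X)) (hDodd : (Nat.card D).Coprime 2)
    (hDy : ∀ d ∈ D, d * y = y * d)
    (hnD : ∀ q ∈ Q, q * y = y * q → q ∈ Subgroup.normalizer (D : Set X)) :
    ∀ d ∈ D, ∀ q ∈ Q, d * q = q * d := by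
  intro d hd q hq
  have hB : IsPGroup 2 (Subgroup.zpowers y) := by
    rintro ⟨g, hg⟩
    obtain ⟨k, rfl⟩ := Subgroup.mem_zpowers_iff.1 hg
    refine ⟨1, Subtype.ext ?_⟩
    show (y ^ k) ^ 2 ^ 1 = 1
    rw [pow_one, ← zpow_natCast, ← zpow_mul, mul_comm, zpow_mul, zpow_natCast, hy2, one_zpow]
  have key := Helper30.thompson_AxB 2 hQ hB (Subgroup.zpowers_le.2 hyQ) (hDQ hd)
    (odd_elt hDodd hd)
    (by
      intro b hb
      obtain ⟨k, rfl⟩ := Subgroup.mem_zpowers_iff.1 hb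
      exact Commute.zpow_right (hDy d hd) k)
    (by
      intro q' hq'
      obtain ⟨hq'Q, hq'c⟩ := Subgroup.mem_inf.1 hq'
      have hq'y : q' * y = y * q' :=
        (Subgroup.mem_centralizer_iff.1 hq'c y (Subgroup.mem_zpowers y)).symm
      have hn := hnD q' hq'Q hq'y
      have hc1 : q' * d * q'⁻¹ * d⁻¹ ∈ D :=
        D.mul_mem ((Subgroup.mem_normalizer_iff.1 hn d).1 hd) (D.inv_mem hd)
      have hc2 : q' * d * q'⁻¹ * d⁻¹ ∈ Q := by
        have h1 : d * q'⁻¹ * d⁻¹ ∈ Q :=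
          (Subgroup.mem_normalizer_iff.1 (hDQ hd) q'⁻¹).1 (Q.inv_mem hq'Q)
        have h2 := Q.mul_mem hq'Q h1
        simpa [mul_assoc] using h2
      have hc := eq_one_of_two_odd hQ hc2 (odd_elt hDodd hc1)
      have h3 := congrArg (fun t => t * d * q') hc
      simp only [mul_assoc, inv_mul_cancel, mul_one, one_mul] at h3
      exact h3.symm)
  exact (key q hq).eq

/-- A fixed-point-free involutory automorphism inverts. -/
theorem inv_of_fpf [Finite X] {Wy : Subgroup X} {z : X} (hz2 : z ^ 2 = 1)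
    (hzN : z ∈ Subgroup.normalizer (Wy : Set X)) (hfix : ∀ w ∈ Wy, z * w = w * z → w = 1) :
    (∀ w ∈ Wy, z * w * z⁻¹ = w⁻¹) ∧ (∀ a ∈ Wy, ∀ b ∈ Wy, a * b = b * a) := by
  have hzz : z * z = 1 := by rw [← pow_two]; exact hz2
  have hzinv : z⁻¹ = z := inv_eq_of_mul_eq_one_left hzz
  have hconj : ∀ w ∈ Wy, z * w * z⁻¹ ∈ Wy :=
    fun w hw => (Subgroup.mem_normalizer_iff.1 hzN w).1 hw
  let f : ↥Wy → ↥Wy := fun w =>
    ⟨(w : X)⁻¹ * (z * w * z⁻¹), Wy.mul_mem (Wy.inv_mem w.2) (hconj w w.2)⟩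
  have hinj : Function.Injective f := by
    intro w v h
    have h1 : (w : X)⁻¹ * (z * w * z⁻¹) = (v : X)⁻¹ * (z * v * z⁻¹) := congrArg Subtype.val h
    have h3 := congrArg (fun t => (v : X) * t * z * (w : X)⁻¹) h1
    simp only [mul_assoc, inv_mul_cancel_left, mul_inv_cancel_left, mul_inv_cancel, mul_one] at h3
    have h2 : z * ((v : X) * (w : X)⁻¹) = ((v : X) * (w : X)⁻¹) * z := by
      rw [mul_assoc]; exact h3.symm
    have h4 := hfix _ (Wy.mul_mem v.2 (Wy.inv_mem w.2)) h2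
    exact Subtype.ext (mul_inv_eq_one.1 h4).symm
  have hsurj : Function.Surjective f := Finite.injective_iff_surjective.1 hinj
  have hI : ∀ w ∈ Wy, z * w * z⁻¹ = w⁻¹ := by
    intro w hw
    obtain ⟨v, hv⟩ := hsurj ⟨w, hw⟩
    have hv' : (v : X)⁻¹ * (z * v * z⁻¹) = w := congrArg Subtype.val hv
    rw [← hv']
    simp only [mul_inv_rev, inv_inv, hzinv, mul_assoc, hzz, mul_one]
  refine ⟨hI, ?_⟩
  intro a ha b hb
  have e : z * (a * b) * z⁻¹ = (z * a * z⁻¹) * (z * b * z⁻¹) := by simp [mul_assoc]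
  rw [hI a ha, hI b hb, hI (a * b) (Wy.mul_mem ha hb)] at e
  have := congrArg (·⁻¹) e
  simpa [mul_inv_rev] using this

theorem fitting_le_sup (C : Type u) [Group C] [Finite C] :
    fittingSubgroup C ≤ pCore 2 C ⊔ pPrimeCore 2 C := by
  have hnil : Group.IsNilpotent ↥(fittingSubgroup C) := Helper30.fitting_nilpotent
  have hFn : (fittingSubgroup C).Normal := Helper30.fitting_normal
  let P : Sylow 2 ↥(fittingSubgroup C) := default
  have hPn : (P : Subgroup ↥(fittingSubgroup C)).Normal := Helper1.nm_sylow_normal hnil P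
  obtain ⟨K, hKn, hKc, k, hk⟩ := Helper1.nm_npc_of_nilpotent hnil 2
  have htop : (P : Subgroup ↥(fittingSubgroup C)) ⊔ K = ⊤ :=
    Helper2.sup_eq_top_of_index_pow P K hk
  have h2 : fittingSubgroup C ≤
      ((P : Subgroup ↥(fittingSubgroup C)) ⊔ K).map (fittingSubgroup C).subtype := by
    rw [htop, ← MonoidHom.range_eq_map, Subgroup.range_subtype]
  refine h2.trans ?_
  rw [Subgroup.map_sup]
  apply sup_le_sup
  · apply Helper30.le_pCore_of_subnormal (hPn.isSubnormal.trans' hFn.isSubnormal)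
    exact P.isPGroup'.map _
  · apply Helper30.le_pPrimeCore_of_subnormal (hKn.isSubnormal.trans' hFn.isSubnormal)
    rw [Helper30.card_map_subtype]; exact hKc

/-- Balance: under the inversion hypotheses, `O(C(y)) ∩ C(u) ≤ O(C(u))`. -/
theorem balance [Finite X] {u y z : X} {Wy : Subgroup X}
    (hEu : layer ↥(Subgroup.centralizer ({u} : Set X)) = ⊥)
    (hy2 : y ^ 2 = 1) (hyu : y * u = u * y)
    (hWy_le : Wy ≤ Subgroup.centralizer ({y} : Set X))
    (hWy_n : Subgroup.centralizer ({y} : Set X) ≤ Subgroup.normalizer (Wy : Set X))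
    (hWy_odd : (Nat.card Wy).Coprime 2)
    (hzWy : ∀ w ∈ Wy, z * w * z⁻¹ = w⁻¹)
    (hzR : ∀ r ∈ W (Subgroup.centralizer ({u} : Set X)), z * r * z⁻¹ = r⁻¹)
    (hRab : ∀ a ∈ W (Subgroup.centralizer ({u} : Set X)),
      ∀ b ∈ W (Subgroup.centralizer ({u} : Set X)), a * b = b * a) :
    Wy ⊓ Subgroup.centralizer ({u} : Set X) ≤ W (Subgroup.centralizer ({u} : Set X)) := by
  obtain ⟨H, hH⟩ : ∃ H : Subgroup X, H = Subgroup.centralizer ({u} : Set X) := ⟨_, rfl⟩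
  rw [← hH] at hEu hzR hRab ⊢
  obtain ⟨R, hR⟩ : ∃ R : Subgroup X, R = W H := ⟨_, rfl⟩
  rw [← hR] at hzR hRab ⊢
  have hyH : y ∈ H := by rw [hH]; exact Subgroup.mem_centralizer_singleton_iff.2 hyu
  have hDodd : (Nat.card ↥(Wy ⊓ H)).Coprime 2 :=
    Nat.Coprime.coprime_dvd_left (Subgroup.card_dvd_of_le inf_le_left) hWy_odd
  have hRn : H ≤ Subgroup.normalizer (R : Set X) := by rw [hR]; exact W_norm H
  have hRodd : (Nat.card R).Coprime 2 := by rw [hR]; exact W_odd H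
  have hRH : R ≤ H := by rw [hR]; exact W_le H
  -- `D` centralizes `R`
  have hDR : ∀ d ∈ Wy ⊓ H, ∀ r ∈ R, d * r = r * d := by
    intro d hd r hr
    have hdW : d ∈ Wy := hd.1
    have hdH : d ∈ H := hd.2
    have hc : d * r * d⁻¹ ∈ R := (Subgroup.mem_normalizer_iff.1 (hRn hdH) r).1 hr
    have h1 := hzR _ hc
    have h2 : z * (d * r * d⁻¹) * z⁻¹ = (z * d * z⁻¹) * (z * r * z⁻¹) * (z * d * z⁻¹)⁻¹ := by
      simp [mul_assoc]
    rw [h2, hzWy d hdW, hzR r hr] at h1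
    have h4 : d⁻¹ * r⁻¹ * d = d * r⁻¹ * d⁻¹ := by simpa [mul_assoc] using h1
    have h5 := congrArg (fun t => d * t * d) h4
    simp only [mul_assoc, mul_inv_cancel_left, inv_mul_cancel, mul_one] at h5
    have h6 : Commute (d * d) r⁻¹ := by
      show d * d * r⁻¹ = r⁻¹ * (d * d)
      rw [mul_assoc]; exact h5.symm
    have h7 : Commute (d * d) r := by
      have := h6.inv_right
      rwa [inv_inv] at this
    have hn : (orderOf d).Coprime 2 := odd_elt hDodd hd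
    have h8 : Commute d r := by
      rw [← sq_root hn, ← pow_add, ← two_mul, pow_mul, pow_two]
      exact h7.pow_left _
    exact h8.eq
  obtain ⟨C, hC⟩ : ∃ C : Subgroup X, C = H ⊓ Subgroup.centralizer (R : Set X) := ⟨_, rfl⟩
  have hCH : C ≤ H := by rw [hC]; exact inf_le_left
  have hHC : H ≤ Subgroup.normalizer (C : Set X) := by
    rw [hC]; exact Helper58.le_normalizer_inf_centralizer hRn
  have hDC : Wy ⊓ H ≤ C := by
    intro d hd
    rw [hC]
    exact Subgroup.mem_inf.2 ⟨hd.2,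
      Subgroup.mem_centralizer_iff.2 (fun r hr => (hDR d hd r hr).symm)⟩
  -- the layer of `C` is trivial
  have hlayC : layer ↥C = ⊥ := by
    have hn : (C.subgroupOf H).Normal :=
      (Subgroup.normal_subgroupOf_iff_le_normalizer hCH).mpr hHC
    have h1 := Helper30.layer_map_subtype_le (G := ↥H) hn.isSubnormal
    rw [hEu, le_bot_iff] at h1
    have h2 : layer ↥(C.subgroupOf H) = ⊥ :=
      (Subgroup.map_eq_bot_iff_of_injective _ (Subgroup.subtype_injective _)).1 h1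
    have h3 := Helper30.layer_map_equiv (Subgroup.subgroupOfEquivOfLe hCH)
    rw [h2, Subgroup.map_bot] at h3
    exact h3.symm
  have hbender : Subgroup.centralizer (fittingSubgroup ↥C : Set ↥C) ≤ fittingSubgroup ↥C := by
    have h := Helper30.centralizer_genFitting_le (G := ↥C)
    have e : generalizedFittingSubgroup ↥C = fittingSubgroup ↥C := by
      unfold generalizedFittingSubgroup; rw [hlayC, bot_sup_eq]
    rwa [e] at h
  have hFle := fitting_le_sup ↥C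
  have hWC : W C ≤ R := by
    rw [hR]
    apply le_W ((W_le C).trans hCH) _ (W_odd C)
    intro h hh
    rw [Helper30.mem_normalizer_iff_map_conj, W_conj,
      Helper30.mem_normalizer_iff_map_conj.1 (hHC hh)]
  have hQ : IsPGroup 2 (pCoreOf 2 C) := Helper58.isPGroup_pCoreOf 2 C
  have hQC : pCoreOf 2 C ≤ C := Helper58.pCoreOf_le 2 C
  have hHQ : H ≤ Subgroup.normalizer (pCoreOf 2 C : Set X) := by
    intro h hh
    rw [Helper30.mem_normalizer_iff_map_conj]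
    exact Helper30.pCore_map_subtype_conj 2 (hHC hh)
  have hDQ : ∀ d ∈ Wy ⊓ H, ∀ q ∈ pCoreOf 2 C, d * q = q * d := by
    apply AB hQ hy2 (hHQ hyH) (hDC.trans (hCH.trans hHQ)) hDodd
    · intro d hd
      exact Subgroup.mem_centralizer_singleton_iff.1 (hWy_le hd.1)
    · intro q hq hqy
      have hqH : q ∈ H := hCH (hQC hq)
      have h1 : q ∈ Subgroup.normalizer (Wy : Set X) :=
        hWy_n (Subgroup.mem_centralizer_singleton_iff.2 hqy)
      have h2 : q ∈ Subgroup.normalizer (H : Set X) := Subgroup.le_normalizer hqH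
      exact Subgroup.inf_normalizer_le_normalizer_inf ⟨h1, h2⟩
  intro d hd
  have hdC : d ∈ C := hDC hd
  have hcent : (⟨d, hdC⟩ : ↥C) ∈ Subgroup.centralizer (fittingSubgroup ↥C : Set ↥C) := by
    rw [Subgroup.mem_centralizer_iff]
    intro f hf
    have hf' := hFle hf
    have hle : pCore 2 ↥C ⊔ pPrimeCore 2 ↥C ≤
        Subgroup.centralizer ({(⟨d, hdC⟩ : ↥C)} : Set ↥C) := by
      apply sup_le
      · intro q hq
        rw [Subgroup.mem_centralizer_singleton_iff]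
        apply Subtype.ext
        have hqQ : (q : X) ∈ pCoreOf 2 C := Subgroup.mem_map_of_mem C.subtype hq
        exact (hDQ d hd q hqQ).symm
      · intro o ho
        rw [Subgroup.mem_centralizer_singleton_iff]
        apply Subtype.ext
        have hoR : (o : X) ∈ R := hWC (Subgroup.mem_map_of_mem C.subtype ho)
        exact (hDR d hd o hoR).symm
    exact Subgroup.mem_centralizer_singleton_iff.1 (hle hf')
  have hdS := hFle (hbender hcent)
  haveI : (pPrimeCore 2 ↥C).Normal := by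
    haveI := Helper30.pPrimeCore_characteristic (G := ↥C) 2
    infer_instance
  have hmem : (⟨d, hdC⟩ : ↥C) ∈
      ((pCore 2 ↥C : Subgroup ↥C) : Set ↥C) * ((pPrimeCore 2 ↥C : Subgroup ↥C) : Set ↥C) := by
    rw [← Subgroup.mul_normal]; exact hdS
  obtain ⟨q, hq, o, ho, hqo⟩ := Set.mem_mul.1 hmem
  have hoR : (o : X) ∈ R := hWC (Subgroup.mem_map_of_mem C.subtype ho)
  have hqQ : (q : X) ∈ pCoreOf 2 C := Subgroup.mem_map_of_mem C.subtype hq
  have hqo' : (q : X) * (o : X) = d := congrArg Subtype.val hqo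
  have hq1 : (q : X) = 1 := by
    apply eq_one_of_two_odd hQ hqQ
    have hq_eq : (q : X) = d * (o : X)⁻¹ := by rw [← hqo']; simp
    have hcomm : Commute d (o : X)⁻¹ := hDR d hd _ (R.inv_mem hoR)
    have hpow : (q : X) ^ (Nat.card ↥(Wy ⊓ H) * Nat.card R) = 1 := by
      rw [hq_eq, hcomm.mul_pow, pow_mul, pow_card_mem hd, one_pow, one_mul,
        mul_comm, pow_mul, pow_card_mem (R.inv_mem hoR), one_pow]
    exact Nat.Coprime.coprime_dvd_left (orderOf_dvd_of_pow_eq_one hpow)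
      (Nat.Coprime.mul_left hDodd hRodd)
  rw [← hqo', hq1, one_mul]
  exact hoR

theorem sup_odd [Finite X] {A B : Subgroup X} (hc : ∀ a ∈ A, ∀ b ∈ B, a * b = b * a)
    (hA : (Nat.card A).Coprime 2) (hB : (Nat.card B).Coprime 2) :
    (Nat.card ↥(A ⊔ B)).Coprime 2 := by
  by_contra hcon
  have h2 : 2 ∣ Nat.card ↥(A ⊔ B) := by
    by_contra h
    exact hcon ((Nat.Prime.coprime_iff_not_dvd Nat.prime_two).2 h).symm
  obtain ⟨g, hg⟩ := exists_prime_orderOf_dvd_card' (G := ↥(A ⊔ B)) 2 h2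
  obtain ⟨a, ha, b, hb, hab⟩ := Helper30.mem_sup_of_commute hc g.2
  have hcomm : Commute a b := hc a ha b hb
  have hpow : (g : X) ^ (Nat.card A * Nat.card B) = 1 := by
    rw [hab, hcomm.mul_pow, pow_mul, pow_card_mem ha, one_pow, one_mul, mul_comm, pow_mul,
      pow_card_mem hb, one_pow]
  have h3 : (orderOf (g : X)).Coprime 2 :=
    Nat.Coprime.coprime_dvd_left (orderOf_dvd_of_pow_eq_one hpow) (Nat.Coprime.mul_left hA hB)
  rw [Subgroup.orderOf_coe, hg] at h3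
  exact absurd h3 (by decide)

theorem card_le_of_subset_finset [Finite X] (Y : Subgroup X) (s : Finset X)
    (h : ∀ a ∈ Y, a ∈ s) : Nat.card Y ≤ s.card := by
  have h1 := Nat.card_le_card_of_injective (fun a : ↥Y => (⟨a.1, h a.1 a.2⟩ : ↥s))
    (by
      intro a b hab
      apply Subtype.ext
      exact congrArg (fun t : ↥s => (t : X)) hab)
  have h2 : Nat.card ↥s = s.card := by rw [Nat.card_eq_fintype_card, Fintype.card_coe]
  rw [h2] at h1
  exact h1

/-- `O(C(y))` as a subgroup of the ambient group. -/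
abbrev Wf (y : X) : Subgroup X := W (Subgroup.centralizer ({y} : Set X))

end general

/-- Let X be a finite group and Y an elementary abelian 2-subgroup of X of order at least 8 such that C_X(x) has no components (E(C_X(x)) = 1) for every nontrivial x ∈ Y, and F*(C_X(z)) = O₂(C_X(z)) for some nontrivial z ∈ Y. Then the subgroup generated by the cores O(C_X(y)), y ∈ Y nontrivial, has odd order and is normalized by N_X(Y). -/
theorem result {X : Type*} [Group X] [Finite X] (Y : Subgroup X) (hY : Cfsg.IsElementaryAbelian 2 Y) (h8 : 8 ≤ Nat.card ↥Y) (hE : ∀ x ∈ Y, x ≠ 1 → Cfsg.layer ↥(Subgroup.centralizer ({x} : Set X)) = ⊥) (hz : ∃ z ∈ Y, z ≠ 1 ∧ Cfsg.generalizedFittingSubgroup ↥(Subgroup.centralizer ({z} : Set X)) = Cfsg.pCore 2 ↥(Subgroup.centralizer ({z} : Set X))) : Odd (Nat.card ↥(⨆ y : {y : X // y ∈ Y ∧ y ≠ 1}, (Cfsg.oddCore ↥(Subgroup.centralizer ({(y : X)} : Set X))).map (Subgroup.centralizer ({(y : X)}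 : Set X)).subtype)) ∧ Subgroup.normalizer (Y : Set X) ≤ Subgroup.normalizer ((⨆ y : {y : X // y ∈ Y ∧ y ≠ 1}, (Cfsg.oddCore ↥(Subgroup.centralizer ({(y : X)} : Set X))).map (Subgroup.centralizer ({(y : X)} : Set X)).subtype : Subgroup X) : Set X) := by
  classical
  obtain ⟨z, hzY, hz1, hzF⟩ := hz
  have hYc : ∀ a ∈ Y, ∀ b ∈ Y, a * b = b * a := by
    intro a ha b hb
    have := (isMulCommutative_iff.1 hY.1) ⟨a, ha⟩ ⟨b, hb⟩
    exact congrArg Subtype.val this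
  have hY2 : ∀ a ∈ Y, a ^ 2 = 1 := hY.2
  have hYsq : ∀ a ∈ Y, a * a = 1 := fun a ha => by rw [← pow_two]; exact hY2 a ha
  have hYinv : ∀ a ∈ Y, a⁻¹ = a := fun a ha => inv_eq_of_mul_eq_one_left (hYsq a ha)
  have hYeq : ∀ a ∈ Y, ∀ b ∈ Y, a * b = 1 → b = a := by
    intro a ha b hb h
    rw [← hYinv a ha]
    exact eq_inv_of_mul_eq_one_right h
  have hWf_le : ∀ y : X, Wf y ≤ Subgroup.centralizer ({y} : Set X) := fun y => W_le _
  have hWf_n : ∀ y : X, Subgroup.centralizer ({y} : Set X) ≤ Subgroup.normalizer (Wf y : Set X) :=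
    fun y => W_norm _
  have hWf_odd : ∀ y : X, (Nat.card (Wf y)).Coprime 2 := fun y => W_odd _
  have hcentY : ∀ a ∈ Y, ∀ b ∈ Y, a ∈ Subgroup.centralizer ({b} : Set X) :=
    fun a ha b hb => Subgroup.mem_centralizer_singleton_iff.2 (hYc a ha b hb)
  -- Step 1: `z` acts fixed-point-freely on every `O(C(y))`
  have step1 : ∀ y ∈ Y, y ≠ 1 → ∀ w ∈ Wf y, z * w = w * z → w = 1 := by
    intro y hy hy1 w hw hzw
    obtain ⟨M, hM⟩ : ∃ M : Subgroup X, M = Subgroup.centralizer ({z} : Set X) := ⟨_, rfl⟩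
    rw [← hM] at hzF
    have hchar : M ⊓ Subgroup.centralizer (pCoreOf 2 M : Set X) ≤ pCoreOf 2 M :=
      (Helper58.charP_subtype_iff M).1 (Helper57.charP_of_genFitting_eq_pCore hzF)
    have hQ : IsPGroup 2 (pCoreOf 2 M) := Helper58.isPGroup_pCoreOf 2 M
    have hMQ : M ≤ Subgroup.normalizer (pCoreOf 2 M : Set X) := Helper58.le_normalizer_pCoreOf 2 M
    have hyM : y ∈ M := by rw [hM]; exact hcentY y hy z hzY
    have hDodd : (Nat.card ↥(Wf y ⊓ M)).Coprime 2 :=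
      Nat.Coprime.coprime_dvd_left (Subgroup.card_dvd_of_le inf_le_left) (hWf_odd y)
    have key := AB hQ (hY2 y hy) (hMQ hyM) (D := Wf y ⊓ M) (inf_le_right.trans hMQ) hDodd
      (fun d hd => Subgroup.mem_centralizer_singleton_iff.1 (hWf_le y hd.1))
      (by
        intro q hq hqy
        have hqM : q ∈ M := Helper58.pCoreOf_le 2 M hq
        exact Subgroup.inf_normalizer_le_normalizer_inf
          ⟨hWf_n y (Subgroup.mem_centralizer_singleton_iff.2 hqy), Subgroup.le_normalizer hqM⟩)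
    have hwM : w ∈ M := by rw [hM]; exact Subgroup.mem_centralizer_singleton_iff.2 hzw.symm
    have hwD : w ∈ Wf y ⊓ M := ⟨hw, hwM⟩
    have hwQ : w ∈ pCoreOf 2 M :=
      hchar ⟨hwM, Subgroup.mem_centralizer_iff.2 (fun q hq => (key w hwD q hq).symm)⟩
    exact eq_one_of_two_odd hQ hwQ (odd_elt (hWf_odd y) hw)
  have hinvab : ∀ y ∈ Y, y ≠ 1 → (∀ w ∈ Wf y, z * w * z⁻¹ = w⁻¹) ∧
      (∀ a ∈ Wf y, ∀ b ∈ Wf y, a * b = b * a) := by
    intro y hy hy1
    exact inv_of_fpf (hY2 z hzY) (hWf_n y (hcentY z hzY y hy)) (step1 y hy hy1)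
  -- Step 2: balance
  have hbal : ∀ u ∈ Y, u ≠ 1 → ∀ y ∈ Y, y ≠ 1 → ∀ d ∈ Wf y, d * u = u * d → d ∈ Wf u := by
    intro u hu hu1 y hy hy1 d hd hdu
    have := balance (hE u hu hu1) (hY2 y hy) (hYc y hy u hu) (hWf_le y) (hWf_n y) (hWf_odd y)
      (hinvab y hy hy1).1 (hinvab u hu hu1).1 (hinvab u hu hu1).2
    exact this ⟨hd, Subgroup.mem_centralizer_singleton_iff.2 hdu⟩
  -- Step 3: decomposition of `O(C(y))` under `u ∈ Y`
  have hdec : ∀ y ∈ Y, y ≠ 1 → ∀ u ∈ Y, ∀ w ∈ Wf y, ∃ a ∈ Wf y, ∃ b ∈ Wf y,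
      w = a * b ∧ a * u = u * a ∧ b * (u * z) = (u * z) * b := by
    intro y hy hy1 u hu w hw
    obtain ⟨hI, hA⟩ := hinvab y hy hy1
    obtain ⟨v, hv⟩ : ∃ v : X, v = w ^ ((orderOf w + 1) / 2) := ⟨_, rfl⟩
    have hvW : v ∈ Wf y := by rw [hv]; exact (Wf y).pow_mem hw _
    have hvv : v * v = w := by rw [hv]; exact sq_root (odd_elt (hWf_odd y) hw)
    have huN : u ∈ Subgroup.normalizer (Wf y : Set X) := hWf_n y (hcentY u hu y hy)
    obtain ⟨v', hv'⟩ : ∃ v' : X, v' = u * v * u⁻¹ := ⟨_, rfl⟩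
    have hv'W : v' ∈ Wf y := by rw [hv']; exact (Subgroup.mem_normalizer_iff.1 huN v).1 hvW
    have huu : u * u = 1 := hYsq u hu
    have huinv : u⁻¹ = u := hYinv u hu
    have e1 : u * v' * u⁻¹ = v := by
      rw [hv', huinv]
      simp only [mul_assoc, huu, mul_one]
      rw [← mul_assoc u u, huu, one_mul]
    have hc : v' * v = v * v' := hA _ hv'W _ hvW
    refine ⟨v * v', (Wf y).mul_mem hvW hv'W, v * v'⁻¹,
      (Wf y).mul_mem hvW ((Wf y).inv_mem hv'W), ?_, ?_, ?_⟩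
    · have hc' : v'⁻¹ * v = v * v'⁻¹ := hA _ ((Wf y).inv_mem hv'W) _ hvW
      calc w = v * v := hvv.symm
        _ = v * (v' * v'⁻¹ * v) := by rw [mul_inv_cancel, one_mul]
        _ = v * v' * (v * v'⁻¹) := by rw [mul_assoc v' v'⁻¹ v, hc', mul_assoc]
    · have h1 : u * (v * v') * u⁻¹ = v * v' := by
        have : u * (v * v') * u⁻¹ = (u * v * u⁻¹) * (u * v' * u⁻¹) := by simp [mul_assoc]
        rw [this, e1, ← hv', hc]
      exact (Helper30.conj_eq_iff_mul_comm.1 h1).symm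
    · have hzv : z * v * z⁻¹ = v⁻¹ := hI v hvW
      have hzv' : z * v' * z⁻¹ = v'⁻¹ := hI v' hv'W
      have h1 : (u * z) * (v * v'⁻¹) * (u * z)⁻¹ = v * v'⁻¹ := by
        have e2 : (u * z) * (v * v'⁻¹) * (u * z)⁻¹
            = (u * (z * v * z⁻¹) * u⁻¹) * (u * (z * v' * z⁻¹) * u⁻¹)⁻¹ := by
          simp [mul_assoc]
        have e3 : u * v⁻¹ * u⁻¹ = v'⁻¹ := by rw [hv']; simp [mul_assoc]
        have e4 : u * v'⁻¹ * u⁻¹ = v⁻¹ := by rw [← e1]; simp [mul_assoc]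
        rw [e2, hzv, hzv', e3, e4, inv_inv]
        exact hA _ ((Wf y).inv_mem hv'W) _ hvW
      exact (Helper30.conj_eq_iff_mul_comm.1 h1).symm
  -- choose `y₀` and `u₀`
  obtain ⟨y₀, hy₀, hy₀1, hy₀z⟩ : ∃ y₀ ∈ Y, y₀ ≠ 1 ∧ y₀ ≠ z := by
    by_contra hcon
    push Not at hcon
    have h := card_le_of_subset_finset Y ({1, z} : Finset X) (by
      intro a ha
      by_cases h1 : a = 1
      · simp [h1]
      · simp [hcon a ha h1])
    have := Finset.card_le_two (a := (1 : X)) (b := z)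
    omega
  obtain ⟨u₀, hu₀, hu₀1, hu₀z, hu₀y, hu₀yz⟩ :
      ∃ u₀ ∈ Y, u₀ ≠ 1 ∧ u₀ ≠ z ∧ u₀ ≠ y₀ ∧ u₀ ≠ y₀ * z := by
    by_contra hcon
    push Not at hcon
    have h := card_le_of_subset_finset Y ({1, z, y₀, y₀ * z} : Finset X) (by
      intro a ha
      by_cases h1 : a = 1
      · simp [h1]
      · by_cases h2 : a = z
        · simp [h2]
        · by_cases h3 : a = y₀
          · simp [h3]
          · simp [hcon a ha h1 h2 h3])
    have := Finset.card_le_four (a := (1 : X)) (b := z) (c := y₀) (d := y₀ * z)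
    omega
  have hzz : z * z = 1 := hYsq z hzY
  have hy₀zY : y₀ * z ∈ Y := Y.mul_mem hy₀ hzY
  have hy₀z1 : y₀ * z ≠ 1 := fun h => hy₀z (hYeq z hzY y₀ hy₀ (by rw [hYc z hzY y₀ hy₀]; exact h))
  have hu₀zY : u₀ * z ∈ Y := Y.mul_mem hu₀ hzY
  have hu₀z1 : u₀ * z ≠ 1 := fun h => hu₀z (hYeq z hzY u₀ hu₀ (by rw [hYc z hzY u₀ hu₀]; exact h))
  have hyuY : y₀ * u₀ ∈ Y := Y.mul_mem hy₀ hu₀
  have hyu1 : y₀ * u₀ ≠ 1 := fun h => hu₀y (hYeq y₀ hy₀ u₀ hu₀ h)
  have hyuzY : y₀ * (u₀ * z) ∈ Y := Y.mul_mem hy₀ hu₀zY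
  have hyuz1 : y₀ * (u₀ * z) ≠ 1 := by
    intro h
    apply hu₀yz
    have h2 : (y₀ * z) * u₀ = 1 := by
      rw [mul_assoc, hYc z hzY u₀ hu₀]; exact h
    exact hYeq (y₀ * z) hy₀zY u₀ hu₀ h2
  -- the two cores `O(C(y₀))` and `O(C(y₀ z))` commute
  have hcomm : ∀ a ∈ Wf y₀, ∀ b ∈ Wf (y₀ * z), a * b = b * a := by
    intro a ha b hb
    obtain ⟨a₁, ha₁, a₂, ha₂, rfl, ha₁u, ha₂u⟩ := hdec y₀ hy₀ hy₀1 u₀ hu₀ a ha
    obtain ⟨b₁, hb₁, b₂, hb₂, rfl, hb₁u, hb₂u⟩ := hdec (y₀ * z) hy₀zY hy₀z1 u₀ hu₀ b hb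
    have ha₁y : a₁ * y₀ = y₀ * a₁ := Subgroup.mem_centralizer_singleton_iff.1 (hWf_le y₀ ha₁)
    have ha₂y : a₂ * y₀ = y₀ * a₂ := Subgroup.mem_centralizer_singleton_iff.1 (hWf_le y₀ ha₂)
    have hb₁y : b₁ * (y₀ * z) = (y₀ * z) * b₁ :=
      Subgroup.mem_centralizer_singleton_iff.1 (hWf_le (y₀ * z) hb₁)
    have hb₂y : b₂ * (y₀ * z) = (y₀ * z) * b₂ :=
      Subgroup.mem_centralizer_singleton_iff.1 (hWf_le (y₀ * z) hb₂)
    have c11 : Commute a₁ b₁ :=
      (hinvab u₀ hu₀ hu₀1).2 a₁ (hbal u₀ hu₀ hu₀1 y₀ hy₀ hy₀1 a₁ ha₁ ha₁u)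
        b₁ (hbal u₀ hu₀ hu₀1 (y₀ * z) hy₀zY hy₀z1 b₁ hb₁ hb₁u)
    have c22 : Commute a₂ b₂ :=
      (hinvab (u₀ * z) hu₀zY hu₀z1).2 a₂ (hbal (u₀ * z) hu₀zY hu₀z1 y₀ hy₀ hy₀1 a₂ ha₂ ha₂u)
        b₂ (hbal (u₀ * z) hu₀zY hu₀z1 (y₀ * z) hy₀zY hy₀z1 b₂ hb₂ hb₂u)
    have c12 : Commute a₁ b₂ := by
      have h1 : a₁ * (y₀ * u₀) = (y₀ * u₀) * a₁ :=
        (Commute.mul_right (show Commute a₁ y₀ from ha₁y) (show Commute a₁ u₀ from ha₁u)).eq
      have e : (y₀ * z) * (u₀ * z) = y₀ * u₀ := by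
        rw [mul_assoc, ← mul_assoc z u₀ z, hYc z hzY u₀ hu₀, mul_assoc, hzz, mul_one]
      have h2 : b₂ * (y₀ * u₀) = (y₀ * u₀) * b₂ := by
        rw [← e]
        exact (Commute.mul_right (show Commute b₂ (y₀ * z) from hb₂y)
          (show Commute b₂ (u₀ * z) from hb₂u)).eq
      exact (hinvab (y₀ * u₀) hyuY hyu1).2 a₁ (hbal (y₀ * u₀) hyuY hyu1 y₀ hy₀ hy₀1 a₁ ha₁ h1)
        b₂ (hbal (y₀ * u₀) hyuY hyu1 (y₀ * z) hy₀zY hy₀z1 b₂ hb₂ h2)
    have c21 : Commute a₂ b₁ := by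
      have h1 : a₂ * (y₀ * (u₀ * z)) = (y₀ * (u₀ * z)) * a₂ :=
        (Commute.mul_right (show Commute a₂ y₀ from ha₂y) (show Commute a₂ (u₀ * z) from ha₂u)).eq
      have e : (y₀ * z) * u₀ = y₀ * (u₀ * z) := by
        rw [mul_assoc, hYc z hzY u₀ hu₀]
      have h2 : b₁ * (y₀ * (u₀ * z)) = (y₀ * (u₀ * z)) * b₁ := by
        rw [← e]
        exact (Commute.mul_right (show Commute b₁ (y₀ * z) from hb₁y)
          (show Commute b₁ u₀ from hb₁u)).eq
      exact (hinvab _ hyuzY hyuz1).2 a₂ (hbal _ hyuzY hyuz1 y₀ hy₀ hy₀1 a₂ ha₂ h1)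
        b₁ (hbal _ hyuzY hyuz1 (y₀ * z) hy₀zY hy₀z1 b₁ hb₁ h2)
    exact ((c11.mul_right c12).mul_left (c21.mul_right c22)).eq
  have hAodd : (Nat.card ↥(Wf y₀ ⊔ Wf (y₀ * z))).Coprime 2 :=
    sup_odd hcomm (hWf_odd y₀) (hWf_odd (y₀ * z))
  have hle : (⨆ y : {y : X // y ∈ Y ∧ y ≠ 1}, Wf (y : X)) ≤ Wf y₀ ⊔ Wf (y₀ * z) := by
    apply iSup_le
    intro y w hw
    obtain ⟨a, ha, b, hb, rfl, hau, hbu⟩ := hdec y y.2.1 y.2.2 y₀ hy₀ w hw
    exact Subgroup.mul_mem_sup (hbal y₀ hy₀ hy₀1 y y.2.1 y.2.2 a ha hau)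
      (hbal (y₀ * z) hy₀zY hy₀z1 y y.2.1 y.2.2 b hb hbu)
  refine ⟨?_, ?_⟩
  · exact Nat.coprime_two_right.1
      (Nat.Coprime.coprime_dvd_left (Subgroup.card_dvd_of_le hle) hAodd)
  · intro g hg
    rw [Helper30.mem_normalizer_iff_map_conj]
    have hle2 : (⨆ y : {y : X // y ∈ Y ∧ y ≠ 1}, Wf (y : X)).map (MulAut.conj g).toMonoidHom
        ≤ ⨆ y : {y : X // y ∈ Y ∧ y ≠ 1}, Wf (y : X) := by
      rw [Subgroup.map_iSup]
      apply iSup_le
      intro y
      have h1 : (Wf (y : X)).map (MulAut.conj g).toMonoidHom = Wf (g * (y : X) * g⁻¹) := by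
        show (W _).map _ = _
        rw [W_conj, Helper30.map_conj_centralizer_singleton]
      rw [h1]
      have hgy : g * (y : X) * g⁻¹ ∈ Y := (Subgroup.mem_normalizer_iff.1 hg y).1 y.2.1
      have hgy1 : g * (y : X) * g⁻¹ ≠ 1 := by
        intro h
        exact y.2.2 (conj_eq_one_iff.1 h)
      exact le_iSup (fun y : {y : X // y ∈ Y ∧ y ≠ 1} => Wf (y : X)) ⟨g * (y : X) * g⁻¹, hgy, hgy1⟩
    exact Subgroup.eq_of_le_of_card_ge hle2 (Helper30.card_map_equiv (MulAut.conj g) _).ge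

end Cfsg.Agent.S2924
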