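import Cfsg.Statements.S2925
import Cfsg.Agent.Lib.Helper57.SylSubnormal
import Cfsg.Agent.Lib.Helper57.Basic
import Cfsg.Agent.Lib.Helper30.Cores

set_option autoImplicit false
open Cfsg

namespace Cfsg.Agent.S2925

open Cfsg.Agent.Lib.Helper57

/-- Let K be a component of the finite group X and T a Sylow 2-subgroup of X. If some abelian normal subgroup Y of T does not normalize K, then K ⧸ Z(K) has abelian Sylow 2-subgroups. -/
theorem result {X : Type*} [Group X] [Finite X] (K : Subgroup X) (hK : Cfsg.IsComponent K) (T : Sylow 2 X) (Y : Subgroup X) (hYT : Y ≤ (T : Subgroup X)) (hYn : (Y.subgroupOf (T : Subgroup X)).Normal) (hYab : IsMulCommutative ↥Y) (hnot : ¬ Y ≤ Subgroup.normalizer (K : Set X)) (P : Sylow 2 (↥K ⧸ Subgroup.center ↥K)) : IsMulCommutative ↥(P : Subgroup (↥K ⧸ Subgroup.center ↥K)) := by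
  have : Fact (Nat.Prime 2) := ⟨Nat.prime_two⟩
  obtain ⟨y, hyY, hyK⟩ := SetLike.not_le_iff_exists.mp hnot
  set K' := K.map (MulAut.conj y).toMonoidHom with hK'
  have hK'c : IsComponent K' := Cfsg.Agent.Lib.Helper30.isComponent_map_equiv (MulAut.conj y) hK
  have hne : K ≠ K' := by
    intro h
    apply hyK
    rw [Subgroup.mem_normalizer_iff_map_conj_eq]
    exact h.symm
  have hcomm := Cfsg.Agent.Lib.Helper30.components_commute hK hK'c hne
  have hKK' : ∀ k ∈ K, ∀ k' ∈ K', k * k' = k' * k :=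
    Cfsg.Agent.Lib.Helper30.commute_of_commutator_eq_bot hcomm
  have hYconj : ∀ a ∈ (T : Subgroup X), a * y * a⁻¹ * y⁻¹ ∈ Y := by
    intro a ha
    have h1 : (⟨y, hYT hyY⟩ : ↥(T : Subgroup X)) ∈ Y.subgroupOf (T : Subgroup X) :=
      Subgroup.mem_subgroupOf.mpr hyY
    have h2 := hYn.conj_mem _ h1 ⟨a, ha⟩
    have h3 : a * y * a⁻¹ ∈ Y := Subgroup.mem_subgroupOf.mp h2
    exact Y.mul_mem h3 (Y.inv_mem hyY)
  have key : ∀ a ∈ (T : Subgroup X) ⊓ K, ∀ b ∈ (T : Subgroup X) ⊓ K, ∀ k ∈ K,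
      (a⁻¹ * b⁻¹ * a * b) * k = k * (a⁻¹ * b⁻¹ * a * b) := by
    intro a ha b hb k hk
    have hca := hYconj a ha.1
    have hcb := hYconj b hb.1
    have hab : (a * y * a⁻¹ * y⁻¹) * (b * y * b⁻¹ * y⁻¹) = (b * y * b⁻¹ * y⁻¹) * (a * y * a⁻¹ * y⁻¹) := by
      have := mul_comm' (⟨_, hca⟩ : ↥Y) ⟨_, hcb⟩
      exact congrArg Subtype.val this
    have ha' : y * a⁻¹ * y⁻¹ ∈ K' := ⟨a⁻¹, K.inv_mem ha.2, by simp [MulAut.conj_apply]⟩
    have hb' : y * b⁻¹ * y⁻¹ ∈ K' := ⟨b⁻¹, K.inv_mem hb.2, by simp [MulAut.conj_apply]⟩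
    set a' := y * a⁻¹ * y⁻¹ with ha'def
    set b' := y * b⁻¹ * y⁻¹ with hb'def
    have e1 : a * y * a⁻¹ * y⁻¹ = a * a' := by rw [ha'def]; group
    have e2 : b * y * b⁻¹ * y⁻¹ = b * b' := by rw [hb'def]; group
    rw [e1, e2] at hab
    have c1 : b * a' = a' * b := hKK' b hb.2 a' ha'
    have c2 : a * b' = b' * a := hKK' a ha.2 b' hb'
    have h : a * b * a' * b' = b * a * b' * a' := by
      calc a * b * a' * b' = a * (b * a') * b' := by group
        _ = a * (a' * b) * b' := by rw [c1]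
        _ = (a * a') * (b * b') := by group
        _ = (b * b') * (a * a') := hab
        _ = b * (b' * a) * a' := by group
        _ = b * (a * b') * a' := by rw [c2]
        _ = b * a * b' * a' := by group
    have hw : a⁻¹ * b⁻¹ * a * b = b' * a' * b'⁻¹ * a'⁻¹ := by
      calc a⁻¹ * b⁻¹ * a * b = a⁻¹ * b⁻¹ * (a * b * a' * b') * b'⁻¹ * a'⁻¹ := by group
        _ = a⁻¹ * b⁻¹ * (b * a * b' * a') * b'⁻¹ * a'⁻¹ := by rw [h]
        _ = b' * a' * b'⁻¹ * a'⁻¹ := by group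
    have hwK' : b' * a' * b'⁻¹ * a'⁻¹ ∈ K' :=
      K'.mul_mem (K'.mul_mem (K'.mul_mem hb' ha') (K'.inv_mem hb')) (K'.inv_mem ha')
    rw [hw]
    exact (hKK' k hk _ hwK').symm
  set Q : Subgroup ↥K := ((T : Subgroup X) ⊓ K).subgroupOf K with hQ
  have hQ2 : IsPGroup 2 ↥Q := (T.isPGroup'.to_le inf_le_left).comap_subtype
  have hQidx : ¬ 2 ∣ Q.index := sylow_inf_subnormal_not_dvd hK.1 T
  set π := QuotientGroup.mk' (Subgroup.center ↥K) with hπ
  have hQb2 : IsPGroup 2 ↥(Q.map π) := hQ2.map π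
  have hQbidx : ¬ 2 ∣ (Q.map π).index := fun h =>
    hQidx (h.trans (Subgroup.index_map_dvd Q (QuotientGroup.mk'_surjective _)))
  obtain ⟨g, hg⟩ := MulAction.exists_smul_eq (↥K ⧸ Subgroup.center ↥K) (hQb2.toSylow hQbidx) P
  have hQbc : ∀ u ∈ Q.map π, ∀ v ∈ Q.map π, u * v = v * u := by
    rintro _ ⟨a, ha, rfl⟩ _ ⟨b, hb, rfl⟩
    have ha' : (a : X) ∈ (T : Subgroup X) ⊓ K := Subgroup.mem_subgroupOf.mp ha
    have hb' : (b : X) ∈ (T : Subgroup X) ⊓ K := Subgroup.mem_subgroupOf.mp hb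
    have h1 := key (a : X) ha' (b : X) hb'
    have h2 : a⁻¹ * b⁻¹ * a * b ∈ Subgroup.center ↥K := by
      rw [Subgroup.mem_center_iff]
      intro k
      apply Subtype.ext
      have := (h1 k k.2).symm
      simpa using this
    have h3 : π (a⁻¹ * b⁻¹ * a * b) = 1 := (QuotientGroup.eq_one_iff _).mpr h2
    have e : a * b = b * a * (a⁻¹ * b⁻¹ * a * b) := by group
    calc π a * π b = π (a * b) := (map_mul π a b).symm
      _ = π (b * a * (a⁻¹ * b⁻¹ * a * b)) := by rw [← e]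
      _ = π b * π a := by rw [map_mul, h3, mul_one, map_mul]
  have hmemP : ∀ u : ↥K ⧸ Subgroup.center ↥K, u ∈ (P : Subgroup (↥K ⧸ Subgroup.center ↥K)) →
      g⁻¹ * u * g ∈ Q.map π := by
    intro u hu
    rw [← hg] at hu
    have := (mem_smul_sylow (hQb2.toSylow hQbidx) g u).mp hu
    rwa [IsPGroup.toSylow_coe] at this
  refine ⟨⟨fun u v => ?_⟩⟩
  have h := hQbc _ (hmemP u u.2) _ (hmemP v v.2)
  apply Subtype.ext
  show (u : ↥K ⧸ Subgroup.center ↥K) * (v : ↥K ⧸ Subgroup.center ↥K) = v * u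
  calc (u : ↥K ⧸ Subgroup.center ↥K) * v
      = g * ((g⁻¹ * u * g) * (g⁻¹ * v * g)) * g⁻¹ := by group
    _ = g * ((g⁻¹ * v * g) * (g⁻¹ * u * g)) * g⁻¹ := by rw [h]
    _ = v * u := by group

end Cfsg.Agent.S2925
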