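import Cfsg.Statements.S2929
import Cfsg.Agent.Lib.Helper57.ThreeCyc4

set_option autoImplicit false
open Cfsg

namespace Cfsg.Agent.S2929

/-- Let n ≥ 5 and let H be a subgroup of the symmetric group of degree n whose generalized Fitting subgroup F*(H) is quasisimple. If H contains a Sylow 3-subgroup of the symmetric group, then F*(H) is isomorphic to an alternating group of degree m for some m ∈ {n − 2, n − 1, n}. -/
theorem result (n : ℕ) (hn : 5 ≤ n) (H : Subgroup (Equiv.Perm (Fin n))) (hF : Cfsg.IsQuasisimple ↥(Cfsg.generalizedFittingSubgroup ↥H)) (hS : ∃ P : Sylow 3 (Equiv.Perm (Fin n)), (P : Subgroup (Equiv.Perm (Fin n))) ≤ H) : ∃ m : ℕ, (m = n - 2 ∨ m = n - 1 ∨ m = n) ∧ Nonempty (↥(Cfsg.generalizedFittingSubgroup ↥H) ≃* ↥(alternatingGroup (Fin m))) := by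
  classical
  obtain ⟨P, hP⟩ := hS
  obtain ⟨S, hScard, hS⟩ := Cfsg.Agent.Lib.Helper57.ThreeCyc.exists_threeCycles_of_sylow n P
  have hSne : S.Nonempty := by
    rw [← Finset.card_pos]
    omega
  obtain ⟨x₀, hx₀⟩ := hSne
  obtain ⟨c₀, hc₀P, hc₀3, hc₀x⟩ := hS x₀ hx₀
  obtain ⟨Ω, hΩsupp, hΩ5, hΩeq⟩ :=
    Cfsg.Agent.Lib.Helper57.ThreeCyc.fstar_eq_alt H hF c₀ hc₀3 (hP hc₀P)
  have hSΩ : S ⊆ Ω := by
    intro x hx
    obtain ⟨c, hcP, hc3, hcx⟩ := hS x hx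
    obtain ⟨Ω', hΩ'supp, hΩ'5, hΩ'eq⟩ :=
      Cfsg.Agent.Lib.Helper57.ThreeCyc.fstar_eq_alt H hF c hc3 (hP hcP)
    have hxΩ' := hΩ'supp x hcx
    obtain ⟨g, hg, hgx⟩ :=
      Cfsg.Agent.Lib.Helper57.ThreeCyc.exists_moving Ω' (by omega) x hxΩ'
    rw [← hΩ'eq, hΩeq] at hg
    exact Cfsg.Agent.Lib.Helper57.ThreeCyc.mem_of_moved Ω g hg x hgx
  have h1 : S.card ≤ Ω.card := Finset.card_le_card hSΩ
  have h2 : Ω.card ≤ n := by
    have h3 := Finset.card_le_univ Ω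
    rwa [Fintype.card_fin] at h3
  refine ⟨Ω.card, by omega, ⟨?_⟩⟩
  have e1 : ↥(Cfsg.generalizedFittingSubgroup ↥H) ≃*
      ↥((Cfsg.generalizedFittingSubgroup ↥H).map H.subtype) :=
    Subgroup.equivMapOfInjective _ H.subtype H.subtype_injective
  have e2 : ↥((Cfsg.generalizedFittingSubgroup ↥H).map H.subtype) ≃*
      ↥((alternatingGroup {x // x ∈ Ω}).map
        (Equiv.Perm.ofSubtype : Equiv.Perm {x // x ∈ Ω} →* Equiv.Perm (Fin n))) :=
    MulEquiv.subgroupCongr hΩeq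
  have e3 : ↥(alternatingGroup {x // x ∈ Ω}) ≃*
      ↥((alternatingGroup {x // x ∈ Ω}).map
        (Equiv.Perm.ofSubtype : Equiv.Perm {x // x ∈ Ω} →* Equiv.Perm (Fin n))) :=
    Subgroup.equivMapOfInjective _ _ Equiv.Perm.ofSubtype_injective
  have e4 : ↥(alternatingGroup {x // x ∈ Ω}) ≃* ↥(alternatingGroup (Fin Ω.card)) :=
    Equiv.altCongrHom (Fintype.equivFinOfCardEq (Fintype.card_coe Ω))
  exact (e1.trans e2).trans (e3.symm.trans e4)

end Cfsg.Agent.S2929
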