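import Cfsg.Statements.S2930
import Cfsg.Agent.Lib.Helper30.Basic
import Cfsg.Agent.Lib.Helper8.PM3PA
import Cfsg.Agent.Lib.Helper77.PM3PB
import Cfsg.Agent.Lib.Helper31.PM3PC
import Cfsg.Agent.Lib.Helper6.PM3Core

set_option autoImplicit false
open Cfsg

namespace Cfsg.Agent.S2930

open Cfsg.Agent.Lib.Helper6.PM3

/-- Let X be a finite 3-minimal group (a Sylow 3-subgroup is not normal and lies in a unique maximal subgroup) whose generalized Fitting subgroup is isomorphic to an alternating group of degree n ≥ 5. Then X = F*(X), and n = 6, n = 9, or n = 3ᵃ + 1 for some a ≥ 2. -/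
theorem result {X : Type*} [Group X] [Finite X] (hX : Cfsg.IsPMinimal 3 X) (n : ℕ) (hn : 5 ≤ n) (hF : Nonempty (↥(Cfsg.generalizedFittingSubgroup X) ≃* ↥(alternatingGroup (Fin n)))) : Cfsg.generalizedFittingSubgroup X = ⊤ ∧ (n = 6 ∨ n = 9 ∨ ∃ a : ℕ, 2 ≤ a ∧ n = 3 ^ a + 1) := by
  classical
  have : Fact (Nat.Prime 3) := ⟨Nat.prime_three⟩
  obtain ⟨e⟩ := hF
  have hLn : (Cfsg.generalizedFittingSubgroup X).Normal := Cfsg.Agent.Lib.Helper30.genFitting_normal
  have hC := Cfsg.Agent.Lib.Helper30.centralizer_genFitting_le (G := X)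
  obtain ⟨S0⟩ : Nonempty (Sylow 3 X) := inferInstance
  have hS0 : (S0 : Subgroup X) ≤ Cfsg.generalizedFittingSubgroup X :=
    sylow_le_of_alt (Cfsg.generalizedFittingSubgroup X) hC n hn e (card_aut_alt_dvd n hn) S0
  have hL : Cfsg.generalizedFittingSubgroup X = ⊤ :=
    eq_top_of_sylow_le hX (Cfsg.generalizedFittingSubgroup X) S0 hS0
  refine ⟨hL, ?_⟩
  -- transport to the alternating group
  obtain ⟨e', -⟩ : ∃ e' : X ≃* ↥(alternatingGroup (Fin n)), True :=
    ⟨(Subgroup.topEquiv.symm.trans (MulEquiv.subgroupCongr hL.symm)).trans e, trivial⟩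
  apply core n hn ((S0 : Subgroup X).map e'.toMonoidHom)
  · exact S0.2.map e'.toMonoidHom
  · intro M₁ M₂ hM₁ hM₂ h1 h2
    have hco : ∀ M : Subgroup (alternatingGroup (Fin n)), IsCoatom M →
        IsCoatom (M.comap e'.toMonoidHom) := by
      intro M hM
      exact (OrderIso.isCoatom_iff (MulEquiv.comapSubgroup e') M).mpr hM
    have hle : ∀ M : Subgroup (alternatingGroup (Fin n)),
        (S0 : Subgroup X).map e'.toMonoidHom ≤ M → (S0 : Subgroup X) ≤ M.comap e'.toMonoidHom :=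
      fun M h => Subgroup.map_le_iff_le_comap.mp h
    obtain ⟨M, -, hMu⟩ := (hX S0).2
    have e1 := hMu _ ⟨hco M₁ hM₁, hle M₁ h1⟩
    have e2 := hMu _ ⟨hco M₂ hM₂, hle M₂ h2⟩
    have e3 : M₁.comap e'.toMonoidHom = M₂.comap e'.toMonoidHom := e1.trans e2.symm
    exact Subgroup.comap_injective e'.surjective e3

end Cfsg.Agent.S2930
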