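import Cfsg.Statements.S2931
import Mathlib
import Cfsg.Agent.Lib.Helper7.CayleyCert
import Cfsg.Agent.Lib.Helper7.SylData2
import Cfsg.Agent.Lib.Helper7.GOMinusOrder
import Cfsg.Agent.S0245
import Cfsg.Agent.S0246

set_option autoImplicit false
open Cfsg

namespace Cfsg.Agent.S2931

open Cfsg.Agent.Lib.Helper7 Cfsg.Agent.Lib.Helper7.SylA

/-! ### Part 1: `A₈` and `PSp₄(3)` -/

/-- generators of a Sylow 2-subgroup of `A₈` -/
def sig : Fin 4 → Equiv.Perm (Fin 8) :=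
  ![Equiv.swap 0 2 * Equiv.swap 1 3,
    Equiv.swap 0 4 * Equiv.swap 1 5 * Equiv.swap 2 6 * Equiv.swap 3 7,
    Equiv.swap 0 3 * Equiv.swap 1 2,
    Equiv.swap 0 5 * Equiv.swap 1 4 * Equiv.swap 2 6 * Equiv.swap 3 7]

theorem sig_rep : ∀ i, RepP (P1.gp i) (sig i) := by
  have h : ∀ (i : Fin 4) (x : Fin 8), sig i x = (P1.gp i).get x := by decide
  exact h

theorem sig_alt : ∀ i, sig i ∈ alternatingGroup (Fin 8) := by
  intro i
  rw [Equiv.Perm.mem_alternatingGroup]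
  fin_cases i <;> simp [sig, Equiv.Perm.sign_mul, Equiv.Perm.sign_swap']

/-- the generators as elements of `A₈` -/
def sigA (i : Fin 4) : alternatingGroup (Fin 8) := ⟨sig i, sig_alt i⟩

theorem cert_A8 : ∃ a : ℕ → alternatingGroup (Fin 8), a 0 = 1 ∧
    (∀ g, g ∈ Subgroup.closure (Set.range sigA) ↔ ∃ k, k < 64 ∧ g = a k) ∧
    (∀ j k, j < 64 → k < 64 → a j = a k → j = k) ∧
    (∀ k, k < 64 → ∀ i, a k * sigA i = a (P1.p i k)) := by
  obtain ⟨a, h0, -, h2, h3, h4⟩ := cayley_cert sigA 64 (by norm_num) P1.p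
    (fun k g => RepP (P1.uel k) (g : Equiv.Perm (Fin 8)))
    (by rw [P1.uel_zero]; exact repP_one)
    (fun k hk i g hg => by
      have h := repP_mul hg (sig_rep i)
      rw [P1.uel_mul i k hk] at h
      exact h)
    P1.p_lt P1.par
    (fun k g g' _ h1 h2 => Subtype.ext (repP_eq h1 h2))
    (fun j k g hj hk h1 h2 => P1.uel_inj j k hj hk (repP_code h1 h2))
  exact ⟨a, h0, h2, h3, h4⟩


section PSpSide

variable {F : Type} [Field F] [Fintype F]

/-- the ring isomorphism `𝔽₃ ≃ F` -/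
noncomputable def psi (hF : Fintype.card F = 3) : ZMod 3 ≃+* F :=
  ZMod.ringEquivOfPrime F (by norm_num) hF

theorem map_symp (hF : Fintype.card F = 3)
    (M : Matrix (Fin 2 ⊕ Fin 2) (Fin 2 ⊕ Fin 2) (ZMod 3))
    (hM : M * Matrix.J (Fin 2) (ZMod 3) * M.transpose = Matrix.J (Fin 2) (ZMod 3)) :
    (psi hF).mapMatrix M ∈ Matrix.symplecticGroup (Fin 2) F := by
  rw [SymplecticGroup.mem_iff]
  have h := congrArg (fun X => X.map (psi hF)) hM
  simp only [Matrix.map_mul, Matrix.map_J, Matrix.transpose_map] at h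
  exact h

/-- generators in `Sp₄(F)` -/
noncomputable def Bsp (hF : Fintype.card F = 3) (i : Fin 4) : Matrix.symplecticGroup (Fin 2) F :=
  ⟨(psi hF).mapMatrix (P1.gm i), map_symp hF _ (P1.gm_symp i)⟩

/-- generators in `PSp₄(F)` -/
noncomputable def spGen (hF : Fintype.card F = 3) (i : Fin 4) : Cfsg.PSp 2 F :=
  QuotientGroup.mk (Bsp hF i)

omit [Fintype F] in
theorem negOne_zpow (n : ℤ) :
    (Cfsg.Agent.S0246.negOne (F := F) 2) ^ n = 1 ∨
      (Cfsg.Agent.S0246.negOne (F := F) 2) ^ n = Cfsg.Agent.S0246.negOne 2 := by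
  have h2 : (Cfsg.Agent.S0246.negOne (F := F) 2) ^ (2 : ℤ) = 1 := by
    rw [zpow_two]
    apply Subtype.ext
    simp [Cfsg.Agent.S0246.negOne]
  rcases Int.even_or_odd' n with ⟨m, rfl | rfl⟩
  · left
    rw [zpow_mul, h2, one_zpow]
  · right
    rw [zpow_add_one, zpow_mul, h2, one_zpow, one_mul]

theorem cert_PSp (hF : Fintype.card F = 3) : ∃ b : ℕ → Cfsg.PSp 2 F, b 0 = 1 ∧
    (∀ g, g ∈ Subgroup.closure (Set.range (spGen hF)) ↔ ∃ k, k < 64 ∧ g = b k) ∧
    (∀ j k, j < 64 → k < 64 → b j = b k → j = k) ∧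
    (∀ k, k < 64 → ∀ i, b k * spGen hF i = b (P1.p i k)) := by
  have : Finite (Cfsg.PSp 2 F) := inferInstance
  obtain ⟨b, h0, -, h2, h3, h4⟩ := cayley_cert (spGen hF) 64 (by norm_num) P1.p
    (fun k g => ∃ A : Matrix.symplecticGroup (Fin 2) F,
      (QuotientGroup.mk A : Cfsg.PSp 2 F) = g ∧
        (A : Matrix (Fin 2 ⊕ Fin 2) (Fin 2 ⊕ Fin 2) F) = (psi hF).mapMatrix (P1.vel k))
    ⟨1, rfl, by rw [P1.vel_zero, map_one]; rfl⟩
    (fun k hk i g hg => by
      obtain ⟨A, rfl, hA⟩ := hg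
      rcases P1.vel_mul i k hk with h | h
      · refine ⟨A * Bsp hF i, rfl, ?_⟩
        show (A : Matrix (Fin 2 ⊕ Fin 2) (Fin 2 ⊕ Fin 2) F) * (psi hF).mapMatrix (P1.gm i) = _
        rw [hA, ← map_mul, h]
      · refine ⟨Cfsg.Agent.S0246.negOne 2 * (A * Bsp hF i), ?_, ?_⟩
        · rw [QuotientGroup.mk_mul,
            (QuotientGroup.eq_one_iff _).mpr (Cfsg.Agent.S0246.negOne_mem_center 2), one_mul]
          rfl
        · show (-1 : Matrix (Fin 2 ⊕ Fin 2) (Fin 2 ⊕ Fin 2) F) *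
            ((A : Matrix (Fin 2 ⊕ Fin 2) (Fin 2 ⊕ Fin 2) F) * (psi hF).mapMatrix (P1.gm i)) = _
          rw [hA, ← map_mul, h, map_neg, neg_one_mul, neg_neg])
    P1.p_lt P1.par
    (fun k g g' _ h1 h2 => by
      obtain ⟨A, rfl, hA⟩ := h1
      obtain ⟨A', rfl, hA'⟩ := h2
      rw [show A = A' from Subtype.ext (hA.trans hA'.symm)])
    (fun j k g hj hk h1 h2 => by
      obtain ⟨A, rfl, hA⟩ := h1
      obtain ⟨A', hAA, hA'⟩ := h2
      rw [QuotientGroup.eq, Cfsg.Agent.S0246.center_eq 2 (by norm_num),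
        Subgroup.mem_zpowers_iff] at hAA
      obtain ⟨n, hn⟩ := hAA
      have hinjm : Function.Injective (psi hF).mapMatrix :=
        ((psi hF).mapMatrix (m := Fin 2 ⊕ Fin 2)).injective
      apply P1.vel_inj j k hj hk
      rcases negOne_zpow (F := F) n with h | h
      · left
        rw [h] at hn
        have h5 : A = A' := by
          have h6 := congrArg (fun X => A' * X) hn
          simpa using h6.symm
        apply hinjm
        rw [← hA, ← hA', h5]
      · right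
        rw [h] at hn
        have h5 : A = A' * Cfsg.Agent.S0246.negOne 2 := by
          have h6 := congrArg (fun X => A' * X) hn
          simpa using h6.symm
        apply hinjm
        rw [map_neg, ← hA, ← hA', h5]
        show (A' : Matrix (Fin 2 ⊕ Fin 2) (Fin 2 ⊕ Fin 2) F) * (-1) =
            -(A' : Matrix (Fin 2 ⊕ Fin 2) (Fin 2 ⊕ Fin 2) F)
        rw [mul_neg, mul_one])
  exact ⟨b, h0, h2, h3, h4⟩

theorem card_PSp (hF : Fintype.card F = 3) : Nat.card (Cfsg.PSp 2 F) = 2 ^ 6 * 405 := by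
  have h1 := Cfsg.Agent.S0245.result hF 2
  have h2 := Cfsg.Agent.S0246.result hF 2 (by norm_num)
  have h3 := Subgroup.card_eq_card_quotient_mul_card_subgroup
    (Subgroup.center (Matrix.symplecticGroup (Fin 2) F))
  rw [h1, h2] at h3
  have h4 : (3 : ℕ) ^ (2 ^ 2) * ∏ i ∈ Finset.range 2, (3 ^ (2 * (i + 1)) - 1) = 51840 := by
    decide
  rw [h4] at h3
  have h5 : Nat.gcd 2 (3 - 1) = 2 := by decide
  rw [h5] at h3
  show Nat.card (Matrix.symplecticGroup (Fin 2) F ⧸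
    Subgroup.center (Matrix.symplecticGroup (Fin 2) F)) = _
  omega

theorem part1 (hF : Fintype.card F = 3) (P : Sylow 2 ↥(alternatingGroup (Fin 8)))
    (Q : Sylow 2 (Cfsg.PSp 2 F)) :
    Nonempty (↥(P : Subgroup ↥(alternatingGroup (Fin 8))) ≃* ↥(Q : Subgroup (Cfsg.PSp 2 F))) := by
  have : Finite (Cfsg.PSp 2 F) := inferInstance
  obtain ⟨a, ha0, hac, hai, ham⟩ := cert_A8
  obtain ⟨b, hb0, hbc, hbi, hbm⟩ := cert_PSp hF
  obtain ⟨⟨e⟩, hc1, hc2⟩ := iso_of_tables sigA (spGen hF) 64 (by norm_num) P1.p a b ha0 hb0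
    P1.p_lt hac hbc hai hbi ham hbm
  have hA8 : Nat.card (alternatingGroup (Fin 8)) = 2 ^ 6 * 315 := by
    rw [nat_card_alternatingGroup, Nat.card_eq_fintype_card, Fintype.card_fin]
    decide
  obtain ⟨e1⟩ := sylow_equiv_of_card (Subgroup.closure (Set.range sigA)) 6 315 hc1 hA8
    (by decide) P
  obtain ⟨e2⟩ := sylow_equiv_of_card (Subgroup.closure (Set.range (spGen hF))) 6 405 hc2
    (card_PSp hF) (by decide) Q
  exact ⟨e1.trans (e.trans e2.symm)⟩

end PSpSide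


/-! ### Part 2: `S₈` and `O₆⁻(2)` -/

/-- generators of a Sylow 2-subgroup of `S₈` -/
def tau : Fin 3 → Equiv.Perm (Fin 8) :=
  ![Equiv.swap 0 1, Equiv.swap 0 2 * Equiv.swap 1 3,
    Equiv.swap 0 4 * Equiv.swap 1 5 * Equiv.swap 2 6 * Equiv.swap 3 7]

theorem tau_rep : ∀ i, RepP (P2.gp i) (tau i) := by
  have h : ∀ (i : Fin 3) (x : Fin 8), tau i x = (P2.gp i).get x := by decide
  exact h

theorem cert_S8 : ∃ a : ℕ → Equiv.Perm (Fin 8), a 0 = 1 ∧
    (∀ g, g ∈ Subgroup.closure (Set.range tau) ↔ ∃ k, k < 128 ∧ g = a k) ∧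
    (∀ j k, j < 128 → k < 128 → a j = a k → j = k) ∧
    (∀ k, k < 128 → ∀ i, a k * tau i = a (P2.p i k)) := by
  obtain ⟨a, h0, -, h2, h3, h4⟩ := cayley_cert tau 128 (by norm_num) P2.p
    (fun k g => RepP (P2.uel k) g)
    (by rw [P2.uel_zero]; exact repP_one)
    (fun k hk i g hg => by
      have h := repP_mul hg (tau_rep i)
      rw [P2.uel_mul i k hk] at h
      exact h)
    P2.p_lt P2.par
    (fun k g g' _ h1 h2 => repP_eq h1 h2)
    (fun j k g hj hk h1 h2 => P2.uel_inj j k hj hk (repP_code h1 h2))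
  exact ⟨a, h0, h2, h3, h4⟩

/-- generators in `O₆⁻(2)` -/
def oGen (i : Fin 3) : isometryGroup (ZMod 2) Q6 :=
  ⟨⟨P2.gm i, P2.gm i, P2.gm_sq i, P2.gm_sq i⟩, fun u _ => P2.gm_iso i u⟩

theorem cert_O6 : ∃ b : ℕ → isometryGroup (ZMod 2) Q6, b 0 = 1 ∧
    (∀ g, g ∈ Subgroup.closure (Set.range oGen) ↔ ∃ k, k < 128 ∧ g = b k) ∧
    (∀ j k, j < 128 → k < 128 → b j = b k → j = k) ∧
    (∀ k, k < 128 → ∀ i, b k * oGen i = b (P2.p i k)) := by
  obtain ⟨b, h0, -, h2, h3, h4⟩ := cayley_cert oGen 128 (by norm_num) P2.p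
    (fun k g => ((g : Matrix.GeneralLinearGroup I6 (ZMod 2)) : Matrix I6 I6 (ZMod 2)) = P2.vel k)
    (by rw [P2.vel_zero]; rfl)
    (fun k hk i g hg => by
      show ((g : Matrix.GeneralLinearGroup I6 (ZMod 2)) : Matrix I6 I6 (ZMod 2)) * P2.gm i = _
      rw [hg, P2.vel_mul i k hk])
    P2.p_lt P2.par
    (fun k g g' _ h1 h2 => Subtype.ext (Units.ext (h1.trans h2.symm)))
    (fun j k g hj hk h1 h2 => P2.vel_inj j k hj hk (h1.symm.trans h2))
  exact ⟨b, h0, h2, h3, h4⟩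

section transfer

open scoped Matrix

variable {ι : Type} [Fintype ι] [DecidableEq ι] {F K : Type*} [Field F] [Field K]

/-- `GL` along a ring isomorphism -/
noncomputable def glMap (φ : F ≃+* K) :
    Matrix.GeneralLinearGroup ι F ≃* Matrix.GeneralLinearGroup ι K :=
  Units.mapEquiv (RingEquiv.mapMatrix φ).toMulEquiv

theorem glMap_mulVec (φ : F ≃+* K) (g : Matrix.GeneralLinearGroup ι F) (u : ι → F) :
    ((glMap φ g : Matrix.GeneralLinearGroup ι K) : Matrix ι ι K) *ᵥ (fun j => φ (u j)) =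
      fun i => φ (((g : Matrix ι ι F) *ᵥ u) i) := by
  funext i
  simp [glMap, Matrix.mulVec, dotProduct, map_sum, map_mul]

/-- transfer of isometry groups along a ring isomorphism -/
noncomputable def isoTransfer (φ : F ≃+* K) (Q : (ι → F) → F) (Q' : (ι → K) → K)
    (h : ∀ v : ι → F, Q' (fun i => φ (v i)) = φ (Q v)) :
    isometryGroup F Q ≃* isometryGroup K Q' where
  toFun g := ⟨glMap φ g.1, by
    intro u' _
    have hu : u' = fun i => φ (φ.symm (u' i)) := by funext i; simp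
    change Q' (((glMap φ g.1 : Matrix.GeneralLinearGroup ι K) : Matrix ι ι K) *ᵥ u') = Q' u'
    rw [hu, glMap_mulVec, h, h]
    congr 1
    exact g.2 (fun j => φ.symm (u' j)) (fun j => φ.symm (u' j))⟩
  invFun g' := ⟨(glMap φ).symm g'.1, by
    intro u _
    change Q ((((glMap φ).symm g'.1 : Matrix.GeneralLinearGroup ι F) : Matrix ι ι F) *ᵥ u) = Q u
    apply φ.injective
    rw [← h, ← h, ← glMap_mulVec, MulEquiv.apply_symm_apply]
    exact g'.2 (fun j => φ (u j)) (fun j => φ (u j))⟩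
  left_inv g := Subtype.ext (MulEquiv.symm_apply_apply _ _)
  right_inv g := Subtype.ext (MulEquiv.apply_symm_apply _ _)
  map_mul' g g' := Subtype.ext (map_mul (glMap φ) g.1 g'.1)

end transfer

theorem zmod2_ab : ∀ a b : ZMod 2,
    (∀ z₁ z₂ : ZMod 2, z₁ ^ 2 + a * z₁ * z₂ + b * z₂ ^ 2 = 0 → z₁ = 0 ∧ z₂ = 0) →
      a = 1 ∧ b = 1 := by decide

theorem part2 (K : Type) [Field K] [Fintype K] (hK : Fintype.card K = 2) (a b : K)
    (hab : ∀ z₁ z₂ : K, z₁ ^ 2 + a * z₁ * z₂ + b * z₂ ^ 2 = 0 → z₁ = 0 ∧ z₂ = 0)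
    (P' : Sylow 2 (Equiv.Perm (Fin 8)))
    (Q' : Sylow 2 ↥(Cfsg.isometryGroup K (Cfsg.quadFormMinus 2 K a b))) :
    Nonempty (↥(P' : Subgroup (Equiv.Perm (Fin 8))) ≃*
      ↥(Q' : Subgroup ↥(Cfsg.isometryGroup K (Cfsg.quadFormMinus 2 K a b)))) := by
  classical
  have hcard := Cfsg.Agent.Lib.Helper7.card_GOMinus hK 2 a b hab
  let ψ : ZMod 2 ≃+* K := ZMod.ringEquivOfPrime K (by norm_num) hK
  have hab' : a = 1 ∧ b = 1 := by
    have h := zmod2_ab (ψ.symm a) (ψ.symm b) (by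
      intro z₁ z₂ hz
      have h1 := congrArg ψ hz
      simp only [map_add, map_mul, map_pow, RingEquiv.apply_symm_apply, map_zero] at h1
      have h2 := hab _ _ h1
      exact ⟨by simpa using h2.1, by simpa using h2.2⟩)
    constructor
    · have := congrArg ψ h.1
      simpa using this
    · have := congrArg ψ h.2
      simpa using this
  obtain ⟨rfl, rfl⟩ := hab'
  let e : isometryGroup (ZMod 2) Q6 ≃* isometryGroup K (Cfsg.quadFormMinus 2 K 1 1) :=
    isoTransfer ψ Q6 _ (by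
      intro v
      simp only [Q6, Cfsg.quadFormMinus, map_sum, map_add, map_mul, map_pow, map_one])
  obtain ⟨a, ha0, hac, hai, ham⟩ := cert_S8
  obtain ⟨b, hb0, hbc, hbi, hbm⟩ := cert_O6
  obtain ⟨⟨e0⟩, hc1, hc2⟩ := iso_of_tables tau oGen 128 (by norm_num) P2.p a b ha0 hb0
    P2.p_lt hac hbc hai hbi ham hbm
  let H : Subgroup (isometryGroup K (Cfsg.quadFormMinus 2 K 1 1)) :=
    (Subgroup.closure (Set.range oGen)).map e.toMonoidHom
  let eH : Subgroup.closure (Set.range oGen) ≃* H :=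
    Subgroup.equivMapOfInjective _ _ e.injective
  have hH : Nat.card H = 2 ^ 7 := by
    rw [← Nat.card_congr eH.toEquiv, hc2]
    norm_num
  have hS8 : Nat.card (Equiv.Perm (Fin 8)) = 2 ^ 7 * 315 := by
    rw [Nat.card_eq_fintype_card, Fintype.card_perm, Fintype.card_fin]
    decide
  have hO6 : Nat.card (isometryGroup K (Cfsg.quadFormMinus 2 K 1 1)) = 2 ^ 7 * 405 := by
    rw [hcard]
    decide
  obtain ⟨e1⟩ := sylow_equiv_of_card (Subgroup.closure (Set.range tau)) 7 315 hc1 hS8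
    (by decide) P'
  obtain ⟨e2⟩ := sylow_equiv_of_card H 7 405 hH hO6 (by decide) Q'
  exact ⟨e1.trans (e0.trans (eH.trans e2.symm))⟩

/-- The Sylow 2-subgroups of the alternating group of degree 8 and of PSp₄(3) are isomorphic, and so are the Sylow 2-subgroups of the symmetric group of degree 8 and of the full isometry group of a non-degenerate quadratic form of minus type in dimension 6 over the field with 2 elements. -/
theorem result (F : Type) [Field F] [Fintype F] (hF : Fintype.card F = 3) (K : Type) [Field K] [Fintype K] (hK : Fintype.card K = 2) (a b : K) (hab : ∀ z₁ z₂ : K, z₁ ^ 2 + a * z₁ * z₂ + b * z₂ ^ 2 = 0 → z₁ = 0 ∧ z₂ = 0) (P : Sylow 2 ↥(alternatingGroup (Fin 8))) (Q : Sylow 2 (Cfsg.PSp 2 F)) (P' : Sylow 2 (Equiv.Perm (Fin 8))) (Q' : Sylow 2 ↥(Cfsg.isometryGroup K (Cfsg.quadFormMinus 2 K a b))) : Nonempty (↥(P : Subgroup ↥(alternatingGroup (Fin 8))) ≃* ↥(Q : Subgroup (Cfsg.PSp 2 F))) ∧ Nonempty (↥(P'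 : Subgroup (Equiv.Perm (Fin 8))) ≃* ↥(Q' : Subgroup ↥(Cfsg.isometryGroup K (Cfsg.quadFormMinus 2 K a b)))) := by
  exact ⟨part1 hF P Q, part2 K hK a b hab P' Q'⟩

end Cfsg.Agent.S2931
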