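import Cfsg.Statements.S2939
import Mathlib
import Cfsg.Agent.Lib.Helper58.SylowConj
import Cfsg.Agent.Lib.Helper58.SylowControl

set_option autoImplicit false
open Cfsg

namespace Cfsg.Agent.S2939

open Cfsg.Agent.Lib.Helper58

theorem mem_conjRight {G : Type*} [Group G] {g x : G} {A : Set G} :
    x ∈ conjRight g A ↔ g * x * g⁻¹ ∈ A := by
  unfold conjRight
  constructor
  · rintro ⟨a, ha, rfl⟩
    have : g * (g⁻¹ * a * g) * g⁻¹ = a := by group
    rw [this]; exact ha
  · intro h
    exact ⟨g * x * g⁻¹, h, by group⟩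

theorem ofFn_get_snd {α β : Type*} (L : List (α × β)) :
    List.ofFn (fun i : Fin L.length => (L.get i).2) = L.map Prod.snd := by
  have : (fun i : Fin L.length => (L.get i).2) = Prod.snd ∘ L.get := rfl
  rw [this, ← List.map_ofFn, List.ofFn_get]

theorem forward {G : Type*} [Group G] [Finite G] {p : ℕ} [Fact p.Prime] (𝓕 : Set (Subgroup G))
    (h𝓕 : IsNormalSet 𝓕)
    (S : Sylow p G) (A : Set G) (D : Subgroup G) (hAD : A ⊆ (D : Set G)) (B : Sylow p G)
    (h : Relation.ReflTransGen (SLink p 𝓕 D) S B) :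
    ∃ L : List (Subgroup G × G),
      (∀ q ∈ L, q.1 ∈ sylowMembers p 𝓕 (S : Subgroup G) ∧ q.2 ∈ q.1) ∧
      subgroupConjRight (L.map Prod.snd).prod (B : Subgroup G) = (S : Subgroup G) ∧
      ∀ (i : ℕ) (hi : i < L.length),
        conjRight (((L.map Prod.snd).take (i + 1)).prod) A ⊆ (S : Set G) ∩ ((L[i]).1 : Set G) := by
  induction h with
  | refl => exact ⟨[], by simp, by simp [subgroupConjRight_one], by simp⟩
  | @tail B C _ hBC ih =>
    obtain ⟨L, hL1, hL2, hL3⟩ := ih
    obtain ⟨X, x, hXB, hXC, hxX, hCB, hD⟩ := hBC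
    set u := (L.map Prod.snd).prod with hu
    refine ⟨L ++ [(subgroupConjRight u X, u⁻¹ * x * u)], ?_, ?_, ?_⟩
    · intro q hq
      rw [List.mem_append, List.mem_singleton] at hq
      rcases hq with hq | rfl
      · exact hL1 q hq
      · refine ⟨?_, conj_mem_subgroupConjRight hxX⟩
        have := subgroupConjRight_mem_sylowMembers h𝓕 B.2 u hXB
        rwa [hL2] at this
    · rw [List.map_append, List.prod_append, List.map_singleton, List.prod_singleton, ← hu]
      have : u * (u⁻¹ * x * u) = x * u := by group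
      rw [this, subgroupConjRight_mul, hCB, hL2]
    · intro i hi
      rw [List.length_append, List.length_singleton] at hi
      by_cases hi' : i < L.length
      · have h1 : ((L ++ [(subgroupConjRight u X, u⁻¹ * x * u)]).map Prod.snd).take (i + 1)
            = (L.map Prod.snd).take (i + 1) := by
          rw [List.map_append, List.take_append_of_le_length (by simpa using hi')]
        rw [h1, List.getElem_append_left hi']
        exact hL3 i hi'
      · have hiL : i = L.length := by omega
        subst hiL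
        have h1 : ((L ++ [(subgroupConjRight u X, u⁻¹ * x * u)]).map Prod.snd).take (L.length + 1)
            = L.map Prod.snd ++ [u⁻¹ * x * u] := by
          rw [List.map_append, List.map_singleton, List.take_of_length_le (by simp)]
        have h2 : (L ++ [(subgroupConjRight u X, u⁻¹ * x * u)])[L.length]
            = (subgroupConjRight u X, u⁻¹ * x * u) := by simp
        rw [h1, h2, List.prod_append, List.prod_singleton, ← hu]
        intro z hz
        rw [mem_conjRight] at hz
        have hz' := hD (hAD hz)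
        have e1 : u * (u⁻¹ * x * u) * z * (u * (u⁻¹ * x * u))⁻¹ = x * (u * z * u⁻¹) * x⁻¹ := by
          group
        rw [e1] at hz'
        refine ⟨?_, ?_⟩
        · change z ∈ (S : Subgroup G)
          rw [← hL2, ← hCB, mem_subgroupConjRight, mem_subgroupConjRight]
          exact hz'.1
        · change z ∈ subgroupConjRight u X
          rw [mem_subgroupConjRight]
          have e2 : u * z * u⁻¹ = x⁻¹ * (x * (u * z * u⁻¹) * x⁻¹) * x := by group
          rw [e2]
          exact X.mul_mem (X.mul_mem (X.inv_mem hxX) hz'.2) hxX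

theorem backward_link {G : Type*} [Group G] [Finite G] {p : ℕ} [Fact p.Prime]
    (𝓕 : Set (Subgroup G)) (h𝓕 : IsNormalSet 𝓕)
    (S : Sylow p G) (D : Subgroup G) (v y : G) (Y : Subgroup G)
    (hY : Y ∈ sylowMembers p 𝓕 (S : Subgroup G)) (hy : y ∈ Y)
    (hD : conjRight (v * y) (D : Set G) ⊆ (S : Set G) ∩ (Y : Set G)) :
    SLink p 𝓕 D (v • S) ((v * y) • S) := by
  refine ⟨subgroupConjRight v⁻¹ Y, v * y * v⁻¹, ?_, ?_, ?_, ?_, ?_⟩
  · rw [coe_smul_sylow_eq_subgroupConjRight]
    exact subgroupConjRight_mem_sylowMembers h𝓕 S.2 v⁻¹ hY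
  · rw [coe_smul_sylow_eq_subgroupConjRight, mul_inv_rev, subgroupConjRight_mul]
    have h1 := subgroupConjRight_mem_sylowMembers h𝓕 S.2 y⁻¹ hY
    rw [subgroupConjRight_eq_self_of_mem (Y.inv_mem hy)] at h1
    exact subgroupConjRight_mem_sylowMembers h𝓕 (isPGroup_subgroupConjRight _ S.2) v⁻¹ h1
  · rw [mem_subgroupConjRight]
    have : v⁻¹ * (v * y * v⁻¹) * v⁻¹⁻¹ = y := by group
    rw [this]; exact hy
  · rw [coe_smul_sylow_eq_subgroupConjRight, coe_smul_sylow_eq_subgroupConjRight,
      ← subgroupConjRight_mul]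
    congr 1
    group
  · intro d hd
    have h1 := hD ⟨d, hd, rfl⟩
    refine ⟨mem_smul_sylow_iff.mpr h1.1, ?_⟩
    change d ∈ subgroupConjRight v⁻¹ Y
    rw [mem_subgroupConjRight]
    have h2 : v⁻¹ * d * v⁻¹⁻¹ = y * ((v * y)⁻¹ * d * (v * y)) * y⁻¹ := by group
    rw [h2]
    exact Y.mul_mem (Y.mul_mem hy h1.2) (Y.inv_mem hy)

/-- Let p be a prime dividing the order of the finite group G and 𝓕 a family of subgroups of G closed under conjugation, with conjugates taken as X^g = g⁻¹Xg. Then 𝓕 controls Sylow p-intersections in G (any two distinct Sylow p-subgroups S and T with S ∩ T ≠ 1 are joined by a chain S = S₀, S₁, …, Sₙ = T of Sylow p-subgroups where, for each i, some member Xᵢ of 𝓕 meets both S_{i-1} and Sᵢ in Sylow p-subgroups of Xᵢ, satisfies S ∩ T ≤ Sᵢ ∩ Xᵢ, and contains an element xᵢ with Sᵢ^{xᵢ} = S_{i-1}) if and only if 𝓕 strongly controls p-fusion in G (whenever A is a subset of a Sylow p-subgroup S, A contains an element other than 1, and A^g ⊆ S, the element g factorises as g = y₁⋯yₙy with y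 ∈ N_G(S) and each yᵢ in a member Yᵢ of 𝓕 that meets S in a Sylow p-subgroup of Yᵢ, with A^{y₁⋯yᵢ} ⊆ S ∩ Yᵢ for each i). -/
theorem result {G : Type*} [Group G] [Finite G] {p : ℕ} [Fact p.Prime] (hdiv : p ∣ Nat.card G) (𝓕 : Set (Subgroup G)) (h𝓕 : Cfsg.IsNormalSet 𝓕) : Cfsg.ControlsSylowIntersections p 𝓕 ↔ Cfsg.FamilyStronglyControlsFusion p 𝓕 := by
  constructor
  · intro hc S A g hAS hA1 hAg
    by_cases hT : g • S = S
    · refine ⟨0, Fin.elim0, Fin.elim0, g, ?_, fun i => i.elim0, by simp, fun i => i.elim0⟩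
      exact Sylow.smul_eq_iff_mem_normalizer.mp hT
    · have hAT : A ⊆ ((g • S : Sylow p G) : Set G) := by
        intro a ha
        have := hAg ⟨a, ha, rfl⟩
        exact mem_smul_sylow_iff.mpr this
      have hne : (S : Subgroup G) ⊓ ((g • S : Sylow p G) : Subgroup G) ≠ ⊥ := by
        obtain ⟨a, ha, ha1⟩ := hA1
        intro h
        have : a ∈ (S : Subgroup G) ⊓ ((g • S : Sylow p G) : Subgroup G) := ⟨hAS ha, hAT ha⟩
        rw [h] at this
        exact ha1 (Subgroup.mem_bot.mp this)
      have hchain := (controls_iff.mp hc) S (g • S) (Ne.symm hT) hne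
      obtain ⟨L, hL1, hL2, hL3⟩ :=
        forward 𝓕 h𝓕 S A _ (fun a ha => Subgroup.mem_inf.mpr ⟨hAS ha, hAT ha⟩) _ hchain
      refine ⟨L.length, fun i => (L.get i).1, fun i => (L.get i).2,
        ((L.map Prod.snd).prod)⁻¹ * g, ?_, ?_, ?_, ?_⟩
      · apply mem_normalizer_of_conj_mem
        intro y hy
        rw [← hL2, mem_subgroupConjRight, mem_smul_sylow_iff]
        have e : g⁻¹ * ((L.map Prod.snd).prod * ((L.map Prod.snd).prod⁻¹ * g * y *
            ((L.map Prod.snd).prod⁻¹ * g)⁻¹) * (L.map Prod.snd).prod⁻¹) * g = y := by group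
        rw [e]; exact hy
      · intro i
        exact hL1 _ (List.get_mem L i)
      · rw [ofFn_get_snd]; group
      · intro i
        rw [ofFn_get_snd]
        exact hL3 i.val i.isLt
  · intro hf
    rw [controls_iff]
    intro S T hST hne
    obtain ⟨g, rfl⟩ := MulAction.exists_smul_eq G S T
    set D := (S : Subgroup G) ⊓ ((g • S : Sylow p G) : Subgroup G) with hD
    obtain ⟨a, haD, ha1⟩ : ∃ a ∈ D, a ≠ 1 := by
      by_contra hcon
      apply hne
      rw [Subgroup.eq_bot_iff_forall]
      intro x hx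
      by_contra hx1
      exact hcon ⟨x, hx, hx1⟩
    obtain ⟨n, Y, y, y₀, hy₀, hY, hg, hcond⟩ := hf S (D : Set G) g (fun a ha => ha.1)
      ⟨a, haD, ha1⟩ (by
        rintro _ ⟨d, hd, rfl⟩
        exact mem_smul_sylow_iff.mp hd.2)
    have key : ∀ i : ℕ, i ≤ n →
        Relation.ReflTransGen (SLink p 𝓕 D) S ((((List.ofFn y).take i).prod) • S) := by
      intro i
      induction i with
      | zero =>
        intro _
        simp only [List.take_zero, List.prod_nil, one_smul]
        exact Relation.ReflTransGen.refl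
      | succ i ih =>
        intro hi
        have hi' : i < n := hi
        have hlen : i < (List.ofFn y).length := by simpa using hi'
        have h1 : (List.ofFn y).take (i + 1) = (List.ofFn y).take i ++ [y ⟨i, hi'⟩] := by
          rw [List.take_succ_eq_append_getElem hlen]; simp
        refine Relation.ReflTransGen.tail (ih (by omega)) ?_
        rw [h1, List.prod_append, List.prod_singleton]
        apply backward_link 𝓕 h𝓕 S D _ _ (Y ⟨i, hi'⟩) (hY ⟨i, hi'⟩).1 (hY ⟨i, hi'⟩).2
        have h2 := hcond ⟨i, hi'⟩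
        simp only at h2
        rw [h1, List.prod_append, List.prod_singleton] at h2
        exact h2
    have hfin := key n le_rfl
    rw [List.take_of_length_le (by simp)] at hfin
    have e : (List.ofFn y).prod • S = g • S := by
      rw [hg, mul_smul]
      congr 1
      exact (Sylow.smul_eq_iff_mem_normalizer.mpr hy₀).symm
    rwa [e] at hfin

end Cfsg.Agent.S2939
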