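import Cfsg.Statements.S2940
import Mathlib

set_option autoImplicit false
open Cfsg

namespace Cfsg.Agent.S2940

open scoped Pointwise

theorem mem_smul_sylow {G : Type*} [Group G] {p : ℕ} (P : Sylow p G) (g x : G) :
    x ∈ ((g • P : Sylow p G) : Subgroup G) ↔ g⁻¹ * x * g ∈ (P : Subgroup G) := by
  rw [Sylow.coe_subgroup_smul, Subgroup.mem_pointwise_smul_iff_inv_smul_mem]
  simp [MulAut.smul_def]

theorem mem_conjRight {G : Type*} [Group G] (g : G) (X : Subgroup G) (x : G) :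
    x ∈ Cfsg.subgroupConjRight g X ↔ g * x * g⁻¹ ∈ X := by
  unfold Cfsg.subgroupConjRight
  constructor
  · rintro ⟨y, hy, rfl⟩
    simpa [MulAut.conj_apply, mul_assoc] using hy
  · intro hx
    refine ⟨g * x * g⁻¹, hx, ?_⟩
    simp [mul_assoc]

/-- Let S be a Sylow p-subgroup of the finite group G and G₁, G₂ subgroups containing S with G = G₁G₂. Then for every g ∈ G there is a Sylow p-subgroup U of G with S ∩ S^g ≤ U ≤ G₁ ∩ G₂^g (conjugates taken as X^g = g⁻¹Xg). -/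
theorem result {G : Type*} [Group G] [Finite G] {p : ℕ} [Fact p.Prime] (S : Sylow p G) (G₁ G₂ : Subgroup G) (h1 : (S : Subgroup G) ≤ G₁) (h2 : (S : Subgroup G) ≤ G₂) (hfact : ∀ g : G, ∃ g₁ ∈ G₁, ∃ g₂ ∈ G₂, g = g₁ * g₂) (g : G) : ∃ U : Sylow p G, (S : Subgroup G) ⊓ Cfsg.subgroupConjRight g (S : Subgroup G) ≤ (U : Subgroup G) ∧ (U : Subgroup G) ≤ G₁ ⊓ Cfsg.subgroupConjRight g G₂ := by
  obtain ⟨a, ha, b, hb, hab⟩ := hfact g⁻¹
  have hg : g = b⁻¹ * a⁻¹ := by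
    have : g⁻¹⁻¹ = (a * b)⁻¹ := by rw [hab]
    simpa using this
  set L := G₁ ⊓ Cfsg.subgroupConjRight g G₂ with hL
  have hPL : ((a • S : Sylow p G) : Subgroup G) ≤ L := by
    intro x hx
    rw [mem_smul_sylow] at hx
    refine Subgroup.mem_inf.mpr ⟨?_, ?_⟩
    · have := G₁.mul_mem (G₁.mul_mem ha (h1 hx)) (G₁.inv_mem ha)
      simpa [mul_assoc] using this
    · rw [mem_conjRight, hg]
      have := G₂.mul_mem (G₂.mul_mem (G₂.inv_mem hb) (h2 hx)) hb
      simpa [mul_assoc] using this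
  have hIL : (S : Subgroup G) ⊓ Cfsg.subgroupConjRight g (S : Subgroup G) ≤ L := by
    intro x hx
    obtain ⟨hx1, hx2⟩ := Subgroup.mem_inf.mp hx
    refine Subgroup.mem_inf.mpr ⟨h1 hx1, ?_⟩
    rw [mem_conjRight] at hx2 ⊢
    exact h2 hx2
  have hIp : IsPGroup p ↥(((S : Subgroup G) ⊓ Cfsg.subgroupConjRight g (S : Subgroup G)).subgroupOf L) := by
    have h0 : IsPGroup p ↥((S : Subgroup G) ⊓ Cfsg.subgroupConjRight g (S : Subgroup G)) :=
      S.isPGroup'.to_le inf_le_left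
    exact h0.comap_subtype
  obtain ⟨Q, hQ⟩ := hIp.exists_le_sylow
  obtain ⟨l, hl⟩ := MulAction.exists_smul_eq L ((a • S : Sylow p G).subtype hPL) Q
  rw [Sylow.smul_subtype] at hl
  refine ⟨(l : G) • (a • S : Sylow p G), ?_, ?_⟩
  · intro x hx
    have hxL : x ∈ L := hIL hx
    have hxQ : (⟨x, hxL⟩ : L) ∈ Q := hQ (by simpa [Subgroup.mem_subgroupOf] using hx)
    rw [← hl] at hxQ
    exact Subgroup.mem_subgroupOf.mp hxQ
  · exact Sylow.smul_le hPL l

end Cfsg.Agent.S2940
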