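import Cfsg.Statements.S2941
import Mathlib

set_option autoImplicit false
open Cfsg

namespace Cfsg.Agent.S2941

open scoped commutatorElement

theorem mem_normalizer_of_conj {G : Type*} [Group G] {H : Subgroup G} {g : G}
    (h1 : ∀ k ∈ H, g * k * g⁻¹ ∈ H) (h2 : ∀ k ∈ H, g⁻¹ * k * g ∈ H) :
    g ∈ Subgroup.normalizer (H : Set G) := by
  rw [Subgroup.mem_normalizer_iff]
  intro k
  refine ⟨h1 k, fun hk => ?_⟩
  have := h2 _ hk
  simpa [mul_assoc] using this

theorem conj_mem_of_mem_normalizer {G : Type*} [Group G] {H : Subgroup G} {g : G}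
    (hg : g ∈ Subgroup.normalizer (H : Set G)) {k : G} (hk : k ∈ H) : g * k * g⁻¹ ∈ H :=
  (Subgroup.mem_normalizer_iff.mp hg k).mp hk

theorem conj_mem_of_mem_normalizer' {G : Type*} [Group G] {H : Subgroup G} {g : G}
    (hg : g ∈ Subgroup.normalizer (H : Set G)) {k : G} (hk : k ∈ H) : g⁻¹ * k * g ∈ H := by
  have := conj_mem_of_mem_normalizer (Subgroup.inv_mem _ hg) hk
  simpa using this

/-- the right factor normalizes a commutator subgroup -/
theorem right_le_normalizer_commutator {G : Type*} [Group G] (K J : Subgroup G) :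
    J ≤ Subgroup.normalizer ((⁅K, J⁆ : Subgroup G) : Set G) := by
  have key : ∀ j ∈ J, ∀ x ∈ ⁅K, J⁆, j * x * j⁻¹ ∈ ⁅K, J⁆ := by
    intro j hj x hx
    have hle : ⁅K, J⁆ ≤ (⁅K, J⁆ : Subgroup G).comap (MulAut.conj j).toMonoidHom := by
      rw [Subgroup.commutator_le]
      intro k hk j' hj'
      rw [Subgroup.mem_comap]
      have e : (MulAut.conj j).toMonoidHom ⁅k, j'⁆ = ⁅k, j⁆⁻¹ * ⁅k, j * j'⁆ := by
        simp [MulAut.conj_apply, commutatorElement_def, mul_assoc]
      rw [e]
      exact Subgroup.mul_mem _ (Subgroup.inv_mem _ (Subgroup.commutator_mem_commutator hk hj))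
        (Subgroup.commutator_mem_commutator hk (J.mul_mem hj hj'))
    have := hle hx
    simpa [Subgroup.mem_comap, MulAut.conj_apply] using this
  intro j hj
  refine mem_normalizer_of_conj (key j hj) ?_
  intro k hk
  have := key j⁻¹ (J.inv_mem hj) k hk
  simpa using this


/-- Let G be a finite group of characteristic 2 type in which every 2-local subgroup is solvable and the centralizer of Ω₁(Z(S)) lies in N_G(S) for every Sylow 2-subgroup S, and let T be a nontrivial 2-subgroup and K a J(T)-component (J the Thompson subgroup generated by the elementary abelian 2-subgroups of largest order). If a subgroup Q is normalized by ⟨K, J(T)⟩ and normalizes J(T), then Q normalizes K. -/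
theorem result {G : Type*} [Group G] [Finite G] (hL : Cfsg.IsCharacteristicTwoType G) (hN : ∀ N : Subgroup G, Cfsg.IsTwoLocal N → Group.IsSolvable ↥N)
    (hZ : ∀ S : Sylow 2 G, Subgroup.centralizer (Cfsg.omegaCenterOf (S : Subgroup G) : Set G) ≤ Subgroup.normalizer ((S : Subgroup G) : Set G)) (T : Subgroup G) (hT : IsPGroup 2 ↥T) (hT1 : T ≠ ⊥) (K : Subgroup G) (hK : Cfsg.IsJComponent T K)
    (Q : Subgroup G) (hQ1 : K ⊔ Cfsg.thompsonSubgroupOf 2 T ≤ Subgroup.normalizer (Q : Set G)) (hQ2 : Q ≤ Subgroup.normalizer (Cfsg.thompsonSubgroupOf 2 T : Set G)) :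
    Q ≤ Subgroup.normalizer (K : Set G) := by
  set J := Cfsg.thompsonSubgroupOf 2 T with hJdef
  have hKJ : ⁅K, J⁆ = K := hK.2.1
  have hKodd : Subgroup.closure {g : G | g ∈ K ∧ Odd (orderOf g)} = K := hK.1
  -- J is a 2-group
  have hJT : J ≤ T := by
    rw [hJdef]
    unfold Cfsg.thompsonSubgroupOf
    rintro x ⟨y, -, rfl⟩
    exact y.2
  have hJ2 : IsPGroup 2 ↥J := hT.to_le hJT
  -- J normalizes K
  have hJK : J ≤ Subgroup.normalizer (K : Set G) := by
    have := right_le_normalizer_commutator K J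
    rwa [hKJ] at this
  have hXM : K ⊔ J ≤ Subgroup.normalizer (K : Set G) := sup_le Subgroup.le_normalizer hJK
  -- Q normalizes X = K ⊔ J
  have hQX : ∀ q ∈ Q, ∀ x ∈ K ⊔ J, q * x * q⁻¹ ∈ K ⊔ J := by
    intro q hq x hx
    have hle : K ⊔ J ≤ (K ⊔ J : Subgroup G).comap (MulAut.conj q).toMonoidHom := by
      refine sup_le ?_ ?_
      · have h1 : ⁅K, J⁆ ≤ (K ⊔ J : Subgroup G).comap (MulAut.conj q).toMonoidHom := by
          rw [Subgroup.commutator_le]
          intro k hk j hj
          rw [Subgroup.mem_comap]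
          have hj'' : q * j * q⁻¹ ∈ J := conj_mem_of_mem_normalizer (hQ2 hq) hj
          have hkN : k ∈ Subgroup.normalizer (Q : Set G) := hQ1 (Subgroup.mem_sup_left hk)
          have hq' : k⁻¹ * q * k * q⁻¹ ∈ Q :=
            Q.mul_mem (conj_mem_of_mem_normalizer' hkN hq) (Q.inv_mem hq)
          have hc : ⁅k⁻¹ * q * k * q⁻¹, q * j * q⁻¹⁆ ∈ J := by
            rw [commutatorElement_def]
            exact J.mul_mem (conj_mem_of_mem_normalizer (hQ2 hq') hj'') (J.inv_mem hj'')
          have e : (MulAut.conj q).toMonoidHom ⁅k, j⁆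
              = k * ⁅k⁻¹ * q * k * q⁻¹, q * j * q⁻¹⁆ * k⁻¹ * ⁅k, q * j * q⁻¹⁆ := by
            simp [MulAut.conj_apply, commutatorElement_def, mul_assoc]
          rw [e]
          refine Subgroup.mul_mem _ (Subgroup.mul_mem _ (Subgroup.mul_mem _ ?_ ?_) ?_) ?_
          · exact Subgroup.mem_sup_left hk
          · exact Subgroup.mem_sup_right hc
          · exact Subgroup.mem_sup_left (K.inv_mem hk)
          · have : ⁅k, q * j * q⁻¹⁆ ∈ ⁅K, J⁆ := Subgroup.commutator_mem_commutator hk hj''
            rw [hKJ] at this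
            exact Subgroup.mem_sup_left this
        rwa [hKJ] at h1
      · intro j hj
        rw [Subgroup.mem_comap]
        have := conj_mem_of_mem_normalizer (hQ2 hq) hj
        exact Subgroup.mem_sup_right (by simpa [MulAut.conj_apply] using this)
    have := hle hx
    simpa [Subgroup.mem_comap, MulAut.conj_apply] using this
  -- odd-order elements of K ⊔ J lie in K
  have hoddK : ∀ x ∈ K ⊔ J, Odd (orderOf x) → x ∈ K := by
    intro x hx hodd
    set M := Subgroup.normalizer (K : Set G) with hM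
    have : (K.subgroupOf M).Normal := Subgroup.normal_in_normalizer
    have hmem : (⟨x, hXM hx⟩ : M) ∈ (K ⊔ J).subgroupOf M := by
      rw [Subgroup.mem_subgroupOf]; exact hx
    rw [Subgroup.subgroupOf_sup Subgroup.le_normalizer hJK] at hmem
    have hmap : (QuotientGroup.mk' (K.subgroupOf M)) ⟨x, hXM hx⟩ ∈
        (J.subgroupOf M).map (QuotientGroup.mk' (K.subgroupOf M)) := by
      have h1 := Subgroup.mem_map_of_mem (QuotientGroup.mk' (K.subgroupOf M)) hmem
      rw [Subgroup.map_sup, QuotientGroup.map_mk'_self, bot_sup_eq] at h1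
      exact h1
    have hJM2 : IsPGroup 2 ↥(J.subgroupOf M) := hJ2.comap_subtype
    have hmap2 : IsPGroup 2 ↥((J.subgroupOf M).map (QuotientGroup.mk' (K.subgroupOf M))) :=
      hJM2.map _
    obtain ⟨n, hn⟩ := hmap2 ⟨_, hmap⟩
    have hn' : ((QuotientGroup.mk' (K.subgroupOf M)) ⟨x, hXM hx⟩) ^ (2 ^ n) = 1 := by
      have := congrArg Subtype.val hn
      simpa using this
    have hord : ((QuotientGroup.mk' (K.subgroupOf M)) ⟨x, hXM hx⟩) ^ (orderOf x) = 1 := by
      rw [← map_pow]
      have : (⟨x, hXM hx⟩ : M) ^ orderOf x = 1 := by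
        ext; simp [pow_orderOf_eq_one]
      rw [this, map_one]
    have hcop : Nat.Coprime (2 ^ n) (orderOf x) :=
      Nat.Coprime.pow_left n (Nat.coprime_two_left.mpr hodd)
    have hone : (QuotientGroup.mk' (K.subgroupOf M)) ⟨x, hXM hx⟩ = 1 := by
      have h1 := orderOf_dvd_of_pow_eq_one hn'
      have h2 := orderOf_dvd_of_pow_eq_one hord
      have := Nat.eq_one_of_dvd_coprimes hcop h1 h2
      exact orderOf_eq_one_iff.mp this
    have : (⟨x, hXM hx⟩ : M) ∈ K.subgroupOf M := by
      rwa [QuotientGroup.mk'_apply, QuotientGroup.eq_one_iff] at hone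
    exact Subgroup.mem_subgroupOf.mp this
  -- conclusion
  have key : ∀ q ∈ Q, ∀ k ∈ K, q * k * q⁻¹ ∈ K := by
    intro q hq k hk
    have hle : Subgroup.closure {g : G | g ∈ K ∧ Odd (orderOf g)} ≤
        K.comap (MulAut.conj q).toMonoidHom := by
      rw [Subgroup.closure_le]
      rintro g ⟨hgK, hgodd⟩
      show (MulAut.conj q).toMonoidHom g ∈ K
      have h1 : q * g * q⁻¹ ∈ K ⊔ J := hQX q hq g (Subgroup.mem_sup_left hgK)
      have h2 : Odd (orderOf (q * g * q⁻¹)) := by
        have e : orderOf (q * g * q⁻¹) = orderOf g := by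
          have := MulEquiv.orderOf_eq (MulAut.conj q) g
          simpa [MulAut.conj_apply] using this
        rw [e]
        exact hgodd
      have := hoddK _ h1 h2
      simpa [MulAut.conj_apply] using this
    rw [hKodd] at hle
    have := hle hk
    simpa [Subgroup.mem_comap, MulAut.conj_apply] using this
  intro q hq
  refine mem_normalizer_of_conj (key q hq) ?_
  intro k hk
  have := key q⁻¹ (Q.inv_mem hq) k hk
  simpa using this

end Cfsg.Agent.S2941
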