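import Cfsg.Statements.S2946
import Cfsg.Agent.S2941
import Cfsg.Agent.Lib.Helper78.JcDefs
import Cfsg.Agent.Lib.Helper37.JcSY
import Cfsg.Agent.Lib.Helper49.JcFG
import Cfsg.Agent.Lib.Helper75.JcWF
import Cfsg.Agent.Lib.Helper82.JcOCPC
import Cfsg.Agent.Lib.Helper88.JcK3
import Cfsg.Agent.Lib.Helper94.JcTH
import Cfsg.Agent.Lib.Helper57.JcBCOF

set_option autoImplicit false
open Cfsg

namespace Cfsg.Agent.S2946

open scoped commutatorElement

open Cfsg.Agent.Lib.Helper78.Jc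
open Cfsg.Agent.Lib.Helper37.Jc (sy)
open Cfsg.Agent.Lib.Helper49.Jc (fg)
open Cfsg.Agent.Lib.Helper75.Jc (wf_le wf_normalizer wf_fpf)
open Cfsg.Agent.Lib.Helper82.Jc (oc_le oc_comm oc_sq oc_mem oc_normalizer pc_le pc_pgroup pc_normalizer pc_two_le)
open Cfsg.Agent.Lib.Helper88.Jc (k3_exists k3_cases)
open Cfsg.Agent.Lib.Helper94.Jc (th_exists th_le th_le_self th_exists_not_le maxEA_conj th_normal th_central)
open Cfsg.Agent.Lib.Helper57.Jc (bc off)

open Cfsg.Agent.S2941 (mem_normalizer_of_conj conj_mem_of_mem_normalizer conj_mem_of_mem_normalizer'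
  right_le_normalizer_commutator)

theorem jc_conj_centralizer {G : Type*} [Group G] {W : Subgroup G} {x c : G}
    (hx : x ∈ Subgroup.normalizer (W : Set G)) (hc : c ∈ Subgroup.centralizer (W : Set G)) :
    x * c * x⁻¹ ∈ Subgroup.centralizer (W : Set G) := by
  rw [Subgroup.mem_centralizer_iff] at hc ⊢
  intro w hw
  have h := hc (x⁻¹ * w * x) (conj_mem_of_mem_normalizer' hx hw)
  calc w * (x * c * x⁻¹) = x * ((x⁻¹ * w * x) * c) * x⁻¹ := by group
    _ = x * (c * (x⁻¹ * w * x)) * x⁻¹ := by rw [h]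
    _ = x * c * x⁻¹ * w := by group

theorem jc_main {G : Type*} [Group G] [Finite G] (T : Subgroup G) (hT : IsPGroup 2 ↥T)
    (K : Subgroup G) (hK : Cfsg.IsJComponent T K) :
    Nat.card ↥(Cfsg.omegaCenterOf (Cfsg.thompsonSubgroupOf 2 T) ⊓ Cfsg.wOf K) = 2 ∧
      (Cfsg.omegaCenterOf (Cfsg.thompsonSubgroupOf 2 T) ⊓
          ((K ⊔ Cfsg.thompsonSubgroupOf 2 T) ⊓
            Subgroup.centralizer ((K ⊔ Cfsg.thompsonSubgroupOf 2 T : Subgroup G) : Set G))) ⊔
        (Cfsg.omegaCenterOf (Cfsg.thompsonSubgroupOf 2 T) ⊓ Cfsg.wOf K) =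
        Cfsg.omegaCenterOf (Cfsg.thompsonSubgroupOf 2 T) := by
  obtain ⟨hodd, hKJ, h3, hSyl, hW4, hW2⟩ := hK
  have hWdef : Cfsg.wOf K = ⁅Cfsg.omegaCenterOf (Cfsg.pCoreOf 2 K), K⁆ := rfl
  set J := Cfsg.thompsonSubgroupOf 2 T with hJdef
  set Q := Cfsg.pCoreOf 2 K with hQdef
  set V := Cfsg.omegaCenterOf Q with hVdef
  set W := Cfsg.wOf K with hW
  have hJT : J ≤ T := th_le_self T
  have hJ2 : IsPGroup 2 ↥J := hT.to_le hJT
  have hJK : J ≤ Subgroup.normalizer (K : Set G) := by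
    have := right_le_normalizer_commutator K J
    rwa [hKJ] at this
  have hQK : Q ≤ K := pc_le K
  have hQ2 : IsPGroup 2 ↥Q := pc_pgroup K
  have hNKQ : Subgroup.normalizer (K : Set G) ≤ Subgroup.normalizer (Q : Set G) := pc_normalizer K
  have hKQ : K ≤ Subgroup.normalizer (Q : Set G) := Subgroup.le_normalizer.trans hNKQ
  have hJQ : J ≤ Subgroup.normalizer (Q : Set G) := hJK.trans hNKQ
  have hKJQ : K ⊓ J ≤ Q := pc_two_le K h3 (K ⊓ J) inf_le_left (hJ2.to_le inf_le_right)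
  set S := Q ⊔ J with hSdef
  have hS : Cfsg.IsSylowTwoIn S (K ⊔ J) := sy K J Q hJK hQK hKQ hJQ hQ2 hJ2 h3 hKJQ
  have hJS : J ≤ S := le_sup_right
  have hQS : Q ≤ S := le_sup_left
  have hJeq : Cfsg.thompsonSubgroupOf 2 S = J := hSyl S hS hJS
  have hS2 : IsPGroup 2 ↥S := hS.2.1
  have hSJ : S ≤ Subgroup.normalizer (J : Set G) := by
    have := th_normal S
    rwa [hJeq] at this
  have hSK : S ≤ Subgroup.normalizer (K : Set G) :=
    sup_le (hQK.trans Subgroup.le_normalizer) hJK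
  obtain ⟨k, hkK, hkQ, hk3⟩ := k3_exists K Q hQK hKQ hQ2 h3 hodd
  have hcases := k3_cases K Q hQK hKQ h3
  -- V and W
  have hNQV : Subgroup.normalizer (Q : Set G) ≤ Subgroup.normalizer (V : Set G) := oc_normalizer Q
  have hKV : K ≤ Subgroup.normalizer (V : Set G) := hKQ.trans hNQV
  have hWV : W ≤ V := wf_le V K hKV
  have hWQ : W ≤ Q := hWV.trans (oc_le Q)
  have hWS : W ≤ S := hWQ.trans hQS
  have hQW : ∀ q ∈ Q, ∀ w ∈ W, q * w = w * q :=
    fun q hq w hw => (oc_comm Q w (hWV hw) q hq).symm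
  have hNKW : Subgroup.normalizer (K : Set G) ≤ Subgroup.normalizer (W : Set G) :=
    fun g hg => wf_normalizer V K g (hNQV (hNKQ hg)) hg
  have hKW : K ≤ Subgroup.normalizer (W : Set G) := Subgroup.le_normalizer.trans hNKW
  have hSW : S ≤ Subgroup.normalizer (W : Set G) := hSK.trans hNKW
  have hVab : ∀ a ∈ V, ∀ b ∈ V, a * b = b * a := fun a ha b hb => oc_comm Q a ha b (oc_le Q hb)
  have hnorm := wf_fpf V K Q k hVab (fun q hq v hv => (oc_comm Q v hv q hq).symm) hKV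
    (hcases k hkK hkQ) hkK hk3
  have hfpf : ∀ w ∈ W, k * w * k⁻¹ = w → w = 1 := by
    intro w hw h
    have h' : k⁻¹ * w * k = w := by
      calc k⁻¹ * w * k = k⁻¹ * (k * w * k⁻¹) * k := by rw [h]
        _ = w := by group
    have h1 := hnorm w hw
    rw [h, h', hW2 w hw, one_mul] at h1
    exact h1
  obtain ⟨w₀, hw₀W, hw₀1, hw₀S, hdich, hidx⟩ := fg W S hW4 hW2 hS2 hSW
  have hk_ne : k * w₀ * k⁻¹ ≠ w₀ := fun h => hw₀1 (hfpf w₀ hw₀W h)
  -- elements of K centralizing W lie in Q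
  have kcw : ∀ x ∈ K, x ∈ Subgroup.centralizer (W : Set G) → x ∈ Q := by
    intro x hx hc
    rw [Subgroup.mem_centralizer_iff] at hc
    obtain ⟨q, hq, rfl | rfl | rfl⟩ := hcases k hkK hkQ x hx
    · exact hq
    · exfalso
      have h1 := hc w₀ hw₀W
      have h2 := hQW q hq w₀ hw₀W
      apply hk_ne
      have h3 : w₀ * k = k * w₀ := by
        have : w₀ * k * q = k * w₀ * q := by
          calc w₀ * k * q = w₀ * (k * q) := by group
            _ = k * q * w₀ := h1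
            _ = k * (q * w₀) := by group
            _ = k * (w₀ * q) := by rw [h2]
            _ = k * w₀ * q := by group
        exact mul_right_cancel this
      rw [← h3]; group
    · exfalso
      have h1 := hc w₀ hw₀W
      have h2 := hQW q hq w₀ hw₀W
      apply hk_ne
      have h3 : w₀ * k⁻¹ = k⁻¹ * w₀ := by
        have : w₀ * k⁻¹ * q = k⁻¹ * w₀ * q := by
          calc w₀ * k⁻¹ * q = w₀ * (k⁻¹ * q) := by group
            _ = k⁻¹ * q * w₀ := h1
            _ = k⁻¹ * (q * w₀) := by group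
            _ = k⁻¹ * (w₀ * q) := by rw [h2]
            _ = k⁻¹ * w₀ * q := by group
        exact mul_right_cancel this
      rw [mul_assoc, h3]; group
  -- J does not centralize W
  have hJnc : ¬ J ≤ Subgroup.centralizer (W : Set G) := by
    intro hJC
    have hle : ⁅K, J⁆ ≤ Q := by
      rw [Subgroup.commutator_le]
      intro x hx j hj
      have hconjK : j * x⁻¹ * j⁻¹ ∈ K := conj_mem_of_mem_normalizer (hJK hj) (K.inv_mem hx)
      have e : ⁅x, j⁆ = x * (j * x⁻¹ * j⁻¹) := by rw [commutatorElement_def]; group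
      have e' : ⁅x, j⁆ = (x * j * x⁻¹) * j⁻¹ := by rw [commutatorElement_def]
      apply kcw
      · rw [e]; exact K.mul_mem hx hconjK
      · rw [e']
        exact Subgroup.mul_mem _ (jc_conj_centralizer (hKW hx) (hJC hj))
          (Subgroup.inv_mem _ (hJC hj))
    rw [hKJ] at hle
    exact hkQ (hle hkK)
  obtain ⟨A, hA, hAC⟩ := th_exists_not_le S (Subgroup.centralizer (W : Set G))
    (by rw [hJeq]; exact hJnc)
  have hAS : A ≤ S := hA.1
  have hmaxJ : ∀ A' : Subgroup G, IsMaxEA S A' → A' ≤ J := by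
    intro A' hA'
    have := th_le S A' hA'
    rwa [hJeq] at this
  have hAJ : A ≤ J := hmaxJ A hA
  obtain ⟨a, haA, haC⟩ : ∃ a ∈ A, a ∉ Subgroup.centralizer (W : Set G) :=
    SetLike.not_le_iff_exists.mp hAC
  have ha : ∀ w ∈ W, a * w = w * a → w = 1 ∨ w = w₀ := by
    rcases hdich a (hAS haA) with h | h
    · exact absurd (Subgroup.mem_centralizer_iff.mpr (fun w hw => (h w hw).symm)) haC
    · exact h
  set Z₀ := Cfsg.omegaCenterOf J with hZ₀
  have hw₀A : w₀ ∈ A := th_central S A hA w₀ (hWS hw₀W)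
    (fun x hx => (hw₀S x (hAS hx)).symm) (hW2 w₀ hw₀W)
  have hw₀J : w₀ ∈ J := hAJ hw₀A
  have hw₀Z : w₀ ∈ Z₀ := oc_mem J w₀ hw₀J (fun x hx => (hw₀S x (hJS hx)).symm) (hW2 w₀ hw₀W)
  have hZ₀A : ∀ A' : Subgroup G, IsMaxEA S A' → Z₀ ≤ A' := fun A' hA' z hz =>
    th_central S A' hA' z (hJS (oc_le J hz)) (fun x hx => oc_comm J z hz x (hmaxJ A' hA' hx))
      (oc_sq J z hz)
  have hZW : ∀ z, z ∈ Z₀ ⊓ W ↔ z = 1 ∨ z = w₀ := by
    intro z
    constructor
    · rintro ⟨hz, hw⟩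
      exact ha z hw (oc_comm J z hz a (hAJ haA)).symm
    · rintro (rfl | rfl)
      · exact Subgroup.one_mem _
      · exact ⟨hw₀Z, hw₀W⟩
  have hcard : Nat.card ↥(Z₀ ⊓ W) = 2 := by
    rw [Nat.card_eq_two_iff]
    refine ⟨⟨1, Subgroup.one_mem _⟩, ⟨w₀, (hZW w₀).mpr (Or.inr rfl)⟩, ?_, ?_⟩
    · intro h
      exact hw₀1 (congrArg Subtype.val h).symm
    · ext ⟨z, hz⟩
      simp only [Set.mem_insert_iff, Set.mem_singleton_iff, Set.mem_univ, iff_true, Subtype.mk.injEq]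
      exact (hZW z).mp hz
  -- the replacement B
  obtain ⟨B, hB, hWB, hA₀B⟩ := bc S W A w₀ hWS hW4 hW2 hA a haA ha
    (fun s hs s' hs' => hidx s (hAS hs) s' (hAS hs'))
  have hBC : B ≤ S ⊓ Subgroup.centralizer (W : Set G) := fun b hb =>
    ⟨hB.1 hb, Subgroup.mem_centralizer_iff.mpr (fun w hw => hB.2.1 w (hWB hw) b hb)⟩
  -- C = S ⊓ C(W) is normalized by K
  have hCK : ∀ x ∈ K, ∀ c ∈ S ⊓ Subgroup.centralizer (W : Set G),
      x * c * x⁻¹ ∈ S ⊓ Subgroup.centralizer (W : Set G) := by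
    rintro x hx c ⟨hcS, hcW⟩
    have hconjW : x * c * x⁻¹ ∈ Subgroup.centralizer (W : Set G) :=
      jc_conj_centralizer (hKW hx) hcW
    have hcomK : x * c * x⁻¹ * c⁻¹ ∈ K := by
      have h1 : c * x⁻¹ * c⁻¹ ∈ K := conj_mem_of_mem_normalizer (hSK hcS) (K.inv_mem hx)
      have e : x * c * x⁻¹ * c⁻¹ = x * (c * x⁻¹ * c⁻¹) := by group
      rw [e]; exact K.mul_mem hx h1
    have hcomQ : x * c * x⁻¹ * c⁻¹ ∈ Q :=
      kcw _ hcomK (Subgroup.mul_mem _ hconjW (Subgroup.inv_mem _ hcW))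
    refine ⟨?_, hconjW⟩
    have e : x * c * x⁻¹ = (x * c * x⁻¹ * c⁻¹) * c := by group
    rw [e]; exact S.mul_mem (hQS hcomQ) hcS
  have hkBJ : ∀ b ∈ B, k * b * k⁻¹ ∈ J := by
    intro b hb
    have h1 := maxEA_conj S B hB k (fun x hx => (hCK k hkK x (hBC hx)).1)
    exact hmaxJ _ h1 ⟨b, hb, by simp [MulAut.conj_apply]⟩
  set A₀ := A ⊓ Subgroup.centralizer (W : Set G) with hA₀
  set Y := Z₀.comap (MulAut.conj k).toMonoidHom with hY
  have hYmem : ∀ y, y ∈ Y ↔ k * y * k⁻¹ ∈ Z₀ := fun y => by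
    simp [hY, Subgroup.mem_comap, MulAut.conj_apply]
  have hYS : Y ≤ S := by
    intro y hy
    have h1 : k * y * k⁻¹ ∈ S ⊓ Subgroup.centralizer (W : Set G) :=
      hBC (hZ₀A B hB ((hYmem y).mp hy))
    have h2 := hCK k⁻¹ (K.inv_mem hkK) _ h1
    have e : k⁻¹ * (k * y * k⁻¹) * k⁻¹⁻¹ = y := by group
    rw [e] at h2
    exact h2.1
  have econj : ∀ u v : G, k * u * k⁻¹ * (k * v * k⁻¹) = k * (u * v) * k⁻¹ := by
    intro u v; group
  have hYab : ∀ y ∈ Y, ∀ y' ∈ Y, y * y' = y' * y := by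
    intro y hy y' hy'
    have h := oc_comm J _ ((hYmem y).mp hy) _ (oc_le J ((hYmem y').mp hy'))
    rw [econj, econj] at h
    exact mul_left_cancel (mul_right_cancel h)
  have hY2 : ∀ y ∈ Y, y * y = 1 := by
    intro y hy
    have h := oc_sq J _ ((hYmem y).mp hy)
    rw [econj] at h
    have h' : y * y = k⁻¹ * (k * (y * y) * k⁻¹) * k := by group
    rw [h', h]; group
  have hcent : ∀ x ∈ A₀, ∀ y ∈ Y, x * y = y * x := by
    intro x hx y hy
    have h1 : k * x * k⁻¹ ∈ J := hkBJ x (hA₀B hx)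
    have h := oc_comm J _ ((hYmem y).mp hy) _ h1
    rw [econj, econj] at h
    exact (mul_left_cancel (mul_right_cancel h)).symm
  have hidxA : ∀ b ∈ A, ∀ b' ∈ A, b ∉ A₀ → b' ∉ A₀ → b * b' ∈ A₀ := by
    intro b hb b' hb' hn hn'
    refine ⟨A.mul_mem hb hb', ?_⟩
    show b * b' ∈ Subgroup.centralizer (W : Set G)
    rw [Subgroup.mem_centralizer_iff]
    intro w hw
    refine (hidx b (hAS hb) b' (hAS hb') ?_ ?_ w hw).symm
    · intro h
      exact hn ⟨hb, Subgroup.mem_centralizer_iff.mpr (fun w hw => (h w hw).symm)⟩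
    · intro h
      exact hn' ⟨hb', Subgroup.mem_centralizer_iff.mpr (fun w hw => (h w hw).symm)⟩
  have hoff := off S A A₀ Y hA inf_le_left hidxA hYS hYab hY2 hcent
  -- a' = k a k⁻¹
  have hP1 : ∀ z ∈ Z₀, k⁻¹ * z * k ∈ A₀ → z * (k * a * k⁻¹) = (k * a * k⁻¹) * z := by
    intro z hz h
    have h1 := hA.2.1 _ h.1 a haA
    calc z * (k * a * k⁻¹) = k * ((k⁻¹ * z * k) * a) * k⁻¹ := by group
      _ = k * (a * (k⁻¹ * z * k)) * k⁻¹ := by rw [h1]
      _ = (k * a * k⁻¹) * z := by group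
  have hYz : ∀ z ∈ Z₀, k⁻¹ * z * k ∈ Y := by
    intro z hz
    rw [hYmem]
    have e : k * (k⁻¹ * z * k) * k⁻¹ = z := by group
    rw [e]; exact hz
  have hP2 : ∀ z ∈ Z₀, ∀ z' ∈ Z₀, ¬ (z * (k * a * k⁻¹) = (k * a * k⁻¹) * z) →
      ¬ (z' * (k * a * k⁻¹) = (k * a * k⁻¹) * z') →
      (z * z') * (k * a * k⁻¹) = (k * a * k⁻¹) * (z * z') := by
    intro z hz z' hz' hn hn'
    have h1 : k⁻¹ * z * k ∉ A₀ := fun h => hn (hP1 z hz h)
    have h2 : k⁻¹ * z' * k ∉ A₀ := fun h => hn' (hP1 z' hz' h)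
    have h3 := hoff _ (hYz z hz) _ (hYz z' hz') h1 h2
    have e : k⁻¹ * z * k * (k⁻¹ * z' * k) = k⁻¹ * (z * z') * k := by group
    rw [e] at h3
    exact hP1 (z * z') (Z₀.mul_mem hz hz') h3
  -- w₀ does not commute with a'
  have hw₀a' : ¬ (w₀ * (k * a * k⁻¹) = (k * a * k⁻¹) * w₀) := by
    intro h
    have h3 : a * (k⁻¹ * w₀ * k) = (k⁻¹ * w₀ * k) * a := by
      calc a * (k⁻¹ * w₀ * k) = k⁻¹ * ((k * a * k⁻¹) * w₀) * k := by group
        _ = k⁻¹ * (w₀ * (k * a * k⁻¹)) * k := by rw [h]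
        _ = (k⁻¹ * w₀ * k) * a := by group
    have hmem : k⁻¹ * w₀ * k ∈ W := conj_mem_of_mem_normalizer' (hKW hkK) hw₀W
    rcases ha _ hmem h3 with h4 | h4
    · apply hw₀1
      have e : w₀ = k * (k⁻¹ * w₀ * k) * k⁻¹ := by group
      rw [e, h4]; group
    · apply hk_ne
      calc k * w₀ * k⁻¹ = k * (k⁻¹ * w₀ * k) * k⁻¹ := by rw [h4]
        _ = w₀ := by group
  -- commuting with a' forces centrality in K ⊔ J
  have hcen : ∀ z ∈ Z₀, z * (k * a * k⁻¹) = (k * a * k⁻¹) * z →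
      z ∈ Subgroup.centralizer ((K ⊔ J : Subgroup G) : Set G) := by
    intro z hz hza'
    have hjz : ∀ j ∈ J, j ∈ Subgroup.centralizer ({z} : Set G) := fun j hj =>
      Subgroup.mem_centralizer_iff.mpr (by
        intro y hy
        rw [Set.mem_singleton_iff] at hy
        rw [hy]; exact oc_comm J z hz j hj)
    have haz : a ∈ Subgroup.centralizer ({z} : Set G) := hjz a (hAJ haA)
    have ha'z : k * a * k⁻¹ ∈ Subgroup.centralizer ({z} : Set G) :=
      Subgroup.mem_centralizer_iff.mpr (by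
        intro y hy
        rw [Set.mem_singleton_iff] at hy
        rw [hy]; exact hza')
    set h := (k * a * k⁻¹) * a⁻¹ with hh
    have hhz : h ∈ Subgroup.centralizer ({z} : Set G) :=
      Subgroup.mul_mem _ ha'z (Subgroup.inv_mem _ haz)
    have hhK : h ∈ K := by
      have e : h = k * (a * k⁻¹ * a⁻¹) := by rw [hh]; group
      rw [e]
      exact K.mul_mem hkK (conj_mem_of_mem_normalizer (hJK (hAJ haA)) (K.inv_mem hkK))
    have hhQ : h ∉ Q := by
      intro hq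
      have h1 := hQW h hq w₀ hw₀W
      have ea' : k * a * k⁻¹ = h * a := by rw [hh]; group
      apply hw₀a'
      rw [ea']
      calc w₀ * (h * a) = (w₀ * h) * a := by group
        _ = (h * w₀) * a := by rw [h1]
        _ = h * (w₀ * a) := by group
        _ = h * (a * w₀) := by rw [hw₀S a (hAS haA)]
        _ = h * a * w₀ := by group
    have hKz : K ≤ Subgroup.centralizer ({z} : Set G) := by
      rw [← hKJ, Subgroup.commutator_le]
      intro x hx j hj
      have hqj : ∀ q ∈ Q, q * j * q⁻¹ ∈ J := fun q hq =>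
        conj_mem_of_mem_normalizer (hSJ (hQS hq)) hj
      rw [commutatorElement_def]
      obtain ⟨q, hq, hxq | hxq | hxq⟩ := hcases h hhK hhQ x hx <;> rw [hxq]
      · exact Subgroup.mul_mem _ (hjz _ (hqj q hq)) (Subgroup.inv_mem _ (hjz j hj))
      · have e : h * q * j * (h * q)⁻¹ * j⁻¹ = h * (q * j * q⁻¹) * h⁻¹ * j⁻¹ := by group
        rw [e]
        exact Subgroup.mul_mem _ (Subgroup.mul_mem _ (Subgroup.mul_mem _ hhz (hjz _ (hqj q hq)))
          (Subgroup.inv_mem _ hhz)) (Subgroup.inv_mem _ (hjz j hj))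
      · have e : h⁻¹ * q * j * (h⁻¹ * q)⁻¹ * j⁻¹ = h⁻¹ * (q * j * q⁻¹) * h * j⁻¹ := by group
        rw [e]
        exact Subgroup.mul_mem _ (Subgroup.mul_mem _ (Subgroup.mul_mem _ (Subgroup.inv_mem _ hhz)
          (hjz _ (hqj q hq))) hhz) (Subgroup.inv_mem _ (hjz j hj))
    have hle : K ⊔ J ≤ Subgroup.centralizer ({z} : Set G) := sup_le hKz (fun j hj => hjz j hj)
    rw [Subgroup.mem_centralizer_iff]
    intro x hx
    have := Subgroup.mem_centralizer_iff.mp (hle hx) z rfl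
    exact this.symm
  refine ⟨hcard, le_antisymm (sup_le inf_le_left inf_le_left) ?_⟩
  intro z hz
  by_cases hza' : z * (k * a * k⁻¹) = (k * a * k⁻¹) * z
  · exact Subgroup.mem_sup_left ⟨hz, ⟨Subgroup.mem_sup_right (oc_le J hz), hcen z hz hza'⟩⟩
  · have hzw : z * w₀ ∈ Z₀ := Z₀.mul_mem hz hw₀Z
    have h1 := hP2 z hz w₀ hw₀Z hza' hw₀a'
    have h2 : z = (z * w₀) * w₀ := by rw [mul_assoc, hW2 w₀ hw₀W, mul_one]
    rw [h2]
    exact Subgroup.mul_mem _
      (Subgroup.mem_sup_left ⟨hzw, ⟨Subgroup.mem_sup_right (oc_le J hzw), hcen _ hzw h1⟩⟩)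
      (Subgroup.mem_sup_right ⟨hw₀Z, hw₀W⟩)


/-- Let G be a finite group of characteristic 2 type in which every 2-local subgroup is solvable and the centralizer of Ω₁(Z(S)) lies in N_G(S) for every Sylow 2-subgroup S, and let T be a nontrivial 2-subgroup (below, J is the Thompson subgroup generated by the elementary abelian 2-subgroups of largest order), K a J(T)-component and Z₀ = Ω₁(Z(J(T))). Then Z₀ meets W_K = [Ω₁(Z(O₂(K))), K] in a subgroup of order 2, and Z₀ is the product of Z₀ ∩ Z(⟨K, J(T)⟩) and Z₀ ∩ W_K. -/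
theorem result {G : Type*} [Group G] [Finite G] (hL : Cfsg.IsCharacteristicTwoType G) (hN : ∀ N : Subgroup G, Cfsg.IsTwoLocal N → Group.IsSolvable ↥N)
    (hZ : ∀ S : Sylow 2 G, Subgroup.centralizer (Cfsg.omegaCenterOf (S : Subgroup G) : Set G) ≤ Subgroup.normalizer ((S : Subgroup G) : Set G)) (T : Subgroup G) (hT : IsPGroup 2 ↥T) (hT1 : T ≠ ⊥) (K : Subgroup G) (hK : Cfsg.IsJComponent T K)
    (Z₀ : Subgroup G) (hZ₀ : Z₀ = Cfsg.omegaCenterOf (Cfsg.thompsonSubgroupOf 2 T)) :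
    Nat.card ↥(Z₀ ⊓ Cfsg.wOf K) = 2 ∧
      (Z₀ ⊓ ((K ⊔ Cfsg.thompsonSubgroupOf 2 T) ⊓ Subgroup.centralizer ((K ⊔ Cfsg.thompsonSubgroupOf 2 T) : Set G))) ⊔ (Z₀ ⊓ Cfsg.wOf K) = Z₀ := by
  subst hZ₀
  have key := jc_main T hT K hK
  have e : Subgroup.centralizer ((K : Set G) ⊔ (Cfsg.thompsonSubgroupOf 2 T : Set G)) =
      Subgroup.centralizer ((K ⊔ Cfsg.thompsonSubgroupOf 2 T : Subgroup G) : Set G) := by
    apply le_antisymm
    · intro z hz
      rw [Subgroup.mem_centralizer_iff] at hz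
      have hle : K ⊔ Cfsg.thompsonSubgroupOf 2 T ≤ Subgroup.centralizer ({z} : Set G) := by
        refine sup_le ?_ ?_
        · intro y hy
          rw [Subgroup.mem_centralizer_iff]
          intro w hw
          rw [Set.mem_singleton_iff] at hw
          rw [hw]
          exact (hz y (Or.inl hy)).symm
        · intro y hy
          rw [Subgroup.mem_centralizer_iff]
          intro w hw
          rw [Set.mem_singleton_iff] at hw
          rw [hw]
          exact (hz y (Or.inr hy)).symm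
      rw [Subgroup.mem_centralizer_iff]
      intro x hx
      exact (Subgroup.mem_centralizer_iff.mp (hle hx) z rfl).symm
    · apply Subgroup.centralizer_le
      rintro x (hx | hx)
      · exact Subgroup.mem_sup_left hx
      · exact Subgroup.mem_sup_right hx
  rw [e]
  exact key

end Cfsg.Agent.S2946
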