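import Cfsg.Statements.S2947
import Mathlib
import Cfsg.Agent.Lib.Helper58.Isolated

set_option autoImplicit false
open Cfsg

namespace Cfsg.Agent.S2947


open Cfsg.Agent.Lib.Helper58

theorem dvd_card_of_ne_bot {G : Type*} [Group G] [Finite G] {p : ℕ} [Fact p.Prime] {R : Subgroup G}
    (hRp : IsPGroup p ↥R) (hR : R ≠ ⊥) : p ∣ Nat.card ↥R := by
  obtain ⟨n, hn⟩ := IsPGroup.iff_card.mp hRp
  rcases Nat.eq_zero_or_pos n with h0 | hpos
  · exfalso
    rw [h0, pow_zero] at hn
    exact hR (Subgroup.card_eq_one.mp hn)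
  · rw [hn]; exact dvd_pow_self p hpos.ne'

/-- A nontrivial normal subgroup of a finite `p`-group meets the center. -/
theorem exists_central_in_normal {G : Type*} [Group G] [Finite G] {p : ℕ} [Fact p.Prime]
    (P R : Subgroup G) (hP : IsPGroup p ↥P)
    (hR : R ≠ ⊥) (hRP : R ≤ P) (hN : P ≤ Subgroup.normalizer (R : Set G)) :
    ∃ z ∈ R, z ≠ 1 ∧ ∀ t ∈ P, t * z = z * t := by
  classical
  let act : MulAction ↥P ↥R :=
    { smul := fun t r => ⟨(t : G) * r * (t : G)⁻¹,
        (Subgroup.mem_normalizer_iff.mp (hN t.2) (r : G)).mp r.2⟩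
      one_smul := fun r => by
        apply Subtype.ext
        show ((1 : ↥P) : G) * r * ((1 : ↥P) : G)⁻¹ = r
        simp
      mul_smul := fun a b r => by
        apply Subtype.ext
        show ((a * b : ↥P) : G) * r * ((a * b : ↥P) : G)⁻¹
          = (a : G) * ((b : G) * r * (b : G)⁻¹) * (a : G)⁻¹
        simp [mul_assoc] }
  have hRp : IsPGroup p ↥R := hP.to_le hRP
  have hdvd : p ∣ Nat.card ↥R := dvd_card_of_ne_bot hRp hR
  have h1 : (1 : ↥R) ∈ MulAction.fixedPoints ↥P ↥R := by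
    intro t
    apply Subtype.ext
    show (t : G) * ((1 : ↥R) : G) * (t : G)⁻¹ = ((1 : ↥R) : G)
    simp
  obtain ⟨b, hb, hne⟩ := hP.exists_fixed_point_of_prime_dvd_card_of_fixed_point (α := ↥R) hdvd h1
  refine ⟨b, b.2, ?_, ?_⟩
  · intro h; apply hne; apply Subtype.ext; simp [h]
  · intro t ht
    have := hb ⟨t, ht⟩
    have h2 : t * (b : G) * t⁻¹ = b := congrArg Subtype.val this
    calc t * (b : G) = t * b * t⁻¹ * t := by group
      _ = b * t := by rw [h2]

theorem mem_of_conj_mem {G : Type*} [Group G] [Finite G] {M : Subgroup G}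
    (hM : IsStronglyEmbedded M) {u g : G} (hu : u ∈ M)
    (hu1 : u ≠ 1) (hu2 : ∃ k : ℕ, u ^ (2 ^ k) = 1) (hg : g * u * g⁻¹ ∈ M) : g ∈ M := by
  by_contra hgM
  have hodd := hM.2.2 g hgM
  have hv : g * u * g⁻¹ ∈ M ⊓ M.map (MulAut.conj g).toMonoidHom := by
    refine ⟨hg, ?_⟩
    exact Subgroup.mem_map.mpr ⟨u, hu, by simp [MulAut.conj_apply]⟩
  obtain ⟨k, hk⟩ := hu2
  have hvk : (g * u * g⁻¹) ^ (2 ^ k) = 1 := by
    rw [conj_pow, hk]; simp
  have hv1 : g * u * g⁻¹ ≠ 1 := by
    intro h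
    apply hu1
    have : u = g⁻¹ * (g * u * g⁻¹) * g := by group
    rw [this, h]; simp
  have hord : orderOf (g * u * g⁻¹) ∣ 2 ^ k := orderOf_dvd_of_pow_eq_one hvk
  obtain ⟨j, hj, hjeq⟩ := (Nat.dvd_prime_pow Nat.prime_two).mp hord
  have hj0 : j ≠ 0 := by
    rintro rfl
    rw [pow_zero] at hjeq
    exact hv1 (orderOf_eq_one_iff.mp hjeq)
  have h2 : 2 ∣ orderOf (g * u * g⁻¹) := by rw [hjeq]; exact dvd_pow_self 2 hj0
  have h3 : orderOf (g * u * g⁻¹) ∣ Nat.card ↥(M ⊓ M.map (MulAut.conj g).toMonoidHom) := by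
    have := orderOf_dvd_natCard (⟨g * u * g⁻¹, hv⟩ : ↥(M ⊓ M.map (MulAut.conj g).toMonoidHom))
    rwa [Subgroup.orderOf_mk] at this
  have : ¬ Odd (Nat.card ↥(M ⊓ M.map (MulAut.conj g).toMonoidHom)) := by
    rw [Nat.not_odd_iff_even]; exact even_iff_two_dvd.mpr (h2.trans h3)
  exact this hodd

open scoped Pointwise in
theorem aux {G : Type*} [Group G] [Finite G] (hO : Cfsg.pCore 2 G = ⊥) (M : Subgroup G)
    (hM : Cfsg.IsTwoLocal M) :
    Cfsg.IsStronglyEmbedded M ↔ Cfsg.straddlingTwoSubgroups M = ∅ := by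
  have : Fact (Nat.Prime 2) := ⟨Nat.prime_two⟩
  constructor
  · intro hSE
    rw [Set.eq_empty_iff_forall_notMem]
    rintro T ⟨hT2, hTne, hTM, L, ⟨R, hR2, hRne, rfl⟩, hTL, hLM⟩
    apply hLM
    obtain ⟨t, ht1⟩ := (Subgroup.ne_bot_iff_exists_ne_one).mp hTne
    have ht2 : ∃ k : ℕ, (t : G) ^ (2 ^ k) = 1 := exists_pow_eq_one_of_mem hT2 t.2
    have ht1' : (t : G) ≠ 1 := by
      intro h; apply ht1; exact Subtype.ext h
    have hP : IsPGroup 2 ↥(T ⊔ R) := IsPGroup.to_sup_of_normal_right' hT2 hR2 hTL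
    obtain ⟨z, hzR, hz1, hzc⟩ := exists_central_in_normal (T ⊔ R) R hP hRne le_sup_right
      (sup_le hTL Subgroup.le_normalizer)
    have hz2 : ∃ k : ℕ, z ^ (2 ^ k) = 1 := exists_pow_eq_one_of_mem hR2 hzR
    have hzM : z ∈ M := by
      apply mem_of_conj_mem hSE (hTM t.2) ht1' ht2
      have := hzc t ((le_sup_left : T ≤ T ⊔ R) t.2)
      have h : z * t * z⁻¹ = t := by rw [← this]; group
      rw [h]; exact hTM t.2
    have hRM : R ≤ M := by
      intro r hr
      apply mem_of_conj_mem hSE hzM hz1 hz2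
      have := hzc r ((le_sup_right : R ≤ T ⊔ R) hr)
      have h : r * z * r⁻¹ = z := by rw [this]; group
      rw [h]; exact hzM
    intro g hg
    apply mem_of_conj_mem hSE hzM hz1 hz2
    exact hRM ((Subgroup.mem_normalizer_iff.mp hg z).mp hzR)
  · intro hS
    have K2 : ∀ (T R : Subgroup G), IsPGroup 2 ↥T → T ≠ ⊥ → T ≤ M → IsPGroup 2 ↥R → R ≠ ⊥ →
        T ≤ Subgroup.normalizer (R : Set G) → Subgroup.normalizer (R : Set G) ≤ M := by
      intro T R hT hTne hTM hR hRne hTR
      by_contra hcon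
      have : T ∈ Cfsg.straddlingTwoSubgroups M :=
        ⟨hT, hTne, hTM, _, ⟨R, hR, hRne, rfl⟩, hTR, hcon⟩
      rw [hS] at this
      exact this
    obtain ⟨T₀, hT2, hTne, hMeq⟩ := hM
    refine ⟨?_, ?_, ?_⟩
    · intro htop
      have hnorm : T₀.Normal := Subgroup.normalizer_eq_top_iff.mp (hMeq ▸ htop)
      have : T₀ ≤ Cfsg.pCore 2 G := le_pCore hnorm hT2
      rw [hO] at this
      exact hTne (le_bot_iff.mp this)
    · have h1 : 2 ∣ Nat.card ↥T₀ := dvd_card_of_ne_bot hT2 hTne
      have h2 : Nat.card ↥T₀ ∣ Nat.card ↥M :=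
        Subgroup.card_dvd_of_le (hMeq ▸ Subgroup.le_normalizer)
      exact even_iff_two_dvd.mpr (h1.trans h2)
    · intro g hg
      by_contra hodd
      apply hg
      rw [Nat.not_odd_iff_even, even_iff_two_dvd] at hodd
      obtain ⟨v, hv⟩ := exists_prime_orderOf_dvd_card' (G := ↥(M ⊓ M.map (MulAut.conj g).toMonoidHom)) 2 hodd
      have hvM : (v : G) ∈ M := v.2.1
      obtain ⟨u, huM, huv⟩ := Subgroup.mem_map.mp v.2.2
      have huv' : g * u * g⁻¹ = (v : G) := by simpa [MulAut.conj_apply] using huv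
      have hv2 : (v : G) ^ 2 = 1 := by
        have h0 := pow_orderOf_eq_one v
        rw [hv] at h0
        have h1 : ((v ^ 2 : ↥(M ⊓ M.map (MulAut.conj g).toMonoidHom)) : G) = 1 := by
          rw [h0]; rfl
        exact h1
      have hv1 : (v : G) ≠ 1 := by
        intro h
        have : v = 1 := Subtype.ext h
        rw [this, orderOf_one] at hv
        omega
      have hu2 : u ^ 2 = 1 := by
        have h : u ^ 2 = g⁻¹ * (g * u * g⁻¹) ^ 2 * g := by rw [conj_pow]; group
        rw [h, huv', hv2]; simp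
      have hu1 : u ≠ 1 := by
        intro h; apply hv1; rw [← huv', h]; simp
      have hTp : IsPGroup 2 ↥(Subgroup.zpowers u) := isPGroup_zpowers u ⟨1, by simpa using hu2⟩
      have hT'p : IsPGroup 2 ↥(Subgroup.zpowers (v : G)) :=
        isPGroup_zpowers (v : G) ⟨1, by simpa using hv2⟩
      obtain ⟨P, hP⟩ := hTp.exists_le_sylow
      have huP : u ∈ (P : Subgroup G) := hP (Subgroup.mem_zpowers u)
      have hPne : (P : Subgroup G) ≠ ⊥ := by
        intro h; rw [h] at huP; exact hu1 (Subgroup.mem_bot.mp huP)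
      have hNP : Subgroup.normalizer ((P : Subgroup G) : Set G) ≤ M :=
        K2 (Subgroup.zpowers u) P hTp (Subgroup.zpowers_ne_bot.mpr hu1)
          ((Subgroup.zpowers_le).mpr huM) P.2 hPne (hP.trans Subgroup.le_normalizer)
      have hvP : (v : G) ∈ ((g • P : Sylow 2 G) : Subgroup G) := by
        rw [Sylow.coe_subgroup_smul]
        have h1 : MulAut.conj g • u ∈ MulAut.conj g • (P : Subgroup G) :=
          Subgroup.smul_mem_pointwise_smul_iff.mpr huP
        have h2 : MulAut.conj g • u = (v : G) := by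
          rw [← huv']; simp [MulAut.smul_def]
        rwa [h2] at h1
      have hP'ne : ((g • P : Sylow 2 G) : Subgroup G) ≠ ⊥ := by
        intro h; rw [h] at hvP; exact hv1 (Subgroup.mem_bot.mp hvP)
      have hNP' : Subgroup.normalizer (((g • P : Sylow 2 G) : Subgroup G) : Set G) ≤ M :=
        K2 (Subgroup.zpowers (v : G)) (g • P : Sylow 2 G) hT'p (Subgroup.zpowers_ne_bot.mpr hv1)
          ((Subgroup.zpowers_le).mpr hvM) (g • P : Sylow 2 G).2 hP'ne
          (((Subgroup.zpowers_le).mpr hvP).trans Subgroup.le_normalizer)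
      have hPM : (P : Subgroup G) ≤ M := Subgroup.le_normalizer.trans hNP
      have hP'M : ((g • P : Sylow 2 G) : Subgroup G) ≤ M := Subgroup.le_normalizer.trans hNP'
      obtain ⟨h, hh⟩ := MulAction.exists_smul_eq ↥M ((g • P).subtype hP'M) (P.subtype hPM)
      simp_rw [Sylow.smul_subtype, Subgroup.smul_def, smul_smul] at hh
      have hmem : (h : G) * g ∈ Subgroup.normalizer ((P : Subgroup G) : Set G) :=
        Sylow.smul_eq_iff_mem_normalizer.mp (Sylow.subtype_injective hh)
      have := hNP hmem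
      have h3 : g = (h : G)⁻¹ * ((h : G) * g) := by group
      rw [h3]
      exact M.mul_mem (M.inv_mem h.2) this

/-- Let G be a finite group of characteristic 2 type in which every 2-local subgroup is solvable and the centralizer of Ω₁(Z(S)) lies in N_G(S) for every Sylow 2-subgroup S; suppose O₂(G) = 1, fix a Sylow 2-subgroup S and a 2-local subgroup M containing N_G(J(S)) (J the Thompson subgroup generated by the elementary abelian 2-subgroups of largest order). Then M is strongly embedded in G (a proper subgroup of even order whose intersection with each conjugate by an element outside M has odd order) if and only if no nontrivial 2-subgroup of M lies in a 2-local subgroup of G not contained in M. -/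
theorem result {G : Type*} [Group G] [Finite G] (hL : Cfsg.IsCharacteristicTwoType G) (hN : ∀ N : Subgroup G, Cfsg.IsTwoLocal N → Group.IsSolvable ↥N)
    (hZ : ∀ S : Sylow 2 G, Subgroup.centralizer (Cfsg.omegaCenterOf (S : Subgroup G) : Set G) ≤ Subgroup.normalizer ((S : Subgroup G) : Set G)) (hO : Cfsg.pCore 2 G = ⊥) (S : Sylow 2 G) (M : Subgroup G) (hM : Cfsg.IsTwoLocal M)
    (hMJ : Subgroup.normalizer (Cfsg.thompsonSubgroupOf 2 (S : Subgroup G) : Set G) ≤ M) :
    Cfsg.IsStronglyEmbedded M ↔ Cfsg.straddlingTwoSubgroups M = ∅ := by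
  exact aux hO M hM

end Cfsg.Agent.S2947
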