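import Cfsg.Statements.S2955
import Mathlib
import Cfsg.Agent.Lib.Helper58.SylowConj
import Cfsg.Agent.Lib.Helper58.SylowControl

set_option autoImplicit false
open Cfsg

namespace Cfsg.Agent.S2955


open Cfsg.Agent.Lib.Helper58

theorem aux {G : Type*} [Group G] [Finite G] (p : ℕ) [Fact p.Prime]
    (𝓕 : Set (Subgroup G)) (h𝓕 : Cfsg.IsNormalSet 𝓕) (hc : Cfsg.ControlsSylowIntersections p 𝓕)
    (hconn : Cfsg.IsSylowChainConnected p G) (S : Sylow p G) :
    (⨆ X ∈ Cfsg.sylowMembers p 𝓕 (S : Subgroup G), X) ⊔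
      Subgroup.normalizer ((S : Subgroup G) : Set G) = ⊤ := by
  set H : Subgroup G := (⨆ X ∈ Cfsg.sylowMembers p 𝓕 (S : Subgroup G), X) ⊔
      Subgroup.normalizer ((S : Subgroup G) : Set G) with hH
  have hmem : ∀ X ∈ sylowMembers p 𝓕 (S : Subgroup G), X ≤ H := fun X hX =>
    (le_biSup (fun X => X) hX).trans le_sup_left
  have step : ∀ (D : Subgroup G) (A B : Sylow p G),
      (∃ h ∈ H, subgroupConjRight h (A : Subgroup G) = S) → SLink p 𝓕 D A B →
      ∃ h ∈ H, subgroupConjRight h (B : Subgroup G) = S := by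
    rintro D A B ⟨h, hh, hA⟩ ⟨X, x, hXA, -, hxX, hBA, -⟩
    have h1 : subgroupConjRight h X ∈ sylowMembers p 𝓕 (S : Subgroup G) := by
      have := subgroupConjRight_mem_sylowMembers h𝓕 A.2 h hXA
      rwa [hA] at this
    have h2 : h⁻¹ * x * h ∈ H := hmem _ h1 (conj_mem_subgroupConjRight hxX)
    have hxH : x ∈ H := by
      have : x = h * (h⁻¹ * x * h) * h⁻¹ := by group
      rw [this]; exact H.mul_mem (H.mul_mem hh h2) (H.inv_mem hh)
    refine ⟨x * h, H.mul_mem hxH hh, ?_⟩
    rw [subgroupConjRight_mul, hBA, hA]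
  have hctl := controls_iff.mp hc
  have adj : ∀ A B : Sylow p G, (∃ h ∈ H, subgroupConjRight h (A : Subgroup G) = S) →
      (A ≠ B ∧ (A : Subgroup G) ⊓ (B : Subgroup G) ≠ ⊥) →
      ∃ h ∈ H, subgroupConjRight h (B : Subgroup G) = S := by
    intro A B hA hAB
    exact reflTransGen_induction (P := fun A : Sylow p G =>
      ∃ h ∈ H, subgroupConjRight h (A : Subgroup G) = S)
      (step ((A : Subgroup G) ⊓ (B : Subgroup G))) (hctl A B hAB.1 hAB.2) hA
  have hall : ∀ T : Sylow p G, ∃ h ∈ H, subgroupConjRight h (T : Subgroup G) = S := fun T =>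
    reflTransGen_induction (P := fun A : Sylow p G =>
      ∃ h ∈ H, subgroupConjRight h (A : Subgroup G) = S) adj
      (chainConnected_reflTransGen hconn S T) ⟨1, H.one_mem, subgroupConjRight_one _⟩
  rw [eq_top_iff]
  intro g _
  obtain ⟨h, hh, hT⟩ := hall (g • S)
  have hn : h⁻¹ * g ∈ Subgroup.normalizer ((S : Subgroup G) : Set G) := by
    apply mem_normalizer_of_conj_mem
    intro y hy
    rw [← hT, mem_subgroupConjRight]
    have : h * (h⁻¹ * g * y * (h⁻¹ * g)⁻¹) * h⁻¹ = g * y * g⁻¹ := by group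
    rw [this]
    exact conj_mem_smul_sylow hy
  have : g = h * (h⁻¹ * g) := by group
  rw [this]
  exact H.mul_mem hh ((le_sup_right : _ ≤ H) hn)

/-- Let p be a prime dividing the order of the finite group G and 𝓕 a conjugation-closed family of subgroups that controls Sylow p-intersections in G. Suppose the Sylow p-subgroups of G are chain-connected: any two of them are joined by a chain of Sylow p-subgroups, consecutive ones distinct with nontrivial intersection, all containing the intersection of the two ends (equivalently, the graph on the Sylow p-subgroups whose edges are the distinct pairs meeting nontrivially is connected). Then for every Sylow p-subgroup S, G is generated by N_G(S) together with the members of 𝓕 that meet S in a Sylow p-subgroup of themselves. -/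
theorem result {G : Type*} [Group G] [Finite G] (p : ℕ) [Fact p.Prime] (hdiv : p ∣ Nat.card G)
    (𝓕 : Set (Subgroup G)) (h𝓕 : Cfsg.IsNormalSet 𝓕) (hc : Cfsg.ControlsSylowIntersections p 𝓕)
    (hconn : Cfsg.IsSylowChainConnected p G) (S : Sylow p G) :
    (⨆ X ∈ Cfsg.sylowMembers p 𝓕 (S : Subgroup G), X) ⊔ Subgroup.normalizer ((S : Subgroup G) : Set G) = ⊤ := by
  exact aux p 𝓕 h𝓕 hc hconn S

end Cfsg.Agent.S2955
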