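import Cfsg.Statements.S2956
import Mathlib
import Cfsg.Agent.Lib.Helper58.SylowConj
import Cfsg.Agent.Lib.Helper58.SylowControl
import Cfsg.Agent.Lib.Helper58.FunctorRegular
import Cfsg.Agent.Lib.Helper58.PLocal

set_option autoImplicit false
open Cfsg

namespace Cfsg.Agent.S2956


open Cfsg.Agent.Lib.Helper58

theorem conj_data {G : Type*} [Group G] {p : ℕ} {M : Subgroup G} {Q₁ Q₂ : Sylow p ↥M} {x₂ : ↥M}
    (hconj : subgroupConjRight x₂ (Q₂ : Subgroup ↥M) = (Q₁ : Subgroup ↥M)) :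
    (Q₂ : Subgroup ↥M).map M.subtype =
      subgroupConjRight (x₂ : G)⁻¹ ((Q₁ : Subgroup ↥M).map M.subtype) := by
  rw [← hconj, ← subgroupConjRight_map_subtype, subgroupConjRight_inv_cancel]

theorem inner_link {G : Type*} [Group G] [Finite G] {p : ℕ} [Fact p.Prime]
    {f : Subgroup G → Set (Subgroup G)} (hf : IsNormalizerFunctor p f)
    (hf1 : ∀ P : Subgroup G, IsPGroup p ↥P → P ≠ ⊥ → ∀ F ∈ f P, F ≠ ⊥)
    {𝓕₀ : Set (Subgroup G)} (h𝓕 : functorFamily p f ⊤ ⊆ 𝓕₀) (D : Subgroup G)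
    (IH : ∀ (A B : Sylow p G) (R : Subgroup G), R ≤ (A : Subgroup G) ⊓ (B : Subgroup G) →
      D ≤ R → Nat.card ↥D < Nat.card ↥R → Relation.ReflTransGen (SLink p 𝓕₀ D) A B)
    (M : Subgroup G) (c : ℕ)
    (IHj : ∀ (M' : Subgroup G) (A : Sylow p G) (x : G), IsMaximalPLocal p M' → x ∈ M' →
      ¬ p ∣ ((A : Subgroup G) ⊓ M').relIndex M' → D ≤ (A : Subgroup G) ⊓ M' →
      D ≤ ((x • A : Sylow p G) : Subgroup G) ⊓ M' → c < Nat.card ↥((A : Subgroup G) ⊓ M') →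
      Relation.ReflTransGen (SLink p 𝓕₀ D) A (x • A))
    (A₁ : Sylow p G) (Q₁ Q₂ P' : Sylow p ↥M)
    (hA₁ : (A₁ : Subgroup G) ⊓ M = (Q₁ : Subgroup ↥M).map M.subtype)
    (hc : Nat.card ↥(Q₁ : Subgroup ↥M) = c) (hDc : Nat.card ↥D < c)
    (F : Subgroup G) (x₂ : ↥M) (hF : F ∈ f ((P' : Subgroup ↥M).map M.subtype))
    (hx : (x₂ : G) ∈ Subgroup.normalizer (F : Set G))
    (hQ1 : (Q₁ : Subgroup ↥M).map M.subtype ≤ Subgroup.normalizer (F : Set G))
    (hQ2 : (Q₂ : Subgroup ↥M).map M.subtype ≤ Subgroup.normalizer (F : Set G))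
    (hconj : subgroupConjRight x₂ (Q₂ : Subgroup ↥M) = (Q₁ : Subgroup ↥M))
    (hD1 : D ≤ (Q₁ : Subgroup ↥M).map M.subtype) (hD2 : D ≤ (Q₂ : Subgroup ↥M).map M.subtype) :
    Relation.ReflTransGen (SLink p 𝓕₀ D) A₁ ((x₂ : G) • A₁) := by
  have hQ21 := conj_data hconj
  have hcardQ₁m : Nat.card ↥((Q₁ : Subgroup ↥M).map M.subtype) = c := by
    rw [Subgroup.card_map_of_injective M.subtype_injective]; exact hc
  have hcardQ₂m : Nat.card ↥((Q₂ : Subgroup ↥M).map M.subtype) = c := by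
    rw [hQ21, card_subgroupConjRight]; exact hcardQ₁m
  have hQ₁A : (Q₁ : Subgroup ↥M).map M.subtype ≤ A₁ := hA₁ ▸ inf_le_left
  have hQ₂A : (Q₂ : Subgroup ↥M).map M.subtype ≤ (((x₂ : G) • A₁ : Sylow p G) : Subgroup G) := by
    rw [hQ21, coe_smul_sylow_eq_subgroupConjRight]; exact subgroupConjRight_mono hQ₁A
  by_cases hM : p ∣ M.index
  · have hPp : IsPGroup p ↥((P' : Subgroup ↥M).map M.subtype) := P'.2.map _
    have hcardP : Nat.card ↥((P' : Subgroup ↥M).map M.subtype) = c := by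
      rw [Subgroup.card_map_of_injective M.subtype_injective, ← hc]
      exact (P'.card_eq_multiplicity).trans (Q₁.card_eq_multiplicity).symm
    have hPne : (P' : Subgroup ↥M).map M.subtype ≠ ⊥ := by
      intro h
      rw [h, Subgroup.card_bot] at hcardP
      have := Nat.card_pos (α := ↥D)
      omega
    have hFne := hf1 _ hPp hPne F hF
    have hFP := (hf _ hPp).1 F hF
    have hFp : IsPGroup p ↥F := hPp.to_le hFP.1
    obtain ⟨M', hM'max, hWM'⟩ := exists_maximalPLocal_ge (p := p)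
      (N := Subgroup.normalizer (F : Set G)) ⟨F, hFp, hFne, rfl⟩
    obtain ⟨Ph, hPh⟩ := hPp.exists_le_sylow
    have hPneq : (P' : Subgroup ↥M).map M.subtype ≠ Ph := by
      intro h
      have h1 := Ph.not_dvd_index
      rw [← h, Subgroup.index_map_subtype] at h1
      exact h1 (Dvd.dvd.mul_left hM _)
    have hlt := card_lt_card_normalizer_inf hPh hPneq
    have hP₁M' : Subgroup.normalizer (((P' : Subgroup ↥M).map M.subtype : Subgroup G) : Set G) ⊓
        (Ph : Subgroup G) ≤ M' := inf_le_left.trans (hFP.2.trans hWM')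
    have hP₁p : IsPGroup p ↥(Subgroup.normalizer
        (((P' : Subgroup ↥M).map M.subtype : Subgroup G) : Set G) ⊓ (Ph : Subgroup G)) :=
      Ph.2.to_le inf_le_right
    obtain ⟨At, hAt1, hAt2⟩ := exists_sylow_meet M' A₁
    have hcardAt : c < Nat.card ↥((At : Subgroup G) ⊓ M') := by
      have := card_le_of_not_dvd_relIndex hP₁p hP₁M' hAt2
      omega
    have hQ₁AM' : (Q₁ : Subgroup ↥M).map M.subtype ≤ (A₁ : Subgroup G) ⊓ M' :=
      le_inf hQ₁A (hQ1.trans hWM')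
    have hQ₁At : (Q₁ : Subgroup ↥M).map M.subtype ≤ (At : Subgroup G) ⊓ M' := hQ₁AM'.trans hAt1
    have rel1 : Relation.ReflTransGen (SLink p 𝓕₀ D) A₁ At :=
      IH A₁ At _ (le_inf hQ₁A (hQ₁At.trans inf_le_left)) hD1 (by rw [hcardQ₁m]; exact hDc)
    have hxM' : (x₂ : G) ∈ M' := hWM' hx
    have hQ₂At : (Q₂ : Subgroup ↥M).map M.subtype ≤
        (((x₂ : G) • At : Sylow p G) : Subgroup G) ⊓ M' := by
      rw [smul_inf_eq hxM', hQ21]; exact subgroupConjRight_mono hQ₁At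
    have rel2 : Relation.ReflTransGen (SLink p 𝓕₀ D) At ((x₂ : G) • At) :=
      IHj M' At x₂ hM'max hxM' hAt2 (hD1.trans hQ₁At) (hD2.trans hQ₂At) hcardAt
    have rel3 : Relation.ReflTransGen (SLink p 𝓕₀ D) ((x₂ : G) • At) ((x₂ : G) • A₁) :=
      IH _ _ _ (le_inf (hQ₂At.trans inf_le_left) hQ₂A) hD2 (by rw [hcardQ₂m]; exact hDc)
    exact rel1.trans (rel2.trans rel3)
  · have hQ₁eq : (A₁ : Subgroup G) = (Q₁ : Subgroup ↥M).map M.subtype := by
      have := (sylowUp hM Q₁).is_maximal' A₁.2 (by rw [coe_sylowUp]; exact hQ₁A)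
      rw [this, coe_sylowUp]
    have hX : ⊤ ⊓ Subgroup.normalizer (F : Set G) ∈ 𝓕₀ := by
      apply h𝓕
      refine ⟨(sylowUp hM P').subtype le_top, F, ?_, rfl⟩
      rw [Sylow.coe_subtype, Subgroup.map_subgroupOf_eq_of_le le_top, coe_sylowUp]; exact hF
    have hA₁X : (A₁ : Subgroup G) ≤ ⊤ ⊓ Subgroup.normalizer (F : Set G) := by
      rw [top_inf_eq, hQ₁eq]; exact hQ1
    apply Relation.ReflTransGen.single
    apply slink_of_mem hX
    · rw [inf_eq_left.mpr hA₁X]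
      intro hdvd
      exact A₁.not_dvd_index (hdvd.trans (Subgroup.relIndex_dvd_index_of_le hA₁X))
    · rw [top_inf_eq]; exact hx
    · exact hD2.trans (le_inf hQ₂A (by rw [top_inf_eq]; exact hQ2))

theorem inner {G : Type*} [Group G] [Finite G] {p : ℕ} [Fact p.Prime]
    {f : Subgroup G → Set (Subgroup G)} (hf : IsNormalizerFunctor p f)
    (hf1 : ∀ P : Subgroup G, IsPGroup p ↥P → P ≠ ⊥ → ∀ F ∈ f P, F ≠ ⊥)
    {𝓕₀ : Set (Subgroup G)} (h𝓕 : functorFamily p f ⊤ ⊆ 𝓕₀)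
    (h𝓕' : {M | IsMaximalPLocal p M ∧ ¬ IsFunctorRegular p f M} ⊆ 𝓕₀)
    (D : Subgroup G) (hDne : D ≠ ⊥)
    (IH : ∀ (A B : Sylow p G) (R : Subgroup G), R ≤ (A : Subgroup G) ⊓ (B : Subgroup G) →
      D ≤ R → Nat.card ↥D < Nat.card ↥R → Relation.ReflTransGen (SLink p 𝓕₀ D) A B) :
    ∀ j : ℕ, ∀ (M : Subgroup G) (A : Sylow p G) (x : G), IsMaximalPLocal p M → x ∈ M →
      ¬ p ∣ ((A : Subgroup G) ⊓ M).relIndex M → D ≤ (A : Subgroup G) ⊓ M →
      D ≤ ((x • A : Sylow p G) : Subgroup G) ⊓ M →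
      Nat.card ↥D < Nat.card ↥((A : Subgroup G) ⊓ M) →
      Nat.card G - Nat.card ↥((A : Subgroup G) ⊓ M) = j →
      Relation.ReflTransGen (SLink p 𝓕₀ D) A (x • A) := by
  intro j
  induction j using Nat.strong_induction_on with
  | _ j ihj =>
  intro M A x hMmax hx hA hD1 hD2 hcard hj
  by_cases hreg : IsFunctorRegular p f M
  swap
  · exact Relation.ReflTransGen.single (slink_of_mem (h𝓕' ⟨hMmax, hreg⟩) hA hx hD2)
  have hA' : ¬ p ∣ (((A : Subgroup G) ⊓ M).subgroupOf M).index := hA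
  have hpR : IsPGroup p ↥(((A : Subgroup G) ⊓ M).subgroupOf M) :=
    (A.2.to_le inf_le_left).comap_subtype
  have hR'map : ((hpR.toSylow hA' : Sylow p ↥M) : Subgroup ↥M).map M.subtype =
      (A : Subgroup G) ⊓ M := Subgroup.map_subgroupOf_eq_of_le inf_le_right
  have hR''map : (((⟨x, hx⟩ : ↥M) • hpR.toSylow hA' : Sylow p ↥M) : Subgroup ↥M).map M.subtype =
      ((x • A : Sylow p G) : Subgroup G) ⊓ M := by
    rw [coe_smul_sylow_eq_subgroupConjRight, ← subgroupConjRight_map_subtype, hR'map,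
      smul_inf_eq hx]
    rfl
  have hcardR' : Nat.card ↥((hpR.toSylow hA' : Sylow p ↥M) : Subgroup ↥M) =
      Nat.card ↥((A : Subgroup G) ⊓ M) := by
    have h0 := Subgroup.card_map_of_injective
      (K := ((hpR.toSylow hA' : Sylow p ↥M) : Subgroup ↥M)) M.subtype_injective
    rw [hR'map] at h0
    exact h0.symm
  have hcard'' : Nat.card ↥(((x • A : Sylow p G) : Subgroup G) ⊓ M) =
      Nat.card ↥((A : Subgroup G) ⊓ M) := by
    rw [smul_inf_eq hx, card_subgroupConjRight]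
  by_cases hRR : hpR.toSylow hA' = (⟨x, hx⟩ : ↥M) • hpR.toSylow hA'
  · have h1 : (A : Subgroup G) ⊓ M = ((x • A : Sylow p G) : Subgroup G) ⊓ M := by
      rw [← hR'map, ← hR''map, ← hRR]
    exact IH A (x • A) _ (le_inf inf_le_left (h1 ▸ inf_le_left)) hD1 hcard
  · have hDR : D ≤ (((hpR.toSylow hA' : Sylow p ↥M) : Subgroup ↥M) ⊓
        (((⟨x, hx⟩ : ↥M) • hpR.toSylow hA' : Sylow p ↥M) : Subgroup ↥M)).map M.subtype := by
      intro d hd
      have h1 := hD1 hd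
      have h2 := hD2 hd
      rw [← hR'map] at h1
      rw [← hR''map] at h2
      obtain ⟨d1, hd1, rfl⟩ := Subgroup.mem_map.mp h1
      obtain ⟨d2, hd2, hd2'⟩ := Subgroup.mem_map.mp h2
      have : d2 = d1 := Subtype.ext hd2'
      exact Subgroup.mem_map.mpr ⟨d1, Subgroup.mem_inf.mpr ⟨hd1, this ▸ hd2⟩, rfl⟩
    have hne : ((hpR.toSylow hA' : Sylow p ↥M) : Subgroup ↥M) ⊓
        (((⟨x, hx⟩ : ↥M) • hpR.toSylow hA' : Sylow p ↥M) : Subgroup ↥M) ≠ ⊥ := by
      intro h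
      rw [h, Subgroup.map_bot] at hDR
      exact hDne (le_bot_iff.mp hDR)
    have chain := (functorRegular_iff hf M).mp hreg _ _ hRR hne
    have IHj : ∀ (M' : Subgroup G) (A' : Sylow p G) (x : G), IsMaximalPLocal p M' → x ∈ M' →
        ¬ p ∣ ((A' : Subgroup G) ⊓ M').relIndex M' → D ≤ (A' : Subgroup G) ⊓ M' →
        D ≤ ((x • A' : Sylow p G) : Subgroup G) ⊓ M' →
        Nat.card ↥((A : Subgroup G) ⊓ M) < Nat.card ↥((A' : Subgroup G) ⊓ M') →
        Relation.ReflTransGen (SLink p 𝓕₀ D) A' (x • A') := by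
      intro M' A' x₁ h1 h2 h3 h4 h5 h6
      have hle : Nat.card ↥((A' : Subgroup G) ⊓ M') ≤ Nat.card G := Subgroup.card_le_card_group _
      exact ihj (Nat.card G - Nat.card ↥((A' : Subgroup G) ⊓ M')) (by omega) M' A' x₁ h1 h2 h3 h4
        h5 (by omega) rfl
    have claim : ∃ AQ : Sylow p G, (AQ : Subgroup G) ⊓ M =
        (((⟨x, hx⟩ : ↥M) • hpR.toSylow hA' : Sylow p ↥M) : Subgroup ↥M).map M.subtype ∧
        D ≤ (((⟨x, hx⟩ : ↥M) • hpR.toSylow hA' : Sylow p ↥M) : Subgroup ↥M).map M.subtype ∧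
        Relation.ReflTransGen (SLink p 𝓕₀ D) A AQ := by
      refine reflTransGen_induction (P := fun Q' : Sylow p ↥M => ∃ AQ : Sylow p G,
        (AQ : Subgroup G) ⊓ M = (Q' : Subgroup ↥M).map M.subtype ∧
        D ≤ (Q' : Subgroup ↥M).map M.subtype ∧
        Relation.ReflTransGen (SLink p 𝓕₀ D) A AQ) ?_ chain
        ⟨A, hR'map.symm, by rw [hR'map]; exact hD1, Relation.ReflTransGen.refl⟩
      rintro Q₁ Q₂ ⟨A₁, hA₁, hDQ₁, hrel⟩ ⟨P', F, x₂, hF, hx₂, hQ1, hQ2, hconj, hD'⟩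
      have hDQ₂ : D ≤ (Q₂ : Subgroup ↥M).map M.subtype := hDR.trans (Subgroup.map_mono hD')
      refine ⟨(x₂ : G) • A₁, ?_, hDQ₂, hrel.trans (inner_link hf hf1 h𝓕 D IH M
        (Nat.card ↥((A : Subgroup G) ⊓ M)) IHj A₁ Q₁ Q₂ P' hA₁ ?_ hcard F x₂ hF hx₂ hQ1 hQ2 hconj
        hDQ₁ hDQ₂)⟩
      · rw [smul_inf_eq x₂.2, hA₁, conj_data hconj]
      · rw [← hcardR']
        exact (Q₁.card_eq_multiplicity).trans ((hpR.toSylow hA').card_eq_multiplicity).symm
    obtain ⟨An, hAn, -, hrel⟩ := claim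
    refine hrel.trans (IH An (x • A) (((x • A : Sylow p G) : Subgroup G) ⊓ M)
      (le_inf ?_ inf_le_left) hD2 (by rw [hcard'']; exact hcard))
    rw [← hR''map, ← hAn]; exact inf_le_left

theorem outer {G : Type*} [Group G] [Finite G] {p : ℕ} [Fact p.Prime]
    {f : Subgroup G → Set (Subgroup G)} (hf : IsNormalizerFunctor p f)
    (hf1 : ∀ P : Subgroup G, IsPGroup p ↥P → P ≠ ⊥ → ∀ F ∈ f P, F ≠ ⊥)
    {𝓕₀ : Set (Subgroup G)} (h𝓕 : functorFamily p f ⊤ ⊆ 𝓕₀)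
    (h𝓕' : {M | IsMaximalPLocal p M ∧ ¬ IsFunctorRegular p f M} ⊆ 𝓕₀) :
    ∀ n : ℕ, ∀ S T : Sylow p G, (S : Subgroup G) ⊓ (T : Subgroup G) ≠ ⊥ →
      Nat.card G - Nat.card ↥((S : Subgroup G) ⊓ (T : Subgroup G)) = n →
      Relation.ReflTransGen (SLink p 𝓕₀ ((S : Subgroup G) ⊓ (T : Subgroup G))) S T := by
  intro n
  induction n using Nat.strong_induction_on with
  | _ n ih =>
  intro S T hne hn
  by_cases hST : S = T
  · subst hST; exact Relation.ReflTransGen.refl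
  have IH : ∀ (A B : Sylow p G) (R : Subgroup G), R ≤ (A : Subgroup G) ⊓ (B : Subgroup G) →
      (S : Subgroup G) ⊓ (T : Subgroup G) ≤ R →
      Nat.card ↥((S : Subgroup G) ⊓ (T : Subgroup G)) < Nat.card ↥R →
      Relation.ReflTransGen (SLink p 𝓕₀ ((S : Subgroup G) ⊓ (T : Subgroup G))) A B := by
    intro A B R hR hDR hcard
    have h1 : Nat.card ↥R ≤ Nat.card ↥((A : Subgroup G) ⊓ (B : Subgroup G)) :=
      Subgroup.card_le_of_le hR
    have h2 : Nat.card ↥((A : Subgroup G) ⊓ (B : Subgroup G)) ≤ Nat.card G :=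
      Subgroup.card_le_card_group _
    have hne' : (A : Subgroup G) ⊓ (B : Subgroup G) ≠ ⊥ := by
      intro h
      rw [h, Subgroup.card_bot] at h1
      have := Nat.card_pos (α := ↥((S : Subgroup G) ⊓ (T : Subgroup G)))
      omega
    have := ih (Nat.card G - Nat.card ↥((A : Subgroup G) ⊓ (B : Subgroup G))) (by omega) A B hne'
      rfl
    exact reflTransGen_mono (fun a b ⟨X, x, h1, h2, h3, h4, h5⟩ =>
      ⟨X, x, h1, h2, h3, h4, (hDR.trans hR).trans h5⟩) this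
  have hDS : (S : Subgroup G) ⊓ (T : Subgroup G) ≠ S := by
    intro h
    apply hST
    have h1 : (S : Subgroup G) ≤ T := inf_eq_left.mp h
    exact Sylow.ext (S.is_maximal' T.2 h1).symm
  have hDT : (S : Subgroup G) ⊓ (T : Subgroup G) ≠ T := by
    intro h
    apply hST
    have h1 : (T : Subgroup G) ≤ S := inf_eq_right.mp h
    exact Sylow.ext (T.is_maximal' S.2 h1)
  have hS_N := card_lt_card_normalizer_inf (S := S) inf_le_left hDS
  have hT_N := card_lt_card_normalizer_inf (S := T) inf_le_right hDT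
  have hDp : IsPGroup p ↥((S : Subgroup G) ⊓ (T : Subgroup G)) := S.2.to_le inf_le_left
  obtain ⟨M, hMmax, hNM⟩ := exists_maximalPLocal_ge (p := p)
    (N := Subgroup.normalizer (((S : Subgroup G) ⊓ (T : Subgroup G) : Subgroup G) : Set G))
    ⟨_, hDp, hne, rfl⟩
  obtain ⟨S', hS'1, hS'2⟩ := exists_sylow_meet M S
  obtain ⟨T', hT'1, hT'2⟩ := exists_sylow_meet M T
  have hSN_le : Subgroup.normalizer (((S : Subgroup G) ⊓ (T : Subgroup G) : Subgroup G) : Set G) ⊓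
      (S : Subgroup G) ≤ (S : Subgroup G) ⊓ M := le_inf inf_le_right (inf_le_left.trans hNM)
  have hTN_le : Subgroup.normalizer (((S : Subgroup G) ⊓ (T : Subgroup G) : Subgroup G) : Set G) ⊓
      (T : Subgroup G) ≤ (T : Subgroup G) ⊓ M := le_inf inf_le_right (inf_le_left.trans hNM)
  have hD_SN : (S : Subgroup G) ⊓ (T : Subgroup G) ≤
      Subgroup.normalizer (((S : Subgroup G) ⊓ (T : Subgroup G) : Subgroup G) : Set G) ⊓
      (S : Subgroup G) := le_inf Subgroup.le_normalizer inf_le_left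
  have hD_TN : (S : Subgroup G) ⊓ (T : Subgroup G) ≤
      Subgroup.normalizer (((S : Subgroup G) ⊓ (T : Subgroup G) : Subgroup G) : Set G) ⊓
      (T : Subgroup G) := le_inf Subgroup.le_normalizer inf_le_right
  have rel1 := IH S S' _ (le_inf inf_le_right ((hSN_le.trans hS'1).trans inf_le_left)) hD_SN hS_N
  have rel4 := IH T' T _ (le_inf ((hTN_le.trans hT'1).trans inf_le_left) inf_le_right) hD_TN hT_N
  obtain ⟨m, hmM, hm⟩ := exists_smul_inf_eq hS'2 hT'2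
  have hcardS' : Nat.card ↥((S : Subgroup G) ⊓ (T : Subgroup G)) <
      Nat.card ↥((S' : Subgroup G) ⊓ M) :=
    lt_of_lt_of_le hS_N (Subgroup.card_le_of_le (hSN_le.trans hS'1))
  have rel2 := inner hf hf1 h𝓕 h𝓕' _ hne IH _ M S' m hMmax hmM hS'2
    ((hD_SN.trans hSN_le).trans hS'1) (hm ▸ ((hD_TN.trans hTN_le).trans hT'1)) hcardS' rfl
  have rel3 := IH (m • S') T' ((T' : Subgroup G) ⊓ M) (le_inf (hm ▸ inf_le_left) inf_le_left)
    ((hD_TN.trans hTN_le).trans hT'1)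
    (lt_of_lt_of_le hT_N (Subgroup.card_le_of_le (hTN_le.trans hT'1)))
  exact rel1.trans (rel2.trans (rel3.trans rel4))

theorem aux {G : Type*} [Group G] [Finite G] (p : ℕ) [Fact p.Prime]
    (f : Subgroup G → Set (Subgroup G)) (hf : Cfsg.IsNormalizerFunctor p f)
    (hf1 : ∀ P : Subgroup G, IsPGroup p ↥P → P ≠ ⊥ → ∀ F ∈ f P, F ≠ ⊥)
    (𝓕 𝓕' : Set (Subgroup G)) (h𝓕 : 𝓕 = Cfsg.functorFamily p f ⊤)
    (h𝓕' : 𝓕' = {M | Cfsg.IsMaximalPLocal p M ∧ ¬ Cfsg.IsFunctorRegular p f M}) :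
    Cfsg.ControlsSylowIntersections p (𝓕 ∪ 𝓕') := by
  rw [controls_iff]
  intro S T _ hne
  exact outer hf hf1 (h𝓕 ▸ Set.subset_union_left) (h𝓕' ▸ Set.subset_union_right) _ S T hne rfl

/-- Let p be a prime dividing the order of the finite group G, and f an assignment to every p-subgroup P of a set f(P) of subgroups of P, each normalized by N_G(P), compatible with conjugation, such that for P ≠ 1 the members of f(P) are nontrivial. Let 𝓕 be the family of the normalizers N_G(F) of the members F of f(S) over the Sylow p-subgroups S of G, and 𝓕' the family of the maximal p-local subgroups M of G that are singular for f (the corresponding family of normalizers inside M does not control Sylow p-intersections in M). Then 𝓕 ∪ 𝓕' controls Sylow p-intersections in G. -/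
theorem result {G : Type*} [Group G] [Finite G] (p : ℕ) [Fact p.Prime] (hdiv : p ∣ Nat.card G)
    (f : Subgroup G → Set (Subgroup G)) (hf : Cfsg.IsNormalizerFunctor p f)
    (hf1 : ∀ P : Subgroup G, IsPGroup p ↥P → P ≠ ⊥ → ∀ F ∈ f P, F ≠ ⊥)
    (𝓕 𝓕' : Set (Subgroup G)) (h𝓕 : 𝓕 = Cfsg.functorFamily p f ⊤)
    (h𝓕' : 𝓕' = {M | Cfsg.IsMaximalPLocal p M ∧ ¬ Cfsg.IsFunctorRegular p f M}) :
    Cfsg.ControlsSylowIntersections p (𝓕 ∪ 𝓕') := by
  exact aux p f hf hf1 𝓕 𝓕' h𝓕 h𝓕'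

end Cfsg.Agent.S2956
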