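import Cfsg.Statements.S2957
import Mathlib
import Cfsg.Agent.Lib.Helper58.SylowConj
import Cfsg.Agent.Lib.Helper58.SylowControl
import Cfsg.Agent.Lib.Helper58.FunctorRegular

set_option autoImplicit false
open Cfsg

namespace Cfsg.Agent.S2957


open Cfsg.Agent.Lib.Helper58

theorem aux {G : Type*} [Group G] [Finite G] (p : ℕ) [Fact p.Prime]
    (f : Subgroup G → Set (Subgroup G)) (hf : Cfsg.IsNormalizerFunctor p f) (S : Sylow p G)
    (G₁ G₂ : Subgroup G) (h₁ : (S : Subgroup G) ≤ G₁) (h₂ : (S : Subgroup G) ≤ G₂)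
    (hprod : ∀ g : G, ∃ g₁ ∈ G₁, ∃ g₂ ∈ G₂, g = g₁ * g₂)
    (hr₁ : Cfsg.IsFunctorRegular p f G₁) (hr₂ : Cfsg.IsFunctorRegular p f G₂) :
    Cfsg.IsFunctorRegular p f ⊤ := by
  have hM₁ : ¬ p ∣ G₁.index := fun h => S.not_dvd_index (h.trans (Subgroup.index_dvd_of_le h₁))
  have hM₂ : ¬ p ∣ G₂.index := fun h => S.not_dvd_index (h.trans (Subgroup.index_dvd_of_le h₂))
  have key : ∀ T : Sylow p G, S ≠ T → (S : Subgroup G) ⊓ (T : Subgroup G) ≠ ⊥ →
      Relation.ReflTransGen (FLink p f ⊤ ((S : Subgroup G) ⊓ (T : Subgroup G))) S T := by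
    intro T hST hne
    obtain ⟨g', hg'⟩ := MulAction.exists_smul_eq G S T
    obtain ⟨g₁, hg₁, g₂, hg₂, hg⟩ := hprod g'⁻¹
    have hTU : T = g₂⁻¹ • (g₁⁻¹ • S) := by
      rw [smul_smul, ← mul_inv_rev, ← hg, inv_inv, hg']
    have hUG₁ : ((g₁⁻¹ • S : Sylow p G) : Subgroup G) ≤ G₁ := by
      intro y hy
      rw [coe_inv_smul_sylow, mem_subgroupConjRight] at hy
      have h3 : y = g₁⁻¹ * (g₁ * y * g₁⁻¹) * g₁ := by group
      rw [h3]
      exact G₁.mul_mem (G₁.mul_mem (G₁.inv_mem hg₁) (h₁ hy)) hg₁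
    have hD_T : (S : Subgroup G) ⊓ (T : Subgroup G) ≤
        subgroupConjRight g₂ ((g₁⁻¹ • S : Sylow p G) : Subgroup G) := by
      rw [← coe_inv_smul_sylow, ← hTU]; exact inf_le_right
    have hEU : subgroupConjRight g₂⁻¹ ((S : Subgroup G) ⊓ (T : Subgroup G)) ≤
        ((g₁⁻¹ • S : Sylow p G) : Subgroup G) := by
      have := subgroupConjRight_mono (g := g₂⁻¹) hD_T
      rwa [subgroupConjRight_inv_cancel] at this
    have hEG₂ : subgroupConjRight g₂⁻¹ ((S : Subgroup G) ⊓ (T : Subgroup G)) ≤ G₂ := by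
      intro y hy
      rw [mem_subgroupConjRight] at hy
      have h3 : y = g₂ * (g₂⁻¹ * y * g₂⁻¹⁻¹) * g₂⁻¹ := by group
      rw [h3]
      exact G₂.mul_mem (G₂.mul_mem hg₂ (h₂ hy.1)) (G₂.inv_mem hg₂)
    have hEp : IsPGroup p ↥(subgroupConjRight g₂⁻¹ ((S : Subgroup G) ⊓ (T : Subgroup G))) :=
      isPGroup_subgroupConjRight _ (S.2.to_le inf_le_left)
    have hEne : subgroupConjRight g₂⁻¹ ((S : Subgroup G) ⊓ (T : Subgroup G)) ≠ ⊥ :=
      subgroupConjRight_ne_bot hne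
    obtain ⟨a, haH, ha⟩ := exists_conj_le_sylow_of_le S (le_inf h₁ h₂ : (S : Subgroup G) ≤ G₁ ⊓ G₂)
      (le_inf (hEU.trans hUG₁) hEG₂) hEp
    have hER : subgroupConjRight g₂⁻¹ ((S : Subgroup G) ⊓ (T : Subgroup G)) ≤
        ((a⁻¹ • S : Sylow p G) : Subgroup G) := by
      intro y hy
      rw [coe_inv_smul_sylow, mem_subgroupConjRight]
      exact ha y hy
    have hRG : ((a⁻¹ • S : Sylow p G) : Subgroup G) ≤ G₁ ⊓ G₂ := by
      intro y hy
      rw [coe_inv_smul_sylow, mem_subgroupConjRight] at hy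
      have h3 : y = a⁻¹ * (a * y * a⁻¹) * a := by group
      rw [h3]
      exact (G₁ ⊓ G₂).mul_mem ((G₁ ⊓ G₂).mul_mem ((G₁ ⊓ G₂).inv_mem haH)
        ((le_inf h₁ h₂ : (S : Subgroup G) ≤ G₁ ⊓ G₂) hy)) haH
    have hcancel : subgroupConjRight g₂
        (subgroupConjRight g₂⁻¹ ((S : Subgroup G) ⊓ (T : Subgroup G))) =
        (S : Subgroup G) ⊓ (T : Subgroup G) := subgroupConjRight_cancel_inv g₂ _
    have leg2 : Relation.ReflTransGen (FLink p f ⊤ ((S : Subgroup G) ⊓ (T : Subgroup G)))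
        (g₂⁻¹ • (a⁻¹ • S)) T := by
      by_cases hRU : (a⁻¹ • S : Sylow p G) = g₁⁻¹ • S
      · rw [hTU, hRU]
      · have h1 := regular_flink hf hM₁ hr₁ (a⁻¹ • S) (g₁⁻¹ • S) (hRG.trans inf_le_left) hUG₁ hRU
          (ne_bot_of_le_ne_bot hEne (le_inf hER hEU))
        have h2 : Relation.ReflTransGen (FLink p f ⊤
            (subgroupConjRight g₂⁻¹ ((S : Subgroup G) ⊓ (T : Subgroup G))))
            (a⁻¹ • S) (g₁⁻¹ • S) :=
          reflTransGen_mono (fun a b h => flink_mono le_top (le_inf hER hEU) h) h1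
        have h3 := reflTransGen_lift (fun A : Sylow p G => g₂⁻¹ • A)
          (fun a b h => flink_conj hf g₂ h) h2
        rw [hcancel, ← hTU] at h3
        exact h3
    have hR'G₂ : ((g₂⁻¹ • (a⁻¹ • S) : Sylow p G) : Subgroup G) ≤ G₂ := by
      intro y hy
      rw [coe_inv_smul_sylow, mem_subgroupConjRight] at hy
      have h3 : y = g₂⁻¹ * (g₂ * y * g₂⁻¹) * g₂ := by group
      rw [h3]
      exact G₂.mul_mem (G₂.mul_mem (G₂.inv_mem hg₂) ((hRG.trans inf_le_right) hy)) hg₂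
    have hD1 : (S : Subgroup G) ⊓ (T : Subgroup G) ≤
        (S : Subgroup G) ⊓ ((g₂⁻¹ • (a⁻¹ • S) : Sylow p G) : Subgroup G) := by
      refine le_inf inf_le_left ?_
      rw [coe_inv_smul_sylow, ← hcancel]
      exact subgroupConjRight_mono hER
    have leg1 : Relation.ReflTransGen (FLink p f ⊤ ((S : Subgroup G) ⊓ (T : Subgroup G)))
        S (g₂⁻¹ • (a⁻¹ • S)) := by
      by_cases hSR : S = g₂⁻¹ • (a⁻¹ • S)
      · rw [← hSR]
      · have h1 := regular_flink hf hM₂ hr₂ S (g₂⁻¹ • (a⁻¹ • S)) h₂ hR'G₂ hSR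
          (ne_bot_of_le_ne_bot hne hD1)
        exact reflTransGen_mono (fun a b h => flink_mono le_top hD1 h) h1
    exact leg1.trans leg2
  apply top_regular_of_flink
  intro A B hAB hne
  obtain ⟨a', ha'⟩ := MulAction.exists_smul_eq G S A
  have hB : B = a'⁻¹⁻¹ • (a'⁻¹ • B) := by rw [inv_inv, smul_inv_smul]
  have hA : A = a'⁻¹⁻¹ • S := by rw [inv_inv, ha']
  have hSB₁ : S ≠ a'⁻¹ • B := by
    intro h
    apply hAB
    rw [hA, hB, ← h]
  have hD : subgroupConjRight a'⁻¹ ((S : Subgroup G) ⊓ ((a'⁻¹ • B : Sylow p G) : Subgroup G)) =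
      (A : Subgroup G) ⊓ (B : Subgroup G) := by
    rw [subgroupConjRight_inf, ← coe_inv_smul_sylow, ← coe_inv_smul_sylow, ← hA, ← hB]
  have hne₁ : (S : Subgroup G) ⊓ ((a'⁻¹ • B : Sylow p G) : Subgroup G) ≠ ⊥ := by
    intro h
    rw [h] at hD
    apply hne
    rw [← hD]
    exact Subgroup.map_bot _
  have h1 := key (a'⁻¹ • B) hSB₁ hne₁
  have h3 := reflTransGen_lift (fun A : Sylow p G => a'⁻¹⁻¹ • A)
    (fun a b h => flink_conj hf a'⁻¹ h) h1
  rw [hD, ← hA, ← hB] at h3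
  exact h3

/-- Let p be a prime dividing the order of the finite group G, f an equivariant assignment of a set of subgroups f(P) of P to every p-subgroup P, each normalized by N_G(P), and S a Sylow p-subgroup. If G = G₁G₂ for subgroups G₁, G₂ both containing S and both regular for f (in each Gᵢ, the family of normalizers in Gᵢ of the members of f(P), P a Sylow p-subgroup of Gᵢ, controls Sylow p-intersections), then G itself is regular for f. -/
theorem result {G : Type*} [Group G] [Finite G] (p : ℕ) [Fact p.Prime] (hdiv : p ∣ Nat.card G)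
    (f : Subgroup G → Set (Subgroup G)) (hf : Cfsg.IsNormalizerFunctor p f) (S : Sylow p G)
    (G₁ G₂ : Subgroup G) (h₁ : (S : Subgroup G) ≤ G₁) (h₂ : (S : Subgroup G) ≤ G₂)
    (hprod : ∀ g : G, ∃ g₁ ∈ G₁, ∃ g₂ ∈ G₂, g = g₁ * g₂)
    (hr₁ : Cfsg.IsFunctorRegular p f G₁) (hr₂ : Cfsg.IsFunctorRegular p f G₂) :
    Cfsg.IsFunctorRegular p f ⊤ := by
  exact aux p f hf S G₁ G₂ h₁ h₂ hprod hr₁ hr₂

end Cfsg.Agent.S2957
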