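import Cfsg.Statements.S2958

set_option autoImplicit false
open Pointwise
open Cfsg

namespace Cfsg.Agent.S2958

/-- Let X, A, B be subgroups of a group G such that G is generated by the conjugates of X and every conjugate of X is contained in A or in B. Then A = G or B = G. -/
theorem result {G : Type*} [Group G] (X A B : Subgroup G) (hgen : (⨆ g : G, X.map (MulAut.conj g).toMonoidHom) = ⊤) (hcover : ∀ g : G, X.map (MulAut.conj g).toMonoidHom ≤ A ∨ X.map (MulAut.conj g).toMonoidHom ≤ B) : A = ⊤ ∨ B = ⊤ := by
  classical
  by_cases hall : ∀ g : G, X.map (MulAut.conj g).toMonoidHom ≤ A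
  · left
    rw [eq_top_iff, ← hgen]
    exact iSup_le hall
  · right
    obtain ⟨g₀, hg₀⟩ := not_forall.mp hall
    -- H = join of the conjugates not inside A
    set H : Subgroup G := ⨆ g : {g : G // ¬ X.map (MulAut.conj g).toMonoidHom ≤ A},
      X.map (MulAut.conj (g : G)).toMonoidHom with hH
    have hHB : H ≤ B := by
      refine iSup_le ?_
      rintro ⟨g, hg⟩
      rcases hcover g with h | h
      · exact absurd h hg
      · exact h
    have hconj : ∀ (a g : G), (X.map (MulAut.conj g).toMonoidHom).map (MulAut.conj a).toMonoidHom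
        = X.map (MulAut.conj (a * g)).toMonoidHom := by
      intro a g
      rw [Subgroup.map_map]
      congr 1
      ext x
      simp [mul_assoc]
    -- elements of A conjugate H into H
    have hAH : ∀ a ∈ A, H.map (MulAut.conj a).toMonoidHom ≤ H := by
      intro a ha
      rw [hH, Subgroup.map_iSup]
      refine iSup_le ?_
      rintro ⟨g, hg⟩
      rw [hconj]
      have : ¬ X.map (MulAut.conj (a * g)).toMonoidHom ≤ A := by
        intro hcon
        apply hg
        intro y hy
        have h1 : a * y * a⁻¹ ∈ X.map (MulAut.conj (a * g)).toMonoidHom := by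
          rw [← hconj]
          exact ⟨y, hy, by simp⟩
        have h2 := hcon h1
        have h3 : a⁻¹ * (a * y * a⁻¹) * a ∈ A := A.mul_mem (A.mul_mem (A.inv_mem ha) h2) ha
        simpa [mul_assoc] using h3
      exact le_iSup (fun g : {g : G // ¬ X.map (MulAut.conj g).toMonoidHom ≤ A} =>
        X.map (MulAut.conj (g : G)).toMonoidHom) ⟨a * g, this⟩
    have hmapH : ∀ a : G, a ∈ H → H.map (MulAut.conj a).toMonoidHom ≤ H := by
      intro a ha
      rintro _ ⟨y, hy, rfl⟩
      exact H.mul_mem (H.mul_mem ha hy) (H.inv_mem ha)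
    -- every conjugate of X maps H into H
    have hnorm : ∀ g : G, ∀ a ∈ X.map (MulAut.conj g).toMonoidHom, H.map (MulAut.conj a).toMonoidHom ≤ H := by
      intro g a ha
      by_cases hgA : X.map (MulAut.conj g).toMonoidHom ≤ A
      · exact hAH a (hgA ha)
      · exact hmapH a (le_iSup (fun g : {g : G // ¬ X.map (MulAut.conj g).toMonoidHom ≤ A} =>
          X.map (MulAut.conj (g : G)).toMonoidHom) ⟨g, hgA⟩ ha)
    -- the set of elements mapping H into H (together with inverses) is a subgroup containing everything
    have hN : ∀ a : G, H.map (MulAut.conj a).toMonoidHom ≤ H := by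
      intro a
      have ha : a ∈ (⨆ g : G, X.map (MulAut.conj g).toMonoidHom) := by rw [hgen]; trivial
      induction ha using Subgroup.iSup_induction' with
      | hp g x hx => exact hnorm g x hx
      | h1 =>
        rintro _ ⟨y, hy, rfl⟩
        simpa using hy
      | hmul x y _ _ hx hy =>
        rintro _ ⟨z, hz, rfl⟩
        have h1 : y * z * y⁻¹ ∈ H := hy ⟨z, hz, by simp⟩
        have h2 : x * (y * z * y⁻¹) * x⁻¹ ∈ H := hx ⟨_, h1, by simp⟩
        simpa [mul_assoc] using h2
    have hg₀H : X.map (MulAut.conj g₀).toMonoidHom ≤ H :=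
      le_iSup (fun g : {g : G // ¬ X.map (MulAut.conj g).toMonoidHom ≤ A} =>
          X.map (MulAut.conj (g : G)).toMonoidHom) ⟨g₀, hg₀⟩
    have htop : (⊤ : Subgroup G) ≤ H := by
      rw [← hgen]
      refine iSup_le ?_
      intro g
      have : X.map (MulAut.conj g).toMonoidHom
          = (X.map (MulAut.conj g₀).toMonoidHom).map (MulAut.conj (g * g₀⁻¹)).toMonoidHom := by
        rw [hconj]; simp
      rw [this]
      exact le_trans (Subgroup.map_mono hg₀H) (hN _)
    exact eq_top_iff.mpr (le_trans htop hHB)

end Cfsg.Agent.S2958
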