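import Cfsg.Statements.S2963
import Mathlib

set_option autoImplicit false
open Cfsg

namespace Cfsg.Agent.S2963

open scoped Pointwise in
theorem aux (n : ℕ) (hn : Odd n) (h : Cfsg.IsPMinimal 2 (Equiv.Perm (Fin n))) : ∃ m : ℕ, n = 2 ^ m + 1 := by
  classical
  have : Fact (Nat.Prime 2) := ⟨Nat.prime_two⟩
  obtain ⟨S⟩ := (inferInstance : Nonempty (Sylow 2 (Equiv.Perm (Fin n))))
  obtain ⟨hnn, M, ⟨hM1, hM2⟩, hMuniq⟩ := h S
  have hSp : IsPGroup 2 ↥(S : Subgroup (Equiv.Perm (Fin n))) := S.isPGroup'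
  -- a fixed point
  have hodd : ¬ 2 ∣ Nat.card (Fin n) := by
    rw [Nat.card_fin]
    exact fun h2 => (Nat.not_even_iff_odd.mpr hn) (even_iff_two_dvd.mpr h2)
  obtain ⟨i₀, hi₀⟩ := hSp.nonempty_fixed_point_of_prime_not_dvd_card (Fin n) hodd
  rw [MulAction.mem_fixedPoints] at hi₀
  have hfix : ∀ σ ∈ (S : Subgroup (Equiv.Perm (Fin n))), σ i₀ = i₀ := fun σ hσ => hi₀ ⟨σ, hσ⟩
  by_cases hex : ∃ j : Fin n, j ≠ i₀
  · obtain ⟨j, hj⟩ := hex
    -- the orbit of j
    set O : Set (Fin n) := MulAction.orbit ↥(S : Subgroup (Equiv.Perm (Fin n))) j with hO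
    have hjO : j ∈ O := MulAction.mem_orbit_self j
    have hi₀O : i₀ ∉ O := by
      intro hmem
      obtain ⟨σ, hσ⟩ := hmem
      have h1 : (σ : Equiv.Perm (Fin n)) j = i₀ := hσ
      have h2 : (σ : Equiv.Perm (Fin n)) i₀ = i₀ := hfix _ σ.2
      exact hj ((σ : Equiv.Perm (Fin n)).injective (h1.trans h2.symm))
    have hS1 : (S : Subgroup (Equiv.Perm (Fin n))) ≤ MulAction.stabilizer (Equiv.Perm (Fin n)) ({i₀} : Set (Fin n)) := by
      intro σ hσ
      rw [MulAction.mem_stabilizer_iff, Set.smul_set_singleton]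
      congr 1
      exact hfix σ hσ
    have hS2 : (S : Subgroup (Equiv.Perm (Fin n))) ≤ MulAction.stabilizer (Equiv.Perm (Fin n)) O := by
      intro σ hσ
      rw [MulAction.mem_stabilizer_iff]
      exact MulAction.smul_orbit (⟨σ, hσ⟩ : ↥(S : Subgroup (Equiv.Perm (Fin n)))) j
    have hcard : ∀ s : Set (Fin n), Nat.card (Fin n) ≠ 2 * s.ncard := by
      intro s hs
      rw [Nat.card_fin] at hs
      exact (Nat.not_even_iff_odd.mpr hn) ⟨s.ncard, by omega⟩
    have hc1 : IsCoatom (MulAction.stabilizer (Equiv.Perm (Fin n)) ({i₀} : Set (Fin n))) :=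
      Equiv.Perm.isCoatom_stabilizer (Set.singleton_nonempty i₀) ⟨j, hj⟩ (hcard _)
    have hc2 : IsCoatom (MulAction.stabilizer (Equiv.Perm (Fin n)) O) :=
      Equiv.Perm.isCoatom_stabilizer ⟨j, hjO⟩ ⟨i₀, hi₀O⟩ (hcard _)
    have heq : MulAction.stabilizer (Equiv.Perm (Fin n)) ({i₀} : Set (Fin n))
        = MulAction.stabilizer (Equiv.Perm (Fin n)) O :=
      (hMuniq _ ⟨hc1, hS1⟩).trans (hMuniq _ ⟨hc2, hS2⟩).symm
    -- O must be the whole complement of i₀
    have hOc : ∀ b : Fin n, b ≠ i₀ → b ∈ O := by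
      intro b hb
      by_contra hbO
      have hjb : j ≠ b := fun hjb => hbO (hjb ▸ hjO)
      have hsw : Equiv.swap j b ∈ MulAction.stabilizer (Equiv.Perm (Fin n)) ({i₀} : Set (Fin n)) := by
        rw [MulAction.mem_stabilizer_iff, Set.smul_set_singleton]
        congr 1
        exact Equiv.swap_apply_of_ne_of_ne (Ne.symm hj) (Ne.symm hb)
      rw [heq, MulAction.mem_stabilizer_iff] at hsw
      have : Equiv.swap j b • j ∈ Equiv.swap j b • O := Set.smul_mem_smul_set hjO
      rw [hsw] at this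
      have h2 : Equiv.swap j b • j = b := Equiv.swap_apply_left j b
      rw [h2] at this
      exact hbO this
    have hOeq : O = ({i₀} : Set (Fin n))ᶜ := by
      ext b
      simp only [Set.mem_compl_iff, Set.mem_singleton_iff]
      constructor
      · intro hb hbi; exact hi₀O (hbi ▸ hb)
      · exact hOc b
    obtain ⟨m, hm⟩ := hSp.card_orbit j
    refine ⟨m, ?_⟩
    have h1 : Nat.card ↥O = n - 1 := by
      rw [hOeq, Nat.card_coe_set_eq, Set.ncard_compl, Set.ncard_singleton, Nat.card_fin]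
    have h2 : Nat.card ↥O = 2 ^ m := hm
    have hn1 : 1 ≤ n := by
      rcases hn with ⟨k, rfl⟩; omega
    omega
  · exfalso
    apply hnn
    have hsub : Subsingleton (Fin n) := ⟨fun a b => by
      by_contra hab
      by_cases ha : a = i₀
      · exact hex ⟨b, fun hb => hab (ha.trans hb.symm)⟩
      · exact hex ⟨a, ha⟩⟩
    have : Subsingleton (Equiv.Perm (Fin n)) := ⟨fun a b => by ext x; exact congrArg _ (Subsingleton.elim _ _)⟩
    have : Subsingleton (Subgroup (Equiv.Perm (Fin n))) := inferInstance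
    rw [Subsingleton.elim (S : Subgroup (Equiv.Perm (Fin n))) ⊤]
    infer_instance


/-- Let n be odd. If the symmetric group of degree n is a minimal parabolic group for the prime 2, that is, a Sylow 2-subgroup is not normal and lies in exactly one maximal subgroup, then n = 2^m + 1 for some natural number m. -/
theorem result (n : ℕ) (hn : Odd n) (h : Cfsg.IsPMinimal 2 (Equiv.Perm (Fin n))) : ∃ m : ℕ, n = 2 ^ m + 1 := by
  exact aux n hn h

end Cfsg.Agent.S2963
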