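import Cfsg.Statements.S2983
import Cfsg.Agent.Lib.Helper93.JbBAU
import Cfsg.Agent.Lib.Helper93.JbGN

set_option autoImplicit false
open Cfsg

namespace Cfsg.Agent.S2983

open scoped commutatorElement

open Cfsg.Agent.Lib.Helper93.Jb (bau_normal bau_eq_of_le gn_normalizer)

theorem jb_main {G : Type*} [Group G] [Finite G] {p : ℕ} [Fact p.Prime] (T : Sylow p G) (E : Subgroup G) (hE : Cfsg.IsBaumannBlock p (T : Subgroup G) E) (Q : Subgroup G) (hQ : IsPGroup p ↥Q) (hBQ : Cfsg.baumannSubgroupOf p (T : Subgroup G) ≤ Subgroup.normalizer (Q : Set G)) (hEQ : E ≤ Subgroup.normalizer (Q : Set G)) : Q ≤ Subgroup.normalizer (E : Set G) := by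
  set B := Cfsg.baumannSubgroupOf p (T : Subgroup G) with hBdef
  have hBT : B ≤ (T : Subgroup G) := inf_le_left
  have hB : IsPGroup p ↥B := T.isPGroup'.to_le hBT
  have hQB : IsPGroup p ↥(Q ⊔ B) := IsPGroup.to_sup_of_normal_left' hQ hB hBQ
  obtain ⟨P, hP⟩ := hQB.exists_le_sylow
  obtain ⟨g, hg⟩ := MulAction.exists_smul_eq G T P
  have hle : Q ⊔ B ≤ (T : Subgroup G).map (MulAut.conj g).toMonoidHom := by
    intro x hx
    have hxP : x ∈ (P : Subgroup G) := hP hx
    rw [← hg] at hxP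
    rw [Sylow.coe_subgroup_smul, Subgroup.mem_pointwise_smul_iff_inv_smul_mem] at hxP
    refine ⟨g⁻¹ * x * g, ?_, ?_⟩
    · have h1 : g⁻¹ * x * g ∈ (T : Subgroup G) := by
        simpa [MulAut.smul_def, MulAut.conj_apply] using hxP
      exact h1
    · simp [MulAut.conj_apply, mul_assoc]
  have hBeq := bau_eq_of_le p (T : Subgroup G) g (le_sup_right.trans hle)
  have hQN : Q ≤ Subgroup.normalizer (B : Set G) := by
    rw [hBdef, ← hBeq]
    exact (le_sup_left.trans hle).trans (bau_normal p _)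
  exact gn_normalizer p E B Q hB hE.2.1 hE.1 (sup_le hEQ hBQ) hQN

/-- Let G be a finite group of characteristic p (C_G(O_p(G)) ≤ O_p(G)), T a Sylow p-subgroup and E a B(T)-block of G. If Q is a p-subgroup of G normalized by both B(T) and E, then Q normalizes E. -/
theorem result {G : Type*} [Group G] [Finite G] {p : ℕ} [Fact p.Prime] (hG : Subgroup.centralizer (Cfsg.pCore p G : Set G) ≤ Cfsg.pCore p G) (T : Sylow p G) (E : Subgroup G) (hE : Cfsg.IsBaumannBlock p (T : Subgroup G) E) (Q : Subgroup G) (hQ : IsPGroup p ↥Q) (hBQ : Cfsg.baumannSubgroupOf p (T : Subgroup G) ≤ Subgroup.normalizer (Q : Set G)) (hEQ : E ≤ Subgroup.normalizer (Q : Set G)) : Q ≤ Subgroup.normalizer (E : Set G) := by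
  exact jb_main T E hE Q hQ hBQ hEQ

end Cfsg.Agent.S2983
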