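import Cfsg.Statements.S2984
import Cfsg.Agent.S2983
import Cfsg.Agent.S2946
import Cfsg.Agent.Lib.Helper9.JdSL2T
import Cfsg.Agent.Lib.Helper88.JdALT
import Cfsg.Agent.Lib.Helper94.JdIRR
import Cfsg.Agent.Lib.Helper57.JdFIX
import Cfsg.Agent.Lib.Helper78.JdOCP
import Cfsg.Agent.Lib.Helper78.JdTHP

set_option autoImplicit false
open Cfsg

namespace Cfsg.Agent.S2984

open scoped commutatorElement

open Cfsg.Agent.Lib.Helper9.Jd (sl2c_transitive)
open Cfsg.Agent.Lib.Helper88.Jd (alt_even_irred)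
open Cfsg.Agent.Lib.Helper94.Jd (irr_sl irr_alt)
open Cfsg.Agent.Lib.Helper57.Jd (fix_section res_sup)
open Cfsg.Agent.Lib.Helper78.Jd (ocp_le ocp_comm ocp_pow ocp_mem ocp_normalizer pcp_le pcp_pgroup
  pcp_normalizer pcp_max pcore_pgroup pcore_normal pcore_le_sylow thp_mem_of_central)

/-! ## Main assembly -/

open Cfsg.Agent.S2941 (mem_normalizer_of_conj conj_mem_of_mem_normalizer conj_mem_of_mem_normalizer')

/-- The degenerate symmetric case `m = 0` cannot occur for a block. -/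
theorem jd_no_m0 {G : Type*} [Group G] {p : ℕ} (E X : Subgroup G)
    (hPE : ⁅Cfsg.pCoreOf p E, E⁆ = Cfsg.pCoreOf p E) (hEX : ⁅E, X⁆ ≠ ⊥)
    (hiso : Nonempty (↥E ⧸ Cfsg.pCore p ↥E ≃* ↥(alternatingGroup (Fin 1))))
    (hact : Cfsg.ActsAsOddPermModuleOnSection 1 (alternatingGroup (Fin 1)) E
      (Cfsg.omegaOneCenter p (Cfsg.pCoreOf p E))
      (Cfsg.omegaOneCenter p (Cfsg.pCoreOf p E) ⊓ Subgroup.centralizer (E : Set G)))
    (hPW : Cfsg.pCoreOf p E = Cfsg.omegaOneCenter p (Cfsg.pCoreOf p E)) : False := by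
  obtain ⟨-, -, ρ, ψ, -, hsum, -, hker, -⟩ := hact
  -- W ≤ C(E)
  have hWC : Cfsg.pCoreOf p E ≤ Subgroup.centralizer (E : Set G) := by
    intro u hu
    rw [hPW] at hu
    have h1 := hsum ⟨u, hu⟩
    have h2 : ψ ⟨u, hu⟩ = 1 := by
      have h3 : Multiplicative.toAdd (ψ ⟨u, hu⟩) = 0 := by
        funext i
        have hi : i = 0 := Subsingleton.elim _ _
        subst hi
        simpa using h1
      exact h3
    exact ((hker ⟨u, hu⟩).mp h2).2
  -- so [P, E] = 1 and P = 1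
  have hP : Cfsg.pCoreOf p E = ⊥ := by
    rw [← hPE]
    rw [Subgroup.commutator_eq_bot_iff_le_centralizer]
    exact hWC
  -- pCore p E = ⊥ as a subgroup of E
  have hP' : Cfsg.pCore p ↥E = ⊥ := by
    have h1 : (Cfsg.pCore p ↥E).map E.subtype = ⊥ := hP
    rw [eq_bot_iff]
    intro x hx
    have h2 : (E.subtype x) ∈ (Cfsg.pCore p ↥E).map E.subtype := Subgroup.mem_map_of_mem _ hx
    rw [h1, Subgroup.mem_bot] at h2
    rw [Subgroup.mem_bot]
    exact Subtype.ext h2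
  -- E is trivial
  obtain ⟨f⟩ := hiso
  have hsub : Subsingleton ↥(alternatingGroup (Fin 1)) := by
    have : Subsingleton (Equiv.Perm (Fin 1)) := by
      refine ⟨fun a b => ?_⟩
      ext i
      have h1 : a i = 0 := Subsingleton.elim _ _
      have h2 : b i = 0 := Subsingleton.elim _ _
      rw [h1, h2]
    infer_instance
  have hEtriv : ∀ e : ↥E, e = 1 := by
    intro e
    have h1 : f (QuotientGroup.mk e) = f 1 := Subsingleton.elim _ _
    have h2 : (QuotientGroup.mk e : ↥E ⧸ Cfsg.pCore p ↥E) = 1 := f.injective h1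
    rw [QuotientGroup.eq_one_iff, hP', Subgroup.mem_bot] at h2
    exact h2
  apply hEX
  rw [Subgroup.commutator_eq_bot_iff_le_centralizer]
  intro e he
  have := hEtriv ⟨e, he⟩
  have he1 : e = 1 := congrArg Subtype.val this
  rw [he1]
  exact Subgroup.one_mem _

theorem jd_main {G : Type*} [Group G] [Finite G] {p : ℕ} [Fact p.Prime]
    (hG : Subgroup.centralizer (Cfsg.pCore p G : Set G) ≤ Cfsg.pCore p G) (T : Sylow p G)
    (E : Subgroup G) (hE : Cfsg.IsBaumannBlock p (T : Subgroup G) E) :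
    Cfsg.pResidualOf p (E ⊔ Cfsg.pCore p G) = E ∧
      ⁅Cfsg.omegaOneCenter p (Cfsg.pCoreOf p E), E⁆ ≤ Cfsg.omegaOneCenter p (Cfsg.pCore p G) ∧
      ⁅⁅Cfsg.omegaOneCenter p (Cfsg.pCoreOf p E), E⁆,
        Cfsg.thompsonSubgroupOf p (T : Subgroup G)⁆ ≠ ⊥ := by
  have hRn : (Cfsg.pCore p G).Normal := pcore_normal p
  have hRp : IsPGroup p ↥(Cfsg.pCore p G) := pcore_pgroup p
  have hRtop : ∀ H : Subgroup G, H ≤ Subgroup.normalizer ((Cfsg.pCore p G : Subgroup G) : Set G) := by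
    intro H h _
    rw [Subgroup.normalizer_eq_top]
    trivial
  have hRE : Cfsg.pCore p G ≤ Subgroup.normalizer (E : Set G) :=
    Cfsg.Agent.S2983.result hG T E hE (Cfsg.pCore p G) hRp (hRtop _) (hRtop _)
  obtain ⟨hres, hEB, hPE, hEZT, hcase⟩ := hE
  set R := Cfsg.pCore p G with hRdef
  set P := Cfsg.pCoreOf p E with hPdef
  set W := Cfsg.omegaOneCenter p P with hWdef
  set Z := W ⊓ Subgroup.centralizer (E : Set G) with hZdef
  -- irreducibility and nontriviality of the section W/Z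
  have hirr : (∀ U : Subgroup G, Z ≤ U → U ≤ W → (∀ e ∈ E, ∀ u ∈ U, e * u * e⁻¹ ∈ U) →
      U = Z ∨ U = W) ∧ ¬ (∀ w ∈ W, ∀ e ∈ E, e * w * e⁻¹ * w⁻¹ ∈ Z) := by
    rcases hcase with ⟨F, _, _, n, hcard, hiso, hact, _⟩ | ⟨hp2, m, hiso, hact, hPW⟩
    · exact irr_sl F E W Z hact (sl2c_transitive F)
    · rcases Nat.eq_zero_or_pos m with hm0 | hm
      · exfalso
        subst hm0
        exact jd_no_m0 E _ hPE hEZT hiso hact hPW
      · exact irr_alt m hm E W Z hact (alt_even_irred m hm)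
  -- normalizers
  have hEP : E ≤ Subgroup.normalizer (P : Set G) := Subgroup.le_normalizer.trans (pcp_normalizer p E)
  have hEW : E ≤ Subgroup.normalizer (W : Set G) := hEP.trans (ocp_normalizer p P)
  have hRP : R ≤ Subgroup.normalizer (P : Set G) := hRE.trans (pcp_normalizer p E)
  have hRW : R ≤ Subgroup.normalizer (W : Set G) := hRP.trans (ocp_normalizer p P)
  have hPp : IsPGroup p ↥P := pcp_pgroup p E
  have hPE' : P ≤ E := pcp_le p E
  have hWP : W ≤ P := ocp_le p P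
  have hWab : ∀ a ∈ W, ∀ b ∈ W, a * b = b * a := fun a ha b hb => ocp_comm p P a ha b (hWP hb)
  have hPcW : ∀ c ∈ P, c ∈ Subgroup.centralizer (W : Set G) := fun c hc =>
    Subgroup.mem_centralizer_iff.mpr (fun w hw => ocp_comm p P w hw c hc)
  have hZE : ∀ z ∈ Z, ∀ e ∈ E, e * z = z * e := fun z hz e he =>
    Subgroup.mem_centralizer_iff.mp hz.2 e he
  -- [E, R] ≤ P
  have hERn : E ≤ Subgroup.normalizer ((E ⊓ R : Subgroup G) : Set G) := by
    intro e he
    refine mem_normalizer_of_conj ?_ ?_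
    · rintro k ⟨hkE, hkR⟩
      exact ⟨E.mul_mem (E.mul_mem he hkE) (E.inv_mem he), hRn.conj_mem k hkR e⟩
    · rintro k ⟨hkE, hkR⟩
      refine ⟨E.mul_mem (E.mul_mem (E.inv_mem he) hkE) he, ?_⟩
      have := hRn.conj_mem k hkR e⁻¹
      simpa using this
  have hERP : ∀ x ∈ R, ∀ e ∈ E, x * e * x⁻¹ * e⁻¹ ∈ P := by
    intro x hx e he
    apply pcp_max p E (E ⊓ R) inf_le_left hERn (hRp.to_le inf_le_right)
    refine ⟨E.mul_mem (conj_mem_of_mem_normalizer (hRE hx) he) (E.inv_mem he), ?_⟩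
    have h1 : e * x⁻¹ * e⁻¹ ∈ R := hRn.conj_mem _ (R.inv_mem hx) e
    have e1 : x * e * x⁻¹ * e⁻¹ = x * (e * x⁻¹ * e⁻¹) := by group
    rw [e1]
    exact R.mul_mem hx h1
  have hxE : ∀ x ∈ R, ∀ e ∈ E, ∃ c ∈ Subgroup.centralizer (W : Set G), x * e * x⁻¹ = c * e :=
    fun x hx e he => ⟨x * e * x⁻¹ * e⁻¹, hPcW _ (hERP x hx e he), by group⟩
  have hxZ : ∀ x ∈ R, x ∈ Subgroup.normalizer (Z : Set G) := by
    have key : ∀ x ∈ R, ∀ z ∈ Z, x * z * x⁻¹ ∈ Z := by
      intro x hx z hz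
      refine ⟨conj_mem_of_mem_normalizer (hRW hx) hz.1, ?_⟩
      show x * z * x⁻¹ ∈ Subgroup.centralizer (E : Set G)
      rw [Subgroup.mem_centralizer_iff]
      intro e he
      have h1 : x⁻¹ * e * x ∈ E := conj_mem_of_mem_normalizer' (hRE hx) he
      have h2 := Subgroup.mem_centralizer_iff.mp hz.2 _ h1
      calc e * (x * z * x⁻¹) = x * ((x⁻¹ * e * x) * z) * x⁻¹ := by group
        _ = x * (z * (x⁻¹ * e * x)) * x⁻¹ := by rw [h2]
        _ = x * z * x⁻¹ * e := by group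
    intro x hx
    refine mem_normalizer_of_conj (key x hx) ?_
    intro z hz
    have := key x⁻¹ (R.inv_mem hx) z hz
    simpa using this
  have hxp : ∀ x ∈ R, ∃ k : ℕ, x ^ (p ^ k) = 1 := by
    intro x hx
    obtain ⟨k, hk⟩ := hRp ⟨x, hx⟩
    exact ⟨k, by simpa using congrArg Subtype.val hk⟩
  have hfix : ∀ x ∈ R, ∀ w ∈ W, x * w * x⁻¹ * w⁻¹ ∈ Z := fun x hx =>
    fix_section p E W Z x hWab (hPp.to_le hWP) inf_le_left hZE hEW hirr.1 (hxp x hx) (hRW hx)
      (hxZ x hx) (hxE x hx)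
  -- R centralizes [W, E]
  have hcent : ⁅W, E⁆ ≤ Subgroup.centralizer (R : Set G) := by
    rw [Subgroup.commutator_le]
    intro w hw e he
    rw [Subgroup.mem_centralizer_iff]
    intro x hx
    set z := x * w * x⁻¹ * w⁻¹ with hz
    set c := x * e * x⁻¹ * e⁻¹ with hc
    have hzZ : z ∈ Z := hfix x hx w hw
    have hcP : c ∈ P := hERP x hx e he
    have hzw : Commute z w := hWab z hzZ.1 w hw
    have hze : Commute z e := (hZE z hzZ e he).symm
    have hzc : Commute z c := (hZE z hzZ c (hPE' hcP)).symm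
    have hewe : e * w⁻¹ * e⁻¹ ∈ W := conj_mem_of_mem_normalizer (hEW he) (W.inv_mem hw)
    have hcw : Commute c (e * w⁻¹ * e⁻¹) :=
      (Subgroup.mem_centralizer_iff.mp (hPcW c hcP) _ hewe).symm
    have hz1 : Commute z (w * c * e * w⁻¹) :=
      ((hzw.mul_right hzc).mul_right hze).mul_right hzw.inv_right
    have e1 : x * ⁅w, e⁆ * x⁻¹ = z * (w * c * e * w⁻¹) * z⁻¹ * e⁻¹ * c⁻¹ := by
      rw [commutatorElement_def, hz, hc]; group
    have e2 : z * (w * c * e * w⁻¹) * z⁻¹ = w * c * e * w⁻¹ := by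
      rw [hz1.eq, mul_assoc, mul_inv_cancel, mul_one]
    have e3 : w * c * e * w⁻¹ * e⁻¹ * c⁻¹ = w * (c * (e * w⁻¹ * e⁻¹) * c⁻¹) := by group
    have e4 : c * (e * w⁻¹ * e⁻¹) * c⁻¹ = e * w⁻¹ * e⁻¹ := by
      rw [hcw.eq, mul_assoc, mul_inv_cancel, mul_one]
    have e5 : x * ⁅w, e⁆ * x⁻¹ = ⁅w, e⁆ := by
      rw [e1, e2, e3, e4, commutatorElement_def]; group
    calc x * ⁅w, e⁆ = (x * ⁅w, e⁆ * x⁻¹) * x := by group
      _ = ⁅w, e⁆ * x := by rw [e5]
  have hWEW : ⁅W, E⁆ ≤ W := by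
    rw [Subgroup.commutator_le]
    intro w hw e he
    rw [commutatorElement_def]
    have h1 : e * w⁻¹ * e⁻¹ ∈ W := conj_mem_of_mem_normalizer (hEW he) (W.inv_mem hw)
    have e1 : w * e * w⁻¹ * e⁻¹ = w * (e * w⁻¹ * e⁻¹) := by group
    rw [e1]; exact W.mul_mem hw h1
  have hWER : ⁅W, E⁆ ≤ R := hcent.trans hG
  have part2 : ⁅W, E⁆ ≤ Cfsg.omegaOneCenter p R := by
    intro y hy
    refine ocp_mem p R y (hWER hy) (fun x hx => ?_) (ocp_pow p P y (hWEW hy))
    exact (Subgroup.mem_centralizer_iff.mp (hcent hy) x hx).symm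
  refine ⟨res_sup p E R hRp hRE hres, part2, ?_⟩
  -- part 3
  intro hbot
  rw [Subgroup.commutator_eq_bot_iff_le_centralizer] at hbot
  set J := Cfsg.thompsonSubgroupOf p (T : Subgroup G) with hJdef
  have hRT : R ≤ (T : Subgroup G) := pcore_le_sylow p T
  -- every element of [W,E] lies in Ω₁(Z(J(T)))
  have hyZJ : ∀ y ∈ ⁅W, E⁆, y ∈ Cfsg.omegaOne p (Cfsg.centerThompsonOf p (T : Subgroup G)) := by
    intro y hy
    have hyc : ∀ j ∈ J, y * j = j * y := fun j hj =>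
      (Subgroup.mem_centralizer_iff.mp (hbot hy) j hj).symm
    have hyp : y ^ p = 1 := ocp_pow p P y (hWEW hy)
    have hyJ : y ∈ J := thp_mem_of_central p (T : Subgroup G) y (hRT (hWER hy)) hyp hyc
    apply Subgroup.subset_closure
    refine ⟨⟨hyJ, ?_⟩, hyp⟩
    show y ∈ Subgroup.centralizer (J : Set G)
    rw [Subgroup.mem_centralizer_iff]
    intro j hj
    exact (hyc j hj).symm
  -- B(T) centralizes [W,E]
  have hBc : Cfsg.baumannSubgroupOf p (T : Subgroup G) ≤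
      Subgroup.centralizer ((⁅W, E⁆ : Subgroup G) : Set G) := by
    intro b hb
    rw [Subgroup.mem_centralizer_iff]
    intro y hy
    have hb2 : b ∈ Subgroup.centralizer
        ((Cfsg.omegaOne p (Cfsg.centerThompsonOf p (T : Subgroup G)) : Subgroup G) : Set G) := hb.2
    rw [Subgroup.mem_centralizer_iff] at hb2
    exact hb2 y (hyZJ y hy)
  -- E normalizes [W,E]
  have hEWE : E ≤ Subgroup.normalizer ((⁅W, E⁆ : Subgroup G) : Set G) := by
    have key : ∀ e ∈ E, ∀ y ∈ ⁅W, E⁆, e * y * e⁻¹ ∈ ⁅W, E⁆ := by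
      intro e he y hy
      have hle : ⁅W, E⁆ ≤ (⁅W, E⁆ : Subgroup G).comap (MulAut.conj e).toMonoidHom := by
        rw [Subgroup.commutator_le]
        intro w hw e' he'
        rw [Subgroup.mem_comap]
        have e1 : (MulAut.conj e).toMonoidHom ⁅w, e'⁆ = ⁅e * w * e⁻¹, e * e' * e⁻¹⁆ := by
          simp [MulAut.conj_apply, commutatorElement_def, mul_assoc]
        rw [e1]
        exact Subgroup.commutator_mem_commutator (conj_mem_of_mem_normalizer (hEW he) hw)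
          (E.mul_mem (E.mul_mem he he') (E.inv_mem he))
      have := hle hy
      simpa [Subgroup.mem_comap, MulAut.conj_apply] using this
    intro e he
    refine mem_normalizer_of_conj (key e he) ?_
    intro y hy
    have := key e⁻¹ (E.inv_mem he) y hy
    simpa using this
  -- E = [E, B] centralizes [W,E]
  have hEc : E ≤ Subgroup.centralizer ((⁅W, E⁆ : Subgroup G) : Set G) := by
    have h0 : ⁅E, Cfsg.baumannSubgroupOf p (T : Subgroup G)⁆ ≤
        Subgroup.centralizer ((⁅W, E⁆ : Subgroup G) : Set G) := by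
      rw [Subgroup.commutator_le]
      intro e he b hb
      rw [commutatorElement_def]
      exact Subgroup.mul_mem _ (Cfsg.Agent.S2946.jc_conj_centralizer (hEWE he) (hBc hb))
        (Subgroup.inv_mem _ (hBc hb))
    rw [hEB] at h0
    exact h0
  apply hirr.2
  intro w hw e he
  have h1 : ⁅w, e⁆ ∈ ⁅W, E⁆ := Subgroup.commutator_mem_commutator hw he
  have h2 : e * w * e⁻¹ * w⁻¹ = (⁅w, e⁆)⁻¹ := by rw [commutatorElement_def]; group
  rw [h2]
  refine Z.inv_mem ⟨hWEW h1, ?_⟩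
  show ⁅w, e⁆ ∈ Subgroup.centralizer (E : Set G)
  rw [Subgroup.mem_centralizer_iff]
  intro e' he'
  exact (Subgroup.mem_centralizer_iff.mp (hEc he') _ h1).symm

/-- Let G be a finite group of characteristic p (C_G(O_p(G)) ≤ O_p(G)), T a Sylow p-subgroup and E a B(T)-block of G, with W_E = [Ω₁(Z(O_p(E))), E]. Then E = O^p(E·O_p(G)), W_E ≤ Ω₁(Z(O_p(G))), and [W_E, J(T)] ≠ 1, where J(T) is generated by the elementary abelian p-subgroups of T of largest order. -/
theorem result {G : Type*} [Group G] [Finite G] {p : ℕ} [Fact p.Prime] (hG : Subgroup.centralizer (Cfsg.pCore p G : Set G) ≤ Cfsg.pCore p G) (T : Sylow p G) (E : Subgroup G) (hE : Cfsg.IsBaumannBlock p (T : Subgroup G) E) : Cfsg.pResidualOf p (E ⊔ Cfsg.pCore p G) = E ∧ ⁅Cfsg.omegaOneCenter p (Cfsg.pCoreOf p E), E⁆ ≤ Cfsg.omegaOneCenter p (Cfsg.pCore p G) ∧ ⁅⁅Cfsg.omegaOneCenter p (Cfsg.pCoreOf p E), E⁆, Cfsg.thompsonSubgroupOf p (T : Subgroup G)⁆ ≠ ⊥ :=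
  jd_main hG T E hE

end Cfsg.Agent.S2984
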