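import Cfsg.Statements.S2998
import Mathlib
import Cfsg.Agent.Lib.Helper58.Isolated
import Cfsg.Agent.Lib.Helper58.SylowConj

set_option autoImplicit false
open Cfsg

namespace Cfsg.Agent.S2998


open Cfsg.Agent.Lib.Helper58

open scoped Pointwise in
theorem aux {G : Type*} [Group G] [Finite G] {p : ℕ} [Fact p.Prime] (P : Sylow p G) (x : G)
    (hxP : x ∈ (P : Subgroup G))
    (hlc : ∀ R : Subgroup G, R ≤ (P : Subgroup G) → R ≠ ⊥ →
      Subgroup.normalizer (R : Set G) ≤ Subgroup.centralizer ({x} : Set G)) :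
    (P : Subgroup G) ≤ Subgroup.centralizer ({x} : Set G) ∧
    (∀ g : G, g * x * g⁻¹ ∈ (P : Subgroup G) → g * x * g⁻¹ = x) ∧
    ∀ (N : Subgroup G) [N.Normal], ∀ R : Subgroup (G ⧸ N),
      R ≤ (P : Subgroup G).map (QuotientGroup.mk' N) → R ≠ ⊥ →
      Subgroup.normalizer (R : Set (G ⧸ N)) ≤
        Subgroup.centralizer ({(QuotientGroup.mk x : G ⧸ N)} : Set (G ⧸ N)) := by
  have hi : (P : Subgroup G) ≤ Subgroup.centralizer ({x} : Set G) := by
    by_cases hP : (P : Subgroup G) = ⊥
    · rw [hP]; exact bot_le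
    · exact Subgroup.le_normalizer.trans (hlc P le_rfl hP)
  refine ⟨hi, ?_, ?_⟩
  · intro g hg
    by_cases hx1 : x = 1
    · subst hx1; simp
    have hP : (P : Subgroup G) ≠ ⊥ := fun h => hx1 (by
      rw [h] at hxP; exact Subgroup.mem_bot.mp hxP)
    have hx'1 : g * x * g⁻¹ ≠ 1 := by
      intro h; apply hx1
      have : x = g⁻¹ * (g * x * g⁻¹) * g := by group
      rw [this, h]; simp
    have hC : ∀ c : G, Commute c (g * x * g⁻¹) → c ∈ Subgroup.centralizer ({x} : Set G) := by
      intro c hc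
      exact hlc (Subgroup.zpowers (g * x * g⁻¹)) ((Subgroup.zpowers_le).mpr hg)
        (Subgroup.zpowers_ne_bot.mpr hx'1) (mem_normalizer_zpowers_of_commute hc)
    have hgPK : ∀ y ∈ (P : Subgroup G), g * y * g⁻¹ ∈ Subgroup.centralizer ({x} : Set G) := by
      intro y hy
      apply hC
      have h1 := mem_centralizer_singleton_iff.mp (hi hy)
      have h2 : y * x = x * y := by
        rw [mul_inv_eq_iff_eq_mul] at h1; exact h1
      show g * y * g⁻¹ * (g * x * g⁻¹) = g * x * g⁻¹ * (g * y * g⁻¹)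
      calc g * y * g⁻¹ * (g * x * g⁻¹) = g * (y * x) * g⁻¹ := by group
        _ = g * (x * y) * g⁻¹ := by rw [h2]
        _ = g * x * g⁻¹ * (g * y * g⁻¹) := by group
    obtain ⟨c, hc, hcg⟩ := exists_mul_mem_normalizer_of_le P g hi hgPK
    have h3 : c * g ∈ Subgroup.centralizer ({x} : Set G) := hlc P le_rfl hP hcg
    have h4 : g ∈ Subgroup.centralizer ({x} : Set G) := by
      have : g = c⁻¹ * (c * g) := by group
      rw [this]
      exact Subgroup.mul_mem _ (Subgroup.inv_mem _ hc) h3
    exact mem_centralizer_singleton_iff.mp h4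
  · intro N _ R hR hRne gbar hgbar
    obtain ⟨g, rfl⟩ := QuotientGroup.mk_surjective gbar
    set M : Subgroup G := R.comap (QuotientGroup.mk' N) with hMdef
    have hNM : N ≤ M := by
      intro n hn
      show (QuotientGroup.mk' N) n ∈ R
      have : (QuotientGroup.mk' N) n = 1 := (QuotientGroup.eq_one_iff n).mpr hn
      rw [this]; exact R.one_mem
    have hR1ne : (P : Subgroup G) ⊓ M ≠ ⊥ := by
      obtain ⟨r, hr1⟩ := (Subgroup.ne_bot_iff_exists_ne_one).mp hRne
      obtain ⟨y, hy, hyr⟩ := Subgroup.mem_map.mp (hR r.2)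
      intro hbot
      have hyM : y ∈ M := by
        show (QuotientGroup.mk' N) y ∈ R
        rw [hyr]; exact r.2
      have : y ∈ (P : Subgroup G) ⊓ M := ⟨hy, hyM⟩
      rw [hbot, Subgroup.mem_bot] at this
      apply hr1
      apply Subtype.ext
      rw [← hyr, this]; simp
    have hgM : ∀ y ∈ M, g * y * g⁻¹ ∈ M := by
      intro y hy
      show (QuotientGroup.mk' N) (g * y * g⁻¹) ∈ R
      have := (Subgroup.mem_normalizer_iff.mp hgbar ((QuotientGroup.mk' N) y)).mp hy
      simpa using this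
    have hMPN : M ≤ (P : Subgroup G) ⊔ N := by
      intro m hm
      obtain ⟨y, hy, hyr⟩ := Subgroup.mem_map.mp (hR hm)
      have h1 : y⁻¹ * m ∈ N := by
        have : (QuotientGroup.mk y : G ⧸ N) = QuotientGroup.mk m := hyr
        exact QuotientGroup.eq.mp this
      have : m = y * (y⁻¹ * m) := by group
      rw [this]
      exact Subgroup.mul_mem_sup hy h1
    have hQ : IsPGroup p ↥(((P : Subgroup G) ⊓ M).map (MulAut.conj g).toMonoidHom) :=
      (P.2.to_le inf_le_left).map _
    have hQK : ((P : Subgroup G) ⊓ M).map (MulAut.conj g).toMonoidHom ≤ (P : Subgroup G) ⊔ N := by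
      rintro _ ⟨y, hy, rfl⟩
      apply hMPN
      simpa [MulAut.conj_apply] using hgM y hy.2
    obtain ⟨a, haK, ha⟩ := exists_conj_le_sylow_of_le P (le_sup_left : (P : Subgroup G) ≤ (P : Subgroup G) ⊔ N) hQK hQ
    have haK' : a ∈ ((P : Subgroup G) : Set G) * (N : Set G) := by
      rw [← Subgroup.mul_normal]; exact haK
    obtain ⟨u, hu, n, hn, rfl⟩ := Set.mem_mul.mp haK'
    have hng : n * g ∈ Subgroup.normalizer (((P : Subgroup G) ⊓ M : Subgroup G) : Set G) := by
      apply mem_normalizer_of_conj_mem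
      intro y hy
      have h1 := ha (g * y * g⁻¹) (Subgroup.mem_map.mpr ⟨y, hy, by simp [MulAut.conj_apply]⟩)
      have h2 : n * g * y * (n * g)⁻¹ = u⁻¹ * (u * n * (g * y * g⁻¹) * (u * n)⁻¹) * u := by group
      refine ⟨?_, ?_⟩
      · rw [h2]
        exact Subgroup.mul_mem _ (Subgroup.mul_mem _ (Subgroup.inv_mem _ hu) h1) hu
      · have h3 : n * g * y * (n * g)⁻¹ = n * (g * y * g⁻¹) * n⁻¹ := by group
        rw [h3]
        exact Subgroup.mul_mem _ (Subgroup.mul_mem _ (hNM hn) (hgM y hy.2)) (Subgroup.inv_mem _ (hNM hn))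
    have h5 : n * g ∈ Subgroup.centralizer ({x} : Set G) := hlc _ inf_le_left hR1ne hng
    have h6 := mem_centralizer_singleton_iff.mp h5
    have h7 : (QuotientGroup.mk (n * g) : G ⧸ N) = QuotientGroup.mk g := by
      rw [QuotientGroup.mk_mul, (QuotientGroup.eq_one_iff n).mpr hn, one_mul]
    rw [mem_centralizer_singleton_iff, ← h7]
    have := congrArg (QuotientGroup.mk : G → G ⧸ N) h6
    simpa using this

/-- Let G be a finite group, p a prime, P a Sylow p-subgroup of G and x ∈ P an element such that N_G(R) ≤ C_G(x) for every nontrivial subgroup R of P. Then P ≤ C_G(x); every G-conjugate of x lying in P equals x (so g ∈ C_G(x) whenever g x g⁻¹ ∈ P); and for every normal subgroup N of G, the image of x in G ⧸ N has the same property with respect to the image of P: the normalizer of every nontrivial subgroup of the image of P centralizes the image of x. -/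
theorem result {G : Type*} [Group G] [Finite G] {p : ℕ} [Fact p.Prime] (P : Sylow p G) (x : G) (hxP : x ∈ (P : Subgroup G)) (hlc : ∀ R : Subgroup G, R ≤ (P : Subgroup G) → R ≠ ⊥ → Subgroup.normalizer (R : Set G) ≤ Subgroup.centralizer ({x} : Set G)) : (P : Subgroup G) ≤ Subgroup.centralizer ({x} : Set G) ∧ (∀ g : G, g * x * g⁻¹ ∈ (P : Subgroup G) → g * x * g⁻¹ = x) ∧ ∀ (N : Subgroup G) [N.Normal], ∀ R : Subgroup (G ⧸ N), R ≤ (P : Subgroup G).map (QuotientGroup.mk' N) → R ≠ ⊥ → Subgroup.normalizer (R : Set (G ⧸ N)) ≤ Subgroup.centralizer ({(QuotientGroup.mk x : G ⧸ N)} : Set (G ⧸ N)) := by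
  exact aux P x hxP hlc

end Cfsg.Agent.S2998
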