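import Cfsg.Statements.S3003
import Mathlib
import Cfsg.Agent.S2947
import Cfsg.Agent.Lib.Helper58.SylowConj

set_option autoImplicit false
open Cfsg

namespace Cfsg.Agent.S3003

open Cfsg.Agent.Lib.Helper58

/-- Norm of a fixed-point-free automorphism of order dividing `p` on a commutative group. -/
theorem prod_pow_apply_eq_one {W : Type*} [CommGroup W] {p : ℕ} (γ : MulAut W)
    (hγ : γ ^ p = 1) (hfix : ∀ w : W, γ w = w → w = 1) (w : W) :
    ∏ k ∈ Finset.range p, (γ ^ k) w = 1 := by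
  apply hfix
  rw [map_prod]
  have h1 : ∀ k : ℕ, γ ((γ ^ k) w) = (γ ^ (k + 1)) w := by
    intro k; rw [pow_succ']; rfl
  simp only [h1]
  have h2 := Finset.prod_range_succ (fun k => (γ ^ k) w) p
  have h3 := Finset.prod_range_succ' (fun k => (γ ^ k) w) p
  rw [h3] at h2
  simp only [pow_zero, hγ, MulAut.one_apply] at h2
  exact mul_right_cancel h2

/-- Two commuting automorphisms of order dividing `p` of a finite commutative `p'`-group `W`
such that every `α ^ i * β ^ j` with `(i, j) ≠ (0, 0)` mod `p` is fixed-point-free: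
then `W` is trivial. -/
theorem fpf_rank_two_trivial {W : Type*} [CommGroup W] [Finite W] {p : ℕ} (hp : p.Prime)
    (hW : (Nat.card W).Coprime p) (α β : MulAut W) (hc : Commute α β)
    (hα : α ^ p = 1) (hβ : β ^ p = 1)
    (hfpf : ∀ i j : ℕ, ¬ (p ∣ i ∧ p ∣ j) → ∀ w : W, (α ^ i * β ^ j) w = w → w = 1)
    (w : W) : w = 1 := by
  have hP1 : ∏ k ∈ Finset.range p, ∏ j ∈ Finset.range p, ((α ^ k * β) ^ j) w = 1 := by
    apply Finset.prod_eq_one
    intro k _
    apply prod_pow_apply_eq_one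
    · rw [(hc.pow_left k).mul_pow, ← pow_mul, mul_comm, pow_mul, hα, one_pow, hβ, one_mul]
    · intro w' hw'
      apply hfpf k 1 _ w'
      · rw [pow_one]; exact hw'
      · rintro ⟨-, h⟩
        exact hp.one_lt.ne' (Nat.dvd_one.mp h)
  rw [Finset.prod_comm] at hP1
  rw [Finset.prod_eq_single 0] at hP1
  · simp only [pow_zero, MulAut.one_apply, Finset.prod_const, Finset.card_range] at hP1
    have h1 : orderOf w ∣ p := orderOf_dvd_of_pow_eq_one hP1
    have h2 : orderOf w ∣ Nat.card W := orderOf_dvd_natCard w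
    have h3 : orderOf w = 1 := Nat.eq_one_of_dvd_coprimes hW h2 h1
    exact orderOf_eq_one_iff.mp h3
  · intro j hj hj0
    have h1 : ∀ k : ℕ, ((α ^ k * β) ^ j) w = ((α ^ j) ^ k) ((β ^ j) w) := by
      intro k
      rw [(hc.pow_left k).mul_pow, ← pow_mul, mul_comm k j, pow_mul]
      rfl
    simp only [h1]
    apply prod_pow_apply_eq_one
    · rw [← pow_mul, mul_comm, pow_mul, hα, one_pow]
    · intro w' hw'
      apply hfpf j 0 _ w'
      · rw [pow_zero, mul_one]; exact hw'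
      · rintro ⟨h, -⟩
        have := Nat.le_of_dvd (Nat.pos_of_ne_zero hj0) h
        have := Finset.mem_range.mp hj
        omega
  · intro h
    exact absurd (Finset.mem_range.mpr hp.pos) h

/-- The same for a group that happens to be commutative. -/
theorem comm_fpf_rank_two_trivial {W : Type*} [Group W] [Finite W] {p : ℕ} (hp : p.Prime)
    (hcomm : ∀ x y : W, x * y = y * x)
    (hW : (Nat.card W).Coprime p) (α β : MulAut W) (hc : Commute α β)
    (hα : α ^ p = 1) (hβ : β ^ p = 1)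
    (hfpf : ∀ i j : ℕ, ¬ (p ∣ i ∧ p ∣ j) → ∀ w : W, (α ^ i * β ^ j) w = w → w = 1)
    (w : W) : w = 1 := by
  let _ : CommGroup W := { ‹Group W› with mul_comm := hcomm }
  exact fpf_rank_two_trivial hp hW α β hc hα hβ hfpf w

/-- If `x ^ p = 1`, `p` is prime, `p ∤ i` and `x ^ i ∈ H` then `x ∈ H`. -/
theorem mem_of_pow_mem {G : Type*} [Group G] {H : Subgroup G} {x : G} {p i : ℕ} (hp : p.Prime)
    (hx : x ^ p = 1) (hi : ¬ p ∣ i) (h : x ^ i ∈ H) : x ∈ H := by
  have hcop : Nat.Coprime i p := ((Nat.Prime.coprime_iff_not_dvd hp).mpr hi).symm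
  obtain ⟨m, -, hm⟩ := Nat.exists_mul_mod_eq_one_of_coprime hcop hp.one_lt
  have h1 : x ^ (i * m) = x := by
    rw [← Nat.div_add_mod (i * m) p, hm, pow_add, pow_mul, hx, one_pow, one_mul, pow_one]
  rw [← h1, pow_mul]
  exact pow_mem h m

/-- An elementary abelian `p`-group `U ≠ 1` acting on a nontrivial abelian `p'`-group `Z`
has a maximal subgroup with nontrivial fixed points. -/
theorem exists_coatom_fixed {G : Type*} [Group G] [Finite G] {p : ℕ} [Fact p.Prime]
    (Z U : Subgroup G) (hZne : Z ≠ ⊥) (hZcomm : ∀ x ∈ Z, ∀ y ∈ Z, x * y = y * x)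
    (hZp : (Nat.card ↥Z).Coprime p) (hUZ : U ≤ Subgroup.normalizer (Z : Set G))
    (hUcomm : ∀ x ∈ U, ∀ y ∈ U, x * y = y * x) (hUexp : ∀ x ∈ U, x ^ p = 1)
    (hUnt : U ≠ ⊥) :
    ∃ U₀ : Subgroup G, U₀ ≤ U ∧ IsCoatom (U₀.subgroupOf U) ∧
      Z ⊓ Subgroup.centralizer (U₀ : Set G) ≠ ⊥ := by
  classical
  have hp : p.Prime := Fact.out
  obtain ⟨S, hS⟩ : ∃ S : Set (Subgroup G),
      S = {V | V ≤ U ∧ Z ⊓ Subgroup.centralizer (V : Set G) ≠ ⊥} := ⟨_, rfl⟩
  have hbot : (⊥ : Subgroup G) ∈ S := by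
    rw [hS]
    refine ⟨bot_le, ?_⟩
    have h1 : Subgroup.centralizer (((⊥ : Subgroup G) : Set G)) = ⊤ := by
      rw [eq_top_iff]
      intro g _
      rw [Subgroup.mem_centralizer_iff]
      intro h hh
      have : h = 1 := hh
      rw [this, one_mul, mul_one]
    rw [h1, inf_top_eq]; exact hZne
  obtain ⟨U₁, -, hmax⟩ := (Set.toFinite S).exists_le_maximal hbot
  have hU₁S : U₁ ∈ S := hmax.prop
  rw [hS] at hU₁S
  have hU₁U : U₁ ≤ U := hU₁S.1
  have hU₁ne : Z ⊓ Subgroup.centralizer (U₁ : Set G) ≠ ⊥ := hU₁S.2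
  -- elements of `U` commuting with a nontrivial fixed point of `U₁` lie in `U₁`
  have hkey : ∀ c ∈ U, ∀ w ∈ Z ⊓ Subgroup.centralizer (U₁ : Set G), w ≠ 1 →
      c * w = w * c → c ∈ U₁ := by
    intro c hc w hw hw1 hcw
    have hV : U ⊓ Subgroup.centralizer ({w} : Set G) ∈ S := by
      rw [hS]
      refine ⟨inf_le_left, ?_⟩
      intro h
      have hmem : w ∈ Z ⊓ Subgroup.centralizer
          ((U ⊓ Subgroup.centralizer ({w} : Set G) : Subgroup G) : Set G) := by
        refine Subgroup.mem_inf.mpr ⟨hw.1, ?_⟩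
        rw [Subgroup.mem_centralizer_iff]
        intro h' hh'
        have h2 := (Subgroup.mem_inf.mp hh').2
        rw [Subgroup.mem_centralizer_iff] at h2
        exact (h2 w rfl).symm
      rw [h] at hmem
      exact hw1 (Subgroup.mem_bot.mp hmem)
    have hle : U₁ ≤ U ⊓ Subgroup.centralizer ({w} : Set G) := by
      intro u hu
      refine Subgroup.mem_inf.mpr ⟨hU₁U hu, ?_⟩
      rw [Subgroup.mem_centralizer_iff]
      intro h' hh'
      rw [Set.mem_singleton_iff] at hh'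
      subst hh'
      have h2 := (Subgroup.mem_inf.mp hw).2
      rw [Subgroup.mem_centralizer_iff] at h2
      exact (h2 u hu).symm
    have h3 := hmax.le_of_ge hV hle
    apply h3
    refine Subgroup.mem_inf.mpr ⟨hc, ?_⟩
    rw [Subgroup.mem_centralizer_iff]
    intro h' hh'
    rw [Set.mem_singleton_iff] at hh'
    subst hh'
    exact hcw.symm
  by_cases hU₁top : U₁ = U
  · have hnt : (⊥ : Subgroup ↥U) ≠ ⊤ := by
      intro h
      apply hUnt
      rw [eq_bot_iff]
      intro u hu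
      have h1 : (⟨u, hu⟩ : ↥U) ∈ (⊥ : Subgroup ↥U) := by rw [h]; exact Subgroup.mem_top _
      exact Subgroup.mem_bot.mpr (congrArg Subtype.val (Subgroup.mem_bot.mp h1))
    obtain ⟨M, hM, -⟩ := (eq_top_or_exists_le_coatom (⊥ : Subgroup ↥U)).resolve_left hnt
    refine ⟨M.map U.subtype, Subgroup.map_subtype_le _, ?_, ?_⟩
    · have : (M.map U.subtype).subgroupOf U = M :=
        Subgroup.comap_map_eq_self_of_injective U.subtype_injective M
      rw [this]; exact hM
    · intro h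
      apply hU₁ne
      rw [eq_bot_iff, ← h]
      apply inf_le_inf_left
      apply Subgroup.centralizer_le
      rw [hU₁top]
      exact Subgroup.map_subtype_le _
  · have h1 : U₁.subgroupOf U ≠ ⊤ := by
      intro h
      rw [Subgroup.subgroupOf_eq_top] at h
      exact hU₁top (le_antisymm hU₁U h)
    obtain ⟨M, hM, hle⟩ := (eq_top_or_exists_le_coatom (U₁.subgroupOf U)).resolve_left h1
    have hMeq : (M.map U.subtype).subgroupOf U = M :=
      Subgroup.comap_map_eq_self_of_injective U.subtype_injective M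
    refine ⟨M.map U.subtype, Subgroup.map_subtype_le _, ?_, ?_⟩
    · rw [hMeq]; exact hM
    · obtain ⟨U₂, hU₂⟩ : ∃ U₂ : Subgroup G, U₂ = M.map U.subtype := ⟨_, rfl⟩
      rw [← hU₂]
      have hU₁₂ : U₁ ≤ U₂ := by
        intro u hu
        rw [hU₂]
        exact ⟨⟨u, hU₁U hu⟩, hle (Subgroup.mem_subgroupOf.mpr hu), rfl⟩
      have hU₂U : U₂ ≤ U := by rw [hU₂]; exact Subgroup.map_subtype_le _
      by_cases h12 : U₂ ≤ U₁
      · have : U₂ = U₁ := le_antisymm h12 hU₁₂
        rw [this]; exact hU₁ne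
      · exfalso
        obtain ⟨a, haU₂, haU₁⟩ := SetLike.not_le_iff_exists.mp h12
        have hU₂ne : ¬ U ≤ U₂ := by
          intro h
          apply hM.1
          rw [eq_top_iff]
          intro x _
          have hx := h x.2
          rw [hU₂] at hx
          obtain ⟨y, hy, hyx⟩ := hx
          have : y = x := Subtype.ext hyx
          rw [← this]; exact hy
        obtain ⟨b, hbU, hbU₂⟩ := SetLike.not_le_iff_exists.mp hU₂ne
        have haU := hU₂U haU₂
        obtain ⟨W, hW⟩ : ∃ W : Subgroup G, W = Z ⊓ Subgroup.centralizer (U₁ : Set G) :=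
          ⟨_, rfl⟩
        have hUW : ∀ u ∈ U, ∀ w ∈ W, u * w * u⁻¹ ∈ W := by
          intro u hu w hw
          rw [hW] at hw ⊢
          have hw2 := Subgroup.mem_inf.mp hw
          refine Subgroup.mem_inf.mpr ⟨(Subgroup.mem_normalizer_iff.mp (hUZ hu) w).mp hw2.1, ?_⟩
          rw [Subgroup.mem_centralizer_iff]
          intro v hv
          have h1 : v * w = w * v := (Subgroup.mem_centralizer_iff.mp hw2.2) v hv
          have h2 : v * u = u * v := hUcomm v (hU₁U hv) u hu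
          have h3 : v * u⁻¹ = u⁻¹ * v := (Commute.inv_right (show Commute v u from h2)).eq
          calc v * (u * w * u⁻¹) = (v * u) * w * u⁻¹ := by group
            _ = u * (v * w) * u⁻¹ := by rw [h2]; group
            _ = u * w * (v * u⁻¹) := by rw [h1]; group
            _ = u * w * u⁻¹ * v := by rw [h3]; group
        have haN : a ∈ Subgroup.normalizer (W : Set G) := mem_normalizer_of_conj_mem (hUW a haU)
        have hbN : b ∈ Subgroup.normalizer (W : Set G) := mem_normalizer_of_conj_mem (hUW b hbU)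
        have hWne : W ≠ ⊥ := by rw [hW]; exact hU₁ne
        obtain ⟨w₀, hw₀, hw₀1⟩ : ∃ w ∈ W, w ≠ 1 := by
          by_contra hcon
          push Not at hcon
          exact hWne ((Subgroup.eq_bot_iff_forall _).mpr hcon)
        have hWcomm : ∀ x y : ↥W, x * y = y * x := by
          intro x y
          have hx := hW.le x.2
          have hy := hW.le y.2
          exact Subtype.ext (hZcomm x (Subgroup.mem_inf.mp hx).1 y (Subgroup.mem_inf.mp hy).1)
        have hWcop : (Nat.card ↥W).Coprime p := by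
          apply Nat.Coprime.coprime_dvd_left (Subgroup.card_dvd_of_le _) hZp
          rw [hW]; exact inf_le_left
        have hcontra : (⟨w₀, hw₀⟩ : ↥W) = 1 := by
          apply comm_fpf_rank_two_trivial hp hWcomm hWcop
            (W.normalizerMonoidHom ⟨a, haN⟩) (W.normalizerMonoidHom ⟨b, hbN⟩) ?_ ?_ ?_ ?_
          · apply Commute.map
            exact Subtype.ext (hUcomm a haU b hbU)
          · rw [← map_pow]
            have : (⟨a, haN⟩ : ↥(Subgroup.normalizer (W : Set G))) ^ p = 1 :=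
              Subtype.ext (hUexp a haU)
            rw [this, map_one]
          · rw [← map_pow]
            have : (⟨b, hbN⟩ : ↥(Subgroup.normalizer (W : Set G))) ^ p = 1 :=
              Subtype.ext (hUexp b hbU)
            rw [this, map_one]
          · intro i j hij w hw
            rw [← map_pow, ← map_pow, ← map_mul] at hw
            have hw' : (a ^ i * b ^ j) * (w : G) * (a ^ i * b ^ j)⁻¹ = w :=
              congrArg Subtype.val hw
            by_contra hw1
            have hwW := hW.le w.2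
            have hc1 : a ^ i * b ^ j ∈ U₁ :=
              hkey (a ^ i * b ^ j) (mul_mem (pow_mem haU i) (pow_mem hbU j)) w hwW
                (fun h => hw1 (Subtype.ext h)) (mul_inv_eq_iff_eq_mul.mp hw')
            by_cases hj : p ∣ j
            · obtain ⟨k, rfl⟩ := hj
              rw [pow_mul, hUexp b hbU, one_pow, mul_one] at hc1
              have hi : ¬ p ∣ i := fun h => hij ⟨h, dvd_mul_right p k⟩
              exact haU₁ (mem_of_pow_mem hp (hUexp a haU) hi hc1)
            · have h5 : b ^ j ∈ U₂ := by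
                have h6 : b ^ j = (a ^ i)⁻¹ * (a ^ i * b ^ j) := by group
                rw [h6]
                exact mul_mem (inv_mem (pow_mem haU₂ i)) (hU₁₂ hc1)
              exact hbU₂ (mem_of_pow_mem hp (hUexp b hbU) hj h5)
        exact hw₀1 (congrArg Subtype.val hcontra)

open scoped Pointwise in
/-- A `p`-subgroup `U` normalizing a `p'`-subgroup `K` normalizes some Sylow `q`-subgroup
of `K`. -/
theorem exists_invariant_sylow_of_pGroup {G : Type*} [Group G] [Finite G] {p q : ℕ}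
    [Fact p.Prime] [Fact q.Prime]
    (K U : Subgroup G) (hUK : U ≤ Subgroup.normalizer (K : Set G))
    (hU : IsPGroup p ↥U) (hK : ¬ p ∣ Nat.card ↥K) :
    ∃ T : Sylow q ↥K,
      U ≤ Subgroup.normalizer (((T : Subgroup ↥K).map K.subtype : Subgroup G) : Set G) := by
  have hZ : IsPGroup p ↥(U.subgroupOf (Subgroup.normalizer (K : Set G))) := hU.comap_subtype
  have hcard : ¬ p ∣ Nat.card (Sylow q ↥K) := by
    intro h
    obtain ⟨T₀⟩ : Nonempty (Sylow q ↥K) := inferInstance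
    exact hK ((h.trans (T₀.card_dvd_index)).trans (Subgroup.index_dvd_card _))
  obtain ⟨T, hT⟩ := hZ.nonempty_fixed_point_of_prime_not_dvd_card (Sylow q ↥K) hcard
  refine ⟨T, ?_⟩
  intro u hu
  apply mem_normalizer_of_conj_mem
  rintro _ ⟨t, ht, rfl⟩
  have h1 := hT ⟨⟨u, hUK hu⟩, Subgroup.mem_subgroupOf.mpr hu⟩
  have h2 : (⟨u, hUK hu⟩ : ↥(Subgroup.normalizer (K : Set G))) • t ∈
      (⟨u, hUK hu⟩ : ↥(Subgroup.normalizer (K : Set G))) • (T : Subgroup ↥K) :=
    Subgroup.smul_mem_pointwise_smul t _ _ ht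
  have h3 : (⟨u, hUK hu⟩ : ↥(Subgroup.normalizer (K : Set G))) • (T : Subgroup ↥K) =
      (T : Subgroup ↥K) := congrArg (fun S : Sylow q ↥K => (S : Subgroup ↥K)) h1
  rw [h3] at h2
  exact ⟨_, h2, rfl⟩

/-- First part: the centralizer in `R` of a subgroup containing a nontrivial element
`G₁`-conjugate into `Z(Q)` is trivial. -/
theorem part_one {G : Type*} [Group G] [Finite G] {p : ℕ} [Fact p.Prime] (Q : Subgroup G)
    (hQp : IsPGroup p ↥Q) (hlarge : Cfsg.IsLarge Q) (G₁ : Subgroup G) (hQG : Q ≤ G₁)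
    (R : Subgroup G) (hR : (Nat.card ↥R).Coprime p)
    (hGR : G₁ ≤ Subgroup.normalizer (R : Set G)) (U : Subgroup G)
    (x : G) (hxU : x ∈ U) (hx1 : x ≠ 1) (g : G) (hg : g ∈ G₁)
    (hgx : g * x * g⁻¹ ∈ Q ⊓ Subgroup.centralizer (Q : Set G)) :
    R ⊓ Subgroup.centralizer (U : Set G) = ⊥ := by
  have hp : p.Prime := Fact.out
  have hQR : Q ⊓ R = ⊥ := by
    apply disjoint_iff.mp
    apply Subgroup.disjoint_of_coprime_natCard
    obtain ⟨n, hn⟩ := IsPGroup.iff_card.mp hQp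
    rw [hn]
    exact Nat.Coprime.pow_left n hR.symm
  have hzQ := (Subgroup.mem_inf.mp hgx).1
  have hzC := (Subgroup.mem_inf.mp hgx).2
  have hz1 : g * x * g⁻¹ ≠ 1 := by
    intro h
    exact hx1 (conj_eq_one_iff.mp h)
  rw [eq_bot_iff]
  intro r hr
  have hrR := (Subgroup.mem_inf.mp hr).1
  have hrC := (Subgroup.mem_inf.mp hr).2
  have hxr : x * r = r * x := (Subgroup.mem_centralizer_iff.mp hrC) x hxU
  have hr'R : g * r * g⁻¹ ∈ R := (Subgroup.mem_normalizer_iff.mp (hGR hg) r).mp hrR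
  have hcomm : Commute (g * r * g⁻¹) (g * x * g⁻¹) := by
    show g * r * g⁻¹ * (g * x * g⁻¹) = g * x * g⁻¹ * (g * r * g⁻¹)
    calc g * r * g⁻¹ * (g * x * g⁻¹) = g * (r * x) * g⁻¹ := by group
      _ = g * (x * r) * g⁻¹ := by rw [hxr]
      _ = g * x * g⁻¹ * (g * r * g⁻¹) := by group
  have hr'N : g * r * g⁻¹ ∈ Subgroup.normalizer (Q : Set G) := by
    apply hlarge.2 (Subgroup.zpowers (g * x * g⁻¹))
    · rw [Subgroup.zpowers_le]; exact hzC
    · rw [Ne, Subgroup.zpowers_eq_bot]; exact hz1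
    · exact mem_normalizer_zpowers_of_commute hcomm
  have hr'C : g * r * g⁻¹ ∈ Subgroup.centralizer (Q : Set G) := by
    rw [Subgroup.mem_centralizer_iff]
    intro q hq
    have h1 : (g * r * g⁻¹) * q * (g * r * g⁻¹)⁻¹ * q⁻¹ ∈ Q :=
      mul_mem ((Subgroup.mem_normalizer_iff.mp hr'N q).mp hq) (inv_mem hq)
    have h2 : (g * r * g⁻¹) * q * (g * r * g⁻¹)⁻¹ * q⁻¹ ∈ R := by
      have h3 : q * (g * r * g⁻¹)⁻¹ * q⁻¹ ∈ R :=
        (Subgroup.mem_normalizer_iff.mp (hGR (hQG hq)) _).mp (inv_mem hr'R)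
      have h4 : (g * r * g⁻¹) * q * (g * r * g⁻¹)⁻¹ * q⁻¹ =
          (g * r * g⁻¹) * (q * (g * r * g⁻¹)⁻¹ * q⁻¹) := by group
      rw [h4]
      exact mul_mem hr'R h3
    have h5 : (g * r * g⁻¹) * q * (g * r * g⁻¹)⁻¹ * q⁻¹ ∈ Q ⊓ R := Subgroup.mem_inf.mpr ⟨h1, h2⟩
    rw [hQR, Subgroup.mem_bot] at h5
    have h6 : (g * r * g⁻¹) * q = q * (g * r * g⁻¹) := by
      have h7 := mul_inv_eq_one.mp h5
      exact mul_inv_eq_iff_eq_mul.mp h7
    exact h6.symm
  have h8 : g * r * g⁻¹ ∈ Q ⊓ R := Subgroup.mem_inf.mpr ⟨hlarge.1 hr'C, hr'R⟩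
  rw [hQR, Subgroup.mem_bot] at h8
  exact Subgroup.mem_bot.mpr (conj_eq_one_iff.mp h8)

/-- Second part. -/
theorem part_two {G : Type*} [Group G] [Finite G] {p : ℕ} [Fact p.Prime]
    (R : Subgroup G) (hR : (Nat.card ↥R).Coprime p) (U : Subgroup G)
    (hUR : U ≤ Subgroup.normalizer (R : Set G)) (hUp : IsPGroup p ↥U)
    (hel : Cfsg.IsElementaryAbelian p U) (hUnt : U ≠ ⊥)
    (hfix : ∀ U₀ : Subgroup G, U₀ ≤ U → IsCoatom (U₀.subgroupOf U) →
      R ⊓ Subgroup.centralizer (U₀ : Set G) = ⊥) : R = ⊥ := by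
  have hp : p.Prime := Fact.out
  by_contra hRne
  have hcard1 : Nat.card ↥R ≠ 1 := fun h => hRne (Subgroup.card_eq_one.mp h)
  obtain ⟨q, hq, hqdvd⟩ := Nat.exists_prime_and_dvd hcard1
  have : Fact q.Prime := ⟨hq⟩
  have hpR : ¬ p ∣ Nat.card ↥R := fun h =>
    hp.one_lt.ne' (Nat.eq_one_of_dvd_coprimes hR h dvd_rfl)
  obtain ⟨T, hT⟩ := exists_invariant_sylow_of_pGroup (q := q) R U hUR hUp hpR
  obtain ⟨S₀, hS₀⟩ : ∃ S₀ : Subgroup G, S₀ = (T : Subgroup ↥R).map R.subtype := ⟨_, rfl⟩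
  rw [← hS₀] at hT
  have hS₀R : S₀ ≤ R := by rw [hS₀]; exact Subgroup.map_subtype_le _
  have hS₀q : IsPGroup q ↥S₀ := by rw [hS₀]; exact T.2.map _
  have hS₀ne : S₀ ≠ ⊥ := by
    rw [hS₀, Ne, Subgroup.map_eq_bot_iff_of_injective _ R.subtype_injective]
    exact Sylow.ne_bot_of_dvd_card T hqdvd
  obtain ⟨z, hzS, hz1, hzc⟩ := Cfsg.Agent.S2947.exists_central_in_normal (p := q) S₀ S₀ hS₀q
    hS₀ne le_rfl Subgroup.le_normalizer
  obtain ⟨Z, hZ⟩ : ∃ Z : Subgroup G, Z = S₀ ⊓ Subgroup.centralizer (S₀ : Set G) := ⟨_, rfl⟩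
  have hzZ : z ∈ Z := by
    rw [hZ]
    refine Subgroup.mem_inf.mpr ⟨hzS, ?_⟩
    rw [Subgroup.mem_centralizer_iff]
    exact hzc
  have hZne : Z ≠ ⊥ := fun h => hz1 (by rw [h] at hzZ; exact Subgroup.mem_bot.mp hzZ)
  have hZR : Z ≤ R := by rw [hZ]; exact inf_le_left.trans hS₀R
  have hZcomm : ∀ x ∈ Z, ∀ y ∈ Z, x * y = y * x := by
    intro x hx y hy
    rw [hZ] at hx hy
    exact ((Subgroup.mem_centralizer_iff.mp (Subgroup.mem_inf.mp hy).2) x
      (Subgroup.mem_inf.mp hx).1)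
  have hZp : (Nat.card ↥Z).Coprime p :=
    Nat.Coprime.coprime_dvd_left (Subgroup.card_dvd_of_le hZR) hR
  have hUZ : U ≤ Subgroup.normalizer (Z : Set G) := by
    intro u hu
    apply mem_normalizer_of_conj_mem
    intro y hy
    rw [hZ] at hy ⊢
    have hy1 := (Subgroup.mem_inf.mp hy).1
    have hy2 := (Subgroup.mem_inf.mp hy).2
    have huN := hT hu
    refine Subgroup.mem_inf.mpr ⟨(Subgroup.mem_normalizer_iff.mp huN y).mp hy1, ?_⟩
    rw [Subgroup.mem_centralizer_iff]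
    intro s hs
    have hs' : u⁻¹ * s * u ∈ S₀ := by
      have h1 := (Subgroup.mem_normalizer_iff.mp (inv_mem huN) s).mp hs
      rwa [inv_inv] at h1
    have h2 : (u⁻¹ * s * u) * y = y * (u⁻¹ * s * u) :=
      (Subgroup.mem_centralizer_iff.mp hy2) _ hs'
    calc s * (u * y * u⁻¹) = u * ((u⁻¹ * s * u) * y) * u⁻¹ := by group
      _ = u * (y * (u⁻¹ * s * u)) * u⁻¹ := by rw [h2]
      _ = u * y * u⁻¹ * s := by group
  have hUcomm : ∀ x ∈ U, ∀ y ∈ U, x * y = y * x := by
    intro x hx y hy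
    have := hel.1.is_comm.comm ⟨x, hx⟩ ⟨y, hy⟩
    exact congrArg Subtype.val this
  obtain ⟨U₀, hU₀U, hU₀co, hU₀fix⟩ := exists_coatom_fixed Z U hZne hZcomm hZp hUZ hUcomm
    hel.2 hUnt
  apply hU₀fix
  rw [eq_bot_iff, ← hfix U₀ hU₀U hU₀co]
  exact inf_le_inf_right _ hZR

/-- Let G be a finite group, p a prime and Q a large p-subgroup of G: C_G(Q) ≤ Q and N_G(U) ≤ N_G(Q) for every nontrivial subgroup U of C_G(Q). Let Q ≤ G₁ ≤ G, let R be a subgroup of order prime to p normalized by G₁, and let U ≤ G₁ be a p-subgroup. If U contains a nontrivial element which is G₁-conjugate to an element of Z(Q), then C_R(U) = 1. In particular, if U is elementary abelian of order at least p² and every maximal subgroup of U contains a nontrivial element G₁-conjugate into Z(Q), then R = 1. -/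
theorem result {G : Type*} [Group G] [Finite G] {p : ℕ} [Fact p.Prime] (Q : Subgroup G) (hQp : IsPGroup p ↥Q) (hlarge : Cfsg.IsLarge Q) (G₁ : Subgroup G) (hQG : Q ≤ G₁) (R : Subgroup G) (hR : (Nat.card ↥R).Coprime p) (hGR : G₁ ≤ Subgroup.normalizer (R : Set G)) (U : Subgroup G) (hUG : U ≤ G₁) (hUp : IsPGroup p ↥U) : ((∃ x ∈ U, x ≠ 1 ∧ ∃ g ∈ G₁, g * x * g⁻¹ ∈ Q ⊓ Subgroup.centralizer (Q : Set G)) → R ⊓ Subgroup.centralizer (U : Set G) = ⊥) ∧ (Cfsg.IsElementaryAbelian p U → p ^ 2 ≤ Nat.card ↥U → (∀ U₀ : Subgroup G, U₀ ≤ U → IsCoatom (U₀.subgroupOf U) → ∃ x ∈ U₀, x ≠ 1 ∧ ∃ g ∈ G₁, g * x * g⁻¹ ∈ Q ⊓ Subgroup.centralizer (Q : Set G)) → R = ⊥) := by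
  refine ⟨fun ⟨x, hxU, hx1, g, hg, hgx⟩ =>
    part_one Q hQp hlarge G₁ hQG R hR hGR U x hxU hx1 g hg hgx, fun hel hcard hco => ?_⟩
  apply part_two R hR U (hUG.trans hGR) hUp hel
  · intro h
    rw [h, Subgroup.card_bot] at hcard
    have h1 : 1 < p ^ 2 := Nat.one_lt_pow (by norm_num) (Fact.out : p.Prime).one_lt
    omega
  · intro U₀ hU₀U hU₀co
    obtain ⟨x, hx, hx1, g, hg, hgx⟩ := hco U₀ hU₀U hU₀co
    exact part_one Q hQp hlarge G₁ hQG R hR hGR U₀ x hx hx1 g hg hgx

end Cfsg.Agent.S3003
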