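import Cfsg.Statements.S3006
import Cfsg.Agent.Lib.Helper58.CentrallyLarge2

set_option autoImplicit false
open scoped Pointwise
open Cfsg
open Cfsg.Agent.Lib.Helper58

namespace Cfsg.Agent.S3006

/-- Let P be a finite p-group, Q a centrally large subgroup of P (|Q|·|Z(Q)| maximal among subgroups of P) and A an abelian subgroup of P of largest order. Then QA = AQ is a centrally large subgroup of P, C_{QA}(Q ∩ A) = Z(Q)·A, and the subgroup generated by all centrally large subgroups of P contains C_P(Z(J(P))), where J(P) is generated by the abelian subgroups of largest order. -/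
theorem result {p : ℕ} [Fact p.Prime] (P : Type*) [Group P] [Finite P] (hP : IsPGroup p P) (Q A : Subgroup P) (hQ : Cfsg.IsCentrallyLarge Q) (hA : A ∈ Cfsg.maxAbelianSubgroups P) : ((Q ⊔ A : Subgroup P) : Set P) = (Q : Set P) * (A : Set P) ∧ Cfsg.IsCentrallyLarge (Q ⊔ A) ∧ (Q ⊔ A) ⊓ Subgroup.centralizer ((Q ⊓ A : Subgroup P) : Set P) = (Q ⊓ Subgroup.centralizer (Q : Set P)) ⊔ A ∧ (((Q ⊓ Subgroup.centralizer (Q : Set P)) ⊔ A : Subgroup P) : Set P) = ((Q ⊓ Subgroup.centralizer (Q : Set P)) : Set P) * (A : Set P) ∧ Subgroup.centralizer ((Cfsg.thompsonSubgroupA P ⊓ Subgroup.centralizer (Cfsg.thompsonSubgroupA P : Set P) : Subgroup P) : Set P) ≤ Cfsg.centrallyLargeJoin P := by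
  obtain ⟨h1, h2, h3, h4⟩ := centrallyLarge_maxAbelian Q A hQ hA
  have hCA := maxAbelian_self_centralizing A hA
  have hAc := maxAbelian_le_centralizer A hA
  have hZQ : Q ⊓ Subgroup.centralizer (Q : Set P) ≤ Q := inf_le_left
  have hQCZ : Q ≤ Subgroup.centralizer ((Q ⊓ Subgroup.centralizer (Q : Set P) : Subgroup P) : Set P) :=
    Subgroup.le_centralizer_iff.mp inf_le_right
  have hACD : A ≤ Subgroup.centralizer ((Q ⊓ A : Subgroup P) : Set P) :=
    le_trans hAc (Subgroup.centralizer_le (by exact_mod_cast (inf_le_right : Q ⊓ A ≤ A)))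
  have hBself := maxAbelian_self_centralizing _ h3
  -- key decomposition
  have key : ∀ x : P, x ∈ Q ⊔ A → x ∈ Subgroup.centralizer ((Q ⊓ A : Subgroup P) : Set P) →
      x ∈ ((Q ⊓ Subgroup.centralizer (Q : Set P) : Subgroup P) : Set P) * (A : Set P) := by
    intro x hx hxc
    have hx' : x ∈ ((Q ⊔ A : Subgroup P) : Set P) := hx
    rw [h1] at hx'
    obtain ⟨q, hq, a, ha, rfl⟩ := Set.mem_mul.mp hx'
    have hqc : q ∈ Subgroup.centralizer ((Q ⊓ A : Subgroup P) : Set P) := by
      have := Subgroup.mul_mem _ hxc (Subgroup.inv_mem _ (hACD ha))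
      simpa using this
    have hqB : q ∈ (Q ⊓ Subgroup.centralizer (Q : Set P)) ⊔ (Q ⊓ A) := by
      rw [← hBself, centralizer_sup_eq]
      exact ⟨hQCZ hq, hqc⟩
    have hqB' : q ∈ (((Q ⊓ Subgroup.centralizer (Q : Set P)) ⊔ (Q ⊓ A) : Subgroup P) : Set P) := hqB
    rw [h4] at hqB'
    obtain ⟨z, hz, d, hd, rfl⟩ := Set.mem_mul.mp hqB'
    rw [mul_assoc]
    exact Set.mul_mem_mul hz (A.mul_mem (inf_le_right (a := Q) hd) ha)
  have h5 : (Q ⊔ A) ⊓ Subgroup.centralizer ((Q ⊓ A : Subgroup P) : Set P)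
      = (Q ⊓ Subgroup.centralizer (Q : Set P)) ⊔ A := by
    apply le_antisymm
    · rintro x ⟨hx, hxc⟩
      exact mul_set_subset_sup _ _ (key x hx hxc)
    · apply sup_le
      · exact le_inf (le_trans hZQ le_sup_left)
          (le_trans inf_le_right (Subgroup.centralizer_le (by exact_mod_cast (inf_le_left : Q ⊓ A ≤ Q))))
      · exact le_inf le_sup_right hACD
  have h6 : (((Q ⊓ Subgroup.centralizer (Q : Set P)) ⊔ A : Subgroup P) : Set P)
      = ((Q ⊓ Subgroup.centralizer (Q : Set P) : Subgroup P) : Set P) * (A : Set P) := by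
    apply Set.Subset.antisymm
    · intro x hx
      have hx' : x ∈ (Q ⊓ Subgroup.centralizer (Q : Set P)) ⊔ A := hx
      rw [← h5] at hx'
      exact key x hx'.1 hx'.2
    · exact mul_set_subset_sup _ _
  refine ⟨h1, h2, h5, ?_, ?_⟩
  · rw [h6, Subgroup.coe_inf]; rfl
  -- last part
  have hL : Cfsg.IsCentrallyLarge (Cfsg.centrallyLargeJoin P) := centrallyLargeJoin_isCentrallyLarge (G := P)
  have hJL : Cfsg.thompsonSubgroupA P ≤ Cfsg.centrallyLargeJoin P := by
    unfold Cfsg.thompsonSubgroupA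
    apply sSup_le
    intro B hB
    have hcl := (centrallyLarge_maxAbelian (Cfsg.centrallyLargeJoin P) B hL hB).2.1
    have : Cfsg.centrallyLargeJoin P ⊔ B ≤ Cfsg.centrallyLargeJoin P := le_sSup hcl
    exact le_trans le_sup_right this
  obtain ⟨hL1, hL2⟩ := centrallyLarge_imp _ hL
  obtain ⟨-, hL3⟩ := cd_centralizer _ hL1
  have hAJ : A ≤ Cfsg.thompsonSubgroupA P := le_sSup hA
  have hCL : Subgroup.centralizer ((Cfsg.centrallyLargeJoin P : Subgroup P) : Set P)
      ≤ Cfsg.thompsonSubgroupA P ⊓ Subgroup.centralizer (Cfsg.thompsonSubgroupA P : Set P) := by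
    have h7 : Subgroup.centralizer ((Cfsg.centrallyLargeJoin P : Subgroup P) : Set P)
        ≤ Subgroup.centralizer (Cfsg.thompsonSubgroupA P : Set P) :=
      Subgroup.centralizer_le (by exact_mod_cast hJL)
    refine le_inf ?_ h7
    refine le_trans h7 (le_trans (Subgroup.centralizer_le (by exact_mod_cast hAJ)) ?_)
    rw [hCA]; exact hAJ
  calc Subgroup.centralizer ((Cfsg.thompsonSubgroupA P ⊓ Subgroup.centralizer (Cfsg.thompsonSubgroupA P : Set P) : Subgroup P) : Set P)
      ≤ Subgroup.centralizer ((Subgroup.centralizer ((Cfsg.centrallyLargeJoin P : Subgroup P) : Set P) : Subgroup P) : Set P) :=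
        Subgroup.centralizer_le (by exact_mod_cast hCL)
    _ = Cfsg.centrallyLargeJoin P := hL3.symm

end Cfsg.Agent.S3006
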