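import Cfsg.Statements.S3008
import Cfsg.Agent.S3006
import Cfsg.Agent.Lib.Helper41.CL3

set_option autoImplicit false
open Cfsg

namespace Cfsg.Agent.S3008

open Cfsg.Agent.Lib.Helper58 Cfsg.Agent.Lib.Helper41.CL Pointwise in
theorem part2 {p : ℕ} [Fact p.Prime] (P : Type*) [Group P] [Finite P] (hP : IsPGroup p P) :
    ∃ Q : Subgroup P, Cfsg.IsMinimalCentrallyLarge Q ∧
      Cfsg.thompsonSubgroupA P ≤ Subgroup.normalizer (Q : Set P) ∧
      Cfsg.minimalCentrallyLargeJoin P ≤ Subgroup.normalizer (Q : Set P) := by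
  classical
  obtain ⟨Q₀, hQ₀⟩ := exists_isCentrallyLarge (G := P)
  obtain ⟨Q₁, hQ₁, -⟩ := exists_isMinimalCentrallyLarge_le Q₀ hQ₀
  have hgood₀ : Cfsg.IsCentrallyLarge Q₁ ∧
      ∃ A : Subgroup P, IsMA A ∧ Q₁ ≤ Subgroup.normalizer (A : Set P) :=
    ⟨hQ₁.1, Subgroup.centralizer (Q₁ : Set P), ⟨Q₁, hQ₁, rfl⟩,
      le_trans (Subgroup.le_centralizer_iff.mp le_rfl) (Subgroup.centralizer_le_normalizer _)⟩
  haveI : Nonempty {F : Subgroup P // Cfsg.IsCentrallyLarge F ∧
      ∃ A : Subgroup P, IsMA A ∧ F ≤ Subgroup.normalizer (A : Set P)} := ⟨⟨Q₁, hgood₀⟩⟩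
  obtain ⟨⟨F, hFcl, A, hA, hFA⟩, hmax⟩ := Finite.exists_max
    (fun F : {F : Subgroup P // Cfsg.IsCentrallyLarge F ∧
      ∃ A : Subgroup P, IsMA A ∧ F ≤ Subgroup.normalizer (A : Set P)} => Nat.card ↥F.1)
  have hFm := (centrallyLarge_imp F hFcl).1
  have claim1 : ∀ B : Subgroup P, IsMA B → Subgroup.centralizer (B : Set P) ≤ F := by
    intro B hB
    have hBm := hB.member
    obtain ⟨A', hA', hFA', hBA'⟩ := step hP F B (cd_main F B hFm hBm).1 hB.abelian
      (fun A' hA' => (cd_main A' B hA'.member hBm).1) ⟨A, hA, hFA⟩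
    have hQB := hB.centralizer_mcl
    have hQA' := hA'.centralizer_mcl.1
    have hpair := (Cfsg.Agent.S3007.pair _ _ hQB hQA').1
    rw [← (cd_centralizer B hBm).2] at hpair
    have hQBN : Subgroup.centralizer (B : Set P) ≤ Subgroup.normalizer (A' : Set P) := by
      rw [← hpair]
      exact sup_le (le_trans inf_le_right (Subgroup.centralizer_le_normalizer _))
        (le_trans inf_le_right hBA')
    have hcl := (centrallyLarge_sup F _ hFcl hQB.1).2
    have hcard := hmax ⟨F ⊔ Subgroup.centralizer (B : Set P), hcl, A', hA', sup_le hFA' hQBN⟩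
    simp only at hcard
    have : F = F ⊔ Subgroup.centralizer (B : Set P) :=
      Subgroup.eq_of_le_of_card_ge le_sup_left hcard
    rw [this]
    exact le_sup_right
  have claim2 : ∀ B ∈ Cfsg.maxAbelianSubgroups P, B ≤ F := by
    intro B hB
    obtain ⟨hset, hcl, -, -⟩ := centrallyLarge_maxAbelian F B hFcl hB
    have hAB : ∀ A' : Subgroup P, IsMA A' →
        ((A' ⊔ B : Subgroup P) : Set P) = (A' : Set P) * (B : Set P) := by
      intro A' hA'
      have hQ := hA'.centralizer_mcl.1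
      have h := (Cfsg.Agent.S3006.result P hP _ B hQ hB).2.2.2.1
      have hZ : Subgroup.centralizer (A' : Set P) ⊓
          Subgroup.centralizer ((Subgroup.centralizer (A' : Set P) : Subgroup P) : Set P) = A' := by
        rw [← (cd_centralizer A' hA'.member).2]
        exact inf_of_le_right hA'.abelian
      rw [hZ] at h
      rw [h]
      congr 1
      exact (Subgroup.coe_inf _ _).symm.trans (congrArg _ hZ)
    obtain ⟨A', hA', hFA', hBA'⟩ := step hP F B hset (maxAbelian_le_centralizer B hB) hAB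
      ⟨A, hA, hFA⟩
    have hcard := hmax ⟨F ⊔ B, hcl, A', hA', sup_le hFA' hBA'⟩
    simp only at hcard
    have : F = F ⊔ B := Subgroup.eq_of_le_of_card_ge le_sup_left hcard
    rw [this]
    exact le_sup_right
  have hFN : F ≤ Subgroup.normalizer ((Subgroup.centralizer (A : Set P) : Subgroup P) : Set P) := by
    apply le_normalizer_of_cj_le
    intro f hf
    rw [← cj_centralizer, cj_eq_of_mem_normalizer (hFA hf)]
  refine ⟨Subgroup.centralizer (A : Set P), hA.centralizer_mcl, ?_, ?_⟩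
  · unfold Cfsg.thompsonSubgroupA
    exact le_trans (sSup_le claim2) hFN
  · unfold Cfsg.minimalCentrallyLargeJoin
    refine le_trans (sSup_le ?_) hFN
    intro R hR
    have := claim1 _ ⟨R, hR, rfl⟩
    rwa [← (cd_centralizer R (centrallyLarge_imp R hR.1).1).2] at this

open Cfsg.Agent.Lib.Helper58 in
theorem part1 {P : Type*} [Group P] [Finite P] (Q : Subgroup P) (hQ : Cfsg.IsCentrallyLarge Q) :
    Cfsg.IsCentrallyLarge (Q ⊔ Cfsg.thompsonSubgroupA P) ∧
      Subgroup.centralizer ((Cfsg.thompsonSubgroupA P ⊓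
        Subgroup.centralizer (Cfsg.thompsonSubgroupA P : Set P) : Subgroup P) : Set P)
        ≤ Q ⊔ Cfsg.thompsonSubgroupA P := by
  have hcl : Cfsg.IsCentrallyLarge (Q ⊔ Cfsg.thompsonSubgroupA P) := by
    have h1 : Q ⊔ Cfsg.thompsonSubgroupA P
        = sSup {X : Subgroup P | ∃ A ∈ Cfsg.maxAbelianSubgroups P, X = Q ⊔ A} := by
      obtain ⟨A₀, hA₀⟩ := exists_maxAbelian (G := P)
      apply le_antisymm
      · apply sup_le
        · exact le_trans le_sup_left (le_sSup ⟨A₀, hA₀, rfl⟩)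
        · unfold Cfsg.thompsonSubgroupA
          apply sSup_le
          intro A hA
          exact le_trans le_sup_right (le_sSup ⟨A, hA, rfl⟩)
      · apply sSup_le
        rintro X ⟨A, hA, rfl⟩
        exact sup_le_sup_left (le_sSup hA) Q
    rw [h1]
    apply centrallyLarge_sSup
    · obtain ⟨A₀, hA₀⟩ := exists_maxAbelian (G := P)
      exact ⟨_, A₀, hA₀, rfl⟩
    · rintro X ⟨A, hA, rfl⟩
      exact (centrallyLarge_maxAbelian Q A hQ hA).2.1
  refine ⟨hcl, ?_⟩
  obtain ⟨hm, hC⟩ := centrallyLarge_imp _ hcl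
  have hCC := (cd_centralizer _ hm).2
  have hle : Subgroup.centralizer ((Q ⊔ Cfsg.thompsonSubgroupA P : Subgroup P) : Set P)
      ≤ Cfsg.thompsonSubgroupA P ⊓ Subgroup.centralizer (Cfsg.thompsonSubgroupA P : Set P) := by
    have h7 : Subgroup.centralizer ((Q ⊔ Cfsg.thompsonSubgroupA P : Subgroup P) : Set P)
        ≤ Subgroup.centralizer (Cfsg.thompsonSubgroupA P : Set P) :=
      Subgroup.centralizer_le (by
        exact_mod_cast (le_sup_right : Cfsg.thompsonSubgroupA P ≤ Q ⊔ Cfsg.thompsonSubgroupA P))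
    refine le_inf ?_ h7
    obtain ⟨A₀, hA₀⟩ := exists_maxAbelian (G := P)
    have hAJ : A₀ ≤ Cfsg.thompsonSubgroupA P := le_sSup hA₀
    refine le_trans h7 (le_trans (Subgroup.centralizer_le (by exact_mod_cast hAJ)) ?_)
    rw [maxAbelian_self_centralizing A₀ hA₀]
    exact hAJ
  calc Subgroup.centralizer ((Cfsg.thompsonSubgroupA P ⊓
          Subgroup.centralizer (Cfsg.thompsonSubgroupA P : Set P) : Subgroup P) : Set P)
      ≤ Subgroup.centralizer ((Subgroup.centralizer
          ((Q ⊔ Cfsg.thompsonSubgroupA P : Subgroup P) : Set P) : Subgroup P) : Set P) :=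
        Subgroup.centralizer_le (by exact_mod_cast hle)
    _ = Q ⊔ Cfsg.thompsonSubgroupA P := hCC.symm

open Cfsg.Agent.Lib.Helper58 in
/-- Let P be a finite p-group, with J(P) generated by its abelian subgroups of largest order and J̃(P) = C_P(Z(J(P))); call R ≤ P centrally large if |R|·|Z(R)| is as large as possible, and let P_MCL be generated by the minimal centrally large subgroups. Then: for every centrally large Q, Q·J(P) ⊇ J̃(P); some minimal centrally large subgroup of P is normalized by both J(P) and P_MCL; if P = J(P) and d(P)² = |P|·|Z(P)|, where d(P) is the largest order of an abelian subgroup, then every minimal centrally large subgroup of P is abelian; and if every minimal centrally large subgroup is abelian then J̃(P) = J(P). -/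
theorem result {p : ℕ} [Fact p.Prime] (P : Type*) [Group P] [Finite P] (hP : IsPGroup p P) : (∀ Q : Subgroup P, Cfsg.IsCentrallyLarge Q → Subgroup.centralizer ((Cfsg.thompsonSubgroupA P ⊓ Subgroup.centralizer (Cfsg.thompsonSubgroupA P : Set P) : Subgroup P) : Set P) ≤ Q ⊔ Cfsg.thompsonSubgroupA P) ∧ (∃ Q : Subgroup P, Cfsg.IsMinimalCentrallyLarge Q ∧ Cfsg.thompsonSubgroupA P ≤ Subgroup.normalizer (Q : Set P) ∧ Cfsg.minimalCentrallyLargeJoin P ≤ Subgroup.normalizer (Q : Set P)) ∧ (Cfsg.thompsonSubgroupA P = ⊤ → (∀ A ∈ Cfsg.maxAbelianSubgroups P, Nat.card ↥A ^ 2 = Nat.card P * Nat.card ↥(Subgroup.center P)) → ∀ Q : Subgroup P, Cfsg.IsMinimalCentrallyLarge Q → IsMulCommutative ↥Q) ∧ ((∀ Q : Subgroup P, Cfsg.IsMinimalCentrallyLarge Q → IsMulCommutative ↥Q) → Subgroup.centralizer ((Cfsg.thompsonSubgroupA P ⊓ Subgroup.centralizer (Cfsg.thompsonSubgroupA P : Set P) : Subgroup P) : Set P) = Cfsg.thompsonSubgroupA P) := by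
  refine ⟨fun Q hQ => (part1 Q hQ).2, part2 P hP, ?_, ?_⟩
  · intro hJ hsq Q hQ
    obtain ⟨Q₀, hQ₀⟩ := exists_isCentrallyLarge (G := P)
    have htop : Cfsg.IsCentrallyLarge (⊤ : Subgroup P) := by
      have := (part1 Q₀ hQ₀).1
      rwa [hJ, sup_top_eq] at this
    obtain ⟨A, hA⟩ := exists_maxAbelian (G := P)
    have hAab := maxAbelian_le_centralizer A hA
    have hAcl : Cfsg.IsCentrallyLarge A := by
      rw [isCentrallyLarge_iff] at htop ⊢
      rw [← htop]
      unfold clm
      rw [inf_of_le_left hAab]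
      have h := hsq A hA
      have e1 : Nat.card ↥(⊤ : Subgroup P) = Nat.card P := Subgroup.card_top
      have e2 : Nat.card ↥((⊤ : Subgroup P) ⊓ Subgroup.centralizer ((⊤ : Subgroup P) : Set P))
          = Nat.card ↥(Subgroup.center P) := by
        rw [top_inf_eq, Subgroup.coe_top, Subgroup.centralizer_univ]
      rw [e1, e2, ← h, sq]
    obtain ⟨Q₁, hQ₁, hQ₁A⟩ := exists_isMinimalCentrallyLarge_le A hAcl
    have hQ₁ab : IsMulCommutative ↥Q₁ := Subgroup.le_centralizer_iff_isMulCommutative.mp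
      (le_trans hQ₁A (le_trans hAab (Subgroup.centralizer_le (by exact_mod_cast hQ₁A))))
    have h := (Cfsg.Agent.S3007.result P hP Q₁ Q₁ hQ₁ hQ₁).2.2.2.2 hQ₁ab Q
    exact (h.mp hQ).1
  · intro hall
    apply le_antisymm
    · obtain ⟨Q₀, hQ₀⟩ := exists_isCentrallyLarge (G := P)
      obtain ⟨Q₁, hQ₁, -⟩ := exists_isMinimalCentrallyLarge_le Q₀ hQ₀
      have hQ₁ab := hall Q₁ hQ₁
      have h := ((Cfsg.Agent.S3007.result P hP Q₁ Q₁ hQ₁ hQ₁).2.2.2.2 hQ₁ab Q₁).mp hQ₁
      have hQJ : Q₁ ≤ Cfsg.thompsonSubgroupA P := le_sSup h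
      have := (part1 Q₁ hQ₁.1).2
      rwa [sup_of_le_right hQJ] at this
    · exact Subgroup.le_centralizer_iff.mp inf_le_right

end Cfsg.Agent.S3008
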