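import Cfsg.Statements.S3011
import Cfsg.Agent.S0200
import Cfsg.Agent.Lib.Helper31.Basic

set_option autoImplicit false
open Cfsg

namespace Cfsg.Agent.S3011

open Subgroup

theorem odd_sq {G : Type*} [Group G] {z : G} (ho : Odd (orderOf z)) (h : z * z = 1) : z = 1 := by
  have h1 : orderOf z ∣ 2 := orderOf_dvd_of_pow_eq_one (by rw [pow_two]; exact h)
  have h2 : orderOf z = 1 := by
    rcases (Nat.dvd_prime Nat.prime_two).mp h1 with h3 | h3
    · exact h3
    · rw [h3] at ho
      exact absurd ho (by decide)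
  exact orderOf_eq_one_iff.mp h2

theorem odd_inv_eq {G : Type*} [Group G] {z : G} (ho : Odd (orderOf z)) (h : z⁻¹ = z) : z = 1 := by
  apply odd_sq ho
  nth_rewrite 1 [← h]
  exact inv_mul_cancel z

/-- if `y` has odd order and `y ^ 2` commutes with `x`, then `y` commutes with `x` -/
theorem comm_of_sq_comm {G : Type*} [Group G] {x y : G} (ho : Odd (orderOf y))
    (h : Commute (y ^ 2) x) : Commute y x := by
  obtain ⟨m, hm⟩ := ho
  have e : (y ^ 2) ^ (m + 1) = y := by
    rw [← pow_mul]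
    have : 2 * (m + 1) = orderOf y + 1 := by omega
    rw [this, pow_succ, pow_orderOf_eq_one, one_mul]
  rw [← e]
  exact h.pow_left _

theorem odd_sq_order {G : Type*} [Group G] {y : G} (ho : Odd (orderOf y)) :
    Odd (orderOf (y ^ 2)) :=
  Odd.of_dvd_nat ho (orderOf_pow_dvd 2)

/-- the key configuration is impossible -/
theorem key {G : Type*} [Group G] (V : Subgroup G) (hS : Cfsg.IsSidkiPair V) (w1 w2 x y : G)
    (hw1 : w1 ∈ V) (hw2 : w2 ∈ V)
    (hVel : ∀ w ∈ V, w ≠ 1 → w = w1 ∨ w = w2 ∨ w = w1 * w2)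
    (hx1 : w1 * x * w1⁻¹ = x) (hx2 : w2 * x * w2⁻¹ = x⁻¹)
    (hy2 : w2 * y * w2⁻¹ = y) (hy1 : w1 * y * w1⁻¹ = y⁻¹)
    (hxo : Odd (orderOf x)) (hyo : Odd (orderOf y)) (hx : x ≠ 1) (hy : y ≠ 1) : False := by
  have hx3 : (w1 * w2) * x * (w1 * w2)⁻¹ = x⁻¹ := by
    have : (w1 * w2) * x * (w1 * w2)⁻¹ = w1 * (w2 * x * w2⁻¹) * w1⁻¹ := by group
    rw [this, hx2]
    have : w1 * x⁻¹ * w1⁻¹ = (w1 * x * w1⁻¹)⁻¹ := by group
    rw [this, hx1]
  have hy3 : (w1 * w2) * y * (w1 * w2)⁻¹ = y⁻¹ := by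
    have : (w1 * w2) * y * (w1 * w2)⁻¹ = w1 * (w2 * y * w2⁻¹) * w1⁻¹ := by group
    rw [this, hy2, hy1]
  have hw3 : w1 * w2 ∈ V := V.mul_mem hw1 hw2
  have conj_eq : ∀ w h : G, w * h = h * w → w * h * w⁻¹ = h := by
    intro w h hc
    rw [hc, mul_inv_cancel_right]
  -- `x` and `y` do not commute
  have hnc : ¬ Commute x y := by
    intro hc
    have ho : Odd (orderOf (x * y)) := by
      have hd : orderOf (x * y) ∣ orderOf x * orderOf y := by
        apply orderOf_dvd_of_pow_eq_one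
        rw [hc.mul_pow, pow_mul, pow_orderOf_eq_one, one_pow, mul_comm (orderOf x), pow_mul,
          pow_orderOf_eq_one, one_pow, one_mul]
      exact Odd.of_dvd_nat (hxo.mul hyo) hd
    have hinv : (w1 * w2) * (x * y) * (w1 * w2)⁻¹ = (x * y)⁻¹ := by
      have : (w1 * w2) * (x * y) * (w1 * w2)⁻¹ =
          ((w1 * w2) * x * (w1 * w2)⁻¹) * ((w1 * w2) * y * (w1 * w2)⁻¹) := by group
      rw [this, hx3, hy3, hc.eq, mul_inv_rev]
    obtain ⟨w, hwV, hwne, hwc⟩ := hS (x * y) (w1 * w2) hw3 ho hinv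
    have hwc' := conj_eq w _ hwc
    rcases hVel w hwV hwne with rfl | rfl | rfl
    · have : w * (x * y) * w⁻¹ = (w * x * w⁻¹) * (w * y * w⁻¹) := by group
      rw [this, hx1, hy1] at hwc'
      exact hy (odd_inv_eq hyo (mul_left_cancel hwc'))
    · have : w * (x * y) * w⁻¹ = (w * x * w⁻¹) * (w * y * w⁻¹) := by group
      rw [this, hx2, hy2] at hwc'
      exact hx (odd_inv_eq hxo (mul_right_cancel hwc'))
    · rw [hinv] at hwc'
      have hxy1 : x * y = 1 := odd_inv_eq ho hwc'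
      have hyx : y = x⁻¹ := (inv_eq_of_mul_eq_one_right hxy1).symm
      have : w1 * y * w1⁻¹ = y := by
        rw [hyx]
        have : w1 * x⁻¹ * w1⁻¹ = (w1 * x * w1⁻¹)⁻¹ := by group
        rw [this, hx1]
      rw [hy1] at this
      exact hy (odd_inv_eq hyo this)
  -- the conjugate `y⁻¹ x y`
  obtain ⟨h, hh⟩ : ∃ h : G, h = y⁻¹ * x * y := ⟨_, rfl⟩
  have hho : Odd (orderOf h) := by
    have : h = MulAut.conj y⁻¹ x := by rw [hh, MulAut.conj_apply, inv_inv]
    rw [this, MulEquiv.orderOf_eq]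
    exact hxo
  have hh1 : h ≠ 1 := by
    intro h1
    apply hx
    have : x = y * h * y⁻¹ := by rw [hh]; group
    rw [this, h1, mul_one, mul_inv_cancel]
  have hconj : ∀ w : G, w * h * w⁻¹ = (w * y * w⁻¹)⁻¹ * (w * x * w⁻¹) * (w * y * w⁻¹) := by
    intro w
    rw [hh]; group
  have hinv : w2 * h * w2⁻¹ = h⁻¹ := by
    rw [hconj, hy2, hx2, hh]; group
  obtain ⟨w, hwV, hwne, hwc⟩ := hS h w2 hw2 hho hinv
  have hwc' := conj_eq w _ hwc
  rcases hVel w hwV hwne with rfl | rfl | rfl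
  · -- `w1`: then `y ^ 2` commutes with `x`
    rw [hconj, hy1, hx1, hh, inv_inv] at hwc'
    apply hnc
    apply (comm_of_sq_comm hyo _).symm
    show y ^ 2 * x = x * y ^ 2
    have : y ^ 2 * x = y * (y * x * y⁻¹) * y := by rw [pow_two]; group
    rw [this, hwc', pow_two]; group
  · rw [hinv] at hwc'
    exact hh1 (odd_inv_eq hho hwc')
  · -- `w1 * w2`: then `y ^ 2` inverts `x`
    rw [hconj, hy3, hx3, hh, inv_inv] at hwc'
    have h2 : y ^ 2 * x⁻¹ * (y ^ 2)⁻¹ = x := by
      have : y ^ 2 * x⁻¹ * (y ^ 2)⁻¹ = y * (y * x⁻¹ * y⁻¹) * y⁻¹ := by rw [pow_two]; group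
      rw [this, hwc']; group
    have h3 : y ^ 2 * x * (y ^ 2)⁻¹ = x⁻¹ := by
      have : y ^ 2 * x * (y ^ 2)⁻¹ = (y ^ 2 * x⁻¹ * (y ^ 2)⁻¹)⁻¹ := by group
      rw [this, h2]
    have e : y ^ 2 * x⁻¹ = x * y ^ 2 := mul_inv_eq_iff_eq_mul.mp h2
    have h4 : Commute ((y ^ 2) ^ 2) x := by
      show (y ^ 2) ^ 2 * x = x * (y ^ 2) ^ 2
      have : (y ^ 2) ^ 2 * x = (y ^ 2) * (y ^ 2 * x * (y ^ 2)⁻¹) * (y ^ 2) := by
        rw [pow_two (y ^ 2)]; group
      rw [this, h3, e, mul_assoc, ← pow_two]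
    exact hnc (comm_of_sq_comm hyo (comm_of_sq_comm (odd_sq_order hyo) h4)).symm

/-- Let G be a finite group and V a nontrivial elementary abelian 2-subgroup of G of order at most 4 such that, whenever an element of V inverts an element h of G of odd order, some nontrivial element of V commutes with h. Then V meets O₂(G) nontrivially. (The case of order at most 4 has a short argument from the Baer–Suzuki theorem.) -/
theorem result {G : Type*} [Group G] [Finite G] (V : Subgroup G) (hV : Cfsg.IsElementaryAbelian 2 V) (hV1 : V ≠ ⊥) (hS : Cfsg.IsSidkiPair V) (h4 : Nat.card V ≤ 4) : V ⊓ Cfsg.pCore 2 G ≠ ⊥ := by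
  classical
  intro hbot
  have hsq : ∀ v ∈ V, v * v = 1 := by
    intro v hv
    have := hV.2 v hv
    rwa [pow_two] at this
  have hinvV : ∀ v ∈ V, v⁻¹ = v := fun v hv => inv_eq_of_mul_eq_one_left (hsq v hv)
  have hcomm : ∀ v ∈ V, ∀ w ∈ V, v * w = w * v := by
    intro v hv w hw
    exact congrArg Subtype.val (hV.1.is_comm.comm ⟨v, hv⟩ ⟨w, hw⟩)
  -- every nontrivial element of `V` inverts a nontrivial element of odd order
  have hA : ∀ v ∈ V, v ≠ 1 → ∃ h : G, h ≠ 1 ∧ Odd (orderOf h) ∧ v * h * v⁻¹ = h⁻¹ := by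
    intro v hv hv1
    have ho : orderOf v = 2 := orderOf_eq_prime (by rw [pow_two]; exact hsq v hv) hv1
    apply Cfsg.Agent.S0200.result v ho
    intro N hN hN2 hvN
    have : v ∈ V ⊓ Cfsg.pCore 2 G :=
      ⟨hv, Cfsg.Agent.Lib.Helper31.le_pCore hN hN2 hvN⟩
    rw [hbot, mem_bot] at this
    exact hv1 this
  obtain ⟨a, haV, ha1⟩ : ∃ a ∈ V, a ≠ 1 := by
    by_contra hno
    push Not at hno
    exact hV1 ((Subgroup.eq_bot_iff_forall V).mpr hno)
  obtain ⟨x, hx1, hxo, hax⟩ := hA a haV ha1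
  obtain ⟨b, hbV, hb1, hbx⟩ := hS x a haV hxo hax
  have hbx' : b * x * b⁻¹ = x := by rw [hbx, mul_inv_cancel_right]
  have hab : a ≠ b := by
    rintro rfl
    rw [hax] at hbx'
    exact hx1 (odd_inv_eq hxo hbx')
  have habc : a * b = b * a := hcomm a haV b hbV
  -- the elements of `V`
  have hVel : ∀ w ∈ V, w ≠ 1 → w = a ∨ w = b ∨ w = a * b := by
    intro w hw hw1
    by_contra hno
    push Not at hno
    obtain ⟨hwa, hwb, hwab⟩ := hno
    have hcard : ({1, a, b, a * b, w} : Finset G).card = 5 := by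
      rw [Finset.card_insert_of_notMem, Finset.card_insert_of_notMem,
        Finset.card_insert_of_notMem, Finset.card_insert_of_notMem, Finset.card_singleton]
      · simp only [Finset.mem_singleton]
        exact fun h => hwab h.symm
      · simp only [Finset.mem_insert, Finset.mem_singleton, not_or]
        refine ⟨fun h => ha1 ?_, fun h => hwb h.symm⟩
        exact mul_eq_right.mp h.symm
      · simp only [Finset.mem_insert, Finset.mem_singleton, not_or]
        refine ⟨hab, fun h => hb1 ?_, fun h => hwa h.symm⟩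
        exact mul_eq_left.mp h.symm
      · simp only [Finset.mem_insert, Finset.mem_singleton, not_or]
        refine ⟨fun h => ha1 h.symm, fun h => hb1 h.symm, fun h => hab ?_, fun h => hw1 h.symm⟩
        have : a = b⁻¹ := eq_inv_of_mul_eq_one_left h.symm
        rw [this, hinvV b hbV]
    have hsub : (({1, a, b, a * b, w} : Finset G) : Set G) ⊆ (V : Set G) := by
      intro g hg
      simp only [Finset.coe_insert, Finset.coe_singleton, Set.mem_insert_iff,
        Set.mem_singleton_iff] at hg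
      rcases hg with rfl | rfl | rfl | rfl | rfl
      · exact V.one_mem
      · exact haV
      · exact hbV
      · exact V.mul_mem haV hbV
      · exact hw
    have h5 := Set.ncard_le_ncard hsub (Set.toFinite _)
    rw [Set.ncard_coe_finset, hcard] at h5
    have h6 : (V : Set G).ncard = Nat.card V := (Nat.card_coe_set_eq (V : Set G)).symm
    rw [h6] at h5
    omega
  obtain ⟨y, hy1, hyo, hby⟩ := hA b hbV hb1
  obtain ⟨w, hwV, hw1, hwy⟩ := hS y b hbV hyo hby
  have hwy' : w * y * w⁻¹ = y := by rw [hwy, mul_inv_cancel_right]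
  rcases hVel w hwV hw1 with rfl | rfl | rfl
  · -- `a` centralizes `y`
    refine key V hS b w x y hbV hwV ?_ hbx' hax hwy' hby hxo hyo hx1 hy1
    intro v hv hv1
    rcases hVel v hv hv1 with h | h | h
    · exact Or.inr (Or.inl h)
    · exact Or.inl h
    · exact Or.inr (Or.inr (h.trans habc))
  · rw [hby] at hwy'
    exact hy1 (odd_inv_eq hyo hwy')
  · -- `a * b` centralizes `y`
    have habx : (a * b) * x * (a * b)⁻¹ = x⁻¹ := by
      have : (a * b) * x * (a * b)⁻¹ = a * (b * x * b⁻¹) * a⁻¹ := by group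
      rw [this, hbx', hax]
    refine key V hS b (a * b) x y hbV hwV ?_ hbx' habx hwy' hby hxo hyo hx1 hy1
    intro v hv hv1
    have e : b * (a * b) = a := by
      rw [habc, ← mul_assoc, hsq b hbV, one_mul]
    rcases hVel v hv hv1 with h | h | h
    · exact Or.inr (Or.inr (h.trans e.symm))
    · exact Or.inl h
    · exact Or.inr (Or.inl h)

end Cfsg.Agent.S3011
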