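import Cfsg.Statements.S3013
import Mathlib

set_option autoImplicit false
open Cfsg

namespace Cfsg.Agent.S3013

theorem comm_of_comm_sq_odd {G : Type*} [Group G] (w x : G) (hx : Odd (orderOf x))
    (h : w * (x * x) = (x * x) * w) : w * x = x * w := by
  obtain ⟨k, hk⟩ := hx
  have hx1 : x ^ (2 * k + 1) = 1 := by rw [← hk]; exact pow_orderOf_eq_one x
  have hx2 : x = (x * x) ^ (k + 1) := by
    have : (x * x) ^ (k + 1) = x ^ (2 * k + 1) * x := by
      rw [← pow_two, ← pow_mul, ← pow_succ]; congr 1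
    rw [this, hx1, one_mul]
  have hc : Commute w (x * x) := h
  have : Commute w ((x * x) ^ (k + 1)) := hc.pow_right _
  rw [← hx2] at this
  exact this

/-- Let G be a finite group and V a nontrivial elementary abelian 2-subgroup of G satisfying the Sidki pair condition. Let v ∈ V and let x be an element of odd order inverted by v, and put C = C_G(v) ∩ C_G(x), the centralizer of the dihedral subgroup generated by v and x. Then C ∩ V is nontrivial and satisfies the Sidki pair condition inside C: every odd-order element of C inverted by an element of C ∩ V commutes with a nontrivial element of C ∩ V. -/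
theorem result {G : Type*} [Group G] [Finite G] (V : Subgroup G) (hV : Cfsg.IsElementaryAbelian 2 V) (hV1 : V ≠ ⊥) (hS : Cfsg.IsSidkiPair V) (v x : G) (hv : v ∈ V) (hx : Odd (orderOf x)) (hinv : v * x * v⁻¹ = x⁻¹) (C : Subgroup G) (hC : C = Subgroup.centralizer ({v} : Set G) ⊓ Subgroup.centralizer ({x} : Set G)) : C ⊓ V ≠ ⊥ ∧ Cfsg.IsSidkiPair ((C ⊓ V).subgroupOf C) := by
  have hcomm : ∀ a b : G, a ∈ V → b ∈ V → a * b = b * a := by
    intro a b ha hb
    have := hV.1.is_comm.comm (⟨a, ha⟩ : V) ⟨b, hb⟩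
    exact congrArg Subtype.val this
  have hmemC : ∀ g : G, g ∈ C ↔ g * v = v * g ∧ g * x = x * g := by
    intro g
    rw [hC, Subgroup.mem_inf, Subgroup.mem_centralizer_iff, Subgroup.mem_centralizer_iff]
    simp only [Set.mem_singleton_iff, forall_eq]
    constructor
    · rintro ⟨h1, h2⟩; exact ⟨h1.symm, h2.symm⟩
    · rintro ⟨h1, h2⟩; exact ⟨h1.symm, h2.symm⟩
  constructor
  · obtain ⟨w, hwV, hw1, hwx⟩ := hS x v hv hx hinv
    intro hbot
    have hwC : w ∈ C := (hmemC w).2 ⟨hcomm w v hwV hv, hwx⟩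
    have : w ∈ C ⊓ V := ⟨hwC, hwV⟩
    rw [hbot, Subgroup.mem_bot] at this
    exact hw1 this
  · intro h u hu hodd hinv2
    rw [Subgroup.mem_subgroupOf] at hu
    have huV : (u : G) ∈ V := hu.2
    have hhC := (hmemC h).1 h.2
    have huC := (hmemC u).1 u.2
    have hodd' : Odd (orderOf (h : G)) := by rwa [Subgroup.orderOf_coe]
    have hinv2' : (u : G) * (h : G) * (u : G)⁻¹ = (h : G)⁻¹ := by
      have := congrArg Subtype.val hinv2
      simpa using this
    have hhx : Commute (h : G) x := hhC.2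
    have hoddhx : Odd (orderOf ((h : G) * x)) := by
      have hd := hhx.orderOf_mul_dvd_mul_orderOf
      exact Odd.of_dvd_nat (hodd'.mul hx) hd
    have hinv3 : ((u : G) * v) * ((h : G) * x) * ((u : G) * v)⁻¹ = ((h : G) * x)⁻¹ := by
      have e1 : v * (h : G) = (h : G) * v := hhC.1.symm
      have e2 : (u : G) * x = x * (u : G) := huC.2
      have e3 : v * x = x⁻¹ * v := by
        have := hinv
        rw [mul_inv_eq_iff_eq_mul] at this
        exact this
      have e4 : (u : G) * (h : G) = (h : G)⁻¹ * (u : G) := by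
        have := hinv2'
        rw [mul_inv_eq_iff_eq_mul] at this
        exact this
      have e5 : (u : G) * x⁻¹ = x⁻¹ * (u : G) := by
        have : Commute (u : G) x := e2
        exact this.inv_right
      have e6 : (h : G)⁻¹ * x⁻¹ = x⁻¹ * (h : G)⁻¹ := by
        exact (hhx.inv_left.inv_right).eq
      rw [mul_inv_eq_iff_eq_mul]
      calc (u : G) * v * ((h : G) * x) = (u : G) * (v * (h : G)) * x := by group
        _ = (u : G) * ((h : G) * v) * x := by rw [e1]
        _ = (u : G) * (h : G) * (v * x) := by group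
        _ = (u : G) * (h : G) * (x⁻¹ * v) := by rw [e3]
        _ = ((u : G) * (h : G)) * x⁻¹ * v := by group
        _ = ((h : G)⁻¹ * (u : G)) * x⁻¹ * v := by rw [e4]
        _ = (h : G)⁻¹ * ((u : G) * x⁻¹) * v := by group
        _ = (h : G)⁻¹ * (x⁻¹ * (u : G)) * v := by rw [e5]
        _ = ((h : G)⁻¹ * x⁻¹) * ((u : G) * v) := by group
        _ = (x⁻¹ * (h : G)⁻¹) * ((u : G) * v) := by rw [e6]
        _ = ((h : G) * x)⁻¹ * ((u : G) * v) := by group
    obtain ⟨w, hwV, hw1, hwhx⟩ := hS ((h : G) * x) ((u : G) * v) (V.mul_mem huV hv) hoddhx hinv3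
    have hwu : w * (u : G) = (u : G) * w := hcomm w u hwV huV
    have hwv : w * v = v * w := hcomm w v hwV hv
    -- w commutes with u (h x) u⁻¹ = h⁻¹ x
    have hc1 : Commute w ((h : G) * x) := hwhx
    have hc2 : Commute w (u : G) := hwu
    have hc3 : Commute w ((u : G) * ((h : G) * x) * (u : G)⁻¹) := (hc2.mul_right hc1).mul_right hc2.inv_right
    have e7 : (u : G) * ((h : G) * x) * (u : G)⁻¹ = (h : G)⁻¹ * x := by
      have e2 : (u : G) * x = x * (u : G) := huC.2
      calc (u : G) * ((h : G) * x) * (u : G)⁻¹ = ((u : G) * (h : G) * (u : G)⁻¹) * ((u : G) * x) * (u : G)⁻¹ := by group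
        _ = (h : G)⁻¹ * (x * (u : G)) * (u : G)⁻¹ := by rw [hinv2', e2]
        _ = (h : G)⁻¹ * x := by group
    rw [e7] at hc3
    have hc4 : Commute w (((h : G) * x) * ((h : G)⁻¹ * x)) := hc1.mul_right hc3
    have e8 : ((h : G) * x) * ((h : G)⁻¹ * x) = x * x := by
      have : x * (h : G)⁻¹ = (h : G)⁻¹ * x := (hhx.inv_left).eq.symm
      calc ((h : G) * x) * ((h : G)⁻¹ * x) = (h : G) * (x * (h : G)⁻¹) * x := by group
        _ = (h : G) * ((h : G)⁻¹ * x) * x := by rw [this]
        _ = x * x := by group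
    rw [e8] at hc4
    have hwx : w * x = x * w := comm_of_comm_sq_odd w x hx hc4.eq
    have hc5 : Commute w x := hwx
    have hc6 : Commute w (((h : G) * x) * x⁻¹) := hc1.mul_right hc5.inv_right
    have e9 : ((h : G) * x) * x⁻¹ = (h : G) := by group
    rw [e9] at hc6
    have hwC : w ∈ C := (hmemC w).2 ⟨hwv, hwx⟩
    refine ⟨⟨w, hwC⟩, ?_, ?_, ?_⟩
    · rw [Subgroup.mem_subgroupOf]
      exact ⟨hwC, hwV⟩
    · intro h1
      apply hw1
      exact congrArg Subtype.val h1
    · apply Subtype.ext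
      simpa using hc6.eq

end Cfsg.Agent.S3013
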