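import Cfsg.Statements.S3014
import Cfsg.Agent.Lib.Helper59.Replace

set_option autoImplicit false
open Cfsg

namespace Cfsg.Agent.S3014

open Cfsg.Agent.Lib.Helper59

/-- a subgroup containing `H` and an element of `M ∖ H` contains `M` -/
theorem le_of_coatom {G : Type*} [Group G] (H M J : Subgroup G)
    (hmaxH : IsCoatom (H.subgroupOf M)) (hHJ : H ≤ J) (x : G) (hxM : x ∈ M) (hxH : x ∉ H)
    (hxJ : x ∈ J) : M ≤ J := by
  have hle : H.subgroupOf M ≤ J.subgroupOf M := fun y hy => hHJ hy
  have hlt : H.subgroupOf M < J.subgroupOf M := by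
    refine lt_of_le_of_ne hle ?_
    intro heq
    apply hxH
    have h1 : (⟨x, hxM⟩ : ↥M) ∈ J.subgroupOf M := Subgroup.mem_subgroupOf.2 hxJ
    rw [← heq] at h1
    exact Subgroup.mem_subgroupOf.1 h1
  exact Subgroup.subgroupOf_eq_top.1 (hmaxH.2 _ hlt)

theorem isCyclic_quot {G : Type*} [Group G] (H M : Subgroup G)
    (hmaxH : IsCoatom (H.subgroupOf M)) [(H.subgroupOf M).Normal] :
    IsCyclic (↥M ⧸ H.subgroupOf M) := by
  obtain ⟨x, -, hx⟩ := SetLike.exists_of_lt (lt_top_iff_ne_top.2 hmaxH.1)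
  have hT : H.subgroupOf M ⊔ Subgroup.zpowers x = ⊤ := by
    apply hmaxH.2
    refine lt_of_le_of_ne le_sup_left ?_
    intro heq
    apply hx
    have h1 : x ∈ H.subgroupOf M ⊔ Subgroup.zpowers x :=
      Subgroup.mem_sup_right (Subgroup.mem_zpowers x)
    rw [← heq] at h1
    exact h1
  have h2 : (H.subgroupOf M ⊔ Subgroup.zpowers x).map (QuotientGroup.mk' (H.subgroupOf M))
      = ⊤ := by
    rw [hT]; exact Subgroup.map_top_of_surjective _ (QuotientGroup.mk'_surjective _)
  have h3 : (H.subgroupOf M).map (QuotientGroup.mk' (H.subgroupOf M)) = ⊥ := by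
    rw [Subgroup.map_eq_bot_iff, QuotientGroup.ker_mk']
  rw [Subgroup.map_sup, h3, bot_sup_eq, MonoidHom.map_zpowers] at h2
  exact isCyclic_iff_exists_zpowers_eq_top.2 ⟨_, h2⟩

/-- If `M ∩ M^g ≤ H` for all `g ∉ M`, the transfer into an abelian quotient of `M` with kernel
`H` restricts to the quotient map on `M`. -/
theorem transfer_key {G : Type*} [Group G] [Finite G] (M H : Subgroup G)
    {A : Type*} [CommGroup A] (ϕ : ↥M →* A) (hker : ∀ m : ↥M, ϕ m = 1 ↔ (m : G) ∈ H)
    (hI : ∀ g : G, g ∉ M → M ⊓ M.map (MulAut.conj g).toMonoidHom ≤ H) :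
    ∀ (x : G) (hx : x ∈ M), MonoidHom.transfer ϕ x = ϕ ⟨x, hx⟩ := by
  classical
  intro x hx
  haveI : Fintype (Quotient (MulAction.orbitRel (Subgroup.zpowers x) (G ⧸ M))) :=
    Fintype.ofFinite _
  rw [MonoidHom.transfer_eq_prod_quotient_orbitRel_zpowers_quot ϕ x]
  have hzM : ∀ z : ↥(Subgroup.zpowers x), (z : G) ∈ M := fun z =>
    (Subgroup.zpowers_le.2 hx) z.2
  have hq : ∀ q : Quotient (MulAction.orbitRel (Subgroup.zpowers x) (G ⧸ M)),
      q.out.out ∈ M → q.out = ((1 : G) : G ⧸ M) := by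
    intro q ht
    have h1 : ((q.out.out : G) : G ⧸ M) = q.out := QuotientGroup.out_eq' q.out
    rw [← h1]
    apply QuotientGroup.eq.2
    rw [mul_one]
    exact M.inv_mem ht
  rw [Finset.prod_eq_single
    (Quotient.mk (MulAction.orbitRel (Subgroup.zpowers x) (G ⧸ M)) ((1 : G) : G ⧸ M))]
  · -- the factor of the fixed point
    set q₀ := (Quotient.mk (MulAction.orbitRel (Subgroup.zpowers x) (G ⧸ M)) ((1 : G) : G ⧸ M))
      with hq₀
    have hrel : MulAction.orbitRel (Subgroup.zpowers x) (G ⧸ M) q₀.out ((1 : G) : G ⧸ M) :=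
      Quotient.exact (Quotient.out_eq q₀)
    have hs : q₀.out = ((1 : G) : G ⧸ M) := by
      rw [MulAction.orbitRel_apply] at hrel
      obtain ⟨z, hz⟩ := hrel
      rw [← hz]
      apply QuotientGroup.eq.2
      rw [mul_one]
      exact M.inv_mem (M.mul_mem (hzM z) M.one_mem)
    have ht : q₀.out.out ∈ M := by
      have h1 : ((q₀.out.out : G) : G ⧸ M) = ((1 : G) : G ⧸ M) := by
        rw [QuotientGroup.out_eq' q₀.out, hs]
      have h2 := QuotientGroup.eq.1 h1
      rw [mul_one] at h2
      exact (M.inv_mem_iff).1 h2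
    have hn : Function.minimalPeriod (x • ·) q₀.out = 1 := by
      rw [Function.minimalPeriod_eq_one_iff_isFixedPt, hs]
      show ((x * 1 : G) : G ⧸ M) = ((1 : G) : G ⧸ M)
      rw [mul_one]
      exact QuotientGroup.eq.2 (by rw [mul_one]; exact M.inv_mem hx)
    have hfac : (⟨q₀.out.out⁻¹ * x ^ Function.minimalPeriod (x • ·) q₀.out * q₀.out.out,
        QuotientGroup.out_conj_pow_minimalPeriod_mem M x q₀.out⟩ : ↥M)
        = (⟨q₀.out.out, ht⟩ : ↥M)⁻¹ * ⟨x, hx⟩ * ⟨q₀.out.out, ht⟩ := by
      apply Subtype.ext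
      show q₀.out.out⁻¹ * x ^ Function.minimalPeriod (x • ·) q₀.out * q₀.out.out
        = q₀.out.out⁻¹ * x * q₀.out.out
      rw [hn, pow_one]
    rw [hfac, map_mul, map_mul, map_inv, mul_comm (ϕ ⟨q₀.out.out, ht⟩)⁻¹, mul_assoc,
      inv_mul_cancel, mul_one]
  · intro q _ hqne
    have ht : q.out.out ∉ M := by
      intro ht
      apply hqne
      rw [← Quotient.out_eq q, hq q ht]
    have ht' : q.out.out⁻¹ ∉ M := fun h => ht ((M.inv_mem_iff).1 h)
    apply (hker _).2
    apply hI _ ht'
    refine Subgroup.mem_inf.2 ⟨QuotientGroup.out_conj_pow_minimalPeriod_mem M x q.out, ?_⟩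
    refine Subgroup.mem_map.2 ⟨x ^ Function.minimalPeriod (x • ·) q.out, M.pow_mem hx _, ?_⟩
    show q.out.out⁻¹ * x ^ Function.minimalPeriod (x • ·) q.out * q.out.out⁻¹⁻¹ = _
    rw [inv_inv]
  · intro h
    exact absurd (Finset.mem_univ _) h

/-- Let G be a finite group and H ≤ M ≤ G subgroups such that for every g ∈ G the subgroup generated by H and g H g⁻¹ meets M exactly in H. If H is a maximal subgroup of M and M is a maximal subgroup of G, then the normal closure of H in G meets M exactly in H. -/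
theorem result {G : Type*} [Group G] [Finite G] (H M : Subgroup G) (hHM : H ≤ M) (hcl : ∀ g : G, (H ⊔ H.map (MulAut.conj g).toMonoidHom) ⊓ M = H) (hmaxH : IsCoatom (H.subgroupOf M)) (hmaxM : IsCoatom M) : Subgroup.normalClosure (H : Set G) ⊓ M = H := by
  classical
  -- conjugates of `H` inside `M` are equal to `H`
  have hconjM : ∀ x : G, H.map (MulAut.conj x).toMonoidHom ≤ M →
      H.map (MulAut.conj x).toMonoidHom ≤ H := by
    intro x hx
    have h1 : H ⊔ H.map (MulAut.conj x).toMonoidHom ≤ M := sup_le hHM hx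
    have h2 := hcl x
    rw [inf_eq_left.2 h1] at h2
    exact le_sup_right.trans h2.le
  have hMN : M ≤ Subgroup.normalizer (H : Set G) := by
    intro m hm
    apply conj_mem_imp_mem_normalizer
    intro a ha
    have h1 : H.map (MulAut.conj m).toMonoidHom ≤ M := by
      rintro _ ⟨b, hb, rfl⟩
      exact M.mul_mem (M.mul_mem hm (hHM hb)) (M.inv_mem hm)
    exact hconjM m h1 (Subgroup.mem_map.2 ⟨a, ha, rfl⟩)
  have hge : H ≤ Subgroup.normalClosure (H : Set G) ⊓ M :=
    le_inf Subgroup.le_normalClosure hHM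
  by_cases hMn : Subgroup.normalizer (M : Set G) = ⊤
  · -- `M` normal: then `H` is normal
    have hHn : H.Normal := by
      constructor
      intro n hn x
      have hMx : ∀ a ∈ M, x * a * x⁻¹ ∈ M := by
        intro a ha
        have hx : x ∈ Subgroup.normalizer (M : Set G) := by rw [hMn]; exact Subgroup.mem_top x
        exact (Subgroup.mem_normalizer_iff.1 hx a).1 ha
      have h1 : H.map (MulAut.conj x).toMonoidHom ≤ M := by
        rintro _ ⟨b, hb, rfl⟩
        exact hMx b (hHM hb)
      exact hconjM x h1 (Subgroup.mem_map.2 ⟨n, hn, rfl⟩)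
    rw [Subgroup.normalClosure_eq_self H]
    exact inf_eq_left.2 hHM
  · have hNM : Subgroup.normalizer (M : Set G) = M := by
      rcases eq_or_lt_of_le (Subgroup.le_normalizer : M ≤ Subgroup.normalizer (M : Set G))
        with h | h
      · exact h.symm
      · exact absurd (hmaxM.2 _ h) hMn
    by_cases hII : ∃ g : G, g ∉ M ∧ ¬ (M ⊓ M.map (MulAut.conj g).toMonoidHom ≤ H)
    · obtain ⟨g, hgM, hnot⟩ := hII
      obtain ⟨d, hd, hdH⟩ := SetLike.not_le_iff_exists.1 hnot
      obtain ⟨hdM, hdMg⟩ := Subgroup.mem_inf.1 hd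
      obtain ⟨m, hm, hmd⟩ := Subgroup.mem_map.1 hdMg
      have hmd' : g * m * g⁻¹ = d := hmd
      have hL : (H ⊔ H.map (MulAut.conj g).toMonoidHom) ⊓ M = H := hcl g
      -- `d` normalizes `L`
      have hdH' : ∀ a ∈ H, d * a * d⁻¹ ∈ H := fun a ha =>
        (Subgroup.mem_normalizer_iff.1 (hMN hdM) a).1 ha
      have hmH' : ∀ a ∈ H, m * a * m⁻¹ ∈ H := fun a ha =>
        (Subgroup.mem_normalizer_iff.1 (hMN hm) a).1 ha
      have hdL : d ∈ Subgroup.normalizer
          ((H ⊔ H.map (MulAut.conj g).toMonoidHom : Subgroup G) : Set G) := by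
        apply conj_mem_imp_mem_normalizer
        have hle : (H ⊔ H.map (MulAut.conj g).toMonoidHom).map (MulAut.conj d).toMonoidHom
            ≤ H ⊔ H.map (MulAut.conj g).toMonoidHom := by
          rw [Subgroup.map_sup]
          apply sup_le
          · refine le_trans ?_ le_sup_left
            rintro _ ⟨a, ha, rfl⟩
            exact hdH' a ha
          · refine le_trans ?_ le_sup_right
            rintro _ ⟨_, ⟨a, ha, rfl⟩, rfl⟩
            refine Subgroup.mem_map.2 ⟨m * a * m⁻¹, hmH' a ha, ?_⟩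
            show g * (m * a * m⁻¹) * g⁻¹ = d * (g * a * g⁻¹) * d⁻¹
            rw [← hmd']; group
        intro a ha
        exact hle (Subgroup.mem_map.2 ⟨a, ha, rfl⟩)
      -- J = L ⊔ ⟨d⟩
      have hJN : (H ⊔ H.map (MulAut.conj g).toMonoidHom) ⊔ Subgroup.zpowers d ≤
          Subgroup.normalizer ((H ⊔ H.map (MulAut.conj g).toMonoidHom : Subgroup G) : Set G) :=
        sup_le Subgroup.le_normalizer (Subgroup.zpowers_le.2 hdL)
      have hdJ : d ∈ (H ⊔ H.map (MulAut.conj g).toMonoidHom) ⊔ Subgroup.zpowers d :=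
        Subgroup.mem_sup_right (Subgroup.mem_zpowers d)
      have hHJ : H ≤ (H ⊔ H.map (MulAut.conj g).toMonoidHom) ⊔ Subgroup.zpowers d :=
        le_sup_left.trans le_sup_left
      have hMJ : M ≤ (H ⊔ H.map (MulAut.conj g).toMonoidHom) ⊔ Subgroup.zpowers d :=
        le_of_coatom H M _ hmaxH hHJ d hdM hdH hdJ
      have hmH : m ∉ H := by
        intro hmH
        apply hdH
        have h1 : d ∈ (H ⊔ H.map (MulAut.conj g).toMonoidHom) ⊓ M :=
          Subgroup.mem_inf.2 ⟨Subgroup.mem_sup_right (Subgroup.mem_map.2 ⟨m, hmH, hmd⟩), hdM⟩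
        rw [hL] at h1
        exact h1
      have hMgJ : M.map (MulAut.conj g).toMonoidHom ≤
          (H ⊔ H.map (MulAut.conj g).toMonoidHom) ⊔ Subgroup.zpowers d := by
        rw [Subgroup.map_le_iff_le_comap]
        have hHc : H ≤ Subgroup.comap (MulAut.conj g).toMonoidHom
            ((H ⊔ H.map (MulAut.conj g).toMonoidHom) ⊔ Subgroup.zpowers d) := by
          intro a ha
          apply Subgroup.mem_comap.2
          exact Subgroup.mem_sup_left
            (Subgroup.mem_sup_right (Subgroup.mem_map.2 ⟨a, ha, rfl⟩))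
        have hmc : m ∈ Subgroup.comap (MulAut.conj g).toMonoidHom
            ((H ⊔ H.map (MulAut.conj g).toMonoidHom) ⊔ Subgroup.zpowers d) := by
          apply Subgroup.mem_comap.2
          rw [hmd]; exact hdJ
        exact le_of_coatom H M _ hmaxH hHc m hm hmH hmc
      have hJtop : (H ⊔ H.map (MulAut.conj g).toMonoidHom) ⊔ Subgroup.zpowers d = ⊤ := by
        rcases eq_or_lt_of_le hMJ with h | h
        · exfalso
          apply hgM
          have hgN : g ∈ Subgroup.normalizer (M : Set G) := by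
            apply conj_mem_imp_mem_normalizer
            intro a ha
            have h1 : g * a * g⁻¹ ∈ M.map (MulAut.conj g).toMonoidHom :=
              Subgroup.mem_map.2 ⟨a, ha, rfl⟩
            have h2 := hMgJ h1
            rw [← h] at h2
            exact h2
          rw [hNM] at hgN
          exact hgN
        · exact hmaxM.2 _ h
      have hLn : (H ⊔ H.map (MulAut.conj g).toMonoidHom).Normal := by
        rw [← Subgroup.normalizer_eq_top_iff]
        exact top_le_iff.1 (hJtop ▸ hJN)
      have hK : Subgroup.normalClosure (H : Set G) ≤ H ⊔ H.map (MulAut.conj g).toMonoidHom :=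
        Subgroup.normalClosure_le_normal (fun a ha => Subgroup.mem_sup_left ha)
      apply le_antisymm _ hge
      calc Subgroup.normalClosure (H : Set G) ⊓ M
          ≤ (H ⊔ H.map (MulAut.conj g).toMonoidHom) ⊓ M := inf_le_inf_right M hK
        _ = H := hL
    · -- transfer
      have hI : ∀ g : G, g ∉ M → M ⊓ M.map (MulAut.conj g).toMonoidHom ≤ H := by
        intro g hg
        by_contra hcon
        exact hII ⟨g, hg, hcon⟩
      haveI hHn : (H.subgroupOf M).Normal :=
        (Subgroup.normal_subgroupOf_iff_le_normalizer hHM).2 hMN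
      haveI hcyc : IsCyclic (↥M ⧸ H.subgroupOf M) := isCyclic_quot H M hmaxH
      letI : CommGroup (↥M ⧸ H.subgroupOf M) := IsCyclic.commGroup
      have hker : ∀ m : ↥M, QuotientGroup.mk' (H.subgroupOf M) m = 1 ↔ (m : G) ∈ H :=
        fun m => (QuotientGroup.eq_one_iff m).trans Subgroup.mem_subgroupOf
      have key := transfer_key M H (QuotientGroup.mk' (H.subgroupOf M)) hker hI
      have hHker : H ≤ (MonoidHom.transfer (QuotientGroup.mk' (H.subgroupOf M))).ker := by
        intro h hh
        rw [MonoidHom.mem_ker, key h (hHM hh)]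
        exact (hker _).2 hh
      have hK : Subgroup.normalClosure (H : Set G) ≤
          (MonoidHom.transfer (QuotientGroup.mk' (H.subgroupOf M))).ker :=
        Subgroup.normalClosure_le_normal hHker
      apply le_antisymm _ hge
      intro y hy
      obtain ⟨hyK, hyM⟩ := Subgroup.mem_inf.1 hy
      have h1 := hK hyK
      rw [MonoidHom.mem_ker, key y hyM] at h1
      exact (hker _).1 h1

end Cfsg.Agent.S3014
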