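import Cfsg.Statements.S3015
import Cfsg.Agent.S3014
import Cfsg.Agent.Lib.Helper59.SylowChain

set_option autoImplicit false
open Cfsg

namespace Cfsg.Agent.S3015

open Cfsg.Agent.Lib.Helper59

theorem isCoatom_of_prime_relIndex {G : Type*} [Group G] (H M : Subgroup G)
    (hidx : (H.relIndex M).Prime) : IsCoatom (H.subgroupOf M) := by
  constructor
  · intro htop
    have h1 : (H.subgroupOf M).index = 1 := by rw [htop]; exact Subgroup.index_top
    have h2 : H.relIndex M = 1 := h1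
    rw [h2] at hidx
    exact Nat.not_prime_one hidx
  · intro T hT
    have h1 : (H.subgroupOf M).relIndex T * T.index = (H.subgroupOf M).index :=
      Subgroup.relIndex_mul_index hT.le
    have h2 : (H.subgroupOf M).index = H.relIndex M := rfl
    rw [h2] at h1
    have h3 : T.index ∣ H.relIndex M := Dvd.intro_left _ h1
    rcases (Nat.dvd_prime hidx).1 h3 with h | h
    · exact Subgroup.index_eq_one.1 h
    · exfalso
      rw [h] at h1
      have hpos : 0 < H.relIndex M := hidx.pos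
      have h4 : (H.subgroupOf M).relIndex T = 1 :=
        Nat.eq_of_mul_eq_mul_right hpos (by rw [one_mul]; exact h1)
      exact (not_le_of_gt hT) (Subgroup.relIndex_eq_one.1 h4)

theorem le_of_coatom_conj {G : Type*} [Group G] (H M J : Subgroup G)
    (hmaxH : IsCoatom (H.subgroupOf M)) (g : G)
    (hHJ : H.map (MulAut.conj g).toMonoidHom ≤ J) (x : G)
    (hxM : x ∈ M.map (MulAut.conj g).toMonoidHom)
    (hxH : x ∉ H.map (MulAut.conj g).toMonoidHom)
    (hxJ : x ∈ J) : M.map (MulAut.conj g).toMonoidHom ≤ J := by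
  obtain ⟨m, hm, hmx⟩ := Subgroup.mem_map.1 hxM
  rw [Subgroup.map_le_iff_le_comap]
  have hHc : H ≤ Subgroup.comap (MulAut.conj g).toMonoidHom J := fun a ha =>
    Subgroup.mem_comap.2 (hHJ (Subgroup.mem_map.2 ⟨a, ha, rfl⟩))
  have hmH : m ∉ H := fun h => hxH (Subgroup.mem_map.2 ⟨m, h, hmx⟩)
  have hmc : m ∈ Subgroup.comap (MulAut.conj g).toMonoidHom J := by
    apply Subgroup.mem_comap.2
    rw [hmx]; exact hxJ
  exact Cfsg.Agent.S3014.le_of_coatom H M _ hmaxH hHc m hm hmH hmc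

theorem normalizer_M {G : Type*} [Group G] [IsSimpleGroup G] (M : Subgroup G)
    (hmaxM : IsCoatom M) (hM1 : M ≠ ⊥) : Subgroup.normalizer (M : Set G) = M := by
  rcases eq_or_lt_of_le (Subgroup.le_normalizer : M ≤ Subgroup.normalizer (M : Set G))
    with h | h
  · exact h.symm
  · exfalso
    have htop := hmaxM.2 _ h
    have hn : M.Normal := Subgroup.normalizer_eq_top_iff.1 htop
    rcases hn.eq_bot_or_eq_top with h1 | h1
    · exact hM1 h1
    · exact hmaxM.1 h1

theorem map_conj_ne {G : Type*} [Group G] [IsSimpleGroup G] (M : Subgroup G)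
    (hmaxM : IsCoatom M) (hM1 : M ≠ ⊥) (g : G) (hg : g ∉ M) :
    M.map (MulAut.conj g).toMonoidHom ≠ M := by
  intro h
  apply hg
  have h1 : g ∈ Subgroup.normalizer (M : Set G) := Subgroup.mem_normalizer_iff_map_conj_eq.2 h
  rw [normalizer_M M hmaxM hM1] at h1
  exact h1

/-- type II: an element of `(M ∩ M^g) ∖ H` makes `H ⊔ H^g` normal. -/
theorem normal_of_typeII {G : Type*} [Group G] [Finite G] (M H : Subgroup G)
    (hmaxM : IsCoatom M)
    (hco : IsCoatom (H.subgroupOf M)) (hMN : M ≤ Subgroup.normalizer (H : Set G))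
    (g : G) (hMg : M.map (MulAut.conj g).toMonoidHom ≠ M)
    (hLM : (H ⊔ H.map (MulAut.conj g).toMonoidHom) ⊓ M ≤ H)
    (d : G) (hdM : d ∈ M) (hdMg : d ∈ M.map (MulAut.conj g).toMonoidHom) (hdH : d ∉ H) :
    (H ⊔ H.map (MulAut.conj g).toMonoidHom).Normal := by
  obtain ⟨m, hm, hmd⟩ := Subgroup.mem_map.1 hdMg
  have hmd' : g * m * g⁻¹ = d := hmd
  have hdH' : ∀ a ∈ H, d * a * d⁻¹ ∈ H := fun a ha =>
    (Subgroup.mem_normalizer_iff.1 (hMN hdM) a).1 ha
  have hmH' : ∀ a ∈ H, m * a * m⁻¹ ∈ H := fun a ha =>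
    (Subgroup.mem_normalizer_iff.1 (hMN hm) a).1 ha
  have hdL : d ∈ Subgroup.normalizer
      ((H ⊔ H.map (MulAut.conj g).toMonoidHom : Subgroup G) : Set G) := by
    apply conj_mem_imp_mem_normalizer
    have hle : (H ⊔ H.map (MulAut.conj g).toMonoidHom).map (MulAut.conj d).toMonoidHom
        ≤ H ⊔ H.map (MulAut.conj g).toMonoidHom := by
      rw [Subgroup.map_sup]
      apply sup_le
      · refine le_trans ?_ le_sup_left
        rintro _ ⟨a, ha, rfl⟩
        exact hdH' a ha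
      · refine le_trans ?_ le_sup_right
        rintro _ ⟨_, ⟨a, ha, rfl⟩, rfl⟩
        refine Subgroup.mem_map.2 ⟨m * a * m⁻¹, hmH' a ha, ?_⟩
        show g * (m * a * m⁻¹) * g⁻¹ = d * (g * a * g⁻¹) * d⁻¹
        rw [← hmd']; group
    intro a ha
    exact hle (Subgroup.mem_map.2 ⟨a, ha, rfl⟩)
  have hJN : (H ⊔ H.map (MulAut.conj g).toMonoidHom) ⊔ Subgroup.zpowers d ≤
      Subgroup.normalizer ((H ⊔ H.map (MulAut.conj g).toMonoidHom : Subgroup G) : Set G) :=
    sup_le Subgroup.le_normalizer (Subgroup.zpowers_le.2 hdL)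
  have hdJ : d ∈ (H ⊔ H.map (MulAut.conj g).toMonoidHom) ⊔ Subgroup.zpowers d :=
    Subgroup.mem_sup_right (Subgroup.mem_zpowers d)
  have hHJ : H ≤ (H ⊔ H.map (MulAut.conj g).toMonoidHom) ⊔ Subgroup.zpowers d :=
    le_sup_left.trans le_sup_left
  have hBJ : H.map (MulAut.conj g).toMonoidHom ≤
      (H ⊔ H.map (MulAut.conj g).toMonoidHom) ⊔ Subgroup.zpowers d :=
    le_sup_right.trans le_sup_left
  have hMJ : M ≤ (H ⊔ H.map (MulAut.conj g).toMonoidHom) ⊔ Subgroup.zpowers d :=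
    Cfsg.Agent.S3014.le_of_coatom H M _ hco hHJ d hdM hdH hdJ
  have hdB : d ∉ H.map (MulAut.conj g).toMonoidHom := fun h =>
    hdH (hLM (Subgroup.mem_inf.2 ⟨Subgroup.mem_sup_right h, hdM⟩))
  have hMgJ : M.map (MulAut.conj g).toMonoidHom ≤
      (H ⊔ H.map (MulAut.conj g).toMonoidHom) ⊔ Subgroup.zpowers d :=
    le_of_coatom_conj H M _ hco g hBJ d hdMg hdB hdJ
  have hJtop : (H ⊔ H.map (MulAut.conj g).toMonoidHom) ⊔ Subgroup.zpowers d = ⊤ := by
    rcases eq_or_lt_of_le hMJ with h | h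
    · exfalso
      apply hMg
      have h1 : M.map (MulAut.conj g).toMonoidHom ≤ M := hMgJ.trans h.ge
      exact Subgroup.eq_of_le_of_card_ge h1
        (Subgroup.card_map_of_injective (MulAut.conj g).injective).ge
    · exact hmaxM.2 _ h
  rw [← Subgroup.normalizer_eq_top_iff]
  exact top_le_iff.1 (hJtop ▸ hJN)

/-- for `g ∉ M`, `M ∩ M^g` lies in `H` or in `H^g ≤ M`. -/
theorem inter_le {G : Type*} [Group G] [Finite G] [IsSimpleGroup G] (M H : Subgroup G)
    (hmaxM : IsCoatom M) (hHM : H ≤ M)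
    (hco : IsCoatom (H.subgroupOf M)) (hMN : M ≤ Subgroup.normalizer (H : Set G)) (hH1 : H ≠ ⊥)
    (hall : ∀ g : G, H ⊔ H.map (MulAut.conj g).toMonoidHom ≠ ⊤) (g : G) (hg : g ∉ M) :
    M ⊓ M.map (MulAut.conj g).toMonoidHom ≤ H ∨
      (H.map (MulAut.conj g).toMonoidHom ≤ M ∧
        M ⊓ M.map (MulAut.conj g).toMonoidHom ≤ H.map (MulAut.conj g).toMonoidHom) := by
  have hM1 : M ≠ ⊥ := fun h => hH1 (le_bot_iff.1 (h ▸ hHM))
  have hMg := map_conj_ne M hmaxM hM1 g hg
  by_cases hB : H.map (MulAut.conj g).toMonoidHom ≤ M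
  · right
    refine ⟨hB, ?_⟩
    by_contra hnot
    obtain ⟨d, hd, hdB⟩ := SetLike.not_le_iff_exists.1 hnot
    obtain ⟨hdM, hdMg⟩ := Subgroup.mem_inf.1 hd
    have h1 : M.map (MulAut.conj g).toMonoidHom ≤ M :=
      le_of_coatom_conj H M M hco g hB d hdMg hdB hdM
    exact hMg (Subgroup.eq_of_le_of_card_ge h1
      (Subgroup.card_map_of_injective (MulAut.conj g).injective).ge)
  · left
    by_contra hnot
    obtain ⟨d, hd, hdH⟩ := SetLike.not_le_iff_exists.1 hnot
    obtain ⟨hdM, hdMg⟩ := Subgroup.mem_inf.1 hd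
    have hLM : (H ⊔ H.map (MulAut.conj g).toMonoidHom) ⊓ M ≤ H := by
      by_contra hnot2
      obtain ⟨e, he, heH⟩ := SetLike.not_le_iff_exists.1 hnot2
      obtain ⟨heL, heM⟩ := Subgroup.mem_inf.1 he
      have h1 : M ≤ H ⊔ H.map (MulAut.conj g).toMonoidHom :=
        Cfsg.Agent.S3014.le_of_coatom H M _ hco le_sup_left e heM heH heL
      rcases eq_or_lt_of_le h1 with h | h
      · apply hB
        rw [h]; exact le_sup_right
      · exact hall g (hmaxM.2 _ h)
    have hn := normal_of_typeII M H hmaxM hco hMN g hMg hLM d hdM hdMg hdH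
    rcases hn.eq_bot_or_eq_top with h | h
    · apply hH1
      have h2 : H ≤ H ⊔ H.map (MulAut.conj g).toMonoidHom := le_sup_left
      rw [h] at h2
      exact le_bot_iff.1 h2
    · exact hall g h

theorem normalizer_le_of_big {G : Type*} [Group G] [Finite G] [IsSimpleGroup G]
    (M H : Subgroup G) (hmaxM : IsCoatom M) (hHM : H ≤ M)
    (hco : IsCoatom (H.subgroupOf M)) (hMN : M ≤ Subgroup.normalizer (H : Set G)) (hH1 : H ≠ ⊥)
    (hall : ∀ g : G, H ⊔ H.map (MulAut.conj g).toMonoidHom ≠ ⊤)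
    (Q : Subgroup G) (hQM : Q ≤ M)
    (hQbig : ∀ B : Subgroup G, Q ≤ B → Nat.card B = Nat.card H → False) :
    Subgroup.normalizer (Q : Set G) ≤ M := by
  intro u hu
  by_contra huM
  have hQu : Q ≤ M ⊓ M.map (MulAut.conj u).toMonoidHom := by
    intro y hy
    refine Subgroup.mem_inf.2 ⟨hQM hy, Subgroup.mem_map.2 ⟨u⁻¹ * y * u,
      hQM ((Subgroup.mem_normalizer_iff''.1 hu y).1 hy), ?_⟩⟩
    show u * (u⁻¹ * y * u) * u⁻¹ = y
    group
  rcases inter_le M H hmaxM hHM hco hMN hH1 hall u huM with h | ⟨-, h⟩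
  · exact hQbig H (hQu.trans h) rfl
  · exact hQbig _ (hQu.trans h) (Subgroup.card_map_of_injective (MulAut.conj u).injective)

theorem sylow_card_not_dvd {G : Type*} [Group G] [Finite G] {q : ℕ} [Fact q.Prime]
    (P : Sylow q G) (n : ℕ) (h1 : Nat.card (P : Subgroup G) ∣ n) (hn : n * q ∣ Nat.card G) :
    False := by
  have h2 : Nat.card (P : Subgroup G) * q ∣ Nat.card G := (Nat.mul_dvd_mul_right h1 q).trans hn
  rw [← Subgroup.card_mul_index (P : Subgroup G)] at h2
  have h3 : q ∣ (P : Subgroup G).index := Nat.dvd_of_mul_dvd_mul_left Nat.card_pos h2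
  exact P.not_dvd_index h3

theorem exists_conj_le_sylow {G : Type*} [Group G] [Finite G] {p : ℕ} [Fact p.Prime]
    (P : Sylow p G) (R : Subgroup G) (hR : IsPGroup p R) :
    ∃ g : G, ∀ r ∈ R, g * r * g⁻¹ ∈ (P : Subgroup G) := by
  obtain ⟨Q, hQ⟩ := hR.exists_le_sylow
  obtain ⟨g, hg⟩ := MulAction.exists_smul_eq G Q P
  refine ⟨g, fun r hr => ?_⟩
  have h1 : g * r * g⁻¹ ∈ ((g • Q : Sylow p G) : Subgroup G) := by
    rw [mem_smul_sylow_iff]
    have e : g⁻¹ * (g * r * g⁻¹) * g = r := by group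
    rw [e]; exact hQ hr
  rw [hg] at h1
  exact h1

theorem exists_conj_le_sylow_of_le {G : Type*} [Group G] [Finite G] {p : ℕ} [Fact p.Prime]
    (P : Sylow p G) (M : Subgroup G) (hPM : (P : Subgroup G) ≤ M) (R : Subgroup G) (hRM : R ≤ M)
    (hR : IsPGroup p R) : ∃ m ∈ M, ∀ r ∈ R, m * r * m⁻¹ ∈ (P : Subgroup G) := by
  have hR' : IsPGroup p ↥(R.subgroupOf M) := hR.comap_subtype
  obtain ⟨m, hm⟩ := exists_conj_le_sylow (P.subtype hPM) (R.subgroupOf M) hR'
  refine ⟨m, m.2, fun r hr => ?_⟩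
  have h1 := hm ⟨r, hRM hr⟩ (Subgroup.mem_subgroupOf.2 hr)
  have h2 : m * (⟨r, hRM hr⟩ : ↥M) * m⁻¹ ∈ (P : Subgroup G).subgroupOf M := h1
  exact Subgroup.mem_subgroupOf.1 h2

theorem le_normalizer_of_card {G : Type*} [Group G] [Finite G] {q : ℕ} [Fact q.Prime]
    (P₁ P : Subgroup G) (hP : IsPGroup q P) (hle : P₁ ≤ P)
    (hcard : Nat.card P = q * Nat.card P₁) : P ≤ Subgroup.normalizer (P₁ : Set G) := by
  have hq : 1 < q := (Fact.out : q.Prime).one_lt
  have hpos : 0 < Nat.card P₁ := Nat.card_pos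
  have hne : P₁ ≠ P := by
    intro h
    rw [h] at hcard
    have h0 : 0 < Nat.card P := Nat.card_pos
    nlinarith
  obtain ⟨x, hxP, hxP₁, hxN⟩ := Cfsg.Agent.Lib.Helper32.exists_normalizing_not_mem hP hle hne
  have h1 : P₁ ≤ P ⊓ Subgroup.normalizer (P₁ : Set G) := le_inf hle Subgroup.le_normalizer
  obtain ⟨r, hr⟩ := Subgroup.card_dvd_of_le h1
  obtain ⟨s, hs⟩ := Subgroup.card_dvd_of_le
    (inf_le_left : P ⊓ Subgroup.normalizer (P₁ : Set G) ≤ P)
  have hrs : r * s = q := by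
    have h2 : Nat.card P₁ * (r * s) = Nat.card P₁ * q := by
      rw [← mul_assoc, ← hr, ← hs, hcard, mul_comm]
    exact Nat.eq_of_mul_eq_mul_left hpos h2
  have hrq : r ∣ q := Dvd.intro _ hrs
  rcases (Nat.dvd_prime (Fact.out : q.Prime)).1 hrq with h | h
  · exfalso
    rw [h, mul_one] at hr
    have h3 : P₁ = P ⊓ Subgroup.normalizer (P₁ : Set G) :=
      Subgroup.eq_of_le_of_card_ge h1 hr.le
    apply hxP₁
    rw [h3]
    exact Subgroup.mem_inf.2 ⟨hxP, hxN⟩
  · have hs1 : s = 1 := by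
      rw [h] at hrs
      have hq0 : 0 < q := by omega
      exact Nat.eq_of_mul_eq_mul_left hq0 (by rw [mul_one]; exact hrs)
    rw [hs1, mul_one] at hs
    have h3 : P ⊓ Subgroup.normalizer (P₁ : Set G) = P :=
      Subgroup.eq_of_le_of_card_ge inf_le_left hs.le
    exact inf_eq_left.1 h3

theorem exists_sylow_le {G : Type*} [Group G] [Finite G] [IsSimpleGroup G]
    (M H : Subgroup G) (hmaxM : IsCoatom M) (hHM : H ≤ M)
    (hco : IsCoatom (H.subgroupOf M)) (hMN : M ≤ Subgroup.normalizer (H : Set G)) (hH1 : H ≠ ⊥)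
    (hall : ∀ g : G, H ⊔ H.map (MulAut.conj g).toMonoidHom ≠ ⊤)
    (q : ℕ) [Fact q.Prime] (hq : Nat.card H * q = Nat.card M) :
    ∃ P : Sylow q G, (P : Subgroup G) ≤ M := by
  obtain ⟨PM⟩ := (inferInstance : Nonempty (Sylow q ↥M))
  obtain ⟨P, hP⟩ := Sylow.exists_comap_subtype_eq PM
  refine ⟨P, ?_⟩
  by_contra hle
  have hne : (P : Subgroup G) ⊓ M ≠ (P : Subgroup G) := fun h => hle (inf_eq_left.1 h)
  obtain ⟨x, hxP, hxQ, hxN⟩ :=
    Cfsg.Agent.Lib.Helper32.exists_normalizing_not_mem P.isPGroup' inf_le_left hne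
  have hxM : x ∉ M := fun h => hxQ (Subgroup.mem_inf.2 ⟨hxP, h⟩)
  have hbig : ∀ B : Subgroup G, (P : Subgroup G) ⊓ M ≤ B → Nat.card B = Nat.card H → False := by
    intro B hB hcard
    have h0 : (PM : Subgroup ↥M) = (P : Subgroup G).subgroupOf M := hP.symm
    have h1 : Nat.card (PM : Subgroup ↥M) = Nat.card ((P : Subgroup G) ⊓ M : Subgroup G) := by
      rw [h0, ← Subgroup.subgroupOf_map_subtype,
        Subgroup.card_map_of_injective (Subgroup.subtype_injective M)]
    have h2 : Nat.card ((P : Subgroup G) ⊓ M : Subgroup G) ∣ Nat.card H := by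
      rw [← hcard]; exact Subgroup.card_dvd_of_le hB
    have h3 : Nat.card (PM : Subgroup ↥M) * q ∣ Nat.card ↥M := by
      rw [h1, ← hq]; exact Nat.mul_dvd_mul_right h2 q
    rw [← Subgroup.card_mul_index (PM : Subgroup ↥M)] at h3
    exact PM.not_dvd_index (Nat.dvd_of_mul_dvd_mul_left Nat.card_pos h3)
  exact hxM (normalizer_le_of_big M H hmaxM hHM hco hMN hH1 hall _ inf_le_right hbig hxN)

theorem case_bad {G : Type*} [Group G] [Finite G] [IsSimpleGroup G]
    (M H : Subgroup G) (hmaxM : IsCoatom M) (hHM : H ≤ M)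
    (hco : IsCoatom (H.subgroupOf M)) (hMN : M ≤ Subgroup.normalizer (H : Set G)) (hH1 : H ≠ ⊥)
    (hall : ∀ g : G, H ⊔ H.map (MulAut.conj g).toMonoidHom ≠ ⊤)
    (q : ℕ) [Fact q.Prime] (hq : Nat.card H * q = Nat.card M)
    (g : G) (hB : H.map (MulAut.conj g).toMonoidHom ≤ M)
    (hBH : H.map (MulAut.conj g).toMonoidHom ≠ H) : False := by
  obtain ⟨P, hPM⟩ := exists_sylow_le M H hmaxM hHM hco hMN hH1 hall q hq
  have hHqG : Nat.card H * q ∣ Nat.card G := by
    rw [hq]; exact Subgroup.card_subgroup_dvd_card M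
  have hPbig : ∀ B : Subgroup G, (P : Subgroup G) ≤ B → Nat.card B = Nat.card H → False := by
    intro B hPB hc
    exact sylow_card_not_dvd P (Nat.card H) (hc ▸ Subgroup.card_dvd_of_le hPB) hHqG
  have hNP : Subgroup.normalizer ((P : Subgroup G) : Set G) ≤ M :=
    normalizer_le_of_big M H hmaxM hHM hco hMN hH1 hall _ hPM hPbig
  have hPH : ¬ (P : Subgroup G) ≤ H := fun h => hPbig H h rfl
  have hsup : H ⊔ (P : Subgroup G) = M := by
    apply le_antisymm (sup_le hHM hPM)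
    obtain ⟨x, hxP, hxH⟩ := SetLike.not_le_iff_exists.1 hPH
    exact Cfsg.Agent.S3014.le_of_coatom H M _ hco le_sup_left x (hPM hxP) hxH
      (Subgroup.mem_sup_right hxP)
  have hposH : 0 < Nat.card H := Nat.card_pos
  have hcardP : Nat.card (P : Subgroup G)
      = q * Nat.card ((P : Subgroup G) ⊓ H : Subgroup G) := by
    have h1 := card_sup_mul_card_inf H (P : Subgroup G) (hPM.trans hMN)
    rw [hsup, ← hq, inf_comm] at h1
    have h2 : Nat.card H * (q * Nat.card ((P : Subgroup G) ⊓ H : Subgroup G))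
        = Nat.card H * Nat.card (P : Subgroup G) := by rw [← mul_assoc]; exact h1
    exact (Nat.eq_of_mul_eq_mul_left hposH h2).symm
  -- conjugate `(P ⊓ H)^g` into `P` inside `M`
  have hR : IsPGroup q ↥(((P : Subgroup G) ⊓ H).map (MulAut.conj g).toMonoidHom) :=
    (P.isPGroup'.to_le inf_le_left).map _
  have hRM : ((P : Subgroup G) ⊓ H).map (MulAut.conj g).toMonoidHom ≤ M :=
    (Subgroup.map_mono inf_le_right).trans hB
  obtain ⟨m, hmM, hm⟩ := exists_conj_le_sylow_of_le P M hPM _ hRM hR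
  have hconj : ∀ z : G, (m * g) * z * (m * g)⁻¹ = m * (g * z * g⁻¹) * m⁻¹ := by
    intro z; group
  -- P₁ = (P ⊓ H)^(m g) ≤ P
  have hP₁P : ((P : Subgroup G) ⊓ H).map (MulAut.conj (m * g)).toMonoidHom ≤ (P : Subgroup G) := by
    rintro _ ⟨z, hz, rfl⟩
    show (m * g) * z * (m * g)⁻¹ ∈ (P : Subgroup G)
    rw [hconj]
    exact hm _ (Subgroup.mem_map.2 ⟨z, hz, rfl⟩)
  have hB₁M : H.map (MulAut.conj (m * g)).toMonoidHom ≤ M := by
    rintro _ ⟨z, hz, rfl⟩
    show (m * g) * z * (m * g)⁻¹ ∈ M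
    rw [hconj]
    exact M.mul_mem (M.mul_mem hmM (hB (Subgroup.mem_map.2 ⟨z, hz, rfl⟩))) (M.inv_mem hmM)
  have hB₁H : ¬ H.map (MulAut.conj (m * g)).toMonoidHom ≤ H := by
    intro hle
    apply hBH
    apply Subgroup.eq_of_le_of_card_ge _
      (Subgroup.card_map_of_injective (MulAut.conj g).injective).ge
    rintro _ ⟨z, hz, rfl⟩
    have h1 : (m * g) * z * (m * g)⁻¹ ∈ H := hle (Subgroup.mem_map.2 ⟨z, hz, rfl⟩)
    rw [hconj] at h1
    have h2 := (Subgroup.mem_normalizer_iff''.1 (hMN hmM) _).1 h1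
    have e : m⁻¹ * (m * (g * z * g⁻¹) * m⁻¹) * m = g * z * g⁻¹ := by group
    rw [e] at h2
    exact h2
  have hcardP₁ : Nat.card ↥(((P : Subgroup G) ⊓ H).map (MulAut.conj (m * g)).toMonoidHom)
      = Nat.card ((P : Subgroup G) ⊓ H : Subgroup G) :=
    Subgroup.card_map_of_injective (MulAut.conj (m * g)).injective
  -- `P` normalizes `P₁`
  have hPN₁ : (P : Subgroup G) ≤ Subgroup.normalizer
      ((((P : Subgroup G) ⊓ H).map (MulAut.conj (m * g)).toMonoidHom : Subgroup G) : Set G) :=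
    le_normalizer_of_card _ _ P.isPGroup' hP₁P (by rw [hcardP₁]; exact hcardP)
  -- `P` normalizes `P ⊓ H`
  have hP₀ : ∀ a ∈ (P : Subgroup G), ∀ z ∈ (P : Subgroup G) ⊓ H,
      a * z * a⁻¹ ∈ (P : Subgroup G) ⊓ H := by
    intro a ha z hz
    obtain ⟨hzP, hzH⟩ := Subgroup.mem_inf.1 hz
    refine Subgroup.mem_inf.2 ⟨(P : Subgroup G).mul_mem ((P : Subgroup G).mul_mem ha hzP)
      ((P : Subgroup G).inv_mem ha), ?_⟩
    exact (Subgroup.mem_normalizer_iff.1 (hMN (hPM ha)) z).1 hzH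
  -- `P^(m g)` normalizes `P₁`
  have hP'N₁ : (P : Subgroup G).map (MulAut.conj (m * g)).toMonoidHom ≤ Subgroup.normalizer
      ((((P : Subgroup G) ⊓ H).map (MulAut.conj (m * g)).toMonoidHom : Subgroup G) : Set G) := by
    rintro _ ⟨a, ha, rfl⟩
    apply conj_mem_imp_mem_normalizer
    rintro _ ⟨z, hz, rfl⟩
    refine Subgroup.mem_map.2 ⟨a * z * a⁻¹, hP₀ a ha z hz, ?_⟩
    show (m * g) * (a * z * a⁻¹) * (m * g)⁻¹
      = ((m * g) * a * (m * g)⁻¹) * ((m * g) * z * (m * g)⁻¹) * ((m * g) * a * (m * g)⁻¹)⁻¹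
    group
  have hR' : IsPGroup q ↥((P : Subgroup G).map (MulAut.conj (m * g)).toMonoidHom) :=
    P.isPGroup'.map _
  obtain ⟨n, hnN, hn⟩ := exists_conj_le_sylow_of_le P _ hPN₁ _ hP'N₁ hR'
  -- u = n * (m * g) normalizes P
  have huP : n * (m * g) ∈ Subgroup.normalizer ((P : Subgroup G) : Set G) := by
    apply conj_mem_imp_mem_normalizer
    intro a ha
    have h1 := hn _ (Subgroup.mem_map.2 ⟨a, ha, rfl⟩)
    have e : n * (m * g) * a * (n * (m * g))⁻¹ = n * ((m * g) * a * (m * g)⁻¹) * n⁻¹ := by group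
    rw [e]; exact h1
  have huM : n * (m * g) ∈ M := hNP huP
  -- P₁ ≤ H
  have hP₁H : ((P : Subgroup G) ⊓ H).map (MulAut.conj (m * g)).toMonoidHom ≤ H := by
    intro y hy
    have h1 := (Subgroup.mem_normalizer_iff''.1 hnN y).1 hy
    obtain ⟨z, hz, hzy⟩ := Subgroup.mem_map.1 h1
    have hzy' : (m * g) * z * (m * g)⁻¹ = n⁻¹ * y * n := hzy
    have h2 : (n * (m * g)) * z * (n * (m * g))⁻¹ ∈ H :=
      (Subgroup.mem_normalizer_iff.1 (hMN huM) z).1 (Subgroup.mem_inf.1 hz).2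
    have e : (n * (m * g)) * z * (n * (m * g))⁻¹ = n * ((m * g) * z * (m * g)⁻¹) * n⁻¹ := by
      group
    rw [e, hzy'] at h2
    have e2 : n * (n⁻¹ * y * n) * n⁻¹ = y := by group
    rw [e2] at h2
    exact h2
  have hP₁B : ((P : Subgroup G) ⊓ H).map (MulAut.conj (m * g)).toMonoidHom
      ≤ H.map (MulAut.conj (m * g)).toMonoidHom := Subgroup.map_mono inf_le_right
  -- |H| = q * |H ⊓ B₁|
  have hsup₁ : H ⊔ H.map (MulAut.conj (m * g)).toMonoidHom = M := by
    apply le_antisymm (sup_le hHM hB₁M)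
    obtain ⟨x, hxB, hxH⟩ := SetLike.not_le_iff_exists.1 hB₁H
    exact Cfsg.Agent.S3014.le_of_coatom H M _ hco le_sup_left x (hB₁M hxB) hxH
      (Subgroup.mem_sup_right hxB)
  have hcardH : Nat.card H
      = q * Nat.card (H ⊓ H.map (MulAut.conj (m * g)).toMonoidHom : Subgroup G) := by
    have h1 := card_sup_mul_card_inf H (H.map (MulAut.conj (m * g)).toMonoidHom)
      (hB₁M.trans hMN)
    rw [hsup₁, ← hq, Subgroup.card_map_of_injective (MulAut.conj (m * g)).injective] at h1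
    have h2 : Nat.card H *
        (q * Nat.card (H ⊓ H.map (MulAut.conj (m * g)).toMonoidHom : Subgroup G))
        = Nat.card H * Nat.card H := by rw [← mul_assoc]; exact h1
    exact (Nat.eq_of_mul_eq_mul_left hposH h2).symm
  have hdvd : Nat.card ((P : Subgroup G) ⊓ H : Subgroup G) ∣
      Nat.card (H ⊓ H.map (MulAut.conj (m * g)).toMonoidHom : Subgroup G) := by
    rw [← hcardP₁]
    exact Subgroup.card_dvd_of_le (le_inf hP₁H hP₁B)
  have hdvd2 : Nat.card (P : Subgroup G) ∣ Nat.card H := by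
    rw [hcardP, hcardH]
    exact Nat.mul_dvd_mul_left q hdvd
  exact sylow_card_not_dvd P (Nat.card H) hdvd2 hHqG

theorem case_bot {G : Type*} [Group G] [Finite G] [IsSimpleGroup G] (hG : ¬ IsMulCommutative G)
    (M : Subgroup G) (hmaxM : IsCoatom M)
    (hco : IsCoatom ((⊥ : Subgroup G).subgroupOf M))
    [hn : ((⊥ : Subgroup G).subgroupOf M).Normal] (hM1 : M ≠ ⊥) : False := by
  classical
  have hI : ∀ g : G, g ∉ M → M ⊓ M.map (MulAut.conj g).toMonoidHom ≤ (⊥ : Subgroup G) := by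
    intro g hg
    by_contra hnot
    obtain ⟨d, hd, hdH⟩ := SetLike.not_le_iff_exists.1 hnot
    obtain ⟨hdM, hdMg⟩ := Subgroup.mem_inf.1 hd
    have h1 : M ≤ M.map (MulAut.conj g).toMonoidHom :=
      Cfsg.Agent.S3014.le_of_coatom ⊥ M _ hco bot_le d hdM hdH hdMg
    exact map_conj_ne M hmaxM hM1 g hg (Subgroup.eq_of_le_of_card_ge h1
      (Subgroup.card_map_of_injective (MulAut.conj g).injective).le).symm
  haveI hcyc : IsCyclic (↥M ⧸ (⊥ : Subgroup G).subgroupOf M) :=
    Cfsg.Agent.S3014.isCyclic_quot ⊥ M hco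
  letI : CommGroup (↥M ⧸ (⊥ : Subgroup G).subgroupOf M) := IsCyclic.commGroup
  have hker : ∀ m : ↥M, QuotientGroup.mk' ((⊥ : Subgroup G).subgroupOf M) m = 1 ↔
      (m : G) ∈ (⊥ : Subgroup G) :=
    fun m => (QuotientGroup.eq_one_iff m).trans Subgroup.mem_subgroupOf
  have key := Cfsg.Agent.S3014.transfer_key M ⊥
    (QuotientGroup.mk' ((⊥ : Subgroup G).subgroupOf M)) hker hI
  rcases (MonoidHom.normal_ker
    (MonoidHom.transfer (QuotientGroup.mk' ((⊥ : Subgroup G).subgroupOf M)))).eq_bot_or_eq_top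
    with h | h
  · apply hG
    refine ⟨⟨fun a b => ?_⟩⟩
    have hinj := (MonoidHom.ker_eq_bot_iff _).1 h
    apply hinj
    rw [map_mul, map_mul, mul_comm]
  · obtain ⟨⟨x, hxM⟩, hx1⟩ := (Subgroup.ne_bot_iff_exists_ne_one).1 hM1
    have h1 : x ∈ (MonoidHom.transfer
        (QuotientGroup.mk' ((⊥ : Subgroup G).subgroupOf M))).ker := by
      rw [h]; exact Subgroup.mem_top x
    rw [MonoidHom.mem_ker, key x hxM] at h1
    have h2 : x = 1 := Subgroup.mem_bot.1 ((hker _).1 h1)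
    exact hx1 (Subtype.ext h2)

/-- Let G be a finite non-abelian simple group, M a maximal subgroup of G and H a normal subgroup of M of prime index in M. Then G is generated by H together with one of its conjugates. -/
theorem result {G : Type*} [Group G] [Finite G] [IsSimpleGroup G] (hG : ¬ IsMulCommutative G) (M H : Subgroup G) (hmaxM : IsCoatom M) (hHM : H ≤ M) (hHn : (H.subgroupOf M).Normal) (hidx : (H.relIndex M).Prime) : ∃ g : G, H ⊔ H.map (MulAut.conj g).toMonoidHom = ⊤ := by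
  by_contra hcon
  have hall : ∀ g : G, H ⊔ H.map (MulAut.conj g).toMonoidHom ≠ ⊤ := fun g h => hcon ⟨g, h⟩
  have hco := isCoatom_of_prime_relIndex H M hidx
  have hMN : M ≤ Subgroup.normalizer (H : Set G) :=
    (Subgroup.normal_subgroupOf_iff_le_normalizer hHM).1 hHn
  haveI : Fact (H.relIndex M).Prime := ⟨hidx⟩
  have hq : Nat.card H * H.relIndex M = Nat.card M := by
    have h1 := Subgroup.relIndex_mul_relIndex ⊥ H M bot_le hHM
    rwa [Subgroup.relIndex_bot_left, Subgroup.relIndex_bot_left] at h1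
  have hM1 : M ≠ ⊥ := by
    intro h
    have h1 : H.relIndex M = 1 := by rw [h, Subgroup.relIndex_bot_right]
    rw [h1] at hidx
    exact Nat.not_prime_one hidx
  by_cases hH1 : H = ⊥
  · subst hH1
    exact case_bot hG M hmaxM hco hM1
  · by_cases hbad : ∃ g : G, H.map (MulAut.conj g).toMonoidHom ≤ M ∧
        H.map (MulAut.conj g).toMonoidHom ≠ H
    · obtain ⟨g, hB, hBH⟩ := hbad
      exact case_bad M H hmaxM hHM hco hMN hH1 hall (H.relIndex M) hq g hB hBH
    · have hcl : ∀ g : G, (H ⊔ H.map (MulAut.conj g).toMonoidHom) ⊓ M = H := by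
        intro g
        apply le_antisymm _ (le_inf le_sup_left hHM)
        by_contra hnot
        obtain ⟨e, he, heH⟩ := SetLike.not_le_iff_exists.1 hnot
        obtain ⟨heL, heM⟩ := Subgroup.mem_inf.1 he
        have h1 : M ≤ H ⊔ H.map (MulAut.conj g).toMonoidHom :=
          Cfsg.Agent.S3014.le_of_coatom H M _ hco le_sup_left e heM heH heL
        rcases eq_or_lt_of_le h1 with h | h
        · have hB : H.map (MulAut.conj g).toMonoidHom ≤ M := by rw [h]; exact le_sup_right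
          have hBH : H.map (MulAut.conj g).toMonoidHom = H := by
            by_contra hne
            exact hbad ⟨g, hB, hne⟩
          rw [hBH, sup_idem] at heL
          exact heH heL
        · exact hall g (hmaxM.2 _ h)
      have h14 := Cfsg.Agent.S3014.result H M hHM hcl hco hmaxM
      have hncl : Subgroup.normalClosure (H : Set G) = ⊤ := by
        rcases (Subgroup.normalClosure_normal (s := (H : Set G))).eq_bot_or_eq_top with h | h
        · exfalso
          have h2 : H ≤ Subgroup.normalClosure (H : Set G) := Subgroup.le_normalClosure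
          rw [h] at h2
          exact hH1 (le_bot_iff.1 h2)
        · exact h
      rw [hncl, top_inf_eq] at h14
      have h1 : H.relIndex M = 1 := by rw [h14]; exact Subgroup.relIndex_self H
      rw [h1] at hidx
      exact Nat.not_prime_one hidx

end Cfsg.Agent.S3015
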