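import Cfsg.Statements.S3020
import Cfsg.Agent.Lib.Helper81.PSolv2
import Cfsg.Agent.Lib.Helper32.Coprime

set_option autoImplicit false
open Cfsg

namespace Cfsg.Agent.S3020

/-- Let G be a finite group, p a prime and H an abelian p-subgroup of G that is extremely closed (for every g, the subgroup generated by H and g H g⁻¹ meets N_G(H) exactly in H). Then for every g ∈ G, the subgroup T generated by H and g H g⁻¹ is the product of H with O_{p'}(T), and H meets O_{p'}(T) trivially; that is, O_{p'}(T) is a normal p-complement of H in T. -/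
theorem result {G : Type*} [Group G] [Finite G] {p : ℕ} [Fact p.Prime] (H : Subgroup G) (hHp : IsPGroup p H) (hHab : IsMulCommutative H) (hcl : Cfsg.IsExtremelyClosed H) (g : G) (T : Subgroup G) (hT : T = H ⊔ H.map (MulAut.conj g).toMonoidHom) : H ⊔ (Cfsg.pPrimeCore p ↥T).map T.subtype = T ∧ H ⊓ (Cfsg.pPrimeCore p ↥T).map T.subtype = ⊥ := by
  have hHT : H ≤ T := by rw [hT]; exact le_sup_left
  have hTN : T ⊓ Subgroup.normalizer (H : Set G) = H := by rw [hT]; exact hcl g
  have hH'p : IsPGroup p ↥(H.subgroupOf T) := hHp.comap_subtype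
  have hnorm : Subgroup.normalizer ((H.subgroupOf T : Subgroup ↥T) : Set ↥T)
      = H.subgroupOf T := by
    rw [← Subgroup.subgroupOf_normalizer_eq hHT, ← Subgroup.inf_subgroupOf_right, inf_comm, hTN]
  obtain ⟨P, hP⟩ := hH'p.exists_le_sylow
  have hPeq : H.subgroupOf T = (P : Subgroup ↥T) := by
    by_contra hne
    obtain ⟨x, hxP, hxH, hxN⟩ :=
      Cfsg.Agent.Lib.Helper32.exists_normalizing_not_mem P.isPGroup' hP hne
    rw [hnorm] at hxN
    exact hxH hxN
  have hcomm : ∀ a ∈ H.subgroupOf T, ∀ b ∈ H.subgroupOf T, a * b = b * a := by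
    intro a ha b hb
    apply Subtype.ext
    have h1 := hHab.is_comm.comm (⟨(a : G), Subgroup.mem_subgroupOf.1 ha⟩ : H)
      ⟨(b : G), Subgroup.mem_subgroupOf.1 hb⟩
    have h2 : (a : G) * (b : G) = (b : G) * (a : G) := congrArg (Subtype.val : ↥H → G) h1
    exact h2
  have hPN : Subgroup.normalizer ((P : Subgroup ↥T) : Set ↥T) ≤
      Subgroup.centralizer ((P : Subgroup ↥T) : Set ↥T) := by
    rw [← hPeq, hnorm]
    intro a ha
    rw [Subgroup.mem_centralizer_iff]
    intro b hb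
    exact hcomm b hb a ha
  have hcompl := MonoidHom.ker_transferSylow_isComplement' P hPN
  have hnd := MonoidHom.not_dvd_card_ker_transferSylow P hPN
  have hKO : (MonoidHom.transferSylow P hPN).ker ≤ Cfsg.pPrimeCore p ↥T :=
    Cfsg.Agent.Lib.Helper81.le_pPrimeCore p _ (MonoidHom.normal_ker _)
      (((Nat.Prime.coprime_iff_not_dvd (Fact.out : p.Prime)).2 hnd).symm)
  have hOcop := Cfsg.Agent.Lib.Helper81.pPrimeCore_coprime (G := ↥T) p
  have hsup : H.subgroupOf T ⊔ Cfsg.pPrimeCore p ↥T = ⊤ := by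
    rw [eq_top_iff, ← hcompl.sup_eq_top, hPeq, sup_comm]
    exact sup_le_sup_left hKO _
  have hinf : H.subgroupOf T ⊓ Cfsg.pPrimeCore p ↥T = ⊥ := by
    have hc : (Nat.card ↥(H.subgroupOf T)).Coprime (Nat.card ↥(Cfsg.pPrimeCore p ↥T)) := by
      obtain ⟨n, hn⟩ := IsPGroup.iff_card.1 hH'p
      rw [hn]
      exact Nat.Coprime.pow_left n hOcop.symm
    exact (Subgroup.disjoint_of_coprime_natCard hc).eq_bot
  constructor
  · have h1 : (H.subgroupOf T ⊔ Cfsg.pPrimeCore p ↥T).map T.subtype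
        = (⊤ : Subgroup ↥T).map T.subtype := by rw [hsup]
    rw [Subgroup.map_sup, Subgroup.subgroupOf_map_subtype, inf_eq_left.2 hHT] at h1
    rw [h1, ← MonoidHom.range_eq_map, Subgroup.range_subtype]
  · rw [eq_bot_iff]
    intro x hx
    obtain ⟨hxH, hxO⟩ := Subgroup.mem_inf.1 hx
    obtain ⟨o, ho, rfl⟩ := Subgroup.mem_map.1 hxO
    have h2 : o ∈ H.subgroupOf T ⊓ Cfsg.pPrimeCore p ↥T :=
      Subgroup.mem_inf.2 ⟨Subgroup.mem_subgroupOf.2 hxH, ho⟩
    rw [hinf, Subgroup.mem_bot] at h2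
    rw [h2, map_one]
    exact Subgroup.one_mem _

end Cfsg.Agent.S3020
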