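import Cfsg.Statements.S3021
import Mathlib

set_option autoImplicit false
open Cfsg

namespace Cfsg.Agent.S3021

theorem conj_le_imp_mem_normalizer {G : Type*} [Group G] [Finite G] (H : Subgroup G) (g : G)
    (h : H.map (MulAut.conj g).toMonoidHom ≤ H) : g ∈ Subgroup.normalizer (H : Set G) := by
  rw [Subgroup.mem_normalizer_iff_map_conj_eq]
  apply Subgroup.eq_of_le_of_card_ge h
  exact (Subgroup.card_map_of_injective (MulAut.conj g).injective).ge

theorem mem_normalizer_of_extremely {G : Type*} [Group G] [Finite G] (H : Subgroup G)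
    (hcl : Cfsg.IsExtremelyClosed H) (g : G)
    (h : H.map (MulAut.conj g).toMonoidHom ≤ Subgroup.normalizer (H : Set G)) :
    g ∈ Subgroup.normalizer (H : Set G) := by
  apply conj_le_imp_mem_normalizer
  have h1 : H ⊔ H.map (MulAut.conj g).toMonoidHom ≤ Subgroup.normalizer (H : Set G) :=
    sup_le Subgroup.le_normalizer h
  have h2 := hcl g
  rw [inf_eq_left.2 h1] at h2
  calc H.map (MulAut.conj g).toMonoidHom ≤ H ⊔ H.map (MulAut.conj g).toMonoidHom := le_sup_right
    _ = H := h2

theorem exists_normalizing_not_mem {G : Type*} [Group G] [Finite G] {p : ℕ} [Fact p.Prime]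
    (Q R : Subgroup G) (hQ : IsPGroup p Q) (hRQ : R ≤ Q) (hne : R ≠ Q) :
    ∃ x ∈ Q, x ∈ Subgroup.normalizer (R : Set G) ∧ x ∉ R := by
  have : Group.IsNilpotent Q := hQ.isNilpotent
  have hnc : NormalizerCondition Q := Group.normalizerCondition_of_isNilpotent
  have hlt : R.subgroupOf Q < ⊤ := by
    rw [lt_top_iff_ne_top]
    intro h
    rw [Subgroup.subgroupOf_eq_top] at h
    exact hne (le_antisymm hRQ h)
  have h2 := hnc _ hlt
  obtain ⟨x, hx1, hx2⟩ := SetLike.exists_of_lt h2
  rw [← Subgroup.subgroupOf_normalizer_eq hRQ] at hx1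
  refine ⟨x, x.2, ?_, ?_⟩
  · exact Subgroup.mem_subgroupOf.1 hx1
  · intro h
    exact hx2 (Subgroup.mem_subgroupOf.2 h)

theorem le_normalizer_of_pgroup {G : Type*} [Group G] [Finite G] {p : ℕ} [Fact p.Prime]
    (H : Subgroup G) (hcl : Cfsg.IsExtremelyClosed H) (Q : Subgroup G) (hQ : IsPGroup p Q)
    (hHQ : H ≤ Q) : Q ≤ Subgroup.normalizer (H : Set G) := by
  by_contra hcon
  set R := Subgroup.normalizer (H : Set G) ⊓ Q with hR
  have hRQ : R ≤ Q := inf_le_right
  have hne : R ≠ Q := by
    intro h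
    apply hcon
    rw [← h]
    exact inf_le_left
  obtain ⟨x, hxQ, hxN, hxR⟩ := exists_normalizing_not_mem Q R hQ hRQ hne
  apply hxR
  refine ⟨?_, hxQ⟩
  apply mem_normalizer_of_extremely H hcl
  have hHR : H ≤ R := le_inf Subgroup.le_normalizer hHQ
  have h1 : H.map (MulAut.conj x).toMonoidHom ≤ R.map (MulAut.conj x).toMonoidHom :=
    Subgroup.map_mono hHR
  have h2 : R.map (MulAut.conj x).toMonoidHom = R :=
    Subgroup.mem_normalizer_iff_map_conj_eq.1 hxN
  rw [h2] at h1
  exact h1.trans inf_le_left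

/-- Let G be a finite group, p a prime and H a p-subgroup of G that is extremely closed (for every g, the subgroup generated by H and g H g⁻¹ meets N_G(H) exactly in H). Then every p-subgroup Q of G containing H has N_G(Q) ≤ N_G(H); in particular every Sylow p-subgroup P of G containing H normalizes H, and H is strongly closed in P with respect to G. -/
theorem result {G : Type*} [Group G] [Finite G] {p : ℕ} [Fact p.Prime] (H : Subgroup G) (hHp : IsPGroup p H) (hcl : Cfsg.IsExtremelyClosed H) : (∀ Q : Subgroup G, IsPGroup p Q → H ≤ Q → Subgroup.normalizer (Q : Set G) ≤ Subgroup.normalizer (H : Set G)) ∧ ∀ P : Sylow p G, H ≤ (P : Subgroup G) → (P : Subgroup G) ≤ Subgroup.normalizer (H : Set G) ∧ Cfsg.IsStronglyClosed H (P : Subgroup G) := by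
  constructor
  · intro Q hQ hHQ g hg
    apply mem_normalizer_of_extremely H hcl
    have h1 : H.map (MulAut.conj g).toMonoidHom ≤ Q.map (MulAut.conj g).toMonoidHom :=
      Subgroup.map_mono hHQ
    have h2 : Q.map (MulAut.conj g).toMonoidHom = Q :=
      Subgroup.mem_normalizer_iff_map_conj_eq.1 hg
    rw [h2] at h1
    exact h1.trans (le_normalizer_of_pgroup H hcl Q hQ hHQ)
  · intro P hHP
    have hPN := le_normalizer_of_pgroup H hcl (P : Subgroup G) P.isPGroup' hHP
    refine ⟨hPN, hHP, ?_⟩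
    intro x hx g hg
    have h1 : g * x * g⁻¹ ∈ H.map (MulAut.conj g).toMonoidHom :=
      Subgroup.mem_map.2 ⟨x, hx, rfl⟩
    have h2 : g * x * g⁻¹ ∈ (H ⊔ H.map (MulAut.conj g).toMonoidHom) ⊓ Subgroup.normalizer (H : Set G) :=
      ⟨(le_sup_right : _ ≤ H ⊔ H.map (MulAut.conj g).toMonoidHom) h1, hPN hg⟩
    rw [hcl g] at h2
    exact h2

end Cfsg.Agent.S3021
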