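import Cfsg.Statements.S3025
import Mathlib
import Cfsg.Agent.Lib.Helper59.Replace
import Cfsg.Agent.S0016

set_option autoImplicit false
open Cfsg

namespace Cfsg.Agent.S3025

open Cfsg.Agent.Lib.Helper59

/-- Let F be a finite group and H a nontrivial subgroup of F that is contained in every nontrivial subgroup of F which H normalizes. Then F has a nontrivial normal subgroup N contained in every nontrivial normal subgroup of F (a unique minimal normal subgroup), N is simple, and one of the following holds: C_F(N) = 1; or H = N has prime order p, C_F(N) is cyclic of order a power of p, and F/C_F(N) is cyclic of order dividing p − 1; or H = N has order 2, N is central in F, and F is a generalized quaternion group. -/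
theorem result {F : Type*} [Group F] [Finite F] (H : Subgroup F) (hH : H ≠ ⊥)
    (hmin : ∀ R : Subgroup F, R ≠ ⊥ → H ≤ Subgroup.normalizer (R : Set F) → H ≤ R) :
    ∃ N : Subgroup F, N.Normal ∧ N ≠ ⊥ ∧ (∀ M : Subgroup F, M.Normal → M ≠ ⊥ → N ≤ M) ∧ IsSimpleGroup ↥N ∧
      (Subgroup.centralizer (N : Set F) = ⊥ ∨
       (H = N ∧ (Nat.card N).Prime ∧ IsCyclic ↥(Subgroup.centralizer (N : Set F)) ∧
          (∃ k : ℕ, 1 ≤ k ∧ Nat.card ↥(Subgroup.centralizer (N : Set F)) = Nat.card N ^ k) ∧
          (∃ g : F, Subgroup.centralizer (N : Set F) ⊔ Subgroup.zpowers g = ⊤) ∧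
          (Subgroup.centralizer (N : Set F)).index ∣ Nat.card N - 1) ∨
       (H = N ∧ Nat.card N = 2 ∧ Subgroup.centralizer (N : Set F) = ⊤ ∧
          ∃ k : ℕ, 1 ≤ k ∧ Nonempty (F ≃* QuaternionGroup (2 ^ k)))) := by
  classical
  obtain ⟨N, hNdef⟩ : ∃ N : Subgroup F, N = Subgroup.normalClosure (H : Set F) := ⟨_, rfl⟩
  have hNn : N.Normal := by rw [hNdef]; exact Subgroup.normalClosure_normal
  have hHN : H ≤ N := by rw [hNdef]; exact Subgroup.le_normalClosure
  have hN1 : N ≠ ⊥ := fun h => hH (le_bot_iff.1 (hHN.trans h.le))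
  have hNmin : ∀ M : Subgroup F, M.Normal → M ≠ ⊥ → N ≤ M := by
    intro M hM hM1
    haveI := hM
    have hHM : H ≤ M := hmin M hM1 (by rw [Subgroup.normalizer_eq_top]; exact le_top)
    rw [hNdef]
    exact Subgroup.normalClosure_le_normal hHM
  have hNsimple : IsSimpleGroup ↥N := by
    haveI : Nontrivial ↥N := (Subgroup.nontrivial_iff_ne_bot N).2 hN1
    refine ⟨fun M' hM' => ?_⟩
    by_cases hM'1 : M' = ⊥
    · left; exact hM'1
    · right
      obtain ⟨M, hMdef⟩ : ∃ M : Subgroup F, M = M'.map N.subtype := ⟨_, rfl⟩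
      have hM1 : M ≠ ⊥ := by
        rw [hMdef]; intro h
        rw [Subgroup.map_eq_bot_iff_of_injective _ (Subgroup.subtype_injective N)] at h
        exact hM'1 h
      have hNM : N ≤ Subgroup.normalizer (M : Set F) := by
        intro n hn
        apply conj_mem_imp_mem_normalizer
        intro x hx
        rw [hMdef] at hx ⊢
        obtain ⟨m, hm, rfl⟩ := Subgroup.mem_map.1 hx
        exact Subgroup.mem_map.2 ⟨⟨n, hn⟩ * m * ⟨n, hn⟩⁻¹, hM'.conj_mem m hm ⟨n, hn⟩, rfl⟩
      have hconj : ∀ f : F, ∀ h ∈ H, f * h * f⁻¹ ∈ M := by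
        intro f h hh
        obtain ⟨Mf, hMf⟩ : ∃ Mf : Subgroup F,
            Mf = M.map (MulAut.conj f⁻¹).toMonoidHom := ⟨_, rfl⟩
        have hMf1 : Mf ≠ ⊥ := by
          rw [hMf]; intro h0
          rw [Subgroup.map_eq_bot_iff_of_injective _ (MulAut.conj f⁻¹).injective] at h0
          exact hM1 h0
        have hNMf : N ≤ Subgroup.normalizer (Mf : Set F) := by
          intro n hn
          apply conj_mem_imp_mem_normalizer
          intro x hx
          rw [hMf] at hx ⊢
          obtain ⟨m, hm, rfl⟩ := Subgroup.mem_map.1 hx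
          have hn' : f * n * f⁻¹ ∈ N := hNn.conj_mem n hn f
          have hm' : (f * n * f⁻¹) * m * (f * n * f⁻¹)⁻¹ ∈ M :=
            (Subgroup.mem_normalizer_iff.1 (hNM hn') m).1 hm
          refine Subgroup.mem_map.2 ⟨_, hm', ?_⟩
          show f⁻¹ * ((f * n * f⁻¹) * m * (f * n * f⁻¹)⁻¹) * f⁻¹⁻¹ = n * (f⁻¹ * m * f⁻¹⁻¹) * n⁻¹
          group
        have hHMf : H ≤ Mf := hmin Mf hMf1 (hHN.trans hNMf)
        have h1 := hHMf hh
        rw [hMf] at h1
        obtain ⟨m, hm, hmh⟩ := Subgroup.mem_map.1 h1
        have hmh' : f⁻¹ * m * f⁻¹⁻¹ = h := hmh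
        have : f * h * f⁻¹ = m := by
          rw [← hmh']
          group
        rw [this]; exact hm
      have hNleM : N ≤ M := by
        rw [hNdef]
        show Subgroup.closure (Group.conjugatesOfSet (H : Set F)) ≤ M
        rw [Subgroup.closure_le]
        intro y hy
        rw [Group.mem_conjugatesOfSet_iff] at hy
        obtain ⟨a, ha, hay⟩ := hy
        rw [isConj_iff] at hay
        obtain ⟨c, hc⟩ := hay
        rw [SetLike.mem_coe, ← hc]
        exact hconj c a ha
      rw [eq_top_iff]
      intro x _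
      have hx : (x : F) ∈ M := hNleM x.2
      rw [hMdef] at hx
      obtain ⟨m, hm, hmx⟩ := Subgroup.mem_map.1 hx
      have : m = x := Subtype.ext hmx
      rw [← this]; exact hm
  refine ⟨N, hNn, hN1, hNmin, hNsimple, ?_⟩
  by_cases hC1 : Subgroup.centralizer (N : Set F) = ⊥
  · left; exact hC1
  · right
    haveI := hNn
    obtain ⟨C, hCdef⟩ : ∃ C : Subgroup F, C = Subgroup.centralizer (N : Set F) := ⟨_, rfl⟩
    rw [← hCdef] at hC1 ⊢
    have hCn : C.Normal := by rw [hCdef]; exact Subgroup.normal_centralizer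
    have hNC : N ≤ C := hNmin C hCn hC1
    have hNcomm : ∀ a ∈ N, ∀ b ∈ N, a * b = b * a := by
      intro a ha b hb
      have : b ∈ Subgroup.centralizer (N : Set F) := by rw [← hCdef]; exact hNC hb
      exact Subgroup.mem_centralizer_iff.1 this a ha
    have hprime' : (Nat.card ↥N).Prime := by
      letI : CommGroup ↥N :=
        { (inferInstance : Group ↥N) with
          mul_comm := fun a b => Subtype.ext (hNcomm a a.2 b b.2) }
      exact @IsSimpleGroup.prime_card ↥N _ hNsimple
    obtain ⟨p, hp⟩ : ∃ p, p = Nat.card ↥N := ⟨_, rfl⟩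
    have hprime : p.Prime := by rw [hp]; exact hprime'
    haveI : Fact p.Prime := ⟨hprime⟩
    have hHeq : H = N := by
      apply Subgroup.eq_of_le_of_card_ge hHN
      have hd : Nat.card H ∣ Nat.card N := Subgroup.card_dvd_of_le hHN
      rw [← hp] at hd ⊢
      rcases (Nat.dvd_prime hprime).1 hd with h1 | h1
      · exact absurd (Subgroup.card_eq_one.1 h1) hH
      · rw [h1]
    have hCsub : ∀ R : Subgroup F, R ≤ C → R ≠ ⊥ → N ≤ R := by
      intro R hRC hR1
      have h1 : H ≤ R := by
        apply hmin R hR1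
        rw [hHeq]
        intro n hn
        apply conj_mem_imp_mem_normalizer
        intro x hx
        have hxC : x ∈ Subgroup.centralizer (N : Set F) := by rw [← hCdef]; exact hRC hx
        have : n * x = x * n := Subgroup.mem_centralizer_iff.1 hxC n hn
        rw [this, mul_inv_cancel_right]; exact hx
      rw [← hHeq]; exact h1
    have hCp : IsPGroup p ↥C := by
      have hall : ∀ {q : ℕ}, q.Prime → q ∣ Nat.card C → q = p := by
        intro q hq hqd
        haveI := Fact.mk hq
        obtain ⟨g, hg⟩ := exists_prime_orderOf_dvd_card' q hqd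
        have hgo : orderOf (g : F) = q := by rw [Subgroup.orderOf_coe]; exact hg
        have hz1 : Subgroup.zpowers (g : F) ≠ ⊥ := by
          intro h
          have hmem : (g : F) ∈ Subgroup.zpowers (g : F) := Subgroup.mem_zpowers _
          rw [h, Subgroup.mem_bot] at hmem
          rw [hmem, orderOf_one] at hgo
          exact hq.one_lt.ne hgo
        have hNz := hCsub _ (Subgroup.zpowers_le.2 g.2) hz1
        have hd : Nat.card N ∣ Nat.card (Subgroup.zpowers (g : F)) := Subgroup.card_dvd_of_le hNz
        rw [Nat.card_zpowers, hgo, ← hp] at hd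
        exact ((Nat.prime_dvd_prime_iff_eq hprime hq).1 hd).symm
      exact IsPGroup.of_card (Nat.eq_prime_pow_of_unique_prime_dvd Nat.card_pos.ne' hall)
    obtain ⟨k, hk⟩ := IsPGroup.iff_card.1 hCp
    have hk1 : 1 ≤ k := by
      rcases Nat.eq_zero_or_pos k with h0 | h0
      · exfalso
        rw [h0, pow_zero] at hk
        exact hC1 (Subgroup.card_eq_one.1 hk)
      · exact h0
    have huniq : ∀ H₁ K₁ : Subgroup ↥C, Nat.card H₁ = p → Nat.card K₁ = p → H₁ = K₁ := by
      have key : ∀ H₁ : Subgroup ↥C, Nat.card H₁ = p → H₁.map C.subtype = N := by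
        intro H₁ hH₁
        have hc : Nat.card (H₁.map C.subtype) = p := by
          rw [Subgroup.card_map_of_injective (Subgroup.subtype_injective C)]; exact hH₁
        have h1 : H₁.map C.subtype ≠ ⊥ := by
          intro h
          rw [h, Subgroup.card_bot] at hc
          exact hprime.one_lt.ne hc
        have hle := hCsub _ (Subgroup.map_subtype_le H₁) h1
        exact (Subgroup.eq_of_le_of_card_ge hle (by rw [hc, ← hp])).symm
      intro H₁ K₁ hH₁ hK₁
      apply Subgroup.map_injective (Subgroup.subtype_injective C)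
      rw [key H₁ hH₁, key K₁ hK₁]
    have hS := Cfsg.Agent.S0016.result (G := ↥C) p hCp huniq
    -- the conjugation action on `N`
    have hNcyc : IsCyclic ↥N := isCyclic_of_prime_card (p := p) hp.symm
    haveI : Fact (Nat.card ↥N).Prime := ⟨hprime'⟩
    have hAutcyc : IsCyclic (MulAut ↥N) :=
      isCyclic_of_surjective (IsCyclic.mulAutMulEquiv ↥N).symm
        (IsCyclic.mulAutMulEquiv ↥N).symm.surjective
    have hAutcard : Nat.card (MulAut ↥N) = p - 1 := by
      rw [IsCyclic.card_mulAut, ← hp, Nat.totient_prime hprime]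
    obtain ⟨φ, hφ⟩ : ∃ φ : F →* MulAut ↥N, φ = MulAut.conjNormal := ⟨_, rfl⟩
    have hφapp : ∀ (g : F) (n : ↥N), ((φ g n : ↥N) : F) = g * n * g⁻¹ := by
      intro g n
      rw [hφ]
      exact MulAut.conjNormal_apply g n
    have hker : φ.ker = C := by
      ext g
      rw [MonoidHom.mem_ker, hCdef, Subgroup.mem_centralizer_iff]
      constructor
      · intro h n hn
        have h1 := hφapp g ⟨n, hn⟩
        rw [h] at h1
        have h2 : n = g * n * g⁻¹ := h1
        calc n * g = (g * n * g⁻¹) * g := by rw [← h2]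
          _ = g * n := by group
      · intro h
        apply MulEquiv.ext
        intro n
        apply Subtype.ext
        rw [hφapp]
        have h1 := h n n.2
        show g * (n : F) * g⁻¹ = (n : F)
        rw [← h1, mul_inv_cancel_right]
    have hidx : C.index ∣ Nat.card ↥N - 1 := by
      rw [← hker, Subgroup.index_ker, ← hp, ← hAutcard]
      exact Subgroup.card_subgroup_dvd_card φ.range
    have hgen : ∃ g : F, C ⊔ Subgroup.zpowers g = ⊤ := by
      haveI : IsCyclic ↥φ.range := Subgroup.isCyclic φ.range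
      obtain ⟨γ, hγ⟩ := IsCyclic.exists_generator (α := ↥φ.range)
      obtain ⟨g, hg⟩ := MonoidHom.mem_range.1 γ.2
      refine ⟨g, ?_⟩
      rw [eq_top_iff]
      intro x _
      obtain ⟨j, hj⟩ := Subgroup.mem_zpowers_iff.1 (hγ ⟨φ x, MonoidHom.mem_range.2 ⟨x, rfl⟩⟩)
      have hj' : (φ g) ^ j = φ x := by
        have := congrArg Subtype.val hj
        rw [Subgroup.coe_zpow, ← hg] at this
        exact this
      have hxC : (g ^ j)⁻¹ * x ∈ C := by
        rw [← hker, MonoidHom.mem_ker, map_mul, map_inv, map_zpow, hj', inv_mul_cancel]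
      have hx : x = g ^ j * ((g ^ j)⁻¹ * x) := by group
      rw [hx]
      exact mul_mem (Subgroup.mem_sup_right (Subgroup.zpow_mem_zpowers g j))
        (Subgroup.mem_sup_left hxC)
    by_cases hcyc : IsCyclic ↥C
    · left
      exact ⟨hHeq, hprime', hcyc, ⟨k, hk1, by rw [hk, hp]⟩, hgen, hidx⟩
    · right
      rcases hS with hc | ⟨hp2, n, ⟨e⟩⟩
      · exact absurd hc hcyc
      · have hCtop : C = ⊤ := by
          rw [← Subgroup.index_eq_one]
          have h21 : (2 : ℕ) - 1 = 1 := rfl
          rw [← hp, hp2, h21] at hidx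
          exact Nat.dvd_one.1 hidx
        have hn1 : 1 ≤ n := by
          rcases Nat.eq_zero_or_pos n with h0 | h0
          · exfalso
            apply hcyc
            rw [h0, pow_zero] at e
            haveI := QuaternionGroup.quaternionGroup_one_isCyclic
            exact isCyclic_of_surjective e.symm e.symm.surjective
          · exact h0
        refine ⟨hHeq, by rw [← hp, hp2], hCtop, n, hn1, ⟨?_⟩⟩
        exact Subgroup.topEquiv.symm.trans ((MulEquiv.subgroupCongr hCtop.symm).trans e)

end Cfsg.Agent.S3025
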