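import Cfsg.Statements.S3027
import Cfsg.Agent.Lib.Helper59.Replace

set_option autoImplicit false
open Cfsg

namespace Cfsg.Agent.S3027

open Cfsg.Agent.Lib.Helper59
open scoped commutatorElement

/-- `N` is a `K`-invariant subgroup of `K` supplementing `D`. -/
def NS {G : Type*} [Group G] (D K N : Subgroup G) : Prop :=
  N ≤ K ∧ K ≤ Subgroup.normalizer (N : Set G) ∧ K ≤ N ⊔ D

theorem comm_sup_le {G : Type*} [Group G] (D : Subgroup G) [D.Normal] (A B : Subgroup G) :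
    ⁅A ⊔ D, B ⊔ D⁆ ≤ ⁅A, B⁆ ⊔ D := by
  have hD : D.map (QuotientGroup.mk' D) = ⊥ := by
    rw [Subgroup.map_eq_bot_iff, QuotientGroup.ker_mk']
  have h1 : ∀ X : Subgroup G,
      (X ⊔ D).map (QuotientGroup.mk' D) = X.map (QuotientGroup.mk' D) := by
    intro X
    rw [Subgroup.map_sup, hD, sup_bot_eq]
  have h2 : ⁅A ⊔ D, B ⊔ D⁆ ≤
      (⁅A ⊔ D, B ⊔ D⁆.map (QuotientGroup.mk' D)).comap (QuotientGroup.mk' D) :=
    Subgroup.le_comap_map _ _
  rw [Subgroup.map_commutator, h1, h1, ← Subgroup.map_commutator, Subgroup.comap_map_eq,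
    QuotientGroup.ker_mk'] at h2
  exact h2

theorem comm_le_inf {G : Type*} [Group G] (N₁ N₂ : Subgroup G)
    (h12 : N₁ ≤ Subgroup.normalizer (N₂ : Set G)) (h21 : N₂ ≤ Subgroup.normalizer (N₁ : Set G)) :
    ⁅N₁, N₂⁆ ≤ N₁ ⊓ N₂ := by
  rw [Subgroup.commutator_le]
  intro a ha b hb
  rw [commutatorElement_def]
  refine Subgroup.mem_inf.2 ⟨?_, ?_⟩
  · have h : b * a⁻¹ * b⁻¹ ∈ N₁ :=
      (Subgroup.mem_normalizer_iff.1 (h21 hb) a⁻¹).1 (N₁.inv_mem ha)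
    have h' : a * b * a⁻¹ * b⁻¹ = a * (b * a⁻¹ * b⁻¹) := by group
    rw [h']; exact N₁.mul_mem ha h
  · have h : a * b * a⁻¹ ∈ N₂ := (Subgroup.mem_normalizer_iff.1 (h12 ha) b).1 hb
    exact N₂.mul_mem h (N₂.inv_mem hb)

theorem NS_inf {G : Type*} [Group G] (D : Subgroup G) [D.Normal] (K N₁ N₂ : Subgroup G)
    (hK : K ≤ ⁅K, K⁆ ⊔ D) (h1 : NS D K N₁) (h2 : NS D K N₂) : NS D K (N₁ ⊓ N₂) := by
  refine ⟨inf_le_left.trans h1.1, ?_, ?_⟩
  · intro k hk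
    have hk1 := Subgroup.mem_normalizer_iff.1 (h1.2.1 hk)
    have hk2 := Subgroup.mem_normalizer_iff.1 (h2.2.1 hk)
    rw [Subgroup.mem_normalizer_iff]
    intro h
    rw [Subgroup.mem_inf, Subgroup.mem_inf, hk1 h, hk2 h]
  · have hc : ⁅N₁, N₂⁆ ≤ N₁ ⊓ N₂ :=
      comm_le_inf N₁ N₂ (h1.1.trans h2.2.1) (h2.1.trans h1.2.1)
    calc K ≤ ⁅K, K⁆ ⊔ D := hK
      _ ≤ ⁅N₁ ⊔ D, N₂ ⊔ D⁆ ⊔ D := sup_le_sup_right (Subgroup.commutator_mono h1.2.2 h2.2.2) D
      _ ≤ (⁅N₁, N₂⁆ ⊔ D) ⊔ D := sup_le_sup_right (comm_sup_le D N₁ N₂) D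
      _ = ⁅N₁, N₂⁆ ⊔ D := by rw [sup_assoc, sup_idem]
      _ ≤ (N₁ ⊓ N₂) ⊔ D := sup_le_sup_right hc D

theorem exists_least {G : Type*} [Group G] [Finite G] (D : Subgroup G) [D.Normal]
    (K : Subgroup G) (hK : K ≤ ⁅K, K⁆ ⊔ D) :
    ∃ B : Subgroup G, NS D K B ∧ ∀ N : Subgroup G, NS D K N → B ≤ N := by
  classical
  have hKK : NS D K K := ⟨le_rfl, Subgroup.le_normalizer, le_sup_left⟩
  have hne : Nonempty {N : Subgroup G // NS D K N} := ⟨⟨K, hKK⟩⟩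
  obtain ⟨⟨B, hB⟩, hmin⟩ := Finite.exists_min
    (fun N : {N : Subgroup G // NS D K N} => Nat.card (N : Subgroup G))
  refine ⟨B, hB, fun N hN => ?_⟩
  have hinf : NS D K (B ⊓ N) := NS_inf D K B N hK hB hN
  have hcard : Nat.card B ≤ Nat.card ↥(B ⊓ N) := hmin ⟨_, hinf⟩
  have h1 : B ⊓ N = B := Subgroup.eq_of_le_of_card_ge inf_le_left hcard
  exact inf_eq_left.1 h1

theorem least_normalizer {G : Type*} [Group G] [Finite G] (D : Subgroup G) [D.Normal]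
    (S B : Subgroup G) (hB : NS D S B) (hmin : ∀ N : Subgroup G, NS D S N → B ≤ N) :
    Subgroup.normalizer (S : Set G) ≤ Subgroup.normalizer (B : Set G) := by
  intro g hg
  have hgS := Subgroup.mem_normalizer_iff.1 hg
  apply conj_mem_imp_mem_normalizer
  have hN : NS D S (B.comap (MulAut.conj g).toMonoidHom) := by
    refine ⟨?_, ?_, ?_⟩
    · intro x hx
      have hx' : g * x * g⁻¹ ∈ B := hx
      exact (hgS x).2 (hB.1 hx')
    · intro s hs
      apply conj_mem_imp_mem_normalizer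
      intro x hx
      have hx' : g * x * g⁻¹ ∈ B := hx
      have hs' : g * s * g⁻¹ ∈ S := (hgS s).1 hs
      have hn := Subgroup.mem_normalizer_iff.1 (hB.2.1 hs')
      have h1 : (g * s * g⁻¹) * (g * x * g⁻¹) * (g * s * g⁻¹)⁻¹ ∈ B := (hn _).1 hx'
      have h2 : g * (s * x * s⁻¹) * g⁻¹
          = (g * s * g⁻¹) * (g * x * g⁻¹) * (g * s * g⁻¹)⁻¹ := by group
      show g * (s * x * s⁻¹) * g⁻¹ ∈ B
      rw [h2]; exact h1
    · have hsurj : Function.Surjective (MulAut.conj g).toMonoidHom := (MulAut.conj g).surjective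
      have hD : D.comap (MulAut.conj g).toMonoidHom = D := by
        ext x
        rw [Subgroup.mem_comap]
        show g * x * g⁻¹ ∈ D ↔ x ∈ D
        constructor
        · intro h
          have := (inferInstance : D.Normal).conj_mem _ h g⁻¹
          have h3 : g⁻¹ * (g * x * g⁻¹) * g⁻¹⁻¹ = x := by group
          rwa [h3] at this
        · intro h
          exact (inferInstance : D.Normal).conj_mem _ h g
      have hle : S ≤ (B ⊔ D).comap (MulAut.conj g).toMonoidHom := by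
        intro s hs
        have hs' : g * s * g⁻¹ ∈ S := (hgS s).1 hs
        exact hB.2.2 hs'
      rw [← Subgroup.comap_sup_eq _ _ _ hsurj, hD] at hle
      exact hle
  intro a ha
  exact hmin _ hN ha

theorem main_ind {G : Type*} [Group G] [Finite G] (D : Subgroup G) [D.Normal]
    (B₀ : Subgroup G) (hmin₀ : ∀ N : Subgroup G, NS D ⊤ N → B₀ ≤ N)
    (hperf : ⁅(⊤ : Subgroup G), (⊤ : Subgroup G)⁆ ⊔ D = ⊤)
    (S : Subgroup G) (hS : S.IsSubnormal) (hSD : S ⊔ D = ⊤) :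
    S ≤ ⁅S, S⁆ ⊔ D ∧
      ∀ B : Subgroup G, NS D S B → (∀ N : Subgroup G, NS D S N → B ≤ N) → B₀ ≤ B := by
  induction hS with
  | top =>
    exact ⟨hperf.ge, fun B hB _ => hmin₀ B hB⟩
  | step H K h_le hSubn hN ih =>
    have hKD : K ⊔ D = ⊤ := by
      rw [eq_top_iff, ← hSD]; exact sup_le_sup_right h_le D
    obtain ⟨hKperf, hKmin⟩ := ih hKD
    have hKH : K ≤ H ⊔ D := by rw [hSD]; exact le_top
    have hHperf : H ≤ ⁅H, H⁆ ⊔ D := by
      calc H ≤ K := h_le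
        _ ≤ ⁅K, K⁆ ⊔ D := hKperf
        _ ≤ ⁅H ⊔ D, H ⊔ D⁆ ⊔ D := sup_le_sup_right (Subgroup.commutator_mono hKH hKH) D
        _ ≤ (⁅H, H⁆ ⊔ D) ⊔ D := sup_le_sup_right (comm_sup_le D H H) D
        _ = ⁅H, H⁆ ⊔ D := by rw [sup_assoc, sup_idem]
    refine ⟨hHperf, fun B hB hBmin => ?_⟩
    have hKnH : K ≤ Subgroup.normalizer (H : Set G) :=
      (Subgroup.normal_subgroupOf_iff_le_normalizer h_le).1 hN
    have hBK : NS D K B := by
      refine ⟨hB.1.trans h_le, hKnH.trans (least_normalizer D H B hB hBmin), ?_⟩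
      calc K ≤ H ⊔ D := hKH
        _ ≤ (B ⊔ D) ⊔ D := sup_le_sup_right hB.2.2 D
        _ = B ⊔ D := by rw [sup_assoc, sup_idem]
    obtain ⟨BK, hBK1, hBK2⟩ := exists_least D K hKperf
    exact (hKmin BK hBK1 hBK2).trans (hBK2 B hBK)

/-- Let G be a finite group and D a normal subgroup of G such that G/D is perfect (that is, G = G′D). Then among the subnormal subgroups B of G with BD = G there is a least one, and it is normal in G. -/
theorem result {G : Type*} [Group G] [Finite G] (D : Subgroup G) [D.Normal] (hperf : ⁅(⊤ : Subgroup G), (⊤ : Subgroup G)⁆ ⊔ D = ⊤) :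
    ∃ B : Subgroup G, B.Normal ∧ B ⊔ D = ⊤ ∧ ∀ B' : Subgroup G, B'.IsSubnormal → B' ⊔ D = ⊤ → B ≤ B' := by
  obtain ⟨B₀, hB₀, hmin₀⟩ := exists_least D ⊤ hperf.ge
  refine ⟨B₀, ?_, ?_, ?_⟩
  · exact Subgroup.normalizer_eq_top_iff.1 (top_le_iff.1 hB₀.2.1)
  · exact top_le_iff.1 hB₀.2.2
  · intro B' hsn hB'D
    obtain ⟨hperf', hmin'⟩ := main_ind D B₀ hmin₀ hperf B' hsn hB'D
    obtain ⟨B, hB1, hB2⟩ := exists_least D B' hperf'
    exact (hmin' B hB1 hB2).trans hB1.1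

end Cfsg.Agent.S3027
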