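import Cfsg.Statements.S3053
import Mathlib

set_option autoImplicit false
open Cfsg
open scoped commutatorElement Pointwise

namespace Cfsg.Agent.S3053

section Class2

variable {G : Type*} [Group G]

theorem swap_eq_comm_mul (y x : G) : y * x = ⁅y, x⁆ * x * y := by
  rw [commutatorElement_def]; group

theorem pow_mul_eq_class2 {x y : G} (hy : Commute ⁅y, x⁆ y) (n : ℕ) :
    y ^ n * x = ⁅y, x⁆ ^ n * x * y ^ n := by
  induction n with
  | zero => simp
  | succ n ih =>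
    have h1 : Commute (⁅y, x⁆ ^ n) y := hy.pow_left n
    calc y ^ (n + 1) * x = y * (y ^ n * x) := by rw [pow_succ', mul_assoc]
      _ = y * (⁅y, x⁆ ^ n * x * y ^ n) := by rw [ih]
      _ = (y * ⁅y, x⁆ ^ n) * x * y ^ n := by simp only [mul_assoc]
      _ = (⁅y, x⁆ ^ n * y) * x * y ^ n := by rw [h1.eq]
      _ = ⁅y, x⁆ ^ n * (y * x) * y ^ n := by simp only [mul_assoc]
      _ = ⁅y, x⁆ ^ n * (⁅y, x⁆ * x * y) * y ^ n := by rw [← swap_eq_comm_mul]
      _ = ⁅y, x⁆ ^ (n + 1) * x * y ^ (n + 1) := by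
        rw [pow_succ, pow_succ']; simp only [mul_assoc]

theorem mul_pow_class2 {x y : G} (hx : Commute ⁅y, x⁆ x) (hy : Commute ⁅y, x⁆ y) (n : ℕ) :
    (x * y) ^ n = x ^ n * y ^ n * ⁅y, x⁆ ^ (n.choose 2) := by
  induction n with
  | zero => simp
  | succ n ih =>
    have h1 : Commute (⁅y, x⁆ ^ (n.choose 2)) x := hx.pow_left _
    have h2 : Commute (⁅y, x⁆ ^ (n.choose 2)) y := hy.pow_left _
    have h3 : Commute (⁅y, x⁆ ^ n) x := hx.pow_left _
    have hch : (n + 1).choose 2 = n + n.choose 2 := by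
      rw [Nat.choose_succ_succ' n 1, Nat.choose_one_right]
    calc (x * y) ^ (n + 1) = (x * y) ^ n * (x * y) := pow_succ _ _
      _ = x ^ n * y ^ n * ⁅y, x⁆ ^ (n.choose 2) * (x * y) := by rw [ih]
      _ = x ^ n * y ^ n * (⁅y, x⁆ ^ (n.choose 2) * x) * y := by simp only [mul_assoc]
      _ = x ^ n * y ^ n * (x * ⁅y, x⁆ ^ (n.choose 2)) * y := by rw [h1.eq]
      _ = x ^ n * (y ^ n * x) * (⁅y, x⁆ ^ (n.choose 2) * y) := by simp only [mul_assoc]
      _ = x ^ n * (⁅y, x⁆ ^ n * x * y ^ n) * (y * ⁅y, x⁆ ^ (n.choose 2)) := by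
        rw [pow_mul_eq_class2 hy, h2.eq]
      _ = x ^ n * (⁅y, x⁆ ^ n * x) * (y ^ n * y) * ⁅y, x⁆ ^ (n.choose 2) := by
        simp only [mul_assoc]
      _ = x ^ n * (x * ⁅y, x⁆ ^ n) * y ^ (n + 1) * ⁅y, x⁆ ^ (n.choose 2) := by
        rw [h3.eq, ← pow_succ]
      _ = x ^ n * x * (⁅y, x⁆ ^ n * y ^ (n + 1)) * ⁅y, x⁆ ^ (n.choose 2) := by
        simp only [mul_assoc]
      _ = x ^ (n + 1) * (y ^ (n + 1) * ⁅y, x⁆ ^ n) * ⁅y, x⁆ ^ (n.choose 2) := by
        rw [← pow_succ, ((hy.pow_left n).pow_right (n + 1)).eq]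
      _ = x ^ (n + 1) * y ^ (n + 1) * ⁅y, x⁆ ^ ((n + 1).choose 2) := by
        rw [hch, pow_add ⁅y, x⁆ n (n.choose 2)]; simp only [mul_assoc]

theorem conj_pow_class2 {x y : G} (hy : Commute ⁅y, x⁆ y) (n : ℕ) :
    y ^ n * x * (y ^ n)⁻¹ = ⁅y, x⁆ ^ n * x := by
  rw [pow_mul_eq_class2 hy n]; group

theorem inv_conj_pow (k a : G) (n : ℕ) : k⁻¹ * a ^ n * k = (k⁻¹ * a * k) ^ n := by
  have h := conj_pow (a := k⁻¹) (b := a) (i := n)
  rw [inv_inv] at h
  exact h.symm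

end Class2

section Main

variable {G : Type*} [Group G] [Finite G] {p : ℕ} [Fact p.Prime]

theorem sylow_conj_in (P : Sylow p G)
    (K : Subgroup G) (hPK : (P : Subgroup G) ≤ K) (E : Subgroup G) (hE : IsPGroup p E)
    (hEK : E ≤ K) : ∃ c ∈ K, ∀ e ∈ E, c * e * c⁻¹ ∈ (P : Subgroup G) := by
  have h1 : IsPGroup p (E.subgroupOf K) := hE.comap_subtype
  obtain ⟨Q, hQ⟩ := h1.exists_le_sylow
  obtain ⟨h, hh⟩ := MulAction.exists_smul_eq ↥K Q (P.subtype hPK)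
  refine ⟨h, h.2, fun e he => ?_⟩
  have hxQ : (⟨e, hEK he⟩ : K) ∈ (Q : Subgroup K) := hQ (Subgroup.mem_subgroupOf.mpr he)
  have hmem : h * ⟨e, hEK he⟩ * h⁻¹ ∈ ((P.subtype hPK : Sylow p K) : Subgroup K) := by
    rw [← hh, Sylow.coe_subgroup_smul, Subgroup.mem_pointwise_smul_iff_inv_smul_mem]
    simpa [MulAut.smul_def, mul_assoc] using hxQ
  rw [Sylow.coe_subtype, Subgroup.mem_subgroupOf] at hmem
  simpa using hmem

theorem mem_smul_sylow (P : Sylow p G) (g q : G) :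
    q ∈ ((g • P : Sylow p G) : Subgroup G) ↔ g⁻¹ * q * g ∈ (P : Subgroup G) := by
  rw [Sylow.coe_subgroup_smul, Subgroup.mem_pointwise_smul_iff_inv_smul_mem]
  simp [MulAut.smul_def]

theorem core (hp : p ≠ 2) (P : Sylow p G) (Z : Subgroup G) (hZP : Z ≤ (P : Subgroup G))
    (hZc : ∀ z ∈ Z, ∀ a ∈ (P : Subgroup G), a * z = z * a)
    (hZcard : Nat.card Z = p)
    (hcomm : ∀ a ∈ (P : Subgroup G), ∀ b ∈ (P : Subgroup G), ⁅a, b⁆ ∈ Z)
    (hZmem : ∀ z ∈ (P : Subgroup G), (∀ a ∈ (P : Subgroup G), a * z = z * a) → z ∈ Z)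
    (hexp : ∃ u ∈ (P : Subgroup G), u ^ p ≠ 1)
    (hcard : Nat.card (P : Subgroup G) = p ^ 3) :
    ∀ x ∈ Z, ∀ g : G, g * x * g⁻¹ ∈ (P : Subgroup G) → g * x * g⁻¹ ∈ Z := by
  classical
  have hpp : p.Prime := Fact.out
  have hodd : Odd p := hpp.odd_of_ne_two hp
  have hZpow : ∀ z ∈ Z, z ^ p = 1 := by
    intro z hz
    have h := pow_card_eq_one' (G := Z) (x := ⟨z, hz⟩)
    rw [hZcard] at h
    exact congrArg Subtype.val h
  have hgen : ∀ z ∈ Z, z ≠ 1 → ∀ z' ∈ Z, ∃ n : ℕ, z ^ n = z' := by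
    intro z hz hz1 z' hz'
    have hle : Subgroup.zpowers z ≤ Z := (Subgroup.zpowers_le).mpr hz
    have hcardz : Nat.card (Subgroup.zpowers z) = p := by
      have hdvd : Nat.card (Subgroup.zpowers z) ∣ p := hZcard ▸ Subgroup.card_dvd_of_le hle
      rcases (Nat.dvd_prime hpp).mp hdvd with h | h
      · exfalso
        rw [Nat.card_zpowers, orderOf_eq_one_iff] at h
        exact hz1 h
      · exact h
    have heq : Subgroup.zpowers z = Z :=
      Subgroup.eq_of_le_of_card_ge hle (by rw [hcardz, hZcard])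
    have h1 : z' ∈ Subgroup.zpowers z := heq ▸ hz'
    have h2 : z' ∈ Submonoid.powers z := (mem_powers_iff_mem_zpowers).mpr h1
    exact h2
  have hmulpow : ∀ a ∈ (P : Subgroup G), ∀ b ∈ (P : Subgroup G),
      (a * b) ^ p = a ^ p * b ^ p := by
    intro a ha b hb
    have hc : ⁅b, a⁆ ∈ Z := hcomm b hb a ha
    have h1 : Commute ⁅b, a⁆ a := (hZc _ hc a ha).symm
    have h2 : Commute ⁅b, a⁆ b := (hZc _ hc b hb).symm
    rw [mul_pow_class2 h1 h2 p]
    have hdvd : p ∣ p.choose 2 :=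
      hpp.dvd_choose_self (by norm_num) (by have := hpp.two_le; omega)
    obtain ⟨k, hk⟩ := hdvd
    rw [hk, pow_mul, hZpow _ hc, one_pow, mul_one]
  have hpowZ : ∀ a ∈ (P : Subgroup G), a ^ p ∈ Z := by
    intro a ha
    apply hZmem _ (pow_mem ha p)
    intro b hb
    have hc : ⁅b, a⁆ ∈ Z := hcomm b hb a ha
    have h1 : b * a * b⁻¹ = ⁅b, a⁆ * a := by rw [commutatorElement_def]; group
    have h2 : b * a ^ p * b⁻¹ = a ^ p := by
      rw [← conj_pow, h1, hmulpow _ (hZP hc) _ ha, hZpow _ hc, one_mul]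
    calc b * a ^ p = b * a ^ p * b⁻¹ * b := by group
      _ = a ^ p * b := by rw [h2]
  obtain ⟨E, hEmem⟩ : ∃ E : Subgroup G, ∀ a, a ∈ E ↔ a ∈ (P : Subgroup G) ∧ a ^ p = 1 :=
    ⟨{ carrier := {a | a ∈ (P : Subgroup G) ∧ a ^ p = 1}
       mul_mem' := fun {a b} ha hb =>
         ⟨mul_mem ha.1 hb.1, by rw [hmulpow a ha.1 b hb.1, ha.2, hb.2, one_mul]⟩
       one_mem' := ⟨one_mem _, one_pow _⟩
       inv_mem' := fun {a} ha => ⟨inv_mem ha.1, by rw [inv_pow, ha.2, inv_one]⟩ },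
     fun a => Iff.rfl⟩
  have hEP : E ≤ (P : Subgroup G) := fun a ha => ((hEmem a).mp ha).1
  have hEcard : Nat.card E = p ^ 2 := by
    let φ : (P : Subgroup G) →* Z :=
      { toFun := fun a => ⟨(a : G) ^ p, hpowZ a a.2⟩
        map_one' := Subtype.ext (one_pow _)
        map_mul' := fun a b => Subtype.ext (hmulpow a a.2 b b.2) }
    have hker : Nat.card φ.ker = Nat.card E := by
      apply Nat.card_congr
      refine ⟨fun a => ⟨((a : (P : Subgroup G)) : G),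
          (hEmem _).mpr ⟨(a : (P : Subgroup G)).2, ?_⟩⟩,
        fun e => ⟨⟨(e : G), hEP e.2⟩, ?_⟩, fun a => ?_, fun e => ?_⟩
      · have h := a.2
        rw [MonoidHom.mem_ker] at h
        exact congrArg Subtype.val h
      · rw [MonoidHom.mem_ker]; exact Subtype.ext ((hEmem _).mp e.2).2
      · rfl
      · rfl
    have hrange : Nat.card φ.range = p := by
      haveI : Fact (Nat.card Z).Prime := ⟨hZcard ▸ hpp⟩
      rcases Subgroup.eq_bot_or_eq_top_of_prime_card φ.range with h | h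
      · exfalso
        obtain ⟨u, hu, hu1⟩ := hexp
        have h2 : φ ⟨u, hu⟩ ∈ φ.range := ⟨_, rfl⟩
        rw [h, Subgroup.mem_bot] at h2
        exact hu1 (congrArg Subtype.val h2)
      · rw [h, Subgroup.card_top, hZcard]
    have h3 := Subgroup.card_mul_index φ.ker
    rw [Subgroup.index_ker, hrange, hker, hcard] at h3
    have h4 : Nat.card E * p = p ^ 2 * p := by rw [h3]; ring
    exact Nat.eq_of_mul_eq_mul_right hpp.pos h4
  have hEcomm : ∀ a ∈ E, ∀ b ∈ E, a * b = b * a := by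
    intro a ha b hb
    have h := IsPGroup.commutative_of_card_eq_prime_sq (p := p) (G := E) hEcard ⟨a, ha⟩ ⟨b, hb⟩
    exact congrArg Subtype.val h
  have hZE : Z ≤ E := fun z hz => (hEmem z).mpr ⟨hZP hz, hZpow z hz⟩
  have hPE : ∀ a ∈ (P : Subgroup G), ∀ e ∈ E, a * e * a⁻¹ ∈ E := by
    intro a ha e he
    have he' := (hEmem e).mp he
    exact (hEmem _).mpr ⟨mul_mem (mul_mem ha he'.1) (inv_mem ha),
      by rw [conj_pow, he'.2, mul_one, mul_inv_cancel]⟩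
  have hS6 : ∀ y ∈ E, y ∉ Z → ∀ u ∈ (P : Subgroup G), u ∉ E → u * y ≠ y * u := by
    intro y hy hyZ u hu huE hcom
    apply hyZ
    apply hZmem y (hEP hy)
    have hle : E ⊔ Subgroup.zpowers u ≤ (P : Subgroup G) :=
      sup_le hEP ((Subgroup.zpowers_le).mpr hu)
    have hcardS : Nat.card (E ⊔ Subgroup.zpowers u : Subgroup G) = p ^ 3 := by
      have h1 : p ^ 2 ∣ Nat.card (E ⊔ Subgroup.zpowers u : Subgroup G) :=
        hEcard ▸ Subgroup.card_dvd_of_le le_sup_left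
      have h2 : Nat.card (E ⊔ Subgroup.zpowers u : Subgroup G) ∣ p ^ 3 :=
        hcard ▸ Subgroup.card_dvd_of_le hle
      obtain ⟨i, hi, hi2⟩ := (Nat.dvd_prime_pow hpp).mp h2
      rw [hi2] at h1 ⊢
      have h3 : 2 ≤ i := (Nat.pow_dvd_pow_iff_le_right hpp.one_lt).mp h1
      have h4 : i ≠ 2 := by
        intro h
        apply huE
        have h5 : E = E ⊔ Subgroup.zpowers u :=
          Subgroup.eq_of_le_of_card_ge le_sup_left (by rw [hi2, h, hEcard])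
        rw [h5]; exact le_sup_right (a := E) (Subgroup.mem_zpowers u)
      have h6 : i = 3 := by omega
      rw [h6]
    have heq : E ⊔ Subgroup.zpowers u = (P : Subgroup G) :=
      Subgroup.eq_of_le_of_card_ge hle (by rw [hcardS, hcard])
    have hcen : E ⊔ Subgroup.zpowers u ≤ Subgroup.centralizer {y} := by
      apply sup_le
      · intro e he
        rw [Subgroup.mem_centralizer_iff]
        intro w hw
        rw [Set.mem_singleton_iff] at hw
        subst hw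
        exact hEcomm _ hy _ he
      · rw [Subgroup.zpowers_le, Subgroup.mem_centralizer_iff]
        intro w hw
        rw [Set.mem_singleton_iff] at hw
        subst hw
        exact hcom.symm
    intro a ha
    have h7 := hcen (heq ▸ ha)
    rw [Subgroup.mem_centralizer_iff] at h7
    exact (h7 y rfl).symm
  intro x hx g
  obtain ⟨y, hydef⟩ : ∃ y, y = g * x * g⁻¹ := ⟨_, rfl⟩
  rw [← hydef]
  intro hy
  by_contra hyZ
  have hx1 : x ≠ 1 := by
    intro h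
    apply hyZ
    rw [hydef, h]
    simp
  have hyE : y ∈ E := (hEmem y).mpr
    ⟨hy, by rw [hydef, conj_pow, hZpow x hx, mul_one, mul_inv_cancel]⟩
  have hQK : ((g • P : Sylow p G) : Subgroup G) ≤ Subgroup.centralizer {y} := by
    intro q hq
    rw [mem_smul_sylow] at hq
    rw [Subgroup.mem_centralizer_iff]
    intro w hw
    rw [Set.mem_singleton_iff] at hw
    subst hw
    have h1 := hZc x hx _ hq
    rw [hydef]
    calc g * x * g⁻¹ * q = g * (x * (g⁻¹ * q * g)) * g⁻¹ := by group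
      _ = g * (g⁻¹ * q * g * x) * g⁻¹ := by rw [h1]
      _ = q * (g * x * g⁻¹) := by group
  have hEK : E ≤ Subgroup.centralizer {y} := by
    intro e he
    rw [Subgroup.mem_centralizer_iff]
    intro w hw
    rw [Set.mem_singleton_iff] at hw
    subst hw
    exact hEcomm _ hyE _ he
  obtain ⟨c, hcK, hc⟩ := sylow_conj_in (g • P) (Subgroup.centralizer {y}) hQK E
    (IsPGroup.of_card hEcard) hEK
  obtain ⟨k, hk⟩ : ∃ k : G, k = g⁻¹ * c := ⟨_, rfl⟩
  have hkE : ∀ e ∈ E, k * e * k⁻¹ ∈ E := by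
    intro e he
    have h1 := hc e he
    rw [mem_smul_sylow] at h1
    have h2 : k * e * k⁻¹ = g⁻¹ * (c * e * c⁻¹) * g := by rw [hk]; group
    refine (hEmem _).mpr ⟨h2 ▸ h1, ?_⟩
    rw [conj_pow, ((hEmem e).mp he).2, mul_one, mul_inv_cancel]
  have hkx : k * y * k⁻¹ = x := by
    have h1 : y * c = c * y := (Subgroup.mem_centralizer_iff.mp hcK) y rfl
    have h2 : c * y * c⁻¹ = y := by rw [← h1]; group
    calc k * y * k⁻¹ = g⁻¹ * (c * y * c⁻¹) * g := by rw [hk]; group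
      _ = g⁻¹ * y * g := by rw [h2]
      _ = x := by rw [hydef]; group
  have hky : y = k⁻¹ * x * k := by rw [← hkx]; group
  obtain ⟨w, hw⟩ : ∃ w, w = k * x * k⁻¹ := ⟨_, rfl⟩
  have hwE : w ∈ E := hw ▸ hkE x (hZE hx)
  have hw1 : w ≠ 1 := by
    intro h
    rw [hw] at h
    apply hx1
    have h2 : x = k⁻¹ * (k * x * k⁻¹) * k := by group
    rw [h2, h]; group
  have hkw : k⁻¹ * w * k = x := by rw [hw]; group
  have hwZ : w ∉ Z := by
    intro hwZ
    obtain ⟨n, hn⟩ := hgen w hwZ hw1 x hx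
    apply hyZ
    have h3 : y = x ^ n := by
      calc y = k⁻¹ * x * k := hky
        _ = k⁻¹ * w ^ n * k := by rw [hn]
        _ = (k⁻¹ * w * k) ^ n := inv_conj_pow k w n
        _ = x ^ n := by rw [hkw]
    rw [h3]; exact pow_mem hx n
  obtain ⟨u, hu, hu1⟩ := hexp
  have huE : u ∉ E := fun h => hu1 ((hEmem u).mp h).2
  have hz1 : ⁅u, y⁆ ∈ Z := hcomm u hu y (hEP hyE)
  have hz1ne : ⁅u, y⁆ ≠ 1 := by
    intro h
    apply hS6 y hyE hyZ u hu huE
    rw [commutatorElement_eq_one_iff_mul_comm] at h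
    exact h
  have hz3 : ⁅u, w⁆ ∈ Z := hcomm u hu w (hEP hwE)
  have hz3ne : ⁅u, w⁆ ≠ 1 := by
    intro h
    apply hS6 w hwE hwZ u hu huE
    rw [commutatorElement_eq_one_iff_mul_comm] at h
    exact h
  obtain ⟨n, hn⟩ := hgen _ hz1 hz1ne x hx
  obtain ⟨m, hm⟩ := hgen _ hz3 hz3ne x⁻¹ (inv_mem hx)
  have hxy : x * y = y * x := hEcomm x (hZE hx) y hyE
  -- the element a
  obtain ⟨a, ha⟩ : ∃ a : G, a = u ^ n := ⟨_, rfl⟩
  have haP : a ∈ (P : Subgroup G) := ha ▸ pow_mem hu n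
  have ha_x : MulAut.conj a x = x := by
    rw [MulAut.conj_apply, hZc x hx a haP]; group
  have ha_y : MulAut.conj a y = x * y := by
    rw [MulAut.conj_apply, ha, conj_pow_class2 (hZc _ hz1 u hu).symm n, hn]
  -- the element b
  obtain ⟨a', ha'⟩ : ∃ a' : G, a' = u ^ m := ⟨_, rfl⟩
  have ha'P : a' ∈ (P : Subgroup G) := ha' ▸ pow_mem hu m
  have ha'_w : a' * w * a'⁻¹ = x⁻¹ * w := by
    rw [ha', conj_pow_class2 (hZc _ hz3 u hu).symm m, hm]
  have ha'_x : a' * x * a'⁻¹ = x := by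
    rw [hZc x hx a' ha'P]; group
  obtain ⟨b, hb⟩ : ∃ b : G, b = k⁻¹ * a' * k := ⟨_, rfl⟩
  have hb_y : MulAut.conj b y = y := by
    rw [MulAut.conj_apply, hb]
    calc k⁻¹ * a' * k * y * (k⁻¹ * a' * k)⁻¹ = k⁻¹ * (a' * (k * y * k⁻¹) * a'⁻¹) * k := by group
      _ = k⁻¹ * x * k := by rw [hkx, ha'_x]
      _ = y := hky.symm
  have hb_x : MulAut.conj b x = y⁻¹ * x := by
    rw [MulAut.conj_apply, hb]
    calc k⁻¹ * a' * k * x * (k⁻¹ * a' * k)⁻¹ = k⁻¹ * (a' * (k * x * k⁻¹) * a'⁻¹) * k := by group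
      _ = k⁻¹ * (x⁻¹ * w) * k := by rw [← hw, ha'_w]
      _ = (k⁻¹ * x * k)⁻¹ * (k⁻¹ * w * k) := by group
      _ = y⁻¹ * x := by rw [← hky, hkw]
  obtain ⟨s, hs⟩ : ∃ s : G, s = a * b * a := ⟨_, rfl⟩
  have hs_x : MulAut.conj s x = y⁻¹ := by
    rw [hs, map_mul, map_mul, MulAut.mul_apply, MulAut.mul_apply, ha_x, hb_x, map_mul, map_inv,
      ha_y, ha_x]
    group
  have hs_y : MulAut.conj s y = x := by
    rw [hs, map_mul, map_mul, MulAut.mul_apply, MulAut.mul_apply, ha_y, map_mul, hb_x, hb_y,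
      map_mul, map_mul, map_inv, ha_y, ha_x]
    calc (x * y)⁻¹ * x * (x * y) = y⁻¹ * (x * y) := by group
      _ = y⁻¹ * (y * x) := by rw [hxy]
      _ = x := by group
  obtain ⟨t, ht⟩ : ∃ t : G, t = s * s := ⟨_, rfl⟩
  have ht_x : MulAut.conj t x = x⁻¹ := by
    rw [ht, map_mul, MulAut.mul_apply, hs_x, map_inv, hs_y]
  have ht_y : MulAut.conj t y = y⁻¹ := by
    rw [ht, map_mul, MulAut.mul_apply, hs_y, hs_x]
  -- t inverts E
  obtain ⟨D, hDmem⟩ : ∃ D : Subgroup G, ∀ e, e ∈ D ↔ e ∈ E ∧ MulAut.conj t e = e⁻¹ :=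
    ⟨{ carrier := {e | e ∈ E ∧ MulAut.conj t e = e⁻¹}
       mul_mem' := fun {e f} he hf => ⟨mul_mem he.1 hf.1, by
         rw [map_mul, he.2, hf.2, mul_inv_rev]
         exact hEcomm _ (inv_mem he.1) _ (inv_mem hf.1)⟩
       one_mem' := ⟨one_mem _, by simp⟩
       inv_mem' := fun {e} he => ⟨inv_mem he.1, by rw [map_inv, he.2]⟩ }, fun e => Iff.rfl⟩
  have hDE : D ≤ E := fun e he => ((hDmem e).mp he).1
  have hxD : x ∈ D := (hDmem x).mpr ⟨hZE hx, ht_x⟩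
  have hyD : y ∈ D := (hDmem y).mpr ⟨hyE, ht_y⟩
  have hZD : Z ≤ D := by
    intro z hz
    obtain ⟨n, hn⟩ := hgen x hx hx1 z hz
    rw [← hn]; exact pow_mem hxD n
  have hDeq : D = E := by
    apply Subgroup.eq_of_le_of_card_ge hDE
    have h1 : p ∣ Nat.card D := hZcard ▸ Subgroup.card_dvd_of_le hZD
    have h2 : Nat.card D ∣ p ^ 2 := hEcard ▸ Subgroup.card_dvd_of_le hDE
    obtain ⟨i, hi, hi2⟩ := (Nat.dvd_prime_pow hpp).mp h2
    have hi1 : i ≠ 1 := by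
      intro h
      apply hyZ
      have h3 : Z = D := Subgroup.eq_of_le_of_card_ge hZD (by rw [hi2, h, hZcard, pow_one])
      rw [h3]; exact hyD
    have hi0 : i ≠ 0 := by
      intro h
      rw [hi2, h, pow_zero] at h1
      exact hpp.one_lt.ne' (Nat.dvd_one.mp h1)
    have h4 : i = 2 := by omega
    rw [hEcard, hi2, h4]
  have htE : ∀ e ∈ E, t * e * t⁻¹ = e⁻¹ := by
    intro e he
    have h := ((hDmem e).mp (hDeq ▸ he)).2
    rwa [MulAut.conj_apply] at h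
  have htE' : ∀ e ∈ E, t⁻¹ * e * t = e⁻¹ := by
    intro e he
    have h := htE e⁻¹ (inv_mem he)
    rw [inv_inv] at h
    calc t⁻¹ * e * t = t⁻¹ * (t * e⁻¹ * t⁻¹) * t := by rw [h]
      _ = e⁻¹ := by group
  have hPE' : ∀ v ∈ (P : Subgroup G), ∀ e ∈ E, v⁻¹ * e * v ∈ E := by
    intro v hv e he
    have h := hPE v⁻¹ (inv_mem hv) e he
    rwa [inv_inv] at h
  have hcomC : ∀ v ∈ (P : Subgroup G),
      t * v * t⁻¹ * v⁻¹ ∈ Subgroup.centralizer (E : Set G) := by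
    intro v hv
    rw [Subgroup.mem_centralizer_iff]
    intro e he
    have he1 : v⁻¹ * e * v ∈ E := hPE' v hv e he
    have h1 := htE' _ he1
    have h2 := htE e⁻¹ (inv_mem he)
    rw [inv_inv] at h2
    calc e * (t * v * t⁻¹ * v⁻¹) = (t * e⁻¹ * t⁻¹) * (t * v * t⁻¹ * v⁻¹) := by rw [h2]
      _ = t * v * (v⁻¹ * e * v)⁻¹ * t⁻¹ * v⁻¹ := by group
      _ = t * v * (t⁻¹ * (v⁻¹ * e * v) * t) * t⁻¹ * v⁻¹ := by rw [h1]
      _ = t * v * t⁻¹ * v⁻¹ * e := by group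
  -- P normalizes the centralizer of E
  have hPC : ∀ v ∈ (P : Subgroup G), ∀ c ∈ Subgroup.centralizer (E : Set G),
      v * c * v⁻¹ ∈ Subgroup.centralizer (E : Set G) := by
    intro v hv c hc
    rw [Subgroup.mem_centralizer_iff] at hc ⊢
    intro e he
    have h1 := hc _ (hPE' v hv e he)
    calc e * (v * c * v⁻¹) = v * (v⁻¹ * e * v * c) * v⁻¹ := by group
      _ = v * (c * (v⁻¹ * e * v)) * v⁻¹ := by rw [h1]
      _ = v * c * v⁻¹ * e := by group
  have hPN : (P : Subgroup G) ≤ Subgroup.normalizer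
      ((Subgroup.centralizer (E : Set G) : Subgroup G) : Set G) := by
    intro v hv
    rw [Subgroup.mem_normalizer_iff]
    intro c
    constructor
    · intro hc; exact hPC v hv c hc
    · intro hc
      have h := hPC v⁻¹ (inv_mem hv) _ hc
      have h2 : v⁻¹ * (v * c * v⁻¹) * v⁻¹⁻¹ = c := by group
      rwa [h2] at h
  have hP2 : ((t • P : Sylow p G) : Subgroup G) ≤
      (P : Subgroup G) ⊔ Subgroup.centralizer (E : Set G) := by
    intro q hq
    rw [mem_smul_sylow] at hq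
    have h1 := hcomC _ hq
    have h2 : q = (t * (t⁻¹ * q * t) * t⁻¹ * (t⁻¹ * q * t)⁻¹) * (t⁻¹ * q * t) := by group
    rw [h2]
    exact mul_mem (Subgroup.mem_sup_right h1) (Subgroup.mem_sup_left hq)
  obtain ⟨d, hdK, hd⟩ := sylow_conj_in P _ le_sup_left ((t • P : Sylow p G) : Subgroup G)
    (t • P).isPGroup' hP2
  have hdK' : d ∈ ((P : Subgroup G) : Set G) * (Subgroup.centralizer (E : Set G) : Set G) := by
    rw [← Subgroup.coe_mul_of_left_le_normalizer_right _ _ hPN]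
    exact hdK
  obtain ⟨v, hv, c0, hc0, hvc⟩ := Set.mem_mul.mp hdK'
  obtain ⟨t', ht'⟩ : ∃ t' : G, t' = c0 * t := ⟨_, rfl⟩
  have ht'P : ∀ r ∈ (P : Subgroup G), t' * r * t'⁻¹ ∈ (P : Subgroup G) := by
    intro r hr
    have h1 : t * r * t⁻¹ ∈ ((t • P : Sylow p G) : Subgroup G) := by
      rw [mem_smul_sylow]
      have h2 : t⁻¹ * (t * r * t⁻¹) * t = r := by group
      rw [h2]; exact hr
    have h3 := hd _ h1
    have h4 : t' * r * t'⁻¹ = v⁻¹ * (d * (t * r * t⁻¹) * d⁻¹) * v := by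
      rw [ht', ← hvc]; group
    rw [h4]
    exact mul_mem (mul_mem (inv_mem hv) h3) hv
  have ht'E : ∀ e ∈ E, t' * e * t'⁻¹ = e⁻¹ := by
    intro e he
    have h1 := htE e he
    have h2 : e⁻¹ * c0 = c0 * e⁻¹ := (Subgroup.mem_centralizer_iff.mp hc0) _ (inv_mem he)
    calc t' * e * t'⁻¹ = c0 * (t * e * t⁻¹) * c0⁻¹ := by rw [ht']; group
      _ = c0 * e⁻¹ * c0⁻¹ := by rw [h1]
      _ = e⁻¹ * c0 * c0⁻¹ := by rw [h2]
      _ = e⁻¹ := by group
  -- final contradiction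
  obtain ⟨u', hu'⟩ : ∃ u' : G, u' = t' * u * t'⁻¹ := ⟨_, rfl⟩
  have hu'P : u' ∈ (P : Subgroup G) := hu' ▸ ht'P u hu
  have hupZ : u ^ p ∈ Z := hpowZ u hu
  have hu'p : u' ^ p = (u ^ p)⁻¹ := by
    rw [hu', conj_pow]
    exact ht'E _ (hZE hupZ)
  have he1 : u' * u ∈ E := by
    refine (hEmem _).mpr ⟨mul_mem hu'P hu, ?_⟩
    rw [hmulpow u' hu'P u hu, hu'p, inv_mul_cancel]
  have hc0' : MulAut.conj t' ⁅u, y⁆ = ⁅u, y⁆⁻¹ := by
    rw [MulAut.conj_apply]
    exact ht'E _ (hZE hz1)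
  have hc1 : MulAut.conj t' ⁅u, y⁆ = ⁅u', y⁻¹⁆ := by
    rw [map_commutatorElement, MulAut.conj_apply, MulAut.conj_apply, ← hu', ht'E y hyE]
  have hf : u⁻¹ * y⁻¹ * u ∈ E := hPE' u hu _ (inv_mem hyE)
  have hc2 : ⁅u', y⁻¹⁆ = ⁅u, y⁆ := by
    have h1 : (u' * u) * (u⁻¹ * y⁻¹ * u) = (u⁻¹ * y⁻¹ * u) * (u' * u) := hEcomm _ he1 _ hf
    have h2 : ⁅u, y⁆ * (y * u) = (y * u) * ⁅u, y⁆ :=
      (hZc _ hz1 _ (mul_mem (hEP hyE) hu)).symm
    calc ⁅u', y⁻¹⁆ = ((u' * u) * (u⁻¹ * y⁻¹ * u)) * (u' * u)⁻¹ * y := by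
          rw [commutatorElement_def]; group
      _ = ((u⁻¹ * y⁻¹ * u) * (u' * u)) * (u' * u)⁻¹ * y := by rw [h1]
      _ = (y * u)⁻¹ * (⁅u, y⁆ * (y * u)) := by rw [commutatorElement_def]; group
      _ = (y * u)⁻¹ * ((y * u) * ⁅u, y⁆) := by rw [h2]
      _ = ⁅u, y⁆ := by group
  have hsq : ⁅u, y⁆ ^ 2 = 1 := by
    have h1 : ⁅u, y⁆⁻¹ = ⁅u, y⁆ := by rw [← hc0', hc1, hc2]
    calc ⁅u, y⁆ ^ 2 = ⁅u, y⁆ * ⁅u, y⁆ := pow_two _
      _ = ⁅u, y⁆⁻¹ * ⁅u, y⁆ := by rw [h1]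
      _ = 1 := inv_mul_cancel _
  obtain ⟨j, hj⟩ := hodd
  apply hz1ne
  have h1 : ⁅u, y⁆ ^ p = ⁅u, y⁆ := by
    rw [hj, pow_succ, pow_mul, hsq, one_pow, one_mul]
  rw [← h1]
  exact hZpow _ hz1

end Main

theorem result {G : Type*} [Group G] [Finite G]
    {p : ℕ} [Fact p.Prime] (hp : p ≠ 2) (P : Sylow p G) (hE : Cfsg.IsExtraspecial p ↥P)
    (hcard : Nat.card P = p ^ 3) (hexp : Monoid.exponent ↥P = p ^ 2) :
    Cfsg.IsStronglyClosed ((Subgroup.center ↥P).map (P : Subgroup G).subtype) (P : Subgroup G) := by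
  have hpp : p.Prime := Fact.out
  obtain ⟨⟨_, _, hcm⟩, hZc⟩ := hE
  refine ⟨Subgroup.map_subtype_le _, ?_⟩
  apply core hp P
  · exact Subgroup.map_subtype_le _
  · rintro z ⟨z', hz', rfl⟩ a ha
    have h := (Subgroup.mem_center_iff.mp hz') ⟨a, ha⟩
    exact congrArg Subtype.val h
  · rw [Subgroup.card_map_of_injective (Subgroup.subtype_injective _)]
    exact hZc
  · intro a ha b hb
    have h1 : ⁅(⟨a, ha⟩ : P), ⟨b, hb⟩⁆ ∈ commutator P := by
      rw [commutator_def]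
      exact Subgroup.commutator_mem_commutator (Subgroup.mem_top _) (Subgroup.mem_top _)
    exact ⟨_, hcm.le h1, rfl⟩
  · intro z hz h
    refine ⟨⟨z, hz⟩, Subgroup.mem_center_iff.mpr ?_, rfl⟩
    intro a
    exact Subtype.ext (h a a.2)
  · by_contra hcon
    push Not at hcon
    have h1 : Monoid.exponent ↥P ∣ p := by
      apply Monoid.exponent_dvd_of_forall_pow_eq_one
      intro a
      exact Subtype.ext (hcon a a.2)
    rw [hexp] at h1
    have h2 := Nat.le_of_dvd hpp.pos h1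
    have h3 : p < p ^ 2 := by
      have := hpp.one_lt
      nlinarith
    omega
  · exact hcard

end Cfsg.Agent.S3053
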