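import Cfsg.Statements.S3055
import Cfsg.Agent.Lib.Helper59.XSAsm

set_option autoImplicit false
open Cfsg

namespace Cfsg.Agent.S3055

/-- Let p be an odd prime and G a finite group with a Sylow p-subgroup P that is extraspecial of order p³ and exponent p. If all nonidentity elements of P are conjugate in G, then p ≤ 7. -/
theorem result {G : Type*} [Group G] [Finite G]
    {p : ℕ} [Fact p.Prime] (hp : p ≠ 2) (P : Sylow p G) (hE : Cfsg.IsExtraspecial p ↥P)
    (hcard : Nat.card P = p ^ 3) (hexp : Monoid.exponent ↥P = p)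
    (hconj : ∀ x y : ↥P, x ≠ 1 → y ≠ 1 → ∃ g : G, g * (x : G) * g⁻¹ = (y : G)) :
    p ≤ 7 := by
  have hS := Cfsg.Agent.Lib.Helper59.XS.setup_of_extraspecial P hE hcard hexp
  exact Cfsg.Agent.Lib.Helper59.XS.s3055_core P hS hconj

end Cfsg.Agent.S3055
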