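import Cfsg.Statements.S3058
import Mathlib
import Cfsg.Agent.Lib.Helper59.SylowChain
import Cfsg.Agent.S0058

set_option autoImplicit false
open Cfsg

namespace Cfsg.Agent.S3058

open Cfsg.Agent.Lib.Helper59

/-- in a finite cyclic group, an element of prime order `p` lies in the subgroup generated by any
other element of order `p` -/
theorem mem_zpowers_of_isCyclic {A : Type*} [Group A] [Finite A] [IsCyclic A] {p : ℕ}
    [hp : Fact p.Prime] (x y : A) (hx : orderOf x = p) (hy : orderOf y = p) :
    y ∈ Subgroup.zpowers x := by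
  let _ : CommGroup A := IsCyclic.commGroup
  have hcard : Nat.card (powMonoidHom p : A →* A).ker ≤ p := by
    rw [IsCyclic.card_powMonoidHom_ker]
    exact Nat.le_of_dvd hp.out.pos (Nat.gcd_dvd_right _ _)
  have hle : Subgroup.zpowers x ≤ (powMonoidHom p : A →* A).ker := by
    rw [Subgroup.zpowers_le]
    rw [MonoidHom.mem_ker, powMonoidHom_apply, ← hx, pow_orderOf_eq_one]
  have heq : Subgroup.zpowers x = (powMonoidHom p : A →* A).ker :=
    Subgroup.eq_of_le_of_card_ge hle (by rw [Nat.card_zpowers, hx]; exact hcard)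
  rw [heq, MonoidHom.mem_ker, powMonoidHom_apply, ← hy, pow_orderOf_eq_one]

/-- a nontrivial element of a Sylow `p`-subgroup has order divisible by `p` -/
theorem dvd_orderOf_of_mem_sylow {G : Type*} [Group G] {p : ℕ} [hp : Fact p.Prime]
    (P : Sylow p G) {z : G} (hz : z ∈ (P : Subgroup G)) (hz1 : z ≠ 1) : p ∣ orderOf z := by
  obtain ⟨k, hk⟩ := P.isPGroup' ⟨z, hz⟩
  have hk' : z ^ p ^ k = 1 := by
    have := congrArg Subtype.val hk
    simpa using this
  have hd : orderOf z ∣ p ^ k := orderOf_dvd_of_pow_eq_one hk'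
  obtain ⟨j, hj, hoj⟩ := (Nat.dvd_prime_pow hp.out).1 hd
  rcases Nat.eq_zero_or_pos j with h0 | h0
  · subst h0
    rw [pow_zero, orderOf_eq_one_iff] at hoj
    exact absurd hoj hz1
  · rw [hoj]; exact dvd_pow_self p h0.ne'

/-- Let p be a prime and G a finite group whose Sylow p-subgroups are not chain-connected through nontrivial intersections (so G has a strongly p-embedded subgroup). If N and M are normal subgroups of G whose orders are both divisible by p, then the order of N ∩ M is divisible by p. Consequently, among the normal subgroups of G whose order is divisible by p there is a smallest one (the intersection of all of them). -/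
theorem result {G : Type*} [Group G] [Finite G]
    (p : ℕ) [Fact p.Prime] (hG : ¬ Cfsg.IsSylowChainConnected p G)
    (N M : Subgroup G) [N.Normal] [M.Normal] (hN : p ∣ Nat.card N) (hM : p ∣ Nat.card M) :
    p ∣ Nat.card ↥(N ⊓ M) := by
  classical
  by_contra hK
  have hp : p.Prime := Fact.out
  have hNn : N.Normal := inferInstance
  have hMn : M.Normal := inferInstance
  obtain ⟨H, hH⟩ := not_chainConnected_iff_exists_strEmb.1 hG
  obtain ⟨P, hPH⟩ := hH.exists_sylow_le
  obtain ⟨x, hxP, hxN, hox⟩ := exists_mem_sylow_normal P N hN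
  obtain ⟨y, hyP, hyM, hoy⟩ := exists_mem_sylow_normal P M hM
  have hx1 : x ≠ 1 := ne_one_of_orderOf_eq_prime hox
  have hy1 : y ≠ 1 := ne_one_of_orderOf_eq_prime hoy
  -- `P ∩ (N ⊓ M)` is trivial
  have hPK : ∀ z : G, z ∈ (P : Subgroup G) → z ∈ N ⊓ M → z = 1 := by
    intro z hzP hzK
    by_contra hz1
    have h1 : p ∣ orderOf z := dvd_orderOf_of_mem_sylow P hzP hz1
    have h2 : orderOf z ∣ Nat.card ↥(N ⊓ M) := by
      have := orderOf_dvd_natCard (⟨z, hzK⟩ : ↥(N ⊓ M))
      rwa [Subgroup.orderOf_mk] at this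
    exact hK (h1.trans h2)
  -- `x` and `y` commute
  have hcomm : x * y = y * x := by
    have hc : x * y * x⁻¹ * y⁻¹ = 1 := by
      apply hPK
      · exact mul_mem (mul_mem (mul_mem hxP hyP) (inv_mem hxP)) (inv_mem hyP)
      · refine Subgroup.mem_inf.2 ⟨?_, ?_⟩
        · have : x * (y * x⁻¹ * y⁻¹) ∈ N := mul_mem hxN (hNn.conj_mem _ (inv_mem hxN) y)
          simpa [mul_assoc] using this
        · exact mul_mem (hMn.conj_mem _ hyM x) (inv_mem hyM)
    calc x * y = (x * y * x⁻¹ * y⁻¹) * (y * x) := by group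
      _ = y * x := by rw [hc, one_mul]
  obtain ⟨A, hA⟩ : ∃ A : Subgroup G, A = Subgroup.closure {x, y} := ⟨_, rfl⟩
  have hxA : x ∈ A := by rw [hA]; exact Subgroup.subset_closure (by simp)
  have hyA : y ∈ A := by rw [hA]; exact Subgroup.subset_closure (by simp)
  have hAP : A ≤ (P : Subgroup G) := by
    rw [hA, Subgroup.closure_le]
    intro z hz
    simp only [Set.mem_insert_iff, Set.mem_singleton_iff] at hz
    rcases hz with rfl | rfl
    · exact hxP
    · exact hyP
  have hAcent : ∀ a ∈ A, ∀ b ∈ A, a * b = b * a := by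
    have h1 : A ≤ Subgroup.centralizer ({x, y} : Set G) := by
      rw [hA, Subgroup.closure_le]
      intro z hz
      rw [SetLike.mem_coe, Subgroup.mem_centralizer_iff]
      intro w hw
      simp only [Set.mem_insert_iff, Set.mem_singleton_iff] at hz hw
      rcases hz with rfl | rfl <;> rcases hw with rfl | rfl
      · rfl
      · exact hcomm.symm
      · exact hcomm
      · rfl
    have h2 : A ≤ Subgroup.centralizer (A : Set G) := by
      conv_lhs => rw [hA]
      rw [Subgroup.closure_le]
      intro z hz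
      rw [SetLike.mem_coe, Subgroup.mem_centralizer_iff]
      intro a ha
      exact (Subgroup.mem_centralizer_iff.1 (h1 ha) z hz).symm
    intro a ha b hb
    exact Subgroup.mem_centralizer_iff.1 (h2 hb) a ha
  have hAc : IsMulCommutative A := ⟨⟨fun a b => Subtype.ext (hAcent a a.2 b b.2)⟩⟩
  have hAnc : ¬ IsCyclic A := by
    intro hcyc
    have hox' : orderOf (⟨x, hxA⟩ : A) = p := by rw [Subgroup.orderOf_mk]; exact hox
    have hoy' : orderOf (⟨y, hyA⟩ : A) = p := by rw [Subgroup.orderOf_mk]; exact hoy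
    have hmem := mem_zpowers_of_isCyclic (⟨x, hxA⟩ : A) ⟨y, hyA⟩ hox' hoy'
    obtain ⟨k, hk⟩ := Subgroup.mem_zpowers_iff.1 hmem
    have hk' : x ^ k = y := by
      have := congrArg Subtype.val hk
      simpa using this
    have hyN : y ∈ N := by rw [← hk']; exact N.zpow_mem hxN k
    exact hy1 (hPK y hyP (Subgroup.mem_inf.2 ⟨hyN, hyM⟩))
  have hcop : (Nat.card A).Coprime (Nat.card ↥(N ⊓ M)) := by
    obtain ⟨n, hn⟩ := IsPGroup.iff_card.1 (P.isPGroup'.to_le hAP)
    rw [hn]
    exact Nat.Coprime.pow_left n ((Nat.Prime.coprime_iff_not_dvd hp).2 hK)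
  have hAK : A ≤ Subgroup.normalizer ((N ⊓ M : Subgroup G) : Set G) := by
    rw [Subgroup.normalizer_eq_top]; exact le_top
  have hgen := Cfsg.Agent.S0058.result A (N ⊓ M) hAnc hAK hcop
  have hKH : N ⊓ M ≤ H := by
    rw [← hgen]
    refine iSup₂_le ?_
    rintro a ⟨haA, ha1⟩
    intro g hg
    have hgc : g ∈ Subgroup.centralizer ({a} : Set G) := (Subgroup.mem_inf.1 hg).2
    have hag : a * g = g * a := Subgroup.mem_centralizer_iff.1 hgc a rfl
    have haP : a ∈ (P : Subgroup G) := hAP haA
    refine hH.mem_of_elt (hPH haP) ?_ (dvd_orderOf_of_mem_sylow P haP ha1)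
    have : g⁻¹ * a * g = a := by rw [mul_assoc, hag, ← mul_assoc, inv_mul_cancel, one_mul]
    rw [this]; exact hPH haP
  have hNH : N ≤ H := by
    intro n hn
    have hz : n * y * n⁻¹ ∈ H := by
      have hc : n * y * n⁻¹ * y⁻¹ ∈ N ⊓ M := by
        refine Subgroup.mem_inf.2 ⟨?_, ?_⟩
        · have : n * (y * n⁻¹ * y⁻¹) ∈ N := mul_mem hn (hNn.conj_mem _ (inv_mem hn) y)
          simpa [mul_assoc] using this
        · exact mul_mem (hMn.conj_mem _ hyM n) (inv_mem hyM)
      have : n * y * n⁻¹ = (n * y * n⁻¹ * y⁻¹) * y := by group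
      rw [this]
      exact mul_mem (hKH hc) (hPH hyP)
    refine hH.mem_of_elt hz ?_ ?_
    · have : n⁻¹ * (n * y * n⁻¹) * n = y := by group
      rw [this]; exact hPH hyP
    · rw [orderOf_conj_eq, hoy]
  apply hH.1
  rw [eq_top_iff]
  intro g _
  have hz : g * x * g⁻¹ ∈ H := hNH (hNn.conj_mem _ hxN g)
  refine hH.mem_of_elt hz ?_ ?_
  · have : g⁻¹ * (g * x * g⁻¹) * g = x := by group
    rw [this]; exact hPH hxP
  · rw [orderOf_conj_eq, hox]

end Cfsg.Agent.S3058
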