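import Cfsg.Statements.S3059
import Cfsg.Agent.Lib.Helper59.SylowChain
import Cfsg.Agent.Lib.Helper81.PSolv

set_option autoImplicit false
open Cfsg

namespace Cfsg.Agent.S3059

open Cfsg.Agent.Lib.Helper59

/-- the subgroup generated by the `p'`-elements of a normal subgroup is normal -/
theorem closure_normal {G : Type*} [Group G] (p : ℕ) (N : Subgroup G) [N.Normal] :
    (Subgroup.closure {g : G | g ∈ N ∧ (orderOf g).Coprime p}).Normal := by
  constructor
  intro n hn g
  have hle : (Subgroup.closure {g : G | g ∈ N ∧ (orderOf g).Coprime p}).map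
      (MulAut.conj g).toMonoidHom ≤ Subgroup.closure {g : G | g ∈ N ∧ (orderOf g).Coprime p} := by
    rw [MonoidHom.map_closure, Subgroup.closure_le]
    rintro _ ⟨x, ⟨hxN, hxo⟩, rfl⟩
    apply Subgroup.subset_closure
    refine ⟨(inferInstance : N.Normal).conj_mem x hxN g, ?_⟩
    show (orderOf (g * x * g⁻¹)).Coprime p
    rw [orderOf_conj_eq]; exact hxo
  exact hle (Subgroup.mem_map.2 ⟨n, hn, rfl⟩)

theorem relIndex_closure_pow {G : Type*} [Group G] [Finite G] (p : ℕ) [Fact p.Prime]
    (N : Subgroup G) [N.Normal] :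
    ∃ k : ℕ, (Subgroup.closure {g : G | g ∈ N ∧ (orderOf g).Coprime p}).relIndex N = p ^ k := by
  haveI hRn : (Subgroup.closure {g : G | g ∈ N ∧ (orderOf g).Coprime p}).Normal :=
    closure_normal p N
  have hpg : IsPGroup p
      (↥N ⧸ (Subgroup.closure {g : G | g ∈ N ∧ (orderOf g).Coprime p}).subgroupOf N) := by
    intro x
    induction x using QuotientGroup.induction_on with
    | H n =>
      have hpos : orderOf (n : G) ≠ 0 := (orderOf_pos (n : G)).ne'
      obtain ⟨a, m, hm, hmul⟩ :=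
        Nat.exists_eq_pow_mul_and_not_dvd hpos p (Fact.out : p.Prime).ne_one
      refine ⟨a, ?_⟩
      have hmem : (n : G) ^ (p ^ a) ∈
          Subgroup.closure {g : G | g ∈ N ∧ (orderOf g).Coprime p} := by
        apply Subgroup.subset_closure
        refine ⟨N.pow_mem n.2 _, ?_⟩
        have h1 : ((n : G) ^ (p ^ a)) ^ m = 1 := by
          rw [← pow_mul, ← hmul]; exact pow_orderOf_eq_one _
        have h2 : orderOf ((n : G) ^ (p ^ a)) ∣ m := orderOf_dvd_of_pow_eq_one h1
        have h3 : m.Coprime p :=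
          ((Nat.Prime.coprime_iff_not_dvd (Fact.out : p.Prime)).2 hm).symm
        exact Nat.Coprime.coprime_dvd_left h2 h3
      have h4 : (QuotientGroup.mk n :
          ↥N ⧸ (Subgroup.closure {g : G | g ∈ N ∧ (orderOf g).Coprime p}).subgroupOf N) ^ (p ^ a)
          = QuotientGroup.mk (n ^ (p ^ a)) := rfl
      rw [h4, QuotientGroup.eq_one_iff]
      exact Subgroup.mem_subgroupOf.2 hmem
  obtain ⟨k, hk⟩ := IsPGroup.iff_card.1 hpg
  exact ⟨k, hk⟩

/-- Let p be a prime and H a strongly p-embedded subgroup of the finite group G in the classical sense: H is proper, p divides the order of H, and H ∩ gHg⁻¹ has order prime to p for every g outside H. Then for every normal subgroup N of G of order divisible by p, G = H · O^p(N), where O^p(N) is the subgroup generated by the elements of N of order prime to p. -/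
theorem result {G : Type*} [Group G] [Finite G]
    (p : ℕ) [Fact p.Prime] (H : Subgroup G) (hH : H ≠ ⊤) (hpH : p ∣ Nat.card H)
    (hse : ∀ g : G, g ∉ H → ¬ p ∣ Nat.card ↥(H ⊓ H.map (MulAut.conj g).toMonoidHom))
    (N : Subgroup G) [N.Normal] (hN : p ∣ Nat.card N) :
    H ⊔ Subgroup.closure {g : G | g ∈ N ∧ (orderOf g).Coprime p} = ⊤ := by
  have hSE : StrEmb p H := ⟨hH, hpH, hse⟩
  obtain ⟨P, hP⟩ := hSE.exists_sylow_le
  have hQp : IsPGroup p ↥((P : Subgroup G) ⊓ N) := P.isPGroup'.to_le inf_le_left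
  have hidx : ¬ p ∣ ((P : Subgroup G) ⊓ N).relIndex N := by
    rw [Subgroup.inf_relIndex_right,
      ← Cfsg.Agent.Lib.Helper81.relIndex_sup_of_normal (P : Subgroup G) N]
    intro hdvd
    have h1 : (P : Subgroup G).relIndex ((P : Subgroup G) ⊔ N) ∣ (P : Subgroup G).index :=
      Dvd.intro _ (Subgroup.relIndex_mul_index le_sup_left)
    exact P.not_dvd_index (hdvd.trans h1)
  have hQN : IsPGroup p ↥(((P : Subgroup G) ⊓ N).subgroupOf N) := hQp.comap_subtype
  have hfrat := Sylow.normalizer_sup_eq_top (hQN.toSylow hidx)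
  have hmap : (((hQN.toSylow hidx : Sylow p ↥N) : Subgroup ↥N).map N.subtype)
      = (P : Subgroup G) ⊓ N := by
    show (((P : Subgroup G) ⊓ N).subgroupOf N).map N.subtype = (P : Subgroup G) ⊓ N
    rw [Subgroup.subgroupOf_map_subtype]
    exact inf_eq_left.2 inf_le_right
  rw [hmap] at hfrat
  have hQne : (P : Subgroup G) ⊓ N ≠ ⊥ := by
    obtain ⟨x, hxP, hxN, hxo⟩ := exists_mem_sylow_normal P N hN
    intro hbot
    have hx : x ∈ (P : Subgroup G) ⊓ N := Subgroup.mem_inf.2 ⟨hxP, hxN⟩
    rw [hbot, Subgroup.mem_bot] at hx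
    exact ne_one_of_orderOf_eq_prime hxo hx
  have hNQ : Subgroup.normalizer (((P : Subgroup G) ⊓ N : Subgroup G) : Set G) ≤ H :=
    hSE.normalizer_le (inf_le_left.trans hP) hQp hQne
  have hNL : N ≤ ((P : Subgroup G) ⊓ N) ⊔
      Subgroup.closure {g : G | g ∈ N ∧ (orderOf g).Coprime p} := by
    rw [← Subgroup.relIndex_eq_one]
    obtain ⟨k, hk⟩ := relIndex_closure_pow p N
    have h1 := Subgroup.relIndex_dvd_of_le_left N
      (le_sup_left : (P : Subgroup G) ⊓ N ≤ ((P : Subgroup G) ⊓ N) ⊔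
        Subgroup.closure {g : G | g ∈ N ∧ (orderOf g).Coprime p})
    have h2 := Subgroup.relIndex_dvd_of_le_left N
      (le_sup_right : Subgroup.closure {g : G | g ∈ N ∧ (orderOf g).Coprime p} ≤
        ((P : Subgroup G) ⊓ N) ⊔ Subgroup.closure {g : G | g ∈ N ∧ (orderOf g).Coprime p})
    rw [hk] at h2
    obtain ⟨j, -, hj2⟩ := (Nat.dvd_prime_pow (Fact.out : p.Prime)).1 h2
    rcases Nat.eq_zero_or_pos j with h0 | hpos
    · rw [hj2, h0, pow_zero]
    · exfalso
      apply hidx
      have h3 : p ∣ (((P : Subgroup G) ⊓ N) ⊔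
          Subgroup.closure {g : G | g ∈ N ∧ (orderOf g).Coprime p}).relIndex N := by
        rw [hj2]; exact dvd_pow_self p hpos.ne'
      exact h3.trans h1
  rw [eq_top_iff, ← hfrat]
  apply sup_le
  · exact hNQ.trans le_sup_left
  · exact hNL.trans (sup_le_sup_right (inf_le_left.trans hP) _)

end Cfsg.Agent.S3059
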