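import Cfsg.Statements.S3060
import Cfsg.Agent.Lib.Helper59.DStar
import Cfsg.Agent.Lib.Helper59.DStar2

set_option autoImplicit false
open Cfsg

namespace Cfsg.Agent.S3060

open scoped commutatorElement
open Cfsg.Agent.Lib.Helper59

theorem pCore_normal' (p : ℕ) (G : Type*) [Group G] : (Cfsg.pCore p G).Normal :=
  Subgroup.sSup_normal _ (fun _ hH => hH.1)

theorem pCore_isPGroup' (p : ℕ) (G : Type*) [Group G] : IsPGroup p (Cfsg.pCore p G) :=
  Sylow.sSup_of_normal _ (fun _ hH => hH.2) (fun _ hH => hH.1)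

/-- Transport of the family property of `D*(S)` to the ambient group. -/
theorem comm_of_dStarOf {G : Type*} [Group G] [Finite G] {p : ℕ} [Fact p.Prime] (S : Sylow p G)
    (s : G) (hs : s ∈ (S : Subgroup G))
    (h1 : ∀ a ∈ Cfsg.dStarOf (S : Subgroup G), ⁅a, s⁆ * s = s * ⁅a, s⁆)
    (h2 : ∀ a ∈ Cfsg.dStarOf (S : Subgroup G), ∀ b ∈ Cfsg.dStarOf (S : Subgroup G),
      ⁅a, s⁆ * b = b * ⁅a, s⁆) :
    ∀ a ∈ Cfsg.dStarOf (S : Subgroup G), a * s = s * a := by
  have hnil : Group.IsNilpotent (S : Subgroup G) := S.isPGroup'.isNilpotent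
  have hmem : Cfsg.dStar (S : Subgroup G) ∈ Cfsg.dStarFamily (S : Subgroup G) := dStar_mem_family
  have key := comm_of_family (Cfsg.dStar (S : Subgroup G)) hmem ⟨s, hs⟩ ?_ ?_
  · intro a ha
    obtain ⟨a', ha', rfl⟩ := Subgroup.mem_map.1 ha
    have := key a' ha'
    exact congrArg Subtype.val this
  · intro a' ha'
    apply Subtype.ext
    have := h1 (a' : G) (Subgroup.mem_map_of_mem _ ha')
    simpa [commutatorElement_def] using this
  · intro a' ha' b' hb'
    apply Subtype.ext
    have := h2 (a' : G) (Subgroup.mem_map_of_mem _ ha') (b' : G) (Subgroup.mem_map_of_mem _ hb')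
    simpa [commutatorElement_def] using this

/-- The D*-Theorem. For a finite p-group S let D*(S) be the subgroup generated by the abelian subgroups A of S such that every x ∈ S with ⟨A, x⟩ of nilpotency class at most two centralizes A. Let p be an odd prime and H a finite p-stable group with Sylow p-subgroup S. Here H is p-stable in the following sense: the largest normal p-subgroup O_p(H) contains its centralizer in H, and for every normal p-subgroup P of H, every element acting quadratically on P has image in O_p(H/C_H(P)). Then D*(S) is a normal subgroup of H. -/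
theorem result {G : Type*} [Group G] [Finite G] {p : ℕ} [Fact p.Prime] (hp : p ≠ 2)
    (hc : Subgroup.centralizer (Cfsg.pCore p G : Set G) ≤ Cfsg.pCore p G)
    (hst : ∀ (P : Subgroup G) [P.Normal], IsPGroup p P → Cfsg.IsPStableOn p P) (S : Sylow p G) :
    (Cfsg.dStarOf (S : Subgroup G)).Normal := by
  have hQn : (Cfsg.pCore p G).Normal := pCore_normal' p G
  have hQp : IsPGroup p (Cfsg.pCore p G) := pCore_isPGroup' p G
  have hQS : Cfsg.pCore p G ≤ (S : Subgroup G) := hQp.le_sylow_of_normal S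
  have hnil : Group.IsNilpotent (S : Subgroup G) := S.isPGroup'.isNilpotent
  have hD₀mem : Cfsg.dStar (S : Subgroup G) ∈ Cfsg.dStarFamily (S : Subgroup G) := dStar_mem_family
  have hD₀n : (Cfsg.dStar (S : Subgroup G)).Normal := dStar_normal _
  set D := Cfsg.dStarOf (S : Subgroup G) with hD
  have hDS : D ≤ (S : Subgroup G) := Subgroup.map_subtype_le _
  have hDcomm : ∀ a ∈ D, ∀ b ∈ D, a * b = b * a := by
    intro a ha b hb
    obtain ⟨a', ha', rfl⟩ := Subgroup.mem_map.1 ha
    obtain ⟨b', hb', rfl⟩ := Subgroup.mem_map.1 hb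
    have := dStar_comm a' ha' b' hb'
    exact congrArg Subtype.val this
  have hSD : ∀ s ∈ (S : Subgroup G), ∀ d ∈ D, s * d * s⁻¹ ∈ D := by
    intro s hs d hd
    obtain ⟨d', hd', rfl⟩ := Subgroup.mem_map.1 hd
    have := hD₀n.conj_mem d' hd' ⟨s, hs⟩
    exact Subgroup.mem_map.2 ⟨_, this, rfl⟩
  -- Step 1: D ≤ O_p(G)
  have hDQ : D ≤ Cfsg.pCore p G := by
    intro a ha
    have h1 : ⁅⁅Cfsg.pCore p G, Subgroup.zpowers a⁆, Subgroup.zpowers a⁆ = ⊥ := by
      have hzD : Subgroup.zpowers a ≤ D := Subgroup.zpowers_le.2 ha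
      have h2 : ⁅Cfsg.pCore p G, Subgroup.zpowers a⁆ ≤ D := by
        rw [Subgroup.commutator_le]
        intro q hq z hz
        have : ⁅q, z⁆ = (q * z * q⁻¹) * z⁻¹ := rfl
        rw [this]
        exact D.mul_mem (hSD q (hQS hq) z (hzD hz)) (D.inv_mem (hzD hz))
      rw [eq_bot_iff]
      refine (Subgroup.commutator_mono h2 hzD).trans ?_
      rw [Subgroup.commutator_le]
      intro x hx y hy
      rw [Subgroup.mem_bot, commutatorElement_eq_one_iff_mul_comm]
      exact hDcomm x hx y hy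
    have h3 := hst (Cfsg.pCore p G) hQp a h1
    set C := Subgroup.centralizer (Cfsg.pCore p G : Set G) with hC
    set T := (Cfsg.pCore p (G ⧸ C)).comap (QuotientGroup.mk' C) with hT
    have hTn : T.Normal := by
      have : (Cfsg.pCore p (G ⧸ C)).Normal := pCore_normal' p _
      exact Subgroup.Normal.comap this _
    have hTp : IsPGroup p T := by
      apply IsPGroup.comap_of_ker_isPGroup (pCore_isPGroup' p _)
      rw [QuotientGroup.ker_mk']
      exact hQp.to_le hc
    have hTQ : T ≤ Cfsg.pCore p G := le_sSup ⟨hTn, hTp⟩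
    exact hTQ h3
  -- Step 2: D commutes with all its conjugates
  have hstep2 : ∀ g : G, ∀ d ∈ D, ∀ a ∈ D, a * (g * d * g⁻¹) = (g * d * g⁻¹) * a := by
    intro g d hd
    have hxQ : g * d * g⁻¹ ∈ Cfsg.pCore p G := hQn.conj_mem d (hDQ hd) g
    have hxS : g * d * g⁻¹ ∈ (S : Subgroup G) := hQS hxQ
    apply comm_of_dStarOf S (g * d * g⁻¹) hxS
    · intro a ha
      -- [a, x] = g (d₁ d⁻¹) g⁻¹
      have hq : g⁻¹ * a * g ∈ (S : Subgroup G) := by
        have := hQn.conj_mem a (hDQ ha) g⁻¹
        rw [inv_inv] at this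
        exact hQS this
      have hd₁ : (g⁻¹ * a * g) * d * (g⁻¹ * a * g)⁻¹ ∈ D := hSD _ hq d hd
      have e1 : ⁅a, g * d * g⁻¹⁆ = g * (((g⁻¹ * a * g) * d * (g⁻¹ * a * g)⁻¹) * d⁻¹) * g⁻¹ := by
        rw [commutatorElement_def]; group
      have e2 := hDcomm _ (D.mul_mem hd₁ (D.inv_mem hd)) d hd
      rw [e1]
      calc g * (((g⁻¹ * a * g) * d * (g⁻¹ * a * g)⁻¹) * d⁻¹) * g⁻¹ * (g * d * g⁻¹)
          = g * ((((g⁻¹ * a * g) * d * (g⁻¹ * a * g)⁻¹) * d⁻¹) * d) * g⁻¹ := by group
        _ = g * (d * (((g⁻¹ * a * g) * d * (g⁻¹ * a * g)⁻¹) * d⁻¹)) * g⁻¹ := by rw [e2]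
        _ = g * d * g⁻¹ * (g * (((g⁻¹ * a * g) * d * (g⁻¹ * a * g)⁻¹) * d⁻¹) * g⁻¹) := by group
    · intro a ha b hb
      have hc1 : ⁅a, g * d * g⁻¹⁆ ∈ D := by
        have : ⁅a, g * d * g⁻¹⁆ = a * ((g * d * g⁻¹) * a⁻¹ * (g * d * g⁻¹)⁻¹) := by
          rw [commutatorElement_def]; group
        rw [this]
        exact D.mul_mem ha (hSD _ hxS _ (D.inv_mem ha))
      exact hDcomm _ hc1 b hb
  -- Step 3: the normal closure N of D
  set N := Subgroup.normalClosure (D : Set G) with hN
  have hNn : N.Normal := Subgroup.normalClosure_normal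
  have hDN : D ≤ N := Subgroup.le_normalClosure
  have hNQ : N ≤ Cfsg.pCore p G := Subgroup.normalClosure_le_normal hDQ
  have hNS : N ≤ (S : Subgroup G) := hNQ.trans hQS
  have hNp : IsPGroup p N := hQp.to_le hNQ
  have hNc : IsMulCommutative N := by
    apply Subgroup.isMulCommutative_closure
    intro x hx y hy
    obtain ⟨d₁, hd₁, hc₁⟩ := Group.mem_conjugatesOfSet_iff.1 hx
    obtain ⟨d₂, hd₂, hc₂⟩ := Group.mem_conjugatesOfSet_iff.1 hy
    obtain ⟨g₁, rfl⟩ := isConj_iff.1 hc₁
    obtain ⟨g₂, rfl⟩ := isConj_iff.1 hc₂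
    have := hstep2 (g₁⁻¹ * g₂) d₂ hd₂ d₁ hd₁
    calc g₁ * d₁ * g₁⁻¹ * (g₂ * d₂ * g₂⁻¹)
        = g₁ * (d₁ * ((g₁⁻¹ * g₂) * d₂ * (g₁⁻¹ * g₂)⁻¹)) * g₁⁻¹ := by group
      _ = g₁ * (((g₁⁻¹ * g₂) * d₂ * (g₁⁻¹ * g₂)⁻¹) * d₁) * g₁⁻¹ := by rw [this]
      _ = g₂ * d₂ * g₂⁻¹ * (g₁ * d₁ * g₁⁻¹) := by group
  have hNcomm : ∀ a ∈ N, ∀ b ∈ N, a * b = b * a := by
    intro a ha b hb
    exact congrArg Subtype.val (hNc.is_comm.comm (⟨a, ha⟩ : N) ⟨b, hb⟩)
  -- N.subgroupOf S is in the family
  have hN₀ : N.subgroupOf (S : Subgroup G) ∈ Cfsg.dStarFamily (S : Subgroup G) := by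
    refine ⟨⟨⟨?_⟩⟩, ?_⟩
    · intro a b
      apply Subtype.ext
      apply Subtype.ext
      exact hNcomm _ (Subgroup.mem_subgroupOf.1 a.2) _ (Subgroup.mem_subgroupOf.1 b.2)
    · intro x' hx' n' hn'
      set x : G := (x' : G) with hx
      have hxS : x ∈ (S : Subgroup G) := x'.2
      -- quadratic action of x on N
      have hquad : ⁅⁅N, Subgroup.zpowers x⁆, Subgroup.zpowers x⁆ = ⊥ := by
        have h1 : ⁅⁅N.subgroupOf (S : Subgroup G), Subgroup.zpowers x'⁆, Subgroup.zpowers x'⁆ = ⊥ := by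
          rw [eq_bot_iff, ← hx']
          exact Subgroup.commutator_mono (Subgroup.commutator_mono le_sup_left le_sup_right)
            le_sup_right
        have h2 := congrArg (Subgroup.map (S : Subgroup G).subtype) h1
        rw [Subgroup.map_commutator, Subgroup.map_commutator, Subgroup.subgroupOf_map_subtype,
          MonoidHom.map_zpowers, Subgroup.map_bot, inf_eq_left.2 hNS] at h2
        exact h2
      have hq : ∀ n ∈ N, ⁅n, x⁆ * x = x * ⁅n, x⁆ := by
        intro n hn
        have h1 : ⁅⁅n, x⁆, x⁆ ∈ ⁅⁅N, Subgroup.zpowers x⁆, Subgroup.zpowers x⁆ :=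
          Subgroup.commutator_mem_commutator
            (Subgroup.commutator_mem_commutator hn (Subgroup.mem_zpowers x))
            (Subgroup.mem_zpowers x)
        rw [hquad, Subgroup.mem_bot] at h1
        exact commutatorElement_eq_one_iff_mul_comm.1 h1
      have hstN := @hst N hNn hNp x hquad
      set C := Subgroup.centralizer (N : Set G) with hC
      have hCn : C.Normal := Subgroup.normal_centralizer
      have hcoreS : Cfsg.pCore p (G ⧸ C) ≤ (S : Subgroup G).map (QuotientGroup.mk' C) := by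
        have : (Cfsg.pCore p (G ⧸ C)).Normal := pCore_normal' p _
        have h1 := (pCore_isPGroup' p (G ⧸ C)).le_sylow_of_normal
          (S.mapSurjective (QuotientGroup.mk'_surjective C))
        exact h1
      -- every conjugate of x centralizes D
      have hconj : ∀ h : G, ∀ a ∈ D, a * (h⁻¹ * x * h) = (h⁻¹ * x * h) * a := by
        intro h
        set y := h⁻¹ * x * h with hy
        have hycore : (QuotientGroup.mk' C) y ∈ Cfsg.pCore p (G ⧸ C) := by
          have hn' : (Cfsg.pCore p (G ⧸ C)).Normal := pCore_normal' p _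
          have := hn'.conj_mem _ hstN ((QuotientGroup.mk' C) h⁻¹)
          rw [hy]
          simpa using this
        obtain ⟨s, hsS, hsy⟩ := Subgroup.mem_map.1 (hcoreS hycore)
        have hcC : s⁻¹ * y ∈ C := by
          have : (QuotientGroup.mk s : G ⧸ C) = QuotientGroup.mk y := hsy
          exact QuotientGroup.eq.1 this
        -- conjugation by y and by s agree on N
        have hact : ∀ n ∈ N, y * n * y⁻¹ = s * n * s⁻¹ := by
          intro n hn
          have h1 := Subgroup.mem_centralizer_iff.1 hcC n hn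
          -- n * (s⁻¹ * y) = (s⁻¹ * y) * n
          have h2 : y * n = s * n * s⁻¹ * y := by
            calc y * n = s * ((s⁻¹ * y) * n) := by group
              _ = s * (n * (s⁻¹ * y)) := by rw [h1]
              _ = s * n * s⁻¹ * y := by group
          rw [h2]; group
        have hqy : ∀ a ∈ N, ⁅a, y⁆ * y = y * ⁅a, y⁆ := by
          intro a ha
          have h1 := hq (h * a * h⁻¹) (hNn.conj_mem a ha h)
          have e1 : ⁅a, y⁆ = h⁻¹ * ⁅h * a * h⁻¹, x⁆ * h := by
            rw [hy, commutatorElement_def, commutatorElement_def]; group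
          rw [e1, hy]
          calc h⁻¹ * ⁅h * a * h⁻¹, x⁆ * h * (h⁻¹ * x * h)
              = h⁻¹ * (⁅h * a * h⁻¹, x⁆ * x) * h := by group
            _ = h⁻¹ * (x * ⁅h * a * h⁻¹, x⁆) * h := by rw [h1]
            _ = h⁻¹ * x * h * (h⁻¹ * ⁅h * a * h⁻¹, x⁆ * h) := by group
        have hws : ∀ a ∈ N, ⁅a, s⁆ = ⁅a, y⁆ := by
          intro a ha
          have h1 := hact a⁻¹ (N.inv_mem ha)
          rw [commutatorElement_def, commutatorElement_def]
          calc a * s * a⁻¹ * s⁻¹ = a * (s * a⁻¹ * s⁻¹) := by group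
            _ = a * (y * a⁻¹ * y⁻¹) := by rw [h1]
            _ = a * y * a⁻¹ * y⁻¹ := by group
        have hwN : ∀ a ∈ N, ⁅a, y⁆ ∈ N := by
          intro a ha
          have : ⁅a, y⁆ = a * (y * a⁻¹ * y⁻¹) := by rw [commutatorElement_def]; group
          rw [this]
          exact N.mul_mem ha (hNn.conj_mem _ (N.inv_mem ha) y)
        have hsD : ∀ a ∈ D, a * s = s * a := by
          apply comm_of_dStarOf S s hsS
          · intro a ha
            rw [hws a (hDN ha)]
            have h1 := hact _ (hwN a (hDN ha))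
            have h2 := hqy a (hDN ha)
            -- y w y⁻¹ = w
            have h3 : y * ⁅a, y⁆ * y⁻¹ = ⁅a, y⁆ := by rw [← h2]; group
            rw [h3] at h1
            -- h1 : w = s * w * s⁻¹
            calc ⁅a, y⁆ * s = (s * ⁅a, y⁆ * s⁻¹) * s := by rw [← h1]
              _ = s * ⁅a, y⁆ := by group
          · intro a ha b hb
            rw [hws a (hDN ha)]
            exact hNcomm _ (hwN a (hDN ha)) b (hDN hb)
        intro a ha
        have h1 := Subgroup.mem_centralizer_iff.1 hcC a (hDN ha)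
        have h2 := hsD a ha
        calc a * y = a * s * (s⁻¹ * y) := by group
          _ = s * a * (s⁻¹ * y) := by rw [h2]
          _ = s * (a * (s⁻¹ * y)) := by group
          _ = s * ((s⁻¹ * y) * a) := by rw [h1]
          _ = y * a := by group
      -- so x centralizes N
      have hxN : x ∈ Subgroup.centralizer (N : Set G) := by
        rw [hN, Subgroup.normalClosure, Subgroup.centralizer_closure, Subgroup.mem_centralizer_iff]
        intro z hz
        obtain ⟨d, hd, hcz⟩ := Group.mem_conjugatesOfSet_iff.1 hz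
        obtain ⟨g, rfl⟩ := isConj_iff.1 hcz
        have := hconj g d hd
        calc g * d * g⁻¹ * x = g * (d * (g⁻¹ * x * g)) * g⁻¹ := by group
          _ = g * ((g⁻¹ * x * g) * d) * g⁻¹ := by rw [this]
          _ = x * (g * d * g⁻¹) := by group
      have hn'N : (n' : G) ∈ N := Subgroup.mem_subgroupOf.1 hn'
      have := Subgroup.mem_centralizer_iff.1 hxN (n' : G) hn'N
      apply Subtype.ext
      exact this
  have hN₀le : N.subgroupOf (S : Subgroup G) ≤ Cfsg.dStar (S : Subgroup G) := le_sSup hN₀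
  have hND : N ≤ D := by
    intro n hn
    have : (⟨n, hNS hn⟩ : (S : Subgroup G)) ∈ N.subgroupOf (S : Subgroup G) :=
      Subgroup.mem_subgroupOf.2 hn
    exact Subgroup.mem_map.2 ⟨_, hN₀le this, rfl⟩
  have : D = N := le_antisymm hDN hND
  rw [this]
  exact hNn

end Cfsg.Agent.S3060
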