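import Cfsg.Statements.S3062
import Cfsg.Agent.Lib.Helper59.DStar
import Cfsg.Agent.Lib.Helper59.DStar2
import Cfsg.Agent.Lib.Helper59.Replace

set_option autoImplicit false
open Cfsg

namespace Cfsg.Agent.S3062

open scoped commutatorElement
open Cfsg.Agent.Lib.Helper59

theorem conj_eq_comm_mul {G : Type*} [Group G] (g a : G) : g * a * g⁻¹ = ⁅g, a⁆ * a := by
  rw [commutatorElement_def]; group

theorem inv_conj_eq_comm_mul {G : Type*} [Group G] (g a : G) : g⁻¹ * a * g = ⁅g⁻¹, a⁆ * a := by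
  rw [commutatorElement_def]; group

theorem comm_inv_left_of_comm {G : Type*} [Group G] (b a : G)
    (h : b * ⁅b, a⁆ = ⁅b, a⁆ * b) : ⁅b⁻¹, a⁆ = ⁅b, a⁆⁻¹ := by
  have h' : b * ⁅b, a⁆⁻¹ = ⁅b, a⁆⁻¹ * b := by
    have : Commute b ⁅b, a⁆ := h
    exact this.inv_right.eq
  have e1 : ⁅b⁻¹, a⁆ = b⁻¹ * (⁅b, a⁆⁻¹ * b) := by
    rw [commutatorElement_def, commutatorElement_def]; group
  rw [e1, ← h']; group

/-- `D*(S)` normalizes, hence lies in, every abelian subgroup of largest order. -/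
theorem dStar_le_maxAbelian {S : Type*} [Group S] [Finite S] [Group.IsNilpotent S] :
    ∀ A ∈ Cfsg.maxAbelianSubgroups S, Cfsg.dStar S ≤ A := by
  have hDmem : Cfsg.dStar S ∈ Cfsg.dStarFamily S := dStar_mem_family
  have hDn : (Cfsg.dStar S).Normal := dStar_normal S
  have hDc : ∀ a ∈ Cfsg.dStar S, ∀ b ∈ Cfsg.dStar S, a * b = b * a := dStar_comm
  -- once D normalizes A, it lies in A
  have hfin : ∀ A ∈ Cfsg.maxAbelianSubgroups S,
      Cfsg.dStar S ≤ Subgroup.normalizer (A : Set S) → Cfsg.dStar S ≤ A := by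
    intro A hA hn
    have h1 := family_centralizes (Cfsg.dStar S) hDmem (Nat.card A) A le_rfl hA.1 hn
    exact le_of_comm_maxAbelian A (Cfsg.dStar S) hA hDmem.1 h1
  suffices hmain : ∀ A ∈ Cfsg.maxAbelianSubgroups S,
      Cfsg.dStar S ≤ Subgroup.normalizer (A : Set S) from fun A hA => hfin A hA (hmain A hA)
  by_contra hcon
  push Not at hcon
  have hfinset : ({A : Subgroup S | A ∈ Cfsg.maxAbelianSubgroups S ∧
      ¬ Cfsg.dStar S ≤ Subgroup.normalizer (A : Set S)} : Set (Subgroup S)).Finite := Set.toFinite _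
  have hne : ({A : Subgroup S | A ∈ Cfsg.maxAbelianSubgroups S ∧
      ¬ Cfsg.dStar S ≤ Subgroup.normalizer (A : Set S)} : Set (Subgroup S)).Nonempty := by
    obtain ⟨A, hA, hAn⟩ := hcon
    exact ⟨A, hA, hAn⟩
  obtain ⟨A, ⟨hAmax, hAn⟩, hbest⟩ :=
    Set.exists_max_image _ (fun A : Subgroup S => Nat.card (A ⊓ Cfsg.dStar S : Subgroup S)) hfinset hne
  have hne' : ¬ Cfsg.dStar S ≤ Subgroup.normalizer (A : Set S) ⊓ Cfsg.dStar S :=
    fun h => hAn (h.trans inf_le_left)
  obtain ⟨b, hbD, hbM, hb⟩ := exists_comm_mem (Cfsg.dStar S)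
    (Subgroup.normalizer (A : Set S) ⊓ Cfsg.dStar S) A
    (Subgroup.commutator_le_left (Cfsg.dStar S) A) hne'
  obtain ⟨A', hA'max, -, hinf, hcomm, hA'N⟩ :=
    replacement A (Cfsg.dStar S) hAmax hDmem.1 b (fun a ha => (hb a ha).2)
      (fun a ha => by
        rw [conj_eq_comm_mul]
        exact Subgroup.mul_mem _ (hb a ha).1 (Subgroup.le_normalizer ha))
      (fun a ha => by
        rw [inv_conj_eq_comm_mul, comm_inv_left_of_comm b a (hDc b hbD _ (hb a ha).2)]
        exact Subgroup.mul_mem _ (Subgroup.inv_mem _ (hb a ha).1) (Subgroup.le_normalizer ha))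
  by_cases hcase : Cfsg.dStar S ≤ Subgroup.normalizer (A' : Set S)
  · exact hAn ((hfin A' hA'max hcase).trans hA'N)
  · have hcard := hbest A' ⟨hA'max, hcase⟩
    have hle2 : A ⊓ Cfsg.dStar S ≤ A' ⊓ Cfsg.dStar S := le_inf hinf inf_le_right
    have heq : A ⊓ Cfsg.dStar S = A' ⊓ Cfsg.dStar S := Subgroup.eq_of_le_of_card_ge hle2 hcard
    apply hbM
    refine ⟨?_, hbD⟩
    apply conj_mem_imp_mem_normalizer
    intro a ha
    rw [conj_eq_comm_mul]
    have h5 : ⁅b, a⁆ ∈ A' ⊓ Cfsg.dStar S := ⟨hcomm a ha, (hb a ha).2⟩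
    rw [← heq] at h5
    exact A.mul_mem h5.1 ha

/-- Let S be a finite p-group, J(S) the subgroup generated by the abelian subgroups of S of largest order and Z(J(S)) its centre. Then Z(S) ≤ D*(S) ≤ Z(J(S)), and every maximal normal abelian subgroup of S contains D*(S). -/
theorem result {S : Type*} [Group S] [Finite S] {p : ℕ} [Fact p.Prime]
    (hS : IsPGroup p S) :
    Subgroup.center S ≤ Cfsg.dStar S ∧
    Cfsg.dStar S ≤ Cfsg.thompsonSubgroupA S ⊓ Subgroup.centralizer (Cfsg.thompsonSubgroupA S : Set S) ∧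
    ∀ A : Subgroup S, A.Normal → IsMulCommutative A →
      (∀ B : Subgroup S, B.Normal → IsMulCommutative B → A ≤ B → B = A) → Cfsg.dStar S ≤ A := by
  have hnil : Group.IsNilpotent S := hS.isNilpotent
  refine ⟨center_le_dStar, ?_, ?_⟩
  · have hall := dStar_le_maxAbelian (S := S)
    apply le_inf
    · obtain ⟨A, hA⟩ := exists_maxAbelian S
      exact (hall A hA).trans (le_sSup hA)
    · intro d hd
      rw [Subgroup.mem_centralizer_iff]
      have hle : Cfsg.thompsonSubgroupA S ≤ Subgroup.centralizer ({d} : Set S) := by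
        apply sSup_le
        intro A hA a ha
        rw [Subgroup.mem_centralizer_iff]
        intro y hy
        rw [Set.mem_singleton_iff] at hy; subst hy
        exact mul_comm_of_isMulCommutative hA.1 y (hall A hA hd) a ha
      intro h hh
      exact (Subgroup.mem_centralizer_iff.1 (hle hh) d rfl).symm
  · intro A hAn hAc hmax
    exact dStar_le_of_maximal A hAn hAc hmax

end Cfsg.Agent.S3062
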