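import Cfsg.Statements.S3063
import Cfsg.Agent.Lib.Helper59.Replace

set_option autoImplicit false
open Cfsg

namespace Cfsg.Agent.S3063

open scoped commutatorElement
open Cfsg.Agent.Lib.Helper59

theorem conj_eq_comm_mul {G : Type*} [Group G] (g a : G) : g * a * g⁻¹ = ⁅g, a⁆ * a := by
  rw [commutatorElement_def]; group

theorem inv_conj_eq_comm_mul {G : Type*} [Group G] (g a : G) : g⁻¹ * a * g = ⁅g⁻¹, a⁆ * a := by
  rw [commutatorElement_def]; group

theorem comm_inv_left_of_comm {G : Type*} [Group G] (b a : G)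
    (h : b * ⁅b, a⁆ = ⁅b, a⁆ * b) : ⁅b⁻¹, a⁆ = ⁅b, a⁆⁻¹ := by
  have h' : b * ⁅b, a⁆⁻¹ = ⁅b, a⁆⁻¹ * b := by
    have : Commute b ⁅b, a⁆ := h
    exact this.inv_right.eq
  have e1 : ⁅b⁻¹, a⁆ = b⁻¹ * (⁅b, a⁆⁻¹ * b) := by
    rw [commutatorElement_def, commutatorElement_def]; group
  rw [e1, ← h']; group

/-- A weak replacement Theorem for metabelian p-groups: let S be a finite p-group whose derived subgroup is abelian and A an abelian subgroup of S of largest possible order. Then the normal closure of A in S contains an abelian subgroup B of the same order as A that is normal in S. -/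
theorem result {S : Type*} [Group S] [Finite S] {p : ℕ} [Fact p.Prime]
    (hS : IsPGroup p S) (hmeta : IsMulCommutative ↥(commutator S))
    (A : Subgroup S) (hA : A ∈ Cfsg.maxAbelianSubgroups S) :
    ∃ B ∈ Cfsg.maxAbelianSubgroups S, B.Normal ∧ B ≤ Subgroup.normalClosure (A : Set S) := by
  have hnil : Group.IsNilpotent S := hS.isNilpotent
  set N := Subgroup.normalClosure (A : Set S) with hN
  have hNn : N.Normal := Subgroup.normalClosure_normal
  set B₀ := commutator S with hB₀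
  have hB₀n : B₀.Normal := by rw [hB₀]; infer_instance
  have hB₀c := mul_comm_of_isMulCommutative hmeta
  have hcommB₀ : ∀ g a : S, ⁅g, a⁆ ∈ B₀ := by
    intro g a
    rw [hB₀, commutator_def]
    exact Subgroup.commutator_mem_commutator (Subgroup.mem_top g) (Subgroup.mem_top a)
  -- choose A' in N with |A' ∩ S'| maximal
  have hfin : ({A' : Subgroup S | A' ∈ Cfsg.maxAbelianSubgroups S ∧ A' ≤ N} : Set (Subgroup S)).Finite :=
    Set.toFinite _
  have hne : ({A' : Subgroup S | A' ∈ Cfsg.maxAbelianSubgroups S ∧ A' ≤ N} : Set (Subgroup S)).Nonempty :=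
    ⟨A, hA, Subgroup.le_normalClosure⟩
  obtain ⟨A', ⟨hA'max, hA'N⟩, hA'best⟩ :=
    Set.exists_max_image _ (fun A' : Subgroup S => Nat.card (A' ⊓ B₀ : Subgroup S)) hfin hne
  have key : ∀ g : S, (∀ a ∈ A', g * a * g⁻¹ ∈ Subgroup.normalizer (A' : Set S)) →
      (∀ a ∈ A', g⁻¹ * a * g ∈ Subgroup.normalizer (A' : Set S)) →
      g ∈ Subgroup.normalizer (A' : Set S) := by
    intro g h2 h3
    obtain ⟨A'', hA''max, hle, hinf, hcomm, -⟩ :=
      replacement A' B₀ hA'max hmeta g (fun a _ => hcommB₀ g a) h2 h3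
    have hA''N : A'' ≤ N := by
      refine hle.trans (sup_le hA'N ?_)
      intro x hx
      obtain ⟨a, ha, rfl⟩ := Subgroup.mem_map.1 hx
      exact hNn.conj_mem a (hA'N ha) g
    have hcard := hA'best A'' ⟨hA''max, hA''N⟩
    have hle2 : A' ⊓ B₀ ≤ A'' ⊓ B₀ := le_inf hinf inf_le_right
    have heq : A' ⊓ B₀ = A'' ⊓ B₀ := Subgroup.eq_of_le_of_card_ge hle2 hcard
    apply conj_mem_imp_mem_normalizer
    intro a ha
    rw [conj_eq_comm_mul]
    have h5 : ⁅g, a⁆ ∈ A'' ⊓ B₀ := ⟨hcomm a ha, hcommB₀ g a⟩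
    rw [← heq] at h5
    exact A'.mul_mem h5.1 ha
  -- Step 1: the derived subgroup normalizes A'
  have hstep1 : B₀ ≤ Subgroup.normalizer (A' : Set S) := by
    by_contra hcon
    have hne' : ¬ B₀ ≤ Subgroup.normalizer (A' : Set S) ⊓ B₀ := fun h => hcon (h.trans inf_le_left)
    obtain ⟨b, hbB, hbM, hb⟩ := exists_comm_mem B₀ (Subgroup.normalizer (A' : Set S) ⊓ B₀) A'
      (Subgroup.commutator_le_left B₀ A') hne'
    apply hbM
    refine ⟨key b ?_ ?_, hbB⟩
    · intro a ha
      rw [conj_eq_comm_mul]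
      exact Subgroup.mul_mem _ (hb a ha).1 (Subgroup.le_normalizer ha)
    · intro a ha
      rw [inv_conj_eq_comm_mul, comm_inv_left_of_comm b a (hB₀c b hbB _ (hb a ha).2)]
      exact Subgroup.mul_mem _ (Subgroup.inv_mem _ (hb a ha).1) (Subgroup.le_normalizer ha)
  -- Step 2: every element normalizes A'
  have hstep2 : ∀ g : S, g ∈ Subgroup.normalizer (A' : Set S) := by
    intro g
    apply key g
    · intro a ha
      rw [conj_eq_comm_mul]
      exact Subgroup.mul_mem _ (hstep1 (hcommB₀ g a)) (Subgroup.le_normalizer ha)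
    · intro a ha
      rw [inv_conj_eq_comm_mul]
      exact Subgroup.mul_mem _ (hstep1 (hcommB₀ g⁻¹ a)) (Subgroup.le_normalizer ha)
  refine ⟨A', hA'max, ?_, hA'N⟩
  rw [← Subgroup.normalizer_eq_top_iff, eq_top_iff]
  intro g _
  exact hstep2 g

end Cfsg.Agent.S3063
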