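import Cfsg.Statements.S3064
import Mathlib
import Cfsg.Agent.S0037

set_option autoImplicit false
open Cfsg

namespace Cfsg.Agent.S3064

universe u

open scoped Pointwise in
/-- Core induction: an isolated `p`-element centralizing every `p'`-subgroup it normalizes is
central. -/
theorem core (p : ℕ) [hp : Fact p.Prime] : ∀ (n : ℕ) (G : Type u) [Group G] [Finite G],
    Nat.card G = n → ∀ x : G, (∃ k : ℕ, x ^ (p ^ k) = 1) →
    (∀ g : G, x * (g⁻¹ * x * g) = (g⁻¹ * x * g) * x → g⁻¹ * x * g = x) →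
    (∀ H : Subgroup G, (Nat.card H).Coprime p → (∀ h ∈ H, x * h * x⁻¹ ∈ H) →
      ∀ h ∈ H, x * h = h * x) →
    x ∈ Subgroup.center G := by
  intro n
  induction n using Nat.strong_induction_on with
  | _ n ih =>
  intro G _ _ hn x hxp hU hb
  by_contra hxZ
  obtain ⟨M, hMdef⟩ : ∃ M : Subgroup G, M = Subgroup.centralizer {x} := ⟨_, rfl⟩
  have hMmem : ∀ g : G, g ∈ M ↔ x * g = g * x := by
    intro g
    rw [hMdef, Subgroup.mem_centralizer_iff]
    constructor
    · intro h; exact h x rfl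
    · intro h y hy
      rw [Set.mem_singleton_iff] at hy
      rw [hy]; exact h
  have hxM : x ∈ M := (hMmem x).mpr rfl
  have hZM : Subgroup.center G ≤ M := by
    intro z hz
    rw [hMmem]
    exact (Subgroup.mem_center_iff.mp hz x)
  have hMtop : M ≠ ⊤ := by
    intro h
    apply hxZ
    rw [Subgroup.mem_center_iff]
    intro g
    have : g ∈ M := by rw [h]; trivial
    exact ((hMmem g).mp this).symm
  -- proper subgroups containing `x` lie in `M`
  have hsub : ∀ T : Subgroup G, T ≠ ⊤ → x ∈ T → T ≤ M := by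
    intro T hT hxT
    have hlt : Nat.card T < n := by
      rw [← hn]
      exact lt_of_le_of_ne (Subgroup.card_le_card_group T)
        (fun h => hT ((Subgroup.card_eq_iff_eq_top T).mp h))
    have key : (⟨x, hxT⟩ : T) ∈ Subgroup.center T := by
      apply ih _ hlt T rfl ⟨x, hxT⟩
      · obtain ⟨k, hk⟩ := hxp
        exact ⟨k, Subtype.ext (by simpa using hk)⟩
      · intro g hg
        apply Subtype.ext
        have h1 := congrArg Subtype.val hg
        exact hU (g : G) (by simpa using h1)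
      · intro L hL hLx l hl
        apply Subtype.ext
        have h1 : ∀ h ∈ L.map T.subtype, x * h = h * x := by
          apply hb (L.map T.subtype)
          · rwa [Subgroup.card_map_of_injective T.subtype_injective]
          · rintro _ ⟨l', hl', rfl⟩
            exact ⟨⟨x, hxT⟩ * l' * ⟨x, hxT⟩⁻¹, hLx l' hl', rfl⟩
        exact h1 (l : G) ⟨l, hl, rfl⟩
    intro t ht
    rw [hMmem]
    have h2 := Subgroup.mem_center_iff.mp key ⟨t, ht⟩
    exact (congrArg Subtype.val h2).symm
  have hgen : ∀ g : G, g ∉ M → Subgroup.closure {x, g⁻¹ * x * g} = ⊤ := by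
    intro g hg
    by_contra hT
    have h1 := hsub _ hT (Subgroup.subset_closure (by simp))
    have h2 : g⁻¹ * x * g ∈ M := h1 (Subgroup.subset_closure (by simp))
    have h3 := hU g ((hMmem _).mp h2)
    apply hg
    rw [hMmem]
    calc x * g = g * (g⁻¹ * x * g) := by group
      _ = g * x := by rw [h3]
  have hcent : ∀ g : G, g ∉ M → ∀ y : G, y ∈ M → g⁻¹ * y * g ∈ M → y ∈ Subgroup.center G := by
    intro g hg y hy hy'
    have hg' : g⁻¹ ∉ M := fun h => hg (by simpa using inv_mem h)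
    have h1 := hgen g⁻¹ hg'
    rw [inv_inv] at h1
    have h2 : Subgroup.closure {x, g * x * g⁻¹} ≤ Subgroup.centralizer {y} := by
      rw [Subgroup.closure_le]
      intro w hw
      rw [SetLike.mem_coe, Subgroup.mem_centralizer_iff]
      intro h hh
      rw [Set.mem_singleton_iff] at hh
      subst hh
      rcases hw with rfl | hw
      · exact ((hMmem h).mp hy).symm
      · rw [Set.mem_singleton_iff] at hw
        subst hw
        have h3 := (hMmem _).mp hy'
        calc h * (g * x * g⁻¹) = g * (g⁻¹ * h * g * x) * g⁻¹ := by group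
          _ = g * (x * (g⁻¹ * h * g)) * g⁻¹ := by rw [h3]
          _ = g * x * g⁻¹ * h := by group
    rw [h1] at h2
    rw [Subgroup.mem_center_iff]
    intro w
    have h4 : w ∈ Subgroup.centralizer {y} := h2 trivial
    rw [Subgroup.mem_centralizer_iff] at h4
    exact (h4 y rfl).symm
  -- the Frobenius group `G / Z(G)`
  obtain ⟨π, hπdef⟩ : ∃ π : G →* G ⧸ Subgroup.center G, π = QuotientGroup.mk' (Subgroup.center G) :=
    ⟨_, rfl⟩
  have hπ : ∀ a b : G, π a = π b ↔ a⁻¹ * b ∈ Subgroup.center G := by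
    intro a b
    rw [hπdef]
    exact QuotientGroup.eq
  have hπ1 : ∀ a : G, π a = 1 ↔ a ∈ Subgroup.center G := by
    intro a
    rw [hπdef]
    exact QuotientGroup.eq_one_iff a
  have hπsurj : Function.Surjective π := by
    rw [hπdef]
    exact QuotientGroup.mk'_surjective _
  have hFrob : Cfsg.IsFrobeniusComplement (M.map π) := by
    refine ⟨?_, ?_, ?_⟩
    · intro hbot
      have : π x ∈ M.map π := Subgroup.mem_map_of_mem π hxM
      rw [hbot, Subgroup.mem_bot] at this
      exact hxZ ((hπ1 x).mp this)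
    · intro htop
      apply hMtop
      rw [Subgroup.eq_top_iff']
      intro g
      have : π g ∈ M.map π := by rw [htop]; trivial
      obtain ⟨m, hm, hmg⟩ := this
      have h1 : m⁻¹ * g ∈ Subgroup.center G := (hπ m g).mp hmg
      have : g = m * (m⁻¹ * g) := by group
      rw [this]
      exact mul_mem hm (hZM h1)
    · intro gb hgb
      obtain ⟨g, rfl⟩ := hπsurj gb
      have hg : g ∉ M := fun h => hgb (Subgroup.mem_map_of_mem π h)
      rw [Subgroup.eq_bot_iff_forall]
      intro yb hyb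
      obtain ⟨hy1, hy2⟩ := Subgroup.mem_inf.mp hyb
      rw [Cfsg.Agent.S0034.mem_conj_smul] at hy2
      obtain ⟨m₁, hm₁, rfl⟩ := hy1
      obtain ⟨m₂, hm₂, hm₂'⟩ := hy2
      have h1 : π m₂ = π (g⁻¹ * m₁ * g) := by
        rw [hm₂', map_mul, map_mul, map_inv]
      have h2 : m₂⁻¹ * (g⁻¹ * m₁ * g) ∈ Subgroup.center G := (hπ _ _).mp h1
      have h3 : g⁻¹ * m₁ * g ∈ M := by
        have : g⁻¹ * m₁ * g = m₂ * (m₂⁻¹ * (g⁻¹ * m₁ * g)) := by group
        rw [this]; exact mul_mem hm₂ (hZM h2)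
      exact (hπ1 m₁).mpr (hcent g hg m₁ hm₁ h3)
  obtain ⟨N, hNn, hc, hN1, hmem, hfpf⟩ := Cfsg.Agent.S0037.frob_data (M.map π) hFrob
  have hxb : π x ∈ M.map π := Subgroup.mem_map_of_mem π hxM
  have hxb1 : π x ≠ 1 := fun h => hxZ ((hπ1 x).mp h)
  have hpM : p ∣ Nat.card (M.map π) := by
    obtain ⟨k, hk⟩ := hxp
    have h1 : (π x) ^ (p ^ k) = 1 := by rw [← map_pow, hk, map_one]
    have h2 : orderOf (π x) ∣ p ^ k := orderOf_dvd_of_pow_eq_one h1
    obtain ⟨j, hj, hj'⟩ := (Nat.dvd_prime_pow hp.out).mp h2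
    have hj0 : j ≠ 0 := by
      rintro rfl
      rw [pow_zero, orderOf_eq_one_iff] at hj'
      exact hxb1 hj'
    have h3 : p ∣ orderOf (π x) := by rw [hj']; exact dvd_pow_self p hj0
    have h4 : orderOf (π x) ∣ Nat.card (M.map π) := by
      have := orderOf_dvd_natCard (⟨π x, hxb⟩ : M.map π)
      rwa [Subgroup.orderOf_mk] at this
    exact h3.trans h4
  have hpN : ¬ p ∣ Nat.card N := by
    intro hdiv
    have h1 := Cfsg.Agent.S0034.index_mod (M.map π) hFrob
    have h2 : Nat.card N = (M.map π).index := by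
      have h3 := hc.card_mul_card
      have h4 := (M.map π).card_mul_index
      have hpos : 0 < Nat.card (M.map π) := Nat.card_pos
      have h5 : Nat.card N * Nat.card (M.map π) = (M.map π).index * Nat.card (M.map π) := by
        rw [h3, ← h4, mul_comm]
      exact Nat.eq_of_mul_eq_mul_right hpos h5
    rw [← h2] at h1
    have h6 : Nat.card N ≡ 1 [MOD p] := Nat.ModEq.of_dvd hpM h1
    have h7 : Nat.card N ≡ 0 [MOD p] := (Nat.modEq_zero_iff_dvd).mpr hdiv
    have h8 : (0 : ℕ) ≡ 1 [MOD p] := h7.symm.trans h6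
    have h9 : p ∣ 1 := (Nat.modEq_zero_iff_dvd).mp h8.symm
    exact hp.out.one_lt.ne' (Nat.dvd_one.mp h9)
  -- the preimage `K` of the kernel
  obtain ⟨K, hKdef⟩ : ∃ K : Subgroup G, K = N.comap π := ⟨_, rfl⟩
  have hKmem : ∀ g : G, g ∈ K ↔ π g ∈ N := by
    intro g; rw [hKdef, Subgroup.mem_comap]
  have hKn : K.Normal := by rw [hKdef]; exact hNn.comap π
  obtain ⟨P₀⟩ : Nonempty (Sylow p K) := inferInstance
  have hP₀Z : ∀ y : K, y ∈ (P₀ : Subgroup K) → (y : G) ∈ Subgroup.center G := by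
    intro y hy
    obtain ⟨j, hj⟩ := P₀.isPGroup' ⟨y, hy⟩
    have hj' : (y : G) ^ (p ^ j) = 1 := by
      have := congrArg (fun t : (P₀ : Subgroup K) => ((t : K) : G)) hj
      simpa using this
    have h2 : (π (y : G)) ^ (p ^ j) = 1 := by rw [← map_pow, hj', map_one]
    have h3 : π (y : G) ∈ N := (hKmem _).mp y.2
    have h4 : orderOf (π (y : G)) ∣ p ^ j := orderOf_dvd_of_pow_eq_one h2
    have h5 : orderOf (π (y : G)) ∣ Nat.card N := by
      have := orderOf_dvd_natCard (⟨π (y : G), h3⟩ : N)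
      rwa [Subgroup.orderOf_mk] at this
    have hcop : Nat.Coprime (p ^ j) (Nat.card N) :=
      Nat.Coprime.pow_left j ((Nat.Prime.coprime_iff_not_dvd hp.out).mpr hpN)
    have h6 : orderOf (π (y : G)) = 1 := Nat.eq_one_of_dvd_coprimes hcop h4 h5
    exact (hπ1 _).mp (orderOf_eq_one_iff.mp h6)
  have hP₀n : (P₀ : Subgroup K).Normal := by
    constructor
    intro y hy k
    have : k * y * k⁻¹ = y := by
      apply Subtype.ext
      have hz := Subgroup.mem_center_iff.mp (hP₀Z y hy) (k : G)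
      show (k : G) * y * (k : G)⁻¹ = y
      rw [hz]; group
    rw [this]; exact hy
  obtain ⟨Q, hQ⟩ := Subgroup.exists_right_complement'_of_coprime (P₀.card_coprime_index)
  have hQcard : Nat.card Q = (P₀ : Subgroup K).index := by
    have h3 := hQ.card_mul_card
    have h4 := (P₀ : Subgroup K).card_mul_index
    have hpos : 0 < Nat.card (P₀ : Subgroup K) := Nat.card_pos
    have h5 : Nat.card (P₀ : Subgroup K) * Nat.card Q =
        Nat.card (P₀ : Subgroup K) * (P₀ : Subgroup K).index := by rw [h3, h4]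
    exact Nat.eq_of_mul_eq_mul_left hpos h5
  have hQp : (Nat.card Q).Coprime p := by
    rw [hQcard, Nat.coprime_comm]
    exact (Nat.Prime.coprime_iff_not_dvd hp.out).mpr P₀.not_dvd_index
  -- every element of `K` is a product of an element of `P₀` and an element of `Q`
  have hdecomp : ∀ k : K, ∃ a ∈ (P₀ : Subgroup K), ∃ b ∈ Q, a * b = k := by
    intro k
    obtain ⟨⟨a, b⟩, hab, -⟩ := (Subgroup.isComplement_iff_existsUnique.mp hQ) k
    exact ⟨a, a.2, b, b.2, hab⟩
  have hQpow : ∀ b ∈ Q, b ^ Nat.card Q = 1 := by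
    intro b hb'
    have := pow_card_eq_one' (G := Q) (x := ⟨b, hb'⟩)
    exact congrArg Subtype.val this
  -- `x` normalizes `Q`
  have hQx : ∀ h ∈ Q.map K.subtype, x * h * x⁻¹ ∈ Q.map K.subtype := by
    rintro _ ⟨q, hq, rfl⟩
    have hyK : x * (q : G) * x⁻¹ ∈ K := hKn.conj_mem _ q.2 x
    obtain ⟨a, ha, b, hb', hab⟩ := hdecomp ⟨_, hyK⟩
    have hcomm : Commute a b := by
      apply Subtype.ext
      exact (Subgroup.mem_center_iff.mp (hP₀Z a ha) (b : G)).symm
    have h1 : (⟨_, hyK⟩ : K) ^ Nat.card Q = 1 := by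
      apply Subtype.ext
      show (x * (q : G) * x⁻¹) ^ Nat.card Q = 1
      rw [conj_pow]
      have := congrArg Subtype.val (hQpow q hq)
      have h' : (q : G) ^ Nat.card Q = 1 := by simpa using this
      rw [h']; group
    rw [← hab, hcomm.mul_pow, hQpow b hb', mul_one] at h1
    obtain ⟨j, hj⟩ := P₀.isPGroup' ⟨a, ha⟩
    have hj' : a ^ (p ^ j) = 1 := by
      have := congrArg Subtype.val hj
      simpa using this
    have h2 : orderOf a ∣ Nat.card Q := orderOf_dvd_of_pow_eq_one h1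
    have h3 : orderOf a ∣ p ^ j := orderOf_dvd_of_pow_eq_one hj'
    have hcop : Nat.Coprime (Nat.card Q) (p ^ j) := Nat.Coprime.pow_right j hQp
    have h4 : orderOf a = 1 := Nat.eq_one_of_dvd_coprimes hcop h2 h3
    have ha1 : a = 1 := orderOf_eq_one_iff.mp h4
    rw [ha1, one_mul] at hab
    refine ⟨b, hb', ?_⟩
    rw [hab]
    rfl
  have hQcent := hb (Q.map K.subtype)
    (by rwa [Subgroup.card_map_of_injective K.subtype_injective]) hQx
  -- contradiction
  obtain ⟨⟨nb, hnb⟩, hnb1⟩ := (Subgroup.ne_bot_iff_exists_ne_one).mp hN1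
  have hnb1' : nb ≠ 1 := fun h => hnb1 (Subtype.ext h)
  obtain ⟨k, rfl⟩ := hπsurj nb
  have hkK : k ∈ K := (hKmem k).mpr hnb
  obtain ⟨a, ha, b, hb', hab⟩ := hdecomp ⟨k, hkK⟩
  have hab' : (a : G) * (b : G) = k := congrArg Subtype.val hab
  have hπa : π (a : G) = 1 := (hπ1 _).mpr (hP₀Z a ha)
  have hπb : π (b : G) = π k := by rw [← hab', map_mul, hπa, one_mul]
  have hxb' : x * (b : G) = (b : G) * x := hQcent (b : G) ⟨b, hb', rfl⟩
  have hmem' : π k ∈ N ⊓ Subgroup.centralizer {π x} := by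
    refine Subgroup.mem_inf.mpr ⟨hnb, ?_⟩
    rw [Subgroup.mem_centralizer_iff]
    intro h hh
    rw [Set.mem_singleton_iff] at hh
    rw [hh, ← hπb, ← map_mul, ← map_mul, hxb']
  rw [hfpf (π x) hxb hxb1, Subgroup.mem_bot] at hmem'
  exact hnb1' hmem'

open scoped Pointwise in
/-- The statement with an explicit Sylow subgroup. -/
theorem aux {G : Type u} [Group G] [Finite G] {p : ℕ} [Fact p.Prime]
    (S : Sylow p G) (x : G) (hx : x ∈ S)
    (hU : ∀ g : G, g⁻¹ * x * g ∈ S → g⁻¹ * x * g = x)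
    (hb : ∀ H : Subgroup G, (Nat.card H).Coprime p → (∀ h ∈ H, x * h * x⁻¹ ∈ H) →
      ∀ h ∈ H, x * h = h * x) :
    x ∈ Subgroup.center G := by
  obtain ⟨k, hk⟩ := S.isPGroup' ⟨x, hx⟩
  have hxk : x ^ (p ^ k) = 1 := by
    have := congrArg Subtype.val hk
    simpa using this
  have hzp : ∀ w : G, w ^ (p ^ k) = 1 → IsPGroup p (Subgroup.zpowers w) := by
    intro w hw
    rintro ⟨v, hv⟩
    obtain ⟨i, rfl⟩ := Subgroup.mem_zpowers_iff.mp hv
    refine ⟨k, Subtype.ext ?_⟩
    show (w ^ i) ^ (p ^ k) = 1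
    rw [← zpow_natCast, ← zpow_mul, mul_comm, zpow_mul, zpow_natCast, hw, one_zpow]
  apply core p _ G rfl x ⟨k, hxk⟩ _ hb
  intro g hg
  have hyk : (g⁻¹ * x * g) ^ (p ^ k) = 1 := by
    have : g⁻¹ * x * g = g⁻¹ * x * g⁻¹⁻¹ := by rw [inv_inv]
    rw [this, conj_pow, hxk]; group
  have hT : IsPGroup p (Subgroup.zpowers x ⊔ Subgroup.zpowers (g⁻¹ * x * g) : Subgroup G) := by
    apply IsPGroup.to_sup_of_normal_right' (hzp x hxk) (hzp _ hyk)
    intro a ha
    obtain ⟨i, rfl⟩ := Subgroup.mem_zpowers_iff.mp ha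
    rw [Subgroup.mem_normalizer_iff]
    intro h
    have hcomm : ∀ h' ∈ Subgroup.zpowers (g⁻¹ * x * g), x ^ i * h' * (x ^ i)⁻¹ = h' := by
      intro h' hh'
      obtain ⟨j, rfl⟩ := Subgroup.mem_zpowers_iff.mp hh'
      have hc : Commute x (g⁻¹ * x * g) := hg
      have := (hc.zpow_zpow i j).eq
      rw [this]; group
    constructor
    · intro hh
      rw [hcomm h hh]; exact hh
    · intro hh
      have h2 := hcomm _ hh
      have h3 : h = x ^ i * h * (x ^ i)⁻¹ := by
        calc h = (x ^ i)⁻¹ * (x ^ i * h * (x ^ i)⁻¹) * x ^ i := by group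
          _ = (x ^ i)⁻¹ * (x ^ i * (x ^ i * h * (x ^ i)⁻¹) * (x ^ i)⁻¹) * x ^ i := by rw [h2]
          _ = x ^ i * h * (x ^ i)⁻¹ := by group
      rw [h3]; exact hh
  obtain ⟨S', hS'⟩ := hT.exists_le_sylow
  obtain ⟨c, hc⟩ := MulAction.exists_smul_eq G S S'
  have hmemS' : ∀ w : G, w ∈ S' → c⁻¹ * w * c ∈ S := by
    intro w hw
    rw [← hc] at hw
    have hw' : w ∈ MulAut.conj c • (S : Subgroup G) := hw
    exact (Cfsg.Agent.S0034.mem_conj_smul (S : Subgroup G) c w).mp hw'
  have h1 : c⁻¹ * x * c ∈ S :=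
    hmemS' x (hS' (Subgroup.mem_sup_left (Subgroup.mem_zpowers x)))
  have h2 : c⁻¹ * (g⁻¹ * x * g) * c ∈ S :=
    hmemS' _ (hS' (Subgroup.mem_sup_right (Subgroup.mem_zpowers _)))
  have h3 := hU c h1
  have h4 : (g * c)⁻¹ * x * (g * c) = x := by
    apply hU (g * c)
    have : (g * c)⁻¹ * x * (g * c) = c⁻¹ * (g⁻¹ * x * g) * c := by group
    rw [this]; exact h2
  calc g⁻¹ * x * g = c * ((g * c)⁻¹ * x * (g * c)) * c⁻¹ := by group
    _ = c * x * c⁻¹ := by rw [h4]
    _ = c * (c⁻¹ * x * c) * c⁻¹ := by rw [h3]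
    _ = x := by group

/-- Let S be a Sylow p-subgroup of the finite group G and x an element of S such that (i) x is the only G-conjugate of x lying in S, and (ii) x centralizes every subgroup of order prime to p that it normalizes. Then x lies in the centre of G. -/
theorem result {G : Type*} [Group G] [Finite G] {p : ℕ} [Fact p.Prime]
    (S : Sylow p G) (x : G) (hx : x ∈ S)
    (hU : ∀ g : G, g⁻¹ * x * g ∈ S → g⁻¹ * x * g = x)
    (hb : ∀ H : Subgroup G, (Nat.card H).Coprime p → (∀ h ∈ H, x * h * x⁻¹ ∈ H) → ∀ h ∈ H, x * h = h * x) :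
    x ∈ Subgroup.center G := by
  exact aux S x hx hU hb

end Cfsg.Agent.S3064
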