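import Cfsg.Statements.S3074
import Mathlib

set_option autoImplicit false
open Cfsg

namespace Cfsg.Agent.S3074


/-- the Heisenberg group over `ZMod p`, as triples -/
structure Heis (p : ℕ) where
  a : ZMod p
  b : ZMod p
  c : ZMod p

namespace Heis

variable {p : ℕ}

theorem ext' {x y : Heis p} (ha : x.a = y.a) (hb : x.b = y.b) (hc : x.c = y.c) : x = y := by
  cases x; cases y; simp_all

instance : Mul (Heis p) := ⟨fun x y => ⟨x.a + y.a, x.b + y.b, x.c + y.c + x.a * y.b⟩⟩
instance : One (Heis p) := ⟨⟨0, 0, 0⟩⟩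
instance : Inv (Heis p) := ⟨fun x => ⟨-x.a, -x.b, -x.c + x.a * x.b⟩⟩

@[simp] theorem mul_a (x y : Heis p) : (x * y).a = x.a + y.a := rfl
@[simp] theorem mul_b (x y : Heis p) : (x * y).b = x.b + y.b := rfl
@[simp] theorem mul_c (x y : Heis p) : (x * y).c = x.c + y.c + x.a * y.b := rfl
@[simp] theorem one_a : (1 : Heis p).a = 0 := rfl
@[simp] theorem one_b : (1 : Heis p).b = 0 := rfl
@[simp] theorem one_c : (1 : Heis p).c = 0 := rfl
@[simp] theorem inv_a (x : Heis p) : (x⁻¹).a = -x.a := rfl
@[simp] theorem inv_b (x : Heis p) : (x⁻¹).b = -x.b := rfl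
@[simp] theorem inv_c (x : Heis p) : (x⁻¹).c = -x.c + x.a * x.b := rfl

instance : Group (Heis p) where
  mul_assoc x y z := by apply ext' <;> simp <;> ring
  one_mul x := by apply ext' <;> simp
  mul_one x := by apply ext' <;> simp
  inv_mul_cancel x := by apply ext' <;> simp

/-- as a product type -/
def equivProd : Heis p ≃ ZMod p × ZMod p × ZMod p where
  toFun x := (x.a, x.b, x.c)
  invFun t := ⟨t.1, t.2.1, t.2.2⟩
  left_inv x := by cases x; rfl
  right_inv t := by rfl

theorem card_eq [Fact p.Prime] : Nat.card (Heis p) = p ^ 3 := by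
  rw [Nat.card_congr equivProd, Nat.card_prod, Nat.card_prod, Nat.card_zmod]
  ring

instance [Fact p.Prime] : Finite (Heis p) := Nat.finite_of_card_ne_zero (by
  rw [card_eq]; exact pow_ne_zero 3 (Fact.out : p.Prime).ne_zero)

theorem pow_formula (x : Heis p) (n : ℕ) :
    x ^ n = ⟨n * x.a, n * x.b, n * x.c + (n.choose 2 : ℕ) * (x.a * x.b)⟩ := by
  induction n with
  | zero => apply ext' <;> simp
  | succ n ih =>
    rw [pow_succ, ih]
    apply ext' <;> simp [Nat.choose_succ_succ', Nat.choose_one_right] <;> ring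

theorem pow_p_eq_one [Fact p.Prime] (hp : p ≠ 2) (x : Heis p) : x ^ p = 1 := by
  have hpp : p.Prime := Fact.out
  rw [pow_formula]
  have h2 : (p.choose 2 : ZMod p) = 0 := by
    rw [ZMod.natCast_eq_zero_iff]
    apply Nat.Prime.dvd_choose_self hpp (by norm_num)
    have := hpp.two_le
    omega
  apply ext' <;> simp [h2]

theorem mem_center_iff [Fact p.Prime] (x : Heis p) : x ∈ Subgroup.center (Heis p) ↔ x.a = 0 ∧ x.b = 0 := by
  rw [Subgroup.mem_center_iff]
  constructor
  · intro h
    constructor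
    · have := congrArg Heis.c (h ⟨0, 1, 0⟩)
      simp at this
      first | exact this | exact this.symm
    · have := congrArg Heis.c (h ⟨1, 0, 0⟩)
      simp at this
      first | exact this | exact this.symm
  · rintro ⟨ha, hb⟩ g
    apply ext' <;> simp [ha, hb] <;> ring

theorem comm_elt (x y : Heis p) : x * y * x⁻¹ * y⁻¹ = ⟨0, 0, x.a * y.b - y.a * x.b⟩ := by
  apply ext' <;> simp <;> ring

theorem commutator_eq_center [Fact p.Prime] : commutator (Heis p) = Subgroup.center (Heis p) := by
  apply le_antisymm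
  · rw [commutator_eq_closure, Subgroup.closure_le]
    rintro g ⟨x, y, rfl⟩
    rw [SetLike.mem_coe, mem_center_iff, commutatorElement_def, comm_elt]
    exact ⟨rfl, rfl⟩
  · intro z hz
    rw [mem_center_iff] at hz
    rw [commutator_eq_closure]
    apply Subgroup.subset_closure
    refine ⟨⟨z.c, 0, 0⟩, ⟨0, 1, 0⟩, ?_⟩
    rw [commutatorElement_def, comm_elt]
    apply ext' <;> simp [hz.1, hz.2]

/-- projection to the first coordinate -/
def projA : Heis p →* Multiplicative (ZMod p) where
  toFun x := Multiplicative.ofAdd x.a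
  map_one' := rfl
  map_mul' x y := rfl

/-- projection to the second coordinate -/
def projB : Heis p →* Multiplicative (ZMod p) where
  toFun x := Multiplicative.ofAdd x.b
  map_one' := rfl
  map_mul' x y := rfl

theorem isCoatom_bot_zmod [Fact p.Prime] : IsCoatom (⊥ : Subgroup (Multiplicative (ZMod p))) := by
  have hpp : p.Prime := Fact.out
  have hcard : Nat.card (Multiplicative (ZMod p)) = p := by
    rw [Nat.card_eq_fintype_card, Fintype.card_multiplicative, ZMod.card]
  refine ⟨?_, ?_⟩
  · intro h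
    have h1 : Nat.card (⊥ : Subgroup (Multiplicative (ZMod p))) = 1 := Subgroup.card_bot
    rw [h, Subgroup.card_top, hcard] at h1
    exact hpp.one_lt.ne' h1
  · intro b hb
    have hdvd : Nat.card b ∣ p := by
      have := Subgroup.card_subgroup_dvd_card b
      rwa [hcard] at this
    rcases (Nat.dvd_prime hpp).mp hdvd with h1 | h1
    · exact absurd (Subgroup.card_eq_one.mp h1) hb.ne'
    · exact (Subgroup.card_eq_iff_eq_top b).mp (h1.trans hcard.symm)

theorem frattini_eq_center [Fact p.Prime] : frattini (Heis p) = Subgroup.center (Heis p) := by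
  apply le_antisymm
  · have hA : IsCoatom ((⊥ : Subgroup (Multiplicative (ZMod p))).comap (projA (p := p))) :=
      Subgroup.isCoatom_comap_of_surjective (fun y => ⟨⟨Multiplicative.toAdd y, 0, 0⟩, rfl⟩) isCoatom_bot_zmod
    have hB : IsCoatom ((⊥ : Subgroup (Multiplicative (ZMod p))).comap (projB (p := p))) :=
      Subgroup.isCoatom_comap_of_surjective (fun y => ⟨⟨0, Multiplicative.toAdd y, 0⟩, rfl⟩) isCoatom_bot_zmod
    intro x hx
    have h1 := frattini_le_coatom hA hx
    have h2 := frattini_le_coatom hB hx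
    rw [Subgroup.mem_comap, Subgroup.mem_bot] at h1 h2
    rw [mem_center_iff]
    exact ⟨h1, h2⟩
  · -- the center lies in every maximal subgroup
    rw [frattini, Order.radical]
    apply le_iInf
    intro M
    apply le_iInf
    intro hM
    by_contra hZM
    have hsup : M ⊔ Subgroup.center (Heis p) = ⊤ := by
      by_contra hne
      have hlt : M < M ⊔ Subgroup.center (Heis p) := by
        apply lt_of_le_of_ne le_sup_left
        intro h
        apply hZM
        rw [h]
        exact le_sup_right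
      exact hne (hM.2 _ hlt)
    have hcomm : commutator (Heis p) ≤ M := by
      rw [commutator_eq_closure, Subgroup.closure_le]
      rintro g ⟨x, y, rfl⟩
      have hx : x ∈ M ⊔ Subgroup.center (Heis p) := hsup ▸ Subgroup.mem_top x
      have hy : y ∈ M ⊔ Subgroup.center (Heis p) := hsup ▸ Subgroup.mem_top y
      rw [Subgroup.mem_sup_of_normal_right] at hx hy
      obtain ⟨m, hm, z, hz, rfl⟩ := hx
      obtain ⟨m', hm', z', hz', rfl⟩ := hy
      rw [mem_center_iff] at hz hz'
      have : (m * z) * (m' * z') * (m * z)⁻¹ * (m' * z')⁻¹ = m * m' * m⁻¹ * m'⁻¹ := by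
        rw [comm_elt, comm_elt]
        apply ext' <;> simp [hz.1, hz.2, hz'.1, hz'.2]
      rw [SetLike.mem_coe, commutatorElement_def, this]
      exact M.mul_mem (M.mul_mem (M.mul_mem hm hm') (M.inv_mem hm)) (M.inv_mem hm')
    rw [commutator_eq_center] at hcomm
    exact hZM hcomm

theorem card_center [Fact p.Prime] : Nat.card (Subgroup.center (Heis p)) = p := by
  have : Subgroup.center (Heis p) ≃ ZMod p :=
    { toFun := fun z => z.1.c
      invFun := fun c => ⟨⟨0, 0, c⟩, (mem_center_iff _).mpr ⟨rfl, rfl⟩⟩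
      left_inv := by
        rintro ⟨z, hz⟩
        rw [mem_center_iff] at hz
        apply Subtype.ext
        apply ext' <;> simp [hz.1, hz.2]
      right_inv := fun c => rfl }
  rw [Nat.card_congr this, Nat.card_zmod]

theorem isExtraspecial [Fact p.Prime] : IsExtraspecial p (Heis p) :=
  ⟨⟨IsPGroup.of_card card_eq, frattini_eq_center, commutator_eq_center⟩, card_center⟩

theorem exponent_eq [Fact p.Prime] (hp : p ≠ 2) : Monoid.exponent (Heis p) = p := by
  have hpp : p.Prime := Fact.out
  have h1 : Monoid.exponent (Heis p) ∣ p := Monoid.exponent_dvd_of_forall_pow_eq_one (pow_p_eq_one hp)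
  rcases (Nat.dvd_prime hpp).mp h1 with h | h
  · exfalso
    have h2 : (⟨1, 0, 0⟩ : Heis p) ^ 1 = 1 := by
      rw [← h]; exact Monoid.pow_exponent_eq_one _
    rw [pow_one] at h2
    have h3 := congrArg Heis.a h2
    simp at h3
  · exact h

end Heis


section embed
variable {p : ℕ}

/-- the unitriangular matrix of a Heisenberg triple -/
def heisMat (x : Heis p) : Matrix.SpecialLinearGroup (Fin 3) (ZMod p) :=
  ⟨!![1, x.a, x.c; 0, 1, x.b; 0, 0, 1], by simp [Matrix.det_fin_three]⟩

theorem heisMat_mul (x y : Heis p) : heisMat (x * y) = heisMat x * heisMat y := by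
  apply Subtype.ext
  rw [Matrix.SpecialLinearGroup.coe_mul]
  ext i j
  fin_cases i <;> fin_cases j <;> simp [heisMat, Matrix.mul_apply, Fin.sum_univ_three] <;> ring

theorem heisMat_mem (x : Heis p) : heisMat x ∈ qd p := by
  apply Subgroup.subset_closure
  refine ⟨?_, ?_, ?_⟩ <;> simp [heisMat]

/-- the Heisenberg group inside `Qd(p)` -/
def heisHom : Heis p →* ↥(qd p) where
  toFun x := ⟨heisMat x, heisMat_mem x⟩
  map_one' := by
    apply Subtype.ext
    apply Subtype.ext
    ext i j
    fin_cases i <;> fin_cases j <;> simp [heisMat]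
  map_mul' x y := by
    apply Subtype.ext
    exact heisMat_mul x y

theorem heisHom_injective : Function.Injective (heisHom (p := p)) := by
  intro x y h
  have h1 : heisMat x = heisMat y := congrArg Subtype.val h
  have h2 : ∀ i j, (heisMat x : Matrix (Fin 3) (Fin 3) (ZMod p)) i j = (heisMat y : Matrix (Fin 3) (Fin 3) (ZMod p)) i j := by
    intro i j; rw [h1]
  apply Heis.ext'
  · simpa [heisMat] using h2 0 1
  · simpa [heisMat] using h2 1 2
  · simpa [heisMat] using h2 0 2

theorem card_range [Fact p.Prime] : Nat.card (heisHom (p := p)).range = p ^ 3 := by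
  rw [← Heis.card_eq (p := p)]
  exact (Nat.card_congr (MonoidHom.ofInjective heisHom_injective).toEquiv).symm

theorem not_p4_dvd_card_GL [Fact p.Prime] :
    ¬ p ^ 4 ∣ Nat.card (Matrix.GeneralLinearGroup (Fin 3) (ZMod p)) := by
  have hpp : p.Prime := Fact.out
  have h2 : 2 ≤ p := hpp.two_le
  rw [Matrix.card_GL_field, Fin.prod_univ_three, ZMod.card]
  simp only [Fin.val_zero, Fin.val_one, Fin.val_two, pow_zero, pow_one]
  have e1 : p ^ 3 - p = p * (p ^ 2 - 1) := by
    rw [Nat.mul_sub, mul_one]; ring_nf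
  have e2 : p ^ 3 - p ^ 2 = p ^ 2 * (p - 1) := by
    rw [Nat.mul_sub, mul_one]; ring_nf
  rw [e1, e2]
  have e3 : (p ^ 3 - 1) * (p * (p ^ 2 - 1)) * (p ^ 2 * (p - 1)) = p ^ 3 * ((p ^ 3 - 1) * (p ^ 2 - 1) * (p - 1)) := by
    ring
  rw [e3]
  intro hdvd
  have h4 : p ^ 4 = p ^ 3 * p := by ring
  rw [h4] at hdvd
  have hdvd' : p ∣ (p ^ 3 - 1) * (p ^ 2 - 1) * (p - 1) :=
    Nat.dvd_of_mul_dvd_mul_left (pow_pos hpp.pos 3) hdvd
  have key : ∀ j : ℕ, 1 ≤ j → ¬ p ∣ p ^ j - 1 := by
    intro j hj hd
    have h5 : p ∣ p ^ j := dvd_pow_self p (by omega)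
    have h6 : 1 ≤ p ^ j := Nat.one_le_pow _ _ hpp.pos
    have h7 : p ∣ p ^ j - (p ^ j - 1) := Nat.dvd_sub h5 hd
    have h8 : p ^ j - (p ^ j - 1) = 1 := by omega
    rw [h8] at h7
    exact hpp.one_lt.ne' (Nat.dvd_one.mp h7)
  rcases (Nat.Prime.dvd_mul hpp).mp hdvd' with h | h
  · rcases (Nat.Prime.dvd_mul hpp).mp h with h | h
    · exact key 3 (by norm_num) h
    · exact key 2 (by norm_num) h
  · exact key 1 (by norm_num) (by rwa [pow_one])

end embed

section transfer
variable {G H : Type*} [Group G] [Group H]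

theorem center_map_equiv (e : G ≃* H) : (Subgroup.center G).map e.toMonoidHom = Subgroup.center H := by
  ext x
  constructor
  · rintro ⟨g, hg, rfl⟩
    have hg' : ∀ y, y * g = g * y := Subgroup.mem_center_iff.mp hg
    apply Subgroup.mem_center_iff.mpr
    intro y
    have h2 := congrArg e (hg' (e.symm y))
    simpa using h2
  · intro hx
    have hx' : ∀ y, y * x = x * y := Subgroup.mem_center_iff.mp hx
    refine ⟨e.symm x, Subgroup.mem_center_iff.mpr ?_, by simp⟩
    intro g
    apply e.injective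
    simpa using hx' (e g)

theorem commutator_map_equiv (e : G ≃* H) : (commutator G).map e.toMonoidHom = commutator H := by
  rw [commutator_def, commutator_def, Subgroup.map_commutator,
    Subgroup.map_top_of_surjective _ e.surjective]

theorem frattini_map_equiv (e : G ≃* H) : (frattini G).map e.toMonoidHom = frattini H :=
  e.mapSubgroup.map_radical

theorem isExtraspecial_of_equiv (p : ℕ) (e : G ≃* H) (h : IsExtraspecial p G) : IsExtraspecial p H := by
  obtain ⟨⟨h1, h2, h3⟩, h4⟩ := h
  refine ⟨⟨h1.of_equiv e, ?_, ?_⟩, ?_⟩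
  · rw [← frattini_map_equiv e, ← center_map_equiv e, h2]
  · rw [← commutator_map_equiv e, ← center_map_equiv e, h3]
  · rw [← h4]
    exact (Nat.card_congr (Subgroup.centerCongr e).toEquiv).symm

end transfer

/-- Let p be an odd prime. A Sylow p-subgroup of Qd(p), the split extension of an elementary abelian group of order p² by SL₂(p) acting naturally, is extraspecial of order p³ and exponent p. -/
theorem result (p : ℕ) [Fact p.Prime] (hp : p ≠ 2) (P : Sylow p ↥(Cfsg.qd p)) :
    Cfsg.IsExtraspecial p ↥P ∧ Nat.card P = p ^ 3 ∧ Monoid.exponent ↥P = p := by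
  have hpp : p.Prime := Fact.out
  have : NeZero p := ⟨hpp.ne_zero⟩
  have hUcard : Nat.card (heisHom (p := p)).range = p ^ 3 := card_range
  have hUp : IsPGroup p (heisHom (p := p)).range := IsPGroup.of_card hUcard
  obtain ⟨Q, hUQ⟩ := hUp.exists_le_sylow
  obtain ⟨k, hk⟩ := (IsPGroup.iff_card).mp Q.isPGroup'
  have hdvd : Nat.card (Q : Subgroup ↥(qd p)) ∣ Nat.card (Matrix.GeneralLinearGroup (Fin 3) (ZMod p)) := by
    have h1 : Nat.card (Q : Subgroup ↥(qd p)) ∣ Nat.card ↥(qd p) := Subgroup.card_subgroup_dvd_card _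
    have h2 : Nat.card ↥(qd p) ∣ Nat.card (Matrix.SpecialLinearGroup (Fin 3) (ZMod p)) :=
      Subgroup.card_subgroup_dvd_card _
    have h3 : Nat.card (Matrix.SpecialLinearGroup (Fin 3) (ZMod p)) ∣
        Nat.card (Matrix.GeneralLinearGroup (Fin 3) (ZMod p)) :=
      Subgroup.card_dvd_of_injective _ Matrix.SpecialLinearGroup.toGL_injective
    exact h1.trans (h2.trans h3)
  have hk3 : k ≤ 3 := by
    by_contra hlt
    have hlt' : 4 ≤ k := by omega
    apply not_p4_dvd_card_GL (p := p)
    refine dvd_trans ?_ hdvd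
    rw [hk]
    exact pow_dvd_pow p hlt'
  have hQcard : Nat.card (Q : Subgroup ↥(qd p)) = p ^ 3 := by
    apply le_antisymm
    · rw [hk]; exact Nat.pow_le_pow_right hpp.pos hk3
    · rw [← hUcard]; exact Subgroup.card_le_of_le hUQ
  have hUeq : (heisHom (p := p)).range = Q := Subgroup.eq_of_le_of_card_ge hUQ (by rw [hQcard, hUcard])
  let e1 : Heis p ≃* (heisHom (p := p)).range := MonoidHom.ofInjective heisHom_injective
  let e2 : (heisHom (p := p)).range ≃* (Q : Subgroup ↥(qd p)) := MulEquiv.subgroupCongr hUeq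
  let e3 : (Q : Subgroup ↥(qd p)) ≃* (P : Subgroup ↥(qd p)) := Sylow.equiv Q P
  let e : Heis p ≃* ↥P := (e1.trans e2).trans e3
  refine ⟨isExtraspecial_of_equiv p e Heis.isExtraspecial, ?_, ?_⟩
  · exact (Nat.card_congr e.toEquiv).symm.trans Heis.card_eq
  · exact (Monoid.exponent_eq_of_mulEquiv e).symm.trans (Heis.exponent_eq hp)

end Cfsg.Agent.S3074
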