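import Cfsg.Statements.S3075
import Mathlib

set_option autoImplicit false
open Cfsg

namespace Cfsg.Agent.S3075

/-- the central element -1 of SL2 -/
def negOne (F : Type*) [Field F] : Matrix.SpecialLinearGroup (Fin 2) F :=
  ⟨-1, by simp [Matrix.det_neg]⟩

theorem negOne_mul_self (F : Type*) [Field F] : negOne F * negOne F = 1 := by
  apply Subtype.ext
  rw [Matrix.SpecialLinearGroup.coe_mul]
  simp [negOne]

theorem negOne_comm (F : Type*) [Field F] (M : Matrix.SpecialLinearGroup (Fin 2) F) :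
    negOne F * M = M * negOne F := by
  apply Subtype.ext
  rw [Matrix.SpecialLinearGroup.coe_mul, Matrix.SpecialLinearGroup.coe_mul]
  simp [negOne]

theorem negOne_ne_one (F : Type*) [Field F] [Fintype F] {p : ℕ} [Fact p.Prime] (hp : p ≠ 2)
    (hF : Fintype.card F = p) : negOne F ≠ 1 := by
  intro h
  have h1 : ((negOne F : Matrix.SpecialLinearGroup (Fin 2) F) : Matrix (Fin 2) (Fin 2) F) 0 0 = (1 : Matrix (Fin 2) (Fin 2) F) 0 0 := by
    rw [h]; rfl
  simp [negOne] at h1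
  have hodd : Fintype.card F % 2 = 1 := by
    rw [hF]
    rcases Nat.Prime.eq_two_or_odd (Fact.out : p.Prime) with h2 | h2
    · exact absurd h2 hp
    · exact h2
  have hc : ringChar F ≠ 2 := by
    intro hc2
    have := (FiniteField.even_card_iff_char_two (F := F)).mp hc2
    omega
  exact Ring.neg_one_ne_one_of_char_ne_two hc h1

def upper (F : Type*) [Field F] : Matrix.SpecialLinearGroup (Fin 2) F :=
  ⟨!![1, 1; 0, 1], by simp [Matrix.det_fin_two]⟩
def lower (F : Type*) [Field F] : Matrix.SpecialLinearGroup (Fin 2) F :=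
  ⟨!![1, 0; 1, 1], by simp [Matrix.det_fin_two]⟩

theorem sl2_noncomm (F : Type*) [Field F] : upper F * lower F ≠ lower F * upper F := by
  intro h
  have h1 : ((upper F * lower F : Matrix.SpecialLinearGroup (Fin 2) F) : Matrix (Fin 2) (Fin 2) F) 0 0
      = ((lower F * upper F : Matrix.SpecialLinearGroup (Fin 2) F) : Matrix (Fin 2) (Fin 2) F) 0 0 := by rw [h]
  rw [Matrix.SpecialLinearGroup.coe_mul, Matrix.SpecialLinearGroup.coe_mul] at h1
  simp [upper, lower, Matrix.mul_apply, Fin.sum_univ_two] at h1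

/-- commutators centralize a cyclic normal subgroup -/
theorem comm_centralizes_cyclic {N : Type*} [Group N] (M : Subgroup N) [M.Normal] [IsCyclic M]
    (g h : N) (m : N) (hm : m ∈ M) :
    (g * h * g⁻¹ * h⁻¹) * m * (g * h * g⁻¹ * h⁻¹)⁻¹ = m := by
  have hc : ∀ α β : MulAut M, α * β = β * α := by
    intro α β
    apply (IsCyclic.mulAutMulEquiv M).injective
    rw [map_mul, map_mul, mul_comm]
  have h1 : (MulAut.conjNormal (H := M)) (g * h * g⁻¹ * h⁻¹) = 1 := by
    rw [map_mul, map_mul, map_mul, map_inv, map_inv, hc (MulAut.conjNormal g) (MulAut.conjNormal h)]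
    group
  have h2 := MulAut.conjNormal_apply (H := M) (g * h * g⁻¹ * h⁻¹) ⟨m, hm⟩
  rw [h1] at h2
  exact h2.symm

/-- the elements of `A` inverted by `t` -/
def invSub {N : Type*} [Group N] (A : Subgroup N) (hAcomm : ∀ a ∈ A, ∀ b ∈ A, a * b = b * a) (t : N) :
    Subgroup N where
  carrier := {a | a ∈ A ∧ t * a * t⁻¹ = a⁻¹}
  mul_mem' := by
    rintro a b ⟨ha, ha'⟩ ⟨hb, hb'⟩
    refine ⟨A.mul_mem ha hb, ?_⟩
    have : t * (a * b) * t⁻¹ = (t * a * t⁻¹) * (t * b * t⁻¹) := by group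
    rw [this, ha', hb', mul_inv_rev, hAcomm _ (A.inv_mem ha) _ (A.inv_mem hb)]
  one_mem' := ⟨A.one_mem, by simp⟩
  inv_mem' := by
    rintro a ⟨ha, ha'⟩
    refine ⟨A.inv_mem ha, ?_⟩
    have : t * a⁻¹ * t⁻¹ = (t * a * t⁻¹)⁻¹ := by group
    rw [this, ha']

theorem card_eq_p {N : Type*} [Group N] [Finite N] {p : ℕ} [Fact p.Prime] (A : Subgroup N)
    (hAcard : Nat.card A = p ^ 2) (H : Subgroup N) (hHA : H ≤ A) (h1 : H ≠ ⊥) (h2 : H ≠ A) :
    Nat.card H = p := by
  have hdvd : Nat.card H ∣ p ^ 2 := hAcard ▸ Subgroup.card_dvd_of_le hHA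
  obtain ⟨m, hm, hmc⟩ := (Nat.dvd_prime_pow (Fact.out : p.Prime)).mp hdvd
  have hp1 : 1 < p := (Fact.out : p.Prime).one_lt
  interval_cases m
  · exfalso; apply h1
    rw [pow_zero] at hmc
    exact Subgroup.card_eq_one.mp hmc
  · simpa using hmc
  · exfalso; apply h2
    exact Subgroup.eq_of_le_of_card_ge hHA (by rw [hAcard, hmc])

theorem main {N : Type*} [Group N] [Finite N] {p : ℕ} [Fact p.Prime] (hp : p ≠ 2)
    (A : Subgroup N) [A.Normal] (hAcomm : ∀ a ∈ A, ∀ b ∈ A, a * b = b * a) (hAcard : Nat.card A = p ^ 2)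
    (hAexp : ∀ a ∈ A, a ^ p = 1)
    (hAself : Subgroup.centralizer (A : Set N) = A)
    (z : N ⧸ A) (hz1 : z ≠ 1) (hz2 : z * z = 1) (hzc : ∀ y, z * y = y * z)
    (hnc : ∃ y₁ y₂ : N ⧸ A, y₁ * y₂ ≠ y₂ * y₁) :
    ∃ U : Subgroup N, A ⊓ U = ⊥ ∧ A ⊔ U = ⊤ := by
  obtain ⟨x, hx⟩ := QuotientGroup.mk_surjective z
  obtain ⟨k, hk⟩ : ∃ k, p = 2 * k + 1 := by
    rcases Nat.Prime.eq_two_or_odd (Fact.out : p.Prime) with h2 | h2
    · exact absurd h2 hp
    · exact ⟨p / 2, by omega⟩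
  -- the involution t
  set t : N := x ^ p with ht_def
  have ht : (t : N ⧸ A) = z := by
    rw [ht_def, QuotientGroup.mk_pow, hx, hk, pow_succ, pow_mul, pow_two, hz2, one_pow, one_mul]
  have hxx : x * x ∈ A := by
    rw [← QuotientGroup.eq_one_iff, QuotientGroup.mk_mul, hx, hz2]
  have ht2 : t * t = 1 := by
    rw [ht_def, ← pow_add, ← two_mul, pow_mul, pow_two]
    exact hAexp _ hxx
  have htinv : t⁻¹ = t := inv_eq_of_mul_eq_one_left ht2
  have htA : t ∉ A := by
    intro h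
    apply hz1
    rw [← ht]
    exact (QuotientGroup.eq_one_iff t).mpr h
  have hconj : ∀ g : N, ∃ a ∈ A, g * t * g⁻¹ = a * t := by
    intro g
    refine ⟨g * t * g⁻¹ * t⁻¹, ?_, by group⟩
    rw [← QuotientGroup.eq_one_iff]
    simp only [QuotientGroup.mk_mul, QuotientGroup.mk_inv, ht]
    rw [← hzc, mul_inv_cancel_right, mul_inv_cancel]
  have htn : ∀ a ∈ A, t * a * t⁻¹ ∈ A := fun a ha => Subgroup.Normal.conj_mem inferInstance a ha t
  -- square roots in A
  have hsqrt : ∀ a ∈ A, ∃ s ∈ A, s * s = a := by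
    intro a ha
    refine ⟨a ^ (k + 1), A.pow_mem ha _, ?_⟩
    rw [← pow_add]
    have : k + 1 + (k + 1) = p + 1 := by omega
    rw [this, pow_succ, hAexp a ha, one_mul]
  have hsq1 : ∀ a ∈ A, a * a = 1 → a = 1 := by
    intro a ha h
    have h1 : a ^ p = 1 := hAexp a ha
    rw [hk, pow_succ, pow_mul, pow_two, h, one_pow, one_mul] at h1
    exact h1
  set C : Subgroup N := A ⊓ Subgroup.centralizer {t} with hC_def
  set I : Subgroup N := invSub A hAcomm t with hI_def
  have hCA : C ≤ A := inf_le_left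
  have hIA : I ≤ A := fun a ha => ha.1
  have hCmem : ∀ c, c ∈ C ↔ c ∈ A ∧ t * c * t⁻¹ = c := by
    intro c
    rw [hC_def, Subgroup.mem_inf, Subgroup.mem_centralizer_iff]
    constructor
    · rintro ⟨h1, h2⟩
      refine ⟨h1, ?_⟩
      rw [h2 t rfl, mul_inv_cancel_right]
    · rintro ⟨h1, h2⟩
      refine ⟨h1, ?_⟩
      intro h hh
      rw [Set.mem_singleton_iff] at hh
      subst hh
      nth_rewrite 2 [← h2]
      group
  have hImem : ∀ i, i ∈ I ↔ i ∈ A ∧ t * i * t⁻¹ = i⁻¹ := fun i => Iff.rfl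
  -- decomposition
  have hdec : ∀ a ∈ A, ∃ c ∈ C, ∃ i ∈ I, a = c * i := by
    intro a ha
    obtain ⟨s, hs, rfl⟩ := hsqrt a ha
    have hb := htn s hs
    have htb : t * (t * s * t⁻¹) * t⁻¹ = s := by
      rw [htinv]
      calc t * (t * s * t) * t = (t * t) * s * (t * t) := by group
        _ = s := by rw [ht2, one_mul, mul_one]
    refine ⟨s * (t * s * t⁻¹), (hCmem _).mpr ⟨A.mul_mem hs hb, ?_⟩, s * (t * s * t⁻¹)⁻¹,
      (hImem _).mpr ⟨A.mul_mem hs (A.inv_mem hb), ?_⟩, ?_⟩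
    · have : t * (s * (t * s * t⁻¹)) * t⁻¹ = (t * s * t⁻¹) * (t * (t * s * t⁻¹) * t⁻¹) := by group
      rw [this, htb, hAcomm _ hb _ hs]
    · have : t * (s * (t * s * t⁻¹)⁻¹) * t⁻¹ = (t * s * t⁻¹) * (t * (t * s * t⁻¹) * t⁻¹)⁻¹ := by group
      rw [this, htb, mul_inv_rev, inv_inv]
    · rw [mul_assoc, ← mul_assoc (t * s * t⁻¹), hAcomm _ hb _ hs, mul_assoc s, mul_inv_cancel, mul_one]
  -- normality
  have hCn : C.Normal := by
    constructor
    intro c hc g
    rw [hCmem] at hc ⊢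
    refine ⟨Subgroup.Normal.conj_mem inferInstance c hc.1 g, ?_⟩
    obtain ⟨a, ha, hga⟩ := hconj g⁻¹
    rw [inv_inv] at hga
    have e1 : t * (g * c * g⁻¹) * t⁻¹ = g * ((g⁻¹ * t * g) * c * (g⁻¹ * t * g)⁻¹) * g⁻¹ := by group
    rw [e1, hga]
    have e2 : a * t * c * (a * t)⁻¹ = a * (t * c * t⁻¹) * a⁻¹ := by group
    rw [e2, hc.2, hAcomm a ha c hc.1, mul_inv_cancel_right]
  have hIn : I.Normal := by
    constructor
    intro i hi g
    rw [hImem] at hi ⊢
    refine ⟨Subgroup.Normal.conj_mem inferInstance i hi.1 g, ?_⟩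
    obtain ⟨a, ha, hga⟩ := hconj g⁻¹
    rw [inv_inv] at hga
    have e1 : t * (g * i * g⁻¹) * t⁻¹ = g * ((g⁻¹ * t * g) * i * (g⁻¹ * t * g)⁻¹) * g⁻¹ := by group
    rw [e1, hga]
    have e2 : a * t * i * (a * t)⁻¹ = a * (t * i * t⁻¹) * a⁻¹ := by group
    rw [e2, hi.2, hAcomm a ha _ (A.inv_mem hi.1), mul_inv_cancel_right]
    group
  -- C is trivial
  have hCbot : C = ⊥ := by
    by_contra hC1
    have hC2 : C ≠ A := by
      intro h
      apply htA
      rw [← hAself, Subgroup.mem_centralizer_iff]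
      intro a ha
      have := ((hCmem a).mp (h ▸ ha)).2
      nth_rewrite 1 [← this]
      group
    have hI1 : I ≠ ⊥ := by
      intro h
      apply hC2
      apply le_antisymm hCA
      intro a ha
      obtain ⟨c, hc, i, hi, rfl⟩ := hdec a ha
      rw [h, Subgroup.mem_bot] at hi
      rw [hi, mul_one]
      exact hc
    have hI2 : I ≠ A := by
      intro h
      apply hC1
      rw [eq_bot_iff]
      intro c hc
      have hcI : c ∈ I := h ▸ hCA hc
      have h1 := ((hCmem c).mp hc).2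
      have h2 := ((hImem c).mp hcI).2
      rw [h1] at h2
      rw [Subgroup.mem_bot]
      apply hsq1 c (hCA hc)
      nth_rewrite 1 [h2]
      exact inv_mul_cancel c
    have hCp : Nat.card C = p := card_eq_p A hAcard C hCA hC1 hC2
    have hIp : Nat.card I = p := card_eq_p A hAcard I hIA hI1 hI2
    have : IsCyclic C := isCyclic_of_prime_card hCp
    have : IsCyclic I := isCyclic_of_prime_card hIp
    obtain ⟨y₁, y₂, hy⟩ := hnc
    obtain ⟨g, rfl⟩ := QuotientGroup.mk_surjective y₁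
    obtain ⟨h, rfl⟩ := QuotientGroup.mk_surjective y₂
    apply hy
    have hw : g * h * g⁻¹ * h⁻¹ ∈ A := by
      rw [← hAself, Subgroup.mem_centralizer_iff]
      intro a ha
      obtain ⟨c, hc, i, hi, rfl⟩ := hdec a ha
      have e1 := comm_centralizes_cyclic C g h c hc
      have e2 := comm_centralizes_cyclic I g h i hi
      have e3 : (g * h * g⁻¹ * h⁻¹) * (c * i) * (g * h * g⁻¹ * h⁻¹)⁻¹ = c * i := by
        calc (g * h * g⁻¹ * h⁻¹) * (c * i) * (g * h * g⁻¹ * h⁻¹)⁻¹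
            = ((g * h * g⁻¹ * h⁻¹) * c * (g * h * g⁻¹ * h⁻¹)⁻¹) * ((g * h * g⁻¹ * h⁻¹) * i * (g * h * g⁻¹ * h⁻¹)⁻¹) := by group
          _ = c * i := by rw [e1, e2]
      nth_rewrite 1 [← e3]
      group
    have hw' : ((g * h * g⁻¹ * h⁻¹ : N) : N ⧸ A) = 1 := (QuotientGroup.eq_one_iff _).mpr hw
    simp only [QuotientGroup.mk_mul, QuotientGroup.mk_inv] at hw'
    rw [← mul_inv_eq_one, mul_inv_rev, ← mul_assoc]
    exact hw'
  -- the complement
  refine ⟨Subgroup.centralizer {t}, hCbot, ?_⟩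
  rw [eq_top_iff]
  intro g _
  obtain ⟨a, ha, hga⟩ := hconj g
  obtain ⟨s, hs, hsa⟩ := hsqrt a ha
  have hinv : ∀ b ∈ A, t * b * t⁻¹ = b⁻¹ := by
    intro b hb
    obtain ⟨c, hc, i, hi, rfl⟩ := hdec b hb
    rw [hCbot, Subgroup.mem_bot] at hc
    subst hc
    rw [one_mul]
    exact ((hImem i).mp hi).2
  have hu : s⁻¹ * g ∈ Subgroup.centralizer {t} := by
    rw [Subgroup.mem_centralizer_iff]
    intro h hh
    rw [Set.mem_singleton_iff] at hh
    subst hh
    have e1 : s⁻¹ * g * t = s⁻¹ * (g * t * g⁻¹) * g := by group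
    rw [e1, hga, ← hsa]
    have e2 : t * s⁻¹ = s * t := by
      have := hinv s⁻¹ (A.inv_mem hs)
      rw [inv_inv] at this
      calc t * s⁻¹ = (t * s⁻¹ * t⁻¹) * t := by group
        _ = s * t := by rw [this]
    rw [← mul_assoc t, e2]
    group
  have : g = s * (s⁻¹ * g) := by group
  rw [this]
  exact Subgroup.mul_mem_sup hs hu

theorem result {N : Type*} [Group N] [Finite N] {p : ℕ} [Fact p.Prime] (hp : p ≠ 2)
    (A : Subgroup N) [A.Normal] (hAcomm : IsMulCommutative A) (hAcard : Nat.card A = p ^ 2) (hAexp : Monoid.exponent ↥A = p)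
    (hAself : Subgroup.centralizer (A : Set N) = A)
    {F : Type*} [Field F] [Fintype F] (hF : Fintype.card F = p) (e : N ⧸ A ≃* Matrix.SpecialLinearGroup (Fin 2) F) :
    ∃ U : Subgroup N, A ⊓ U = ⊥ ∧ A ⊔ U = ⊤ := by
  have hAc : ∀ a ∈ A, ∀ b ∈ A, a * b = b * a := by
    intro a ha b hb
    have := hAcomm.is_comm.comm (⟨a, ha⟩ : A) ⟨b, hb⟩
    exact congrArg Subtype.val this
  have hAe : ∀ a ∈ A, a ^ p = 1 := by
    intro a ha
    have := Monoid.pow_exponent_eq_one (⟨a, ha⟩ : A)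
    rw [hAexp] at this
    exact congrArg Subtype.val this
  refine main hp A hAc hAcard hAe hAself (e.symm (negOne F)) ?_ ?_ ?_ ?_
  · intro h
    apply negOne_ne_one F hp hF
    have := congrArg e h
    simpa using this
  · rw [← map_mul, negOne_mul_self, map_one]
  · intro y
    apply e.injective
    rw [map_mul, map_mul, MulEquiv.apply_symm_apply, negOne_comm]
  · refine ⟨e.symm (upper F), e.symm (lower F), ?_⟩
    intro h
    apply sl2_noncomm F
    have := congrArg e h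
    simpa using this

end Cfsg.Agent.S3075
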