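import Cfsg.Statements.S3076
import Mathlib

set_option autoImplicit false
open Cfsg

namespace Cfsg.Agent.S3076

section inner
variable {G : Type*} [Group G]

theorem card_mul_card_eq [Finite G] (A B : Subgroup G) [B.Normal] :
    Nat.card ↥A * Nat.card ↥B = Nat.card ↥(A ⊔ B) * Nat.card ↥(A ⊓ B) := by
  have h1 : Nat.card ↥(A ⊔ B) = Nat.card B * B.relIndex (A ⊔ B) := by
    rw [← Subgroup.relIndex_bot_left (H := B), ← Subgroup.relIndex_bot_left (H := A ⊔ B)]
    exact (Subgroup.relIndex_mul_relIndex ⊥ B (A ⊔ B) bot_le le_sup_right).symm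
  have h2 : Nat.card A = Nat.card ↥(A ⊓ B) * (A ⊓ B).relIndex A := by
    rw [← Subgroup.relIndex_bot_left (H := A), ← Subgroup.relIndex_bot_left (H := A ⊓ B)]
    exact (Subgroup.relIndex_mul_relIndex ⊥ (A ⊓ B) A bot_le inf_le_left).symm
  have h3 : B.relIndex (A ⊔ B) = (A ⊓ B).relIndex A := by
    rw [Subgroup.relIndex_sup_right, inf_comm, Subgroup.inf_relIndex_right]
  rw [h1, h2, h3]
  ring

theorem card_sup_dvd [Finite G] (A B : Subgroup G) [B.Normal] :
    Nat.card ↥(A ⊔ B) ∣ Nat.card ↥A * Nat.card ↥B := by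
  rw [card_mul_card_eq A B]
  exact Dvd.intro _ rfl

theorem sSup_induction_finite [Finite G] {P : Subgroup G → Prop} (S : Set (Subgroup G))
    (hbot : P ⊥) (hsup : ∀ A B, P A → P B → P (A ⊔ B)) (hS : ∀ A ∈ S, P A) : P (sSup S) := by
  have hfin : S.Finite := Set.toFinite S
  have h1 : hfin.toFinset.sup id = sSup S := by
    rw [Finset.sup_id_eq_sSup, Set.Finite.coe_toFinset]
  rw [← h1]
  exact Finset.sup_induction hbot (fun a ha b hb => hsup a b ha hb)
    (fun b hb => hS b (hfin.mem_toFinset.mp hb))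

theorem pPrimeCore_coprime [Finite G] (p : ℕ) : (Nat.card ↥(pPrimeCore p G)).Coprime p := by
  have key : (pPrimeCore p G).Normal ∧ (Nat.card ↥(pPrimeCore p G)).Coprime p := by
    unfold pPrimeCore
    refine sSup_induction_finite (P := fun N => N.Normal ∧ (Nat.card ↥N).Coprime p) _ ?_ ?_ ?_
    · exact ⟨inferInstance, by simp⟩
    · rintro A B ⟨hA1, hA2⟩ ⟨hB1, hB2⟩
      exact ⟨inferInstance, Nat.Coprime.coprime_dvd_left (card_sup_dvd A B) (Nat.Coprime.mul_left hA2 hB2)⟩
    · exact fun A hA => hA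
  exact key.2

theorem pCore_isPGroup (p : ℕ) [Fact p.Prime] [Finite G] : IsPGroup p ↥(pCore p G) :=
  Sylow.sSup_of_normal _ (fun _ h => h.2) (fun _ h => h.1)

/-- a normal subgroup whose elements have `p`-power order modulo `M` lies in the preimage of `O_p(G/M)` -/
theorem le_comap_pCore {p : ℕ} (M : Subgroup G) [M.Normal] (A : Subgroup G) [hA : A.Normal]
    (h : ∀ a ∈ A, ∃ k : ℕ, a ^ (p ^ k) ∈ M) :
    A ≤ (pCore p (G ⧸ M)).comap (QuotientGroup.mk' M) := by
  rw [← Subgroup.map_le_iff_le_comap]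
  apply le_sSup
  refine ⟨Subgroup.Normal.map hA _ (QuotientGroup.mk'_surjective M), ?_⟩
  rintro ⟨x, hx⟩
  obtain ⟨a, ha, rfl⟩ := hx
  obtain ⟨k, hk⟩ := h a ha
  refine ⟨k, ?_⟩
  apply Subtype.ext
  change (QuotientGroup.mk' M a) ^ (p ^ k) = 1
  rw [← map_pow]
  exact (QuotientGroup.eq_one_iff _).mpr hk

theorem mem_comap_pCore_pow [Finite G] {p : ℕ} [Fact p.Prime] (M : Subgroup G) [M.Normal] (w : G)
    (hw : w ∈ (pCore p (G ⧸ M)).comap (QuotientGroup.mk' M)) : ∃ k : ℕ, w ^ (p ^ k) ∈ M := by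
  rw [Subgroup.mem_comap] at hw
  obtain ⟨k, hk⟩ := pCore_isPGroup (G := G ⧸ M) p ⟨_, hw⟩
  refine ⟨k, ?_⟩
  have := congrArg Subtype.val hk
  rw [← QuotientGroup.eq_one_iff]
  simpa using this

theorem exists_pow_coprime_order [Finite G] (p : ℕ) [Fact p.Prime] (g : G) :
    ∃ j : ℕ, Nat.Coprime (orderOf (g ^ (p ^ j))) p := by
  have hp : p.Prime := Fact.out
  have hn : orderOf g ≠ 0 := (orderOf_pos g).ne'
  obtain ⟨e, n', hn', hn_eq⟩ := Nat.exists_eq_pow_mul_and_not_dvd hn p hp.ne_one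
  refine ⟨e, ?_⟩
  rw [orderOf_pow, hn_eq]
  have hpe : 0 < p ^ e := pow_pos hp.pos e
  have : Nat.gcd (p ^ e * n') (p ^ e) = p ^ e := Nat.gcd_eq_right (Dvd.intro _ rfl)
  rw [this, Nat.mul_div_cancel_left _ hpe]
  exact ((Nat.Prime.coprime_iff_not_dvd hp).mpr hn').symm

end inner


section inner2
variable {G : Type*} [Group G]

/-- Under the Hall condition, the `p'`-elements of `C` lie in `O_{p'}(G)`. -/
theorem pprime_elements_in_core [Finite G] {p : ℕ} [Fact p.Prime] (H C : Subgroup G) [hHn : H.Normal] [hCn : C.Normal]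
    (hH : IsPGroup p H) (hCdef : ∀ g, g ∈ C ↔ ∀ h ∈ H, h * g = g * h)
    (hZ : ¬ p ∣ H.relIndex C) :
    ∀ c ∈ C, Nat.Coprime (orderOf c) p → c ∈ pPrimeCore p G := by
  have hp : p.Prime := Fact.out
  set Z' : Subgroup ↥C := H.subgroupOf C with hZ'
  have hZ'p : IsPGroup p Z' := hH.comap_subtype
  have hcentral : ∀ z ∈ Z', ∀ c : ↥C, c * z = z * c := by
    intro z hz c
    apply Subtype.ext
    have h1 : (z : G) ∈ H := hz
    have := (hCdef (c : G)).mp c.2 z h1
    simp only [Subgroup.coe_mul]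
    exact this.symm
  have hZ'n : Z'.Normal := by
    constructor
    intro z hz c
    rw [hcentral z hz c, mul_inv_cancel_right]
    exact hz
  have hidx : Z'.index = H.relIndex C := rfl
  have hcop : Nat.Coprime (Nat.card Z') Z'.index := by
    obtain ⟨n, hn⟩ := (IsPGroup.iff_card (p := p)).mp hZ'p
    rw [hn, hidx]
    exact Nat.Coprime.pow_left n ((Nat.Prime.coprime_iff_not_dvd hp).mpr hZ)
  obtain ⟨K₀, hK₀⟩ := Subgroup.exists_right_complement'_of_coprime hcop
  have hK₀card : Nat.card K₀ = H.relIndex C := by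
    rw [← hidx]; exact (hK₀.symm.index_eq_card).symm
  have hK₀cop : Nat.Coprime (Nat.card K₀) p := by
    rw [hK₀card]; exact ((Nat.Prime.coprime_iff_not_dvd hp).mpr hZ).symm
  -- p'-elements of C lie in K₀
  have hmem : ∀ c : ↥C, Nat.Coprime (orderOf c) p → c ∈ K₀ := by
    intro c hc
    obtain ⟨⟨z, k⟩, hzk⟩ := hK₀.2 c
    simp only at hzk
    set n := Nat.card K₀ with hn
    have hkn : (k : ↥C) ^ n = 1 := by
      have : k ^ n = 1 := pow_card_eq_one'
      exact_mod_cast congrArg Subtype.val this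
    have hcomm : Commute (z : ↥C) (k : ↥C) := (hcentral z z.2 k).symm
    have hcn : c ^ n = (z : ↥C) ^ n := by
      rw [← hzk, hcomm.mul_pow, hkn, mul_one]
    obtain ⟨i, hi⟩ := (IsPGroup.iff_orderOf.mp hZ'p) z
    rw [← Subgroup.orderOf_coe] at hi
    have h1 : orderOf ((z : ↥C) ^ n) ∣ orderOf c := by
      rw [← hcn]; exact orderOf_pow_dvd n
    have h2 : orderOf ((z : ↥C) ^ n) ∣ p ^ i := by
      rw [← hi]; exact orderOf_pow_dvd n
    have h3 : orderOf ((z : ↥C) ^ n) = 1 := by
      have : Nat.Coprime (orderOf c) (p ^ i) := Nat.Coprime.pow_right i hc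
      exact Nat.eq_one_of_dvd_coprimes this h1 h2
    have h4 : (z : ↥C) ^ n = 1 := orderOf_eq_one_iff.mp h3
    have h5 : orderOf (z : ↥C) ∣ n := orderOf_dvd_of_pow_eq_one h4
    have h6 : orderOf (z : ↥C) = 1 := by
      have : Nat.Coprime n (p ^ i) := Nat.Coprime.pow_right i hK₀cop
      rw [← hi] at this
      exact Nat.eq_one_of_dvd_coprimes this h5 dvd_rfl
    have h7 : (z : ↥C) = 1 := orderOf_eq_one_iff.mp h6
    rw [← hzk, h7, one_mul]
    exact k.2
  have hord : ∀ k ∈ K₀, Nat.Coprime (orderOf (k : G)) p := by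
    intro k hk
    rw [Subgroup.orderOf_coe]
    have : orderOf (⟨k, hk⟩ : K₀) ∣ Nat.card K₀ := orderOf_dvd_natCard _
    rw [Subgroup.orderOf_mk] at this
    exact Nat.Coprime.coprime_dvd_left this hK₀cop
  set K₁ : Subgroup G := K₀.map C.subtype with hK₁
  have hK₁n : K₁.Normal := by
    constructor
    rintro x ⟨k, hk, rfl⟩ g
    have hc : g * (k : G) * g⁻¹ ∈ C := hCn.conj_mem _ k.2 g
    refine ⟨⟨_, hc⟩, hmem _ ?_, rfl⟩
    rw [← Subgroup.orderOf_coe]
    have : orderOf (g * (k : G) * g⁻¹) = orderOf (k : G) := by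
      have := MulEquiv.orderOf_eq (MulAut.conj g) (k : G)
      simpa [MulAut.conj_apply] using this
    change Nat.Coprime (orderOf (g * (k : G) * g⁻¹)) p
    rw [this]
    exact hord k hk
  have hK₁card : Nat.Coprime (Nat.card K₁) p := by
    rw [hK₁, Subgroup.card_map_of_injective (Subgroup.subtype_injective C)]
    exact hK₀cop
  have hK₁le : K₁ ≤ pPrimeCore p G := le_sSup ⟨hK₁n, hK₁card⟩
  intro c hc hcop'
  apply hK₁le
  refine ⟨⟨c, hc⟩, hmem _ ?_, rfl⟩
  rw [← Subgroup.orderOf_coe]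
  exact hcop'

end inner2

section inner3
variable {G : Type*} [Group G]

theorem inner_main [Finite G] {p : ℕ} [Fact p.Prime] (H C S : Subgroup G) [hHn : H.Normal] [hCn : C.Normal]
    (hH : IsPGroup p H) (hCdef : ∀ g, g ∈ C ↔ ∀ h ∈ H, h * g = g * h)
    (hS : IsPGroup p S) (hSidx : ¬ p ∣ S.index) :
    (H ≤ (pCore p (G ⧸ C)).comap (QuotientGroup.mk' C) ∧
      ¬ p ∣ H.relIndex ((pCore p (G ⧸ C)).comap (QuotientGroup.mk' C))) ↔
    (S ⊓ C ≤ H ∧ pPrimePCore p G = H ⊔ C) := by
  have hp : p.Prime := Fact.out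
  set W := (pCore p (G ⧸ C)).comap (QuotientGroup.mk' C) with hW
  set K := pPrimeCore p G with hK
  have hY : pPrimePCore p G = (pCore p (G ⧸ K)).comap (QuotientGroup.mk' K) := rfl
  have L1 : H ≤ W := by
    apply le_comap_pCore
    intro a ha
    obtain ⟨k, hk⟩ := hH ⟨a, ha⟩
    refine ⟨k, ?_⟩
    have : a ^ (p ^ k) = 1 := by
      have h0 := congrArg Subtype.val hk
      rwa [Subgroup.coe_pow] at h0
    rw [this]; exact C.one_mem
  have L2 : C ≤ W := by
    intro c hc
    rw [hW, Subgroup.mem_comap]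
    have : QuotientGroup.mk' C c = 1 := (QuotientGroup.eq_one_iff c).mpr hc
    rw [this]; exact Subgroup.one_mem _
  have L3 : K ≤ C := by
    intro k hk
    rw [hCdef]
    intro h hh
    have h1 : k * h * k⁻¹ * h⁻¹ ∈ K ⊓ H := by
      refine ⟨?_, ?_⟩
      · have : k * h * k⁻¹ * h⁻¹ = k * (h * k⁻¹ * h⁻¹) := by group
        rw [this]
        exact K.mul_mem hk (Subgroup.Normal.conj_mem inferInstance _ (K.inv_mem hk) h)
      · exact H.mul_mem (hHn.conj_mem _ hh k) (H.inv_mem hh)
    have h2 : K ⊓ H = ⊥ := by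
      apply Disjoint.eq_bot
      apply Subgroup.disjoint_of_coprime_natCard
      obtain ⟨n, hn⟩ := (IsPGroup.iff_card (p := p)).mp hH
      rw [hn]
      exact Nat.Coprime.pow_right n (pPrimeCore_coprime p)
    rw [h2, Subgroup.mem_bot] at h1
    have h3 : k * h * k⁻¹ * h⁻¹ * (h * k) = k * h := by group
    rw [← h3, h1, one_mul]
  have hYn : (pPrimePCore p G).Normal := by rw [hY]; infer_instance
  have hWn : W.Normal := by rw [hW]; infer_instance
  have L4 : pPrimePCore p G ≤ W := by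
    apply le_comap_pCore
    intro y hy
    obtain ⟨k, hk⟩ := mem_comap_pCore_pow K y hy
    exact ⟨k, L3 hk⟩
  have L5 : H ≤ pPrimePCore p G := by
    rw [hY]
    apply le_comap_pCore
    intro a ha
    obtain ⟨k, hk⟩ := hH ⟨a, ha⟩
    refine ⟨k, ?_⟩
    have : a ^ (p ^ k) = 1 := by
      have h0 := congrArg Subtype.val hk
      rwa [Subgroup.coe_pow] at h0
    rw [this]; exact K.one_mem
  have L6b : ¬ p ∣ H.relIndex C → C ≤ pPrimePCore p G := by
    intro hZ
    have ha := pprime_elements_in_core H C hH hCdef hZ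
    rw [hY]
    apply le_comap_pCore
    intro c hc
    obtain ⟨j, hj⟩ := exists_pow_coprime_order p c
    exact ⟨j, ha _ (C.pow_mem hc _) hj⟩
  have L6c : ¬ p ∣ H.relIndex C → W ≤ pPrimePCore p G := by
    intro hZ
    have ha := pprime_elements_in_core H C hH hCdef hZ
    rw [hY]
    apply le_comap_pCore
    intro w hw
    obtain ⟨k, hk⟩ := mem_comap_pCore_pow C w hw
    obtain ⟨j, hj⟩ := exists_pow_coprime_order p (w ^ (p ^ k))
    refine ⟨k + j, ?_⟩
    rw [pow_add, pow_mul]
    exact ha _ (C.pow_mem hk _) hj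
  have L7 : ¬ p ∣ S.relIndex C := by
    intro hdvd
    apply hSidx
    have h1 := card_mul_card_eq S C
    have h2 : Nat.card C = Nat.card ↥(S ⊓ C) * S.relIndex C := by
      rw [← Subgroup.inf_relIndex_right, ← Subgroup.relIndex_bot_left (H := C), ← Subgroup.relIndex_bot_left (H := S ⊓ C)]
      exact (Subgroup.relIndex_mul_relIndex ⊥ (S ⊓ C) C bot_le inf_le_right).symm
    have h3 : Nat.card ↥(S ⊔ C) = Nat.card S * S.relIndex (S ⊔ C) := by
      rw [← Subgroup.relIndex_bot_left (H := S), ← Subgroup.relIndex_bot_left (H := S ⊔ C)]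
      exact (Subgroup.relIndex_mul_relIndex ⊥ S (S ⊔ C) bot_le le_sup_left).symm
    rw [h2, h3] at h1
    have hSpos : 0 < Nat.card S := Nat.card_pos
    have hSCpos : 0 < Nat.card ↥(S ⊓ C) := Nat.card_pos
    have h4 : S.relIndex C = S.relIndex (S ⊔ C) := by
      have : (Nat.card S * Nat.card ↥(S ⊓ C)) * S.relIndex C = (Nat.card S * Nat.card ↥(S ⊓ C)) * S.relIndex (S ⊔ C) := by
        calc (Nat.card S * Nat.card ↥(S ⊓ C)) * S.relIndex C = Nat.card S * (Nat.card ↥(S ⊓ C) * S.relIndex C) := by ring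
          _ = Nat.card S * S.relIndex (S ⊔ C) * Nat.card ↥(S ⊓ C) := h1
          _ = (Nat.card S * Nat.card ↥(S ⊓ C)) * S.relIndex (S ⊔ C) := by ring
      exact Nat.eq_of_mul_eq_mul_left (Nat.mul_pos hSpos hSCpos) this
    rw [h4] at hdvd
    exact dvd_trans hdvd (Subgroup.relIndex_dvd_index_of_le le_sup_left)
  have hCW : ∃ n : ℕ, C.relIndex W = p ^ n := by
    have h1 : C = (⊥ : Subgroup (G ⧸ C)).comap (QuotientGroup.mk' C) := by
      rw [MonoidHom.comap_bot, QuotientGroup.ker_mk']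
    have h2 : C.relIndex W = Nat.card (pCore p (G ⧸ C)) := by
      conv_lhs => rw [h1]
      rw [Subgroup.relIndex_comap, hW, Subgroup.map_comap_eq_self_of_surjective (QuotientGroup.mk'_surjective C),
        Subgroup.relIndex_bot_left]
    rw [h2]
    exact (IsPGroup.iff_card (p := p)).mp (pCore_isPGroup p)
  have hsupW : H ⊔ C ≤ W := sup_le L1 L2
  have hrel : H.relIndex (H ⊔ C) = H.relIndex C := Subgroup.relIndex_sup_left (H := C) (K := H)
  constructor
  · rintro ⟨_, hnd⟩
    have c1 : S ⊓ C ≤ H := by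
      have hA : IsPGroup p ↥(H ⊔ (S ⊓ C)) := hH.to_sup_of_normal_left (hS.to_inf_left)
      have hAW : H ⊔ (S ⊓ C) ≤ W := sup_le L1 (inf_le_right.trans L2)
      have h1 : H.relIndex (H ⊔ (S ⊓ C)) ∣ H.relIndex W :=
        Dvd.intro _ (Subgroup.relIndex_mul_relIndex H (H ⊔ (S ⊓ C)) W le_sup_left hAW)
      obtain ⟨n, hn⟩ := hA.index (H.subgroupOf (H ⊔ (S ⊓ C)))
      have hn' : H.relIndex (H ⊔ (S ⊓ C)) = p ^ n := hn
      have hn0 : n = 0 := by
        by_contra h0
        apply hnd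
        refine dvd_trans ?_ h1
        rw [hn']
        exact dvd_pow_self p h0
      rw [hn0, pow_zero] at hn'
      exact le_sup_right.trans (Subgroup.relIndex_eq_one.mp hn')
    have cA : W ≤ H ⊔ C := by
      obtain ⟨n, hn⟩ := hCW
      have h1 : (H ⊔ C).relIndex W ∣ H.relIndex W := Subgroup.relIndex_dvd_of_le_left W le_sup_left
      have h2 : (H ⊔ C).relIndex W ∣ C.relIndex W := Subgroup.relIndex_dvd_of_le_left W le_sup_right
      rw [hn] at h2
      obtain ⟨i, _, hi⟩ := (Nat.dvd_prime_pow hp).mp h2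
      have hi0 : i = 0 := by
        by_contra h0
        apply hnd
        refine dvd_trans ?_ h1
        rw [hi]
        exact dvd_pow_self p h0
      rw [hi0, pow_zero] at hi
      exact Subgroup.relIndex_eq_one.mp hi
    have hWeq : W = H ⊔ C := le_antisymm cA hsupW
    have hZ : ¬ p ∣ H.relIndex C := by
      rw [← hrel, ← hWeq]; exact hnd
    refine ⟨c1, le_antisymm ?_ (sup_le L5 (L6b hZ))⟩
    rw [← hWeq]; exact L4
  · rintro ⟨h1, h2⟩
    have hZ : ¬ p ∣ H.relIndex C := by
      intro hd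
      apply L7
      rw [← Subgroup.inf_relIndex_right] at hd ⊢
      exact dvd_trans hd (Subgroup.relIndex_dvd_of_le_left C (le_inf h1 inf_le_right))
    have hWeq : W = H ⊔ C := le_antisymm (h2 ▸ L6c hZ) hsupW
    refine ⟨L1, ?_⟩
    rw [hWeq, hrel]
    exact hZ

end inner3

section transport
variable {G : Type*} [Group G]

theorem le_map_subtype_iff (N A : Subgroup G) (hA : A ≤ N) (X : Subgroup ↥N) :
    A ≤ X.map N.subtype ↔ A.subgroupOf N ≤ X := by
  have hmap : (A.subgroupOf N).map N.subtype = A := Subgroup.map_subgroupOf_eq_of_le hA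
  conv_lhs => rw [← hmap]
  exact Subgroup.map_subtype_le_map_subtype

theorem relIndex_map_subtype_eq (N A : Subgroup G) (hA : A ≤ N) (X : Subgroup ↥N) :
    A.relIndex (X.map N.subtype) = (A.subgroupOf N).relIndex X := by
  have hmap : (A.subgroupOf N).map N.subtype = A := Subgroup.map_subgroupOf_eq_of_le hA
  conv_lhs => rw [← hmap]
  exact Subgroup.relIndex_map_map_of_injective _ _ (Subgroup.subtype_injective _)

theorem map_subtype_eq_sup_iff (N A B : Subgroup G) (hA : A ≤ N) (hB : B ≤ N) (X : Subgroup ↥N) :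
    X.map N.subtype = A ⊔ B ↔ X = A.subgroupOf N ⊔ B.subgroupOf N := by
  rw [← Subgroup.subgroupOf_sup hA hB]
  constructor
  · intro h
    rw [← h]
    exact (Subgroup.comap_map_eq_self_of_injective (Subgroup.subtype_injective _) X).symm
  · intro h
    rw [h]
    exact Subgroup.map_subgroupOf_eq_of_le (sup_le hA hB)

theorem inf_le_iff_subgroupOf (N P C A : Subgroup G) (hC : C ≤ N) :
    P ⊓ C ≤ A ↔ (P ⊓ N).subgroupOf N ⊓ C.subgroupOf N ≤ A.subgroupOf N := by
  constructor
  · intro h x hx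
    rw [Subgroup.mem_subgroupOf]
    exact h ⟨hx.1.1, hx.2⟩
  · intro h g hg
    have := h (x := ⟨g, hC hg.2⟩) ⟨⟨hg.1, hC hg.2⟩, hg.2⟩
    exact this

end transport

/-- Let P be a Sylow p-subgroup of the finite group G and H ≤ P a subgroup with N_P(H) a Sylow p-subgroup of N_G(H). Let N be the preimage in N_G(H) of O_p(N_G(H)/C_G(H)). Then H is a Sylow p-subgroup of N if and only if C_P(H) ≤ H and O_{p',p}(N_G(H)) = H·C_G(H). -/
theorem result {G : Type*} [Group G] [Finite G] {p : ℕ} [Fact p.Prime]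
    (P : Sylow p G) (H : Subgroup G) (hHP : H ≤ (P : Subgroup G))
    (hSyl : ¬ p ∣ ((P : Subgroup G) ⊓ Subgroup.normalizer (H : Set G)).relIndex (Subgroup.normalizer (H : Set G)))
    [hC : ((Subgroup.centralizer (H : Set G)).subgroupOf (Subgroup.normalizer (H : Set G))).Normal] :
    (H ≤ ((Cfsg.pCore p (↥(Subgroup.normalizer (H : Set G)) ⧸
              (Subgroup.centralizer (H : Set G)).subgroupOf (Subgroup.normalizer (H : Set G)))).comap
            (QuotientGroup.mk' _)).map (Subgroup.normalizer (H : Set G)).subtype ∧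
      ¬ p ∣ H.relIndex (((Cfsg.pCore p (↥(Subgroup.normalizer (H : Set G)) ⧸
              (Subgroup.centralizer (H : Set G)).subgroupOf (Subgroup.normalizer (H : Set G)))).comap
            (QuotientGroup.mk' _)).map (Subgroup.normalizer (H : Set G)).subtype)) ↔
    ((P : Subgroup G) ⊓ Subgroup.centralizer (H : Set G) ≤ H ∧
      (Cfsg.pPrimePCore p ↥(Subgroup.normalizer (H : Set G))).map (Subgroup.normalizer (H : Set G)).subtype =
        H ⊔ Subgroup.centralizer (H : Set G)) := by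
  have hHN : H ≤ Subgroup.normalizer (H : Set G) := Subgroup.le_normalizer
  have hCN : Subgroup.centralizer (H : Set G) ≤ Subgroup.normalizer (H : Set G) :=
    Subgroup.centralizer_le_normalizer _
  have hHn : (H.subgroupOf (Subgroup.normalizer (H : Set G))).Normal := Subgroup.normal_in_normalizer
  have hHp : IsPGroup p (H.subgroupOf (Subgroup.normalizer (H : Set G))) :=
    (P.isPGroup'.to_le hHP).comap_subtype
  have hSp : IsPGroup p (((P : Subgroup G) ⊓ Subgroup.normalizer (H : Set G)).subgroupOf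
      (Subgroup.normalizer (H : Set G))) := (P.isPGroup'.to_inf_left).comap_subtype
  have hCdef : ∀ g : ↥(Subgroup.normalizer (H : Set G)),
      g ∈ (Subgroup.centralizer (H : Set G)).subgroupOf (Subgroup.normalizer (H : Set G)) ↔
        ∀ h ∈ H.subgroupOf (Subgroup.normalizer (H : Set G)), h * g = g * h := by
    intro g
    rw [Subgroup.mem_subgroupOf, Subgroup.mem_centralizer_iff]
    constructor
    · intro h1 h hh
      apply Subtype.ext
      exact h1 (h : G) hh
    · intro h1 h hh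
      have := h1 ⟨h, hHN hh⟩ hh
      exact congrArg Subtype.val this
  have key := inner_main (H.subgroupOf (Subgroup.normalizer (H : Set G)))
    ((Subgroup.centralizer (H : Set G)).subgroupOf (Subgroup.normalizer (H : Set G)))
    (((P : Subgroup G) ⊓ Subgroup.normalizer (H : Set G)).subgroupOf (Subgroup.normalizer (H : Set G)))
    hHp hCdef hSp hSyl
  rw [le_map_subtype_iff _ _ hHN, relIndex_map_subtype_eq _ _ hHN,
    inf_le_iff_subgroupOf (Subgroup.normalizer (H : Set G)) _ _ _ hCN,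
    map_subtype_eq_sup_iff _ _ _ hHN hCN]
  exact key

end Cfsg.Agent.S3076
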