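import Mathlib
import Cfsg.Statements.S3078
import Cfsg.Agent.S0130

set_option autoImplicit false
open Cfsg
open scoped commutatorElement

namespace Cfsg.Agent.S3078

variable {G : Type*} [Group G]

/-- cardinality comparison through a map which is a homomorphism modulo `W` -/
theorem card_le_of_hom_mod [Finite G] (X Y W : Subgroup G) (hWX : W ≤ X) (hWY : W ≤ Y)
    (hY : ∀ u ∈ Y, ∀ v ∈ Y, u * v = v * u) (c : G → G) (hc : ∀ a ∈ X, c a ∈ Y)
    (hmul : ∀ a ∈ X, ∀ b ∈ X, (c a * c b)⁻¹ * c (a * b) ∈ W)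
    (hker : ∀ a ∈ X, c a ∈ W → a ∈ W) :
    Nat.card X ≤ Nat.card Y ∧ ((∀ a ∈ W, c a ∈ W) →
      (∀ y ∈ Y, ∃ a ∈ X, (c a)⁻¹ * y ∈ W) → Nat.card X = Nat.card Y) := by
  have hWn : (W.subgroupOf Y).Normal := by
    constructor
    intro n hn g
    have h0 : g * n * g⁻¹ = n := by
      apply Subtype.ext
      have h1 := hY g g.2 n n.2
      simp only [Subgroup.coe_mul, Subgroup.coe_inv]
      rw [h1, mul_inv_cancel_right]
    rw [h0]
    exact hn
  let φ : ↥X →* ↥Y ⧸ W.subgroupOf Y :=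
    MonoidHom.mk' (fun a => QuotientGroup.mk ⟨c a, hc a a.2⟩) (by
      intro a b
      rw [← QuotientGroup.mk_mul]
      symm
      apply QuotientGroup.eq.mpr
      rw [Subgroup.mem_subgroupOf]
      exact hmul a a.2 b b.2)
  have hφ : ∀ a : ↥X, φ a = QuotientGroup.mk ⟨c a, hc a a.2⟩ := fun a => rfl
  have hkerle : φ.ker ≤ W.subgroupOf X := by
    intro a ha
    rw [MonoidHom.mem_ker, hφ, QuotientGroup.eq_one_iff, Subgroup.mem_subgroupOf] at ha
    rw [Subgroup.mem_subgroupOf]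
    exact hker a a.2 ha
  have h1 : Nat.card φ.ker * φ.ker.index = Nat.card X := Subgroup.card_mul_index _
  have h2 : φ.ker.index = Nat.card φ.range := Subgroup.index_ker φ
  have h3 : Nat.card (↥Y ⧸ W.subgroupOf Y) * Nat.card (W.subgroupOf Y) = Nat.card Y :=
    (Subgroup.card_eq_card_quotient_mul_card_subgroup _).symm
  have h4 : Nat.card (W.subgroupOf Y) = Nat.card W :=
    Nat.card_congr (Subgroup.subgroupOfEquivOfLe hWY).toEquiv
  have h5 : Nat.card (W.subgroupOf X) = Nat.card W :=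
    Nat.card_congr (Subgroup.subgroupOfEquivOfLe hWX).toEquiv
  have h6 : Nat.card φ.ker ≤ Nat.card W := h5 ▸ Subgroup.card_le_of_le hkerle
  have h7 : Nat.card φ.range ≤ Nat.card (↥Y ⧸ W.subgroupOf Y) := Subgroup.card_le_card_group _
  refine ⟨?_, ?_⟩
  · calc Nat.card X = Nat.card φ.ker * Nat.card φ.range := by rw [← h2, h1]
      _ ≤ Nat.card W * Nat.card (↥Y ⧸ W.subgroupOf Y) := Nat.mul_le_mul h6 h7
      _ = Nat.card Y := by rw [← h3, h4, mul_comm]
  · intro hker' hsurj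
    have hkereq : φ.ker = W.subgroupOf X := by
      apply le_antisymm hkerle
      intro a ha
      rw [Subgroup.mem_subgroupOf] at ha
      rw [MonoidHom.mem_ker, hφ, QuotientGroup.eq_one_iff, Subgroup.mem_subgroupOf]
      exact hker' a ha
    have hrange : φ.range = ⊤ := by
      rw [MonoidHom.range_eq_top]
      intro q
      induction q using QuotientGroup.induction_on with
      | H y =>
        obtain ⟨a, ha, hay⟩ := hsurj y y.2
        refine ⟨⟨a, ha⟩, ?_⟩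
        rw [hφ]
        apply QuotientGroup.eq.mpr
        rw [Subgroup.mem_subgroupOf]
        exact hay
    calc Nat.card X = Nat.card φ.ker * Nat.card φ.range := by rw [← h2, h1]
      _ = Nat.card W * Nat.card (↥Y ⧸ W.subgroupOf Y) := by
          rw [hkereq, h5, hrange, Subgroup.card_top]
      _ = Nat.card Y := by rw [← h3, h4, mul_comm]

/-- an element of `B` outside `N(A)` whose commutators with `A` normalize `A` -/
theorem exists_x [Finite G] {p : ℕ} [Fact p.Prime] (hG : IsPGroup p G) (A B : Subgroup G)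
    (hAB : A ≤ Subgroup.normalizer (B : Set G)) (hBnA : ¬ B ≤ Subgroup.normalizer (A : Set G)) :
    ∃ x ∈ B, x ∉ Subgroup.normalizer (A : Set G) ∧
      ∀ a ∈ A, x * a * x⁻¹ * a⁻¹ ∈ Subgroup.normalizer (A : Set G) := by
  have hnil : Group.IsNilpotent G := hG.isNilpotent
  have key : ∀ k n : ℕ, n + k = Group.nilpotencyClass G → ∀ K : Subgroup G, K ≤ B →
      K ≤ (⊤ : Subgroup G).lowerCentralSeries n → ¬ K ≤ Subgroup.normalizer (A : Set G) →
      ∃ x ∈ B, x ∉ Subgroup.normalizer (A : Set G) ∧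
        ∀ a ∈ A, x * a * x⁻¹ * a⁻¹ ∈ Subgroup.normalizer (A : Set G) := by
    intro k
    induction k with
    | zero =>
      intro n hn K hKB hKn hKA
      exfalso
      apply hKA
      rw [add_zero] at hn
      rw [hn, Subgroup.lowerCentralSeries_nilpotencyClass] at hKn
      exact hKn.trans bot_le
    | succ k ih =>
      intro n hn K hKB hKn hKA
      by_cases hcase : ⁅K, A⁆ ≤ Subgroup.normalizer (A : Set G)
      · obtain ⟨x, hxK, hxN⟩ := SetLike.not_le_iff_exists.mp hKA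
        refine ⟨x, hKB hxK, hxN, fun a ha => ?_⟩
        apply hcase
        have h0 := Subgroup.commutator_mem_commutator hxK ha
        rwa [commutatorElement_def] at h0
      · refine ih (n + 1) (by omega) ⁅K, A⁆ ?_ ?_ hcase
        · rw [Subgroup.commutator_le]
          intro g₁ hg₁ g₂ hg₂
          rw [commutatorElement_def]
          have h1 : g₂ * g₁⁻¹ * g₂⁻¹ ∈ B := by
            have h0 := hAB hg₂
            rw [Subgroup.mem_normalizer_iff] at h0
            exact (h0 g₁⁻¹).mp (B.inv_mem (hKB hg₁))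
          have h2 := B.mul_mem (hKB hg₁) h1
          simpa [mul_assoc] using h2
        · rw [Subgroup.lowerCentralSeries_succ]
          exact Subgroup.commutator_mono hKn le_top
  exact key _ 0 (zero_add _) B le_rfl le_top hBnA

theorem cancel_comm {U V w : G} (hU : Commute w U) (hV : Commute w V) :
    U * (w * V) * U⁻¹ * (w * V)⁻¹ = U * V * U⁻¹ * V⁻¹ := by
  have h1 : U * (w * V) = w * (U * V) := by rw [← mul_assoc, ← hU.eq, mul_assoc]
  have h2 : Commute w (U * V * U⁻¹ * V⁻¹) :=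
    ((hU.mul_right hV).mul_right hU.inv_right).mul_right hV.inv_right
  calc U * (w * V) * U⁻¹ * (w * V)⁻¹ = w * (U * V * U⁻¹ * V⁻¹) * w⁻¹ := by rw [h1]; group
    _ = U * V * U⁻¹ * V⁻¹ := by rw [h2.eq]; group

theorem odd_dvd_choose_two {e : ℕ} (he : Odd e) : e ∣ e.choose 2 := by
  obtain ⟨m, rfl⟩ := he
  rw [Nat.choose_two_right]
  refine ⟨m, ?_⟩
  have h1 : (2 * m + 1) * (2 * m + 1 - 1) = 2 * ((2 * m + 1) * m) := by
    rw [Nat.add_sub_cancel]; ring
  rw [h1, Nat.mul_div_cancel_left _ (by norm_num : 0 < 2)]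

/-- A replacement Theorem for abelian subgroups of p-groups, p odd. Let G be a finite p-group with p odd, A an abelian subgroup of G, and B a subgroup of nilpotency class at most 2 with [B, B] ≤ A, such that A normalizes B but B does not normalize A. Then there is an abelian subgroup A* of G of the same order as A with A ∩ B strictly contained in A* ∩ B, A* contained in N_G(A) and in the normal closure of A, the exponent of A* dividing the exponent of A, and with the subgroup generated by the elements of order dividing p in A of order at most that of the corresponding subgroup of A* (the rank of A is at most the rank of A*). -/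
theorem result {G : Type*} [Group G] [Finite G] {p : ℕ} [Fact p.Prime] (hp : p ≠ 2) (hG : IsPGroup p G) (A B : Subgroup G) (hA : IsMulCommutative A) (hB2 : ⁅⁅B, B⁆, B⁆ = ⊥) (hBA : ⁅B, B⁆ ≤ A) (hAB : A ≤ Subgroup.normalizer (B : Set G)) (hBnA : ¬ B ≤ Subgroup.normalizer (A : Set G)) : ∃ Astar : Subgroup G, IsMulCommutative Astar ∧ Nat.card Astar = Nat.card A ∧ A ⊓ B < Astar ⊓ B ∧ Astar ≤ Subgroup.normalizer (A : Set G) ∧ Astar ≤ Subgroup.normalClosure (A : Set G) ∧ Monoid.exponent Astar ∣ Monoid.exponent A ∧ Nat.card (Cfsg.omegaOne p A) ≤ Nat.card (Cfsg.omegaOne p Astar) := by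
  have hpp : p.Prime := Fact.out
  have hAc : ∀ a ∈ A, ∀ b ∈ A, a * b = b * a := fun a ha b hb => by
    have h0 := (isMulCommutative_iff.mp hA) ⟨a, ha⟩ ⟨b, hb⟩
    exact congrArg Subtype.val h0
  have hB' : ∀ b ∈ B, ∀ b' ∈ B, b * b' * b⁻¹ * b'⁻¹ ∈ ⁅B, B⁆ := fun b hb b' hb' => by
    have h0 := Subgroup.commutator_mem_commutator hb hb'
    rwa [commutatorElement_def] at h0
  have hcent : ∀ w ∈ ⁅B, B⁆, ∀ b ∈ B, b * w = w * b := by
    have h1 := Subgroup.commutator_eq_bot_iff_le_centralizer.mp hB2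
    intro w hw b hb
    exact Subgroup.mem_centralizer_iff.mp (h1 hw) b hb
  have hnB : ∀ a ∈ A, ∀ b ∈ B, a * b * a⁻¹ ∈ B := fun a ha b hb => by
    have h0 := hAB ha
    rw [Subgroup.mem_normalizer_iff] at h0
    exact (h0 b).mp hb
  have hnN : ∀ g ∈ Subgroup.normalizer (A : Set G), ∀ a ∈ A, g * a * g⁻¹ ∈ A :=
    fun g hg a ha => by
      rw [Subgroup.mem_normalizer_iff] at hg
      exact (hg a).mp ha
  have hD : ∀ b ∈ B, ∀ d ∈ A, d ∈ B → b * d * b⁻¹ ∈ A := by
    intro b hb d hdA hdB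
    have h1 := hBA (hB' b hb d hdB)
    have h2 : b * d * b⁻¹ = (b * d * b⁻¹ * d⁻¹) * d := by group
    rw [h2]
    exact A.mul_mem h1 hdA
  obtain ⟨x, hxB, hxN, hxA⟩ := exists_x hG A B hAB hBnA
  obtain ⟨c, hc⟩ : ∃ c : G → G, ∀ a, c a = x * a * x⁻¹ * a⁻¹ :=
    ⟨fun a => x * a * x⁻¹ * a⁻¹, fun a => rfl⟩
  have hc1 : c 1 = 1 := by rw [hc]; group
  have hcN : ∀ a ∈ A, c a ∈ Subgroup.normalizer (A : Set G) := fun a ha => by
    rw [hc]; exact hxA a ha
  have hcB : ∀ a ∈ A, c a ∈ B := fun a ha => by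
    rw [hc]
    have h1 : a * x⁻¹ * a⁻¹ ∈ B := hnB a ha x⁻¹ (B.inv_mem hxB)
    have h2 := B.mul_mem hxB h1
    simpa [mul_assoc] using h2
  have hxa : ∀ a, x * a * x⁻¹ = c a * a := fun a => by rw [hc]; group
  obtain ⟨β, hβ⟩ : ∃ β : G → G → G, ∀ a b, β a b = a * c b * a⁻¹ * (c b)⁻¹ :=
    ⟨fun a b => a * c b * a⁻¹ * (c b)⁻¹, fun _ _ => rfl⟩
  have hβA : ∀ a ∈ A, ∀ b ∈ A, β a b ∈ A := fun a ha b hb => by
    rw [hβ]
    have h1 := hnN (c b) (hcN b hb) a⁻¹ (A.inv_mem ha)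
    have h2 := A.mul_mem ha h1
    simpa [mul_assoc] using h2
  have hβB : ∀ a ∈ A, ∀ b ∈ A, β a b ∈ B := fun a ha b hb => by
    rw [hβ]
    exact B.mul_mem (hnB a ha _ (hcB b hb)) (B.inv_mem (hcB b hb))
  obtain ⟨Z, hZmem⟩ : ∃ Z : Subgroup G, ∀ a, a ∈ Z ↔ a ∈ A ∧ x * a * x⁻¹ ∈ A := by
    refine ⟨{ carrier := {a | a ∈ A ∧ x * a * x⁻¹ ∈ A}
              mul_mem' := ?_
              one_mem' := ?_
              inv_mem' := ?_ }, fun a => Iff.rfl⟩
    · rintro a b ⟨ha, ha'⟩ ⟨hb, hb'⟩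
      refine ⟨A.mul_mem ha hb, ?_⟩
      have h0 : x * (a * b) * x⁻¹ = (x * a * x⁻¹) * (x * b * x⁻¹) := by group
      rw [h0]
      exact A.mul_mem ha' hb'
    · refine ⟨A.one_mem, ?_⟩
      have h0 : x * 1 * x⁻¹ = 1 := by group
      rw [h0]
      exact A.one_mem
    · rintro a ⟨ha, ha'⟩
      refine ⟨A.inv_mem ha, ?_⟩
      have h0 : x * a⁻¹ * x⁻¹ = (x * a * x⁻¹)⁻¹ := by group
      rw [h0]
      exact A.inv_mem ha'
  have hZA : Z ≤ A := fun a ha => ((hZmem a).mp ha).1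
  have hDZ : ∀ d ∈ A, d ∈ B → d ∈ Z := fun d hdA hdB =>
    (hZmem d).mpr ⟨hdA, hD x hxB d hdA hdB⟩
  have hcZ : ∀ a ∈ A, (c a ∈ A ↔ a ∈ Z) := by
    intro a ha
    rw [hZmem]
    constructor
    · intro h
      exact ⟨ha, by rw [hxa]; exact A.mul_mem h ha⟩
    · rintro ⟨-, h⟩
      rw [hc]
      exact A.mul_mem h (A.inv_mem ha)
  have hZinv : ∀ z ∈ Z, x⁻¹ * z * x ∈ A := by
    intro z hz
    have hzA := hZA hz
    have h1 : c z ∈ A := (hcZ z hzA).mpr hz
    have h2 : c z ∈ B := hcB z hzA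
    have h3 := hD x⁻¹ (B.inv_mem hxB) (c z) h1 h2
    rw [inv_inv, hc] at h3
    have h4 : x⁻¹ * (x * z * x⁻¹ * z⁻¹) * x = z * (x⁻¹ * z * x)⁻¹ := by group
    rw [h4] at h3
    have h5 := A.mul_mem (A.inv_mem hzA) h3
    rw [inv_mul_cancel_left] at h5
    exact (A.inv_mem_iff).mp h5
  have hZx : ∀ z ∈ Z, ∀ b ∈ A, z * (x * b * x⁻¹) = (x * b * x⁻¹) * z := by
    intro z hz b hb
    have h1 : (x⁻¹ * z * x) * b = b * (x⁻¹ * z * x) := hAc _ (hZinv z hz) b hb
    calc z * (x * b * x⁻¹) = x * ((x⁻¹ * z * x) * b) * x⁻¹ := by group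
      _ = x * (b * (x⁻¹ * z * x)) * x⁻¹ := by rw [h1]
      _ = (x * b * x⁻¹) * z := by group
  have hZc : ∀ z ∈ Z, ∀ b ∈ A, z * c b = c b * z := by
    intro z hz b hb
    have h2 : z * b⁻¹ = b⁻¹ * z := hAc z (hZA hz) b⁻¹ (A.inv_mem hb)
    have h3 := hZx z hz b hb
    rw [hc]
    calc z * (x * b * x⁻¹ * b⁻¹) = (z * (x * b * x⁻¹)) * b⁻¹ := by group
      _ = (x * b * x⁻¹) * (z * b⁻¹) := by rw [h3]; group
      _ = x * b * x⁻¹ * b⁻¹ * z := by rw [h2]; group
  have hcmul : ∀ a b, c (a * b) = c a * β a b * c b := fun a b => by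
    rw [hβ, hc (a * b), hc a, hc b]; group
  have hβZ : ∀ a ∈ A, ∀ b ∈ A, β a b ∈ Z := fun a ha b hb =>
    hDZ _ (hβA a ha b hb) (hβB a ha b hb)
  have hβc : ∀ a ∈ A, ∀ b ∈ A, ∀ e ∈ A, β a b * c e = c e * β a b :=
    fun a ha b hb e he => hZc _ (hβZ a ha b hb) e he
  have ht : ∀ a ∈ A, ∀ b ∈ A, c a * c b * (c a)⁻¹ * (c b)⁻¹ = (β a b)⁻¹ * β b a := by
    intro a ha b hb
    have h1 : c a * β a b * c b = c b * β b a * c a := by
      rw [← hcmul, ← hcmul, hAc a ha b hb]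
    have h2 : c a * β a b = β a b * c a := (hβc a ha b hb a ha).symm
    have h3 : c b * β b a = β b a * c b := (hβc b hb a ha b hb).symm
    rw [h2, h3] at h1
    calc c a * c b * (c a)⁻¹ * (c b)⁻¹
        = (β a b)⁻¹ * (β a b * c a * c b) * (c a)⁻¹ * (c b)⁻¹ := by group
      _ = (β a b)⁻¹ * (β b a * c b * c a) * (c a)⁻¹ * (c b)⁻¹ := by rw [h1]
      _ = (β a b)⁻¹ * β b a := by group
  have hconj : ∀ a ∈ A, ∀ b ∈ A,
      x * β a b * x⁻¹ = β a b * (c a * c b * (c a)⁻¹ * (c b)⁻¹) := by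
    intro a ha b hb
    obtain ⟨w, hw⟩ : ∃ w, w = x * c b * x⁻¹ * (c b)⁻¹ := ⟨_, rfl⟩
    have hwB : w ∈ ⁅B, B⁆ := hw ▸ hB' x hxB (c b) (hcB b hb)
    have hwA : w ∈ A := hBA hwB
    have hxcb : x * c b * x⁻¹ = w * c b := by rw [hw]; group
    have hwa : Commute w a := hAc w hwA a ha
    have hwca : Commute w (c a) := (hcent w hwB (c a) (hcB a ha)).symm
    have hwcb : Commute w (c b) := (hcent w hwB (c b) (hcB b hb)).symm
    have hβca : c a * β a b = β a b * c a := (hβc a ha b hb a ha).symm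
    calc x * β a b * x⁻¹
        = (x * a * x⁻¹) * (x * c b * x⁻¹) * (x * a * x⁻¹)⁻¹ * (x * c b * x⁻¹)⁻¹ := by
          rw [hβ]; group
      _ = (c a * a) * (w * c b) * (c a * a)⁻¹ * (w * c b)⁻¹ := by rw [hxa, hxcb]
      _ = (c a * a) * c b * (c a * a)⁻¹ * (c b)⁻¹ := cancel_comm (hwca.mul_right hwa) hwcb
      _ = c a * β a b * c b * (c a)⁻¹ * (c b)⁻¹ := by rw [hβ]; group
      _ = β a b * (c a * c b * (c a)⁻¹ * (c b)⁻¹) := by rw [hβca]; group
  have ht1 : ∀ a ∈ A, ∀ b ∈ A, c a * c b * (c a)⁻¹ * (c b)⁻¹ = 1 := by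
    intro a ha b hb
    obtain ⟨t, htdef⟩ : ∃ t, t = c a * c b * (c a)⁻¹ * (c b)⁻¹ := ⟨_, rfl⟩
    rw [← htdef]
    have htB : t ∈ ⁅B, B⁆ := htdef ▸ hB' _ (hcB a ha) _ (hcB b hb)
    have htx : x * t * x⁻¹ = t := by
      have h0 := hcent t htB x hxB
      rw [h0]; group
    have htinv : t⁻¹ = c b * c a * (c b)⁻¹ * (c a)⁻¹ := by rw [htdef]; group
    have e1 : t = (β a b)⁻¹ * β b a := by rw [htdef]; exact ht a ha b hb
    have e3 : x * β a b * x⁻¹ = β a b * t := by rw [htdef]; exact hconj a ha b hb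
    have e4 : x * β b a * x⁻¹ = β b a * t⁻¹ := by rw [htinv]; exact hconj b hb a ha
    have e5 : β b a = β a b * t := by rw [e1]; group
    have e6 : x * β b a * x⁻¹ = β a b * t * t := by
      calc x * β b a * x⁻¹ = (x * β a b * x⁻¹) * (x * t * x⁻¹) := by rw [e5]; group
        _ = β a b * t * t := by rw [e3, htx]
    have e7 : β a b * t * t = β a b := by
      rw [← e6, e4, e5]; group
    have e8 : t * t = 1 := by
      have h0 : β a b * (t * t) = β a b * 1 := by rw [← mul_assoc, e7, mul_one]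
      exact mul_left_cancel h0
    obtain ⟨k, hk⟩ := hG t
    have h1 : orderOf t ∣ 2 := orderOf_dvd_of_pow_eq_one (by rw [pow_two]; exact e8)
    have h2 : orderOf t ∣ p ^ k := orderOf_dvd_of_pow_eq_one hk
    have h3 : orderOf t = 1 := Nat.eq_one_of_dvd_coprimes
      (Nat.Coprime.pow_right k ((Nat.coprime_primes Nat.prime_two hpp).mpr (Ne.symm hp))) h1 h2
    exact orderOf_eq_one_iff.mp h3
  have hcc : ∀ a ∈ A, ∀ b ∈ A, c a * c b = c b * c a := by
    intro a ha b hb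
    calc c a * c b = (c a * c b * (c a)⁻¹ * (c b)⁻¹) * (c b * c a) := by group
      _ = c b * c a := by rw [ht1 a ha b hb, one_mul]
  -- the subgroup `A*`
  obtain ⟨S, hSmem⟩ : ∃ S : Subgroup G, ∀ y, y ∈ S ↔ ∃ a ∈ A, ∃ z ∈ Z, y = c a * z := by
    refine ⟨{ carrier := {y | ∃ a ∈ A, ∃ z ∈ Z, y = c a * z}
              mul_mem' := ?_
              one_mem' := ?_
              inv_mem' := ?_ }, fun y => Iff.rfl⟩
    · rintro _ _ ⟨a, ha, z, hz, rfl⟩ ⟨b, hb, z', hz', rfl⟩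
      refine ⟨a * b, A.mul_mem ha hb, (β a b)⁻¹ * z * z',
        Z.mul_mem (Z.mul_mem (Z.inv_mem (hβZ a ha b hb)) hz) hz', ?_⟩
      rw [hcmul]
      have h1 : z * c b = c b * z := hZc z hz b hb
      have h2 : β a b * c b = c b * β a b := hβc a ha b hb b hb
      calc c a * z * (c b * z') = c a * (z * c b) * z' := by group
        _ = c a * (c b * z) * z' := by rw [h1]
        _ = c a * (c b * β a b) * (β a b)⁻¹ * z * z' := by group
        _ = c a * (β a b * c b) * (β a b)⁻¹ * z * z' := by rw [h2]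
        _ = c a * β a b * c b * ((β a b)⁻¹ * z * z') := by group
    · exact ⟨1, A.one_mem, 1, Z.one_mem, by rw [hc1, one_mul]⟩
    · rintro _ ⟨a, ha, z, hz, rfl⟩
      have hai := A.inv_mem ha
      refine ⟨a⁻¹, hai, β a a⁻¹ * z⁻¹, Z.mul_mem (hβZ a ha _ hai) (Z.inv_mem hz), ?_⟩
      have h0 : c a * β a a⁻¹ * c (a⁻¹) = 1 := by rw [← hcmul, mul_inv_cancel, hc1]
      have h1 : z * c a = c a * z := hZc z hz a ha
      have h2 : β a a⁻¹ * c (a⁻¹) = c (a⁻¹) * β a a⁻¹ := hβc a ha _ hai _ hai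
      have h3 : (c a)⁻¹ = β a a⁻¹ * c (a⁻¹) := by
        rw [mul_assoc] at h0
        exact inv_eq_of_mul_eq_one_right h0
      have h4 : (c a * z)⁻¹ = (z * c a)⁻¹ := by rw [h1]
      rw [h4, mul_inv_rev, h3, h2, mul_assoc]
  have hZS : Z ≤ S := fun z hz => (hSmem z).mpr ⟨1, A.one_mem, z, hz, by rw [hc1, one_mul]⟩
  have hcS : ∀ a ∈ A, c a ∈ S := fun a ha =>
    (hSmem (c a)).mpr ⟨a, ha, 1, Z.one_mem, (mul_one _).symm⟩
  have hSc : ∀ u ∈ S, ∀ v ∈ S, u * v = v * u := by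
    intro u hu v hv
    obtain ⟨a, ha, z, hz, rfl⟩ := (hSmem u).mp hu
    obtain ⟨b, hb, z', hz', rfl⟩ := (hSmem v).mp hv
    have h1 := hcc a ha b hb
    have h2 := hZc z hz b hb
    have h3 := hZc z' hz' a ha
    have h4 := hAc z (hZA hz) z' (hZA hz')
    calc c a * z * (c b * z') = c a * (z * c b) * z' := by group
      _ = c a * (c b * z) * z' := by rw [h2]
      _ = (c a * c b) * (z * z') := by group
      _ = (c b * c a) * (z' * z) := by rw [h1, h4]
      _ = c b * (c a * z') * z := by group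
      _ = c b * (z' * c a) * z := by rw [h3]
      _ = c b * z' * (c a * z) := by group
  have hmulβ : ∀ a ∈ A, ∀ b ∈ A, (c a * c b)⁻¹ * c (a * b) = β a b := by
    intro a ha b hb
    have h2 : β a b * c b = c b * β a b := hβc a ha b hb b hb
    rw [hcmul, mul_assoc, h2]
    group
  -- power formulas
  have hβpow : ∀ a ∈ A, ∀ b ∈ A, ∀ m : ℕ, a ^ m = 1 → (β a b) ^ m = 1 := by
    intro a ha b hb m hm
    have hct : Commute (β a b) a := hAc _ (hβA a ha b hb) a ha
    have h0 : a * c b = β a b * c b * a := by rw [hβ]; group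
    have h1 := Cfsg.Agent.S0130.pow_mul_of_comm hct h0 m
    rw [hm, one_mul, mul_one] at h1
    have h2 : (β a b) ^ m * c b = 1 * c b := by rw [one_mul]; exact h1.symm
    exact mul_right_cancel h2
  have hcpow : ∀ a ∈ A, ∀ m : ℕ, a ^ m = 1 → m ∣ m.choose 2 → (c a) ^ m = 1 := by
    intro a ha m hm hdvd
    have hai := A.inv_mem ha
    have hk : β a⁻¹ a = a⁻¹ * (x * a * x⁻¹) * (a⁻¹)⁻¹ * (x * a * x⁻¹)⁻¹ := by
      rw [hβ, hc]; group
    have hkZ : β a⁻¹ a ∈ Z := hβZ _ hai a ha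
    have hcs : Commute (β a⁻¹ a) (x * a * x⁻¹) := hZx _ hkZ a ha
    have hct : Commute (β a⁻¹ a) a⁻¹ := hAc _ (hZA hkZ) _ hai
    have h0 : a⁻¹ * (x * a * x⁻¹) = β a⁻¹ a * (x * a * x⁻¹) * a⁻¹ := by rw [hk]; group
    have h1 := Cfsg.Agent.S0130.mul_pow_of_comm hcs hct h0 m
    have h2 : (β a⁻¹ a) ^ m = 1 := hβpow _ hai a ha m (by rw [inv_pow, hm, inv_one])
    obtain ⟨j, hj⟩ := hdvd
    have h3 : c a = x * a * x⁻¹ * a⁻¹ := hc a
    rw [h3, h1, conj_pow, hm, inv_pow, hm, hj, pow_mul, h2]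
    group
  -- conclusions
  have hcard := (card_le_of_hom_mod A S Z hZA hZS hSc c hcS
    (fun a ha b hb => by rw [hmulβ a ha b hb]; exact hβZ a ha b hb)
    (fun a ha h => (hcZ a ha).mp (hZA h))).2
    (fun a ha => hDZ _ ((hcZ a (hZA ha)).mpr ha) (hcB a (hZA ha)))
    (fun y hy => by
      obtain ⟨a, ha, z, hz, rfl⟩ := (hSmem y).mp hy
      exact ⟨a, ha, by rw [inv_mul_cancel_left]; exact hz⟩)
  have hlt : A ⊓ B < S ⊓ B := by
    have hle : A ⊓ B ≤ S ⊓ B := fun d hd => by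
      obtain ⟨hdA, hdB⟩ := Subgroup.mem_inf.mp hd
      exact Subgroup.mem_inf.mpr ⟨hZS (hDZ d hdA hdB), hdB⟩
    refine lt_of_le_of_ne hle ?_
    intro heq
    have hex : ∃ a ∈ A, x * a * x⁻¹ ∉ A := by
      by_contra hcon
      push Not at hcon
      exact hxN (Subgroup.mem_normalizer_fintype (fun n hn => hcon n hn))
    obtain ⟨a, ha, hxa'⟩ := hex
    have h1 : c a ∈ S ⊓ B := Subgroup.mem_inf.mpr ⟨hcS a ha, hcB a ha⟩
    rw [← heq] at h1
    exact hxa' (by rw [hxa]; exact A.mul_mem (Subgroup.mem_inf.mp h1).1 ha)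
  have hSN : S ≤ Subgroup.normalizer (A : Set G) := by
    intro y hy
    obtain ⟨a, ha, z, hz, rfl⟩ := (hSmem y).mp hy
    exact Subgroup.mul_mem _ (hcN a ha) (Subgroup.le_normalizer (hZA hz))
  have hSnc : S ≤ Subgroup.normalClosure (A : Set G) := by
    intro y hy
    obtain ⟨a, ha, z, hz, rfl⟩ := (hSmem y).mp hy
    have h1 : a ∈ Subgroup.normalClosure (A : Set G) := Subgroup.subset_normalClosure ha
    have h2 : x * a * x⁻¹ ∈ Subgroup.normalClosure (A : Set G) :=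
      Subgroup.normalClosure_normal.conj_mem a h1 x
    rw [hc]
    exact Subgroup.mul_mem _ (Subgroup.mul_mem _ h2 (Subgroup.inv_mem _ h1))
      (Subgroup.subset_normalClosure (hZA hz))
  have hexp : Monoid.exponent ↥S ∣ Monoid.exponent ↥A := by
    obtain ⟨e, he⟩ : ∃ e, e = Monoid.exponent ↥A := ⟨_, rfl⟩
    rw [← he]
    have hAe : ∀ a ∈ A, a ^ e = 1 := fun a ha => by
      have h0 := Monoid.pow_exponent_eq_one (⟨a, ha⟩ : ↥A)
      rw [← he] at h0
      exact congrArg Subtype.val h0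
    have hodd : Odd e := by
      have h1 : e ∣ Nat.card A := he ▸ Group.exponent_dvd_nat_card
      obtain ⟨n, hn⟩ := IsPGroup.iff_card.mp (hG.to_subgroup A)
      rw [hn] at h1
      obtain ⟨j, -, hj⟩ := (Nat.dvd_prime_pow hpp).mp h1
      rw [hj]
      exact (hpp.odd_of_ne_two hp).pow
    apply Monoid.exponent_dvd_of_forall_pow_eq_one
    intro y
    obtain ⟨a, ha, z, hz, hy⟩ := (hSmem y).mp y.2
    apply Subtype.ext
    have hcz : Commute (c a) z := (hZc z hz a ha).symm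
    rw [Subgroup.coe_pow, Subgroup.coe_one, hy, hcz.mul_pow, hAe z (hZA hz), mul_one]
    exact hcpow a ha e (hAe a ha) (odd_dvd_choose_two hodd)
  have hΩ : Nat.card (Cfsg.omegaOne p A) ≤ Nat.card (Cfsg.omegaOne p S) := by
    have hΩA : ∀ y ∈ Cfsg.omegaOne p A, y ∈ A ∧ y ^ p = 1 := by
      intro y hy
      unfold Cfsg.omegaOne at hy
      induction hy using Subgroup.closure_induction with
      | mem y hy => exact hy
      | one => exact ⟨A.one_mem, one_pow p⟩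
      | mul u v _ _ hu hv =>
        refine ⟨A.mul_mem hu.1 hv.1, ?_⟩
        have h0 : Commute u v := hAc u hu.1 v hv.1
        rw [h0.mul_pow, hu.2, hv.2, one_mul]
      | inv u _ hu => exact ⟨A.inv_mem hu.1, by rw [inv_pow, hu.2, inv_one]⟩
    have hΩS : Cfsg.omegaOne p S ≤ S := by
      unfold Cfsg.omegaOne
      rw [Subgroup.closure_le]
      intro y hy
      exact hy.1
    have hmemA : ∀ y ∈ A, y ^ p = 1 → y ∈ Cfsg.omegaOne p A := fun y hy hyp =>
      Subgroup.subset_closure ⟨hy, hyp⟩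
    have hmemS : ∀ y ∈ S, y ^ p = 1 → y ∈ Cfsg.omegaOne p S := fun y hy hyp =>
      Subgroup.subset_closure ⟨hy, hyp⟩
    have hpdvd : p ∣ p.choose 2 := by
      have h2 : 2 < p := lt_of_le_of_ne hpp.two_le (Ne.symm hp)
      exact hpp.dvd_choose_self (by norm_num) h2
    refine (card_le_of_hom_mod (Cfsg.omegaOne p A) (Cfsg.omegaOne p S) (Cfsg.omegaOne p A ⊓ Z)
      inf_le_left ?_ (fun u hu v hv => hSc u (hΩS hu) v (hΩS hv)) c ?_ ?_ ?_).1
    · intro w hw
      obtain ⟨hw1, hw2⟩ := Subgroup.mem_inf.mp hw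
      exact hmemS w (hZS hw2) (hΩA w hw1).2
    · intro a ha
      obtain ⟨haA, hap⟩ := hΩA a ha
      exact hmemS _ (hcS a haA) (hcpow a haA p hap hpdvd)
    · intro a ha b hb
      obtain ⟨haA, hap⟩ := hΩA a ha
      obtain ⟨hbA, hbp⟩ := hΩA b hb
      rw [hmulβ a haA b hbA]
      exact Subgroup.mem_inf.mpr ⟨hmemA _ (hβA a haA b hbA) (hβpow a haA b hbA p hap),
        hβZ a haA b hbA⟩
    · intro a ha h
      obtain ⟨haA, hap⟩ := hΩA a ha
      exact Subgroup.mem_inf.mpr ⟨ha, (hcZ a haA).mp (hZA (Subgroup.mem_inf.mp h).2)⟩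
  exact ⟨S, isMulCommutative_iff.mpr fun u v => Subtype.ext (hSc u u.2 v v.2), hcard.symm, hlt,
    hSN, hSnc, hexp, hΩ⟩

end Cfsg.Agent.S3078
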