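import Cfsg.Statements.S3087
import Mathlib

set_option autoImplicit false
open Cfsg

namespace Cfsg.Agent.S3087

/-- fixed points of a subgroup, as an additive subgroup -/
def fix {G V : Type*} [Group G] [AddCommGroup V] (p : ℕ) [Module (ZMod p) V]
    (ρ : Representation (ZMod p) G V) (S : Subgroup G) : AddSubgroup V where
  carrier := {v | ∀ s ∈ S, ρ s v = v}
  zero_mem' := by intro s _; simp
  add_mem' := by
    intro a b ha hb s hs
    simp [ha s hs, hb s hs]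
  neg_mem' := by
    intro a ha s hs
    simp [ha s hs]

theorem card_mul_card_add {V : Type*} [AddCommGroup V] [Finite V] (X Y : AddSubgroup V) :
    Nat.card X * Nat.card Y = Nat.card ↥(X ⊔ Y) * Nat.card ↥(X ⊓ Y) := by
  have h1 : Nat.card ↥(X ⊔ Y) = Nat.card Y * Y.relIndex (X ⊔ Y) := by
    rw [← AddSubgroup.relIndex_bot_left (H := Y), ← AddSubgroup.relIndex_bot_left (H := X ⊔ Y)]
    exact (AddSubgroup.relIndex_mul_relIndex ⊥ Y (X ⊔ Y) bot_le le_sup_right).symm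
  have h2 : Nat.card X = Nat.card ↥(X ⊓ Y) * (X ⊓ Y).relIndex X := by
    rw [← AddSubgroup.relIndex_bot_left (H := X), ← AddSubgroup.relIndex_bot_left (H := X ⊓ Y)]
    exact (AddSubgroup.relIndex_mul_relIndex ⊥ (X ⊓ Y) X bot_le inf_le_left).symm
  have h3 : Y.relIndex (X ⊔ Y) = (X ⊓ Y).relIndex X := by
    rw [AddSubgroup.relIndex_sup_right, inf_comm, AddSubgroup.inf_relIndex_right]
  rw [h1, h2, h3]
  ring

theorem result {G V : Type*} [Group G] [Finite G] [AddCommGroup V] [Finite V] (p : ℕ) [Fact p.Prime] [Module (ZMod p) V]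
    (ρ : Representation (ZMod p) G V) (W : Submodule (ZMod p) V) (hW : ∀ g : G, ∀ w ∈ W, ρ g w ∈ W)
    (A : Subgroup G)
    (hP : ∀ B : Subgroup G, B ≤ A →
      Nat.card ↥B * Nat.card {v : V // ∀ b ∈ B, ρ b v = v} ≤ Nat.card ↥A * Nat.card {v : V // ∀ a ∈ A, ρ a v = v})
    (B : Subgroup G) (hBA : B ≤ A) (hCB : ∀ a ∈ A, (∀ w ∈ W, ρ a w = w) → a ∈ B) :
    Nat.card ↥B * Nat.card {w : W // ∀ b ∈ B, ρ b w = w} ≤ Nat.card ↥A * Nat.card {w : W // ∀ a ∈ A, ρ a w = w} := by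
  have key : ∀ S : Subgroup G, Nat.card {w : W // ∀ b ∈ S, ρ b w = w} = Nat.card ↥(fix p ρ S ⊓ W.toAddSubgroup) := by
    intro S
    refine Nat.card_congr ⟨fun x => ⟨x.1.1, ⟨x.2, x.1.2⟩⟩, fun y => ⟨⟨y.1, y.2.2⟩, y.2.1⟩, ?_, ?_⟩
    · intro x; rfl
    · intro y; rfl
  have keyV : ∀ S : Subgroup G, Nat.card {v : V // ∀ b ∈ S, ρ b v = v} = Nat.card ↥(fix p ρ S) := by
    intro S; rfl
  rw [key, key]
  have hPB := hP B hBA
  rw [keyV, keyV] at hPB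
  set FA := fix p ρ A
  set FB := fix p ρ B
  set Wa := W.toAddSubgroup
  have hFAB : FA ≤ FB := fun v hv s hs => hv s (hBA hs)
  have e1 : (FB ⊓ Wa) ⊓ FA = FA ⊓ Wa := by
    apply le_antisymm
    · exact le_inf inf_le_right (inf_le_left.trans inf_le_right)
    · exact le_inf (le_inf (inf_le_left.trans hFAB) inf_le_right) inf_le_left
  have e2 : (FB ⊓ Wa) ⊔ FA ≤ FB := sup_le inf_le_left hFAB
  have e3 := card_mul_card_add (FB ⊓ Wa) FA
  rw [e1] at e3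
  have e4 : Nat.card ↥((FB ⊓ Wa) ⊔ FA) ≤ Nat.card ↥FB := AddSubgroup.card_le_of_le e2
  have hpos : 0 < Nat.card ↥FA := Nat.card_pos
  have e5 : Nat.card ↥(FB ⊓ Wa) * Nat.card ↥FA ≤ Nat.card ↥FB * Nat.card ↥(FA ⊓ Wa) := by
    rw [e3]; exact Nat.mul_le_mul_right _ e4
  have e6 : (Nat.card ↥B * Nat.card ↥(FB ⊓ Wa)) * Nat.card ↥FA ≤ (Nat.card ↥A * Nat.card ↥(FA ⊓ Wa)) * Nat.card ↥FA := by
    calc (Nat.card ↥B * Nat.card ↥(FB ⊓ Wa)) * Nat.card ↥FA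
        = Nat.card ↥B * (Nat.card ↥(FB ⊓ Wa) * Nat.card ↥FA) := by ring
      _ ≤ Nat.card ↥B * (Nat.card ↥FB * Nat.card ↥(FA ⊓ Wa)) := Nat.mul_le_mul_left _ e5
      _ = (Nat.card ↥B * Nat.card ↥FB) * Nat.card ↥(FA ⊓ Wa) := by ring
      _ ≤ (Nat.card ↥A * Nat.card ↥FA) * Nat.card ↥(FA ⊓ Wa) := Nat.mul_le_mul_right _ hPB
      _ = (Nat.card ↥A * Nat.card ↥(FA ⊓ Wa)) * Nat.card ↥FA := by ring
  exact Nat.le_of_mul_le_mul_right e6 hpos

end Cfsg.Agent.S3087
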