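import Cfsg.Statements.S3116
import Mathlib

set_option autoImplicit false
open Cfsg

namespace Cfsg.Agent.S3116

theorem pow_two_pow_modEq_one (a n : ℕ) (h : Nat.Coprime a (2 ^ n)) : a ^ (2 ^ n) ≡ 1 [MOD 2 ^ n] := by
  have h1 : a ^ Nat.totient (2 ^ n) ≡ 1 [MOD 2 ^ n] := Nat.ModEq.pow_totient h
  have h2 : Nat.totient (2 ^ n) ∣ 2 ^ n := by
    rcases n with _ | n
    · simp
    · rw [Nat.totient_prime_pow Nat.prime_two (Nat.succ_pos n)]
      simp only [Nat.reduceSub, mul_one]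
      exact pow_dvd_pow 2 (Nat.le_succ n)
  obtain ⟨d, hd⟩ := h2
  have h3 : a ^ (2 ^ n) = (a ^ Nat.totient (2 ^ n)) ^ d := by
    rw [← pow_mul, ← hd]
  rw [h3]
  have := h1.pow d
  rwa [one_pow] at this

theorem mem_zpowers_iff_nat {X : Type*} [Group X] [Finite X] (x g : X) :
    g ∈ Subgroup.zpowers x ↔ ∃ k : ℕ, x ^ k = g := by
  rw [← mem_powers_iff_mem_zpowers]
  exact Submonoid.mem_powers_iff g x

theorem aut_pow_eq_one {X : Type*} [Group X] [Finite X] (x y : X) (n : ℕ) (hx : orderOf x = 2 ^ n)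
    (hcov : ∀ g : X, g ∈ Subgroup.zpowers x ∨ ∃ i : ℕ, g = x ^ i * y)
    (hord : ∀ g : X, g ∉ Subgroup.zpowers x → orderOf g ≠ 2 ^ n)
    (hy : y ∉ Subgroup.zpowers x) (α : MulAut X) : α ^ (2 ^ n * 2 ^ n) = 1 := by
  -- α x is a power of x
  have h1 : α x ∈ Subgroup.zpowers x := by
    by_contra hc
    apply hord _ hc
    rw [← hx]
    exact MulEquiv.orderOf_eq α x
  obtain ⟨a, ha⟩ := (mem_zpowers_iff_nat x _).mp h1
  have hcop : Nat.Coprime a (2 ^ n) := by
    have h2 : orderOf (x ^ a) = 2 ^ n := by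
      rw [ha, ← hx]
      exact MulEquiv.orderOf_eq α x
    rw [orderOf_pow, hx] at h2
    have hpos : 0 < 2 ^ n := by positivity
    have hg : Nat.gcd (2 ^ n) a ∣ 2 ^ n := Nat.gcd_dvd_left _ _
    obtain ⟨q, hq⟩ := hg
    have hgpos : 0 < Nat.gcd (2 ^ n) a := Nat.gcd_pos_of_pos_left _ hpos
    have h3 : 2 ^ n / Nat.gcd (2 ^ n) a = q := Nat.div_eq_of_eq_mul_right hgpos hq
    rw [h3] at h2
    have h4 : Nat.gcd (2 ^ n) a = 1 := by
      rw [h2] at hq
      have : 2 ^ n * 1 = 2 ^ n * Nat.gcd (2 ^ n) a := by rw [mul_one, mul_comm]; exact hq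
      exact (Nat.eq_of_mul_eq_mul_left hpos this).symm
    rw [Nat.coprime_comm]
    exact h4
  have hpowx : ∀ j : ℕ, (α ^ j) x = x ^ (a ^ j) := by
    intro j
    induction j with
    | zero => simp
    | succ j ih =>
      rw [pow_succ', MulAut.mul_apply, ih, map_pow, ← ha, ← pow_mul, pow_succ']
  set β := α ^ (2 ^ n) with hβ
  have hβx : β x = x := by
    rw [hβ, hpowx]
    have := pow_two_pow_modEq_one a n hcop
    have h5 := (pow_eq_pow_iff_modEq (x := x) (n := a ^ 2 ^ n) (m := 1)).mpr (by rw [hx]; exact this)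
    rw [h5, pow_one]
  have hβpow : ∀ i : ℕ, β (x ^ i) = x ^ i := by
    intro i; rw [map_pow, hβx]
  have hβy : β y ∉ Subgroup.zpowers x := by
    intro hc
    obtain ⟨i, hi⟩ := (mem_zpowers_iff_nat x _).mp hc
    apply hy
    rw [mem_zpowers_iff_nat]
    refine ⟨i, ?_⟩
    apply β.injective
    rw [hβpow, hi]
  obtain ⟨c, hc⟩ : ∃ c : ℕ, β y = x ^ c * y := by
    rcases hcov (β y) with h | h
    · exact absurd h hβy
    · exact h
  have hpowy : ∀ j : ℕ, (β ^ j) y = x ^ (j * c) * y := by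
    intro j
    induction j with
    | zero => simp
    | succ j ih =>
      rw [pow_succ', MulAut.mul_apply, ih, map_mul, hβpow, hc, ← mul_assoc, ← pow_add, Nat.succ_mul]
  have hpowx' : ∀ j : ℕ, (β ^ j) x = x := by
    intro j
    induction j with
    | zero => simp
    | succ j ih => rw [pow_succ', MulAut.mul_apply, ih, hβx]
  have hγy : (β ^ (2 ^ n)) y = y := by
    rw [hpowy, pow_mul, ← hx, pow_orderOf_eq_one, one_pow, one_mul]
  have hfin : β ^ (2 ^ n) = 1 := by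
    apply MulEquiv.ext
    intro g
    rw [MulAut.one_apply]
    rcases hcov g with h | ⟨i, rfl⟩
    · obtain ⟨k, rfl⟩ := (mem_zpowers_iff_nat x _).mp h
      rw [map_pow, hpowx']
    · rw [map_mul, map_pow, hpowx', hγy]
  rw [pow_mul]
  exact hfin

theorem isPGroup_of_cyclic_index_two {X : Type*} [Group X] [Finite X] (x y : X) (n : ℕ) (hx : orderOf x = 2 ^ n)
    (hcov : ∀ g : X, g ∈ Subgroup.zpowers x ∨ ∃ i : ℕ, g = x ^ i * y)
    (hord : ∀ g : X, g ∉ Subgroup.zpowers x → orderOf g ≠ 2 ^ n)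
    (hy : y ∉ Subgroup.zpowers x) : IsPGroup 2 (MulAut X) := by
  intro α
  refine ⟨n + n, ?_⟩
  rw [pow_add]
  exact aut_pow_eq_one x y n hx hcov hord hy α

theorem dihedral_case (m : ℕ) (hm : 2 ≤ m) : IsPGroup 2 (MulAut (DihedralGroup (2 ^ m))) := by
  have : NeZero (2 ^ m) := ⟨by positivity⟩
  have h4 : 4 ≤ 2 ^ m := by
    calc 4 = 2 ^ 2 := by norm_num
      _ ≤ 2 ^ m := Nat.pow_le_pow_right (by norm_num) hm
  have hz : ∀ g : DihedralGroup (2 ^ m), g ∈ Subgroup.zpowers (DihedralGroup.r 1) ↔ ∃ i, g = DihedralGroup.r i := by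
    intro g
    rw [mem_zpowers_iff_nat]
    constructor
    · rintro ⟨k, rfl⟩
      exact ⟨k, DihedralGroup.r_one_pow k⟩
    · rintro ⟨i, rfl⟩
      refine ⟨i.val, ?_⟩
      rw [DihedralGroup.r_one_pow, ZMod.natCast_zmod_val]
  apply isPGroup_of_cyclic_index_two (DihedralGroup.r 1) (DihedralGroup.sr 0) m DihedralGroup.orderOf_r_one
  · intro g
    rcases g with i | i
    · left; exact (hz _).mpr ⟨i, rfl⟩
    · right
      refine ⟨(-i).val, ?_⟩
      rw [DihedralGroup.r_one_pow, ZMod.natCast_zmod_val, DihedralGroup.r_mul_sr]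
      simp
  · intro g hg
    rcases g with i | i
    · exact absurd ((hz _).mpr ⟨i, rfl⟩) hg
    · rw [DihedralGroup.orderOf_sr]
      omega
  · rw [hz]
    rintro ⟨i, hi⟩
    cases hi

theorem quasi_case {X : Type*} [Group X] [Finite X] (n : ℕ) (hn : 3 ≤ n) (hcard : Nat.card X = 2 ^ (n + 1))
    (x y : X) (hx : orderOf x = 2 ^ n) (hyo : orderOf y = 2) (hxy : y * x * y⁻¹ = x ^ (2 ^ (n - 1) - 1)) :
    IsPGroup 2 (MulAut X) := by
  have hpos : 0 < 2 ^ n := by positivity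
  have h8 : 8 ≤ 2 ^ n := by
    calc 8 = 2 ^ 3 := by norm_num
      _ ≤ 2 ^ n := Nat.pow_le_pow_right (by norm_num) hn
  have hn1 : 2 ^ n = 2 * 2 ^ (n - 1) := by
    rw [← pow_succ']; congr 1; omega
  have hy : y ∉ Subgroup.zpowers x := by
    intro hc
    obtain ⟨k, rfl⟩ := (mem_zpowers_iff_nat x _).mp hc
    have h1 : x ^ k * x * (x ^ k)⁻¹ = x := by
      rw [← pow_succ, pow_succ', mul_inv_cancel_right]
    rw [h1] at hxy
    have h2 : x ^ 1 = x ^ (2 ^ (n - 1) - 1) := by rw [pow_one]; exact hxy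
    rw [pow_eq_pow_iff_modEq, hx] at h2
    have h3 := Nat.ModEq.eq_of_lt_of_lt h2 (by omega) (by omega)
    omega
  have hidx : (Subgroup.zpowers x).index = 2 := by
    have h1 := Subgroup.card_mul_index (Subgroup.zpowers x)
    rw [Nat.card_zpowers, hx, hcard, pow_succ] at h1
    exact Nat.eq_of_mul_eq_mul_left hpos h1
  have hyy : y * y = 1 := by
    rw [← pow_two, ← hyo, pow_orderOf_eq_one]
  have hconj : ∀ i : ℕ, y * x ^ i * y⁻¹ = x ^ ((2 ^ (n - 1) - 1) * i) := by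
    intro i
    rw [pow_mul, ← hxy, conj_pow]
  apply isPGroup_of_cyclic_index_two x y n hx
  · intro g
    by_cases hg : g ∈ Subgroup.zpowers x
    · left; exact hg
    · right
      have h1 : g * y⁻¹ ∈ Subgroup.zpowers x := by
        rw [Subgroup.mul_mem_iff_of_index_two hidx]
        constructor
        · intro h; exact absurd h hg
        · intro h; exact absurd ((Subgroup.inv_mem_iff _).mp h) hy
      obtain ⟨i, hi⟩ := (mem_zpowers_iff_nat x _).mp h1
      exact ⟨i, by rw [hi, inv_mul_cancel_right]⟩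
  · intro g hg
    have h1 : g * y⁻¹ ∈ Subgroup.zpowers x := by
      rw [Subgroup.mul_mem_iff_of_index_two hidx]
      constructor
      · intro h; exact absurd h hg
      · intro h; exact absurd ((Subgroup.inv_mem_iff _).mp h) hy
    obtain ⟨i, hi⟩ := (mem_zpowers_iff_nat x _).mp h1
    have hgi : g = x ^ i * y := by rw [hi, inv_mul_cancel_right]
    have hg2 : g * g = x ^ (2 ^ (n - 1) * i) := by
      have e1 : g * g = x ^ i * (y * x ^ i * y⁻¹) * (y * y) := by rw [hgi]; group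
      rw [e1, hconj, hyy, mul_one, ← pow_add]
      congr 1
      have : 1 ≤ 2 ^ (n - 1) := Nat.one_le_two_pow
      obtain ⟨d, hd⟩ : ∃ d, 2 ^ (n - 1) = d + 1 := ⟨2 ^ (n - 1) - 1, by omega⟩
      rw [hd, Nat.add_sub_cancel]
      ring
    have hg4 : g ^ 4 = 1 := by
      have : g ^ 4 = (g * g) * (g * g) := by
        rw [show (4 : ℕ) = 2 + 2 from rfl, pow_add, pow_two]
      rw [this, hg2, ← pow_add, ← two_mul, ← mul_assoc, ← hn1, pow_mul, ← hx, pow_orderOf_eq_one, one_pow]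
    have h5 : orderOf g ∣ 4 := orderOf_dvd_of_pow_eq_one hg4
    have h6 : orderOf g ≤ 4 := Nat.le_of_dvd (by norm_num) h5
    omega
  · exact hy

theorem result {X : Type*} [Group X] [Finite X] (h2 : IsPGroup 2 X)
    (h : (∃ n : ℕ, 4 ≤ n ∧ Nonempty (X ≃* DihedralGroup n)) ∨ Cfsg.IsQuasiDihedral X) : IsPGroup 2 (MulAut X) := by
  rcases h with ⟨n, hn, ⟨e⟩⟩ | ⟨n, hn, hcard, x, y, hx, hy, hxy⟩
  · have : Fact (Nat.Prime 2) := ⟨Nat.prime_two⟩
    obtain ⟨k, hk⟩ := (IsPGroup.iff_card (p := 2) (G := X)).mp h2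
    have hc : Nat.card X = 2 * n := by
      rw [Nat.card_congr e.toEquiv, DihedralGroup.nat_card]
    rw [hc] at hk
    obtain ⟨m, rfl⟩ : ∃ m, k = m + 1 := by
      rcases k with _ | m
      · rw [pow_zero] at hk; omega
      · exact ⟨m, rfl⟩
    rw [pow_succ'] at hk
    have hnm : n = 2 ^ m := Nat.eq_of_mul_eq_mul_left (by norm_num) hk
    subst hnm
    have hm : 2 ≤ m := by
      by_contra hlt
      have h01 : m ≤ 1 := by omega
      have : 2 ^ m ≤ 2 ^ 1 := Nat.pow_le_pow_right (by norm_num) h01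
      omega
    exact (dihedral_case m hm).of_equiv (MulAut.congr e).symm
  · exact quasi_case n hn hcard x y hx hy hxy

end Cfsg.Agent.S3116
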