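import Cfsg.Statements.S3155
import Mathlib

set_option autoImplicit false
open Cfsg

namespace Cfsg.Agent.S3155

theorem no_sq_neg_one : ∀ d : ZMod 4, d * d ≠ -1 := by decide

theorem finrank_M : Module.finrank (ZMod 4) (ZMod 4 × ZMod 4 × ZMod 4) = 3 := by
  have : Fact (1 < 4) := ⟨by norm_num⟩
  rw [Module.finrank_prod, Module.finrank_prod, Module.finrank_self]

theorem lin_contra (f : (ZMod 4 × ZMod 4 × ZMod 4) →ₗ[ZMod 4] (ZMod 4 × ZMod 4 × ZMod 4))
    (h : ∀ m, f (f m) = -m) : False := by
  have h1 : f ∘ₗ f = (-1 : ZMod 4) • LinearMap.id := by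
    apply LinearMap.ext
    intro m
    simp [h]
  have h2 : LinearMap.det (f ∘ₗ f) = LinearMap.det f * LinearMap.det f := LinearMap.det_comp f f
  rw [h1, LinearMap.det_smul, finrank_M, LinearMap.det_id] at h2
  exact no_sq_neg_one (LinearMap.det f) (by rw [← h2]; decide)

/-- Let B be the direct product of three cyclic groups of order 4. Then the automorphism of B inverting every element is not the square of any automorphism of B. -/
theorem result {B : Type*} [CommGroup B] [Finite B] (hB : Nonempty (B ≃* Multiplicative (ZMod 4 × ZMod 4 × ZMod 4)))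
    (τ : B ≃* B) : τ.trans τ ≠ MulEquiv.inv B := by
  intro hτ
  obtain ⟨e⟩ := hB
  let g : Multiplicative (ZMod 4 × ZMod 4 × ZMod 4) →* Multiplicative (ZMod 4 × ZMod 4 × ZMod 4) :=
    (e.toMonoidHom.comp τ.toMonoidHom).comp e.symm.toMonoidHom
  let f : (ZMod 4 × ZMod 4 × ZMod 4) →+ (ZMod 4 × ZMod 4 × ZMod 4) := MonoidHom.toAdditive g
  have hf : ∀ m, f (f m) = -m := by
    intro m
    have h3 : ∀ b : B, τ (τ b) = b⁻¹ := by
      intro b
      have := congrArg (fun φ : B ≃* B => φ b) hτ
      simpa using this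
    change Multiplicative.toAdd (e (τ (e.symm (e (τ (e.symm (Multiplicative.ofAdd m))))))) = -m
    rw [MulEquiv.symm_apply_apply, h3, map_inv, MulEquiv.apply_symm_apply]
    rfl
  exact lin_contra (AddMonoidHom.toZModLinearMap 4 f) hf

end Cfsg.Agent.S3155
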