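import Cfsg.Statements.S3156
import Mathlib
import Cfsg.Agent.Lib.Helper60.U3Aut

set_option autoImplicit false
open Cfsg

namespace Cfsg.Agent.S3156

/-- If a finite group T is isomorphic to a Sylow 2-subgroup of the projective special unitary group of dimension 3 with parameter 4 (realised over the field with 16 elements), then no subgroup of the automorphism group of T is isomorphic to the symmetric group of degree 3. -/
theorem result {T : Type*} [Group T] [Finite T] (hT : (∃ (F : Type) (_ : Field F) (_ : Fintype F), Fintype.card F = 16 ∧ ∃ S : Sylow 2 (Cfsg.PSU 3 F 4), Nonempty (T ≃* ↥(S : Subgroup (Cfsg.PSU 3 F 4))))) (H : Subgroup (MulAut T)) : ¬ Nonempty (↥H ≃* Equiv.Perm (Fin 3)) := by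
  rintro ⟨φ⟩
  obtain ⟨F, _, _, hF, S, ⟨e₁⟩⟩ := hT
  have hF' : Fintype.card F = 4 ^ 2 := by rw [hF]; norm_num
  have h2 : (2 : F) = 0 := Lib.Helper60.two_eq_zero_of_card (m := 4) (by rw [hF]; norm_num)
  obtain ⟨e₂⟩ := Lib.Helper60.sylow_PSU3_equiv' (q := 4) (n := 2) (by norm_num) (by norm_num)
    hF' S
  let e : T ≃* ↥(Lib.Helper60.U3 hF') := e₁.trans e₂
  let σ : Equiv.Perm (Fin 3) := Equiv.swap 0 1 * Equiv.swap 1 2
  let τ : Equiv.Perm (Fin 3) := Equiv.swap 0 1
  have hσ : σ ≠ 1 := by decide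
  have hσ3 : σ * σ * σ = 1 := by decide
  have hτ2 : τ * τ = 1 := by decide
  have hτσ : τ * σ = σ * σ * τ := by decide
  let ι : ↥H →* MulAut T := H.subtype
  let C : MulAut T ≃* MulAut ↥(Lib.Helper60.U3 hF') := MulAut.congr e
  let Ψ : Equiv.Perm (Fin 3) →* MulAut ↥(Lib.Helper60.U3 hF') :=
    (C.toMonoidHom.comp ι).comp φ.symm.toMonoidHom
  have hΨ : Function.Injective Ψ := by
    intro x y hxy
    have h1 : ι (φ.symm x) = ι (φ.symm y) := C.injective hxy
    have h3 : φ.symm x = φ.symm y := Subtype.ext h1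
    exact φ.symm.injective h3
  apply Lib.Helper60.U3_aut_no_S3 hF' h2 (Ψ σ) (Ψ τ)
  · intro h
    apply hσ
    apply hΨ
    rw [h, map_one]
  · rw [← map_mul, ← map_mul, hσ3, map_one]
  · rw [← map_mul, hτ2, map_one]
  · rw [← map_mul, ← map_mul, ← map_mul, hτσ]

end Cfsg.Agent.S3156
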