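import Cfsg.Statements.S3157
import Cfsg.Agent.Lib.Helper28.L3Chi
import Cfsg.Agent.Lib.Helper28.L3Syl

set_option autoImplicit false
open Cfsg

namespace Cfsg.Agent.S3157

/-- Let T be a non-abelian group of order 64 admitting automorphisms ρ of order 3 and x of order 2 with x ρ x⁻¹ = ρ⁻¹ (so they generate a symmetric group of degree 3), where ρ fixes only the identity. Then T is isomorphic to a Sylow 2-subgroup of the projective special linear group of dimension 3 over the field with 4 elements, and the subgroup of fixed points of x is dihedral of order 8 or quaternion of order 8. -/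
theorem result {T : Type*} [Group T] [Finite T] (hT : Nat.card T = 64) (hna : ¬ IsMulCommutative T) (ρ x : MulAut T) (hρ : orderOf ρ = 3) (hx : orderOf x = 2)
    (hxr : x * ρ * x⁻¹ = ρ⁻¹) (hfp : ∀ y : T, ρ y = y → y = 1) (C : Subgroup T) (hC : ∀ y : T, y ∈ C ↔ x y = y) :
    (∃ (F : Type) (_ : Field F) (_ : Fintype F), Fintype.card F = 4 ∧
        ∃ S : Sylow 2 (Matrix.ProjectiveSpecialLinearGroup (Fin 3) F), Nonempty (T ≃* ↥(S : Subgroup (Matrix.ProjectiveSpecialLinearGroup (Fin 3) F)))) ∧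
      (Nonempty (↥C ≃* DihedralGroup 4) ∨ Nonempty (↥C ≃* QuaternionGroup 2)) := by
  classical
  have hρ3 : ∀ t, ρ (ρ (ρ t)) = t := by
    intro t
    have h1 := pow_orderOf_eq_one ρ
    rw [hρ] at h1
    have h2 : (ρ ^ 3) t = t := by rw [h1]; rfl
    rw [pow_succ, pow_succ, pow_one] at h2
    exact h2
  have hx2 : ∀ t, x (x t) = t := by
    intro t
    have h1 := pow_orderOf_eq_one x
    rw [hx] at h1
    have h2 : (x ^ 2) t = t := by rw [h1]; rfl
    rw [pow_succ, pow_one] at h2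
    exact h2
  have hrel : ∀ t, x (ρ t) = ρ (ρ (x t)) := by
    intro t
    have h1 : x * ρ = ρ⁻¹ * x := by rw [← hxr]; group
    have h2 : (x * ρ) t = (ρ⁻¹ * x) t := by rw [h1]
    have h3 : x (ρ t) = ρ⁻¹ (x t) := h2
    rw [h3]
    apply ρ.injective
    rw [MulAut.apply_inv_self, hρ3]
  have hF3 : Cfsg.Agent.Lib.Helper28.F3 T ρ.toMonoidHom := ⟨inferInstance, hρ3, hfp⟩
  have hF64 : Cfsg.Agent.Lib.Helper28.F64 T ρ.toMonoidHom := ⟨hF3, hT, fun hab => hna ⟨⟨hab⟩⟩⟩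
  have hChi : Cfsg.Agent.Lib.Helper28.Chi T ρ.toMonoidHom x.toMonoidHom C := ⟨hx2, hrel, hC⟩
  obtain ⟨⟨u, hu, hu2⟩, hCD⟩ := Cfsg.Agent.Lib.Helper28.L3.chi_out hF64 hChi
  obtain ⟨e1⟩ := Cfsg.Agent.Lib.Helper28.L3.model_iso hF64 hu hu2
  obtain ⟨F, i1, i2, hF, S, ⟨e2⟩⟩ := Cfsg.Agent.Lib.Helper28.L3.exists_sylow
  exact ⟨⟨F, i1, i2, hF, S, ⟨e1.symm.trans e2⟩⟩, hCD⟩

end Cfsg.Agent.S3157
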