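import Mathlib
import Cfsg.Statements.S3178
import Cfsg.Agent.Lib.Helper61.Basic
import Cfsg.Agent.Lib.Helper61.Transfer

set_option autoImplicit false
open Cfsg

namespace Cfsg.Agent.S3178

open Subgroup Cfsg.Agent.Lib.Helper61

theorem mem_cent {G : Type*} [Group G] {a x : G} :
    x ∈ centralizer ({a} : Set G) ↔ a * x = x * a := by
  rw [mem_centralizer_iff]
  constructor
  · intro h; exact h a rfl
  · intro h y hy
    rw [Set.mem_singleton_iff] at hy
    rw [hy]; exact h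

theorem isPGroup_zpowers {G : Type*} [Group G] {p : ℕ} {x : G} {k : ℕ}
    (hx : x ^ (p ^ k) = 1) : IsPGroup p (zpowers x) := by
  rintro ⟨y, hy⟩
  obtain ⟨i, rfl⟩ := mem_zpowers_iff.mp hy
  refine ⟨k, Subtype.ext ?_⟩
  change (x ^ i) ^ (p ^ k) = 1
  rw [← zpow_natCast, ← zpow_mul, mul_comm, zpow_mul, zpow_natCast, hx, one_zpow]

/-- Groups with a modular Sylow 2-subgroup have a normal 2-complement. Let S, of order 2^(n+1) with n ≥ 3, be a Sylow 2-subgroup of a finite group G, and suppose S contains an element a of order 2^n and an involution b with b a b⁻¹ = a^(2^(n-1) + 1); so S is the non-abelian 2-group with a cyclic subgroup of index 2 that is neither dihedral, semidihedral nor generalized quaternion. Then G has a normal 2-complement. -/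
theorem result {G : Type*} [Group G] [Finite G]
    (S : Sylow 2 G) (n : ℕ) (hn : 3 ≤ n) (hS : Nat.card ↥(S : Subgroup G) = 2 ^ (n + 1))
    (a b : G) (ha : a ∈ (S : Subgroup G)) (hb : b ∈ (S : Subgroup G))
    (hao : orderOf a = 2 ^ n) (hbo : orderOf b = 2) (hrel : b * a * b⁻¹ = a ^ (2 ^ (n - 1) + 1)) :
    Cfsg.HasNormalPComplement 2 G := by
  have : Fact (Nat.Prime 2) := ⟨Nat.prime_two⟩
  obtain ⟨k, rfl⟩ : ∃ k, n = k + 3 := ⟨n - 3, by omega⟩
  have hrel' : b * a * b⁻¹ = a ^ (2 ^ (k + 2) + 1) := hrel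
  have hapow : a ^ (2 ^ (k + 3)) = 1 := by rw [← hao]; exact pow_orderOf_eq_one a
  have hb2 : b * b = 1 := by
    have := pow_orderOf_eq_one b
    rwa [hbo, pow_two] at this
  have hbinv : b⁻¹ = b := inv_eq_of_mul_eq_one_left hb2
  have hb1 : b ≠ 1 := by
    rintro rfl
    rw [orderOf_one] at hbo
    omega
  obtain ⟨z, hz⟩ : ∃ z : G, z = a ^ (2 ^ (k + 2)) := ⟨_, rfl⟩
  have hz1 : z ≠ 1 := by
    rw [hz]
    apply pow_ne_one_of_lt_orderOf (by positivity)
    rw [hao]
    exact Nat.pow_lt_pow_right (by norm_num) (by omega)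
  have hz2 : z * z = 1 := by
    rw [hz, ← pow_add, ← hapow]
    congr 1
    rw [pow_succ 2 (k + 2)]; ring
  have hconj : ∀ i : ℕ, b * a ^ i * b⁻¹ = a ^ ((2 ^ (k + 2) + 1) * i) := by
    intro i
    rw [← conj_pow, hrel', ← pow_mul]
  have hbz : b * z * b⁻¹ = z := by
    rw [hz, hconj]
    have e : (2 ^ (k + 2) + 1) * 2 ^ (k + 2) = 2 ^ (k + 3) * 2 ^ (k + 1) + 2 ^ (k + 2) := by ring
    rw [e, pow_add, pow_mul, hapow, one_pow, one_mul]
  obtain ⟨u, hu⟩ : ∃ u : G, u = a ^ (2 ^ (k + 1)) := ⟨_, rfl⟩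
  have hbu : b * u * b⁻¹ = u := by
    rw [hu, hconj]
    have e : (2 ^ (k + 2) + 1) * 2 ^ (k + 1) = 2 ^ (k + 3) * 2 ^ k + 2 ^ (k + 1) := by ring
    rw [e, pow_add, pow_mul, hapow, one_pow, one_mul]
  have hu2 : u * u = z := by
    rw [hu, hz, ← pow_add]
    congr 1
    rw [pow_succ 2 (k + 1)]; ring
  -- M = ⟨a⟩
  have hMS : zpowers a ≤ (S : Subgroup G) := zpowers_le.mpr ha
  have hzM : z ∈ zpowers a := by rw [hz]; exact pow_mem (mem_zpowers a) _
  have hbM : b ∉ zpowers a := by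
    intro hbm
    obtain ⟨i, rfl⟩ := mem_zpowers_iff.mp hbm
    have h1 : a ^ i * a * (a ^ i)⁻¹ = a := by
      have : Commute (a ^ i) a := (Commute.refl a).zpow_left i
      rw [this.eq, mul_inv_cancel_right]
    rw [hrel', pow_succ, ← hz] at h1
    exact hz1 (mul_eq_right.mp h1)
  have hMcard : Nat.card (zpowers a) = 2 ^ (k + 3) := by rw [Nat.card_zpowers, hao]
  have hMidx : (zpowers a).relIndex (S : Subgroup G) = 2 := by
    have h1 := Subgroup.card_mul_index ((zpowers a).subgroupOf (S : Subgroup G))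
    rw [card_subgroupOf_of_le hMS, hMcard, hS] at h1
    have h2 : (2 : ℕ) ^ (k + 3 + 1) = 2 ^ (k + 3) * 2 := pow_succ 2 (k + 3)
    rw [h2] at h1
    exact Nat.eq_of_mul_eq_mul_left (by positivity) h1
  -- F1
  have hF1 : ∀ s ∈ (S : Subgroup G), s ∈ zpowers a ∨ ∃ r ∈ zpowers a, s = r * b := by
    intro s hs
    by_cases hsM : s ∈ zpowers a
    · exact Or.inl hsM
    · right
      have hidx : ((zpowers a).subgroupOf (S : Subgroup G)).index = 2 := hMidx
      have h1 := Subgroup.mul_mem_iff_of_index_two hidx (a := (⟨s, hs⟩ : S)) (b := ⟨b, hb⟩)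
      rw [Subgroup.mem_subgroupOf, Subgroup.mem_subgroupOf, Subgroup.mem_subgroupOf] at h1
      have h2 : s * b ∈ zpowers a := h1.mpr ⟨fun h => absurd h hsM, fun h => absurd h hbM⟩
      refine ⟨s * b, h2, ?_⟩
      rw [mul_assoc, hb2, mul_one]
  -- conjugation by b preserves ⟨a⟩
  have hbr : ∀ r ∈ zpowers a, b * r * b⁻¹ ∈ zpowers a := by
    intro r hr
    obtain ⟨i, rfl⟩ := mem_zpowers_iff.mp hr
    rw [← conj_zpow, hrel']
    exact zpow_mem (pow_mem (mem_zpowers a) _) i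
  -- F3
  have hF3 : ∀ w ∈ (S : Subgroup G), w * w ∈ zpowers a := by
    intro w hw
    rcases hF1 w hw with h | ⟨r, hr, rfl⟩
    · exact mul_mem h h
    · have e : r * b * (r * b) = r * (b * r * b⁻¹) * (b * b) := by group
      rw [e, hb2, mul_one]
      exact mul_mem hr (hbr r hr)
  -- F4
  have hF4 : ∀ y ∈ zpowers a, y * y = 1 → y ≠ 1 → y = z := by
    intro y hy hy2 hy1
    obtain ⟨i, rfl⟩ := mem_zpowers_iff.mp hy
    rw [← zpow_add, ← orderOf_dvd_iff_zpow_eq_one, hao] at hy2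
    have h1 : ((2 : ℤ) ^ (k + 2)) ∣ i := by
      obtain ⟨c, hc⟩ := hy2
      refine ⟨c, ?_⟩
      have : (2 : ℤ) * i = 2 * (2 ^ (k + 2) * c) := by
        push_cast at hc
        rw [pow_succ] at hc
        linarith
      linarith
    obtain ⟨j, rfl⟩ := h1
    have e : a ^ ((2 : ℤ) ^ (k + 2) * j) = z ^ j := by
      rw [zpow_mul, hz]
      norm_cast
    rw [e] at hy1 ⊢
    rcases Int.even_or_odd' j with ⟨c, rfl | rfl⟩
    · exfalso
      apply hy1
      rw [zpow_mul, zpow_ofNat, pow_two, hz2, one_zpow]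
    · rw [zpow_add, zpow_mul, zpow_ofNat, pow_two, hz2, one_zpow, one_mul, zpow_one]
  -- S centralizes z
  have hSC : (S : Subgroup G) ≤ centralizer ({z} : Set G) := by
    intro s hs
    rw [mem_cent]
    have hbz' : z * b = b * z := by
      calc z * b = (b * z * b⁻¹) * b := by rw [hbz]
        _ = b * z := by group
    have hrz : ∀ r ∈ zpowers a, z * r = r * z := by
      intro r hr
      obtain ⟨i, rfl⟩ := mem_zpowers_iff.mp hr
      rw [hz]
      exact (((Commute.refl a).pow_left _).zpow_right i).eq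
    rcases hF1 s hs with h | ⟨r, hr, rfl⟩
    · exact hrz s h
    · rw [← mul_assoc, hrz r hr, mul_assoc, hbz', mul_assoc]
  -- b is not conjugate into ⟨a⟩
  have hcon : ∀ g : G, g * b * g⁻¹ ∉ zpowers a := by
    intro g hg
    have hgb2 : (g * b * g⁻¹) * (g * b * g⁻¹) = 1 := by
      calc (g * b * g⁻¹) * (g * b * g⁻¹) = g * (b * b) * g⁻¹ := by group
        _ = 1 := by rw [hb2]; group
    have hgb1 : g * b * g⁻¹ ≠ 1 := by
      intro h1
      apply hb1
      calc b = g⁻¹ * (g * b * g⁻¹) * g := by group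
        _ = 1 := by rw [h1]; group
    have hgbz : g * b * g⁻¹ = z := hF4 _ hg hgb2 hgb1
    -- v = g u g⁻¹ centralizes z
    have hv : g * u * g⁻¹ ∈ centralizer ({z} : Set G) := by
      rw [mem_cent, ← hgbz]
      have hbu' : b * u = u * b := by
        calc b * u = (b * u * b⁻¹) * b := by group
          _ = u * b := by rw [hbu]
      calc g * b * g⁻¹ * (g * u * g⁻¹) = g * (b * u) * g⁻¹ := by group
        _ = g * (u * b) * g⁻¹ := by rw [hbu']
        _ = g * u * g⁻¹ * (g * b * g⁻¹) := by group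
    have hv4 : (g * u * g⁻¹) ^ (2 ^ 2) = 1 := by
      rw [conj_pow]
      have : u ^ (2 ^ 2) = 1 := by
        have e : (2 : ℕ) ^ 2 = 2 + 2 := by norm_num
        rw [e, pow_add, pow_two, hu2, hz2]
      rw [this]; group
    obtain ⟨c, hcC, hc⟩ := exists_conj_mem_sylow S (centralizer ({z} : Set G))
      (zpowers (g * u * g⁻¹)) hSC (zpowers_le.mpr hv) (isPGroup_zpowers hv4)
    have hw := hc _ (mem_zpowers _)
    have hww := hF3 _ hw
    have e : c⁻¹ * (g * u * g⁻¹) * c * (c⁻¹ * (g * u * g⁻¹) * c) =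
        c⁻¹ * (g * (u * u) * g⁻¹) * c := by group
    rw [e, hu2] at hww
    have h2 : (c⁻¹ * (g * z * g⁻¹) * c) * (c⁻¹ * (g * z * g⁻¹) * c) = 1 := by
      calc (c⁻¹ * (g * z * g⁻¹) * c) * (c⁻¹ * (g * z * g⁻¹) * c)
          = c⁻¹ * (g * (z * z) * g⁻¹) * c := by group
        _ = 1 := by rw [hz2]; group
    have h1 : c⁻¹ * (g * z * g⁻¹) * c ≠ 1 := by
      intro h1
      apply hz1
      calc z = g⁻¹ * (c * (c⁻¹ * (g * z * g⁻¹) * c) * c⁻¹) * g := by group
        _ = 1 := by rw [h1]; group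
    have h3 := hF4 _ hww h2 h1
    have hcz : z * c = c * z := mem_cent.mp hcC
    have h4 : g * z * g⁻¹ = z := by
      calc g * z * g⁻¹ = c * (c⁻¹ * (g * z * g⁻¹) * c) * c⁻¹ := by group
        _ = c * z * c⁻¹ := by rw [h3]
        _ = z * c * c⁻¹ := by rw [hcz]
        _ = z := by group
    apply hbM
    have h5 : b = z := by
      calc b = g⁻¹ * (g * b * g⁻¹) * g := by group
        _ = g⁻¹ * (g * z * g⁻¹) * g := by rw [hgbz, h4]
        _ = z := by group
    rw [h5]; exact hzM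
  -- Thompson transfer
  obtain ⟨N, hNn, hNidx, hbN⟩ := thompson_transfer S (zpowers a) hMidx 1
    (fun y _ hyM => by
      have hy1 : y ≠ 1 := fun h => hyM (h ▸ one_mem _)
      have := orderOf_pos y
      have h1 : orderOf y ≠ 1 := fun h => hy1 (orderOf_eq_one_iff.mp h)
      simp only [Nat.sub_self, pow_zero]
      omega) b (by rw [hbo, pow_one]) hcon
  have hSN : ¬ (S : Subgroup G) ≤ N := fun h => hbN (h hb)
  -- an element of order 2^(k+3) in S ∩ N
  have key : ∃ c ∈ (S : Subgroup G), c ∈ N ∧ orderOf c = 2 ^ (k + 3) := by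
    by_cases haN : a ∈ N
    · exact ⟨a, ha, haN, hao⟩
    · have habN : a * b ∈ N :=
        (Subgroup.mul_mem_iff_of_index_two hNidx).mpr ⟨fun h => absurd h haN, fun h => absurd h hbN⟩
      refine ⟨a * b, mul_mem ha hb, habN, ?_⟩
      have hsq : (a * b) * (a * b) = a ^ (2 ^ (k + 2) + 2) := by
        calc (a * b) * (a * b) = a * (b * a * b⁻¹) * (b * b) := by group
          _ = a * a ^ (2 ^ (k + 2) + 1) := by rw [hb2, hrel', mul_one]
          _ = a ^ (2 ^ (k + 2) + 2) := by rw [← pow_succ']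
      have hpow : ∀ j : ℕ, (a * b) ^ (2 * j) = a ^ ((2 ^ (k + 2) + 2) * j) := by
        intro j
        rw [pow_mul, pow_two, hsq, ← pow_mul]
      apply orderOf_eq_prime_pow
      · have e1 : 2 ^ (k + 2) = 2 * 2 ^ (k + 1) := by rw [pow_succ]; ring
        rw [e1, hpow]
        have e2 : (2 ^ (k + 2) + 2) * 2 ^ (k + 1) = 2 ^ (k + 3) * 2 ^ k + 2 ^ (k + 2) := by ring
        rw [e2, pow_add, pow_mul, hapow, one_pow, one_mul, ← hz]
        exact hz1
      · have e1 : 2 ^ (k + 2 + 1) = 2 * 2 ^ (k + 2) := by rw [pow_succ]; ring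
        rw [e1, hpow]
        have e2 : (2 ^ (k + 2) + 2) * 2 ^ (k + 2) = 2 ^ (k + 3) * (2 ^ (k + 1) + 1) := by ring
        rw [e2, pow_mul, hapow, one_pow]
  obtain ⟨c, hcS, hcN, hco⟩ := key
  obtain ⟨K, hKn, hK⟩ := normal_complement_of_index_two_cyclic S N hNn hNidx hSN c hcS hcN
    (by rw [hco, hS, pow_succ 2 (k + 3)]; ring)
  exact ⟨S, K, hKn, hK⟩

end Cfsg.Agent.S3178
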