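import Cfsg.Statements.S3179
import Cfsg.Agent.Lib.Helper7.SL2Torus
import Cfsg.Agent.Lib.Helper27.SzBridge
import Cfsg.Agent.S0280

set_option autoImplicit false
open Cfsg

namespace Cfsg.Agent.S3179

open Matrix

/-- a permutation of order dividing 9 whose cube has no fixed point moves a multiple of 9 points -/
theorem free9 {S : Type*} [Finite S] (τ : Equiv.Perm S) (h9 : τ ^ 9 = 1)
    (h3 : ∀ x, (τ ^ 3) x ≠ x) : 9 ∣ Nat.card S := by
  classical
  rcases isEmpty_or_nonempty S with hS | ⟨⟨x0⟩⟩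
  · simp
  have hper : ∀ x : S, MulAction.period τ x = 9 := by
    intro x
    have h1 : MulAction.period τ x ∣ 9 := by
      rw [← MulAction.pow_smul_eq_iff_period_dvd, h9, one_smul]
    have h2 : ¬ MulAction.period τ x ∣ 3 := by
      intro h
      have := (MulAction.pow_smul_eq_iff_period_dvd (m := τ) (a := x) (n := 3)).mpr h
      exact h3 x this
    have h1' : MulAction.period τ x ∣ 3 ^ 2 := h1
    obtain ⟨j, hj, hj'⟩ := (Nat.dvd_prime_pow Nat.prime_three).mp h1'
    interval_cases j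
    · rw [hj'] at h2; exact absurd (by norm_num) h2
    · rw [hj'] at h2; exact absurd (by norm_num) h2
    · rw [hj']; norm_num
  have hord : orderOf τ = 9 := by
    have h1 : orderOf τ ∣ 3 ^ 2 := orderOf_dvd_of_pow_eq_one h9
    obtain ⟨j, hj, hj'⟩ := (Nat.dvd_prime_pow Nat.prime_three).mp h1
    have h2 : ¬ orderOf τ ∣ 3 := by
      intro h
      have := orderOf_dvd_iff_pow_eq_one.mp h
      apply h3 x0
      rw [this]; rfl
    interval_cases j
    · rw [hj'] at h2; exact absurd (by norm_num) h2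
    · rw [hj'] at h2; exact absurd (by norm_num) h2
    · rw [hj']; norm_num
  have hfree : ∀ x : S, MulAction.stabilizer (Subgroup.zpowers τ) x = ⊥ := by
    intro x
    rw [Subgroup.eq_bot_iff_forall]
    rintro ⟨h, hh⟩ hst
    obtain ⟨k, rfl⟩ := Subgroup.mem_zpowers_iff.mp hh
    rw [MulAction.mem_stabilizer_iff] at hst
    have hst' : τ ^ k • x = x := hst
    rw [MulAction.zpow_smul_eq_iff_period_dvd, hper x] at hst'
    apply Subtype.ext
    show τ ^ k = 1
    obtain ⟨c, rfl⟩ := hst'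
    rw [_root_.zpow_mul, zpow_natCast, h9, _root_.one_zpow]
  have e := MulAction.selfEquivOrbitsQuotientProd hfree
  have hc := Nat.card_congr e
  rw [Nat.card_prod, Nat.card_zpowers, hord] at hc
  rw [hc]
  exact Dvd.intro_left _ rfl

/-- the permutation of the vectors given by an invertible matrix -/
def vperm : GL (Fin 5) (ZMod 2) →* Equiv.Perm (Fin 5 → ZMod 2) where
  toFun g :=
    { toFun := fun v => g.1 *ᵥ v
      invFun := fun v => (g⁻¹).1 *ᵥ v
      left_inv := fun v => by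
        show (g⁻¹).1 *ᵥ (g.1 *ᵥ v) = v
        rw [Matrix.mulVec_mulVec, ← Units.val_mul, inv_mul_cancel]; simp
      right_inv := fun v => by
        show g.1 *ᵥ ((g⁻¹).1 *ᵥ v) = v
        rw [Matrix.mulVec_mulVec, ← Units.val_mul, mul_inv_cancel]; simp }
  map_one' := by ext v; simp
  map_mul' g h := by
    ext v
    simp [Matrix.mulVec_mulVec]

theorem vperm_apply (g : GL (Fin 5) (ZMod 2)) (v : Fin 5 → ZMod 2) :
    vperm g v = g.1 *ᵥ v := rfl

/-- `GL₅(2)` has no element of order 9 -/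
theorem no_order9 (g : GL (Fin 5) (ZMod 2)) (h9 : g ^ 9 = 1) : g ^ 3 = 1 := by
  classical
  set σ := vperm g with hσ
  have hσ9 : σ ^ 9 = 1 := by rw [hσ, ← map_pow, h9, map_one]
  -- fixed vectors of g^3
  let U : AddSubgroup (Fin 5 → ZMod 2) :=
    { carrier := {v | (g ^ 3).1 *ᵥ v = v}
      add_mem' := fun {a b} ha hb => by
        simp only [Set.mem_ofPred_eq] at ha hb ⊢
        rw [Matrix.mulVec_add, ha, hb]
      zero_mem' := by simp
      neg_mem' := fun {a} ha => by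
        simp only [Set.mem_ofPred_eq] at ha ⊢
        rw [Matrix.mulVec_neg, ha] }
  have hUmem : ∀ v, v ∈ U ↔ (σ ^ 3) v = v := by
    intro v
    rw [hσ, ← map_pow, vperm_apply]
    rfl
  have hinv : ∀ v, ((σ ^ 3) (σ v) ≠ σ v) ↔ ((σ ^ 3) v ≠ v) := by
    intro v
    have : (σ ^ 3) (σ v) = σ ((σ ^ 3) v) := by
      rw [← Equiv.Perm.mul_apply, ← Equiv.Perm.mul_apply, ← pow_succ, ← pow_succ']
    rw [this, not_iff_not]
    exact σ.injective.eq_iff
  set τ := Equiv.Perm.subtypePerm (p := fun v => (σ ^ 3) v ≠ v) σ hinv with hτ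
  have hτ9 : τ ^ 9 = 1 := by
    rw [hτ, Equiv.Perm.subtypePerm_pow]
    ext x
    simp [hσ9]
  have hτ3 : ∀ x, (τ ^ 3) x ≠ x := by
    intro x hx
    rw [hτ, Equiv.Perm.subtypePerm_pow] at hx
    have := congrArg Subtype.val hx
    exact x.2 this
  have hdvd := free9 τ hτ9 hτ3
  have hcV : Nat.card (Fin 5 → ZMod 2) = 32 := by
    rw [Nat.card_eq_fintype_card]; simp [ZMod.card]
  have hUdvd : Nat.card U ∣ 2 ^ 5 := by
    have := AddSubgroup.card_addSubgroup_dvd_card U
    rw [hcV] at this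
    exact this
  obtain ⟨j, hj, hj'⟩ := (Nat.dvd_prime_pow Nat.prime_two).mp hUdvd
  have hcS : Nat.card {v : Fin 5 → ZMod 2 // (σ ^ 3) v ≠ v} = 32 - Nat.card U := by
    have h1 : Nat.card {v : Fin 5 → ZMod 2 // (σ ^ 3) v ≠ v}
        = Nat.card {v : Fin 5 → ZMod 2 // ¬ (v ∈ U)} :=
      Nat.card_congr (Equiv.subtypeEquivRight (fun v => by rw [hUmem]))
    rw [h1, Nat.card_eq_fintype_card, Fintype.card_subtype_compl, ← Nat.card_eq_fintype_card,
      hcV, ← Nat.card_eq_fintype_card]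
  rw [hcS, hj'] at hdvd
  have hj5 : j = 5 := by
    interval_cases j <;> first | rfl | (exfalso; revert hdvd; norm_num)
  have hUtop : U = ⊤ := by
    apply AddSubgroup.eq_top_of_card_eq
    rw [hj', hj5, hcV]; norm_num
  have hall : ∀ v : Fin 5 → ZMod 2, (g ^ 3).1 *ᵥ v = v := by
    intro v
    have : v ∈ U := by rw [hUtop]; trivial
    exact this
  apply Units.ext
  apply Matrix.mulVec_injective
  funext v
  rw [hall v]; simp

theorem card_GL5 : Nat.card (GL (Fin 5) (ZMod 2)) = 9999360 := by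
  rw [Matrix.card_GL_field]
  simp [Fin.prod_univ_five, ZMod.card]

theorem two_eq_zero_of_card {F : Type} [Field F] [Fintype F] {n : ℕ} (hn : 1 ≤ n)
    (hF : Fintype.card F = 2 ^ n) : (2 : F) = 0 := by
  have h := Nat.cast_card_eq_zero F
  rw [hF] at h
  push_cast at h
  exact (pow_eq_zero_iff (by omega)).mp h

theorem center_SL2_eq_bot {F : Type} [Field F] (h2 : (2 : F) = 0) :
    Subgroup.center (SpecialLinearGroup (Fin 2) F) = ⊥ := by
  rw [Subgroup.eq_bot_iff_forall]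
  intro s hs
  rw [Matrix.SpecialLinearGroup.mem_center_iff] at hs
  obtain ⟨r, hr, hs⟩ := hs
  rw [Fintype.card_fin] at hr
  have h1 : r = 1 := by
    have h3 : (r - 1) ^ 2 = 0 := by
      have h4 : (r - 1) ^ 2 = r ^ 2 + 1 - 2 * r := by ring
      rw [h4, hr, h2]; 
      have : (1 : F) + 1 = 2 := by norm_num
      rw [this, h2]; ring
    have := pow_eq_zero_iff (two_ne_zero) |>.mp h3
    exact sub_eq_zero.mp this
  subst h1
  apply Subtype.ext
  rw [← hs]
  simp

/-- `PSL₂(8)` is not a section of `GL₅(2)`: it has elements of order 9 -/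
theorem no_PSL2_8 {H : Subgroup (GL (Fin 5) (ZMod 2))} {K : Subgroup ↥H} [K.Normal]
    {F : Type} [Field F] [Fintype F] (hF : Fintype.card F = 8)
    (e : ↥H ⧸ K ≃* Matrix.ProjectiveSpecialLinearGroup (Fin 2) F) : False := by
  classical
  have h2 : (2 : F) = 0 :=
    two_eq_zero_of_card (n := 3) (by norm_num) (by rw [hF]; norm_num)
  have hZ := center_SL2_eq_bot h2
  obtain ⟨t, -, ht⟩ := Cfsg.Agent.Lib.Helper7.exists_cmp_orderOf (F := F) 9 (by norm_num)
    (Or.inr (by rw [hF]))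
  have hinj : Function.Injective
      (QuotientGroup.mk' (Subgroup.center (SpecialLinearGroup (Fin 2) F))) := by
    rw [← MonoidHom.ker_eq_bot_iff, QuotientGroup.ker_mk', hZ]
  set y : Matrix.ProjectiveSpecialLinearGroup (Fin 2) F :=
    QuotientGroup.mk' (Subgroup.center (SpecialLinearGroup (Fin 2) F))
      (Cfsg.Agent.Lib.Helper7.cmp t) with hy
  have hyo : orderOf y = 9 := by
    rw [← ht]
    exact orderOf_injective (QuotientGroup.mk' _) hinj (Cfsg.Agent.Lib.Helper7.cmp t)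
  have hxo : orderOf (e.symm y) = 9 := by rw [MulEquiv.orderOf_eq]; exact hyo
  obtain ⟨h, hh⟩ := QuotientGroup.mk_surjective (e.symm y)
  have h9 : 9 ∣ orderOf h := by
    rw [← hxo, ← hh]
    apply orderOf_dvd_of_pow_eq_one
    rw [← QuotientGroup.mk_pow, pow_orderOf_eq_one]; rfl
  have hpos : orderOf h ≠ 0 := (orderOf_pos h).ne'
  have ho := orderOf_pow_orderOf_div hpos h9
  set k := h ^ (orderOf h / 9) with hk
  have hk9 : k ^ 9 = 1 := by rw [← ho]; exact pow_orderOf_eq_one k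
  have hk3 : k ^ 3 ≠ 1 := by
    intro h3
    have := orderOf_dvd_of_pow_eq_one h3
    rw [ho] at this
    norm_num at this
  apply hk3
  apply Subtype.ext
  have := no_order9 (k : GL (Fin 5) (ZMod 2)) (by rw [← Subgroup.coe_pow, hk9]; rfl)
  rw [Subgroup.coe_pow, this]; rfl

/-- Let X be a section of the general linear group GL(5, 2), that is, a quotient of a subgroup of it. If X is isomorphic to PSL(2, 2^n) for some n ≥ 2, to a Suzuki group over the field with 2^(2m+1) elements for some m ≥ 1, or to PSU(3, 2^n) for some n ≥ 2, then X is isomorphic to PSL(2, 4). -/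
theorem result {H : Subgroup (GL (Fin 5) (ZMod 2))}
    {K : Subgroup ↥H} [K.Normal]
    (hX : (∃ (n : ℕ) (F : Type) (_ : Field F) (_ : Fintype F), 2 ≤ n ∧ Fintype.card F = 2 ^ n ∧
        Nonempty (↥H ⧸ K ≃* Matrix.ProjectiveSpecialLinearGroup (Fin 2) F)) ∨
      (∃ (m : ℕ) (F : Type) (_ : Field F) (_ : Fintype F), 1 ≤ m ∧ Fintype.card F = 2 ^ (2 * m + 1) ∧
        Nonempty (↥H ⧸ K ≃* ↥(Cfsg.Lie.Sz F (2 ^ (m + 1))))) ∨
      (∃ (n : ℕ) (F : Type) (_ : Field F) (_ : Fintype F), 2 ≤ n ∧ Fintype.card F = 4 ^ n ∧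
        Nonempty (↥H ⧸ K ≃* Cfsg.PSU 3 F (2 ^ n)))) :
    ∃ (F : Type) (_ : Field F) (_ : Fintype F), Fintype.card F = 4 ∧
      Nonempty (↥H ⧸ K ≃* Matrix.ProjectiveSpecialLinearGroup (Fin 2) F) := by
  classical
  have hdvd : Nat.card (↥H ⧸ K) ∣ 9999360 := by
    rw [← card_GL5]
    exact (Subgroup.card_quotient_dvd_card K).trans (Subgroup.card_subgroup_dvd_card H)
  rcases hX with ⟨n, F, hField, hFin, hn, hF, ⟨e⟩⟩ | ⟨m, F, hField, hFin, hm, hF, ⟨e⟩⟩ |
    ⟨n, F, hField, hFin, hn, hF, ⟨e⟩⟩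
  · -- PSL₂(2ⁿ)
    have h2 : (2 : F) = 0 := two_eq_zero_of_card (by omega) hF
    have hZ := center_SL2_eq_bot h2
    have hc1 : Nat.card (Subgroup.center (SpecialLinearGroup (Fin 2) F)) = 1 := by
      rw [hZ]; exact Subgroup.card_bot
    have hcard : Nat.card (↥H ⧸ K) = (2 ^ n - 1) * 2 ^ n * (2 ^ n + 1) := by
      rw [Nat.card_congr e.toEquiv]
      have h1 := Subgroup.card_eq_card_quotient_mul_card_subgroup
        (Subgroup.center (SpecialLinearGroup (Fin 2) F))
      rw [hc1, mul_one, Cfsg.Agent.Lib.Helper7.card_SL2, hF] at h1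
      exact h1.symm
    rw [hcard] at hdvd
    have hn10 : n ≤ 10 := by
      by_contra hcon
      have h1 : 2 ^ 11 ∣ 2 ^ n := pow_dvd_pow 2 (by omega)
      have h3 : 2 ^ n ∣ (2 ^ n - 1) * 2 ^ n * (2 ^ n + 1) :=
        Dvd.intro_left (2 ^ n - 1) rfl |>.trans (Dvd.intro _ rfl)
      have h4 := (h1.trans h3).trans hdvd
      norm_num at h4
    have hn23 : n = 2 ∨ n = 3 := by
      interval_cases n <;> first | (left; rfl) | (right; rfl) | (exfalso; revert hdvd; norm_num)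
    rcases hn23 with rfl | rfl
    · exact ⟨F, hField, hFin, by rw [hF]; norm_num, ⟨e⟩⟩
    · exact (no_PSL2_8 (by rw [hF]; norm_num) e).elim
  · -- Sz
    exfalso
    have hcard : Nat.card (↥H ⧸ K) = (2 ^ (2 * m + 1)) ^ 2 * ((2 ^ (2 * m + 1)) ^ 2 + 1)
        * (2 ^ (2 * m + 1) - 1) := by
      rw [Nat.card_congr e.toEquiv]
      exact Cfsg.Agent.Lib.Helper27.SzBridge.card_LieSz hF hm
    rw [hcard] at hdvd
    have hm2 : m ≤ 2 := by
      by_contra hcon
      have h1 : 2 ^ 11 ∣ (2 ^ (2 * m + 1)) ^ 2 := by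
        rw [← pow_mul]; exact pow_dvd_pow 2 (by omega)
      have h3 : (2 ^ (2 * m + 1)) ^ 2 ∣ (2 ^ (2 * m + 1)) ^ 2 * ((2 ^ (2 * m + 1)) ^ 2 + 1)
          * (2 ^ (2 * m + 1) - 1) :=
        (Dvd.intro _ rfl).trans (Dvd.intro _ rfl)
      have h4 := (h1.trans h3).trans hdvd
      norm_num at h4
    interval_cases m <;> (revert hdvd; norm_num)
  · -- PSU₃(2ⁿ)
    exfalso
    have hq : Fintype.card F = (2 ^ n) ^ 2 := by
      rw [hF, show (4 : ℕ) = 2 ^ 2 by norm_num, ← pow_mul, ← pow_mul, mul_comm]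
    have h1 := Cfsg.Agent.S0280.result hq 3 (by norm_num)
    rw [← Nat.card_congr e.toEquiv] at h1
    obtain ⟨q, hqdef⟩ : ∃ q, q = 2 ^ n := ⟨_, rfl⟩
    rw [← hqdef] at h1
    obtain ⟨c, hcdef⟩ : ∃ c, c = Nat.card (↥H ⧸ K) := ⟨_, rfl⟩
    rw [← hcdef] at h1 hdvd
    have hprod : ∏ i ∈ Finset.range 3, (if Even i then q ^ (i + 1) + 1 else q ^ (i + 1) - 1)
        = (q + 1) * ((q ^ 2 - 1) * (q ^ 3 + 1)) := by
      simp [Finset.prod_range_succ, mul_assoc]
    rw [hprod] at h1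
    have h3 : (q + 1) * (Nat.gcd 3 (q + 1) * c) = (q + 1) * (q ^ 3 * ((q ^ 2 - 1) * (q ^ 3 + 1))) := by
      calc (q + 1) * (Nat.gcd 3 (q + 1) * c) = Nat.gcd 3 (q + 1) * ((q + 1) * c) := by ring
        _ = q ^ (3 * (3 - 1) / 2) * ((q + 1) * ((q ^ 2 - 1) * (q ^ 3 + 1))) := h1
        _ = (q + 1) * (q ^ 3 * ((q ^ 2 - 1) * (q ^ 3 + 1))) := by
          rw [show 3 * (3 - 1) / 2 = 3 by norm_num]; ring
    have h4 := Nat.eq_of_mul_eq_mul_left (Nat.succ_pos q) h3
    have h5 : Nat.gcd 3 (q + 1) * c ∣ 3 * 9999360 :=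
      Nat.mul_dvd_mul (Nat.gcd_dvd_left 3 (q + 1)) hdvd
    rw [h4, hqdef] at h5
    have hn3 : n ≤ 3 := by
      by_contra hcon
      have h6 : 2 ^ 12 ∣ (2 ^ n) ^ 3 := by
        rw [← pow_mul]; exact pow_dvd_pow 2 (by omega)
      have h7 := (h6.trans (Dvd.intro _ rfl)).trans h5
      norm_num at h7
    interval_cases n <;> (revert h5; norm_num)

end Cfsg.Agent.S3179
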