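import Mathlib
import Cfsg.Statements.S3180

set_option autoImplicit false
open Cfsg

namespace Cfsg.Agent.S3180

theorem mem_normalizer_of_map_conj_eq {J : Type*} [Group J] (P₁ : Subgroup J) (k : J)
    (h : P₁.map (MulAut.conj k).toMonoidHom = P₁) : k ∈ Subgroup.normalizer (P₁ : Set J) := by
  rw [Subgroup.mem_normalizer_iff]
  intro a
  constructor
  · intro ha
    rw [← h]
    exact ⟨a, ha, rfl⟩
  · intro ha
    rw [← h] at ha
    obtain ⟨b, hb, hba⟩ := ha
    have : b = a := by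
      have h1 : k * b * k⁻¹ = k * a * k⁻¹ := hba
      calc b = k⁻¹ * (k * b * k⁻¹) * k := by group
        _ = k⁻¹ * (k * a * k⁻¹) * k := by rw [h1]
        _ = a := by group
    rw [← this]; exact hb

/-- Let P be a Sylow p-subgroup of a finite group J and P₁ a subgroup of P that is weakly closed in P with respect to J. If J acts on a set and two points, each fixed by every element of P₁, lie in one J-orbit, then they lie in one orbit of the normalizer of P₁ in J. -/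
theorem result {J : Type*} [Group J] [Finite J]
    {p : ℕ} [Fact p.Prime] (P : Sylow p J) (P₁ : Subgroup J) (hW : Cfsg.IsWeaklyClosed P₁ (P : Subgroup J))
    {Ω : Type*} [MulAction J Ω] (x y : Ω) (hx : ∀ g ∈ P₁, g • x = x) (hy : ∀ g ∈ P₁, g • y = y)
    (hc : ∃ g : J, g • x = y) :
    ∃ g ∈ Subgroup.normalizer (P₁ : Set J), g • x = y := by
  obtain ⟨g, rfl⟩ := hc
  obtain ⟨C, hC⟩ : ∃ C : Subgroup J, C = MulAction.stabilizer J (g • x) := ⟨_, rfl⟩
  have hP₁C : P₁ ≤ C := fun a ha => by rw [hC]; exact MulAction.mem_stabilizer_iff.mpr (hy a ha)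
  have hP₁p : IsPGroup p P₁ := P.2.to_le hW.1
  have hgC : ∀ a ∈ P₁, g * a * g⁻¹ ∈ C := by
    intro a ha
    rw [hC, MulAction.mem_stabilizer_iff, mul_smul, mul_smul, inv_smul_smul, hx a ha]
  have h1 : IsPGroup p (P₁.subgroupOf C) := hP₁p.comap_subtype
  obtain ⟨R, hR⟩ := h1.exists_le_sylow
  have h2 : IsPGroup p ((P₁.map (MulAut.conj g).toMonoidHom).subgroupOf C) :=
    (hP₁p.map _).comap_subtype
  obtain ⟨R₂, hR₂⟩ := h2.exists_le_sylow
  obtain ⟨c, hcR⟩ := MulAction.exists_smul_eq C R₂ R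
  have h3 : IsPGroup p ((R : Subgroup C).map C.subtype) := R.2.map _
  obtain ⟨Q, hQ⟩ := h3.exists_le_sylow
  obtain ⟨h, hh⟩ := MulAction.exists_smul_eq J P Q
  have hQP : ∀ a : J, a ∈ (Q : Subgroup J) → h⁻¹ * a * h ∈ (P : Subgroup J) := by
    intro a ha
    rw [← hh, Sylow.coe_subgroup_smul,
      Subgroup.mem_pointwise_smul_iff_inv_smul_mem] at ha
    simpa [MulAut.smul_def] using ha
  -- (i)
  have hi : ∀ a ∈ P₁, a ∈ (Q : Subgroup J) := by
    intro a ha
    apply hQ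
    exact ⟨⟨a, hP₁C ha⟩, hR (by rw [Subgroup.mem_subgroupOf]; exact ha), rfl⟩
  -- (ii)
  have hii : ∀ a ∈ P₁, (c : J) * (g * a * g⁻¹) * (c : J)⁻¹ ∈ (Q : Subgroup J) := by
    intro a ha
    apply hQ
    have h4 : (⟨g * a * g⁻¹, hgC a ha⟩ : C) ∈ (R₂ : Subgroup C) := by
      apply hR₂
      rw [Subgroup.mem_subgroupOf]
      exact ⟨a, ha, rfl⟩
    have h5 : c * (⟨g * a * g⁻¹, hgC a ha⟩ : C) * c⁻¹ ∈ (R : Subgroup C) := by
      rw [← hcR, Sylow.coe_subgroup_smul,
        Subgroup.mem_pointwise_smul_iff_inv_smul_mem]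
      simpa [MulAut.smul_def, mul_assoc] using h4
    exact ⟨_, h5, rfl⟩
  have e1 : P₁.map (MulAut.conj h⁻¹).toMonoidHom = P₁ := by
    apply hW.2
    rintro _ ⟨a, ha, rfl⟩
    have := hQP a (hi a ha)
    simpa using this
  have e2 : P₁.map (MulAut.conj (h⁻¹ * c * g)).toMonoidHom = P₁ := by
    apply hW.2
    rintro _ ⟨a, ha, rfl⟩
    have := hQP _ (hii a ha)
    have e : h⁻¹ * ((c : J) * (g * a * g⁻¹) * (c : J)⁻¹) * h =
        (MulAut.conj (h⁻¹ * c * g)).toMonoidHom a := by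
      simp [mul_assoc]
    rwa [e] at this
  have n1 := mem_normalizer_of_map_conj_eq P₁ _ e1
  have n2 := mem_normalizer_of_map_conj_eq P₁ _ e2
  refine ⟨c * g, ?_, ?_⟩
  · have e : (c : J) * g = (h⁻¹)⁻¹ * (h⁻¹ * c * g) := by group
    rw [e]
    exact Subgroup.mul_mem _ (Subgroup.inv_mem _ n1) n2
  · rw [mul_smul]
    have h6 : (c : J) ∈ MulAction.stabilizer J (g • x) := hC ▸ c.2
    exact MulAction.mem_stabilizer_iff.mp h6

end Cfsg.Agent.S3180
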