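import Mathlib
import Cfsg.Statements.S3183
import Cfsg.Agent.Lib.Helper61.Basic

set_option autoImplicit false
open Cfsg

namespace Cfsg.Agent.S3183

open Subgroup Cfsg.Agent.Lib.Helper61

variable {G : Type*} [Group G] [Finite G]

theorem step
    (hCI : ∀ S T : Sylow 2 G, S ≠ T → ∃ U : Sylow 2 G, ∀ d, d ∈ (S : Subgroup G) →
      d ∈ (T : Subgroup G) → d ∈ (U : Subgroup G) ∧ ∀ u ∈ (U : Subgroup G), u * d = d * u) :
    ∀ m : ℕ, ∀ S T : Sylow 2 G, S ≠ T →
      Nat.card G - Nat.card ((S : Subgroup G) ⊓ (T : Subgroup G) : Subgroup G) = m →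
      ∀ d, d ∈ (S : Subgroup G) → d ∈ (T : Subgroup G) →
        ∀ s ∈ (S : Subgroup G), s * d = d * s := by
  intro m
  induction m using Nat.strong_induction_on with
  | _ m ih =>
  intro S T hST hm d hdS hdT s hs
  have : Fact (Nat.Prime 2) := ⟨Nat.prime_two⟩
  obtain ⟨D, hD⟩ : ∃ D : Subgroup G, D = (S : Subgroup G) ⊓ (T : Subgroup G) := ⟨_, rfl⟩
  rw [← hD] at hm
  have hDS : D ≤ S := hD ▸ inf_le_left
  have hDT : D ≤ T := hD ▸ inf_le_right
  have hdD : d ∈ D := by rw [hD]; exact Subgroup.mem_inf.mpr ⟨hdS, hdT⟩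
  have hDp : IsPGroup 2 D := S.2.to_le hDS
  have hdvd : 2 ∣ D.relIndex S := by
    obtain ⟨a, ha⟩ := IsPGroup.iff_card.mp S.2
    have h1 : D.relIndex S ∣ 2 ^ a := by rw [← ha]; exact Subgroup.relIndex_dvd_card D S
    obtain ⟨j, -, hj⟩ := (Nat.dvd_prime_pow Nat.prime_two).mp h1
    rcases Nat.eq_zero_or_pos j with rfl | hj0
    · exfalso
      rw [pow_zero, Subgroup.relIndex_eq_one] at hj
      exact hST (sylow_eq_of_le S T (hj.trans hDT))
    · rw [hj]; exact dvd_pow_self 2 hj0.ne'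
  obtain ⟨K, hDK, hKS, hidx, hKp, hKcard, hKnorm⟩ :=
    exists_overgroup Nat.prime_two (S : Subgroup G) D hDS hDp hdvd
  obtain ⟨U, hU⟩ := hCI S T hST
  have hU' : ∀ t ∈ D, t ∈ (U : Subgroup G) ∧ ∀ u ∈ (U : Subgroup G), u * t = t * u :=
    fun t ht => hU t (hDS ht) (hDT ht)
  have hKN : K ≤ normalizer (D : Set G) := by
    intro k hk
    rw [mem_normalizer_iff]
    intro t
    refine ⟨hKnorm k hk t, fun h => ?_⟩
    have := hKnorm k⁻¹ (K.inv_mem hk) _ h
    rw [inv_inv] at this
    have e : k⁻¹ * (k * t * k⁻¹) * k = t := by group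
    rwa [e] at this
  have hUN : (U : Subgroup G) ≤ normalizer (D : Set G) := by
    intro u hu
    rw [mem_normalizer_iff]
    intro t
    constructor
    · intro ht
      rw [(hU' t ht).2 u hu, mul_inv_cancel_right]; exact ht
    · intro ht
      have h1 := (hU' _ ht).2 u hu
      have e : t = u * t * u⁻¹ := by
        calc t = u⁻¹ * ((u * t * u⁻¹) * u) := by group
          _ = u⁻¹ * (u * (u * t * u⁻¹)) := by rw [h1]
          _ = u * t * u⁻¹ := by group
      rw [e]; exact ht
  obtain ⟨n, hnN, hn⟩ := exists_conj_mem_sylow U (normalizer (D : Set G)) K hUN hKN hKp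
  have hKR : ∀ k ∈ K, k ∈ ((n • U : Sylow 2 G) : Subgroup G) :=
    fun k hk => (mem_smul_sylow_iff U n k).mpr (hn k hk)
  have hDZ : ∀ d ∈ D, ∀ r ∈ ((n • U : Sylow 2 G) : Subgroup G), r * d = d * r := by
    intro d hd r hr
    rw [mem_smul_sylow_iff] at hr
    have hd' : n⁻¹ * d * n ∈ D := by
      rw [(mem_normalizer_iff.mp hnN) (n⁻¹ * d * n)]
      have e : n * (n⁻¹ * d * n) * n⁻¹ = d := by group
      rw [e]; exact hd
    have h1 := (hU' _ hd').2 _ hr
    calc r * d = n * ((n⁻¹ * r * n) * (n⁻¹ * d * n)) * n⁻¹ := by group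
      _ = n * ((n⁻¹ * d * n) * (n⁻¹ * r * n)) * n⁻¹ := by rw [h1]
      _ = d * r := by group
  by_cases hRS : n • U = S
  · exact hDZ d hdD s (hRS ▸ hs)
  · have hlt : Nat.card G - Nat.card ((S : Subgroup G) ⊓ ((n • U : Sylow 2 G) : Subgroup G) :
        Subgroup G) < m := by
      have h1 : Nat.card K ≤ Nat.card ((S : Subgroup G) ⊓ ((n • U : Sylow 2 G) : Subgroup G) :
          Subgroup G) := Subgroup.card_le_of_le (le_inf hKS hKR)
      have h2 : 0 < Nat.card D := Nat.card_pos
      have h3 := Subgroup.card_le_card_group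
        ((S : Subgroup G) ⊓ ((n • U : Sylow 2 G) : Subgroup G) : Subgroup G)
      omega
    exact ih _ hlt S (n • U) (Ne.symm hRS) rfl d hdS (hKR d (hDK hdD)) s hs

/-- Let G be a finite group in which the intersection of any two distinct Sylow 2-subgroups is contained in the centre of some Sylow 2-subgroup, and let S be a Sylow 2-subgroup. Then for every x in S the centralizer of x in S is a Sylow 2-subgroup of the centralizer of x in G (no 2-subgroup centralizing x is larger), and for every other Sylow 2-subgroup T the intersection S ∩ T lies in both the centre of S and the centre of T. -/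
theorem result {G : Type*} [Group G] [Finite G]
    (hCI : ∀ S T : Sylow 2 G, S ≠ T → ∃ U : Sylow 2 G,
      (S : Subgroup G) ⊓ (T : Subgroup G) ≤ (Subgroup.center ↥(U : Subgroup G)).map (U : Subgroup G).subtype)
    (S : Sylow 2 G) :
    (∀ x ∈ (S : Subgroup G), ∀ P : Subgroup G, IsPGroup 2 ↥P → P ≤ Subgroup.centralizer ({x} : Set G) →
        Nat.card ↥P ≤ Nat.card ↥((S : Subgroup G) ⊓ Subgroup.centralizer ({x} : Set G))) ∧
    (∀ T : Sylow 2 G, T ≠ S →
        (S : Subgroup G) ⊓ (T : Subgroup G) ≤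
          (Subgroup.center ↥(S : Subgroup G)).map (S : Subgroup G).subtype ⊓
            (Subgroup.center ↥(T : Subgroup G)).map (T : Subgroup G).subtype) := by
  have hCI' : ∀ S T : Sylow 2 G, S ≠ T → ∃ U : Sylow 2 G, ∀ d, d ∈ (S : Subgroup G) →
      d ∈ (T : Subgroup G) → d ∈ (U : Subgroup G) ∧ ∀ u ∈ (U : Subgroup G), u * d = d * u := by
    intro S T hST
    obtain ⟨U, hU⟩ := hCI S T hST
    exact ⟨U, fun d hdS hdT => (mem_center_map_iff _ d).mp (hU (Subgroup.mem_inf.mpr ⟨hdS, hdT⟩))⟩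
  have hb : ∀ S T : Sylow 2 G, S ≠ T → ∀ d, d ∈ (S : Subgroup G) → d ∈ (T : Subgroup G) →
      ∀ s ∈ (S : Subgroup G), s * d = d * s := fun S T hST => step hCI' _ S T hST rfl
  have : Fact (Nat.Prime 2) := ⟨Nat.prime_two⟩
  constructor
  · intro x hxS P hP hPC
    obtain ⟨C, hC⟩ : ∃ C : Subgroup G, C = centralizer ({x} : Set G) := ⟨_, rfl⟩
    rw [← hC] at hPC ⊢
    have h1 : IsPGroup 2 (((S : Subgroup G) ⊓ C).subgroupOf C) :=
      (S.2.to_le inf_le_left).comap_subtype
    obtain ⟨R', hR'⟩ := h1.exists_le_sylow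
    have h2 : IsPGroup 2 (P.subgroupOf C) := hP.comap_subtype
    have hPle : Nat.card P ≤ Nat.card (R' : Subgroup C) := by
      rw [← card_subgroupOf_of_le hPC]
      exact card_le_sylow R' _ h2
    have h3 : IsPGroup 2 ((R' : Subgroup C).map C.subtype) := R'.2.map _
    obtain ⟨T, hT⟩ := h3.exists_le_sylow
    have hRcard : Nat.card ((R' : Subgroup C).map C.subtype) = Nat.card (R' : Subgroup C) :=
      card_map_subtype C _
    by_cases hTS : T = S
    · have hle : (R' : Subgroup C).map C.subtype ≤ (S : Subgroup G) ⊓ C := by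
        apply le_inf (hTS ▸ hT)
        rintro _ ⟨c, -, rfl⟩
        exact c.2
      calc Nat.card P ≤ Nat.card (R' : Subgroup C) := hPle
        _ = Nat.card ((R' : Subgroup C).map C.subtype) := hRcard.symm
        _ ≤ _ := Subgroup.card_le_of_le hle
    · have hxC : x ∈ C := by
        rw [hC]
        exact mem_centralizer_iff.mpr (fun y hy => by rw [Set.mem_singleton_iff] at hy; rw [hy])
      have hxT : x ∈ (T : Subgroup G) :=
        hT ⟨⟨x, hxC⟩, hR' (by rw [mem_subgroupOf]; exact Subgroup.mem_inf.mpr ⟨hxS, hxC⟩), rfl⟩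
      have hSC : (S : Subgroup G) ≤ C := by
        intro s hs
        rw [hC, mem_centralizer_iff]
        intro y hy
        rw [Set.mem_singleton_iff] at hy
        subst hy
        exact (hb S T (Ne.symm hTS) y hxS hxT s hs).symm
      rw [inf_eq_left.mpr hSC]
      exact card_le_sylow S P hP
  · intro T hTS d hd
    rw [Subgroup.mem_inf] at hd ⊢
    exact ⟨(mem_center_map_iff _ _).mpr ⟨hd.1, hb S T (Ne.symm hTS) d hd.1 hd.2⟩,
      (mem_center_map_iff _ _).mpr ⟨hd.2, hb T S hTS d hd.2 hd.1⟩⟩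

end Cfsg.Agent.S3183
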