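import Mathlib
import Cfsg.Statements.S3190
import Cfsg.Agent.Lib.Helper61.Basic
import Cfsg.Agent.Lib.Helper61.PGroup

set_option autoImplicit false
open Cfsg

namespace Cfsg.Agent.S3190

open Subgroup Cfsg.Agent.Lib.Helper61

variable {X : Type*} [Group X]

/-- the elements of `Z(R)` inverted by `t` -/
def W (R : Subgroup X) (t : X) : Subgroup X where
  carrier := {z | (z ∈ R ∧ ∀ r ∈ R, r * z = z * r) ∧ t * z * t⁻¹ = z⁻¹}
  one_mem' := ⟨⟨R.one_mem, fun r _ => by simp⟩, by simp⟩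
  mul_mem' := by
    rintro a b ⟨⟨haR, hac⟩, hat⟩ ⟨⟨hbR, hbc⟩, hbt⟩
    refine ⟨⟨R.mul_mem haR hbR, fun r hr => ?_⟩, ?_⟩
    · rw [← mul_assoc, hac r hr, mul_assoc, hbc r hr, mul_assoc]
    · have e : t * (a * b) * t⁻¹ = (t * a * t⁻¹) * (t * b * t⁻¹) := by group
      have h1 := hac b hbR
      rw [e, hat, hbt, ← mul_inv_rev, h1]
  inv_mem' := by
    rintro a ⟨⟨haR, hac⟩, hat⟩
    refine ⟨⟨R.inv_mem haR, fun r hr => ?_⟩, ?_⟩
    · have := hac r hr
      calc r * a⁻¹ = a⁻¹ * (a * r) * a⁻¹ := by group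
        _ = a⁻¹ * (r * a) * a⁻¹ := by rw [this]
        _ = a⁻¹ * r := by group
    · have e : t * a⁻¹ * t⁻¹ = (t * a * t⁻¹)⁻¹ := by group
      rw [e, hat]

theorem mem_W (R : Subgroup X) (t z : X) :
    z ∈ W R t ↔ (z ∈ R ∧ ∀ r ∈ R, r * z = z * r) ∧ t * z * t⁻¹ = z⁻¹ := Iff.rfl

/-- conjugation by an element normalizing `R` preserves `Z(R)` -/
theorem conj_center {R : Subgroup X} {g : X} (hg : g ∈ normalizer (R : Set X)) {z : X}
    (hz : z ∈ R ∧ ∀ r ∈ R, r * z = z * r) :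
    g * z * g⁻¹ ∈ R ∧ ∀ r ∈ R, r * (g * z * g⁻¹) = (g * z * g⁻¹) * r := by
  refine ⟨conj_mem_of_mem_normalizer hg hz.1, fun r hr => ?_⟩
  have h1 := hz.2 _ (conj_mem_of_mem_normalizer' hg hr)
  calc r * (g * z * g⁻¹) = g * ((g⁻¹ * r * g) * z) * g⁻¹ := by group
    _ = g * (z * (g⁻¹ * r * g)) * g⁻¹ := by rw [h1]
    _ = (g * z * g⁻¹) * r := by group

/-- Let p be an odd prime and, inside a finite group, let P be a p-subgroup normalized by a Klein four-group T. Let R be a subgroup of P, normal in P and normalized by T, such that P is the product of R with the centralizer of T in P. If T centralizes the centre of P, then T centralizes the centre of R. -/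
theorem result {X : Type*} [Group X] [Finite X]
    {p : ℕ} (hp : p.Prime) (hodd : Odd p) (P T R : Subgroup X) (hP : IsPGroup p ↥P) (hT : IsKleinFour ↥T)
    (hTP : T ≤ Subgroup.normalizer (P : Set X)) (hRP : R ≤ P) (hRn : (R.subgroupOf P).Normal)
    (hTR : T ≤ Subgroup.normalizer (R : Set X)) (hfac : R ⊔ (P ⊓ Subgroup.centralizer (T : Set X)) = P)
    (hZ : T ≤ Subgroup.centralizer (((Subgroup.center ↥P).map P.subtype : Subgroup X) : Set X)) :
    T ≤ Subgroup.centralizer (((Subgroup.center ↥R).map R.subtype : Subgroup X) : Set X) := by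
  intro t ht
  have ht2 : t * t = 1 := by
    have h1 : (⟨t, ht⟩ : T) ^ 2 = 1 := by
      rw [← hT.exponent_two]; exact Monoid.pow_exponent_eq_one _
    have h2 := congrArg Subtype.val h1
    simpa [pow_two] using h2
  have htinv : t⁻¹ = t := inv_eq_of_mul_eq_one_left ht2
  -- P normalizes R
  have hPR : P ≤ normalizer (R : Set X) := by
    apply le_normalizer_of_conj_mem
    intro g hg r hr
    have := hRn.conj_mem ⟨r, hRP hr⟩ (by rw [mem_subgroupOf]; exact hr) ⟨g, hg⟩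
    rw [mem_subgroupOf] at this
    exact this
  -- P normalizes W
  have hPW : P ≤ normalizer (W R t : Set X) := by
    rw [← hfac]
    apply sup_le
    · apply le_normalizer_of_conj_mem
      intro r hr w hw
      have e : r * w * r⁻¹ = w := by rw [hw.1.2 r hr, mul_inv_cancel_right]
      rw [e]; exact hw
    · apply le_normalizer_of_conj_mem
      intro c hc w hw
      rw [Subgroup.mem_inf] at hc
      refine ⟨conj_center (hPR hc.1) hw.1, ?_⟩
      have hct : t * c = c * t := (mem_centralizer_iff.mp hc.2 t ht)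
      have hct' : t⁻¹ * c⁻¹ = c⁻¹ * t⁻¹ := by
        rw [← mul_inv_rev, ← mul_inv_rev, hct]
      calc t * (c * w * c⁻¹) * t⁻¹ = (t * c) * w * (c⁻¹ * t⁻¹) := by group
        _ = (c * t) * w * (t⁻¹ * c⁻¹) := by rw [hct, hct']
        _ = c * (t * w * t⁻¹) * c⁻¹ := by group
        _ = c * w⁻¹ * c⁻¹ := by rw [hw.2]
        _ = (c * w * c⁻¹)⁻¹ := by group
  have hWbot : W R t = ⊥ := by
    by_contra hne
    have hWP : W R t ≤ P := fun w hw => hRP hw.1.1
    obtain ⟨z, hzW, hz1, hzc⟩ := exists_central_of_normal hp P (W R t) hP hne hWP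
      (fun g hg w hw => conj_mem_of_mem_normalizer (hPW hg) hw)
    have hzZ : z ∈ (Subgroup.center ↥P).map P.subtype :=
      (mem_center_map_iff P z).mpr ⟨hWP hzW, hzc⟩
    have h1 : z * t = t * z := mem_centralizer_iff.mp (hZ ht) z hzZ
    have h2 : t * z * t⁻¹ = z := by rw [← h1, mul_inv_cancel_right]
    have h3 : z ^ 2 = 1 := by
      have := hzW.2
      rw [h2] at this
      rw [pow_two]
      nth_rewrite 1 [this]
      exact inv_mul_cancel z
    exact hz1 (eq_one_of_sq_eq_one hodd hP (hWP hzW) h3)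
  rw [mem_centralizer_iff]
  intro z hz
  rw [SetLike.mem_coe, mem_center_map_iff] at hz
  have hz' := conj_center (hTR ht) hz
  have hw : z * (t * z * t⁻¹)⁻¹ ∈ W R t := by
    refine ⟨?_, ?_⟩
    · refine ⟨R.mul_mem hz.1 (R.inv_mem hz'.1), fun r hr => ?_⟩
      have h1 := hz.2 r hr
      have h2 := hz'.2 r hr
      have h3 : r * (t * z * t⁻¹)⁻¹ = (t * z * t⁻¹)⁻¹ * r := by
        calc r * (t * z * t⁻¹)⁻¹ = (t * z * t⁻¹)⁻¹ * ((t * z * t⁻¹) * r) * (t * z * t⁻¹)⁻¹ := by
              group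
          _ = (t * z * t⁻¹)⁻¹ * (r * (t * z * t⁻¹)) * (t * z * t⁻¹)⁻¹ := by rw [h2]
          _ = (t * z * t⁻¹)⁻¹ * r := by group
      rw [← mul_assoc, h1, mul_assoc, h3, ← mul_assoc]
    · calc t * (z * (t * z * t⁻¹)⁻¹) * t⁻¹
          = (t * z * t⁻¹) * ((t * t) * z⁻¹ * (t * t)⁻¹) := by group
        _ = (t * z * t⁻¹) * (1 * z⁻¹ * 1⁻¹) := by rw [ht2]
        _ = (z * (t * z * t⁻¹)⁻¹)⁻¹ := by group
  rw [hWbot, mem_bot] at hw
  have h4 : z = t * z * t⁻¹ := by
    calc z = (z * (t * z * t⁻¹)⁻¹) * (t * z * t⁻¹) := by group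
      _ = t * z * t⁻¹ := by rw [hw, one_mul]
  calc z * t = (t * z * t⁻¹) * t := by rw [← h4]
    _ = t * z := by group

end Cfsg.Agent.S3190
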