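import Mathlib
import Cfsg.Statements.S3195
import Cfsg.Agent.Lib.Helper5.BaerSuzuki

set_option autoImplicit false
open Cfsg

namespace Cfsg.Agent.S3195

open Subgroup

variable {G : Type*} [Group G]

/-- `y` has odd order. -/
def OddOrd (y : G) : Prop := ∃ l : ℕ, Odd l ∧ y ^ l = 1

theorem OddOrd.eq_one_of_mul_self {y : G} (h : OddOrd y) (h2 : y * y = 1) : y = 1 := by
  obtain ⟨l, ⟨k, rfl⟩, hl⟩ := h
  rw [pow_succ, pow_mul, pow_two, h2, one_pow, one_mul] at hl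
  exact hl

theorem OddOrd.mul_self {y : G} (h : OddOrd y) : OddOrd (y * y) := by
  obtain ⟨l, hl, hy⟩ := h
  exact ⟨l, hl, by rw [← pow_two, ← pow_mul, mul_comm, pow_mul, hy, one_pow]⟩

theorem OddOrd.inv {y : G} (h : OddOrd y) : OddOrd y⁻¹ := by
  obtain ⟨l, hl, hy⟩ := h
  exact ⟨l, hl, by rw [inv_pow, hy, inv_one]⟩

theorem klein_sq (A : Subgroup G) (hA : IsKleinFour A) {x : G} (hx : x ∈ A) : x * x = 1 := by
  have := IsKleinFour.mul_self (⟨x, hx⟩ : A)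
  exact congrArg Subtype.val this

theorem klein_comm (A : Subgroup G) (hA : IsKleinFour A) {x y : G} (hx : x ∈ A) (hy : y ∈ A) :
    x * y = y * x := by
  have h1 := klein_sq A hA hx
  have h2 := klein_sq A hA hy
  have h3 := klein_sq A hA (A.mul_mem hx hy)
  calc x * y = x * (x * y * (x * y)) * y := by rw [h3, mul_one]
    _ = (x * x) * y * x * (y * y) := by group
    _ = y * x := by rw [h1, h2, one_mul, mul_one]

theorem klein_third (A : Subgroup G) (hA : IsKleinFour A) {x y z : G} (hx : x ∈ A) (hy : y ∈ A)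
    (hz : z ∈ A) (hx1 : x ≠ 1) (hy1 : y ≠ 1) (hxy : x ≠ y) (hz1 : z ≠ 1) (hzx : z ≠ x)
    (hzy : z ≠ y) : z = x * y := by
  have := IsKleinFour.eq_mul_of_ne_all (x := (⟨x, hx⟩ : A)) (y := ⟨y, hy⟩) (z := ⟨z, hz⟩)
    (by simpa [Subtype.ext_iff] using hx1) (by simpa [Subtype.ext_iff] using hy1)
    (by simpa [Subtype.ext_iff] using hxy) (by simpa [Subtype.ext_iff] using hz1)
    (by simpa [Subtype.ext_iff] using hzx) (by simpa [Subtype.ext_iff] using hzy)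
  exact congrArg Subtype.val this

theorem inv_pow_conj {a y : G} (h : a * y * a⁻¹ = y⁻¹) (n : ℕ) : a * y ^ n * a⁻¹ = (y ^ n)⁻¹ := by
  rw [← conj_pow, h, inv_pow]

theorem inv_conj_mul_self {a y : G} (h : a * y * a⁻¹ = y⁻¹) :
    a * (y * y) * a⁻¹ = (y * y)⁻¹ := by
  calc a * (y * y) * a⁻¹ = (a * y * a⁻¹) * (a * y * a⁻¹) := by group
    _ = y⁻¹ * y⁻¹ := by rw [h]
    _ = (y * y)⁻¹ := by group

theorem comm_conj {a y : G} (h : a * y = y * a) : a * y * a⁻¹ = y := by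
  rw [h, mul_inv_cancel_right]

theorem eq_one_of_rel (U U' : G) (hU : OddOrd U) (hU' : OddOrd U') (h2 : U' * U * U' = U) :
    U' = 1 := by
  have h3 : U * U' = U'⁻¹ * U := by
    calc U * U' = U'⁻¹ * (U' * U * U') := by group
      _ = U'⁻¹ * U := by rw [h2]
  have h4 : U' * U = U * U'⁻¹ := by
    calc U' * U = (U' * U * U') * U'⁻¹ := by group
      _ = U * U'⁻¹ := by rw [h2]
  have h5 : Commute U' (U * U) := by
    change U' * (U * U) = (U * U) * U'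
    calc U' * (U * U) = (U' * U) * U := by group
      _ = U * U'⁻¹ * U := by rw [h4]
      _ = U * (U'⁻¹ * U) := by group
      _ = U * (U * U') := by rw [h3]
      _ = (U * U) * U' := by group
  obtain ⟨l, ⟨k, rfl⟩, hl⟩ := hU
  have h6 : U = (U * U) ^ (k + 1) := by
    have e : 2 * (k + 1) = 2 * k + 1 + 1 := by ring
    rw [← pow_two, ← pow_mul, e, pow_succ, hl, one_mul]
  have h7 : Commute U' U := by
    rw [h6]; exact h5.pow_right _
  have h8 : U' * U' = 1 := by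
    have : U * (U' * U') = U * 1 := by
      calc U * (U' * U') = (U * U') * U' := by group
        _ = (U' * U) * U' := by rw [h7.eq]
        _ = U := h2
        _ = U * 1 := (mul_one U).symm
    exact mul_left_cancel this
  exact hU'.eq_one_of_mul_self h8

/-- The key relation. -/
theorem key_sq [Finite G] (A : Subgroup G) (hA : IsKleinFour A)
    (h : ∀ a ∈ A, a ≠ 1 → ∀ g : G, A ⊓ Subgroup.centralizer ({g * a * g⁻¹} : Set G) ≠ ⊥)
    (a b : G) (ha : a ∈ A) (hb : b ∈ A) (ha1 : a ≠ 1) (hb1 : b ≠ 1) (hab : a ≠ b)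
    (Y Y' : G) (hY : OddOrd Y) (hY' : OddOrd Y') (hY1 : Y ≠ 1) (hY'1 : Y' ≠ 1)
    (haY : a * Y * a⁻¹ = Y⁻¹) (hbY : b * Y = Y * b) (hbY' : b * Y' * b⁻¹ = Y'⁻¹)
    (haY' : a * Y' = Y' * a) :
    (Y' * (Y * Y) * Y') * (Y' * (Y * Y) * Y') = 1 := by
  have haa := klein_sq A hA ha
  have hbb := klein_sq A hA hb
  have hc : a * b ∈ A := A.mul_mem ha hb
  have hc1 : a * b ≠ 1 := by
    intro h1
    apply hab
    calc a = a * (b * b) := by rw [hbb, mul_one]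
      _ = (a * b) * b := by group
      _ = b := by rw [h1, one_mul]
  have hbY2 : b * Y * b⁻¹ = Y := comm_conj hbY
  have haY'2 : a * Y' * a⁻¹ = Y' := comm_conj haY'
  -- the third involution inverts both
  have hcY : (a * b) * Y * (a * b)⁻¹ = Y⁻¹ := by
    calc (a * b) * Y * (a * b)⁻¹ = a * (b * Y * b⁻¹) * a⁻¹ := by group
      _ = Y⁻¹ := by rw [hbY2, haY]
  have hcY' : (a * b) * Y' * (a * b)⁻¹ = Y'⁻¹ := by
    calc (a * b) * Y' * (a * b)⁻¹ = a * (b * Y' * b⁻¹) * a⁻¹ := by group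
      _ = a * Y'⁻¹ * a⁻¹ := by rw [hbY']
      _ = (a * Y' * a⁻¹)⁻¹ := by group
      _ = Y'⁻¹ := by rw [haY'2]
  have ht : (Y' * Y) * (a * b) * (Y' * Y)⁻¹ = (Y' * (Y * Y) * Y') * (a * b) := by
    calc (Y' * Y) * (a * b) * (Y' * Y)⁻¹
        = Y' * Y * ((a * b) * Y * (a * b)⁻¹)⁻¹ * ((a * b) * Y' * (a * b)⁻¹)⁻¹ * (a * b) := by group
      _ = Y' * Y * Y⁻¹⁻¹ * Y'⁻¹⁻¹ * (a * b) := by rw [hcY, hcY']
      _ = (Y' * (Y * Y) * Y') * (a * b) := by group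
  have hne := h (a * b) hc hc1 (Y' * Y)
  rw [Ne, Subgroup.eq_bot_iff_forall] at hne
  push Not at hne
  obtain ⟨d, hd, hd1⟩ := hne
  have hdA : d ∈ A := hd.1
  have hdt : (Y' * (Y * Y) * Y') * (a * b) * d = d * ((Y' * (Y * Y) * Y') * (a * b)) := by
    have := Subgroup.mem_centralizer_iff.mp hd.2 _ (Set.mem_singleton _)
    rw [ht] at this
    exact this
  have hda : d * a = a * d := klein_comm A hA hdA ha
  have hdb : d * b = b * d := klein_comm A hA hdA hb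
  have hdw : d * (Y' * (Y * Y) * Y') * d⁻¹ = Y' * (Y * Y) * Y' := by
    calc d * (Y' * (Y * Y) * Y') * d⁻¹
        = d * ((Y' * (Y * Y) * Y') * (a * b)) * (a * b)⁻¹ * d⁻¹ := by group
      _ = (Y' * (Y * Y) * Y') * (a * b) * d * (a * b)⁻¹ * d⁻¹ := by rw [hdt]
      _ = (Y' * (Y * Y) * Y') * a * (b * d) * b⁻¹ * a⁻¹ * d⁻¹ := by group
      _ = (Y' * (Y * Y) * Y') * a * (d * b) * b⁻¹ * a⁻¹ * d⁻¹ := by rw [hdb]
      _ = (Y' * (Y * Y) * Y') * (a * d) * a⁻¹ * d⁻¹ := by group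
      _ = (Y' * (Y * Y) * Y') * (d * a) * a⁻¹ * d⁻¹ := by rw [hda]
      _ = Y' * (Y * Y) * Y' := by group
  by_cases hd_a : d = a
  · exfalso
    rw [hd_a] at hdw
    have h1 : a * (Y' * (Y * Y) * Y') * a⁻¹ = Y' * (Y⁻¹ * Y⁻¹) * Y' := by
      calc a * (Y' * (Y * Y) * Y') * a⁻¹
          = (a * Y' * a⁻¹) * ((a * Y * a⁻¹) * (a * Y * a⁻¹)) * (a * Y' * a⁻¹) := by group
        _ = Y' * (Y⁻¹ * Y⁻¹) * Y' := by rw [haY'2, haY]
    rw [h1] at hdw
    have h2 : Y⁻¹ * Y⁻¹ = Y * Y := mul_left_cancel (mul_right_cancel hdw)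
    apply hY1
    apply hY.eq_one_of_mul_self
    apply hY.mul_self.eq_one_of_mul_self
    calc (Y * Y) * (Y * Y) = (Y⁻¹ * Y⁻¹) * (Y * Y) := by rw [h2]
      _ = 1 := by group
  by_cases hd_b : d = b
  · exfalso
    rw [hd_b] at hdw
    have h1 : b * (Y' * (Y * Y) * Y') * b⁻¹ = Y'⁻¹ * (Y * Y) * Y'⁻¹ := by
      calc b * (Y' * (Y * Y) * Y') * b⁻¹
          = (b * Y' * b⁻¹) * ((b * Y * b⁻¹) * (b * Y * b⁻¹)) * (b * Y' * b⁻¹) := by group
        _ = Y'⁻¹ * (Y * Y) * Y'⁻¹ := by rw [hbY', hbY2]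
    rw [h1] at hdw
    have h2 : (Y' * Y') * (Y * Y) * (Y' * Y') = Y * Y := by
      calc (Y' * Y') * (Y * Y) * (Y' * Y') = Y' * (Y' * (Y * Y) * Y') * Y' := by group
        _ = Y' * (Y'⁻¹ * (Y * Y) * Y'⁻¹) * Y' := by rw [hdw]
        _ = Y * Y := by group
    apply hY'1
    apply hY'.eq_one_of_mul_self
    exact eq_one_of_rel (Y * Y) (Y' * Y') hY.mul_self hY'.mul_self h2
  · have hd_c : d = a * b := klein_third A hA ha hb hdA ha1 hb1 hab hd1 hd_a hd_b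
    rw [hd_c] at hdw
    have h1 : (a * b) * (Y' * (Y * Y) * Y') * (a * b)⁻¹ = (Y' * (Y * Y) * Y')⁻¹ := by
      calc (a * b) * (Y' * (Y * Y) * Y') * (a * b)⁻¹
          = ((a * b) * Y' * (a * b)⁻¹) * (((a * b) * Y * (a * b)⁻¹) * ((a * b) * Y * (a * b)⁻¹)) *
              ((a * b) * Y' * (a * b)⁻¹) := by group
        _ = Y'⁻¹ * (Y⁻¹ * Y⁻¹) * Y'⁻¹ := by rw [hcY', hcY]
        _ = (Y' * (Y * Y) * Y')⁻¹ := by group
    rw [h1] at hdw
    calc (Y' * (Y * Y) * Y') * (Y' * (Y * Y) * Y')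
        = (Y' * (Y * Y) * Y')⁻¹ * (Y' * (Y * Y) * Y') := by rw [hdw]
      _ = 1 := by group

/-- Baer–Suzuki step: an involution of `A` outside `O₂(G)` inverts a nontrivial element of odd
order which is centralized by another involution of `A`. -/
theorem exists_inverted [Finite G] (A : Subgroup G) (hA : IsKleinFour A)
    (h : ∀ a ∈ A, a ≠ 1 → ∀ g : G, A ⊓ Subgroup.centralizer ({g * a * g⁻¹} : Set G) ≠ ⊥)
    (hcore : A ⊓ Cfsg.pCore 2 G = ⊥) (a : G) (ha : a ∈ A) (ha1 : a ≠ 1) :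
    ∃ y : G, y ≠ 1 ∧ OddOrd y ∧ a * y * a⁻¹ = y⁻¹ ∧
      ∃ a' ∈ A, a' ≠ 1 ∧ a' ≠ a ∧ a' * y = y * a' := by
  have haa := klein_sq A hA ha
  have hainv : a⁻¹ = a := inv_eq_of_mul_eq_one_left haa
  have hao : orderOf a = 2 := orderOf_eq_prime (by rw [pow_two]; exact haa) ha1
  -- step 1: some pair of conjugates does not generate a 2-group
  have step1 : ∃ t : G, ¬ IsPGroup 2 (closure ({a, t * a * t⁻¹} : Set G)) := by
    by_contra hall
    push Not at hall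
    obtain ⟨N, hN, hNp, hKN⟩ := Cfsg.Agent.Lib.Helper5.baer_suzuki_set (p := 2)
      {x : G | ∃ g : G, x = g * a * g⁻¹}
      (by
        rintro x ⟨g, rfl⟩ k
        exact ⟨k * g, by group⟩)
      (by
        rintro x ⟨g, rfl⟩ y ⟨k, rfl⟩
        have e : ({g * a * g⁻¹, k * a * k⁻¹} : Set G) =
            (MulAut.conj g).toMonoidHom '' {a, (g⁻¹ * k) * a * (g⁻¹ * k)⁻¹} := by
          rw [Set.image_pair]
          have hy' : k * a * k⁻¹ = g * ((g⁻¹ * k) * a * (g⁻¹ * k)⁻¹) * g⁻¹ := by group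
          rw [hy']
          rfl
        rw [e, ← MonoidHom.map_closure]
        exact (hall (g⁻¹ * k)).map _)
    have haN : a ∈ N := hKN ⟨1, by simp⟩
    have hNle : N ≤ Cfsg.pCore 2 G := le_sSup ⟨hN, hNp⟩
    have : a ∈ A ⊓ Cfsg.pCore 2 G := ⟨ha, hNle haN⟩
    rw [hcore] at this
    exact ha1 (Subgroup.mem_bot.mp this)
  obtain ⟨t, ht⟩ := step1
  have hb'b' : (t * a * t⁻¹) * (t * a * t⁻¹) = 1 := by
    calc (t * a * t⁻¹) * (t * a * t⁻¹) = t * (a * a) * t⁻¹ := by group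
      _ = 1 := by rw [haa]; group
  have hb'inv : (t * a * t⁻¹)⁻¹ = t * a * t⁻¹ := inv_eq_of_mul_eq_one_left hb'b'
  have har : a * (a * (t * a * t⁻¹)) * a⁻¹ = (a * (t * a * t⁻¹))⁻¹ := by
    rw [mul_inv_rev, hb'inv, hainv]
    calc a * (a * (t * a * t⁻¹)) * a = (a * a) * ((t * a * t⁻¹) * a) := by group
      _ = (t * a * t⁻¹) * a := by rw [haa, one_mul]
  obtain ⟨r, hr⟩ : ∃ r : G, r = a * (t * a * t⁻¹) := ⟨_, rfl⟩
  rw [← hr] at har
  have hfw : ∀ h : G, h ∈ zpowers r → a * h * a⁻¹ ∈ zpowers r := by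
    intro h hh
    obtain ⟨i, rfl⟩ := Subgroup.mem_zpowers_iff.mp hh
    rw [← conj_zpow, har, inv_zpow]
    exact Subgroup.inv_mem _ (Subgroup.zpow_mem_zpowers r i)
  have hnorm : zpowers a ≤ normalizer (zpowers r : Set G) := by
    rw [Subgroup.zpowers_le, Subgroup.mem_normalizer_iff]
    intro h
    refine ⟨hfw h, fun hh => ?_⟩
    have h1 := hfw _ hh
    have e : a * (a * h * a⁻¹) * a⁻¹ = h := by
      calc a * (a * h * a⁻¹) * a⁻¹ = (a * a) * h * (a * a)⁻¹ := by group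
        _ = h := by rw [haa]; group
    rwa [e] at h1
  -- step 2: r is not of 2-power order
  have step2 : ∀ k : ℕ, r ^ (2 ^ k) ≠ 1 := by
    intro k hk
    apply ht
    have hdvd : orderOf r ∣ 2 ^ k := orderOf_dvd_of_pow_eq_one hk
    obtain ⟨j, _, hj⟩ := (Nat.dvd_prime_pow Nat.prime_two).1 hdvd
    have hPa : IsPGroup 2 (zpowers a) :=
      IsPGroup.of_card (n := 1) (by rw [Nat.card_zpowers, hao, pow_one])
    have hPr : IsPGroup 2 (zpowers r) :=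
      IsPGroup.of_card (n := j) (by rw [Nat.card_zpowers, hj])
    have hsup := IsPGroup.to_sup_of_normal_right' hPa hPr hnorm
    refine hsup.to_le ?_
    rw [Subgroup.closure_le]
    intro x hx
    rcases hx with rfl | rfl
    · exact (le_sup_left : zpowers x ≤ zpowers x ⊔ zpowers r) (mem_zpowers x)
    · have e : t * a * t⁻¹ = a⁻¹ * r := by rw [hr]; group
      rw [e]
      exact Subgroup.mul_mem _
        (Subgroup.inv_mem _ ((le_sup_left : zpowers a ≤ zpowers a ⊔ zpowers r) (mem_zpowers a)))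
        ((le_sup_right : zpowers r ≤ zpowers a ⊔ zpowers r) (mem_zpowers r))
  -- the odd part
  have hpos : orderOf r ≠ 0 := (orderOf_pos r).ne'
  obtain ⟨k, l, hl, hkl⟩ := Nat.exists_eq_two_pow_mul_odd hpos
  have hy1 : r ^ (2 ^ k) ≠ 1 := step2 k
  have hyodd : OddOrd (r ^ (2 ^ k)) :=
    ⟨l, hl, by rw [← pow_mul, ← hkl, pow_orderOf_eq_one]⟩
  have hay : a * r ^ (2 ^ k) * a⁻¹ = (r ^ (2 ^ k))⁻¹ := inv_pow_conj har _
  obtain ⟨y, hy⟩ : ∃ y : G, y = r ^ (2 ^ k) := ⟨_, rfl⟩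
  rw [← hy] at hy1 hyodd hay
  refine ⟨y, hy1, hyodd, hay, ?_⟩
  -- a square root of y
  obtain ⟨l', ⟨m, rfl⟩, hl'⟩ := hyodd
  have hs2 : y ^ (m + 1) * y ^ (m + 1) = y := by
    have e : m + 1 + (m + 1) = 2 * m + 1 + 1 := by ring
    rw [← pow_add, e, pow_succ, hl', one_mul]
  have has : a * y ^ (m + 1) * a⁻¹ = (y ^ (m + 1))⁻¹ := inv_pow_conj hay _
  generalize y ^ (m + 1) = s at hs2 has
  have hconj : s⁻¹ * a * s⁻¹⁻¹ = a * y := by
    calc s⁻¹ * a * s⁻¹⁻¹ = (a * s * a⁻¹) * a * s := by rw [has]; group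
      _ = a * (s * s) := by group
      _ = a * y := by rw [hs2]
  have hne := h a ha ha1 s⁻¹
  rw [Ne, Subgroup.eq_bot_iff_forall] at hne
  push Not at hne
  obtain ⟨d, hd, hd1⟩ := hne
  have hdA : d ∈ A := hd.1
  have hdc : a * y * d = d * (a * y) := by
    have := Subgroup.mem_centralizer_iff.mp hd.2 _ (Set.mem_singleton _)
    rw [hconj] at this
    exact this
  have hda : d * a = a * d := klein_comm A hA hdA ha
  have hdy : d * y = y * d := by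
    calc d * y = a⁻¹ * (a * d) * y := by group
      _ = a⁻¹ * (d * a) * y := by rw [hda]
      _ = a⁻¹ * (d * (a * y)) := by group
      _ = a⁻¹ * (a * y * d) := by rw [hdc]
      _ = y * d := by group
  refine ⟨d, hdA, hd1, ?_, hdy⟩
  intro hda'
  rw [hda'] at hdy
  apply hy1
  apply (show OddOrd y from ⟨2 * m + 1, ⟨m, rfl⟩, hl'⟩).eq_one_of_mul_self
  have : y⁻¹ = y := by rw [← hay, hdy, mul_inv_cancel_right]
  calc y * y = y⁻¹ * y := by rw [this]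
    _ = 1 := by group

theorem final_contra [Finite G] (A : Subgroup G) (hA : IsKleinFour A)
    (h : ∀ a ∈ A, a ≠ 1 → ∀ g : G, A ⊓ Subgroup.centralizer ({g * a * g⁻¹} : Set G) ≠ ⊥)
    (x₁ x₂ : G) (hx₁ : x₁ ∈ A) (hx₂ : x₂ ∈ A) (hx₁1 : x₁ ≠ 1) (hx₂1 : x₂ ≠ 1) (hne : x₁ ≠ x₂)
    (Y Y' : G) (hY : OddOrd Y) (hY' : OddOrd Y') (hY1 : Y ≠ 1) (hY'1 : Y' ≠ 1)
    (h1 : x₁ * Y * x₁⁻¹ = Y⁻¹) (h2 : x₂ * Y = Y * x₂) (h3 : x₂ * Y' * x₂⁻¹ = Y'⁻¹)
    (h4 : x₁ * Y' = Y' * x₁) : False := by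
  have E1 := key_sq A hA h x₁ x₂ hx₁ hx₂ hx₁1 hx₂1 hne Y Y' hY hY' hY1 hY'1 h1 h2 h3 h4
  have hY2 : Y * Y ≠ 1 := fun hh => hY1 (hY.eq_one_of_mul_self hh)
  have h2' : x₂ * (Y * Y) = (Y * Y) * x₂ := by
    calc x₂ * (Y * Y) = (x₂ * Y) * Y := by group
      _ = (Y * x₂) * Y := by rw [h2]
      _ = Y * (x₂ * Y) := by group
      _ = Y * (Y * x₂) := by rw [h2]
      _ = (Y * Y) * x₂ := by group
  have E2 := key_sq A hA h x₁ x₂ hx₁ hx₂ hx₁1 hx₂1 hne (Y * Y) Y' hY.mul_self hY' hY2 hY'1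
    (inv_conj_mul_self h1) h2' h3 h4
  have hY'i : Y'⁻¹ ≠ 1 := fun hh => hY'1 (inv_eq_one.mp hh)
  have h3' : x₂ * Y'⁻¹ * x₂⁻¹ = Y'⁻¹⁻¹ := by
    calc x₂ * Y'⁻¹ * x₂⁻¹ = (x₂ * Y' * x₂⁻¹)⁻¹ := by group
      _ = Y'⁻¹⁻¹ := by rw [h3]
  have h4' : x₁ * Y'⁻¹ = Y'⁻¹ * x₁ := by
    calc x₁ * Y'⁻¹ = Y'⁻¹ * (Y' * x₁) * Y'⁻¹ := by group
      _ = Y'⁻¹ * (x₁ * Y') * Y'⁻¹ := by rw [h4]
      _ = Y'⁻¹ * x₁ := by group
  have E3 := key_sq A hA h x₁ x₂ hx₁ hx₂ hx₁1 hx₂1 hne Y Y'⁻¹ hY hY'.inv hY1 hY'i h1 h2 h3' h4'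
  have R1 : (Y * Y) * (Y' * Y') * (Y * Y) = (Y' * Y')⁻¹ := by
    calc (Y * Y) * (Y' * Y') * (Y * Y)
        = Y'⁻¹ * ((Y' * (Y * Y) * Y') * (Y' * (Y * Y) * Y')) * Y'⁻¹ := by group
      _ = (Y' * Y')⁻¹ := by rw [E1]; group
  have R2 : ((Y * Y) * (Y * Y)) * (Y' * Y') * ((Y * Y) * (Y * Y)) = (Y' * Y')⁻¹ := by
    calc ((Y * Y) * (Y * Y)) * (Y' * Y') * ((Y * Y) * (Y * Y))
        = Y'⁻¹ * ((Y' * ((Y * Y) * (Y * Y)) * Y') * (Y' * ((Y * Y) * (Y * Y)) * Y')) * Y'⁻¹ := by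
          group
      _ = (Y' * Y')⁻¹ := by rw [E2]; group
  have R3 : (Y * Y) * (Y' * Y')⁻¹ * (Y * Y) = Y' * Y' := by
    calc (Y * Y) * (Y' * Y')⁻¹ * (Y * Y)
        = Y' * ((Y'⁻¹ * (Y * Y) * Y'⁻¹) * (Y'⁻¹ * (Y * Y) * Y'⁻¹)) * Y' := by group
      _ = Y' * Y' := by rw [E3]; group
  have R4 : Y' * Y' = (Y' * Y')⁻¹ := by
    calc Y' * Y' = (Y * Y) * (Y' * Y')⁻¹ * (Y * Y) := R3.symm
      _ = (Y * Y) * ((Y * Y) * (Y' * Y') * (Y * Y)) * (Y * Y) := by rw [R1]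
      _ = ((Y * Y) * (Y * Y)) * (Y' * Y') * ((Y * Y) * (Y * Y)) := by group
      _ = (Y' * Y')⁻¹ := R2
  apply hY'1
  apply hY'.eq_one_of_mul_self
  apply hY'.mul_self.eq_one_of_mul_self
  calc (Y' * Y') * (Y' * Y') = (Y' * Y')⁻¹ * (Y' * Y') := by rw [← R4]
    _ = 1 := by group

/-- Let A be a Klein four-subgroup of a finite group G. If every G-conjugate of every involution of A commutes with some involution of A (its centralizer meets A nontrivially), then A meets the largest normal 2-subgroup O₂(G) nontrivially. -/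
theorem result {G : Type*} [Group G] [Finite G]
    (A : Subgroup G) (hA : IsKleinFour ↥A)
    (h : ∀ a ∈ A, a ≠ 1 → ∀ g : G, A ⊓ Subgroup.centralizer ({g * a * g⁻¹} : Set G) ≠ ⊥) :
    A ⊓ Cfsg.pCore 2 G ≠ ⊥ := by
  intro hcore
  -- a nontrivial element of A
  have hAne : A ≠ ⊥ := by
    intro hbot
    have h4 := hA.card_four
    rw [hbot] at h4
    simp at h4
  rw [Ne, Subgroup.eq_bot_iff_forall] at hAne
  push Not at hAne
  obtain ⟨a, ha, ha1⟩ := hAne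
  obtain ⟨y, hy1, hyodd, hay, b, hb, hb1, hba, hby⟩ := exists_inverted A hA h hcore a ha ha1
  obtain ⟨y', hy'1, hy'odd, hby', d, hd, hd1, hdb, hdy'⟩ := exists_inverted A hA h hcore b hb hb1
  have haa := klein_sq A hA ha
  have hbY2 : b * y * b⁻¹ = y := comm_conj hby
  by_cases hda : d = a
  · -- the centralizing involution for y' is a
    rw [hda] at hdy'
    exact final_contra A hA h a b ha hb ha1 hb1 (Ne.symm hba) y y' hyodd hy'odd hy1 hy'1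
      hay hby hby' hdy'
  · -- the centralizing involution for y' is a * b
    have hd_c : d = a * b := klein_third A hA ha hb hd ha1 hb1 (Ne.symm hba) hd1 hda hdb
    rw [hd_c] at hdy'
    have hc : a * b ∈ A := A.mul_mem ha hb
    have hc1 : a * b ≠ 1 := by
      intro h1
      apply hba
      calc b = (a * a) * b := by rw [haa, one_mul]
        _ = a * (a * b) := by group
        _ = a := by rw [h1, mul_one]
    have hcb : a * b ≠ b := by
      intro h1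
      apply ha1
      calc a = (a * b) * b⁻¹ := by group
        _ = 1 := by rw [h1]; group
    have hcy : (a * b) * y * (a * b)⁻¹ = y⁻¹ := by
      calc (a * b) * y * (a * b)⁻¹ = a * (b * y * b⁻¹) * a⁻¹ := by group
        _ = y⁻¹ := by rw [hbY2, hay]
    exact final_contra A hA h (a * b) b hc hb hc1 hb1 hcb y y' hyodd hy'odd hy1 hy'1
      hcy hby hby' hdy'

end Cfsg.Agent.S3195
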