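import Mathlib
import Cfsg.Statements.S3196

set_option autoImplicit false
open Cfsg

namespace Cfsg.Agent.S3196

open Subgroup

variable {G : Type*} [Group G]

/-- generators of members of `K` -/
def E (K : Set (Subgroup G)) : Set G := {x | x ≠ 1 ∧ zpowers x ∈ K}

theorem mem_zpowers_zpow {p : ℕ} (hp : p.Prime) {x : G} (hx : x ^ p = 1) {j : ℤ}
    (hj : ¬ (p : ℤ) ∣ j) : x ∈ zpowers (x ^ j) := by
  have hc : IsCoprime (p : ℤ) j := (Nat.prime_iff_prime_int.mp hp).coprime_iff_not_dvd.mpr hj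
  obtain ⟨a, b, hab⟩ := hc
  rw [Subgroup.mem_zpowers_iff]
  refine ⟨b, ?_⟩
  have h1 : x ^ (a * (p : ℤ)) = 1 := by
    rw [zpow_mul', zpow_natCast, hx, one_zpow]
  calc (x ^ j) ^ b = x ^ (b * j) := by rw [← zpow_mul, mul_comm]
    _ = x ^ (a * (p : ℤ)) * x ^ (b * j) := by rw [h1, one_mul]
    _ = x ^ (1 : ℤ) := by rw [← zpow_add, hab]
    _ = x := zpow_one x

theorem comm_of_zpow {p : ℕ} (hp : p.Prime) {x w : G} (hx : x ^ p = 1) {j : ℤ}
    (hj : ¬ (p : ℤ) ∣ j) (h : Commute (x ^ j) w) : Commute x w := by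
  obtain ⟨b, hb⟩ := Subgroup.mem_zpowers_iff.mp (mem_zpowers_zpow hp hx hj)
  rw [← hb]
  exact h.zpow_left b

theorem zpow_eq_one_of_dvd {p : ℕ} {x : G} (hx : x ^ p = 1) {j : ℤ} (hj : (p : ℤ) ∣ j) :
    x ^ j = 1 := by
  obtain ⟨c, rfl⟩ := hj
  rw [zpow_mul, zpow_natCast, hx, one_zpow]

section basics

variable {p : ℕ} (hp : p.Prime) (K : Set (Subgroup G)) (hK : ∀ X ∈ K, Nat.card ↥X = p)

include hp hK in
theorem E_of_mem {X : Subgroup G} (hX : X ∈ K) {x : G} (hx : x ∈ X) (hx1 : x ≠ 1) :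
    zpowers x = X := by
  have hfin : Finite X := Nat.finite_of_card_ne_zero (by rw [hK X hX]; exact hp.ne_zero)
  apply Subgroup.eq_of_le_of_card_ge (Subgroup.zpowers_le.mpr hx)
  rw [Nat.card_zpowers, hK X hX]
  have hdvd : orderOf x ∣ p := by
    have := Subgroup.orderOf_dvd_natCard X hx
    rwa [hK X hX] at this
  rcases (Nat.dvd_prime hp).mp hdvd with h1 | h1
  · exact absurd (orderOf_eq_one_iff.mp h1) hx1
  · exact h1.ge

include hp hK in
theorem E_of_mem' {X : Subgroup G} (hX : X ∈ K) {x : G} (hx : x ∈ X) (hx1 : x ≠ 1) :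
    x ∈ E K := ⟨hx1, by rw [E_of_mem hp K hK hX hx hx1]; exact hX⟩

include hK in
theorem E_pow {x : G} (hx : x ∈ E K) : x ^ p = 1 := by
  have := hK _ hx.2
  rw [Nat.card_zpowers] at this
  rw [← this]
  exact pow_orderOf_eq_one x

include hp hK in
theorem E_zpow {x : G} (hx : x ∈ E K) {j : ℤ} (hj : ¬ (p : ℤ) ∣ j) : x ^ j ∈ E K := by
  apply E_of_mem' hp K hK hx.2 (Subgroup.zpow_mem_zpowers x j)
  intro h1
  have := mem_zpowers_zpow hp (E_pow K hK hx) hj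
  rw [h1, Subgroup.zpowers_one_eq_bot, Subgroup.mem_bot] at this
  exact hx.1 this

theorem E_inv {x : G} (hx : x ∈ E K) : x⁻¹ ∈ E K :=
  ⟨inv_ne_one.mpr hx.1, by rw [Subgroup.zpowers_inv]; exact hx.2⟩

theorem E_conj (hKc : ∀ X ∈ K, ∀ g : G, X.map (MulAut.conj g).toMonoidHom ∈ K) {x : G}
    (hx : x ∈ E K) (g : G) : g * x * g⁻¹ ∈ E K := by
  refine ⟨?_, ?_⟩
  · intro h1
    apply hx.1
    calc x = g⁻¹ * (g * x * g⁻¹) * g := by group
      _ = 1 := by rw [h1]; group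
  · have := hKc _ hx.2 g
    rw [MonoidHom.map_zpowers] at this
    exact this

theorem mem_closure_pair {a b : G} (hab : Commute a b) {g : G}
    (hg : g ∈ closure ({a, b} : Set G)) : ∃ i j : ℤ, g = a ^ i * b ^ j := by
  induction hg using Subgroup.closure_induction with
  | mem x hx =>
    rcases hx with rfl | rfl
    · exact ⟨1, 0, by simp⟩
    · exact ⟨0, 1, by simp⟩
  | one => exact ⟨0, 0, by simp⟩
  | mul x y _ _ hx hy =>
    obtain ⟨i, j, rfl⟩ := hx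
    obtain ⟨k, l, rfl⟩ := hy
    refine ⟨i + k, j + l, ?_⟩
    have hc : b ^ j * a ^ k = a ^ k * b ^ j := ((hab.zpow_zpow k j).eq).symm
    calc a ^ i * b ^ j * (a ^ k * b ^ l) = a ^ i * (b ^ j * a ^ k) * b ^ l := by group
      _ = a ^ i * (a ^ k * b ^ j) * b ^ l := by rw [hc]
      _ = a ^ (i + k) * b ^ (j + l) := by rw [zpow_add, zpow_add]; group
  | inv x _ hx =>
    obtain ⟨i, j, rfl⟩ := hx
    refine ⟨-i, -j, ?_⟩
    rw [mul_inv_rev, ← zpow_neg, ← zpow_neg]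
    exact ((hab.zpow_zpow (-i) (-j)).eq).symm

theorem mem_sup_zpowers {a b : G} (hab : Commute a b) {g : G} (hg : g ∈ zpowers a ⊔ zpowers b) :
    ∃ i j : ℤ, g = a ^ i * b ^ j := by
  have hle : zpowers a ⊔ zpowers b ≤ closure ({a, b} : Set G) :=
    sup_le (Subgroup.zpowers_le.mpr (subset_closure (by simp)))
      (Subgroup.zpowers_le.mpr (subset_closure (by simp)))
  exact mem_closure_pair hab (hle hg)

theorem zpow_mul_zpow_mem_sup (a b : G) (i j : ℤ) : a ^ i * b ^ j ∈ zpowers a ⊔ zpowers b :=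
  Subgroup.mul_mem _ ((le_sup_left : zpowers a ≤ zpowers a ⊔ zpowers b) (zpow_mem_zpowers a i))
    ((le_sup_right : zpowers b ≤ zpowers a ⊔ zpowers b) (zpow_mem_zpowers b j))

variable (ha : ∀ X ∈ K, ∀ Y ∈ K, X ≠ Y → (∀ x ∈ X, ∀ y ∈ Y, x * y = y * x) →
      ∀ Z : Subgroup G, Z ≤ X ⊔ Y → Nat.card ↥Z = p → Z ∈ K)
  (hb : ∀ X ∈ K, ∀ Y ∈ K, X ≠ Y → (∀ x ∈ X, ∀ y ∈ Y, x * y = y * x) →
      ∀ W ∈ K, (X ⊔ Y) ⊓ Subgroup.centralizer (W : Set G) ≠ ⊥)

omit hK in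
theorem comm_zpowers {x y : G} (hxy : Commute x y) :
    ∀ u ∈ zpowers x, ∀ v ∈ zpowers y, u * v = v * u := by
  intro u hu v hv
  obtain ⟨i, rfl⟩ := Subgroup.mem_zpowers_iff.mp hu
  obtain ⟨j, rfl⟩ := Subgroup.mem_zpowers_iff.mp hv
  exact (hxy.zpow_zpow i j).eq

include hp hK ha in
theorem E_of_mem_sup {x y : G} (hx : x ∈ E K) (hy : y ∈ E K) (hxy : Commute x y) {z : G}
    (hz : z ∈ zpowers x ⊔ zpowers y) (hz1 : z ≠ 1) : z ∈ E K := by
  by_cases hXY : zpowers x = zpowers y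
  · rw [← hXY, sup_idem] at hz
    exact E_of_mem' hp K hK hx.2 hz hz1
  · refine ⟨hz1, ?_⟩
    apply ha _ hx.2 _ hy.2 hXY (comm_zpowers hxy) (zpowers z) (Subgroup.zpowers_le.mpr hz)
    rw [Nat.card_zpowers]
    apply orderOf_eq_prime _ hz1 (hp := ⟨hp⟩)
    obtain ⟨i, j, rfl⟩ := mem_sup_zpowers hxy hz
    rw [(hxy.zpow_zpow i j).mul_pow, ← zpow_natCast, ← zpow_natCast, ← zpow_mul, ← zpow_mul,
      mul_comm i, mul_comm j, zpow_mul, zpow_mul, zpow_natCast, zpow_natCast, E_pow K hK hx,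
      E_pow K hK hy, one_zpow, one_zpow, one_mul]

include hb in
theorem exists_comm {x y : G} (hx : x ∈ E K) (hy : y ∈ E K) (hxy : Commute x y)
    (hyx : y ∉ zpowers x) {w : G} (hw : w ∈ E K) :
    ∃ i j : ℤ, x ^ i * y ^ j ≠ 1 ∧ Commute (x ^ i * y ^ j) w := by
  have hXY : zpowers x ≠ zpowers y := by
    intro h
    apply hyx
    rw [h]
    exact mem_zpowers y
  have hne := hb _ hx.2 _ hy.2 hXY (comm_zpowers hxy) _ hw.2
  rw [Ne, Subgroup.eq_bot_iff_forall] at hne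
  push Not at hne
  obtain ⟨g, hg, hg1⟩ := hne
  obtain ⟨i, j, rfl⟩ := mem_sup_zpowers hxy hg.1
  refine ⟨i, j, hg1, ?_⟩
  exact (Subgroup.mem_centralizer_iff.mp hg.2 w (mem_zpowers w)).symm

/-- subgroups that are commutative and all of whose nontrivial elements generate members of `K` -/
def Full (K : Set (Subgroup G)) (A : Subgroup G) : Prop :=
  (∀ a ∈ A, ∀ b ∈ A, a * b = b * a) ∧ ∀ a ∈ A, a ≠ 1 → a ∈ E K

include hp hK ha in
theorem full_sup {A : Subgroup G} (hA : Full K A) {w : G} (hw : w ∈ E K)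
    (hwA : ∀ a ∈ A, a * w = w * a) : Full K (A ⊔ zpowers w) := by
  have hle : zpowers w ≤ normalizer (A : Set G) :=
    Subgroup.zpowers_le.mpr (Subgroup.centralizer_le_normalizer _
      (Subgroup.mem_centralizer_iff.mpr (fun h hh => hwA h hh)))
  have hmem : ∀ g ∈ A ⊔ zpowers w, ∃ a ∈ A, ∃ i : ℤ, g = a * w ^ i := by
    intro g hg
    have : g ∈ ((A ⊔ zpowers w : Subgroup G) : Set G) := hg
    rw [Subgroup.coe_mul_of_right_le_normalizer_left A (zpowers w) hle] at this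
    obtain ⟨a, ha', v, hv, rfl⟩ := this
    obtain ⟨i, rfl⟩ := Subgroup.mem_zpowers_iff.mp hv
    exact ⟨a, ha', i, rfl⟩
  refine ⟨?_, ?_⟩
  · intro g hg g' hg'
    obtain ⟨a, haA, i, rfl⟩ := hmem g hg
    obtain ⟨a', ha'A, j, rfl⟩ := hmem g' hg'
    have h1 : Commute a a' := hA.1 a haA a' ha'A
    have h2 : Commute a (w ^ j) := (show Commute a w from hwA a haA).zpow_right j
    have h3 : Commute (w ^ i) a' := ((show Commute a' w from hwA a' ha'A).zpow_right i).symm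
    have h4 : Commute (w ^ i) (w ^ j) := (Commute.refl w).zpow_zpow i j
    exact ((h1.mul_right h2).mul_left (h3.mul_right h4)).eq
  · intro g hg hg1
    obtain ⟨a, haA, i, rfl⟩ := hmem g hg
    by_cases ha1 : a = 1
    · rw [ha1, one_mul] at hg1 ⊢
      apply E_zpow hp K hK hw
      intro hd
      exact hg1 (zpow_eq_one_of_dvd (E_pow K hK hw) hd)
    · have haE := hA.2 a haA ha1
      apply E_of_mem_sup hp K hK ha haE hw (hwA a haA) _ hg1
      have := zpow_mul_zpow_mem_sup a w 1 i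
      rwa [zpow_one] at this

include hp hK ha in
theorem full_max_mem {A : Subgroup G} (hmax : Maximal (Full K) A) {w : G} (hw : w ∈ E K)
    (hwA : ∀ a ∈ A, a * w = w * a) : w ∈ A := by
  have h1 := hmax.2 (full_sup hp K hK ha hmax.1 hw hwA) le_sup_left
  exact h1 ((le_sup_right : zpowers w ≤ A ⊔ zpowers w) (mem_zpowers w))

include hp hK in
theorem full_zpowers {x : G} (hx : x ∈ E K) : Full K (zpowers x) :=
  ⟨comm_zpowers (Commute.refl x), fun _ ha' ha1 => E_of_mem' hp K hK hx.2 ha' ha1⟩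

include hp hK in
theorem exists_gen {X : Subgroup G} (hX : X ∈ K) : ∃ x ∈ X, x ≠ 1 := by
  by_contra hcon
  push Not at hcon
  have hbot : X = ⊥ := (Subgroup.eq_bot_iff_forall X).mpr hcon
  have h1 := hK X hX
  rw [hbot, Subgroup.card_bot] at h1
  exact hp.one_lt.ne h1

include hp hK ha hb in
theorem exists_two (hex : ∃ X ∈ K, ∃ Y ∈ K, X ≠ Y ∧ ∀ x ∈ X, ∀ y ∈ Y, x * y = y * x)
    {A : Subgroup G} (hmax : Maximal (Full K) A) :
    ∃ a ∈ A, ∃ b ∈ A, a ≠ 1 ∧ b ∉ zpowers a := by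
  obtain ⟨X, hX, Y, hY, hXY, hcomm⟩ := hex
  obtain ⟨x, hxX, hx1⟩ := exists_gen hp K hK hX
  obtain ⟨y, hyY, hy1⟩ := exists_gen hp K hK hY
  have hzx := E_of_mem hp K hK hX hxX hx1
  have hzy := E_of_mem hp K hK hY hyY hy1
  have hxE := E_of_mem' hp K hK hX hxX hx1
  have hyE := E_of_mem' hp K hK hY hyY hy1
  have hxy : Commute x y := hcomm x hxX y hyY
  have hyx : y ∉ zpowers x := by
    intro hmem
    rw [hzx] at hmem
    exact hXY ((E_of_mem hp K hK hX hmem hy1).symm.trans hzy).symm.symm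
  -- A is nontrivial
  have hAne : ∃ a ∈ A, a ≠ 1 := by
    by_contra hcon
    push Not at hcon
    have : x ∈ A := full_max_mem hp K hK ha hmax hxE (fun a haA => by rw [hcon a haA]; simp)
    exact hx1 (hcon x this)
  obtain ⟨a, haA, ha1⟩ := hAne
  have haE := hmax.1.2 a haA ha1
  by_contra hcon
  push Not at hcon
  have hAle : ∀ b ∈ A, b ∈ zpowers a := fun b hbA => hcon a haA b hbA ha1
  have hcommA : ∀ g : G, Commute g a → ∀ b ∈ A, b * g = g * b := by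
    intro g hg b hbA
    obtain ⟨k, rfl⟩ := Subgroup.mem_zpowers_iff.mp (hAle b hbA)
    exact ((hg.zpow_right k).eq).symm
  obtain ⟨i, j, hg1, hgw⟩ := exists_comm K hb hxE hyE hxy hyx haE
  have hgE : x ^ i * y ^ j ∈ E K :=
    E_of_mem_sup hp K hK ha hxE hyE hxy (zpow_mul_zpow_mem_sup x y i j) hg1
  have hgA : x ^ i * y ^ j ∈ A := full_max_mem hp K hK ha hmax hgE (hcommA _ hgw)
  have hza : zpowers (x ^ i * y ^ j) = zpowers a := E_of_mem hp K hK haE.2 (hAle _ hgA) hg1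
  have ha_mem : a ∈ zpowers (x ^ i * y ^ j) := by rw [hza]; exact mem_zpowers a
  obtain ⟨k, hk⟩ := Subgroup.mem_zpowers_iff.mp ha_mem
  have hgx : Commute (x ^ i * y ^ j) x :=
    ((Commute.refl x).zpow_left i).mul_left (hxy.symm.zpow_left j)
  have hgy : Commute (x ^ i * y ^ j) y :=
    (hxy.zpow_left i).mul_left ((Commute.refl y).zpow_left j)
  have hxa : Commute x a := by rw [← hk]; exact (hgx.zpow_left k).symm
  have hya : Commute y a := by rw [← hk]; exact (hgy.zpow_left k).symm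
  have hxA : x ∈ A := full_max_mem hp K hK ha hmax hxE (hcommA x hxa)
  have hyA : y ∈ A := full_max_mem hp K hK ha hmax hyE (hcommA y hya)
  have h1 : zpowers x = zpowers a := E_of_mem hp K hK haE.2 (hAle x hxA) hx1
  apply hyx
  rw [h1]
  exact hAle y hyA

include hp hK ha hb in
/-- Step 1a: a "quadrangle" through a given member of `E K` not centralizing `A`. -/
theorem exists_quad {A : Subgroup G} (hmax : Maximal (Full K) A)
    (star : ∀ v ∈ E K, ∃ w ∈ E K, ¬ Commute v w)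
    {a₀ b₀ : G} (ha₀ : a₀ ∈ A) (hb₀ : b₀ ∈ A) (ha₀1 : a₀ ≠ 1) (hb₀z : b₀ ∉ zpowers a₀)
    {w₁ : G} (hw₁ : w₁ ∈ E K) {a₁ : G} (ha₁ : a₁ ∈ A) (ha₁w : ¬ Commute a₁ w₁) :
    ∃ z₁ ∈ A, ∃ z₂ ∈ A, ∃ u ∈ E K, Commute z₁ w₁ ∧ Commute z₂ u ∧ Commute w₁ u ∧
      ¬ Commute z₁ u ∧ ¬ Commute z₂ w₁ := by
  have hAE : ∀ a ∈ A, a ≠ 1 → a ∈ E K := hmax.1.2
  have hAc : ∀ a ∈ A, ∀ b ∈ A, Commute a b := fun a haA b hbA => hmax.1.1 a haA b hbA
  have ha₁1 : a₁ ≠ 1 := by rintro rfl; exact ha₁w (Commute.one_left _)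
  have hb₀1 : b₀ ≠ 1 := by rintro rfl; exact hb₀z (one_mem _)
  -- (i) h
  obtain ⟨i, j, hh1, hhw⟩ := exists_comm K hb (hAE a₀ ha₀ ha₀1) (hAE b₀ hb₀ hb₀1)
    (hAc a₀ ha₀ b₀ hb₀) hb₀z hw₁
  have hhA : a₀ ^ i * b₀ ^ j ∈ A := A.mul_mem (A.zpow_mem ha₀ i) (A.zpow_mem hb₀ j)
  obtain ⟨h, hh⟩ : ∃ h : G, h = a₀ ^ i * b₀ ^ j := ⟨_, rfl⟩
  rw [← hh] at hh1 hhw hhA
  have hhE : h ∈ E K := hAE h hhA hh1
  -- (ii)
  obtain ⟨w₂, hw₂, hhw₂⟩ := star h hhE
  -- (iii) z₂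
  have ha₁h : a₁ ∉ zpowers h := by
    intro hmem
    obtain ⟨k, rfl⟩ := Subgroup.mem_zpowers_iff.mp hmem
    exact ha₁w (hhw.zpow_left k)
  obtain ⟨i₂, j₂, hz₂1, hz₂w⟩ := exists_comm K hb hhE (hAE a₁ ha₁ ha₁1) (hAc h hhA a₁ ha₁)
    ha₁h hw₂
  have hj₂ : ¬ (p : ℤ) ∣ j₂ := by
    intro hd
    rw [zpow_eq_one_of_dvd (E_pow K hK (hAE a₁ ha₁ ha₁1)) hd, mul_one] at hz₂1 hz₂w
    have hi₂ : ¬ (p : ℤ) ∣ i₂ := fun hd' => hz₂1 (zpow_eq_one_of_dvd (E_pow K hK hhE) hd')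
    exact hhw₂ (comm_of_zpow hp (E_pow K hK hhE) hi₂ hz₂w)
  have hz₂A : h ^ i₂ * a₁ ^ j₂ ∈ A := A.mul_mem (A.zpow_mem hhA i₂) (A.zpow_mem ha₁ j₂)
  have hz₂w₁ : ¬ Commute (h ^ i₂ * a₁ ^ j₂) w₁ := by
    intro hc
    have h1 : Commute (a₁ ^ j₂) w₁ := by
      have e : a₁ ^ j₂ = (h ^ i₂)⁻¹ * (h ^ i₂ * a₁ ^ j₂) := by group
      rw [e]; exact ((hhw.zpow_left i₂).inv_left).mul_left hc
    exact ha₁w (comm_of_zpow hp (E_pow K hK (hAE a₁ ha₁ ha₁1)) hj₂ h1)
  obtain ⟨z₂, hz₂⟩ : ∃ z₂ : G, z₂ = h ^ i₂ * a₁ ^ j₂ := ⟨_, rfl⟩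
  rw [← hz₂] at hz₂1 hz₂w hz₂A hz₂w₁
  have hz₂E : z₂ ∈ E K := hAE z₂ hz₂A hz₂1
  -- (iv) u
  have hw₂z₂ : w₂ ∉ zpowers z₂ := by
    intro hmem
    obtain ⟨k, rfl⟩ := Subgroup.mem_zpowers_iff.mp hmem
    exact hhw₂ ((hAc h hhA z₂ hz₂A).zpow_right k)
  obtain ⟨m, k, hu1, huw⟩ := exists_comm K hb hz₂E hw₂ hz₂w hw₂z₂ hw₁
  have hk : ¬ (p : ℤ) ∣ k := by
    intro hd
    rw [zpow_eq_one_of_dvd (E_pow K hK hw₂) hd, mul_one] at hu1 huw
    have hm : ¬ (p : ℤ) ∣ m := fun hd' => hu1 (zpow_eq_one_of_dvd (E_pow K hK hz₂E) hd')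
    exact hz₂w₁ (comm_of_zpow hp (E_pow K hK hz₂E) hm huw)
  have huE : z₂ ^ m * w₂ ^ k ∈ E K :=
    E_of_mem_sup hp K hK ha hz₂E hw₂ hz₂w (zpow_mul_zpow_mem_sup _ _ _ _) hu1
  have huz₂ : Commute (z₂ ^ m * w₂ ^ k) z₂ :=
    ((Commute.refl z₂).zpow_left m).mul_left (hz₂w.symm.zpow_left k)
  have huh : ¬ Commute h (z₂ ^ m * w₂ ^ k) := by
    intro hc
    have h1 : Commute (w₂ ^ k) h := by
      have e : w₂ ^ k = (z₂ ^ m)⁻¹ * (z₂ ^ m * w₂ ^ k) := by group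
      rw [e]; exact (((hAc z₂ hz₂A h hhA).zpow_left m).inv_left).mul_left hc.symm
    exact hhw₂ (comm_of_zpow hp (E_pow K hK hw₂) hk h1).symm
  exact ⟨h, hhA, z₂, hz₂A, _, huE, hhw, huz₂.symm, huw.symm, huh, hz₂w₁⟩

include hp hK ha hb in
/-- Step 1b: a quadrangle forces `w` to normalize `A`. -/
theorem quad_normalizes (hKc : ∀ X ∈ K, ∀ g : G, X.map (MulAut.conj g).toMonoidHom ∈ K)
    {A : Subgroup G} (hmax : Maximal (Full K) A)
    {z₁ z₂ w u : G} (hz₁ : z₁ ∈ A) (hz₂ : z₂ ∈ A) (hw : w ∈ E K) (hu : u ∈ E K)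
    (c1 : Commute z₁ w) (c2 : Commute z₂ u) (c3 : Commute w u) (n1 : ¬ Commute z₁ u)
    (n2 : ¬ Commute z₂ w) : ∀ x ∈ A, w * x * w⁻¹ ∈ A := by
  have hAE : ∀ a ∈ A, a ≠ 1 → a ∈ E K := hmax.1.2
  have hAc : ∀ a ∈ A, ∀ b ∈ A, Commute a b := fun a haA b hbA => hmax.1.1 a haA b hbA
  have hz₁1 : z₁ ≠ 1 := by rintro rfl; exact n1 (Commute.one_left _)
  have hz₂1 : z₂ ≠ 1 := by rintro rfl; exact n2 (Commute.one_left _)
  have hz₁E := hAE z₁ hz₁ hz₁1
  have hz₂E := hAE z₂ hz₂ hz₂1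
  -- (v)
  have hwu1 : w * u ≠ 1 := by
    intro h1
    have e : u = w⁻¹ := eq_inv_of_mul_eq_one_right h1
    exact n1 (e ▸ c1.inv_right)
  have hwuE : w * u ∈ E K := by
    apply E_of_mem_sup hp K hK ha hw hu c3 _ hwu1
    have := zpow_mul_zpow_mem_sup w u 1 1
    rwa [zpow_one, zpow_one] at this
  have hz₂z₁ : z₂ ∉ zpowers z₁ := by
    intro hmem
    obtain ⟨k, rfl⟩ := Subgroup.mem_zpowers_iff.mp hmem
    exact n2 (c1.zpow_left k)
  obtain ⟨i, j, hg1, hgw⟩ := exists_comm K hb hz₁E hz₂E (hAc z₁ hz₁ z₂ hz₂) hz₂z₁ hwuE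
  have hj : ¬ (p : ℤ) ∣ j := by
    intro hd
    rw [zpow_eq_one_of_dvd (E_pow K hK hz₂E) hd, mul_one] at hg1 hgw
    have hi : ¬ (p : ℤ) ∣ i := fun hd' => hg1 (zpow_eq_one_of_dvd (E_pow K hK hz₁E) hd')
    have h1 : Commute (z₁ ^ i) u := by
      have e : u = w⁻¹ * (w * u) := by group
      rw [e]; exact ((c1.zpow_left i).inv_right).mul_right hgw
    exact n1 (comm_of_zpow hp (E_pow K hK hz₁E) hi h1)
  have hi : ¬ (p : ℤ) ∣ i := by
    intro hd
    rw [zpow_eq_one_of_dvd (E_pow K hK hz₁E) hd, one_mul] at hg1 hgw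
    have h1 : Commute (z₂ ^ j) w := by
      have e : w = (w * u) * u⁻¹ := by group
      rw [e]; exact hgw.mul_right ((c2.zpow_left j).inv_right)
    exact n2 (comm_of_zpow hp (E_pow K hK hz₂E) hj h1)
  have haE : z₁ ^ i ∈ E K := E_zpow hp K hK hz₁E hi
  have hbE : z₂ ^ j ∈ E K := E_zpow hp K hK hz₂E hj
  have haA : z₁ ^ i ∈ A := A.zpow_mem hz₁ i
  have hbA : z₂ ^ j ∈ A := A.zpow_mem hz₂ j
  have hab : Commute (z₁ ^ i) (z₂ ^ j) := hAc _ haA _ hbA
  have haw : Commute (z₁ ^ i) w := c1.zpow_left i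
  have hbu : Commute (z₂ ^ j) u := c2.zpow_left j
  have hbw : ¬ Commute (z₂ ^ j) w := fun hc => n2 (comm_of_zpow hp (E_pow K hK hz₂E) hj hc)
  obtain ⟨a, hadef⟩ : ∃ a : G, a = z₁ ^ i := ⟨_, rfl⟩
  obtain ⟨b, hbdef⟩ : ∃ b : G, b = z₂ ^ j := ⟨_, rfl⟩
  rw [← hadef, ← hbdef] at hgw
  rw [← hadef] at haE haA hab haw
  rw [← hbdef] at hbE hbA hab hbu hbw
  -- (vi) the commutators
  have e1 : b * w = a⁻¹ * (w * u * (a * b)) * u⁻¹ := by
    calc b * w = a⁻¹ * (a * b * (w * u)) * u⁻¹ := by group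
      _ = a⁻¹ * (w * u * (a * b)) * u⁻¹ := by rw [hgw.eq]
  have e2 : b * u⁻¹ * b⁻¹ = u⁻¹ := by
    rw [(hbu.inv_right).eq]; group
  have e3 : w⁻¹ * a⁻¹ * w = a⁻¹ := by
    have h1 : a⁻¹ * w = w * a⁻¹ := (haw.inv_left).eq
    calc w⁻¹ * a⁻¹ * w = w⁻¹ * (a⁻¹ * w) := by group
      _ = w⁻¹ * (w * a⁻¹) := by rw [h1]
      _ = a⁻¹ := by group
  have hcd : w⁻¹ * (b * w * b⁻¹ * w⁻¹) * w = a⁻¹ * u * a * u⁻¹ := by
    calc w⁻¹ * (b * w * b⁻¹ * w⁻¹) * w = w⁻¹ * (b * w) * b⁻¹ := by group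
      _ = w⁻¹ * (a⁻¹ * (w * u * (a * b)) * u⁻¹) * b⁻¹ := by rw [e1]
      _ = (w⁻¹ * a⁻¹ * w) * u * a * (b * u⁻¹ * b⁻¹) := by group
      _ = a⁻¹ * u * a * u⁻¹ := by rw [e3, e2]
  have hdw : Commute (a⁻¹ * u * a * u⁻¹) w :=
    (((haw.inv_left).mul_left c3.symm).mul_left haw).mul_left (c3.symm.inv_left)
  have hdb : Commute (a⁻¹ * u * a * u⁻¹) b :=
    (((hab.inv_left).mul_left hbu.symm).mul_left hab).mul_left (hbu.symm.inv_left)
  have hceq : b * w * b⁻¹ * w⁻¹ = a⁻¹ * u * a * u⁻¹ := by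
    calc b * w * b⁻¹ * w⁻¹ = w * (w⁻¹ * (b * w * b⁻¹ * w⁻¹) * w) * w⁻¹ := by group
      _ = w * (a⁻¹ * u * a * u⁻¹) * w⁻¹ := by rw [hcd]
      _ = (a⁻¹ * u * a * u⁻¹) * w * w⁻¹ := by rw [hdw.eq]
      _ = a⁻¹ * u * a * u⁻¹ := by group
  obtain ⟨c, hc⟩ : ∃ c : G, c = b * w * b⁻¹ * w⁻¹ := ⟨_, rfl⟩
  have hca : Commute c a := by
    rw [hc]
    exact (((hab.symm).mul_left haw.symm).mul_left (hab.symm.inv_left)).mul_left
      (haw.symm.inv_left)
  have hcb : Commute c b := by rw [hc, hceq]; exact hdb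
  have hcw : Commute c w := by rw [hc, hceq]; exact hdw
  have hc1 : c ≠ 1 := by
    intro h1
    apply hbw
    change b * w = w * b
    calc b * w = (b * w * b⁻¹ * w⁻¹) * w * b := by group
      _ = w * b := by rw [← hc, h1, one_mul]
  -- (vii) c ∈ E
  have hcE : c ∈ E K := by
    have h1 : u * a * u⁻¹ ∈ E K := E_conj K hKc haE u
    have h2 : u * a * u⁻¹ = a * c := by
      rw [hc, hceq]; group
    rw [h2] at h1
    have h3 : Commute a (a * c) := (Commute.refl a).mul_right hca.symm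
    apply E_of_mem_sup hp K hK ha haE h1 h3 _ hc1
    have h4 := zpow_mul_zpow_mem_sup a (a * c) (-1) 1
    have h5 : a ^ (-1 : ℤ) * (a * c) ^ (1 : ℤ) = c := by
      rw [zpow_one, zpow_neg_one]; group
    rwa [h5] at h4
  -- decomposition of the elements of A
  have hdec : ∀ x ∈ A, ∃ j' : ℤ, ¬ (p : ℤ) ∣ j' ∧ ∃ i' : ℤ, ∃ g ∈ A, Commute g w ∧
      x ^ j' = b ^ i' * g := by
    intro x hx
    by_cases hxb : x ∈ zpowers b
    · obtain ⟨k, rfl⟩ := Subgroup.mem_zpowers_iff.mp hxb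
      refine ⟨1, ?_, k, 1, A.one_mem, Commute.one_left _, by simp⟩
      intro hd
      have := Int.eq_one_of_dvd_one (by positivity) hd
      exact hp.one_lt.ne' (by exact_mod_cast this)
    · have hx1 : x ≠ 1 := by rintro rfl; exact hxb (one_mem _)
      obtain ⟨i', j', hg1', hgw'⟩ := exists_comm K hb hbE (hAE x hx hx1) (hAc b hbA x hx) hxb hw
      refine ⟨j', ?_, -i', b ^ i' * x ^ j', A.mul_mem (A.zpow_mem hbA i') (A.zpow_mem hx j'),
        hgw', by group⟩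
      intro hd
      rw [zpow_eq_one_of_dvd (E_pow K hK (hAE x hx hx1)) hd, mul_one] at hg1' hgw'
      have hi' : ¬ (p : ℤ) ∣ i' := fun hd' => hg1' (zpow_eq_one_of_dvd (E_pow K hK hbE) hd')
      exact hbw (comm_of_zpow hp (E_pow K hK hbE) hi' hgw')
  -- (viii) c centralizes A, so c ∈ A
  have hcA : c ∈ A := by
    apply full_max_mem hp K hK ha hmax hcE
    intro x hx
    obtain ⟨j', hj', i', g, hgA, hgw', hxj⟩ := hdec x hx
    have hx1p : x ^ p = 1 := by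
      by_cases hx1 : x = 1
      · rw [hx1, one_pow]
      · exact E_pow K hK (hAE x hx hx1)
    have hcg : Commute c g := by
      rw [hc]
      exact ((((hAc g hgA b hbA).symm).mul_left hgw'.symm).mul_left
        ((hAc g hgA b hbA).symm.inv_left)).mul_left (hgw'.symm.inv_left)
    have h1 : Commute (x ^ j') c := by
      rw [hxj]; exact ((hcb.zpow_right i').mul_right hcg).symm
    exact (comm_of_zpow hp hx1p hj' h1).eq
  -- (ix)
  have hwb : w * b * w⁻¹ ∈ A := by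
    have e : w * b * w⁻¹ = c⁻¹ * b := by rw [hc]; group
    rw [e]; exact A.mul_mem (A.inv_mem hcA) hbA
  intro x hx
  obtain ⟨j', hj', i', g, hgA, hgw', hxj⟩ := hdec x hx
  have hx1p : (w * x * w⁻¹) ^ p = 1 := by
    rw [conj_pow]
    by_cases hx1 : x = 1
    · rw [hx1, one_pow]; group
    · rw [E_pow K hK (hAE x hx hx1)]; group
  have h1 : (w * x * w⁻¹) ^ j' ∈ A := by
    rw [conj_zpow, hxj]
    have e : w * (b ^ i' * g) * w⁻¹ = (w * b * w⁻¹) ^ i' * (w * g * w⁻¹) := by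
      rw [conj_zpow]; group
    have e' : w * g * w⁻¹ = g := by rw [← hgw'.eq]; group
    rw [e, e']
    exact A.mul_mem (A.zpow_mem hwb i') hgA
  obtain ⟨m, hm⟩ := Subgroup.mem_zpowers_iff.mp (mem_zpowers_zpow hp hx1p hj')
  rw [← hm]
  exact A.zpow_mem h1 m

include hp hK ha hb in
/-- Step 1: every member of `E K` normalizes every maximal full subgroup. -/
theorem normalizes (hKc : ∀ X ∈ K, ∀ g : G, X.map (MulAut.conj g).toMonoidHom ∈ K)
    (hex : ∃ X ∈ K, ∃ Y ∈ K, X ≠ Y ∧ ∀ x ∈ X, ∀ y ∈ Y, x * y = y * x)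
    (star : ∀ v ∈ E K, ∃ w ∈ E K, ¬ Commute v w)
    {A : Subgroup G} (hmax : Maximal (Full K) A) {w : G} (hw : w ∈ E K) :
    ∀ x ∈ A, w * x * w⁻¹ ∈ A := by
  by_cases hall : ∀ a ∈ A, Commute a w
  · intro x hx
    rw [← (hall x hx).eq, mul_inv_cancel_right]
    exact hx
  · push Not at hall
    obtain ⟨a₁, ha₁, ha₁w⟩ := hall
    obtain ⟨a₀, ha₀, b₀, hb₀, ha₀1, hb₀z⟩ := exists_two hp K hK ha hb hex hmax
    obtain ⟨z₁, hz₁, z₂, hz₂, u, hu, c1, c2, c3, n1, n2⟩ :=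
      exists_quad hp K hK ha hb hmax star ha₀ hb₀ ha₀1 hb₀z hw ha₁ ha₁w
    exact quad_normalizes hp K hK ha hb hKc hmax hz₁ hz₂ hw hu c1 c2 c3 n1 n2

omit hK in
theorem comm_closure (k : Set G) (hcomm : ∀ x ∈ k, ∀ y ∈ k, x * y = y * x)
    (hpow : ∀ x ∈ k, x ^ p = 1) :
    (∀ x ∈ closure k, ∀ y ∈ closure k, x * y = y * x) ∧ ∀ x ∈ closure k, x ^ p = 1 := by
  have h1 : closure k ≤ centralizer k :=
    (Subgroup.closure_le _).mpr (fun x hx => Subgroup.mem_centralizer_iff.mpr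
      (fun y hy => hcomm y hy x hx))
  have h2 : closure k ≤ centralizer (closure k : Set G) :=
    (Subgroup.closure_le _).mpr (fun x hx => Subgroup.mem_centralizer_iff.mpr
      (fun y hy => ((Subgroup.mem_centralizer_iff.mp (h1 hy)) x hx).symm))
  have hc : ∀ x ∈ closure k, ∀ y ∈ closure k, x * y = y * x :=
    fun x hx y hy => (Subgroup.mem_centralizer_iff.mp (h2 hy)) x hx
  refine ⟨hc, ?_⟩
  intro x hx
  induction hx using Subgroup.closure_induction with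
  | mem x hx => exact hpow x hx
  | one => exact one_pow _
  | mul x y hx hy ihx ihy =>
    rw [(show Commute x y from hc x hx y hy).mul_pow, ihx, ihy, one_mul]
  | inv x _ ihx => rw [inv_pow, ihx, inv_one]

include hp hK ha hb in
/-- Steps 2-5: some member of `E K` commutes with all of `E K`. -/
theorem exists_central [Finite G]
    (hKc : ∀ X ∈ K, ∀ g : G, X.map (MulAut.conj g).toMonoidHom ∈ K)
    (hex : ∃ X ∈ K, ∃ Y ∈ K, X ≠ Y ∧ ∀ x ∈ X, ∀ y ∈ Y, x * y = y * x) :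
    ∃ v ∈ E K, ∀ w ∈ E K, Commute v w := by
  classical
  by_contra hcon
  push Not at hcon
  have star : ∀ v ∈ E K, ∃ w ∈ E K, ¬ Commute v w := hcon
  have : Fact p.Prime := ⟨hp⟩
  have hex' := hex
  obtain ⟨X, hX, -⟩ := hex'
  obtain ⟨x, hxX, hx1⟩ := exists_gen hp K hK hX
  have hxE := E_of_mem' hp K hK hX hxX hx1
  obtain ⟨A, hxA, hmax⟩ := Finite.exists_le_maximal (p := Full K) (full_zpowers hp K hK hxE)
  have hnorm : ∀ A' : Subgroup G, Maximal (Full K) A' →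
      closure (E K) ≤ normalizer (A' : Set G) := by
    intro A' hA'
    rw [Subgroup.closure_le]
    intro w hw
    rw [SetLike.mem_coe, Subgroup.mem_normalizer_iff]
    intro h
    refine ⟨normalizes hp K hK ha hb hKc hex star hA' hw h, fun hh => ?_⟩
    have h1 := normalizes hp K hK ha hb hKc hex star hA' (E_inv K hw) _ hh
    have e : w⁻¹ * (w * h * w⁻¹) * w⁻¹⁻¹ = h := by group
    rwa [e] at h1
  have hpowA : ∀ A' : Subgroup G, Maximal (Full K) A' → ∀ a ∈ A', a ^ p = 1 := by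
    intro A' hA' a haA
    by_cases ha1 : a = 1
    · rw [ha1, one_pow]
    · exact E_pow K hK (hA'.1.2 a haA ha1)
  have hPA : ∀ A' : Subgroup G, Maximal (Full K) A' → IsPGroup p A' := by
    intro A' hA' a
    refine ⟨1, Subtype.ext ?_⟩
    rw [pow_one]
    simpa using hpowA A' hA' a a.2
  have hAN : ∀ A' : Subgroup G, Maximal (Full K) A' → A' ≤ closure (E K) := by
    intro A' hA' a haA
    by_cases ha1 : a = 1
    · rw [ha1]; exact one_mem _
    · exact subset_closure (hA'.1.2 a haA ha1)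
  -- the subgroup generated by E is a p-group
  have hfin : ∀ s : Finset (Subgroup G), (∀ A' ∈ s, Maximal (Full K) A') →
      IsPGroup p (⨆ A' ∈ s, A' : Subgroup G) ∧ (⨆ A' ∈ s, A' : Subgroup G) ≤ closure (E K) := by
    intro s
    induction s using Finset.induction_on with
    | empty =>
      intro _
      have e : (⨆ A' ∈ (∅ : Finset (Subgroup G)), A' : Subgroup G) = ⊥ := by simp
      rw [e]
      exact ⟨IsPGroup.of_bot, bot_le⟩
    | insert A' s hA's ih =>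
      intro hs
      have hA' := hs A' (Finset.mem_insert_self _ _)
      obtain ⟨ih1, ih2⟩ := ih (fun B hB => hs B (Finset.mem_insert_of_mem hB))
      rw [Finset.iSup_insert]
      exact ⟨IsPGroup.to_sup_of_normal_left' (hPA A' hA') ih1 (ih2.trans (hnorm A' hA')),
        sup_le (hAN A' hA') ih2⟩
  have hNp : IsPGroup p (closure (E K)) := by
    have hMfin : {A' : Subgroup G | Maximal (Full K) A'}.Finite := Set.toFinite _
    obtain ⟨h1, -⟩ := hfin hMfin.toFinset (fun A' hA' => (hMfin.mem_toFinset).mp hA')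
    refine h1.to_le ?_
    rw [Subgroup.closure_le]
    intro w hw
    obtain ⟨A', hwA', hA'⟩ := Finite.exists_le_maximal (p := Full K) (full_zpowers hp K hK hw)
    have hle : A' ≤ ⨆ B ∈ hMfin.toFinset, B :=
      le_biSup (fun B => B) ((hMfin.mem_toFinset).mpr hA')
    exact hle (hwA' (mem_zpowers w))
  -- the conjugation action on A has a nontrivial fixed point
  have hNA : ∀ n : closure (E K), ∀ a : A, (n : G) * a * (n : G)⁻¹ ∈ A :=
    fun n a => (Subgroup.mem_normalizer_iff.mp (hnorm A hmax n.2) a).mp a.2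
  letI : MulAction (closure (E K)) A :=
    { smul := fun n a => ⟨(n : G) * a * (n : G)⁻¹, hNA n a⟩
      one_smul := fun a => Subtype.ext (by
        change ((1 : closure (E K)) : G) * a * ((1 : closure (E K)) : G)⁻¹ = a
        simp)
      mul_smul := fun n m a => Subtype.ext (by
        change ((n * m : closure (E K)) : G) * a * ((n * m : closure (E K)) : G)⁻¹ =
          (n : G) * ((m : G) * a * (m : G)⁻¹) * (n : G)⁻¹
        simp [mul_assoc]) }
  have hdvd : p ∣ Nat.card A := by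
    have h1 : Nat.card (zpowers x) ∣ Nat.card A := Subgroup.card_dvd_of_le hxA
    rwa [hK _ hxE.2] at h1
  have hfix1 : (1 : A) ∈ MulAction.fixedPoints (closure (E K)) A := by
    intro n
    apply Subtype.ext
    change (n : G) * ((1 : A) : G) * (n : G)⁻¹ = ((1 : A) : G)
    simp
  obtain ⟨b, hbfix, hb1⟩ := hNp.exists_fixed_point_of_prime_dvd_card_of_fixed_point A hdvd hfix1
  have hbne : (b : G) ≠ 1 := by
    intro h1
    apply hb1
    exact Subtype.ext h1.symm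
  have hbE : (b : G) ∈ E K := hmax.1.2 b b.2 hbne
  obtain ⟨w, hw, hbw⟩ := star b hbE
  apply hbw
  have h1 := hbfix ⟨w, subset_closure hw⟩
  have h2 : w * (b : G) * w⁻¹ = b := congrArg Subtype.val h1
  change (b : G) * w = w * b
  calc (b : G) * w = (w * (b : G) * w⁻¹) * w := by rw [h2]
    _ = w * b := by group

end basics

/-- Let p be a prime and K a set of subgroups of order p of a finite group G, closed under conjugation, such that at least two distinct members of K commute elementwise, and whenever two distinct members X, Y of K commute: every subgroup of order p of the group XY they generate belongs to K, and every member W of K has centralizer meeting XY nontrivially. Then some member V of K commutes elementwise with every member of K and lies in O_p(G); in particular G is not simple. -/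
theorem result {G : Type*} [Group G] [Finite G]
    {p : ℕ} (hp : p.Prime) (K : Set (Subgroup G)) (hK : ∀ X ∈ K, Nat.card ↥X = p)
    (hKc : ∀ X ∈ K, ∀ g : G, X.map (MulAut.conj g).toMonoidHom ∈ K)
    (hex : ∃ X ∈ K, ∃ Y ∈ K, X ≠ Y ∧ ∀ x ∈ X, ∀ y ∈ Y, x * y = y * x)
    (ha : ∀ X ∈ K, ∀ Y ∈ K, X ≠ Y → (∀ x ∈ X, ∀ y ∈ Y, x * y = y * x) →
      ∀ Z : Subgroup G, Z ≤ X ⊔ Y → Nat.card ↥Z = p → Z ∈ K)
    (hb : ∀ X ∈ K, ∀ Y ∈ K, X ≠ Y → (∀ x ∈ X, ∀ y ∈ Y, x * y = y * x) →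
      ∀ W ∈ K, (X ⊔ Y) ⊓ Subgroup.centralizer (W : Set G) ≠ ⊥) :
    (∃ V ∈ K, (∀ W ∈ K, ∀ v ∈ V, ∀ w ∈ W, v * w = w * v) ∧ V ≤ Cfsg.pCore p G) ∧ ¬ IsSimpleGroup G := by
  obtain ⟨v, hvE, hv⟩ := exists_central hp K hK ha hb hKc hex
  -- the normal closure of v
  have hconjE : ∀ x ∈ Group.conjugatesOfSet ({v} : Set G), x ∈ E K := by
    intro x hx
    rw [Group.mem_conjugatesOfSet_iff] at hx
    obtain ⟨a, ha', hax⟩ := hx
    rw [Set.mem_singleton_iff] at ha'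
    subst ha'
    obtain ⟨c, rfl⟩ := isConj_iff.mp hax
    exact E_conj K hKc hvE c
  have hconjC : ∀ x ∈ Group.conjugatesOfSet ({v} : Set G), ∀ y ∈ Group.conjugatesOfSet ({v} : Set G),
      x * y = y * x := by
    intro x hx y hy
    have hyE := hconjE y hy
    rw [Group.mem_conjugatesOfSet_iff] at hx
    obtain ⟨a, ha', hax⟩ := hx
    rw [Set.mem_singleton_iff] at ha'
    subst ha'
    obtain ⟨c, rfl⟩ := isConj_iff.mp hax
    have h1 : Commute a (c⁻¹ * y * c) := by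
      have := hv _ (E_conj K hKc hyE c⁻¹)
      rwa [inv_inv] at this
    have h2 : a * (c⁻¹ * y * c) = (c⁻¹ * y * c) * a := h1.eq
    calc c * a * c⁻¹ * y = c * (a * (c⁻¹ * y * c)) * c⁻¹ := by group
      _ = c * ((c⁻¹ * y * c) * a) * c⁻¹ := by rw [h2]
      _ = y * (c * a * c⁻¹) := by group
  obtain ⟨hMc, hMp⟩ := comm_closure (p := p) (Group.conjugatesOfSet ({v} : Set G)) hconjC
    (fun x hx => E_pow K hK (hconjE x hx))
  have hMdef : Subgroup.normalClosure ({v} : Set G) = closure (Group.conjugatesOfSet ({v} : Set G)) :=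
    rfl
  rw [← hMdef] at hMc hMp
  have hMnormal : (Subgroup.normalClosure ({v} : Set G)).Normal := Subgroup.normalClosure_normal
  have hMpg : IsPGroup p (Subgroup.normalClosure ({v} : Set G)) := by
    intro a
    refine ⟨1, Subtype.ext ?_⟩
    rw [pow_one]
    simpa using hMp a a.2
  have hvM : v ∈ Subgroup.normalClosure ({v} : Set G) :=
    Subgroup.subset_normalClosure (Set.mem_singleton v)
  have hMle : Subgroup.normalClosure ({v} : Set G) ≤ Cfsg.pCore p G :=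
    le_sSup ⟨hMnormal, hMpg⟩
  refine ⟨⟨zpowers v, hvE.2, ?_, ?_⟩, ?_⟩
  · intro W hW v' hv' w' hw'
    obtain ⟨i, rfl⟩ := Subgroup.mem_zpowers_iff.mp hv'
    by_cases hw1 : w' = 1
    · rw [hw1, mul_one, one_mul]
    · exact ((hv w' (E_of_mem' hp K hK hW hw' hw1)).zpow_left i).eq
  · exact (Subgroup.zpowers_le.mpr hvM).trans hMle
  · intro hsimple
    rcases hMnormal.eq_bot_or_eq_top with h | h
    · rw [h, Subgroup.mem_bot] at hvM
      exact hvE.1 hvM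
    · -- G is abelian
      have hcomm : ∀ x y : G, x * y = y * x := fun x y =>
        hMc x (by rw [h]; exact Subgroup.mem_top x) y (by rw [h]; exact Subgroup.mem_top y)
      obtain ⟨X, hX, Y, hY, hXY, -⟩ := hex
      have key : ∀ Z ∈ K, Z = ⊤ := by
        intro Z hZ
        have hZn : Z.Normal := ⟨fun n hn g => by
          rw [hcomm g n, mul_inv_cancel_right]; exact hn⟩
        rcases hZn.eq_bot_or_eq_top with h' | h'
        · have := hK Z hZ
          rw [h', Subgroup.card_bot] at this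
          exact absurd this.symm hp.ne_one
        · exact h'
      exact hXY ((key X hX).trans (key Y hY).symm)

end Cfsg.Agent.S3196
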