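import Mathlib
import Cfsg.Statements.S3201
import Cfsg.Agent.Lib.Helper61.QuatQuot

set_option autoImplicit false
open Cfsg

namespace Cfsg.Agent.S3201

open Subgroup Cfsg.Agent.Lib.Helper61

theorem core {S : Type*} [Group S] [Finite S] (hS : IsPGroup 2 S) {ι : Type*}
    (D : ι → Subgroup S) (i₀ : ι)
    (hDZ : ∀ i, D i ≤ center S)
    (hidx : ∀ i, ∀ u ∈ center S, ∀ v ∈ center S, u ∉ D i → v ∉ D i → u * v ∈ D i)
    (hne : ∀ i, ∃ z ∈ center S, z ∉ D i)
    (hint : ∀ s : S, (∀ i, s ∈ D i) → s = 1)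
    (hq : ∀ i, ∃ (_ : (D i).Normal), ¬ IsMulCommutative (S ⧸ D i) ∧
      ∃! x : S ⧸ D i, orderOf x = 2) :
    ∃ E Q : Subgroup S, Cfsg.IsInternalDirectProduct E Q ⊤ ∧ Cfsg.IsElementaryAbelian 2 E ∧
      ¬ IsMulCommutative ↥Q ∧ ∃! x : ↥Q, orderOf x = 2 := by
  have : Fact (Nat.Prime 2) := ⟨Nat.prime_two⟩
  -- an element whose square lies in `D i` is central
  have hF : ∀ i, ∀ s : S, s * s ∈ D i → s ∈ center S := by
    intro i s hs
    obtain ⟨hN, -, u, hu2, huniq⟩ := hq i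
    obtain ⟨z₀, hz₀, hz₀'⟩ := hne i
    have hz2 : orderOf (QuotientGroup.mk z₀ : S ⧸ D i) = 2 := by
      apply orderOf_eq_prime
      · rw [pow_two, ← QuotientGroup.mk_mul]
        exact (QuotientGroup.eq_one_iff _).mpr (hidx i z₀ hz₀ z₀ hz₀ hz₀' hz₀')
      · intro h; exact hz₀' ((QuotientGroup.eq_one_iff z₀).mp h)
    by_cases hs1 : s ∈ D i
    · exact hDZ i hs1
    · have hs2 : orderOf (QuotientGroup.mk s : S ⧸ D i) = 2 := by
        apply orderOf_eq_prime
        · rw [pow_two, ← QuotientGroup.mk_mul]; exact (QuotientGroup.eq_one_iff _).mpr hs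
        · intro h; exact hs1 ((QuotientGroup.eq_one_iff s).mp h)
      have h3 : (QuotientGroup.mk z₀ : S ⧸ D i) = QuotientGroup.mk s :=
        (huniq _ hz2).trans (huniq _ hs2).symm
      have h4 : z₀⁻¹ * s ∈ D i := QuotientGroup.eq.mp h3
      have e : s = z₀ * (z₀⁻¹ * s) := by group
      rw [e]; exact mul_mem hz₀ (hDZ i h4)
  -- the centre has exponent two
  have hZ2 : ∀ z ∈ center S, z * z = 1 := by
    intro z hz
    apply hint
    intro i
    by_cases h : z ∈ D i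
    · exact mul_mem h h
    · exact hidx i z hz z hz h h
  obtain ⟨hN, hna, hu⟩ := hq i₀
  obtain ⟨k, π, hk, hπ, hker, hQu⟩ := exists_quat_hom hS (D i₀) hna hu
  obtain ⟨m, rfl⟩ : ∃ m, k = m + 1 := ⟨k - 1, by omega⟩
  have hN2 : 2 ≤ 2 ^ (m + 1) := by
    calc 2 = 2 ^ 1 := rfl
      _ ≤ 2 ^ (m + 1) := Nat.pow_le_pow_right (by norm_num) (by omega)
  have hNe : NeZero (2 ^ (m + 1)) := ⟨by positivity⟩
  have hmemker : ∀ s, s ∈ D i₀ ↔ π s = 1 := fun s => by rw [← hker, MonoidHom.mem_ker]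
  have hcentral : ∀ s ∈ center S, ∀ g : QuaternionGroup (2 ^ (m + 1)), π s * g = g * π s := by
    intro s hs g
    obtain ⟨t, rfl⟩ := hπ g
    rw [← map_mul, ← map_mul, mem_center_iff.mp hs t]
  obtain ⟨A, hA⟩ := hπ (QuaternionGroup.a 1)
  obtain ⟨X, hX⟩ := hπ (QuaternionGroup.xa 0)
  -- `A ^ N`
  have ht : A ^ 2 ^ m ∉ center S := by
    intro h
    have := hcentral _ h (QuaternionGroup.xa 0)
    rw [map_pow, hA] at this
    exact quat_not_comm_pow Nat.one_le_two_pow (pow_succ' 2 m) this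
  have hAN : A ^ 2 ^ (m + 1) = A ^ 2 ^ m * A ^ 2 ^ m := by
    rw [← pow_add, ← two_mul, ← pow_succ']
  have hAN_notD : ∀ i, A ^ 2 ^ (m + 1) ∉ D i := by
    intro i h; rw [hAN] at h; exact ht (hF i _ h)
  have hANZ : A ^ 2 ^ (m + 1) ∈ center S := by
    apply hF i₀
    rw [hmemker, map_mul, map_pow, hA, ← pow_add, ← two_mul]
    exact QuaternionGroup.a_one_pow_n
  -- `X * X`
  have hXZ' : X ∉ center S := by
    intro h
    have := hcentral _ h (QuaternionGroup.a 1)
    rw [hX] at this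
    exact quat_not_comm hN2 this.symm
  have hXX_notD : ∀ i, X * X ∉ D i := fun i h => hXZ' (hF i _ h)
  have hXXZ : X * X ∈ center S := by
    apply hF i₀
    rw [hmemker, map_mul, map_mul, hX]
    have := QuaternionGroup.xa_pow_four (n := 2 ^ (m + 1)) 0
    rw [show (4 : ℕ) = 2 + 2 from rfl,
      pow_add (QuaternionGroup.xa 0 : QuaternionGroup (2 ^ (m + 1))) 2 2, pow_two] at this
    exact this
  have hXsq : X * X = A ^ 2 ^ (m + 1) := by
    have h1 : A ^ 2 ^ (m + 1) * (X * X) = 1 :=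
      hint _ (fun i => hidx i _ hANZ _ hXXZ (hAN_notD i) (hXX_notD i))
    have h2 := hZ2 _ hXXZ
    calc X * X = (A ^ 2 ^ (m + 1) * (X * X)) * (X * X) := by rw [h1, one_mul]
      _ = A ^ 2 ^ (m + 1) * ((X * X) * (X * X)) := by rw [mul_assoc]
      _ = A ^ 2 ^ (m + 1) := by rw [h2, mul_one]
  -- the commutation relation
  have hw : X * A * X⁻¹ * A = 1 := by
    apply hint
    intro i
    have hw0 : X * A * X⁻¹ * A ∈ D i₀ := by
      rw [hmemker, map_mul, map_mul, map_mul, map_inv, hA, hX]; exact quat_rel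
    by_contra hwi
    have h1 := hidx i _ (hDZ i₀ hw0) _ hXXZ hwi (hXX_notD i)
    have h2 : (X * A) * (X * A) = X * A * X⁻¹ * A * (X * X) := by
      have hc := mem_center_iff.mp hXXZ A
      calc (X * A) * (X * A) = X * A * X⁻¹ * ((X * X) * A) := by group
        _ = X * A * X⁻¹ * (A * (X * X)) := by rw [hc]
        _ = X * A * X⁻¹ * A * (X * X) := by group
    rw [← h2] at h1
    have h3 := hF i _ h1
    have h4 := hcentral _ h3 (QuaternionGroup.a 1)
    rw [map_mul, hA, hX] at h4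
    exact quat_not_comm' hN2 h4
  have hAX : A * X = X * A⁻¹ := by
    have h1 : A = X * A⁻¹ * X⁻¹ := by
      calc A = (X * A * X⁻¹)⁻¹ * (X * A * X⁻¹ * A) := by group
        _ = (X * A * X⁻¹)⁻¹ := by rw [hw, mul_one]
        _ = X * A⁻¹ * X⁻¹ := by group
    calc A * X = (X * A⁻¹ * X⁻¹) * X := by rw [← h1]
      _ = X * A⁻¹ := by group
  have hA2N : A ^ (2 * 2 ^ (m + 1)) = 1 := by
    rw [two_mul, pow_add]; exact hZ2 _ hANZ
  obtain ⟨q, hq'⟩ : ∃ q : QuaternionGroup (2 ^ (m + 1)) →* S,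
      q = Cfsg.Agent.Lib.Helper7.quatHom (by positivity) A X hA2N hXsq hAX := ⟨_, rfl⟩
  have hsec : ∀ g, π (q g) = g := by
    rw [hq']; exact quat_section π A X hA hX _ hA2N hXsq hAX
  have hqinj : Function.Injective q := Function.LeftInverse.injective hsec
  refine ⟨D i₀, q.range, ⟨le_top, le_top, ?_, ?_, ?_⟩, ⟨?_, ?_⟩, ?_, ?_⟩
  · intro a ha b _
    exact (mem_center_iff.mp (hDZ i₀ ha) b).symm
  · rw [eq_bot_iff]
    rintro y ⟨hy1, ⟨g, rfl⟩⟩
    rw [Subgroup.mem_bot]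
    have h1 : π (q g) = 1 := (hmemker _).mp hy1
    rw [hsec] at h1
    rw [h1, map_one]
  · rw [eq_top_iff]
    intro s _
    have e : s = (s * (q (π s))⁻¹) * q (π s) := by group
    rw [e]
    apply Subgroup.mul_mem_sup
    · rw [hmemker, map_mul, map_inv, hsec, mul_inv_cancel]
    · exact ⟨_, rfl⟩
  · exact ⟨⟨fun a b => Subtype.ext (mem_center_iff.mp (hDZ i₀ b.2) a)⟩⟩
  · intro a ha; rw [pow_two]; exact hZ2 a (hDZ i₀ ha)
  · intro hcomm
    have h1 : (⟨q (QuaternionGroup.a 1), ⟨_, rfl⟩⟩ : q.range) * ⟨q (QuaternionGroup.xa 0), ⟨_, rfl⟩⟩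
        = ⟨q (QuaternionGroup.xa 0), ⟨_, rfl⟩⟩ * ⟨q (QuaternionGroup.a 1), ⟨_, rfl⟩⟩ :=
      hcomm.is_comm.comm _ _
    have h2 : q (QuaternionGroup.a 1) * q (QuaternionGroup.xa 0) =
        q (QuaternionGroup.xa 0) * q (QuaternionGroup.a 1) := congrArg Subtype.val h1
    have h3 := congrArg π h2
    rw [map_mul, map_mul, hsec, hsec] at h3
    exact quat_not_comm hN2 h3
  · obtain ⟨u, hu2, huniq⟩ := hQu
    refine ⟨MonoidHom.ofInjective hqinj u, ?_, fun y hy => ?_⟩
    · change orderOf (MonoidHom.ofInjective hqinj u) = 2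
      rw [MulEquiv.orderOf_eq]; exact hu2
    · have hy' : orderOf y = 2 := hy
      have h1 : orderOf ((MonoidHom.ofInjective hqinj).symm y) = 2 := by
        rw [MulEquiv.orderOf_eq]; exact hy'
      have := huniq _ h1
      rw [← this, MulEquiv.apply_symm_apply]

/-- Let S be a finite 2-group whose centre Z(S) has n ≥ 2 distinct maximal subgroups C₁, …, Cₙ with trivial intersection such that each quotient S/Cᵢ is a non-abelian group with exactly one involution (a generalized quaternion group). Then S is the internal direct product of an elementary abelian subgroup and a non-abelian subgroup with exactly one involution. -/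
theorem result {S : Type*} [Group S] [Finite S]
    (hS : IsPGroup 2 S) (n : ℕ) (hn : 2 ≤ n) (C : Fin n → Subgroup ↥(Subgroup.center S))
    (hCmax : ∀ i, IsCoatom (C i)) (hCinj : Function.Injective C) (hCint : ⨅ i, C i = ⊥)
    (hCq : ∀ i, ∃ (_ : ((C i).map (Subgroup.center S).subtype).Normal),
      ¬ IsMulCommutative (S ⧸ (C i).map (Subgroup.center S).subtype) ∧
      ∃! x : S ⧸ (C i).map (Subgroup.center S).subtype, orderOf x = 2) :
    ∃ E Q : Subgroup S, Cfsg.IsInternalDirectProduct E Q ⊤ ∧ Cfsg.IsElementaryAbelian 2 E ∧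
      ¬ IsMulCommutative ↥Q ∧ ∃! x : ↥Q, orderOf x = 2 := by
  have hidx : ∀ i, (C i).index = 2 := fun i =>
    index_of_isCoatom Nat.prime_two (hS.to_subgroup (center S)) (C i) (hCmax i)
  have hmemD : ∀ i (z : S) (hz : z ∈ center S),
      z ∈ (C i).map (center S).subtype ↔ (⟨z, hz⟩ : center S) ∈ C i := by
    intro i z hz
    constructor
    · rintro ⟨y, hy, rfl⟩
      exact hy
    · intro h
      exact ⟨⟨z, hz⟩, h, rfl⟩
  refine core hS (fun i => (C i).map (center S).subtype) ⟨0, by omega⟩ ?_ ?_ ?_ ?_ hCq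
  · intro i
    exact Subgroup.map_subtype_le _
  · intro i u hu v hv hu' hv'
    rw [hmemD i _ (mul_mem hu hv)]
    rw [hmemD i u hu] at hu'
    rw [hmemD i v hv] at hv'
    exact (Subgroup.mul_mem_iff_of_index_two (hidx i) (a := ⟨u, hu⟩) (b := ⟨v, hv⟩)).mpr
      ⟨fun h => absurd h hu', fun h => absurd h hv'⟩
  · intro i
    have h1 : C i ≠ ⊤ := (hCmax i).1
    obtain ⟨z, -, hz⟩ := SetLike.exists_of_lt (lt_top_iff_ne_top.mpr h1)
    exact ⟨z, z.2, fun h => hz ((hmemD i z z.2).mp h)⟩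
  · intro s hs
    have hsZ : s ∈ center S := Subgroup.map_subtype_le _ (hs ⟨0, by omega⟩)
    have h1 : (⟨s, hsZ⟩ : center S) ∈ ⨅ i, C i := by
      rw [Subgroup.mem_iInf]; intro i; exact (hmemD i s hsZ).mp (hs i)
    rw [hCint, Subgroup.mem_bot] at h1
    exact congrArg Subtype.val h1

end Cfsg.Agent.S3201
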