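import Mathlib
import Cfsg.Statements.S3202
import Cfsg.Agent.Lib.Helper61.QuatQuot

set_option autoImplicit false
open Cfsg

namespace Cfsg.Agent.S3202

open Subgroup Cfsg.Agent.Lib.Helper61

open scoped commutatorElement

/-- the derived subgroup is cyclic when a central quotient is generalized quaternion -/
theorem core {S : Type*} [Group S] [Finite S] (hS : IsPGroup 2 S) (D : Subgroup S) [D.Normal]
    (hDZ : D ≤ center S) (hna : ¬ IsMulCommutative (S ⧸ D))
    (hu : ∃! x : S ⧸ D, orderOf x = 2) :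
    ∃ C : Subgroup S, C ≠ ⊥ ∧ IsCyclic ↥C ∧ C.Characteristic := by
  obtain ⟨k, π, hk, hπ, hker, -⟩ := exists_quat_hom hS D hna hu
  have hmemker : ∀ s, s ∈ D ↔ π s = 1 := fun s => by rw [← hker, MonoidHom.mem_ker]
  have hNe : NeZero (2 ^ k) := ⟨by positivity⟩
  obtain ⟨A, hA⟩ := hπ (QuaternionGroup.a 1)
  obtain ⟨X, hX⟩ := hπ (QuaternionGroup.xa 0)
  -- generation
  have hgen : ∀ H : Subgroup S, D ≤ H → A ∈ H → X ∈ H → H = ⊤ := by
    intro H hDH hAH hXH
    have h1 : H.map π = ⊤ :=
      quat_gen _ (hA ▸ Subgroup.mem_map_of_mem π hAH) (hX ▸ Subgroup.mem_map_of_mem π hXH)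
    have h2 : (H.map π).comap π = H := Subgroup.comap_map_eq_self (by rw [hker]; exact hDH)
    rw [← h2, h1, Subgroup.comap_top]
  obtain ⟨d, hd⟩ : ∃ d, d = X * A * X⁻¹ * A := ⟨_, rfl⟩
  have hdD : d ∈ D := by
    rw [hd, hmemker, map_mul, map_mul, map_mul, map_inv, hA, hX]; exact quat_rel
  have hdZ := hDZ hdD
  obtain ⟨c, hc⟩ : ∃ c, c = X * A * X⁻¹ * A⁻¹ := ⟨_, rfl⟩
  have hc' : c = d * A⁻¹ * A⁻¹ := by rw [hc, hd]; group
  have hdA := mem_center_iff.mp hdZ A
  have hdA' := mem_center_iff.mp (inv_mem hdZ) A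
  have hXd := mem_center_iff.mp hdZ X
  have hAc : A * c * A⁻¹ = c := by
    rw [hc']
    calc A * (d * A⁻¹ * A⁻¹) * A⁻¹ = (A * d) * A⁻¹ * A⁻¹ * A⁻¹ := by group
      _ = (d * A) * A⁻¹ * A⁻¹ * A⁻¹ := by rw [hdA]
      _ = d * A⁻¹ * A⁻¹ := by group
  have hXc : X * c * X⁻¹ = c⁻¹ := by
    have h1 : X * A * X⁻¹ = d * A⁻¹ := by rw [hd]; group
    have h1' : X * A⁻¹ * X⁻¹ = A * d⁻¹ := by
      calc X * A⁻¹ * X⁻¹ = (X * A * X⁻¹)⁻¹ := by group
        _ = (d * A⁻¹)⁻¹ := by rw [h1]
        _ = A * d⁻¹ := by group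
    calc X * c * X⁻¹ = X * (d * A⁻¹ * A⁻¹) * X⁻¹ := by rw [hc']
      _ = (X * d) * X⁻¹ * (X * A⁻¹ * X⁻¹) * (X * A⁻¹ * X⁻¹) := by group
      _ = (d * X) * X⁻¹ * (A * d⁻¹) * (A * d⁻¹) := by rw [hXd, h1']
      _ = d * (A * d⁻¹) * A * d⁻¹ := by group
      _ = d * (d⁻¹ * A) * A * d⁻¹ := by rw [hdA']
      _ = A * (A * d⁻¹) := by rw [mul_inv_cancel_left, mul_assoc]
      _ = (d * A⁻¹ * A⁻¹)⁻¹ := by rw [mul_inv_rev, mul_inv_rev, inv_inv]
      _ = c⁻¹ := by rw [hc']
  -- `zpowers c` is normal
  have hnormal : (zpowers c).Normal := by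
    have h : normalizer ((zpowers c : Subgroup S) : Set S) = ⊤ := by
      apply hgen
      · intro z hz
        have hzc := mem_center_iff.mp (hDZ hz) c
        apply mem_normalizer_zpowers
        · have e : z * c * z⁻¹ = c := by rw [← hzc]; group
          rw [e]; exact mem_zpowers c
        · have e : z⁻¹ * c * z = c := by rw [mul_assoc, hzc]; group
          rw [e]; exact mem_zpowers c
      · apply mem_normalizer_zpowers
        · rw [hAc]; exact mem_zpowers c
        · have e : A⁻¹ * c * A = c := by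
            calc A⁻¹ * c * A = A⁻¹ * (A * c * A⁻¹) * A := by rw [hAc]
              _ = c := by group
          rw [e]; exact mem_zpowers c
      · apply mem_normalizer_zpowers
        · rw [hXc]; exact inv_mem (mem_zpowers c)
        · have e : X⁻¹ * c * X = c⁻¹ := by
            calc X⁻¹ * c * X = (X⁻¹ * c⁻¹ * X)⁻¹ := by group
              _ = (X⁻¹ * (X * c * X⁻¹) * X)⁻¹ := by rw [hXc]
              _ = c⁻¹ := by group
          rw [e]; exact inv_mem (mem_zpowers c)
    exact normalizer_eq_top_iff.mp h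
  -- the quotient by `zpowers c` is commutative
  have hmkc : (QuotientGroup.mk c : S ⧸ zpowers c) = 1 :=
    (QuotientGroup.eq_one_iff c).mpr (mem_zpowers c)
  have hXA : (QuotientGroup.mk X : S ⧸ zpowers c) * QuotientGroup.mk A =
      QuotientGroup.mk A * QuotientGroup.mk X := by
    have e : X * A = c * A * X := by rw [hc]; group
    rw [← QuotientGroup.mk_mul, e, QuotientGroup.mk_mul, QuotientGroup.mk_mul, hmkc, one_mul]
  have hcentral : ∀ z ∈ D, ∀ t : S ⧸ zpowers c,
      t * (QuotientGroup.mk z : S ⧸ zpowers c) = QuotientGroup.mk z * t := by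
    intro z hz t
    obtain ⟨t, rfl⟩ := QuotientGroup.mk_surjective t
    rw [← QuotientGroup.mk_mul, ← QuotientGroup.mk_mul, mem_center_iff.mp (hDZ hz) t]
  have hAcent : ∀ g : S, (QuotientGroup.mk g : S ⧸ zpowers c) * QuotientGroup.mk A =
      QuotientGroup.mk A * QuotientGroup.mk g := by
    have h : (centralizer {(QuotientGroup.mk A : S ⧸ zpowers c)}).comap
        (QuotientGroup.mk' (zpowers c)) = ⊤ := by
      apply hgen
      · intro z hz
        rw [mem_comap, mem_centralizer_singleton_iff]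
        exact (hcentral z hz _).symm
      · rw [mem_comap, mem_centralizer_singleton_iff]
        rfl
      · rw [mem_comap, mem_centralizer_singleton_iff]
        exact hXA
    intro g
    have hg : g ∈ (centralizer {(QuotientGroup.mk A : S ⧸ zpowers c)}).comap
        (QuotientGroup.mk' (zpowers c)) := h ▸ mem_top g
    rw [mem_comap, mem_centralizer_singleton_iff] at hg
    exact hg
  have hXcent : ∀ g : S, (QuotientGroup.mk g : S ⧸ zpowers c) * QuotientGroup.mk X =
      QuotientGroup.mk X * QuotientGroup.mk g := by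
    have h : (centralizer {(QuotientGroup.mk X : S ⧸ zpowers c)}).comap
        (QuotientGroup.mk' (zpowers c)) = ⊤ := by
      apply hgen
      · intro z hz
        rw [mem_comap, mem_centralizer_singleton_iff]
        exact (hcentral z hz _).symm
      · rw [mem_comap, mem_centralizer_singleton_iff]
        exact hXA.symm
      · rw [mem_comap, mem_centralizer_singleton_iff]
        rfl
    intro g
    have hg : g ∈ (centralizer {(QuotientGroup.mk X : S ⧸ zpowers c)}).comap
        (QuotientGroup.mk' (zpowers c)) := h ▸ mem_top g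
    rw [mem_comap, mem_centralizer_singleton_iff] at hg
    exact hg
  have hall : ∀ g h : S, (QuotientGroup.mk g : S ⧸ zpowers c) * QuotientGroup.mk h =
      QuotientGroup.mk h * QuotientGroup.mk g := by
    have h : (center (S ⧸ zpowers c)).comap (QuotientGroup.mk' (zpowers c)) = ⊤ := by
      apply hgen
      · intro z hz
        rw [mem_comap, mem_center_iff]
        intro t
        exact hcentral z hz t
      · rw [mem_comap, mem_center_iff]
        intro t
        obtain ⟨t, rfl⟩ := QuotientGroup.mk_surjective t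
        exact hAcent t
      · rw [mem_comap, mem_center_iff]
        intro t
        obtain ⟨t, rfl⟩ := QuotientGroup.mk_surjective t
        exact hXcent t
    intro g h'
    have hg : h' ∈ (center (S ⧸ zpowers c)).comap (QuotientGroup.mk' (zpowers c)) :=
      h ▸ mem_top h'
    rw [mem_comap, mem_center_iff] at hg
    exact hg _
  have hle : commutator S ≤ zpowers c := by
    rw [commutator_def, Subgroup.commutator_le]
    intro g _ h _
    rw [← QuotientGroup.eq_one_iff, commutatorElement_def, QuotientGroup.mk_mul,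
      QuotientGroup.mk_mul, QuotientGroup.mk_mul, QuotientGroup.mk_inv, QuotientGroup.mk_inv,
      hall g h]
    group
  refine ⟨commutator S, ?_, Subgroup.isCyclic_of_le hle, inferInstance⟩
  intro hbot
  apply hna
  refine ⟨⟨fun a b => ?_⟩⟩
  obtain ⟨a, rfl⟩ := QuotientGroup.mk_surjective a
  obtain ⟨b, rfl⟩ := QuotientGroup.mk_surjective b
  have h1 : ⁅a, b⁆ ∈ commutator S := Subgroup.commutator_mem_commutator (mem_top a) (mem_top b)
  rw [hbot, mem_bot, commutatorElement_eq_one_iff_mul_comm] at h1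
  rw [← QuotientGroup.mk_mul, ← QuotientGroup.mk_mul, h1]

/-- Let S be a finite 2-group of 2-rank exactly 2 and D a maximal subgroup of the centre of S such that S/D is a non-abelian group with exactly one involution (a generalized quaternion group). Then S has a nontrivial cyclic characteristic subgroup. -/
theorem result {S : Type*} [Group S]
    [Finite S] (hS : IsPGroup 2 S) (hr2 : Cfsg.PRankLE 2 2 S) (hr1 : ¬ Cfsg.PRankLE 2 1 S)
    (D : Subgroup ↥(Subgroup.center S)) (hD : IsCoatom D)
    (hq : ∃ (_ : (D.map (Subgroup.center S).subtype).Normal),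
      ¬ IsMulCommutative (S ⧸ D.map (Subgroup.center S).subtype) ∧
      ∃! x : S ⧸ D.map (Subgroup.center S).subtype, orderOf x = 2) :
    ∃ C : Subgroup S, C ≠ ⊥ ∧ IsCyclic ↥C ∧ C.Characteristic := by
  obtain ⟨hN, hna, hu⟩ := hq
  exact core hS (D.map (center S).subtype) (Subgroup.map_subtype_le _) hna hu

end Cfsg.Agent.S3202
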