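import Mathlib
import Cfsg.Statements.S3208

set_option autoImplicit false
open Cfsg

namespace Cfsg.Agent.S3208

open Subgroup

/-- conjugation by an element stabilizing `T` as an automorphism of `T` -/
def conjAut {G : Type*} [Group G] (T : Subgroup G) (k : G)
    (h1 : ∀ t ∈ T, k * t * k⁻¹ ∈ T) (h2 : ∀ t ∈ T, k⁻¹ * t * k ∈ T) : T ≃* T where
  toFun t := ⟨k * t * k⁻¹, h1 t t.2⟩
  invFun t := ⟨k⁻¹ * t * k, h2 t t.2⟩
  left_inv t := Subtype.ext (by simp [mul_assoc])
  right_inv t := Subtype.ext (by simp [mul_assoc])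
  map_mul' s t := Subtype.ext (by simp [mul_assoc])

/-- a `p`-subgroup of `H` whose index in `H` is divisible by `p` is normal of index `p` in a
  subgroup of `H`. -/
theorem exists_overgroup {G : Type*} [Group G] [Finite G] {p : ℕ} (hp : p.Prime)
    (H T : Subgroup G) (hTH : T ≤ H) (hT : IsPGroup p T) (hdvd : p ∣ T.relIndex H) :
    ∃ K : Subgroup G, T ≤ K ∧ K ≤ H ∧ T.relIndex K = p := by
  have : Fact p.Prime := ⟨hp⟩
  obtain ⟨n, hn⟩ := IsPGroup.iff_card.mp hT
  have hT' : Nat.card (T.subgroupOf H) = p ^ n := by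
    rw [← hn]; exact Nat.card_congr (Subgroup.subgroupOfEquivOfLe hTH).toEquiv
  have hcard : p ^ (n + 1) ∣ Nat.card H := by
    rw [← Subgroup.card_mul_index (T.subgroupOf H), hT', pow_succ]
    exact Nat.mul_dvd_mul_left _ hdvd
  obtain ⟨K', hK'card, hK'le⟩ := Sylow.exists_subgroup_card_pow_succ hcard hT'
  refine ⟨K'.map H.subtype, ?_, ?_, ?_⟩
  · intro t ht
    exact ⟨⟨t, hTH ht⟩, hK'le (by rw [Subgroup.mem_subgroupOf]; exact ht), rfl⟩
  · rintro _ ⟨k, -, rfl⟩
    exact k.2
  · have hTK : T ≤ K'.map H.subtype := by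
      intro t ht
      exact ⟨⟨t, hTH ht⟩, hK'le (by rw [Subgroup.mem_subgroupOf]; exact ht), rfl⟩
    have hKc : Nat.card (K'.map H.subtype) = p ^ (n + 1) := by
      rw [← hK'card]
      exact Nat.card_congr (K'.equivMapOfInjective H.subtype H.subtype_injective).toEquiv.symm
    have h1 : Nat.card (T.subgroupOf (K'.map H.subtype)) = p ^ n := by
      rw [← hn]; exact Nat.card_congr (Subgroup.subgroupOfEquivOfLe hTK).toEquiv
    have h2 := Subgroup.card_mul_index (T.subgroupOf (K'.map H.subtype))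
    rw [h1, hKc, pow_succ] at h2
    exact Nat.eq_of_mul_eq_mul_left (pow_pos hp.pos n) h2

/-- Let j be an involution of a finite group G, H a subgroup of G, and T a Sylow 2-subgroup of H ∩ C_G(j) containing j such that ⟨j⟩ is a characteristic subgroup of T. Then T is a Sylow 2-subgroup of H. -/
theorem result {G : Type*} [Group G] [Finite G]
    (j : G) (hj : orderOf j = 2) (H T : Subgroup G) (hT : T ≤ H ⊓ Subgroup.centralizer ({j} : Set G)) (h2 : IsPGroup 2 ↥T)
    (hSyl : ¬ 2 ∣ T.relIndex (H ⊓ Subgroup.centralizer ({j} : Set G))) (hjT : j ∈ T)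
    (hchar : ((Subgroup.zpowers j).subgroupOf T).Characteristic) :
    ¬ 2 ∣ T.relIndex H := by
  intro hdvd
  obtain ⟨K, hTK, hKH, hidx⟩ := exists_overgroup Nat.prime_two H T (hT.trans inf_le_left) h2 hdvd
  have hnorm : (T.subgroupOf K).Normal := Subgroup.normal_of_index_eq_two hidx
  have hconj : ∀ k ∈ K, ∀ t ∈ T, k * t * k⁻¹ ∈ T := by
    intro k hk t ht
    have := hnorm.conj_mem ⟨t, hTK ht⟩ (by rw [Subgroup.mem_subgroupOf]; exact ht) ⟨k, hk⟩
    rw [Subgroup.mem_subgroupOf] at this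
    exact this
  have hj1 : j ≠ 1 := by
    rintro rfl
    rw [orderOf_one] at hj
    exact absurd hj (by norm_num)
  have hj2 : j ^ 2 = 1 := by rw [← hj]; exact pow_orderOf_eq_one j
  have hKC : K ≤ H ⊓ Subgroup.centralizer ({j} : Set G) := by
    intro k hk
    refine Subgroup.mem_inf.mpr ⟨hKH hk, ?_⟩
    rw [Subgroup.mem_centralizer_iff]
    intro x hx
    rw [Set.mem_singleton_iff] at hx
    subst hx
    have hk' : ∀ t ∈ T, k⁻¹ * t * k ∈ T := by
      intro t ht
      have := hconj k⁻¹ (K.inv_mem hk) t ht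
      rwa [inv_inv] at this
    have hmem : (conjAut T k (hconj k hk) hk' ⟨x, hjT⟩) ∈ (Subgroup.zpowers x).subgroupOf T := by
      have h3 := (Subgroup.characteristic_iff_le_comap.mp hchar) (conjAut T k (hconj k hk) hk')
      have h4 : (⟨x, hjT⟩ : T) ∈ (Subgroup.zpowers x).subgroupOf T := by
        rw [Subgroup.mem_subgroupOf]; exact Subgroup.mem_zpowers x
      exact h3 h4
    rw [Subgroup.mem_subgroupOf] at hmem
    have hmem' : k * x * k⁻¹ ∈ Subgroup.zpowers x := hmem
    obtain ⟨i, hi⟩ := Subgroup.mem_zpowers_iff.mp hmem'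
    rcases Int.even_or_odd' i with ⟨m, rfl | rfl⟩
    · exfalso
      rw [zpow_mul, zpow_ofNat, hj2, one_zpow] at hi
      apply hj1
      calc x = k⁻¹ * (k * x * k⁻¹) * k := by group
        _ = 1 := by rw [← hi]; group
    · rw [zpow_add, zpow_mul, zpow_ofNat, hj2, one_zpow, one_mul, zpow_one] at hi
      calc x * k = (k * x * k⁻¹) * k := by rw [← hi]
        _ = k * x := by group
  apply hSyl
  rw [← Subgroup.relIndex_mul_relIndex T K _ hTK hKC, hidx]
  exact dvd_mul_right _ _

end Cfsg.Agent.S3208
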