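import Mathlib
import Cfsg.Statements.S3209

set_option autoImplicit false
open Cfsg

namespace Cfsg.Agent.S3209

open Subgroup

section mat

open Matrix

variable {F : Type*} [Field F]

theorem two_ne_zero_of_odd [Fintype F] (hF : Odd (Fintype.card F)) : (2 : F) ≠ 0 := by
  intro h2
  have h1 : ringChar F = 2 := CharP.ringChar_of_prime_eq_zero Nat.prime_two (by exact_mod_cast h2)
  have := FiniteField.even_card_of_char_two h1
  rw [Nat.odd_iff] at hF
  omega

theorem sq_add_sq [Fintype F] (hF : Odd (Fintype.card F)) (r : F) : ∃ s t : F, s ^ 2 + t ^ 2 = r := by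
  open Polynomial in
  obtain ⟨a, b, hab⟩ : ∃ a b, (X ^ 2 : F[X]).eval a + (X ^ 2 - C r : F[X]).eval b = 0 :=
    FiniteField.exists_root_sum_quadratic (degree_X_pow 2) (degree_X_pow_sub_C (by decide) _)
      (Nat.odd_iff.mp hF)
  refine ⟨a, b, ?_⟩
  rw [← sub_eq_zero]
  simpa only [Polynomial.eval_C, Polynomial.eval_X, Polynomial.eval_pow, Polynomial.eval_sub,
    ← add_sub_assoc] using hab

/-- the entries of a product -/
theorem mul_entries (M N : Matrix (Fin 2) (Fin 2) F) :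
    (M * N) 0 0 = M 0 0 * N 0 0 + M 0 1 * N 1 0 ∧ (M * N) 0 1 = M 0 0 * N 0 1 + M 0 1 * N 1 1 ∧
    (M * N) 1 0 = M 1 0 * N 0 0 + M 1 1 * N 1 0 ∧ (M * N) 1 1 = M 1 0 * N 0 1 + M 1 1 * N 1 1 := by
  simp [Matrix.mul_apply, Fin.sum_univ_two]

theorem mat_ext {M N : Matrix (Fin 2) (Fin 2) F} (h00 : M 0 0 = N 0 0) (h01 : M 0 1 = N 0 1)
    (h10 : M 1 0 = N 1 0) (h11 : M 1 1 = N 1 1) : M = N := by
  ext i j
  fin_cases i <;> fin_cases j <;> assumption

theorem sl_det (A : Matrix.SpecialLinearGroup (Fin 2) F) :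
    A.1 0 0 * A.1 1 1 - A.1 0 1 * A.1 1 0 = 1 := by
  have := A.2
  rwa [Matrix.det_fin_two] at this

/-- the only involution of `SL₂(F)` is `-1` -/
theorem sq_eq_one (h2 : (2 : F) ≠ 0) (A : Matrix.SpecialLinearGroup (Fin 2) F) (hA : A * A = 1)
    (hA1 : A ≠ 1) : (A : Matrix (Fin 2) (Fin 2) F) = -1 := by
  have hm : A.1 * A.1 = 1 := by
    have := congrArg Subtype.val hA
    simpa using this
  obtain ⟨e00, e01, e10, e11⟩ := mul_entries A.1 A.1
  rw [hm] at e00 e01 e10 e11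
  simp only [Matrix.one_apply_eq, Matrix.one_apply_ne, ne_eq, Fin.isValue, zero_ne_one,
    one_ne_zero, not_false_eq_true] at e00 e01 e10 e11
  have hdet := sl_det A
  obtain ⟨a, ha⟩ : ∃ a, a = A.1 0 0 := ⟨_, rfl⟩
  obtain ⟨b, hb⟩ : ∃ b, b = A.1 0 1 := ⟨_, rfl⟩
  obtain ⟨c, hc⟩ : ∃ c, c = A.1 1 0 := ⟨_, rfl⟩
  obtain ⟨d, hd⟩ : ∃ d, d = A.1 1 1 := ⟨_, rfl⟩
  simp only [← ha, ← hb, ← hc, ← hd] at e00 e01 e10 e11 hdet
  have e00 := e00.symm
  have e01 := e01.symm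
  have e10 := e10.symm
  have e11 := e11.symm
  have ht : a + d ≠ 0 := by
    intro ht
    have hd' : d = -a := by linear_combination ht
    rw [hd'] at hdet
    apply h2
    linear_combination -e00 - hdet
  have hb0 : b = 0 := by
    have : b * (a + d) = 0 := by linear_combination e01
    rcases mul_eq_zero.mp this with h | h
    · exact h
    · exact absurd h ht
  have hc0 : c = 0 := by
    have : c * (a + d) = 0 := by linear_combination e10
    rcases mul_eq_zero.mp this with h | h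
    · exact h
    · exact absurd h ht
  rw [hb0, hc0] at e00 e11 hdet
  have ha' : (a - 1) * (a + 1) = 0 := by linear_combination e00
  rcases mul_eq_zero.mp ha' with h | h
  · exfalso
    have ha1 : a = 1 := by linear_combination h
    have hd1 : d = 1 := by
      rw [ha1] at hdet
      linear_combination hdet
    apply hA1
    apply Subtype.ext
    apply mat_ext
    · rw [← ha, ha1]; simp
    · rw [← hb, hb0]; simp
    · rw [← hc, hc0]; simp
    · rw [← hd, hd1]; simp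
  · have ha1 : a = -1 := by linear_combination h
    have hd1 : d = -1 := by
      rw [ha1] at hdet
      linear_combination -hdet
    apply mat_ext
    · rw [← ha, ha1]; simp
    · rw [← hb, hb0]; simp
    · rw [← hc, hc0]; simp
    · rw [← hd, hd1]; simp

/-- the standard element of order four -/
def J : Matrix.SpecialLinearGroup (Fin 2) F := ⟨!![0, 1; -1, 0], by simp [Matrix.det_fin_two_of]⟩

theorem J_sq : (J : Matrix.SpecialLinearGroup (Fin 2) F).1 * J.1 = -1 := by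
  apply mat_ext <;> simp [J, Matrix.mul_apply, Fin.sum_univ_two]

/-- elements of `SL₂(F)` with square `-1` are conjugate to `J` -/
theorem conj_of_sq [Fintype F] (hF : Odd (Fintype.card F))
    (A : Matrix.SpecialLinearGroup (Fin 2) F) (hA : A.1 * A.1 = -1) :
    ∃ P : Matrix.SpecialLinearGroup (Fin 2) F, P * J * P⁻¹ = A := by
  have h2 := two_ne_zero_of_odd hF
  obtain ⟨e00, e01, e10, e11⟩ := mul_entries A.1 A.1
  rw [hA] at e00 e01 e10 e11
  simp only [Matrix.neg_apply, Matrix.one_apply_eq, Matrix.one_apply_ne, ne_eq, Fin.isValue,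
    zero_ne_one, one_ne_zero, not_false_eq_true, neg_zero] at e00 e01 e10 e11
  have hdet := sl_det A
  obtain ⟨a, ha⟩ : ∃ a, a = A.1 0 0 := ⟨_, rfl⟩
  obtain ⟨b, hb⟩ : ∃ b, b = A.1 0 1 := ⟨_, rfl⟩
  obtain ⟨c, hc⟩ : ∃ c, c = A.1 1 0 := ⟨_, rfl⟩
  obtain ⟨d, hd⟩ : ∃ d, d = A.1 1 1 := ⟨_, rfl⟩
  simp only [← ha, ← hb, ← hc, ← hd] at e00 e01 e10 e11 hdet
  have e00 := e00.symm
  have e01 := e01.symm
  have e10 := e10.symm
  have e11 := e11.symm
  have ht : a + d = 0 := by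
    by_contra ht
    have hb0 : b = 0 := by
      have : b * (a + d) = 0 := by linear_combination e01
      rcases mul_eq_zero.mp this with h | h
      · exact h
      · exact absurd h ht
    have hc0 : c = 0 := by
      have : c * (a + d) = 0 := by linear_combination e10
      rcases mul_eq_zero.mp this with h | h
      · exact h
      · exact absurd h ht
    rw [hb0, hc0] at e00 e11 hdet
    have : (a + d) * (a + d) = 0 := by linear_combination e00 + e11 + 2 * hdet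
    rcases mul_eq_zero.mp this with h | h <;> exact ht h
  have hd' : d = -a := by linear_combination ht
  have hAm : A.1 = !![a, b; c, -a] := by
    apply mat_ext
    · rw [← ha]; simp
    · rw [← hb]; simp
    · rw [← hc]; simp
    · rw [← hd, hd']; simp
  -- a vector (x, y) with -c x² + 2 a x y + b y² = 1
  have hxy : ∃ x y : F, -c * x ^ 2 + 2 * a * x * y + b * y ^ 2 = 1 := by
    by_cases hc0 : c = 0
    · have ha2 : a * a = -1 := by rw [hc0] at e00; linear_combination e00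
      have ha0 : a ≠ 0 := by
        rintro rfl
        simp at ha2
      refine ⟨(1 - b) / (2 * a), 1, ?_⟩
      rw [hc0]
      field_simp
      ring
    · obtain ⟨s, t, hst⟩ := sq_add_sq hF (-c)
      refine ⟨(s + a * t) / c, t, ?_⟩
      field_simp
      linear_combination (-1 : F) * hst + (t ^ 2) * e00
  obtain ⟨x, y, hxy⟩ := hxy
  obtain ⟨P, hP⟩ : ∃ P : Matrix.SpecialLinearGroup (Fin 2) F,
      P.1 = !![a * x + b * y, x; c * x - a * y, y] :=
    ⟨⟨!![a * x + b * y, x; c * x - a * y, y], by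
      rw [Matrix.det_fin_two_of]; linear_combination hxy⟩, rfl⟩
  refine ⟨P, ?_⟩
  have key : P * J = A * P := by
    apply Subtype.ext
    simp only [Matrix.SpecialLinearGroup.coe_mul]
    rw [hAm, hP]
    apply mat_ext
    · simp [J, Matrix.mul_apply, Fin.sum_univ_two]
      linear_combination (-x) * e00
    · simp [J, Matrix.mul_apply, Fin.sum_univ_two]
    · simp [J, Matrix.mul_apply, Fin.sum_univ_two]
      linear_combination (-y) * e00
    · simp [J, Matrix.mul_apply, Fin.sum_univ_two]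
      ring
  calc P * J * P⁻¹ = A * P * P⁻¹ := by rw [key]
    _ = A := mul_inv_cancel_right A P

end mat

section grp

variable {G : Type*} [Group G]

theorem mem_zpowers_invol {j y : G} (hj2 : j * j = 1) (hy : y ∈ zpowers j) : y = 1 ∨ y = j := by
  obtain ⟨i, rfl⟩ := mem_zpowers_iff.mp hy
  rcases Int.even_or_odd' i with ⟨m, rfl | rfl⟩
  · left
    rw [zpow_mul, zpow_ofNat, pow_two, hj2, one_zpow]
  · right
    rw [zpow_add, zpow_mul, zpow_ofNat, pow_two, hj2, one_zpow, one_mul, zpow_one]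

/-- the structure of one factor -/
theorem factor {F : Type*} [Field F] [Fintype F] (hF : Odd (Fintype.card F)) (L : Subgroup G)
    (e : ↥L ≃* Matrix.SpecialLinearGroup (Fin 2) F) (j : G) (hjL : j ∈ L) (hj1 : j ≠ 1)
    (hj2 : j * j = 1) :
    (∀ x ∈ L, x * x = 1 → x = 1 ∨ x = j) ∧
    ∃ a ∈ L, a * a = j ∧ ∀ x ∈ L, x * x = j → ∃ g ∈ L, g * a * g⁻¹ = x := by
  have h2 := two_ne_zero_of_odd hF
  have hej : (e ⟨j, hjL⟩).1 = -1 := by
    apply sq_eq_one h2
    · rw [← map_mul]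
      have : (⟨j, hjL⟩ : L) * ⟨j, hjL⟩ = 1 := Subtype.ext hj2
      rw [this, map_one]
    · intro h
      apply hj1
      have : (⟨j, hjL⟩ : L) = 1 := e.injective (by rw [h, map_one])
      exact congrArg Subtype.val this
  constructor
  · intro x hx hx2
    by_cases hx1 : x = 1
    · exact Or.inl hx1
    · right
      have hex : (e ⟨x, hx⟩).1 = -1 := by
        apply sq_eq_one h2
        · rw [← map_mul]
          have : (⟨x, hx⟩ : L) * ⟨x, hx⟩ = 1 := Subtype.ext hx2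
          rw [this, map_one]
        · intro h
          apply hx1
          have : (⟨x, hx⟩ : L) = 1 := e.injective (by rw [h, map_one])
          exact congrArg Subtype.val this
      have : (⟨x, hx⟩ : L) = ⟨j, hjL⟩ := e.injective (Subtype.ext (by rw [hex, hej]))
      exact congrArg Subtype.val this
  · refine ⟨(e.symm J : L), (e.symm J).2, ?_, ?_⟩
    · have h1 : e.symm J * e.symm J = (⟨j, hjL⟩ : L) := by
        apply e.injective
        rw [map_mul, e.apply_symm_apply]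
        apply Subtype.ext
        rw [Matrix.SpecialLinearGroup.coe_mul, J_sq, hej]
      exact congrArg Subtype.val h1
    · intro x hx hx2
      have hex : (e ⟨x, hx⟩).1 * (e ⟨x, hx⟩).1 = -1 := by
        rw [← Matrix.SpecialLinearGroup.coe_mul, ← map_mul]
        have : (⟨x, hx⟩ : L) * ⟨x, hx⟩ = ⟨j, hjL⟩ := Subtype.ext hx2
        rw [this, hej]
      obtain ⟨P, hP⟩ := conj_of_sq hF (e ⟨x, hx⟩) hex
      refine ⟨(e.symm P : L), (e.symm P).2, ?_⟩
      have h1 : e.symm P * e.symm J * (e.symm P)⁻¹ = (⟨x, hx⟩ : L) := by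
        apply e.injective
        rw [map_mul, map_mul, map_inv, e.apply_symm_apply, e.apply_symm_apply, hP]
      exact congrArg Subtype.val h1

end grp

/-- Let L₁ ≅ SL₂(q₁) and L₂ ≅ SL₂(q₂), q₁ and q₂ odd, be elementwise-commuting subgroups of a finite group meeting in ⟨j⟩ for an involution j. Then L₁L₂ has exactly two conjugacy classes of involutions: the central involution j, and one further class (there is an involution x ≠ j in L₁L₂, and every involution of L₁L₂ other than j is conjugate to x by an element of L₁L₂). -/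
theorem result {G : Type*} [Group G] [Finite G]
    {F₁ : Type*} [Field F₁] [Fintype F₁] {F₂ : Type*} [Field F₂] [Fintype F₂]
    (hF₁ : Odd (Fintype.card F₁)) (hF₂ : Odd (Fintype.card F₂)) (L₁ L₂ : Subgroup G)
    (e₁ : ↥L₁ ≃* Matrix.SpecialLinearGroup (Fin 2) F₁) (e₂ : ↥L₂ ≃* Matrix.SpecialLinearGroup (Fin 2) F₂)
    (hc : ∀ x ∈ L₁, ∀ y ∈ L₂, x * y = y * x) (j : G) (hj : orderOf j = 2) (hm : L₁ ⊓ L₂ = Subgroup.zpowers j) :
    ∃ x ∈ L₁ ⊔ L₂, orderOf x = 2 ∧ x ≠ j ∧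
      ∀ y ∈ L₁ ⊔ L₂, orderOf y = 2 → y = j ∨ ∃ g ∈ L₁ ⊔ L₂, g * x * g⁻¹ = y := by
  have : Fact (Nat.Prime 2) := ⟨Nat.prime_two⟩
  have hj1 : j ≠ 1 := by
    rintro rfl
    rw [orderOf_one] at hj
    omega
  have hj2 : j * j = 1 := by
    have := pow_orderOf_eq_one j
    rwa [hj, pow_two] at this
  have hjm : j ∈ L₁ ⊓ L₂ := by rw [hm]; exact mem_zpowers j
  have hjL₁ : j ∈ L₁ := (Subgroup.mem_inf.mp hjm).1
  have hjL₂ : j ∈ L₂ := (Subgroup.mem_inf.mp hjm).2
  obtain ⟨hi₁, a₁, ha₁, ha₁2, hconj₁⟩ := factor hF₁ L₁ e₁ j hjL₁ hj1 hj2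
  obtain ⟨hi₂, a₂, ha₂, ha₂2, hconj₂⟩ := factor hF₂ L₂ e₂ j hjL₂ hj1 hj2
  have hinter : ∀ y, y ∈ L₁ → y ∈ L₂ → y = 1 ∨ y = j := by
    intro y h1 h2
    apply mem_zpowers_invol hj2
    rw [← hm]
    exact Subgroup.mem_inf.mpr ⟨h1, h2⟩
  have hinter2 : ∀ y, y ∈ L₁ → y ∈ L₂ → y * y = 1 := by
    intro y h1 h2
    rcases hinter y h1 h2 with rfl | rfl
    · exact one_mul 1
    · exact hj2
  -- elements of the join are products
  let M : Subgroup G :=
    { carrier := {y | ∃ x₁ ∈ L₁, ∃ x₂ ∈ L₂, y = x₁ * x₂}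
      one_mem' := ⟨1, L₁.one_mem, 1, L₂.one_mem, (one_mul 1).symm⟩
      mul_mem' := by
        rintro _ _ ⟨x₁, hx₁, x₂, hx₂, rfl⟩ ⟨y₁, hy₁, y₂, hy₂, rfl⟩
        refine ⟨x₁ * y₁, L₁.mul_mem hx₁ hy₁, x₂ * y₂, L₂.mul_mem hx₂ hy₂, ?_⟩
        have := hc y₁ hy₁ x₂ hx₂
        calc x₁ * x₂ * (y₁ * y₂) = x₁ * (x₂ * y₁) * y₂ := by group
          _ = x₁ * (y₁ * x₂) * y₂ := by rw [this]
          _ = x₁ * y₁ * (x₂ * y₂) := by group
      inv_mem' := by
        rintro _ ⟨x₁, hx₁, x₂, hx₂, rfl⟩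
        refine ⟨x₁⁻¹, L₁.inv_mem hx₁, x₂⁻¹, L₂.inv_mem hx₂, ?_⟩
        have := hc x₁⁻¹ (L₁.inv_mem hx₁) x₂⁻¹ (L₂.inv_mem hx₂)
        rw [mul_inv_rev, this] }
  have hprod : ∀ y ∈ L₁ ⊔ L₂, ∃ x₁ ∈ L₁, ∃ x₂ ∈ L₂, y = x₁ * x₂ := by
    have hle : L₁ ⊔ L₂ ≤ M :=
      sup_le (fun x hx => ⟨x, hx, 1, L₂.one_mem, (mul_one x).symm⟩)
        (fun x hx => ⟨1, L₁.one_mem, x, hx, (one_mul x).symm⟩)
    exact fun y hy => hle hy
  have hsq : ∀ x₁ ∈ L₁, ∀ x₂ ∈ L₂, (x₁ * x₂) * (x₁ * x₂) = (x₁ * x₁) * (x₂ * x₂) := by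
    intro x₁ hx₁ x₂ hx₂
    have := hc x₁ hx₁ x₂ hx₂
    calc (x₁ * x₂) * (x₁ * x₂) = x₁ * (x₂ * x₁) * x₂ := by group
      _ = x₁ * (x₁ * x₂) * x₂ := by rw [this]
      _ = (x₁ * x₁) * (x₂ * x₂) := by group
  have ha₁ne : ¬ (a₁ ∈ L₂) := by
    intro h
    have := hinter2 a₁ ha₁ h
    rw [ha₁2] at this
    exact hj1 this
  refine ⟨a₁ * a₂, mul_mem (le_sup_left (a := L₁) ha₁) (le_sup_right (a := L₁) ha₂), ?_, ?_, ?_⟩
  · apply orderOf_eq_prime
    · rw [pow_two, hsq a₁ ha₁ a₂ ha₂, ha₁2, ha₂2, hj2]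
    · intro h
      apply ha₁ne
      have : a₁ = a₂⁻¹ := eq_inv_of_mul_eq_one_left h
      rw [this]
      exact L₂.inv_mem ha₂
  · intro h
    apply ha₁ne
    have : a₁ = j * a₂⁻¹ := by rw [← h]; group
    rw [this]
    exact L₂.mul_mem hjL₂ (L₂.inv_mem ha₂)
  · intro y hy hyo
    obtain ⟨x₁, hx₁, x₂, hx₂, rfl⟩ := hprod y hy
    have hy2 : (x₁ * x₂) * (x₁ * x₂) = 1 := by
      have := pow_orderOf_eq_one (x₁ * x₂)
      rwa [hyo, pow_two] at this
    have hy1 : x₁ * x₂ ≠ 1 := by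
      intro h
      rw [h, orderOf_one] at hyo
      omega
    rw [hsq x₁ hx₁ x₂ hx₂] at hy2
    have hx₁sq : x₁ * x₁ ∈ L₂ := by
      have : x₁ * x₁ = (x₂ * x₂)⁻¹ := eq_inv_of_mul_eq_one_left hy2
      rw [this]
      exact L₂.inv_mem (L₂.mul_mem hx₂ hx₂)
    rcases hinter (x₁ * x₁) (L₁.mul_mem hx₁ hx₁) hx₁sq with h | h
    · -- both squares trivial
      left
      have h' : x₂ * x₂ = 1 := by rwa [h, one_mul] at hy2
      rcases hi₁ x₁ hx₁ h with rfl | rfl <;> rcases hi₂ x₂ hx₂ h' with rfl | rfl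
      · exact absurd (one_mul 1) hy1
      · exact one_mul _
      · exact mul_one _
      · exact absurd hj2 hy1
    · right
      have h' : x₂ * x₂ = j := by
        rw [h] at hy2
        have : x₂ * x₂ = j⁻¹ := eq_inv_of_mul_eq_one_right hy2
        rw [this]
        exact inv_eq_of_mul_eq_one_left hj2
      obtain ⟨g₁, hg₁, hg₁x⟩ := hconj₁ x₁ hx₁ h
      obtain ⟨g₂, hg₂, hg₂x⟩ := hconj₂ x₂ hx₂ h'
      refine ⟨g₁ * g₂, mul_mem (le_sup_left (a := L₁) hg₁) (le_sup_right (a := L₁) hg₂), ?_⟩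
      have c1 := hc a₁ ha₁ g₂ hg₂
      have c2 := hc g₁⁻¹ (L₁.inv_mem hg₁) (g₂ * a₂ * g₂⁻¹)
        (L₂.mul_mem (L₂.mul_mem hg₂ ha₂) (L₂.inv_mem hg₂))
      calc g₁ * g₂ * (a₁ * a₂) * (g₁ * g₂)⁻¹ = g₁ * (g₂ * a₁) * a₂ * g₂⁻¹ * g₁⁻¹ := by group
        _ = g₁ * (a₁ * g₂) * a₂ * g₂⁻¹ * g₁⁻¹ := by rw [c1]
        _ = g₁ * a₁ * ((g₂ * a₂ * g₂⁻¹) * g₁⁻¹) := by group
        _ = g₁ * a₁ * (g₁⁻¹ * (g₂ * a₂ * g₂⁻¹)) := by rw [c2]
        _ = (g₁ * a₁ * g₁⁻¹) * (g₂ * a₂ * g₂⁻¹) := by group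
        _ = x₁ * x₂ := by rw [hg₁x, hg₂x]

end Cfsg.Agent.S3209
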