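import Mathlib
import Cfsg.Statements.S3210
import Cfsg.Agent.Lib.Helper7.SL2Sylow
import Cfsg.Agent.Lib.Helper31.Basic
import Cfsg.Agent.Lib.Helper61.Conj

set_option autoImplicit false
open Cfsg

namespace Cfsg.Agent.S3210

open Matrix Cfsg.Agent.Lib.Helper7 Cfsg.Agent.Lib.Helper61

section SL2
variable {F : Type*} [Field F] [Fintype F]

/-- diagonal element of `SL₂` -/
def dg (a : F) (ha : a ≠ 0) : SpecialLinearGroup (Fin 2) F :=
  ⟨!![a, 0; 0, a⁻¹], by simp [det_fin_two_of, ha]⟩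

/-- the Weyl element of `SL₂` -/
def wK : SpecialLinearGroup (Fin 2) F := ⟨!![0, -1; 1, 0], by simp [det_fin_two_of]⟩

theorem wK_coe : ((wK : SpecialLinearGroup (Fin 2) F) : Matrix (Fin 2) (Fin 2) F)
    = !![0, -1; 1, 0] := rfl

theorem dg_coe (a : F) (ha : a ≠ 0) :
    ((dg a ha : SpecialLinearGroup (Fin 2) F) : Matrix (Fin 2) (Fin 2) F) = !![a, 0; 0, a⁻¹] :=
  rfl

theorem wK_conj : (wK : SpecialLinearGroup (Fin 2) F) * tu 1 * wK⁻¹ = tl (-1) := by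
  rw [mul_inv_eq_iff_eq_mul]
  apply Subtype.ext
  show (wK : SpecialLinearGroup (Fin 2) F).1 * (tu (1 : F)).1 = (tl (-1 : F)).1 * wK.1
  rw [wK_coe, tu_coe, tl_coe]
  simp [Matrix.mul_fin_two]

theorem tl_not_mem_USL : (tl (-1) : SpecialLinearGroup (Fin 2) F) ∉ USL F := by
  intro h
  obtain ⟨t, ht⟩ := mem_USL_iff.mp h
  have := congrArg (fun m : SpecialLinearGroup (Fin 2) F => (m : Matrix (Fin 2) (Fin 2) F) 1 0) ht
  simp [tu_coe, tl_coe] at this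

/-- a normal subgroup of `SL₂(F)` of order divisible by the characteristic is everything -/
theorem normal_eq_top (h2 : (2 : F) ≠ 0) (p : ℕ) [Fact p.Prime] [CharP F p]
    (N : Subgroup (SpecialLinearGroup (Fin 2) F)) [hN : N.Normal] (hp : p ∣ Nat.card N) :
    N = ⊤ := by
  classical
  obtain ⟨y, hy⟩ := exists_prime_orderOf_dvd_card' p hp
  have hyo : orderOf (y : SpecialLinearGroup (Fin 2) F) = p := by
    rw [Subgroup.orderOf_coe]; exact hy
  have hpg : IsPGroup p (Subgroup.zpowers (y : SpecialLinearGroup (Fin 2) F)) := by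
    apply IsPGroup.of_card (n := 1)
    rw [Nat.card_zpowers, hyo, pow_one]
  obtain ⟨P, hP⟩ := hpg.exists_le_sylow
  obtain ⟨g, rfl⟩ := exists_smul_USLSylow p P
  obtain ⟨t, ht⟩ := (mem_smul_USLSylow_iff p g _).mp (hP (Subgroup.mem_zpowers _))
  have ht0 : t ≠ 0 := by
    rintro rfl
    rw [tu_zero, mul_one, mul_inv_cancel] at ht
    rw [ht, orderOf_one] at hyo
    exact (Fact.out : p.Prime).one_lt.ne hyo
  have htN : tu t ∈ N := by
    have h1 := hN.conj_mem _ y.2 g⁻¹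
    rw [ht] at h1
    have h2 : g⁻¹ * (g * tu t * g⁻¹) * g⁻¹⁻¹ = tu t := by group
    rw [h2] at h1
    exact h1
  have hsq : ∀ a : F, tu (t * a ^ 2) ∈ N := by
    intro a
    by_cases ha : a = 0
    · rw [ha]; simp only [ne_eq, OfNat.ofNat_ne_zero, not_false_eq_true, zero_pow, mul_zero]
      rw [tu_zero]; exact N.one_mem
    · have h1 := hN.conj_mem _ htN (dg a ha)
      have h4 : (dg a ha : SpecialLinearGroup (Fin 2) F) 1 0 = 0 := by
        show (dg a ha : SpecialLinearGroup (Fin 2) F).1 1 0 = 0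
        rw [dg_coe]; simp
      rw [sl2_conj_upper (dg a ha) h4 t] at h1
      have h3 : (dg a ha : SpecialLinearGroup (Fin 2) F) 0 0 = a := by
        show (dg a ha : SpecialLinearGroup (Fin 2) F).1 0 0 = a
        rw [dg_coe]; simp
      rw [h3] at h1
      exact h1
  have hall : ∀ s : F, tu s ∈ N := by
    intro s
    have h1 : s = t * ((s / t + 1) / 2) ^ 2 + -(t * ((s / t - 1) / 2) ^ 2) := by
      field_simp
      ring
    rw [h1, tu_add, ← tu_inv]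
    exact N.mul_mem (hsq _) (N.inv_mem (hsq _))
  have hUSL : ∀ k : SpecialLinearGroup (Fin 2) F,
      ((k • USLSylow p : Sylow p (SpecialLinearGroup (Fin 2) F)) :
        Subgroup (SpecialLinearGroup (Fin 2) F)) ≤ N := by
    intro k x hx
    obtain ⟨s, rfl⟩ := (mem_smul_USLSylow_iff p k x).mp hx
    exact hN.conj_mem _ (hall s) k
  have hne : (USLSylow p : Sylow p (SpecialLinearGroup (Fin 2) F)) ≠
      (wK : SpecialLinearGroup (Fin 2) F) • USLSylow p := by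
    intro h
    have h1 : (tl (-1) : SpecialLinearGroup (Fin 2) F) ∈
        ((wK • USLSylow p : Sylow p (SpecialLinearGroup (Fin 2) F)) :
          Subgroup (SpecialLinearGroup (Fin 2) F)) :=
      (mem_smul_USLSylow_iff p (wK : SpecialLinearGroup (Fin 2) F) _).mpr ⟨(1 : F), (wK_conj (F := F)).symm⟩
    rw [← h] at h1
    exact tl_not_mem_USL (F := F) h1
  have hsup := sl2_sylow_sup p _ _ hne
  rw [eq_top_iff, ← hsup]
  apply sup_le
  · have := hUSL 1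
    rwa [one_smul] at this
  · exact hUSL wK

/-- the central involution of `SL₂` -/
def negOne : SpecialLinearGroup (Fin 2) F := ⟨!![-1, 0; 0, -1], by simp [det_fin_two_of]⟩

theorem center_cases (c : SpecialLinearGroup (Fin 2) F)
    (hc : c ∈ Subgroup.center (SpecialLinearGroup (Fin 2) F)) : c = 1 ∨ c = negOne := by
  rw [Matrix.SpecialLinearGroup.mem_center_iff] at hc
  obtain ⟨r, hr, hs⟩ := hc
  rw [Fintype.card_fin] at hr
  have h1 : (r - 1) * (r + 1) = 0 := by linear_combination hr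
  rcases mul_eq_zero.mp h1 with h | h
  · left
    have hr1 : r = 1 := by linear_combination h
    apply Subtype.ext
    show c.1 = 1
    rw [← hs, hr1]; simp
  · right
    have hr1 : r = -1 := by linear_combination h
    apply Subtype.ext
    show c.1 = !![-1, 0; 0, -1]
    rw [← hs, hr1]
    ext i j
    fin_cases i <;> fin_cases j <;> simp

/-- an element that commutes with every element modulo the centre is central -/
theorem central_of_comm (h2 : (2 : F) ≠ 0) (y : SpecialLinearGroup (Fin 2) F)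
    (h : ∀ g : SpecialLinearGroup (Fin 2) F,
      y * g * y⁻¹ * g⁻¹ ∈ Subgroup.center (SpecialLinearGroup (Fin 2) F)) :
    y ∈ Subgroup.center (SpecialLinearGroup (Fin 2) F) := by
  have key : ∀ g : SpecialLinearGroup (Fin 2) F, ∃ r : F, r ^ 2 = 1 ∧
      ∀ i j, (y.1 * g.1) i j = r * (g.1 * y.1) i j := by
    intro g
    have h1 := h g
    rw [Matrix.SpecialLinearGroup.mem_center_iff] at h1
    obtain ⟨r, hr, hs⟩ := h1
    rw [Fintype.card_fin] at hr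
    refine ⟨r, hr, ?_⟩
    have h3 : y * g = (y * g * y⁻¹ * g⁻¹) * (g * y) := by group
    have h5 : y.1 * g.1 = (y * g * y⁻¹ * g⁻¹).1 * (g.1 * y.1) := congrArg Subtype.val h3
    intro i j
    rw [h5]
    have h6 : (y * g * y⁻¹ * g⁻¹).1 = Matrix.scalar (Fin 2) r := hs.symm
    rw [h6]
    simp [Matrix.mul_apply, Matrix.scalar_apply, Matrix.diagonal_apply, Fin.sum_univ_two]
  obtain ⟨a, ha⟩ : ∃ a, a = y.1 0 0 := ⟨_, rfl⟩
  obtain ⟨b, hb⟩ : ∃ b, b = y.1 0 1 := ⟨_, rfl⟩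
  obtain ⟨c, hc⟩ : ∃ c, c = y.1 1 0 := ⟨_, rfl⟩
  obtain ⟨d, hd⟩ : ∃ d, d = y.1 1 1 := ⟨_, rfl⟩
  have hym : y.1 = !![a, b; c, d] := by
    rw [ha, hb, hc, hd]; exact Matrix.eta_fin_two y.1
  have hdet : a * d - b * c = 1 := by
    have := y.2
    rw [hym, det_fin_two_of] at this
    exact this
  obtain ⟨r, hr, e1⟩ := key (tu 1)
  obtain ⟨r', hr', e2⟩ := key (tl 1)
  have e1' : ∀ i j, (!![a, b; c, d] * !![1, (1 : F); 0, 1]) i j
      = r * (!![1, (1 : F); 0, 1] * !![a, b; c, d]) i j := by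
    intro i j
    have := e1 i j
    rw [hym, tu_coe] at this
    exact this
  have e2' : ∀ i j, (!![a, b; c, d] * !![1, (0 : F); 1, 1]) i j
      = r' * (!![1, (0 : F); 1, 1] * !![a, b; c, d]) i j := by
    intro i j
    have := e2 i j
    rw [hym, tl_coe] at this
    exact this
  have u00 := e1' 0 0
  have u01 := e1' 0 1
  have u10 := e1' 1 0
  have u11 := e1' 1 1
  have l00 := e2' 0 0
  have l01 := e2' 0 1
  simp [Matrix.mul_fin_two] at u00 u01 u10 u11 l00 l01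
  -- c = 0
  have hr2 : (r - 1) * (r + 1) = 0 := by linear_combination hr
  have hr2' : (r' - 1) * (r' + 1) = 0 := by linear_combination hr'
  have hc0 : c = 0 := by
    rcases mul_eq_zero.mp hr2 with h | h
    · have hr1 : r = 1 := by linear_combination h
      rw [hr1] at u00
      linear_combination -u00
    · have hr1 : r = -1 := by linear_combination h
      rw [hr1] at u10
      have : (2 : F) * c = 0 := by linear_combination u10
      rcases mul_eq_zero.mp this with h' | h'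
      · exact absurd h' h2
      · exact h'
  have hb0 : b = 0 := by
    rcases mul_eq_zero.mp hr2' with h | h
    · have hr1 : r' = 1 := by linear_combination h
      rw [hr1] at l00
      linear_combination l00
    · have hr1 : r' = -1 := by linear_combination h
      rw [hr1] at l01
      have : (2 : F) * b = 0 := by linear_combination l01
      rcases mul_eq_zero.mp this with h' | h'
      · exact absurd h' h2
      · exact h'
  have had : a * d = 1 := by rw [hb0] at hdet; linear_combination hdet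
  have ha0 : a ≠ 0 := by
    rintro rfl
    rw [zero_mul] at had
    exact zero_ne_one had
  have hr1 : r = 1 := by
    rw [hc0] at u00
    have : a * (1 - r) = 0 := by linear_combination u00
    rcases mul_eq_zero.mp this with h' | h'
    · exact absurd h' ha0
    · linear_combination -h'
  have hadeq : a = d := by
    rw [hr1] at u01
    linear_combination u01
  rw [Matrix.SpecialLinearGroup.mem_center_iff]
  refine ⟨a, ?_, ?_⟩
  · rw [Fintype.card_fin]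
    rw [← hadeq] at had
    linear_combination had
  · rw [hym, hb0, hc0, ← hadeq]
    ext i j
    fin_cases i <;> fin_cases j <;> simp

/-- two normal subgroups of `SL₂(F)` (odd characteristic) that generate it and commute modulo
the centre: one of them is everything and the other one is central. -/
theorem sl2_split (h2 : (2 : F) ≠ 0) (X Y : Subgroup (SpecialLinearGroup (Fin 2) F))
    [X.Normal] [Y.Normal] (hXY : X ⊔ Y = ⊤)
    (hcomm : ∀ x ∈ X, ∀ y ∈ Y,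
      x * y * x⁻¹ * y⁻¹ ∈ Subgroup.center (SpecialLinearGroup (Fin 2) F)) :
    (X = ⊤ ∧ Y ≤ Subgroup.center (SpecialLinearGroup (Fin 2) F)) ∨
      (Y = ⊤ ∧ X ≤ Subgroup.center (SpecialLinearGroup (Fin 2) F)) := by
  classical
  obtain ⟨p, hp⟩ : ∃ p, p = ringChar F := ⟨_, rfl⟩
  have hchar : CharP F p := by rw [hp]; exact ringChar.charP F
  have hprime : Fact p.Prime := ⟨CharP.char_is_prime F p⟩
  obtain ⟨k, -, hk⟩ := FiniteField.card F p
  have hpS : p ∣ Nat.card (SpecialLinearGroup (Fin 2) F) := by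
    rw [card_SL2, hk]
    exact Dvd.dvd.mul_right (Dvd.dvd.mul_left (dvd_pow_self p k.pos.ne') _) _
  have hdvd := Cfsg.Agent.Lib.Helper31.card_sup_dvd X Y
  rw [hXY, Subgroup.card_top] at hdvd
  rcases (Nat.Prime.dvd_mul hprime.out).mp (hpS.trans hdvd) with h | h
  · left
    have hX := normal_eq_top h2 p X h
    refine ⟨hX, fun y hy => ?_⟩
    apply central_of_comm h2
    intro g
    have h1 := hcomm g (by rw [hX]; trivial) y hy
    have h3 : y * g * y⁻¹ * g⁻¹ = (g * y * g⁻¹ * y⁻¹)⁻¹ := by group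
    rw [h3]
    exact Subgroup.inv_mem _ h1
  · right
    have hY := normal_eq_top h2 p Y h
    refine ⟨hY, fun x hx => ?_⟩
    apply central_of_comm h2
    intro g
    exact hcomm x hx g (by rw [hY]; trivial)

end SL2

section Glue
variable {G : Type*} [Group G]

/-- elements `l ∈ Q` with `l * r ∈ P` for some `r ∈ R`, when `Q` and `R` commute elementwise -/
def proj (P Q R : Subgroup G) (hc : ∀ x ∈ Q, ∀ y ∈ R, x * y = y * x) : Subgroup G where
  carrier := {l | l ∈ Q ∧ ∃ r ∈ R, l * r ∈ P}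
  one_mem' := ⟨Q.one_mem, 1, R.one_mem, by rw [mul_one]; exact P.one_mem⟩
  mul_mem' := by
    rintro a b ⟨ha, r, hr, har⟩ ⟨hb, s, hs, hbs⟩
    refine ⟨Q.mul_mem ha hb, r * s, R.mul_mem hr hs, ?_⟩
    have h1 : a * b * (r * s) = a * (b * r) * s := by group
    have h2 : a * (r * b) * s = (a * r) * (b * s) := by group
    rw [h1, hc b hb r hr, h2]
    exact P.mul_mem har hbs
  inv_mem' := by
    rintro a ⟨ha, r, hr, har⟩
    refine ⟨Q.inv_mem ha, r⁻¹, R.inv_mem hr, ?_⟩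
    have h1 : a⁻¹ * r⁻¹ = (r * a)⁻¹ := by group
    rw [h1, ← hc a ha r hr]
    exact P.inv_mem har

theorem mem_proj {P Q R : Subgroup G} {hc : ∀ x ∈ Q, ∀ y ∈ R, x * y = y * x} {l : G} :
    l ∈ proj P Q R hc ↔ l ∈ Q ∧ ∃ r ∈ R, l * r ∈ P := Iff.rfl

theorem comm_split {Q R : Subgroup G} (hc : ∀ x ∈ Q, ∀ y ∈ R, x * y = y * x) {x y r s : G}
    (hx : x ∈ Q) (hy : y ∈ Q) (hr : r ∈ R) (hs : s ∈ R) :
    (x * r) * (y * s) * (x * r)⁻¹ * (y * s)⁻¹ = (x * y * x⁻¹ * y⁻¹) * (r * s * r⁻¹ * s⁻¹) := by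
  have e1 : r * y = y * r := (hc y hy r hr).symm
  have e2 : (r * s * r⁻¹) * x⁻¹ = x⁻¹ * (r * s * r⁻¹) :=
    (hc x⁻¹ (Q.inv_mem hx) _ (R.mul_mem (R.mul_mem hr hs) (R.inv_mem hr))).symm
  have e3 : (r * s * r⁻¹ * s⁻¹) * y⁻¹ = y⁻¹ * (r * s * r⁻¹ * s⁻¹) :=
    (hc y⁻¹ (Q.inv_mem hy) _
      (R.mul_mem (R.mul_mem (R.mul_mem hr hs) (R.inv_mem hr)) (R.inv_mem hs))).symm
  calc (x * r) * (y * s) * (x * r)⁻¹ * (y * s)⁻¹
      = x * (r * y) * s * r⁻¹ * x⁻¹ * s⁻¹ * y⁻¹ := by group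
    _ = x * (y * r) * s * r⁻¹ * x⁻¹ * s⁻¹ * y⁻¹ := by rw [e1]
    _ = x * y * ((r * s * r⁻¹) * x⁻¹) * s⁻¹ * y⁻¹ := by group
    _ = x * y * (x⁻¹ * (r * s * r⁻¹)) * s⁻¹ * y⁻¹ := by rw [e2]
    _ = x * y * x⁻¹ * ((r * s * r⁻¹ * s⁻¹) * y⁻¹) := by group
    _ = x * y * x⁻¹ * (y⁻¹ * (r * s * r⁻¹ * s⁻¹)) := by rw [e3]
    _ = (x * y * x⁻¹ * y⁻¹) * (r * s * r⁻¹ * s⁻¹) := by group

theorem split_of_iso {F : Type*} [Field F] [Fintype F] (h2 : (2 : F) ≠ 0) (L : Subgroup G)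
    (e : ↥L ≃* SpecialLinearGroup (Fin 2) F) (X Y : Subgroup G) (hXL : X ≤ L) (hYL : Y ≤ L)
    (hXn : ∀ l ∈ L, ∀ x ∈ X, l * x * l⁻¹ ∈ X) (hYn : ∀ l ∈ L, ∀ y ∈ Y, l * y * l⁻¹ ∈ Y)
    (hXY : ∀ l ∈ L, ∃ x ∈ X, ∃ y ∈ Y, l = x * y)
    (hcomm : ∀ x ∈ X, ∀ y ∈ Y, ∀ l ∈ L,
      (x * y * x⁻¹ * y⁻¹) * l = l * (x * y * x⁻¹ * y⁻¹)) :
    (X = L ∧ ∀ y ∈ Y, ∀ l ∈ L, y * l = l * y) ∨ (Y = L ∧ ∀ x ∈ X, ∀ l ∈ L, x * l = l * x) := by
  obtain ⟨X', hX'⟩ : ∃ X' : Subgroup (SpecialLinearGroup (Fin 2) F),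
      X' = (X.subgroupOf L).map e.toMonoidHom := ⟨_, rfl⟩
  obtain ⟨Y', hY'⟩ : ∃ Y' : Subgroup (SpecialLinearGroup (Fin 2) F),
      Y' = (Y.subgroupOf L).map e.toMonoidHom := ⟨_, rfl⟩
  have hXn' : X'.Normal := by
    have h1 : (X.subgroupOf L).Normal := ⟨fun x hx l => by
      rw [Subgroup.mem_subgroupOf] at hx ⊢
      exact hXn l l.2 x hx⟩
    rw [hX']
    exact h1.map e.toMonoidHom e.surjective
  have hYn' : Y'.Normal := by
    have h1 : (Y.subgroupOf L).Normal := ⟨fun x hx l => by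
      rw [Subgroup.mem_subgroupOf] at hx ⊢
      exact hYn l l.2 x hx⟩
    rw [hY']
    exact h1.map e.toMonoidHom e.surjective
  have hmemX : ∀ x : ↥L, (x : G) ∈ X → e x ∈ X' := by
    intro x hx
    rw [hX']
    exact Subgroup.mem_map_of_mem _ (by rw [Subgroup.mem_subgroupOf]; exact hx)
  have hmemY : ∀ y : ↥L, (y : G) ∈ Y → e y ∈ Y' := by
    intro y hy
    rw [hY']
    exact Subgroup.mem_map_of_mem _ (by rw [Subgroup.mem_subgroupOf]; exact hy)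
  have hsup : X' ⊔ Y' = ⊤ := by
    rw [eq_top_iff]
    intro s _
    obtain ⟨l, rfl⟩ := e.surjective s
    obtain ⟨x, hx, y, hy, hl⟩ := hXY l l.2
    have h1 : l = ⟨x, hXL hx⟩ * ⟨y, hYL hy⟩ := Subtype.ext hl
    rw [h1, map_mul]
    exact Subgroup.mul_mem_sup (hmemX _ hx) (hmemY _ hy)
  have hc' : ∀ x ∈ X', ∀ y ∈ Y',
      x * y * x⁻¹ * y⁻¹ ∈ Subgroup.center (SpecialLinearGroup (Fin 2) F) := by
    intro x hx y hy
    rw [hX'] at hx
    rw [hY'] at hy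
    obtain ⟨x, hx, rfl⟩ := hx
    obtain ⟨y, hy, rfl⟩ := hy
    rw [SetLike.mem_coe, Subgroup.mem_subgroupOf] at hx hy
    rw [Subgroup.mem_center_iff]
    intro s
    obtain ⟨l, rfl⟩ := e.surjective s
    have h1 : (l : ↥L) * (x * y * x⁻¹ * y⁻¹) = (x * y * x⁻¹ * y⁻¹) * l :=
      Subtype.ext (hcomm x hx y hy l l.2).symm
    have h3 := congrArg e h1
    simpa [map_mul, map_inv] using h3
  rcases sl2_split h2 X' Y' hsup hc' with ⟨hX, hY⟩ | ⟨hY, hX⟩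
  · left
    constructor
    · apply le_antisymm hXL
      intro l hl
      have h1 : e ⟨l, hl⟩ ∈ X' := by rw [hX]; trivial
      rw [hX'] at h1
      obtain ⟨x, hx, hxe⟩ := h1
      have h3 := e.injective hxe
      rw [SetLike.mem_coe, Subgroup.mem_subgroupOf, h3] at hx
      exact hx
    · intro y hy l hl
      have h1 := hY (hmemY ⟨y, hYL hy⟩ hy)
      have h3 := Subgroup.mem_center_iff.mp h1 (e ⟨l, hl⟩)
      rw [← map_mul, ← map_mul] at h3
      exact (congrArg Subtype.val (e.injective h3)).symm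
  · right
    constructor
    · apply le_antisymm hYL
      intro l hl
      have h1 : e ⟨l, hl⟩ ∈ Y' := by rw [hY]; trivial
      rw [hY'] at h1
      obtain ⟨x, hx, hxe⟩ := h1
      have h3 := e.injective hxe
      rw [SetLike.mem_coe, Subgroup.mem_subgroupOf, h3] at hx
      exact hx
    · intro y hy l hl
      have h1 := hX (hmemX ⟨y, hXL hy⟩ hy)
      have h3 := Subgroup.mem_center_iff.mp h1 (e ⟨l, hl⟩)
      rw [← map_mul, ← map_mul] at h3
      exact (congrArg Subtype.val (e.injective h3)).symm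

theorem central_mem_zpowers {F : Type*} [Field F] [Fintype F] (L : Subgroup G)
    (e : ↥L ≃* SpecialLinearGroup (Fin 2) F) (j : G) (hjL : j ∈ L) (hj1 : j ≠ 1)
    (hjc : ∀ l ∈ L, j * l = l * j) (c : G) (hcL : c ∈ L) (hcc : ∀ l ∈ L, c * l = l * c) :
    c ∈ Subgroup.zpowers j := by
  have hcen : ∀ (d : G) (hd : d ∈ L), (∀ l ∈ L, d * l = l * d) →
      e ⟨d, hd⟩ ∈ Subgroup.center (SpecialLinearGroup (Fin 2) F) := by
    intro d hd hdc
    rw [Subgroup.mem_center_iff]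
    intro s
    obtain ⟨l, rfl⟩ := e.surjective s
    rw [← map_mul, ← map_mul]
    congr 1
    exact Subtype.ext (hdc l l.2).symm
  rcases center_cases _ (hcen c hcL hcc) with hc1 | hc1
  · have h1 : (⟨c, hcL⟩ : ↥L) = 1 := e.injective (by rw [hc1, map_one])
    have h3 : c = 1 := congrArg Subtype.val h1
    rw [h3]; exact Subgroup.one_mem _
  · rcases center_cases _ (hcen j hjL hjc) with hj' | hj'
    · exfalso
      apply hj1
      have h1 : (⟨j, hjL⟩ : ↥L) = 1 := e.injective (by rw [hj', map_one])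
      exact congrArg Subtype.val h1
    · have h1 : (⟨c, hcL⟩ : ↥L) = ⟨j, hjL⟩ := e.injective (by rw [hc1, hj'])
      have h3 : c = j := congrArg Subtype.val h1
      rw [h3]; exact Subgroup.mem_zpowers j

end Glue

section Key
variable {G : Type*} [Group G]

/-- the projection argument for one factor -/
theorem key {F : Type*} [Field F] [Fintype F] (h2 : (2 : F) ≠ 0) (Q R : Subgroup G)
    (e : ↥Q ≃* SpecialLinearGroup (Fin 2) F) (hc : ∀ x ∈ Q, ∀ y ∈ R, x * y = y * x)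
    (j : G) (hm : Q ⊓ R = Subgroup.zpowers j) (hj1 : j ≠ 1) (hjQ : ∀ l ∈ Q, j * l = l * j)
    (A B : Subgroup G) (hAB : ∀ a ∈ A, ∀ b ∈ B, a * b = b * a)
    (hQAB : ∀ l ∈ Q, ∃ a ∈ A, ∃ b ∈ B, l = a * b)
    (hAQR : ∀ a ∈ A, ∃ q ∈ Q, ∃ r ∈ R, a = q * r) (hBQR : ∀ b ∈ B, ∃ q ∈ Q, ∃ r ∈ R, b = q * r)
    (hAn : ∀ l ∈ Q, ∀ a ∈ A, l * a * l⁻¹ ∈ A) (hBn : ∀ l ∈ Q, ∀ b ∈ B, l * b * l⁻¹ ∈ B) :
    B ≤ R ∨ A ≤ R := by
  have hjQ' : j ∈ Q := by
    have h1 : j ∈ Q ⊓ R := by rw [hm]; exact Subgroup.mem_zpowers j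
    exact h1.1
  have hzc : ∀ z ∈ Subgroup.zpowers j, ∀ l ∈ Q, z * l = l * z := by
    intro z hz l hl
    obtain ⟨k, rfl⟩ := Subgroup.mem_zpowers_iff.mp hz
    have h1 : Commute j l := hjQ l hl
    exact (h1.zpow_left k).eq
  have hzR : Subgroup.zpowers j ≤ R := by rw [← hm]; exact inf_le_right
  have hXn : ∀ (P : Subgroup G), (∀ l ∈ Q, ∀ a ∈ P, l * a * l⁻¹ ∈ P) →
      ∀ l ∈ Q, ∀ x ∈ proj P Q R hc, l * x * l⁻¹ ∈ proj P Q R hc := by
    intro P hP l hl x hx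
    obtain ⟨hxQ, r, hr, hxr⟩ := hx
    refine ⟨Q.mul_mem (Q.mul_mem hl hxQ) (Q.inv_mem hl), r, hr, ?_⟩
    have h1 : l * x * l⁻¹ * r = l * x * (l⁻¹ * r) := by group
    have h3 : l * x * (r * l⁻¹) = l * (x * r) * l⁻¹ := by group
    rw [h1, hc l⁻¹ (Q.inv_mem hl) r hr, h3]
    exact hP l hl _ hxr
  have hsplit := split_of_iso h2 Q e (proj A Q R hc) (proj B Q R hc) (fun x hx => hx.1)
    (fun x hx => hx.1) (hXn A hAn) (hXn B hBn) ?_ ?_
  · rcases hsplit with ⟨-, hY⟩ | ⟨-, hX⟩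
    · left
      intro b hb
      obtain ⟨q, hq, r, hr, rfl⟩ := hBQR b hb
      have hqY : q ∈ proj B Q R hc := ⟨hq, r, hr, hb⟩
      have hqz := central_mem_zpowers Q e j hjQ' hj1 hjQ q hq (hY q hqY)
      exact R.mul_mem (hzR hqz) hr
    · right
      intro a ha
      obtain ⟨q, hq, r, hr, rfl⟩ := hAQR a ha
      have hqX : q ∈ proj A Q R hc := ⟨hq, r, hr, ha⟩
      have hqz := central_mem_zpowers Q e j hjQ' hj1 hjQ q hq (hX q hqX)
      exact R.mul_mem (hzR hqz) hr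
  · intro l hl
    obtain ⟨a, ha, b, hb, rfl⟩ := hQAB l hl
    obtain ⟨a₁, ha₁, a₂, ha₂, rfl⟩ := hAQR a ha
    obtain ⟨b₁, hb₁, b₂, hb₂, rfl⟩ := hBQR b hb
    have h1 : a₁ * a₂ * (b₁ * b₂) = a₁ * (b₁ * (a₂ * b₂)) := by
      have h0 := hc b₁ hb₁ a₂ ha₂
      calc a₁ * a₂ * (b₁ * b₂) = a₁ * (a₂ * b₁) * b₂ := by group
        _ = a₁ * (b₁ * a₂) * b₂ := by rw [h0]
        _ = a₁ * (b₁ * (a₂ * b₂)) := by group
    have hzQ : a₂ * b₂ ∈ Q := by
      have h0 : a₂ * b₂ = b₁⁻¹ * (a₁⁻¹ * (a₁ * a₂ * (b₁ * b₂))) := by rw [h1]; group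
      rw [h0]
      exact Q.mul_mem (Q.inv_mem hb₁) (Q.mul_mem (Q.inv_mem ha₁) hl)
    refine ⟨a₁, ⟨ha₁, a₂, ha₂, ha⟩, b₁ * (a₂ * b₂),
      ⟨Q.mul_mem hb₁ hzQ, (a₂ * b₂)⁻¹ * b₂, ?_, ?_⟩, h1⟩
    · exact R.mul_mem (R.inv_mem (R.mul_mem ha₂ hb₂)) hb₂
    · have h0 : b₁ * (a₂ * b₂) * ((a₂ * b₂)⁻¹ * b₂) = b₁ * b₂ := by group
      rw [h0]; exact hb
  · intro x hx y hy l hl
    obtain ⟨hxQ, r, hr, hxr⟩ := hx
    obtain ⟨hyQ, s, hs, hys⟩ := hy
    have h1 := comm_split hc hxQ hyQ hr hs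
    have h3 : (x * r) * (y * s) * (x * r)⁻¹ * (y * s)⁻¹ = 1 := by
      rw [hAB _ hxr _ hys]; group
    rw [h3] at h1
    have h4 : x * y * x⁻¹ * y⁻¹ = (r * s * r⁻¹ * s⁻¹)⁻¹ := eq_inv_of_mul_eq_one_left h1.symm
    have h5 : x * y * x⁻¹ * y⁻¹ ∈ Subgroup.zpowers j := by
      rw [← hm]
      refine ⟨?_, ?_⟩
      · exact Q.mul_mem (Q.mul_mem (Q.mul_mem hxQ hyQ) (Q.inv_mem hxQ)) (Q.inv_mem hyQ)
      · rw [SetLike.mem_coe, h4]
        exact R.inv_mem (R.mul_mem (R.mul_mem (R.mul_mem hr hs) (R.inv_mem hr)) (R.inv_mem hs))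
    exact hzc _ h5 l hl

theorem f_lt (a b : ℕ) (ha : 3 ≤ a) (h : a < b) :
    (a - 1) * a * (a + 1) < (b - 1) * b * (b + 1) := by
  have h1 : a - 1 < b - 1 := by omega
  have h2 : (a - 1) * a < (b - 1) * b := Nat.mul_lt_mul'' h1 h
  exact Nat.mul_lt_mul'' h2 (by omega)

theorem two_ne_zero_of_odd {F : Type*} [Field F] [Fintype F] (hF : Odd (Fintype.card F)) :
    (2 : F) ≠ 0 := by
  intro h
  have h1 := Nat.cast_card_eq_zero F
  obtain ⟨m, hm⟩ := hF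
  rw [hm] at h1
  push_cast at h1
  rw [h, zero_mul, zero_add] at h1
  exact one_ne_zero h1

theorem three_le_of_odd {F : Type*} [Field F] [Fintype F] (hF : Odd (Fintype.card F)) :
    3 ≤ Fintype.card F := by
  have h1 : 1 < Fintype.card F := Fintype.one_lt_card
  obtain ⟨m, hm⟩ := hF
  omega

end Key

section Main

/-- Let G be a finite group with subgroups L₁ ≅ SL₂(q₁) and L₂ ≅ SL₂(q₂), q₁ and q₂ odd prime powers, which commute elementwise and meet in ⟨j⟩ for an involution j, and suppose L₁L₂ has index 2 in C_G(j). Then every element n of C_G(j) outside L₁L₂ either normalizes both L₁ and L₂, or conjugates L₁ onto L₂; in the second case q₁ = q₂ and there is an element n′ of C_G(j) outside L₁L₂ conjugating L₁ onto L₂ with n′² ∈ ⟨j⟩. -/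
theorem result {G : Type*} [Group G] [Finite G]
    {F₁ : Type*} [Field F₁] [Fintype F₁] {F₂ : Type*} [Field F₂] [Fintype F₂]
    (hF₁ : Odd (Fintype.card F₁)) (hF₂ : Odd (Fintype.card F₂)) (L₁ L₂ : Subgroup G)
    (e₁ : ↥L₁ ≃* Matrix.SpecialLinearGroup (Fin 2) F₁) (e₂ : ↥L₂ ≃* Matrix.SpecialLinearGroup (Fin 2) F₂)
    (hc : ∀ x ∈ L₁, ∀ y ∈ L₂, x * y = y * x) (j : G) (hj : orderOf j = 2) (hm : L₁ ⊓ L₂ = Subgroup.zpowers j)
    (hle : L₁ ⊔ L₂ ≤ Subgroup.centralizer ({j} : Set G)) (hi : (L₁ ⊔ L₂).relIndex (Subgroup.centralizer ({j} : Set G)) = 2) (n : G) (hn : n ∈ Subgroup.centralizer ({j} : Set G)) (hn' : n ∉ L₁ ⊔ L₂) :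
    (L₁.map (MulAut.conj n).toMonoidHom = L₁ ∧ L₂.map (MulAut.conj n).toMonoidHom = L₂) ∨
      (L₁.map (MulAut.conj n).toMonoidHom = L₂ ∧ Fintype.card F₁ = Fintype.card F₂ ∧
        ∃ n' ∈ Subgroup.centralizer ({j} : Set G), n' ∉ L₁ ⊔ L₂ ∧ L₁.map (MulAut.conj n').toMonoidHom = L₂ ∧ n' ^ 2 ∈ Subgroup.zpowers j) := by
  classical
  have h2F₁ : (2 : F₁) ≠ 0 := two_ne_zero_of_odd hF₁
  have h2F₂ : (2 : F₂) ≠ 0 := two_ne_zero_of_odd hF₂
  have hq₁3 := three_le_of_odd hF₁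
  have hq₂3 := three_le_of_odd hF₂
  have hjmem : j ∈ L₁ ⊓ L₂ := by rw [hm]; exact Subgroup.mem_zpowers j
  have hj1 : j ≠ 1 := by
    rintro rfl
    rw [orderOf_one] at hj
    norm_num at hj
  have hL₁C : L₁ ≤ Subgroup.centralizer ({j} : Set G) := le_sup_left.trans hle
  have hL₂C : L₂ ≤ Subgroup.centralizer ({j} : Set G) := le_sup_right.trans hle
  have hjC : ∀ g ∈ Subgroup.centralizer ({j} : Set G), j * g = g * j := fun g hg =>
    Subgroup.mem_centralizer_iff.mp hg j (Set.mem_singleton j)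
  have hc' : ∀ x ∈ L₂, ∀ y ∈ L₁, x * y = y * x := fun x hx y hy => (hc y hy x hx).symm
  -- elements of `L₁ ⊔ L₂`
  have hMmem : ∀ m ∈ L₁ ⊔ L₂, ∃ a ∈ L₁, ∃ b ∈ L₂, m = a * b := by
    let P : Subgroup G :=
      { carrier := {m | ∃ a ∈ L₁, ∃ b ∈ L₂, m = a * b}
        one_mem' := ⟨1, L₁.one_mem, 1, L₂.one_mem, by simp⟩
        mul_mem' := by
          rintro _ _ ⟨a, ha, b, hb, rfl⟩ ⟨a', ha', b', hb', rfl⟩
          refine ⟨a * a', L₁.mul_mem ha ha', b * b', L₂.mul_mem hb hb', ?_⟩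
          have h0 := hc a' ha' b hb
          calc a * b * (a' * b') = a * (b * a') * b' := by group
            _ = a * (a' * b) * b' := by rw [h0]
            _ = a * a' * (b * b') := by group
        inv_mem' := by
          rintro _ ⟨a, ha, b, hb, rfl⟩
          refine ⟨a⁻¹, L₁.inv_mem ha, b⁻¹, L₂.inv_mem hb, ?_⟩
          rw [_root_.mul_inv_rev, hc a⁻¹ (L₁.inv_mem ha) b⁻¹ (L₂.inv_mem hb)] }
    have hP : L₁ ⊔ L₂ ≤ P :=
      sup_le (fun a ha => ⟨a, ha, 1, L₂.one_mem, by simp⟩)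
        (fun b hb => ⟨1, L₁.one_mem, b, hb, by simp⟩)
    exact fun m hm => hP hm
  have hMmem' : ∀ m ∈ L₁ ⊔ L₂, ∃ b ∈ L₂, ∃ a ∈ L₁, m = b * a := by
    intro m hm''
    obtain ⟨a, ha, b, hb, rfl⟩ := hMmem m hm''
    exact ⟨b, hb, a, ha, hc a ha b hb⟩
  -- `L₁ ⊔ L₂` is normal in the centralizer
  have hidx : ((L₁ ⊔ L₂).subgroupOf (Subgroup.centralizer ({j} : Set G))).index = 2 := hi
  have hMnorm := Subgroup.normal_of_index_eq_two hidx
  have hMn : ∀ g ∈ Subgroup.centralizer ({j} : Set G), ∀ m ∈ L₁ ⊔ L₂,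
      g * m * g⁻¹ ∈ L₁ ⊔ L₂ := by
    intro g hg m hm'
    have h1 := hMnorm.conj_mem ⟨m, hle hm'⟩ (by rw [Subgroup.mem_subgroupOf]; exact hm') ⟨g, hg⟩
    rw [Subgroup.mem_subgroupOf] at h1
    exact h1
  have hnn : n * n ∈ L₁ ⊔ L₂ := by
    have h1 := Subgroup.mul_self_mem_of_index_two hidx ⟨n, hn⟩
    rw [Subgroup.mem_subgroupOf] at h1
    exact h1
  have hninv : n⁻¹ ∈ Subgroup.centralizer ({j} : Set G) := Subgroup.inv_mem _ hn
  -- the conjugates `A = n L₁ n⁻¹`, `B = n L₂ n⁻¹`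
  have hAM : cj n L₁ ≤ L₁ ⊔ L₂ := by
    intro x hx
    rw [mem_cj] at hx
    have h1 := hMn n hn _ (Subgroup.mem_sup_left hx)
    have h3 : n * (n⁻¹ * x * n) * n⁻¹ = x := by group
    rwa [h3] at h1
  have hBM : cj n L₂ ≤ L₁ ⊔ L₂ := by
    intro x hx
    rw [mem_cj] at hx
    have h1 := hMn n hn _ (Subgroup.mem_sup_right hx)
    have h3 : n * (n⁻¹ * x * n) * n⁻¹ = x := by group
    rwa [h3] at h1
  have hAB : ∀ a ∈ cj n L₁, ∀ b ∈ cj n L₂, a * b = b * a := by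
    intro a ha b hb
    rw [mem_cj] at ha hb
    have h1 := hc _ ha _ hb
    have h3 : a * b = n * ((n⁻¹ * a * n) * (n⁻¹ * b * n)) * n⁻¹ := by group
    rw [h3, h1]; group
  have hMAB : ∀ m ∈ L₁ ⊔ L₂, ∃ a ∈ cj n L₁, ∃ b ∈ cj n L₂, m = a * b := by
    intro m hm'
    have h1 := hMn n⁻¹ hninv m hm'
    obtain ⟨a, ha, b, hb, hab⟩ := hMmem _ h1
    refine ⟨n * a * n⁻¹, conj_mem_cj ha, n * b * n⁻¹, conj_mem_cj hb, ?_⟩
    have h3 : n * a * n⁻¹ * (n * b * n⁻¹) = n * (a * b) * n⁻¹ := by group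
    rw [h3, ← hab]; group
  have hAnorm : ∀ m ∈ L₁ ⊔ L₂, ∀ a ∈ cj n L₁, m * a * m⁻¹ ∈ cj n L₁ := by
    intro m hm' a ha
    obtain ⟨a₁, ha₁, b₁, hb₁, rfl⟩ := hMAB m hm'
    have h1 := hAB a ha b₁ hb₁
    have h3 : a₁ * b₁ * a * (a₁ * b₁)⁻¹ = a₁ * (b₁ * a) * b₁⁻¹ * a₁⁻¹ := by group
    rw [h3, ← h1]
    have h4 : a₁ * (a * b₁) * b₁⁻¹ * a₁⁻¹ = a₁ * a * a₁⁻¹ := by group
    rw [h4]
    exact (cj n L₁).mul_mem ((cj n L₁).mul_mem ha₁ ha) ((cj n L₁).inv_mem ha₁)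
  have hBnorm : ∀ m ∈ L₁ ⊔ L₂, ∀ b ∈ cj n L₂, m * b * m⁻¹ ∈ cj n L₂ := by
    intro m hm' b hb
    obtain ⟨a₁, ha₁, b₁, hb₁, rfl⟩ := hMAB m hm'
    have hb' := (cj n L₂).mul_mem ((cj n L₂).mul_mem hb₁ hb) ((cj n L₂).inv_mem hb₁)
    have h1 := hAB a₁ ha₁ _ hb'
    have h3 : a₁ * b₁ * b * (a₁ * b₁)⁻¹ = a₁ * (b₁ * b * b₁⁻¹) * a₁⁻¹ := by group
    rw [h3, h1]
    have h4 : b₁ * b * b₁⁻¹ * a₁ * a₁⁻¹ = b₁ * b * b₁⁻¹ := by group
    rw [h4]; exact hb'
  have k1 := key h2F₁ L₁ L₂ e₁ hc j hm hj1 (fun l hl => hjC l (hL₁C hl)) (cj n L₁) (cj n L₂) hAB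
    (fun l hl => hMAB l (Subgroup.mem_sup_left hl))
    (fun a ha => hMmem a (hAM ha)) (fun b hb => hMmem b (hBM hb))
    (fun l hl => hAnorm l (Subgroup.mem_sup_left hl))
    (fun l hl => hBnorm l (Subgroup.mem_sup_left hl))
  have hm' : L₂ ⊓ L₁ = Subgroup.zpowers j := by rw [inf_comm]; exact hm
  have k2 := key h2F₂ L₂ L₁ e₂ hc' j hm' hj1 (fun l hl => hjC l (hL₂C hl)) (cj n L₁) (cj n L₂) hAB
    (fun l hl => hMAB l (Subgroup.mem_sup_right hl))
    (fun a ha => hMmem' a (hAM ha)) (fun b hb => hMmem' b (hBM hb))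
    (fun l hl => hAnorm l (Subgroup.mem_sup_right hl))
    (fun l hl => hBnorm l (Subgroup.mem_sup_right hl))
  -- cardinalities
  have hcA : Nat.card (cj n L₁) = Nat.card L₁ := card_cj n L₁
  have hcB : Nat.card (cj n L₂) = Nat.card L₂ := card_cj n L₂
  have hcard₁ : Nat.card L₁ =
      (Fintype.card F₁ - 1) * Fintype.card F₁ * (Fintype.card F₁ + 1) := by
    rw [Nat.card_congr e₁.toEquiv, card_SL2]
  have hcard₂ : Nat.card L₂ =
      (Fintype.card F₂ - 1) * Fintype.card F₂ * (Fintype.card F₂ + 1) := by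
    rw [Nat.card_congr e₂.toEquiv, card_SL2]
  have hbig₁ : 2 < Nat.card L₁ := by
    rw [hcard₁]
    have : 2 * 3 * 4 ≤ (Fintype.card F₁ - 1) * Fintype.card F₁ * (Fintype.card F₁ + 1) :=
      Nat.mul_le_mul (Nat.mul_le_mul (by omega) hq₁3) (by omega)
    omega
  have hbig₂ : 2 < Nat.card L₂ := by
    rw [hcard₂]
    have : 2 * 3 * 4 ≤ (Fintype.card F₂ - 1) * Fintype.card F₂ * (Fintype.card F₂ + 1) :=
      Nat.mul_le_mul (Nat.mul_le_mul (by omega) hq₂3) (by omega)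
    omega
  have hsmall : ∀ (L : Subgroup G), L ≤ Subgroup.zpowers j → Nat.card L ≤ 2 := by
    intro L hL
    have h1 := Subgroup.card_le_of_le hL
    rw [Nat.card_zpowers, hj] at h1
    exact h1
  rcases k1 with k1 | k1 <;> rcases k2 with k2 | k2
  · exfalso
    have h1 : cj n L₂ ≤ Subgroup.zpowers j := by rw [← hm]; exact le_inf k2 k1
    have h3 := hsmall _ h1
    rw [hcB] at h3
    omega
  · left
    exact ⟨Subgroup.eq_of_le_of_card_ge k2 (by rw [hcA]),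
      Subgroup.eq_of_le_of_card_ge k1 (by rw [hcB])⟩
  · right
    have hle12 : Nat.card L₁ ≤ Nat.card L₂ := by
      rw [← hcA]; exact Subgroup.card_le_of_le k1
    have hle21 : Nat.card L₂ ≤ Nat.card L₁ := by
      rw [← hcB]; exact Subgroup.card_le_of_le k2
    have hAeq : cj n L₁ = L₂ := Subgroup.eq_of_le_of_card_ge k1 (by rw [hcA]; exact hle21)
    have hBeq : cj n L₂ = L₁ := Subgroup.eq_of_le_of_card_ge k2 (by rw [hcB]; exact hle12)
    have hq : Fintype.card F₁ = Fintype.card F₂ := by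
      have h1 : (Fintype.card F₁ - 1) * Fintype.card F₁ * (Fintype.card F₁ + 1) =
          (Fintype.card F₂ - 1) * Fintype.card F₂ * (Fintype.card F₂ + 1) := by
        rw [← hcard₁, ← hcard₂]; exact le_antisymm hle12 hle21
      by_contra hne
      rcases Nat.lt_or_gt_of_ne hne with h | h
      · exact absurd h1 (f_lt _ _ hq₁3 h).ne
      · exact absurd h1 (f_lt _ _ hq₂3 h).ne'
    refine ⟨hAeq, hq, ?_⟩
    obtain ⟨l₁, hl₁, l₂, hl₂, hnn'⟩ := hMmem _ hnn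
    refine ⟨l₂⁻¹ * n, ?_, ?_, ?_, ?_⟩
    · exact Subgroup.mul_mem _ (Subgroup.inv_mem _ (hL₂C hl₂)) hn
    · intro h
      apply hn'
      have h1 : n = l₂ * (l₂⁻¹ * n) := by group
      rw [h1]
      exact Subgroup.mul_mem _ (Subgroup.mem_sup_right hl₂) h
    · show cj (l₂⁻¹ * n) L₁ = L₂
      rw [← cj_mul, hAeq]
      exact cj_eq_of_mem_normalizer (Subgroup.le_normalizer (Subgroup.inv_mem _ hl₂))
    · rw [← hm]
      have hp1 : n * l₁ * n⁻¹ ∈ L₂ := by rw [← hAeq]; exact conj_mem_cj hl₁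
      have hp2 : n * l₂ * n⁻¹ ∈ L₁ := by rw [← hBeq]; exact conj_mem_cj hl₂
      have hprod : (n * l₁ * n⁻¹) * (n * l₂ * n⁻¹) = l₁ * l₂ := by
        have h1 : (n * l₁ * n⁻¹) * (n * l₂ * n⁻¹) = n * (l₁ * l₂) * n⁻¹ := by group
        rw [h1, ← hnn']; group
      have hsq : (l₂⁻¹ * n) ^ 2 = (n * l₂ * n⁻¹)⁻¹ * l₁ := by
        have e1 : (l₂⁻¹ * n) ^ 2 = l₂⁻¹ * ((n * l₂ * n⁻¹)⁻¹ * (n * n)) := by
          rw [pow_two]; group
        rw [e1, hnn']
        have e2 : l₂⁻¹ * ((n * l₂ * n⁻¹)⁻¹ * l₁) = ((n * l₂ * n⁻¹)⁻¹ * l₁) * l₂⁻¹ :=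
          (hc _ (L₁.mul_mem (L₁.inv_mem hp2) hl₁) _ (L₂.inv_mem hl₂)).symm
        calc l₂⁻¹ * ((n * l₂ * n⁻¹)⁻¹ * (l₁ * l₂))
            = (l₂⁻¹ * ((n * l₂ * n⁻¹)⁻¹ * l₁)) * l₂ := by group
          _ = ((n * l₂ * n⁻¹)⁻¹ * l₁) * l₂⁻¹ * l₂ := by rw [e2]
          _ = (n * l₂ * n⁻¹)⁻¹ * l₁ := by group
      rw [hsq]
      refine ⟨L₁.mul_mem (L₁.inv_mem hp2) hl₁, ?_⟩
      have e3 : (n * l₂ * n⁻¹)⁻¹ * l₁ = l₂⁻¹ * (n * l₁ * n⁻¹) := by
        have c1 : l₁ * (n * l₁ * n⁻¹) = (n * l₁ * n⁻¹) * l₁ := hc l₁ hl₁ _ hp1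
        have e4 : n * l₂ * n⁻¹ = (n * l₁ * n⁻¹)⁻¹ * (l₁ * l₂) := by rw [← hprod]; group
        rw [e4]
        calc ((n * l₁ * n⁻¹)⁻¹ * (l₁ * l₂))⁻¹ * l₁
            = l₂⁻¹ * l₁⁻¹ * ((n * l₁ * n⁻¹) * l₁) := by group
          _ = l₂⁻¹ * l₁⁻¹ * (l₁ * (n * l₁ * n⁻¹)) := by rw [c1]
          _ = l₂⁻¹ * (n * l₁ * n⁻¹) := by group
      rw [SetLike.mem_coe, e3]
      exact L₂.mul_mem (L₂.inv_mem hl₂) hp1
  · exfalso
    have h1 : cj n L₁ ≤ Subgroup.zpowers j := by rw [← hm]; exact le_inf k2 k1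
    have h3 := hsmall _ h1
    rw [hcA] at h3
    omega

end Main

end Cfsg.Agent.S3210
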