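import Mathlib
import Cfsg.Statements.S3213

set_option autoImplicit false
open Cfsg

namespace Cfsg.Agent.S3213

open Matrix


section LinAlg
variable {F : Type*} [Field F] {V : Type*} [AddCommGroup V] [Module F V] [FiniteDimensional F V]

theorem finrank_ker_mul_le (f g : Module.End F V) :
    Module.finrank F (LinearMap.ker (f * g)) ≤
      Module.finrank F (LinearMap.ker f) + Module.finrank F (LinearMap.ker g) := by
  obtain ⟨Kfg, hK⟩ : ∃ Kfg, Kfg = LinearMap.ker (f * g) := ⟨_, rfl⟩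
  rw [← hK]
  let g' : Kfg →ₗ[F] V := g.domRestrict Kfg
  have h1 := LinearMap.finrank_range_add_finrank_ker g'
  have h2 : LinearMap.range g' ≤ LinearMap.ker f := by
    rintro _ ⟨v, rfl⟩
    rw [LinearMap.mem_ker]
    have hv : (v : V) ∈ LinearMap.ker (f * g) := hK ▸ v.2
    exact LinearMap.mem_ker.mp hv
  have h3 : Module.finrank F (LinearMap.ker g') ≤ Module.finrank F (LinearMap.ker g) := by
    let ι : LinearMap.ker g' →ₗ[F] LinearMap.ker g :=
      LinearMap.codRestrict (LinearMap.ker g)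
        ((Submodule.subtype Kfg).comp (Submodule.subtype (LinearMap.ker g')))
        (by intro v; rw [LinearMap.mem_ker]; exact LinearMap.mem_ker.mp v.2)
    apply LinearMap.finrank_le_finrank_of_injective (f := ι)
    intro a b hab
    have := congrArg Subtype.val hab
    exact Subtype.ext (Subtype.ext this)
  have h4 := Submodule.finrank_mono h2
  omega

theorem two_le_finrank_ker (N : Module.End F V) (h3 : N ^ 3 = 0)
    (hV : Module.finrank F V = 4) : 2 ≤ Module.finrank F (LinearMap.ker N) := by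
  have h1 := finrank_ker_mul_le N (N * N)
  have h2 := finrank_ker_mul_le N N
  have h0 : LinearMap.ker (N * (N * N)) = ⊤ := by
    have : N * (N * N) = N ^ 3 := by rw [pow_succ, pow_two, mul_assoc]
    rw [this, h3]; exact LinearMap.ker_zero
  rw [h0, finrank_top, hV] at h1
  omega

/-- fixed-point counting for an operator of order 5 on an invariant subspace -/
theorem card_modEq_five [Finite F] (T : Module.End F V) (hT : T ^ 5 = 1) (U : Submodule F V)
    (hU : ∀ v ∈ U, T v ∈ U) :
    Nat.card U ≡ Nat.card (U ⊓ LinearMap.ker (T - 1) : Submodule F V) [MOD 5] := by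
  classical
  have : Finite V := Module.finite_of_finite F
  let _ : Fintype U := Fintype.ofFinite _
  have hmem : ∀ v : V, v ∈ LinearMap.ker (T - 1) ↔ T v = v := by
    intro v
    rw [LinearMap.mem_ker, LinearMap.sub_apply, sub_eq_zero]; rfl
  let f : Function.End U := fun u => ⟨T u.1, hU u.1 u.2⟩
  have hpow : ∀ (n : ℕ) (u : U), ((f ^ n) u).1 = (T ^ n) u.1 := by
    intro n
    induction n with
    | zero => intro u; rw [pow_zero, pow_zero]; rfl
    | succ n ih =>
      intro u
      rw [pow_succ, pow_succ]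
      show ((f ^ n) (f u)).1 = (T ^ n) (T u.1)
      rw [ih]
  have hf : f ^ 5 ^ 1 = 1 := by
    funext u
    apply Subtype.ext
    rw [pow_one, hpow, hT]; rfl
  have : Fact (Nat.Prime 5) := ⟨by norm_num⟩
  have h1 := Equiv.Perm.card_fixedPoints_modEq (p := 5) (n := 1) hf
  have h2 : Fintype.card (Function.fixedPoints f)
      = Nat.card (U ⊓ LinearMap.ker (T - 1) : Submodule F V) := by
    rw [← Nat.card_eq_fintype_card]
    apply Nat.card_congr
    refine
      { toFun := fun u => ⟨u.1.1, ⟨u.1.2, ?_⟩⟩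
        invFun := fun v => ⟨⟨v.1, v.2.1⟩, ?_⟩
        left_inv := fun u => rfl
        right_inv := fun v => rfl }
    · have := u.2
      rw [Function.mem_fixedPoints, Function.IsFixedPt] at this
      have h3 := congrArg Subtype.val this
      exact (hmem _).mpr h3
    · rw [Function.mem_fixedPoints, Function.IsFixedPt]
      apply Subtype.ext
      exact (hmem _).mp v.2.2
  rw [h2, ← Nat.card_eq_fintype_card] at h1
  exact h1

theorem mem_fix (T : Module.End F V) (v : V) : v ∈ LinearMap.ker (T - 1) ↔ T v = v := by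
  rw [LinearMap.mem_ker, LinearMap.sub_apply, sub_eq_zero]; rfl

theorem eq_one_of_fix_top (T : Module.End F V) (h : LinearMap.ker (T - 1) = ⊤) : T = 1 := by
  apply LinearMap.ext
  intro v
  have : v ∈ LinearMap.ker (T - 1) := by rw [h]; trivial
  exact (mem_fix T v).mp this

theorem pow3_mod5 (e : ℕ) (he : e ≤ 4) (h : 3 ^ e ≡ 1 [MOD 5]) : e = 0 ∨ e = 4 := by
  interval_cases e
  · left; rfl
  · exact absurd h (by decide)
  · exact absurd h (by decide)
  · exact absurd h (by decide)
  · right; rfl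

theorem card_sub [Finite F] (hF : Nat.card F = 3) (U : Submodule F V) :
    Nat.card U = 3 ^ Module.finrank F U := by
  rw [Module.natCard_eq_pow_finrank (K := F) (V := U), hF]

theorem fix_dim_two [Finite F] (hF : Nat.card F = 3) (hV : Module.finrank F V = 4)
    {G : Type*} [Group G] (ρ : G →* Module.End F V) (hρ : Function.Injective ρ)
    (x a y z : G) (hx3 : x ^ 3 = 1) (hy5 : y ^ 5 = 1) (hy1 : y ≠ 1) (hz1 : z ≠ 1)
    (hzy : z * y = y * z) (hq : (a⁻¹ * x * a * x⁻¹) ^ 2 = z) :
    (ρ x - 1) ^ 3 = 0 ∧ Module.finrank F (LinearMap.ker (ρ x - 1)) = 2 := by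
  classical
  have happ : ∀ (g h : G) (v : V), ρ (g * h) v = ρ g (ρ h v) := by
    intro g h v
    rw [map_mul]; rfl
  have h3F : (3 : F) = 0 := by
    let _ : Fintype F := Fintype.ofFinite F
    have := Nat.cast_card_eq_zero F
    rw [← Nat.card_eq_fintype_card, hF] at this
    exact_mod_cast this
  have hN3 : (ρ x - 1) ^ 3 = 0 := by
    have h1 : (ρ x - 1) ^ 3 = ρ x ^ 3 - 1 - 3 • (ρ x ^ 2 - ρ x) := by noncomm_ring
    have h2 : (3 : ℕ) • (ρ x ^ 2 - ρ x) = 0 := by
      rw [← Nat.cast_smul_eq_nsmul F]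
      push_cast
      rw [h3F, zero_smul]
    rw [h1, ← map_pow, hx3, map_one]
    simp [h2]
  refine ⟨hN3, ?_⟩
  have hge := two_le_finrank_ker (ρ x - 1) hN3 hV
  -- the element of order 5 has no fixed vectors
  have hy5' : (ρ y) ^ 5 = 1 := by rw [← map_pow, hy5, map_one]
  have hy : LinearMap.ker (ρ y - 1) = ⊥ := by
    have h1 := card_modEq_five (ρ y) hy5' ⊤ (fun v _ => trivial)
    rw [top_inf_eq, card_sub hF, card_sub hF, finrank_top, hV] at h1
    have h2 : Module.finrank F (LinearMap.ker (ρ y - 1)) ≤ 4 := hV ▸ Submodule.finrank_le _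
    rcases pow3_mod5 _ h2 (h1.symm.trans (by decide)) with h | h
    · exact Submodule.finrank_eq_zero.mp h
    · exfalso
      have h4 := Submodule.eq_top_of_finrank_eq (h.trans hV.symm)
      apply hy1
      apply hρ
      rw [map_one]
      exact eq_one_of_fix_top _ h4
  -- the central involution has no fixed vectors
  have hz : LinearMap.ker (ρ z - 1) = ⊥ := by
    have hinv : ∀ v ∈ LinearMap.ker (ρ z - 1), ρ y v ∈ LinearMap.ker (ρ z - 1) := by
      intro v hv
      rw [mem_fix] at hv ⊢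
      rw [← happ, hzy, happ, hv]
    have h1 := card_modEq_five (ρ y) hy5' _ hinv
    rw [hy, inf_bot_eq, card_sub hF, card_sub hF] at h1
    have h0 : Module.finrank F (⊥ : Submodule F V) = 0 := finrank_bot F V
    rw [h0] at h1
    have h2 : Module.finrank F (LinearMap.ker (ρ z - 1)) ≤ 4 := hV ▸ Submodule.finrank_le _
    rcases pow3_mod5 _ h2 h1 with h | h
    · exact Submodule.finrank_eq_zero.mp h
    · exfalso
      have h4 := Submodule.eq_top_of_finrank_eq (h.trans hV.symm)
      apply hz1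
      apply hρ
      rw [map_one]
      exact eq_one_of_fix_top _ h4
  -- upper bound
  by_contra hne
  have hd3 : 3 ≤ Module.finrank F (LinearMap.ker (ρ x - 1)) := by omega
  have hle : Module.finrank F (LinearMap.ker (ρ x - 1))
      ≤ Module.finrank F (LinearMap.ker (ρ (a⁻¹ * x * a) - 1)) := by
    have hmaps : ∀ v ∈ LinearMap.ker (ρ x - 1), ρ a⁻¹ v ∈ LinearMap.ker (ρ (a⁻¹ * x * a) - 1) := by
      intro v hv
      rw [mem_fix] at hv ⊢
      rw [← happ, mul_assoc, mul_assoc, mul_inv_cancel, mul_one, happ, hv]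
    apply LinearMap.finrank_le_finrank_of_injective (f := (ρ a⁻¹).restrict hmaps)
    intro u v huv
    have h1 := congrArg Subtype.val huv
    have h2 : ρ a⁻¹ u.1 = ρ a⁻¹ v.1 := h1
    apply Subtype.ext
    have h3 := congrArg (ρ a) h2
    rw [← happ, ← happ, mul_inv_cancel, map_one] at h3
    exact h3
  have hsum := Submodule.finrank_sup_add_finrank_inf_eq (LinearMap.ker (ρ x - 1))
    (LinearMap.ker (ρ (a⁻¹ * x * a) - 1))
  have hsup : Module.finrank F ↥(LinearMap.ker (ρ x - 1) ⊔ LinearMap.ker (ρ (a⁻¹ * x * a) - 1)) ≤ 4 :=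
    hV ▸ Submodule.finrank_le _
  have hinf : LinearMap.ker (ρ x - 1) ⊓ LinearMap.ker (ρ (a⁻¹ * x * a) - 1) ≠ ⊥ := by
    intro h
    rw [h, finrank_bot] at hsum
    omega
  obtain ⟨v, hv, hv0⟩ := Submodule.exists_mem_ne_zero_of_ne_bot hinf
  obtain ⟨hv1, hv2⟩ := Submodule.mem_inf.mp hv
  rw [mem_fix] at hv1 hv2
  have hv3 : ρ x⁻¹ v = v := by
    have := congrArg (ρ x⁻¹) hv1
    rw [← happ, inv_mul_cancel, map_one] at this
    exact this.symm
  have hv4 : ρ (a⁻¹ * x * a * x⁻¹) v = v := by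
    rw [happ, hv3, hv2]
  have hv5 : ρ z v = v := by
    rw [← hq, pow_two, happ, hv4, hv4]
  have : v ∈ LinearMap.ker (ρ z - 1) := (mem_fix _ _).mpr hv5
  rw [hz] at this
  exact hv0 ((Submodule.mem_bot F).mp this)

theorem isotropic (B : V → V → F) (hadd : ∀ u v w, B (u + v) w = B u w + B v w)
    (hsmul : ∀ (c : F) u w, B (c • u) w = c * B u w)
    (hskew : ∀ u v, B u v = - B v u) (halt : ∀ u, B u u = 0)
    (T : Module.End F V) (hinv : ∀ u v, B (T u) (T v) = B u v) (hN3 : (T - 1) ^ 3 = 0)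
    (hT1 : T ≠ 1) (hd : Module.finrank F (LinearMap.ker (T - 1)) = 2) :
    ∀ v w, T v = v → T w = w → B v w = 0 := by
  intro v w hv hw
  have hB0 : ∀ t, B 0 t = 0 := by
    intro t
    have := hsmul 0 0 t
    rw [zero_smul, zero_mul] at this
    exact this
  -- a nonzero fixed vector in the image of `T - 1`
  obtain ⟨r, hr0, hrW, u, hru⟩ : ∃ r : V, r ≠ 0 ∧ T r = r ∧ ∃ u, r = T u - u := by
    have : ∃ u, T u ≠ u := by
      by_contra hcon
      push Not at hcon
      exact hT1 (LinearMap.ext hcon)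
    obtain ⟨u, hu⟩ := this
    obtain ⟨N, hN⟩ : ∃ N, N = T - 1 := ⟨_, rfl⟩
    have hNapp : ∀ t, N t = T t - t := fun t => by rw [hN]; rfl
    by_cases h2 : N (N u) = 0
    · refine ⟨N u, ?_, ?_, u, hNapp u⟩
      · rw [hNapp]; exact sub_ne_zero.mpr hu
      · have := h2
        rw [hNapp (N u), sub_eq_zero] at this
        exact this
    · refine ⟨N (N u), h2, ?_, N u, hNapp _⟩
      have h3 : N (N (N u)) = 0 := by
        have := congrArg (fun f : Module.End F V => f u) hN3
        rw [← hN] at this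
        simpa [pow_succ] using this
      rw [hNapp (N (N u)), sub_eq_zero] at h3
      exact h3
  have hr : ∀ t, T t = t → B r t = 0 := by
    intro t ht
    rw [hru]
    have h1 : B (T u - u) t = B (T u) t - B u t := by
      have := hadd (T u - u) u t
      rw [sub_add_cancel] at this
      rw [this]; ring
    rw [h1]
    have h2 := hinv u t
    rw [ht] at h2
    rw [h2, sub_self]
  have hvW : v ∈ LinearMap.ker (T - 1) := (mem_fix T v).mpr hv
  have hwW : w ∈ LinearMap.ker (T - 1) := (mem_fix T w).mpr hw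
  have hrW' : r ∈ LinearMap.ker (T - 1) := (mem_fix T r).mpr hrW
  let fam : Fin 3 → LinearMap.ker (T - 1) := ![⟨v, hvW⟩, ⟨w, hwW⟩, ⟨r, hrW'⟩]
  have hdep : ¬ LinearIndependent F fam := by
    intro hli
    have := hli.fintype_card_le_finrank
    rw [Fintype.card_fin, hd] at this
    omega
  rw [Fintype.not_linearIndependent_iff] at hdep
  obtain ⟨g, hg, i, hi⟩ := hdep
  rw [Fin.sum_univ_three] at hg
  have hg' : g 0 • v + g 1 • w + g 2 • r = 0 := by
    have := congrArg Subtype.val hg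
    simpa [fam] using this
  by_contra hB
  have e1 : g 0 * B v w = 0 := by
    have := congrArg (fun t => B t w) hg'
    simp only [hadd, hsmul, halt, hr w hw, hB0, mul_zero, add_zero] at this
    exact this
  have e2 : g 1 * B w v = 0 := by
    have := congrArg (fun t => B t v) hg'
    simp only [hadd, hsmul, halt, hr v hv, hB0, mul_zero, add_zero, zero_add] at this
    exact this
  have hBwv : B w v ≠ 0 := by
    rw [hskew w v]; exact neg_ne_zero.mpr hB
  have g0 : g 0 = 0 := by
    rcases mul_eq_zero.mp e1 with h | h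
    · exact h
    · exact absurd h hB
  have g1 : g 1 = 0 := by
    rcases mul_eq_zero.mp e2 with h | h
    · exact h
    · exact absurd h hBwv
  have g2 : g 2 = 0 := by
    rw [g0, g1, zero_smul, zero_smul, zero_add, zero_add] at hg'
    rcases smul_eq_zero.mp hg' with h | h
    · exact h
    · exact absurd h hr0
  fin_cases i
  · exact hi g0
  · exact hi g1
  · exact hi g2

end LinAlg


set_option maxRecDepth 100000 in
theorem z5_key : ∀ p q r s : ZMod 5, p * s - q * r = 1 →
    (p*p+q*r)*p + (p*q+q*s)*r = 1 → (p*p+q*r)*q + (p*q+q*s)*s = 0 →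
    (r*p+s*r)*p + (r*q+s*s)*r = 0 → (r*p+s*r)*q + (r*q+s*s)*s = 1 →
    ¬ (p = 1 ∧ q = 0 ∧ r = 0 ∧ s = 1) →
    (p*p + q*q + r*r + s*s = 0 ∨
     p*p + q*q + r*r + s*s + p*q - q*s - p*r - q*r + r*s = 0 ∨
     -4*p*p + 4*q*q + 4*r*r - 4*s*s - 2*p*q + 2*q*s - 2*p*r - q*r + 2*r*s = 0) := by
  decide

section SL2
variable {K : Type*} [Field K]

/-- the central involution of `SL₂` -/
def zK : SpecialLinearGroup (Fin 2) K := ⟨!![-1, 0; 0, -1], by simp [det_fin_two_of]⟩

/-- a unipotent element -/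
def yK : SpecialLinearGroup (Fin 2) K := ⟨!![1, 1; 0, 1], by simp [det_fin_two_of]⟩

theorem sq_of_trace_zero (m : SpecialLinearGroup (Fin 2) K) (h : m.1 0 0 + m.1 1 1 = 0) :
    m ^ 2 = zK := by
  have hdet := m.2
  rw [det_fin_two] at hdet
  apply Subtype.ext
  rw [pow_two]
  ext i j
  fin_cases i <;> fin_cases j
  · simp [zK, Matrix.mul_apply, Fin.sum_univ_two]
    linear_combination (m.1 0 0) * h - hdet
  · simp [zK, Matrix.mul_apply, Fin.sum_univ_two]
    linear_combination (m.1 0 1) * h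
  · simp [zK, Matrix.mul_apply, Fin.sum_univ_two]
    linear_combination (m.1 1 0) * h
  · simp [zK, Matrix.mul_apply, Fin.sum_univ_two]
    linear_combination (m.1 1 1) * h - hdet

theorem zK_coe : ((zK : SpecialLinearGroup (Fin 2) K) : Matrix (Fin 2) (Fin 2) K)
    = !![-1, 0; 0, -1] := rfl

theorem yK_coe : ((yK : SpecialLinearGroup (Fin 2) K) : Matrix (Fin 2) (Fin 2) K)
    = !![1, 1; 0, 1] := rfl

theorem zK_comm (m : SpecialLinearGroup (Fin 2) K) : zK * m = m * zK := by
  apply Subtype.ext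
  show (zK : SpecialLinearGroup (Fin 2) K).1 * m.1 = m.1 * (zK : SpecialLinearGroup (Fin 2) K).1
  rw [zK_coe]
  ext i j
  fin_cases i <;> fin_cases j <;> simp [Matrix.mul_apply, Fin.sum_univ_two]

theorem zK_ne_one (h2 : (2 : K) ≠ 0) : (zK : SpecialLinearGroup (Fin 2) K) ≠ 1 := by
  intro h
  have := congrArg (fun m : SpecialLinearGroup (Fin 2) K => m.1 0 0) h
  simp [zK] at this
  apply h2
  linear_combination -this

theorem yK_ne_one : (yK : SpecialLinearGroup (Fin 2) K) ≠ 1 := by
  intro h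
  have := congrArg (fun m : SpecialLinearGroup (Fin 2) K => m.1 0 1) h
  simp [yK] at this

theorem yK_pow_five (h5 : (5 : K) = 0) : (yK : SpecialLinearGroup (Fin 2) K) ^ 5 = 1 := by
  have h : (!![1, 1; 0, 1] : Matrix (Fin 2) (Fin 2) K) ^ 5 = !![1, 5; 0, 1] := by
    simp only [pow_succ, pow_zero, Matrix.one_fin_two, Matrix.mul_fin_two]
    norm_num
  apply Subtype.ext
  show (yK : SpecialLinearGroup (Fin 2) K).1 ^ 5 = 1
  rw [yK_coe, h, h5, Matrix.one_fin_two]

/-- conjugating elements -/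
def a1 : SpecialLinearGroup (Fin 2) K := ⟨!![0, 1; -1, 0], by simp [det_fin_two_of]⟩

def a2 : SpecialLinearGroup (Fin 2) K := ⟨!![0, 1; -1, 1], by simp [det_fin_two_of]⟩

def a3 (h5 : (5 : K) = 0) : SpecialLinearGroup (Fin 2) K :=
  ⟨!![0, 2; 2, 1], by rw [det_fin_two_of]; linear_combination (-1 : K) * h5⟩

theorem comm_coe (a x : SpecialLinearGroup (Fin 2) K) (a₁ a₂ a₃ a₄ p q r s : K)
    (ha : a.1 = !![a₁, a₂; a₃, a₄]) (hx : x.1 = !![p, q; r, s]) :
    (a⁻¹ * x * a * x⁻¹).1 = !![a₄, -a₂; -a₃, a₁] * !![p, q; r, s] * !![a₁, a₂; a₃, a₄] *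
      !![s, -q; -r, p] := by
  show adjugate a.1 * x.1 * a.1 * adjugate x.1 = _
  rw [ha, hx, Matrix.adjugate_fin_two_of, Matrix.adjugate_fin_two_of]

theorem tr_a1 (x : SpecialLinearGroup (Fin 2) K) (p q r s : K) (hx : x.1 = !![p, q; r, s]) :
    (a1⁻¹ * x * a1 * x⁻¹).1 0 0 + (a1⁻¹ * x * a1 * x⁻¹).1 1 1 =
      p * p + q * q + r * r + s * s := by
  rw [comm_coe a1 x 0 1 (-1) 0 p q r s rfl hx]
  simp only [Matrix.mul_fin_two]
  simp
  ring

theorem tr_a2 (x : SpecialLinearGroup (Fin 2) K) (p q r s : K) (hx : x.1 = !![p, q; r, s]) :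
    (a2⁻¹ * x * a2 * x⁻¹).1 0 0 + (a2⁻¹ * x * a2 * x⁻¹).1 1 1 =
      p * p + q * q + r * r + s * s + p * q - q * s - p * r - q * r + r * s := by
  rw [comm_coe a2 x 0 1 (-1) 1 p q r s rfl hx]
  simp only [Matrix.mul_fin_two]
  simp
  ring

theorem tr_a3 (h5 : (5 : K) = 0) (x : SpecialLinearGroup (Fin 2) K) (p q r s : K)
    (hx : x.1 = !![p, q; r, s]) :
    ((a3 h5)⁻¹ * x * a3 h5 * x⁻¹).1 0 0 + ((a3 h5)⁻¹ * x * a3 h5 * x⁻¹).1 1 1 =
      -4 * p * p + 4 * q * q + 4 * r * r - 4 * s * s - 2 * p * q + 2 * q * s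
        - 2 * p * r - q * r + 2 * r * s := by
  rw [comm_coe (a3 h5) x 0 2 2 1 p q r s rfl hx]
  simp only [Matrix.mul_fin_two]
  simp
  ring

theorem exists_conj [Fintype K] (hK : Fintype.card K = 5) (x : SpecialLinearGroup (Fin 2) K)
    (hx3 : x ^ 3 = 1) (hx1 : x ≠ 1) :
    ∃ a : SpecialLinearGroup (Fin 2) K, (a⁻¹ * x * a * x⁻¹) ^ 2 = zK := by
  have h5 : (5 : K) = 0 := by
    have := Nat.cast_card_eq_zero K
    rw [hK] at this
    exact_mod_cast this
  let e := ZMod.ringEquivOfPrime K (by norm_num : Nat.Prime 5) hK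
  obtain ⟨p, hp⟩ : ∃ p, p = x.1 0 0 := ⟨_, rfl⟩
  obtain ⟨q, hq⟩ : ∃ q, q = x.1 0 1 := ⟨_, rfl⟩
  obtain ⟨r, hr⟩ : ∃ r, r = x.1 1 0 := ⟨_, rfl⟩
  obtain ⟨s, hs⟩ : ∃ s, s = x.1 1 1 := ⟨_, rfl⟩
  have hxm : x.1 = !![p, q; r, s] := by
    rw [hp, hq, hr, hs]; exact Matrix.eta_fin_two x.1
  have t1 := tr_a1 x p q r s hxm
  have t2 := tr_a2 x p q r s hxm
  have t3 := tr_a3 h5 x p q r s hxm
  have hdet : p * s - q * r = 1 := by
    have := x.2
    rw [det_fin_two] at this
    rw [hp, hq, hr, hs]; exact this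
  have hcube : x.1 * x.1 * x.1 = 1 := by
    have := congrArg Subtype.val hx3
    rw [pow_succ, pow_two] at this
    exact this
  have c00 : (p*p+q*r)*p + (p*q+q*s)*r = 1 := by
    have := congrFun (congrFun hcube 0) 0
    simp [Matrix.mul_apply, Fin.sum_univ_two] at this
    rw [hp, hq, hr, hs]; linear_combination this
  have c01 : (p*p+q*r)*q + (p*q+q*s)*s = 0 := by
    have := congrFun (congrFun hcube 0) 1
    simp [Matrix.mul_apply, Fin.sum_univ_two] at this
    rw [hp, hq, hr, hs]; linear_combination this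
  have c10 : (r*p+s*r)*p + (r*q+s*s)*r = 0 := by
    have := congrFun (congrFun hcube 1) 0
    simp [Matrix.mul_apply, Fin.sum_univ_two] at this
    rw [hp, hq, hr, hs]; linear_combination this
  have c11 : (r*p+s*r)*q + (r*q+s*s)*s = 1 := by
    have := congrFun (congrFun hcube 1) 1
    simp [Matrix.mul_apply, Fin.sum_univ_two] at this
    rw [hp, hq, hr, hs]; linear_combination this
  have key := z5_key (e.symm p) (e.symm q) (e.symm r) (e.symm s)
    (by rw [← map_mul, ← map_mul, ← map_sub, hdet, map_one])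
    (by simp only [← map_mul, ← map_add]; rw [c00, map_one])
    (by simp only [← map_mul, ← map_add]; rw [c01, map_zero])
    (by simp only [← map_mul, ← map_add]; rw [c10, map_zero])
    (by simp only [← map_mul, ← map_add]; rw [c11, map_one])
    (by
      rintro ⟨h1, h2, h3, h4⟩
      have h1' : p = 1 := by simpa using congrArg e h1
      have h2' : q = 0 := by simpa using congrArg e h2
      have h3' : r = 0 := by simpa using congrArg e h3
      have h4' : s = 1 := by simpa using congrArg e h4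
      apply hx1
      apply Subtype.ext
      show x.1 = 1
      ext i j
      fin_cases i <;> fin_cases j
      · exact hp.symm.trans h1'
      · exact hq.symm.trans h2'
      · exact hr.symm.trans h3'
      · exact hs.symm.trans h4')
  rcases key with h | h | h
  · have h' : p*p + q*q + r*r + s*s = 0 := by
      have := congrArg e h
      simpa [map_add, map_mul] using this
    exact ⟨a1, sq_of_trace_zero _ (by rw [t1]; exact h')⟩
  · have h' : p*p + q*q + r*r + s*s + p*q - q*s - p*r - q*r + r*s = 0 := by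
      have := congrArg e h
      simpa [map_add, map_mul, map_sub] using this
    exact ⟨a2, sq_of_trace_zero _ (by rw [t2]; exact h')⟩
  · have h' : -4*p*p + 4*q*q + 4*r*r - 4*s*s - 2*p*q + 2*q*s - 2*p*r - q*r + 2*r*s = 0 := by
      have := congrArg e h
      simpa [map_add, map_mul, map_sub, map_neg, map_ofNat] using this
    exact ⟨a3 h5, sq_of_trace_zero _ (by rw [t3]; exact h')⟩

end SL2

section Main

/-- Let F be the field with 3 elements and K the field with 5 elements. For every injective homomorphism φ from SL₂(K) into the symplectic group Sp₄(F) (4 × 4 matrices g with g J gᵀ = J for the standard alternating matrix J) and every element x of order 3 of SL₂(K), the vectors of F⁴ fixed by φ(x) form a 2-dimensional subspace that is totally isotropic for the alternating form defined by J. -/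
theorem result {F : Type*} [Field F] [Fintype F] (hF : Fintype.card F = 3)
    {K : Type*} [Field K] [Fintype K] (hK : Fintype.card K = 5)
    (φ : Matrix.SpecialLinearGroup (Fin 2) K →* ↥(Matrix.symplecticGroup (Fin 2) F)) (hφ : Function.Injective φ)
    (x : Matrix.SpecialLinearGroup (Fin 2) K) (hx : orderOf x = 3) :
    Module.finrank F ↥(LinearMap.ker (Matrix.toLin' ((φ x : Matrix (Fin 2 ⊕ Fin 2) (Fin 2 ⊕ Fin 2) F)) - LinearMap.id)) = 2 ∧
      ∀ v w : Fin 2 ⊕ Fin 2 → F, (φ x : Matrix (Fin 2 ⊕ Fin 2) (Fin 2 ⊕ Fin 2) F).mulVec v = v →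
        (φ x : Matrix (Fin 2 ⊕ Fin 2) (Fin 2 ⊕ Fin 2) F).mulVec w = w →
          dotProduct v ((Matrix.J (Fin 2) F).mulVec w) = 0 := by
  classical
  have h5 : (5 : K) = 0 := by
    have := Nat.cast_card_eq_zero K
    rw [hK] at this
    exact_mod_cast this
  have h2K : (2 : K) ≠ 0 := by
    intro h2
    have : (1 : K) = 0 := by linear_combination h5 - 2 * h2
    exact one_ne_zero this
  have h3F : (3 : F) = 0 := by
    have := Nat.cast_card_eq_zero F
    rw [hF] at this
    exact_mod_cast this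
  have h2F : (2 : F) ≠ 0 := by
    intro h2
    have : (1 : F) = 0 := by linear_combination h3F - h2
    exact one_ne_zero this
  have hx3 : x ^ 3 = 1 := hx ▸ pow_orderOf_eq_one x
  have hx1 : x ≠ 1 := by
    intro h
    rw [h, orderOf_one] at hx
    norm_num at hx
  obtain ⟨a, ha⟩ := exists_conj hK x hx3 hx1
  let ρ : SpecialLinearGroup (Fin 2) K →* Module.End F (Fin 2 ⊕ Fin 2 → F) :=
    { toFun := fun g => Matrix.toLin' (φ g : Matrix (Fin 2 ⊕ Fin 2) (Fin 2 ⊕ Fin 2) F)
      map_one' := by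
        rw [map_one, Submonoid.coe_one, Matrix.toLin'_one]; rfl
      map_mul' := fun g h => by
        rw [map_mul, Submonoid.coe_mul, Matrix.toLin'_mul]; rfl }
  have hρ : Function.Injective ρ := by
    intro g h hgh
    apply hφ
    apply Subtype.ext
    exact Matrix.toLin'.injective hgh
  have hV : Module.finrank F (Fin 2 ⊕ Fin 2 → F) = 4 := by
    rw [Module.finrank_fintype_fun_eq_card]; simp
  have hFc : Nat.card F = 3 := Nat.card_eq_fintype_card.trans hF
  obtain ⟨hN3, hfin⟩ := fix_dim_two hFc hV ρ hρ x a yK zK hx3 (yK_pow_five h5) yK_ne_one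
    (zK_ne_one h2K) (zK_comm yK) ha
  refine ⟨hfin, ?_⟩
  have hsymp : (φ x : Matrix (Fin 2 ⊕ Fin 2) (Fin 2 ⊕ Fin 2) F)ᵀ * J (Fin 2) F
      * (φ x : Matrix (Fin 2 ⊕ Fin 2) (Fin 2 ⊕ Fin 2) F) = J (Fin 2) F :=
    SymplecticGroup.mem_iff'.mp (φ x).2
  have hskew : ∀ u v : Fin 2 ⊕ Fin 2 → F,
      u ⬝ᵥ (J (Fin 2) F *ᵥ v) = - (v ⬝ᵥ (J (Fin 2) F *ᵥ u)) := by
    intro u v
    rw [dotProduct_comm u, ← Matrix.vecMul_transpose, Matrix.J_transpose, Matrix.vecMul_neg,
      neg_dotProduct, Matrix.dotProduct_mulVec]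
  have halt : ∀ u : Fin 2 ⊕ Fin 2 → F, u ⬝ᵥ (J (Fin 2) F *ᵥ u) = 0 := by
    intro u
    have h := hskew u u
    have h' : (2 : F) * (u ⬝ᵥ (J (Fin 2) F *ᵥ u)) = 0 := by linear_combination h
    rcases mul_eq_zero.mp h' with h'' | h''
    · exact absurd h'' h2F
    · exact h''
  have happly : ∀ u : Fin 2 ⊕ Fin 2 → F,
      ρ x u = (φ x : Matrix (Fin 2 ⊕ Fin 2) (Fin 2 ⊕ Fin 2) F) *ᵥ u := fun u => rfl
  have hiso := isotropic (fun u v : Fin 2 ⊕ Fin 2 → F => u ⬝ᵥ (J (Fin 2) F *ᵥ v))
    (fun u v w => add_dotProduct u v _)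
    (fun c u w => by simp [smul_dotProduct])
    hskew halt (ρ x)
    (fun u v => by
      show (ρ x u) ⬝ᵥ (J (Fin 2) F *ᵥ (ρ x v)) = u ⬝ᵥ (J (Fin 2) F *ᵥ v)
      rw [happly, happly, ← Matrix.vecMul_transpose, ← Matrix.dotProduct_mulVec,
        Matrix.mulVec_mulVec, Matrix.mulVec_mulVec, hsymp])
    hN3
    (by
      intro h
      apply hx1
      apply hρ
      rw [h, map_one])
    hfin
  intro v w hv hw
  exact hiso v w hv hw

end Main

end Cfsg.Agent.S3213
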