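import Cfsg.Statements.S3246
import Cfsg.Agent.Lib.Helper30.CharTwoSylow
import Cfsg.Agent.Lib.Helper66.PAct

set_option autoImplicit false
open Cfsg
open Cfsg.Agent.Lib.Helper30

namespace Cfsg.Agent.S3246

/-- Every 2-local subgroup lies in a maximal 2-local subgroup. -/
theorem exists_maximal_local {G : Type*} [Group G] [Finite G] {N : Subgroup G}
    (hN : IsTwoLocal N) : ∃ M : Subgroup G, IsMaximalTwoLocal M ∧ N ≤ M := by
  have hne : {M : Subgroup G | IsTwoLocal M ∧ N ≤ M}.Nonempty := ⟨N, hN, le_rfl⟩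
  obtain ⟨M, hM, hmax⟩ := (wellFounded_gt (α := Subgroup G)).has_min _ hne
  refine ⟨M, ⟨hM.1, ?_⟩, hM.2⟩
  intro N' hN' hle
  by_contra hne'
  exact hmax N' ⟨hN', hM.2.trans hle⟩ (lt_of_le_of_ne hle (fun h => hne' h.symm))

/-- Under either hypothesis, every involution centralizer lies in a subgroup `H` with
`C_H(O_2(H)) ≤ O_2(H)`. -/
theorem exists_charTwo_over {G : Type*} [Group G] [Finite G]
    (h : (∀ M : Subgroup G, Cfsg.IsMaximalTwoLocal M → Cfsg.IsPConstrained 2 ↥M ∧ Cfsg.oddCore ↥M = ⊥) ∨
      (∀ t : G, orderOf t = 2 → Cfsg.IsPConstrained 2 ↥(Subgroup.centralizer ({t} : Set G)) ∧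
        Cfsg.oddCore ↥(Subgroup.centralizer ({t} : Set G)) = ⊥))
    (t : G) (ht : orderOf t = 2) :
    ∃ H : Subgroup G, Subgroup.centralizer ({t} : Set G) ≤ H ∧
      Subgroup.centralizer (pCore 2 ↥H : Set ↥H) ≤ pCore 2 ↥H := by
  have : Fact (Nat.Prime 2) := ⟨Nat.prime_two⟩
  rcases h with h | h
  · have hloc : IsTwoLocal (Subgroup.normalizer ((Subgroup.zpowers t : Subgroup G) : Set G)) := by
      refine ⟨Subgroup.zpowers t, ?_, ?_, rfl⟩
      · apply IsPGroup.of_card (n := 1)
        rw [Nat.card_zpowers, ht, pow_one]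
      · intro hbot
        have : t = 1 := by
          have := Subgroup.mem_zpowers t
          rw [hbot, Subgroup.mem_bot] at this
          exact this
        rw [this, orderOf_one] at ht
        omega
    obtain ⟨M, hM, hle⟩ := exists_maximal_local hloc
    refine ⟨M, ?_, centralizer_pCore_le_of_isPConstrained 2 (h M hM).1 (h M hM).2⟩
    refine le_trans ?_ hle
    intro c hc
    rw [Subgroup.mem_normalizer_iff]
    have hct : c * t = t * c := (Subgroup.mem_centralizer_iff.mp hc t rfl).symm
    have hconj : ∀ k : ℤ, c * t ^ k * c⁻¹ = t ^ k := by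
      intro k
      have : Commute c (t ^ k) := (show Commute c t from hct).zpow_right k
      rw [this.eq, mul_inv_cancel_right]
    intro x
    constructor
    · intro hx
      obtain ⟨k, rfl⟩ := Subgroup.mem_zpowers_iff.mp hx
      rw [hconj k]
      exact Subgroup.zpow_mem_zpowers t k
    · intro hx
      obtain ⟨k, hk⟩ := Subgroup.mem_zpowers_iff.mp hx
      have : x = t ^ k := by
        have h1 : c * x * c⁻¹ = c * t ^ k * c⁻¹ := by rw [hconj k]; exact hk.symm
        have h2 : c * x = c * t ^ k := mul_right_cancel h1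
        exact mul_left_cancel h2
      rw [this]
      exact Subgroup.zpow_mem_zpowers t k
  · exact ⟨_, le_rfl, centralizer_pCore_le_of_isPConstrained 2 (h t ht).1 (h t ht).2⟩

/-- A Sylow `2`-subgroup with an `SCN`-subgroup of rank at least `3` contains a central involution `z`
and an involution `e ≠ z` whose centralizer has index at most `2`. -/
theorem exists_involutions {G : Type*} [Group G] [Finite G]
    (S : Sylow 2 G) (A : Subgroup G) (hA : Cfsg.IsSCN (S : Subgroup G) A)
    (hA3 : ¬ Cfsg.PRankLE 2 2 ↥A) :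
    ∃ z e : G, z ∈ (S : Subgroup G) ∧ e ∈ (S : Subgroup G) ∧ z * z = 1 ∧ e * e = 1 ∧ z ≠ 1 ∧ e ≠ 1 ∧
      e ≠ z ∧ (∀ s ∈ (S : Subgroup G), s * z = z * s) ∧
      Nat.card (S : Subgroup G) ≤
        2 * Nat.card ↥((S : Subgroup G) ⊓ Subgroup.centralizer ({e} : Set G)) := by
  have : Fact (Nat.Prime 2) := ⟨Nat.prime_two⟩
  obtain ⟨hAS, hSA, hCA⟩ := hA
  -- `A` is abelian
  have hab : ∀ a ∈ A, ∀ b ∈ A, a * b = b * a := by
    intro a ha b hb
    have h1 : a ∈ (S : Subgroup G) ⊓ Subgroup.centralizer (A : Set G) := by rw [hCA]; exact ha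
    exact (Subgroup.mem_centralizer_iff.mp h1.2 b hb).symm
  -- `Ω₁(A)`
  let Ω : Subgroup G :=
    { carrier := {a | a ∈ A ∧ a * a = 1}
      mul_mem' := by
        rintro a b ⟨ha, ha2⟩ ⟨hb, hb2⟩
        refine ⟨A.mul_mem ha hb, ?_⟩
        calc a * b * (a * b) = a * (b * a) * b := by group
          _ = a * (a * b) * b := by rw [hab b hb a ha]
          _ = (a * a) * (b * b) := by group
          _ = 1 := by rw [ha2, hb2, one_mul]
      one_mem' := ⟨A.one_mem, one_mul 1⟩
      inv_mem' := by
        rintro a ⟨ha, ha2⟩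
        refine ⟨A.inv_mem ha, ?_⟩
        calc a⁻¹ * a⁻¹ = (a * a)⁻¹ := by group
          _ = 1 := by rw [ha2, inv_one] }
  have hΩmem : ∀ a, a ∈ Ω ↔ a ∈ A ∧ a * a = 1 := fun a => Iff.rfl
  have hΩS : Ω ≤ (S : Subgroup G) := fun a ha => hAS ha.1
  -- `Ω` has more than four elements
  have hΩcard : 4 < Nat.card Ω := by
    unfold Cfsg.PRankLE at hA3
    push Not at hA3
    obtain ⟨B, hBc, hB2, hBcard⟩ := hA3
    have hle : B.map A.subtype ≤ Ω := by
      rintro _ ⟨b, hb, rfl⟩
      refine ⟨b.2, ?_⟩
      have := hB2 b hb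
      rw [pow_two] at this
      exact congrArg Subtype.val this
    have := Subgroup.card_le_of_le hle
    rw [card_map_subtype] at this
    omega
  -- `S` normalizes `Ω`
  have hconjΩ : ∀ s ∈ (S : Subgroup G), ∀ a ∈ Ω, s * a * s⁻¹ ∈ Ω := by
    intro s hs a ha
    refine ⟨(Subgroup.mem_normalizer_iff.mp (hSA hs) a).mp ha.1, ?_⟩
    calc s * a * s⁻¹ * (s * a * s⁻¹) = s * (a * a) * s⁻¹ := by group
      _ = 1 := by rw [ha.2]; group
  have hSΩ : (S : Subgroup G) ≤ Subgroup.normalizer (Ω : Set G) := by
    intro s hs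
    rw [Subgroup.mem_normalizer_iff]
    intro a
    constructor
    · exact hconjΩ s hs a
    · intro ha
      have := hconjΩ s⁻¹ (Subgroup.inv_mem _ hs) _ ha
      have e : s⁻¹ * (s * a * s⁻¹) * s⁻¹⁻¹ = a := by group
      rwa [e] at this
  have hS2 : IsPGroup 2 ↥(S : Subgroup G) := S.isPGroup'
  haveI hNn : (Ω.subgroupOf (S : Subgroup G)).Normal :=
    Subgroup.normal_subgroupOf_of_le_normalizer hSΩ
  have hNcard : Nat.card ↥(Ω.subgroupOf (S : Subgroup G)) = Nat.card Ω :=
    Nat.card_congr (Subgroup.subgroupOfEquivOfLe hΩS).toEquiv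
  have hNne : Ω.subgroupOf (S : Subgroup G) ≠ ⊥ := by
    intro hbot
    rw [hbot, Subgroup.card_bot] at hNcard
    omega
  -- the central involution `z`
  have h1 := Cfsg.Agent.Lib.Helper66.normal_inf_center_ne_bot hS2 hNne
  obtain ⟨z', hz'1⟩ := (Subgroup.ne_bot_iff_exists_ne_one).mp h1
  have hz'mem : (z' : ↥(S : Subgroup G)) ∈ Ω.subgroupOf (S : Subgroup G) ⊓
      Subgroup.center ↥(S : Subgroup G) := z'.2
  have hz'Ω : ((z' : ↥(S : Subgroup G)) : G) ∈ Ω := Subgroup.mem_subgroupOf.mp hz'mem.1
  have hz'c : ∀ s : ↥(S : Subgroup G), s * (z' : ↥(S : Subgroup G)) = (z' : ↥(S : Subgroup G)) * s :=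
    fun s => (Subgroup.mem_center_iff.mp hz'mem.2 s)
  have hz'ne : (z' : ↥(S : Subgroup G)) ≠ 1 := fun h => hz'1 (Subtype.ext h)
  have hz'2 : (z' : ↥(S : Subgroup G)) * (z' : ↥(S : Subgroup G)) = 1 := Subtype.ext hz'Ω.2
  -- the quotient by `⟨z⟩`
  haveI hZn : (Subgroup.zpowers (z' : ↥(S : Subgroup G))).Normal := by
    constructor
    intro n hn g
    obtain ⟨k, rfl⟩ := Subgroup.mem_zpowers_iff.mp hn
    have hc : Commute g ((z' : ↥(S : Subgroup G)) ^ k) :=
      (show Commute g (z' : ↥(S : Subgroup G)) from hz'c g).zpow_right k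
    rw [hc.eq, mul_inv_cancel_right]
    exact Subgroup.zpow_mem_zpowers _ k
  have hZcard : Nat.card ↥(Subgroup.zpowers (z' : ↥(S : Subgroup G))) = 2 := by
    rw [Nat.card_zpowers]
    exact orderOf_eq_prime (by rw [pow_two]; exact hz'2) hz'ne
  have hZmem : ∀ x : ↥(S : Subgroup G), x ∈ Subgroup.zpowers (z' : ↥(S : Subgroup G)) →
      x = 1 ∨ x = (z' : ↥(S : Subgroup G)) := by
    intro x hx
    obtain ⟨k, rfl⟩ := Subgroup.mem_zpowers_iff.mp hx
    have ho : orderOf (z' : ↥(S : Subgroup G)) = 2 :=
      orderOf_eq_prime (by rw [pow_two]; exact hz'2) hz'ne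
    have hk := zpow_mod_orderOf (z' : ↥(S : Subgroup G)) k
    rw [ho] at hk
    rcases Int.emod_two_eq_zero_or_one k with h0 | h0
    · left
      rw [← hk, show k % ((2 : ℕ) : ℤ) = 0 from h0, zpow_zero]
    · right
      rw [← hk, show k % ((2 : ℕ) : ℤ) = 1 from h0, zpow_one]
  have hQ2 : IsPGroup 2 (↥(S : Subgroup G) ⧸ Subgroup.zpowers (z' : ↥(S : Subgroup G))) :=
    hS2.to_quotient _
  haveI hNbar : ((Ω.subgroupOf (S : Subgroup G)).map
      (QuotientGroup.mk' (Subgroup.zpowers (z' : ↥(S : Subgroup G))))).Normal :=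
    Subgroup.Normal.map hNn _ (QuotientGroup.mk'_surjective _)
  have hNbarne : (Ω.subgroupOf (S : Subgroup G)).map
      (QuotientGroup.mk' (Subgroup.zpowers (z' : ↥(S : Subgroup G)))) ≠ ⊥ := by
    intro hbot
    rw [Subgroup.map_eq_bot_iff, QuotientGroup.ker_mk'] at hbot
    have := Subgroup.card_le_of_le hbot
    omega
  have h2 := Cfsg.Agent.Lib.Helper66.normal_inf_center_ne_bot hQ2 hNbarne
  obtain ⟨ebar, hebar1⟩ := (Subgroup.ne_bot_iff_exists_ne_one).mp h2
  obtain ⟨⟨e', he'mem, he'eq⟩, hebarc⟩ := ebar.2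
  have he'Ω : ((e' : ↥(S : Subgroup G)) : G) ∈ Ω := Subgroup.mem_subgroupOf.mp he'mem
  have he'Z : e' ∉ Subgroup.zpowers (z' : ↥(S : Subgroup G)) := by
    intro hmem
    apply hebar1
    apply Subtype.ext
    rw [← he'eq]
    exact (QuotientGroup.eq_one_iff e').mpr hmem
  have he'conj : ∀ s : ↥(S : Subgroup G), s * e' * s⁻¹ = e' ∨ s * e' * s⁻¹ = (z' : ↥(S : Subgroup G)) * e' := by
    intro s
    have hc := Subgroup.mem_center_iff.mp hebarc (QuotientGroup.mk' _ s)
    rw [← he'eq, ← map_mul, ← map_mul] at hc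
    have hmem : (e' * s)⁻¹ * (s * e') ∈ Subgroup.zpowers (z' : ↥(S : Subgroup G)) :=
      QuotientGroup.eq.mp hc.symm
    rcases hZmem _ hmem with h0 | h0
    · left
      have : s * e' = e' * s := by
        have := inv_mul_eq_one.mp h0
        exact this.symm
      rw [this, mul_inv_cancel_right]
    · right
      have h3 : s * e' = e' * s * (z' : ↥(S : Subgroup G)) := by
        rw [← h0]; group
      calc s * e' * s⁻¹ = e' * s * (z' : ↥(S : Subgroup G)) * s⁻¹ := by rw [h3]
        _ = e' * (s * (z' : ↥(S : Subgroup G))) * s⁻¹ := by group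
        _ = e' * ((z' : ↥(S : Subgroup G)) * s) * s⁻¹ := by rw [hz'c s]
        _ = e' * (z' : ↥(S : Subgroup G)) := by group
        _ = (z' : ↥(S : Subgroup G)) * e' := hz'c e'
  refine ⟨((z' : ↥(S : Subgroup G)) : G), (e' : G), (z' : ↥(S : Subgroup G)).2, e'.2, hz'Ω.2, he'Ω.2, ?_, ?_, ?_, ?_, ?_⟩
  · intro h
    exact hz'ne (Subtype.ext h)
  · intro h
    apply he'Z
    have : e' = 1 := Subtype.ext h
    rw [this]
    exact Subgroup.one_mem _
  · intro h
    apply he'Z
    have : e' = (z' : ↥(S : Subgroup G)) := Subtype.ext h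
    rw [this]
    exact Subgroup.mem_zpowers _
  · intro s hs
    exact congrArg Subtype.val (hz'c ⟨s, hs⟩)
  · apply card_le_two_mul_card_centralizer (z := ((z' : ↥(S : Subgroup G)) : G))
    intro s hs
    rcases he'conj ⟨s, hs⟩ with h0 | h0
    · left
      exact congrArg Subtype.val h0
    · right
      exact congrArg Subtype.val h0

/-- Let G be a finite group whose Sylow 2-subgroup S has a self-centralizing normal subgroup of rank at least 3. Suppose that either every maximal 2-local subgroup of G is 2-constrained with no nontrivial normal subgroup of odd order, or the centralizer of every involution of G is 2-constrained with no nontrivial normal subgroup of odd order. Then S normalizes no nontrivial subgroup of G of odd order and every 2-local subgroup of G is 2-constrained. -/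
theorem result {G : Type*} [Group G] [Finite G]
    (S : Sylow 2 G) (A : Subgroup G) (hA : Cfsg.IsSCN (S : Subgroup G) A) (hA3 : ¬ Cfsg.PRankLE 2 2 ↥A)
    (h : (∀ M : Subgroup G, Cfsg.IsMaximalTwoLocal M → Cfsg.IsPConstrained 2 ↥M ∧ Cfsg.oddCore ↥M = ⊥) ∨
      (∀ t : G, orderOf t = 2 → Cfsg.IsPConstrained 2 ↥(Subgroup.centralizer ({t} : Set G)) ∧
        Cfsg.oddCore ↥(Subgroup.centralizer ({t} : Set G)) = ⊥)) :
    (∀ X : Subgroup G, Odd (Nat.card ↥X) → (S : Subgroup G) ≤ Subgroup.normalizer (X : Set G) → X = ⊥) ∧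
      (∀ T : Subgroup G, IsPGroup 2 ↥T → T ≠ ⊥ → Cfsg.IsPConstrained 2 ↥(Subgroup.normalizer (T : Set G))) := by
  have : Fact (Nat.Prime 2) := ⟨Nat.prime_two⟩
  constructor
  · intro X hXodd hSX
    obtain ⟨z, e, hzS, heS, hz2, he2, hz1, he1, hez, hzc, hidx⟩ := exists_involutions S A hA hA3
    have hze : z * e = e * z := (hzc e heS).symm
    -- the fixed points of an involution `t` with `C_S(t)` of index at most `2`
    have key : ∀ t : G, t * t = 1 → t ≠ 1 →
        Nat.card (S : Subgroup G) ≤
          2 * Nat.card ↥((S : Subgroup G) ⊓ Subgroup.centralizer ({t} : Set G)) →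
        X ⊓ Subgroup.centralizer ({t} : Set G) = ⊥ := by
      intro t ht2 ht1 htidx
      have hto : orderOf t = 2 := orderOf_eq_prime (by rw [pow_two]; exact ht2) ht1
      obtain ⟨H, hCH, hH⟩ := exists_charTwo_over h t hto
      refine eq_bot_of_normalized_index_two S hH (S₀ := (S : Subgroup G) ⊓
        Subgroup.centralizer ({t} : Set G)) inf_le_left (inf_le_right.trans hCH) htidx
        (inf_le_right.trans hCH) ?_ ?_
      · have hdvd := Subgroup.card_dvd_of_le (inf_le_left :
          X ⊓ Subgroup.centralizer ({t} : Set G) ≤ X)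
        exact hXodd.of_dvd_nat hdvd
      · intro s hs
        have hsX := hSX hs.1
        have hsC : s ∈ Subgroup.centralizer ({t} : Set G) := hs.2
        rw [Subgroup.mem_normalizer_iff] at hsX ⊢
        intro x
        have hcen : x ∈ Subgroup.centralizer ({t} : Set G) ↔
            s * x * s⁻¹ ∈ Subgroup.centralizer ({t} : Set G) := by
          constructor
          · intro hx
            exact Subgroup.mul_mem _ (Subgroup.mul_mem _ hsC hx) (Subgroup.inv_mem _ hsC)
          · intro hx
            have := Subgroup.mul_mem _ (Subgroup.mul_mem _ (Subgroup.inv_mem _ hsC) hx) hsC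
            have e' : s⁻¹ * (s * x * s⁻¹) * s = x := by group
            rwa [e'] at this
        rw [Subgroup.mem_inf, Subgroup.mem_inf, hsX x, hcen]
    have hzidx : Nat.card (S : Subgroup G) ≤
        2 * Nat.card ↥((S : Subgroup G) ⊓ Subgroup.centralizer ({z} : Set G)) := by
      have hle : (S : Subgroup G) ≤ (S : Subgroup G) ⊓ Subgroup.centralizer ({z} : Set G) := by
        intro s hs
        refine Subgroup.mem_inf.mpr ⟨hs, ?_⟩
        rw [Subgroup.mem_centralizer_iff]
        intro x hx
        rw [Set.mem_singleton_iff] at hx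
        subst hx
        exact (hzc s hs).symm
      have := Subgroup.card_le_of_le hle
      omega
    have hzeidx : Nat.card (S : Subgroup G) ≤
        2 * Nat.card ↥((S : Subgroup G) ⊓ Subgroup.centralizer ({z * e} : Set G)) := by
      have hle : (S : Subgroup G) ⊓ Subgroup.centralizer ({e} : Set G) ≤
          (S : Subgroup G) ⊓ Subgroup.centralizer ({z * e} : Set G) := by
        intro s hs
        refine Subgroup.mem_inf.mpr ⟨hs.1, ?_⟩
        have hse : e * s = s * e := Subgroup.mem_centralizer_iff.mp hs.2 e rfl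
        rw [Subgroup.mem_centralizer_iff]
        intro x hx
        rw [Set.mem_singleton_iff] at hx
        subst hx
        calc z * e * s = z * (e * s) := by group
          _ = z * (s * e) := by rw [hse]
          _ = (z * s) * e := by group
          _ = (s * z) * e := by rw [hzc s hs.1]
          _ = s * (z * e) := by group
      have := Subgroup.card_le_of_le hle
      omega
    have hze2 : z * e * (z * e) = 1 := by
      calc z * e * (z * e) = z * (e * z) * e := by group
        _ = z * (z * e) * e := by rw [hze]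
        _ = (z * z) * (e * e) := by group
        _ = 1 := by rw [hz2, he2, one_mul]
    have hze1 : z * e ≠ 1 := by
      intro h1
      apply hez
      have : e = z⁻¹ := eq_inv_of_mul_eq_one_right h1
      rw [this]
      exact inv_eq_of_mul_eq_one_right hz2
    exact eq_bot_of_three_fixedPointFree hz2 he2 (hSX hzS) (hSX heS) (key z hz2 hz1 hzidx)
      (key e he2 he1 hidx) (key (z * e) hze2 hze1 hzeidx)
  · intro T hT hT1
    rcases h with h | h
    · obtain ⟨M, hM, hle⟩ := exists_maximal_local (⟨T, hT, hT1, rfl⟩ :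
        IsTwoLocal (Subgroup.normalizer (T : Set G)))
      have hTM : T ≤ M := Subgroup.le_normalizer.trans hle
      have h1 := isPConstrained_normalizer 2 (h M hM).1 (U := T.subgroupOf M) hT.comap_subtype
      rw [← Subgroup.subgroupOf_normalizer_eq hTM] at h1
      exact isPConstrained_of_mulEquiv 2 (Subgroup.subgroupOfEquivOfLe hle) h1
    · obtain ⟨t, htT, hto, htc⟩ := exists_central_orderOf_eq 2 hT hT1
      have hTC : T ≤ Subgroup.centralizer ({t} : Set G) := by
        intro x hx
        rw [Subgroup.mem_centralizer_iff]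
        intro y hy
        rw [Set.mem_singleton_iff] at hy
        subst hy
        exact (htc x hx).symm
      have h1 := isPConstrained_normalizer 2 (h t hto).1
        (U := T.subgroupOf (Subgroup.centralizer ({t} : Set G))) hT.comap_subtype
      rw [← Subgroup.subgroupOf_normalizer_eq hTC] at h1
      have htN : t ∈ Subgroup.normalizer (T : Set G) := Subgroup.le_normalizer htT
      have h2 : IsPConstrained 2 ↥((Subgroup.centralizer ({t} : Set G)).subgroupOf
          (Subgroup.normalizer (T : Set G))) :=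
        isPConstrained_of_mulEquiv 2 (subgroupOfSwap _ _) h1
      rw [← centralizer_singleton_subgroupOf t htN] at h2
      apply isPConstrained_of_centralizer 2 (t := ⟨t, htN⟩) ?_ h2
      have hn : (T.subgroupOf (Subgroup.normalizer (T : Set G))).Normal :=
        Subgroup.normal_subgroupOf_of_le_normalizer le_rfl
      exact le_pCore_of_normal hn hT.comap_subtype (Subgroup.mem_subgroupOf.mpr htT)

end Cfsg.Agent.S3246
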