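import Cfsg.Statements.S3247
import Cfsg.Agent.Lib.Helper30.PConstrLocal

set_option autoImplicit false
open Cfsg
open Cfsg.Agent.Lib.Helper30

namespace Cfsg.Agent.S3247

/-- Let G be a finite group and p a prime; here a p-local subgroup means the normalizer of a nontrivial p-subgroup, other than G itself. If every p-local subgroup of G that is maximal among p-local subgroups is p-constrained, or if the centralizer of every element of order p of G is p-constrained, then every p-local subgroup of G is p-constrained. -/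
theorem result {G : Type*} [Group G] [Finite G] (p : ℕ) [hp : Fact p.Prime]
    (h : (∀ M : Subgroup G, (∃ T : Subgroup G, IsPGroup p ↥T ∧ T ≠ ⊥ ∧ M = Subgroup.normalizer (T : Set G)) → M ≠ ⊤ →
        (∀ M' : Subgroup G, (∃ T' : Subgroup G, IsPGroup p ↥T' ∧ T' ≠ ⊥ ∧ M' = Subgroup.normalizer (T' : Set G)) → M' ≠ ⊤ → M ≤ M' → M = M') →
        Cfsg.IsPConstrained p ↥M) ∨
      (∀ x : G, orderOf x = p → Cfsg.IsPConstrained p ↥(Subgroup.centralizer ({x} : Set G))))
    (T : Subgroup G) (hT : IsPGroup p ↥T) (hT1 : T ≠ ⊥) (hTG : Subgroup.normalizer (T : Set G) ≠ ⊤) :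
    Cfsg.IsPConstrained p ↥(Subgroup.normalizer (T : Set G)) := by
  rcases h with h | h
  · -- maximal `p`-locals
    have hne : {M : Subgroup G | (∃ T' : Subgroup G, IsPGroup p ↥T' ∧ T' ≠ ⊥ ∧
        M = Subgroup.normalizer (T' : Set G)) ∧ M ≠ ⊤ ∧
        Subgroup.normalizer (T : Set G) ≤ M}.Nonempty :=
      ⟨_, ⟨T, hT, hT1, rfl⟩, hTG, le_rfl⟩
    obtain ⟨M, hM, hmax⟩ := (wellFounded_gt (α := Subgroup G)).has_min _ hne
    obtain ⟨hM1, hM2, hM3⟩ := hM
    have hMc : IsPConstrained p ↥M := by
      apply h M hM1 hM2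
      intro M' hM'1 hM'2 hle
      by_contra hne'
      exact hmax M' ⟨hM'1, hM'2, hM3.trans hle⟩ (lt_of_le_of_ne hle hne')
    have hTM : T ≤ M := Subgroup.le_normalizer.trans hM3
    have h1 := isPConstrained_normalizer p hMc (U := T.subgroupOf M) hT.comap_subtype
    rw [← Subgroup.subgroupOf_normalizer_eq hTM] at h1
    exact isPConstrained_of_mulEquiv p (Subgroup.subgroupOfEquivOfLe hM3) h1
  · -- centralizers of elements of order `p`
    obtain ⟨t, htT, hto, htc⟩ := exists_central_orderOf_eq p hT hT1
    have hTC : T ≤ Subgroup.centralizer ({t} : Set G) := by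
      intro x hx
      rw [Subgroup.mem_centralizer_iff]
      intro y hy
      rw [Set.mem_singleton_iff] at hy
      subst hy
      exact (htc x hx).symm
    have h1 := isPConstrained_normalizer p (h t hto)
      (U := T.subgroupOf (Subgroup.centralizer ({t} : Set G))) hT.comap_subtype
    rw [← Subgroup.subgroupOf_normalizer_eq hTC] at h1
    have htN : t ∈ Subgroup.normalizer (T : Set G) := Subgroup.le_normalizer htT
    have h2 : IsPConstrained p ↥((Subgroup.centralizer ({t} : Set G)).subgroupOf
        (Subgroup.normalizer (T : Set G))) :=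
      isPConstrained_of_mulEquiv p (subgroupOfSwap _ _) h1
    rw [← centralizer_singleton_subgroupOf t htN] at h2
    apply isPConstrained_of_centralizer p (t := ⟨t, htN⟩) ?_ h2
    have hn : (T.subgroupOf (Subgroup.normalizer (T : Set G))).Normal :=
      Subgroup.normal_subgroupOf_of_le_normalizer le_rfl
    exact le_pCore_of_normal hn hT.comap_subtype (Subgroup.mem_subgroupOf.mpr htT)

end Cfsg.Agent.S3247
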