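import Cfsg.Statements.S3265
import Cfsg.Agent.Lib.Helper6.OddGrMain
import Cfsg.Agent.Lib.Helper78.OddGrGLUE
import Cfsg.Agent.Lib.Helper32.OGLow

set_option autoImplicit false
open Cfsg

namespace Cfsg.Agent.S3265

/-- Let n ≥ 5 and let X be a conjugacy class of involutions of the symmetric group of degree n. The graph on X joining two distinct involutions whose product has odd order is connected and has diameter exactly 2. -/
theorem result (n : ℕ) (hn : 5 ≤ n) (t : Equiv.Perm (Fin n)) (ht : orderOf t = 2) :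
    (SimpleGraph.fromRel fun x y : {x : Equiv.Perm (Fin n) // IsConj t x} =>
        Odd (orderOf (x.1 * y.1))).Connected ∧
      (SimpleGraph.fromRel fun x y : {x : Equiv.Perm (Fin n) // IsConj t x} =>
        Odd (orderOf (x.1 * y.1))).diam = 2 := by
  have hinv : ∀ x : Equiv.Perm (Fin n), IsConj t x → x * x = 1 := by
    intro x hx
    obtain ⟨g, rfl⟩ := isConj_iff.1 hx
    have h2 : t * t = 1 := by
      have := pow_orderOf_eq_one t
      rwa [ht, pow_two] at this
    calc g * t * g⁻¹ * (g * t * g⁻¹) = g * (t * t) * g⁻¹ := by group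
      _ = 1 := by rw [h2]; group
  apply Cfsg.Agent.Lib.Helper78.OddGr.graph_glue t
  · intro x y hxc hyc
    obtain ⟨z, hz, h1, h2⟩ := Cfsg.Agent.Lib.Helper6.OddGr.exists_common (hinv x hxc)
      (hinv y hyc) (hxc.symm.trans hyc) (by simpa using hn)
    exact ⟨z, hyc.trans hz, h1, h2⟩
  · obtain ⟨y, hy, hne, h1, h2⟩ := Cfsg.Agent.Lib.Helper32.OGLow.exists_conj_not_odd hn t ht
    exact ⟨t, y, IsConj.refl t, hy, hne.symm, h1, h2⟩

end Cfsg.Agent.S3265
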