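import Cfsg.Statements.S3276
import Mathlib

set_option autoImplicit false
open Cfsg

namespace Cfsg.Agent.S3276

/-- two involutions are conjugate or commute with a common involution -/
theorem dihedral_alt {G : Type*} [Group G] [Finite G] (a b : G) (ha : a * a = 1) (hb : b * b = 1) :
    IsConj a b ∨ ∃ u : G, orderOf u = 2 ∧ Commute u a ∧ Commute u b := by
  set w := a * b with hw
  have hainv : a⁻¹ = a := inv_eq_of_mul_eq_one_right ha
  have hbinv : b⁻¹ = b := inv_eq_of_mul_eq_one_right hb
  have hwinv : w⁻¹ = b * a := by rw [hw, mul_inv_rev, hainv, hbinv]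
  have hawa : a * w * a = w⁻¹ := by
    rw [hwinv, hw]; calc a * (a * b) * a = (a * a) * b * a := by group
      _ = b * a := by rw [ha, one_mul]
  have hbwb : b * w * b = w⁻¹ := by
    rw [hwinv, hw]; calc b * (a * b) * b = b * a * (b * b) := by group
      _ = b * a := by rw [hb, mul_one]
  have hapow : ∀ j : ℕ, a * w ^ j * a = (w ^ j)⁻¹ := by
    intro j
    induction j with
    | zero => simp [ha]
    | succ j ih =>
      calc a * w ^ (j + 1) * a = (a * w ^ j * a) * (a * w * a) := by
            rw [pow_succ]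
            calc a * (w ^ j * w) * a = a * w ^ j * 1 * w * a := by group
              _ = a * w ^ j * (a * a) * w * a := by rw [ha]
              _ = (a * w ^ j * a) * (a * w * a) := by group
        _ = (w ^ j)⁻¹ * w⁻¹ := by rw [ih, hawa]
        _ = (w ^ (j + 1))⁻¹ := by rw [pow_succ']; exact (mul_inv_rev w (w ^ j)).symm
  have hbpow : ∀ j : ℕ, b * w ^ j * b = (w ^ j)⁻¹ := by
    intro j
    induction j with
    | zero => simp [hb]
    | succ j ih =>
      calc b * w ^ (j + 1) * b = (b * w ^ j * b) * (b * w * b) := by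
            rw [pow_succ]
            calc b * (w ^ j * w) * b = b * w ^ j * 1 * w * b := by group
              _ = b * w ^ j * (b * b) * w * b := by rw [hb]
              _ = (b * w ^ j * b) * (b * w * b) := by group
        _ = (w ^ j)⁻¹ * w⁻¹ := by rw [ih, hbwb]
        _ = (w ^ (j + 1))⁻¹ := by rw [pow_succ']; exact (mul_inv_rev w (w ^ j)).symm
  have hn : 0 < orderOf w := orderOf_pos w
  rcases Nat.even_or_odd' (orderOf w) with ⟨k, hk | hk⟩
  · -- even order
    right
    have hk0 : 0 < k := by omega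
    refine ⟨w ^ k, ?_, ?_, ?_⟩
    · apply orderOf_eq_prime
      · rw [← pow_mul, mul_comm, ← hk, pow_orderOf_eq_one]
      · intro h
        have := orderOf_dvd_of_pow_eq_one h
        have := Nat.le_of_dvd hk0 this
        omega
    · have h1 : (w ^ k)⁻¹ = w ^ k := by
        rw [inv_eq_iff_mul_eq_one, ← pow_add, ← two_mul, ← hk, pow_orderOf_eq_one]
      have h2 := hapow k
      rw [h1] at h2
      -- a * w^k * a = w^k  → w^k * a = a * w^k
      unfold Commute SemiconjBy
      calc w ^ k * a = (a * w ^ k * a) * a := by rw [h2]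
        _ = a * w ^ k * (a * a) := by group
        _ = a * w ^ k := by rw [ha, mul_one]
    · have h1 : (w ^ k)⁻¹ = w ^ k := by
        rw [inv_eq_iff_mul_eq_one, ← pow_add, ← two_mul, ← hk, pow_orderOf_eq_one]
      have h2 := hbpow k
      rw [h1] at h2
      unfold Commute SemiconjBy
      calc w ^ k * b = (b * w ^ k * b) * b := by rw [h2]
        _ = b * w ^ k * (b * b) := by group
        _ = b * w ^ k := by rw [hb, mul_one]
  · -- odd order: conjugate
    left
    rw [isConj_iff]
    refine ⟨w ^ k, ?_⟩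
    -- w^k * a * (w^k)⁻¹ = w^k * (a * (w^k)⁻¹ * a) * a = w^k * w^k * a = w^(2k) * a = w⁻¹ * a = b
    have h1 : a * (w ^ k)⁻¹ * a = w ^ k := by
      have := hapow k
      have h2 : (a * w ^ k * a)⁻¹ = a * (w ^ k)⁻¹ * a := by
        rw [mul_inv_rev, mul_inv_rev, hainv]; group
      rw [← h2, this, inv_inv]
    have h3 : w ^ (2 * k) = w⁻¹ := by
      rw [eq_inv_iff_mul_eq_one, ← pow_succ, ← hk, pow_orderOf_eq_one]
    calc w ^ k * a * (w ^ k)⁻¹ = w ^ k * (a * (w ^ k)⁻¹ * a) * a := by
          calc w ^ k * a * (w ^ k)⁻¹ = w ^ k * a * (w ^ k)⁻¹ * 1 := by group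
            _ = w ^ k * a * (w ^ k)⁻¹ * (a * a) := by rw [ha]
            _ = w ^ k * (a * (w ^ k)⁻¹ * a) * a := by group
      _ = w ^ (2 * k) * a := by rw [h1, two_mul, pow_add]
      _ = b := by rw [h3, hwinv, mul_assoc, ha, mul_one]

theorem card_le_four {N : Type*} [Group N] [Finite N] (hc : ∀ a b : N, a * b = b * a)
    (he : ∀ a : N, a ^ 2 = 1) (σ : N →* N) (hσ : ∀ n, σ (σ n) = n) (y₀ : N)
    (hfix : ∀ n : N, σ n = n → n = 1 ∨ n = y₀) : Nat.card N ≤ 4 := by
  classical
  let θ : N →* N :=
    { toFun := fun n => n * σ n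
      map_one' := by simp
      map_mul' := by
        intro a b
        rw [map_mul]
        calc a * b * (σ a * σ b) = a * (b * σ a) * σ b := by group
          _ = a * (σ a * b) * σ b := by rw [hc b (σ a)]
          _ = a * σ a * (b * σ b) := by group }
  have hθ : ∀ n, θ n = n * σ n := fun n => rfl
  have h1 : ∀ n, θ n = 1 ∨ θ n = y₀ := by
    intro n
    apply hfix
    rw [hθ, map_mul, hσ, hc]
  have h2 : ∀ n, θ n = 1 → n = 1 ∨ n = y₀ := by
    intro n hn
    apply hfix
    rw [hθ] at hn
    have h3 : n * n = 1 := by rw [← pow_two]; exact he n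
    have : σ n = n⁻¹ := by rw [eq_inv_iff_mul_eq_one, hc]; exact hn
    rw [this, inv_eq_iff_mul_eq_one]; exact h3
  have hker : Nat.card θ.ker ≤ 2 := by
    have : Fintype θ.ker := Fintype.ofFinite _
    rw [Nat.card_eq_fintype_card]
    have hsub : (Finset.univ : Finset θ.ker) ⊆ {1, ⟨y₀ * y₀⁻¹ * (if h : y₀ ∈ θ.ker then y₀ else 1), by
        split_ifs with h
        · simpa using h
        · simp⟩} := by
      intro n _
      rcases h2 n.1 (MonoidHom.mem_ker.mp n.2) with h | h
      · simp only [Finset.mem_insert, Finset.mem_singleton]; left; exact Subtype.ext h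
      · simp only [Finset.mem_insert, Finset.mem_singleton]; right
        apply Subtype.ext
        have hy : y₀ ∈ θ.ker := h ▸ n.2
        simp [hy, h]
    calc Fintype.card θ.ker = (Finset.univ : Finset θ.ker).card := rfl
      _ ≤ _ := Finset.card_le_card hsub
      _ ≤ 2 := Finset.card_le_two
  have hrange : Nat.card θ.range ≤ 2 := by
    have : Fintype θ.range := Fintype.ofFinite _
    rw [Nat.card_eq_fintype_card]
    have hsub : (Finset.univ : Finset θ.range) ⊆ {1, ⟨y₀ * y₀⁻¹ * (if h : y₀ ∈ θ.range then y₀ else 1), by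
        split_ifs with h
        · simpa using h
        · simp⟩} := by
      intro n _
      obtain ⟨m, hm⟩ := n.2
      rcases h1 m with h | h
      · simp only [Finset.mem_insert, Finset.mem_singleton]; left
        apply Subtype.ext; rw [← hm, h]; rfl
      · simp only [Finset.mem_insert, Finset.mem_singleton]; right
        apply Subtype.ext
        have hy : y₀ ∈ θ.range := ⟨m, h⟩
        simp [hy, ← hm, h]
    calc Fintype.card θ.range = (Finset.univ : Finset θ.range).card := rfl
      _ ≤ _ := Finset.card_le_card hsub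
      _ ≤ 2 := Finset.card_le_two
  have h3 := Subgroup.card_mul_index θ.ker
  rw [Subgroup.index_ker] at h3
  rw [← h3]
  calc Nat.card θ.ker * Nat.card θ.range ≤ 2 * 2 := Nat.mul_le_mul hker hrange
    _ = 4 := rfl

theorem result {G : Type*} [Group G] [Finite G] (x y : G) (hx : orderOf x = 2) (hy : orderOf y = 2)
    (hxy : Commute x y) (hnc : ¬ IsConj x y)
    (hstar : ∀ u : G, orderOf u = 2 → Commute u x → ∀ g : G, Commute (g * y * g⁻¹) u → Commute (g * y * g⁻¹) y) :
    Subgroup.normalClosure ({y} : Set G) ≠ ⊤ ∧ Cfsg.IsElementaryAbelian 2 (Subgroup.normalClosure ({y} : Set G)) ∧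
      ((∀ u ∈ Subgroup.normalClosure ({y} : Set G), orderOf u = 2 → Commute u x → u = y) →
        Nat.card ↥(Subgroup.normalClosure ({y} : Set G)) ≤ 4) := by
  have : Fact (Nat.Prime 2) := ⟨Nat.prime_two⟩
  have hx2 : x * x = 1 := by rw [← pow_two, ← hx]; exact pow_orderOf_eq_one x
  have hy2 : y * y = 1 := by rw [← pow_two, ← hy]; exact pow_orderOf_eq_one y
  have hconj : ∀ g : G, Commute (g * y * g⁻¹) y := by
    intro g
    have h2 : (g * y * g⁻¹) * (g * y * g⁻¹) = 1 := by
      calc (g * y * g⁻¹) * (g * y * g⁻¹) = g * (y * y) * g⁻¹ := by group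
        _ = 1 := by rw [hy2]; group
    rcases dihedral_alt x (g * y * g⁻¹) hx2 h2 with h | ⟨u, hu, hux, huy⟩
    · exfalso; apply hnc
      exact h.trans (isConj_iff.mpr ⟨g⁻¹, by group⟩)
    · exact hstar u hu hux g huy.symm
  have hconj2 : ∀ g h : G, (g * y * g⁻¹) * (h * y * h⁻¹) = (h * y * h⁻¹) * (g * y * g⁻¹) := by
    intro g h
    have h4 := (hconj (h⁻¹ * g)).eq
    calc g * y * g⁻¹ * (h * y * h⁻¹) = h * ((h⁻¹ * g) * y * (h⁻¹ * g)⁻¹ * y) * h⁻¹ := by group
      _ = h * (y * ((h⁻¹ * g) * y * (h⁻¹ * g)⁻¹)) * h⁻¹ := by rw [h4]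
      _ = (h * y * h⁻¹) * (g * y * g⁻¹) := by group
  have hgen : ∀ a ∈ Group.conjugatesOfSet ({y} : Set G), ∃ g : G, a = g * y * g⁻¹ := by
    intro a ha
    rw [Group.mem_conjugatesOfSet_iff] at ha
    obtain ⟨b, hb, hba⟩ := ha
    rw [Set.mem_singleton_iff] at hb; subst hb
    obtain ⟨c, hc⟩ := isConj_iff.mp hba
    exact ⟨c, hc.symm⟩
  have hNcomm : IsMulCommutative (Subgroup.normalClosure ({y} : Set G)) := by
    apply Subgroup.isMulCommutative_closure
    intro a ha b hb
    obtain ⟨g, rfl⟩ := hgen a ha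
    obtain ⟨h, rfl⟩ := hgen b hb
    exact hconj2 g h
  have hNc : ∀ a ∈ Subgroup.normalClosure ({y} : Set G), ∀ b ∈ Subgroup.normalClosure ({y} : Set G),
      a * b = b * a := by
    intro a ha b hb
    exact congrArg Subtype.val (hNcomm.is_comm.comm (⟨a, ha⟩ : Subgroup.normalClosure ({y} : Set G)) ⟨b, hb⟩)
  have hNexp : ∀ a ∈ Subgroup.normalClosure ({y} : Set G), a ^ 2 = 1 := by
    intro a ha
    refine Subgroup.closure_induction (p := fun a _ => a ^ 2 = 1) ?_ ?_ ?_ ?_ ha
    · intro a ha
      obtain ⟨g, rfl⟩ := hgen a ha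
      rw [pow_two]
      calc (g * y * g⁻¹) * (g * y * g⁻¹) = g * (y * y) * g⁻¹ := by group
        _ = 1 := by rw [hy2]; group
    · simp
    · intro a b ha hb iha ihb
      have hab : Commute a b := hNc a ha b hb
      rw [hab.mul_pow, iha, ihb, one_mul]
    · intro a ha iha; rw [inv_pow, iha, inv_one]
  refine ⟨?_, ⟨hNcomm, hNexp⟩, ?_⟩
  · intro htop
    have hG : ∀ a b : G, a * b = b * a := fun a b =>
      hNc a (htop ▸ Subgroup.mem_top a) b (htop ▸ Subgroup.mem_top b)
    have hzn : (Subgroup.zpowers y).Normal :=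
      ⟨fun n hn g => by rw [hG g n, mul_inv_cancel_right]; exact hn⟩
    have hle : Subgroup.normalClosure ({y} : Set G) ≤ Subgroup.zpowers y :=
      Subgroup.normalClosure_le_normal (by
        intro z hz; rw [Set.mem_singleton_iff] at hz; subst hz; exact Subgroup.mem_zpowers z)
    have hxz : x ∈ Subgroup.zpowers y := hle (htop ▸ Subgroup.mem_top x)
    obtain ⟨k, hk⟩ := Subgroup.mem_zpowers_iff.mp hxz
    rcases Int.even_or_odd' k with ⟨m, hm | hm⟩
    · have : x = 1 := by rw [← hk, hm, zpow_mul, zpow_two, hy2, one_zpow]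
      rw [this, orderOf_one] at hx; omega
    · have : x = y := by
        rw [← hk, hm, zpow_add, zpow_mul, zpow_two, hy2, one_zpow, one_mul, zpow_one]
      exact hnc (this ▸ IsConj.refl x)
  · intro huniq
    haveI : (Subgroup.normalClosure ({y} : Set G)).Normal := Subgroup.normalClosure_normal
    let σ : Subgroup.normalClosure ({y} : Set G) →* Subgroup.normalClosure ({y} : Set G) :=
      (MulAut.conjNormal x : MulAut (Subgroup.normalClosure ({y} : Set G))).toMonoidHom
    have hσ : ∀ n : Subgroup.normalClosure ({y} : Set G), ((σ n : Subgroup.normalClosure ({y} : Set G)) : G) = x * n * x⁻¹ :=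
      fun n => MulAut.conjNormal_apply x n
    have hxinv : x⁻¹ = x := inv_eq_of_mul_eq_one_right hx2
    have hyN : y ∈ Subgroup.normalClosure ({y} : Set G) :=
      Subgroup.subset_normalClosure (Set.mem_singleton y)
    refine card_le_four (fun a b => Subtype.ext (hNc a a.2 b b.2)) (fun a => Subtype.ext (hNexp a a.2))
      σ ?_ ⟨y, hyN⟩ ?_
    · intro n
      apply Subtype.ext
      rw [hσ, hσ, hxinv]
      calc x * (x * n * x) * x = (x * x) * n * (x * x) := by group
        _ = n := by rw [hx2, one_mul, mul_one]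
    · intro n hn
      have h1 : x * n * x⁻¹ = n := by rw [← hσ, hn]
      by_cases hn1 : n = 1
      · left; exact hn1
      · right; apply Subtype.ext
        apply huniq n n.2
        · exact orderOf_eq_prime (hNexp n n.2) (fun h => hn1 (Subtype.ext h))
        · unfold Commute SemiconjBy
          calc (n : G) * x = (x * n * x⁻¹) * x := by rw [h1]
            _ = x * n := by group

end Cfsg.Agent.S3276
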