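import Cfsg.Statements.S3277
import Cfsg.Agent.Lib.Helper62.Cent4A
import Cfsg.Agent.Lib.Helper62.Cent4B
import Cfsg.Agent.Lib.Helper62.Cent4C
import Cfsg.Agent.S0494
import Mathlib

set_option maxHeartbeats 400000

set_option autoImplicit false
open Cfsg

namespace Cfsg.Agent.S3277

/-- Let G be a finite group containing an involution whose centralizer is elementary abelian of order 4. If G has no normal 2-complement and no normal elementary abelian 2-subgroup of order 2 or 4, then G is isomorphic to the alternating group of degree 5 (that is, to PSL(2, 5)). -/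
theorem result {G : Type*} [Group G] [Finite G] (x : G) (hx : orderOf x = 2)
    (hC4 : Nat.card ↥(Subgroup.centralizer ({x} : Set G)) = 4) (hCe : ∀ c ∈ Subgroup.centralizer ({x} : Set G), c ^ 2 = 1)
    (hnc : ¬ Cfsg.HasNormalPComplement 2 G)
    (hne : ∀ E : Subgroup G, E.Normal → Cfsg.IsElementaryAbelian 2 E → Nat.card ↥E ≠ 2 ∧ Nat.card ↥E ≠ 4) :
    Nonempty (G ≃* ↥(alternatingGroup (Fin 5))) := by
  classical
  letI : Fintype G := Fintype.ofFinite G
  haveI : Finite (IrrCharacter G) := Cfsg.Agent.Lib.Helper4.irr_finite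
  letI : Fintype (IrrCharacter G) := Fintype.ofFinite _
  obtain ⟨z, hz1, hzx, hmem⟩ := Cfsg.Agent.Lib.Helper62.exists_z x hx hC4
  have hx1 : x ≠ 1 := Cfsg.Agent.Lib.Helper62.c4_ne_one_of_order hx
  have hxx : x * x = 1 := Cfsg.Agent.Lib.Helper62.c4_sq_of_order hx
  have hzC : z ∈ Subgroup.centralizer ({x} : Set G) :=
    (hmem z).mpr (Or.inr (Or.inr (Or.inl rfl)))
  have hzz : z * z = 1 := by rw [← pow_two]; exact hCe z hzC
  have hxz : x * z = z * x := (Cfsg.Agent.Lib.Helper62.c4_mem_iff x z).mp hzC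
  -- the case `x ~ x * z`, `x ≁ z`, for an arbitrary labelling
  have caseII : ∀ w : G, w ≠ 1 → w * w = 1 →
      (∀ c : G, c ∈ Subgroup.centralizer ({x} : Set G) ↔ (c = 1 ∨ c = x ∨ c = w ∨ c = x * w)) →
      IsConj x (x * w) → ¬ IsConj x w → False := by
    intro w hw1 hww hmemw hcxw hnw
    have h0 := Cfsg.Agent.Lib.Helper62.card_filter_x_zero x w hx hmemw hnw
    have h4 := Cfsg.Agent.Lib.Helper62.four_mul_card_filter_z_le x w hx hC4 hmemw hw1 hww hcxw hnw
    obtain ⟨χ, k, d, hk0, hd, hχw, hk⟩ :=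
      Cfsg.Agent.Lib.Helper62.caseII_char x w hx1 hxx hC4 hww hcxw hnw h0 _ h4
    have hcomm := Cfsg.Agent.Lib.Helper62.conj_commute_of_char w hww χ k d hk0 hd hχw hk
    exact Cfsg.Agent.Lib.Helper62.false_of_conj_commute x w hx hmemw hw1 hww hcomm hne
  by_cases hcz : IsConj x z
  · by_cases hcxz : IsConj x (x * z)
    · -- all three involutions conjugate
      have h2 := Cfsg.Agent.Lib.Helper62.card_filter_x_two x z hx hmem hzz hcz hcxz
      have hcard := Cfsg.Agent.Lib.Helper62.card_of_all_conj x hx1 hxx hC4 h2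
      obtain ⟨h60, hsimple⟩ := Cfsg.Agent.Lib.Helper62.caseI_finish x z hx hC4 hCe hmem hz1 hzx
        hcz hcxz hcard hne
      haveI := hsimple
      exact Cfsg.Agent.S0494.result h60
    · -- relabel: w = x * z
      exfalso
      have hxzC : x * z ∈ Subgroup.centralizer ({x} : Set G) :=
        (hmem _).mpr (Or.inr (Or.inr (Or.inr rfl)))
      have hw1 : x * z ≠ 1 := by
        intro h
        apply hzx
        calc z = x⁻¹ * (x * z) := by group
          _ = x⁻¹ := by rw [h, mul_one]
          _ = x := inv_eq_of_mul_eq_one_right hxx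
      have hww : (x * z) * (x * z) = 1 := by rw [← pow_two]; exact hCe _ hxzC
      have hxw : x * (x * z) = z := by rw [← mul_assoc, hxx, one_mul]
      have hmemw : ∀ c : G, c ∈ Subgroup.centralizer ({x} : Set G) ↔
          (c = 1 ∨ c = x ∨ c = x * z ∨ c = x * (x * z)) := by
        intro c
        rw [hxw, hmem c]
        tauto
      exact caseII (x * z) hw1 hww hmemw (by rw [hxw]; exact hcz) hcxz
  · by_cases hcxz : IsConj x (x * z)
    · exact (caseII z hz1 hzz hmem hcxz hcz).elim
    · exact absurd (Cfsg.Agent.Lib.Helper62.normalPComplement_of_not_conj x z hx hC4 hmem hcz hcxz)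
        hnc

end Cfsg.Agent.S3277
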