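-- Statement S3304 (helper61, assembled from pieces by helper34/43/55/72/79/86 and helper61).
-- Solvable groups whose distinct Sylow 2-subgroups meet in rank at most 1: structure mod the odd core.
import Cfsg.Statements.S3304
import Cfsg.Agent.Lib.Helper31.PComp
import Cfsg.Agent.Lib.Helper30.Cores
import Cfsg.Agent.Lib.Helper61.GL23Struct
import Cfsg.Agent.Lib.Helper55.GL23A
import Cfsg.Agent.Lib.Helper79.GL23D
import Cfsg.Agent.Lib.Helper72.GL23PC
import Cfsg.Agent.Lib.Helper43.GL23F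
import Cfsg.Agent.Lib.Helper86.GL23R
import Cfsg.Agent.Lib.Helper34.GL23AUT

set_option autoImplicit false
open Cfsg

namespace Cfsg.Agent.S3304

/-- Let G be a finite solvable group in which the intersection of any two distinct Sylow 2-subgroups has 2-rank at most 1 (contains no Klein four-group). Write Q = G/O(G), O(G) the largest normal subgroup of odd order. Then Q has a normal Sylow 2-subgroup; or Q is isomorphic to GL(2,3); or Q has order 48, centre of order 2 with central quotient isomorphic to the symmetric group of degree 4, and generalized quaternion Sylow 2-subgroups of order 16 (the binary octahedral group). The last two are the two representation groups of the symmetric group of degree 4. -/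
theorem result {G : Type*} [Group G] [Finite G] (hs : Group.IsSolvable G)
    (hI : ∀ S T : Sylow 2 G, S ≠ T → Cfsg.PRankLE 2 1 ↥((S : Subgroup G) ⊓ (T : Subgroup G))) :
    (∃ P : Sylow 2 (G ⧸ Cfsg.oddCore G), (P : Subgroup (G ⧸ Cfsg.oddCore G)).Normal) ∨
    Nonempty ((G ⧸ Cfsg.oddCore G) ≃* GL (Fin 2) (ZMod 3)) ∨
    (Nat.card (G ⧸ Cfsg.oddCore G) = 48 ∧ Nat.card ↥(Subgroup.center (G ⧸ Cfsg.oddCore G)) = 2 ∧
      Nonempty ((G ⧸ Cfsg.oddCore G) ⧸ Subgroup.center (G ⧸ Cfsg.oddCore G) ≃* Equiv.Perm (Fin 4)) ∧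
      ∀ P : Sylow 2 (G ⧸ Cfsg.oddCore G), Nonempty (↥(P : Subgroup (G ⧸ Cfsg.oddCore G)) ≃* QuaternionGroup 4)) := by
  by_cases hnn : ∃ P : Sylow 2 (G ⧸ Cfsg.oddCore G), (P : Subgroup (G ⧸ Cfsg.oddCore G)).Normal
  · exact Or.inl hnn
  right
  have : Fact (Nat.Prime 2) := ⟨Nat.prime_two⟩
  have hO : Cfsg.pPrimeCore 2 (G ⧸ Cfsg.oddCore G) = ⊥ :=
    Cfsg.Agent.Lib.Helper31.pPrimeCore_quotient_eq_bot 2
  have hI' := Cfsg.Agent.Lib.Helper55.GL23A.quot_inter_rank hI
  obtain ⟨hcard, hcen, hquot, Q, hQn, hQ, hC⟩ :=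
    Cfsg.Agent.Lib.Helper61.GL23Struct.structure_of_core_free_aux (H := G ⧸ Cfsg.oddCore G)
      inferInstance hO hnn
      (Cfsg.Agent.Lib.Helper72.GL23.pCore_cyclic_or_quat hI' hnn)
      (fun h => Cfsg.Agent.Lib.Helper34.GL23AUT.mulAut_two_group
        (Cfsg.Agent.Lib.Helper30.pCore_isPGroup 2) h)
  by_cases hinv : ∀ t : G ⧸ Cfsg.oddCore G, orderOf t = 2 → t ∈ Q
  · right
    exact ⟨hcard, hcen, hquot,
      fun P => Cfsg.Agent.Lib.Helper79.GL23D.sylow_quat16 hcard Q hQn hQ hinv P⟩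
  · left
    push Not at hinv
    obtain ⟨t, ht, htQ⟩ := hinv
    have h3 : (3 : ℕ) ∣ Nat.card (G ⧸ Cfsg.oddCore G) := by rw [hcard]; norm_num
    have : Fact (Nat.Prime 3) := ⟨Nat.prime_three⟩
    obtain ⟨x₀, hx₀⟩ := exists_prime_orderOf_dvd_card' 3 h3
    obtain ⟨i, j, x, hi4, hi2, hji, hjj, hxi, hxj, hx3, hx1, htx, hti⟩ :=
      Cfsg.Agent.Lib.Helper43.GL23F.exists_frame Q hQn hQ hC x₀ hx₀ t ht htQ
    have ht2 : t * t = 1 := by
      have h := pow_orderOf_eq_one t
      rw [ht, pow_two] at h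
      exact h
    exact Cfsg.Agent.Lib.Helper86.gl23_of_gens hcard i j x t hi4 hi2 hji hjj hxi hxj hx3 hx1
      ht2 htx hti

end Cfsg.Agent.S3304
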