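import Cfsg.Statements.S3305
import Mathlib

set_option autoImplicit false
open Cfsg

namespace Cfsg.Agent.S3305

theorem lift_sylow {G : Type*} [Group G] [Finite G] (H : Subgroup G) [H.Normal]
    (Sb : Sylow 2 (G ⧸ H)) (P : Subgroup G) (hP : IsPGroup 2 P)
    (hPS : P.map (QuotientGroup.mk' H) ≤ (Sb : Subgroup (G ⧸ H))) :
    ∃ S' : Sylow 2 G, P ≤ (S' : Subgroup G) ∧
      (S' : Subgroup G).map (QuotientGroup.mk' H) = (Sb : Subgroup (G ⧸ H)) := by
  have : Fact (Nat.Prime 2) := ⟨Nat.prime_two⟩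
  have hf : Function.Surjective (QuotientGroup.mk' H) := QuotientGroup.mk'_surjective H
  set M : Subgroup G := (Sb : Subgroup (G ⧸ H)).comap (QuotientGroup.mk' H) with hM
  have hPM : P ≤ M := Subgroup.map_le_iff_le_comap.mp hPS
  have hP' : IsPGroup 2 (P.subgroupOf M) := hP.comap_subtype
  obtain ⟨Q₀, hQ₀⟩ := hP'.exists_le_sylow
  let Q : Subgroup G := (Q₀ : Subgroup M).map M.subtype
  have hPQ : Q.map (QuotientGroup.mk' H) ≤ Sb :=
    Subgroup.map_le_iff_le_comap.mpr (Subgroup.map_subtype_le Q₀.1)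
  have hpQ : IsPGroup 2 Q := Q₀.2.map M.subtype
  have hQ : ¬ 2 ∣ Q.index := by
    rw [Subgroup.index_map_subtype Q₀.1, Subgroup.index_comap_of_surjective _ hf]
    exact Nat.Prime.not_dvd_mul Nat.prime_two Q₀.not_dvd_index Sb.not_dvd_index
  refine ⟨hpQ.toSylow hQ, ?_, ?_⟩
  · intro x hx
    have hxM : x ∈ M := hPM hx
    have : (⟨x, hxM⟩ : M) ∈ (Q₀ : Subgroup M) := hQ₀ (by simpa [Subgroup.mem_subgroupOf] using hx)
    exact ⟨⟨x, hxM⟩, this, rfl⟩
  · have h3 := ((hpQ.map (QuotientGroup.mk' H)).toSylow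
      (fun h ↦ hQ (h.trans (Q.index_map_dvd hf)))).3 Sb.2 hPQ
    exact h3.symm

theorem result {G : Type*} [Group G] [Finite G]
    (hC : ∀ S T : Sylow 2 G, S ≠ T → IsCyclic ↥((S : Subgroup G) ⊓ (T : Subgroup G))) (H : Subgroup G) [H.Normal] :
    ∀ S T : Sylow 2 (G ⧸ H), S ≠ T → IsCyclic ↥((S : Subgroup (G ⧸ H)) ⊓ (T : Subgroup (G ⧸ H))) := by
  have : Fact (Nat.Prime 2) := ⟨Nat.prime_two⟩
  intro Sb Tb hne
  have hf : Function.Surjective (QuotientGroup.mk' H) := QuotientGroup.mk'_surjective H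
  set Db : Subgroup (G ⧸ H) := (Sb : Subgroup (G ⧸ H)) ⊓ (Tb : Subgroup (G ⧸ H)) with hDb
  have hDb2 : IsPGroup 2 Db := Sb.2.to_le inf_le_left
  set D : Subgroup G := Db.comap (QuotientGroup.mk' H) with hD
  obtain ⟨P₀⟩ : Nonempty (Sylow 2 D) := Sylow.nonempty
  let P : Subgroup G := (P₀ : Subgroup D).map D.subtype
  have hP2 : IsPGroup 2 P := P₀.2.map D.subtype
  have hPD : P ≤ D := Subgroup.map_subtype_le _
  have hPmap_le : P.map (QuotientGroup.mk' H) ≤ Db := Subgroup.map_le_iff_le_comap.mpr hPD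
  -- the image of P is all of Db
  have hPmap : P.map (QuotientGroup.mk' H) = Db := by
    refine le_antisymm hPmap_le ?_
    have hg : Function.Surjective ((QuotientGroup.mk' H).subgroupComap Db) :=
      (QuotientGroup.mk' H).subgroupComap_surjective_of_surjective Db hf
    have htop : ((P₀.mapSurjective hg : Sylow 2 Db) : Subgroup Db) = ⊤ := by
      have hT : IsPGroup 2 (⊤ : Subgroup Db) := IsPGroup.to_subgroup (p := 2) hDb2 ⊤
      exact ((P₀.mapSurjective hg).3 hT le_top).symm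
    intro y hy
    have hy' : (⟨y, hy⟩ : Db) ∈ ((P₀.mapSurjective hg : Sylow 2 Db) : Subgroup Db) := by
      rw [htop]; exact Subgroup.mem_top _
    rw [Sylow.coe_mapSurjective] at hy'
    obtain ⟨x, hx, hxy⟩ := hy'
    refine ⟨(x : G), ⟨x, hx, rfl⟩, ?_⟩
    exact congrArg Subtype.val hxy
  obtain ⟨S', hPS', hS'⟩ := lift_sylow H Sb P hP2 (hPmap_le.trans inf_le_left)
  obtain ⟨T', hPT', hT'⟩ := lift_sylow H Tb P hP2 (hPmap_le.trans inf_le_right)
  have hne' : S' ≠ T' := by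
    rintro rfl
    exact hne (Sylow.ext (hS'.symm.trans hT'))
  have := hC S' T' hne'
  have hPle : P ≤ (S' : Subgroup G) ⊓ (T' : Subgroup G) := le_inf hPS' hPT'
  have : IsCyclic P := by
    have e : (P.subgroupOf ((S' : Subgroup G) ⊓ (T' : Subgroup G))) ≃* P := Subgroup.subgroupOfEquivOfLe hPle
    exact isCyclic_of_surjective e e.surjective
  have : IsCyclic (P.map (QuotientGroup.mk' H)) :=
    isCyclic_of_surjective ((QuotientGroup.mk' H).subgroupMap P) ((QuotientGroup.mk' H).subgroupMap_surjective P)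
  rw [hPmap] at this
  exact this

end Cfsg.Agent.S3305
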