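import Cfsg.Statements.S3349
import Mathlib

set_option autoImplicit false
open Cfsg

namespace Cfsg.Agent.S3349

open scoped commutatorElement

theorem result {Q : Type*} [Group Q] [Finite Q]
    (p : ℕ) [Fact p.Prime] (hQ : Cfsg.IsExtraspecial p Q) (α : MulAut Q)
    (A : Subgroup Q) (hA : IsMulCommutative A) (hmax : ∀ B : Subgroup Q, A ≤ B → IsMulCommutative B → B = A)
    (hfix : ∀ a ∈ A, α a = a) :
    ∃ k : ℕ, orderOf α = p ^ k := by
  obtain ⟨⟨hp, -, hcomm⟩, -⟩ := hQ
  have hAcomm : ∀ a ∈ A, ∀ b ∈ A, a * b = b * a := by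
    intro a ha b hb
    have := hA.is_comm.comm (⟨a, ha⟩ : A) ⟨b, hb⟩
    exact congrArg Subtype.val this
  -- centralizer of A is contained in A
  have hCA : ∀ c : Q, (∀ a ∈ A, a * c = c * a) → c ∈ A := by
    intro c hc
    have hB : IsMulCommutative (Subgroup.closure ((A : Set Q) ∪ {c})) := by
      apply Subgroup.isMulCommutative_closure
      rintro x (hx | hx) y (hy | hy)
      · exact hAcomm x hx y hy
      · rw [Set.mem_singleton_iff] at hy; subst hy; exact hc x hx
      · rw [Set.mem_singleton_iff] at hx; subst hx; exact (hc y hy).symm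
      · rw [Set.mem_singleton_iff] at hx hy; subst hx; subst hy; rfl
    have hle : A ≤ Subgroup.closure ((A : Set Q) ∪ {c}) := fun a ha =>
      Subgroup.subset_closure (Or.inl ha)
    have := hmax _ hle hB
    rw [← this]
    exact Subgroup.subset_closure (Or.inr rfl)
  -- the centre is in A
  have hZA : Subgroup.center Q ≤ A := by
    intro z hz
    apply hCA
    intro a _
    exact (Subgroup.mem_center_iff.mp hz a)
  -- A is normal
  have hAn : ∀ q : Q, ∀ a ∈ A, q * a * q⁻¹ ∈ A := by
    intro q a ha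
    have h1 : ⁅q, a⁆ ∈ commutator Q := by
      rw [commutator_def]
      exact Subgroup.commutator_mem_commutator (Subgroup.mem_top q) (Subgroup.mem_top a)
    rw [hcomm] at h1
    have h2 : q * a * q⁻¹ = ⁅q, a⁆ * a := by simp [commutatorElement_def]
    rw [h2]
    exact mul_mem (hZA h1) ha
  -- q⁻¹ α(q) ∈ A
  have hqa : ∀ q : Q, q⁻¹ * α q ∈ A := by
    intro q
    apply hCA
    intro a ha
    have h1 : α (q * a * q⁻¹) = q * a * q⁻¹ := hfix _ (hAn q a ha)
    rw [map_mul, map_mul, hfix a ha, map_inv] at h1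
    -- α q * a * (α q)⁻¹ = q * a * q⁻¹
    have h2 : a * (q⁻¹ * α q) = q⁻¹ * (q * a * q⁻¹) * α q := by group
    rw [h2, ← h1]; group
  -- iterate
  have hiter : ∀ (n : ℕ) (q : Q), (α ^ n) q = q * (q⁻¹ * α q) ^ n := by
    intro n
    induction n with
    | zero => intro q; simp
    | succ n ih =>
      intro q
      rw [pow_succ', MulAut.mul_apply, ih q, map_mul, map_pow, hfix _ (hqa q), pow_succ',
        ← mul_assoc q, mul_inv_cancel_left]
  obtain ⟨m, hm⟩ := IsPGroup.iff_card.mp hp
  have hpow : α ^ (p ^ m) = 1 := by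
    ext q
    rw [hiter, ← hm, pow_card_eq_one', mul_one]
    rfl
  have hdvd : orderOf α ∣ p ^ m := orderOf_dvd_of_pow_eq_one hpow
  obtain ⟨k, -, hk⟩ := (Nat.dvd_prime_pow (Fact.out : p.Prime)).mp hdvd
  exact ⟨k, hk⟩

end Cfsg.Agent.S3349
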