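import Cfsg.Statements.S3371
import Mathlib
import Cfsg.Agent.Lib.Helper63.Half1
import Cfsg.Agent.Lib.Helper63.Half2
import Cfsg.Agent.Lib.Helper63.Half3
import Cfsg.Agent.Lib.Helper6.NormFour
import Cfsg.Agent.S0519
import Cfsg.Agent.S0126
import Cfsg.Agent.S0016

set_option autoImplicit false
open Cfsg

namespace Cfsg.Agent.S3371

open Cfsg.Agent.S3370 Cfsg.Agent.Lib.Helper63.Half1 Cfsg.Agent.Lib.Helper63.Half2
  Cfsg.Agent.Lib.Helper63.Half3 Cfsg.Agent.Lib.Helper6

/-- a non-cyclic normal abelian subgroup of a 2-group yields a normal four-group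
(the argument of `Cfsg.Agent.Lib.Helper6.exists_normal_four`) -/
theorem exists_normal_four' {S : Type*} [Group S] [Finite S] (hS : IsPGroup 2 S)
    (W : Subgroup S) (hWn : W.Normal) (hWc : IsMulCommutative W) (hWnc : ¬ IsCyclic W) :
    ∃ z w : S, z ≠ 1 ∧ w ≠ 1 ∧ w ≠ z ∧ z ^ 2 = 1 ∧ w ^ 2 = 1 ∧ (∀ s : S, s * z = z * s) ∧
      ∀ s : S, s * w * s⁻¹ = w ∨ s * w * s⁻¹ = w * z := by
  have hcomm : ∀ a ∈ W, ∀ b ∈ W, a * b = b * a := fun a ha b hb =>
    setLike_mul_comm ha hb
  obtain ⟨u, v, huW, hvW, hu1, hv1, huv, hu2, hv2⟩ : ∃ u v : S, u ∈ W ∧ v ∈ W ∧ u ≠ 1 ∧ v ≠ 1 ∧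
      u ≠ v ∧ u ^ 2 = 1 ∧ v ^ 2 = 1 := by
    by_contra hcon
    apply hWnc
    apply Cfsg.Agent.S0016.isCyclic_of_comm_of_unique 2 (hS.to_subgroup W)
      (fun a b => Subtype.ext (hcomm a a.2 b b.2))
    intro H K hH hK
    obtain ⟨h, hh1, hh2, rfl⟩ := exists_gen_of_card_two H hH
    obtain ⟨k, hk1, hk2, rfl⟩ := exists_gen_of_card_two K hK
    by_cases hhk : h = k
    · rw [hhk]
    · exfalso
      apply hcon
      refine ⟨h, k, h.2, k.2, fun e => hh1 (Subtype.ext e), fun e => hk1 (Subtype.ext e),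
        fun e => hhk (Subtype.ext e), ?_, ?_⟩
      · have h3 := congrArg Subtype.val hh2
        rwa [Subgroup.coe_pow] at h3
      · have h3 := congrArg Subtype.val hk2
        rwa [Subgroup.coe_pow] at h3
  let V : Subgroup S :=
    { carrier := {g | g ∈ W ∧ g ^ 2 = 1}
      mul_mem' := by
        rintro a b ⟨ha, ha2⟩ ⟨hb, hb2⟩
        exact ⟨W.mul_mem ha hb, by
          rw [(show Commute a b from hcomm a ha b hb).mul_pow, ha2, hb2, one_mul]⟩
      one_mem' := ⟨W.one_mem, one_pow 2⟩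
      inv_mem' := by
        rintro a ⟨ha, ha2⟩
        exact ⟨W.inv_mem ha, by rw [inv_pow, ha2, inv_one]⟩ }
  have hVn : V.Normal := ⟨fun g hg s => ⟨hWn.conj_mem g hg.1 s, by
    rw [conj_pow, hg.2, mul_one, mul_inv_cancel]⟩⟩
  have huV : u ∈ V := ⟨huW, hu2⟩
  have hvV : v ∈ V := ⟨hvW, hv2⟩
  have hVne : V ≠ ⊥ := by
    intro h
    rw [h, Subgroup.mem_bot] at huV
    exact hu1 huV
  have hinf := Cfsg.Agent.Lib.Helper66.normal_inf_center_ne_bot hS hVne
  obtain ⟨z, hzmem, hz1⟩ : ∃ z ∈ V ⊓ Subgroup.center S, z ≠ 1 := by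
    by_contra hcon
    push Not at hcon
    exact hinf ((Subgroup.eq_bot_iff_forall _).mpr hcon)
  have hzV : z ∈ V := hzmem.1
  have hzc : ∀ s : S, s * z = z * s := fun s => Subgroup.mem_center_iff.mp hzmem.2 s
  have hz2 : z ^ 2 = 1 := hzV.2
  have hZn : (Subgroup.zpowers z).Normal := ⟨fun g hg s => by
    rcases mem_zpowers_of_sq hz2 hg with rfl | rfl
    · rw [mul_one, mul_inv_cancel]; exact Subgroup.one_mem _
    · rw [hzc s, mul_inv_cancel_right]; exact Subgroup.mem_zpowers g⟩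
  obtain ⟨t, htV, htZ⟩ : ∃ t ∈ V, t ∉ Subgroup.zpowers z := by
    by_cases huz : u = z
    · refine ⟨v, hvV, fun h => ?_⟩
      rcases mem_zpowers_of_sq hz2 h with h' | h'
      · exact hv1 h'
      · exact huv (huz.trans h'.symm)
    · refine ⟨u, huV, fun h => ?_⟩
      rcases mem_zpowers_of_sq hz2 h with h' | h'
      · exact hu1 h'
      · exact huz h'
  have hπs : Function.Surjective (QuotientGroup.mk' (Subgroup.zpowers z)) :=
    QuotientGroup.mk'_surjective _
  have hVbar : (V.map (QuotientGroup.mk' (Subgroup.zpowers z))).Normal := hVn.map _ hπs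
  have hVbar_ne : V.map (QuotientGroup.mk' (Subgroup.zpowers z)) ≠ ⊥ := by
    intro h
    have h1 : (QuotientGroup.mk' (Subgroup.zpowers z)) t ∈
        V.map (QuotientGroup.mk' (Subgroup.zpowers z)) := Subgroup.mem_map_of_mem _ htV
    rw [h, Subgroup.mem_bot] at h1
    exact htZ ((QuotientGroup.eq_one_iff t).mp h1)
  have hQ : IsPGroup 2 (S ⧸ Subgroup.zpowers z) := hS.to_quotient _
  have hinf2 := Cfsg.Agent.Lib.Helper66.normal_inf_center_ne_bot hQ hVbar_ne
  obtain ⟨q, hqmem, hq1⟩ : ∃ q ∈ V.map (QuotientGroup.mk' (Subgroup.zpowers z)) ⊓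
      Subgroup.center (S ⧸ Subgroup.zpowers z), q ≠ 1 := by
    by_contra hcon
    push Not at hcon
    exact hinf2 ((Subgroup.eq_bot_iff_forall _).mpr hcon)
  obtain ⟨w, hwV, hwq⟩ := Subgroup.mem_map.mp hqmem.1
  have hwZ : w ∉ Subgroup.zpowers z := by
    intro h
    apply hq1
    rw [← hwq]
    exact (QuotientGroup.eq_one_iff w).mpr h
  refine ⟨z, w, hz1, fun h => hwZ (h ▸ Subgroup.one_mem _),
    fun h => hwZ (h ▸ Subgroup.mem_zpowers z), hz2, hwV.2, hzc, ?_⟩
  intro s
  have hcen := Subgroup.mem_center_iff.mp hqmem.2 ((QuotientGroup.mk' (Subgroup.zpowers z)) s)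
  have hmem : s * w * s⁻¹ * w⁻¹ ∈ Subgroup.zpowers z := by
    rw [← QuotientGroup.eq_one_iff]
    change (QuotientGroup.mk' (Subgroup.zpowers z)) (s * w * s⁻¹ * w⁻¹) = 1
    rw [map_mul, map_mul, map_mul, map_inv, map_inv, hwq, hcen, mul_inv_cancel_right,
      mul_inv_cancel]
  rcases mem_zpowers_of_sq hz2 hmem with h | h
  · left; exact mul_inv_eq_one.mp h
  · right
    rw [mul_inv_eq_iff_eq_mul] at h
    rw [h]
    exact (hzc w).symm

/-- a finite generalized quaternion group has at most one involution -/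
theorem quat_invol {n : ℕ} [NeZero n] (g h : QuaternionGroup n) (hg : g ^ 2 = 1) (hh : h ^ 2 = 1)
    (hg1 : g ≠ 1) (hh1 : h ≠ 1) : g = h := by
  have hmem : ∀ u : QuaternionGroup n, u ^ 2 = 1 →
      u ∈ Subgroup.zpowers (QuaternionGroup.a 1 : QuaternionGroup n) := by
    intro u hu
    cases u with
    | a i =>
      rw [Subgroup.mem_zpowers_iff]
      refine ⟨(i.val : ℤ), ?_⟩
      rw [zpow_natCast, QuaternionGroup.a_one_pow, ZMod.natCast_zmod_val]
    | xa i =>
      exfalso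
      have h1 := orderOf_dvd_of_pow_eq_one hu
      rw [QuaternionGroup.orderOf_xa] at h1
      omega
  rcases Cfsg.Agent.Lib.Helper12.eq_one_or_eq_of_sq_eq_one_of_mem_zpowers (hmem g hg) (hmem h hh)
    hg hh hh1 with h5 | h5
  · exact absurd h5 hg1
  · exact h5

/-- Let q be a prime, V a non-trivial finite vector space over the field with q elements, and G a finite p-group (p prime) acting faithfully and linearly on V such that all G-orbits on the non-zero vectors have the same size. Then one of the following holds: G is cyclic or generalized quaternion and acts semiregularly on the non-zero vectors; or V has q² elements with q = 2^m − 1 and G is dihedral of order 2^(m+1) or semidihedral of order 2^(m+2); or V has q² elements with q = 2^m + 1 and, in suitable coordinates V = F_q², G is exactly the group of maps (x, y) ↦ (a x, ± a⁻¹ y) and (x, y) ↦ (± a⁻¹ y, a x) with a ≠ 0; or V has 81 elements (q = 3) and G is a 2-group. -/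
theorem result (q : ℕ) [Fact q.Prime] {V : Type*} [AddCommGroup V] [Module (ZMod q) V] [Finite V] [Nontrivial V]
    {G : Type*} [Group G] [Finite G] (p : ℕ) [Fact p.Prime] (hG : IsPGroup p G)
    (ρ : G →* (V ≃ₗ[ZMod q] V)) (hρ : Function.Injective ρ)
    (hhalf : ∀ v w : V, v ≠ 0 → w ≠ 0 → Nat.card {u : V | ∃ g : G, ρ g v = u} = Nat.card {u : V | ∃ g : G, ρ g w = u}) :
    ((IsCyclic G ∨ ∃ n : ℕ, Nonempty (G ≃* QuaternionGroup n)) ∧ ∀ v : V, v ≠ 0 → ∀ g : G, ρ g v = v → g = 1) ∨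
    (Nat.card V = q ^ 2 ∧ ∃ m : ℕ, q = 2 ^ m - 1 ∧
      (Nonempty (G ≃* DihedralGroup (2 ^ m)) ∨ (Cfsg.IsQuasiDihedral G ∧ Nat.card G = 2 ^ (m + 2)))) ∨
    (Nat.card V = q ^ 2 ∧ (∃ m : ℕ, q = 2 ^ m + 1) ∧
      ∃ e : V ≃ₗ[ZMod q] (Fin 2 → ZMod q), ∀ f : (Fin 2 → ZMod q) ≃ₗ[ZMod q] (Fin 2 → ZMod q),
        (∃ g : G, f = e.symm.trans ((ρ g).trans e)) ↔
        ∃ a s : ZMod q, a ≠ 0 ∧ (s = 1 ∨ s = -1) ∧
          ((∀ v, f v = ![a * v 0, s * a⁻¹ * v 1]) ∨ (∀ v, f v = ![s * a⁻¹ * v 1, a * v 0]))) ∨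
    (Nat.card V = 81 ∧ q = 3 ∧ p = 2) := by
  classical
  have hq : q.Prime := Fact.out
  have hp : p.Prime := Fact.out
  have hT : HT ρ := ht_of_half ρ hhalf
  by_cases hG1 : ∀ g : G, g = 1
  · left
    refine ⟨Or.inl ?_, fun v _ g _ => hG1 g⟩
    have : Subsingleton G := ⟨fun a b => by rw [hG1 a, hG1 b]⟩
    exact isCyclic_of_subsingleton
  have hpq : p ≠ q := by
    intro hpq
    subst hpq
    apply hG1
    let _ := act ρ
    have hdvd : p ∣ Nat.card V := by
      rw [Module.natCard_eq_pow_finrank (K := ZMod p) (V := V), Nat.card_zmod]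
      exact dvd_pow_self p (Module.finrank_pos (R := ZMod p) (M := V)).ne'
    obtain ⟨b, hb, hb0⟩ := hG.exists_fixed_point_of_prime_dvd_card_of_fixed_point V hdvd
      (a := (0 : V)) (fun g => map_zero (ρ g))
    have hbtop : stab ρ b = ⊤ := by
      rw [eq_top_iff]
      intro g _
      exact hb g
    intro g
    apply eq_one_of_fix ρ hρ
    intro v hv
    have h1 := hT v b hv (Ne.symm hb0)
    have h2 : stab ρ v = ⊤ := Subgroup.eq_top_of_card_eq _ (by rw [h1, hbtop, Subgroup.card_top])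
    have h3 : g ∈ stab ρ v := by rw [h2]; trivial
    exact h3
  have hpq' : (p : ZMod q) ≠ 0 := by
    intro h
    have h1 := (ZMod.natCast_eq_zero_iff p q).1 h
    exact hpq ((Nat.prime_dvd_prime_iff_eq hq hp).1 h1).symm
  -- a power of order `p` of a nontrivial element
  have hpow : ∀ g : G, g ≠ 1 → ∃ k : ℕ, (g ^ k) ^ p = 1 ∧ g ^ k ≠ 1 := by
    intro g hg1
    obtain ⟨k, hk⟩ := (IsPGroup.iff_orderOf.1 hG) g
    have hk1 : 1 ≤ k := by
      by_contra h
      have hk0 : k = 0 := by omega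
      rw [hk0, pow_zero] at hk
      exact hg1 (orderOf_eq_one_iff.1 hk)
    refine ⟨p ^ (k - 1), ?_, ?_⟩
    · rw [← pow_mul, ← pow_succ, Nat.sub_add_cancel hk1, ← hk]
      exact pow_orderOf_eq_one g
    · intro h
      have h1 := orderOf_dvd_of_pow_eq_one h
      rw [hk] at h1
      have h2 := Nat.le_of_dvd (pow_pos hp.pos _) h1
      have h3 : p ^ (k - 1) < p ^ k := Nat.pow_lt_pow_right hp.one_lt (by omega)
      omega
  by_cases hp2 : p = 2
  swap
  · -- odd `p`
    by_cases hcyc : IsCyclic G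
    · left
      refine ⟨Or.inl hcyc, ?_⟩
      intro v hv g hgv
      by_contra hg1
      obtain ⟨k, hk, hk1⟩ := hpow g hg1
      have hcomm : ∀ a b : G, a * b = b * a := fun a b =>
        (IsMulCommutative.is_comm (M := G)).comm a b
      exact central_fpf ρ hρ hT _ (fun h => hcomm h _) p hk hpq' hk1 v hv (pow_fix ρ g v hgv _)
    · exfalso
      obtain ⟨A, hAn, hAe, hAcard⟩ := Cfsg.Agent.S0126.result hp2 hG hcyc
      have hAc : IsMulCommutative A := hAe.1
      exact odd_contra ρ p hp2 hpq' hG hρ hT A hAn (fun a ha b hb => setLike_mul_comm ha hb)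
        hAe.2 hAcard
  -- `p = 2`
  subst hp2
  have h2 : ((2 : ℕ) : ZMod q) ≠ 0 := hpq'
  -- a central involution
  obtain ⟨z, hzc, hz2, hz1⟩ : ∃ z : G, (∀ g : G, g * z = z * g) ∧ z ^ 2 = 1 ∧ z ≠ 1 := by
    have hnt : Nontrivial G := by
      push Not at hG1
      obtain ⟨g, hg⟩ := hG1
      exact ⟨⟨g, 1, hg⟩⟩
    have hcn := hG.center_nontrivial
    obtain ⟨c, hc1⟩ := exists_ne (1 : Subgroup.center G)
    have hc1' : (c : G) ≠ 1 := fun h => hc1 (Subtype.ext h)
    obtain ⟨k, hk, hk1⟩ := hpow (c : G) hc1'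
    refine ⟨(c : G) ^ k, ?_, hk, hk1⟩
    intro g
    exact (Commute.pow_right (Subgroup.mem_center_iff.1 c.2 g) _).eq
  have hzneg : ∀ v : V, ρ z v = -v := central_neg ρ hρ hT h2 z hzc hz2 hz1
  have hzuniq : ∀ t : G, (∀ g : G, g * t = t * g) → t ^ 2 = 1 → t ≠ 1 → t = z := by
    intro t htc ht2 ht1
    apply hρ
    ext v
    rw [central_neg ρ hρ hT h2 t htc ht2 ht1 v, hzneg v]
  by_cases huniq : ∀ t : G, t ^ 2 = 1 → t = 1 ∨ t = z
  · -- a unique involution
    left
    constructor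
    · have hS := Cfsg.Agent.S0016.result 2 hG (by
        intro H K hH hK
        obtain ⟨h, hh1, hh2, rfl⟩ := exists_gen_of_card_two H hH
        obtain ⟨k, hk1, hk2, rfl⟩ := exists_gen_of_card_two K hK
        rw [(huniq h hh2).resolve_left hh1, (huniq k hk2).resolve_left hk1])
      rcases hS with h | ⟨-, n, hn⟩
      · exact Or.inl h
      · exact Or.inr ⟨2 ^ n, hn⟩
    · intro v hv g hgv
      by_contra hg1
      obtain ⟨k, hk, hk1⟩ := hpow g hg1
      have h5 := (huniq _ hk).resolve_left hk1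
      have h6 : ρ z v = v := by rw [← h5]; exact pow_fix ρ g v hgv _
      rw [hzneg] at h6
      exact hv (eq_zero_of_eq_neg h2 v h6.symm)
  push Not at huniq
  obtain ⟨t, ht2, ht1, htz⟩ := huniq
  by_cases hfour : ∃ a : G, a ^ 2 = 1 ∧ a ≠ 1 ∧ a ≠ z ∧
      ∀ g : G, g * a * g⁻¹ = a ∨ g * a * g⁻¹ = a * z
  · obtain ⟨a, ha2, ha1, haz, hconj⟩ := hfour
    rcases four_case ρ hG hρ hT h2 z hzc hz2 hz1 a ha2 ha1 haz hconj with h | h
    · right; right; left; exact h
    · right; right; right; exact ⟨h.1, h.2, rfl⟩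
  -- no normal four-group: every normal abelian subgroup is cyclic
  have hn : ∀ A : Subgroup G, A.Normal → IsMulCommutative A → IsCyclic A := by
    intro A hAn hAc
    by_contra hAnc
    obtain ⟨z', w, hz'1, hw1, hwz, hz'2, hw2, hz'c, hwconj⟩ :=
      exists_normal_four' hG A hAn hAc hAnc
    have hzz' : z' = z := hzuniq z' hz'c hz'2 hz'1
    rw [hzz'] at hwz hwconj
    exact hfour ⟨w, hw2, hw1, hwz, hwconj⟩
  have hm : ∃ B : Subgroup G, IsMulCommutative B ∧ ¬ IsCyclic B := by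
    have hcomm : ∀ a ∈ ({z, t} : Set G), ∀ b ∈ ({z, t} : Set G), a * b = b * a := by
      intro a ha b hb
      rcases ha with rfl | rfl <;> rcases hb with rfl | rfl
      · rfl
      · exact (hzc b).symm
      · exact hzc a
      · rfl
    refine ⟨Subgroup.closure {z, t}, Subgroup.isMulCommutative_closure hcomm, ?_⟩
    intro hcyc
    have hzB : z ∈ Subgroup.closure ({z, t} : Set G) := Subgroup.subset_closure (Or.inl rfl)
    have htB : t ∈ Subgroup.closure ({z, t} : Set G) := Subgroup.subset_closure (Or.inr rfl)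
    have h5 := Cfsg.Agent.Lib.Helper12.eq_of_sq_eq_one_of_isCyclic
      (A := Subgroup.closure ({z, t} : Set G)) (a := ⟨t, htB⟩) (b := ⟨z, hzB⟩)
      (Subtype.ext (by rw [Subgroup.coe_pow]; exact ht2))
      (Subtype.ext (by rw [Subgroup.coe_pow]; exact hz2))
      (fun h => ht1 (congrArg Subtype.val h)) (fun h => hz1 (congrArg Subtype.val h))
    exact htz (congrArg Subtype.val h5)
  obtain ⟨-, hcases⟩ := Cfsg.Agent.S0519.result 2 hG hn hm
  obtain ⟨k, hk⟩ := IsPGroup.iff_card.1 hG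
  rcases hcases with ⟨n, ⟨e⟩⟩ | ⟨n, hn8, ⟨e⟩⟩ | hsd
  · -- quaternion: impossible
    exfalso
    have hn0 : n ≠ 0 := by
      rintro rfl
      have hfin : Finite (QuaternionGroup 0) := Finite.of_equiv G e.toEquiv
      have hinf : Infinite (QuaternionGroup 0) :=
        Infinite.of_injective (fun i : ℤ => (QuaternionGroup.a i : QuaternionGroup 0))
          (fun i j h => QuaternionGroup.a.inj h)
      exact not_finite (QuaternionGroup 0)
    have : NeZero n := ⟨hn0⟩
    have h5 := quat_invol (e t) (e z) (by rw [← map_pow, ht2, map_one])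
      (by rw [← map_pow, hz2, map_one]) (fun h => ht1 (e.injective (by rw [h, map_one])))
      (fun h => hz1 (e.injective (by rw [h, map_one])))
    exact htz (e.injective h5)
  · -- dihedral
    right; left
    have hcardG : Nat.card G = 2 * n := by
      rw [Nat.card_congr e.toEquiv, DihedralGroup.nat_card]
    obtain ⟨m, hm'⟩ : ∃ m : ℕ, n = 2 ^ m := by
      have h5 : n ∣ 2 ^ k := by rw [← hk, hcardG]; exact dvd_mul_left n 2
      obtain ⟨m, -, hm'⟩ := (Nat.dvd_prime_pow Nat.prime_two).1 h5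
      exact ⟨m, hm'⟩
    subst hm'
    have hm3 : 3 ≤ m := by
      by_contra h
      have h5 : 2 ^ m ≤ 2 ^ 2 := Nat.pow_le_pow_right (by norm_num) (by omega)
      omega
    obtain ⟨x, hx⟩ : ∃ x : G, x = e.symm (DihedralGroup.r 1) := ⟨_, rfl⟩
    obtain ⟨y, hy⟩ : ∃ y : G, y = e.symm (DihedralGroup.sr 0) := ⟨_, rfl⟩
    have hxo : orderOf x = 2 ^ m := by
      rw [hx, MulEquiv.orderOf_eq, DihedralGroup.orderOf_r_one]
    have hy2 : y ^ 2 = 1 := by
      rw [hy, ← map_pow, sq, DihedralGroup.sr_mul_self, map_one]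
    have hyx : y * x * y⁻¹ = x⁻¹ := by
      have hD : (DihedralGroup.sr 0 * DihedralGroup.r 1 * (DihedralGroup.sr 0)⁻¹ :
          DihedralGroup (2 ^ m)) = (DihedralGroup.r 1)⁻¹ := by
        simp
      rw [hx, hy, ← map_inv, ← map_mul, ← map_mul, ← map_inv, hD]
    have hyC : y ∉ Subgroup.zpowers x := by
      intro hmem
      obtain ⟨i, hi⟩ := Subgroup.mem_zpowers_iff.1 hmem
      have h5 : y * x * y⁻¹ = x := by
        rw [← hi, ← zpow_add_one, ← zpow_neg, ← zpow_add]
        have : i + 1 + -i = 1 := by ring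
        rw [this, zpow_one]
      rw [hyx] at h5
      have h6 : x ^ 2 = 1 := by
        rw [sq]
        nth_rewrite 1 [← h5]
        exact inv_mul_cancel x
      have h7 := orderOf_dvd_of_pow_eq_one h6
      rw [hxo] at h7
      have h8 := Nat.le_of_dvd (by norm_num) h7
      have h9 : 2 ^ 3 ≤ 2 ^ m := Nat.pow_le_pow_right (by norm_num) hm3
      omega
    obtain ⟨hV, j, hqj, hjD, -⟩ := dsd_case ρ hG hρ hT h2 x y m hm3 hxo
      (by rw [hcardG, pow_succ, mul_comm]) hy2 hyC (Or.inl hyx)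
    have hjm := hjD hyx
    subst hjm
    exact ⟨hV, j, hqj, Or.inl ⟨e⟩⟩
  · -- quasidihedral
    right; left
    obtain ⟨n, hn3, hcardG, x, y, hxo, hyo, hyx⟩ := hsd
    have hy2 : y ^ 2 = 1 := by rw [← hyo]; exact pow_orderOf_eq_one y
    have hpos : 1 ≤ 2 ^ (n - 1) := Nat.one_le_two_pow
    have hyx' : y * x * y⁻¹ = x⁻¹ * x ^ (2 ^ (n - 1)) := by
      rw [hyx]
      have e1 : x ^ (2 ^ (n - 1)) = x * x ^ (2 ^ (n - 1) - 1) := by
        rw [← pow_succ']
        congr 1
        omega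
      rw [e1, inv_mul_cancel_left]
    have hyC : y ∉ Subgroup.zpowers x := by
      intro hmem
      obtain ⟨i, hi⟩ := Subgroup.mem_zpowers_iff.1 hmem
      have h5 : y * x * y⁻¹ = x := by
        rw [← hi, ← zpow_add_one, ← zpow_neg, ← zpow_add]
        have : i + 1 + -i = 1 := by ring
        rw [this, zpow_one]
      rw [hyx] at h5
      -- x ^ (2^(n-1) - 1) = x, so x ^ (2^(n-1) - 2) = 1
      have h6 : x ^ (2 ^ (n - 1) - 2) = 1 := by
        have h10 : 4 ≤ 2 ^ (n - 1) := by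
          calc 4 = 2 ^ 2 := by norm_num
            _ ≤ 2 ^ (n - 1) := Nat.pow_le_pow_right (by norm_num) (by omega)
        have e1 : x ^ (2 ^ (n - 1) - 1) = x ^ (2 ^ (n - 1) - 2) * x := by
          rw [← pow_succ]
          congr 1
          omega
        rw [e1] at h5
        exact mul_eq_right.1 h5
      have h7 := orderOf_dvd_of_pow_eq_one h6
      rw [hxo] at h7
      have h10 : 4 ≤ 2 ^ (n - 1) := by
        calc 4 = 2 ^ 2 := by norm_num
          _ ≤ 2 ^ (n - 1) := Nat.pow_le_pow_right (by norm_num) (by omega)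
      have h8 := Nat.le_of_dvd (by omega) h7
      have h9 : 2 ^ n = 2 * 2 ^ (n - 1) := by
        rw [← pow_succ']
        congr 1
        omega
      omega
    obtain ⟨hV, j, hqj, -, hjSD⟩ := dsd_case ρ hG hρ hT h2 x y n hn3 hxo hcardG hy2 hyC
      (Or.inr hyx')
    have hjn := hjSD hyx'
    subst hjn
    refine ⟨hV, n - 1, hqj, Or.inr ⟨⟨n, hn3, hcardG, x, y, hxo, hyo, hyx⟩, ?_⟩⟩
    rw [hcardG]
    congr 1
    omega

end Cfsg.Agent.S3371
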