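import Cfsg.Statements.S3380
import Cfsg.Agent.Lib.Helper62.PImprim
import Mathlib

set_option autoImplicit false
set_option maxHeartbeats 800000
open Cfsg

namespace Cfsg.Agent.S3380

open Cfsg.Agent.Lib.Helper62.PImprim

/-- Let a finite p-group G act faithfully and irreducibly on a non-trivial finite vector space V over the field with q elements (q prime), and suppose G is not cyclic, generalized quaternion, dihedral or semidihedral. Then G has a subgroup H of index p and V is the direct sum of p subspaces, each invariant under H, on none of which H acts faithfully, and which every element of G outside H permutes in a single p-cycle. -/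
theorem result
    (q : ℕ) [Fact q.Prime] {V : Type*} [AddCommGroup V] [Module (ZMod q) V] [Finite V] [Nontrivial V]
    {G : Type*} [Group G] [Finite G] (p : ℕ) [Fact p.Prime] (hG : IsPGroup p G)
    (ρ : G →* (V ≃ₗ[ZMod q] V)) (hρ : Function.Injective ρ)
    (hirr : ∀ W : Submodule (ZMod q) V, (∀ g : G, ∀ w ∈ W, ρ g w ∈ W) → W = ⊥ ∨ W = ⊤)
    (hnc : ¬ IsCyclic G) (hnq : ∀ n : ℕ, ¬ Nonempty (G ≃* QuaternionGroup n))
    (hnd : ∀ n : ℕ, ¬ Nonempty (G ≃* DihedralGroup n)) (hnsd : ¬ Cfsg.IsQuasiDihedral G) :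
    ∃ (H : Subgroup G) (W : Fin p → Submodule (ZMod q) V), H.index = p ∧
      iSup W = ⊤ ∧ iSupIndep W ∧
      (∀ h ∈ H, ∀ i, ∀ w ∈ W i, ρ h w ∈ W i) ∧
      (∀ i, ∃ h ∈ H, h ≠ 1 ∧ ∀ w ∈ W i, ρ h w = w) ∧
      ∀ g : G, g ∉ H → ∃ σ : Equiv.Perm (Fin p), orderOf σ = p ∧ ∀ i, (W i).map (ρ g : V →ₗ[ZMod q] V) = W (σ i) := by
  classical
  have hp := (Fact.out : p.Prime)
  have hq := (Fact.out : q.Prime)
  haveI : NeZero p := ⟨hp.ne_zero⟩
  haveI : Nontrivial G :=
    not_subsingleton_iff_nontrivial.mp (fun hs => hnc (@isCyclic_of_subsingleton _ _ hs))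
  -- p ≠ q
  have hpq : p ≠ q := by
    intro hpq
    subst hpq
    letI : MulAction G V := MulAction.compHom V ρ
    have hsmul : ∀ (g : G) (v : V), g • v = ρ g v := fun g v => rfl
    have hdvd : p ∣ Nat.card V := by
      obtain ⟨v, hv⟩ := exists_ne (0 : V)
      have h1 : p • v = 0 := by
        rw [← Nat.cast_smul_eq_nsmul (ZMod p), ZMod.natCast_self, zero_smul]
      have h2 : addOrderOf v ∣ p := addOrderOf_dvd_of_nsmul_eq_zero h1
      rcases (Nat.dvd_prime hp).mp h2 with h3 | h3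
      · exact absurd (AddMonoid.addOrderOf_eq_one_iff.mp h3) hv
      · rw [← h3]; exact addOrderOf_dvd_natCard v
    have h0 : (0 : V) ∈ MulAction.fixedPoints G V := by
      intro g
      rw [hsmul, map_zero]
    obtain ⟨w, hw, hw0⟩ := hG.exists_fixed_point_of_prime_dvd_card_of_fixed_point V hdvd h0
    let FG : Submodule (ZMod p) V := ⨅ g : G, fixS ρ g
    have hwFG : w ∈ FG := by
      rw [Submodule.mem_iInf]
      intro g
      rw [mem_fixS, ← hsmul]
      exact hw g
    have hinv : ∀ g : G, ∀ u ∈ FG, ρ g u ∈ FG := by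
      intro g u hu
      have : ρ g u = u := (mem_fixS ρ g u).mp ((Submodule.mem_iInf _).mp hu g)
      rw [this]; exact hu
    rcases hirr FG hinv with h | h
    · rw [h, Submodule.mem_bot] at hwFG
      exact hw0 hwFG.symm
    · obtain ⟨g, hg⟩ := exists_ne (1 : G)
      apply hg
      apply hρ
      rw [map_one]
      ext v
      have : v ∈ FG := by rw [h]; trivial
      exact (mem_fixS ρ g v).mp ((Submodule.mem_iInf _).mp this g)
  have psmul : ∀ u : V, p • u = 0 → u = 0 := by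
    intro u h
    rw [← Nat.cast_smul_eq_nsmul (ZMod q)] at h
    have hpz : (p : ZMod q) ≠ 0 := by
      rw [Ne, ZMod.natCast_eq_zero_iff]
      intro hd
      exact hpq ((Nat.prime_dvd_prime_iff_eq hq hp).mp hd).symm
    exact (smul_eq_zero.mp h).resolve_left hpz
  -- the normal elementary abelian subgroup E of order p ^ 2
  obtain ⟨E, hEn, hEe, hEc⟩ := exists_normal_sq p hG hnc hnq hnd hnsd
  haveI := hEn
  haveI : Group.IsNilpotent G := hG.isNilpotent
  have hp2 : p < p ^ 2 := by nlinarith [hp.one_lt]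
  have hp2le := hp.two_le
  have hEbot : ¬ E ≤ ⊥ := by
    intro h
    have := Subgroup.card_le_of_le h
    rw [hEc, Subgroup.card_bot] at this
    omega
  obtain ⟨z, hzE, hz1, hzc⟩ := Cfsg.Agent.Lib.Helper31.exists_central_mod (C := E) (A := ⊥) hEbot
  have hz1' : z ≠ 1 := fun h => hz1 (by rw [h]; exact Subgroup.one_mem _)
  have hzcen : z ∈ Subgroup.center G := by
    rw [Subgroup.mem_center_iff]
    intro g
    have h1 := Subgroup.mem_bot.mp (hzc g)
    have h2 : z * g * z⁻¹ = g := mul_inv_eq_one.mp h1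
    calc g * z = z * g * z⁻¹ * z := by rw [h2]
      _ = z * g := by group
  have hzp : z ^ p = 1 := hEe.2 z hzE
  have hzo : orderOf z = p := orderOf_eq_prime hzp hz1'
  have hzpow_c : ∀ n : ℕ, z ^ n ∈ Subgroup.center G := fun n => Subgroup.pow_mem _ hzcen n
  have hzcomm : ∀ (n : ℕ) (a : G), a * z ^ n = z ^ n * a :=
    fun n a => Subgroup.mem_center_iff.mp (hzpow_c n) a
  have hEz : ¬ E ≤ Subgroup.zpowers z := by
    intro h
    have := Subgroup.card_le_of_le h
    rw [hEc, Nat.card_zpowers, hzo] at this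
    omega
  obtain ⟨x, hxE, hxz, hxc⟩ :=
    Cfsg.Agent.Lib.Helper31.exists_central_mod (C := E) (A := Subgroup.zpowers z) hEz
  -- the element c
  obtain ⟨v, hv⟩ := exists_ne (0 : V)
  have hpv : p • v ≠ 0 := fun h => hv (psmul v h)
  have hkey := key_sum ρ hρ hirr p hp hzcen hzo (x := x) v
  obtain ⟨j, -, hSj⟩ := Finset.exists_ne_zero_of_sum_ne_zero (by rw [hkey]; exact hpv)
  obtain ⟨c, hcdef⟩ : ∃ c : G, c = x * z ^ j := ⟨_, rfl⟩
  rw [← hcdef] at hSj
  have hcE : c ∈ E := by rw [hcdef]; exact E.mul_mem hxE (E.pow_mem hzE j)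
  have hcp : c ^ p = 1 := hEe.2 c hcE
  have hFc : fixS ρ c ≠ ⊥ := by
    intro h
    have := S_mem ρ p c hcp v
    rw [h, Submodule.mem_bot] at this
    exact hSj this
  have hc1 : c ≠ 1 := by
    intro h
    apply hxz
    rw [hcdef] at h
    have : x = (z ^ j)⁻¹ := eq_inv_of_mul_eq_one_left h
    rw [this]
    exact Subgroup.inv_mem _ (Subgroup.pow_mem _ (Subgroup.mem_zpowers z) j)
  have hcnc : c ∉ Subgroup.center G := fun h => hFc (fixS_central ρ hρ hirr h hc1)
  have hcomm : ∀ g : G, g * c * g⁻¹ * c⁻¹ ∈ Subgroup.zpowers z := by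
    intro g
    have h1 : g * c * g⁻¹ * c⁻¹ = (x * g * x⁻¹ * g⁻¹)⁻¹ := by
      obtain ⟨w, hw⟩ : ∃ w : G, w = z ^ j := ⟨_, rfl⟩
      have hwg : g⁻¹ * w = w * g⁻¹ := by rw [hw]; exact hzcomm j g⁻¹
      rw [hcdef, ← hw]
      calc g * (x * w) * g⁻¹ * (x * w)⁻¹ = g * x * (w * g⁻¹) * (w⁻¹ * x⁻¹) := by group
        _ = g * x * (g⁻¹ * w) * (w⁻¹ * x⁻¹) := by rw [hwg]
        _ = (x * g * x⁻¹ * g⁻¹)⁻¹ := by group
    rw [h1]
    exact Subgroup.inv_mem _ (hxc g)
  have hzle : Subgroup.zpowers z ≤ Subgroup.center G := Subgroup.zpowers_le.mpr hzcen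
  -- the homomorphism g ↦ [g, c]
  let φ : G →* G := MonoidHom.mk' (fun g => g * c * g⁻¹ * c⁻¹) (by
    intro a b
    have hb' := Subgroup.mem_center_iff.mp (hzle (hcomm b))
    calc a * b * c * (a * b)⁻¹ * c⁻¹
        = a * (b * c * b⁻¹ * c⁻¹) * (c * a⁻¹ * c⁻¹) := by group
      _ = (b * c * b⁻¹ * c⁻¹) * a * (c * a⁻¹ * c⁻¹) := by rw [hb' a]
      _ = (b * c * b⁻¹ * c⁻¹) * (a * c * a⁻¹ * c⁻¹) := by group
      _ = (a * c * a⁻¹ * c⁻¹) * (b * c * b⁻¹ * c⁻¹) := (hb' _).symm)
  have hφ : ∀ g : G, φ g = g * c * g⁻¹ * c⁻¹ := fun g => rfl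
  have hHmem : ∀ g : G, g ∈ φ.ker ↔ g * c * g⁻¹ = c := by
    intro g
    rw [MonoidHom.mem_ker, hφ, mul_inv_eq_one]
  have hrange_le : φ.range ≤ Subgroup.zpowers z := by
    rintro _ ⟨g, rfl⟩
    exact hcomm g
  have hrange_ne : φ.range ≠ ⊥ := by
    intro h
    apply hcnc
    rw [Subgroup.mem_center_iff]
    intro g
    have h1 : φ g ∈ φ.range := ⟨g, rfl⟩
    rw [h, Subgroup.mem_bot, hφ, mul_inv_eq_one] at h1
    calc g * c = g * c * g⁻¹ * g := by group
      _ = c * g := by rw [h1]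
  have hidx : φ.ker.index = p := by
    rw [Subgroup.index_ker]
    have h1 : Nat.card φ.range ∣ p := by
      have := Subgroup.card_dvd_of_le hrange_le
      rwa [Nat.card_zpowers, hzo] at this
    rcases (Nat.dvd_prime hp).mp h1 with h | h
    · exact absurd (Subgroup.card_eq_one.mp h) hrange_ne
    · exact h
  have hpowz : ∀ g : G, ∃ k : ℕ, g * c * g⁻¹ = z ^ k * c := by
    intro g
    obtain ⟨k, hk⟩ := ((isOfFinOrder_of_finite z).mem_powers_iff_mem_zpowers).mpr (hcomm g)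
    refine ⟨k, ?_⟩
    have hk' : z ^ k = g * c * g⁻¹ * c⁻¹ := hk
    rw [hk']
    group
  -- the subspaces
  let W : Fin p → Submodule (ZMod q) V := fun i => fixS ρ (z ^ (i : ℕ) * c)
  have hWdef : ∀ i : Fin p, W i = fixS ρ (z ^ (i : ℕ) * c) := fun i => rfl
  have hzmod : ∀ n : ℕ, z ^ (n % p) = z ^ n := by
    intro n
    have := pow_mod_orderOf z n
    rwa [hzo] at this
  have hmap : ∀ (g : G) (k : ℕ), g * c * g⁻¹ = z ^ k * c → ∀ i : Fin p,
      (W i).map ((ρ g : V ≃ₗ[ZMod q] V) : V →ₗ[ZMod q] V) = W (i + Fin.ofNat p k) := by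
    intro g k hk i
    rw [hWdef, hWdef, map_fixS]
    congr 1
    have h1 : ((i + Fin.ofNat p k : Fin p) : ℕ) = ((i : ℕ) + k) % p := by
      rw [Fin.val_add, Fin.val_ofNat, Nat.add_mod_mod]
    rw [h1, hzmod, pow_add]
    calc g * (z ^ (i : ℕ) * c) * g⁻¹ = (g * z ^ (i : ℕ)) * c * g⁻¹ := by group
      _ = z ^ (i : ℕ) * g * c * g⁻¹ := by rw [hzcomm (i : ℕ) g]
      _ = z ^ (i : ℕ) * (g * c * g⁻¹) := by group
      _ = z ^ (i : ℕ) * z ^ k * c := by rw [hk]; group
  have hdisj : ∀ m n : ℕ, m < n → n < p → ∀ y : V, y ∈ fixS ρ (z ^ m * c) → y ∈ fixS ρ (z ^ n * c) →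
      y = 0 := by
    intro m n hmn hnp y hm hn
    have h1 := fixS_mul_inv ρ hm hn
    have h2 : z ^ n * c * (z ^ m * c)⁻¹ = z ^ (n - m) := by
      have : z ^ n = z ^ (n - m) * z ^ m := by rw [← pow_add]; congr 1; omega
      rw [this]; group
    rw [h2] at h1
    have h3 : z ^ (n - m) ≠ 1 :=
      pow_ne_one_of_lt_orderOf (by omega) (by rw [hzo]; omega)
    rw [fixS_central ρ hρ hirr (hzpow_c _) h3, Submodule.mem_bot] at h1
    exact h1
  have hcip : ∀ n : ℕ, (z ^ n * c) ^ p = 1 := fun n =>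
    hEe.2 _ (E.mul_mem (E.pow_mem hzE n) hcE)
  refine ⟨φ.ker, W, hidx, ?_, ?_, ?_, ?_, ?_⟩
  · -- sum is everything
    have hinv : ∀ g : G, ∀ w ∈ iSup W, ρ g w ∈ iSup W := by
      intro g w hw
      obtain ⟨k, hk⟩ := hpowz g
      have h1 : (iSup W).map ((ρ g : V ≃ₗ[ZMod q] V) : V →ₗ[ZMod q] V) ≤ iSup W := by
        rw [Submodule.map_iSup]
        exact iSup_le fun i => by rw [hmap g k hk i]; exact le_iSup W _
      exact h1 (Submodule.mem_map_of_mem hw)
    rcases hirr _ hinv with h | h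
    · exfalso
      apply hFc
      have h1 : W 0 ≤ iSup W := le_iSup W 0
      rw [h, le_bot_iff, hWdef] at h1
      simpa using h1
    · exact h
  · -- independence
    rw [iSupIndep_def]
    intro i
    rw [Submodule.disjoint_def]
    intro y hy1 hy2
    let T : V →ₗ[ZMod q] V :=
      ∑ k ∈ Finset.range p, ((ρ ((z ^ (i : ℕ) * c) ^ k) : V ≃ₗ[ZMod q] V) : V →ₗ[ZMod q] V)
    have hT : ∀ u : V, T u = S ρ p (z ^ (i : ℕ) * c) u := by
      intro u
      simp [T, S, LinearMap.sum_apply]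
    have hker : (⨆ (j) (_ : j ≠ i), W j) ≤ LinearMap.ker T := by
      refine iSup_le fun j => iSup_le fun hji => ?_
      intro u hu
      rw [LinearMap.mem_ker, hT]
      have h1 : S ρ p (z ^ (i : ℕ) * c) u ∈ fixS ρ (z ^ (i : ℕ) * c) := S_mem ρ p _ (hcip _) u
      have h2 : S ρ p (z ^ (i : ℕ) * c) u ∈ fixS ρ (z ^ (j : ℕ) * c) := by
        rw [hWdef, mem_fixS] at hu
        rw [mem_fixS, S, map_sum]
        refine Finset.sum_congr rfl fun k _ => ?_
        have hcm : Commute (z ^ (j : ℕ) * c) (z ^ (i : ℕ) * c) := by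
          show z ^ (j : ℕ) * c * (z ^ (i : ℕ) * c) = z ^ (i : ℕ) * c * (z ^ (j : ℕ) * c)
          rw [← hzcomm (j : ℕ) c, ← hzcomm (i : ℕ) c]
          calc c * z ^ (j : ℕ) * (c * z ^ (i : ℕ)) = c * (z ^ (j : ℕ) * c) * z ^ (i : ℕ) := by group
            _ = c * (c * z ^ (j : ℕ)) * z ^ (i : ℕ) := by rw [hzcomm (j : ℕ) c]
            _ = c * c * (z ^ (j : ℕ) * z ^ (i : ℕ)) := by group
            _ = c * c * (z ^ (i : ℕ) * z ^ (j : ℕ)) := by rw [← pow_add, ← pow_add, add_comm]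
            _ = c * (c * z ^ (i : ℕ)) * z ^ (j : ℕ) := by group
            _ = c * (z ^ (i : ℕ) * c) * z ^ (j : ℕ) := by rw [hzcomm (i : ℕ) c]
            _ = c * z ^ (i : ℕ) * (c * z ^ (j : ℕ)) := by group
        rw [← rho_mul, (hcm.pow_right k).eq, rho_mul, hu]
      have hij : (i : ℕ) ≠ (j : ℕ) := fun h => hji (Fin.ext h).symm
      rcases Nat.lt_or_gt_of_ne hij with h | h
      · exact hdisj _ _ h j.2 _ h1 h2
      · exact hdisj _ _ h i.2 _ h2 h1
    have h1 : T y = 0 := LinearMap.mem_ker.mp (hker hy2)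
    have h2 : T y = p • y := by
      rw [hT]
      exact S_of_mem ρ p _ y hy1
    exact psmul y (by rw [← h2, h1])
  · -- H-invariance
    intro h hh i w hw
    have h1 : h * c * h⁻¹ = z ^ 0 * c := by
      rw [pow_zero, one_mul]
      exact (hHmem h).mp hh
    have h2 := hmap h 0 h1 i
    have h3 : Fin.ofNat p 0 = (0 : Fin p) := Fin.ext (by rw [Fin.val_ofNat]; simp)
    rw [h3, add_zero] at h2
    rw [← h2]
    exact Submodule.mem_map_of_mem hw
  · -- non-faithful
    intro i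
    refine ⟨z ^ (i : ℕ) * c, ?_, ?_, ?_⟩
    · rw [hHmem]
      calc z ^ (i : ℕ) * c * c * (z ^ (i : ℕ) * c)⁻¹ = (z ^ (i : ℕ) * c) * (z ^ (i : ℕ))⁻¹ := by group
        _ = (c * z ^ (i : ℕ)) * (z ^ (i : ℕ))⁻¹ := by rw [hzcomm (i : ℕ) c]
        _ = c := by group
    · intro h
      apply hcnc
      have : c = (z ^ (i : ℕ))⁻¹ := eq_inv_of_mul_eq_one_right h
      rw [this]
      exact Subgroup.inv_mem _ (hzpow_c _)
    · intro w hw
      exact (mem_fixS ρ _ w).mp hw
  · -- permutation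
    intro g hg
    obtain ⟨k, hk⟩ := hpowz g
    have hk0 : Fin.ofNat p k ≠ 0 := by
      intro h0
      have h0' : k % p = 0 := by
        have := congrArg Fin.val h0
        rwa [Fin.val_ofNat, Fin.val_zero] at this
      apply hg
      rw [hHmem, hk]
      obtain ⟨m, rfl⟩ := Nat.dvd_of_mod_eq_zero h0'
      rw [pow_mul, hzp, one_pow, one_mul]
    refine ⟨Equiv.addRight (Fin.ofNat p k), ?_, ?_⟩
    · apply orderOf_eq_prime
      · rw [Equiv.nsmul_addRight]
        have : p • (Fin.ofNat p k : Fin p) = 0 := by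
          have := card_nsmul_eq_zero (x := (Fin.ofNat p k : Fin p))
          rwa [Fintype.card_fin] at this
        rw [this]
        exact Equiv.addRight_zero
      · intro h
        apply hk0
        have := congrArg (fun σ : Equiv.Perm (Fin p) => σ 0) h
        simpa using this
    · intro i
      rw [hmap g k hk i]
      rfl

end Cfsg.Agent.S3380
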