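import Cfsg.Statements.S3385
import Cfsg.Agent.Lib.Helper81.SimsFront
import Cfsg.Agent.Lib.Helper81.SimsMid
import Cfsg.Agent.Lib.Helper81.SimsBridge
import Cfsg.Agent.Lib.Helper81.SimsOdd
import Cfsg.Agent.Lib.Helper55.TutMain

set_option autoImplicit false
open Cfsg

namespace Cfsg.Agent.S3385

/-- Sims' Theorem on primitive groups with a suborbit of length 3. Let G be a finite group acting faithfully and primitively on a set Ω, and suppose the stabilizer of a point a has an orbit of length 3 on Ω. Then the stabilizer of a has order 2^k · 3 for some k ≤ 4. -/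
theorem result {G : Type*} [Group G] [Finite G] {Ω : Type*} [MulAction G Ω] [FaithfulSMul G Ω]
    (hprim : MulAction.IsPreprimitive G Ω) (a b : Ω)
    (h3 : Nat.card (MulAction.orbit (MulAction.stabilizer G a) b) = 3) :
    ∃ k : ℕ, k ≤ 4 ∧ Nat.card ↥(MulAction.stabilizer G a) = 2 ^ k * 3 := by
  exact Cfsg.Agent.Lib.Helper81.Sims.sims_of_GT
    (Cfsg.Agent.Lib.Helper81.Sims.GT_of_tutte_odd
      (Cfsg.Agent.Lib.Helper81.Sims.tutteStmt_of_groupForm
        (fun G _ _ H K t => Cfsg.Agent.Lib.Helper55.TUT.tutte_group_form H K t))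
      Cfsg.Agent.Lib.Helper81.Sims.odd_main) hprim a b h3

end Cfsg.Agent.S3385
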