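import Cfsg.Statements.S3389
import Mathlib

set_option autoImplicit false
open Cfsg

namespace Cfsg.Agent.S3389

open MulAction

lemma lemX {G : Type*} [Group G] [Finite G] {Ω : Type*} [Finite Ω] [MulAction G Ω]
    (k p : ℕ) [Fact p.Prime] (hkp : k < p)
    (hfix : ∀ g : G, g ≠ 1 → Nat.card (fixedBy Ω g) ≤ k)
    (Q : Subgroup G) (hQ : IsPGroup p Q) (α : Ω) (hne : Q ⊓ stabilizer G α ≠ ⊥) :
    Q ≤ stabilizer G α := by
  by_contra hle
  set D : Subgroup G := Q ⊓ stabilizer G α with hD
  have hDQ : D ≤ Q := inf_le_left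
  have hDS : D ≤ stabilizer G α := inf_le_right
  obtain ⟨⟨d₀, hd₀D⟩, hd₀1⟩ := (Subgroup.ne_bot_iff_exists_ne_one).mp hne
  have hd₀ : d₀ ≠ 1 := fun h => hd₀1 (Subtype.ext h)
  have hD' : D.subgroupOf Q < ⊤ := by
    rw [lt_top_iff_ne_top, Ne, Subgroup.subgroupOf_eq_top]
    intro h
    exact hle (h.trans hDS)
  have : Group.IsNilpotent Q := hQ.isNilpotent
  have hnc : NormalizerCondition Q := Group.normalizerCondition_of_isNilpotent
  have hlt := hnc _ hD'
  obtain ⟨n, hnN, hnD⟩ := SetLike.exists_of_lt hlt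
  let N : Subgroup Q := Subgroup.normalizer ((D.subgroupOf Q : Subgroup Q) : Set Q)
  have hNp : IsPGroup p N := hQ.to_subgroup N
  -- the orbit of α under N lies in the fixed points of d₀
  have hsub : (orbit N α) ⊆ fixedBy Ω d₀ := by
    rintro ω ⟨m, rfl⟩
    have hm : (m : Q) ∈ Subgroup.normalizer ((D.subgroupOf Q : Subgroup Q) : Set Q) := m.2
    rw [Subgroup.mem_normalizer_iff''] at hm
    have h1 : (⟨d₀, hDQ hd₀D⟩ : Q) ∈ D.subgroupOf Q := by
      rw [Subgroup.mem_subgroupOf]; exact hd₀D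
    have h2 := (hm ⟨d₀, hDQ hd₀D⟩).mp h1
    rw [Subgroup.mem_subgroupOf] at h2
    have h3 : (((m : Q) : G))⁻¹ * d₀ * ((m : Q) : G) ∈ stabilizer G α := hDS h2
    rw [mem_stabilizer_iff] at h3
    rw [mem_fixedBy]
    show d₀ • (((m : Q) : G) • α) = ((m : Q) : G) • α
    have h4 : d₀ • (((m : Q) : G) • α) = ((m : Q) : G) • (((((m : Q) : G))⁻¹ * d₀ * ((m : Q) : G)) • α) := by
      rw [← mul_smul, ← mul_smul]; congr 1; group
    rw [h4, h3]
  obtain ⟨j, hj⟩ := hNp.card_orbit α
  have hcard : Nat.card (orbit N α) ≤ k := by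
    have h1 : Nat.card (orbit N α) ≤ Nat.card (fixedBy Ω d₀) := by
      rw [Nat.card_coe_set_eq, Nat.card_coe_set_eq]
      exact Set.ncard_le_ncard hsub (Set.toFinite _)
    exact h1.trans (hfix d₀ hd₀)
  have hj0 : j = 0 := by
    by_contra h
    have : p ≤ p ^ j := Nat.le_self_pow h p
    omega
  rw [hj0, pow_zero] at hj
  have hss : Subsingleton (orbit N α) := (Nat.card_eq_one_iff_unique.mp hj).1
  have hnα : ((n : Q) : G) • α = α := by
    have h1 : (⟨(⟨n, hnN⟩ : N) • α, mem_orbit α _⟩ : orbit N α) = ⟨α, mem_orbit_self α⟩ :=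
      Subsingleton.elim _ _
    exact congrArg Subtype.val h1
  apply hnD
  rw [Subgroup.mem_subgroupOf]
  exact ⟨n.2, hnα⟩

lemma pow_smul_fix {G : Type*} [Group G] {Ω : Type*} [MulAction G Ω] (g : G) (a : Ω)
    (h : g • a = a) (j : ℕ) : g ^ j • a = a := by
  induction j with
  | zero => simp
  | succ j ih => rw [pow_succ, mul_smul, h, ih]

lemma third_point {Ω : Type*} [Finite Ω] (s : Set Ω) (h : Nat.card s ≤ 2) (a b c : Ω)
    (ha : a ∈ s) (hb : b ∈ s) (hc : c ∈ s) (hab : a ≠ b) : c = a ∨ c = b := by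
  by_contra hcon
  push Not at hcon
  have h3 : ({a, b, c} : Set Ω).ncard = 3 :=
    Set.ncard_eq_three.mpr ⟨a, b, c, hab, fun h => hcon.1 h.symm, fun h => hcon.2 h.symm, rfl⟩
  have hsub : ({a, b, c} : Set Ω) ⊆ s := by
    intro x hx
    rcases hx with rfl | rfl | rfl <;> assumption
  have := Set.ncard_le_ncard hsub (Set.toFinite _)
  rw [Nat.card_coe_set_eq] at h
  omega

theorem result {G : Type*} [Group G] [Finite G] {Ω : Type*} [Fintype Ω] [MulAction G Ω] [FaithfulSMul G Ω]
    (htr : MulAction.IsPretransitive G Ω) (k : ℕ) (hk : 1 ≤ k)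
    (hfix : ∀ g : G, g ≠ 1 → Nat.card (MulAction.fixedBy Ω g) ≤ k) (hex : ∃ g : G, g ≠ 1 ∧ Nat.card (MulAction.fixedBy Ω g) = k) :
    Nat.card (Subgroup.center G) ∣ k ∧ (k = 2 → 2 ∣ Nat.card G) ∧
      ∀ (p : ℕ), p.Prime → k < p → p ∣ Nat.card G → ∀ α : Ω,
        ¬ p ∣ Nat.card (MulAction.stabilizer G α) ∨ ¬ p ∣ (MulAction.stabilizer G α).index := by
  refine ⟨?_, ?_, ?_⟩
  · -- the centre acts freely on the fixed points
    obtain ⟨g, hg1, hgk⟩ := hex
    let S : SubMulAction (Subgroup.center G) Ω :=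
      { carrier := fixedBy Ω g
        smul_mem' := by
          intro c x hx
          rw [mem_fixedBy] at hx ⊢
          show g • ((c : G) • x) = (c : G) • x
          rw [← mul_smul, Subgroup.mem_center_iff.mp c.2 g, mul_smul, hx] }
    have hfree : ∀ b : S, stabilizer (Subgroup.center G) b = ⊥ := by
      intro b
      rw [eq_bot_iff]
      intro c hc
      rw [mem_stabilizer_iff] at hc
      have hc' : (c : G) • (b : Ω) = b := congrArg Subtype.val hc
      rw [Subgroup.mem_bot]
      apply Subtype.ext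
      show (c : G) = 1
      apply FaithfulSMul.eq_of_smul_eq_smul (α := Ω)
      intro ω
      obtain ⟨h, rfl⟩ := MulAction.exists_smul_eq G (b : Ω) ω
      rw [one_smul, ← mul_smul, ← Subgroup.mem_center_iff.mp c.2 h, mul_smul, hc']
    have e := selfEquivOrbitsQuotientProd hfree
    have h1 : Nat.card S = k := hgk
    rw [← h1, Nat.card_congr e, Nat.card_prod]
    exact dvd_mul_left _ _
  · intro hk2
    subst hk2
    obtain ⟨g, hg1, hg2⟩ := hex
    obtain ⟨⟨α, hα⟩, ⟨β, hβ⟩, hne, -⟩ := Nat.card_eq_two_iff.mp hg2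
    have hαβ : α ≠ β := fun h => hne (Subtype.ext h)
    rw [mem_fixedBy] at hα hβ
    have hord1 : orderOf g ≠ 1 := fun h => hg1 (orderOf_eq_one_iff.mp h)
    set p := (orderOf g).minFac with hp
    have hpp : p.Prime := Nat.minFac_prime hord1
    have : Fact p.Prime := ⟨hpp⟩
    have hpd : p ∣ orderOf g := Nat.minFac_dvd _
    set g' := g ^ (orderOf g / p) with hg'
    have hg'ord : orderOf g' = p := orderOf_pow_orderOf_div (orderOf_pos g).ne' hpd
    have hg'1 : g' ≠ 1 := by
      intro h; rw [h, orderOf_one] at hg'ord; exact hpp.one_lt.ne hg'ord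
    by_cases hp2 : p = 2
    · rw [← hp2, ← hg'ord]; exact orderOf_dvd_natCard g'
    have hp3 : 2 < p := lt_of_le_of_ne hpp.two_le (Ne.symm hp2)
    have hg'α : g' • α = α := pow_smul_fix g α hα _
    have hg'β : g' • β = β := pow_smul_fix g β hβ _
    have hthird : ∀ ω : Ω, g' • ω = ω → ω = α ∨ ω = β := by
      intro ω hω
      exact third_point (fixedBy Ω g') (hfix g' hg'1) α β ω hg'α hg'β hω hαβ
    have hP0 : IsPGroup p (Subgroup.zpowers g') := by
      apply IsPGroup.of_card (n := 1)
      rw [Nat.card_zpowers, hg'ord, pow_one]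
    obtain ⟨Q, hQ⟩ := hP0.exists_le_sylow
    have hg'Q : g' ∈ (Q : Subgroup G) := hQ (Subgroup.mem_zpowers g')
    have hQα : (Q : Subgroup G) ≤ stabilizer G α := by
      apply lemX 2 p hp3 hfix Q Q.2 α
      intro h
      have : g' ∈ (Q : Subgroup G) ⊓ stabilizer G α := ⟨hg'Q, hg'α⟩
      rw [h] at this
      exact hg'1 (Subgroup.mem_bot.mp this)
    have hQβ : (Q : Subgroup G) ≤ stabilizer G β := by
      apply lemX 2 p hp3 hfix Q Q.2 β
      intro h
      have : g' ∈ (Q : Subgroup G) ⊓ stabilizer G β := ⟨hg'Q, hg'β⟩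
      rw [h] at this
      exact hg'1 (Subgroup.mem_bot.mp this)
    obtain ⟨x, hx⟩ := MulAction.exists_smul_eq G α β
    have hxQ : ((x • Q : Sylow p G) : Subgroup G) ≤ stabilizer G β := by
      intro w hw
      rw [Sylow.coe_subgroup_smul, Subgroup.mem_pointwise_smul_iff_inv_smul_mem] at hw
      have h1 : x⁻¹ * w * x ∈ (Q : Subgroup G) := by
        simpa [MulAut.smul_def] using hw
      have h2 := hQα h1
      rw [mem_stabilizer_iff] at h2 ⊢
      rw [← hx]
      have h3 : w • x • α = x • ((x⁻¹ * w * x) • α) := by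
        rw [← mul_smul, ← mul_smul]; congr 1; group
      rw [h3, h2]
    obtain ⟨y, hy⟩ := MulAction.exists_smul_eq (stabilizer G β) ((x • Q).subtype hxQ) (Q.subtype hQβ)
    rw [Sylow.smul_subtype] at hy
    have hy' : (((y • (x • Q) : Sylow p G) : Subgroup G)) = (Q : Subgroup G) := by
      have h1 := congrArg (fun P : Sylow p (stabilizer G β) => (P : Subgroup (stabilizer G β))) hy
      simp only [Sylow.coe_subtype] at h1
      rw [Subgroup.subgroupOf_inj] at h1
      rw [inf_of_le_left (Sylow.smul_le hxQ y), inf_of_le_left hQβ] at h1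
      exact h1
    set n : G := (y : G) * x with hn
    have hnQ : ∀ q ∈ (Q : Subgroup G), n⁻¹ * q * n ∈ (Q : Subgroup G) := by
      intro q hq
      rw [← hy'] at hq
      have h1 : (y • (x • Q) : Sylow p G) = n • Q := by
        rw [Subgroup.smul_def, smul_smul]
      rw [h1, Sylow.coe_subgroup_smul, Subgroup.mem_pointwise_smul_iff_inv_smul_mem] at hq
      simpa [MulAut.smul_def] using hq
    have hnα : n • α = β := by
      rw [hn, mul_smul, hx]; exact y.2
    have hnβ : n • β = α := by
      have h1 : g' • (n • β) = n • β := by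
        have h2 := hQβ (hnQ g' hg'Q)
        rw [mem_stabilizer_iff] at h2
        have h3 : g' • n • β = n • ((n⁻¹ * g' * n) • β) := by
          rw [← mul_smul, ← mul_smul]; congr 1; group
        rw [h3, h2]
      rcases hthird _ h1 with h | h
      · exact h
      · exfalso
        have h' : n • β = n • α := h.trans hnα.symm
        exact hαβ (MulAction.injective n h').symm
    have hpow : ∀ j : ℕ, n ^ (2 * j) • α = α ∧ n ^ (2 * j + 1) • α = β := by
      intro j
      induction j with
      | zero => simp [hnα]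
      | succ j ih =>
        have e1 : n ^ (2 * (j + 1)) • α = α := by
          rw [show 2 * (j + 1) = (2 * j + 1) + 1 by ring, pow_succ', mul_smul, ih.2, hnβ]
        refine ⟨e1, ?_⟩
        rw [pow_succ', mul_smul, e1, hnα]
    have heven : Even (orderOf n) := by
      rcases Nat.even_or_odd (orderOf n) with h | h
      · exact h
      · exfalso
        obtain ⟨j, hj⟩ := h
        have h1 := (hpow j).2
        rw [← hj, pow_orderOf_eq_one, one_smul] at h1
        exact hαβ h1
    exact (even_iff_two_dvd.mp heven).trans (orderOf_dvd_natCard n)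
  · intro p hp hkp hpG α
    have : Fact p.Prime := ⟨hp⟩
    by_cases hpS : p ∣ Nat.card (stabilizer G α)
    · right
      obtain ⟨x, hx⟩ := exists_prime_orderOf_dvd_card' p hpS
      have hx1 : (x : G) ≠ 1 := by
        intro h
        have : x = 1 := Subtype.ext h
        rw [this, orderOf_one] at hx
        exact hp.one_lt.ne hx
      have hP0 : IsPGroup p (Subgroup.zpowers (x : G)) := by
        apply IsPGroup.of_card (n := 1)
        rw [Nat.card_zpowers, Subgroup.orderOf_coe, hx, pow_one]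
      obtain ⟨Q, hQ⟩ := hP0.exists_le_sylow
      have hxQ : (x : G) ∈ (Q : Subgroup G) := hQ (Subgroup.mem_zpowers _)
      have hQα : (Q : Subgroup G) ≤ stabilizer G α := by
        apply lemX k p hkp hfix Q Q.2 α
        intro h
        have : (x : G) ∈ (Q : Subgroup G) ⊓ stabilizer G α := ⟨hxQ, x.2⟩
        rw [h] at this
        exact hx1 (Subgroup.mem_bot.mp this)
      intro hdvd
      exact Q.not_dvd_index (hdvd.trans (Subgroup.index_dvd_of_le hQα))
    · exact Or.inl hpS


end Cfsg.Agent.S3389
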