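import Cfsg.Statements.S3391
import Cfsg.Agent.Lib.Helper8.Sz25
import Cfsg.Agent.Lib.Helper27.SzBridge

set_option autoImplicit false
open Cfsg

namespace Cfsg.Agent.S3391

/-- Let q = 2^{2m+1} ≥ 8 and let G be isomorphic to the Suzuki group Sz(q). If G acts faithfully and transitively on a finite set Ω with fixity 2 (every non-identity element fixes at most two points, and some fixes exactly two), then either |Ω| = q² + 1 and the action is 2-transitive, or |Ω| = q²(q² + 1) and the point stabilizers have order q − 1. -/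
theorem result {G : Type*} [Group G] [Finite G] (F : Type) [Field F] [Fintype F] (m : ℕ) (hm : 1 ≤ m) (hF : Fintype.card F = 2 ^ (2 * m + 1))
    (e : G ≃* ↥(Cfsg.Lie.Sz F (2 ^ (m + 1)))) {Ω : Type*} [Fintype Ω] [MulAction G Ω] [FaithfulSMul G Ω] (htr : MulAction.IsPretransitive G Ω)
    (hfix : ∀ g : G, g ≠ 1 → Nat.card (MulAction.fixedBy Ω g) ≤ 2) (hex : ∃ g : G, g ≠ 1 ∧ Nat.card (MulAction.fixedBy Ω g) = 2) :
    (Fintype.card Ω = Fintype.card F ^ 2 + 1 ∧ MulAction.IsMultiplyPretransitive G Ω 2) ∨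
    (Fintype.card Ω = Fintype.card F ^ 2 * (Fintype.card F ^ 2 + 1) ∧ ∀ α : Ω, Nat.card (MulAction.stabilizer G α) = Fintype.card F - 1) := by
  classical
  let φ : G ≃* ↥(Cfsg.Sz F m) := e.trans (Cfsg.Agent.Lib.Helper27.SzBridge.szEquiv hF hm).symm
  let act : MulAction ↥(Cfsg.Sz F m) Ω := MulAction.compHom Ω (φ.symm : ↥(Cfsg.Sz F m) →* G)
  have hsmul : ∀ (s : ↥(Cfsg.Sz F m)) (ω : Ω), s • ω = φ.symm s • ω := fun _ _ => rfl
  have htr' : MulAction.IsPretransitive ↥(Cfsg.Sz F m) Ω := ⟨fun x y => by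
    obtain ⟨g, hg⟩ := MulAction.exists_smul_eq G x y
    exact ⟨φ g, by rw [hsmul, φ.symm_apply_apply]; exact hg⟩⟩
  have hfixedBy : ∀ s : ↥(Cfsg.Sz F m),
      MulAction.fixedBy Ω s = MulAction.fixedBy Ω (φ.symm s) := fun s => rfl
  have hfix' : ∀ s : ↥(Cfsg.Sz F m), s ≠ 1 → (MulAction.fixedBy Ω s).ncard ≤ 2 := by
    intro s hs
    rw [hfixedBy]
    exact hfix (φ.symm s) (fun h => hs (by
      have h2 := congrArg φ h
      rwa [φ.apply_symm_apply, map_one] at h2))
  have hex' : ∃ s : ↥(Cfsg.Sz F m), s ≠ 1 ∧ (MulAction.fixedBy Ω s).ncard = 2 := by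
    obtain ⟨g, hg, hg2⟩ := hex
    refine ⟨φ g, fun h => hg (by
      have h2 := congrArg φ.symm h
      rwa [φ.symm_apply_apply, map_one] at h2), ?_⟩
    rw [hfixedBy, φ.symm_apply_apply]
    exact hg2
  rcases Cfsg.Agent.Lib.Helper8.Sz.fixity_two hF hm htr' hfix' hex' with ⟨h1, h2⟩ | ⟨h1, h2⟩
  · left
    refine ⟨?_, ?_⟩
    · rw [← Nat.card_eq_fintype_card, h1, hF]
    · rw [MulAction.is_two_pretransitive_iff]
      intro a b c d hab hcd
      obtain ⟨s, hs1, hs2⟩ := h2 a b c d hab hcd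
      exact ⟨φ.symm s, hs1, hs2⟩
  · right
    refine ⟨?_, ?_⟩
    · rw [← Nat.card_eq_fintype_card, h1, hF]
    · intro α
      rw [hF, ← h2 α]
      apply Nat.card_congr
      exact Equiv.subtypeEquiv φ.toEquiv (fun g => by
        rw [MulAction.mem_stabilizer_iff, MulAction.mem_stabilizer_iff, hsmul]
        show g • α = α ↔ φ.symm (φ g) • α = α
        rw [φ.symm_apply_apply])

end Cfsg.Agent.S3391
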