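import Cfsg.Statements.S3504
import Mathlib

set_option autoImplicit false
open Cfsg

namespace Cfsg.Agent.S3504

open Equiv

/-- a fixed-point-free permutation of prime order has a determined cycle type -/
theorem type_of {n : ℕ} (g : Perm (Fin n)) (hg : (orderOf g).Prime) (hfix : ∀ i : Fin n, g i ≠ i) :
    orderOf g ∣ n ∧ g.cycleType = Multiset.replicate (n / orderOf g) (orderOf g) := by
  obtain ⟨k, hk⟩ := Perm.cycleType_prime_order hg
  have hsupp : g.support = Finset.univ := by
    ext i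
    simp [Perm.mem_support, hfix i]
  have hsum : g.cycleType.sum = n := by
    rw [Perm.sum_cycleType, hsupp, Finset.card_univ, Fintype.card_fin]
  rw [hk, Multiset.sum_replicate, smul_eq_mul] at hsum
  have hdiv : n / orderOf g = k + 1 :=
    Nat.div_eq_of_eq_mul_left hg.pos hsum.symm
  refine ⟨⟨k + 1, by rw [mul_comm]; exact hsum.symm⟩, ?_⟩
  rw [hk, hdiv]

/-- existence of a fixed-point-free permutation of prime order `p` when `p ∣ n` -/
theorem exists_of {n p : ℕ} (hn : 0 < n) (hp : p.Prime) (hpn : p ∣ n) :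
    ∃ g : Perm (Fin n), orderOf g = p ∧ ∀ i : Fin n, g i ≠ i := by
  have hex : ∃ g : Perm (Fin n), g.cycleType = Multiset.replicate (n / p) p := by
    rw [Perm.exists_with_cycleType_iff]
    refine ⟨?_, ?_⟩
    · rw [Multiset.sum_replicate, smul_eq_mul, Nat.div_mul_cancel hpn, Fintype.card_fin]
    · intro a ha
      rw [Multiset.eq_of_mem_replicate ha]
      exact hp.two_le
  obtain ⟨g, hg⟩ := hex
  have hnp : 0 < n / p := Nat.div_pos (Nat.le_of_dvd hn hpn) hp.pos
  have hg1 : g ≠ 1 := by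
    intro h
    rw [← Perm.cycleType_eq_zero, hg] at h
    have := congrArg Multiset.card h
    rw [Multiset.card_replicate, Multiset.card_zero] at this
    omega
  have hord : orderOf g = p := by
    have : Fact p.Prime := ⟨hp⟩
    apply orderOf_eq_prime _ hg1
    apply (orderOf_dvd_iff_pow_eq_one).mp
    rw [← Perm.lcm_cycleType, hg, Multiset.lcm_dvd]
    intro b hb
    rw [Multiset.eq_of_mem_replicate hb]
  refine ⟨g, hord, ?_⟩
  have hcard : g.support.card = n := by
    rw [← Perm.sum_cycleType, hg, Multiset.sum_replicate, smul_eq_mul, Nat.div_mul_cancel hpn]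
  have hsupp : g.support = Finset.univ := by
    apply Finset.eq_univ_of_card
    rw [hcard, Fintype.card_fin]
  intro i
  have : i ∈ g.support := by rw [hsupp]; exact Finset.mem_univ i
  exact Perm.mem_support.mp this

/-- For n ≥ 5, the fixed-point-free permutations of prime order in the symmetric group of degree n form a single conjugacy class if and only if n is a prime power. -/
theorem result (n : ℕ) (hn : 5 ≤ n) :
    Nat.card {c : ConjClasses (Equiv.Perm (Fin n)) // ∃ g : Equiv.Perm (Fin n), ConjClasses.mk g = c ∧ (orderOf g).Prime ∧ ∀ i : Fin n, g i ≠ i} = 1 ↔ IsPrimePow n := by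
  have hnpos : 0 < n := by omega
  rw [isPrimePow_iff_unique_prime_dvd]
  constructor
  · intro hcard
    rw [Nat.card_eq_one_iff_unique] at hcard
    obtain ⟨hsub, _⟩ := hcard
    have hp : n.minFac.Prime := Nat.minFac_prime (by omega)
    refine ⟨n.minFac, ⟨hp, Nat.minFac_dvd n⟩, ?_⟩
    rintro q ⟨hq, hqn⟩
    obtain ⟨g, hg, hgfix⟩ := exists_of hnpos hp (Nat.minFac_dvd n)
    obtain ⟨g', hg', hgfix'⟩ := exists_of hnpos hq hqn
    have h1 := hsub.elim
      (⟨ConjClasses.mk g, g, rfl, by rw [hg]; exact hp, hgfix⟩ :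
        {c : ConjClasses (Equiv.Perm (Fin n)) // ∃ g : Equiv.Perm (Fin n), ConjClasses.mk g = c ∧ (orderOf g).Prime ∧ ∀ i : Fin n, g i ≠ i})
      ⟨ConjClasses.mk g', g', rfl, by rw [hg']; exact hq, hgfix'⟩
    have h2 : ConjClasses.mk g = ConjClasses.mk g' := congrArg Subtype.val h1
    rw [ConjClasses.mk_eq_mk_iff_isConj, Perm.isConj_iff_cycleType_eq] at h2
    have h3 : orderOf g = orderOf g' := by
      rw [← Perm.lcm_cycleType, ← Perm.lcm_cycleType, h2]
    rw [← hg', ← h3, hg]
  · rintro ⟨p, ⟨hp, hpn⟩, huniq⟩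
    rw [Nat.card_eq_one_iff_unique]
    refine ⟨⟨?_⟩, ?_⟩
    · rintro ⟨c, g, rfl, hg, hgfix⟩ ⟨c', g', rfl, hg', hgfix'⟩
      apply Subtype.ext
      show ConjClasses.mk g = ConjClasses.mk g'
      rw [ConjClasses.mk_eq_mk_iff_isConj, Perm.isConj_iff_cycleType_eq]
      obtain ⟨hd, ht⟩ := type_of g hg hgfix
      obtain ⟨hd', ht'⟩ := type_of g' hg' hgfix'
      have e1 : orderOf g = p := huniq _ ⟨hg, hd⟩
      have e2 : orderOf g' = p := huniq _ ⟨hg', hd'⟩
      rw [ht, ht', e1, e2]
    · obtain ⟨g, hg, hgfix⟩ := exists_of hnpos hp hpn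
      exact ⟨⟨ConjClasses.mk g, g, rfl, by rw [hg]; exact hp, hgfix⟩⟩

end Cfsg.Agent.S3504
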