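import Mathlib
import Cfsg.Statements.S3508

set_option autoImplicit false
open Cfsg

namespace Cfsg.Agent.S3508

open Polynomial in
theorem linA (p : ℕ) [Fact p.Prime] {V : Type*} [AddCommGroup V] [Module (ZMod p) V] [Finite V]
    (c : Module.End (ZMod p) V) (r m j : ℕ) (hc : c ^ (p ^ r) = 1) (hcard : Nat.card V ≤ p ^ m)
    (hj : m < p ^ j) :
    c ^ (p ^ j) = 1 ∧ ∑ i ∈ Finset.range (p ^ j), c ^ i = 0 := by
  have hp : p.Prime := Fact.out
  have hP1 : ∀ k : ℕ, ((X : (ZMod p)[X]) - 1) ^ (p ^ k) = X ^ (p ^ k) - 1 := by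
    intro k
    rw [sub_pow_char_pow, one_pow]
  have hpos : 1 ≤ p ^ j := Nat.one_le_pow _ _ hp.pos
  have hP2 : (∑ i ∈ Finset.range (p ^ j), (X : (ZMod p)[X]) ^ i) = (X - 1) ^ (p ^ j - 1) := by
    have h1 : (∑ i ∈ Finset.range (p ^ j), (X : (ZMod p)[X]) ^ i) * (X - 1)
        = (X - 1) ^ (p ^ j - 1) * (X - 1) := by
      rw [geom_sum_mul, ← pow_succ, Nat.sub_add_cancel hpos, hP1]
    have hne : (X : (ZMod p)[X]) - 1 ≠ 0 := by
      have := X_sub_C_ne_zero (1 : ZMod p)
      rwa [map_one] at this
    exact mul_right_cancel₀ hne h1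
  have hδ : ∀ k, (c - 1) ^ (p ^ k) = c ^ (p ^ k) - 1 := by
    intro k
    have := congrArg (aeval c) (hP1 k)
    simpa using this
  have hnil : IsNilpotent (c - 1) := ⟨p ^ r, by rw [hδ, hc, sub_self]⟩
  have hfin : Module.finrank (ZMod p) V ≤ m := by
    have h1 : Nat.card V = p ^ Module.finrank (ZMod p) V := by
      rw [Module.natCard_eq_pow_finrank (K := ZMod p), Nat.card_zmod]
    rw [h1] at hcard
    exact (Nat.pow_le_pow_iff_right hp.one_lt).mp hcard
  have hδm : (c - 1) ^ m = 0 := by
    have h1 := LinearMap.aeval_self_charpoly (c - 1)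
    rw [hnil.charpoly_eq_X_pow_finrank] at h1
    rw [map_pow, aeval_X] at h1
    exact pow_eq_zero_of_le hfin h1
  constructor
  · have := hδ j
    rw [pow_eq_zero_of_le (by omega : m ≤ p ^ j) hδm] at this
    exact (sub_eq_zero.mp this.symm)
  · have := congrArg (aeval c) hP2
    simp only [map_sum, map_pow, aeval_X, map_sub, map_one] at this
    rw [this]
    exact pow_eq_zero_of_le (by omega) hδm


theorem grpB (p : ℕ) [Fact p.Prime] {M : Type*} [CommGroup M] [Finite M]
    (hexp : ∀ x : M, x ^ p = 1) (f : M →* M) (r m j : ℕ) (hf : ∀ x, f^[p ^ r] x = x)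
    (hcard : Nat.card M ≤ p ^ m) (hj : m < p ^ j) :
    (∀ x, f^[p ^ j] x = x) ∧ ∀ x, ∏ i ∈ Finset.range (p ^ j), f^[i] x = 1 := by
  obtain ⟨inst⟩ : Nonempty (Module (ZMod p) (Additive M)) :=
    ⟨AddCommGroup.zmodModule (n := p) (fun x => by
      show Additive.ofMul (Additive.toMul x ^ p) = 0
      rw [hexp]; rfl)⟩
  let c : Module.End (ZMod p) (Additive M) := (MonoidHom.toAdditive f).toZModLinearMap p
  have hc1 : ∀ x : Additive M, c x = Additive.ofMul (f (Additive.toMul x)) := fun x => rfl
  have hci : ∀ (i : ℕ) (x : Additive M), (c ^ i) x = Additive.ofMul (f^[i] (Additive.toMul x)) := by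
    intro i
    induction i with
    | zero => intro x; rfl
    | succ i ih =>
      intro x
      rw [pow_succ', Module.End.mul_apply, ih, hc1, Function.iterate_succ_apply']
      rfl
  have hcr : c ^ (p ^ r) = 1 := by
    ext x
    rw [hci, hf]
    rfl
  have hcardA : Nat.card (Additive M) ≤ p ^ m := by
    rw [Nat.card_congr Additive.toMul]; exact hcard
  obtain ⟨h1, h2⟩ := linA p c r m j hcr hcardA hj
  constructor
  · intro x
    have h3 := congrArg (fun e : Module.End (ZMod p) (Additive M) => e (Additive.ofMul x)) h1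
    simp only [hci] at h3
    exact Additive.ofMul.injective h3
  · intro x
    have h3 := congrArg (fun e : Module.End (ZMod p) (Additive M) => e (Additive.ofMul x)) h2
    simp only [LinearMap.sum_apply, hci, LinearMap.zero_apply] at h3
    rw [← ofMul_prod] at h3
    exact Additive.ofMul.injective h3

theorem arith2 : ∀ k : ℕ, 2 ≤ k → k + 1 < 2 ^ k := by
  intro k hk
  induction k, hk using Nat.le_induction with
  | base => norm_num
  | succ k hk ih => rw [pow_succ]; omega

theorem arith3 : ∀ k : ℕ, 1 ≤ k → k + 1 < 3 ^ k := by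
  intro k hk
  induction k, hk using Nat.le_induction with
  | base => norm_num
  | succ k hk ih => rw [pow_succ]; omega

/-- Let a finite group G act faithfully on a set Ω with p ^ m points (p prime) and have an elementary abelian normal p-subgroup N acting regularly on Ω (so G is a group of affine transformations of an m-dimensional space over the field with p elements). If G contains an element of order p ^ r with r ≥ 1, then p ^ (r − 1) ≤ m. In particular an element of order p ^ m forces m ≤ 2, and m ≤ 1 when p is odd. -/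
theorem result {G : Type*} [Group G] [Finite G] {Ω : Type*} [Fintype Ω] [MulAction G Ω] [FaithfulSMul G Ω] (p m : ℕ) (hp : p.Prime) (hcard : Fintype.card Ω = p ^ m)
    (N : Subgroup G) [N.Normal] (hNc : IsMulCommutative N) (hNp : ∀ n ∈ N, n ^ p = 1)
    (hNtr : MulAction.IsPretransitive N Ω) (hNreg : ∀ ω : Ω, MulAction.stabilizer N ω = ⊥)
    (g : G) (r : ℕ) (hr : 1 ≤ r) (hg : orderOf g = p ^ r) :
    p ^ (r - 1) ≤ m ∧ (r = m → m ≤ 2 ∧ (2 < p → m ≤ 1)) := by
  have hpf : Fact p.Prime := ⟨hp⟩
  have key : ∀ j, m < p ^ j → g ^ (p ^ j) = 1 := by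
    intro j hj
    let instN : CommGroup N :=
      { (inferInstance : Group N) with mul_comm := fun a b => hNc.is_comm.comm a b }
    let f : N →* N := (MulAut.conjNormal g : MulAut N).toMonoidHom
    have hf1 : ∀ n : N, ((f n : N) : G) = g * n * g⁻¹ := fun n => rfl
    have hfi : ∀ (i : ℕ) (n : N), ((f^[i] n : N) : G) = g ^ i * n * (g ^ i)⁻¹ := by
      intro i
      induction i with
      | zero => intro n; simp
      | succ i ih =>
        intro n
        rw [Function.iterate_succ_apply', hf1, ih, pow_succ']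
        group
    have hne : Nonempty Ω := by
      have : 0 < Fintype.card Ω := by rw [hcard]; exact pow_pos hp.pos _
      exact Fintype.card_pos_iff.mp this
    obtain ⟨ω₀⟩ := hne
    have hinj : Function.Injective (fun n : N => n • ω₀) := by
      intro a b hab
      have h1 : a⁻¹ * b ∈ MulAction.stabilizer N ω₀ := by
        rw [MulAction.mem_stabilizer_iff, mul_smul]
        have h2 : b • ω₀ = a • ω₀ := hab.symm
        rw [h2, inv_smul_smul]
      rw [hNreg, Subgroup.mem_bot] at h1
      exact (inv_mul_eq_one.mp h1)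
    have hcardN : Nat.card N ≤ p ^ m := by
      rw [← hcard, ← Nat.card_eq_fintype_card]
      exact Nat.card_le_card_of_injective _ hinj
    have hgr : g ^ (p ^ r) = 1 := by rw [← hg]; exact pow_orderOf_eq_one g
    have hB := grpB p (M := N) (fun x => Subtype.ext (hNp x x.2)) f r m j
      (fun x => by
        apply Subtype.ext
        rw [hfi, hgr]; simp) hcardN hj
    obtain ⟨hB1, hB2⟩ := hB
    obtain ⟨n₀, hn₀⟩ := MulAction.exists_smul_eq N ω₀ (g • ω₀)
    have hiter : ∀ i : ℕ, g ^ i • ω₀ = (∏ l ∈ Finset.range i, f^[l] n₀) • ω₀ := by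
      intro i
      induction i with
      | zero => simp
      | succ i ih =>
        rw [pow_succ', mul_smul, ih, Finset.prod_range_succ', mul_smul, Function.iterate_zero,
          id_eq, hn₀]
        have h1 : (∏ k ∈ Finset.range i, f^[k + 1] n₀) = f (∏ k ∈ Finset.range i, f^[k] n₀) := by
          rw [map_prod]
          apply Finset.prod_congr rfl
          intro k _
          rw [Function.iterate_succ_apply']
        rw [h1, Subgroup.smul_def, Subgroup.smul_def, hf1, mul_smul, mul_smul, inv_smul_smul]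
    have hfix : g ^ (p ^ j) • ω₀ = ω₀ := by rw [hiter, hB2, one_smul]
    have hcen : ∀ n : N, g ^ (p ^ j) * (n : G) = n * g ^ (p ^ j) := by
      intro n
      have h1 := hfi (p ^ j) n
      rw [hB1] at h1
      have h2 : g ^ (p ^ j) * (n : G) = g ^ (p ^ j) * (n : G) * (g ^ (p ^ j))⁻¹ * g ^ (p ^ j) := by
        group
      rw [h2, ← h1]
    apply FaithfulSMul.eq_of_smul_eq_smul (α := Ω)
    intro ω
    obtain ⟨n, rfl⟩ := MulAction.exists_smul_eq N ω₀ ω
    rw [one_smul, Subgroup.smul_def, ← mul_smul, hcen, mul_smul, hfix]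
  have hP1 : p ^ (r - 1) ≤ m := by
    by_contra hlt
    push Not at hlt
    have h0 := key (r - 1) hlt
    have h1 : orderOf g ∣ p ^ (r - 1) := orderOf_dvd_of_pow_eq_one h0
    rw [hg] at h1
    have h2 : p ^ r ≤ p ^ (r - 1) := Nat.le_of_dvd (pow_pos hp.pos _) h1
    have h3 : r ≤ r - 1 := (Nat.pow_le_pow_iff_right hp.one_lt).mp h2
    omega
  refine ⟨hP1, ?_⟩
  intro hrm
  subst hrm
  constructor
  · by_contra hlt
    push Not at hlt
    have h1 := arith2 (r - 1) (by omega)
    have h2 : 2 ^ (r - 1) ≤ p ^ (r - 1) := Nat.pow_le_pow_left hp.two_le _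
    omega
  · intro h2p
    by_contra hlt
    push Not at hlt
    have h1 := arith3 (r - 1) (by omega)
    have h2 : 3 ^ (r - 1) ≤ p ^ (r - 1) := Nat.pow_le_pow_left h2p _
    omega

end Cfsg.Agent.S3508
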