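import Cfsg.Statements.S3511
import Mathlib

set_option autoImplicit false
open Cfsg

namespace Cfsg.Agent.S3511

open MulAction

theorem aux {G : Type*} [Group G] [Finite G] {Ω : Type*} [MulAction G Ω]
    (h : ∀ g : G, Squarefree (orderOf g) → ∃ ω : Ω, MulAction.stabilizer (Subgroup.zpowers g) ω = ⊥) :
    ∀ (n : ℕ) (g : G), orderOf g = n → ∃ ω : Ω, MulAction.stabilizer (Subgroup.zpowers g) ω = ⊥ := by
  intro n
  induction n using Nat.strong_induction_on with
  | _ n ih =>
    intro g hg
    by_cases hsq : Squarefree (orderOf g)
    · exact h g hsq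
    · rw [Nat.squarefree_iff_prime_squarefree] at hsq
      push Not at hsq
      obtain ⟨p, hp, hpp⟩ := hsq
      have hnpos : 0 < orderOf g := orderOf_pos g
      have hpn : p ∣ orderOf g := (dvd_mul_right p p).trans hpp
      have ho : orderOf (g ^ p) = orderOf g / p := by
        rw [orderOf_pow' g hp.pos.ne', Nat.gcd_eq_right hpn]
      have hlt : orderOf g / p < n := by
        rw [← hg]
        exact Nat.div_lt_self hnpos hp.one_lt
      obtain ⟨ω, hω⟩ := ih _ hlt (g ^ p) ho
      refine ⟨ω, ?_⟩
      rw [Subgroup.eq_bot_iff_forall]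
      intro x hx
      by_contra hx1
      have hxfix : (x : G) • ω = ω := hx
      have hm1 : orderOf (x : G) ≠ 1 := by
        intro h1
        apply hx1
        exact Subtype.ext (orderOf_eq_one_iff.mp h1)
      have hq : (orderOf (x : G)).minFac.Prime := Nat.minFac_prime hm1
      have hqm : (orderOf (x : G)).minFac ∣ orderOf (x : G) := Nat.minFac_dvd _
      have hmn : orderOf (x : G) ∣ orderOf g := orderOf_dvd_of_mem_zpowers x.2
      set q := (orderOf (x : G)).minFac with hq_def
      set y : G := (x : G) ^ (orderOf (x : G) / q) with hy_def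
      have hyq : y ^ q = 1 := by
        rw [hy_def, ← pow_mul, Nat.div_mul_cancel hqm, pow_orderOf_eq_one]
      have hy1 : y ≠ 1 := by
        intro hy
        have hd : orderOf (x : G) ∣ orderOf (x : G) / q := orderOf_dvd_of_pow_eq_one hy
        have hpos : 0 < orderOf (x : G) := orderOf_pos _
        have hle := Nat.le_of_dvd (Nat.div_pos (Nat.le_of_dvd hpos hqm) hq.pos) hd
        have := Nat.div_lt_self hpos hq.one_lt
        omega
      have hyfix : y • ω = ω := by
        have : ∀ k : ℕ, ((x : G) ^ k) • ω = ω := by
          intro k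
          induction k with
          | zero => simp
          | succ k ihk => rw [pow_succ, mul_smul, hxfix, ihk]
        exact this _
      have hymem : y ∈ Subgroup.zpowers g := Subgroup.pow_mem _ x.2 _
      rw [← mem_powers_iff_mem_zpowers] at hymem
      obtain ⟨j, hj⟩ := hymem
      have hj' : g ^ j = y := hj
      have hdvd : orderOf g ∣ j * q := by
        apply orderOf_dvd_of_pow_eq_one
        rw [pow_mul, hj', hyq]
      have hpj : p ∣ j := by
        by_cases hqp : q = p
        · rw [hqp] at hdvd
          have h1 : p * p ∣ j * p := hpp.trans hdvd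
          exact Nat.dvd_of_mul_dvd_mul_right hp.pos h1
        · have h1 : p ∣ j * q := hpn.trans hdvd
          rcases (Nat.Prime.dvd_mul hp).mp h1 with h2 | h2
          · exact h2
          · exfalso
            exact hqp ((Nat.prime_dvd_prime_iff_eq hp hq).mp h2).symm
      obtain ⟨i, hi⟩ := hpj
      have hy' : y ∈ Subgroup.zpowers (g ^ p) := by
        rw [← hj', hi, pow_mul]
        exact Subgroup.pow_mem _ (Subgroup.mem_zpowers _) _
      have hstab : (⟨y, hy'⟩ : Subgroup.zpowers (g ^ p)) ∈
          MulAction.stabilizer (Subgroup.zpowers (g ^ p)) ω := hyfix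
      rw [hω, Subgroup.mem_bot] at hstab
      exact hy1 (congrArg Subtype.val hstab)

/-- Let a finite group G act faithfully on a set Ω. If every element of G of square-free order has a regular cycle (an orbit of the cyclic group it generates with trivial stabilizer), then every element of G has a regular cycle. -/
theorem result {G : Type*} [Group G] [Finite G] {Ω : Type*} [MulAction G Ω] [FaithfulSMul G Ω]
    (h : ∀ g : G, Squarefree (orderOf g) → ∃ ω : Ω, MulAction.stabilizer (Subgroup.zpowers g) ω = ⊥) (g : G) :
    ∃ ω : Ω, MulAction.stabilizer (Subgroup.zpowers g) ω = ⊥ := by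
  exact aux h (orderOf g) g rfl

end Cfsg.Agent.S3511
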