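import Cfsg.Statements.S3515
import Mathlib

set_option autoImplicit false
open Cfsg

namespace Cfsg.Agent.S3515

theorem four {V : Type*} [Fintype V] [DecidableEq V] (hV : Fintype.card V = 4) (z a b u v : V)
    (ha : a ≠ z) (hb : b ≠ z) (hab : a ≠ b)
    (hu0 : u ≠ z) (hua : u ≠ a) (hub : u ≠ b) (hv0 : v ≠ z) (hva : v ≠ a) (hvb : v ≠ b) :
    u = v := by
  by_contra huv
  have h5 : ({z, a, b, u, v} : Finset V).card = 5 := by
    rw [Finset.card_insert_of_notMem, Finset.card_insert_of_notMem,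
      Finset.card_insert_of_notMem, Finset.card_insert_of_notMem, Finset.card_singleton]
    · simpa using huv
    · simp only [Finset.mem_insert, Finset.mem_singleton, not_or]
      exact ⟨Ne.symm hub, Ne.symm hvb⟩
    · simp only [Finset.mem_insert, Finset.mem_singleton, not_or]
      exact ⟨hab, Ne.symm hua, Ne.symm hva⟩
    · simp only [Finset.mem_insert, Finset.mem_singleton, not_or]
      exact ⟨Ne.symm ha, Ne.symm hb, Ne.symm hu0, Ne.symm hv0⟩
  have := Finset.card_le_univ ({z, a, b, u, v} : Finset V)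
  omega

/-- The normalized case: `σ` fixes the origin. -/
theorem key (p : ℕ) [Fact p.Prime] (G : Subgroup (Equiv.Perm (Fin 2 → ZMod p)))
    (haff : ∀ τ ∈ G, ∃ (A : (Fin 2 → ZMod p) ≃ₗ[ZMod p] (Fin 2 → ZMod p)) (b : Fin 2 → ZMod p),
      ∀ x, τ x = A x + b)
    (σ : Equiv.Perm (Fin 2 → ZMod p)) (h0 : σ 0 = 0)
    (hσ : ∀ t : Fin 3 → (Fin 2 → ZMod p), ∃ g ∈ G, ∀ i, σ (t i) = g (t i)) : σ ∈ G := by
  have htri : ∀ x y z : Fin 2 → ZMod p, ∃ (A : (Fin 2 → ZMod p) ≃ₗ[ZMod p] (Fin 2 → ZMod p))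
      (b : Fin 2 → ZMod p), σ x = A x + b ∧ σ y = A y + b ∧ σ z = A z + b := by
    intro x y z
    obtain ⟨g, hg, hgt⟩ := hσ ![x, y, z]
    obtain ⟨A, b, hA⟩ := haff g hg
    refine ⟨A, b, ?_, ?_, ?_⟩
    · have := hgt 0; simp only [Matrix.cons_val_zero] at this; rw [this, hA]
    · have := hgt 1; simp only [Matrix.cons_val_one, Matrix.cons_val_zero] at this; rw [this, hA]
    · have := hgt 2; simp only [Matrix.cons_val_two, Matrix.tail_cons, Matrix.head_cons] at this
      rw [this, hA]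
  have hhom : ∀ (c : ZMod p) (x : Fin 2 → ZMod p), σ (c • x) = c • σ x := by
    intro c x
    obtain ⟨A, b, h1, h2, h3⟩ := htri 0 x (c • x)
    have hb : b = 0 := by
      rw [h0, map_zero, zero_add] at h1; exact h1.symm
    rw [h3, h2, hb, add_zero, add_zero, map_smul]
  have hadd : ∀ x y : Fin 2 → ZMod p, σ (x + y) = σ x + σ y := by
    intro x y
    by_cases hp2 : p = 2
    · subst hp2
      have hself : ∀ v : Fin 2 → ZMod 2, v + v = 0 := by
        intro v
        have : v + v = (2 : ZMod 2) • v := by rw [two_smul]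
        rw [this]
        have h2 : (2 : ZMod 2) = 0 := by
          have := ZMod.natCast_self 2
          exact_mod_cast this
        rw [h2, zero_smul]
      by_cases hx : x = 0
      · rw [hx, zero_add, h0, zero_add]
      by_cases hy : y = 0
      · rw [hy, add_zero, h0, add_zero]
      by_cases hxy : x = y
      · rw [hxy, hself, hself, h0]
      have hσx : σ x ≠ 0 := fun h => hx (σ.injective (h.trans h0.symm))
      have hσy : σ y ≠ 0 := fun h => hy (σ.injective (h.trans h0.symm))
      have hσxy : σ x ≠ σ y := fun h => hxy (σ.injective h)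
      have hV : Fintype.card (Fin 2 → ZMod 2) = 4 := by
        simp [ZMod.card]
      apply four hV 0 (σ x) (σ y) _ _ hσx hσy hσxy
      · intro h
        have h1 : x + y = 0 := σ.injective (h.trans h0.symm)
        apply hxy
        have : x = x + (y + y) := by rw [hself, add_zero]
        rw [this, ← add_assoc, h1, zero_add]
      · intro h
        have h1 : x + y = x := σ.injective h
        exact hy (by simpa using h1)
      · intro h
        have h1 : x + y = y := σ.injective h
        exact hx (by simpa using h1)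
      · intro h
        apply hσxy
        have : σ x = σ x + (σ y + σ y) := by rw [hself, add_zero]
        rw [this, ← add_assoc, h, zero_add]
      · intro h
        exact hσy (by simpa using h)
      · intro h
        exact hσx (by simpa using h)
    · have h2 : (2 : ZMod p) ≠ 0 := by
        intro h
        have h3 : ((2 : ℕ) : ZMod p) = 0 := by exact_mod_cast h
        rw [ZMod.natCast_eq_zero_iff] at h3
        have hp : p.Prime := Fact.out
        have := (Nat.prime_dvd_prime_iff_eq hp Nat.prime_two).mp h3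
        exact hp2 this
      obtain ⟨A, b, h1, h2', h3⟩ := htri x y ((2 : ZMod p)⁻¹ • (x + y))
      have hmid : σ ((2 : ZMod p)⁻¹ • (x + y)) = (2 : ZMod p)⁻¹ • (σ x + σ y) := by
        rw [h3, h1, h2', map_smul, map_add]
        have hb : b = (2 : ZMod p)⁻¹ • (b + b) := by
          rw [← two_smul (ZMod p) b, smul_smul, inv_mul_cancel₀ h2, one_smul]
        calc (2 : ZMod p)⁻¹ • (A x + A y) + b
            = (2 : ZMod p)⁻¹ • (A x + A y) + (2 : ZMod p)⁻¹ • (b + b) := by rw [← hb]
          _ = (2 : ZMod p)⁻¹ • (A x + b + (A y + b)) := by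
            rw [← smul_add]; congr 1; abel
      have e1 : x + y = (2 : ZMod p) • ((2 : ZMod p)⁻¹ • (x + y)) := by
        rw [smul_smul, mul_inv_cancel₀ h2, one_smul]
      rw [e1, hhom, hmid, smul_smul, mul_inv_cancel₀ h2, one_smul]
  -- compare with the element of G agreeing on 0, e₁, e₂
  obtain ⟨g, hg, hgt⟩ := hσ ![0, Pi.single 0 1, Pi.single 1 1]
  obtain ⟨A, b, hA⟩ := haff g hg
  have hg0 : σ 0 = g 0 := by
    have := hgt 0; simpa using this
  have hg1 : σ (Pi.single 0 1) = g (Pi.single 0 1) := by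
    have := hgt 1; simpa using this
  have hg2 : σ (Pi.single 1 1) = g (Pi.single 1 1) := by
    have := hgt 2; simpa using this
  have hb : b = 0 := by
    rw [h0, hA, map_zero, zero_add] at hg0; exact hg0.symm
  have hσg : σ = g := by
    ext1 x
    have hx : x = x 0 • (Pi.single 0 1 : Fin 2 → ZMod p) + x 1 • (Pi.single 1 1 : Fin 2 → ZMod p) := by
      ext i
      fin_cases i <;> simp
    rw [hx, hadd, hhom, hhom, hg1, hg2, hA, hA, hA, hb, add_zero, add_zero, add_zero,
      map_add, map_smul, map_smul]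
  rw [hσg]; exact hg

theorem result (p : ℕ) [Fact p.Prime] (G : Subgroup (Equiv.Perm (Fin 2 → ZMod p)))
    (haff : (G : Set (Equiv.Perm (Fin 2 → ZMod p))) ⊆ {τ : Equiv.Perm (Fin 2 → ZMod p) | ∃ (A : (Fin 2 → ZMod p) ≃ₗ[ZMod p] (Fin 2 → ZMod p)) (b : Fin 2 → ZMod p), ∀ x, τ x = A x + b})
    (htrans : ∀ b : Fin 2 → ZMod p, ∃ g ∈ G, ∀ x, g x = x + b) (hprim : MulAction.IsPreprimitive G (Fin 2 → ZMod p))
    (σ : Equiv.Perm (Fin 2 → ZMod p)) (hσ : (∀ t : Fin 3 → (Fin 2 → ZMod p), ∃ g ∈ G, ∀ i, σ (t i) = g (t i))) : σ ∈ G := by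
  obtain ⟨τ, hτ, hτx⟩ := htrans (σ 0)
  have hτinv : ∀ y : Fin 2 → ZMod p, τ⁻¹ y = y - σ 0 := by
    intro y
    rw [Equiv.Perm.inv_def, Equiv.symm_apply_eq, hτx, sub_add_cancel]
  have hρ : τ⁻¹ * σ ∈ G := by
    apply key p G (fun τ' hτ' => haff hτ') (τ⁻¹ * σ)
    · rw [Equiv.Perm.mul_apply, hτinv, sub_self]
    · intro t
      obtain ⟨g, hg, hgt⟩ := hσ t
      refine ⟨τ⁻¹ * g, G.mul_mem (G.inv_mem hτ) hg, ?_⟩
      intro i
      rw [Equiv.Perm.mul_apply, Equiv.Perm.mul_apply, hgt i]
  have : σ = τ * (τ⁻¹ * σ) := by group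
  rw [this]
  exact G.mul_mem hτ hρ

end Cfsg.Agent.S3515
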