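import Cfsg.Statements.S3516
import Mathlib

set_option autoImplicit false
open Cfsg

namespace Cfsg.Agent.S3516

open Module

/-- a linear automorphism with prescribed determinant fixing two given vectors -/
theorem exists_fix {K V : Type*} [Field K] [AddCommGroup V] [Module K V] [FiniteDimensional K V]
    (hdim : 3 ≤ finrank K V) (u1 u2 : V) (ε : K) (hε : ε ≠ 0) :
    ∃ D : V ≃ₗ[K] V, D u1 = u1 ∧ D u2 = u2 ∧ LinearMap.det (D : V →ₗ[K] V) = ε := by
  classical
  have hlt : Submodule.span K ({u1, u2} : Set V) < ⊤ := by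
    apply Submodule.lt_top_of_finrank_lt_finrank
    have h1 : finrank K (Submodule.span K ((({u1, u2} : Finset V)) : Set V)) ≤
        ({u1, u2} : Finset V).card := finrank_span_finset_le_card _
    have h2 : ({u1, u2} : Finset V).card ≤ 2 := Finset.card_le_two
    have h3 : ((({u1, u2} : Finset V)) : Set V) = ({u1, u2} : Set V) := by simp
    rw [h3] at h1
    omega
  obtain ⟨φ, hφ0, hφW⟩ := Submodule.exists_le_ker_of_lt_top _ hlt
  have hex : ∃ c₀ : V, φ c₀ ≠ 0 := by
    by_contra h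
    push Not at h
    exact hφ0 (LinearMap.ext fun x => by simp [h x])
  obtain ⟨c₀, hc₀⟩ := hex
  have hφv : φ ((ε - 1) • (φ c₀)⁻¹ • c₀) = ε - 1 := by
    rw [map_smul, map_smul, smul_eq_mul, smul_eq_mul, inv_mul_cancel₀ hc₀, mul_one]
  have hunit : IsUnit (1 + φ ((ε - 1) • (φ c₀)⁻¹ • c₀)) := by
    rw [hφv]
    have : (1 : K) + (ε - 1) = ε := by ring
    rw [this]
    exact isUnit_iff_ne_zero.mpr hε
  refine ⟨LinearEquiv.dilatransvection hunit, ?_, ?_, ?_⟩
  · have h1 : φ u1 = 0 := hφW (Submodule.subset_span (by simp))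
    rw [LinearEquiv.dilatransvection.apply, h1, zero_smul, add_zero]
  · have h2 : φ u2 = 0 := hφW (Submodule.subset_span (by simp))
    rw [LinearEquiv.dilatransvection.apply, h2, zero_smul, add_zero]
  · have : ((LinearEquiv.dilatransvection hunit : V ≃ₗ[K] V) : V →ₗ[K] V) =
        LinearMap.transvection φ ((ε - 1) • (φ c₀)⁻¹ • c₀) := rfl
    rw [this, LinearMap.transvection.det, hφv]
    ring

theorem two_ne_zero' (p : ℕ) [Fact p.Prime] (hp : p ≠ 2) : (2 : ZMod p) ≠ 0 := by
  intro h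
  have h1 : ((2 : ℕ) : ZMod p) = 0 := by exact_mod_cast h
  rw [ZMod.natCast_eq_zero_iff] at h1
  have hp' : p.Prime := Fact.out
  have := (Nat.prime_dvd_prime_iff_eq hp' Nat.prime_two).mp h1
  exact hp this

/-- Let p be an odd prime, d ≥ 3, and G a group of affine permutations x ↦ Ax + b of V = F_p^d containing all translations and all maps x ↦ Ax with A of determinant 1. Then the 3-closure of G is the full affine group: a permutation σ of V agrees on every triple of points with some element of G if and only if σ is an affine map. -/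
theorem result (p : ℕ) [Fact p.Prime] (hp : p ≠ 2) (d : ℕ) (hd : 3 ≤ d) (G : Subgroup (Equiv.Perm (Fin d → ZMod p)))
    (haff : (G : Set (Equiv.Perm (Fin d → ZMod p))) ⊆ {τ : Equiv.Perm (Fin d → ZMod p) | ∃ (A : (Fin d → ZMod p) ≃ₗ[ZMod p] (Fin d → ZMod p)) (b : Fin d → ZMod p), ∀ x, τ x = A x + b})
    (htrans : ∀ b : Fin d → ZMod p, ∃ g ∈ G, ∀ x, g x = x + b)
    (hsl : ∀ A : (Fin d → ZMod p) ≃ₗ[ZMod p] (Fin d → ZMod p), LinearMap.det (A : (Fin d → ZMod p) →ₗ[ZMod p] (Fin d → ZMod p)) = 1 → ∃ g ∈ G, ∀ x, g x = A x)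
    (σ : Equiv.Perm (Fin d → ZMod p)) :
    (∀ t : Fin 3 → (Fin d → ZMod p), ∃ g ∈ G, ∀ i, σ (t i) = g (t i)) ↔ σ ∈ {τ : Equiv.Perm (Fin d → ZMod p) | ∃ (A : (Fin d → ZMod p) ≃ₗ[ZMod p] (Fin d → ZMod p)) (b : Fin d → ZMod p), ∀ x, τ x = A x + b} := by
  constructor
  · intro hσ
    have h3 : ∀ x y z : Fin d → ZMod p, ∃ (A : (Fin d → ZMod p) ≃ₗ[ZMod p] (Fin d → ZMod p))
        (c : Fin d → ZMod p), σ x = A x + c ∧ σ y = A y + c ∧ σ z = A z + c := by
      intro x y z
      obtain ⟨g, hg, hgt⟩ := hσ ![x, y, z]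
      obtain ⟨A, c, hA⟩ := haff hg
      refine ⟨A, c, ?_, ?_, ?_⟩
      · have := hgt 0
        simpa [hA] using this
      · have := hgt 1
        simpa [hA] using this
      · have := hgt 2
        simpa [hA] using this
    have h2 := two_ne_zero' p hp
    have hom : ∀ (r : ZMod p) (x : Fin d → ZMod p), σ (r • x) - σ 0 = r • (σ x - σ 0) := by
      intro r x
      obtain ⟨A, c, e0, e1, e2⟩ := h3 0 x (r • x)
      rw [e0, e1, e2, map_zero, map_smul]
      simp
    have hadd : ∀ x y : Fin d → ZMod p, σ (x + y) - σ 0 = (σ x - σ 0) + (σ y - σ 0) := by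
      intro x y
      obtain ⟨A, c, e0, e1, e2⟩ := h3 ((2 : ZMod p) • x) ((2 : ZMod p) • y) (x + y)
      have hx := hom 2 x
      have hy := hom 2 y
      rw [e0, map_smul] at hx
      rw [e1, map_smul] at hy
      rw [e2, map_add]
      have key : (2 : ZMod p) • (A x + A y + c - σ 0) =
          (2 : ZMod p) • ((σ x - σ 0) + (σ y - σ 0)) := by
        rw [smul_add (2 : ZMod p) (σ x - σ 0), ← hx, ← hy]
        simp only [smul_sub, smul_add, two_smul]
        abel
      have hinj := smul_right_injective (Fin d → ZMod p) h2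
      exact hinj key
    let F : (Fin d → ZMod p) →ₗ[ZMod p] (Fin d → ZMod p) :=
      { toFun := fun x => σ x - σ 0
        map_add' := hadd
        map_smul' := fun r x => by simpa using hom r x }
    have hbij : Function.Bijective F := by
      constructor
      · intro x y hxy
        have : σ x - σ 0 = σ y - σ 0 := hxy
        exact σ.injective (sub_left_injective this)
      · intro y
        obtain ⟨x, hx⟩ := σ.surjective (y + σ 0)
        refine ⟨x, ?_⟩
        show σ x - σ 0 = y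
        rw [hx, add_sub_cancel_right]
    refine ⟨LinearEquiv.ofBijective F hbij, σ 0, ?_⟩
    intro x
    show σ x = (σ x - σ 0) + σ 0
    rw [sub_add_cancel]
  · rintro ⟨A, b, hA⟩ t
    have hdet : LinearMap.det (A : (Fin d → ZMod p) →ₗ[ZMod p] (Fin d → ZMod p)) ≠ 0 :=
      (LinearEquiv.isUnit_det' A).ne_zero
    have hdim : 3 ≤ finrank (ZMod p) (Fin d → ZMod p) := by
      rw [finrank_fin_fun]; exact hd
    obtain ⟨D, hD1, hD2, hDdet⟩ := exists_fix hdim (t 1 - t 0) (t 2 - t 0)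
      (LinearMap.det (A : (Fin d → ZMod p) →ₗ[ZMod p] (Fin d → ZMod p)))⁻¹ (inv_ne_zero hdet)
    have hB : LinearMap.det ((D.trans A : (Fin d → ZMod p) ≃ₗ[ZMod p] (Fin d → ZMod p)) :
        (Fin d → ZMod p) →ₗ[ZMod p] (Fin d → ZMod p)) = 1 := by
      have : ((D.trans A : (Fin d → ZMod p) ≃ₗ[ZMod p] (Fin d → ZMod p)) :
          (Fin d → ZMod p) →ₗ[ZMod p] (Fin d → ZMod p)) =
          (A : (Fin d → ZMod p) →ₗ[ZMod p] (Fin d → ZMod p)) ∘ₗ
            (D : (Fin d → ZMod p) →ₗ[ZMod p] (Fin d → ZMod p)) := rfl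
      rw [this, LinearMap.det_comp, hDdet, mul_inv_cancel₀ hdet]
    obtain ⟨g₁, hg₁, hg₁x⟩ := hsl (D.trans A) hB
    obtain ⟨g₂, hg₂, hg₂x⟩ := htrans (σ (t 0) - A (D (t 0)))
    refine ⟨g₂ * g₁, G.mul_mem hg₂ hg₁, ?_⟩
    have hDt : ∀ i, D (t i - t 0) = t i - t 0 := by
      intro i
      fin_cases i
      · simp
      · exact hD1
      · exact hD2
    intro i
    rw [Equiv.Perm.mul_apply, hg₂x, hg₁x, LinearEquiv.trans_apply, hA, hA]
    have e1 : D (t i) = (t i - t 0) + D (t 0) := by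
      rw [← hDt i, ← map_add, sub_add_cancel]
    rw [e1, map_add, map_sub]
    abel

end Cfsg.Agent.S3516
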