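import Cfsg.Statements.S3517
import Mathlib

set_option autoImplicit false
open Cfsg

namespace Cfsg.Agent.S3517

open Module

/-- the general linear group is transitive on linearly independent families -/
theorem exists_equiv {K V ι : Type*} [Field K] [AddCommGroup V] [Module K V]
    [FiniteDimensional K V] [Fintype ι] (u w : ι → V)
    (hu : LinearIndependent K u) (hw : LinearIndependent K w) :
    ∃ A : V ≃ₗ[K] V, ∀ i, A (u i) = w i := by
  classical
  let bu := Basis.span hu
  let bw := Basis.span hw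
  let φ : Submodule.span K (Set.range u) ≃ₗ[K] Submodule.span K (Set.range w) :=
    bu.equiv bw (Equiv.refl ι)
  obtain ⟨C, hC⟩ := Submodule.exists_isCompl (Submodule.span K (Set.range u))
  obtain ⟨C', hC'⟩ := Submodule.exists_isCompl (Submodule.span K (Set.range w))
  have h1 := Submodule.finrank_add_eq_of_isCompl hC
  have h2 := Submodule.finrank_add_eq_of_isCompl hC'
  rw [finrank_span_eq_card hu] at h1
  rw [finrank_span_eq_card hw] at h2
  have hfin : finrank K C = finrank K C' := by omega
  let ψ : C ≃ₗ[K] C' := LinearEquiv.ofFinrankEq C C' hfin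
  refine ⟨(Submodule.prodEquivOfIsCompl _ C hC).symm ≪≫ₗ (φ.prodCongr ψ) ≪≫ₗ
    (Submodule.prodEquivOfIsCompl _ C' hC'), ?_⟩
  intro i
  have hui : u i = ((bu i : Submodule.span K (Set.range u)) : V) := by
    rw [Basis.span_apply]
  have hwi : w i = ((bw i : Submodule.span K (Set.range w)) : V) := by
    rw [Basis.span_apply]
  rw [LinearEquiv.trans_apply, LinearEquiv.trans_apply, hui,
    Submodule.prodEquivOfIsCompl_symm_apply_left, LinearEquiv.prodCongr_apply,
    Submodule.coe_prodEquivOfIsCompl']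
  simp only [map_zero, Submodule.coe_zero, add_zero]
  rw [hwi]
  congr 1
  exact Basis.equiv_apply _ _ _ _

theorem zmod2_cases (s : ZMod 2) : s = 0 ∨ s = 1 := by
  fin_cases s
  · left; rfl
  · right; rfl

theorem exists_one {V : Type*} [AddCommGroup V] [Module (ZMod 2) V]
    [FiniteDimensional (ZMod 2) V] (u w : V) (hu : u ≠ 0) (hw : w ≠ 0) :
    ∃ A : V ≃ₗ[ZMod 2] V, A u = w := by
  have hu' : LinearIndependent (ZMod 2) (fun _ : Unit => u) :=
    linearIndependent_unique_iff.mpr hu
  have hw' : LinearIndependent (ZMod 2) (fun _ : Unit => w) :=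
    linearIndependent_unique_iff.mpr hw
  obtain ⟨A, hA⟩ := exists_equiv _ _ hu' hw'
  exact ⟨A, hA ()⟩

theorem exists_pair {V : Type*} [AddCommGroup V] [Module (ZMod 2) V]
    [FiniteDimensional (ZMod 2) V] (u1 u2 w1 w2 : V)
    (h1 : u1 = 0 ↔ w1 = 0) (h2 : u2 = 0 ↔ w2 = 0) (h12 : u1 = u2 ↔ w1 = w2) :
    ∃ A : V ≃ₗ[ZMod 2] V, A u1 = w1 ∧ A u2 = w2 := by
  by_cases hu1 : u1 = 0
  · have hw1 := h1.mp hu1
    by_cases hu2 : u2 = 0
    · have hw2 := h2.mp hu2
      exact ⟨LinearEquiv.refl _ _, by simp [hu1, hw1], by simp [hu2, hw2]⟩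
    · have hw2 : w2 ≠ 0 := fun h => hu2 (h2.mpr h)
      obtain ⟨A, hA⟩ := exists_one u2 w2 hu2 hw2
      exact ⟨A, by rw [hu1, hw1, map_zero], hA⟩
  · have hw1 : w1 ≠ 0 := fun h => hu1 (h1.mpr h)
    by_cases hu2 : u2 = 0
    · have hw2 := h2.mp hu2
      obtain ⟨A, hA⟩ := exists_one u1 w1 hu1 hw1
      exact ⟨A, hA, by rw [hu2, hw2, map_zero]⟩
    · have hw2 : w2 ≠ 0 := fun h => hu2 (h2.mpr h)
      by_cases hu12 : u1 = u2
      · have hw12 := h12.mp hu12
        obtain ⟨A, hA⟩ := exists_one u1 w1 hu1 hw1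
        exact ⟨A, hA, by rw [← hu12, ← hw12]; exact hA⟩
      · have hw12 : w1 ≠ w2 := fun h => hu12 (h12.mpr h)
        have key : ∀ x y : V, x ≠ 0 → y ≠ 0 → x ≠ y → LinearIndependent (ZMod 2) ![x, y] := by
          intro x y hx hy hxy
          rw [LinearIndependent.pair_iff]
          intro s t hst
          rcases zmod2_cases s with rfl | rfl <;> rcases zmod2_cases t with rfl | rfl
          · exact ⟨rfl, rfl⟩
          · simp at hst
            exact absurd hst hy
          · simp at hst
            exact absurd hst hx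
          · exfalso
            apply hxy
            rw [one_smul, one_smul] at hst
            have h3 : x = -y := eq_neg_of_add_eq_zero_left hst
            have h4 : -y = y := by
              have h5 : (2 : ZMod 2) • y = 0 := by
                have : (2 : ZMod 2) = 0 := rfl
                rw [this, zero_smul]
              rw [two_smul] at h5
              exact neg_eq_of_add_eq_zero_left h5
            rw [h3, h4]
        obtain ⟨A, hA⟩ := exists_equiv ![u1, u2] ![w1, w2] (key u1 u2 hu1 hu2 hu12)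
          (key w1 w2 hw1 hw2 hw12)
        exact ⟨A, hA 0, hA 1⟩

/-- For d ≥ 3, the 3-closure of the affine group AGL_d(2) acting on F_2^d is the full symmetric group: every permutation of F_2^d agrees on every ordered triple of points with some affine map (AGL_d(2) is 3-transitive). -/
theorem result (d : ℕ) (hd : 3 ≤ d) (σ : Equiv.Perm (Fin d → ZMod 2)) (t : Fin 3 → (Fin d → ZMod 2)) :
    ∃ (A : (Fin d → ZMod 2) ≃ₗ[ZMod 2] (Fin d → ZMod 2)) (b : Fin d → ZMod 2), ∀ i, σ (t i) = A (t i) + b := by
  obtain ⟨A, hA1, hA2⟩ := exists_pair (t 1 - t 0) (t 2 - t 0) (σ (t 1) - σ (t 0))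
    (σ (t 2) - σ (t 0))
    (by rw [sub_eq_zero, sub_eq_zero, σ.injective.eq_iff])
    (by rw [sub_eq_zero, sub_eq_zero, σ.injective.eq_iff])
    (by rw [sub_left_inj, sub_left_inj, σ.injective.eq_iff])
  refine ⟨A, σ (t 0) - A (t 0), ?_⟩
  intro i
  fin_cases i
  · simp
  · have : A (t 1) = A (t 1 - t 0) + A (t 0) := by rw [← map_add, sub_add_cancel]
    simp only [Fin.mk_one, Fin.isValue]
    rw [this, hA1]
    abel
  · have : A (t 2) = A (t 2 - t 0) + A (t 0) := by rw [← map_add, sub_add_cancel]
    simp only [Fin.reduceFinMk, Fin.isValue]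
    rw [this, hA2]
    abel

end Cfsg.Agent.S3517
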