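import Mathlib
import Cfsg.Statements.S3518

set_option autoImplicit false
open Cfsg

namespace Cfsg.Agent.S3518

open Polynomial

variable {p : ℕ} [Fact p.Prime]

/-- the operator `Q ↦ Σ_{h ∈ s} Q(X + h) - d Q`. -/
noncomputable def Lam (s : Finset (ZMod p)) (d : ℕ) (Q : (ZMod p)[X]) : (ZMod p)[X] :=
  ∑ h ∈ s, taylor h Q - C (d : ZMod p) * Q

theorem coeff_Lam (s : Finset (ZMod p)) (d : ℕ) (Q : (ZMod p)[X]) (j : ℕ) :
    (Lam s d Q).coeff j = ∑ i ∈ Finset.range (Q.natDegree + 1),
      ((i + j).choose j : ZMod p) * Q.coeff (i + j) * ∑ h ∈ s, h ^ i - (d : ZMod p) * Q.coeff j := by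
  unfold Lam
  rw [coeff_sub, coeff_C_mul, finsetSum_coeff]
  congr 1
  have h1 : ∀ h : ZMod p, (taylor h Q).coeff j = ∑ i ∈ Finset.range (Q.natDegree + 1),
      ((i + j).choose j : ZMod p) * Q.coeff (i + j) * h ^ i := by
    intro h
    rw [taylor_coeff, eval_eq_sum_range' (n := Q.natDegree + 1)
      (lt_of_le_of_lt ((natDegree_hasseDeriv_le Q j).trans (Nat.sub_le _ _)) (Nat.lt_succ_self _))]
    apply Finset.sum_congr rfl
    intro i _
    rw [hasseDeriv_coeff]
  simp_rw [h1]
  rw [Finset.sum_comm]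
  apply Finset.sum_congr rfl
  intro i _
  rw [Finset.mul_sum]

theorem eval_Lam (s : Finset (ZMod p)) (d : ℕ) (Q : (ZMod p)[X]) (x : ZMod p) :
    (Lam s d Q).eval x = ∑ h ∈ s, Q.eval (x + h) - (d : ZMod p) * Q.eval x := by
  unfold Lam
  rw [eval_sub, eval_mul, eval_C, eval_finsetSum]
  congr 1
  apply Finset.sum_congr rfl
  intro h _
  rw [taylor_eval]

theorem natDegree_Lam_le (s : Finset (ZMod p)) (d : ℕ) (Q : (ZMod p)[X]) :
    (Lam s d Q).natDegree ≤ Q.natDegree := by
  rw [natDegree_le_iff_coeff_eq_zero]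
  intro N hN
  rw [coeff_Lam, coeff_eq_zero_of_natDegree_lt hN, mul_zero, sub_zero]
  apply Finset.sum_eq_zero
  intro i _
  rw [coeff_eq_zero_of_natDegree_lt (by omega), mul_zero, zero_mul]

theorem Lam_eq_zero (s : Finset (ZMod p)) (d : ℕ)
    (hps : ∀ i : ℕ, ∑ h ∈ s, h ^ i = if d ∣ i then (d : ZMod p) else 0)
    (Q : (ZMod p)[X]) (hQ : Q.natDegree < d) : Lam s d Q = 0 := by
  ext j
  rw [coeff_Lam, coeff_zero, Finset.sum_eq_single 0]
  · rw [hps 0]; simp; ring
  · intro i hi hi0
    rw [Finset.mem_range] at hi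
    rw [hps i, if_neg, mul_zero]
    intro hdvd
    have := Nat.le_of_dvd (Nat.pos_of_ne_zero hi0) hdvd
    omega
  · intro h
    exact absurd (Finset.mem_range.mpr (Nat.succ_pos _)) h

theorem Lam_ne_zero (s : Finset (ZMod p)) (d : ℕ) (hd1 : 1 ≤ d) (hdp : d < p)
    (hps : ∀ i : ℕ, ∑ h ∈ s, h ^ i = if d ∣ i then (d : ZMod p) else 0)
    (Q : (ZMod p)[X]) (hQ : d ≤ Q.natDegree) (hQp : Q.natDegree < p) : Lam s d Q ≠ 0 := by
  have hp : p.Prime := Fact.out
  intro h0
  have h1 := coeff_Lam s d Q (Q.natDegree - d)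
  rw [h0, coeff_zero] at h1
  rw [Finset.sum_eq_add 0 d (by omega)] at h1
  · rw [hps 0, hps d, if_pos (dvd_zero _), if_pos (dvd_refl _)] at h1
    have h2 : d + (Q.natDegree - d) = Q.natDegree := by omega
    rw [h2, zero_add, Nat.choose_self, Nat.cast_one, one_mul] at h1
    have h3 : ((Q.natDegree.choose (Q.natDegree - d) : ℕ) : ZMod p) * Q.coeff Q.natDegree
        * (d : ZMod p) = 0 := by
      linear_combination -h1
    have hQ0 : Q ≠ 0 := by
      intro hq
      rw [hq, natDegree_zero] at hQ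
      omega
    have hlc : Q.coeff Q.natDegree ≠ 0 := by
      have := leadingCoeff_ne_zero.mpr hQ0
      exact this
    have hdne : (d : ZMod p) ≠ 0 := by
      rw [Ne, ZMod.natCast_eq_zero_iff]
      intro hdvd
      have := Nat.le_of_dvd (by omega) hdvd
      omega
    have hch : ((Q.natDegree.choose (Q.natDegree - d) : ℕ) : ZMod p) ≠ 0 := by
      rw [Ne, ZMod.natCast_eq_zero_iff]
      intro hdvd
      have h4 : Q.natDegree.choose (Q.natDegree - d) ∣ Q.natDegree.factorial := by
        have := Nat.choose_mul_factorial_mul_factorial (Nat.sub_le Q.natDegree d)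
        rw [mul_assoc] at this
        exact Dvd.intro _ this
      have h5 := (hp.dvd_factorial).mp (hdvd.trans h4)
      omega
    exact mul_ne_zero (mul_ne_zero hch hlc) hdne h3
  · intro i hi hne
    rw [Finset.mem_range] at hi
    rw [hps i]
    by_cases hdvd : d ∣ i
    · obtain ⟨t, rfl⟩ := hdvd
      have ht : 2 ≤ t := by
        rcases t with _ | _ | t
        · exact absurd rfl hne.1
        · exact absurd (mul_one d) hne.2
        · omega
      have h6 : d * 2 ≤ d * t := Nat.mul_le_mul_left _ ht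
      have : Q.natDegree < d * t + (Q.natDegree - d) := by omega
      rw [coeff_eq_zero_of_natDegree_lt this, mul_zero, zero_mul]
    · rw [if_neg hdvd, mul_zero]
  · intro h
    exact absurd (Finset.mem_range.mpr (Nat.succ_pos _)) h
  · intro h
    exact absurd (Finset.mem_range.mpr (by omega)) h

theorem eq_zero_of_eval (R : (ZMod p)[X]) (hR : R.natDegree < p) (h : ∀ x, R.eval x = 0) :
    R = 0 := by
  apply eq_zero_of_natDegree_lt_card_of_eval_eq_zero R (f := id) Function.injective_id h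
  rw [ZMod.card]
  exact hR

theorem poly_main (s : Finset (ZMod p)) (d : ℕ) (hd2 : 2 ≤ d) (hdp : 2 * d + 1 ≤ p)
    (hps : ∀ i : ℕ, ∑ h ∈ s, h ^ i = if d ∣ i then (d : ZMod p) else 0)
    (P : (ZMod p)[X]) (hP : P.natDegree < p) (hP1 : 1 ≤ P.natDegree)
    (H : ∀ (x : ZMod p) (k : ℕ),
      ∑ h ∈ s, (P.eval (x + h)) ^ k = ∑ h ∈ s, (P.eval x + h) ^ k) :
    P.natDegree = 1 := by
  have hev : ∀ (k : ℕ) (x : ZMod p), (Lam s d (P ^ k)).eval x = (Lam s d (X ^ k)).eval (P.eval x) := by
    intro k x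
    rw [eval_Lam, eval_Lam]
    simp only [eval_pow, eval_X]
    rw [H x k]
  have hP0 : P ≠ 0 := by
    intro h
    rw [h, natDegree_zero] at hP1
    omega
  have hn : P.natDegree < d := by
    by_contra hle
    push Not at hle
    have h1 := Lam_ne_zero s d (by omega) (by omega) hps P hle hP
    apply h1
    apply eq_zero_of_eval _ (lt_of_le_of_lt (natDegree_Lam_le s d P) hP)
    intro x
    have h2 := hev 1 x
    rw [pow_one, pow_one, Lam_eq_zero s d hps X (by rw [natDegree_X]; omega), eval_zero] at h2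
    exact h2
  by_contra hne
  have hn2 : 2 ≤ P.natDegree := by omega
  obtain ⟨n, hndef⟩ : ∃ n, n = P.natDegree := ⟨_, rfl⟩
  rw [← hndef] at hn hn2 hP hP1
  obtain ⟨k, hkdef⟩ : ∃ k, k = (d + n - 1) / n := ⟨_, rfl⟩
  have hk1 : k * n ≤ d + n - 1 := by rw [hkdef]; exact Nat.div_mul_le_self _ _
  have hk2 : d ≤ k * n := by
    have h1 := Nat.div_add_mod (d + n - 1) n
    have h2 := Nat.mod_lt (d + n - 1) (by omega : n > 0)
    rw [← hkdef] at h1
    have h3 : n * k = k * n := Nat.mul_comm _ _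
    omega
  have hk3 : k < d := by
    by_contra hle
    push Not at hle
    have : d * n ≤ k * n := Nat.mul_le_mul_right _ hle
    have h6 : d * 2 ≤ d * n := Nat.mul_le_mul_left _ hn2
    omega
  have hdeg : (P ^ k).natDegree = k * n := by rw [natDegree_pow, hndef]
  have h1 := Lam_ne_zero s d (by omega) (by omega) hps (P ^ k) (by rw [hdeg]; exact hk2)
    (by rw [hdeg]; omega)
  apply h1
  apply eq_zero_of_eval _ (lt_of_le_of_lt (natDegree_Lam_le s d (P ^ k)) (by rw [hdeg]; omega))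
  intro x
  rw [hev k x, Lam_eq_zero s d hps (X ^ k) (by rw [natDegree_X_pow]; exact hk3), eval_zero]


/-- scalars of G -/
def scalars (G : Subgroup (Equiv.Perm (ZMod p))) : Subgroup (ZMod p)ˣ where
  carrier := {u | ∃ g ∈ G, ∀ x, g x = (u : ZMod p) * x}
  one_mem' := ⟨1, G.one_mem, fun x => by simp⟩
  mul_mem' := by
    rintro u v ⟨g, hg, hgu⟩ ⟨g', hg', hgv⟩
    exact ⟨g * g', G.mul_mem hg hg', fun x => by
      rw [Equiv.Perm.mul_apply, hgv, hgu, Units.val_mul, mul_assoc]⟩
  inv_mem' := by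
    rintro u ⟨g, hg, hgu⟩
    refine ⟨g⁻¹, G.inv_mem hg, fun x => ?_⟩
    apply g.injective
    rw [Equiv.Perm.inv_def, Equiv.apply_symm_apply, hgu, ← mul_assoc, Units.mul_inv, one_mul]

theorem power_sum (A : Subgroup (ZMod p)ˣ) [Fintype A] (i : ℕ) :
    ∑ u : A, (((u : (ZMod p)ˣ) : ZMod p)) ^ i
      = if Fintype.card A ∣ i then (Fintype.card A : ZMod p) else 0 := by
  split_ifs with hdvd
  · have h0 : ∀ u : A, (((u : (ZMod p)ˣ) : ZMod p)) ^ i = 1 := by
      intro u
      obtain ⟨t, rfl⟩ := hdvd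
      have h1 : u ^ Fintype.card A = 1 := pow_card_eq_one
      have h2 : ((u : (ZMod p)ˣ) : ZMod p) ^ Fintype.card A = 1 := by
        rw [← Units.val_pow_eq_pow_val, ← Subgroup.coe_pow, h1]; simp
      rw [pow_mul, h2, one_pow]
    simp [h0]
  · obtain ⟨ζ, hζ⟩ := IsCyclic.exists_generator (α := A)
    have hord : orderOf ζ = Fintype.card A := by
      rw [orderOf_eq_card_of_forall_mem_zpowers hζ, Nat.card_eq_fintype_card]
    have hζi : (((ζ : (ZMod p)ˣ) : ZMod p)) ^ i ≠ 1 := by
      intro h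
      apply hdvd
      rw [← hord, orderOf_dvd_iff_pow_eq_one]
      apply Subtype.ext
      apply Units.ext
      simpa using h
    have hS : ∑ u : A, (((u : (ZMod p)ˣ) : ZMod p)) ^ i
        = (((ζ : (ZMod p)ˣ) : ZMod p)) ^ i * ∑ u : A, (((u : (ZMod p)ˣ) : ZMod p)) ^ i := by
      rw [Finset.mul_sum]
      rw [← Equiv.sum_comp (Equiv.mulLeft ζ)]
      apply Finset.sum_congr rfl
      intro u _
      simp [mul_pow]
    have h3 : (1 - (((ζ : (ZMod p)ˣ) : ZMod p)) ^ i)
        * ∑ u : A, (((u : (ZMod p)ˣ) : ZMod p)) ^ i = 0 := by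
      rw [sub_mul, one_mul]
      exact sub_eq_zero.mpr hS
    rcases mul_eq_zero.mp h3 with h | h
    · exact absurd (sub_eq_zero.mp h).symm hζi
    · exact h

theorem part1 (G : Subgroup (Equiv.Perm (ZMod p))) (hG : G ≤ Cfsg.affineGroup (ZMod p))
    (htrans : ∀ b : ZMod p, ∃ g ∈ G, ∀ x, g x = x + b) (hne : G ≠ Cfsg.affineGroup (ZMod p))
    (σ : Equiv.Perm (ZMod p)) (hσ : ∀ t : Fin 2 → ZMod p, ∃ g ∈ G, ∀ i, σ (t i) = g (t i)) :
    σ ∈ G := by
  classical
  have hp : p.Prime := Fact.out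
  have K1 : ∀ g ∈ G, ∃ u ∈ scalars G, ∃ b : ZMod p, ∀ x, g x = (u : ZMod p) * x + b := by
    intro g hg
    obtain ⟨a, b, hab⟩ := hG hg
    obtain ⟨τ, hτ, hτx⟩ := htrans (-b)
    refine ⟨a, ⟨τ * g, G.mul_mem hτ hg, fun x => ?_⟩, b, hab⟩
    rw [Equiv.Perm.mul_apply, hτx, hab]; ring
  have K3 : ∀ x y : ZMod p, ∃ u ∈ scalars G, σ x - σ y = (u : ZMod p) * (x - y) := by
    intro x y
    obtain ⟨g, hg, hgt⟩ := hσ ![x, y]
    obtain ⟨u, hu, b, hub⟩ := K1 g hg
    refine ⟨u, hu, ?_⟩
    have h0 := hgt 0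
    have h1 := hgt 1
    simp only [Matrix.cons_val_zero, Matrix.cons_val_one] at h0 h1
    rw [h0, h1, hub, hub]; ring
  have haff : ∃ a b : ZMod p, ∀ x, σ x = a * x + b := by
    obtain ⟨A, hA⟩ : ∃ A, A = scalars G := ⟨_, rfl⟩
    rw [← hA] at K1 K3
    have hAtop : A ≠ ⊤ := by
      intro htop
      apply hne
      apply le_antisymm hG
      intro f hf
      obtain ⟨a, b, hab⟩ := hf
      have ha : a ∈ A := by rw [htop]; trivial
      rw [hA] at ha
      obtain ⟨g₀, hg₀, hg₀x⟩ := ha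
      obtain ⟨τ, hτ, hτx⟩ := htrans b
      have : f = τ * g₀ := by
        ext x
        rw [Equiv.Perm.mul_apply, hτx, hg₀x, hab]
      rw [this]; exact G.mul_mem hτ hg₀
    obtain ⟨d, hddef⟩ : ∃ d, d = Fintype.card A := ⟨_, rfl⟩
    have hdvd : d ∣ p - 1 := by
      have := Subgroup.card_subgroup_dvd_card A
      rw [Nat.card_eq_fintype_card, Nat.card_eq_fintype_card, ZMod.card_units] at this
      rw [hddef]; exact this
    have hdne : d ≠ p - 1 := by
      intro h
      apply hAtop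
      rw [← Subgroup.card_eq_iff_eq_top, Nat.card_eq_fintype_card, Nat.card_eq_fintype_card,
        ZMod.card_units, ← hddef, h]
    have hd1 : 1 ≤ d := by rw [hddef]; exact Fintype.card_pos
    have hdp : 2 * d + 1 ≤ p := by
      obtain ⟨e, he⟩ := hdvd
      have hp2 := hp.two_le
      rcases e with _ | _ | e
      · omega
      · omega
      · have : d * 2 ≤ d * (e + 1 + 1) := Nat.mul_le_mul_left _ (by omega)
        omega
    by_cases hd : d = 1
    · refine ⟨1, σ 0, fun x => ?_⟩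
      obtain ⟨u, hu, hux⟩ := K3 x 0
      have hu1 : u = 1 := by
        have hsub : Subsingleton A :=
          Fintype.card_le_one_iff_subsingleton.mp (by rw [← hddef, hd])
        have := Subsingleton.elim (⟨u, hu⟩ : A) 1
        exact congrArg Subtype.val this
      rw [hu1] at hux
      simp at hux
      rw [one_mul]; linear_combination hux
    · have hd2 : 2 ≤ d := by omega
      obtain ⟨s, hs⟩ : ∃ s : Finset (ZMod p),
          s = Finset.univ.image (fun u : A => ((u : (ZMod p)ˣ) : ZMod p)) := ⟨_, rfl⟩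
      have hinj : Function.Injective (fun u : A => ((u : (ZMod p)ˣ) : ZMod p)) :=
        Units.val_injective.comp Subtype.val_injective
      have hsum : ∀ φ : ZMod p → ZMod p,
          ∑ h ∈ s, φ h = ∑ u : A, φ ((u : (ZMod p)ˣ) : ZMod p) := by
        intro φ
        rw [hs]
        exact Finset.sum_image (fun x _ y _ h => hinj h)
      have hps : ∀ i : ℕ, ∑ h ∈ s, h ^ i = if d ∣ i then (d : ZMod p) else 0 := by
        intro i
        rw [hsum (fun h => h ^ i), power_sum A i, hddef]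
      have hmem : ∀ h : ZMod p, h ∈ s ↔ ∃ u ∈ A, ((u : (ZMod p)ˣ) : ZMod p) = h := by
        intro h
        rw [hs, Finset.mem_image]
        constructor
        · rintro ⟨u, -, rfl⟩
          exact ⟨u, u.2, rfl⟩
        · rintro ⟨u, hu, rfl⟩
          exact ⟨⟨u, hu⟩, Finset.mem_univ _, rfl⟩
      obtain ⟨P, hPdef⟩ : ∃ P : (ZMod p)[X],
          P = Lagrange.interpolate Finset.univ id (fun x => σ x) := ⟨_, rfl⟩
      have hPev : ∀ x, P.eval x = σ x := fun x => by
        rw [hPdef]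
        exact Lagrange.eval_interpolate_at_node (fun x => σ x) (Set.injOn_id _)
          (Finset.mem_univ x)
      have hPdeg : P.natDegree < p := by
        have h1 := Lagrange.degree_interpolate_lt (s := Finset.univ) (v := id) (fun x => σ x)
          (Set.injOn_id _)
        rw [Finset.card_univ, ZMod.card, ← hPdef] at h1
        by_cases hP0 : P = 0
        · rw [hP0, natDegree_zero]; exact hp.pos
        · exact (natDegree_lt_iff_degree_lt hP0).mpr h1
      have hP1 : 1 ≤ P.natDegree := by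
        by_contra h0
        have h0' : P.natDegree = 0 := by omega
        have hc := eq_C_of_natDegree_eq_zero h0'
        have e0 := hPev 0
        have e1 := hPev 1
        rw [hc, eval_C] at e0 e1
        have : (0 : ZMod p) = 1 := σ.injective (e0.symm.trans e1)
        exact zero_ne_one this
      have H : ∀ (x : ZMod p) (k : ℕ),
          ∑ h ∈ s, (P.eval (x + h)) ^ k = ∑ h ∈ s, (P.eval x + h) ^ k := by
        intro x k
        simp only [hPev]
        obtain ⟨ψ, hψ⟩ : ∃ ψ : ZMod p → ZMod p, ψ = fun h => σ (x + h) - σ x := ⟨_, rfl⟩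
        have hψinj : Function.Injective ψ := by
          intro a b hab
          rw [hψ] at hab
          have : σ (x + a) = σ (x + b) := sub_left_injective hab
          exact add_left_cancel (σ.injective this)
        have hψs : s.image ψ = s := by
          apply Finset.eq_of_subset_of_card_le
          · intro y hy
            obtain ⟨h, hh, rfl⟩ := Finset.mem_image.mp hy
            obtain ⟨u, hu, rfl⟩ := (hmem h).mp hh
            obtain ⟨u', hu', hu'x⟩ := K3 (x + u) x
            rw [hmem]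
            refine ⟨u' * u, A.mul_mem hu' hu, ?_⟩
            rw [hψ]
            show _ = σ (x + u) - σ x
            rw [hu'x, Units.val_mul]; ring
          · rw [Finset.card_image_of_injective _ hψinj]
        calc ∑ h ∈ s, σ (x + h) ^ k = ∑ h ∈ s, (σ x + ψ h) ^ k := by
              apply Finset.sum_congr rfl
              intro h _
              rw [hψ]
              ring
          _ = ∑ h ∈ s.image ψ, (σ x + h) ^ k :=
              (Finset.sum_image (s := s) (g := ψ) (f := fun h => (σ x + h) ^ k)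
                (fun a _ b _ hab => hψinj hab)).symm
          _ = ∑ h ∈ s, (σ x + h) ^ k := by rw [hψs]
      have hdeg := poly_main s d hd2 hdp hps P hPdeg hP1 H
      have hform := eq_X_add_C_of_natDegree_le_one (le_of_eq hdeg)
      refine ⟨P.coeff 1, P.coeff 0, fun x => ?_⟩
      rw [← hPev x]
      conv_lhs => rw [hform]
      simp
  obtain ⟨a, b, hab⟩ := haff
  obtain ⟨g, hg, hgt⟩ := hσ ![0, 1]
  obtain ⟨a', b', hg'⟩ := hG hg
  have h0 := hgt 0
  have h1 := hgt 1
  simp only [Matrix.cons_val_zero, Matrix.cons_val_one] at h0 h1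
  rw [hab, hg'] at h0 h1
  have hb : b = b' := by simpa using h0
  have ha : a = a' := by rw [hb] at h1; simpa using h1
  have : σ = g := by
    ext x
    rw [hab, hg', ha, hb]
  rw [this]; exact hg

/-- the affine permutation `x ↦ a x + b`. -/
def affPerm (a : (ZMod p)ˣ) (b : ZMod p) : Equiv.Perm (ZMod p) where
  toFun x := a * x + b
  invFun y := (a⁻¹ : (ZMod p)ˣ) * (y - b)
  left_inv x := by
    show ((a⁻¹ : (ZMod p)ˣ) : ZMod p) * ((a : ZMod p) * x + b - b) = x
    rw [add_sub_cancel_right, ← mul_assoc, Units.inv_mul, one_mul]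
  right_inv y := by
    show (a : ZMod p) * (((a⁻¹ : (ZMod p)ˣ) : ZMod p) * (y - b)) + b = y
    rw [← mul_assoc, Units.mul_inv, one_mul, sub_add_cancel]

theorem part2 (σ : Equiv.Perm (ZMod p)) (t : Fin 2 → ZMod p) :
    ∃ g ∈ Cfsg.affineGroup (ZMod p), ∀ i, σ (t i) = g (t i) := by
  by_cases h : t 0 = t 1
  · refine ⟨affPerm 1 (σ (t 0) - t 0), ⟨1, _, fun x => rfl⟩, ?_⟩
    rw [Fin.forall_fin_two]
    refine ⟨?_, ?_⟩
    · show σ (t 0) = ((1 : (ZMod p)ˣ) : ZMod p) * t 0 + (σ (t 0) - t 0)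
      simp
    · rw [← h]
      show σ (t 0) = ((1 : (ZMod p)ˣ) : ZMod p) * t 0 + (σ (t 0) - t 0)
      simp
  · have hne : t 0 - t 1 ≠ 0 := sub_ne_zero.mpr h
    have hne' : σ (t 0) - σ (t 1) ≠ 0 := sub_ne_zero.mpr (fun e => h (σ.injective e))
    obtain ⟨a, ha⟩ : ∃ a : (ZMod p)ˣ, (a : ZMod p) = (σ (t 0) - σ (t 1)) / (t 0 - t 1) :=
      ⟨Units.mk0 _ (div_ne_zero hne' hne), rfl⟩
    refine ⟨affPerm a (σ (t 0) - a * t 0), ⟨a, _, fun x => rfl⟩, ?_⟩
    rw [Fin.forall_fin_two]
    refine ⟨?_, ?_⟩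
    · show σ (t 0) = (a : ZMod p) * t 0 + (σ (t 0) - a * t 0)
      ring
    · show σ (t 1) = (a : ZMod p) * t 1 + (σ (t 0) - a * t 0)
      have : (a : ZMod p) * (t 0 - t 1) = σ (t 0) - σ (t 1) := by
        rw [ha]; field_simp
      linear_combination this

theorem part3 (σ : Equiv.Perm (ZMod p))
    (h : ∀ t : Fin 3 → ZMod p, ∃ g ∈ Cfsg.affineGroup (ZMod p), ∀ i, σ (t i) = g (t i)) :
    σ ∈ Cfsg.affineGroup (ZMod p) := by
  have hne : σ 1 - σ 0 ≠ 0 := sub_ne_zero.mpr (fun e => one_ne_zero (σ.injective e))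
  refine ⟨Units.mk0 _ hne, σ 0, fun x => ?_⟩
  obtain ⟨g, ⟨a, b, hab⟩, hg⟩ := h ![0, 1, x]
  have h0 := hg 0
  have h1 := hg 1
  have h2 := hg 2
  simp only [Matrix.cons_val_zero, Matrix.cons_val_one, Matrix.cons_val_two, Matrix.head_cons,
    Matrix.tail_cons] at h0 h1 h2
  rw [hab] at h0 h1 h2
  rw [Units.val_mk0, h2, h1, h0]; ring

/-- Closures of subgroups of the one-dimensional affine group. Let p be a prime and G a group of permutations of F_p lying in the affine group AGL₁(p) = {x ↦ ax + b, a ≠ 0} and containing all translations. (1) If G is a proper subgroup of AGL₁(p), then G is 2-closed: a permutation of F_p agreeing on every ordered pair of points with some element of G lies in G. (2) Every permutation of F_p agrees on every ordered pair with some element of AGL₁(p) (the 2-closure of AGL₁(p) is the symmetric group). (3) AGL₁(p) is 3-closed: a permutation agreeing on every ordered triple with some affine map is affine. -/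
theorem result (p : ℕ) [Fact p.Prime] (G : Subgroup (Equiv.Perm (ZMod p))) (hG : G ≤ Cfsg.affineGroup (ZMod p))
    (htrans : ∀ b : ZMod p, ∃ g ∈ G, ∀ x, g x = x + b) :
    (G ≠ Cfsg.affineGroup (ZMod p) → ∀ σ : Equiv.Perm (ZMod p), (∀ t : Fin 2 → ZMod p, ∃ g ∈ G, ∀ i, σ (t i) = g (t i)) → σ ∈ G) ∧
    (∀ σ : Equiv.Perm (ZMod p), (∀ t : Fin 2 → ZMod p, ∃ g ∈ Cfsg.affineGroup (ZMod p), ∀ i, σ (t i) = g (t i))) ∧
    (∀ σ : Equiv.Perm (ZMod p), (∀ t : Fin 3 → ZMod p, ∃ g ∈ Cfsg.affineGroup (ZMod p), ∀ i, σ (t i) = g (t i)) → σ ∈ Cfsg.affineGroup (ZMod p)) := by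
  exact ⟨fun hne σ hσ => part1 G hG htrans hne σ hσ, part2, part3⟩

end Cfsg.Agent.S3518
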