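import Cfsg.Statements.S3547
import Cfsg.Agent.S3546
import Mathlib

set_option autoImplicit false
open Cfsg

namespace Cfsg.Agent.S3547

open MulAction

/-- fixed points on pairs -/
def fixedProdEquiv {G Ω : Type*} [Group G] [MulAction G Ω] (g : G) :
    fixedBy (Ω × Ω) g ≃ fixedBy Ω g × fixedBy Ω g where
  toFun x := (⟨x.1.1, congrArg Prod.fst x.2⟩, ⟨x.1.2, congrArg Prod.snd x.2⟩)
  invFun y := ⟨(y.1.1, y.2.1), Prod.ext y.1.2 y.2.2⟩
  left_inv _ := rfl
  right_inv _ := rfl

theorem card_fixedProd {G Ω : Type*} [Group G] [MulAction G Ω] (g : G) :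
    Nat.card (fixedBy (Ω × Ω) g) = Nat.card (fixedBy Ω g) ^ 2 := by
  rw [Nat.card_congr (fixedProdEquiv g), Nat.card_prod, sq]

theorem key {G Ω : Type*} [Group G] [MulAction G Ω] [Finite G] [Finite Ω]
    [Nonempty Ω] (D : Subgroup G)
    (hD : ∀ g : G, Nat.card (fixedBy Ω g) ≠ 1 → g ∈ D) :
    Nat.card (orbitRel.Quotient D (Ω × Ω)) - 1 =
      (Nat.card (orbitRel.Quotient G (Ω × Ω)) - 1) * D.index := by
  classical
  have := Fintype.ofFinite G
  have hG := Cfsg.Agent.S3546.burnside G (Ω × Ω)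
  have hD' := Cfsg.Agent.S3546.burnside D (Ω × Ω)
  have horbG : 1 ≤ Nat.card (orbitRel.Quotient G (Ω × Ω)) := by
    have : Nonempty (orbitRel.Quotient G (Ω × Ω)) :=
      ⟨Quotient.mk'' (Classical.arbitrary Ω, Classical.arbitrary Ω)⟩
    exact Nat.card_pos
  have horbD : 1 ≤ Nat.card (orbitRel.Quotient D (Ω × Ω)) := by
    have : Nonempty (orbitRel.Quotient D (Ω × Ω)) :=
      ⟨Quotient.mk'' (Classical.arbitrary Ω, Classical.arbitrary Ω)⟩
    exact Nat.card_pos
  have hsplit : ∑ g : G, Nat.card (fixedBy (Ω × Ω) g) =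
      ∑ g ∈ Finset.univ.filter (· ∈ D), Nat.card (fixedBy (Ω × Ω) g) +
      ∑ g ∈ Finset.univ.filter (fun g => ¬ g ∈ D), Nat.card (fixedBy (Ω × Ω) g) :=
    (Finset.sum_filter_add_sum_filter_not _ _ _).symm
  have hDsum : ∑ d : D, Nat.card (fixedBy (Ω × Ω) d) =
      ∑ g ∈ Finset.univ.filter (· ∈ D), Nat.card (fixedBy (Ω × Ω) g) := by
    have h1 : ∑ g ∈ Finset.univ.filter (· ∈ D), Nat.card (fixedBy (Ω × Ω) g) =
        ∑ d : D, Nat.card (fixedBy (Ω × Ω) (d : G)) :=
      Finset.sum_subtype _ (by simp) _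
    rw [h1]
    exact Finset.sum_congr rfl (fun _ _ => rfl)
  have hS2 : ∑ g ∈ Finset.univ.filter (fun g => ¬ g ∈ D), Nat.card (fixedBy (Ω × Ω) g) =
      (Finset.univ.filter (fun g => ¬ g ∈ D)).card := by
    rw [Finset.card_eq_sum_ones]
    apply Finset.sum_congr rfl
    intro g hg
    rw [Finset.mem_filter] at hg
    have h1 : Nat.card (fixedBy Ω g) = 1 := by
      by_contra h
      exact hg.2 (hD g h)
    rw [card_fixedProd, h1, one_pow]
  have hcardD : (Finset.univ.filter (· ∈ D)).card = Nat.card D := by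
    rw [Nat.card_eq_fintype_card, Fintype.card_subtype]
  have hcard2 : (Finset.univ.filter (· ∈ D)).card +
      (Finset.univ.filter (fun g => ¬ g ∈ D)).card = Nat.card G := by
    rw [Finset.card_filter_add_card_filter_not, Finset.card_univ, Nat.card_eq_fintype_card]
  have hidx : Nat.card D * D.index = Nat.card G := Subgroup.card_mul_index D
  have hDpos : 0 < Nat.card D := Nat.card_pos
  have hipos : 0 < D.index := Nat.pos_of_ne_zero Subgroup.index_ne_zero_of_finite
  obtain ⟨s, hs⟩ := Nat.exists_eq_add_of_le' horbG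
  obtain ⟨t, ht⟩ := Nat.exists_eq_add_of_le' horbD
  rw [hs, ht, Nat.add_sub_cancel, Nat.add_sub_cancel]
  rw [hs] at hG
  rw [ht] at hD'
  have hmain : (s + 1) * (Nat.card D * D.index) =
      (t + 1) * Nat.card D + (Nat.card D * D.index - Nat.card D) := by
    rw [hidx, ← hG, hsplit, ← hDsum, hD', hS2]
    omega
  have hle : Nat.card D ≤ Nat.card D * D.index := Nat.le_mul_of_pos_right _ hipos
  have h3 : Nat.card D * (s * D.index) = Nat.card D * t := by
    have h4 : (s + 1) * (Nat.card D * D.index) + Nat.card D =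
      (t + 1) * Nat.card D + Nat.card D * D.index := by omega
    nlinarith
  exact (Nat.eq_of_mul_eq_mul_left hDpos h3).symm

/-- Let G act faithfully and transitively on a finite set Ω, let D be the subgroup generated by the derangements, and let r_G and r_D be the numbers of orbits of G and of D on ordered pairs of points (the permutation ranks). Then r_D − 1 = (r_G − 1)·[G : D]. -/
theorem result {G Ω : Type*} [Group G] [Finite G] [MulAction G Ω] [FaithfulSMul G Ω] [Finite Ω]
    (htrans : MulAction.IsPretransitive G Ω) :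
    Nat.card (MulAction.orbitRel.Quotient ↥(Subgroup.closure {g : G | ∀ ω : Ω, g • ω ≠ ω}) (Ω × Ω)) - 1 =
      (Nat.card (MulAction.orbitRel.Quotient G (Ω × Ω)) - 1) * (Subgroup.closure {g : G | ∀ ω : Ω, g • ω ≠ ω}).index := by
  rcases isEmpty_or_nonempty Ω with hΩ | hΩ
  · have h1 : IsEmpty (MulAction.orbitRel.Quotient
        ↥(Subgroup.closure {g : G | ∀ ω : Ω, g • ω ≠ ω}) (Ω × Ω)) :=
      ⟨fun q => Quotient.inductionOn' q (fun x => isEmptyElim x.1)⟩
    have h2 : IsEmpty (MulAction.orbitRel.Quotient G (Ω × Ω)) :=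
      ⟨fun q => Quotient.inductionOn' q (fun x => isEmptyElim x.1)⟩
    rw [Nat.card_of_isEmpty, Nat.card_of_isEmpty]
    simp
  · exact key _ (Cfsg.Agent.S3546.result htrans).2

end Cfsg.Agent.S3547
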