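import Cfsg.Statements.S3549
import Cfsg.Agent.S3548
import Mathlib

set_option autoImplicit false
open Cfsg

namespace Cfsg.Agent.S3549

open MulAction
open scoped Pointwise

theorem arith {k b m : ℕ} (hb : 2 ≤ b) (hm : 2 ≤ m) (h1 : k ∣ b - 1) (h2 : k ∣ b * m - b) :
    (k + 1) * (k + 1) ≤ b * m := by
  have hkb : k ≤ b - 1 := Nat.le_of_dvd (by omega) h1
  have hcop : Nat.Coprime k b := by
    have h3 : Nat.gcd k b ∣ b - (b - 1) :=
      Nat.dvd_sub (Nat.gcd_dvd_right k b) ((Nat.gcd_dvd_left k b).trans h1)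
    have h4 : b - (b - 1) = 1 := by omega
    rw [h4] at h3
    exact Nat.dvd_one.mp h3
  have h5 : b * m - b = b * (m - 1) := by
    rw [Nat.mul_sub, mul_one]
  rw [h5] at h2
  have h6 : k ∣ m - 1 := hcop.dvd_of_dvd_mul_left h2
  have hkm : k ≤ m - 1 := Nat.le_of_dvd (by omega) h6
  exact Nat.mul_le_mul (by omega) (by omega)

theorem final {G Ω : Type*} [Group G] [MulAction G Ω] [Finite G] [Finite Ω]
    [IsPretransitive G Ω] (D : Subgroup G) [D.Normal]
    (hDt : IsPretransitive D Ω) (hD : ∀ g : G, Nat.card (fixedBy Ω g) ≠ 1 → g ∈ D)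
    (himp : ¬ IsPreprimitive G Ω) :
    (D.index : ℝ) ≤ Real.sqrt (Nat.card Ω) - 1 := by
  classical
  have hex : ∃ B : Set Ω, IsBlock G B ∧ ¬ IsTrivialBlock B := by
    by_contra h
    push Not at h
    exact himp ⟨fun {B} hB => h B hB⟩
  obtain ⟨B, hB, hBnt⟩ := hex
  rw [IsTrivialBlock, not_or] at hBnt
  obtain ⟨hBns, hBuniv⟩ := hBnt
  rw [Set.not_subsingleton_iff] at hBns
  obtain ⟨α, hα⟩ := hBns.nonempty
  have hb2 : 2 ≤ B.ncard := by
    have := (Set.one_lt_ncard_iff_nontrivial (s := B)).mpr hBns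
    omega
  have hbm := hB.ncard_block_mul_ncard_orbit_eq ⟨α, hα⟩
  have hnpos : 0 < Nat.card Ω := by
    have : Nonempty Ω := ⟨α⟩
    exact Nat.card_pos
  have hm2 : 2 ≤ (orbit G B).ncard := by
    by_contra h
    have h1 : (orbit G B).ncard = 0 ∨ (orbit G B).ncard = 1 := by omega
    rcases h1 with h1 | h1
    · rw [h1, mul_zero] at hbm
      omega
    · rw [h1, mul_one] at hbm
      apply hBuniv
      apply Set.eq_of_subset_of_ncard_le (Set.subset_univ B)
      rw [Set.ncard_univ, hbm]
  -- invariance of the block under the stabilizer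
  have hinv : ∀ (h : stabilizer G α), (h : G) • B = B := by
    intro h
    apply hB.smul_eq_of_mem hα
    have h2 : (h : G) • α = α := h.2
    rw [h2]; exact hα
  have hmem : ∀ (h : stabilizer G α) (x : Ω), x ∈ B → h • x ∈ B := by
    intro h x hx
    have h1 : (h : G) • x ∈ (h : G) • B := Set.smul_mem_smul_set hx
    rw [hinv h] at h1
    exact h1
  have hd1 : D.index ∣ B.ncard - 1 := by
    have h := Cfsg.Agent.S3548.dvd_ncard_of_dvd_orbits (H := stabilizer G α) (B \ {α})
      (by
        intro h x hx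
        refine ⟨hmem h x hx.1, ?_⟩
        have := Cfsg.Agent.S3548.stab_invariant α h x hx.2
        exact this) D.index
      (fun x hx => Cfsg.Agent.S3548.index_dvd_orbit D hDt hD α x hx.2)
    rwa [Set.ncard_sdiff_singleton_of_mem hα] at h
  have hd2 : D.index ∣ B.ncard * (orbit G B).ncard - B.ncard := by
    have h := Cfsg.Agent.S3548.dvd_ncard_of_dvd_orbits (H := stabilizer G α) Bᶜ
      (by
        intro h x hx hhx
        apply hx
        have h1 := hmem h⁻¹ (h • x) hhx
        rwa [inv_smul_smul] at h1) D.index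
      (fun x hx => Cfsg.Agent.S3548.index_dvd_orbit D hDt hD α x (by
        intro hxα
        rw [hxα] at hx
        exact hx hα))
    rwa [Set.ncard_compl, ← hbm] at h
  have hmain := arith hb2 hm2 hd1 hd2
  rw [hbm] at hmain
  have h1 : ((D.index : ℝ) + 1) ≤ Real.sqrt (Nat.card Ω) := by
    rw [Real.le_sqrt' (by positivity)]
    have h2 : (((D.index + 1) * (D.index + 1) : ℕ) : ℝ) ≤ ((Nat.card Ω : ℕ) : ℝ) := by
      exact_mod_cast hmain
    push_cast at h2
    nlinarith
  linarith

/-- Let G act faithfully, transitively but imprimitively on a finite set with n points, and let D be the subgroup generated by the derangements. Then the index of D in G is at most √n − 1. -/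
theorem result {G Ω : Type*} [Group G] [Finite G] [MulAction G Ω] [FaithfulSMul G Ω] [Finite Ω]
    (htrans : MulAction.IsPretransitive G Ω) (himp : ¬ MulAction.IsPreprimitive G Ω) :
    ((Subgroup.closure {g : G | ∀ ω : Ω, g • ω ≠ ω}).index : ℝ) ≤ Real.sqrt (Nat.card Ω) - 1 := by
  obtain ⟨hDt, hD⟩ := Cfsg.Agent.S3546.result htrans
  exact final _ hDt hD himp

end Cfsg.Agent.S3549
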