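import Cfsg.Statements.S3559
import Cfsg.Agent.Lib.Helper17.BGroupC

set_option autoImplicit false
open Cfsg

namespace Cfsg.Agent.S3559

open Cfsg.Agent.Lib.Helper17

/-- Let G act faithfully and transitively on a finite set whose number of points n ≥ 2 is not a prime power, and suppose G has a cyclic subgroup acting regularly (transitively with trivial point stabilizers). Then G is imprimitive or doubly transitive. -/
theorem result {G Ω : Type*} [Group G] [Finite G] [MulAction G Ω] [FaithfulSMul G Ω] [Finite Ω]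
    (htrans : MulAction.IsPretransitive G Ω) (hn : 2 ≤ Nat.card Ω) (hnp : ¬ IsPrimePow (Nat.card Ω))
    (C : Subgroup G) (hcyc : IsCyclic ↥C) (hC : MulAction.IsPretransitive ↥C Ω ∧ ∀ a : Ω, MulAction.stabilizer ↥C a = ⊥) :
    ¬ MulAction.IsPreprimitive G Ω ∨ MulAction.IsMultiplyPretransitive G Ω 2 := by
  by_cases hprim : MulAction.IsPreprimitive G Ω
  swap
  · exact Or.inl hprim
  right
  obtain ⟨hCt, hCs⟩ := hC
  haveI : Nonempty Ω := by
    rw [← Finite.card_pos_iff]
    omega
  obtain ⟨ω₀⟩ := ‹Nonempty Ω›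
  have hreg : Function.Bijective (fun a : C => (a : G) • ω₀) := by
    constructor
    · intro a b hab
      have h1 : (a : G) • ω₀ = (b : G) • ω₀ := hab
      have h2 : b⁻¹ * a ∈ MulAction.stabilizer C ω₀ := by
        rw [MulAction.mem_stabilizer_iff, mul_smul, Subgroup.smul_def, Subgroup.smul_def, h1,
          Subgroup.coe_inv, inv_smul_smul]
      rw [hCs, Subgroup.mem_bot, inv_mul_eq_one] at h2
      exact h2.symm
    · intro β
      obtain ⟨c, hc⟩ := MulAction.exists_smul_eq C ω₀ β
      exact ⟨c, hc⟩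
  have hcard : Nat.card C = Nat.card Ω := Nat.card_eq_of_bijective _ hreg
  set p := (Nat.card Ω).minFac with hpdef
  have hpp : p.Prime := Nat.minFac_prime (by omega)
  haveI : Fact p.Prime := ⟨hpp⟩
  have hpd : p ∣ Nat.card Ω := Nat.minFac_dvd _
  have hpne : Nat.card Ω ≠ p := by
    intro h
    apply hnp
    rw [h]
    exact hpp.isPrimePow
  letI : CommGroup C := IsCyclic.commGroup
  have hcomm : ∀ a b : C, a * b = b * a := fun a b => mul_comm a b
  set P₁ : Subgroup C := (powMonoidHom p : C →* C).ker with hP₁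
  have hP : ∀ a : C, a ∈ P₁ ↔ a ^ p = 1 := by
    intro a
    rw [hP₁, MonoidHom.mem_ker, powMonoidHom_apply]
  have hPc : Nat.card P₁ = p := by
    rw [hP₁, IsCyclic.card_powMonoidHom_ker, hcard]
    exact Nat.gcd_eq_right hpd
  have hne : ∃ x : C, x ∉ P₁ := by
    by_contra hcon
    push Not at hcon
    have : P₁ = ⊤ := by
      rw [eq_top_iff]
      exact fun x _ => hcon x
    rw [this, Subgroup.card_top, hcard] at hPc
    exact hpne hPc
  exact two_transitive_of_regular_abelian hprim C ω₀ hreg hcomm p P₁ hP hPc hne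

end Cfsg.Agent.S3559
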