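import Cfsg.Statements.S3560
import Mathlib

set_option autoImplicit false
open Cfsg

namespace Cfsg.Agent.S3560

open MulAction

section transport

variable {Y : Type*} [Fintype Y]

noncomputable def tr (S₀ : Subgroup (Equiv.Perm Y)) :
    Subgroup (Equiv.Perm (Fin (Fintype.card Y))) :=
  S₀.map (Fintype.equivFin Y).permCongrHom.toMonoidHom

noncomputable def trMap (S₀ : Subgroup (Equiv.Perm Y)) : ↥S₀ → ↥(tr S₀) :=
  fun g => ⟨(Fintype.equivFin Y).permCongrHom g, Subgroup.mem_map_of_mem _ g.2⟩

theorem trMap_surjective (S₀ : Subgroup (Equiv.Perm Y)) : Function.Surjective (trMap S₀) := by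
  rintro ⟨σ, g, hg, rfl⟩
  exact ⟨⟨g, hg⟩, rfl⟩

noncomputable def trEquivariant (S₀ : Subgroup (Equiv.Perm Y)) :
    Y →ₑ[trMap S₀] Fin (Fintype.card Y) where
  toFun := Fintype.equivFin Y
  map_smul' g y := by
    change (Fintype.equivFin Y) ((g : Equiv.Perm Y) y) =
      ((Fintype.equivFin Y).permCongrHom (g : Equiv.Perm Y)) ((Fintype.equivFin Y) y)
    simp [Equiv.permCongrHom]

theorem trEquivariant_bijective (S₀ : Subgroup (Equiv.Perm Y)) :
    Function.Bijective (trEquivariant S₀) :=
  (Fintype.equivFin Y).bijective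

theorem transport (G₀ R₀ : Subgroup (Equiv.Perm Y)) {K : Type*} [Group K] (h1 : R₀ ≤ G₀)
    (h2 : Nonempty (↥R₀ ≃* K)) (h3 : IsPretransitive ↥R₀ Y)
    (h4 : ∀ a : Y, stabilizer ↥R₀ a = ⊥) (h5 : IsPreprimitive ↥G₀ Y)
    (h6 : ¬ IsMultiplyPretransitive ↥G₀ Y 2) :
    ∃ (n : ℕ) (G R : Subgroup (Equiv.Perm (Fin n))), R ≤ G ∧ Nonempty (↥R ≃* K) ∧
      IsPretransitive ↥R (Fin n) ∧ (∀ a : Fin n, stabilizer ↥R a = ⊥) ∧
      IsPreprimitive ↥G (Fin n) ∧ ¬ IsMultiplyPretransitive ↥G (Fin n) 2 := by
  refine ⟨Fintype.card Y, tr G₀, tr R₀, Subgroup.map_mono h1, ?_, ?_, ?_, ?_, ?_⟩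
  · obtain ⟨e⟩ := h2
    exact ⟨((Fintype.equivFin Y).permCongrHom.subgroupMap R₀).symm.trans e⟩
  · exact (isPretransitive_congr (trMap_surjective R₀) (trEquivariant_bijective R₀)).mp h3
  · intro a
    rw [Subgroup.eq_bot_iff_forall]
    rintro ⟨σ, g, hg, rfl⟩ hs
    have hmem : (⟨g, hg⟩ : R₀) ∈ stabilizer ↥R₀ ((Fintype.equivFin Y).symm a) := by
      rw [mem_stabilizer_iff] at hs ⊢
      have hs' : ((Fintype.equivFin Y).permCongrHom g) a = a := hs
      change g ((Fintype.equivFin Y).symm a) = (Fintype.equivFin Y).symm a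
      apply (Fintype.equivFin Y).injective
      rw [Equiv.apply_symm_apply]
      simpa [Equiv.permCongrHom] using hs'
    rw [h4] at hmem
    have hg1 : g = 1 := congrArg Subtype.val (Subgroup.mem_bot.mp hmem)
    subst hg1
    apply Subtype.ext
    exact map_one _
  · exact (isPreprimitive_congr (trMap_surjective G₀) (trEquivariant_bijective G₀)).mp h5
  · intro h
    exact h6 ((IsPretransitive.of_embedding_congr (n := Fin 2) (trMap_surjective G₀)
      (trEquivariant_bijective G₀)).mpr h)

end transport

section hamming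

variable {ι : Type*} [Fintype ι] [DecidableEq ι] {m : ℕ}

/-- Hamming isometries of `ι → Fin m`. -/
def hamIso (ι : Type*) [Fintype ι] (m : ℕ) : Subgroup (Equiv.Perm (ι → Fin m)) where
  carrier := {σ | ∀ x y, hammingDist (σ x) (σ y) = hammingDist x y}
  mul_mem' := by
    intro a b ha hb x y
    simp only [Equiv.Perm.mul_apply]
    rw [ha, hb]
  one_mem' := by
    intro x y
    rfl
  inv_mem' := by
    intro a ha x y
    have := ha (a⁻¹ x) (a⁻¹ y)
    have h1 : a (a⁻¹ x) = x := by simp
    have h2 : a (a⁻¹ y) = y := by simp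
    rw [h1, h2] at this
    exact this.symm

def coordPerm (π : ι → Equiv.Perm (Fin m)) : Equiv.Perm (ι → Fin m) := Equiv.piCongrRight π

omit [Fintype ι] [DecidableEq ι] in
theorem coordPerm_apply (π : ι → Equiv.Perm (Fin m)) (z : ι → Fin m) (i : ι) :
    coordPerm π z i = π i (z i) := rfl

omit [DecidableEq ι] in
theorem coordPerm_mem (π : ι → Equiv.Perm (Fin m)) : coordPerm π ∈ hamIso ι m := by
  intro x y
  unfold hammingDist
  congr 1
  ext i
  simp [coordPerm_apply]

def reindex (τ : Equiv.Perm ι) : Equiv.Perm (ι → Fin m) :=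
  Equiv.arrowCongr τ.symm (Equiv.refl _)

omit [Fintype ι] [DecidableEq ι] in
theorem reindex_apply (τ : Equiv.Perm ι) (z : ι → Fin m) (i : ι) :
    reindex τ z i = z (τ i) := by
  simp [reindex]

omit [DecidableEq ι] in
theorem reindex_mem (τ : Equiv.Perm ι) : (reindex τ : Equiv.Perm (ι → Fin m)) ∈ hamIso ι m := by
  intro x y
  unfold hammingDist
  apply Finset.card_bijective τ τ.bijective
  intro i
  simp only [Finset.mem_filter, Finset.mem_univ, true_and]
  rw [reindex_apply, reindex_apply]

omit [Fintype ι] in
theorem coordPerm_update (i : ι) (π : Equiv.Perm (Fin m)) (z : ι → Fin m) :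
    coordPerm (Function.update (fun _ => (1 : Equiv.Perm (Fin m))) i π) z
      = Function.update z i (π (z i)) := by
  ext j
  by_cases hj : j = i
  · subst hj
    simp [coordPerm_apply]
  · simp [coordPerm_apply, hj]

omit [DecidableEq ι] in
theorem hamIso_isPretransitive : IsPretransitive ↥(hamIso ι m) (ι → Fin m) := by
  constructor
  intro x y
  refine ⟨⟨coordPerm (fun i => Equiv.swap (x i) (y i)), coordPerm_mem _⟩, ?_⟩
  funext i
  change (coordPerm _ x) i = y i
  simp [coordPerm_apply]

open scoped Pointwise in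
theorem hamIso_isPreprimitive (hm : 3 ≤ m) : IsPreprimitive ↥(hamIso ι m) (ι → Fin m) := by
  haveI := hamIso_isPretransitive (ι := ι) (m := m)
  set o : Fin m := ⟨0, by omega⟩ with ho
  set z₀ : ι → Fin m := fun _ => o with hz₀def
  apply IsPreprimitive.of_isTrivialBlock_base z₀
  intro B hz₀ hB
  by_cases hsub : B.Subsingleton
  · exact Or.inl hsub
  right
  obtain ⟨x, hxB, hx⟩ : ∃ x ∈ B, x ≠ z₀ := by
    by_contra h
    push Not at h
    exact hsub (fun a ha b hb => by rw [h a ha, h b hb])
  have hmove : ∀ g : Equiv.Perm (ι → Fin m), g ∈ hamIso ι m → ∀ a ∈ B, g a ∈ B →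
      ∀ b ∈ B, g b ∈ B := by
    intro g hg a ha hga b hb
    have h1 : (⟨g, hg⟩ : hamIso ι m) • B = B := hB.smul_eq_of_mem ha hga
    rw [← h1]
    exact Set.smul_mem_smul_set (a := (⟨g, hg⟩ : hamIso ι m)) hb
  obtain ⟨i, hi⟩ : ∃ i, x i ≠ o := by
    by_contra h
    push Not at h
    exact hx (funext h)
  obtain ⟨v, hvo, hvx⟩ : ∃ v : Fin m, v ≠ o ∧ v ≠ x i := by
    by_cases h1 : x i = ⟨1, by omega⟩
    · refine ⟨⟨2, by omega⟩, ?_, ?_⟩
      · simp [ho, Fin.ext_iff]
      · rw [h1]; simp [Fin.ext_iff]
    · refine ⟨⟨1, by omega⟩, ?_, fun h => h1 h.symm⟩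
      simp [ho, Fin.ext_iff]
  -- step 1: a point of weight one
  have hy : Function.update x i v ∈ B := by
    have h2 := hmove (coordPerm (Function.update (fun _ => (1 : Equiv.Perm (Fin m))) i
      (Equiv.swap (x i) v))) (coordPerm_mem _) z₀ hz₀ (by
        rw [coordPerm_update]
        have : (Equiv.swap (x i) v) (z₀ i) = z₀ i :=
          Equiv.swap_apply_of_ne_of_ne (Ne.symm hi) (Ne.symm hvo)
        rw [this, Function.update_eq_self]
        exact hz₀) x hxB
    rw [coordPerm_update, Equiv.swap_apply_left] at h2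
    exact h2
  have he : Function.update z₀ i v ∈ B := by
    have h2 := hmove (coordPerm (fun j => Equiv.swap (x j) o)) (coordPerm_mem _) x hxB (by
      have : coordPerm (fun j => Equiv.swap (x j) o) x = z₀ := by
        funext j
        simp [coordPerm_apply, hz₀def]
      rw [this]; exact hz₀) _ hy
    have h3 : coordPerm (fun j => Equiv.swap (x j) o) (Function.update x i v)
        = Function.update z₀ i v := by
      funext j
      by_cases hj : j = i
      · subst hj
        simp only [coordPerm_apply, Function.update_self]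
        exact Equiv.swap_apply_of_ne_of_ne hvx hvo
      · simp [coordPerm_apply, hj, hz₀def]
    rw [h3] at h2
    exact h2
  -- step 2: all points of weight one
  have hall : ∀ (j : ι) (w : Fin m), Function.update z₀ j w ∈ B := by
    intro j w
    by_cases hw : w = o
    · rw [hw]
      have : Function.update z₀ j o = z₀ := by
        rw [Function.update_eq_self_iff]
      rw [this]; exact hz₀
    have hr0 : (reindex (Equiv.swap i j) : Equiv.Perm (ι → Fin m)) z₀ = z₀ := by
      funext k
      rw [reindex_apply]
    have hr1 : (reindex (Equiv.swap i j) : Equiv.Perm (ι → Fin m)) (Function.update z₀ i v)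
        = Function.update z₀ j v := by
      funext k
      rw [reindex_apply]
      by_cases hk : k = j
      · subst hk
        simp
      · have h1 : Equiv.swap i j k ≠ i := by
          intro h
          apply hk
          have := congrArg (Equiv.swap i j) h
          simpa using this
        rw [Function.update_of_ne h1, Function.update_of_ne hk]
    have h2 : Function.update z₀ j v ∈ B := by
      have := hmove _ (reindex_mem (Equiv.swap i j)) z₀ hz₀ (by rw [hr0]; exact hz₀) _ he
      rw [hr1] at this
      exact this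
    have h3 := hmove (coordPerm (Function.update (fun _ => (1 : Equiv.Perm (Fin m))) j
      (Equiv.swap v w))) (coordPerm_mem _) z₀ hz₀ (by
        rw [coordPerm_update]
        have : (Equiv.swap v w) (z₀ j) = z₀ j :=
          Equiv.swap_apply_of_ne_of_ne (Ne.symm hvo) (Ne.symm hw)
        rw [this, Function.update_eq_self]
        exact hz₀) _ h2
    rw [coordPerm_update, Function.update_self, Equiv.swap_apply_left, Function.update_idem] at h3
    exact h3
  -- step 3: B is closed under changing one coordinate
  have hstep : ∀ b ∈ B, ∀ (j : ι) (w : Fin m), Function.update b j w ∈ B := by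
    intro b hb j w
    have hg0 : coordPerm (fun k => Equiv.swap o (b k)) z₀ = b := by
      funext k
      simp [coordPerm_apply, hz₀def]
    have h2 := hmove (coordPerm (fun k => Equiv.swap o (b k))) (coordPerm_mem _) z₀ hz₀
      (by rw [hg0]; exact hb) _ (hall j (Equiv.swap o (b j) w))
    have h3 : coordPerm (fun k => Equiv.swap o (b k))
        (Function.update z₀ j (Equiv.swap o (b j) w)) = Function.update b j w := by
      funext k
      by_cases hk : k = j
      · subst hk
        simp [coordPerm_apply]
      · simp [coordPerm_apply, hk, hz₀def]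
    rw [h3] at h2
    exact h2
  -- step 4: induction on the support
  have hfin : ∀ (s : Finset ι) (y : ι → Fin m), (fun k => if k ∈ s then y k else o) ∈ B := by
    intro s y
    induction s using Finset.induction_on with
    | empty =>
      have : (fun k => if k ∈ (∅ : Finset ι) then y k else o) = z₀ := by
        funext k
        simp [hz₀def]
      rw [this]; exact hz₀
    | insert a s has ih =>
      have : (fun k => if k ∈ insert a s then y k else o)
          = Function.update (fun k => if k ∈ s then y k else o) a (y a) := by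
        funext k
        by_cases hk : k = a
        · subst hk
          simp
        · simp [hk]
      rw [this]
      exact hstep _ ih a (y a)
  rw [Set.eq_univ_iff_forall]
  intro y
  have := hfin Finset.univ y
  simpa using this

theorem hamIso_not_two (hm : 3 ≤ m) (hr : 2 ≤ Fintype.card ι) :
    ¬ IsMultiplyPretransitive ↥(hamIso ι m) (ι → Fin m) 2 := by
  intro h
  rw [is_two_pretransitive_iff] at h
  have hne : Nonempty ι := by
    rw [← Fintype.card_pos_iff]; omega
  obtain ⟨i⟩ := hne
  set o : Fin m := ⟨0, by omega⟩ with ho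
  set u : Fin m := ⟨1, by omega⟩ with hu
  have huo : u ≠ o := by simp [ho, hu, Fin.ext_iff]
  set z₀ : ι → Fin m := fun _ => o with hz₀def
  have h1 : z₀ ≠ Function.update z₀ i u := by
    intro h
    have := congrFun h i
    rw [Function.update_self] at this
    exact huo this.symm
  have h2 : z₀ ≠ (fun _ => u : ι → Fin m) := by
    intro h
    have := congrFun h i
    exact huo this.symm
  obtain ⟨g, hg1, hg2⟩ := h h1 h2
  have hd := g.2 z₀ (Function.update z₀ i u)
  have hg1' : (g : Equiv.Perm (ι → Fin m)) z₀ = z₀ := hg1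
  have hg2' : (g : Equiv.Perm (ι → Fin m)) (Function.update z₀ i u) = fun _ => u := hg2
  rw [hg1', hg2'] at hd
  have hd1 : hammingDist z₀ (fun _ => u : ι → Fin m) = Fintype.card ι := by
    unfold hammingDist
    rw [← Finset.card_univ]
    congr 1
    ext k
    simp [hz₀def, huo.symm]
  have hd2 : hammingDist z₀ (Function.update z₀ i u) = 1 := by
    unfold hammingDist
    rw [Finset.card_eq_one]
    refine ⟨i, ?_⟩
    ext k
    by_cases hk : k = i
    · subst hk
      simp [hz₀def, huo.symm]
    · simp [hk]
  omega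

end hamming

section regular

variable {ι : Type*} [Fintype ι] {m : ℕ} {F : ι → Type*} [∀ i, Group (F i)]

/-- the regular representation of a direct product on `ι → Fin m` -/
noncomputable def regHom (β : ∀ i, F i ≃ Fin m) : (∀ i, F i) →* Equiv.Perm (ι → Fin m) :=
  (Equiv.piCongrRight β).permCongrHom.toMonoidHom.comp (MulAction.toPermHom (∀ i, F i) (∀ i, F i))

omit [Fintype ι] in
theorem regHom_apply (β : ∀ i, F i ≃ Fin m) (p : ∀ i, F i) (x : ι → Fin m) (i : ι) :
    regHom β p x i = β i (p i * (β i).symm (x i)) := by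
  simp [regHom, Equiv.permCongrHom, Equiv.piCongrRight]

omit [Fintype ι] in
theorem regHom_apply' (β : ∀ i, F i ≃ Fin m) (p : ∀ i, F i) (x : ι → Fin m) :
    regHom β p x = fun i => β i (p i * (β i).symm (x i)) := by
  funext i
  exact regHom_apply β p x i

theorem regHom_mem (β : ∀ i, F i ≃ Fin m) (p : ∀ i, F i) : regHom β p ∈ hamIso ι m := by
  intro x y
  unfold hammingDist
  congr 1
  ext i
  simp [regHom_apply]

omit [Fintype ι] in
theorem regHom_fix (β : ∀ i, F i ≃ Fin m) (p : ∀ i, F i) (x : ι → Fin m)
    (h : regHom β p x = x) : p = 1 := by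
  funext i
  have := congrFun h i
  rw [regHom_apply] at this
  have h2 : p i * (β i).symm (x i) = (β i).symm (x i) := by
    apply (β i).injective
    rw [this, Equiv.apply_symm_apply]
  simpa using h2

omit [Fintype ι] in
theorem regHom_injective (β : ∀ i, F i ≃ Fin m) (hm : 3 ≤ m) : Function.Injective (regHom β) := by
  rw [injective_iff_map_eq_one]
  intro p hp
  apply regHom_fix β p (fun _ => ⟨0, by omega⟩)
  rw [hp]
  rfl

end regular

/-- Let K be a finite group isomorphic to a direct product of r ≥ 2 groups all of the same order m ≥ 3. Then K is not a B-group: there is a primitive but not doubly transitive permutation group (on some finite set) containing a regular subgroup isomorphic to K. -/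
theorem result {K : Type*} [Group K] [Finite K] {ι : Type*} [Fintype ι] (F : ι → Type*) [∀ i, Group (F i)]
    (hr : 2 ≤ Fintype.card ι) (m : ℕ) (hm : 3 ≤ m) (hcard : ∀ i, Nat.card (F i) = m) (e : K ≃* (∀ i, F i)) :
    ∃ (n : ℕ) (G R : Subgroup (Equiv.Perm (Fin n))), R ≤ G ∧ Nonempty (↥R ≃* K) ∧
      MulAction.IsPretransitive ↥R (Fin n) ∧ (∀ a : Fin n, MulAction.stabilizer ↥R a = ⊥) ∧
      MulAction.IsPreprimitive ↥G (Fin n) ∧ ¬ MulAction.IsMultiplyPretransitive ↥G (Fin n) 2 := by
  classical
  haveI : ∀ i, Finite (F i) := fun i => Nat.finite_of_card_ne_zero (by rw [hcard i]; omega)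
  let β : ∀ i, F i ≃ Fin m := fun i => Finite.equivFinOfCardEq (hcard i)
  let φ : K →* Equiv.Perm (ι → Fin m) := (regHom β).comp e.toMonoidHom
  have hφinj : Function.Injective φ := (regHom_injective β hm).comp e.injective
  apply transport (hamIso ι m) φ.range
  · rintro _ ⟨k, rfl⟩
    exact regHom_mem β (e k)
  · exact ⟨(MonoidHom.ofInjective hφinj).symm⟩
  · constructor
    intro x y
    let p : ∀ i, F i := fun i => (β i).symm (y i) * ((β i).symm (x i))⁻¹
    refine ⟨⟨φ (e.symm p), ⟨_, rfl⟩⟩, ?_⟩
    change regHom β (e (e.symm p)) x = y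
    rw [MulEquiv.apply_symm_apply, regHom_apply']
    funext i
    simp [p]
  · intro a
    rw [Subgroup.eq_bot_iff_forall]
    rintro ⟨_, k, rfl⟩ hs
    rw [mem_stabilizer_iff] at hs
    have hs' : regHom β (e k) a = a := hs
    have h1 := regHom_fix β (e k) a hs'
    have hk : k = 1 := by
      apply e.injective
      rw [h1, map_one]
    subst hk
    apply Subtype.ext
    exact map_one _
  · exact hamIso_isPreprimitive hm
  · exact hamIso_not_two hm hr

end Cfsg.Agent.S3560
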