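import Cfsg.Statements.S3573
import Mathlib

set_option autoImplicit false
open Cfsg

namespace Cfsg.Agent.S3573

open Equiv.Perm Finset

section aux

variable {α : Type*} [Fintype α] [DecidableEq α]

theorem card_cycle {σ : Equiv.Perm α} {r : ℕ} (hr : r.Prime) (hσ : orderOf σ = r) {x : α}
    (hx : σ x ≠ x) : (σ.cycleOf x).support.card = r := by
  have h1 : (σ.cycleOf x).IsCycle := isCycle_cycleOf σ hx
  have h2 := h1.orderOf
  have h3 := orderOf_cycleOf_dvd_orderOf σ x
  rw [hσ, h2] at h3
  have h4 := h1.two_le_card_support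
  rcases (Nat.dvd_prime hr).mp h3 with h | h
  · omega
  · exact h

theorem cycle_subset {σ : Equiv.Perm α} {T : Finset α} (hT : ∀ y ∈ T, σ y ∈ T) {x : α}
    (hxT : x ∈ T) (hx : σ x ≠ x) : (σ.cycleOf x).support ⊆ T := by
  have key : ∀ i : ℕ, (σ ^ i) x ∈ T := by
    intro i
    induction i with
    | zero => simpa using hxT
    | succ i ih => rw [pow_succ', Equiv.Perm.mul_apply]; exact hT _ ih
  intro y hy
  rw [mem_support_cycleOf_iff' hx] at hy
  obtain ⟨i, -, rfl⟩ := hy.exists_pow_eq'
  exact key i

theorem cycle_invariant {σ : Equiv.Perm α} {x : α} (hx : σ x ≠ x) :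
    ∀ y ∈ (σ.cycleOf x).support, σ y ∈ (σ.cycleOf x).support := by
  intro y hy
  rw [mem_support_cycleOf_iff' hx] at hy ⊢
  exact sameCycle_apply_right.mpr hy

theorem sdiff_cycle_invariant {σ : Equiv.Perm α} {T : Finset α} (hT : ∀ y ∈ T, σ y ∈ T) {x : α}
    (hx : σ x ≠ x) :
    ∀ y ∈ T \ (σ.cycleOf x).support, σ y ∈ T \ (σ.cycleOf x).support := by
  intro y hy
  rw [mem_sdiff] at hy ⊢
  refine ⟨hT y hy.1, fun h => hy.2 ?_⟩
  rw [mem_support_cycleOf_iff' hx] at h ⊢
  exact sameCycle_apply_right.mp h

theorem cycle_moved {σ : Equiv.Perm α} (x : α) :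
    ∀ y ∈ (σ.cycleOf x).support, σ y ≠ y := by
  intro y hy
  exact Equiv.Perm.mem_support.mp (support_cycleOf_le σ x hy)

theorem filter_sdiff_cycle {σ : Equiv.Perm α} (T : Finset α) (x : α) :
    (T \ (σ.cycleOf x).support).filter (fun y => σ y = y) = T.filter (fun y => σ y = y) := by
  ext y
  simp only [mem_filter, mem_sdiff]
  constructor
  · rintro ⟨⟨h1, -⟩, h2⟩
    exact ⟨h1, h2⟩
  · rintro ⟨h1, h2⟩
    exact ⟨⟨h1, fun hyO => cycle_moved x y hyO h2⟩, h2⟩

theorem card_mod {σ : Equiv.Perm α} {r : ℕ} (hr : r.Prime) (hσ : orderOf σ = r) :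
    ∀ (m : ℕ) (T : Finset α), T.card = m → (∀ y ∈ T, σ y ∈ T) →
      T.card % r = (T.filter (fun y => σ y = y)).card % r := by
  intro m
  induction m using Nat.strong_induction_on with
  | _ m IH =>
    intro T hTm hT
    by_cases h : ∃ x ∈ T, σ x ≠ x
    · obtain ⟨x, hxT, hx⟩ := h
      have hO : (σ.cycleOf x).support ⊆ T := cycle_subset hT hxT hx
      have hcO : (σ.cycleOf x).support.card = r := card_cycle hr hσ hx
      have hc : T.card = (T \ (σ.cycleOf x).support).card + r := by
        rw [card_sdiff_of_subset hO, hcO]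
        have := card_le_card hO
        omega
      have ih := IH (T \ (σ.cycleOf x).support).card (by have := hr.pos; omega)
        (T \ (σ.cycleOf x).support) rfl (sdiff_cycle_invariant hT hx)
      rw [filter_sdiff_cycle] at ih
      rw [hc, Nat.add_mod_right]
      exact ih
    · push Not at h
      have : T.filter (fun y => σ y = y) = T := filter_true_of_mem h
      rw [this]

theorem exists_invariant {σ : Equiv.Perm α} {r : ℕ} (hr : r.Prime) (hσ : orderOf σ = r) :
    ∀ (k : ℕ) (S : Finset α), (∀ y ∈ S, σ y ∈ S) → k ≤ S.card →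
      k % r ≤ (S.filter (fun y => σ y = y)).card →
      ∃ s ⊆ S, s.card = k ∧ ∀ y ∈ s, σ y ∈ s := by
  intro k
  induction k using Nat.strong_induction_on with
  | _ k IH =>
    intro S hS hk hkr
    by_cases hkF : k ≤ (S.filter (fun y => σ y = y)).card
    · obtain ⟨s, hs, hsc⟩ := exists_subset_card_eq hkF
      refine ⟨s, hs.trans (filter_subset _ _), hsc, fun y hy => ?_⟩
      have := (mem_filter.mp (hs hy)).2
      rw [this]
      exact hy
    · push Not at hkF
      have hrk : r ≤ k := by
        by_contra h
        push Not at h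
        rw [Nat.mod_eq_of_lt h] at hkr
        omega
      have hex : ∃ x ∈ S, σ x ≠ x := by
        by_contra h
        push Not at h
        have : S.filter (fun y => σ y = y) = S := filter_true_of_mem h
        rw [this] at hkF
        omega
      obtain ⟨x, hxS, hx⟩ := hex
      have hO : (σ.cycleOf x).support ⊆ S := cycle_subset hS hxS hx
      have hcO : (σ.cycleOf x).support.card = r := card_cycle hr hσ hx
      have hmod : k % r = (k - r) % r := by
        conv_lhs => rw [← Nat.sub_add_cancel hrk, Nat.add_mod_right]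
      have hle := card_le_card hO
      obtain ⟨s', hs', hs'c, hs'inv⟩ := IH (k - r) (by have := hr.pos; omega)
        (S \ (σ.cycleOf x).support) (sdiff_cycle_invariant hS hx)
        (by rw [card_sdiff_of_subset hO, hcO]; omega)
        (by rw [filter_sdiff_cycle, ← hmod]; exact hkr)
      refine ⟨s' ∪ (σ.cycleOf x).support, union_subset (hs'.trans sdiff_subset) hO, ?_, ?_⟩
      · rw [card_union_of_disjoint, hs'c, hcO]
        · omega
        · rw [Finset.disjoint_left]
          intro y hy hyO
          exact (mem_sdiff.mp (hs' hy)).2 hyO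
      · intro y hy
        rw [mem_union] at hy ⊢
        rcases hy with h | h
        · left; exact hs'inv y h
        · right; exact cycle_invariant hx y h

theorem image_eq_of_invariant {σ : Equiv.Perm α} {s : Finset α} (h : ∀ y ∈ s, σ y ∈ s) :
    s.image σ = s :=
  eq_of_subset_of_card_le (image_subset_iff.mpr h)
    (by rw [card_image_of_injective _ σ.injective])

end aux

theorem core (n k r : ℕ) (hr : r.Prime) (hrn : r ≤ n) (hkn : k ≤ n) :
    (∀ σ : Equiv.Perm (Fin n), orderOf σ = r →
      ∃ s : Finset (Fin n), s.card = k ∧ s.image σ = s) ↔ k % r ≤ n % r := by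
  constructor
  · intro h
    have hq : 1 ≤ n / r := (Nat.one_le_div_iff hr.pos).mpr hrn
    obtain ⟨σ, hσ⟩ := (Equiv.Perm.exists_with_cycleType_iff (Fin n)
      (m := Multiset.replicate (n / r) r)).mpr
      ⟨by rw [Multiset.sum_replicate, Fintype.card_fin, smul_eq_mul]; exact Nat.div_mul_le_self n r,
       fun a ha => by rw [Multiset.eq_of_mem_replicate ha]; exact hr.two_le⟩
    have hord : orderOf σ = r := by
      rw [← lcm_cycleType, hσ]
      apply Nat.dvd_antisymm
      · apply Multiset.lcm_dvd.mpr
        intro b hb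
        rw [Multiset.eq_of_mem_replicate hb]
      · apply Multiset.dvd_lcm
        rw [Multiset.mem_replicate]
        exact ⟨by omega, rfl⟩
    obtain ⟨s, hsc, hsim⟩ := h σ hord
    have hsinv : ∀ y ∈ s, σ y ∈ s := by
      intro y hy
      rw [← hsim]
      exact mem_image_of_mem _ hy
    have h1 := card_mod hr hord _ s rfl hsinv
    have h2 : (s.filter (fun y => σ y = y)).card ≤ (σ.support)ᶜ.card := by
      apply card_le_card
      intro y hy
      rw [mem_compl, Equiv.Perm.mem_support, not_not]
      exact (mem_filter.mp hy).2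
    have h3 : (σ.support)ᶜ.card = n % r := by
      rw [card_compl, ← sum_cycleType, hσ, Multiset.sum_replicate, Fintype.card_fin, smul_eq_mul]
      have := Nat.div_add_mod n r
      rw [mul_comm] at this
      omega
    rw [hsc] at h1
    have h4 := Nat.mod_le (s.filter (fun y => σ y = y)).card r
    omega
  · intro h σ hσ
    have hmod := card_mod hr hσ _ (univ : Finset (Fin n)) rfl (fun y _ => mem_univ _)
    rw [card_univ, Fintype.card_fin] at hmod
    have h4 := Nat.mod_le ((univ : Finset (Fin n)).filter (fun y => σ y = y)).card r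
    obtain ⟨s, -, hsc, hsinv⟩ := exists_invariant hr hσ k (univ : Finset (Fin n))
      (fun y _ => mem_univ _) (by rw [card_univ, Fintype.card_fin]; exact hkn) (by omega)
    exact ⟨s, hsc, image_eq_of_invariant hsinv⟩

/-- Let 1 ≤ k with 2k < n and consider the symmetric group of degree n acting on the k-subsets of an n-set. Let r be a prime dividing the number C(n,k) of k-subsets. If r is odd, then every permutation of order r fixes some k-subset if and only if r ≤ k and the remainder of k modulo r is at most the remainder of n modulo r. If r = 2, then every involution fixes some k-subset if and only if k is even or n is odd. -/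
theorem result (n k : ℕ) (hk : 1 ≤ k) (hkn : 2 * k < n) (r : ℕ) (hr : r.Prime) (hrd : r ∣ Nat.choose n k) :
    (r ≠ 2 → ((∀ σ : Equiv.Perm (Fin n), orderOf σ = r → ∃ s : Finset (Fin n), s.card = k ∧ s.image σ = s) ↔
      (r ≤ k ∧ k % r ≤ n % r))) ∧
    (r = 2 → ((∀ σ : Equiv.Perm (Fin n), orderOf σ = 2 → ∃ s : Finset (Fin n), s.card = k ∧ s.image σ = s) ↔
      (Even k ∨ Odd n))) := by
  have hkn' : k ≤ n := by omega
  have hrn : r ≤ n := by
    have h1 : r ∣ n.factorial := by
      rw [← Nat.choose_mul_factorial_mul_factorial hkn', mul_assoc]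
      exact Dvd.dvd.mul_right hrd _
    exact (Nat.Prime.dvd_factorial hr).mp h1
  have hcore := core n k r hr hrn hkn'
  have hrk : k % r ≤ n % r → r ≤ k := by
    intro h
    by_contra hlt
    push Not at hlt
    have hk' : k % r = k := Nat.mod_eq_of_lt hlt
    have : Fact r.Prime := ⟨hr⟩
    have hL := Choose.choose_modEq_choose_mod_mul_choose_div_nat (n := n) (k := k) (p := r)
    rw [hk', Nat.div_eq_of_lt hlt, Nat.choose_zero_right, mul_one] at hL
    have h2 : r ∣ (n % r).choose k :=
      (Nat.modEq_zero_iff_dvd).mp (hL.symm.trans ((Nat.modEq_zero_iff_dvd).mpr hrd))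
    have h3 : r ∣ (n % r).factorial := by
      rw [← Nat.choose_mul_factorial_mul_factorial (by rw [← hk']; exact h : k ≤ n % r), mul_assoc]
      exact Dvd.dvd.mul_right h2 _
    have h4 := (Nat.Prime.dvd_factorial hr).mp h3
    have := Nat.mod_lt n hr.pos
    omega
  constructor
  · intro _
    rw [hcore]
    exact ⟨fun h => ⟨hrk h, h⟩, fun h => h.2⟩
  · intro h2
    subst h2
    rw [hcore, Nat.even_iff, Nat.odd_iff]
    omega

end Cfsg.Agent.S3573
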