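import Cfsg.Statements.S3575
import Mathlib

set_option autoImplicit false
open Cfsg

namespace Cfsg.Agent.S3575

open Equiv

/-- permutations of order dividing a prime `r`: cycle type -/
theorem cycleType_of_pow_eq_one {α : Type*} [Fintype α] [DecidableEq α] {r : ℕ} (hr : r.Prime)
    (τ : Perm α) (h : τ ^ r = 1) :
    ∃ c, τ.cycleType = Multiset.replicate c r ∧ τ.support.card = c * r := by
  have hall : ∀ n ∈ τ.cycleType, n = r := by
    intro n hn
    have h1 : n ∣ orderOf τ := Perm.dvd_of_mem_cycleType hn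
    have h2 : orderOf τ ∣ r := orderOf_dvd_of_pow_eq_one h
    have h3 : 2 ≤ n := Perm.two_le_of_mem_cycleType hn
    rcases (Nat.dvd_prime hr).mp (h1.trans h2) with h4 | h4
    · omega
    · exact h4
  have hrep := Multiset.eq_replicate_card.mpr hall
  refine ⟨Multiset.card τ.cycleType, hrep, ?_⟩
  rw [← Perm.sum_cycleType]
  conv_lhs => rw [hrep]
  simp

/-- existence of a permutation with `c` cycles of length `r` -/
theorem exists_perm {α : Type*} [Fintype α] [DecidableEq α] {r : ℕ} (hr : r.Prime) (c : ℕ)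
    (hc : c * r ≤ Fintype.card α) :
    ∃ τ : Perm α, τ.cycleType = Multiset.replicate c r ∧ τ ^ r = 1 ∧ τ.support.card = c * r := by
  obtain ⟨τ, hτ⟩ := (Perm.exists_with_cycleType_iff α (m := Multiset.replicate c r)).mpr
    ⟨by simpa using hc, fun a ha => by rw [Multiset.eq_of_mem_replicate ha]; exact hr.two_le⟩
  refine ⟨τ, hτ, ?_, ?_⟩
  · have h1 : orderOf τ ∣ r := by
      rw [← Perm.lcm_cycleType, hτ]
      apply Multiset.lcm_dvd.mpr
      intro b hb
      rw [Multiset.eq_of_mem_replicate hb]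
    exact orderOf_dvd_iff_pow_eq_one.mp h1
  · rw [← Perm.sum_cycleType, hτ]
    simp

theorem necessity {a b r : ℕ} (ha : 1 ≤ a) (hr : r.Prime) {n : ℕ} (σ : Perm (Fin n))
    (hσ : σ ^ r = 1) (f : Fin n → Fin b)
    (hf : ∀ j : Fin b, Nat.card {x : Fin n // f x = j} = a)
    (π : Perm (Fin b)) (hπ : ∀ x, f (σ x) = π (f x)) :
    ∃ u c, σ.support.card = c * r ∧ u * r ≤ b ∧ u * a ≤ c ∧ c ≤ b * (a / r) + u * (a % r) := by
  classical
  have hfib : ∀ j : Fin b, (Finset.univ.filter (fun x => f x = j)).card = a := by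
    intro j
    rw [← hf j, Nat.card_eq_fintype_card, Fintype.card_subtype]
  have hsurj : Function.Surjective f := by
    intro j
    have h1 : 0 < (Finset.univ.filter (fun x => f x = j)).card := by rw [hfib j]; omega
    obtain ⟨x, hx⟩ := Finset.card_pos.mp h1
    exact ⟨x, (Finset.mem_filter.mp hx).2⟩
  have hπk : ∀ (k : ℕ) (x : Fin n), f ((σ ^ k) x) = (π ^ k) (f x) := by
    intro k
    induction k with
    | zero => intro x; simp
    | succ k ih =>
      intro x
      rw [pow_succ', pow_succ', Perm.mul_apply, Perm.mul_apply, hπ, ih]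
  have hπr : π ^ r = 1 := by
    ext j
    obtain ⟨x, rfl⟩ := hsurj j
    rw [← hπk, hσ]
    simp
  obtain ⟨u, -, hu⟩ := cycleType_of_pow_eq_one hr π hπr
  have hub : u * r ≤ b := by
    rw [← hu]
    simpa using Finset.card_le_univ π.support
  -- fibres over moved blocks
  have hmoved : ∀ j ∈ π.support, (σ.support.filter (fun x => f x = j)).card = a := by
    intro j hj
    rw [← hfib j]
    congr 1
    ext x
    simp only [Finset.mem_filter, Perm.mem_support, Finset.mem_univ, true_and, and_iff_right_iff_imp]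
    intro hx hfix
    have h1 := hπ x
    rw [hfix, hx] at h1
    exact (Perm.mem_support.mp hj) h1.symm
  -- fibres over fixed blocks
  have hfixed : ∀ j : Fin b, ∃ t : ℕ, j ∉ π.support →
      (σ.support.filter (fun x => f x = j)).card = t * r ∧ t ≤ a / r := by
    intro j
    by_cases hj : j ∈ π.support
    · exact ⟨0, fun h => absurd hj h⟩
    · have hπj : π j = j := Perm.notMem_support.mp hj
      have hinv : ∀ x, f (σ x) = j ↔ f x = j := by
        intro x
        rw [hπ]
        constructor
        · intro h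
          apply π.injective
          rw [h, hπj]
        · intro h
          rw [h, hπj]
      have hpow : (Perm.ofSubtype (σ.subtypePerm (p := fun x => f x = j) hinv)) ^ r = 1 := by
        rw [← map_pow]
        have : (σ.subtypePerm (p := fun x => f x = j) hinv) ^ r = 1 := by
          ext x
          simp [Perm.subtypePerm_pow, hσ]
        rw [this, map_one]
      obtain ⟨t, -, ht⟩ := cycleType_of_pow_eq_one hr _ hpow
      have hsupp : (Perm.ofSubtype (σ.subtypePerm (p := fun x => f x = j) hinv)).support =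
          σ.support.filter (fun x => f x = j) := by
        ext x
        simp only [Perm.mem_support, Finset.mem_filter]
        by_cases hx : f x = j
        · rw [Perm.ofSubtype_apply_of_mem (a := x) (σ.subtypePerm (p := fun x => f x = j) hinv) hx]
          simp [hx]
        · rw [Perm.ofSubtype_apply_of_not_mem (a := x) (σ.subtypePerm (p := fun x => f x = j) hinv) hx]
          simp [hx]
      refine ⟨t, fun _ => ⟨by rw [← hsupp, ht], ?_⟩⟩
      have h1 : t * r ≤ a := by
        rw [← ht, hsupp, ← hfib j]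
        apply Finset.card_le_card
        intro x hx
        simp only [Finset.mem_filter, Finset.mem_univ, true_and] at hx ⊢
        exact hx.2
      exact (Nat.le_div_iff_mul_le hr.pos).mpr h1
  choose t ht using hfixed
  have hsum : σ.support.card = ∑ j : Fin b, (σ.support.filter (fun x => f x = j)).card :=
    Finset.card_eq_sum_card_fiberwise (fun x _ => Finset.mem_univ (f x))
  have hsplit : σ.support.card = π.support.card * a + (∑ j ∈ π.supportᶜ, t j) * r := by
    rw [hsum, ← Finset.sum_add_sum_compl π.support]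
    congr 1
    · rw [Finset.sum_congr rfl hmoved, Finset.sum_const, smul_eq_mul]
    · rw [Finset.sum_mul]
      apply Finset.sum_congr rfl
      intro j hj
      exact (ht j (Finset.mem_compl.mp hj)).1
  have hT : ∑ j ∈ π.supportᶜ, t j ≤ (b - u * r) * (a / r) := by
    have h1 : ∑ j ∈ π.supportᶜ, t j ≤ ∑ _j ∈ π.supportᶜ, a / r :=
      Finset.sum_le_sum (fun j hj => (ht j (Finset.mem_compl.mp hj)).2)
    rw [Finset.sum_const, smul_eq_mul, Finset.card_compl, hu] at h1
    simpa using h1
  refine ⟨u, u * a + ∑ j ∈ π.supportᶜ, t j, ?_, hub, Nat.le_add_right _ _, ?_⟩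
  · rw [hsplit, hu]; ring
  · have ha' : a = r * (a / r) + a % r := (Nat.div_add_mod a r).symm
    have h2 : (b - u * r) * (a / r) + u * r * (a / r) = b * (a / r) := by
      rw [← Nat.add_mul, Nat.sub_add_cancel hub]
    have h3 : u * a = u * r * (a / r) + u * (a % r) := by
      conv_lhs => rw [ha']
      ring
    omega


theorem distribute {b : ℕ} (q : ℕ) (S : Finset (Fin b)) : ∀ c' : ℕ, c' ≤ S.card * q →
    ∃ t : Fin b → ℕ, (∀ j, t j ≤ q) ∧ (∀ j, j ∉ S → t j = 0) ∧ ∑ j, t j = c' := by
  classical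
  induction S using Finset.induction_on with
  | empty =>
    intro c' hc
    refine ⟨fun _ => 0, by simp, by simp, ?_⟩
    simp at hc
    simp [hc]
  | insert j₁ S' hj ih =>
    intro c' hc
    rw [Finset.card_insert_of_notMem hj] at hc
    have hc2 : (S'.card + 1) * q = S'.card * q + q := by ring
    obtain ⟨t', h1, h2, h3⟩ := ih (c' - min c' q) (by omega)
    refine ⟨Function.update t' j₁ (min c' q), ?_, ?_, ?_⟩
    · intro j
      by_cases h : j = j₁
      · subst h
        simp
      · rw [Function.update_of_ne h]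
        exact h1 j
    · intro j hjS
      have hne : j ≠ j₁ := fun h => hjS (h ▸ Finset.mem_insert_self _ _)
      rw [Function.update_of_ne hne]
      exact h2 j (fun h => hjS (Finset.mem_insert_of_mem h))
    · rw [Finset.sum_update_of_mem (Finset.mem_univ j₁)]
      have h4 : ∑ x ∈ Finset.univ \ {j₁}, t' x = ∑ x, t' x := by
        have h5 := Finset.sum_sdiff (f := t') (Finset.subset_univ ({j₁} : Finset (Fin b)))
        rw [Finset.sum_singleton, h2 j₁ hj, add_zero] at h5
        exact h5
      rw [h4, h3]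
      omega

theorem model {a b r : ℕ} (hr : r.Prime) (ρ : Perm (Fin b)) (hρ : ρ ^ r = 1) (t : Fin b → ℕ)
    (ht : ∀ j, t j * r ≤ a) (ht0 : ∀ j ∈ ρ.support, t j = 0) :
    ∃ σ₀ : Perm (Fin b × Fin a), σ₀ ^ r = 1 ∧ (∀ y, (σ₀ y).1 = ρ y.1) ∧
      σ₀.support.card = ρ.support.card * a + (∑ j, t j) * r := by
  classical
  have hex : ∀ j, ∃ τ : Perm (Fin a), τ ^ r = 1 ∧ τ.support.card = t j * r := by
    intro j
    obtain ⟨τ, -, h1, h2⟩ := exists_perm (α := Fin a) hr (t j) (by simpa using ht j)
    exact ⟨τ, h1, h2⟩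
  choose τ hτr hτs using hex
  have hτ1 : ∀ j ∈ ρ.support, τ j = 1 := by
    intro j hj
    have h1 := hτs j
    rw [ht0 j hj, zero_mul, Finset.card_eq_zero, Perm.support_eq_empty_iff] at h1
    exact h1
  have hτρ : ∀ j, τ (ρ j) = τ j := by
    intro j
    by_cases hj : j ∈ ρ.support
    · rw [hτ1 j hj, hτ1 (ρ j) (Perm.apply_mem_support.mpr hj)]
    · rw [Perm.notMem_support.mp hj]
  have hτρk : ∀ (k : ℕ) (j : Fin b), τ ((ρ ^ k) j) = τ j := by
    intro k
    induction k with
    | zero => intro j; simp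
    | succ k ih =>
      intro j
      rw [pow_succ', Perm.mul_apply, hτρ, ih]
  have hpow : ∀ (k : ℕ) (y : Fin b × Fin a),
      ((Equiv.prodShear ρ τ : Perm (Fin b × Fin a)) ^ k) y = ((ρ ^ k) y.1, (τ y.1 ^ k) y.2) := by
    intro k
    induction k with
    | zero => intro y; simp
    | succ k ih =>
      intro y
      rw [pow_succ', Perm.mul_apply, ih]
      change (ρ ((ρ ^ k) y.1), τ ((ρ ^ k) y.1) ((τ y.1 ^ k) y.2)) = _
      rw [hτρk, pow_succ', pow_succ', Perm.mul_apply, Perm.mul_apply]
  obtain ⟨σ₀, hσ₀⟩ : ∃ σ₀ : Perm (Fin b × Fin a), σ₀ = Equiv.prodShear ρ τ := ⟨_, rfl⟩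
  have happ : ∀ y : Fin b × Fin a, σ₀ y = (ρ y.1, τ y.1 y.2) := by
    intro y
    rw [hσ₀]
    rfl
  refine ⟨σ₀, ?_, fun y => by rw [happ], ?_⟩
  · ext y
    · rw [hσ₀, hpow, hρ]; simp
    · rw [hσ₀, hpow, hτr]; simp
  · have hsum : σ₀.support.card =
        ∑ j : Fin b, (σ₀.support.filter (fun y => y.1 = j)).card :=
      Finset.card_eq_sum_card_fiberwise (fun x _ => Finset.mem_univ x.1)
    have hfib : ∀ j : Fin b, (σ₀.support.filter (fun y => y.1 = j)).card =
        (if j ∈ ρ.support then a else 0) + t j * r := by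
      intro j
      have h1 : σ₀.support.filter (fun y => y.1 = j) =
          (Finset.univ.filter (fun x : Fin a => ρ j ≠ j ∨ τ j x ≠ x)).map
            ⟨fun x => (j, x), fun x x' h => (Prod.mk.inj h).2⟩ := by
        ext ⟨j', x⟩
        rw [Finset.mem_filter, Perm.mem_support, Finset.mem_map]
        constructor
        · rintro ⟨hne, hj'⟩
          change j' = j at hj'
          subst hj'
          refine ⟨x, ?_, rfl⟩
          rw [Finset.mem_filter]
          refine ⟨Finset.mem_univ _, ?_⟩
          by_contra hcon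
          push Not at hcon
          apply hne
          rw [happ, hcon.1, hcon.2]
        · rintro ⟨x', hx', hxe⟩
          have hxe' : (j, x') = (j', x) := hxe
          obtain ⟨rfl, rfl⟩ := Prod.mk.inj hxe'
          rw [Finset.mem_filter] at hx'
          refine ⟨?_, rfl⟩
          intro heq
          rw [happ] at heq
          rcases hx'.2 with h | h
          · exact h (Prod.mk.inj heq).1
          · exact h (Prod.mk.inj heq).2
      rw [h1, Finset.card_map]
      by_cases hj : j ∈ ρ.support
      · rw [if_pos hj, ht0 j hj, zero_mul, add_zero]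
        have h2 : (Finset.univ.filter (fun x : Fin a => ρ j ≠ j ∨ τ j x ≠ x)) = Finset.univ := by
          ext x
          simp [Perm.mem_support.mp hj]
        rw [h2]
        simp
      · rw [if_neg hj, zero_add, ← hτs j]
        congr 1
        ext x
        simp [Perm.notMem_support.mp hj]
    rw [hsum, Finset.sum_congr rfl (fun j _ => hfib j), Finset.sum_add_distrib, ← Finset.sum_mul]
    congr 1
    rw [Finset.sum_ite_mem, Finset.univ_inter, Finset.sum_const, smul_eq_mul]

theorem sufficiency {a b r : ℕ} (hr : r.Prime) (σ : Perm (Fin (a * b))) (c u : ℕ)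
    (hσ : σ.cycleType = Multiset.replicate c r)
    (hub : u * r ≤ b) (huc : u * a ≤ c) (hcu : c ≤ b * (a / r) + u * (a % r)) :
    ∃ f : Fin (a * b) → Fin b, (∀ j : Fin b, Nat.card {x : Fin (a * b) // f x = j} = a) ∧
      ∃ π : Perm (Fin b), ∀ x, f (σ x) = π (f x) := by
  classical
  obtain ⟨ρ, -, hρr, hρs⟩ := exists_perm (α := Fin b) hr u (by simpa using hub)
  have hcompl : (ρ.supportᶜ).card = b - u * r := by
    rw [Finset.card_compl, hρs]
    simp
  have ha' : a = r * (a / r) + a % r := (Nat.div_add_mod a r).symm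
  have hbound : c - u * a ≤ (ρ.supportᶜ).card * (a / r) := by
    rw [hcompl]
    have h2 : (b - u * r) * (a / r) + u * r * (a / r) = b * (a / r) := by
      rw [← Nat.add_mul, Nat.sub_add_cancel hub]
    have h3 : u * a = u * r * (a / r) + u * (a % r) := by
      conv_lhs => rw [ha']
      ring
    omega
  obtain ⟨t, ht1, ht2, ht3⟩ := distribute (a / r) ρ.supportᶜ (c - u * a) hbound
  obtain ⟨σ₀, h1, h2, h3⟩ := model (a := a) hr ρ hρr t
    (fun j => le_trans (Nat.mul_le_mul_right r (ht1 j)) (Nat.div_mul_le_self a r))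
    (fun j hj => ht2 j (by simpa using hj))
  let e : Fin b × Fin a ≃ Fin (a * b) := finProdFinEquiv.trans (finCongr (Nat.mul_comm b a))
  let σ₁ : Perm (Fin (a * b)) := e.symm.trans (σ₀.trans e)
  have hσ₁ : ∀ x, σ₁ x = e (σ₀ (e.symm x)) := fun x => rfl
  have hσ₁k : ∀ (k : ℕ) (x : Fin (a * b)), (σ₁ ^ k) x = e ((σ₀ ^ k) (e.symm x)) := by
    intro k
    induction k with
    | zero => intro x; simp
    | succ k ih =>
      intro x
      rw [pow_succ', Perm.mul_apply, ih, hσ₁, Equiv.symm_apply_apply, pow_succ', Perm.mul_apply]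
  have hσ₁pow : σ₁ ^ r = 1 := by
    ext x
    rw [hσ₁k, h1]
    simp
  have hσ₁supp : σ₁.support.card = c * r := by
    have h4 : σ₁.support = σ₀.support.map e.toEmbedding := by
      ext x
      simp only [Perm.mem_support, Finset.mem_map, Equiv.coe_toEmbedding]
      constructor
      · intro hx
        refine ⟨e.symm x, ?_, by simp⟩
        intro h5
        apply hx
        rw [hσ₁, h5]
        simp
      · rintro ⟨y, hy, rfl⟩
        intro h5
        apply hy
        rw [hσ₁, Equiv.symm_apply_apply] at h5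
        exact e.injective h5
    rw [h4, Finset.card_map, h3, hρs, ht3]
    obtain ⟨d, rfl⟩ := Nat.exists_eq_add_of_le huc
    rw [Nat.add_sub_cancel_left]
    ring
  obtain ⟨c₁, hc₁, hc₁'⟩ := cycleType_of_pow_eq_one hr σ₁ hσ₁pow
  have hcc : c₁ = c := Nat.eq_of_mul_eq_mul_right hr.pos (hc₁'.symm.trans hσ₁supp)
  have hconj : IsConj σ₁ σ := Perm.isConj_iff_cycleType_eq.mpr (by rw [hc₁, hcc, hσ])
  obtain ⟨g, hg⟩ := isConj_iff.mp hconj
  refine ⟨fun x => (e.symm (g⁻¹ x)).1, ?_, ρ, ?_⟩
  · intro j
    have hequiv : {x : Fin (a * b) // (e.symm (g⁻¹ x)).1 = j} ≃ Fin a :=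
      { toFun := fun x => (e.symm (g⁻¹ x.1)).2
        invFun := fun z => ⟨g (e (j, z)), by simp⟩
        left_inv := by
          rintro ⟨x, hx⟩
          apply Subtype.ext
          simp only
          have h5 : (j, (e.symm (g⁻¹ x)).2) = e.symm (g⁻¹ x) := by
            rw [← hx]
          rw [h5]
          simp
        right_inv := by
          intro z
          simp }
    rw [Nat.card_congr hequiv]
    simp
  · intro x
    have h5 : σ x = g (σ₁ (g⁻¹ x)) := by
      rw [← hg]
      simp
    have h6 : g⁻¹ (g (σ₁ (g⁻¹ x))) = σ₁ (g⁻¹ x) := by simp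
    simp only
    rw [h5, h6, hσ₁, Equiv.symm_apply_apply, h2]


theorem arith1' (q ℓ p k r : ℕ) (hℓ : ℓ < r) (hq1 : 1 ≤ q)
    (hi : k * ℓ < r) (hii : p = 0 ∨ ℓ ≤ k * q + 1) (c : ℕ)
    (hc : c * r ≤ (r * q + ℓ) * (r * p + k)) :
    ∃ u, u * r ≤ r * p + k ∧ u * (r * q + ℓ) ≤ c ∧ c ≤ (r * p + k) * q + u * ℓ := by
  classical
  have hab : (r * q + ℓ) * (r * p + k) = r * ((r * p + k) * q + p * ℓ) + k * ℓ := by ring
  have hc' : c ≤ (r * p + k) * q + p * ℓ := by
    by_contra hcon
    push Not at hcon
    have h1 : ((r * p + k) * q + p * ℓ + 1) * r ≤ c * r := Nat.mul_le_mul_right r hcon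
    have h2 : ((r * p + k) * q + p * ℓ + 1) * r = r * ((r * p + k) * q + p * ℓ) + r := by ring
    omega
  have hex : ∃ u', c ≤ (r * p + k) * q + u' * ℓ := ⟨p, hc'⟩
  have hu : c ≤ (r * p + k) * q + Nat.find hex * ℓ := Nat.find_spec hex
  have hup : Nat.find hex ≤ p := Nat.find_min' hex hc'
  have hmin : ∀ m, m < Nat.find hex → ¬ c ≤ (r * p + k) * q + m * ℓ := fun m hm => Nat.find_min hex hm
  generalize Nat.find hex = u at hu hup hmin
  refine ⟨u, ?_, ?_, hu⟩
  · calc u * r ≤ p * r := Nat.mul_le_mul_right r hup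
      _ = r * p := Nat.mul_comm _ _
      _ ≤ r * p + k := Nat.le_add_right _ _
  · rcases Nat.eq_zero_or_pos u with h0 | hpos
    · rw [h0]; simp
    · obtain ⟨v, rfl⟩ : ∃ v, u = v + 1 := ⟨u - 1, by omega⟩
      have hm := hmin v (by omega)
      push Not at hm
      have key : (v + 1) * (r * q + ℓ) ≤ (r * p + k) * q + v * ℓ + 1 := by
        rcases Nat.lt_or_ge (v + 1) p with hlt | hge
        · have h1 : (v + 2) * (r * q) ≤ p * (r * q) := Nat.mul_le_mul_right _ hlt
          have h2 : ℓ ≤ r * q := le_trans hℓ.le (Nat.le_mul_of_pos_right r hq1)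
          have h3 : (v + 1) * (r * q + ℓ) = (v + 1) * (r * q) + v * ℓ + ℓ := by ring
          have h4 : (v + 2) * (r * q) = (v + 1) * (r * q) + r * q := by ring
          have h5 : (r * p + k) * q = p * (r * q) + k * q := by ring
          omega
        · have hpv : p = v + 1 := by omega
          have h3 : ℓ ≤ k * q + 1 := by
            rcases hii with h | h
            · omega
            · exact h
          subst hpv
          have h4 : (v + 1) * (r * q + ℓ) = (v + 1) * (r * q) + v * ℓ + ℓ := by ring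
          have h5 : (r * (v + 1) + k) * q = (v + 1) * (r * q) + k * q := by ring
          omega
      omega

theorem arith2' (q ℓ p k r : ℕ) (hk : k < r) (ha : 2 ≤ r * q + ℓ)
    (hrab : r ≤ (r * q + ℓ) * (r * p + k))
    (hcov : ∀ c, 1 ≤ c → c * r ≤ (r * q + ℓ) * (r * p + k) →
      ∃ u, u * r ≤ r * p + k ∧ u * (r * q + ℓ) ≤ c ∧ c ≤ (r * p + k) * q + u * ℓ) :
    1 ≤ q ∧ k * ℓ < r ∧ (p = 0 ∨ ℓ ≤ k * q + 1) := by
  have hab : (r * q + ℓ) * (r * p + k) = r * ((r * p + k) * q + p * ℓ) + k * ℓ := by ring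
  have hule : ∀ u, u * r ≤ r * p + k → u ≤ p := by
    intro u hu
    by_contra hcon
    push Not at hcon
    have h1 : (p + 1) * r ≤ u * r := Nat.mul_le_mul_right r hcon
    have h2 : (p + 1) * r = r * p + r := by ring
    omega
  refine ⟨?_, ?_, ?_⟩
  · obtain ⟨u, h1, h2, h3⟩ := hcov 1 le_rfl (by simpa using hrab)
    have hu0 : u = 0 := by
      by_contra hne
      have h4 : 1 * (r * q + ℓ) ≤ u * (r * q + ℓ) := Nat.mul_le_mul_right _ (Nat.pos_of_ne_zero hne)
      omega
    rw [hu0] at h3
    by_contra hq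
    have hq0 : q = 0 := by omega
    rw [hq0] at h3
    simp at h3
  · by_contra hcon
    push Not at hcon
    have hc : ((r * p + k) * q + p * ℓ + 1) * r ≤ (r * q + ℓ) * (r * p + k) := by
      have h2 : ((r * p + k) * q + p * ℓ + 1) * r = r * ((r * p + k) * q + p * ℓ) + r := by ring
      omega
    obtain ⟨u, h1, h2, h3⟩ := hcov _ (by omega) hc
    have h4 : u * ℓ ≤ p * ℓ := Nat.mul_le_mul_right ℓ (hule u h1)
    omega
  · by_contra hcon
    push Not at hcon
    obtain ⟨hp0, hℓ⟩ := hcon
    obtain ⟨v, rfl⟩ : ∃ v, p = v + 1 := ⟨p - 1, by omega⟩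
    have hc : ((r * (v + 1) + k) * q + v * ℓ + 1) * r ≤ (r * q + ℓ) * (r * (v + 1) + k) := by
      have h1 : (r * (v + 1) + k) * q + v * ℓ + 1 ≤ (r * (v + 1) + k) * q + (v + 1) * ℓ := by
        have : (v + 1) * ℓ = v * ℓ + ℓ := by ring
        omega
      have h2 := Nat.mul_le_mul_right r h1
      have h3 : ((r * (v + 1) + k) * q + (v + 1) * ℓ) * r =
          r * ((r * (v + 1) + k) * q + (v + 1) * ℓ) := by ring
      omega
    obtain ⟨u, h1, h2, h3⟩ := hcov _ (by omega) hc
    have hu := hule u h1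
    rcases Nat.lt_or_ge u (v + 1) with hlt | hge
    · have h4 : u * ℓ ≤ v * ℓ := Nat.mul_le_mul_right ℓ (by omega)
      omega
    · have huv : u = v + 1 := by omega
      subst huv
      have h4 : (v + 1) * (r * q + ℓ) = (v + 1) * (r * q) + v * ℓ + ℓ := by ring
      have h5 : (r * (v + 1) + k) * q = (v + 1) * (r * q) + k * q := by ring
      omega

theorem arith_bwd (a b r : ℕ) (hr : 2 ≤ r)
    (h : r ≤ a ∧ (a % r = 0 ∨ (b % r = 0 ∧ a % r = 1) ∨
        (a % r ≠ 0 ∧ b % r ≠ 0 ∧ (b % r) * (a % r) < r ∧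
          (b < r ∨ (b % r + r) * (a % r) ≤ (b % r) * a + r))))
    (c : ℕ) (hc : c * r ≤ a * b) :
    ∃ u, u * r ≤ b ∧ u * a ≤ c ∧ c ≤ b * (a / r) + u * (a % r) := by
  obtain ⟨hra, hcases⟩ := h
  have hrpos : 0 < r := by omega
  have ha' : r * (a / r) + a % r = a := Nat.div_add_mod a r
  have hb' : r * (b / r) + b % r = b := Nat.div_add_mod b r
  have hℓr : a % r < r := Nat.mod_lt _ hrpos
  have hq1 : 1 ≤ a / r := Nat.div_pos hra hrpos
  have hi : (b % r) * (a % r) < r := by
    rcases hcases with h0 | ⟨h0, h1⟩ | ⟨_, _, h3, _⟩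
    · rw [h0]; simpa using hrpos
    · rw [h0]; simpa using hrpos
    · exact h3
  have hii : b / r = 0 ∨ a % r ≤ (b % r) * (a / r) + 1 := by
    rcases hcases with h0 | ⟨h0, h1⟩ | ⟨_, _, _, h4 | h4⟩
    · right; omega
    · right; omega
    · left; exact Nat.div_eq_of_lt h4
    · right
      have h5 : (b % r + r) * (a % r) = (b % r) * (a % r) + r * (a % r) := by ring
      have h6 : (b % r) * (r * (a / r) + a % r) + r =
          (b % r) * (a % r) + r * ((b % r) * (a / r) + 1) := by ring
      rw [ha'] at h6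
      have h7 : r * (a % r) ≤ r * ((b % r) * (a / r) + 1) := by omega
      exact Nat.le_of_mul_le_mul_left h7 hrpos
  have := arith1' (a / r) (a % r) (b / r) (b % r) r hℓr hq1 hi hii c (by rw [ha', hb']; exact hc)
  rw [ha', hb'] at this
  exact this

theorem arith_fwd (a b r : ℕ) (ha : 2 ≤ a) (hb : 2 ≤ b) (hr : 2 ≤ r) (hrab : r ≤ a * b)
    (hcov : ∀ c, 1 ≤ c → c * r ≤ a * b →
      ∃ u, u * r ≤ b ∧ u * a ≤ c ∧ c ≤ b * (a / r) + u * (a % r)) :
    r ≤ a ∧ (a % r = 0 ∨ (b % r = 0 ∧ a % r = 1) ∨
        (a % r ≠ 0 ∧ b % r ≠ 0 ∧ (b % r) * (a % r) < r ∧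
          (b < r ∨ (b % r + r) * (a % r) ≤ (b % r) * a + r))) := by
  have hrpos : 0 < r := by omega
  have ha' : r * (a / r) + a % r = a := Nat.div_add_mod a r
  have hb' : r * (b / r) + b % r = b := Nat.div_add_mod b r
  have hkr : b % r < r := Nat.mod_lt _ hrpos
  obtain ⟨h1, h2, h3⟩ := arith2' (a / r) (a % r) (b / r) (b % r) r hkr (by rw [ha']; exact ha)
    (by rw [ha', hb']; exact hrab) (by rw [ha', hb']; exact hcov)
  have hra : r ≤ a := by
    by_contra hcon
    have : a / r = 0 := Nat.div_eq_of_lt (by omega)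
    omega
  refine ⟨hra, ?_⟩
  by_cases hℓ0 : a % r = 0
  · exact Or.inl hℓ0
  · right
    by_cases hk0 : b % r = 0
    · left
      refine ⟨hk0, ?_⟩
      rcases h3 with h | h
      · rw [h, hk0] at hb'
        omega
      · rw [hk0] at h
        omega
    · right
      refine ⟨hℓ0, hk0, h2, ?_⟩
      rcases h3 with h | h
      · left
        rw [h] at hb'
        omega
      · right
        have h5 : (b % r + r) * (a % r) = (b % r) * (a % r) + r * (a % r) := by ring
        have h6 : (b % r) * (r * (a / r) + a % r) + r =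
            (b % r) * (a % r) + r * ((b % r) * (a / r) + 1) := by ring
        rw [ha'] at h6
        have h7 : r * (a % r) ≤ r * ((b % r) * (a / r) + 1) := Nat.mul_le_mul_left r h
        omega


/-- Let a, b ≥ 2 and consider the symmetric group of degree a·b acting on the partitions of an (a·b)-set into b parts of size a (encoded as maps onto a b-element set all of whose fibres have a elements; a permutation fixes such a partition when it permutes the fibres). Let r be a prime dividing the number (ab)!/((a!)^b·b!) of such partitions, and let ℓ and k be the remainders of a and b modulo r. Then every permutation of order r fixes some such partition if and only if r ≤ a and one of the following holds: ℓ = 0; or k = 0 and ℓ = 1; or ℓ and k are non-zero, k·ℓ < r, and either b < r or (k + r)·ℓ ≤ k·a + r. -/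
theorem result (a b : ℕ) (ha : 2 ≤ a) (hb : 2 ≤ b) (r : ℕ) (hr : r.Prime)
    (hrd : r ∣ (a * b).factorial / (a.factorial ^ b * b.factorial)) :
    (∀ σ : Equiv.Perm (Fin (a * b)), orderOf σ = r →
        ∃ f : Fin (a * b) → Fin b, (∀ j : Fin b, Nat.card {x : Fin (a * b) // f x = j} = a) ∧
          ∃ π : Equiv.Perm (Fin b), ∀ x : Fin (a * b), f (σ x) = π (f x)) ↔
      (r ≤ a ∧ (a % r = 0 ∨ (b % r = 0 ∧ a % r = 1) ∨
        (a % r ≠ 0 ∧ b % r ≠ 0 ∧ (b % r) * (a % r) < r ∧ (b < r ∨ (b % r + r) * (a % r) ≤ (b % r) * a + r)))) := by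
  have hrab : r ≤ a * b := by
    have h1 : Nat.uniformBell b a * a.factorial ^ b * b.factorial = (b * a).factorial :=
      Nat.uniformBell_mul_eq b (by omega)
    have h2 : (a * b).factorial / (a.factorial ^ b * b.factorial) = Nat.uniformBell b a := by
      rw [mul_comm a b, ← h1, mul_assoc]
      exact Nat.mul_div_cancel _ (Nat.mul_pos (pow_pos (Nat.factorial_pos a) b) (Nat.factorial_pos b))
    rw [h2] at hrd
    have h3 : r ∣ (b * a).factorial := by
      rw [← h1, mul_assoc]
      exact Dvd.dvd.mul_right hrd _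
    have h4 := (Nat.Prime.dvd_factorial hr).mp h3
    rw [mul_comm] at h4
    exact h4
  have hr' : Fact r.Prime := ⟨hr⟩
  constructor
  · intro h
    apply arith_fwd a b r ha hb hr.two_le hrab
    intro c hc1 hc
    obtain ⟨σ, -, hσr, hσs⟩ := exists_perm (α := Fin (a * b)) hr c (by simpa using hc)
    have hσ1 : σ ≠ 1 := by
      intro h1
      rw [h1] at hσs
      simp at hσs
      have := hr.pos
      omega
    have hord : orderOf σ = r := orderOf_eq_prime hσr hσ1
    obtain ⟨f, hf, π, hπ⟩ := h σ hord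
    obtain ⟨u, c', hc', h1, h2, h3⟩ := necessity (by omega) hr σ hσr f hf π hπ
    have hcc : c = c' := by
      rw [hσs] at hc'
      exact Nat.eq_of_mul_eq_mul_right hr.pos hc'
    subst hcc
    exact ⟨u, h1, h2, h3⟩
  · intro h σ hσ
    obtain ⟨n, hn⟩ := Perm.cycleType_prime_order (σ := σ) (by rw [hσ]; exact hr)
    rw [hσ] at hn
    have hcard : (n + 1) * r ≤ a * b := by
      have h1 : σ.support.card = (n + 1) * r := by
        rw [← Perm.sum_cycleType, hn]
        simp
        ring
      have h2 : σ.support.card ≤ Fintype.card (Fin (a * b)) := Finset.card_le_univ _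
      rw [Fintype.card_fin] at h2
      omega
    obtain ⟨u, h1, h2, h3⟩ := arith_bwd a b r hr.two_le h (n + 1) hcard
    exact sufficiency hr σ (n + 1) u hn h1 h2 h3

end Cfsg.Agent.S3575
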