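import Cfsg.Statements.S3599
import Cfsg.Agent.Lib.Helper65.AffSL2

set_option autoImplicit false
open Cfsg

namespace Cfsg.Agent.S3599

open Cfsg.Agent.Lib.Helper65 SemidirectProduct

/-- spectrum `{1,p,q}` and the elements of order dividing `p` are closed under products -/
def SpecQ (p q : ℕ) (X : Type) [Group X] : Prop :=
  (∀ m, (∃ x : X, orderOf x = m) ↔ (m = 1 ∨ m = p ∨ m = q)) ∧
  (∀ x y : X, x ^ p = 1 → y ^ p = 1 → (x * y) ^ p = 1)

theorem frob_exists (p q : ℕ) (hp : p.Prime) (hq : q.Prime) (hpq : p ≠ q) :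
    ∃ (X : Type) (_ : Group X) (_ : Finite X), SpecQ p q X := by
  have := Fact.mk hp
  have := Fact.mk hq
  have hq1 : q - 1 ≠ 0 := by have := hq.two_le; omega
  have hcard : Nat.card (GaloisField p (q - 1)) = p ^ (q - 1) := GaloisField.card p (q - 1) hq1
  have : Finite (GaloisField p (q - 1)) := Nat.finite_of_card_ne_zero (by rw [hcard]; exact pow_ne_zero _ hp.pos.ne')
  have hdvd : q ∣ Nat.card (GaloisField p (q - 1))ˣ := by
    rw [Nat.card_units, hcard]
    have h1 : p ^ (q - 1) ≡ 1 [MOD q] := by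
      have := Nat.ModEq.pow_totient ((Nat.coprime_primes hp hq).mpr hpq)
      rwa [Nat.totient_prime hq] at this
    exact (Nat.modEq_iff_dvd' (Nat.one_le_pow _ _ hp.pos)).mp h1.symm
  obtain ⟨ζ, hζ⟩ := exists_prime_orderOf_dvd_card' q hdvd
  set K := GaloisField p (q - 1) with hK
  set S := Subgroup.zpowers ζ with hS
  have hScard : Nat.card S = q := by rw [hS, Nat.card_zpowers, hζ]
  have hSpow : ∀ u : S, u ^ q = 1 := fun u => by
    have h := pow_card_eq_one' (G := S) (x := u)
    rwa [hScard] at h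
  have hfix : ∀ (u : S) (w : K), u • w = w → u = 1 ∨ w = 0 := by
    intro u w h
    have h' : ((u : Kˣ) : K) * w = w := h
    by_cases hw : w = 0
    · exact Or.inr hw
    · left
      have h2 : ((u : Kˣ) : K) = 1 := by
        have : (((u : Kˣ) : K) - 1) * w = 0 := by rw [sub_mul, h', one_mul, sub_self]
        rcases mul_eq_zero.mp this with h3 | h3
        · exact sub_eq_zero.mp h3
        · exact absurd h3 hw
      ext
      simpa using h2
  -- the group
  have : Finite S := Nat.finite_of_card_ne_zero (by rw [hScard]; exact hq.pos.ne')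
  have : Finite (Multiplicative K ⋊[actHom S K] S) :=
    Finite.of_equiv _ SemidirectProduct.equivProd.symm
  refine ⟨Multiplicative K ⋊[actHom S K] S, inferInstance, inferInstance, ?_⟩
  have hright1 : ∀ x : Multiplicative K ⋊[actHom S K] S, x.right = 1 → x ^ p = 1 := by
    intro x hx
    have hx' : x = inl x.left := by
      ext
      · simp
      · simp [hx]
    rw [hx', ← map_pow]
    have : x.left ^ p = 1 := by
      have h0 : (p : K) = 0 := CharP.cast_eq_zero K p
      change Multiplicative.ofAdd (p • Multiplicative.toAdd x.left) = 1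
      rw [nsmul_eq_mul, h0, zero_mul]
      rfl
    rw [this, map_one]
  have hrightne : ∀ x : Multiplicative K ⋊[actHom S K] S, x.right ≠ 1 → x ^ q = 1 := by
    intro x hx
    have hr : (x ^ q).right = 1 := by
      have : (rightHom : Multiplicative K ⋊[actHom S K] S →* S) (x ^ q) = 1 := by
        rw [map_pow]
        exact hSpow _
      exact this
    have hc : x ^ q * x = x * x ^ q := (Commute.pow_self x q).symm.eq ▸ rfl
    have hl := congrArg SemidirectProduct.left hc
    rw [mul_left, mul_left, hr] at hl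
    simp only [map_one, MulAut.one_apply] at hl
    have h3 : actHom S K x.right (x ^ q).left = (x ^ q).left := by
      have h4 : (x ^ q).left * x.left = x.left * (x ^ q).left := mul_comm _ _
      rw [h4] at hl
      exact (mul_left_cancel hl).symm
    rw [actHom_apply] at h3
    have h5 : x.right • Multiplicative.toAdd (x ^ q).left = Multiplicative.toAdd (x ^ q).left := by
      have := congrArg Multiplicative.toAdd h3
      simpa using this
    rcases hfix _ _ h5 with h6 | h6
    · exact absurd h6 hx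
    · ext
      · simpa using h6
      · simp [hr]
  have hpow_p : ∀ x : Multiplicative K ⋊[actHom S K] S, x ^ p = 1 → x.right = 1 := by
    intro x hx
    have h1 : x.right ^ p = 1 := by
      have := congrArg (rightHom : Multiplicative K ⋊[actHom S K] S →* S) hx
      rwa [map_pow, map_one] at this
    have h2 : x.right ^ q = 1 := hSpow _
    have h3 : orderOf x.right ∣ Nat.gcd p q := Nat.dvd_gcd (orderOf_dvd_of_pow_eq_one h1) (orderOf_dvd_of_pow_eq_one h2)
    rw [(Nat.coprime_primes hp hq).mpr hpq] at h3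
    exact orderOf_eq_one_iff.mp (Nat.dvd_one.mp h3)
  constructor
  · intro m
    constructor
    · rintro ⟨x, rfl⟩
      by_cases hx : x.right = 1
      · have h1 := orderOf_dvd_of_pow_eq_one (hright1 x hx)
        rcases (Nat.dvd_prime hp).mp h1 with h | h
        · exact Or.inl h
        · exact Or.inr (Or.inl h)
      · have h1 := orderOf_dvd_of_pow_eq_one (hrightne x hx)
        rcases (Nat.dvd_prime hq).mp h1 with h | h
        · exact Or.inl h
        · exact Or.inr (Or.inr h)
    · rintro (rfl | rfl | rfl)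
      · exact ⟨1, orderOf_one⟩
      · refine ⟨inl (Multiplicative.ofAdd (1 : K)), ?_⟩
        apply orderOf_eq_prime
        · exact hright1 _ (by simp)
        · intro h
          have := congrArg SemidirectProduct.left h
          simp at this
      · refine ⟨inr ⟨ζ, Subgroup.mem_zpowers ζ⟩, ?_⟩
        apply orderOf_eq_prime
        · apply hrightne
          simp only [right_inr]
          intro h
          have h2 : ζ = 1 := congrArg Subtype.val h
          rw [h2, orderOf_one] at hζ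
          exact hq.one_lt.ne hζ
        · intro h
          have := congrArg SemidirectProduct.right h
          simp only [right_inr, one_right] at this
          have h2 : ζ = 1 := congrArg Subtype.val this
          rw [h2, orderOf_one] at hζ
          exact hq.one_lt.ne hζ
  · intro x y hx hy
    apply hright1
    rw [mul_right, hpow_p x hx, hpow_p y hy, one_mul]


theorem crit_exists (p q : ℕ) (hp : p.Prime) (hq : q.Prime) (hpq : p ≠ q) :
    ∃ (X : Type) (_ : Group X) (_ : Fintype X), SpecQ p q X ∧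
      ∀ (H : Subgroup X) (N : Subgroup H) [N.Normal], (H ≠ ⊤ ∨ N ≠ ⊥) →
        ¬ (∀ m, (∃ x : H ⧸ N, orderOf x = m) ↔ (m = 1 ∨ m = p ∨ m = q)) := by
  classical
  have hex : ∃ n, ∃ (X : Type) (_ : Group X) (_ : Finite X), Nat.card X = n ∧ SpecQ p q X := by
    obtain ⟨X, i1, i2, h⟩ := frob_exists p q hp hq hpq
    exact ⟨Nat.card X, X, i1, i2, rfl, h⟩
  obtain ⟨X, iG, iF, hcard, hX⟩ := Nat.find_spec hex
  have hmin := fun m (hm : m < Nat.find hex) => Nat.find_min hex hm
  refine ⟨X, iG, Fintype.ofFinite X, hX, ?_⟩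
  intro H N _ hHN hspec
  have hQ : SpecQ p q (H ⧸ N) := by
    refine ⟨hspec, ?_⟩
    have hlift : ∀ z : H ⧸ N, z ^ p = 1 → ∃ x : H, (x : H ⧸ N) = z ∧ x ^ p = 1 := by
      intro z hz
      obtain ⟨x, rfl⟩ := QuotientGroup.mk_surjective z
      have hox : orderOf (x : X) = 1 ∨ orderOf (x : X) = p ∨ orderOf (x : X) = q :=
        (hX.1 _).mp ⟨_, rfl⟩
      rcases hox with h | h | h
      · refine ⟨x, rfl, ?_⟩
        have h1 : (x : X) = 1 := orderOf_eq_one_iff.mp h
        have h2 : x = 1 := Subtype.ext h1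
        rw [h2, one_pow]
      · refine ⟨x, rfl, ?_⟩
        apply Subtype.ext
        rw [Subgroup.coe_pow, ← h, pow_orderOf_eq_one]; rfl
      · refine ⟨1, ?_, one_pow _⟩
        have h1 : ((x : H ⧸ N)) ^ q = 1 := by
          rw [← QuotientGroup.mk_pow]
          have h2 : x ^ q = 1 := by
            apply Subtype.ext
            rw [Subgroup.coe_pow, ← h, pow_orderOf_eq_one]; rfl
          rw [h2]; rfl
        have h3 : orderOf (x : H ⧸ N) ∣ Nat.gcd p q :=
          Nat.dvd_gcd (orderOf_dvd_of_pow_eq_one hz) (orderOf_dvd_of_pow_eq_one h1)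
        rw [(Nat.coprime_primes hp hq).mpr hpq] at h3
        rw [orderOf_eq_one_iff.mp (Nat.dvd_one.mp h3)]; rfl
    intro z w hz hw
    obtain ⟨x, rfl, hx⟩ := hlift z hz
    obtain ⟨y, rfl, hy⟩ := hlift w hw
    have hxy : (x * y) ^ p = 1 := by
      apply Subtype.ext
      have h1 : (x : X) ^ p = 1 := by rw [← Subgroup.coe_pow, hx]; rfl
      have h2 : (y : X) ^ p = 1 := by rw [← Subgroup.coe_pow, hy]; rfl
      have := hX.2 (x : X) (y : X) h1 h2
      rw [Subgroup.coe_pow, Subgroup.coe_mul, this]; rfl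
    rw [← QuotientGroup.mk_mul, ← QuotientGroup.mk_pow, hxy]; rfl
  have hlt : Nat.card (H ⧸ N) < Nat.find hex := by
    rw [← hcard]
    have h1 : Nat.card H = Nat.card (H ⧸ N) * Nat.card N :=
      Subgroup.card_eq_card_quotient_mul_card_subgroup N
    have h2 : Nat.card H ≤ Nat.card X := Subgroup.card_le_card_group H
    have h3 : 0 < Nat.card N := Nat.card_pos
    have h4 : 0 < Nat.card (H ⧸ N) := Nat.card_pos
    rcases hHN with h | h
    · have h5 : Nat.card H ≠ Nat.card X := fun h' => h (H.card_eq_iff_eq_top.mp h')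
      have h6 : Nat.card (H ⧸ N) ≤ Nat.card H := by
        rw [h1]; exact Nat.le_mul_of_pos_right _ h3
      omega
    · have h5 : 1 < Nat.card N := N.one_lt_card_iff_ne_bot.mpr h
      have h6 : Nat.card (H ⧸ N) < Nat.card H := by
        rw [h1]
        calc Nat.card (H ⧸ N) = Nat.card (H ⧸ N) * 1 := (mul_one _).symm
          _ < Nat.card (H ⧸ N) * Nat.card N := Nat.mul_lt_mul_of_pos_left h5 h4
      omega
  exact hmin _ hlt ⟨H ⧸ N, inferInstance, inferInstance, rfl, hQ⟩


/-- a group with spectrum `{1,p0,p1}` cannot have both closure properties -/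
theorem noQQ (p0 p1 : ℕ) (h0 : p0.Prime) (h1 : p1.Prime) (h01 : p0 ≠ p1) (X : Type) [Group X]
    (hX : ∀ m, (∃ x : X, orderOf x = m) ↔ (m = 1 ∨ m = p0 ∨ m = p1))
    (hQ0 : ∀ x y : X, x ^ p0 = 1 → y ^ p0 = 1 → (x * y) ^ p0 = 1)
    (hQ1 : ∀ x y : X, x ^ p1 = 1 → y ^ p1 = 1 → (x * y) ^ p1 = 1) : False := by
  obtain ⟨x, hx⟩ := (hX p0).mpr (Or.inr (Or.inl rfl))
  obtain ⟨y, hy⟩ := (hX p1).mpr (Or.inr (Or.inr rfl))
  have hx1 : x ^ p0 = 1 := by rw [← hx]; exact pow_orderOf_eq_one x
  have hy1 : y ^ p1 = 1 := by rw [← hy]; exact pow_orderOf_eq_one y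
  have hc0 : (x * (y * x⁻¹ * y⁻¹)) ^ p0 = 1 := by
    apply hQ0 _ _ hx1
    rw [conj_pow, inv_pow, hx1, inv_one, mul_one, mul_inv_cancel]
  have hc1 : ((x * y * x⁻¹) * y⁻¹) ^ p1 = 1 := by
    apply hQ1
    · rw [conj_pow, hy1, mul_one, mul_inv_cancel]
    · rw [inv_pow, hy1, inv_one]
  have heq : x * (y * x⁻¹ * y⁻¹) = (x * y * x⁻¹) * y⁻¹ := by group
  rw [← heq] at hc1
  have h3 : orderOf (x * (y * x⁻¹ * y⁻¹)) ∣ Nat.gcd p0 p1 :=
    Nat.dvd_gcd (orderOf_dvd_of_pow_eq_one hc0) (orderOf_dvd_of_pow_eq_one hc1)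
  rw [(Nat.coprime_primes h0 h1).mpr h01] at h3
  have h4 : x * (y * x⁻¹ * y⁻¹) = 1 := orderOf_eq_one_iff.mp (Nat.dvd_one.mp h3)
  have hcomm : Commute x y := by
    have : x * y = y * x := by
      have h5 : x * y * x⁻¹ * y⁻¹ = 1 := by rw [← h4]; group
      have h6 : x * y * x⁻¹ = y := by
        have := mul_inv_eq_one.mp h5
        exact this
      calc x * y = x * y * x⁻¹ * x := by group
        _ = y * x := by rw [h6]
    exact this
  have ho : orderOf (x * y) = p0 * p1 := by
    rw [hcomm.orderOf_mul_eq_mul_orderOf_of_coprime (by rw [hx, hy]; exact (Nat.coprime_primes h0 h1).mpr h01), hx, hy]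
  rcases (hX _).mp ⟨x * y, ho⟩ with h | h | h
  · have := h0.two_le; have := h1.two_le; nlinarith
  · have := h0.two_le; have := h1.two_le; nlinarith
  · have := h0.two_le; have := h1.two_le; nlinarith

section prod

variable {s : ℕ} (p : Fin s → Fin 2 → ℕ) (hp : ∀ j i, (p j i).Prime)
  (hinj : ∀ j i j' i', p j i = p j' i' → j = j' ∧ i = i')
  (Z : Fin s → Type) [∀ j, Group (Z j)]
  (hZ : ∀ j m, (∃ x : Z j, orderOf x = m) ↔ (m = 1 ∨ m = p j 0 ∨ m = p j 1))

/-- the product of the primes attached to the other coordinates -/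
def Mo (j : Fin s) : ℕ := ∏ k ∈ Finset.univ.erase j, (p k 0 * p k 1)

include hp hinj in
theorem coprime_Mo (j : Fin s) (i : Fin 2) : Nat.Coprime (p j i) (Mo p j) := by
  unfold Mo
  apply Nat.Coprime.prod_right
  intro k hk
  have hkj : k ≠ j := Finset.ne_of_mem_erase hk
  apply Nat.Coprime.mul_right
  · exact (Nat.coprime_primes (hp j i) (hp k 0)).mpr (fun h => hkj (hinj _ _ _ _ h).1.symm)
  · exact (Nat.coprime_primes (hp j i) (hp k 1)).mpr (fun h => hkj (hinj _ _ _ _ h).1.symm)

include hZ in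
theorem ord_dvd (x : ∀ j, Z j) (k : Fin s) : orderOf (x k) ∣ p k 0 * p k 1 := by
  rcases (hZ k _).mp ⟨x k, rfl⟩ with h | h | h
  · rw [h]; exact one_dvd _
  · rw [h]; exact dvd_mul_right _ _
  · rw [h]; exact dvd_mul_left _ _

include hZ in
theorem pow_Mo (x : ∀ j, Z j) (j : Fin s) :
    x ^ Mo p j = MonoidHom.mulSingle Z j ((x j) ^ Mo p j) := by
  classical
  funext k
  rw [Pi.pow_apply, MonoidHom.mulSingle_apply]
  by_cases hkj : k = j
  · subst hkj
    rw [Pi.mulSingle_eq_same]
  · rw [Pi.mulSingle_eq_of_ne hkj]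
    apply orderOf_dvd_iff_pow_eq_one.mp
    exact (ord_dvd p Z hZ x k).trans (Finset.dvd_prod_of_mem _ (Finset.mem_erase.mpr ⟨hkj, Finset.mem_univ _⟩))

include hp hinj hZ in
theorem ord_coprime (x : ∀ j, Z j) (j k : Fin s) (hjk : j ≠ k) :
    Nat.Coprime (orderOf (x j)) (orderOf (x k)) := by
  have h1 : Nat.Coprime (p j 0 * p j 1) (p k 0 * p k 1) := by
    apply Nat.Coprime.mul_left <;> apply Nat.Coprime.mul_right <;>
    exact (Nat.coprime_primes (hp _ _) (hp _ _)).mpr (fun h => hjk (hinj _ _ _ _ h).1)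
  exact Nat.Coprime.of_dvd (ord_dvd p Z hZ x j) (ord_dvd p Z hZ x k) h1

include hp hinj hZ in
theorem ord_pi (x : ∀ j, Z j) : orderOf x = ∏ j, orderOf (x j) := by
  apply Nat.dvd_antisymm
  · apply orderOf_dvd_of_pow_eq_one
    funext j
    rw [Pi.pow_apply]
    exact orderOf_dvd_iff_pow_eq_one.mp (Finset.dvd_prod_of_mem _ (Finset.mem_univ j))
  · have h : ((∏ j, orderOf (x j) : ℕ) : ℤ) ∣ (orderOf x : ℤ) := by
      rw [Nat.cast_prod]
      apply Finset.prod_dvd_of_coprime
      · intro j _ k _ hjk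
        exact Nat.isCoprime_iff_coprime.mpr (ord_coprime p hp hinj Z hZ x j k hjk)
      · intro j _
        apply Int.natCast_dvd_natCast.mpr
        apply orderOf_dvd_of_pow_eq_one
        have := congrFun (pow_orderOf_eq_one x) j
        rwa [Pi.pow_apply] at this
    exact Int.natCast_dvd_natCast.mp h

include hp hinj hZ in
theorem spec_pi (m : ℕ) : (∃ x : ∀ j, Z j, orderOf x = m) ↔
    ∃ c : Fin s → ℕ, (∀ j, c j = 1 ∨ c j = p j 0 ∨ c j = p j 1) ∧ m = ∏ j, c j := by
  constructor
  · rintro ⟨x, rfl⟩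
    exact ⟨fun j => orderOf (x j), fun j => (hZ j _).mp ⟨x j, rfl⟩, ord_pi p hp hinj Z hZ x⟩
  · rintro ⟨c, hc, rfl⟩
    have hx : ∀ j, ∃ x : Z j, orderOf x = c j := fun j => (hZ j _).mpr (hc j)
    choose x hx using hx
    refine ⟨x, ?_⟩
    rw [ord_pi p hp hinj Z hZ x]
    exact Finset.prod_congr rfl (fun j _ => hx j)

include hp hinj hZ in
theorem Q_pi (j : Fin s) (i : Fin 2)
    (hQ : ∀ x y : Z j, x ^ p j i = 1 → y ^ p j i = 1 → (x * y) ^ p j i = 1)
    (x y : ∀ k, Z k) (hx : x ^ p j i = 1) (hy : y ^ p j i = 1) : (x * y) ^ p j i = 1 := by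
  have hone : ∀ (z : ∀ k, Z k), z ^ p j i = 1 → ∀ k, k ≠ j → z k = 1 := by
    intro z hz k hkj
    have h1 : (z k) ^ p j i = 1 := by
      have := congrFun hz k
      rwa [Pi.pow_apply] at this
    have h2 : orderOf (z k) ∣ p j i := orderOf_dvd_of_pow_eq_one h1
    rcases (Nat.dvd_prime (hp j i)).mp h2 with h3 | h3
    · exact orderOf_eq_one_iff.mp h3
    · exfalso
      rcases (hZ k _).mp ⟨z k, rfl⟩ with h | h | h
      · rw [h] at h3; exact (hp j i).one_lt.ne h3
      · rw [h] at h3; exact hkj (hinj _ _ _ _ h3).1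
      · rw [h] at h3; exact hkj (hinj _ _ _ _ h3).1
  funext k
  rw [Pi.pow_apply, Pi.mul_apply, Pi.one_apply]
  by_cases hkj : k = j
  · subst hkj
    apply hQ
    · have := congrFun hx k
      rwa [Pi.pow_apply] at this
    · have := congrFun hy k
      rwa [Pi.pow_apply] at this
  · rw [hone x hx k hkj, hone y hy k hkj, one_mul, one_pow]

include hp hinj hZ in
theorem crit_pi
    (hcrit : ∀ j (H : Subgroup (Z j)) (N : Subgroup H) [N.Normal], (H ≠ ⊤ ∨ N ≠ ⊥) →
      ¬ (∀ m, (∃ x : H ⧸ N, orderOf x = m) ↔ (m = 1 ∨ m = p j 0 ∨ m = p j 1)))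
    (H : Subgroup (∀ j, Z j)) (N : Subgroup H) [N.Normal]
    (hspec : ∀ m, (∃ x : H ⧸ N, orderOf x = m) ↔
      ∃ c : Fin s → ℕ, (∀ j, c j = 1 ∨ c j = p j 0 ∨ c j = p j 1) ∧ m = ∏ j, c j) :
    H = ⊤ ∧ N = ⊥ := by
  classical
  -- order transfer
  have ordeq : ∀ (j : Fin s) (x : H.comap (MonoidHom.mulSingle Z j)),
      orderOf (x : (H.comap (MonoidHom.mulSingle Z j)) ⧸
        N.comap ((MonoidHom.mulSingle Z j).subgroupComap H)) =
      orderOf (((MonoidHom.mulSingle Z j).subgroupComap H x : H) : H ⧸ N) := by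
    intro j x
    rw [orderOf_eq_orderOf_iff]
    intro n
    rw [← QuotientGroup.mk_pow, ← QuotientGroup.mk_pow, QuotientGroup.eq_one_iff,
      QuotientGroup.eq_one_iff, Subgroup.mem_comap, map_pow]
  have hmem : ∀ (j : Fin s) (h : H), MonoidHom.mulSingle Z j (((h : ∀ k, Z k) j) ^ Mo p j) ∈ H := by
    intro j h
    rw [← pow_Mo p Z hZ]
    exact H.pow_mem h.2 _
  have hphi : ∀ (j : Fin s) (h : H),
      (MonoidHom.mulSingle Z j).subgroupComap H ⟨((h : ∀ k, Z k) j) ^ Mo p j, hmem j h⟩ = h ^ Mo p j := by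
    intro j h
    apply Subtype.ext
    rw [Subgroup.coe_pow, pow_Mo p Z hZ]
    rfl
  have key : ∀ j, H.comap (MonoidHom.mulSingle Z j) = ⊤ ∧
      N.comap ((MonoidHom.mulSingle Z j).subgroupComap H) = ⊥ := by
    intro j
    by_contra hcon
    have hcon' : H.comap (MonoidHom.mulSingle Z j) ≠ ⊤ ∨
        N.comap ((MonoidHom.mulSingle Z j).subgroupComap H) ≠ ⊥ := by tauto
    refine hcrit j _ _ hcon' ?_
    intro m
    constructor
    · rintro ⟨z, rfl⟩
      obtain ⟨x, rfl⟩ := QuotientGroup.mk_surjective z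
      have h1 : orderOf (x : (H.comap (MonoidHom.mulSingle Z j)) ⧸
          N.comap ((MonoidHom.mulSingle Z j).subgroupComap H)) ∣ orderOf (x : Z j) := by
        apply orderOf_dvd_of_pow_eq_one
        rw [← QuotientGroup.mk_pow]
        have h2 : x ^ orderOf (x : Z j) = 1 := by
          apply Subtype.ext
          rw [Subgroup.coe_pow, pow_orderOf_eq_one]; rfl
        rw [h2]; rfl
      rcases (hZ j _).mp ⟨(x : Z j), rfl⟩ with h | h | h
      · rw [h] at h1; exact Or.inl (Nat.dvd_one.mp h1)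
      · rw [h] at h1
        rcases (Nat.dvd_prime (hp j 0)).mp h1 with h2 | h2
        · exact Or.inl h2
        · exact Or.inr (Or.inl h2)
      · rw [h] at h1
        rcases (Nat.dvd_prime (hp j 1)).mp h1 with h2 | h2
        · exact Or.inl h2
        · exact Or.inr (Or.inr h2)
    · intro hm
      have hmain : ∀ i : Fin 2, ∃ z : (H.comap (MonoidHom.mulSingle Z j)) ⧸
          N.comap ((MonoidHom.mulSingle Z j).subgroupComap H), orderOf z = p j i := by
        intro i
        obtain ⟨hbar, hh⟩ := (hspec (p j i)).mpr ⟨Function.update (fun _ => 1) j (p j i), by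
          intro k
          by_cases hkj : k = j
          · subst hkj
            rw [Function.update_self]
            rcases (show i = 0 ∨ i = 1 by omega) with rfl | rfl
            · exact Or.inr (Or.inl rfl)
            · exact Or.inr (Or.inr rfl)
          · rw [Function.update_of_ne hkj]; exact Or.inl rfl, by
          rw [Finset.prod_update_of_mem (Finset.mem_univ j)]
          simp⟩
        obtain ⟨h, rfl⟩ := QuotientGroup.mk_surjective hbar
        refine ⟨((⟨((h : ∀ k, Z k) j) ^ Mo p j, hmem j h⟩ : H.comap (MonoidHom.mulSingle Z j)) :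
          (H.comap (MonoidHom.mulSingle Z j)) ⧸ N.comap ((MonoidHom.mulSingle Z j).subgroupComap H)), ?_⟩
        rw [ordeq, hphi, QuotientGroup.mk_pow,
          Nat.Coprime.orderOf_pow (by rw [hh]; exact coprime_Mo p hp hinj j i)]
        exact hh
      rcases hm with rfl | rfl | rfl
      · exact ⟨1, orderOf_one⟩
      · exact hmain 0
      · exact hmain 1
  constructor
  · rw [eq_top_iff, ← Subgroup.pi_top Set.univ, Subgroup.pi_le_iff]
    intro j
    rw [Subgroup.map_le_iff_le_comap, (key j).1]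
  · rw [Subgroup.eq_bot_iff_forall]
    intro n hn
    by_contra hne
    have hne' : (n : ∀ k, Z k) ≠ 1 := fun h => hne (Subtype.ext h)
    obtain ⟨j, hj⟩ : ∃ j, (n : ∀ k, Z k) j ≠ 1 := by
      by_contra hall
      push Not at hall
      exact hne' (funext hall)
    have hx : (⟨((n : ∀ k, Z k) j) ^ Mo p j, hmem j n⟩ : H.comap (MonoidHom.mulSingle Z j)) ∈
        N.comap ((MonoidHom.mulSingle Z j).subgroupComap H) := by
      rw [Subgroup.mem_comap, hphi]
      exact N.pow_mem hn _
    rw [(key j).2, Subgroup.mem_bot] at hx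
    have h1 : ((n : ∀ k, Z k) j) ^ Mo p j = 1 := congrArg Subtype.val hx
    have h2 : orderOf ((n : ∀ k, Z k) j) ∣ Mo p j := orderOf_dvd_of_pow_eq_one h1
    rcases (hZ j _).mp ⟨(n : ∀ k, Z k) j, rfl⟩ with h | h | h
    · exact hj (orderOf_eq_one_iff.mp h)
    · rw [h] at h2
      exact (hp j 0).one_lt.ne' (Nat.Coprime.eq_one_of_dvd (coprime_Mo p hp hinj j 0) h2)
    · rw [h] at h2
      exact (hp j 1).one_lt.ne' (Nat.Coprime.eq_one_of_dvd (coprime_Mo p hp hinj j 1) h2)

end prod

/-- A finite group is critical with respect to a set Ω of natural numbers when its set of element orders is Ω while no proper section H/N (H a subgroup, N normal in H, (H, N) ≠ (whole group, 1)) has Ω as its set of element orders. Let s ≥ 1 and let p(j,0), p(j,1) (j < s) be 2s pairwise distinct primes, and let Ω be the set of all products c(0)·…·c(s−1) with each c(j) ∈ {1, p(j,0), p(j,1)}. Then there are 2^s pairwise non-isomorphic finite groups critical with respect to Ω. -/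
theorem result (s : ℕ) (hs : 1 ≤ s) (p : Fin s → Fin 2 → ℕ)
    (hp : ∀ j i, (p j i).Prime) (hinj : ∀ j i j' i', p j i = p j' i' → j = j' ∧ i = i') :
    ∃ (G : Fin (2 ^ s) → Type) (_ : ∀ a, Group (G a)) (_ : ∀ a, Fintype (G a)),
      (∀ a b, a ≠ b → ¬ Nonempty (G a ≃* G b)) ∧
      ∀ a, Set.range (orderOf : (G a) → ℕ) = {m : ℕ | ∃ c : Fin s → ℕ, (∀ j, c j = 1 ∨ c j = p j 0 ∨ c j = p j 1) ∧ m = ∏ j, c j} ∧
      ∀ (H : Subgroup (G a)) (N : Subgroup ↥H) [N.Normal], (H ≠ ⊤ ∨ N ≠ ⊥) → Set.range (orderOf : (↥H ⧸ N) → ℕ) ≠ {m : ℕ | ∃ c : Fin s → ℕ, (∀ j, c j = 1 ∨ c j = p j 0 ∨ c j = p j 1) ∧ m = ∏ j, c j} := by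
  classical
  have h01 : ∀ j, p j 0 ≠ p j 1 := fun j h => by
    have := (hinj _ _ _ _ h).2
    exact absurd this (by decide)
  have hex : ∀ (j : Fin s) (i : Fin 2), ∃ (X : Type) (_ : Group X) (_ : Fintype X),
      (∀ m, (∃ x : X, orderOf x = m) ↔ (m = 1 ∨ m = p j 0 ∨ m = p j 1)) ∧
      (∀ x y : X, x ^ p j i = 1 → y ^ p j i = 1 → (x * y) ^ p j i = 1) ∧
      ∀ (H : Subgroup X) (N : Subgroup H) [N.Normal], (H ≠ ⊤ ∨ N ≠ ⊥) →
        ¬ (∀ m, (∃ x : H ⧸ N, orderOf x = m) ↔ (m = 1 ∨ m = p j 0 ∨ m = p j 1)) := by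
    intro j i
    rcases (show i = 0 ∨ i = 1 by omega) with rfl | rfl
    · obtain ⟨X, i1, i2, ⟨h1, h2⟩, h3⟩ := crit_exists (p j 0) (p j 1) (hp j 0) (hp j 1) (h01 j)
      exact ⟨X, i1, i2, h1, h2, h3⟩
    · obtain ⟨X, i1, i2, ⟨h1, h2⟩, h3⟩ :=
        crit_exists (p j 1) (p j 0) (hp j 1) (hp j 0) (h01 j).symm
      refine ⟨X, i1, i2, fun m => (h1 m).trans (by tauto), h2, ?_⟩
      intro H N _ hHN hsp
      exact h3 H N hHN (fun m => (hsp m).trans (by tauto))
  choose Y iG iF hY1 hY2 hY3 using hex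
  let e : Fin (2 ^ s) ≃ (Fin s → Fin 2) := finFunctionFinEquiv.symm
  refine ⟨fun a => ∀ j, Y j (e a j), fun a => inferInstance, fun a => inferInstance, ?_, ?_⟩
  · rintro a b hab ⟨f⟩
    have hne : e a ≠ e b := fun h => hab (e.injective h)
    obtain ⟨j, hj⟩ : ∃ j, e a j ≠ e b j := by
      by_contra hall
      push Not at hall
      exact hne (funext hall)
    have hQb : ∀ x y : (∀ k, Y k (e b k)), x ^ p j (e b j) = 1 → y ^ p j (e b j) = 1 →
        (x * y) ^ p j (e b j) = 1 :=
      Q_pi p hp hinj (fun k => Y k (e b k)) (fun k => hY1 k (e b k)) j (e b j) (hY2 j (e b j))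
    have hQa : ∀ x y : (∀ k, Y k (e a k)), x ^ p j (e a j) = 1 → y ^ p j (e a j) = 1 →
        (x * y) ^ p j (e a j) = 1 :=
      Q_pi p hp hinj (fun k => Y k (e a k)) (fun k => hY1 k (e a k)) j (e a j) (hY2 j (e a j))
    have hQb' : ∀ x y : (∀ k, Y k (e b k)), x ^ p j (e a j) = 1 → y ^ p j (e a j) = 1 →
        (x * y) ^ p j (e a j) = 1 := by
      intro x y hx hy
      have h1 := hQa (f.symm x) (f.symm y) (by rw [← map_pow, hx, map_one])
        (by rw [← map_pow, hy, map_one])
      rw [← map_mul, ← map_pow] at h1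
      exact (MulEquiv.map_eq_one_iff f.symm).mp h1
    have r1 : ∀ r : ℕ, (∀ x y : (∀ k, Y k (e b k)), x ^ r = 1 → y ^ r = 1 → (x * y) ^ r = 1) →
        ∀ x y : Y j (e b j), x ^ r = 1 → y ^ r = 1 → (x * y) ^ r = 1 := by
      intro r h x y hx hy
      have h1 := h (MonoidHom.mulSingle (fun k => Y k (e b k)) j x)
        (MonoidHom.mulSingle (fun k => Y k (e b k)) j y)
        (by rw [← map_pow, hx, map_one]) (by rw [← map_pow, hy, map_one])
      rw [← map_mul, ← map_pow] at h1
      have h2 := congrFun h1 j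
      rw [MonoidHom.mulSingle_apply, Pi.mulSingle_eq_same] at h2
      exact h2
    have hcases : ∀ u v : Fin 2, u ≠ v → (u = 0 ∧ v = 1) ∨ (u = 1 ∧ v = 0) := by decide
    rcases hcases _ _ hj with ⟨ha, hb⟩ | ⟨ha, hb⟩
    · rw [ha] at hQb'
      have hb' := hQb
      rw [hb] at hb'
      exact noQQ (p j 0) (p j 1) (hp j 0) (hp j 1) (h01 j) (Y j (e b j)) (hY1 j (e b j))
        (r1 _ hQb') (r1 _ hb')
    · rw [ha] at hQb'
      have hb' := hQb
      rw [hb] at hb'
      exact noQQ (p j 0) (p j 1) (hp j 0) (hp j 1) (h01 j) (Y j (e b j)) (hY1 j (e b j))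
        (r1 _ hb') (r1 _ hQb')
  · intro a
    have hsp := spec_pi p hp hinj (fun k => Y k (e a k)) (fun k => hY1 k (e a k))
    refine ⟨?_, ?_⟩
    · ext m
      rw [Set.mem_range, Set.mem_setOf_eq]
      exact hsp m
    · intro H N _ hHN heq
      have hs' : ∀ m, (∃ x : ↥H ⧸ N, orderOf x = m) ↔ ∃ c : Fin s → ℕ,
          (∀ j, c j = 1 ∨ c j = p j 0 ∨ c j = p j 1) ∧ m = ∏ j, c j := by
        intro m
        have := Set.ext_iff.mp heq m
        rwa [Set.mem_range, Set.mem_setOf_eq] at this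
      have hfin := crit_pi p hp hinj (fun k => Y k (e a k)) (fun k => hY1 k (e a k))
        (fun k => hY3 k (e a k)) H N hs'
      rcases hHN with h | h
      · exact h hfin.1
      · exact h hfin.2

end Cfsg.Agent.S3599
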