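import Cfsg.Statements.S3619
import Mathlib

set_option autoImplicit false
open Cfsg

namespace Cfsg.Agent.S3619

open scoped Pointwise

/-- Let G act faithfully on a finite set in such a way that every non-trivial normal subgroup of G is transitive (G is quasiprimitive). Let Γ be a subset with more than one point and not the whole set, such that the pointwise stabilizer of the complement of Γ acts transitively on Γ (a Jordan set). If that pointwise stabilizer acts primitively on Γ, then G is k-fold transitive where k is one more than the number of points outside Γ (the Jordan set is a trivial one). -/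
theorem result {G Ω : Type*} [Group G] [Finite G] [MulAction G Ω] [FaithfulSMul G Ω] [Finite Ω]
    (hqp : ∀ N : Subgroup G, N.Normal → N ≠ ⊥ → MulAction.IsPretransitive ↥N Ω)
    (Γ : Set Ω) (hΓ1 : 1 < Γ.ncard) (hΓ2 : Γ.ncard < Nat.card Ω)
    (hJ : MulAction.IsPretransitive ↥(fixingSubgroup G Γᶜ) ↥(SubMulAction.ofFixingSubgroup G Γᶜ))
    (hJp : MulAction.IsPreprimitive ↥(fixingSubgroup G Γᶜ) ↥(SubMulAction.ofFixingSubgroup G Γᶜ)) :
    MulAction.IsMultiplyPretransitive G Ω (Nat.card Ω - Γ.ncard + 1) := by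
  classical
  have hmemC : ∀ y : Ω, y ∈ SubMulAction.ofFixingSubgroup G Γᶜ ↔ y ∈ Γ := by
    intro y
    rw [SubMulAction.mem_ofFixingSubgroup_iff]
    simp
  have hHfix : ∀ h ∈ fixingSubgroup G Γᶜ, ∀ y, y ∉ Γ → h • y = y :=
    fun h hh y hy => (mem_fixingSubgroup_iff G).mp hh y hy
  have hHΓ : ∀ h ∈ fixingSubgroup G Γᶜ, ∀ y ∈ Γ, h • y ∈ Γ := by
    intro h hh y hy
    have := (SubMulAction.ofFixingSubgroup G Γᶜ).smul_mem (⟨h, hh⟩ : fixingSubgroup G Γᶜ)
      ((hmemC y).mpr hy)
    exact (hmemC _).mp this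
  obtain ⟨γ, hγ, γ', hγ', hne⟩ := (Set.one_lt_ncard (Set.toFinite Γ)).mp hΓ1
  have hHtrans : ∀ x ∈ Γ, ∀ y ∈ Γ, ∃ h ∈ fixingSubgroup G Γᶜ, h • x = y := by
    intro x hx y hy
    obtain ⟨h, hh⟩ := hJ.exists_smul_eq
      (⟨x, (hmemC x).mpr hx⟩ : SubMulAction.ofFixingSubgroup G Γᶜ) ⟨y, (hmemC y).mpr hy⟩
    exact ⟨h.1, h.2, congrArg Subtype.val hh⟩
  obtain ⟨h₀, hh₀, hh₀γ⟩ := hHtrans γ hγ γ' hγ'
  have hh₀1 : h₀ ≠ 1 := by
    rintro rfl
    rw [one_smul] at hh₀γ
    exact hne hh₀γ
  have hGtrans : MulAction.IsPretransitive G Ω := by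
    have h1 := hqp ⊤ inferInstance (by
      intro h
      have h2 : h₀ ∈ (⊤ : Subgroup G) := Subgroup.mem_top _
      rw [h] at h2
      exact hh₀1 (Subgroup.mem_bot.mp h2))
    constructor
    intro x y
    obtain ⟨g, hg⟩ := h1.exists_smul_eq x y
    exact ⟨g.1, hg⟩
  have hprim : MulAction.IsPreprimitive G Ω := by
    apply MulAction.IsPreprimitive.of_isTrivialBlock_base γ
    intro B hγB hB
    have hBH : MulAction.IsBlock (fixingSubgroup G Γᶜ) B := hB.subgroup
    have hB' := hBH.subtype_val_preimage (C := SubMulAction.ofFixingSubgroup G Γᶜ)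
    rcases hJp.isTrivialBlock_of_isBlock hB' with hsub | huniv
    · left
      apply Set.subsingleton_of_forall_eq γ
      intro δ hδ
      by_contra hδγ
      have hδΓ : δ ∉ Γ := by
        intro hδΓ
        have := @hsub ⟨δ, (hmemC δ).mpr hδΓ⟩ hδ ⟨γ, (hmemC γ).mpr hγ⟩ hγB
        exact hδγ (congrArg Subtype.val this)
      have hfix : h₀ • δ = δ := hHfix h₀ hh₀ δ hδΓ
      have hsB : h₀ • B = B := hB.smul_eq_of_mem hδ (by rw [hfix]; exact hδ)
      have hγ'B : γ' ∈ B := by
        rw [← hsB, ← hh₀γ]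
        exact Set.smul_mem_smul_set hγB
      have := @hsub ⟨γ', (hmemC γ').mpr hγ'⟩ hγ'B ⟨γ, (hmemC γ).mpr hγ⟩ hγB
      exact hne (congrArg Subtype.val this).symm
    · right
      have hΓB : ∀ y ∈ Γ, y ∈ B := by
        intro y hy
        have : (⟨y, (hmemC y).mpr hy⟩ : SubMulAction.ofFixingSubgroup G Γᶜ) ∈
            (Subtype.val ⁻¹' B : Set (SubMulAction.ofFixingSubgroup G Γᶜ)) := by
          rw [huniv]; exact Set.mem_univ _
        exact this
      have hHN : ∀ h ∈ fixingSubgroup G Γᶜ, h ∈ (MulAction.stabilizer G B).normalCore := by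
        intro h hh b
        rw [MulAction.mem_stabilizer_iff]
        have key : h • (b⁻¹ • B) = b⁻¹ • B := by
          rcases hB.smul_eq_or_disjoint b⁻¹ with h1 | h1
          · rw [h1]
            exact hB.smul_eq_of_mem hγB (hΓB _ (hHΓ h hh γ hγ))
          · ext x
            constructor
            · rintro ⟨y, hy, rfl⟩
              have hyΓ : y ∉ Γ := fun hyΓ => Set.disjoint_left.mp h1 hy (hΓB y hyΓ)
              change h • y ∈ b⁻¹ • B
              rw [hHfix h hh y hyΓ]
              exact hy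
            · intro hx
              have hxΓ : x ∉ Γ := fun hxΓ => Set.disjoint_left.mp h1 hx (hΓB x hxΓ)
              exact ⟨x, hx, hHfix h hh x hxΓ⟩
        rw [mul_smul, mul_smul, key, smul_inv_smul]
      have hN1 : (MulAction.stabilizer G B).normalCore ≠ ⊥ := by
        intro h
        have h2 := hHN h₀ hh₀
        rw [h] at h2
        exact hh₀1 (Subgroup.mem_bot.mp h2)
      have hNt := hqp _ (Subgroup.normalCore_normal _) hN1
      apply Set.eq_univ_of_forall
      intro ω
      obtain ⟨n, hn⟩ := hNt.exists_smul_eq γ ω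
      have hnB : (n : G) • B = B :=
        MulAction.mem_stabilizer_iff.mp (Subgroup.normalCore_le _ n.2)
      rw [← hnB, ← hn]
      exact Set.smul_mem_smul_set hγB
  have hsn : (Γᶜ).ncard = (Nat.card Ω - Γ.ncard - 1) + 1 := by
    rw [Set.ncard_compl]
    omega
  have hsn' : (Nat.card Ω - Γ.ncard - 1) + 2 < Nat.card Ω := by omega
  have hmp := hprim.isMultiplyPreprimitive hsn hsn' hJp
  have e : Nat.card Ω - Γ.ncard + 1 = (Nat.card Ω - Γ.ncard - 1) + 2 := by omega
  rw [e]
  exact hmp.isMultiplyPretransitive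

end Cfsg.Agent.S3619
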