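import Cfsg.Statements.S3620
import Mathlib
import Cfsg.Agent.Lib.Helper62.MargMain

set_option autoImplicit false
open Cfsg

namespace Cfsg.Agent.S3620

/-- Let G act faithfully on a finite set in such a way that every non-trivial normal subgroup of G is transitive (G is quasiprimitive). Let Γ be a subset with more than one point and fewer than half of the points, such that the pointwise stabilizer of the complement of Γ acts transitively on Γ. Then G induces every even permutation of the set (G is the alternating or the symmetric group). -/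
theorem result {G Ω : Type*} [Group G] [Finite G] [MulAction G Ω] [FaithfulSMul G Ω] [Fintype Ω] [DecidableEq Ω]
    (hqp : ∀ N : Subgroup G, N.Normal → N ≠ ⊥ → MulAction.IsPretransitive ↥N Ω)
    (Γ : Set Ω) (hΓ1 : 1 < Γ.ncard) (hΓ2 : 2 * Γ.ncard < Fintype.card Ω)
    (hJ : MulAction.IsPretransitive ↥(fixingSubgroup G Γᶜ) ↥(SubMulAction.ofFixingSubgroup G Γᶜ)) :
    ∀ σ : Equiv.Perm Ω, Equiv.Perm.sign σ = 1 → ∃ x : G, (MulAction.toPerm x : Equiv.Perm Ω) = σ := by
  have hmemC : ∀ y : Ω, y ∈ SubMulAction.ofFixingSubgroup G Γᶜ ↔ y ∈ Γ := by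
    intro y
    rw [SubMulAction.mem_ofFixingSubgroup_iff]
    simp
  have hflat : Cfsg.Agent.Lib.Helper62.Marg.Flat G Γᶜ := by
    intro a ha b hb
    have ha' : a ∈ Γ := by
      by_contra h
      exact ha h
    have hb' : b ∈ Γ := by
      by_contra h
      exact hb h
    obtain ⟨h, hh⟩ := hJ.exists_smul_eq
      (⟨a, (hmemC a).mpr ha'⟩ : SubMulAction.ofFixingSubgroup G Γᶜ) ⟨b, (hmemC b).mpr hb'⟩
    exact ⟨h.1, fun x hx => (mem_fixingSubgroup_iff G).mp h.2 x hx, congrArg Subtype.val hh⟩
  exact Cfsg.Agent.Lib.Helper62.Marg.marggraf_quasiprimitive hqp Γ hΓ1 hΓ2 hflat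

end Cfsg.Agent.S3620
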