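-- Statement S3627: J1 × J1 × J1 × J1 is not recognizable by spectrum (infinitely many isospectral groups).
-- Route: spec(J1) = {1,2,3,5,6,7,10,11,15,19}, so spec(J1^4) = spec(J1^3 × Dih(7^k)) for all k.
import Cfsg.Statements.S3627
import Cfsg.Agent.Lib.Helper7.J1Spec
import Cfsg.Agent.Lib.Helper94.J1SpecB
import Cfsg.Agent.Lib.Helper89.J1SpecC

set_option autoImplicit false
open Cfsg

namespace Cfsg.Agent.S3627

/-- Let J be the first Janko group. Then there are finite groups of arbitrarily large order with exactly the same set of element orders as J × J × J × J. -/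
theorem result (N : ℕ) : ∃ (H : Type) (_ : Group H) (_ : Fintype H), N < Fintype.card H ∧
      Set.range (orderOf : H → ℕ) = Set.range (orderOf : ↥Cfsg.Spor.J1 × ↥Cfsg.Spor.J1 × ↥Cfsg.Spor.J1 × ↥Cfsg.Spor.J1 → ℕ) := by
  have hfin : Finite ↥Cfsg.Spor.J1 := Cfsg.Agent.Lib.Helper7.J1C.finite_J1
  obtain ⟨X, hXg, hXf, hXc, hXr⟩ := Cfsg.Agent.Lib.Helper94.J1SpecB.exists_dih7 N
  let hJf : Fintype ↥Cfsg.Spor.J1 := Fintype.ofFinite _
  refine ⟨↥Cfsg.Spor.J1 × ↥Cfsg.Spor.J1 × ↥Cfsg.Spor.J1 × X, inferInstance, inferInstance, ?_,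
    Cfsg.Agent.Lib.Helper89.J1SpecC.range_orderOf_prod4 Cfsg.Agent.Lib.Helper7.J1C.spec_J1 hXr⟩
  have h1 : 0 < Fintype.card ↥Cfsg.Spor.J1 := Fintype.card_pos
  rw [Fintype.card_prod, Fintype.card_prod, Fintype.card_prod]
  calc N < Fintype.card X := hXc
    _ = 1 * (1 * (1 * Fintype.card X)) := by ring
    _ ≤ Fintype.card ↥Cfsg.Spor.J1 * (Fintype.card ↥Cfsg.Spor.J1 *
          (Fintype.card ↥Cfsg.Spor.J1 * Fintype.card X)) := by
        gcongr <;> omega

end Cfsg.Agent.S3627
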