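import Cfsg.Statements.S3633
import Cfsg.Agent.Lib.Helper65.PrimeGraph

set_option autoImplicit false
open Cfsg

namespace Cfsg.Agent.S3633

/-- Let G be a finite group and ρ a set of at least three prime divisors of the order of G that are pairwise non-adjacent in the prime graph (no element of order rs for distinct r, s ∈ ρ). Then at most one prime of ρ divides the order of any given solvable normal subgroup of G; in particular G is not solvable. -/
theorem result {G : Type*} [Group G] [Finite G] (ρ : Finset ℕ) (hρ : 3 ≤ ρ.card) (hc : ((∀ r ∈ ρ, r.Prime ∧ r ∣ Nat.card G) ∧ (∀ r ∈ ρ, ∀ s ∈ ρ, r ≠ s → ¬ ∃ x : G, orderOf x = r * s)))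
    (K : Subgroup G) [K.Normal] (hK : Group.IsSolvable ↥K) :
    (∀ r ∈ ρ, ∀ s ∈ ρ, r ∣ Nat.card ↥K → s ∣ Nat.card ↥K → r = s) ∧ ¬ Group.IsSolvable G := by
  have claim : ∀ (K' : Subgroup G) [K'.Normal] [Group.IsSolvable ↥K'],
      ∀ r ∈ ρ, ∀ s ∈ ρ, r ∣ Nat.card ↥K' → s ∣ Nat.card ↥K' → r = s := by
    intro K' _ _ r hr s hs hrK hsK
    by_contra hrs
    have hne : ((ρ.erase r).erase s).Nonempty := by
      rw [← Finset.card_pos]
      have h1 := Finset.card_erase_of_mem hr
      have h2 : s ∈ ρ.erase r := Finset.mem_erase.mpr ⟨Ne.symm hrs, hs⟩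
      have h3 := Finset.card_erase_of_mem h2
      omega
    obtain ⟨t, ht⟩ := hne
    rw [Finset.mem_erase, Finset.mem_erase] at ht
    obtain ⟨hts, htr, htρ⟩ := ht
    have h := Cfsg.Agent.Lib.Helper65.adj3_of_solvable_normal K' (hc.1 r hr).1 (hc.1 s hs).1
      (hc.1 t htρ).1 hrs (Ne.symm htr) (Ne.symm hts) hrK hsK (hc.1 t htρ).2
    rcases h with h | h | h
    · exact hc.2 r hr s hs hrs h
    · exact hc.2 r hr t htρ (Ne.symm htr) h
    · exact hc.2 s hs t htρ (Ne.symm hts) h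
  refine ⟨claim K, ?_⟩
  intro hG
  obtain ⟨r, hr, s, hs, hrs⟩ := Finset.one_lt_card.mp (by omega : 1 < ρ.card)
  have h1 : Nat.card ↥(⊤ : Subgroup G) = Nat.card G := Subgroup.card_top
  exact hrs (claim ⊤ r hr s hs (by rw [h1]; exact (hc.1 r hr).2) (by rw [h1]; exact (hc.1 s hs).2))

end Cfsg.Agent.S3633
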