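import Cfsg.Statements.S3639
import Cfsg.Agent.Lib.Helper65.SemiTwo
import Cfsg.Agent.Lib.Helper65.SzBasic

set_option autoImplicit false
open Cfsg

namespace Cfsg.Agent.S3639

open Cfsg.Lie Cfsg.Agent.Lib.Helper65 Matrix

/-- a finite field with `2 ^ n` elements has characteristic two -/
theorem charP_two_of_card {F : Type*} [Field F] [Fintype F] {n : ℕ}
    (hF : Fintype.card F = 2 ^ n) : CharP F 2 := by
  obtain ⟨p, hp⟩ := CharP.exists F
  obtain ⟨j, hpp, hj⟩ := FiniteField.card F p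
  have h1 : p ∣ 2 ^ n := by
    rw [← hF, hj]
    exact dvd_pow_self p j.ne_zero
  have h2 : p = 2 := (Nat.prime_dvd_prime_iff_eq hpp Nat.prime_two).mp (hpp.dvd_of_dvd_pow h1)
  subst h2
  exact hp

/-- Let S be the Suzuki group over the field with q = 2^(2m+1) ≥ 8 elements. Then there are finite groups of arbitrarily large order with the same prime graph as S. -/
theorem result {F : Type*} [Field F] [Fintype F] {m : ℕ} (hm : 1 ≤ m) (hF : Fintype.card F = 2 ^ (2 * m + 1)) (N : ℕ) :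
    ∃ (H : Type) (_ : Group H) (_ : Fintype H), N < Fintype.card H ∧ ((∀ r : ℕ, r.Prime → (r ∣ Nat.card ↥(Cfsg.Lie.Sz F (2 ^ (m + 1))) ↔ r ∣ Nat.card H)) ∧
      (∀ r s : ℕ, r.Prime → s.Prime → r ≠ s → ((∃ x : ↥(Cfsg.Lie.Sz F (2 ^ (m + 1))), orderOf x = r * s) ↔ (∃ y : H, orderOf y = r * s)))) := by
  classical
  haveI : CharP F 2 := charP_two_of_card hF
  have h2 : ∀ a : Fin N → Fin 4 → F, a + a = 0 := fun a => by
    funext i j
    exact CharTwo.add_self_eq_zero _
  have hfix : ∀ (g : ↥(Sz F (2 ^ (m + 1)))) (a : Fin N → Fin 4 → F),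
      a ≠ 0 → g • a = a → g ^ 2 ^ 2 = 1 := by
    intro g a ha hga
    obtain ⟨i, hi⟩ : ∃ i, a i ≠ 0 := by
      by_contra h
      push Not at h
      exact ha (funext h)
    have h3 : ((g : GL (Fin 4) F) : Matrix (Fin 4) (Fin 4) F) *ᵥ a i = a i := congrFun hga i
    have h4 := szProp_fix (m + 1) ((mem_Sz_iff (m + 1) _).mp g.2) (a i) hi h3
    apply Subtype.ext
    rw [Subgroup.coe_pow, Subgroup.coe_one]
    exact h4
  have hS2 : 2 ∣ Nat.card ↥(Sz F (2 ^ (m + 1))) := by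
    have hmem : szJ F ∈ Sz F (2 ^ (m + 1)) := (mem_Sz_iff (m + 1) _).mpr (szJ_prop (m + 1))
    have ho : orderOf (⟨szJ F, hmem⟩ : ↥(Sz F (2 ^ (m + 1)))) = 2 := by
      apply orderOf_eq_prime
      · apply Subtype.ext
        rw [Subgroup.coe_pow, Subgroup.coe_one]
        exact szJ_sq
      · intro h
        exact szJ_ne_one (congrArg Subtype.val h)
    have := orderOf_dvd_natCard (⟨szJ F, hmem⟩ : ↥(Sz F (2 ^ (m + 1))))
    rw [ho] at this
    exact this
  obtain ⟨H, iG, iF, hc, hp, hpq⟩ := semi_two_exists (S := ↥(Sz F (2 ^ (m + 1))))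
    (A := Fin N → Fin 4 → F) 2 h2 hfix hS2
  letI : Fintype H := Fintype.ofFinite H
  refine ⟨H, iG, inferInstance, ?_, hp, hpq⟩
  rw [← Nat.card_eq_fintype_card, hc, Nat.card_fun, Nat.card_fun]
  have h1 : 0 < Nat.card ↥(Sz F (2 ^ (m + 1))) := Nat.card_pos
  have h3 : 2 ≤ Nat.card F := by
    have := Finite.one_lt_card (α := F)
    omega
  have h4 : N < (Nat.card F ^ Nat.card (Fin 4)) ^ Nat.card (Fin N) := by
    rw [Nat.card_eq_fintype_card (α := Fin 4), Nat.card_eq_fintype_card (α := Fin N),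
      Fintype.card_fin, Fintype.card_fin]
    calc N < 2 ^ N := Nat.lt_two_pow_self
      _ ≤ (Nat.card F ^ 4) ^ N := by
        apply Nat.pow_le_pow_left
        calc 2 ≤ Nat.card F := h3
          _ = Nat.card F ^ 1 := (pow_one _).symm
          _ ≤ Nat.card F ^ 4 := Nat.pow_le_pow_right (by omega) (by norm_num)
  calc N < (Nat.card F ^ Nat.card (Fin 4)) ^ Nat.card (Fin N) := h4
    _ = (Nat.card F ^ Nat.card (Fin 4)) ^ Nat.card (Fin N) * 1 := by rw [mul_one]
    _ ≤ _ := Nat.mul_le_mul_left _ h1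

end Cfsg.Agent.S3639
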