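import Cfsg.Statements.S3660
import Cfsg.Agent.Lib.Helper65.AffSL2

set_option autoImplicit false
open Cfsg

namespace Cfsg.Agent.S3660

open Cfsg.Agent.Lib.Helper65

/-- The prime graph of a finite group has the prime divisors of its order as vertices, two distinct primes p, q being joined when the group has an element of order pq; two groups have the same prime graph when they have the same prime divisors and the same joined pairs. Let F be a finite field of characteristic 2 with at least 4 elements. Then there are finite groups of arbitrarily large order with the same prime graph as PSL(2,F); in particular PSL(2,F) is not determined by its prime graph. -/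
theorem result {F : Type*} [Field F] [Fintype F] [CharP F 2] (hF : 4 ≤ Fintype.card F) (N : ℕ) :
    ∃ (H : Type) (_ : Group H) (_ : Finite H), N < Nat.card H ∧
      ((∀ p : ℕ, p.Prime → (p ∣ Nat.card (Matrix.ProjectiveSpecialLinearGroup (Fin 2) F) ↔ p ∣ Nat.card H)) ∧
      (∀ p q : ℕ, p.Prime → q.Prime → p ≠ q → ((∃ g : (Matrix.ProjectiveSpecialLinearGroup (Fin 2) F), orderOf g = p * q) ↔ (∃ g : H, orderOf g = p * q)))) := by
  obtain ⟨H, iG, iF, h1, h2, h3⟩ := affSL2_exists (F := F) N
  refine ⟨H, iG, iF, h1, ?_, ?_⟩
  · intro p hp
    rw [← h2 p hp, Nat.card_congr (pslEquivSL F).toEquiv]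
  · intro p q hp hq hpq
    rw [← h3 p q hp hq hpq]
    constructor
    · rintro ⟨g, hg⟩
      exact ⟨pslEquivSL F g, by rw [MulEquiv.orderOf_eq]; exact hg⟩
    · rintro ⟨g, hg⟩
      exact ⟨(pslEquivSL F).symm g, by rw [MulEquiv.orderOf_eq]; exact hg⟩

end Cfsg.Agent.S3660
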