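import Cfsg.Statements.S3663
import Cfsg.Agent.Lib.Helper7.UzNorm
import Cfsg.Agent.Lib.Helper84.U34
import Cfsg.Agent.Lib.Helper37.U34B
import Cfsg.Agent.Lib.Helper60.PGFinal

set_option autoImplicit false
open Cfsg

namespace Cfsg.Agent.S3663

/-- The prime graph of a finite group has the prime divisors of its order as vertices, two distinct primes p, q being joined when the group has an element of order pq; two groups have the same prime graph when they have the same prime divisors and the same joined pairs. Let F be the field with 16 elements and L = PSU(3,4) realised over F. There are finite groups of arbitrarily large order with the same prime graph as L. -/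
theorem result {F : Type*} [Field F] [Fintype F] (hF : Fintype.card F = 16) (N : ℕ) :
    ∃ (H : Type) (_ : Group H) (_ : Finite H), N < Nat.card H ∧
      ((∀ p : ℕ, p.Prime → (p ∣ Nat.card (Cfsg.PSU 3 F 4) ↔ p ∣ Nat.card H)) ∧
      (∀ p q : ℕ, p.Prime → q.Prime → p ≠ q → ((∃ g : (Cfsg.PSU 3 F 4), orderOf g = p * q) ↔ (∃ g : H, orderOf g = p * q)))) := by
  classical
  obtain ⟨hL, hL10, hL15, hL13⟩ :=
    Cfsg.Agent.Lib.Helper37.U34B.psu34_of_concrete hF Cfsg.Agent.Lib.Helper84.U34.F16c
      Cfsg.Agent.Lib.Helper84.U34.F16c.card Cfsg.Agent.Lib.Helper84.U34.su34c_pow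
      Cfsg.Agent.Lib.Helper84.U34.su34c_wit10 Cfsg.Agent.Lib.Helper84.U34.su34c_wit15
      Cfsg.Agent.Lib.Helper84.U34.su34c_wit13
  obtain ⟨G, iG, iF, hB, hH, hH10, hH15, hH13⟩ := Cfsg.Agent.Lib.Helper7.UzP.exists_large N
  haveI hfinSL : Finite (Matrix.SpecialLinearGroup (Fin 3) F) :=
    Finite.of_injective (fun A : Matrix.SpecialLinearGroup (Fin 3) F => A.1) Subtype.val_injective
  haveI hfinL : Finite (Cfsg.PSU 3 F 4) := inferInstance
  haveI hfinG : Finite G := Finite.of_fintype G
  refine ⟨G, iG, hfinG, ?_, ?_⟩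
  · rw [Nat.card_eq_fintype_card]
    exact hB
  · exact Cfsg.Agent.Lib.Helper60.PGFinal.pg_final hL hL10 hL15 hL13 hH hH10 hH15 hH13

end Cfsg.Agent.S3663
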