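-- Statement S3669: a group of order 60 with the character degree graph of A₅ is A₅.
import Cfsg.Statements.S3669
import Cfsg.Agent.Lib.Helper83.Count
import Cfsg.Agent.Lib.Helper83.LinearCount
import Cfsg.Agent.Lib.Helper83.Codeg
import Cfsg.Agent.Lib.Helper20.Ito
import Cfsg.Agent.Lib.Helper6.Ord60
import Cfsg.Agent.S0493

set_option autoImplicit false
open Cfsg

namespace Cfsg.Agent.S3669

open Equiv Equiv.Perm
open scoped commutatorElement

/-! ### Conjugacy classes of `A₅` -/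

/-- Representatives of the five conjugacy classes of `A₅`. -/
def a5rep : Fin 5 → Equiv.Perm (Fin 5)
  | 0 => 1
  | 1 => c[0,1,2]
  | 2 => swap 0 1 * swap 2 3
  | 3 => c[0,1,2,3,4]
  | 4 => c[0,1,2,3,4] * c[0,1,2,3,4]

set_option maxRecDepth 100000 in
theorem a5rep_sign : ∀ i : Fin 5, Equiv.Perm.sign (a5rep i) = 1 := by decide +kernel

set_option maxRecDepth 100000 in
theorem a5rep_cover : ∀ g : Equiv.Perm (Fin 5), Equiv.Perm.sign g = 1 →
    ∃ i : Fin 5, ∃ h : Equiv.Perm (Fin 5), Equiv.Perm.sign h = 1 ∧ h * a5rep i * h⁻¹ = g := by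
  decide +kernel

set_option maxRecDepth 100000 in
theorem a5rep_inj : ∀ i j : Fin 5, ∀ h : Equiv.Perm (Fin 5), Equiv.Perm.sign h = 1 →
    h * a5rep i * h⁻¹ = a5rep j → i = j := by
  decide +kernel

/-- The representatives as elements of `A₅`. -/
def a5el (i : Fin 5) : alternatingGroup (Fin 5) :=
  ⟨a5rep i, Equiv.Perm.mem_alternatingGroup.2 (a5rep_sign i)⟩

theorem card_conjClasses_a5 : Nat.card (ConjClasses (alternatingGroup (Fin 5))) = 5 := by
  have hbij : Function.Bijective (fun i : Fin 5 => ConjClasses.mk (a5el i)) := by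
    constructor
    · intro i j hij
      rw [ConjClasses.mk_eq_mk_iff_isConj, isConj_iff] at hij
      obtain ⟨c, hc⟩ := hij
      have h1 := congrArg Subtype.val hc
      exact a5rep_inj i j c.1 (Equiv.Perm.mem_alternatingGroup.1 c.2) h1
    · intro x
      obtain ⟨g, rfl⟩ := ConjClasses.mk_surjective x
      obtain ⟨i, h, hh, hg⟩ := a5rep_cover g.1 (Equiv.Perm.mem_alternatingGroup.1 g.2)
      refine ⟨i, ?_⟩
      show ConjClasses.mk (a5el i) = ConjClasses.mk g
      rw [ConjClasses.mk_eq_mk_iff_isConj, isConj_iff]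
      exact ⟨⟨h, Equiv.Perm.mem_alternatingGroup.2 hh⟩, Subtype.ext hg⟩
  rw [← Nat.card_congr (Equiv.ofBijective _ hbij), Nat.card_fin]

theorem commutator_a5 : commutator (alternatingGroup (Fin 5)) = ⊤ := by
  have hs : IsSimpleGroup (alternatingGroup (Fin 5)) := alternatingGroup.isSimpleGroup (by simp)
  rcases (inferInstance : (commutator (alternatingGroup (Fin 5))).Normal).eq_bot_or_eq_top with h | h
  · exfalso
    have h1 : ⁅a5el 1, a5el 2⁆ ∈ commutator (alternatingGroup (Fin 5)) :=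
      Subgroup.commutator_mem_commutator (Subgroup.mem_top _) (Subgroup.mem_top _)
    rw [h, Subgroup.mem_bot, commutatorElement_eq_one_iff_mul_comm] at h1
    have h2 := congrArg Subtype.val h1
    revert h2
    show ¬ (a5rep 1 * a5rep 2 = a5rep 2 * a5rep 1)
    decide +kernel
  · exact h

/-! ### Character degrees of `A₅` -/

set_option synthInstance.maxSize 100000 in
set_option synthInstance.maxHeartbeats 2000000 in
set_option maxRecDepth 100000 in
theorem deg_arith : ∀ a0 a1 a2 a3 a4 : Fin 8,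
    (a0 : ℕ) ∣ 60 → (a1 : ℕ) ∣ 60 → (a2 : ℕ) ∣ 60 → (a3 : ℕ) ∣ 60 → (a4 : ℕ) ∣ 60 →
    (a0 : ℕ) ^ 2 + (a1 : ℕ) ^ 2 + (a2 : ℕ) ^ 2 + (a3 : ℕ) ^ 2 + (a4 : ℕ) ^ 2 = 60 →
    (if (a0 : ℕ) = 1 then 1 else 0) + (if (a1 : ℕ) = 1 then 1 else 0) +
      (if (a2 : ℕ) = 1 then 1 else 0) +
      (if (a3 : ℕ) = 1 then 1 else 0) + (if (a4 : ℕ) = 1 then 1 else 0) = 1 →
    (5 ∣ (a0 : ℕ) ∨ 5 ∣ (a1 : ℕ) ∨ 5 ∣ (a2 : ℕ) ∨ 5 ∣ (a3 : ℕ) ∨ 5 ∣ (a4 : ℕ)) ∧
      (3 ∣ (a0 : ℕ) ∨ 3 ∣ (a1 : ℕ) ∨ 3 ∣ (a2 : ℕ) ∨ 3 ∣ (a3 : ℕ) ∨ 3 ∣ (a4 : ℕ)) ∧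
      (2 ∣ (a0 : ℕ) ∨ 2 ∣ (a1 : ℕ) ∨ 2 ∣ (a2 : ℕ) ∨ 2 ∣ (a3 : ℕ) ∨ 2 ∣ (a4 : ℕ)) := by
  decide +kernel

theorem exists_dvd_of_five {ι : Type*} [Fintype ι] (hcard : Fintype.card ι = 5) (d : ι → ℕ)
    (hdvd : ∀ i, d i ∣ 60) (hsum : ∑ i, d i ^ 2 = 60)
    (hone : Nat.card {i // d i = 1} = 1) :
    (∃ i, 5 ∣ d i) ∧ (∃ i, 3 ∣ d i) ∧ (∃ i, 2 ∣ d i) := by
  classical
  let e : Fin 5 ≃ ι := (Fintype.equivFinOfCardEq hcard).symm
  have hsum' : ∑ j : Fin 5, d (e j) ^ 2 = 60 := by
    rw [Equiv.sum_comp e (fun i => d i ^ 2)]; exact hsum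
  rw [Fin.sum_univ_five] at hsum'
  have hone' : (if d (e 0) = 1 then 1 else 0) + (if d (e 1) = 1 then 1 else 0) +
      (if d (e 2) = 1 then 1 else 0) + (if d (e 3) = 1 then 1 else 0) +
      (if d (e 4) = 1 then 1 else 0) = 1 := by
    have h1 : Fintype.card {j : Fin 5 // d (e j) = 1} = 1 :=
      (Fintype.card_congr (e.subtypeEquiv (fun j => Iff.rfl))).trans
        ((Nat.card_eq_fintype_card).symm.trans hone)
    rw [Fintype.card_subtype, Finset.card_filter, Fin.sum_univ_five] at h1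
    exact h1
  have hb : ∀ j, d (e j) < 8 := by
    intro j
    have h1 : d (e j) ^ 2 ≤ 60 := by
      rw [← hsum]
      exact Finset.single_le_sum (f := fun i => d i ^ 2) (fun _ _ => Nat.zero_le _)
        (Finset.mem_univ (e j))
    by_contra hlt
    push Not at hlt
    have : 64 ≤ d (e j) ^ 2 := by nlinarith
    omega
  obtain ⟨h5, h3, h2⟩ := deg_arith ⟨_, hb 0⟩ ⟨_, hb 1⟩ ⟨_, hb 2⟩ ⟨_, hb 3⟩ ⟨_, hb 4⟩
    (hdvd _) (hdvd _) (hdvd _) (hdvd _) (hdvd _) hsum' hone'
  refine ⟨?_, ?_, ?_⟩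
  · rcases h5 with h | h | h | h | h <;> exact ⟨_, h⟩
  · rcases h3 with h | h | h | h | h <;> exact ⟨_, h⟩
  · rcases h2 with h | h | h | h | h <;> exact ⟨_, h⟩

theorem degreePrimes_a5 : 2 ∈ degreePrimes (alternatingGroup (Fin 5)) ∧
    3 ∈ degreePrimes (alternatingGroup (Fin 5)) ∧ 5 ∈ degreePrimes (alternatingGroup (Fin 5)) := by
  classical
  have hfin : Finite (IrrCharacter (alternatingGroup (Fin 5))) := Cfsg.Agent.Lib.Helper83.irr_finite
  let _ : Fintype (IrrCharacter (alternatingGroup (Fin 5))) := Fintype.ofFinite _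
  have hc60 : Nat.card (alternatingGroup (Fin 5)) = 60 := by
    rw [nat_card_alternatingGroup]; simp [Nat.factorial]
  have hcard : Fintype.card (IrrCharacter (alternatingGroup (Fin 5))) = 5 := by
    rw [← Nat.card_eq_fintype_card, Cfsg.Agent.Lib.Helper83.card_irr_eq_card_conjClasses,
      card_conjClasses_a5]
  have hdvd : ∀ χ : IrrCharacter (alternatingGroup (Fin 5)),
      charDegree (χ : alternatingGroup (Fin 5) → ℂ) ∣ 60 := by
    intro χ
    have := Cfsg.Agent.Lib.Helper83.irr_degree_dvd_card χ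
    rwa [hc60] at this
  have hsum : ∑ χ : IrrCharacter (alternatingGroup (Fin 5)),
      charDegree (χ : alternatingGroup (Fin 5) → ℂ) ^ 2 = 60 := by
    rw [Cfsg.Agent.Lib.Helper83.sum_charDegree_sq, hc60]
  have hone : Nat.card {χ : IrrCharacter (alternatingGroup (Fin 5)) //
      charDegree (χ : alternatingGroup (Fin 5) → ℂ) = 1} = 1 := by
    rw [Cfsg.Agent.Lib.Helper83.card_linear', commutator_a5, Subgroup.index_top]
  obtain ⟨⟨χ5, h5⟩, ⟨χ3, h3⟩, ⟨χ2, h2⟩⟩ := exists_dvd_of_five hcard _ hdvd hsum hone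
  exact ⟨⟨Nat.prime_two, _, ⟨χ2, rfl⟩, h2⟩, ⟨Nat.prime_three, _, ⟨χ3, rfl⟩, h3⟩,
    ⟨Nat.prime_five, _, ⟨χ5, rfl⟩, h5⟩⟩

/-! ### Groups of order less than 60 are solvable -/

universe u

theorem exists_normal_of_not_simple {H : Type u} [Group H] [Nontrivial H]
    (hs : ¬ IsSimpleGroup H) : ∃ M : Subgroup H, M.Normal ∧ M ≠ ⊥ ∧ M ≠ ⊤ := by
  by_contra hcon
  push Not at hcon
  refine hs { eq_bot_or_eq_top_of_normal := fun M hM => ?_ }
  by_cases hb : M = ⊥
  · exact Or.inl hb
  · exact Or.inr (hcon M hM hb)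

theorem solvable_of_quot {H : Type u} [Group H] (M : Subgroup H) [M.Normal]
    (h1 : Group.IsSolvable M) (h2 : Group.IsSolvable (H ⧸ M)) : Group.IsSolvable H :=
  Group.isSolvable_of_ker_le_range M.subtype (QuotientGroup.mk' M)
    (by rw [QuotientGroup.ker_mk', Subgroup.range_subtype])

theorem card_lt_of_normal {H : Type u} [Group H] [Finite H] (M : Subgroup H)
    (hb : M ≠ ⊥) (ht : M ≠ ⊤) :
    Nat.card M < Nat.card H ∧ Nat.card (H ⧸ M) < Nat.card H := by
  have hmul := Subgroup.card_mul_index M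
  have h1 : Nat.card M ≠ 1 := fun h => hb ((Subgroup.eq_bot_iff_card M).2 h)
  have h2 : M.index ≠ 1 := fun h => ht (Subgroup.index_eq_one.1 h)
  have h3 : 0 < Nat.card M := Nat.card_pos
  have h4 : 0 < M.index := Nat.pos_of_ne_zero (Subgroup.index_ne_zero_of_finite)
  have h5 : 2 ≤ Nat.card M := by omega
  have h6 : 2 ≤ M.index := by omega
  rw [← Subgroup.index_eq_card, ← hmul]
  constructor <;> nlinarith

theorem solvable_of_card_lt : ∀ (n : ℕ) (H : Type u) [Group H] [Finite H],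
    Nat.card H = n → n < 60 → Group.IsSolvable H := by
  intro n
  induction n using Nat.strong_induction_on with
  | _ n ih =>
    intro H _ _ hn hlt
    by_cases hs : IsSimpleGroup H
    · by_cases hc : IsCyclic H
      · letI := IsCyclic.commGroup (α := H)
        exact Group.isSolvable_of_comm (fun a b => mul_comm a b)
      · have := Cfsg.Agent.S0493.result hc (by omega)
        omega
    · rcases subsingleton_or_nontrivial H with hsub | hnt
      · exact Group.isSolvable_of_comm (fun a b => Subsingleton.elim _ _)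
      · obtain ⟨M, hM, hb, ht⟩ := exists_normal_of_not_simple hs
        haveI := hM
        obtain ⟨h1, h2⟩ := card_lt_of_normal M hb ht
        exact solvable_of_quot M (ih _ (hn ▸ h1) M rfl (by omega))
          (ih _ (hn ▸ h2) (H ⧸ M) rfl (by omega))

/-! ### A solvable group of order 60 has a normal abelian subgroup of order `> 2` -/

theorem exists_normal_abelian {H : Type u} [Group H] [Group.IsSolvable H] [Nontrivial H] :
    ∃ A : Subgroup H, A.Normal ∧ A ≠ ⊥ ∧ ∀ a ∈ A, ∀ b ∈ A, a * b = b * a := by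
  classical
  have hex : ∃ n, derivedSeries H n = ⊥ := Group.IsSolvable.solvable
  have hspec := Nat.find_spec hex
  cases hk : Nat.find hex with
  | zero =>
    rw [hk, derivedSeries_zero] at hspec
    exact absurd hspec top_ne_bot
  | succ k =>
    refine ⟨derivedSeries H k, inferInstance, ?_, ?_⟩
    · exact Nat.find_min hex (by omega)
    · rw [hk, derivedSeries_succ] at hspec
      have hle := Subgroup.commutator_eq_bot_iff_le_centralizer.1 hspec
      intro a ha b hb
      exact (Subgroup.mem_centralizer_iff.1 (hle hb) a ha)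

theorem card_le_two_of_normal_abelian {G : Type u} [Group G] [Finite G]
    (hcard : Nat.card G = 60)
    (h2 : 2 ∈ degreePrimes G) (h3 : 3 ∈ degreePrimes G) (h5 : 5 ∈ degreePrimes G)
    (A : Subgroup G) (hAn : A.Normal) (hA : ∀ a ∈ A, ∀ b ∈ A, a * b = b * a) :
    Nat.card A ≤ 2 := by
  classical
  let _ : Fintype G := Fintype.ofFinite G
  have key : ∀ p ∈ degreePrimes G, p ∣ A.index := by
    rintro p ⟨-, d, ⟨χ, rfl⟩, hpd⟩
    exact hpd.trans (Cfsg.Agent.Lib.Helper20.ito A hA χ.2)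
  have h6 : 2 * 3 ∣ A.index :=
    Nat.Coprime.mul_dvd_of_dvd_of_dvd (by norm_num) (key 2 h2) (key 3 h3)
  have h30 : 2 * 3 * 5 ∣ A.index :=
    Nat.Coprime.mul_dvd_of_dvd_of_dvd (by norm_num) h6 (key 5 h5)
  have hmul := Subgroup.card_mul_index A
  rw [hcard] at hmul
  obtain ⟨k, hk⟩ := h30
  rw [hk] at hmul
  have hk0 : 0 < k := by
    rcases Nat.eq_zero_or_pos k with h | h
    · subst h; simp at hmul
    · exact h
  nlinarith

theorem not_solvable {G : Type u} [Group G] [Finite G] (hcard : Nat.card G = 60)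
    (hI : ∀ A : Subgroup G, A.Normal → (∀ a ∈ A, ∀ b ∈ A, a * b = b * a) → Nat.card A ≤ 2)
    [Group.IsSolvable G] : False := by
  classical
  have hnt : Nontrivial G := (Finite.one_lt_card_iff_nontrivial).1 (by omega)
  obtain ⟨A, hAn, hAb, hAc⟩ := exists_normal_abelian (H := G)
  have hA2 : Nat.card A = 2 := by
    have h1 := hI A hAn hAc
    have h2 : Nat.card A ≠ 1 := fun h => hAb ((Subgroup.eq_bot_iff_card A).2 h)
    have h3 : 0 < Nat.card A := Nat.card_pos
    omega
  -- `A` is central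
  have hAcen : ∀ a ∈ A, ∀ g : G, g * a = a * g := by
    intro a ha g
    by_contra hne
    have hc : g * a * g⁻¹ ∈ A := hAn.conj_mem a ha g
    have ha1 : a ≠ 1 := by
      rintro rfl
      simp at hne
    have h3 : 2 < Nat.card A := by
      let _ : Fintype A := Fintype.ofFinite A
      rw [Nat.card_eq_fintype_card]
      refine Fintype.two_lt_card_iff.2 ⟨⟨1, A.one_mem⟩, ⟨a, ha⟩, ⟨g * a * g⁻¹, hc⟩, ?_, ?_, ?_⟩
      · intro h
        exact ha1 (congrArg Subtype.val h).symm
      · intro h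
        have h' : (1 : G) = g * a * g⁻¹ := congrArg Subtype.val h
        apply ha1
        calc a = g⁻¹ * (g * a * g⁻¹) * g := by group
          _ = 1 := by rw [← h']; group
      · intro h
        have h' : a = g * a * g⁻¹ := congrArg Subtype.val h
        apply hne
        calc g * a = g * a * g⁻¹ * g := by group
          _ = a * g := by rw [← h']
    omega
  haveI : A.Normal := hAn
  have hQcard : Nat.card (G ⧸ A) = 30 := by
    have := Subgroup.card_mul_index A
    rw [hcard, hA2, Subgroup.index_eq_card] at this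
    omega
  haveI : Nontrivial (G ⧸ A) := (Finite.one_lt_card_iff_nontrivial).1 (by omega)
  obtain ⟨Bb, hBn, hBb, hBc⟩ := exists_normal_abelian (H := G ⧸ A)
  let B : Subgroup G := Bb.comap (QuotientGroup.mk' A)
  have hBnormal : B.Normal := hBn.comap _
  have hAB : A ≤ B := by
    intro x hx
    show QuotientGroup.mk' A x ∈ Bb
    have : QuotientGroup.mk' A x = 1 := (QuotientGroup.eq_one_iff x).2 hx
    rw [this]
    exact Bb.one_mem
  have hcomm : ∀ x ∈ B, ∀ y ∈ B, x * y * x⁻¹ * y⁻¹ ∈ A := by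
    intro x hx y hy
    rw [← QuotientGroup.eq_one_iff]
    have h' : (x : G ⧸ A) * (y : G ⧸ A) = (y : G ⧸ A) * (x : G ⧸ A) := hBc _ hx _ hy
    simp only [QuotientGroup.mk_mul, QuotientGroup.mk_inv]
    rw [h']
    group
  let Z : Subgroup G := B ⊓ Subgroup.centralizer (B : Set G)
  have hZn : Z.Normal := by
    refine ⟨fun z hz g => Subgroup.mem_inf.2 ⟨hBnormal.conj_mem z (Subgroup.mem_inf.1 hz).1 g, ?_⟩⟩
    rw [Subgroup.mem_centralizer_iff]
    intro y hy
    have h1 : g⁻¹ * y * g ∈ B := by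
      have := hBnormal.conj_mem y hy g⁻¹
      simpa using this
    have h2 := Subgroup.mem_centralizer_iff.1 (Subgroup.mem_inf.1 hz).2 _ h1
    calc y * (g * z * g⁻¹) = g * ((g⁻¹ * y * g) * z) * g⁻¹ := by group
      _ = g * (z * (g⁻¹ * y * g)) * g⁻¹ := by rw [h2]
      _ = g * z * g⁻¹ * y := by group
  have hZc : ∀ a ∈ Z, ∀ b ∈ Z, a * b = b * a := fun a ha b hb =>
    Subgroup.mem_centralizer_iff.1 (Subgroup.mem_inf.1 hb).2 a (Subgroup.mem_inf.1 ha).1
  have hZ2 := hI Z hZn hZc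
  have hsq : ∀ x ∈ B, x * x ∈ Z := by
    intro x hx
    refine Subgroup.mem_inf.2 ⟨B.mul_mem hx hx, ?_⟩
    rw [Subgroup.mem_centralizer_iff]
    intro y hy
    have hcA := hcomm x hx y hy
    obtain ⟨c, hc⟩ : ∃ c, c = x * y * x⁻¹ * y⁻¹ := ⟨_, rfl⟩
    rw [← hc] at hcA
    have hcc : c * c = 1 := by
      have h1 := pow_card_eq_one' (G := A) (x := ⟨c, hcA⟩)
      rw [hA2] at h1
      have h2 := congrArg Subtype.val h1
      simpa [pow_two] using h2
    have hxy : x * y = c * (y * x) := by rw [hc]; group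
    have hcg : ∀ g, g * c = c * g := hAcen c hcA
    symm
    calc x * x * y = x * (x * y) := by group
      _ = x * (c * (y * x)) := by rw [hxy]
      _ = (x * c) * (y * x) := by group
      _ = (c * x) * (y * x) := by rw [hcg x]
      _ = c * ((x * y) * x) := by group
      _ = c * ((c * (y * x)) * x) := by rw [hxy]
      _ = (c * c) * (y * (x * x)) := by group
      _ = y * (x * x) := by rw [hcc, one_mul]
  have hfour : ∀ x ∈ B, x ^ 4 = 1 := by
    intro x hx
    have hz := hsq x hx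
    have h1 : (x * x) ^ Nat.card Z = 1 := by
      have h0 := pow_card_eq_one' (G := Z) (x := ⟨x * x, hz⟩)
      have h2 := congrArg Subtype.val h0
      rwa [Subgroup.coe_pow, Subgroup.coe_one] at h2
    have h2 : Nat.card Z = 1 ∨ Nat.card Z = 2 := by
      have := Nat.card_pos (α := Z)
      omega
    have h4 : x ^ 4 = (x * x) ^ 2 := by rw [← pow_two x, ← pow_mul]
    rcases h2 with h | h
    · rw [h, pow_one] at h1
      rw [h4, h1, one_pow]
    · rw [h] at h1
      rw [h4]
      exact h1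
  have hBp : IsPGroup 2 B := by
    intro x
    refine ⟨2, ?_⟩
    apply Subtype.ext
    have := hfour x.1 x.2
    simpa using this
  obtain ⟨m, hm⟩ := IsPGroup.iff_card.1 hBp
  have hBdvd : Nat.card B ∣ 60 := hcard ▸ Subgroup.card_subgroup_dvd_card B
  have hAltB : Nat.card A < Nat.card B := by
    by_contra hle
    push Not at hle
    have hAeqB : A = B := Subgroup.eq_of_le_of_card_ge hAB hle
    apply hBb
    rw [eq_bot_iff]
    intro q hq
    obtain ⟨x, rfl⟩ := QuotientGroup.mk_surjective q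
    have hxB : x ∈ B := hq
    rw [← hAeqB] at hxB
    exact (QuotientGroup.eq_one_iff x).2 hxB
  have hm2 : m = 2 := by
    rw [hm] at hBdvd hAltB
    rw [hA2] at hAltB
    have hm1 : 2 ≤ m := by
      by_contra h
      push Not at h
      interval_cases m <;> simp at hAltB
    have hm3 : m < 3 := by
      by_contra h
      push Not at h
      have : 2 ^ 3 ∣ 60 := (pow_dvd_pow 2 h).trans hBdvd
      norm_num at this
    omega
  have hBcomm : ∀ a ∈ B, ∀ b ∈ B, a * b = b * a := by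
    haveI : Fact (Nat.Prime 2) := ⟨Nat.prime_two⟩
    have hB4 : Nat.card B = 2 ^ 2 := by rw [hm, hm2]
    have := (IsPGroup.isMulCommutative_of_card_eq_prime_sq (p := 2) (G := B) hB4).is_comm.comm
    intro a ha b hb
    exact congrArg Subtype.val (this ⟨a, ha⟩ ⟨b, hb⟩)
  have := hI B hBnormal hBcomm
  rw [hm, hm2] at this
  norm_num at this

/-- A finite group of order 60 with the same character degree graph as the alternating group A₅ is isomorphic to A₅. -/
theorem result {G : Type*} [Group G] [Finite G] (hcard : Nat.card G = 60)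
    (hΓ : Cfsg.degreePrimes G = Cfsg.degreePrimes (alternatingGroup (Fin 5)) ∧ Cfsg.degreeGraph G = Cfsg.degreeGraph (alternatingGroup (Fin 5))) : Nonempty (G ≃* alternatingGroup (Fin 5)) := by
  obtain ⟨h2, h3, h5⟩ := degreePrimes_a5
  rw [← hΓ.1] at h2 h3 h5
  have hI : ∀ A : Subgroup G, A.Normal → (∀ a ∈ A, ∀ b ∈ A, a * b = b * a) → Nat.card A ≤ 2 :=
    fun A hA hAc => card_le_two_of_normal_abelian hcard h2 h3 h5 A hA hAc
  have hnt : Nontrivial G := (Finite.one_lt_card_iff_nontrivial).1 (by omega)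
  have hs : IsSimpleGroup G := by
    by_contra hns
    obtain ⟨M, hM, hb, ht⟩ := exists_normal_of_not_simple hns
    haveI := hM
    obtain ⟨h1, h2⟩ := card_lt_of_normal M hb ht
    haveI : Group.IsSolvable G := solvable_of_quot M (solvable_of_card_lt _ M rfl (by omega))
      (solvable_of_card_lt _ (G ⧸ M) rfl (by omega))
    exact not_solvable hcard hI
  exact Cfsg.Agent.Lib.Helper6.simple_card_sixty hcard

end Cfsg.Agent.S3669
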