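import Cfsg.Statements.S3678
import Cfsg.Agent.Lib.Helper65.AffSL2

set_option autoImplicit false
open Cfsg

namespace Cfsg.Agent.S3678

open Cfsg.Agent.Lib.Helper65 Polynomial

universe u

section generic

theorem pgraph_of_three {G : Type*} [Group G] [Finite G] {p₁ p₂ p₃ a b c : ℕ}
    (hp₁ : p₁.Prime) (hp₂ : p₂.Prime) (hp₃ : p₃.Prime)
    (h : ∀ x : G, x ^ (p₁ ^ a) = 1 ∨ x ^ (p₂ ^ b) = 1 ∨ x ^ (p₃ ^ c) = 1)
    (h1 : p₁ ∣ Nat.card G) (h2 : p₂ ∣ Nat.card G) (h3 : p₃ ∣ Nat.card G) :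
    (∀ p : ℕ, p.Prime → (p ∣ Nat.card G ↔ p = p₁ ∨ p = p₂ ∨ p = p₃)) ∧
      (∀ p q : ℕ, p.Prime → q.Prime → p ≠ q → ¬ ∃ g : G, orderOf g = p * q) := by
  have key : ∀ (x : G) (p : ℕ), p.Prime → p ∣ orderOf x →
      (x ^ (p₁ ^ a) = 1 ∧ p = p₁) ∨ (x ^ (p₂ ^ b) = 1 ∧ p = p₂) ∨ (x ^ (p₃ ^ c) = 1 ∧ p = p₃) := by
    intro x p hp hpx
    rcases h x with hx | hx | hx
    · left
      refine ⟨hx, ?_⟩
      have := hpx.trans (orderOf_dvd_of_pow_eq_one hx)
      exact (Nat.prime_dvd_prime_iff_eq hp hp₁).mp (hp.dvd_of_dvd_pow this)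
    · right; left
      refine ⟨hx, ?_⟩
      have := hpx.trans (orderOf_dvd_of_pow_eq_one hx)
      exact (Nat.prime_dvd_prime_iff_eq hp hp₂).mp (hp.dvd_of_dvd_pow this)
    · right; right
      refine ⟨hx, ?_⟩
      have := hpx.trans (orderOf_dvd_of_pow_eq_one hx)
      exact (Nat.prime_dvd_prime_iff_eq hp hp₃).mp (hp.dvd_of_dvd_pow this)
  constructor
  · intro p hp
    constructor
    · intro hpd
      haveI : Fact p.Prime := ⟨hp⟩
      obtain ⟨x, hx⟩ := exists_prime_orderOf_dvd_card' (G := G) p hpd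
      rcases key x p hp (by rw [hx]) with h | h | h
      · exact Or.inl h.2
      · exact Or.inr (Or.inl h.2)
      · exact Or.inr (Or.inr h.2)
    · rintro (rfl | rfl | rfl)
      · exact h1
      · exact h2
      · exact h3
  · rintro p q hp hq hpq ⟨g, hg⟩
    have hpg : p ∣ orderOf g := by rw [hg]; exact Dvd.intro _ rfl
    have hqg : q ∣ orderOf g := by rw [hg]; exact Dvd.intro_left _ rfl
    have aux : ∀ (r k : ℕ), r.Prime → g ^ (r ^ k) = 1 → p = r ∧ q = r := by
      intro r k hr hgr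
      have h1 := orderOf_dvd_of_pow_eq_one hgr
      exact ⟨(Nat.prime_dvd_prime_iff_eq hp hr).mp (hp.dvd_of_dvd_pow (hpg.trans h1)),
        (Nat.prime_dvd_prime_iff_eq hq hr).mp (hq.dvd_of_dvd_pow (hqg.trans h1))⟩
    rcases h g with hx | hx | hx
    · obtain ⟨e1, e2⟩ := aux _ _ hp₁ hx
      exact hpq (e1.trans e2.symm)
    · obtain ⟨e1, e2⟩ := aux _ _ hp₂ hx
      exact hpq (e1.trans e2.symm)
    · obtain ⟨e1, e2⟩ := aux _ _ hp₃ hx
      exact hpq (e1.trans e2.symm)

theorem prime_dvd_card_of_pow {G : Type*} [Group G] [Finite G] (g : G) (p k : ℕ) (hp : p.Prime)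
    (h : g ^ (p ^ k) = 1) (hg : g ≠ 1) : p ∣ Nat.card G := by
  have h1 := orderOf_dvd_of_pow_eq_one h
  obtain ⟨j, -, hj⟩ := (Nat.dvd_prime_pow hp).mp h1
  have hj0 : j ≠ 0 := by
    rintro rfl
    rw [pow_zero, orderOf_eq_one_iff] at hj
    exact hg hj
  have h2 : p ∣ orderOf g := by
    rw [hj]
    exact dvd_pow_self p hj0
  exact h2.trans (orderOf_dvd_natCard g)

end generic

section sl2

variable {F : Type u} [Field F]

theorem sl2_aeval_charpoly (g : Matrix.SpecialLinearGroup (Fin 2) F) :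
    aeval g.1 (X ^ 2 - C g.1.trace * X + 1 : F[X]) = 0 := by
  have := Matrix.aeval_self_charpoly g.1
  rw [Matrix.charpoly_fin_two, g.2] at this
  simpa using this

theorem sl2_aeval_of_eq (g : Matrix.SpecialLinearGroup (Fin 2) F) (P Q : F[X])
    (h : P = (X ^ 2 - C g.1.trace * X + 1) * Q) : aeval g.1 P = 0 := by
  rw [h, map_mul, sl2_aeval_charpoly, zero_mul]

end sl2

section f8

variable {F : Type u} [Field F] [Finite F] [CharP F 2]

theorem f8_cases (hF : Nat.card F = 8) (g : Matrix.SpecialLinearGroup (Fin 2) F) :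
    g ^ 7 = 1 ∨ g ^ 2 = 1 ∨ g ^ 9 = 1 := by
  classical
  have h2 : (2 : F) = 0 := CharTwo.two_eq_zero
  have h2X : (2 : F[X]) = 0 := by
    have := congrArg (C : F → F[X]) h2
    rwa [C_0, map_ofNat] at this
  set t := g.1.trace with ht
  have ht8 : t ^ 8 = t := by
    haveI := Fintype.ofFinite F
    have := FiniteField.pow_card t
    rwa [Fintype.card_eq_nat_card, hF] at this
  have hprod : t * (t - 1) * (t ^ 3 + t + 1) * (t ^ 3 + t ^ 2 + 1) = 0 := by
    linear_combination ht8 + (t ^ 4 * (t - 1)) * h2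
  have toSL : ∀ (k : ℕ), g.1 ^ k = 1 → g ^ k = 1 := by
    intro k hk
    apply Subtype.ext
    rw [Matrix.SpecialLinearGroup.coe_pow, hk, Matrix.SpecialLinearGroup.coe_one]
  rcases mul_eq_zero.mp hprod with h | h
  rcases mul_eq_zero.mp h with h | h
  rcases mul_eq_zero.mp h with h | h
  · -- t = 0
    right; left
    apply toSL
    have hT : C t = 0 := by rw [h, C_0]
    have := sl2_aeval_of_eq g (X ^ 2 - 1) 1 (by rw [← ht]; linear_combination X * hT - h2X)
    simpa [sub_eq_zero] using this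
  · -- t = 1
    right; right
    have hT : C t = 1 := by rw [sub_eq_zero.mp h, C_1]
    have := sl2_aeval_of_eq g (X ^ 3 - 1) (X + 1)
      (by rw [← ht]; linear_combination (X ^ 2 + X) * hT - h2X)
    have h3 : g.1 ^ 3 = 1 := by simpa [sub_eq_zero] using this
    apply toSL
    rw [show 9 = 3 * 3 from rfl, pow_mul, h3, one_pow]
  · -- t^3 + t + 1 = 0
    right; right
    apply toSL
    have hT : C t ^ 3 + C t + 1 = 0 := by
      have := congrArg (C : F → F[X]) h
      simpa using this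
    have := sl2_aeval_of_eq g (X ^ 9 - 1)
      ((X ^ 3 - 1) * (X ^ 4 + C t * X ^ 3 + (C t ^ 2 - 1) * X ^ 2 + C t * X + 1))
      (by rw [← ht]; linear_combination (X ^ 3 - 1) * X ^ 3 * hT
            - (X ^ 3 - 1) * (2 * C t * X ^ 3) * h2X)
    simpa [sub_eq_zero] using this
  · left
    apply toSL
    have hT : C t ^ 3 + C t ^ 2 + 1 = 0 := by
      have := congrArg (C : F → F[X]) h
      simpa using this
    have := sl2_aeval_of_eq g (X ^ 7 - 1)
      ((X - 1) * (X ^ 4 + (C t + 1) * X ^ 3 + (C t ^ 2 + C t) * X ^ 2 + (C t + 1) * X + 1))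
      (by rw [← ht]; linear_combination (X - 1) * X ^ 3 * hT
            - (X - 1) * (C t + 1) * X ^ 3 * h2X)
    simpa [sub_eq_zero] using this

omit [Finite F] in
theorem f8_det3 : (!![0, 1; 1, 1] : Matrix (Fin 2) (Fin 2) F).det = 1 := by
  have h2 : (2 : F) = 0 := CharTwo.two_eq_zero
  rw [Matrix.det_fin_two]
  simp only [Matrix.of_apply, Matrix.cons_val', Matrix.cons_val_zero, Matrix.cons_val_one,
    Matrix.cons_val_fin_one]
  linear_combination -h2

def f8W (F : Type u) [Field F] [Finite F] [CharP F 2] : Matrix.SpecialLinearGroup (Fin 2) F :=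
  ⟨!![0, 1; 1, 1], f8_det3⟩

theorem f8_three_dvd : 3 ∣ Nat.card (Matrix.SpecialLinearGroup (Fin 2) F) := by
  have h2 : (2 : F) = 0 := CharTwo.two_eq_zero
  have hw : orderOf (f8W F) = 3 := by
    apply orderOf_eq_prime
    · apply Subtype.ext
      rw [Matrix.SpecialLinearGroup.coe_pow, Matrix.SpecialLinearGroup.coe_one]
      change (!![0, 1; 1, 1] : Matrix (Fin 2) (Fin 2) F) ^ 3 = 1
      rw [pow_succ, pow_two]
      simp [Matrix.mul_fin_two, Matrix.one_fin_two, one_add_one_eq_two, h2]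
    · intro h
      have := congrArg (fun m : Matrix.SpecialLinearGroup (Fin 2) F => m.1 0 1) h
      simp [f8W] at this
  have := orderOf_dvd_natCard (f8W F)
  rw [hw] at this
  exact this

theorem f8_seven_dvd (hF : Nat.card F = 8) :
    7 ∣ Nat.card (Matrix.SpecialLinearGroup (Fin 2) F) := by
  classical
  haveI := Fintype.ofFinite F
  have hF' : Fintype.card F = 8 := by rw [Fintype.card_eq_nat_card, hF]
  obtain ⟨l, hl0, hl1⟩ : ∃ l : F, l ≠ 0 ∧ l ≠ 1 := by
    by_contra h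
    push Not at h
    have h1 : (Finset.univ : Finset F) ⊆ {0, 1} := by
      intro x _
      by_cases hx : x = 0
      · simp [hx]
      · simp [h x hx]
    have h2 := Finset.card_le_card h1
    have h3 : ({0, 1} : Finset F).card ≤ 2 := Finset.card_le_two
    rw [Finset.card_univ, hF'] at h2
    omega
  have hl7 : l ^ 7 = 1 := by
    have := FiniteField.pow_card_sub_one_eq_one l hl0
    rwa [hF'] at this
  have hdet : (Matrix.diagonal ![l, l⁻¹] : Matrix (Fin 2) (Fin 2) F).det = 1 := by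
    rw [Matrix.det_diagonal, Fin.prod_univ_two]
    simp [hl0]
  let d : Matrix.SpecialLinearGroup (Fin 2) F := ⟨Matrix.diagonal ![l, l⁻¹], hdet⟩
  have hd : orderOf d = 7 := by
    haveI : Fact (Nat.Prime 7) := ⟨by norm_num⟩
    apply orderOf_eq_prime
    · apply Subtype.ext
      rw [Matrix.SpecialLinearGroup.coe_pow, Matrix.SpecialLinearGroup.coe_one]
      change (Matrix.diagonal ![l, l⁻¹] : Matrix (Fin 2) (Fin 2) F) ^ 7 = 1
      rw [Matrix.diagonal_pow, ← Matrix.diagonal_one]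
      congr 1
      funext i
      fin_cases i
      · simp [hl7]
      · simp [hl7]
    · intro h
      have := congrArg (fun m : Matrix.SpecialLinearGroup (Fin 2) F => m.1 0 0) h
      simp [d] at this
      exact hl1 this
  have := orderOf_dvd_natCard d
  rw [hd] at this
  exact this

end f8

section f7

variable {F : Type u} [Field F] [Fintype F]

theorem f7_trace (hF : Fintype.card F = 7) (g : Matrix.SpecialLinearGroup (Fin 2) F) :
    (g.1.trace = 0 → g.1 ^ 4 = 1) ∧ (g.1.trace = 1 → g.1 ^ 3 = -1) ∧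
    (g.1.trace = -1 → g.1 ^ 3 = 1) ∧ (g.1.trace = 2 → g.1 ^ 7 = 1) ∧
    (g.1.trace = -2 → g.1 ^ 7 = -1) ∧ (g.1.trace = 3 → g.1 ^ 4 = -1) ∧
    (g.1.trace = -3 → g.1 ^ 4 = -1) := by
  classical
  have h7 : (7 : F) = 0 := by
    have h1 : (ZMod.ringEquivOfPrime F (by norm_num : Nat.Prime 7) hF) (7 : ZMod 7) = 7 :=
      map_ofNat _ 7
    have h2 : (7 : ZMod 7) = 0 := by decide
    rw [← h1, h2, map_zero]
  have h7X : (7 : F[X]) = 0 := by
    have := congrArg (C : F → F[X]) h7
    rwa [C_0, map_ofNat] at this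
  set t := g.1.trace with ht
  refine ⟨?_, ?_, ?_, ?_, ?_, ?_, ?_⟩
  · intro h
    have hT : C t = 0 := by rw [h, C_0]
    have := sl2_aeval_of_eq g (X ^ 4 - 1) (X ^ 2 - 1)
      (by rw [← ht]; linear_combination (X ^ 3 - X) * hT)
    simpa [sub_eq_zero] using this
  · intro h
    have hT : C t = 1 := by rw [h, C_1]
    have := sl2_aeval_of_eq g (X ^ 3 + 1) (X + 1)
      (by rw [← ht]; linear_combination (X ^ 2 + X) * hT)
    have h3 : g.1 ^ 3 + 1 = 0 := by simpa using this
    exact eq_neg_of_add_eq_zero_left h3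
  · intro h
    have hT : C t = -1 := by rw [h]; simp
    have := sl2_aeval_of_eq g (X ^ 3 - 1) (X - 1)
      (by rw [← ht]; linear_combination (X ^ 2 - X) * hT)
    simpa [sub_eq_zero] using this
  · intro h
    have hT : C t = 2 := by rw [h]; exact map_ofNat C 2
    have hid : (X ^ 7 - 1 : F[X]) = (X ^ 2 - C t * X + 1) * (X - 1) ^ 5 := by
      linear_combination (X ^ 6 - 3 * X ^ 5 + 5 * X ^ 4 - 5 * X ^ 3 + 3 * X ^ 2 - X) * h7X
          + X * (X - 1) ^ 5 * hT
    have := sl2_aeval_of_eq g (X ^ 7 - 1) ((X - 1) ^ 5) hid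
    simpa [sub_eq_zero] using this
  · intro h
    have hT : C t = -2 := by rw [h, map_neg, map_ofNat]
    have hid : (X ^ 7 + 1 : F[X]) = (X ^ 2 - C t * X + 1) * (X + 1) ^ 5 := by
      linear_combination (-(X ^ 6 + 3 * X ^ 5 + 5 * X ^ 4 + 5 * X ^ 3 + 3 * X ^ 2 + X)) * h7X
          + X * (X + 1) ^ 5 * hT
    have := sl2_aeval_of_eq g (X ^ 7 + 1) ((X + 1) ^ 5) hid
    have h3 : g.1 ^ 7 + 1 = 0 := by simpa using this
    exact eq_neg_of_add_eq_zero_left h3
  · intro h
    have hT : C t = 3 := by rw [h]; exact map_ofNat C 3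
    have := sl2_aeval_of_eq g (X ^ 4 + 1) (X ^ 2 + 3 * X + 1)
      (by rw [← ht]; linear_combination X ^ 2 * h7X + X * (X ^ 2 + 3 * X + 1) * hT)
    have h3 : g.1 ^ 4 + 1 = 0 := by simpa using this
    exact eq_neg_of_add_eq_zero_left h3
  · intro h
    have hT : C t = -3 := by rw [h, map_neg, map_ofNat]
    have := sl2_aeval_of_eq g (X ^ 4 + 1) (X ^ 2 - 3 * X + 1)
      (by rw [← ht]; linear_combination X ^ 2 * h7X + X * (X ^ 2 - 3 * X + 1) * hT)
    have h3 : g.1 ^ 4 + 1 = 0 := by simpa using this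
    exact eq_neg_of_add_eq_zero_left h3

theorem f7_elems (hF : Fintype.card F = 7) (t : F) :
    t = 0 ∨ t = 1 ∨ t = -1 ∨ t = 2 ∨ t = -2 ∨ t = 3 ∨ t = -3 := by
  obtain ⟨s, hs⟩ := (ZMod.ringEquivOfPrime F (by norm_num : Nat.Prime 7) hF).surjective t
  have : ∀ s : ZMod 7, s = 0 ∨ s = 1 ∨ s = -1 ∨ s = 2 ∨ s = -2 ∨ s = 3 ∨ s = -3 := by decide
  rcases this s with h | h | h | h | h | h | h <;> rw [← hs, h]
  · left; exact map_zero _
  · right; left; exact map_one _
  · right; right; left; rw [map_neg, map_one]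
  · right; right; right; left; exact map_ofNat _ 2
  · right; right; right; right; left; rw [map_neg, map_ofNat]
  · right; right; right; right; right; left; exact map_ofNat _ 3
  · right; right; right; right; right; right; rw [map_neg, map_ofNat]

omit [Fintype F] in
theorem psl_mk_pow_eq_one [DecidableEq F] (g : Matrix.SpecialLinearGroup (Fin 2) F) (k : ℕ)
    (hk : g.1 ^ k = 1 ∨ g.1 ^ k = -1) :
    (QuotientGroup.mk g : Matrix.ProjectiveSpecialLinearGroup (Fin 2) F) ^ k = 1 := by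
  rw [← QuotientGroup.mk_pow, QuotientGroup.eq_one_iff, Matrix.SpecialLinearGroup.mem_center_iff]
  rcases hk with hk | hk
  · exact ⟨1, one_pow _, by rw [map_one, Matrix.SpecialLinearGroup.coe_pow, hk]⟩
  · exact ⟨-1, by simp, by rw [map_neg, map_one, Matrix.SpecialLinearGroup.coe_pow, hk]⟩

omit [Fintype F] in
theorem psl_mk_ne_one [DecidableEq F] (g : Matrix.SpecialLinearGroup (Fin 2) F)
    (h : g.1 1 0 ≠ 0) :
    (QuotientGroup.mk g : Matrix.ProjectiveSpecialLinearGroup (Fin 2) F) ≠ 1 := by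
  intro h1
  rw [QuotientGroup.eq_one_iff, Matrix.SpecialLinearGroup.mem_center_iff] at h1
  obtain ⟨r, -, hr⟩ := h1
  apply h
  rw [← hr]
  simp [Matrix.scalar_apply]

theorem psl7_pow [DecidableEq F] (hF : Fintype.card F = 7)
    (x : Matrix.ProjectiveSpecialLinearGroup (Fin 2) F) :
    x ^ 7 ^ 1 = 1 ∨ x ^ 2 ^ 2 = 1 ∨ x ^ 3 ^ 1 = 1 := by
  obtain ⟨g, rfl⟩ := QuotientGroup.mk_surjective x
  obtain ⟨h0, h1, hm1, h2, hm2, h3, hm3⟩ := f7_trace hF g
  rcases f7_elems hF g.1.trace with h | h | h | h | h | h | h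
  · right; left
    exact psl_mk_pow_eq_one g 4 (Or.inl (h0 h))
  · right; right
    exact psl_mk_pow_eq_one g 3 (Or.inr (h1 h))
  · right; right
    exact psl_mk_pow_eq_one g 3 (Or.inl (hm1 h))
  · left
    exact psl_mk_pow_eq_one g 7 (Or.inl (h2 h))
  · left
    exact psl_mk_pow_eq_one g 7 (Or.inr (hm2 h))
  · right; left
    exact psl_mk_pow_eq_one g 4 (Or.inr (h3 h))
  · right; left
    exact psl_mk_pow_eq_one g 4 (Or.inr (hm3 h))

def f7A (F : Type u) [Field F] : Matrix.SpecialLinearGroup (Fin 2) F :=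
  ⟨!![1, 0; 1, 1], by simp [Matrix.det_fin_two]⟩

def f7B (F : Type u) [Field F] : Matrix.SpecialLinearGroup (Fin 2) F :=
  ⟨!![0, -1; 1, 0], by simp [Matrix.det_fin_two]⟩

def f7C (F : Type u) [Field F] : Matrix.SpecialLinearGroup (Fin 2) F :=
  ⟨!![0, -1; 1, 1], by simp [Matrix.det_fin_two]⟩

theorem psl7_dvd [DecidableEq F] (hF : Fintype.card F = 7) :
    7 ∣ Nat.card (Matrix.ProjectiveSpecialLinearGroup (Fin 2) F) ∧
    2 ∣ Nat.card (Matrix.ProjectiveSpecialLinearGroup (Fin 2) F) ∧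
    3 ∣ Nat.card (Matrix.ProjectiveSpecialLinearGroup (Fin 2) F) := by
  refine ⟨?_, ?_, ?_⟩
  · obtain ⟨h0, h1, hm1, h2, hm2, h3, hm3⟩ := f7_trace hF (f7A F)
    have ht : (f7A F).1.trace = 2 := by
      simp [f7A, Matrix.trace_fin_two, one_add_one_eq_two]
    exact prime_dvd_card_of_pow _ 7 1 (by norm_num)
      (psl_mk_pow_eq_one _ 7 (Or.inl (h2 ht))) (psl_mk_ne_one _ (by simp [f7A]))
  · obtain ⟨h0, h1, hm1, h2, hm2, h3, hm3⟩ := f7_trace hF (f7B F)
    have ht : (f7B F).1.trace = 0 := by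
      simp [f7B, Matrix.trace_fin_two]
    exact prime_dvd_card_of_pow _ 2 2 (by norm_num)
      (psl_mk_pow_eq_one _ 4 (Or.inl (h0 ht))) (psl_mk_ne_one _ (by simp [f7B]))
  · obtain ⟨h0, h1, hm1, h2, hm2, h3, hm3⟩ := f7_trace hF (f7C F)
    have ht : (f7C F).1.trace = 1 := by
      simp [f7C, Matrix.trace_fin_two]
    exact prime_dvd_card_of_pow _ 3 1 (by norm_num)
      (psl_mk_pow_eq_one _ 3 (Or.inr (h1 ht))) (psl_mk_ne_one _ (by simp [f7C]))

end f7

/-- The prime graph of a finite group has the prime divisors of its order as vertices, two distinct primes p, q being joined when the group has an element of order pq; two groups have the same prime graph when they have the same prime divisors and the same joined pairs. Let F be the field with 7 elements. There are finite groups of arbitrarily large order with the same prime graph as PSL(2,F) (the graph on {2, 3, 7} with no edges, which is also the prime graph of PSL(2,8)). -/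
theorem result {F : Type*} [Field F] [Fintype F] (hF : Fintype.card F = 7) (N : ℕ) :
    ∃ (H : Type) (_ : Group H) (_ : Finite H), N < Nat.card H ∧
      ((∀ p : ℕ, p.Prime → (p ∣ Nat.card (Matrix.ProjectiveSpecialLinearGroup (Fin 2) F) ↔ p ∣ Nat.card H)) ∧
      (∀ p q : ℕ, p.Prime → q.Prime → p ≠ q → ((∃ g : (Matrix.ProjectiveSpecialLinearGroup (Fin 2) F), orderOf g = p * q) ↔ (∃ g : H, orderOf g = p * q)))) := by
  classical
  obtain ⟨H, iG, iF, h1, h2, h3⟩ := affSL2_exists (F := GaloisField 2 3) N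
  have hc8 : Nat.card (GaloisField 2 3) = 8 := by
    rw [GaloisField.card 2 3 (by norm_num)]
    norm_num
  obtain ⟨d7, d2, d3⟩ := psl7_dvd hF
  have hP := pgraph_of_three (G := Matrix.ProjectiveSpecialLinearGroup (Fin 2) F)
    (p₁ := 7) (p₂ := 2) (p₃ := 3) (a := 1) (b := 2) (c := 1)
    (by norm_num) (by norm_num) (by norm_num) (psl7_pow hF) d7 d2 d3
  have hS := pgraph_of_three (G := Matrix.SpecialLinearGroup (Fin 2) (GaloisField 2 3))
    (p₁ := 7) (p₂ := 2) (p₃ := 3) (a := 1) (b := 1) (c := 2)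
    (by norm_num) (by norm_num) (by norm_num) (f8_cases hc8)
    (f8_seven_dvd hc8) sl2_two_dvd_card f8_three_dvd
  refine ⟨H, iG, iF, h1, ?_, ?_⟩
  · intro p hp
    rw [hP.1 p hp, ← h2 p hp, hS.1 p hp]
  · intro p q hp hq hpq
    rw [← h3 p q hp hq hpq]
    exact iff_of_false (hP.2 p q hp hq hpq) (hS.2 p q hp hq hpq)

end Cfsg.Agent.S3678
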