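import Cfsg.Statements.S3681
import Mathlib

set_option autoImplicit false
open Pointwise
open Cfsg

namespace Cfsg.Agent.S3681

lemma isThreeCycle_comm {Ω : Type*} [Fintype Ω] [DecidableEq Ω] (x y : Equiv.Perm Ω) (α : Ω)
    (hxα : x α ≠ α) (hyα : y α ≠ α) (h : ∀ p, p ≠ α → x p = p ∨ y p = p) :
    (x⁻¹ * y⁻¹ * x * y).IsThreeCycle := by
  -- basic facts
  have hx' : ∀ p, x p ≠ p → p ≠ α → y p = p := fun p hp hpα =>
    (h p hpα).resolve_left hp
  have hy' : ∀ p, y p ≠ p → p ≠ α → x p = p := fun p hp hpα =>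
    (h p hpα).resolve_right hp
  set β := y⁻¹ α with hβ
  set γ := x⁻¹ α with hγ
  have hyβ : y β = α := by simp [hβ]
  have hxγ : x γ = α := by simp [hγ]
  have hβα : β ≠ α := fun e => hyα (by rw [e] at hyβ; exact hyβ)
  have hγα : γ ≠ α := fun e => hxα (by rw [e] at hxγ; exact hxγ)
  have hyβ' : y β ≠ β := by rw [hyβ]; exact hβα.symm
  have hxγ' : x γ ≠ γ := by rw [hxγ]; exact hγα.symm
  have hxβ : x β = β := hy' β hyβ' hβα
  have hyγ : y γ = γ := hx' γ hxγ' hγα
  have hβγ : β ≠ γ := fun e => hxγ' (by rw [← e]; exact hxβ)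
  have key : x⁻¹ * y⁻¹ * x * y = Equiv.swap β γ * Equiv.swap β α := by
    ext p
    simp only [Equiv.Perm.coe_mul, Function.comp_apply]
    by_cases hpα : p = α
    · subst hpα
      rw [Equiv.swap_apply_right, Equiv.swap_apply_left]
      have h1 : y (y p) ≠ y p := fun e => hyα (y.injective e)
      have h2 : y p ≠ p := hyα
      have h3 : x (y p) = y p := hy' (y p) h1 h2
      rw [h3]
      simp [hγ]
    by_cases hpβ : p = β
    · subst hpβ
      rw [Equiv.swap_apply_left, Equiv.swap_apply_of_ne_of_ne hβα.symm hγα.symm, hyβ]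
      have h1 : x (x α) ≠ x α := fun e => hxα (x.injective e)
      have h3 : y (x α) = x α := hx' (x α) h1 hxα
      have h4 : y⁻¹ (x α) = x α := by rw [Equiv.Perm.inv_eq_iff_eq]; exact h3.symm
      rw [h4]
      simp
    by_cases hpγ : p = γ
    · subst hpγ
      rw [Equiv.swap_apply_of_ne_of_ne hβγ.symm hγα, Equiv.swap_apply_right, hyγ, hxγ]
      rw [Equiv.Perm.inv_eq_iff_eq]
      exact hxβ.symm
    rw [Equiv.swap_apply_of_ne_of_ne hpβ hpα, Equiv.swap_apply_of_ne_of_ne hpβ hpγ]
    by_cases hyp : y p = p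
    · rw [hyp]
      by_cases hxp : x p = p
      · rw [hxp]
        have : y⁻¹ p = p := by rw [Equiv.Perm.inv_eq_iff_eq]; exact hyp.symm
        rw [this]
        rw [Equiv.Perm.inv_eq_iff_eq]; exact hxp.symm
      · have h1 : x (x p) ≠ x p := fun e => hxp (x.injective e)
        have h2 : x p ≠ α := fun e => hpγ (by rw [hγ, ← e]; simp)
        have h3 : y (x p) = x p := hx' (x p) h1 h2
        have h4 : y⁻¹ (x p) = x p := by rw [Equiv.Perm.inv_eq_iff_eq]; exact h3.symm
        rw [h4]
        simp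
    · have hxp : x p = p := hy' p hyp hpα
      have h1 : y (y p) ≠ y p := fun e => hyp (y.injective e)
      have h2 : y p ≠ α := fun e => hpβ (by rw [hβ, ← e]; simp)
      have h3 : x (y p) = y p := hy' (y p) h1 h2
      rw [h3]
      have h5 : y⁻¹ (y p) = p := by simp
      rw [h5, Equiv.Perm.inv_eq_iff_eq]; exact hxp.symm
  rw [key]
  exact Equiv.Perm.isThreeCycle_swap_mul_swap_same hβγ hβα hγα

/-- Bochert's bound for primitive groups. Let a finite group G act faithfully and primitively on a finite set Ω with n elements, and suppose the image of G in the symmetric group of Ω does not contain the alternating group of Ω. Then |G| · ⌊(n + 1)/2⌋! ≤ n!, that is, the index of G in the symmetric group is at least ⌊(n + 1)/2⌋!. -/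
theorem result {G Ω : Type*} [Group G] [Finite G] [MulAction G Ω] [FaithfulSMul G Ω] [Fintype Ω] [DecidableEq Ω]
    (hprim : MulAction.IsPreprimitive G Ω) (hA : ¬ alternatingGroup Ω ≤ (MulAction.toPermHom G Ω).range) :
    Nat.card G * Nat.factorial ((Fintype.card Ω + 1) / 2) ≤ Nat.factorial (Fintype.card Ω) := by
  classical
  set R : Subgroup (Equiv.Perm Ω) := (MulAction.toPermHom G Ω).range with hR
  -- R is primitive
  have hRprim : MulAction.IsPreprimitive R Ω := by
    let φ : G → R := fun g => ⟨MulAction.toPermHom G Ω g, ⟨g, rfl⟩⟩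
    let f : Ω →ₑ[φ] Ω := { toFun := id, map_smul' := fun g x => rfl }
    have hf : Function.Surjective f := Function.surjective_id
    exact MulAction.IsPreprimitive.of_surjective (f := f) hf
  -- card G = card R
  have hinj : Function.Injective (MulAction.toPermHom G Ω) := MulAction.toPerm_injective
  have hcard : Nat.card G = Nat.card R := by
    rw [hR]
    exact Nat.card_congr (MonoidHom.ofInjective hinj).toEquiv
  let P : Finset Ω → Prop := fun Δ => ∀ g ∈ R, (∀ p ∈ Δ, g p = p) → g = 1
  have hex : ∃ k, ∃ Δ : Finset Ω, Δ.card = k ∧ P Δ :=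
    ⟨_, Finset.univ, rfl, fun g _ hg => Equiv.ext fun p => hg p (Finset.mem_univ p)⟩
  obtain ⟨Δ, hk, hP⟩ := Nat.find_spec hex
  have hmin : ∀ Δ' : Finset Ω, P Δ' → Δ.card ≤ Δ'.card := fun Δ' h => by
    rw [hk]; exact Nat.find_min' hex ⟨Δ', rfl, h⟩
  have hsmall : 2 * Δ.card ≤ Fintype.card Ω := by
    by_contra hlt
    push Not at hlt
    have hcompl : Δᶜ.card < Δ.card := by
      rw [Finset.card_compl]; omega
    have hnP : ¬ P Δᶜ := fun h => absurd (hmin _ h) (not_le.mpr hcompl)
    simp only [P] at hnP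
    push Not at hnP
    obtain ⟨x, hxR, hxfix, hx1⟩ := hnP
    obtain ⟨α, hα⟩ : ∃ α, x α ≠ α := by
      by_contra h
      push Not at h
      exact hx1 (Equiv.ext h)
    have hαΔ : α ∈ Δ := by
      by_contra h
      exact hα (hxfix α (Finset.mem_compl.mpr h))
    have herase : (Δ.erase α).card < Δ.card := Finset.card_erase_lt_of_mem hαΔ
    have hnP2 : ¬ P (Δ.erase α) := fun h => absurd (hmin _ h) (not_le.mpr herase)
    simp only [P] at hnP2
    push Not at hnP2
    obtain ⟨y, hyR, hyfix, hy1⟩ := hnP2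
    have hyα : y α ≠ α := by
      intro h
      apply hy1
      apply hP y hyR
      intro p hp
      by_cases hpα : p = α
      · rw [hpα]; exact h
      · exact hyfix p (Finset.mem_erase.mpr ⟨hpα, hp⟩)
    have h3 : (x⁻¹ * y⁻¹ * x * y).IsThreeCycle := by
      apply isThreeCycle_comm x y α hα hyα
      intro p hpα
      by_cases hpΔ : p ∈ Δ
      · right; exact hyfix p (Finset.mem_erase.mpr ⟨hpα, hpΔ⟩)
      · left; exact hxfix p (Finset.mem_compl.mpr hpΔ)
    have hmem : x⁻¹ * y⁻¹ * x * y ∈ R :=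
      R.mul_mem (R.mul_mem (R.mul_mem (R.inv_mem hxR) (R.inv_mem hyR)) hxR) hyR
    exact hA (Equiv.Perm.alternatingGroup_le_of_isPreprimitive_of_isThreeCycle_mem hRprim h3 hmem)
  -- counting
  let ι : R × Equiv.Perm {a : Ω // a ∉ Δ} → Equiv.Perm Ω := fun rk => rk.1 * Equiv.Perm.ofSubtype rk.2
  have hιinj : Function.Injective ι := by
    rintro ⟨r, k⟩ ⟨r', k'⟩ h
    simp only [ι] at h
    have h1 : (r' : Equiv.Perm Ω)⁻¹ * r = Equiv.Perm.ofSubtype (k' * k⁻¹) := by
      rw [map_mul, map_inv, eq_mul_inv_iff_mul_eq, mul_assoc, h]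
      simp
    have h2 : (r' : Equiv.Perm Ω)⁻¹ * r = 1 := by
      apply hP _ (R.mul_mem (R.inv_mem r'.2) r.2)
      intro p hp
      rw [h1]
      exact Equiv.Perm.ofSubtype_apply_of_not_mem _ (by simpa using hp)
    have h3 : r = r' := by
      apply Subtype.ext
      have := congrArg (fun z => (r' : Equiv.Perm Ω) * z) h2
      simpa using this
    subst h3
    have h4 : Equiv.Perm.ofSubtype k = Equiv.Perm.ofSubtype k' := mul_left_cancel h
    rw [Equiv.Perm.ofSubtype_injective h4]
  have hle := Fintype.card_le_of_injective ι hιinj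
  rw [Fintype.card_prod, Fintype.card_perm, Fintype.card_perm] at hle
  have hsub : Fintype.card {a : Ω // a ∉ Δ} = Fintype.card Ω - Δ.card := by
    rw [Fintype.card_subtype_compl, Fintype.card_coe]
  rw [hsub] at hle
  rw [hcard, Nat.card_eq_fintype_card]
  calc Fintype.card R * Nat.factorial ((Fintype.card Ω + 1) / 2)
      ≤ Fintype.card R * Nat.factorial (Fintype.card Ω - Δ.card) := by
        apply Nat.mul_le_mul_left
        apply Nat.factorial_le
        omega
    _ ≤ Nat.factorial (Fintype.card Ω) := hle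

end Cfsg.Agent.S3681
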