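-- Statement S3682: Wielandt index bound, proved via the Thompson-Wielandt setting
-- (Lib/Helper41/TW1-TW7 and the job-board pieces listed in TW5 and TW7).
import Cfsg.Statements.S3682
import Cfsg.Agent.Lib.Helper41.TW7

set_option autoImplicit false
open Cfsg

namespace Cfsg.Agent.S3682

open Cfsg.Agent.Lib.Helper41.TW in
/-- Wielandt's bound toward the Sims conjecture. Let a finite group G act faithfully and primitively on a set Ω, let a and b be points, and suppose the orbit of b under the stabilizer of a has length d ≥ 2. Then there are a prime p and a normal p-subgroup P of the stabilizer of a, all of whose elements fix b, such that the index of P in the stabilizer of a divides d! · ((d - 1)!)^d. -/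
theorem result {G Ω : Type*} [Group G] [Finite G] [MulAction G Ω] [FaithfulSMul G Ω] [Finite Ω]
    (hprim : MulAction.IsPreprimitive G Ω) (a b : Ω) (d : ℕ) (hd : Nat.card (MulAction.orbit (MulAction.stabilizer G a) b) = d) (h2 : 2 ≤ d) :
    ∃ p : ℕ, p.Prime ∧ ∃ P : Subgroup (MulAction.stabilizer G a), P.Normal ∧ IsPGroup p P ∧ (∀ g : P, ((g : MulAction.stabilizer G a) : G) • b = b) ∧
      P.index ∣ Nat.factorial d * (Nat.factorial (d - 1)) ^ d := by
  obtain ⟨A1, B1, A2, B2, S, h1, h2', hc⟩ := perm_setting hprim a b d hd h2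
  have hbot : (A2 = ⊥ ∨ B2 = ⊥) → ∃ p : ℕ, p.Prime ∧
      ∃ P : Subgroup (MulAction.stabilizer G a), P.Normal ∧ IsPGroup p P ∧
        (∀ g : P, ((g : MulAction.stabilizer G a) : G) • b = b) ∧
        P.index ∣ Nat.factorial d * (Nat.factorial (d - 1)) ^ d := by
    intro h
    refine ⟨2, Nat.prime_two, ⊥, inferInstance, IsPGroup.of_bot, ?_, ?_⟩
    · rintro ⟨g, hg⟩
      rw [Subgroup.mem_bot] at hg
      subst hg
      simp
    · rw [Subgroup.index_bot]
      exact card_dvd_of_bot S h1 h2' hc h
  by_cases hA : A2 = ⊥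
  · exact hbot (Or.inl hA)
  by_cases hB : B2 = ⊥
  · exact hbot (Or.inr hB)
  obtain ⟨p, hp, hpg, -⟩ := main S hA hB
  refine ⟨p, hp, A2.subgroupOf (MulAction.stabilizer G a),
    Subgroup.normal_subgroupOf_of_le_normalizer S.X_norm_A2,
    (hpg.to_le le_sup_left).comap_subtype, ?_, idxC S h1 h2'⟩
  rintro ⟨g, hg⟩
  exact MulAction.mem_stabilizer_iff.mp (S.A2_le_Y (Subgroup.mem_subgroupOf.mp hg))

end Cfsg.Agent.S3682
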