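import Cfsg.Statements.S3683
import Mathlib

set_option autoImplicit false
open Pointwise
open Cfsg

namespace Cfsg.Agent.S3683

/-- Let a finite group G act faithfully and primitively on a set Ω, and suppose the stabilizer of a point a fixes a second point b ≠ a (a suborbit of length 1 other than {a}). Then the stabilizer of a is trivial and G is cyclic of prime order. -/
theorem result {G Ω : Type*} [Group G] [Finite G] [MulAction G Ω] [FaithfulSMul G Ω] [Finite Ω]
    (hprim : MulAction.IsPreprimitive G Ω) (a b : Ω) (hab : a ≠ b) (hfix : ∀ g : G, g • a = a → g • b = b) :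
    MulAction.stabilizer G a = ⊥ ∧ IsCyclic G ∧ (Nat.card G).Prime := by
  classical
  have : Nontrivial Ω := ⟨⟨a, b, hab⟩⟩
  have := hprim
  have hco : IsCoatom (MulAction.stabilizer G a) :=
    MulAction.IsPreprimitive.isCoatom_stabilizer_of_isPreprimitive G a
  have htr : MulAction.IsPretransitive G Ω := hprim.toIsPretransitive
  obtain ⟨g, hg⟩ := MulAction.exists_smul_eq G a b
  -- stabilizer of a ≤ stabilizer of b, and the latter is not ⊤
  have hle : MulAction.stabilizer G a ≤ MulAction.stabilizer G b := fun x hx => by
    rw [MulAction.mem_stabilizer_iff] at hx ⊢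
    exact hfix x hx
  have hbtop : MulAction.stabilizer G b ≠ ⊤ := by
    intro h
    obtain ⟨k, hk⟩ := MulAction.exists_smul_eq G b a
    have : k ∈ MulAction.stabilizer G b := h ▸ Subgroup.mem_top k
    rw [MulAction.mem_stabilizer_iff] at this
    exact hab (hk.symm.trans this)
  have heq : MulAction.stabilizer G a = MulAction.stabilizer G b := by
    rcases eq_or_lt_of_le hle with h | h
    · exact h
    · exact absurd (hco.2 _ h) hbtop
  -- g normalizes the stabilizer
  have hgn : g ∈ Subgroup.normalizer (MulAction.stabilizer G a : Set G) := by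
    rw [Subgroup.mem_normalizer_iff]
    intro x
    have h1 : MulAction.stabilizer G b = MulAction.stabilizer G (g • a) := by rw [hg]
    rw [MulAction.stabilizer_smul_eq_stabilizer_map_conj] at h1
    constructor
    · intro hx
      have : g * x * g⁻¹ ∈ MulAction.stabilizer G b := by
        rw [h1]
        exact ⟨x, hx, rfl⟩
      rwa [heq]
    · intro hx
      rw [heq, h1] at hx
      obtain ⟨y, hy, hyx⟩ := hx
      have : y = x := by
        have : g * y * g⁻¹ = g * x * g⁻¹ := hyx
        simpa using this
      exact this ▸ hy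
  have hgnot : g ∉ MulAction.stabilizer G a := by
    intro h
    rw [MulAction.mem_stabilizer_iff] at h
    exact hab (h.symm.trans hg)
  have hnorm : Subgroup.normalizer (MulAction.stabilizer G a : Set G) = ⊤ := by
    apply hco.2
    exact lt_of_le_of_ne Subgroup.le_normalizer (fun h => hgnot (h ▸ hgn))
  have hN : (MulAction.stabilizer G a).Normal := Subgroup.normalizer_eq_top_iff.mp hnorm
  -- the stabilizer is trivial
  have hbot : MulAction.stabilizer G a = ⊥ := by
    rw [eq_bot_iff]
    intro x hx
    rw [Subgroup.mem_bot]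
    apply FaithfulSMul.eq_of_smul_eq_smul (α := Ω)
    intro c
    obtain ⟨k, hk⟩ := MulAction.exists_smul_eq G a c
    have : k⁻¹ * x * k ∈ MulAction.stabilizer G a := by
      have := hN.conj_mem x hx k⁻¹
      simpa using this
    rw [MulAction.mem_stabilizer_iff] at this
    rw [one_smul, ← hk]
    calc x • k • a = k • ((k⁻¹ * x * k) • a) := by simp [smul_smul, mul_assoc]
      _ = k • a := by rw [this]
  have hall : ∀ K : Subgroup G, K = ⊥ ∨ K = ⊤ := by
    intro K
    by_cases h : K = ⊥
    · exact Or.inl h
    · right
      apply hco.2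
      rw [hbot]
      exact bot_lt_iff_ne_bot.mpr h
  have hnt : (⊥ : Subgroup G) ≠ ⊤ := by
    rw [← hbot]; exact hco.1
  have hcard : 1 < Nat.card G := by
    rw [Finite.one_lt_card_iff_nontrivial]
    by_contra h
    rw [not_nontrivial_iff_subsingleton] at h
    exact hnt (Subsingleton.elim _ _)
  obtain ⟨p, hp, hpd⟩ := Nat.exists_prime_and_dvd (ne_of_gt hcard)
  have : Fact p.Prime := ⟨hp⟩
  obtain ⟨x, hx⟩ := exists_prime_orderOf_dvd_card' p hpd
  have hxz : Subgroup.zpowers x = ⊤ := by
    rcases hall (Subgroup.zpowers x) with h | h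
    · exfalso
      rw [Subgroup.zpowers_eq_bot] at h
      rw [h, orderOf_one] at hx
      exact hp.one_lt.ne' hx.symm
    · exact h
  have hcyc : IsCyclic G := ⟨x, fun y => by
    have : y ∈ Subgroup.zpowers x := hxz ▸ Subgroup.mem_top y
    exact this⟩
  refine ⟨hbot, hcyc, ?_⟩
  have : Nat.card G = p := by
    rw [← hx, ← Nat.card_zpowers, hxz, Subgroup.card_top]
  rw [this]; exact hp

end Cfsg.Agent.S3683
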