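import Cfsg.Statements.S3684
import Cfsg.Agent.S0206

set_option autoImplicit false
open Cfsg

namespace Cfsg.Agent.S3684

private lemma card_mul_relIndex_of_le {G : Type*} [Group G] {D H : Subgroup G} (h : D ≤ H) :
    Nat.card D * D.relIndex H = Nat.card H := by
  have h1 := Subgroup.card_mul_index (D.subgroupOf H)
  rw [Nat.card_congr (Subgroup.subgroupOfEquivOfLe h).toEquiv] at h1
  exact h1

/-- a normal subgroup inside a point stabiliser of a transitive faithful action is trivial -/
private lemma normal_le_stabilizer_eq_bot {G Ω : Type*} [Group G] [MulAction G Ω] [FaithfulSMul G Ω]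
    [MulAction.IsPretransitive G Ω] (a : Ω) (N : Subgroup G) [N.Normal]
    (h : N ≤ MulAction.stabilizer G a) : N = ⊥ := by
  rw [eq_bot_iff]
  intro d hd
  rw [Subgroup.mem_bot]
  apply FaithfulSMul.eq_of_smul_eq_smul (α := Ω)
  intro x
  obtain ⟨g, rfl⟩ := MulAction.exists_smul_eq G a x
  have h1 : g⁻¹ * d * g⁻¹⁻¹ ∈ N := ‹N.Normal›.conj_mem d hd g⁻¹
  have h2 := h h1
  rw [MulAction.mem_stabilizer_iff] at h2
  rw [one_smul]
  have h3 : d • g • a = g • ((g⁻¹ * d * g⁻¹⁻¹) • a) := by
    simp [smul_smul, mul_assoc]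
  rw [h3, h2]

/-- Let a finite group G act faithfully and primitively on a set Ω, and suppose the stabilizer of a point a has an orbit of length 2. Then the stabilizer of a has order 2 and G is isomorphic to the dihedral group of order 2p for some prime p. -/
theorem result {G Ω : Type*} [Group G] [Finite G] [MulAction G Ω] [FaithfulSMul G Ω] [Finite Ω]
    (hprim : MulAction.IsPreprimitive G Ω) (a b : Ω) (h2 : Nat.card (MulAction.orbit (MulAction.stabilizer G a) b) = 2) :
    Nat.card (MulAction.stabilizer G a) = 2 ∧ ∃ p : ℕ, p.Prime ∧ Nonempty (G ≃* DihedralGroup p) := by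
  classical
  set H := MulAction.stabilizer G a with hH
  set K := MulAction.stabilizer G b with hK
  have hab : a ≠ b := by
    rintro rfl
    have h1 : MulAction.orbit (MulAction.stabilizer G a) a = {a} := by
      ext x
      constructor
      · rintro ⟨g, rfl⟩
        exact g.2
      · rintro rfl
        exact MulAction.mem_orbit_self _
    rw [h1] at h2
    simp at h2
  haveI : Nontrivial Ω := ⟨⟨a, b, hab⟩⟩
  -- index of K ∩ H in H is 2
  have hstab : MulAction.stabilizer H b = K.subgroupOf H := by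
    ext h
    rw [MulAction.mem_stabilizer_iff, Subgroup.mem_subgroupOf, MulAction.mem_stabilizer_iff]
    rfl
  have hKH : K.relIndex H = 2 := by
    change (K.subgroupOf H).index = 2
    rw [← hstab, MulAction.index_stabilizer, ← Nat.card_coe_set_eq]
    exact h2
  have hcardHK : Nat.card H = Nat.card K := by
    have h1 := Subgroup.card_mul_index H
    have h3 := Subgroup.card_mul_index K
    rw [hH, MulAction.index_stabilizer_of_transitive] at h1
    rw [hK, MulAction.index_stabilizer_of_transitive] at h3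
    have hΩ : 0 < Nat.card Ω := Nat.card_pos
    exact Nat.eq_of_mul_eq_mul_right hΩ (h1.trans h3.symm)
  have hD1 : Nat.card (H ⊓ K : Subgroup G) * 2 = Nat.card H := by
    have := card_mul_relIndex_of_le (inf_le_left : H ⊓ K ≤ H)
    rwa [Subgroup.inf_relIndex_left, hKH] at this
  have hHK : H.relIndex K = 2 := by
    have := card_mul_relIndex_of_le (inf_le_right : H ⊓ K ≤ K)
    rw [Subgroup.inf_relIndex_right, ← hcardHK, ← hD1] at this
    have hpos : 0 < Nat.card (H ⊓ K : Subgroup G) := Nat.card_pos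
    exact Nat.eq_of_mul_eq_mul_left hpos this
  have hn1 : H ≤ Subgroup.normalizer ((H ⊓ K : Subgroup G) : Set G) := by
    rw [inf_comm]
    exact Subgroup.normal_subgroupOf_iff_le_normalizer_inf.mp (Subgroup.normal_of_index_eq_two hKH)
  have hn2 : K ≤ Subgroup.normalizer ((H ⊓ K : Subgroup G) : Set G) :=
    Subgroup.normal_subgroupOf_iff_le_normalizer_inf.mp (Subgroup.normal_of_index_eq_two hHK)
  have hHmax : IsCoatom H := MulAction.IsPreprimitive.isCoatom_stabilizer_of_isPreprimitive (G := G) a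
  have hHneK : H ≠ K := by
    intro h
    rw [← h, Subgroup.relIndex_self] at hKH
    omega
  have hsup : H ⊔ K = ⊤ := by
    apply hHmax.2
    rw [lt_iff_le_and_ne]
    refine ⟨le_sup_left, fun h => hHneK ?_⟩
    have hKle : K ≤ H := by rw [h]; exact le_sup_right
    exact (Subgroup.eq_of_le_of_card_ge hKle hcardHK.le).symm
  haveI hDn : (H ⊓ K : Subgroup G).Normal := by
    rw [← Subgroup.normalizer_eq_top_iff, eq_top_iff, ← hsup]
    exact sup_le hn1 hn2
  have hDbot : H ⊓ K = ⊥ := normal_le_stabilizer_eq_bot a _ inf_le_left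
  have hcardH : Nat.card H = 2 := by
    rw [← hD1, hDbot, Subgroup.card_bot]
  have hcardK : Nat.card K = 2 := hcardHK ▸ hcardH
  refine ⟨hcardH, ?_⟩
  -- generators
  have gen : ∀ L : Subgroup G, Nat.card L = 2 → ∃ s : G, orderOf s = 2 ∧ L = Subgroup.zpowers s := by
    intro L hL
    have hne : L ≠ ⊥ := by
      intro h
      rw [h, Subgroup.card_bot] at hL
      omega
    obtain ⟨⟨s, hs⟩, hs0⟩ := (Subgroup.ne_bot_iff_exists_ne_one).mp hne
    have hs1 : s ≠ 1 := fun h => hs0 (Subtype.ext h)
    have ho : orderOf s = 2 := by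
      have h1 : orderOf (⟨s, hs⟩ : L) ∣ 2 := hL ▸ orderOf_dvd_natCard _
      rw [Subgroup.orderOf_mk] at h1
      rcases (Nat.dvd_prime Nat.prime_two).mp h1 with h | h
      · exact absurd (orderOf_eq_one_iff.mp h) hs1
      · exact h
    refine ⟨s, ho, ?_⟩
    symm
    apply Subgroup.eq_of_le_of_card_ge
    · rw [Subgroup.zpowers_le]; exact hs
    · rw [Nat.card_zpowers, ho, hL]
  obtain ⟨s, hs, hHs⟩ := gen H hcardH
  obtain ⟨t, ht, hKt⟩ := gen K hcardK
  have hst : s ≠ t := by
    rintro rfl
    exact hHneK (hHs.trans hKt.symm)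
  have hcl : Subgroup.closure ({s, t} : Set G) = ⊤ := by
    rw [← hsup, hHs, hKt, Subgroup.zpowers_eq_closure, Subgroup.zpowers_eq_closure, ← Subgroup.closure_union]
    rfl
  obtain ⟨e0⟩ := Cfsg.Agent.S0206.result s t hs ht hst
  have e : G ≃* DihedralGroup (orderOf (s * t)) :=
    (Subgroup.topEquiv.symm.trans (MulEquiv.subgroupCongr hcl.symm)).trans e0
  refine ⟨orderOf (s * t), ?_, ⟨e⟩⟩
  set n := orderOf (s * t) with hn
  have hcardG : Nat.card G = 2 * n := by
    rw [Nat.card_congr e.toEquiv, DihedralGroup.nat_card]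
  have hnpos : 0 < n := orderOf_pos _
  have hs2 : s * s = 1 := by rw [← pow_two, ← hs, pow_orderOf_eq_one]
  have ht2 : t * t = 1 := by rw [← pow_two, ← ht, pow_orderOf_eq_one]
  have hsinv : s⁻¹ = s := inv_eq_of_mul_eq_one_left hs2
  have htinv : t⁻¹ = t := inv_eq_of_mul_eq_one_left ht2
  have hn1 : n ≠ 1 := by
    intro h
    have h1 : s * t = 1 := orderOf_eq_one_iff.mp h
    apply hst
    rw [← htinv]
    exact eq_inv_of_mul_eq_one_left h1
  obtain ⟨p, hp, hpn⟩ := Nat.exists_prime_and_dvd hn1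
  set x := (s * t) ^ (n / p) with hx
  have hox : orderOf x = p := orderOf_pow_orderOf_div hnpos.ne' hpn
  -- conjugation by s and t inverts s*t
  have hcs : s * (s * t) * s⁻¹ = (s * t)⁻¹ := by
    rw [mul_inv_rev, hsinv, htinv, ← mul_assoc, hs2, one_mul]
  have hct : t * (s * t) * t⁻¹ = (s * t)⁻¹ := by
    rw [mul_inv_rev, hsinv, htinv, mul_assoc, mul_assoc, ht2, mul_one]
  have hnx : ∀ g : G, g * (s * t) * g⁻¹ = (s * t)⁻¹ → g ∈ Subgroup.normalizer ((Subgroup.zpowers x : Subgroup G) : Set G) := by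
    intro g hg
    rw [Subgroup.mem_normalizer_iff_map_conj_eq, MonoidHom.map_zpowers]
    have h1 : (MulAut.conj g) x = x⁻¹ := by
      change g * x * g⁻¹ = x⁻¹
      rw [hx, ← inv_pow, ← hg]
      exact (conj_pow (a := g) (b := s * t) (i := n / p)).symm
    change Subgroup.zpowers ((MulAut.conj g) x) = Subgroup.zpowers x
    rw [h1, Subgroup.zpowers_inv]
  haveI hxn : (Subgroup.zpowers x).Normal := by
    rw [← Subgroup.normalizer_eq_top_iff, eq_top_iff, ← hcl, Subgroup.closure_le]
    rintro g (rfl | rfl)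
    · exact hnx _ hcs
    · exact hnx _ hct
  have hxnot : ¬ Subgroup.zpowers x ≤ H := by
    intro h
    have := normal_le_stabilizer_eq_bot a _ h
    have h1 : Nat.card (Subgroup.zpowers x) = p := by rw [Nat.card_zpowers, hox]
    rw [this, Subgroup.card_bot] at h1
    exact hp.one_lt.ne' h1.symm
  have hsup2 : H ⊔ Subgroup.zpowers x = ⊤ := by
    apply hHmax.2
    rw [lt_iff_le_and_ne]
    refine ⟨le_sup_left, fun h => hxnot ?_⟩
    rw [h]; exact le_sup_right
  have hle : Nat.card G ≤ Nat.card (H × Subgroup.zpowers x) := by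
    apply Nat.card_le_card_of_surjective (fun y : H × Subgroup.zpowers x => (y.1 : G) * (y.2 : G))
    intro g
    have hg : g ∈ ((H ⊔ Subgroup.zpowers x : Subgroup G) : Set G) := by rw [hsup2]; trivial
    rw [Subgroup.mul_normal] at hg
    obtain ⟨h, hh, d, hd, rfl⟩ := Set.mem_mul.mp hg
    exact ⟨⟨⟨h, hh⟩, ⟨d, hd⟩⟩, rfl⟩
  rw [Nat.card_prod, hcardH, Nat.card_zpowers, hox, hcardG] at hle
  have hpn' : p ≤ n := Nat.le_of_dvd hnpos hpn
  have : n = p := by omega
  rw [this]; exact hp

end Cfsg.Agent.S3684
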