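-- Statement S3693: Wielandt index bound, proved via the Thompson-Wielandt setting
-- (Lib/Helper41/TW1-TW7 and the job-board pieces listed in TW5 and TW7).
import Cfsg.Statements.S3693
import Cfsg.Agent.Lib.Helper41.TW7

set_option autoImplicit false
open Cfsg

namespace Cfsg.Agent.S3693

open Cfsg.Agent.Lib.Helper41.TW in
/-- Let a finite group G act faithfully and primitively on a set Ω, let a and b be points such that the orbit Δ of b under the stabilizer H of a has length d ≥ 2, and consider the permutation group induced on Δ by the elements of H fixing b. If that induced group has trivial Fitting subgroup (no non-trivial nilpotent normal subgroup), then the two-point stabilizer of a and b has trivial Fitting subgroup and the order of H divides d! · ((d - 1)!)^d. -/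
theorem result {G Ω : Type*} [Group G] [Finite G] [MulAction G Ω] [FaithfulSMul G Ω] [Finite Ω]
    (hprim : MulAction.IsPreprimitive G Ω) (a b : Ω) (d : ℕ) (hd : Nat.card (MulAction.orbit (MulAction.stabilizer G a) b) = d) (h2 : 2 ≤ d)
    (hF : Cfsg.fittingSubgroup ↥(((MulAction.stabilizer G b).subgroupOf (MulAction.stabilizer G a)).map (MulAction.toPermHom (MulAction.stabilizer G a) (MulAction.orbit (MulAction.stabilizer G a) b))) = ⊥) :
    Cfsg.fittingSubgroup ↥(MulAction.stabilizer G a ⊓ MulAction.stabilizer G b) = ⊥ ∧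
      Nat.card (MulAction.stabilizer G a) ∣ Nat.factorial d * (Nat.factorial (d - 1)) ^ d := by
  obtain ⟨A1, B1, A2, B2, S, h1, h2', hc⟩ := perm_setting hprim a b d hd h2
  have H : ∀ p : ℕ, p.Prime →
      rp p (MulAction.stabilizer G a ⊓ MulAction.stabilizer G b) ≤ A1 :=
    fun p hp => rp_inf_le_A1 a b S hF hp
  have hR : ∀ p : ℕ, p.Prime → rp p A1 = ⊥ :=
    fun p hp => Cfsg.Agent.Lib.Helper97.WBP.rp_A1_eq_bot S hp (H p hp)
  have hXY : ∀ p : ℕ, p.Prime →
      rp p (MulAction.stabilizer G a ⊓ MulAction.stabilizer G b) = ⊥ := by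
    intro p hp
    have : rp p (MulAction.stabilizer G a ⊓ MulAction.stabilizer G b) ≤ rp p A1 :=
      le_rp (H p hp) ((le_inf S.A1_le_X S.A1_le_Y).trans (le_normalizer_rp p _))
        (rp_isPGroup p _)
    rw [hR p hp] at this
    exact eq_bot_iff.mpr this
  refine ⟨fitting_eq_bot_of_rp hXY, ?_⟩
  apply card_dvd_of_bot S h1 h2' hc
  by_contra hcon0
  have hcon := not_or.mp hcon0
  obtain ⟨p, hp, hpg, -⟩ := main S hcon.1 hcon.2
  have : A2 ≤ rp p A1 :=
    le_rp S.A2_le_A1 (S.A1_le_X.trans S.X_norm_A2) (hpg.to_le le_sup_left)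
  rw [hR p hp] at this
  exact hcon.1 (eq_bot_iff.mpr this)

end Cfsg.Agent.S3693
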