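import Cfsg.Statements.S3696
import Mathlib

set_option autoImplicit false
open Cfsg

namespace Cfsg.Agent.S3696

/-- Two-term weighted AM–GM with natural exponents. -/
theorem amgm (a b x z : ℕ) : x ^ a * z ^ b * (a + b) ^ (a + b) ≤ a ^ a * b ^ b * (x + z) ^ (a + b) := by
  rcases Nat.eq_zero_or_pos a with ha | ha
  · subst ha
    simp only [pow_zero, one_mul, zero_add]
    rw [mul_comm]
    exact Nat.mul_le_mul_left _ (Nat.pow_le_pow_left (Nat.le_add_left _ _) _)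
  rcases Nat.eq_zero_or_pos b with hb | hb
  · subst hb
    simp only [pow_zero, mul_one, add_zero]
    rw [mul_comm]
    exact Nat.mul_le_mul_left _ (Nat.pow_le_pow_left (Nat.le_add_right _ _) _)
  have ha' : (0 : ℝ) < a := Nat.cast_pos.mpr ha
  have hb' : (0 : ℝ) < b := Nat.cast_pos.mpr hb
  have hm' : (0 : ℝ) < (a : ℝ) + b := by linarith
  have hx : (0 : ℝ) ≤ x := Nat.cast_nonneg x
  have hz : (0 : ℝ) ≤ z := Nat.cast_nonneg z
  have hu : (0 : ℝ) ≤ (x : ℝ) / a := div_nonneg hx ha'.le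
  have hv : (0 : ℝ) ≤ (z : ℝ) / b := div_nonneg hz hb'.le
  have key := Real.geom_mean_le_arith_mean2_weighted (w₁ := (a : ℝ) / (a + b)) (w₂ := (b : ℝ) / (a + b))
    (p₁ := (x : ℝ) / a) (p₂ := (z : ℝ) / b) (by positivity) (by positivity) hu hv (by field_simp)
  have e1 : (a : ℝ) / (a + b) * ((x : ℝ) / a) + (b : ℝ) / (a + b) * ((z : ℝ) / b) = ((x : ℝ) + z) / (a + b) := by
    field_simp
  rw [e1] at key
  have key2 := pow_le_pow_left₀ (by positivity) key (a + b)
  have e2 : (((x : ℝ) / a) ^ ((a : ℝ) / (a + b)) * ((z : ℝ) / b) ^ ((b : ℝ) / (a + b))) ^ (a + b)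
      = ((x : ℝ) / a) ^ a * ((z : ℝ) / b) ^ b := by
    rw [mul_pow, ← Real.rpow_natCast, ← Real.rpow_natCast, ← Real.rpow_mul hu, ← Real.rpow_mul hv]
    have e3 : (a : ℝ) / (a + b) * ((a + b : ℕ) : ℝ) = a := by
      push_cast; field_simp
    have e4 : (b : ℝ) / (a + b) * ((a + b : ℕ) : ℝ) = b := by
      push_cast; field_simp
    rw [e3, e4, Real.rpow_natCast, Real.rpow_natCast]
  rw [e2] at key2
  have key3 : ((x : ℝ) ^ a * (z : ℝ) ^ b * ((a : ℝ) + b) ^ (a + b)) ≤ (a : ℝ) ^ a * (b : ℝ) ^ b * ((x : ℝ) + z) ^ (a + b) := by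
    rw [div_pow, div_pow, div_pow] at key2
    have h1 : (0 : ℝ) < (a : ℝ) ^ a := by positivity
    have h2 : (0 : ℝ) < (b : ℝ) ^ b := by positivity
    have h3 : (0 : ℝ) < ((a : ℝ) + b) ^ (a + b) := by positivity
    rw [div_mul_div_comm, div_le_div_iff₀ (by positivity) h3] at key2
    linarith
  exact_mod_cast key3

theorem pow_aux (d y : ℕ) (hd : 1 ≤ d) (hy : 2 ^ d ≤ y) : y * d ^ d ≤ y ^ d := by
  obtain ⟨e, rfl⟩ : ∃ e, d = e + 1 := ⟨d - 1, by omega⟩
  have h1 : e + 1 ≤ 2 ^ e := Nat.lt_two_pow_self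
  have h2 : (e + 1) ^ (e + 1) ≤ y ^ e := by
    calc (e + 1) ^ (e + 1) ≤ (2 ^ e) ^ (e + 1) := Nat.pow_le_pow_left h1 _
      _ = (2 ^ (e + 1)) ^ e := by rw [← pow_mul, ← pow_mul, mul_comm]
      _ ≤ y ^ e := Nat.pow_le_pow_left hy _
  calc y * (e + 1) ^ (e + 1) ≤ y * y ^ e := Nat.mul_le_mul_left _ h2
    _ = y ^ (e + 1) := by rw [pow_succ, mul_comm]

theorem arith (K' y t k' d : ℕ) (hd : 1 ≤ d) (hy : 2 ^ d ≤ y) (hK : K' * k' ^ k' ≤ t ^ k') :
    K' * y * (k' + d) ^ (k' + d) ≤ (t + y) ^ (k' + d) := by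
  have h1 := amgm k' d t y
  have h2 := pow_aux d y hd hy
  have hpos : 0 < k' ^ k' * d ^ d := by
    apply Nat.mul_pos
    · rcases Nat.eq_zero_or_pos k' with h | h
      · subst h; simp
      · exact Nat.pow_pos h
    · exact Nat.pow_pos (by omega)
  apply Nat.le_of_mul_le_mul_left _ hpos
  calc k' ^ k' * d ^ d * (K' * y * (k' + d) ^ (k' + d))
      = (K' * k' ^ k') * (y * d ^ d) * (k' + d) ^ (k' + d) := by ring
    _ ≤ t ^ k' * y ^ d * (k' + d) ^ (k' + d) :=
        Nat.mul_le_mul_right _ (Nat.mul_le_mul hK h2)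
    _ ≤ k' ^ k' * d ^ d * (t + y) ^ (k' + d) := h1

section

variable {Ω : Type*} [Fintype Ω] [DecidableEq Ω]

/-- The elements of order dividing `p` of an abelian subgroup. -/
def tor (p : ℕ) (A : Subgroup (Equiv.Perm Ω)) (hc : ∀ x ∈ A, ∀ y ∈ A, x * y = y * x) :
    Subgroup (Equiv.Perm Ω) where
  carrier := {x | x ∈ A ∧ x ^ p = 1}
  mul_mem' := by
    rintro x y ⟨hx, hx'⟩ ⟨hy, hy'⟩
    refine ⟨A.mul_mem hx hy, ?_⟩
    have h : Commute x y := hc x hx y hy
    rw [h.mul_pow, hx', hy', one_mul]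
  one_mem' := ⟨A.one_mem, one_pow p⟩
  inv_mem' := by
    rintro x ⟨hx, hx'⟩
    exact ⟨A.inv_mem hx, by rw [inv_pow, hx', inv_one]⟩

theorem mem_tor {p : ℕ} {A : Subgroup (Equiv.Perm Ω)} {hc : ∀ x ∈ A, ∀ y ∈ A, x * y = y * x}
    {x : Equiv.Perm Ω} : x ∈ tor p A hc ↔ x ∈ A ∧ x ^ p = 1 := Iff.rfl

open Classical in
/-- The orbit of a point under a subgroup, as a finset. -/
noncomputable def orbF (B : Subgroup (Equiv.Perm Ω)) (ω : Ω) : Finset Ω :=
  Finset.univ.filter (fun x => ∃ a ∈ B, a ω = x)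

theorem mem_orbF {B : Subgroup (Equiv.Perm Ω)} {ω x : Ω} : x ∈ orbF B ω ↔ ∃ a ∈ B, a ω = x := by
  simp [orbF]

theorem card_eq (B : Subgroup (Equiv.Perm Ω)) (ω : Ω) :
    Nat.card B = Nat.card (B ⊓ MulAction.stabilizer (Equiv.Perm Ω) ω : Subgroup (Equiv.Perm Ω))
      * (orbF B ω).card := by
  have h1 := Subgroup.card_mul_index (MulAction.stabilizer ↥B ω)
  rw [MulAction.index_stabilizer] at h1
  have h2 : MulAction.orbit ↥B ω = ((orbF B ω : Finset Ω) : Set Ω) := by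
    ext x
    rw [Finset.mem_coe, mem_orbF]
    constructor
    · rintro ⟨b, rfl⟩
      exact ⟨b.1, b.2, rfl⟩
    · rintro ⟨a, ha, rfl⟩
      exact ⟨⟨a, ha⟩, rfl⟩
  rw [h2, Set.ncard_coe_finset] at h1
  rw [← h1]
  congr 1
  refine Nat.card_congr
    { toFun := fun x => ⟨x.1.1, x.1.2, x.2⟩
      invFun := fun x => ⟨⟨x.1, x.2.1⟩, x.2.2⟩
      left_inv := fun x => rfl
      right_inv := fun x => rfl }

theorem aux (p : ℕ) (hp : p.Prime) : ∀ m : ℕ, ∀ (A : Subgroup (Equiv.Perm Ω))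
    (hc : ∀ x ∈ A, ∀ y ∈ A, x * y = y * x), Nat.card A = m → IsPGroup p A →
    ∀ k, Nat.card (tor p A hc) = p ^ k → ∀ S : Finset Ω, (∀ a ∈ A, ∀ ω, a ω ≠ ω → ω ∈ S) →
    m * k ^ k ≤ S.card ^ k := by
  intro m
  induction m using Nat.strong_induction_on with
  | _ m ih =>
  intro A hc hm hA k hk S hS
  have : Fact p.Prime := ⟨hp⟩
  rcases Nat.eq_zero_or_pos k with hk0 | hkpos
  · subst hk0
    have hA1 : Nat.card A = 1 := by
      by_contra hne
      have hdvd : p ∣ Nat.card A := (hA.card_eq_or_dvd).resolve_left hne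
      obtain ⟨x, hx⟩ := exists_prime_orderOf_dvd_card' (G := ↥A) p hdvd
      have hxT : (x : Equiv.Perm Ω) ∈ tor p A hc := by
        refine ⟨x.2, ?_⟩
        rw [← Subgroup.coe_pow, ← hx, pow_orderOf_eq_one]
        rfl
      have hT1 : tor p A hc = ⊥ := Subgroup.card_eq_one.mp (by rw [hk, pow_zero])
      rw [hT1, Subgroup.mem_bot] at hxT
      have hx1 : x = 1 := Subtype.ext hxT
      rw [hx1, orderOf_one] at hx
      exact hp.one_lt.ne hx
    rw [← hm, hA1]
    simp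
  · have hTne : tor p A hc ≠ ⊥ := by
      intro h
      rw [h, Subgroup.card_bot] at hk
      have : 1 < p ^ k := Nat.one_lt_pow hkpos.ne' hp.one_lt
      omega
    obtain ⟨⟨z, hzT⟩, hz1⟩ := Subgroup.ne_bot_iff_exists_ne_one.mp hTne
    have hz1' : z ≠ 1 := fun h => hz1 (Subtype.ext h)
    obtain ⟨ω, hω⟩ : ∃ ω, z ω ≠ ω := by
      by_contra h
      push Not at h
      exact hz1' (Equiv.ext h)
    set K : Subgroup (Equiv.Perm Ω) := A ⊓ MulAction.stabilizer (Equiv.Perm Ω) ω with hKdef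
    have hKmem : ∀ g, g ∈ K ↔ g ∈ A ∧ g ω = ω := fun g => by
      rw [hKdef, Subgroup.mem_inf, MulAction.mem_stabilizer_iff, Equiv.Perm.smul_def]
    have hcK : ∀ x ∈ K, ∀ y ∈ K, x * y = y * x := fun x hx y hy =>
      hc x ((hKmem x).mp hx).1 y ((hKmem y).mp hy).1
    have hKfix : ∀ g ∈ K, ∀ x ∈ orbF A ω, g x = x := by
      intro g hg x hx
      obtain ⟨a, ha, rfl⟩ := mem_orbF.mp hx
      have h1 := hc g ((hKmem g).mp hg).1 a ha
      have h2 : g (a ω) = (g * a) ω := rfl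
      rw [h2, h1, Equiv.Perm.mul_apply, ((hKmem g).mp hg).2]
    have hOS : orbF A ω ⊆ S := by
      intro x hx
      obtain ⟨a, ha, rfl⟩ := mem_orbF.mp hx
      apply hS z hzT.1
      have h1 := hc z hzT.1 a ha
      have h2 : z (a ω) = (z * a) ω := rfl
      rw [h2, h1, Equiv.Perm.mul_apply]
      exact fun h => hω (a.injective h)
    have hKS : ∀ g ∈ K, ∀ x, g x ≠ x → x ∈ S \ orbF A ω := by
      intro g hg x hx
      rw [Finset.mem_sdiff]
      exact ⟨hS g ((hKmem g).mp hg).1 x hx, fun h => hx (hKfix g hg x h)⟩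
    have hcardA : Nat.card A = Nat.card K * (orbF A ω).card := card_eq A ω
    have hTK : tor p A hc ⊓ MulAction.stabilizer (Equiv.Perm Ω) ω = tor p K hcK := by
      ext x
      rw [Subgroup.mem_inf, mem_tor, mem_tor, hKmem, MulAction.mem_stabilizer_iff,
        Equiv.Perm.smul_def]
      tauto
    have hcardT : Nat.card (tor p A hc) = Nat.card (tor p K hcK) * (orbF (tor p A hc) ω).card := by
      rw [← hTK]
      exact card_eq (tor p A hc) ω
    have hTKp : IsPGroup p (tor p K hcK) :=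
      hA.to_le (fun x hx => ((hKmem x).mp (mem_tor.mp hx).1).1)
    obtain ⟨k', hk'⟩ := IsPGroup.iff_card.mp hTKp
    have hOT2 : 2 ≤ (orbF (tor p A hc) ω).card := by
      have h1 : ω ∈ orbF (tor p A hc) ω := mem_orbF.mpr ⟨1, Subgroup.one_mem _, rfl⟩
      have h2 : z ω ∈ orbF (tor p A hc) ω := mem_orbF.mpr ⟨z, hzT, rfl⟩
      exact Finset.one_lt_card.mpr ⟨z ω, h2, ω, h1, hω⟩
    have hOTO : orbF (tor p A hc) ω ⊆ orbF A ω := by
      intro x hx
      obtain ⟨a, ha, rfl⟩ := mem_orbF.mp hx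
      exact mem_orbF.mpr ⟨a, ha.1, rfl⟩
    rw [hk, hk'] at hcardT
    have hk'le : k' ≤ k := (Nat.pow_dvd_pow_iff_le_right hp.one_lt).mp ⟨_, hcardT⟩
    obtain ⟨d, rfl⟩ := Nat.exists_eq_add_of_le hk'le
    have hOTcard : (orbF (tor p A hc) ω).card = p ^ d := by
      rw [pow_add] at hcardT
      exact (Nat.eq_of_mul_eq_mul_left (Nat.pow_pos hp.pos) hcardT).symm
    have hd : 1 ≤ d := by
      by_contra h
      have h0 : d = 0 := by omega
      subst h0
      rw [pow_zero] at hOTcard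
      omega
    have hy : 2 ^ d ≤ (orbF A ω).card :=
      calc 2 ^ d ≤ p ^ d := Nat.pow_le_pow_left hp.two_le d
        _ = (orbF (tor p A hc) ω).card := hOTcard.symm
        _ ≤ (orbF A ω).card := Finset.card_le_card hOTO
    have hKlt : Nat.card K < m := by
      rw [← hm, hcardA]
      have h2 : 2 ≤ (orbF A ω).card := le_trans hOT2 (Finset.card_le_card hOTO)
      have hKpos : 0 < Nat.card K := Nat.card_pos
      nlinarith
    have hIH := ih (Nat.card K) hKlt K hcK rfl (hA.to_le inf_le_left) k' hk' (S \ orbF A ω) hKS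
    have hSO : (S \ orbF A ω).card + (orbF A ω).card = S.card :=
      Finset.card_sdiff_add_card_eq_card hOS
    rw [← hm, hcardA, ← hSO]
    exact arith (Nat.card K) (orbF A ω).card (S \ orbF A ω).card k' d hd hy hIH

end

/-- Let p be a prime, Ω a finite set with n ≥ p elements, and A an abelian p-subgroup of the symmetric group on Ω whose elements of order dividing p number p^k (so k is the rank of A). Then |A| · k^k ≤ n^k, that is, |A| ≤ (n/k)^k. -/
theorem result {Ω : Type*} [Fintype Ω] [DecidableEq Ω]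
    (p : ℕ) (hp : p.Prime) (hn : p ≤ Fintype.card Ω) (A : Subgroup (Equiv.Perm Ω)) (hA : IsPGroup p A) (hab : IsMulCommutative A)
    (k : ℕ) (hk : Nat.card {x : A // x ^ p = 1} = p ^ k) :
    Nat.card A * k ^ k ≤ Fintype.card Ω ^ k := by
  have hc : ∀ x ∈ A, ∀ y ∈ A, x * y = y * x := by
    intro x hx y hy
    have := hab.is_comm.comm ⟨x, hx⟩ ⟨y, hy⟩
    exact congrArg Subtype.val this
  have hk' : Nat.card (tor p A hc) = p ^ k := by
    rw [← hk]
    refine Nat.card_congr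
      { toFun := fun y => ⟨⟨y.1, y.2.1⟩, Subtype.ext y.2.2⟩
        invFun := fun x => ⟨x.1.1, x.1.2, congrArg Subtype.val x.2⟩
        left_inv := fun y => rfl
        right_inv := fun x => rfl }
  have h := aux p hp (Nat.card A) A hc rfl hA k hk' Finset.univ (fun _ _ ω _ => Finset.mem_univ ω)
  rwa [Finset.card_univ] at h

end Cfsg.Agent.S3696
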