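-- Statement S3703 (Mazurov's lemma on Frobenius quotients with cyclic complement).
import Cfsg.Statements.S3703
import Cfsg.Agent.Lib.Helper65.SplitNorm2
import Cfsg.Agent.Lib.Helper65.SylowAux

set_option autoImplicit false
open Cfsg

namespace Cfsg.Agent.S3703

open Cfsg.Agent.Lib.Helper65
open scoped Pointwise

section frob

variable {Q : Type*} [Group Q]

theorem frob_inf (H F : Subgroup Q) (hker : Cfsg.frobeniusKernel H = (F : Set Q)) {x : Q}
    (hxH : x ∈ H) (hxF : x ∈ F) : x = 1 := by
  have hx : x ∈ Cfsg.frobeniusKernel H := by rw [hker]; exact hxF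
  rcases hx with h | h
  · exact h
  · exact absurd (by simpa using hxH) (h 1)

theorem mem_conj_smul_iff (H : Subgroup Q) (g x : Q) :
    x ∈ MulAut.conj g • H ↔ g⁻¹ * x * g ∈ H := by
  rw [Subgroup.mem_pointwise_smul_iff_inv_smul_mem]
  have e : (MulAut.conj g)⁻¹ • x = g⁻¹ * x * g := by simp [MulAut.smul_def]
  rw [e]

theorem frob_comm (H F : Subgroup Q) (hH : Cfsg.IsFrobeniusComplement H)
    (hker : Cfsg.frobeniusKernel H = (F : Set Q)) {x y : Q} (hy : y ∉ F) (hx : x ∈ F)
    (hxy : x * y = y * x) : x = 1 := by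
  by_contra hx1
  have hyk : y ∉ Cfsg.frobeniusKernel H := by rw [hker]; exact hy
  have hxk : x ∈ Cfsg.frobeniusKernel H := by rw [hker]; exact hx
  have hyk' : ¬ (y = 1 ∨ ∀ g : Q, y ∉ MulAut.conj g • H) := hyk
  rw [not_or] at hyk'
  obtain ⟨hy1, hg'⟩ := hyk'
  push Not at hg'
  obtain ⟨g, hg⟩ := hg'
  have hxg : ∀ g : Q, x ∉ MulAut.conj g • H := by
    rcases hxk with h | h
    · exact absurd h hx1
    · exact h
  rw [mem_conj_smul_iff] at hg
  have hb : g⁻¹ * x * g ∉ H := by
    intro h
    exact hxg g ((mem_conj_smul_iff H g x).2 h)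
  have hab : g⁻¹ * y * g ∈ MulAut.conj (g⁻¹ * x * g) • H := by
    rw [mem_conj_smul_iff]
    have e : (g⁻¹ * x * g)⁻¹ * (g⁻¹ * y * g) * (g⁻¹ * x * g) = g⁻¹ * (x⁻¹ * (y * x)) * g := by
      group
    rw [e, ← hxy]
    have e2 : g⁻¹ * (x⁻¹ * (x * y)) * g = g⁻¹ * y * g := by group
    rw [e2]; exact hg
  have hbot := hH.2.2 _ hb
  have hmem : g⁻¹ * y * g ∈ H ⊓ MulAut.conj (g⁻¹ * x * g) • H := ⟨hg, hab⟩
  rw [hbot, Subgroup.mem_bot] at hmem
  apply hy1
  calc y = g * (g⁻¹ * y * g) * g⁻¹ := by group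
    _ = 1 := by rw [hmem]; group

theorem frob_coset (H F : Subgroup Q) [F.Normal] [Finite H] (hH : Cfsg.IsFrobeniusComplement H)
    (hker : Cfsg.frobeniusKernel H = (F : Set Q)) (h : Q) (hhH : h ∈ H)
    (hgen : ∀ z ∈ H, z ∈ Subgroup.zpowers h) (y : Q) (hy : h⁻¹ * y ∈ F) :
    y ∉ F ∧ y ^ Nat.card H = 1 ∧ ∀ j : ℕ, y ^ j ∈ F → Nat.card H ∣ j := by
  have hord : orderOf h = Nat.card H := by
    have h1 : orderOf (⟨h, hhH⟩ : H) = Nat.card H := by
      apply orderOf_eq_card_of_forall_mem_zpowers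
      intro z
      obtain ⟨k, hk⟩ := Subgroup.mem_zpowers_iff.1 (hgen z z.2)
      exact Subgroup.mem_zpowers_iff.2 ⟨k, Subtype.ext (by simpa using hk)⟩
    rw [← h1, Subgroup.orderOf_mk]
  have hyF : y ∉ F := by
    intro hyF
    have hhF : h ∈ F := by
      have e : h = y * (h⁻¹ * y)⁻¹ := by group
      rw [e]; exact F.mul_mem hyF (F.inv_mem hy)
    have h1 := frob_inf H F hker hhH hhF
    apply hH.1
    rw [eq_bot_iff]
    intro z hz
    obtain ⟨k, hk⟩ := Subgroup.mem_zpowers_iff.1 (hgen z hz)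
    rw [h1, one_zpow] at hk
    exact Subgroup.mem_bot.2 hk.symm
  refine ⟨hyF, ?_, ?_⟩
  · have hyk : y ∉ Cfsg.frobeniusKernel H := by rw [hker]; exact hyF
    have hyk' : ¬ (y = 1 ∨ ∀ g : Q, y ∉ MulAut.conj g • H) := hyk
    rw [not_or] at hyk'
    obtain ⟨-, hg'⟩ := hyk'
    push Not at hg'
    obtain ⟨g, hg⟩ := hg'
    rw [mem_conj_smul_iff] at hg
    have h1 : (g⁻¹ * y * g) ^ Nat.card H = 1 := by
      have h2 := pow_card_eq_one' (G := H) (x := ⟨_, hg⟩)
      exact congrArg Subtype.val h2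
    have e : y = g * (g⁻¹ * y * g) * g⁻¹ := by group
    rw [e, conj_pow, h1]
    group
  · intro j hj
    have hmk : (QuotientGroup.mk h : Q ⧸ F) = QuotientGroup.mk y := QuotientGroup.eq.2 hy
    have h1 : h ^ j ∈ F := by
      rw [← QuotientGroup.eq_one_iff, QuotientGroup.mk_pow, hmk, ← QuotientGroup.mk_pow]
      exact (QuotientGroup.eq_one_iff _).2 hj
    have h2 := frob_inf H F hker (H.pow_mem hhH j) h1
    rw [← hord]
    exact orderOf_dvd_of_pow_eq_one h2

end frob

/-- Let N be a normal subgroup of the finite group G such that G/N is a Frobenius group with kernel F and cyclic complement H, where the order of F is coprime to that of N and F is not contained in the image of C_G(N) in G/N. Then G has an element of order p·#H for some prime p dividing the order of N. (A standard tool in recognising groups by their element orders.) -/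
theorem result {G : Type*} [Group G] [Finite G] (N : Subgroup G) [N.Normal]
    (Fb Hb : Subgroup (G ⧸ N)) [Fb.Normal] (hHb : Cfsg.IsFrobeniusComplement Hb) (hker : Cfsg.frobeniusKernel Hb = (Fb : Set (G ⧸ N)))
    (hcyc : IsCyclic Hb) (hcop : (Nat.card Fb).Coprime (Nat.card N))
    (hnot : ¬ Fb ≤ (Subgroup.centralizer (N : Set G)).map (QuotientGroup.mk' N)) :
    ∃ p : ℕ, p.Prime ∧ p ∣ Nat.card N ∧ ∃ g : G, orderOf g = p * Nat.card Hb := by
  classical
  by_contra hcon
  apply hnot
  have hn : 0 < Nat.card Hb := Nat.card_pos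
  -- every element whose image has order `n` has order `n`
  have hP : ∀ x : G, orderOf (QuotientGroup.mk' N x) = Nat.card Hb → x ^ Nat.card Hb = 1 := by
    intro x hx
    by_contra hxn
    exact hcon (exists_orderOf_eq_prime_mul N (Nat.card Hb) hn x hx hxn)
  -- a generator of the complement and a preimage
  obtain ⟨hgen, hgen_spec⟩ := IsCyclic.exists_generator (α := Hb)
  obtain ⟨h₀, hh₀⟩ := QuotientGroup.mk_surjective (hgen : G ⧸ N)
  have hgenH : ∀ z ∈ Hb, z ∈ Subgroup.zpowers (hgen : G ⧸ N) := by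
    intro z hz
    obtain ⟨k, hk⟩ := Subgroup.mem_zpowers_iff.1 (hgen_spec ⟨z, hz⟩)
    refine Subgroup.mem_zpowers_iff.2 ⟨k, ?_⟩
    have := congrArg Subtype.val hk
    simpa using this
  -- the preimage of the kernel
  have hFn : (Fb.comap (QuotientGroup.mk' N)).Normal := Subgroup.Normal.comap inferInstance _
  have hNF : N ≤ Fb.comap (QuotientGroup.mk' N) := by
    intro x hx
    show QuotientGroup.mk' N x ∈ Fb
    rw [show QuotientGroup.mk' N x = 1 from (QuotientGroup.eq_one_iff x).2 hx]
    exact Fb.one_mem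
  have hcoset : ∀ c : G, h₀⁻¹ * c ∈ Fb.comap (QuotientGroup.mk' N) →
      (QuotientGroup.mk' N c ∉ Fb) ∧ (QuotientGroup.mk' N c) ^ Nat.card Hb = 1 ∧
        ∀ j : ℕ, (QuotientGroup.mk' N c) ^ j ∈ Fb → Nat.card Hb ∣ j := by
    intro c hc
    apply frob_coset Hb Fb hHb hker (hgen : G ⧸ N) hgen.2 hgenH
    rw [← hh₀]
    exact hc
  have hFZ : Fb.comap (QuotientGroup.mk' N) ≤ N ⊔ Subgroup.centralizer (N : Set G) := by
    rw [← Subgroup.relIndex_eq_one]
    by_contra hne
    obtain ⟨r, hr, hrdvd⟩ := Nat.exists_prime_and_dvd hne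
    have : Fact r.Prime := ⟨hr⟩
    have hrFb : r ∣ Nat.card Fb := by
      have h1 : (N ⊔ Subgroup.centralizer (N : Set G)).relIndex (Fb.comap (QuotientGroup.mk' N)) ∣
          N.relIndex (Fb.comap (QuotientGroup.mk' N)) :=
        Subgroup.relIndex_dvd_of_le_left _ le_sup_left
      have h2 : N.relIndex (Fb.comap (QuotientGroup.mk' N)) = Nat.card Fb := by
        have h := Subgroup.relIndex_comap (H := (⊥ : Subgroup (G ⧸ N))) (QuotientGroup.mk' N)
          (Fb.comap (QuotientGroup.mk' N))
        rw [MonoidHom.comap_bot, QuotientGroup.ker_mk',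
          Subgroup.map_comap_eq_self_of_surjective (QuotientGroup.mk'_surjective N),
          Subgroup.relIndex_bot_left] at h
        exact h
      exact hrdvd.trans (h2 ▸ h1)
    have hrN : ¬ r ∣ Nat.card N := by
      intro h
      have := Nat.dvd_gcd hrFb h
      rw [Nat.Coprime.gcd_eq_one hcop] at this
      exact hr.one_lt.ne' (Nat.dvd_one.1 this)
    obtain ⟨R₀⟩ : Nonempty (Sylow r (Fb.comap (QuotientGroup.mk' N))) := inferInstance
    have hRF : (R₀ : Subgroup (Fb.comap (QuotientGroup.mk' N))).map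
        (Fb.comap (QuotientGroup.mk' N)).subtype ≤ Fb.comap (QuotientGroup.mk' N) :=
      Subgroup.map_subtype_le _
    have hRcard : Nat.card ((R₀ : Subgroup (Fb.comap (QuotientGroup.mk' N))).map
        (Fb.comap (QuotientGroup.mk' N)).subtype) =
        r ^ (Nat.card (Fb.comap (QuotientGroup.mk' N))).factorization r := by
      rw [Subgroup.card_map_of_injective (Subgroup.subtype_injective _)]
      exact Sylow.card_eq_multiplicity R₀
    have hRN : Nat.Coprime (Nat.card ((R₀ : Subgroup (Fb.comap (QuotientGroup.mk' N))).map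
        (Fb.comap (QuotientGroup.mk' N)).subtype)) (Nat.card N) := by
      rw [hRcard]
      exact Nat.Coprime.pow_left _ ((Nat.Prime.coprime_iff_not_dvd hr).2 hrN)
    -- `N` centralises `R`
    have hNR : N ≤ Subgroup.centralizer (((R₀ : Subgroup (Fb.comap (QuotientGroup.mk' N))).map
        (Fb.comap (QuotientGroup.mk' N)).subtype : Subgroup G) : Set G) := by
      rw [← Subgroup.relIndex_eq_one]
      by_contra hne2
      obtain ⟨p, hp, hpdvd⟩ := Nat.exists_prime_and_dvd hne2
      have : Fact p.Prime := ⟨hp⟩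
      obtain ⟨P₀, c, hRP, hcP, hcR, hcF⟩ := exists_invariant_sylow N
        (Fb.comap (QuotientGroup.mk' N)) _ hNF r hrN hRF hRcard h₀ p
      obtain ⟨hc1, hc2, hc3⟩ := hcoset c hcF
      have hordc : orderOf (QuotientGroup.mk' N c) = Nat.card Hb := by
        apply Nat.dvd_antisymm (orderOf_dvd_of_pow_eq_one hc2)
        exact hc3 _ (by rw [pow_orderOf_eq_one]; exact Fb.one_mem)
      have hS1 : ∀ x ∈ (R₀ : Subgroup (Fb.comap (QuotientGroup.mk' N))).map
          (Fb.comap (QuotientGroup.mk' N)).subtype, ∀ v ∈ N,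
          (x * c * x⁻¹ * v) ^ Nat.card Hb = 1 := by
        intro x hx v hv
        apply hP
        have e : QuotientGroup.mk' N (x * c * x⁻¹ * v) =
            (MulAut.conj (QuotientGroup.mk' N x)).toMonoidHom (QuotientGroup.mk' N c) := by
          have hv1 : QuotientGroup.mk' N v = 1 := (QuotientGroup.eq_one_iff v).2 hv
          rw [map_mul, map_mul, map_mul, map_inv, hv1, mul_one]
          rfl
        rw [e, orderOf_injective _ (MulAut.conj _).injective, hordc]
      have hS4 : ∀ x ∈ (R₀ : Subgroup (Fb.comap (QuotientGroup.mk' N))).map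
          (Fb.comap (QuotientGroup.mk' N)).subtype, ∀ j : ℕ, 0 < j → j < Nat.card Hb →
          x * c ^ j = c ^ j * x → x = 1 := by
        intro x hx j hj0 hjn hcomm
        have hxF : QuotientGroup.mk' N x ∈ Fb := hRF hx
        have hcj : (QuotientGroup.mk' N c) ^ j ∉ Fb := by
          intro h
          have := Nat.le_of_dvd hj0 (hc3 j h)
          omega
        have hcomm' : QuotientGroup.mk' N x * (QuotientGroup.mk' N c) ^ j =
            (QuotientGroup.mk' N c) ^ j * QuotientGroup.mk' N x := by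
          rw [← map_pow, ← map_mul, ← map_mul, hcomm]
        have hx1 := frob_comm Hb Fb hHb hker hcj hxF hcomm'
        have hxN : x ∈ N := (QuotientGroup.eq_one_iff x).1 hx1
        have ho1 := Subgroup.orderOf_dvd_natCard _ hx
        have ho2 := Subgroup.orderOf_dvd_natCard N hxN
        have h5 := Nat.dvd_gcd ho1 ho2
        rw [Nat.Coprime.gcd_eq_one hRN] at h5
        exact orderOf_eq_one_iff.1 (Nat.dvd_one.1 h5)
      have hPp : IsPGroup p ((P₀ : Subgroup N).map N.subtype) := P₀.isPGroup'.map N.subtype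
      have : Group.IsNilpotent ((P₀ : Subgroup N).map N.subtype) := hPp.isNilpotent
      have hPsol : Group.IsSolvable ((P₀ : Subgroup N).map N.subtype) := inferInstance
      have hcent := centralizes_of_solvable _ N c (Nat.card Hb) hn hcR hS1 hS4 hRN _
        ((P₀ : Subgroup N).map N.subtype) rfl (Subgroup.map_subtype_le _) hPsol hRP hcP
      have hle : (P₀ : Subgroup N) ≤ (Subgroup.centralizer
          (((R₀ : Subgroup (Fb.comap (QuotientGroup.mk' N))).map
          (Fb.comap (QuotientGroup.mk' N)).subtype : Subgroup G) : Set G)).subgroupOf N := by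
        intro w hw
        rw [Subgroup.mem_subgroupOf, Subgroup.mem_centralizer_iff]
        intro x hx
        exact hcent x hx w ⟨w, hw, rfl⟩
      have h1 := Subgroup.index_dvd_of_le hle
      exact (Sylow.not_dvd_index P₀) (hpdvd.trans h1)
    have hRC : (R₀ : Subgroup (Fb.comap (QuotientGroup.mk' N))).map
        (Fb.comap (QuotientGroup.mk' N)).subtype ≤ Subgroup.centralizer (N : Set G) := by
      intro x hx
      rw [Subgroup.mem_centralizer_iff]
      intro y hy
      exact (Subgroup.mem_centralizer_iff.1 (hNR hy) x hx).symm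
    have hle : (R₀ : Subgroup (Fb.comap (QuotientGroup.mk' N))) ≤
        (N ⊔ Subgroup.centralizer (N : Set G)).subgroupOf (Fb.comap (QuotientGroup.mk' N)) := by
      intro w hw
      rw [Subgroup.mem_subgroupOf]
      exact (le_sup_right : _ ≤ N ⊔ Subgroup.centralizer (N : Set G)) (hRC ⟨w, hw, rfl⟩)
    have h1 := Subgroup.index_dvd_of_le hle
    exact (Sylow.not_dvd_index R₀) (hrdvd.trans h1)
  -- conclusion
  intro f hf
  obtain ⟨g, rfl⟩ := QuotientGroup.mk_surjective f
  have hg : g ∈ Fb.comap (QuotientGroup.mk' N) := hf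
  have hg3 : g ∈ ((N ⊔ Subgroup.centralizer (N : Set G) : Subgroup G) : Set G) := hFZ hg
  rw [Subgroup.normal_mul] at hg3
  obtain ⟨y, hy, z, hz, rfl⟩ := hg3
  refine ⟨z, hz, ?_⟩
  have hy1 : QuotientGroup.mk' N y = 1 := (QuotientGroup.eq_one_iff y).2 hy
  show QuotientGroup.mk' N z = QuotientGroup.mk' N (y * z)
  rw [map_mul, hy1, one_mul]

end Cfsg.Agent.S3703
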