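import Cfsg.Statements.S3762
import Cfsg.Agent.Lib.Helper77.SympE

set_option autoImplicit false
open Cfsg

namespace Cfsg.Agent.S3762

open Cfsg.Agent.Lib.Helper77.Symp

/-- Let G be a finite p-group of symplectic type: every characteristic abelian subgroup of G is cyclic. Then G = E ∗ R is a central product of subgroups E and R (they commute elementwise and generate G) where E is extraspecial or trivial, and R is cyclic, or p = 2 and R is dihedral, semidihedral or generalized quaternion of order at least 16. -/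
theorem result {G : Type*} [Group G] [Finite G] {p : ℕ} [Fact p.Prime] (hG : IsPGroup p G) (hsymp : ∀ A : Subgroup G, A.Characteristic → IsMulCommutative A → IsCyclic A) : ∃ E R : Subgroup G, (∀ e ∈ E, ∀ r ∈ R, e * r = r * e) ∧ E ⊔ R = ⊤ ∧ (E = ⊥ ∨ Cfsg.IsExtraspecial p ↥E) ∧ (IsCyclic R ∨ (p = 2 ∧ 16 ≤ Nat.card R ∧ ((∃ m : ℕ, Nonempty (↥R ≃* DihedralGroup m)) ∨ (∃ m : ℕ, Nonempty (↥R ≃* QuaternionGroup m)) ∨ Cfsg.IsQuasiDihedral ↥R))) := by
  have key : Concl p G := by
    by_cases hab : ∀ x y : G, x * y = y * x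
    · have hc : IsCyclic ↥(⊤ : Subgroup G) :=
        hsymp ⊤ inferInstance ⟨⟨fun x y => Subtype.ext (hab x.1 y.1)⟩⟩
      exact ⟨⊥, ⊤, fun e he r _ => by rw [Subgroup.mem_bot.mp he, one_mul, mul_one],
        bot_sup_eq _, Or.inl rfl, Or.inl hc⟩
    · obtain ⟨A, hAc, hAcomm, hAmax⟩ := exists_max_char (G := G)
      have hAcyc : IsCyclic ↥A :=
        hsymp A hAc ⟨⟨fun x y => Subtype.ext (hAcomm x.1 x.2 y.1 y.2)⟩⟩
      have hAne : A ≠ ⊥ := by
        intro h0
        have hnt : Nontrivial G := by
          by_contra hnt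
          rw [not_nontrivial_iff_subsingleton] at hnt
          exact hab (fun x y => Subsingleton.elim _ _)
        have hZ : Subgroup.center G ≤ A :=
          hAmax (Subgroup.center G) inferInstance
            (fun x hx y _ => (Subgroup.mem_center_iff.mp hx y).symm) (by rw [h0]; exact bot_le)
        rw [h0] at hZ
        exact (ne_of_gt hG.bot_lt_center) (le_antisymm hZ bot_le)
      obtain ⟨a, n, hn, hA, ha⟩ := cyc_gen hG A hAcyc hAne
      by_cases hCA : Subgroup.centralizer (A : Set G) ≤ A
      · exact case1 hG hsymp hab A hAc hAcyc a n hA ha hCA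
      · obtain ⟨B, hBc, hB, hZB, hCB, hBne⟩ := exists_B hG A a n hn hA ha hAmax hCA
        have S : Ctx p A B a n := ⟨hG, hAc, hBc, hA, ha, hn, hB, hZB, hCB, hBne, hAmax⟩
        rcases Nat.lt_or_ge n 2 with h1 | h2
        · exact concl_of_xs (S.case_n1 (by omega))
        · have hpow := S.pow_card_eq_one h2
          obtain ⟨E, hzE, hEB, hEA, hdec⟩ := S.exists_E hpow
          have T : ECtx p A B a n E := ⟨S, h2, hpow, hzE, hEB, hEA, hdec⟩
          exact T.case_n2 hsymp
  exact key

end Cfsg.Agent.S3762
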