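import Cfsg.Statements.S3799
import Cfsg.Agent.S3074
import Mathlib

set_option autoImplicit false
open Cfsg

namespace Cfsg.Agent.S3799

/-- the Heisenberg group of rank `n` over `ZMod p` -/
structure HeisN (p n : ℕ) where
  a : Fin n → ZMod p
  b : Fin n → ZMod p
  c : ZMod p

namespace HeisN

variable {p n : ℕ}

theorem ext' {x y : HeisN p n} (ha : x.a = y.a) (hb : x.b = y.b) (hc : x.c = y.c) : x = y := by
  cases x; cases y; simp_all

instance : Mul (HeisN p n) := ⟨fun x y => ⟨x.a + y.a, x.b + y.b, x.c + y.c + dotProduct x.a y.b⟩⟩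
instance : One (HeisN p n) := ⟨⟨0, 0, 0⟩⟩
instance : Inv (HeisN p n) := ⟨fun x => ⟨-x.a, -x.b, -x.c + dotProduct x.a x.b⟩⟩

@[simp] theorem mul_a (x y : HeisN p n) : (x * y).a = x.a + y.a := rfl
@[simp] theorem mul_b (x y : HeisN p n) : (x * y).b = x.b + y.b := rfl
@[simp] theorem mul_c (x y : HeisN p n) : (x * y).c = x.c + y.c + dotProduct x.a y.b := rfl
@[simp] theorem one_a : (1 : HeisN p n).a = 0 := rfl
@[simp] theorem one_b : (1 : HeisN p n).b = 0 := rfl
@[simp] theorem one_c : (1 : HeisN p n).c = 0 := rfl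
@[simp] theorem inv_a (x : HeisN p n) : (x⁻¹).a = -x.a := rfl
@[simp] theorem inv_b (x : HeisN p n) : (x⁻¹).b = -x.b := rfl
@[simp] theorem inv_c (x : HeisN p n) : (x⁻¹).c = -x.c + dotProduct x.a x.b := rfl

instance : Group (HeisN p n) where
  mul_assoc x y z := by
    apply ext'
    · simp [add_assoc]
    · simp [add_assoc]
    · simp [add_dotProduct, dotProduct_add]; ring
  one_mul x := by apply ext' <;> simp
  mul_one x := by apply ext' <;> simp
  inv_mul_cancel x := by apply ext' <;> simp

/-- as a product type -/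
def equivProd : HeisN p n ≃ (Fin n → ZMod p) × (Fin n → ZMod p) × ZMod p where
  toFun x := (x.a, x.b, x.c)
  invFun t := ⟨t.1, t.2.1, t.2.2⟩
  left_inv x := by cases x; rfl
  right_inv t := by rfl

theorem card_eq [Fact p.Prime] : Nat.card (HeisN p n) = p ^ (2 * n + 1) := by
  rw [Nat.card_congr equivProd, Nat.card_prod, Nat.card_prod, Nat.card_fun, Nat.card_zmod,
    Nat.card_fin]
  ring

instance [Fact p.Prime] : Finite (HeisN p n) := Nat.finite_of_card_ne_zero (by
  rw [card_eq]; exact pow_ne_zero _ (Fact.out : p.Prime).ne_zero)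

theorem pow_formula (x : HeisN p n) (k : ℕ) :
    x ^ k = ⟨(k : ZMod p) • x.a, (k : ZMod p) • x.b,
      k * x.c + (k.choose 2 : ℕ) * (dotProduct x.a x.b)⟩ := by
  induction k with
  | zero => apply ext' <;> simp
  | succ k ih =>
    rw [pow_succ, ih]
    apply ext'
    · ext i; simp; ring
    · ext i; simp; ring
    · simp [Nat.choose_succ_succ', Nat.choose_one_right]; ring

theorem pow_p_eq_one [Fact p.Prime] (hp : p ≠ 2) (x : HeisN p n) : x ^ p = 1 := by
  have hpp : p.Prime := Fact.out
  rw [pow_formula]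
  have h2 : (p.choose 2 : ZMod p) = 0 := by
    rw [ZMod.natCast_eq_zero_iff]
    apply Nat.Prime.dvd_choose_self hpp (by norm_num)
    have := hpp.two_le
    omega
  apply ext' <;> simp [h2]

theorem mem_center_iff [Fact p.Prime] (x : HeisN p n) :
    x ∈ Subgroup.center (HeisN p n) ↔ x.a = 0 ∧ x.b = 0 := by
  rw [Subgroup.mem_center_iff]
  constructor
  · intro h
    constructor
    · ext i
      have h0 := congrArg HeisN.c (h ⟨0, Pi.single i 1, 0⟩)
      simp at h0
      first | exact h0 | exact h0.symm
    · ext i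
      have h0 := congrArg HeisN.c (h ⟨Pi.single i 1, 0, 0⟩)
      simp at h0
      first | exact h0 | exact h0.symm
  · rintro ⟨ha, hb⟩ g
    apply ext' <;> simp [ha, hb] <;> ring

theorem comm_elt (x y : HeisN p n) :
    x * y * x⁻¹ * y⁻¹ = ⟨0, 0, dotProduct x.a y.b - dotProduct y.a x.b⟩ := by
  apply ext'
  · ext i; simp
  · ext i; simp
  · simp [add_dotProduct, dotProduct_add]; ring

theorem commutator_eq_center [Fact p.Prime] (i₀ : Fin n) :
    commutator (HeisN p n) = Subgroup.center (HeisN p n) := by
  apply le_antisymm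
  · rw [commutator_eq_closure, Subgroup.closure_le]
    rintro g ⟨x, y, rfl⟩
    rw [SetLike.mem_coe, mem_center_iff, commutatorElement_def, comm_elt]
    exact ⟨rfl, rfl⟩
  · intro z hz
    rw [mem_center_iff] at hz
    rw [commutator_eq_closure]
    apply Subgroup.subset_closure
    refine ⟨⟨Pi.single i₀ z.c, 0, 0⟩, ⟨0, Pi.single i₀ 1, 0⟩, ?_⟩
    rw [commutatorElement_def, comm_elt]
    apply ext' <;> simp [hz.1, hz.2]

/-- projection to a coordinate of the first block -/
def projA (i : Fin n) : HeisN p n →* Multiplicative (ZMod p) where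
  toFun x := Multiplicative.ofAdd (x.a i)
  map_one' := rfl
  map_mul' x y := rfl

/-- projection to a coordinate of the second block -/
def projB (i : Fin n) : HeisN p n →* Multiplicative (ZMod p) where
  toFun x := Multiplicative.ofAdd (x.b i)
  map_one' := rfl
  map_mul' x y := rfl

theorem frattini_eq_center [Fact p.Prime] (i₀ : Fin n) :
    frattini (HeisN p n) = Subgroup.center (HeisN p n) := by
  apply le_antisymm
  · intro x hx
    rw [mem_center_iff]
    constructor
    · ext i
      have hA : IsCoatom ((⊥ : Subgroup (Multiplicative (ZMod p))).comap (projA (p := p) (n := n) i)) :=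
        Subgroup.isCoatom_comap_of_surjective
          (fun y => ⟨⟨Pi.single i (Multiplicative.toAdd y), 0, 0⟩, by simp [projA]⟩)
          Cfsg.Agent.S3074.Heis.isCoatom_bot_zmod
      have h1 := frattini_le_coatom hA hx
      rw [Subgroup.mem_comap, Subgroup.mem_bot] at h1
      exact h1
    · ext i
      have hB : IsCoatom ((⊥ : Subgroup (Multiplicative (ZMod p))).comap (projB (p := p) (n := n) i)) :=
        Subgroup.isCoatom_comap_of_surjective
          (fun y => ⟨⟨0, Pi.single i (Multiplicative.toAdd y), 0⟩, by simp [projB]⟩)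
          Cfsg.Agent.S3074.Heis.isCoatom_bot_zmod
      have h1 := frattini_le_coatom hB hx
      rw [Subgroup.mem_comap, Subgroup.mem_bot] at h1
      exact h1
  · rw [frattini, Order.radical]
    apply le_iInf
    intro M
    apply le_iInf
    intro hM
    by_contra hZM
    have hsup : M ⊔ Subgroup.center (HeisN p n) = ⊤ := by
      by_contra hne
      have hlt : M < M ⊔ Subgroup.center (HeisN p n) := by
        apply lt_of_le_of_ne le_sup_left
        intro h
        apply hZM
        rw [h]
        exact le_sup_right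
      exact hne (hM.2 _ hlt)
    have hcomm : commutator (HeisN p n) ≤ M := by
      rw [commutator_eq_closure, Subgroup.closure_le]
      rintro g ⟨x, y, rfl⟩
      have hx : x ∈ M ⊔ Subgroup.center (HeisN p n) := hsup ▸ Subgroup.mem_top x
      have hy : y ∈ M ⊔ Subgroup.center (HeisN p n) := hsup ▸ Subgroup.mem_top y
      rw [Subgroup.mem_sup_of_normal_right] at hx hy
      obtain ⟨m, hm, z, hz, rfl⟩ := hx
      obtain ⟨m', hm', z', hz', rfl⟩ := hy
      rw [mem_center_iff] at hz hz'
      have h0 : (m * z) * (m' * z') * (m * z)⁻¹ * (m' * z')⁻¹ = m * m' * m⁻¹ * m'⁻¹ := by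
        rw [comm_elt, comm_elt]
        apply ext' <;> simp [hz.1, hz.2, hz'.1, hz'.2]
      rw [SetLike.mem_coe, commutatorElement_def, h0]
      exact M.mul_mem (M.mul_mem (M.mul_mem hm hm') (M.inv_mem hm)) (M.inv_mem hm')
    rw [commutator_eq_center i₀] at hcomm
    exact hZM hcomm

theorem card_center [Fact p.Prime] : Nat.card (Subgroup.center (HeisN p n)) = p := by
  have e : Subgroup.center (HeisN p n) ≃ ZMod p :=
    { toFun := fun z => z.1.c
      invFun := fun c => ⟨⟨0, 0, c⟩, (mem_center_iff _).mpr ⟨rfl, rfl⟩⟩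
      left_inv := by
        rintro ⟨z, hz⟩
        rw [mem_center_iff] at hz
        apply Subtype.ext
        apply ext' <;> simp [hz.1, hz.2]
      right_inv := fun c => rfl }
  rw [Nat.card_congr e, Nat.card_zmod]

theorem isExtraspecial [Fact p.Prime] (i₀ : Fin n) : IsExtraspecial p (HeisN p n) :=
  ⟨⟨IsPGroup.of_card card_eq, frattini_eq_center i₀, commutator_eq_center i₀⟩, card_center⟩

/-- the matrix of an element -/
def mat (x : HeisN p n) : Matrix (Unit ⊕ (Fin n ⊕ Unit)) (Unit ⊕ (Fin n ⊕ Unit)) (ZMod p) :=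
  fun u v => match u, v with
  | Sum.inl _, Sum.inl _ => 1
  | Sum.inl _, Sum.inr (Sum.inl j) => x.a j
  | Sum.inl _, Sum.inr (Sum.inr _) => x.c
  | Sum.inr (Sum.inl _), Sum.inl _ => 0
  | Sum.inr (Sum.inl i), Sum.inr (Sum.inl j) => if i = j then 1 else 0
  | Sum.inr (Sum.inl i), Sum.inr (Sum.inr _) => x.b i
  | Sum.inr (Sum.inr _), Sum.inl _ => 0
  | Sum.inr (Sum.inr _), Sum.inr (Sum.inl _) => 0
  | Sum.inr (Sum.inr _), Sum.inr (Sum.inr _) => 1

theorem mat_one : mat (1 : HeisN p n) = 1 := by
  ext u v
  rcases u with u | u | u <;> rcases v with v | v | v <;>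
    simp [mat, Matrix.one_apply]

theorem mat_mul (x y : HeisN p n) : mat (x * y) = mat x * mat y := by
  ext u v
  rcases u with u | u | u <;> rcases v with v | v | v <;>
    simp [mat, Matrix.mul_apply, Fintype.sum_sum_type, dotProduct]
  all_goals ring

theorem mat_injective : Function.Injective (mat (p := p) (n := n)) := by
  intro x y h
  apply ext'
  · ext j
    exact congrFun (congrFun h (Sum.inl ())) (Sum.inr (Sum.inl j))
  · ext i
    exact congrFun (congrFun h (Sum.inr (Sum.inl i))) (Sum.inr (Sum.inr ()))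
  · exact congrFun (congrFun h (Sum.inl ())) (Sum.inr (Sum.inr ()))

/-- the matrix representation as a monoid hom -/
def matHom : HeisN p n →* Matrix (Unit ⊕ (Fin n ⊕ Unit)) (Unit ⊕ (Fin n ⊕ Unit)) (ZMod p) where
  toFun := mat
  map_one' := mat_one
  map_mul' := mat_mul

/-- index equivalence -/
noncomputable def idxEquiv (n : ℕ) : (Unit ⊕ (Fin n ⊕ Unit)) ≃ Fin (n + 2) :=
  Fintype.equivFinOfCardEq (by simp; omega)

/-- the matrix representation over `Fin (n+2)` -/
noncomputable def matHom' : HeisN p n →* Matrix (Fin (n + 2)) (Fin (n + 2)) (ZMod p) :=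
  ((Matrix.reindexAlgEquiv (ZMod p) (ZMod p) (idxEquiv n)).toAlgHom.toRingHom : _ →* _).comp matHom

theorem matHom'_injective : Function.Injective (matHom' (p := p) (n := n)) := by
  intro x y h
  apply mat_injective
  exact (Matrix.reindexAlgEquiv (ZMod p) (ZMod p) (idxEquiv n)).injective h

/-- the embedding into the general linear group -/
noncomputable def glHom : HeisN p n →* Matrix.GeneralLinearGroup (Fin (n + 2)) (ZMod p) :=
  (matHom' (p := p) (n := n)).toHomUnits

theorem glHom_injective : Function.Injective (glHom (p := p) (n := n)) := by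
  intro x y h
  apply matHom'_injective
  have := congrArg (fun u : Matrix.GeneralLinearGroup (Fin (n + 2)) (ZMod p) =>
    (u : Matrix (Fin (n + 2)) (Fin (n + 2)) (ZMod p))) h
  simpa [glHom] using this

end HeisN

/-- For every odd prime p and every n ≥ 1 there is an extraspecial p-group of order p^(1+2n) and exponent p; concretely, the general linear group of degree n + 2 over the field with p elements contains such a subgroup. -/
theorem result (p : ℕ) [Fact p.Prime] (hp : p ≠ 2) (n : ℕ) (hn : 1 ≤ n) : ∃ E : Subgroup (Matrix.GeneralLinearGroup (Fin (n + 2)) (ZMod p)), Cfsg.IsExtraspecial p ↥E ∧ Nat.card E = p ^ (1 + 2 * n) ∧ ∀ x ∈ E, x ^ p = 1 := by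
  refine ⟨(HeisN.glHom (p := p) (n := n)).range,
    Cfsg.Agent.S3074.isExtraspecial_of_equiv p (MonoidHom.ofInjective HeisN.glHom_injective)
      (HeisN.isExtraspecial ⟨0, hn⟩), ?_, ?_⟩
  · rw [← Nat.card_congr (MonoidHom.ofInjective (HeisN.glHom_injective (p := p) (n := n))).toEquiv,
      HeisN.card_eq]
    ring_nf
  · rintro x ⟨h, rfl⟩
    rw [← map_pow, HeisN.pow_p_eq_one hp, map_one]

end Cfsg.Agent.S3799
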