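import Cfsg.Statements.S3802
import Mathlib

set_option autoImplicit false
open Cfsg

namespace Cfsg.Agent.S3802

variable {G : Type*} [Group G]

/-- `L` is a minimal nontrivial subgroup among those contained in `K` and normalized by `K`. -/
def IsMinNormalIn (K L : Subgroup G) : Prop :=
  L ≠ ⊥ ∧ L ≤ K ∧ K ≤ Subgroup.normalizer (L : Set G) ∧
    ∀ L' : Subgroup G, L' ≤ L → L' ≠ ⊥ → K ≤ Subgroup.normalizer (L' : Set G) → L' = L

abbrev cj (g : G) (H : Subgroup G) : Subgroup G := H.map (MulAut.conj g).toMonoidHom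

theorem cj_mul (H : Subgroup G) (a b : G) : cj (a * b) H = cj a (cj b H) := by
  unfold cj
  rw [Subgroup.map_map]
  congr 1
  ext x
  simp [MulAut.conj_apply, mul_assoc]

theorem cj_one (H : Subgroup G) : cj (1 : G) H = H := by
  unfold cj
  ext y
  simp

theorem cj_inv_cj (H : Subgroup G) (a : G) : cj a⁻¹ (cj a H) = H := by
  rw [← cj_mul, inv_mul_cancel, cj_one]

theorem cj_cj_inv (H : Subgroup G) (a : G) : cj a (cj a⁻¹ H) = H := by
  rw [← cj_mul, mul_inv_cancel, cj_one]

theorem cj_mono {H K : Subgroup G} (h : H ≤ K) (a : G) : cj a H ≤ cj a K :=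
  Subgroup.map_mono h

theorem cj_ne_bot {H : Subgroup G} (h : H ≠ ⊥) (a : G) : cj a H ≠ ⊥ := by
  intro h'
  apply h
  have := congrArg (cj a⁻¹) h'
  rw [cj_inv_cj] at this
  rw [this]
  unfold cj
  exact Subgroup.map_bot _

theorem cj_normalizer (H : Subgroup G) (a : G) :
    cj a (Subgroup.normalizer (H : Set G)) = Subgroup.normalizer ((cj a H : Subgroup G) : Set G) :=
  Subgroup.map_equiv_normalizer_eq H (MulAut.conj a)

theorem cj_of_mem_normalizer {H : Subgroup G} {a : G} (ha : a ∈ Subgroup.normalizer (H : Set G)) :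
    cj a H = H :=
  Subgroup.mem_normalizer_iff_map_conj_eq.mp ha

theorem isMinNormalIn_cj {K L : Subgroup G} (h : IsMinNormalIn K L) (g : G) :
    IsMinNormalIn (cj g K) (cj g L) := by
  obtain ⟨h1, h2, h3, h4⟩ := h
  refine ⟨cj_ne_bot h1 g, cj_mono h2 g, ?_, ?_⟩
  · rw [← cj_normalizer]
    exact cj_mono h3 g
  · intro L' hL' hne hK
    have h5 : cj g⁻¹ L' ≤ L := by
      have := cj_mono hL' g⁻¹
      rwa [cj_inv_cj] at this
    have h6 : K ≤ Subgroup.normalizer ((cj g⁻¹ L' : Subgroup G) : Set G) := by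
      rw [← cj_normalizer]
      have := cj_mono hK g⁻¹
      rwa [cj_inv_cj] at this
    have h7 := h4 (cj g⁻¹ L') h5 (cj_ne_bot hne g⁻¹) h6
    rw [← h7, cj_cj_inv]

theorem exists_minNormal [Finite G] (K L₀ : Subgroup G) (h0 : L₀ ≠ ⊥) (hK : K ≤ Subgroup.normalizer (L₀ : Set G))
    (hLK : L₀ ≤ K) : ∃ L, L ≤ L₀ ∧ IsMinNormalIn K L := by
  obtain ⟨L, hLL₀, hmin⟩ := exists_minimal_le_of_wellFoundedLT
    (fun L : Subgroup G => L ≠ ⊥ ∧ K ≤ Subgroup.normalizer (L : Set G)) L₀ ⟨h0, hK⟩
  refine ⟨L, hLL₀, hmin.1.1, hLL₀.trans hLK, hmin.1.2, ?_⟩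
  intro L' hL' hne hKL'
  exact le_antisymm hL' (hmin.2 ⟨hne, hKL'⟩ hL')

theorem normalizer_inf_le {K A B : Subgroup G} (hA : K ≤ Subgroup.normalizer (A : Set G))
    (hB : K ≤ Subgroup.normalizer (B : Set G)) : K ≤ Subgroup.normalizer ((A ⊓ B : Subgroup G) : Set G) := by
  rw [Subgroup.le_normalizer_iff] at hA hB ⊢
  intro k hk x hx
  exact ⟨hA k hk x hx.1, hB k hk x hx.2⟩

theorem chain_le (f : ℕ → Subgroup G) (n : ℕ) (h : ∀ i < n, f i ≤ f (i + 1)) : f 0 ≤ f n := by
  induction n with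
  | zero => exact le_rfl
  | succ n ih =>
    exact (ih (fun i hi => h i (Nat.lt_succ_of_lt hi))).trans (h n (Nat.lt_succ_self n))

/-- Wielandt: a minimal normal subgroup normalizes every subnormal subgroup (chain form). -/
theorem wielandt [Finite G] : ∀ (n : ℕ) (f : ℕ → Subgroup G),
    (∀ i < n, f i ≤ f (i + 1) ∧ f (i + 1) ≤ Subgroup.normalizer (f i : Set G)) →
    ∀ L, IsMinNormalIn (f n) L → L ≤ Subgroup.normalizer (f 0 : Set G) := by
  intro n
  induction n with
  | zero =>
    intro f _ L hL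
    exact hL.2.1.trans Subgroup.le_normalizer
  | succ n ih =>
    intro f hf L hL
    have hf' : ∀ i < n, f i ≤ f (i + 1) ∧ f (i + 1) ≤ Subgroup.normalizer (f i : Set G) :=
      fun i hi => hf i (Nat.lt_succ_of_lt hi)
    obtain ⟨hK₁K, hKn⟩ := hf n (Nat.lt_succ_self n)
    have h0K₁ : f 0 ≤ f n := chain_le f n (fun i hi => (hf' i hi).1)
    obtain ⟨hL1, hL2, hL3, hL4⟩ := hL
    by_cases hcase : L ⊓ f n = ⊥
    · rw [Subgroup.le_normalizer_iff]
      intro l hl h hh
      have hk : h ∈ f n := h0K₁ hh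
      have hcomm : l * h * l⁻¹ * h⁻¹ ∈ L ⊓ f n := by
        constructor
        · have h1 : h * l⁻¹ * h⁻¹ ∈ L :=
            (Subgroup.le_normalizer_iff.mp hL3) h (hK₁K hk) l⁻¹ (L.inv_mem hl)
          have h2 : l * h * l⁻¹ * h⁻¹ = l * (h * l⁻¹ * h⁻¹) := by group
          rw [h2]
          exact L.mul_mem hl h1
        · have h1 : l * h * l⁻¹ ∈ f n :=
            (Subgroup.le_normalizer_iff.mp hKn) l (hL2 hl) h hk
          exact (f n).mul_mem h1 ((f n).inv_mem hk)
      rw [hcase, Subgroup.mem_bot] at hcomm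
      have h3 : l * h * l⁻¹ = h := by
        have : l * h * l⁻¹ = (l * h * l⁻¹ * h⁻¹) * h := by group
        rw [this, hcomm, one_mul]
      rw [h3]
      exact hh
    · have hLK₁ : L ≤ f n := by
        have h1 := hL4 (L ⊓ f n) inf_le_left hcase (normalizer_inf_le hL3 hKn)
        rw [← h1]
        exact inf_le_right
      obtain ⟨L₁, hL₁L, hL₁⟩ := exists_minNormal (f n) L hL1 (hK₁K.trans hL3) hLK₁
      have hconj : ∀ g ∈ f (n + 1), cj g L₁ ≤ Subgroup.normalizer (f 0 : Set G) := by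
        intro g hg
        have h1 := isMinNormalIn_cj hL₁ g
        rw [cj_of_mem_normalizer (hKn hg)] at h1
        exact ih f hf' (cj g L₁) h1
      set J : Subgroup G := ⨆ g : f (n + 1), cj (g : G) L₁ with hJ
      have hJL : J ≤ L := by
        apply iSup_le
        intro g
        have h1 := cj_mono hL₁L (g : G)
        rwa [cj_of_mem_normalizer (hL3 g.2)] at h1
      have hJne : J ≠ ⊥ := by
        intro hbot
        have h1 : cj ((1 : f (n + 1)) : G) L₁ ≤ J := le_iSup (fun g : f (n + 1) => cj (g : G) L₁) 1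
        rw [hbot, OneMemClass.coe_one, cj_one, le_bot_iff] at h1
        exact hL₁.1 h1
      have hJn : f (n + 1) ≤ Subgroup.normalizer (J : Set G) := by
        rw [Subgroup.le_normalizer_iff]
        intro k hk x hx
        have h1 : cj k J ≤ J := by
          rw [hJ]
          unfold cj
          rw [Subgroup.map_iSup]
          apply iSup_le
          intro g
          have h2 := cj_mul L₁ k (g : G)
          unfold cj at h2
          rw [← h2]
          exact le_iSup (fun g : f (n + 1) => cj (g : G) L₁) ⟨k * g, (f (n + 1)).mul_mem hk g.2⟩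
        exact h1 ⟨x, hx, rfl⟩
      have hJeq := hL4 J hJL hJne hJn
      rw [← hJeq]
      apply iSup_le
      intro g
      exact hconj g g.2

/-- Let G be a finite group, M a maximal subgroup of G and N a subnormal subgroup of G contained in M. Then N is contained in every conjugate of M, that is, N lies in the core of M in G. -/
theorem result {G : Type*} [Group G] [Finite G] (M N : Subgroup G) (hM : IsCoatom M) (hN : N.IsSubnormal) (hNM : N ≤ M) :
    N ≤ Subgroup.normalCore M := by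
  set K := Subgroup.normalCore M with hK
  have hKM : K ≤ M := Subgroup.normalCore_le M
  set π := QuotientGroup.mk' K with hπ
  have hπs : Function.Surjective π := QuotientGroup.mk'_surjective K
  have hker : π.ker = K := QuotientGroup.ker_mk' K
  have hNsub : (N.map π).IsSubnormal := hN.map hπs
  obtain ⟨n, f, hfm, hfn, hf0, hftop⟩ := Subgroup.IsSubnormal.isSubnormal_iff.mp hNsub
  have hntriv : (⊤ : Subgroup (G ⧸ K)) ≠ ⊥ := by
    intro h
    have h1 : K = ⊤ := by
      rw [← hker, MonoidHom.ker_eq_top_iff]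
      ext x
      have : π x ∈ (⊤ : Subgroup (G ⧸ K)) := Subgroup.mem_top _
      rw [h, Subgroup.mem_bot] at this
      simpa using this
    exact hM.1 (top_le_iff.mp (h1 ▸ hKM))
  obtain ⟨A', -, hA'⟩ := exists_minNormal (⊤ : Subgroup (G ⧸ K)) ⊤ hntriv Subgroup.le_normalizer le_rfl
  have hchain : ∀ i < n, f i ≤ f (i + 1) ∧ f (i + 1) ≤ Subgroup.normalizer (f i : Set (G ⧸ K)) := by
    intro i _
    have h1 : f i ≤ f (i + 1) := hfm (Nat.le_succ i)
    exact ⟨h1, (Subgroup.normal_subgroupOf_iff_le_normalizer h1).mp (hfn i)⟩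
  have hA'N : A' ≤ Subgroup.normalizer ((N.map π : Subgroup (G ⧸ K)) : Set (G ⧸ K)) := by
    have := wielandt n f hchain A' (hftop ▸ hA')
    rwa [hf0] at this
  have hA'n : A'.Normal := Subgroup.normalizer_eq_top_iff.mp (top_le_iff.mp hA'.2.2.1)
  set A := A'.comap π with hA
  have hAn : A.Normal := hA'n.comap π
  have hAM : ¬ A ≤ M := by
    intro hle
    have h1 : A ≤ K := Subgroup.normal_le_normalCore.mpr hle
    have h2 : A' ≤ ⊥ := by
      intro q hq
      obtain ⟨g, rfl⟩ := hπs q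
      have hg : g ∈ A := hq
      have : g ∈ π.ker := by rw [hker]; exact h1 hg
      rw [Subgroup.mem_bot]
      exact this
    exact hA'.1 (le_bot_iff.mp h2)
  have htop : M ⊔ A = ⊤ := by
    by_contra hne
    have h1 : M ⊔ A ≤ M := by
      have := hM.2 (M ⊔ A)
      by_contra h2
      exact hne (this (lt_of_le_of_ne le_sup_left (fun h3 => h2 (h3 ▸ le_rfl))))
    exact hAM (le_sup_right.trans h1)
  have hAact : ∀ a ∈ A, ∀ x ∈ N, a * x * a⁻¹ ∈ M := by
    intro a ha x hx
    have h1 : π a ∈ Subgroup.normalizer ((N.map π : Subgroup (G ⧸ K)) : Set (G ⧸ K)) := hA'N ha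
    have h2 : π a * π x * (π a)⁻¹ ∈ N.map π :=
      (Subgroup.mem_normalizer_iff.mp h1 (π x)).mp ⟨x, hx, rfl⟩
    have h3 : a * x * a⁻¹ ∈ (N.map π).comap π := by
      rw [Subgroup.mem_comap]
      simpa using h2
    rw [Subgroup.comap_map_eq, hker] at h3
    exact (sup_le hNM hKM) h3
  intro x hx g
  have hg : g ∈ M ⊔ A := htop ▸ Subgroup.mem_top g
  obtain ⟨m, hm, a, ha, rfl⟩ := Subgroup.mem_sup_of_normal_right.mp hg
  have h1 : m * a * x * (m * a)⁻¹ = m * (a * x * a⁻¹) * m⁻¹ := by group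
  rw [h1]
  exact M.mul_mem (M.mul_mem hm (hAact a ha x hx)) (M.inv_mem hm)

end Cfsg.Agent.S3802
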