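import Cfsg.Statements.S3815
import Mathlib

set_option autoImplicit false
open Cfsg

namespace Cfsg.Agent.S3815

/-- Let G be a finite group, p a prime and d ∈ G an element of order prime to p. If dg has order prime to p for every element g ∈ G of order prime to p, then d ∈ O_{p'}(G). -/
theorem result {G : Type*} [Group G] [Finite G] {p : ℕ} [Fact p.Prime]
    (d : G) (hd : (orderOf d).Coprime p)
    (h : ∀ g : G, (orderOf g).Coprime p → (orderOf (d * g)).Coprime p) :
    d ∈ Cfsg.pPrimeCore p G := by
  let D : Subgroup G :=
    { carrier := {d | ∀ g : G, (orderOf g).Coprime p → (orderOf (d * g)).Coprime p}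
      mul_mem' := by
        intro a b ha hb g hg
        rw [mul_assoc]
        exact ha _ (hb g hg)
      one_mem' := by
        intro g hg
        simpa using hg
      inv_mem' := by
        intro a ha
        have hpow : ∀ n : ℕ, ∀ g : G, (orderOf g).Coprime p → (orderOf (a ^ n * g)).Coprime p := by
          intro n
          induction n with
          | zero => intro g hg; simpa using hg
          | succ n ih => intro g hg; rw [pow_succ', mul_assoc]; exact ha _ (ih g hg)
        have hinv : a⁻¹ = a ^ (orderOf a - 1) := by
          have hpos : 0 < orderOf a := orderOf_pos a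
          rw [inv_eq_iff_mul_eq_one, ← pow_succ', Nat.sub_add_cancel hpos, pow_orderOf_eq_one]
        intro g hg
        rw [hinv]
        exact hpow _ g hg }
  have hDn : D.Normal := by
    constructor
    intro a ha g k hk
    have h1 : g * a * g⁻¹ * k = MulAut.conj g (a * (g⁻¹ * k * g)) := by
      simp [MulAut.conj_apply]; group
    rw [h1, MulEquiv.orderOf_eq]
    apply ha
    have h2 : g⁻¹ * k * g = MulAut.conj g⁻¹ k := by simp
    rw [h2, MulEquiv.orderOf_eq]
    exact hk
  have hDc : (Nat.card D).Coprime p := by
    rw [Nat.coprime_comm, Nat.Prime.coprime_iff_not_dvd (Fact.out : p.Prime)]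
    intro hdvd
    obtain ⟨x, hx⟩ := exists_prime_orderOf_dvd_card' p hdvd
    have hx1 := x.2 1 (by simp)
    rw [mul_one, Subgroup.orderOf_coe, hx] at hx1
    exact (Fact.out : p.Prime).one_lt.ne' (by simpa using hx1)
  have hdD : d ∈ D := h
  exact (le_sSup (show D ∈ {N : Subgroup G | N.Normal ∧ (Nat.card N).Coprime p} from ⟨hDn, hDc⟩)) hdD

end Cfsg.Agent.S3815
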