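import Mathlib
import Cfsg.Statements.S3819
import Cfsg.Agent.Lib.Helper29.Balance
import Cfsg.Agent.S0026

set_option autoImplicit false
open Cfsg
open scoped commutatorElement

namespace Cfsg.Agent.S3819

open Cfsg.Agent.Lib

theorem mem_normalizer_of_conj {G : Type*} [Group G] {K : Subgroup G} {g : G}
    (h1 : ∀ x ∈ K, g * x * g⁻¹ ∈ K) (h2 : ∀ x ∈ K, g⁻¹ * x * g ∈ K) :
    g ∈ Subgroup.normalizer (K : Set G) := by
  rw [Subgroup.mem_normalizer_iff]
  intro x
  refine ⟨h1 x, fun hx => ?_⟩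
  have := h2 _ hx
  simpa [mul_assoc] using this

theorem le_normalizer_of_conj {G : Type*} [Group G] {K N : Subgroup G}
    (h : ∀ g ∈ N, ∀ x ∈ K, g * x * g⁻¹ ∈ K) : N ≤ Subgroup.normalizer (K : Set G) := by
  intro g hg
  refine mem_normalizer_of_conj (h g hg) (fun x hx => ?_)
  have := h g⁻¹ (N.inv_mem hg) x hx
  simpa using this

theorem core_conj {G : Type*} [Group G] (q : ℕ) (S : Subgroup G) (g : G)
    (hg : g ∈ Subgroup.normalizer (S : Set G)) {a : G} (ha : a ∈ Helper31.coreOf q S) :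
    g * a * g⁻¹ ∈ Helper31.coreOf q S := by
  have h := Helper31.coreOf_map q (MulAut.conj g) S
  have h2 : S.map (MulAut.conj g).toMonoidHom = S :=
    Subgroup.mem_normalizer_iff_map_conj_eq.mp hg
  rw [h2] at h
  rw [← h]
  exact ⟨a, ha, by simp⟩

theorem core_coprime {G : Type*} [Group G] [Finite G] (q : ℕ) (S : Subgroup G) :
    (Nat.card (Helper31.coreOf q S)).Coprime q := by
  unfold Helper31.coreOf
  rw [Subgroup.card_map_of_injective (Subgroup.subtype_injective _)]
  exact Helper30.pPrimeCore_coprime q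

theorem le_core {G : Type*} [Group G] [Finite G] (q : ℕ) {X S : Subgroup G} (hXS : X ≤ S)
    (hn : ∀ s ∈ S, ∀ x ∈ X, s * x * s⁻¹ ∈ X) (hc : (Nat.card X).Coprime q) :
    X ≤ Helper31.coreOf q S := by
  have h1 : (X.subgroupOf S).Normal := by
    rw [Subgroup.normal_subgroupOf_iff_le_normalizer hXS]
    exact le_normalizer_of_conj hn
  have := Helper31.coreOf_le_of_normal q hXS h1
  rwa [Helper31.coreOf_eq_self_of_coprime hc] at this

theorem conj_sup_mem {G : Type*} [Group G] {U W : Subgroup G} {g : G}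
    (h1 : ∀ u ∈ U, g * u * g⁻¹ ∈ U ⊔ W) (h2 : ∀ w ∈ W, g * w * g⁻¹ ∈ U ⊔ W) :
    ∀ x ∈ U ⊔ W, g * x * g⁻¹ ∈ U ⊔ W := by
  have h : U ⊔ W ≤ (U ⊔ W).comap (MulAut.conj g).toMonoidHom := by
    apply sup_le
    · intro u hu
      rw [Subgroup.mem_comap]
      simpa using h1 u hu
    · intro w hw
      rw [Subgroup.mem_comap]
      simpa using h2 w hw
  intro x hx
  have := h hx
  rw [Subgroup.mem_comap] at this
  simpa using this

theorem solvable_sup_comm {G : Type*} [Group G] (L T : Subgroup G) [hLn : L.Normal]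
    (hL : Group.IsSolvable L) (hT : ∀ s ∈ T, ∀ t ∈ T, s * t = t * s) :
    Group.IsSolvable ↥(L ⊔ T) := by
  have hLM : L ≤ L ⊔ T := le_sup_left
  have hmap : (L ⊔ T).map (QuotientGroup.mk' L) = T.map (QuotientGroup.mk' L) := by
    rw [Subgroup.map_sup, QuotientGroup.map_mk'_self, bot_sup_eq]
  have hcomm : ∀ a ∈ L ⊔ T, ∀ b ∈ L ⊔ T, b⁻¹ * a⁻¹ * b * a ∈ L := by
    intro a ha b hb
    have ha' : QuotientGroup.mk' L a ∈ T.map (QuotientGroup.mk' L) := by
      rw [← hmap]; exact Subgroup.mem_map_of_mem _ ha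
    have hb' : QuotientGroup.mk' L b ∈ T.map (QuotientGroup.mk' L) := by
      rw [← hmap]; exact Subgroup.mem_map_of_mem _ hb
    obtain ⟨s, hs, hsa⟩ := ha'
    obtain ⟨t, ht, htb⟩ := hb'
    rw [← QuotientGroup.eq_one_iff, ← QuotientGroup.mk'_apply]
    simp only [map_mul, map_inv]
    rw [← hsa, ← htb, ← map_inv, ← map_inv, ← map_mul, ← map_mul, ← map_mul]
    have : t⁻¹ * s⁻¹ * t * s = 1 := by
      have h := hT t ht s hs
      calc t⁻¹ * s⁻¹ * t * s = t⁻¹ * s⁻¹ * (t * s) := by group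
        _ = 1 := by rw [h]; group
    rw [this, map_one]
  haveI : Group.IsSolvable (↥(L ⊔ T) ⧸ L.subgroupOf (L ⊔ T)) := by
    apply Group.isSolvable_of_comm
    intro a b
    induction a using QuotientGroup.induction_on with
    | H a =>
      induction b using QuotientGroup.induction_on with
      | H b =>
        rw [← QuotientGroup.mk_mul, ← QuotientGroup.mk_mul, QuotientGroup.eq]
        rw [Subgroup.mem_subgroupOf]
        have := hcomm a.1 a.2 b.1 b.2
        simpa [mul_assoc] using this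
  haveI := hL
  refine Group.isSolvable_of_ker_le_range (Subgroup.inclusion hLM)
    (QuotientGroup.mk' (L.subgroupOf (L ⊔ T))) ?_
  rw [QuotientGroup.ker_mk']
  intro x hx
  rw [Subgroup.mem_subgroupOf] at hx
  exact ⟨⟨x.1, hx⟩, Subtype.ext rfl⟩

/-- Let G be a finite group with Sylow p-subgroup P and H = O_{p'}(G), and suppose G = PH and the commutator subgroup [H, P] is solvable. Let q be a prime and z an element of q-power order of C_H(P). Then (O_{q'}(C_H(z)) ∩ O_{q'}(C_H(P))) · [O_{q'}(C_H(z)), P] ≤ O_{q'}(H). -/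
theorem result {G : Type*} [Group G] [Finite G] {p : ℕ} [Fact p.Prime]
    (P : Sylow p G) (hPH : Cfsg.pPrimeCore p G ⊔ (P : Subgroup G) = ⊤)
    (hsol : Group.IsSolvable ↥⁅Cfsg.pPrimeCore p G, (P : Subgroup G)⁆)
    {q : ℕ} [Fact q.Prime] (z : G) (hzH : z ∈ Cfsg.pPrimeCore p G) (hzP : z ∈ Subgroup.centralizer ((P : Subgroup G) : Set G))
    (hz : ∃ k : ℕ, orderOf z = q ^ k) :
    ((Cfsg.pPrimeCore q ↥(Cfsg.pPrimeCore p G ⊓ Subgroup.centralizer ({z} : Set G))).map
        (Cfsg.pPrimeCore p G ⊓ Subgroup.centralizer ({z} : Set G)).subtype ⊓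
      (Cfsg.pPrimeCore q ↥(Cfsg.pPrimeCore p G ⊓ Subgroup.centralizer ((P : Subgroup G) : Set G))).map
        (Cfsg.pPrimeCore p G ⊓ Subgroup.centralizer ((P : Subgroup G) : Set G)).subtype) ⊔
    ⁅(Cfsg.pPrimeCore q ↥(Cfsg.pPrimeCore p G ⊓ Subgroup.centralizer ({z} : Set G))).map
        (Cfsg.pPrimeCore p G ⊓ Subgroup.centralizer ({z} : Set G)).subtype, (P : Subgroup G)⁆ ≤
    (Cfsg.pPrimeCore q ↥(Cfsg.pPrimeCore p G)).map (Cfsg.pPrimeCore p G).subtype := by
  classical
  have hHn : (Cfsg.pPrimeCore p G).Normal := Helper30.pPrimeCore_normal p G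
  have hHc : (Nat.card (Cfsg.pPrimeCore p G)).Coprime p := Helper30.pPrimeCore_coprime p
  generalize hHdef : Cfsg.pPrimeCore p G = H at *
  generalize hPgdef : (P : Subgroup G) = Pg at *
  have hPp : IsPGroup p Pg := by rw [← hPgdef]; exact P.isPGroup'
  show (Helper31.coreOf q (H ⊓ Subgroup.centralizer ({z} : Set G)) ⊓
      Helper31.coreOf q (H ⊓ Subgroup.centralizer (Pg : Set G))) ⊔
    ⁅Helper31.coreOf q (H ⊓ Subgroup.centralizer ({z} : Set G)), Pg⁆ ≤ Helper31.coreOf q H
  set CZ := H ⊓ Subgroup.centralizer ({z} : Set G) with hCZ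
  set CP := H ⊓ Subgroup.centralizer (Pg : Set G) with hCP
  set A := Helper31.coreOf q CZ with hA
  set B := Helper31.coreOf q CP with hB
  set L : Subgroup G := ⁅H, Pg⁆ with hL
  have hPN : Pg ≤ Subgroup.normalizer (H : Set G) := by
    rw [Subgroup.normalizer_eq_top]; exact le_top
  have hLH : L ≤ H := Helper1.commutator_le_of_le_normalizer hPN
  have hcop : (Nat.card Pg).Coprime (Nat.card H) := by
    obtain ⟨k, hk⟩ := IsPGroup.iff_card.mp hPp
    rw [hk]
    exact Nat.Coprime.pow_left k hHc.symm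
  have hPsolv : Group.IsSolvable Pg := by
    haveI := hPp.isNilpotent
    infer_instance
  have hdec : L ⊔ CP = H := Cfsg.Agent.S0026.result Pg H hPN hcop (Or.inl hPsolv)
  -- L is normal in G
  have hHL : ∀ h ∈ H, ∀ l ∈ L, h * l * h⁻¹ ∈ L := by
    intro h hh l hl
    have hle : L ≤ L.comap (MulAut.conj h).toMonoidHom := by
      rw [hL, Subgroup.commutator_def, Subgroup.closure_le]
      rintro _ ⟨k, hk, x, hx, rfl⟩
      show (MulAut.conj h) ⁅k, x⁆ ∈ Subgroup.closure _
      rw [← Subgroup.commutator_def]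
      have e : (MulAut.conj h) ⁅k, x⁆ = ⁅h * k, x⁆ * ⁅h, x⁆⁻¹ := by
        simp [commutatorElement_def, mul_assoc]
      rw [e]
      exact Subgroup.mul_mem _ (Subgroup.commutator_mem_commutator (H.mul_mem hh hk) hx)
        (Subgroup.inv_mem _ (Subgroup.commutator_mem_commutator hh hx))
    have := hle hl
    rw [Subgroup.mem_comap] at this
    simpa using this
  have hLn : L.Normal := by
    rw [← Subgroup.normalizer_eq_top_iff, eq_top_iff, ← hPH]
    exact sup_le (le_normalizer_of_conj hHL) (Helper1.le_normalizer_commutator hPN)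
  set W := Helper31.coreOf q L with hW
  have hWL : W ≤ L := Helper31.coreOf_le q L
  have hWn : ∀ g : G, ∀ w ∈ W, g * w * g⁻¹ ∈ W := by
    intro g w hw
    exact core_conj q L g (by rw [Subgroup.normalizer_eq_top]; trivial) hw
  have hWc : (Nat.card W).Coprime q := core_coprime q L
  have hWH : W ≤ Helper31.coreOf q H :=
    Helper31.coreOf_le_of_normal q hLH inferInstance
  have hACZ : A ≤ CZ := Helper31.coreOf_le q CZ
  have hAc : (Nat.card A).Coprime q := core_coprime q CZ
  have hAn : ∀ c ∈ CZ, ∀ a ∈ A, c * a * c⁻¹ ∈ A := by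
    intro c hc a ha
    exact core_conj q CZ c (Subgroup.le_normalizer hc) ha
  have hBn : ∀ c ∈ CP, ∀ a ∈ B, c * a * c⁻¹ ∈ B := by
    intro c hc a ha
    exact core_conj q CP c (Subgroup.le_normalizer hc) ha
  obtain ⟨kz, hkz⟩ := hz
  -- key lemma
  have key : ∀ y ∈ A, (∀ l ∈ L, l * y * l⁻¹ * y⁻¹ ∈ W) ∧ (y ∈ L → y ∈ W) := by
    intro y hy
    have hyCZ := hACZ hy
    have hyH : y ∈ H := hyCZ.1
    have hyz : y * z = z * y := Subgroup.mem_centralizer_singleton_iff.mp hyCZ.2
    set T : Subgroup G := Subgroup.closure {y, z} with hT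
    have hTH : T ≤ H := by
      rw [hT, Subgroup.closure_le]
      rintro x (rfl | rfl)
      · exact hyH
      · exact hzH
    have hTcomm : ∀ s ∈ T, ∀ t ∈ T, s * t = t * s := by
      have hc : ∀ a ∈ ({y, z} : Set G), ∀ b ∈ ({y, z} : Set G), a * b = b * a := by
        rintro a (rfl | rfl) b (rfl | rfl)
        · rfl
        · exact hyz
        · exact hyz.symm
        · rfl
      have hmc := Subgroup.isMulCommutative_closure hc
      intro s hs t ht
      have := hmc.is_comm.comm (⟨s, hs⟩ : Subgroup.closure ({y, z} : Set G)) ⟨t, ht⟩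
      exact congrArg Subtype.val this
    set M : Subgroup G := L ⊔ T with hM
    have hMH : M ≤ H := sup_le hLH hTH
    have hLM : L ≤ M := le_sup_left
    have hyM : y ∈ M := (le_sup_right : T ≤ M) (Subgroup.subset_closure (by simp))
    have hzM : z ∈ M := (le_sup_right : T ≤ M) (Subgroup.subset_closure (by simp))
    have hMsolv : Group.IsSolvable M := solvable_sup_comm L T hsol hTcomm
    have hBq : IsPGroup q (Subgroup.zpowers (⟨z, hzM⟩ : M)) := by
      apply IsPGroup.of_card (n := kz)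
      rw [Nat.card_zpowers, Subgroup.orderOf_mk, hkz]
    have hDB : (A ⊓ M).subgroupOf M ≤
        Subgroup.centralizer ((Subgroup.zpowers (⟨z, hzM⟩ : M) : Subgroup M) : Set M) := by
      intro d hd
      rw [Subgroup.mem_subgroupOf] at hd
      rw [Subgroup.mem_centralizer_iff]
      intro b hb
      obtain ⟨k, rfl⟩ := Subgroup.mem_zpowers_iff.mp hb
      have hdz : (d : G) * z = z * d :=
        Subgroup.mem_centralizer_singleton_iff.mp (hACZ hd.1).2
      have hcomm : Commute (⟨z, hzM⟩ : M) d := Subtype.ext hdz.symm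
      exact (hcomm.zpow_left k).eq
    have hDc : (Nat.card ((A ⊓ M).subgroupOf M)).Coprime q := by
      rw [Nat.card_congr (Subgroup.subgroupOfEquivOfLe (inf_le_right : A ⊓ M ≤ M)).toEquiv]
      exact Nat.Coprime.coprime_dvd_left (Subgroup.card_dvd_of_le inf_le_left) hAc
    have hDn : Subgroup.centralizer ((Subgroup.zpowers (⟨z, hzM⟩ : M) : Subgroup M) : Set M) ≤
        Subgroup.normalizer (((A ⊓ M).subgroupOf M : Subgroup M) : Set M) := by
      apply le_normalizer_of_conj
      intro m hm d hd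
      rw [Subgroup.mem_subgroupOf] at hd ⊢
      rw [Subgroup.mem_centralizer_iff] at hm
      have hmz := hm ⟨z, hzM⟩ (Subgroup.mem_zpowers _)
      have hmz' : z * (m : G) = m * z := congrArg Subtype.val hmz
      have hmCZ : (m : G) ∈ CZ :=
        ⟨hMH m.2, Subgroup.mem_centralizer_singleton_iff.mpr hmz'.symm⟩
      refine ⟨?_, (m * d * m⁻¹).2⟩
      simpa using hAn _ hmCZ _ hd.1
    have hbal := Helper29.le_pPrimeCore_of_solvable q hMsolv (Subgroup.zpowers (⟨z, hzM⟩ : M)) hBq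
      ((A ⊓ M).subgroupOf M) hDB hDc hDn
    have hyN : y ∈ Helper31.coreOf q M :=
      ⟨⟨y, hyM⟩, hbal (by rw [Subgroup.mem_subgroupOf]; exact ⟨hy, hyM⟩), rfl⟩
    have hXW : Helper31.coreOf q M ⊓ L ≤ W := by
      apply le_core q inf_le_right
      · intro s hs x hx
        exact ⟨core_conj q M s (Subgroup.le_normalizer (hLM hs)) hx.1, hLn.conj_mem x hx.2 s⟩
      · exact Nat.Coprime.coprime_dvd_left (Subgroup.card_dvd_of_le inf_le_left) (core_coprime q M)
    refine ⟨fun l hl => hXW ⟨?_, ?_⟩, fun hyL => hXW ⟨hyN, hyL⟩⟩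
    · exact Subgroup.mul_mem _ (core_conj q M l (Subgroup.le_normalizer (hLM hl)) hyN)
        (Subgroup.inv_mem _ hyN)
    · have e : l * y * l⁻¹ * y⁻¹ = l * (y * l⁻¹ * y⁻¹) := by group
      rw [e]
      exact L.mul_mem hl (hLn.conj_mem _ (L.inv_mem hl) y)
  -- Claim 2
  have hc2 : ⁅A, Pg⁆ ≤ Helper31.coreOf q H := by
    refine le_trans ?_ hWH
    rw [Subgroup.commutator_le]
    intro a ha x hx
    have hxz : x * z = z * x := (Subgroup.mem_centralizer_iff.mp hzP) x hx
    have hxCZ : x ∈ Subgroup.normalizer (CZ : Set G) := by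
      have hh : ∀ g : G, g * z = z * g → ∀ c ∈ CZ, g * c * g⁻¹ ∈ CZ := by
        intro g hg c hc
        refine Subgroup.mem_inf.mpr ⟨hHn.conj_mem c hc.1 g, ?_⟩
        rw [Subgroup.mem_centralizer_singleton_iff]
        have hcz : c * z = z * c := Subgroup.mem_centralizer_singleton_iff.mp hc.2
        have hg' : g⁻¹ * z = z * g⁻¹ := by
          have : z = g⁻¹ * z * g := by rw [mul_assoc, ← hg, ← mul_assoc, inv_mul_cancel, one_mul]
          calc g⁻¹ * z = g⁻¹ * z * g * g⁻¹ := by group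
            _ = z * g⁻¹ := by rw [← this]
        calc g * c * g⁻¹ * z = g * c * (g⁻¹ * z) := by group
          _ = g * (c * z) * g⁻¹ := by rw [hg']; group
          _ = g * z * c * g⁻¹ := by rw [hcz]; group
          _ = z * (g * c * g⁻¹) := by rw [hg]; group
      refine mem_normalizer_of_conj (hh x hxz) (fun c hc => ?_)
      have hxi : x⁻¹ * z = z * x⁻¹ := by
        have : z = x⁻¹ * z * x := by rw [mul_assoc, ← hxz, ← mul_assoc, inv_mul_cancel, one_mul]
        calc x⁻¹ * z = x⁻¹ * z * x * x⁻¹ := by group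
          _ = z * x⁻¹ := by rw [← this]
      have := hh x⁻¹ hxi c hc
      simpa using this
    have h1 : ⁅a, x⁆ ∈ A := by
      have e : ⁅a, x⁆ = a * (x * a⁻¹ * x⁻¹) := by
        rw [commutatorElement_def]; group
      rw [e]
      exact A.mul_mem ha (core_conj q CZ x hxCZ (A.inv_mem ha))
    have h2 : ⁅a, x⁆ ∈ L := Subgroup.commutator_mem_commutator (hACZ ha).1 hx
    exact (key _ h1).2 h2
  -- Claim 1
  let Cs : Subgroup G :=
    { carrier := {g | ∀ l ∈ L, l * g * l⁻¹ * g⁻¹ ∈ W}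
      mul_mem' := by
        intro a b ha hb l hl
        have e : l * (a * b) * l⁻¹ * (a * b)⁻¹ =
            (l * a * l⁻¹ * a⁻¹) * (a * (l * b * l⁻¹ * b⁻¹) * a⁻¹) := by group
        rw [e]
        exact W.mul_mem (ha l hl) (hWn a _ (hb l hl))
      one_mem' := by
        intro l hl
        simp
      inv_mem' := by
        intro a ha l hl
        have e : l * a⁻¹ * l⁻¹ * a⁻¹⁻¹ = a⁻¹ * (l * a * l⁻¹ * a⁻¹)⁻¹ * a⁻¹⁻¹ := by group
        rw [e]
        exact hWn a⁻¹ _ (W.inv_mem (ha l hl)) }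
  have hCs : ∀ g : G, g ∈ Cs ↔ ∀ l ∈ L, l * g * l⁻¹ * g⁻¹ ∈ W := fun g => Iff.rfl
  have hCsn : ∀ g : G, ∀ c ∈ Cs, g * c * g⁻¹ ∈ Cs := by
    intro g c hc
    rw [hCs] at hc ⊢
    intro l hl
    have e : l * (g * c * g⁻¹) * l⁻¹ * (g * c * g⁻¹)⁻¹ =
        g * ((g⁻¹ * l * g) * c * (g⁻¹ * l * g)⁻¹ * c⁻¹) * g⁻¹ := by group
    rw [e]
    refine hWn g _ (hc _ ?_)
    have := hLn.conj_mem l hl g⁻¹
    simpa using this
  have hYU : A ⊓ B ≤ B ⊓ Cs := fun y hy => ⟨hy.2, (hCs y).mpr (key y hy.1).1⟩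
  haveI hWnorm : W.Normal := ⟨fun w hw g => hWn g w hw⟩
  have hUWc : (Nat.card ↥((B ⊓ Cs) ⊔ W)).Coprime q := by
    rw [sup_comm]
    refine Nat.Coprime.coprime_dvd_left (Helper30.card_sup_dvd W (B ⊓ Cs)) ?_
    exact Nat.Coprime.mul_left hWc
      (Nat.Coprime.coprime_dvd_left (Subgroup.card_dvd_of_le inf_le_left) (core_coprime q CP))
  have hBH : B ≤ H := (Helper31.coreOf_le q CP).trans inf_le_left
  have hUWH : (B ⊓ Cs) ⊔ W ≤ H := sup_le (inf_le_left.trans hBH) (hWL.trans hLH)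
  have hUWn : ∀ h ∈ H, ∀ u ∈ (B ⊓ Cs) ⊔ W, h * u * h⁻¹ ∈ (B ⊓ Cs) ⊔ W := by
    have hN : H ≤ Subgroup.normalizer (((B ⊓ Cs) ⊔ W : Subgroup G) : Set G) := by
      rw [← hdec]
      apply sup_le
      · apply le_normalizer_of_conj
        intro l hl
        apply conj_sup_mem
        · intro u hu
          have e : l * u * l⁻¹ = (l * u * l⁻¹ * u⁻¹) * u := by group
          rw [e]
          exact Subgroup.mul_mem _ (Subgroup.mem_sup_right ((hCs u).mp hu.2 l hl))
            (Subgroup.mem_sup_left hu)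
        · intro w hw
          exact Subgroup.mem_sup_right (hWn l w hw)
      · apply le_normalizer_of_conj
        intro c hc
        apply conj_sup_mem
        · intro u hu
          exact Subgroup.mem_sup_left ⟨hBn c hc u hu.1, hCsn c u hu.2⟩
        · intro w hw
          exact Subgroup.mem_sup_right (hWn c w hw)
    intro h hh u hu
    exact (Subgroup.mem_normalizer_iff.mp (hN hh) u).mp hu
  have hUW : (B ⊓ Cs) ⊔ W ≤ Helper31.coreOf q H := le_core q hUWH hUWn hUWc
  exact sup_le (hYU.trans (le_sup_left.trans hUW)) hc2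

end Cfsg.Agent.S3819
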