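import Cfsg.Statements.S3820
import Mathlib

set_option autoImplicit false
open Cfsg

namespace Cfsg.Agent.S3820

theorem conj_map_mul {G : Type*} [Group G] (H : Subgroup G) (a b : G) :
    H.map (MulAut.conj (a * b)).toMonoidHom =
      (H.map (MulAut.conj b).toMonoidHom).map (MulAut.conj a).toMonoidHom := by
  rw [Subgroup.map_map]
  congr 1
  ext x
  simp [MulAut.conj_apply, mul_assoc]

theorem conj_map_le_of_mem {G : Type*} [Group G] (H J : Subgroup G) (hHJ : H ≤ J) (a : G) (ha : a ∈ J) :
    H.map (MulAut.conj a).toMonoidHom ≤ J := by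
  rintro _ ⟨h, hh, rfl⟩
  simp only [MulEquiv.toMonoidHom_eq_coe, MonoidHom.coe_coe, MulAut.conj_apply]
  exact J.mul_mem (J.mul_mem ha (hHJ hh)) (J.inv_mem ha)

/-- Call a subgroup H of G pronormal if H and gHg⁻¹ are conjugate inside ⟨H, gHg⁻¹⟩ for every g ∈ G. Let S ≤ H ≤ G be subgroups of a finite group with S pronormal in G (for instance S a Sylow subgroup). Then H is pronormal in G if and only if H and gHg⁻¹ are conjugate inside ⟨H, gHg⁻¹⟩ for every g ∈ N_G(S). In particular H is pronormal whenever N_G(S) ≤ H. -/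
theorem result {G : Type*} [Group G] [Finite G] (S H : Subgroup G) (hSH : S ≤ H)
    (hS : Cfsg.IsPronormal S) :
    Cfsg.IsPronormal H ↔
      ∀ g ∈ Subgroup.normalizer (S : Set G), ∃ w ∈ H ⊔ H.map (MulAut.conj g).toMonoidHom,
        H.map (MulAut.conj g).toMonoidHom = H.map (MulAut.conj w).toMonoidHom := by
  constructor
  · intro hH g _
    exact hH g
  · intro hcond g
    obtain ⟨x, hx, hSx⟩ := hS g
    set J := H ⊔ H.map (MulAut.conj g).toMonoidHom with hJ
    have hxJ : x ∈ J := by
      have : S ⊔ S.map (MulAut.conj g).toMonoidHom ≤ J :=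
        sup_le_sup hSH (Subgroup.map_mono hSH)
      exact this hx
    have hn : x⁻¹ * g ∈ Subgroup.normalizer (S : Set G) := by
      rw [Subgroup.mem_normalizer_iff_map_conj_eq]
      have h1 := conj_map_mul S x⁻¹ g
      have h2 := conj_map_mul S x⁻¹ x
      rw [hSx, ← h2, inv_mul_cancel] at h1
      simp only [MulEquiv.toMonoidHom_eq_coe] at h1
      rw [h1]
      ext y
      simp
    obtain ⟨w, hw, hHw⟩ := hcond (x⁻¹ * g) hn
    have hwJ : w ∈ J := by
      have h2 : H.map (MulAut.conj (x⁻¹ * g)).toMonoidHom ≤ J := by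
        rw [conj_map_mul]
        rintro _ ⟨y, hy, rfl⟩
        simp only [MulEquiv.toMonoidHom_eq_coe, MonoidHom.coe_coe, MulAut.conj_apply, inv_inv]
        have hyJ : y ∈ J := (le_sup_right : _ ≤ J) hy
        exact J.mul_mem (J.mul_mem (J.inv_mem hxJ) hyJ) hxJ
      exact (sup_le le_sup_left h2) hw
    refine ⟨x * w, J.mul_mem hxJ hwJ, ?_⟩
    rw [conj_map_mul H x w, ← hHw, ← conj_map_mul]
    congr 2
    group

end Cfsg.Agent.S3820
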