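import Cfsg.Statements.S3821
import Mathlib

set_option autoImplicit false
open Cfsg

namespace Cfsg.Agent.S3821

theorem conj_map_mul {G : Type*} [Group G] (H : Subgroup G) (a b : G) :
    H.map (MulAut.conj (a * b)).toMonoidHom =
      (H.map (MulAut.conj b).toMonoidHom).map (MulAut.conj a).toMonoidHom := by
  rw [Subgroup.map_map]
  congr 1
  ext x
  simp [MulAut.conj_apply, mul_assoc]

theorem conj_map_one {G : Type*} [Group G] (H : Subgroup G) :
    H.map (MulAut.conj (1 : G)).toMonoidHom = H := by
  ext y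
  simp

theorem conj_map_le_of_mem {G : Type*} [Group G] (H J : Subgroup G) (hHJ : H ≤ J) (a : G)
    (ha : a ∈ J) : H.map (MulAut.conj a).toMonoidHom ≤ J := by
  rintro _ ⟨h, hh, rfl⟩
  simp only [MulEquiv.toMonoidHom_eq_coe, MonoidHom.coe_coe, MulAut.conj_apply]
  exact J.mul_mem (J.mul_mem ha (hHJ hh)) (J.inv_mem ha)

theorem map_conj_subgroupOf {G : Type*} [Group G] (A H : Subgroup G) (hHA : H ≤ A) (a : A) :
    ((H.subgroupOf A).map (MulAut.conj a).toMonoidHom).map A.subtype =
      H.map (MulAut.conj (a : G)).toMonoidHom := by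
  have h1 : A.subtype.comp (MulAut.conj a).toMonoidHom =
      (MulAut.conj (a : G)).toMonoidHom.comp A.subtype := by
    ext y
    simp [MulAut.conj_apply]
  rw [Subgroup.map_map, h1, ← Subgroup.map_map, Subgroup.subgroupOf_map_subtype,
    inf_of_le_left hHA]

theorem mem_normalizer_of_conj_eq {G : Type*} [Group G] (H : Subgroup G) (g x : G)
    (h : H.map (MulAut.conj g).toMonoidHom = H.map (MulAut.conj x).toMonoidHom) :
    x⁻¹ * g ∈ Subgroup.normalizer (H : Set G) := by
  rw [Subgroup.mem_normalizer_iff_map_conj_eq]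
  have h1 := conj_map_mul H x⁻¹ g
  have h2 := conj_map_mul H x⁻¹ x
  rw [h, ← h2, inv_mul_cancel, conj_map_one] at h1
  exact h1

/-- Let A be a normal subgroup of the finite group G and H a subgroup of A. Then H is pronormal in G (H and gHg⁻¹ conjugate inside ⟨H, gHg⁻¹⟩ for every g ∈ G) if and only if H is pronormal in A and G = A · N_G(H). -/
theorem result {G : Type*} [Group G] [Finite G] (A H : Subgroup G) [A.Normal] (hHA : H ≤ A) :
    Cfsg.IsPronormal H ↔ (Cfsg.IsPronormal (H.subgroupOf A) ∧ A ⊔ Subgroup.normalizer (H : Set G) = ⊤) := by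
  have hAn : A.Normal := inferInstance
  have hsub : (H.subgroupOf A).map A.subtype = H := by
    rw [Subgroup.subgroupOf_map_subtype, inf_of_le_left hHA]
  constructor
  · intro hH
    refine ⟨?_, ?_⟩
    · intro a
      obtain ⟨x, hx, hHx⟩ := hH (a : G)
      have hxA : x ∈ A :=
        (sup_le hHA (conj_map_le_of_mem H A hHA a a.2)) hx
      refine ⟨⟨x, hxA⟩, ?_, ?_⟩
      · rw [← Subgroup.mem_map_iff_mem A.subtype_injective, Subgroup.map_sup, hsub,
          map_conj_subgroupOf A H hHA a]
        exact hx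
      · apply Subgroup.map_injective A.subtype_injective
        rw [map_conj_subgroupOf A H hHA a, map_conj_subgroupOf A H hHA ⟨x, hxA⟩]
        exact hHx
    · rw [eq_top_iff]
      intro g _
      obtain ⟨x, hx, hHx⟩ := hH g
      have hxA : x ∈ A := by
        have h1 : H.map (MulAut.conj g).toMonoidHom ≤ A := by
          rintro _ ⟨h, hh, rfl⟩
          simp only [MulEquiv.toMonoidHom_eq_coe, MonoidHom.coe_coe, MulAut.conj_apply]
          exact hAn.conj_mem h (hHA hh) g
        exact (sup_le hHA h1) hx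
      have hn := mem_normalizer_of_conj_eq H g x hHx
      have hg : g = x * (x⁻¹ * g) := by group
      rw [hg]
      exact Subgroup.mul_mem_sup hxA hn
  · rintro ⟨hpro, htop⟩ g
    have hg : g ∈ A ⊔ Subgroup.normalizer (H : Set G) := htop ▸ Subgroup.mem_top g
    obtain ⟨a, ha, n, hn, rfl⟩ := Subgroup.mem_sup_of_normal_left.mp hg
    have hHn : H.map (MulAut.conj n).toMonoidHom = H := by
      have := Subgroup.mem_normalizer_iff_map_conj_eq.mp hn
      exact this
    have hHan : H.map (MulAut.conj (a * n)).toMonoidHom = H.map (MulAut.conj a).toMonoidHom := by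
      rw [conj_map_mul, hHn]
    obtain ⟨x, hx, hHx⟩ := hpro ⟨a, ha⟩
    refine ⟨(x : G), ?_, ?_⟩
    · rw [hHan]
      rw [← Subgroup.mem_map_iff_mem A.subtype_injective, Subgroup.map_sup, hsub,
        map_conj_subgroupOf A H hHA ⟨a, ha⟩] at hx
      exact hx
    · rw [hHan]
      have := congrArg (fun K => K.map A.subtype) hHx
      simp only [map_conj_subgroupOf A H hHA] at this
      exact this

end Cfsg.Agent.S3821
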