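import Cfsg.Statements.S3825
import Mathlib

set_option autoImplicit false
open Cfsg
open scoped commutatorElement

namespace Cfsg.Agent.S3825

theorem fpf_involution_inv {Q : Type*} [Group Q] [Finite Q] (τ : Q →* Q)
    (hinv : ∀ q, τ (τ q) = q) (hfpf : ∀ q, τ q = q → q = 1) : ∀ q, τ q = q⁻¹ := by
  have hinj : Function.Injective (fun q : Q => q⁻¹ * τ q) := by
    intro q r h
    have h' : q⁻¹ * τ q = r⁻¹ * τ r := h
    have h1 : τ (q * r⁻¹) = q * r⁻¹ := by
      rw [map_mul, map_inv]
      have h2 : τ q = q * (r⁻¹ * τ r) := by rw [← h']; group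
      rw [h2]; group
    have h3 := hfpf _ h1
    exact mul_inv_eq_one.mp h3
  have hsurj : Function.Surjective (fun q : Q => q⁻¹ * τ q) := Finite.injective_iff_surjective.mp hinj
  intro t
  obtain ⟨q, rfl⟩ := hsurj t
  simp only [map_mul, map_inv, hinv]
  group

theorem card_le_two_of_subset_pair {W : Type*} [Group W] (K : Subgroup W) (y : W)
    (h : ∀ k ∈ K, k = 1 ∨ k = y) : Nat.card K ≤ 2 := by
  have h1 : (K : Set W) ⊆ {1, y} := by
    intro k hk
    rcases h k hk with h | h
    · left; exact h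
    · right; exact h
  have h2 : Nat.card K = (K : Set W).ncard := (Nat.card_coe_set_eq (K : Set W))
  rw [h2]
  calc (K : Set W).ncard ≤ ({1, y} : Set W).ncard := Set.ncard_le_ncard h1 (Set.toFinite _)
    _ ≤ ({y} : Set W).ncard + 1 := Set.ncard_insert_le 1 {y}
    _ = 2 := by rw [Set.ncard_singleton]

/-- Let U be a subgroup of a finite group H and w an involution of H normalizing U and commuting with exactly two elements of U, the identity and y. If V is a non-cyclic elementary abelian 2-subgroup of U containing y which is normal in U and invariant under w, then V is a Sylow 2-subgroup of U, V has order 4, and U/V is abelian. -/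
theorem result {H : Type*} [Group H] [Finite H] (U : Subgroup H) (w : H) (hw : orderOf w = 2)
    (hwU : w ∈ Subgroup.normalizer (U : Set H)) (y : H) (hy : y ≠ 1) (hyU : y ∈ U)
    (hfix : ∀ u ∈ U, w * u * w⁻¹ = u ↔ (u = 1 ∨ u = y))
    (V : Subgroup H) (hVU : V ≤ U) (hVn : (V.subgroupOf U).Normal) (hVw : ∀ v ∈ V, w * v * w⁻¹ ∈ V)
    (hVe : Cfsg.IsElementaryAbelian 2 V) (hVc : ¬ IsCyclic ↥V) (hyV : y ∈ V) :
    ¬ 2 ∣ V.relIndex U ∧ Nat.card ↥V = 4 ∧ ⁅U, U⁆ ≤ V := by
  obtain ⟨hVcomm, hVsq⟩ := hVe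
  have hw2 : w ^ 2 = 1 := by rw [← hw]; exact pow_orderOf_eq_one w
  have hwinv : w⁻¹ = w := by
    rw [inv_eq_iff_mul_eq_one, ← pow_two, hw2]
  have hσσ : ∀ u : H, w * (w * u * w⁻¹) * w⁻¹ = u := by
    intro u
    rw [hwinv]
    have : w * (w * u * w) * w = w ^ 2 * u * w ^ 2 := by simp [pow_two, mul_assoc]
    rw [this, hw2, one_mul, mul_one]
  have hVmul : ∀ a ∈ V, ∀ b ∈ V, a * b = b * a := by
    intro a ha b hb
    have := (isMulCommutative_iff.mp hVcomm) ⟨a, ha⟩ ⟨b, hb⟩
    exact congrArg Subtype.val this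
  have hVinv : ∀ v ∈ V, v⁻¹ = v := by
    intro v hv
    rw [inv_eq_iff_mul_eq_one, ← pow_two]
    exact hVsq v hv
  have hfixV : ∀ v ∈ V, w * v * w⁻¹ = v → (v = 1 ∨ v = y) := fun v hv h => (hfix v (hVU hv)).mp h
  -- the homomorphism φ on V
  let φ : V →* V :=
    { toFun := fun v => ⟨v * (w * v * w⁻¹), V.mul_mem v.2 (hVw v v.2)⟩
      map_one' := by
        apply Subtype.ext
        simp
      map_mul' := by
        intro a b
        apply Subtype.ext
        change (a : H) * b * (w * (a * b) * w⁻¹) = (a * (w * a * w⁻¹)) * (b * (w * b * w⁻¹))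
        have h1 : w * ((a : H) * b) * w⁻¹ = (w * a * w⁻¹) * (w * b * w⁻¹) := by group
        rw [h1]
        have h2 := hVmul b b.2 (w * a * w⁻¹) (hVw a a.2)
        calc (a : H) * b * ((w * a * w⁻¹) * (w * b * w⁻¹))
            = a * (b * (w * a * w⁻¹)) * (w * b * w⁻¹) := by group
          _ = a * ((w * a * w⁻¹) * b) * (w * b * w⁻¹) := by rw [h2]
          _ = (a * (w * a * w⁻¹)) * (b * (w * b * w⁻¹)) := by group }
  have hφ : ∀ v : V, ((φ v : V) : H) = v * (w * v * w⁻¹) := fun v => rfl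
  have hker : Nat.card φ.ker ≤ 2 := by
    apply card_le_two_of_subset_pair φ.ker ⟨y, hyV⟩
    intro k hk
    have h1 : (k : H) * (w * k * w⁻¹) = 1 := by
      have := congrArg Subtype.val (MonoidHom.mem_ker.mp hk)
      rwa [hφ] at this
    have h2 : w * k * w⁻¹ = k := by
      have : w * (k : H) * w⁻¹ = (k : H)⁻¹ := by
        rw [eq_inv_iff_mul_eq_one, ← h1]
        exact (hVmul _ (hVw k k.2) k k.2)
      rw [this, hVinv k k.2]
    rcases hfixV k k.2 h2 with h | h
    · left; exact Subtype.ext h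
    · right; exact Subtype.ext h
  have hrange : Nat.card φ.range ≤ 2 := by
    apply card_le_two_of_subset_pair φ.range ⟨y, hyV⟩
    rintro _ ⟨v, rfl⟩
    have h2 : w * ((φ v : V) : H) * w⁻¹ = (φ v : V) := by
      rw [hφ]
      have : w * ((v : H) * (w * v * w⁻¹)) * w⁻¹ = (w * v * w⁻¹) * (w * (w * v * w⁻¹) * w⁻¹) := by
        group
      rw [this, hσσ]
      exact hVmul _ (hVw v v.2) v v.2
    rcases hfixV _ (φ v).2 h2 with h | h
    · left; exact Subtype.ext h
    · right; exact Subtype.ext h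
  have hcardV_le : Nat.card V ≤ 4 := by
    have h1 := Subgroup.card_mul_index φ.ker
    rw [Subgroup.index_ker] at h1
    rw [← h1]
    calc Nat.card φ.ker * Nat.card φ.range ≤ 2 * 2 := Nat.mul_le_mul hker hrange
      _ = 4 := rfl
  have hVp : IsPGroup 2 V := by
    intro v
    refine ⟨1, ?_⟩
    apply Subtype.ext
    simpa using hVsq v v.2
  obtain ⟨k, hk⟩ := (IsPGroup.iff_card (p := 2) (G := V)).mp hVp
  have hcardV : Nat.card V = 4 := by
    have hk2 : 2 ≤ k := by
      by_contra hlt
      have hk' : k = 0 ∨ k = 1 := by omega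
      rcases hk' with rfl | rfl
      · rw [pow_zero] at hk
        have : Subsingleton V := (Nat.card_eq_one_iff_unique.mp hk).1
        exact hVc isCyclic_of_subsingleton
      · rw [pow_one] at hk
        have : Fact (Nat.Prime 2) := ⟨Nat.prime_two⟩
        exact hVc (isCyclic_of_prime_card hk)
    have h4 : 4 ≤ Nat.card V := by
      rw [hk]
      calc 4 = 2 ^ 2 := rfl
        _ ≤ 2 ^ k := Nat.pow_le_pow_right (by norm_num) hk2
    omega
  -- an element of V not fixed
  have hexists : ∃ v₀ ∈ V, v₀ * (w * v₀ * w⁻¹) = y := by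
    by_contra hne
    have hall : ∀ v ∈ V, v = 1 ∨ v = y := by
      intro v hv
      by_contra hv'
      apply hne
      refine ⟨v, hv, ?_⟩
      have h2 : w * (v * (w * v * w⁻¹)) * w⁻¹ = v * (w * v * w⁻¹) := by
        have : w * (v * (w * v * w⁻¹)) * w⁻¹ = (w * v * w⁻¹) * (w * (w * v * w⁻¹) * w⁻¹) := by
          group
        rw [this, hσσ]
        exact hVmul _ (hVw v hv) v hv
      rcases hfixV _ (V.mul_mem hv (hVw v hv)) h2 with h | h
      · exfalso
        apply hv'
        have h3 : w * v * w⁻¹ = v := by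
          have : w * v * w⁻¹ = v⁻¹ := by
            rw [eq_inv_iff_mul_eq_one, ← h]
            exact hVmul _ (hVw v hv) v hv
          rw [this, hVinv v hv]
        exact hfixV v hv h3
      · exact h
    have hle : Nat.card V ≤ 2 := by
      have := card_le_two_of_subset_pair (⊤ : Subgroup V) ⟨y, hyV⟩ (by
        intro k _
        rcases hall k k.2 with h | h
        · left; exact Subtype.ext h
        · right; exact Subtype.ext h)
      rwa [Subgroup.card_top] at this
    omega
  obtain ⟨v₀, hv₀, hv₀y⟩ := hexists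
  -- claim A
  have claimA : ∀ u ∈ U, u⁻¹ * (w * u * w⁻¹) ∈ V → u ∈ V := by
    intro u hu hv
    set v := u⁻¹ * (w * u * w⁻¹) with hvdef
    have h1 : w * v * w⁻¹ = v := by
      have : w * v * w⁻¹ = (w * u * w⁻¹)⁻¹ * (w * (w * u * w⁻¹) * w⁻¹) := by
        rw [hvdef]; group
      rw [this, hσσ]
      have h2 : (w * u * w⁻¹)⁻¹ * u = v⁻¹ := by rw [hvdef]; group
      rw [h2, hVinv v hv]
    rcases hfixV v hv h1 with h | h
    · have h3 : w * u * w⁻¹ = u := by
        have : w * u * w⁻¹ = u * v := by rw [hvdef]; group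
        rw [this, h, mul_one]
      rcases (hfix u hu).mp h3 with h4 | h4
      · rw [h4]; exact V.one_mem
      · rw [h4]; exact hyV
    · have h3 : w * (u * v₀) * w⁻¹ = u * v₀ := by
        have e1 : w * (u * v₀) * w⁻¹ = (w * u * w⁻¹) * (w * v₀ * w⁻¹) := by group
        have e2 : w * u * w⁻¹ = u * v := by rw [hvdef]; group
        have e3 : w * v₀ * w⁻¹ = v₀⁻¹ * y := by rw [← hv₀y]; group
        rw [e1, e2, h, e3, hVinv v₀ hv₀]
        have e4 : y * (v₀ * y) = v₀ := by
          rw [hVmul v₀ hv₀ y hyV, ← mul_assoc, ← pow_two, hVsq y hyV, one_mul]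
        rw [mul_assoc, e4]
      have hmem : u * v₀ ∈ V := by
        rcases (hfix (u * v₀) (U.mul_mem hu (hVU hv₀))).mp h3 with h4 | h4
        · rw [h4]; exact V.one_mem
        · rw [h4]; exact hyV
      have : u = (u * v₀) * v₀⁻¹ := by group
      rw [this]
      exact V.mul_mem hmem (V.inv_mem hv₀)
  -- the induced automorphism on the quotient
  have hwU' : ∀ u ∈ U, w * u * w⁻¹ ∈ U := fun u hu => (Subgroup.mem_normalizer_iff.mp hwU u).mp hu
  let σU : U →* U :=
    { toFun := fun u => ⟨w * u * w⁻¹, hwU' u u.2⟩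
      map_one' := by
        apply Subtype.ext
        simp
      map_mul' := by
        intro a b
        apply Subtype.ext
        change w * ((a : H) * b) * w⁻¹ = (w * a * w⁻¹) * (w * b * w⁻¹)
        group }
  have hσU : ∀ u : U, ((σU u : U) : H) = w * u * w⁻¹ := fun u => rfl
  have := hVn
  have hcomap : V.subgroupOf U ≤ (V.subgroupOf U).comap σU := by
    intro u hu
    rw [Subgroup.mem_comap, Subgroup.mem_subgroupOf, hσU]
    exact hVw u (Subgroup.mem_subgroupOf.mp hu)
  let τ : (U ⧸ V.subgroupOf U) →* (U ⧸ V.subgroupOf U) :=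
    QuotientGroup.map (V.subgroupOf U) (V.subgroupOf U) σU hcomap
  have hτ : ∀ u : U, τ (QuotientGroup.mk u) = QuotientGroup.mk (σU u) := fun u => rfl
  have hτinv : ∀ q, τ (τ q) = q := by
    intro q
    obtain ⟨u, rfl⟩ := QuotientGroup.mk_surjective q
    rw [hτ, hτ]
    congr 1
    apply Subtype.ext
    rw [hσU, hσU]
    exact hσσ u
  have hτfpf : ∀ q, τ q = q → q = 1 := by
    intro q hq
    obtain ⟨u, rfl⟩ := QuotientGroup.mk_surjective q
    rw [hτ] at hq
    have h1 : u⁻¹ * σU u ∈ V.subgroupOf U := QuotientGroup.eq.mp hq.symm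
    rw [Subgroup.mem_subgroupOf] at h1
    have h2 : (u : H) ∈ V := claimA u u.2 (by simpa [hσU] using h1)
    exact (QuotientGroup.eq_one_iff u).mpr (Subgroup.mem_subgroupOf.mpr h2)
  have hτi := fpf_involution_inv τ hτinv hτfpf
  have hQcomm : ∀ q r : U ⧸ V.subgroupOf U, q * r = r * q := by
    intro q r
    have h1 : τ (q * r) = (q * r)⁻¹ := hτi _
    rw [map_mul, hτi q, hτi r, mul_inv_rev] at h1
    have h2 := congrArg (fun x => x⁻¹) h1
    have h3 : r * q = q * r := by simpa using h2
    exact h3.symm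
  refine ⟨?_, hcardV, ?_⟩
  · intro hdvd
    have hdvd' : 2 ∣ Nat.card (U ⧸ V.subgroupOf U) := by
      rw [← Subgroup.index_eq_card]
      exact hdvd
    have : Fact (Nat.Prime 2) := ⟨Nat.prime_two⟩
    obtain ⟨q, hq⟩ := exists_prime_orderOf_dvd_card' 2 hdvd'
    have hq2 : q ^ 2 = 1 := by rw [← hq]; exact pow_orderOf_eq_one q
    have hqinv : q⁻¹ = q := by
      rw [inv_eq_iff_mul_eq_one, ← pow_two, hq2]
    have h1 : q = 1 := hτfpf q (by rw [hτi q, hqinv])
    rw [h1, orderOf_one] at hq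
    norm_num at hq
  · rw [Subgroup.commutator_le]
    intro a ha b hb
    have h1 : (⁅(⟨a, ha⟩ : U), ⟨b, hb⟩⁆ : U) ∈ V.subgroupOf U := by
      rw [← QuotientGroup.eq_one_iff, ← QuotientGroup.mk'_apply, map_commutatorElement,
        commutatorElement_eq_one_iff_mul_comm]
      exact hQcomm _ _
    exact Subgroup.mem_subgroupOf.mp h1

end Cfsg.Agent.S3825
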