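import Cfsg.Statements.S3835
import Cfsg.Agent.S2231
import Mathlib

set_option autoImplicit false
open Cfsg

namespace Cfsg.Agent.S3835

open Cfsg.Agent.S2231

/-- `p`-subgroups of a symmetric group of degree `< p²` are abelian -/
theorem abP_perm {p : ℕ} [Fact p.Prime] (n : ℕ) (hn : n < p ^ 2) :
    AbP p (Equiv.Perm (Fin n)) := by
  have hpp : p.Prime := Fact.out
  intro Q hQ a ha b hb
  ext x
  congr 1
  set S : Subgroup Q := MulAction.stabilizer Q x with hS
  have hidx : S.index = (MulAction.orbit Q x).ncard := MulAction.index_stabilizer Q x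
  have hle : S.index < p ^ 2 := by
    rw [hidx]
    refine lt_of_le_of_lt (Set.ncard_le_card _) ?_
    rw [Nat.card_fin]
    exact hn
  obtain ⟨k, hk⟩ := hQ.index S
  have hk1 : k ≤ 1 := by
    by_contra hcon
    have h2 : 2 ≤ k := by omega
    have := Nat.pow_le_pow_right hpp.pos h2
    omega
  have hmem : ((⟨b, hb⟩ : Q) * ⟨a, ha⟩)⁻¹ * ((⟨a, ha⟩ : Q) * ⟨b, hb⟩) ∈ S := by
    interval_cases k
    · rw [pow_zero, Subgroup.index_eq_one] at hk
      rw [hk]
      exact Subgroup.mem_top _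
    · rw [pow_one] at hk
      have hN : S.Normal := by
        apply Subgroup.normal_of_index_eq_minFac_card
        obtain ⟨m, hm⟩ := IsPGroup.iff_card.mp hQ
        have hm0 : m ≠ 0 := by
          rintro rfl
          rw [pow_zero] at hm
          have h1 : S.index ∣ Nat.card Q := Subgroup.index_dvd_card S
          rw [hm, hk] at h1
          exact hpp.one_lt.ne' (Nat.dvd_one.mp h1)
        rw [hk, hm, Nat.pow_minFac hm0, hpp.minFac_eq]
      have hc : Nat.card (Q ⧸ S) = p := by rw [← Subgroup.index_eq_card, hk]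
      have hcyc : IsCyclic (Q ⧸ S) := isCyclic_of_prime_card hc
      have hcomm : ∀ u v : Q ⧸ S, u * v = v * u := by
        letI := IsCyclic.commGroup (α := Q ⧸ S)
        intro u v
        exact mul_comm u v
      rw [← QuotientGroup.eq, QuotientGroup.mk_mul, QuotientGroup.mk_mul]
      exact hcomm _ _
  have h1 := MulAction.mem_stabilizer_iff.mp hmem
  have h2 : (b * a)⁻¹ ((a * b) x) = x := h1
  have h3 : (a * b) x = (b * a) x := by
    have := congrArg (b * a) h2
    simpa using this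
  exact h3

/-- the affine submonoid: last row `(0, 0, 1)` -/
def affMon (p : ℕ) : Submonoid (Matrix.SpecialLinearGroup (Fin 3) (ZMod p)) where
  carrier := {M | (M : Matrix (Fin 3) (Fin 3) (ZMod p)) 2 0 = 0 ∧
    (M : Matrix (Fin 3) (Fin 3) (ZMod p)) 2 1 = 0 ∧
    (M : Matrix (Fin 3) (Fin 3) (ZMod p)) 2 2 = 1}
  mul_mem' := by
    rintro A B ⟨a1, a2, a3⟩ ⟨b1, b2, b3⟩
    refine ⟨?_, ?_, ?_⟩ <;>
      simp [Matrix.SpecialLinearGroup.coe_mul, Matrix.mul_apply, Fin.sum_univ_three,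
        a1, a2, a3, b1, b2, b3]
  one_mem' := by simp

/-- the affine subgroup: last row `(0, 0, 1)` -/
def affSub (p : ℕ) [Fact p.Prime] : Subgroup (Matrix.SpecialLinearGroup (Fin 3) (ZMod p)) where
  toSubmonoid := affMon p
  inv_mem' := by
    intro A hA
    have h1 : A⁻¹ = A ^ (orderOf A - 1) := by
      rw [eq_comm, ← mul_eq_one_iff_eq_inv', ← pow_succ', Nat.sub_add_cancel (orderOf_pos A),
        pow_orderOf_eq_one]
    change A⁻¹ ∈ affMon p
    rw [h1]
    exact pow_mem hA _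

theorem qd_le_affSub (p : ℕ) [Fact p.Prime] : Cfsg.qd p ≤ affSub p := by
  rw [Cfsg.qd, Subgroup.closure_le]
  intro M hM
  exact hM

variable {p : ℕ} [Fact p.Prime]

theorem aff_20 (g : affSub p) : (g.1 : Matrix (Fin 3) (Fin 3) (ZMod p)) 2 0 = 0 := g.2.1
theorem aff_21 (g : affSub p) : (g.1 : Matrix (Fin 3) (Fin 3) (ZMod p)) 2 1 = 0 := g.2.2.1
theorem aff_22 (g : affSub p) : (g.1 : Matrix (Fin 3) (Fin 3) (ZMod p)) 2 2 = 1 := g.2.2.2

theorem aff_det (g : affSub p) :
    (g.1 : Matrix (Fin 3) (Fin 3) (ZMod p)) 0 0 * (g.1 : Matrix (Fin 3) (Fin 3) (ZMod p)) 1 1 -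
    (g.1 : Matrix (Fin 3) (Fin 3) (ZMod p)) 0 1 * (g.1 : Matrix (Fin 3) (Fin 3) (ZMod p)) 1 0 = 1 := by
  have h := g.1.2
  rw [Matrix.det_fin_three] at h
  rw [aff_20, aff_21, aff_22] at h
  linear_combination h

/-- the affine action on the plane, as a function -/
def affAct (g : affSub p) (v : ZMod p × ZMod p) : ZMod p × ZMod p :=
    ((g.1 : Matrix (Fin 3) (Fin 3) (ZMod p)) 0 0 * v.1 +
      (g.1 : Matrix (Fin 3) (Fin 3) (ZMod p)) 0 1 * v.2 +
      (g.1 : Matrix (Fin 3) (Fin 3) (ZMod p)) 0 2,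
     (g.1 : Matrix (Fin 3) (Fin 3) (ZMod p)) 1 0 * v.1 +
      (g.1 : Matrix (Fin 3) (Fin 3) (ZMod p)) 1 1 * v.2 +
      (g.1 : Matrix (Fin 3) (Fin 3) (ZMod p)) 1 2)

/-- the affine action on the plane -/
instance affAction : MulAction (affSub p) (ZMod p × ZMod p) where
  smul g v := affAct g v
  one_smul v := by
    show affAct 1 v = v
    ext <;> simp [affAct]
  mul_smul g h v := by
    show affAct (g * h) v = affAct g (affAct h v)
    have h1 := aff_20 h
    have h2 := aff_21 h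
    have h3 := aff_22 h
    ext
    · simp [affAct, Matrix.SpecialLinearGroup.coe_mul, Matrix.mul_apply, Fin.sum_univ_three, h1, h2, h3]
      ring
    · simp [affAct, Matrix.SpecialLinearGroup.coe_mul, Matrix.mul_apply, Fin.sum_univ_three, h1, h2, h3]
      ring

theorem smul_def (g : affSub p) (v : ZMod p × ZMod p) :
    g • v = ((g.1 : Matrix (Fin 3) (Fin 3) (ZMod p)) 0 0 * v.1 +
      (g.1 : Matrix (Fin 3) (Fin 3) (ZMod p)) 0 1 * v.2 +
      (g.1 : Matrix (Fin 3) (Fin 3) (ZMod p)) 0 2,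
     (g.1 : Matrix (Fin 3) (Fin 3) (ZMod p)) 1 0 * v.1 +
      (g.1 : Matrix (Fin 3) (Fin 3) (ZMod p)) 1 1 * v.2 +
      (g.1 : Matrix (Fin 3) (Fin 3) (ZMod p)) 1 2) := rfl

theorem toPerm_injective :
    Function.Injective (MulAction.toPermHom (affSub p) (ZMod p × ZMod p)) := by
  rw [injective_iff_map_eq_one]
  intro g hg
  have key : ∀ v : ZMod p × ZMod p, g • v = v := by
    intro v
    have := congrArg (fun σ : Equiv.Perm (ZMod p × ZMod p) => σ v) hg
    simpa using this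
  have e0 := key (0, 0)
  have e1 := key (1, 0)
  have e2 := key (0, 1)
  rw [smul_def, Prod.ext_iff] at e0 e1 e2
  simp only [mul_zero, mul_one, zero_add, add_zero] at e0 e1 e2
  obtain ⟨a0, b0⟩ := e0
  obtain ⟨a1, b1⟩ := e1
  obtain ⟨a2, b2⟩ := e2
  rw [a0, add_zero] at a1 a2
  rw [b0, add_zero] at b1 b2
  apply Subtype.ext
  apply Subtype.ext
  ext i j
  fin_cases i <;> fin_cases j <;>
    simp [a0, a1, a2, b0, b1, b2, aff_20, aff_21, aff_22]

/-- elements with `(M - 1)² = 0` have order dividing `p` -/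
theorem pow_p_of_sq_zero (M : Matrix.SpecialLinearGroup (Fin 3) (ZMod p))
    (h : ((M : Matrix (Fin 3) (Fin 3) (ZMod p)) - 1) * ((M : Matrix (Fin 3) (Fin 3) (ZMod p)) - 1) = 0) :
    M ^ p = 1 := by
  have hp2 : 2 ≤ p := (Fact.out : p.Prime).two_le
  apply Subtype.ext
  rw [Matrix.SpecialLinearGroup.coe_pow, Matrix.SpecialLinearGroup.coe_one]
  set N : Matrix (Fin 3) (Fin 3) (ZMod p) := (M : Matrix (Fin 3) (Fin 3) (ZMod p)) - 1 with hN
  have hNp : N ^ p = 0 := by
    have h3 : N ^ p = N ^ 2 * N ^ (p - 2) := by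
      rw [← pow_add]
      congr 1
      omega
    rw [h3, pow_two, h, zero_mul]
  have hM : (M : Matrix (Fin 3) (Fin 3) (ZMod p)) = 1 + N := by rw [hN]; abel
  rw [hM, add_pow_char_of_commute _ (Commute.one_left N), one_pow, hNp, add_zero]

/-- translations, in `SL₃` -/
def sT (s t : ZMod p) : Matrix.SpecialLinearGroup (Fin 3) (ZMod p) :=
  ⟨!![1, 0, s; 0, 1, t; 0, 0, 1], by simp [Matrix.det_fin_three]⟩

/-- upper transvections, in `SL₃` -/
def sU (x : ZMod p) : Matrix.SpecialLinearGroup (Fin 3) (ZMod p) :=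
  ⟨!![1, x, 0; 0, 1, 0; 0, 0, 1], by simp [Matrix.det_fin_three]⟩

/-- lower transvections, in `SL₃` -/
def sL (c : ZMod p) : Matrix.SpecialLinearGroup (Fin 3) (ZMod p) :=
  ⟨!![1, 0, 0; c, 1, 0; 0, 0, 1], by simp [Matrix.det_fin_three]⟩

theorem sT_coe (s t : ZMod p) :
    (sT s t : Matrix (Fin 3) (Fin 3) (ZMod p)) = !![1, 0, s; 0, 1, t; 0, 0, 1] := rfl
theorem sU_coe (x : ZMod p) :
    (sU x : Matrix (Fin 3) (Fin 3) (ZMod p)) = !![1, x, 0; 0, 1, 0; 0, 0, 1] := rfl
theorem sL_coe (c : ZMod p) :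
    (sL c : Matrix (Fin 3) (Fin 3) (ZMod p)) = !![1, 0, 0; c, 1, 0; 0, 0, 1] := rfl

/-- translations -/
def mkT (s t : ZMod p) : affSub p :=
  ⟨sT s t, by refine ⟨?_, ?_, ?_⟩ <;> simp [sT_coe]⟩

/-- upper transvections -/
def mkU (x : ZMod p) : affSub p :=
  ⟨sU x, by refine ⟨?_, ?_, ?_⟩ <;> simp [sU_coe]⟩

/-- lower transvections -/
def mkL (c : ZMod p) : affSub p :=
  ⟨sL c, by refine ⟨?_, ?_, ?_⟩ <;> simp [sL_coe]⟩

theorem mkT_coe (s t : ZMod p) : ((mkT s t : affSub p) : Matrix.SpecialLinearGroup (Fin 3) (ZMod p)) = sT s t := rfl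
theorem mkU_coe (x : ZMod p) : ((mkU x : affSub p) : Matrix.SpecialLinearGroup (Fin 3) (ZMod p)) = sU x := rfl
theorem mkL_coe (c : ZMod p) : ((mkL c : affSub p) : Matrix.SpecialLinearGroup (Fin 3) (ZMod p)) = sL c := rfl

theorem mkT_pow (s t : ZMod p) : (mkT s t) ^ p = 1 := by
  apply Subtype.ext
  rw [Subgroup.coe_pow, Subgroup.coe_one]
  apply pow_p_of_sq_zero
  ext i j
  fin_cases i <;> fin_cases j <;>
    simp [mkT_coe, sT_coe, Matrix.mul_apply, Fin.sum_univ_three]

theorem mkU_pow (x : ZMod p) : (mkU x) ^ p = 1 := by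
  apply Subtype.ext
  rw [Subgroup.coe_pow, Subgroup.coe_one]
  apply pow_p_of_sq_zero
  ext i j
  fin_cases i <;> fin_cases j <;>
    simp [mkU_coe, sU_coe, Matrix.mul_apply, Fin.sum_univ_three]

theorem mkL_pow (c : ZMod p) : (mkL c) ^ p = 1 := by
  apply Subtype.ext
  rw [Subgroup.coe_pow, Subgroup.coe_one]
  apply pow_p_of_sq_zero
  ext i j
  fin_cases i <;> fin_cases j <;>
    simp [mkL_coe, sL_coe, Matrix.mul_apply, Fin.sum_univ_three]

theorem chi_of_pow (hp : p ≠ 2) (χ : affSub p →* ℤˣ) (g : affSub p) (hg : g ^ p = 1) : χ g = 1 := by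
  have hodd : Odd p := (Fact.out : p.Prime).odd_of_ne_two hp
  have h1 : χ g ^ p = 1 := by rw [← map_pow, hg, map_one]
  rcases Int.units_eq_one_or (χ g) with h | h
  · exact h
  · rw [h, hodd.neg_one_pow] at h1
    exact absurd h1 (by decide)

theorem decomp (g : affSub p) (hc : (g.1 : Matrix (Fin 3) (Fin 3) (ZMod p)) 1 0 ≠ 0) :
    g = mkT ((g.1 : Matrix (Fin 3) (Fin 3) (ZMod p)) 0 2) ((g.1 : Matrix (Fin 3) (Fin 3) (ZMod p)) 1 2) *
      mkU (((g.1 : Matrix (Fin 3) (Fin 3) (ZMod p)) 0 0 - 1) / (g.1 : Matrix (Fin 3) (Fin 3) (ZMod p)) 1 0) *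
      mkL ((g.1 : Matrix (Fin 3) (Fin 3) (ZMod p)) 1 0) *
      mkU (((g.1 : Matrix (Fin 3) (Fin 3) (ZMod p)) 1 1 - 1) / (g.1 : Matrix (Fin 3) (Fin 3) (ZMod p)) 1 0) := by
  have hd := aff_det g
  have h1 := aff_20 g
  have h2 := aff_21 g
  have h3 := aff_22 g
  apply Subtype.ext
  apply Subtype.ext
  rw [Subgroup.coe_mul, Subgroup.coe_mul, Subgroup.coe_mul, Matrix.SpecialLinearGroup.coe_mul,
    Matrix.SpecialLinearGroup.coe_mul, Matrix.SpecialLinearGroup.coe_mul, mkT_coe, mkU_coe, mkL_coe,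
    mkU_coe, sT_coe, sU_coe, sL_coe, sU_coe]
  ext i j
  fin_cases i <;> fin_cases j <;>
    simp [Matrix.mul_apply, Fin.sum_univ_three, h1, h2, h3]
  all_goals (field_simp; first | ring1 | linear_combination hd | linear_combination -hd)

theorem chi_trivial (hp : p ≠ 2) (χ : affSub p →* ℤˣ) (g : affSub p) : χ g = 1 := by
  have main : ∀ g : affSub p, (g.1 : Matrix (Fin 3) (Fin 3) (ZMod p)) 1 0 ≠ 0 → χ g = 1 := by
    intro g hc
    rw [decomp g hc, map_mul, map_mul, map_mul, chi_of_pow hp χ _ (mkT_pow _ _),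
      chi_of_pow hp χ _ (mkU_pow _), chi_of_pow hp χ _ (mkL_pow _), chi_of_pow hp χ _ (mkU_pow _)]
    simp
  by_cases hc : (g.1 : Matrix (Fin 3) (Fin 3) (ZMod p)) 1 0 = 0
  · have hd := aff_det g
    rw [hc, mul_zero, sub_zero] at hd
    have ha : (g.1 : Matrix (Fin 3) (Fin 3) (ZMod p)) 0 0 ≠ 0 := by
      intro h0
      rw [h0, zero_mul] at hd
      exact zero_ne_one hd
    have h1 : χ (mkL 1 * g) = 1 := by
      apply main
      rw [Subgroup.coe_mul, Matrix.SpecialLinearGroup.coe_mul, mkL_coe, sL_coe]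
      simp [Matrix.mul_apply, Fin.sum_univ_three, hc, ha]
    rw [map_mul, chi_of_pow hp χ _ (mkL_pow _), one_mul] at h1
    exact h1
  · exact main g hc

theorem sign_eq_one (hp : p ≠ 2) (g : affSub p) :
    Equiv.Perm.sign (MulAction.toPermHom (affSub p) (ZMod p × ZMod p) g) = 1 :=
  chi_trivial hp (Equiv.Perm.sign.comp (MulAction.toPermHom (affSub p) (ZMod p × ZMod p))) g

theorem exists_embedding (hp : p ≠ 2) (n : ℕ) (hn : p ^ 2 ≤ n) :
    ∃ F : Cfsg.qd p →* alternatingGroup (Fin n), Function.Injective F := by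
  classical
  have hcard : Fintype.card (ZMod p × ZMod p) ≤ Fintype.card (Fin n) := by
    rw [Fintype.card_prod, ZMod.card, Fintype.card_fin, ← pow_two]
    exact hn
  obtain ⟨ι⟩ := Function.Embedding.nonempty_of_card_le hcard
  let e : (ZMod p × ZMod p) ≃ {x : Fin n // x ∈ Set.range ι} := ι.toEquivRange
  let f₀ : Cfsg.qd p →* Equiv.Perm (Fin n) :=
    (Equiv.Perm.extendDomainHom e).comp
      ((MulAction.toPermHom (affSub p) (ZMod p × ZMod p)).comp
        (Subgroup.inclusion (qd_le_affSub p)))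
  have hf₀ : Function.Injective f₀ := by
    apply (Equiv.Perm.extendDomainHom_injective e).comp
    apply toPerm_injective.comp
    exact Subgroup.inclusion_injective _
  have hsign : ∀ g : Cfsg.qd p, f₀ g ∈ alternatingGroup (Fin n) := by
    intro g
    rw [Equiv.Perm.mem_alternatingGroup]
    show Equiv.Perm.sign (Equiv.Perm.extendDomain _ e) = 1
    rw [Equiv.Perm.sign_extendDomain]
    exact sign_eq_one hp _
  refine ⟨f₀.codRestrict _ hsign, ?_⟩
  intro x y hxy
  apply hf₀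
  exact congrArg Subtype.val hxy

/-- Let p be an odd prime and n a natural number. The alternating group of degree n has a subgroup isomorphic to Qd(p) (the natural semidirect product of an elementary abelian group of order p² by SL₂(p)) if and only if n ≥ p²; and if n < p² then Qd(p) is not even involved in it. -/
theorem result {p : ℕ} [Fact p.Prime] (hp : p ≠ 2) (n : ℕ) : ((∃ H : Subgroup (alternatingGroup (Fin n)), Nonempty (↥H ≃* ↥(Cfsg.qd p))) ↔ p ^ 2 ≤ n) ∧ (n < p ^ 2 → ¬ Cfsg.Involves ↥(Cfsg.qd p) ↥(alternatingGroup (Fin n))) := by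
  have hA : n < p ^ 2 → AbP p (alternatingGroup (Fin n)) := fun hn =>
    (abP_perm n hn).of_injective (alternatingGroup (Fin n)).subtype Subtype.val_injective
  refine ⟨⟨?_, ?_⟩, ?_⟩
  · rintro ⟨H, ⟨e⟩⟩
    by_contra hcon
    have hn : n < p ^ 2 := not_le.mp hcon
    have h1 : AbP p H := (hA hn).of_injective H.subtype Subtype.val_injective
    have h2 : AbP p (Cfsg.qd p) := h1.of_injective e.symm.toMonoidHom e.symm.injective
    exact not_abP_qd p hp h2
  · intro hn
    obtain ⟨F, hF⟩ := exists_embedding hp n hn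
    exact ⟨F.range, ⟨(MonoidHom.ofInjective hF).symm⟩⟩
  · intro hn hi
    exact not_abP_qd p hp ((hA hn).of_involves hi)

end Cfsg.Agent.S3835
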