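import Cfsg.Statements.S3836
import Mathlib

set_option autoImplicit false
open Cfsg

namespace Cfsg.Agent.S3836

/-- Let G be a finite group that is p-stable in the normalizer form: for every p-subgroup Q and every x ∈ N_G(Q) with [Q, x, x] = 1, the image of x in N_G(Q)/C_G(Q) lies in O_p(N_G(Q)/C_G(Q)). Then every subgroup of G is p-stable in the same sense. -/
theorem result {G : Type*} [Group G] [Finite G] {p : ℕ} [Fact p.Prime] (hst : Cfsg.IsNormalizerPStable p G) (H : Subgroup G) : Cfsg.IsNormalizerPStable p ↥H := by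
  intro P hP g hg hquad
  set P' : Subgroup G := P.map H.subtype with hP'
  have hP'p : IsPGroup p P' := hP.map _
  have hNle : ∀ x : H, x ∈ Subgroup.normalizer (P : Set H) →
      (x : G) ∈ Subgroup.normalizer (P' : Set G) := by
    intro x hx
    exact (Subgroup.le_normalizer_map H.subtype) ⟨x, hx, rfl⟩
  have hg' : (g : G) ∈ Subgroup.normalizer (P' : Set G) := hNle g hg
  have hquad' : ⁅⁅P', Subgroup.zpowers (g : G)⁆, Subgroup.zpowers (g : G)⁆ = ⊥ := by
    have h1 : Subgroup.zpowers (g : G) = (Subgroup.zpowers g).map H.subtype := by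
      rw [MonoidHom.map_zpowers]
      rfl
    rw [h1, hP', ← Subgroup.map_commutator, ← Subgroup.map_commutator, hquad, Subgroup.map_bot]
  have hmem := hst P' hP'p (g : G) hg' hquad'
  -- the inclusion of normalizers
  let ι : ↥(Subgroup.normalizer (P : Set H)) →* ↥(Subgroup.normalizer (P' : Set G)) :=
    { toFun := fun x => ⟨((x : H) : G), hNle x x.2⟩
      map_one' := rfl
      map_mul' := fun _ _ => rfl }
  have hι : ∀ x, ((ι x : ↥(Subgroup.normalizer (P' : Set G))) : G) = ((x : H) : G) := fun _ => rfl
  have hcent : ∀ x : ↥(Subgroup.normalizer (P : Set H)),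
      x ∈ (Subgroup.centralizer (P : Set H)).subgroupOf (Subgroup.normalizer (P : Set H)) ↔
      ι x ∈ (Subgroup.centralizer (P' : Set G)).subgroupOf (Subgroup.normalizer (P' : Set G)) := by
    intro x
    rw [Subgroup.mem_subgroupOf, Subgroup.mem_subgroupOf, Subgroup.mem_centralizer_iff,
      Subgroup.mem_centralizer_iff, hι]
    constructor
    · rintro h _ ⟨y, hy, rfl⟩
      have := h y hy
      exact congrArg Subtype.val this
    · intro h y hy
      apply Subtype.ext
      exact h (y : G) ⟨y, hy, rfl⟩
  let ιq := QuotientGroup.map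
    ((Subgroup.centralizer (P : Set H)).subgroupOf (Subgroup.normalizer (P : Set H)))
    ((Subgroup.centralizer (P' : Set G)).subgroupOf (Subgroup.normalizer (P' : Set G))) ι
    (fun x hx => (hcent x).mp hx)
  have hιq : ∀ x, ιq (QuotientGroup.mk x) = QuotientGroup.mk (ι x) := fun _ => rfl
  have hinj : Function.Injective ιq := by
    rw [injective_iff_map_eq_one]
    intro q hq
    obtain ⟨x, rfl⟩ := QuotientGroup.mk_surjective q
    rw [hιq, QuotientGroup.eq_one_iff] at hq
    exact (QuotientGroup.eq_one_iff x).mpr ((hcent x).mpr hq)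
  have hcore_p : IsPGroup p (Cfsg.pCore p (↥(Subgroup.normalizer (P' : Set G)) ⧸
      (Subgroup.centralizer (P' : Set G)).subgroupOf (Subgroup.normalizer (P' : Set G)))) :=
    Sylow.sSup_of_normal _ (fun K h => h.2) (fun K h => h.1)
  have hKn : ((Cfsg.pCore p (↥(Subgroup.normalizer (P' : Set G)) ⧸
      (Subgroup.centralizer (P' : Set G)).subgroupOf (Subgroup.normalizer (P' : Set G)))).comap
        ιq).Normal :=
    Subgroup.Normal.comap (Cfsg.pCore_normal p _) ιq
  have hKp : IsPGroup p ((Cfsg.pCore p (↥(Subgroup.normalizer (P' : Set G)) ⧸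
      (Subgroup.centralizer (P' : Set G)).subgroupOf (Subgroup.normalizer (P' : Set G)))).comap
        ιq) :=
    hcore_p.comap_of_injective ιq hinj
  have hle : (Cfsg.pCore p (↥(Subgroup.normalizer (P' : Set G)) ⧸
      (Subgroup.centralizer (P' : Set G)).subgroupOf (Subgroup.normalizer (P' : Set G)))).comap
        ιq ≤ Cfsg.pCore p (↥(Subgroup.normalizer (P : Set H)) ⧸
          (Subgroup.centralizer (P : Set H)).subgroupOf (Subgroup.normalizer (P : Set H))) :=
    le_sSup ⟨hKn, hKp⟩
  apply hle
  rw [Subgroup.mem_comap]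
  exact hmem

end Cfsg.Agent.S3836
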