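import Cfsg.Statements.S3838
import Cfsg.Agent.Lib.Helper1.SZ
import Cfsg.Agent.Lib.Helper2.Frob
import Mathlib

set_option autoImplicit false
open Cfsg

namespace Cfsg.Agent.S3838

universe u
open scoped Pointwise
open scoped commutatorElement

lemma mem_of_pow_mem_of_coprime {M : Type*} [Group M] (H : Subgroup M) (x : M) {a b : ℕ}
    (hab : Nat.Coprime a b) (ha : x ^ a ∈ H) (hb : x ^ b ∈ H) : x ∈ H := by
  have h1 : (a : ℤ) * Nat.gcdA a b + (b : ℤ) * Nat.gcdB a b = 1 := by
    have h0 := Nat.gcd_eq_gcd_ab a b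
    rw [hab] at h0
    simpa using h0.symm
  have h2 : x = (x ^ a) ^ (Nat.gcdA a b) * (x ^ b) ^ (Nat.gcdB a b) := by
    rw [← zpow_natCast x a, ← zpow_natCast x b, ← zpow_mul, ← zpow_mul, ← zpow_add, h1, zpow_one]
  rw [h2]
  exact H.mul_mem (H.zpow_mem ha _) (H.zpow_mem hb _)

/-- Step 1: the image of `P` in `M ⧸ Q` is central in its normalizer. -/
lemma step1 {M : Type u} [Group M] [Finite M] {p : ℕ} [Fact p.Prime] (P : Sylow p M)
    (Q : Subgroup M) [hQn : Q.Normal] (hQP : Q ≤ (P : Subgroup M))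
    (hab : ∀ x ∈ (P : Subgroup M), ∀ y ∈ (P : Subgroup M), x * y * x⁻¹ * y⁻¹ ∈ Q)
    (hN : ∀ g : M, g ∈ Subgroup.normalizer ((P : Subgroup M) : Set M) → Nat.Coprime (orderOf g) p →
      g ∈ Subgroup.centralizer ((P : Subgroup M) : Set M)) :
    Subgroup.normalizer (((P : Subgroup M).map (QuotientGroup.mk' Q) : Subgroup (M ⧸ Q)) : Set (M ⧸ Q)) ≤
      Subgroup.centralizer (((P : Subgroup M).map (QuotientGroup.mk' Q) : Subgroup (M ⧸ Q)) : Set (M ⧸ Q)) := by
  have hp : p.Prime := Fact.out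
  intro gb hgb
  obtain ⟨g, rfl⟩ := QuotientGroup.mk'_surjective Q gb
  have hmemP : ∀ x : M, QuotientGroup.mk' Q x ∈ (P : Subgroup M).map (QuotientGroup.mk' Q) ↔
      x ∈ (P : Subgroup M) := by
    intro x
    constructor
    · rintro ⟨y, hy, hyx⟩
      obtain ⟨z, hz, hzx⟩ := (QuotientGroup.mk'_eq_mk' Q).mp hyx
      rw [← hzx]
      exact (P : Subgroup M).mul_mem hy (hQP hz)
    · intro hx
      exact ⟨x, hx, rfl⟩
  have hgN : g ∈ Subgroup.normalizer ((P : Subgroup M) : Set M) := by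
    rw [Subgroup.mem_normalizer_iff]
    intro x
    rw [← hmemP x, ← hmemP (g * x * g⁻¹)]
    have h0 := Subgroup.mem_normalizer_iff.mp hgb (QuotientGroup.mk' Q x)
    simpa using h0
  obtain ⟨a, m, hm, hom⟩ := Nat.exists_eq_pow_mul_and_not_dvd (orderOf_pos g).ne' p hp.ne_one
  have hm0 : 0 < m := by
    rcases Nat.eq_zero_or_pos m with rfl | h0
    · exact absurd (dvd_zero p) hm
    · exact h0
  have h1 : g ^ p ^ a ∈ Subgroup.centralizer ((P : Subgroup M) : Set M) := by
    apply hN _ (Subgroup.pow_mem _ hgN _)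
    have h3 : orderOf (g ^ p ^ a) ∣ m := by
      apply orderOf_dvd_of_pow_eq_one
      rw [← pow_mul, ← hom, pow_orderOf_eq_one]
    exact Nat.Coprime.coprime_dvd_left h3 ((Nat.Prime.coprime_iff_not_dvd hp).mpr hm).symm
  have h2 : g ^ m ∈ (P : Subgroup M) := by
    have hord : orderOf (g ^ m) = p ^ a := by
      rw [orderOf_pow, hom, Nat.gcd_mul_left_left, Nat.mul_div_cancel _ hm0]
    have hz : IsPGroup p (Subgroup.zpowers (g ^ m)) :=
      IsPGroup.of_card (n := a) (by rw [Nat.card_zpowers, hord])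
    have hle : Subgroup.zpowers (g ^ m) ≤ Subgroup.normalizer ((P : Subgroup M) : Set M) := by
      rw [Subgroup.zpowers_le]; exact Subgroup.pow_mem _ hgN _
    have hsup := IsPGroup.to_sup_of_normal_right' hz P.isPGroup' hle
    have h3 := P.is_maximal' hsup le_sup_right
    rw [← h3]; exact Subgroup.mem_sup_left (Subgroup.mem_zpowers _)
  rw [Subgroup.mem_centralizer_iff]
  rintro _ ⟨y, hy, rfl⟩
  suffices hs : QuotientGroup.mk' Q g ∈
      Subgroup.centralizer ({QuotientGroup.mk' Q y} : Set (M ⧸ Q)) by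
    exact (Subgroup.mem_centralizer_singleton_iff.mp hs).symm
  apply mem_of_pow_mem_of_coprime _ _ (a := p ^ a) (b := m)
  · exact Nat.Coprime.pow_left a ((Nat.Prime.coprime_iff_not_dvd hp).mpr hm)
  · rw [← map_pow, Subgroup.mem_centralizer_singleton_iff]
    have h3 := Subgroup.mem_centralizer_iff.mp h1 y hy
    rw [← map_mul, ← map_mul, h3]
  · rw [← map_pow, Subgroup.mem_centralizer_singleton_iff, ← map_mul, ← map_mul]
    apply (QuotientGroup.mk'_eq_mk' Q).mpr
    have hc := hab y⁻¹ ((P : Subgroup M).inv_mem hy) (g ^ m)⁻¹ ((P : Subgroup M).inv_mem h2)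
    refine ⟨_, hc, ?_⟩
    group

theorem key {M : Type u} [Group M] [Finite M] {p : ℕ} [Fact p.Prime] (P : Sylow p M)
    (Q : Subgroup M) [hQn : Q.Normal] (hQP : Q ≤ (P : Subgroup M))
    (hab : ∀ x ∈ (P : Subgroup M), ∀ y ∈ (P : Subgroup M), x * y * x⁻¹ * y⁻¹ ∈ Q)
    (hfr : ∀ R : Subgroup M, R ≤ (P : Subgroup M) →
      (∀ x ∈ (P : Subgroup M), ∃ q ∈ Q, ∃ r ∈ R, x = q * r) → (P : Subgroup M) ≤ R)
    (hN : ∀ g : M, g ∈ Subgroup.normalizer ((P : Subgroup M) : Set M) → Nat.Coprime (orderOf g) p →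
      g ∈ Subgroup.centralizer ((P : Subgroup M) : Set M)) :
    Cfsg.HasNormalPComplement p M := by
  have hp : p.Prime := Fact.out
  let Pb : Sylow p (M ⧸ Q) := P.mapSurjective (QuotientGroup.mk'_surjective Q)
  have hPbc : Subgroup.normalizer ((Pb : Subgroup (M ⧸ Q)) : Set (M ⧸ Q)) ≤
      Subgroup.centralizer ((Pb : Subgroup (M ⧸ Q)) : Set (M ⧸ Q)) := step1 P Q hQP hab hN
  obtain ⟨Kb, hKbn, hcomp⟩ : ∃ Kb : Subgroup (M ⧸ Q), Kb.Normal ∧
      Subgroup.IsComplement' Kb (Pb : Subgroup (M ⧸ Q)) :=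
    ⟨_, inferInstance, MonoidHom.ker_transferSylow_isComplement' Pb hPbc⟩
  let K : Subgroup M := Kb.comap (QuotientGroup.mk' Q)
  haveI hKn : K.Normal := hKbn.comap _
  have hQK : Q ≤ K := by
    intro q hq
    show QuotientGroup.mk' Q q ∈ Kb
    have h0 : QuotientGroup.mk' Q q = 1 := (QuotientGroup.eq_one_iff q).mpr hq
    rw [h0]; exact Subgroup.one_mem _
  obtain ⟨i, hi⟩ := (P.isPGroup'.to_le hQP).exists_card_eq
  obtain ⟨j, hj⟩ := Pb.isPGroup'.exists_card_eq
  have hKbidx : Kb.index = p ^ j := by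
    rw [← hj]; exact hcomp.symm.index_eq_card
  have hKbcard : ¬ p ∣ Nat.card Kb := by
    rw [← hcomp.index_eq_card]; exact Pb.not_dvd_index
  have hKidx : K.index = p ^ j := by
    rw [Subgroup.index_comap_of_surjective _ (QuotientGroup.mk'_surjective Q)]; exact hKbidx
  have hrel : Q.relIndex K = Nat.card Kb := by
    have e1 := Subgroup.relIndex_mul_index hQK
    have e2 : Q.index = Nat.card Kb * Kb.index := by
      rw [Subgroup.index_eq_card, Subgroup.card_mul_index]
    rw [hKidx, e2, hKbidx] at e1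
    exact Nat.eq_of_mul_eq_mul_right (pow_pos hp.pos j) e1
  let N : Subgroup K := Q.subgroupOf K
  have hNcard : Nat.card N = p ^ i := by
    rw [← hi]; exact Nat.card_congr (Subgroup.subgroupOfEquivOfLe hQK).toEquiv
  have hNidx : N.index = Nat.card Kb := hrel
  have hcop : Nat.Coprime (Nat.card N) N.index := by
    rw [hNcard, hNidx]
    exact Nat.Coprime.pow_left i ((Nat.Prime.coprime_iff_not_dvd hp).mpr hKbcard)
  obtain ⟨H', hH'⟩ := Subgroup.exists_right_complement'_of_coprime hcop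
  have hH'card : Nat.card H' = N.index := hH'.symm.index_eq_card.symm
  haveI : Group.IsSolvable N := by
    haveI : Group.IsNilpotent N := (IsPGroup.of_card hNcard).isNilpotent
    infer_instance
  let H : Subgroup M := H'.map K.subtype
  have hHcard : Nat.card H = Nat.card Kb := by
    rw [← hNidx, ← hH'card]
    exact Nat.card_congr (H'.equivMapOfInjective K.subtype K.subtype_injective).symm.toEquiv
  have hHmem : ∀ x : K, x ∈ H' → (x : M) ∈ H := fun x hx => ⟨x, hx, rfl⟩
  have hC : ∀ m : M, ∃ q ∈ Q, ∃ r ∈ Subgroup.normalizer (H : Set M), m = q * r := by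
    intro m
    let H'' : Subgroup K := H'.map (MulAut.conjNormal m : MulAut K).toMonoidHom
    have hH''card : Nat.card H'' = N.index := by
      rw [← hH'card]
      exact Nat.card_congr (H'.equivMapOfInjective _
        (MulAut.conjNormal m : MulAut K).injective).symm.toEquiv
    obtain ⟨k, hk⟩ := Cfsg.Agent.Lib.Helper1.sz_conj_card N hcop H' H'' (Or.inl inferInstance)
      hH'card hH''card
    have hA : ∀ h' : K, h' ∈ H' →
        ((k : M)⁻¹ * m) * (h' : M) * ((k : M)⁻¹ * m)⁻¹ ∈ H := by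
      intro h' hh'
      have h1 : (MulAut.conjNormal m : MulAut K) h' ∈ H'' := ⟨h', hh', rfl⟩
      rw [← hk, Cfsg.Agent.Lib.Helper1.mem_conj_smul_iff] at h1
      have h2 := hHmem _ h1
      have h3 : ((k⁻¹ * (MulAut.conjNormal m : MulAut K) h' * k : K) : M) =
          ((k : M)⁻¹ * m) * (h' : M) * ((k : M)⁻¹ * m)⁻¹ := by
        simp only [Subgroup.coe_mul, InvMemClass.coe_inv, MulAut.conjNormal_apply]
        group
      rw [← h3]; exact h2
    have hB : ∀ h' : K, h' ∈ H' →
        ((k : M)⁻¹ * m)⁻¹ * (h' : M) * ((k : M)⁻¹ * m) ∈ H := by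
      intro h' hh'
      have h1 : k * h' * k⁻¹ ∈ H'' := by
        rw [← hk, Cfsg.Agent.Lib.Helper1.mem_conj_smul_iff]
        have h0 : k⁻¹ * (k * h' * k⁻¹) * k = h' := by group
        rw [h0]; exact hh'
      obtain ⟨h₃, hh₃, e₃⟩ := h1
      have h2 := hHmem _ hh₃
      have h3 : (h₃ : M) = ((k : M)⁻¹ * m)⁻¹ * (h' : M) * ((k : M)⁻¹ * m) := by
        have e4 := congrArg (Subtype.val) e₃
        simp only [MulEquiv.coe_toMonoidHom, MulAut.conjNormal_apply, Subgroup.coe_mul,
          InvMemClass.coe_inv] at e4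
        calc (h₃ : M) = m⁻¹ * (m * (h₃ : M) * m⁻¹) * m := by group
          _ = m⁻¹ * ((k : M) * (h' : M) * (k : M)⁻¹) * m := by rw [e4]
          _ = _ := by group
      rw [← h3]; exact h2
    have hn : (k : M)⁻¹ * m ∈ Subgroup.normalizer (H : Set M) := by
      rw [Subgroup.mem_normalizer_iff]
      intro h
      constructor
      · rintro ⟨h', hh', rfl⟩
        exact hA h' hh'
      · rintro ⟨h', hh', e⟩
        have h5 := hB h' hh'
        have e' : (h' : M) = ((k : M)⁻¹ * m) * h * ((k : M)⁻¹ * m)⁻¹ := e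
        rw [e'] at h5
        have e2 : ((k : M)⁻¹ * m)⁻¹ * (((k : M)⁻¹ * m) * h * ((k : M)⁻¹ * m)⁻¹) *
            ((k : M)⁻¹ * m) = h := by group
        rw [e2] at h5; exact h5
    obtain ⟨⟨q, h⟩, hqh⟩ := hH'.2 k
    refine ⟨((q : K) : M), ?_, ((h : K) : M) * ((k : M)⁻¹ * m), ?_, ?_⟩
    · exact Subgroup.mem_subgroupOf.mp q.2
    · exact Subgroup.mul_mem _ (Subgroup.le_normalizer (hHmem _ h.2)) hn
    · have h6 : (k : M) = ((q : K) : M) * ((h : K) : M) := by rw [← hqh]; rfl
      rw [h6]; group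
  have hPn : (P : Subgroup M) ≤ Subgroup.normalizer (H : Set M) := by
    have h7 := hfr ((P : Subgroup M) ⊓ Subgroup.normalizer (H : Set M)) inf_le_left (by
      intro x hx
      obtain ⟨q, hq, r, hr, e⟩ := hC x
      refine ⟨q, hq, r, ⟨?_, hr⟩, e⟩
      have h8 : r = q⁻¹ * x := by rw [e]; group
      rw [h8]; exact (P : Subgroup M).mul_mem ((P : Subgroup M).inv_mem (hQP hq)) hx)
    exact h7.trans inf_le_right
  have hHn : H.Normal := by
    rw [← Subgroup.normalizer_eq_top_iff, eq_top_iff]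
    intro m _
    obtain ⟨q, hq, r, hr, e⟩ := hC m
    rw [e]; exact Subgroup.mul_mem _ (hPn (hQP hq)) hr
  have hHcop : Nat.Coprime (Nat.card H) p := by
    rw [hHcard]; exact ((Nat.Prime.coprime_iff_not_dvd hp).mpr hKbcard).symm
  have hHidx : H.index = p ^ (i + j) := by
    have e1 : Nat.card H * H.index = Nat.card M := Subgroup.card_mul_index H
    have e2 : Nat.card K * K.index = Nat.card M := Subgroup.card_mul_index K
    have e3 : Nat.card N * N.index = Nat.card K := Subgroup.card_mul_index N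
    rw [hKidx, ← e3, hNcard, hNidx] at e2
    rw [hHcard, ← e2] at e1
    have hpos : 0 < Nat.card Kb := Nat.card_pos
    apply Nat.eq_of_mul_eq_mul_left hpos
    rw [e1, pow_add]; ring
  haveI := hHn
  exact ⟨P, H, hHn,
    Cfsg.Agent.Lib.Helper2.isComplement'_of_normal_coprime_index_pow P H hHcop hHidx⟩

/-- Let G be a finite group with Sylow p-subgroup P such that N_G(P) has a normal p-complement. Then N_G(Q) has a normal p-complement for every subgroup Q with [P, P] ≤ Q ≤ Φ(P). -/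
theorem result {G : Type*} [Group G] [Finite G] {p : ℕ} [Fact p.Prime] (P : Sylow p G) (hN : Cfsg.HasNormalPComplement p ↥(Subgroup.normalizer ((P : Subgroup G) : Set G))) (Q : Subgroup G) (h1 : (commutator ↥(P : Subgroup G)).map (P : Subgroup G).subtype ≤ Q) (h2 : Q ≤ (frattini ↥(P : Subgroup G)).map (P : Subgroup G).subtype) : Cfsg.HasNormalPComplement p ↥(Subgroup.normalizer (Q : Set G)) := by
  have hQP : Q ≤ (P : Subgroup G) := h2.trans (Subgroup.map_subtype_le _)
  have hcomm : ∀ x ∈ (P : Subgroup G), ∀ y ∈ (P : Subgroup G), x * y * x⁻¹ * y⁻¹ ∈ Q := by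
    intro x hx y hy
    apply h1
    refine ⟨⁅(⟨x, hx⟩ : (P : Subgroup G)), ⟨y, hy⟩⁆, ?_, ?_⟩
    · rw [commutator_def]
      exact Subgroup.commutator_mem_commutator (Subgroup.mem_top _) (Subgroup.mem_top _)
    · simp [commutatorElement_def]
  have hPN : (P : Subgroup G) ≤ Subgroup.normalizer (Q : Set G) := by
    rw [Subgroup.le_normalizer_iff]
    intro x hx q hq
    have h0 : x * q * x⁻¹ = (x * q * x⁻¹ * q⁻¹) * q := by group
    rw [h0]
    exact Q.mul_mem (hcomm x hx q (hQP hq)) hq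
  let M : Subgroup G := Subgroup.normalizer (Q : Set G)
  show Cfsg.HasNormalPComplement p ↥M
  let PM : Sylow p M := P.subtype hPN
  have hPM : ∀ x : M, x ∈ (PM : Subgroup M) ↔ (x : G) ∈ (P : Subgroup G) := by
    intro x
    exact Subgroup.mem_subgroupOf
  haveI : (Q.subgroupOf M).Normal := Subgroup.normal_in_normalizer
  apply key PM (Q.subgroupOf M)
  · intro x hx
    rw [hPM]; exact hQP (Subgroup.mem_subgroupOf.mp hx)
  · intro x hx y hy
    rw [Subgroup.mem_subgroupOf]
    have h0 := hcomm x ((hPM x).mp hx) y ((hPM y).mp hy)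
    simpa using h0
  · intro R hR hgen
    let RP : Subgroup (P : Subgroup G) := (R.map M.subtype).subgroupOf (P : Subgroup G)
    have htop : RP ⊔ frattini (P : Subgroup G) = ⊤ := by
      rw [eq_top_iff]
      intro x _
      have hxM : (x : G) ∈ M := hPN x.2
      obtain ⟨q, hq, r, hr, e⟩ := hgen ⟨x, hxM⟩ ((hPM _).mpr x.2)
      have hqQ : (q : G) ∈ Q := Subgroup.mem_subgroupOf.mp hq
      obtain ⟨f, hf, hfq⟩ := h2 hqQ
      have hrP : (r : G) ∈ (P : Subgroup G) := (hPM r).mp (hR hr)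
      have hx : x = f * ⟨(r : G), hrP⟩ := by
        apply Subtype.ext
        have e' : (x : G) = (q : G) * (r : G) := congrArg Subtype.val e
        rw [e', ← hfq]; rfl
      rw [hx]
      apply Subgroup.mul_mem _ (Subgroup.mem_sup_right hf) (Subgroup.mem_sup_left _)
      rw [Subgroup.mem_subgroupOf]
      exact ⟨r, hr, rfl⟩
    have hRP := frattini_nongenerating htop
    intro x hx
    have hxP : (x : G) ∈ (P : Subgroup G) := (hPM x).mp hx
    have h0 : (⟨(x : G), hxP⟩ : (P : Subgroup G)) ∈ RP := hRP ▸ Subgroup.mem_top _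
    rw [Subgroup.mem_subgroupOf] at h0
    obtain ⟨r, hr, e⟩ := h0
    have h3 : r = x := Subtype.ext e
    rw [← h3]; exact hr
  · intro g hg hcop
    obtain ⟨P', Kc, hKc, hc⟩ := hN
    haveI := hKc
    have hgNP : (g : G) ∈ Subgroup.normalizer ((P : Subgroup G) : Set G) := by
      rw [Subgroup.mem_normalizer_iff]
      intro x
      have h0 := Subgroup.mem_normalizer_iff.mp hg
      constructor
      · intro hx
        have hxM : x ∈ M := hPN hx
        have h3 := (h0 ⟨x, hxM⟩).mp ((hPM _).mpr hx)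
        exact (hPM _).mp h3
      · intro hx
        have hxM : x ∈ M := by
          have h4 : x = (g : G)⁻¹ * ((g : G) * x * (g : G)⁻¹) * (g : G) := by group
          rw [h4]
          exact M.mul_mem (M.mul_mem (M.inv_mem g.2) (hPN hx)) g.2
        have h3 := (h0 ⟨x, hxM⟩).mpr ((hPM _).mpr hx)
        exact (hPM _).mp h3
    have hnt := Subgroup.normalizer_eq_top
      (H := (P : Subgroup G).subgroupOf (Subgroup.normalizer ((P : Subgroup G) : Set G)))
    have hcen := Cfsg.Agent.Lib.Helper2.mem_centralizer_of_isComplement' P' Kc hc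
      ((P : Subgroup G).subgroupOf (Subgroup.normalizer ((P : Subgroup G) : Set G)))
      (P.isPGroup'.comap_subtype)
      ⟨(g : G), hgNP⟩ (by rw [hnt]; exact Subgroup.mem_top _)
      (by rw [Subgroup.orderOf_mk, Subgroup.orderOf_coe]; exact hcop)
    rw [Subgroup.mem_centralizer_iff]
    intro x hx
    have hxP := (hPM x).mp hx
    have h5 := Subgroup.mem_centralizer_iff.mp hcen ⟨(x : G), Subgroup.le_normalizer hxP⟩
      (Subgroup.mem_subgroupOf.mpr hxP)
    have h6 : (x : G) * (g : G) = (g : G) * (x : G) := congrArg Subtype.val h5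
    exact Subtype.ext h6

end Cfsg.Agent.S3838
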