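import Cfsg.Statements.S3857
import Mathlib
import Cfsg.Agent.S0034
import Cfsg.Agent.S0039

set_option autoImplicit false
open Cfsg

namespace Cfsg.Agent.S3857

open scoped Pointwise commutatorElement

universe u

/-- every prime divisor of `n` lies in `π` -/
def PiNum (π : Set ℕ) (n : ℕ) : Prop := ∀ p : ℕ, p.Prime → p ∣ n → p ∈ π

theorem PiNum.of_dvd {π : Set ℕ} {m n : ℕ} (h : PiNum π n) (hd : m ∣ n) : PiNum π m :=
  fun p hp hpm => h p hp (hpm.trans hd)

theorem PiNum.mul {π : Set ℕ} {m n : ℕ} (h1 : PiNum π m) (h2 : PiNum π n) : PiNum π (m * n) := by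
  intro p hp hd
  rcases (hp.dvd_mul).mp hd with h | h
  · exact h1 p hp h
  · exact h2 p hp h

theorem eq_one_of_piNum {π : Set ℕ} {n : ℕ} (h1 : PiNum π n) (h2 : PiNum πᶜ n) : n = 1 := by
  by_contra h
  obtain ⟨p, hp, hpn⟩ := Nat.exists_prime_and_dvd h
  exact h2 p hp hpn (h1 p hp hpn)

/-- every element is a `π`-element or a `π'`-element -/
def Sep (π : Set ℕ) (G : Type u) [Group G] : Prop :=
  ∀ g : G, PiNum π (orderOf g) ∨ PiNum πᶜ (orderOf g)

theorem sep_of_disc {G : Type u} [Group G] [Finite G] (A : Set ℕ)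
    (h : ∀ a ∈ A, ∀ b ∉ A, a.Prime → b.Prime → a ∣ Nat.card G → b ∣ Nat.card G →
      ¬ ∃ g : G, orderOf g = a * b) : Sep A G := by
  intro g
  by_contra hcon
  rw [not_or] at hcon
  obtain ⟨h1, h2⟩ := hcon
  unfold PiNum at h1 h2
  push Not at h1 h2
  obtain ⟨b, hb, hbg, hbA⟩ := h1
  obtain ⟨a, ha, hag, haA⟩ := h2
  have haA' : a ∈ A := by simpa using haA
  have hab : a ≠ b := fun e => hbA (e ▸ haA')
  have hcop : Nat.Coprime a b := (Nat.coprime_primes ha hb).mpr hab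
  have hdvd : a * b ∣ orderOf g := hcop.mul_dvd_of_dvd_of_dvd hag hbg
  have hog : orderOf g ∣ Nat.card G := orderOf_dvd_natCard g
  apply h a haA' b hbA ha hb (hag.trans hog) (hbg.trans hog)
  obtain ⟨k, hk⟩ := hdvd
  have hpos : 0 < orderOf g := orderOf_pos g
  have hk0 : k ≠ 0 := by
    rintro rfl
    rw [mul_zero] at hk
    omega
  refine ⟨g ^ k, ?_⟩
  rw [orderOf_pow_of_dvd hk0 ⟨a * b, by rw [hk, mul_comm]⟩, hk,
    Nat.mul_div_cancel _ (Nat.pos_of_ne_zero hk0)]

theorem Sep.quotient {G : Type u} [Group G] {π : Set ℕ} (h : Sep π G) (N : Subgroup G)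
    [N.Normal] : Sep π (G ⧸ N) := by
  intro x
  obtain ⟨g, rfl⟩ := QuotientGroup.mk_surjective x
  have hd : orderOf (g : G ⧸ N) ∣ orderOf g := orderOf_map_dvd (QuotientGroup.mk' N) g
  rcases h g with h1 | h1
  · exact Or.inl (h1.of_dvd hd)
  · exact Or.inr (h1.of_dvd hd)

theorem Sep.subgroup {G : Type u} [Group G] {π : Set ℕ} (h : Sep π G) (K : Subgroup G) :
    Sep π K := by
  intro x
  have := h (x : G)
  rwa [Subgroup.orderOf_coe] at this

theorem Sep.not_commute {G : Type u} [Group G] [Finite G] {π : Set ℕ} (h : Sep π G) {x y : G}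
    (hxy : x * y = y * x) (hx : x ≠ 1) (hy : y ≠ 1) (hxπ : PiNum π (orderOf x))
    (hyπ : PiNum πᶜ (orderOf y)) : False := by
  have hx1 : orderOf x ≠ 1 := fun e => hx (orderOf_eq_one_iff.mp e)
  have hy1 : orderOf y ≠ 1 := fun e => hy (orderOf_eq_one_iff.mp e)
  obtain ⟨p, hp, hpx⟩ := Nat.exists_prime_and_dvd hx1
  obtain ⟨q, hq, hqy⟩ := Nat.exists_prime_and_dvd hy1
  have hpπ := hxπ p hp hpx
  have hqπ := hyπ q hq hqy
  have hpq : p ≠ q := fun e => hqπ (e ▸ hpπ)
  obtain ⟨k, hk⟩ := hpx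
  obtain ⟨l, hl⟩ := hqy
  have hk0 : k ≠ 0 := by
    rintro rfl
    rw [mul_zero] at hk
    exact absurd hk (orderOf_pos x).ne'
  have hl0 : l ≠ 0 := by
    rintro rfl
    rw [mul_zero] at hl
    exact absurd hl (orderOf_pos y).ne'
  have ox : orderOf (x ^ k) = p := by
    rw [orderOf_pow_of_dvd hk0 ⟨p, by rw [hk, mul_comm]⟩, hk,
      Nat.mul_div_cancel _ (Nat.pos_of_ne_zero hk0)]
  have oy : orderOf (y ^ l) = q := by
    rw [orderOf_pow_of_dvd hl0 ⟨q, by rw [hl, mul_comm]⟩, hl,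
      Nat.mul_div_cancel _ (Nat.pos_of_ne_zero hl0)]
  have hc : Commute (x ^ k) (y ^ l) := Commute.pow_pow hxy k l
  have ho : orderOf (x ^ k * y ^ l) = p * q := by
    rw [hc.orderOf_mul_eq_mul_orderOf_of_coprime
      (by rw [ox, oy]; exact (Nat.coprime_primes hp hq).mpr hpq), ox, oy]
  rcases h (x ^ k * y ^ l) with h1 | h1
  · exact hqπ (h1 q hq (by rw [ho]; exact dvd_mul_left q p))
  · exact h1 p hp (by rw [ho]; exact dvd_mul_right p q) hpπ

theorem piNum_card_of_elements {G : Type u} [Group G] [Finite G] {π : Set ℕ}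
    (h : ∀ g : G, PiNum π (orderOf g)) : PiNum π (Nat.card G) := by
  intro p hp hpG
  haveI := Fact.mk hp
  obtain ⟨g, hg⟩ := exists_prime_orderOf_dvd_card' p hpG
  exact h g p hp (by rw [hg])

theorem piNum_card_subgroup {G : Type u} [Group G] [Finite G] {π : Set ℕ} (H : Subgroup G)
    (h : ∀ g ∈ H, PiNum π (orderOf g)) : PiNum π (Nat.card H) := by
  apply piNum_card_of_elements
  intro g
  have := h g g.2
  rwa [Subgroup.orderOf_coe] at this

theorem piNum_orderOf_of_mem {G : Type u} [Group G] [Finite G] {π : Set ℕ} (H : Subgroup G)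
    (h : PiNum π (Nat.card H)) {g : G} (hg : g ∈ H) : PiNum π (orderOf g) := by
  apply h.of_dvd
  have := orderOf_dvd_natCard (⟨g, hg⟩ : H)
  rwa [← Subgroup.orderOf_coe] at this

theorem piNum_of_exp {G : Type u} [Group G] [Finite G] {π : Set ℕ} (Z : Subgroup G) (r : ℕ)
    (hr : r.Prime) (hrπ : r ∈ π) (hZ : ∀ z ∈ Z, z ^ r = 1) : PiNum π (Nat.card Z) := by
  apply piNum_card_subgroup
  intro g hg p hp hpd
  have h1 : orderOf g ∣ r := orderOf_dvd_of_pow_eq_one (hZ g hg)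
  have h2 : p ∣ r := hpd.trans h1
  rw [(Nat.prime_dvd_prime_iff_eq hp hr).mp h2]
  exact hrπ

/-- the full preimage of a `π`-subgroup of `G ⧸ N` (`N` a `π`-group) is a `π`-group -/
theorem piNum_comap {G : Type u} [Group G] [Finite G] {π : Set ℕ} (N : Subgroup G) [N.Normal]
    (hN : PiNum π (Nat.card N)) (M : Subgroup (G ⧸ N)) (hM : ∀ x ∈ M, PiNum π (orderOf x)) :
    PiNum π (Nat.card (M.comap (QuotientGroup.mk' N))) := by
  apply piNum_card_subgroup
  intro x hx
  have h1 := hM _ hx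
  have h2 : x ^ (orderOf (x : G ⧸ N)) ∈ N := by
    rw [← QuotientGroup.eq_one_iff, QuotientGroup.mk_pow, pow_orderOf_eq_one]
  have h3 : x ^ (orderOf (x : G ⧸ N) * Nat.card N) = 1 := by
    rw [pow_mul]
    have := pow_card_eq_one' (G := N) (x := ⟨_, h2⟩)
    exact congrArg Subtype.val this
  have h4 : orderOf x ∣ orderOf (x : G ⧸ N) * Nat.card N := orderOf_dvd_of_pow_eq_one h3
  exact (PiNum.mul h1 hN).of_dvd h4

/-- a largest normal `π`-subgroup -/
theorem exists_max_normal {G : Type u} [Group G] [Finite G] (π : Set ℕ) :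
    ∃ N : Subgroup G, N.Normal ∧ PiNum π (Nat.card N) ∧
      ∀ M : Subgroup G, M.Normal → PiNum π (Nat.card M) → M ≤ N := by
  classical
  let S : Set (Subgroup G) := {N | N.Normal ∧ PiNum π (Nat.card N)}
  have hS : S.Nonempty := by
    refine ⟨⊥, inferInstance, ?_⟩
    intro p hp hd
    rw [Subgroup.card_bot] at hd
    exact absurd (Nat.dvd_one.mp hd) hp.one_lt.ne'
  obtain ⟨N, hN, hmax⟩ := Set.exists_max_image S (fun N => Nat.card N) (Set.toFinite S) hS
  refine ⟨N, hN.1, hN.2, fun M hM hMπ => ?_⟩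
  haveI := hN.1
  haveI := hM
  have hsup : (N ⊔ M) ∈ S := by
    refine ⟨inferInstance, ?_⟩
    have h1 : N.relIndex (N ⊔ M) * Nat.card N = Nat.card (N ⊔ M : Subgroup G) := by
      rw [Subgroup.relIndex, ← Nat.card_congr (Subgroup.subgroupOfEquivOfLe
        (le_sup_left : N ≤ N ⊔ M)).toEquiv]
      exact Subgroup.index_mul_card _
    rw [← h1, Subgroup.relIndex_sup_left]
    exact PiNum.mul (hMπ.of_dvd (Subgroup.relIndex_dvd_card N M)) hN.2
  have hle : Nat.card (N ⊔ M : Subgroup G) ≤ Nat.card N := hmax _ hsup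
  have : N = N ⊔ M := Subgroup.eq_of_le_of_card_ge le_sup_left hle
  rw [this]
  exact le_sup_right

/-- a nontrivial abelian normal subgroup inside a nontrivial normal subgroup of a solvable group -/
theorem exists_normal_abelian_le {G : Type u} [Group G] [hs : Group.IsSolvable G] (N : Subgroup G)
    [N.Normal] (hN : N ≠ ⊥) :
    ∃ V : Subgroup G, V.Normal ∧ V ≠ ⊥ ∧ V ≤ N ∧ ∀ x ∈ V, ∀ y ∈ V, x * y = y * x := by
  classical
  obtain ⟨n, hn⟩ := hs.solvable
  have hex : ∃ m, N ⊓ derivedSeries G m = ⊥ := ⟨n, by rw [hn, inf_bot_eq]⟩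
  have h0 : Nat.find hex ≠ 0 := by
    intro h0
    have := Nat.find_spec hex
    rw [h0, derivedSeries_zero, inf_top_eq] at this
    exact hN this
  obtain ⟨k, hk⟩ := Nat.exists_eq_succ_of_ne_zero h0
  have hk1 : N ⊓ derivedSeries G k ≠ ⊥ := Nat.find_min hex (by omega)
  have hk2 : N ⊓ derivedSeries G (k + 1) = ⊥ := by
    have := Nat.find_spec hex
    rwa [hk] at this
  refine ⟨N ⊓ derivedSeries G k, inferInstance, hk1, inf_le_left, ?_⟩
  intro x hx y hy
  have hc : ⁅x, y⁆ ∈ N ⊓ derivedSeries G (k + 1) := by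
    refine ⟨?_, ?_⟩
    · rw [commutatorElement_def]
      exact N.mul_mem (N.mul_mem (N.mul_mem hx.1 hy.1) (N.inv_mem hx.1)) (N.inv_mem hy.1)
    · rw [derivedSeries_succ]
      exact Subgroup.commutator_mem_commutator hx.2 hy.2
  rw [hk2, Subgroup.mem_bot] at hc
  exact commutatorElement_eq_one_iff_mul_comm.mp hc

/-- a nontrivial normal abelian subgroup of prime exponent -/
theorem exists_normal_elem_abelian {G : Type u} [Group G] [Finite G] [hs : Group.IsSolvable G]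
    [Nontrivial G] :
    ∃ (Z : Subgroup G) (r : ℕ), Z.Normal ∧ Z ≠ ⊥ ∧ r.Prime ∧ (∀ z ∈ Z, z ^ r = 1) ∧
      (∀ z ∈ Z, ∀ w ∈ Z, z * w = w * z) := by
  obtain ⟨V, hVn, hV1, -, hVc⟩ := exists_normal_abelian_le (⊤ : Subgroup G) top_ne_bot
  have hcard : Nat.card V ≠ 1 := by
    intro h
    exact hV1 (Subgroup.card_eq_one.mp h)
  obtain ⟨r, hr, hrd⟩ := Nat.exists_prime_and_dvd hcard
  haveI := Fact.mk hr
  obtain ⟨d, hd⟩ := exists_prime_orderOf_dvd_card' r hrd
  let Z : Subgroup G :=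
    { carrier := {z | z ∈ V ∧ z ^ r = 1}
      one_mem' := ⟨V.one_mem, one_pow r⟩
      mul_mem' := by
        rintro a b ⟨ha, har⟩ ⟨hb, hbr⟩
        refine ⟨V.mul_mem ha hb, ?_⟩
        have hc : Commute a b := hVc a ha b hb
        rw [hc.mul_pow, har, hbr, one_mul]
      inv_mem' := by
        rintro a ⟨ha, har⟩
        exact ⟨V.inv_mem ha, by rw [inv_pow, har, inv_one]⟩ }
  have hZmem : ∀ z, z ∈ Z ↔ z ∈ V ∧ z ^ r = 1 := fun z => Iff.rfl
  refine ⟨Z, r, ?_, ?_, hr, fun z hz => ((hZmem z).mp hz).2, fun z hz w hw =>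
    hVc z ((hZmem z).mp hz).1 w ((hZmem w).mp hw).1⟩
  · constructor
    intro z hz g
    rw [hZmem] at hz ⊢
    refine ⟨hVn.conj_mem z hz.1 g, ?_⟩
    rw [conj_pow, hz.2, mul_one, mul_inv_cancel]
  · intro hZ
    have hdZ : (d : G) ∈ Z := by
      rw [hZmem]
      refine ⟨d.2, ?_⟩
      have : d ^ r = 1 := by rw [← hd]; exact pow_orderOf_eq_one d
      exact_mod_cast congrArg Subtype.val this
    rw [hZ, Subgroup.mem_bot] at hdZ
    have hd1 : d = 1 := Subtype.ext hdZ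
    rw [hd1, orderOf_one] at hd
    exact hr.one_lt.ne hd

/-- the trace of a fixed-point-free element of order dividing `r` vanishes -/
theorem trace_fix {E V : Type*} [Group E] [CommGroup V] (φ : E →* MulAut V) (g : E) (r : ℕ)
    (hg : g ^ r = 1) (hfix : ∀ v : V, φ g v = v → v = 1) (v : V) :
    ∏ i ∈ Finset.range r, φ (g ^ i) v = 1 := by
  apply hfix
  rw [map_prod]
  have h1 : ∀ i, φ g (φ (g ^ i) v) = φ (g ^ (i + 1)) v := by
    intro i
    rw [pow_succ', map_mul]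
    rfl
  simp_rw [h1]
  have h2 := Finset.prod_range_succ (fun i => φ (g ^ i) v) r
  have h3 := Finset.prod_range_succ' (fun i => φ (g ^ i) v) r
  rw [h2] at h3
  simp only [hg, pow_zero] at h3
  exact (mul_right_cancel h3).symm

/-- two independent commuting elements of prime order `r` acting without fixed points on a
commutative group force exponent `r` -/
theorem trace_pow {E V : Type*} [Group E] [CommGroup V] (φ : E →* MulAut V) (r : ℕ)
    (hr : r.Prime) (e₁ e₂ : E) (h1 : e₁ ^ r = 1) (h2 : e₂ ^ r = 1) (hc : Commute e₁ e₂)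
    (hfix1 : ∀ v : V, φ e₁ v = v → v = 1)
    (hfix2 : ∀ j : ℕ, ∀ v : V, φ (e₁ ^ j * e₂) v = v → v = 1) (v : V) : v ^ r = 1 := by
  have hA : ∀ w : V, ∏ k ∈ Finset.range r, φ (e₁ ^ k) w = 1 :=
    fun w => trace_fix φ e₁ r h1 hfix1 w
  have hB : ∀ j : ℕ, ∏ i ∈ Finset.range r, φ ((e₁ ^ j * e₂) ^ i) v = 1 := by
    intro j
    apply trace_fix φ (e₁ ^ j * e₂) r _ (hfix2 j) v
    rw [(hc.pow_left j).mul_pow, ← pow_mul, mul_comm j r, pow_mul, h1, one_pow, h2, mul_one]
  have hQ : ∏ j ∈ Finset.range r, ∏ i ∈ Finset.range r, φ ((e₁ ^ j * e₂) ^ i) v = 1 :=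
    Finset.prod_eq_one (fun j _ => hB j)
  rw [Finset.prod_comm] at hQ
  obtain ⟨r', rfl⟩ : ∃ r', r = r' + 1 := ⟨r - 1, by have := hr.pos; omega⟩
  rw [Finset.prod_range_succ'] at hQ
  have hrest : ∏ i ∈ Finset.range r', ∏ j ∈ Finset.range (r' + 1),
      φ ((e₁ ^ j * e₂) ^ (i + 1)) v = 1 := by
    apply Finset.prod_eq_one
    intro i hi
    have hi' : i < r' := Finset.mem_range.mp hi
    have key : ∀ j, φ ((e₁ ^ j * e₂) ^ (i + 1)) v
        = φ (e₂ ^ (i + 1)) (φ (e₁ ^ (j * (i + 1) % (r' + 1))) v) := by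
      intro j
      rw [(hc.pow_left j).mul_pow, ← pow_mul, ((hc.pow_pow (j * (i + 1)) (i + 1)).eq), map_mul,
        pow_eq_pow_mod (j * (i + 1)) h1]
      rfl
    simp_rw [key]
    rw [← map_prod]
    have hcop : Nat.gcd (r' + 1) (i + 1) = 1 := by
      have : Nat.Coprime (r' + 1) (i + 1) :=
        (Nat.Prime.coprime_iff_not_dvd hr).mpr (Nat.not_dvd_of_pos_of_lt (by omega) (by omega))
      exact this
    have hre : ∏ j ∈ Finset.range (r' + 1), φ (e₁ ^ (j * (i + 1) % (r' + 1))) v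
        = ∏ k ∈ Finset.range (r' + 1), φ (e₁ ^ k) v := by
      have hmaps : ∀ j ∈ Finset.range (r' + 1),
          (fun j => j * (i + 1) % (r' + 1)) j ∈ Finset.range (r' + 1) := by
        intro j _
        exact Finset.mem_range.mpr (Nat.mod_lt _ (by omega))
      have hinj : Set.InjOn (fun j => j * (i + 1) % (r' + 1))
          (Finset.range (r' + 1) : Set ℕ) := by
        intro j hj j' hj' hjj'
        have hj1 : j < r' + 1 := Finset.mem_range.mp hj
        have hj1' : j' < r' + 1 := Finset.mem_range.mp hj'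
        have hmod : j * (i + 1) ≡ j' * (i + 1) [MOD (r' + 1)] := hjj'
        exact (Nat.ModEq.cancel_right_of_coprime hcop hmod).eq_of_lt_of_lt hj1 hj1'
      apply Finset.prod_nbij (fun j => j * (i + 1) % (r' + 1)) hmaps hinj
      · exact Finset.surjOn_of_injOn_of_card_le _ hmaps hinj le_rfl
      · intro j _
        rfl
    rw [hre, hA, map_one]
  rw [hrest, one_mul] at hQ
  simpa using hQ

/-- group version of `trace_pow` for the conjugation action on an abelian normal subgroup -/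
theorem no_rank_two {G : Type u} [Group G] (V : Subgroup G) [V.Normal]
    (hVc : ∀ x ∈ V, ∀ y ∈ V, x * y = y * x) (r : ℕ) (hr : r.Prime) (e₁ e₂ : G)
    (h1 : e₁ ^ r = 1) (h2 : e₂ ^ r = 1) (hc : e₁ * e₂ = e₂ * e₁)
    (hfix1 : ∀ v ∈ V, e₁ * v = v * e₁ → v = 1)
    (hfix2 : ∀ j : ℕ, ∀ v ∈ V, (e₁ ^ j * e₂) * v = v * (e₁ ^ j * e₂) → v = 1) :
    ∀ v ∈ V, v ^ r = 1 := by
  letI : CommGroup V :=
    { (inferInstance : Group V) with
      mul_comm := fun x y => Subtype.ext (hVc x x.2 y y.2) }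
  intro v hv
  have hfix : ∀ g : G, (∀ w ∈ V, g * w = w * g → w = 1) →
      ∀ w : V, (MulAut.conjNormal (H := V) g) w = w → w = 1 := by
    intro g hg w hw
    apply Subtype.ext
    apply hg w w.2
    have h3 := congrArg Subtype.val hw
    rw [MulAut.conjNormal_apply] at h3
    calc g * (w : G) = (g * (w : G) * g⁻¹) * g := by group
      _ = (w : G) * g := by rw [h3]
  have := trace_pow (MulAut.conjNormal (H := V)) r hr e₁ e₂ h1 h2 hc (hfix e₁ hfix1)
    (fun j => hfix _ (hfix2 j)) ⟨v, hv⟩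
  exact congrArg Subtype.val this

/-- in `G ⧸ N` (`N` a nontrivial normal `π`-subgroup of the solvable group `G`) two commuting
elements of prime order `r ∉ π` generate a cyclic group -/
theorem lemmaA {G : Type u} [Group G] [Finite G] [Group.IsSolvable G] {π : Set ℕ}
    (hsep : Sep π G) (N : Subgroup G) [hNn : N.Normal] (hN : N ≠ ⊥)
    (hNπ : PiNum π (Nat.card N)) (r : ℕ) (hr : r.Prime) (hrπ : r ∉ π) (z₁ z₂ : G ⧸ N)
    (hz1 : z₁ ^ r = 1) (hz2 : z₂ ^ r = 1) (hcomm : z₁ * z₂ = z₂ * z₁) (hz1ne : z₁ ≠ 1) :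
    z₂ ∈ Subgroup.zpowers z₁ := by
  by_contra hz2not
  haveI := Fact.mk hr
  obtain ⟨e₁, rfl⟩ := QuotientGroup.mk_surjective z₁
  obtain ⟨e₂', rfl⟩ := QuotientGroup.mk_surjective z₂
  have lift : ∀ g : G, (g : G ⧸ N) ≠ 1 → (g : G ⧸ N) ^ r = 1 →
      g ^ r = 1 ∧ PiNum πᶜ (orderOf g) ∧ g ≠ 1 := by
    intro g hg1 hgr
    have hord : orderOf (g : G ⧸ N) = r := orderOf_eq_prime hgr hg1
    have hdvd : r ∣ orderOf g := by
      rw [← hord]
      exact orderOf_map_dvd (QuotientGroup.mk' N) g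
    have hπc : PiNum πᶜ (orderOf g) := by
      rcases hsep g with h | h
      · exact absurd (h r hr hdvd) hrπ
      · exact h
    refine ⟨?_, hπc, ?_⟩
    · have hmem : g ^ r ∈ N := by
        rw [← QuotientGroup.eq_one_iff, QuotientGroup.mk_pow]
        exact hgr
      have ho1 : PiNum π (orderOf (g ^ r)) := piNum_orderOf_of_mem N hNπ hmem
      have ho2 : PiNum πᶜ (orderOf (g ^ r)) := hπc.of_dvd (orderOf_pow_dvd r)
      exact orderOf_eq_one_iff.mp (eq_one_of_piNum ho1 ho2)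
    · rintro rfl
      exact hg1 rfl
  have hz2ne : (e₂' : G ⧸ N) ≠ 1 := fun h => hz2not (h ▸ one_mem _)
  obtain ⟨he1r, he1π, he1ne⟩ := lift e₁ hz1ne hz1
  have fpf : ∀ g : G, g ≠ 1 → PiNum πᶜ (orderOf g) → ∀ n ∈ N, g * n = n * g → n = 1 := by
    intro g hg hgπ n hn hgn
    by_contra hn1
    exact hsep.not_commute hgn.symm hn1 hg (piNum_orderOf_of_mem N hNπ hn) hgπ
  -- adjust the second lift so that it commutes with the first
  have hcn : e₁⁻¹ * e₂'⁻¹ * e₁ * e₂' ∈ N := by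
    rw [← QuotientGroup.eq_one_iff]
    have : ((e₁⁻¹ * e₂'⁻¹ * e₁ * e₂' : G) : G ⧸ N)
        = (e₁ : G ⧸ N)⁻¹ * (e₂' : G ⧸ N)⁻¹ * ((e₁ : G ⧸ N) * (e₂' : G ⧸ N)) := by
      simp only [QuotientGroup.mk_mul, QuotientGroup.mk_inv, mul_assoc]
    rw [this, hcomm]
    group
  let ψ : N → N := fun n => ⟨e₁⁻¹ * (n : G) * e₁ * (n : G)⁻¹, by
    have h := hNn.conj_mem (n : G) n.2 e₁⁻¹
    rw [inv_inv] at h
    exact N.mul_mem h (N.inv_mem n.2)⟩
  have hψinj : Function.Injective ψ := by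
    intro n m hnm
    have h := congrArg Subtype.val hnm
    simp only [ψ] at h
    have h2 : e₁ * ((m : G)⁻¹ * (n : G)) = ((m : G)⁻¹ * (n : G)) * e₁ := by
      have h3 : (n : G) * e₁ * (n : G)⁻¹ = (m : G) * e₁ * (m : G)⁻¹ := by
        have := congrArg (fun t => e₁ * t) h
        simpa [mul_assoc] using this
      calc e₁ * ((m : G)⁻¹ * (n : G))
          = (m : G)⁻¹ * ((m : G) * e₁ * (m : G)⁻¹) * (n : G) := by group
        _ = (m : G)⁻¹ * ((n : G) * e₁ * (n : G)⁻¹) * (n : G) := by rw [h3]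
        _ = ((m : G)⁻¹ * (n : G)) * e₁ := by group
    have h4 := fpf e₁ he1ne he1π _ (N.mul_mem (N.inv_mem m.2) n.2) h2
    apply Subtype.ext
    have : (n : G) = (m : G) * ((m : G)⁻¹ * (n : G)) := by group
    rw [this, h4, mul_one]
  obtain ⟨n, hn⟩ := (Finite.injective_iff_surjective.mp hψinj) ⟨_, hcn⟩
  have hn' : e₁⁻¹ * (n : G) * e₁ * (n : G)⁻¹ = e₁⁻¹ * e₂'⁻¹ * e₁ * e₂' :=
    congrArg Subtype.val hn
  set e₂ : G := e₂' * (n : G) with he₂
  have hmk : ((e₂ : G) : G ⧸ N) = (e₂' : G ⧸ N) := by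
    rw [he₂, QuotientGroup.mk_mul, (QuotientGroup.eq_one_iff (n : G)).mpr n.2, mul_one]
  have hc : e₁ * e₂ = e₂ * e₁ := by
    have h5 : (n : G) * e₁ * (n : G)⁻¹ = e₂'⁻¹ * e₁ * e₂' := by
      have := congrArg (fun t => e₁ * t) hn'
      simpa [mul_assoc] using this
    calc e₁ * e₂ = e₂' * (e₂'⁻¹ * e₁ * e₂') * (n : G) := by rw [he₂]; group
      _ = e₂' * ((n : G) * e₁ * (n : G)⁻¹) * (n : G) := by rw [h5]
      _ = e₂ * e₁ := by rw [he₂]; group
  obtain ⟨he2r, -, -⟩ := lift e₂ (by rw [hmk]; exact hz2ne) (by rw [hmk]; exact hz2)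
  have hgj : ∀ j : ℕ, PiNum πᶜ (orderOf (e₁ ^ j * e₂)) ∧ e₁ ^ j * e₂ ≠ 1 := by
    intro j
    have hne : ((e₁ ^ j * e₂ : G) : G ⧸ N) ≠ 1 := by
      intro h
      apply hz2not
      rw [QuotientGroup.mk_mul, hmk, QuotientGroup.mk_pow] at h
      have : (e₂' : G ⧸ N) = ((e₁ : G ⧸ N) ^ j)⁻¹ := eq_inv_of_mul_eq_one_right h
      rw [this]
      exact Subgroup.inv_mem _ (Subgroup.pow_mem _ (Subgroup.mem_zpowers _) j)
    have hpow : ((e₁ ^ j * e₂ : G) : G ⧸ N) ^ r = 1 := by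
      rw [QuotientGroup.mk_mul, hmk, QuotientGroup.mk_pow,
        ((Commute.pow_left (show Commute (e₁ : G ⧸ N) (e₂' : G ⧸ N) from hcomm) j)).mul_pow,
        ← pow_mul, mul_comm j r, pow_mul, hz1, one_pow, hz2, mul_one]
    obtain ⟨-, h2, h3⟩ := lift _ hne hpow
    exact ⟨h2, h3⟩
  obtain ⟨V, hVn, hV1, hVN, hVc⟩ := exists_normal_abelian_le N hN
  have hexp := no_rank_two V hVc r hr e₁ e₂ he1r he2r hc
    (fun v hv h => fpf e₁ he1ne he1π v (hVN hv) h)
    (fun j v hv h => fpf _ (hgj j).2 (hgj j).1 v (hVN hv) h)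
  apply hV1
  rw [eq_bot_iff]
  intro v hv
  rw [Subgroup.mem_bot]
  have h6 : orderOf v ∣ r := orderOf_dvd_of_pow_eq_one (hexp v hv)
  rcases (Nat.dvd_prime hr).mp h6 with h | h
  · exact orderOf_eq_one_iff.mp h
  · exact absurd (piNum_orderOf_of_mem N hNπ (hVN hv) r hr (by rw [h])) hrπ

/-- a normal Hall subgroup on which the elements of complementary order act without fixed
points is a Frobenius kernel -/
theorem frob_of_hall {L : Type u} [Group L] [Finite L] (N : Subgroup L) [hNn : N.Normal]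
    (hN : N ≠ ⊥) (hNtop : N ≠ ⊤) (hcop : (Nat.card N).Coprime N.index)
    (hfpf : ∀ n ∈ N, ∀ h : L, n ≠ 1 → h ≠ 1 → n * h = h * n → ¬ (orderOf h ∣ N.index)) :
    ∃ C : Subgroup L, Cfsg.IsFrobeniusComplement C ∧ Cfsg.frobeniusKernel C = (N : Set L) := by
  obtain ⟨C, hC⟩ := Subgroup.exists_right_complement'_of_coprime hcop
  have hcard : Nat.card N * Nat.card C = Nat.card L := hC.card_mul_card
  have hCidx : Nat.card C = N.index :=
    Nat.eq_of_mul_eq_mul_left Nat.card_pos (hcard.trans N.card_mul_index.symm)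
  have hC1 : C ≠ ⊥ := by
    rintro rfl
    apply hNtop
    rw [Subgroup.card_bot, mul_one] at hcard
    exact (Subgroup.card_eq_iff_eq_top N).mp hcard
  have hdisj : N ⊓ C = ⊥ := hC.disjoint.eq_bot
  have hF : Cfsg.IsFrobeniusComplement C := by
    rw [Cfsg.Agent.S0039.result N C hC hN hC1]
    intro h hh hh1
    rw [eq_bot_iff]
    intro n hn
    rw [Subgroup.mem_bot]
    by_contra hn1
    have hcomm : n * h = h * n := (Subgroup.mem_centralizer_iff.mp hn.2 h rfl).symm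
    apply hfpf n hn.1 h hn1 hh1 hcomm
    rw [← hCidx]
    have := orderOf_dvd_natCard (⟨h, hh⟩ : C)
    rwa [← Subgroup.orderOf_coe] at this
  refine ⟨C, hF, ?_⟩
  have hsub : (N : Set L) ⊆ Cfsg.frobeniusKernel C := by
    intro x hx
    by_cases hx1 : x = 1
    · exact Or.inl hx1
    · right
      intro g hg
      rw [Cfsg.Agent.S0034.mem_conj_smul] at hg
      have hmem : g⁻¹ * x * g ∈ N ⊓ C := by
        refine ⟨?_, hg⟩
        have := hNn.conj_mem x hx g⁻¹
        rwa [inv_inv] at this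
      rw [hdisj, Subgroup.mem_bot] at hmem
      apply hx1
      have h2 : x = g * (g⁻¹ * x * g) * g⁻¹ := by group
      rw [h2, hmem]
      group
  have hkc : Nat.card (Cfsg.frobeniusKernel C) = C.index := Cfsg.Agent.S0034.kernel_card C hF
  have hidx : C.index = Nat.card N := by
    have h3 := C.card_mul_index
    have h2 : Nat.card C * Nat.card N = Nat.card L := by rw [mul_comm]; exact hcard
    exact Nat.eq_of_mul_eq_mul_left Nat.card_pos (h3.trans h2.symm)
  symm
  apply Set.eq_of_subset_of_ncard_le hsub _ (Set.toFinite _)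
  rw [← Nat.card_coe_set_eq, ← Nat.card_coe_set_eq, hkc, hidx]
  exact le_of_eq rfl

theorem main {G : Type u} [Group G] [Finite G] [hsol : Group.IsSolvable G] (π : Set ℕ)
    (hsep : Sep π G) (N : Subgroup G) [hNn : N.Normal] (hN : N ≠ ⊥)
    (hNπ : PiNum π (Nat.card N))
    (hmax : ∀ M : Subgroup G, M.Normal → PiNum π (Nat.card M) → M ≤ N)
    (hnot : ¬ PiNum π (Nat.card G)) :
    (∃ C : Subgroup G, Cfsg.IsFrobeniusComplement C) ∨
    (∃ (H K : Subgroup G) (_ : H.Normal), K.Normal ∧ H < K ∧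
      (∃ C : Subgroup ↥K, Cfsg.IsFrobeniusComplement C ∧ Cfsg.frobeniusKernel C = (H.subgroupOf K : Set ↥K)) ∧
      (∃ C : Subgroup (G ⧸ H), Cfsg.IsFrobeniusComplement C ∧ Cfsg.frobeniusKernel C = (K.map (QuotientGroup.mk' H) : Set (G ⧸ H)))) := by
  have hNtop : N ≠ ⊤ := by
    rintro rfl
    exact hnot (by rwa [Subgroup.card_top] at hNπ)
  haveI : Nontrivial (G ⧸ N) := by
    rw [← Finite.one_lt_card_iff_nontrivial, ← Subgroup.index_eq_card]
    have h1 : N.index ≠ 1 := fun h => hNtop (Subgroup.index_eq_one.mp h)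
    have h0 : N.index ≠ 0 := Subgroup.index_ne_zero_of_finite
    omega
  have hsepQ : Sep π (G ⧸ N) := hsep.quotient N
  -- `O_π(G ⧸ N) = 1`
  have hOpi : ∀ M : Subgroup (G ⧸ N), M.Normal → (∀ x ∈ M, PiNum π (orderOf x)) → M = ⊥ := by
    intro M hM hMπ
    have h1 := piNum_comap N hNπ M hMπ
    have h2 : M.comap (QuotientGroup.mk' N) ≤ N := hmax _ (hM.comap _) h1
    rw [eq_bot_iff]
    intro x hx
    obtain ⟨g, rfl⟩ := QuotientGroup.mk_surjective x
    rw [Subgroup.mem_bot]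
    exact (QuotientGroup.eq_one_iff g).mpr (h2 hx)
  obtain ⟨Kb, hKbn, hKbπ, hKbmax⟩ := exists_max_normal (G := G ⧸ N) πᶜ
  obtain ⟨Z, r, hZn, hZ1, hr, hZr, hZc⟩ := exists_normal_elem_abelian (G := G ⧸ N)
  haveI := Fact.mk hr
  have hrπ : r ∉ π := by
    intro hrπ
    apply hZ1
    apply hOpi Z hZn
    intro x hx p hp hpd
    have h1 : orderOf x ∣ r := orderOf_dvd_of_pow_eq_one (hZr x hx)
    rw [(Nat.prime_dvd_prime_iff_eq hp hr).mp (hpd.trans h1)]
    exact hrπ
  have hZK : Z ≤ Kb := hKbmax Z hZn (piNum_of_exp Z r hr hrπ hZr)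
  have hKb1 : Kb ≠ ⊥ := fun h => hZ1 (le_bot_iff.mp (h ▸ hZK))
  -- `Z` is cyclic of order `r`
  obtain ⟨z₁, hz₁Z, hz₁ne⟩ : ∃ z₁ ∈ Z, z₁ ≠ 1 := by
    by_contra hcon
    push Not at hcon
    exact hZ1 (eq_bot_iff.mpr (fun x hx => Subgroup.mem_bot.mpr (hcon x hx)))
  have hzo : orderOf z₁ = r := orderOf_eq_prime (hZr z₁ hz₁Z) hz₁ne
  have hZcyc : ∀ z ∈ Z, z ∈ Subgroup.zpowers z₁ := fun z hz =>
    lemmaA hsep N hN hNπ r hr hrπ z₁ z (hZr z₁ hz₁Z) (hZr z hz) (hZc z₁ hz₁Z z hz) hz₁ne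
  -- the derived subgroup of `G ⧸ N` centralises `z₁`
  have hconj : ∀ g : G ⧸ N, ∃ a : ℤ, g * z₁ * g⁻¹ = z₁ ^ a := by
    intro g
    obtain ⟨a, ha⟩ := Subgroup.mem_zpowers_iff.mp (hZcyc _ (hZn.conj_mem z₁ hz₁Z g))
    exact ⟨a, ha.symm⟩
  have hswap : ∀ g h : G ⧸ N, (g * h) * z₁ * (g * h)⁻¹ = (h * g) * z₁ * (h * g)⁻¹ := by
    intro g h
    obtain ⟨a, ha⟩ := hconj g
    obtain ⟨b, hb⟩ := hconj h
    have e1 : (g * h) * z₁ * (g * h)⁻¹ = g * (h * z₁ * h⁻¹) * g⁻¹ := by group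
    have e2 : (h * g) * z₁ * (h * g)⁻¹ = h * (g * z₁ * g⁻¹) * h⁻¹ := by group
    rw [e1, e2, hb, ha, ← conj_zpow, ← conj_zpow, ha, hb, ← zpow_mul, ← zpow_mul, mul_comm]
  have hcomm_mem : ∀ c ∈ commutator (G ⧸ N), c * z₁ = z₁ * c := by
    have hle : commutator (G ⧸ N) ≤ Subgroup.centralizer {z₁} := by
      rw [commutator_def, Subgroup.commutator_le]
      intro g _ h _
      rw [Subgroup.mem_centralizer_iff]
      intro x hx
      rw [Set.mem_singleton_iff] at hx
      subst hx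
      have h1 := hswap g⁻¹ h⁻¹
      rw [commutatorElement_def]
      have h2 : x = (h⁻¹ * g⁻¹)⁻¹ * ((g⁻¹ * h⁻¹) * x * (g⁻¹ * h⁻¹)⁻¹) * (h⁻¹ * g⁻¹) := by
        rw [h1]
        group
      calc x * (g * h * g⁻¹ * h⁻¹)
          = ((h⁻¹ * g⁻¹)⁻¹ * ((g⁻¹ * h⁻¹) * x * (g⁻¹ * h⁻¹)⁻¹) * (h⁻¹ * g⁻¹))
              * (g * h * g⁻¹ * h⁻¹) := by rw [← h2]
        _ = g * h * g⁻¹ * h⁻¹ * x := by group
    intro c hc
    have := hle hc
    rw [Subgroup.mem_centralizer_iff] at this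
    exact (this z₁ rfl).symm
  have hz₁π : PiNum πᶜ (orderOf z₁) := by
    intro p hp hpd
    rw [hzo] at hpd
    rw [(Nat.prime_dvd_prime_iff_eq hp hr).mp hpd]
    exact hrπ
  have hcommK : commutator (G ⧸ N) ≤ Kb := by
    apply hKbmax _ inferInstance
    apply piNum_card_subgroup
    intro c hc
    rcases hsepQ c with h | h
    · by_cases hc1 : c = 1
      · rw [hc1, orderOf_one]
        intro p hp hpd
        exact absurd (Nat.dvd_one.mp hpd) hp.one_lt.ne'
      · exact (hsepQ.not_commute (hcomm_mem c hc) hc1 hz₁ne h hz₁π).elim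
    · exact h
  by_cases hKtop : Kb = ⊤
  · -- `G ⧸ N` is a `π'`-group: `G` is a Frobenius group
    left
    have hidx : PiNum πᶜ N.index := by
      rw [Subgroup.index_eq_card, ← Subgroup.card_top (G := G ⧸ N), ← hKtop]
      exact hKbπ
    have hcop : (Nat.card N).Coprime N.index :=
      Nat.coprime_of_dvd (fun k hk h1 h2 => hidx k hk h2 (hNπ k hk h1))
    obtain ⟨C, hC, -⟩ := frob_of_hall N hN hNtop hcop (by
      intro n hn h hn1 hh1 hcomm hdvd
      exact hsep.not_commute hcomm hn1 hh1 (piNum_orderOf_of_mem N hNπ hn) (hidx.of_dvd hdvd))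
    exact ⟨C, hC⟩
  · right
    -- `(G ⧸ N) ⧸ Kb` is a `π`-group
    have hKidx : PiNum π Kb.index := by
      intro q hq hqd
      by_contra hqπ
      haveI := Fact.mk hq
      rw [Subgroup.index_eq_card] at hqd
      obtain ⟨w, hw⟩ := exists_prime_orderOf_dvd_card' q hqd
      let K₂ : Subgroup (G ⧸ N) := (Subgroup.zpowers w).comap (QuotientGroup.mk' Kb)
      have hKK₂ : Kb ≤ K₂ := by
        intro x hx
        show (QuotientGroup.mk' Kb) x ∈ Subgroup.zpowers w
        rw [QuotientGroup.mk'_apply, (QuotientGroup.eq_one_iff x).mpr hx]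
        exact one_mem _
      have hK₂n : K₂.Normal := by
        constructor
        intro x hx g
        have h1 : g * x * g⁻¹ = ⁅g, x⁆ * x := by
          rw [commutatorElement_def]
          group
        rw [h1]
        refine K₂.mul_mem (hKK₂ (hcommK ?_)) hx
        rw [commutator_def]
        exact Subgroup.commutator_mem_commutator (Subgroup.mem_top g) (Subgroup.mem_top x)
      have hK₂π : PiNum πᶜ (Nat.card K₂) := by
        apply piNum_comap Kb hKbπ
        intro x hx p hp hpd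
        have h1 : orderOf x ∣ q := by
          rw [← hw]
          exact orderOf_dvd_of_mem_zpowers hx
        rw [(Nat.prime_dvd_prime_iff_eq hp hq).mp (hpd.trans h1)]
        exact hqπ
      have hK₂K : K₂ ≤ Kb := hKbmax K₂ hK₂n hK₂π
      obtain ⟨x, rfl⟩ := QuotientGroup.mk_surjective w
      have hxK₂ : x ∈ K₂ := by
        show (QuotientGroup.mk' Kb) x ∈ Subgroup.zpowers (x : (G ⧸ N) ⧸ Kb)
        exact Subgroup.mem_zpowers _
      have hx1 : (x : (G ⧸ N) ⧸ Kb) = 1 := (QuotientGroup.eq_one_iff x).mpr (hK₂K hxK₂)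
      rw [hx1, orderOf_one] at hw
      exact hq.one_lt.ne hw
    set K : Subgroup G := Kb.comap (QuotientGroup.mk' N) with hKdef
    have hKn : K.Normal := hKbn.comap _
    have hNK : N ≤ K := by
      intro x hx
      show (QuotientGroup.mk' N) x ∈ Kb
      rw [QuotientGroup.mk'_apply, (QuotientGroup.eq_one_iff x).mpr hx]
      exact one_mem _
    have hmap : K.map (QuotientGroup.mk' N) = Kb :=
      Subgroup.map_comap_eq_self_of_surjective (QuotientGroup.mk'_surjective N) Kb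
    have hNKne : N ≠ K := by
      intro h
      apply hKb1
      rw [← hmap, ← h, eq_bot_iff]
      rintro _ ⟨x, hx, rfl⟩
      rw [Subgroup.mem_bot, QuotientGroup.mk'_apply]
      exact (QuotientGroup.eq_one_iff x).mpr hx
    have hrel : N.relIndex K = Nat.card Kb := by
      have h1 : N = (⊥ : Subgroup (G ⧸ N)).comap (QuotientGroup.mk' N) := by
        rw [MonoidHom.comap_bot, QuotientGroup.ker_mk']
      conv_lhs => rw [h1]
      rw [Subgroup.relIndex_comap, hmap, Subgroup.relIndex_bot_left]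
    refine ⟨N, K, hNn, hKn, lt_of_le_of_ne hNK hNKne, ?_, ?_⟩
    · -- `K` is a Frobenius group with kernel `N`
      have hidx : PiNum πᶜ (N.subgroupOf K).index := by
        show PiNum πᶜ (N.relIndex K)
        rw [hrel]
        exact hKbπ
      have hcardN : Nat.card (N.subgroupOf K) = Nat.card N :=
        Nat.card_congr (Subgroup.subgroupOfEquivOfLe hNK).toEquiv
      have hcop : (Nat.card (N.subgroupOf K)).Coprime (N.subgroupOf K).index := by
        rw [hcardN]
        exact Nat.coprime_of_dvd (fun k hk h1 h2 => hidx k hk h2 (hNπ k hk h1))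
      apply frob_of_hall (N.subgroupOf K)
      · rw [Ne, Subgroup.subgroupOf_eq_bot, disjoint_iff, inf_eq_left.mpr hNK]
        exact hN
      · rw [Ne, Subgroup.subgroupOf_eq_top]
        exact fun h => hNKne (le_antisymm hNK h)
      · exact hcop
      · intro n hn h hn1 hh1 hcomm hdvd
        have hn' : (n : G) ∈ N := Subgroup.mem_subgroupOf.mp hn
        refine hsep.not_commute (x := (n : G)) (y := (h : G)) ?_ ?_ ?_
          (piNum_orderOf_of_mem N hNπ hn') ?_
        · exact_mod_cast congrArg Subtype.val hcomm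
        · exact fun e => hn1 (Subtype.ext e)
        · exact fun e => hh1 (Subtype.ext e)
        · rw [Subgroup.orderOf_coe]
          exact hidx.of_dvd hdvd
    · -- `G ⧸ N` is a Frobenius group with kernel `K / N`
      have hcop : (Nat.card Kb).Coprime Kb.index :=
        Nat.coprime_of_dvd (fun k hk h1 h2 => hKbπ k hk h1 (hKidx k hk h2))
      haveI := hKbn
      obtain ⟨C, hC, hCk⟩ := frob_of_hall Kb hKb1 hKtop hcop (by
        intro n hn h hn1 hh1 hcomm hdvd
        exact hsepQ.not_commute hcomm.symm hh1 hn1 (hKidx.of_dvd hdvd)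
          (piNum_orderOf_of_mem Kb hKbπ hn))
      refine ⟨C, hC, ?_⟩
      rw [hCk, hmap]

/-- A finite solvable group whose prime graph (prime divisors of the order, two distinct primes joined when there is an element of order their product) is disconnected is a Frobenius group or a 2-Frobenius group (it has normal subgroups H < K with K a Frobenius group with kernel H and G/H a Frobenius group with kernel K/H). -/
theorem result {G : Type*} [Group G] [Finite G] (hsol : Group.IsSolvable G)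
    (hdisc : (∃ A : Set ℕ, (∃ a ∈ A, a.Prime ∧ a ∣ Nat.card G) ∧ (∃ b ∉ A, b.Prime ∧ b ∣ Nat.card G) ∧
      ∀ a ∈ A, ∀ b ∉ A, a.Prime → b.Prime → a ∣ Nat.card G → b ∣ Nat.card G → ¬ ∃ g : G, orderOf g = a * b)) :
    (∃ C : Subgroup G, Cfsg.IsFrobeniusComplement C) ∨
    (∃ (H K : Subgroup G) (_ : H.Normal), K.Normal ∧ H < K ∧
      (∃ C : Subgroup ↥K, Cfsg.IsFrobeniusComplement C ∧ Cfsg.frobeniusKernel C = (H.subgroupOf K : Set ↥K)) ∧
      (∃ C : Subgroup (G ⧸ H), Cfsg.IsFrobeniusComplement C ∧ Cfsg.frobeniusKernel C = (K.map (QuotientGroup.mk' H) : Set (G ⧸ H)))) := by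
  obtain ⟨A, ⟨a, haA, ha, hadvd⟩, ⟨b, hbA, hb, hbdvd⟩, hno⟩ := hdisc
  haveI := hsol
  have hsep : Sep A G := sep_of_disc A hno
  haveI : Nontrivial G := by
    rw [← Finite.one_lt_card_iff_nontrivial]
    exact lt_of_lt_of_le ha.one_lt (Nat.le_of_dvd Nat.card_pos hadvd)
  obtain ⟨Z, r, hZn, hZ1, hr, hZr, hZc⟩ := exists_normal_elem_abelian (G := G)
  by_cases hrA : r ∈ A
  · obtain ⟨N, hNn, hNπ, hNmax⟩ := exists_max_normal (G := G) A
    haveI := hNn
    have hZN : Z ≤ N := hNmax Z hZn (piNum_of_exp Z r hr hrA hZr)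
    exact main A hsep N (fun h => hZ1 (le_bot_iff.mp (h ▸ hZN))) hNπ hNmax
      (fun h => hbA (h b hb hbdvd))
  · obtain ⟨N, hNn, hNπ, hNmax⟩ := exists_max_normal (G := G) Aᶜ
    haveI := hNn
    have hsep' : Sep Aᶜ G := by
      intro g
      rcases hsep g with h | h
      · right
        rwa [compl_compl]
      · left
        exact h
    have hZN : Z ≤ N := hNmax Z hZn (piNum_of_exp Z r hr hrA hZr)
    exact main Aᶜ hsep' N (fun h => hZ1 (le_bot_iff.mp (h ▸ hZN))) hNπ hNmax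
      (fun h => (h a ha hadvd) haA)

end Cfsg.Agent.S3857
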