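import Cfsg.Statements.S3858
import Mathlib

set_option autoImplicit false
open Cfsg

namespace Cfsg.Agent.S3858

theorem card_mul_relIndex_of_le {G : Type*} [Group G] {H K : Subgroup G} (h : H ≤ K) :
    Nat.card H * H.relIndex K = Nat.card K := by
  rw [Subgroup.relIndex, ← Subgroup.card_mul_index (H.subgroupOf K),
    Nat.card_congr (Subgroup.subgroupOfEquivOfLe h).toEquiv]

theorem relIndex_of_normal_eq {G : Type*} [Group G] [Finite G] (R T : Subgroup G) [T.Normal] :
    R.relIndex T = R.relIndex (R ⊔ T) := by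
  have hA := card_mul_relIndex_of_le (le_sup_left : R ≤ R ⊔ T)
  have hB := card_mul_relIndex_of_le (le_sup_right : T ≤ R ⊔ T)
  have hB' : T.relIndex (R ⊔ T) = T.relIndex R := Subgroup.relIndex_sup_right R T
  have hC := card_mul_relIndex_of_le (inf_le_left : R ⊓ T ≤ R)
  have hD := card_mul_relIndex_of_le (inf_le_right : R ⊓ T ≤ T)
  rw [Subgroup.inf_relIndex_right] at hD
  rw [inf_comm, Subgroup.inf_relIndex_right, inf_comm] at hC
  rw [hB'] at hB
  have hpos : 0 < Nat.card (R ⊓ T : Subgroup G) := Nat.card_pos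
  have hposR : 0 < Nat.card R := Nat.card_pos
  have key : Nat.card (R ⊓ T : Subgroup G) * Nat.card R * R.relIndex T =
      Nat.card (R ⊓ T : Subgroup G) * Nat.card R * R.relIndex (R ⊔ T) := by
    calc Nat.card (R ⊓ T : Subgroup G) * Nat.card R * R.relIndex T
        = Nat.card R * (Nat.card (R ⊓ T : Subgroup G) * R.relIndex T) := by ring
      _ = Nat.card R * Nat.card T := by rw [hD]
      _ = Nat.card T * (Nat.card (R ⊓ T : Subgroup G) * T.relIndex R) := by rw [hC]; ring
      _ = Nat.card (R ⊓ T : Subgroup G) * (Nat.card T * T.relIndex R) := by ring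
      _ = Nat.card (R ⊓ T : Subgroup G) * (Nat.card R * R.relIndex (R ⊔ T)) := by rw [hB, hA]
      _ = Nat.card (R ⊓ T : Subgroup G) * Nat.card R * R.relIndex (R ⊔ T) := by ring
  exact Nat.eq_of_mul_eq_mul_left (Nat.mul_pos hpos hposR) key

theorem sylow_inf_normal_not_dvd {G : Type*} [Group G] [Finite G] {r : ℕ} [Fact r.Prime]
    (R : Sylow r G) (T : Subgroup G) [T.Normal] :
    ¬ r ∣ (((R : Subgroup G) ⊓ T).subgroupOf T).index := by
  change ¬ r ∣ ((R : Subgroup G) ⊓ T).relIndex T
  rw [Subgroup.inf_relIndex_right, relIndex_of_normal_eq]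
  intro h
  exact R.not_dvd_index (h.trans (Subgroup.relIndex_dvd_index_of_le le_sup_left))

/-- Frattini argument for `R ⊓ T`. -/
theorem frattini_inf {G : Type*} [Group G] [Finite G] {r : ℕ} [Fact r.Prime]
    (R : Sylow r G) (T : Subgroup G) [T.Normal] :
    Subgroup.normalizer (((R : Subgroup G) ⊓ T : Subgroup G) : Set G) ⊔ T = ⊤ := by
  have hp : IsPGroup r (((R : Subgroup G) ⊓ T).subgroupOf T) := by
    have h1 : IsPGroup r ((R : Subgroup G) ⊓ T : Subgroup G) := R.isPGroup'.to_le inf_le_left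
    exact h1.comap_of_injective T.subtype T.subtype_injective
  have h := Sylow.normalizer_sup_eq_top (hp.toSylow (sylow_inf_normal_not_dvd R T))
  simpa [Subgroup.subgroupOf_map_subtype] using h

theorem normalizer_inf_ne_top {G : Type*} [Group G] [Finite G] (T : Subgroup G) [T.Normal]
    (hT : IsSimpleGroup T) (hna : ¬ IsMulCommutative T) {r : ℕ} [Fact r.Prime] (R : Sylow r G)
    (hR0 : (R : Subgroup G) ⊓ T ≠ ⊥) :
    Subgroup.normalizer (((R : Subgroup G) ⊓ T : Subgroup G) : Set G) ≠ ⊤ := by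
  intro htop
  have hn : ((R : Subgroup G) ⊓ T).Normal := Subgroup.normalizer_eq_top_iff.mp htop
  have hn' : (((R : Subgroup G) ⊓ T).subgroupOf T).Normal := inferInstance
  rcases hn'.eq_bot_or_eq_top with h | h
  · rw [Subgroup.subgroupOf_eq_bot] at h
    exact hR0 (by simpa [disjoint_iff, inf_assoc] using h)
  · rw [Subgroup.subgroupOf_eq_top] at h
    have hTR : T ≤ (R : Subgroup G) := h.trans inf_le_left
    have hpT : IsPGroup r T := R.isPGroup'.to_le hTR
    have hnt : Nontrivial (Subgroup.center T) := hpT.center_nontrivial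
    have hc : Subgroup.center T = ⊤ := by
      rcases (inferInstance : (Subgroup.center T).Normal).eq_bot_or_eq_top with h' | h'
      · exfalso
        rw [h'] at hnt
        exact not_nontrivial _ hnt
      · exact h'
    apply hna
    rw [isMulCommutative_iff]
    intro a b
    have : a ∈ Subgroup.center T := by rw [hc]; trivial
    exact ((Subgroup.mem_center_iff.mp this) b).symm


theorem conj_map_mul {G : Type*} [Group G] (H : Subgroup G) (a b : G) :
    H.map (MulAut.conj (a * b)).toMonoidHom =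
      (H.map (MulAut.conj b).toMonoidHom).map (MulAut.conj a).toMonoidHom := by
  rw [Subgroup.map_map]
  congr 1
  ext x
  simp [MulAut.conj_apply, mul_assoc]

theorem conj_map_one {G : Type*} [Group G] (H : Subgroup G) :
    H.map (MulAut.conj (1 : G)).toMonoidHom = H := by
  ext y
  simp

theorem conj_map_inv_cancel {G : Type*} [Group G] (H : Subgroup G) (a : G) :
    (H.map (MulAut.conj a).toMonoidHom).map (MulAut.conj a⁻¹).toMonoidHom = H := by
  rw [← conj_map_mul, inv_mul_cancel, conj_map_one]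

theorem conj_map_cancel_inv {G : Type*} [Group G] (H : Subgroup G) (a : G) :
    (H.map (MulAut.conj a⁻¹).toMonoidHom).map (MulAut.conj a).toMonoidHom = H := by
  rw [← conj_map_mul, mul_inv_cancel, conj_map_one]

theorem isCoatom_conj {G : Type*} [Group G] (M : Subgroup G) (a : G) (hM : IsCoatom M) :
    IsCoatom (M.map (MulAut.conj a).toMonoidHom) :=
  ((MulAut.conj a).mapSubgroup.isCoatom_iff M).mpr hM

theorem sylow_smul_coe {G : Type*} [Group G] {r : ℕ} (R : Sylow r G) (g : G) :
    ((g • R : Sylow r G) : Subgroup G) = (R : Subgroup G).map (MulAut.conj g).toMonoidHom := by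
  rfl

theorem exists_conj_le_of_not_dvd_index {G : Type*} [Group G] [Finite G] {r : ℕ} [Fact r.Prime]
    (R : Sylow r G) (M : Subgroup G) (h : ¬ r ∣ M.index) :
    ∃ g : G, (R : Subgroup G).map (MulAut.conj g).toMonoidHom ≤ M := by
  let P : Sylow r M := default
  have hp : IsPGroup r ((P : Subgroup M).map M.subtype) := P.isPGroup'.map _
  have hnd : ¬ r ∣ ((P : Subgroup M).map M.subtype).index := by
    rw [Subgroup.index_map_subtype]
    exact Nat.Prime.not_dvd_mul Fact.out P.not_dvd_index h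
  obtain ⟨g, hg⟩ := MulAction.exists_smul_eq G R (hp.toSylow hnd)
  refine ⟨g, ?_⟩
  rw [← sylow_smul_coe, hg]
  exact Subgroup.map_subtype_le _

/-- Let G be a finite group with a normal non-abelian simple subgroup T whose centralizer is trivial (G almost simple with socle T), r a prime and R a Sylow r-subgroup of G meeting T nontrivially. Then R lies in exactly one maximal subgroup of G if and only if G has exactly one conjugacy class of maximal subgroups whose index is prime to r. -/
theorem result {G : Type*} [Group G] [Finite G] (T : Subgroup G) [T.Normal] (hT : IsSimpleGroup T) (hna : ¬ IsMulCommutative T)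
    (hC : Subgroup.centralizer (T : Set G) = ⊥) {r : ℕ} [Fact r.Prime] (R : Sylow r G) (hR0 : (R : Subgroup G) ⊓ T ≠ ⊥) :
    (∃! M : Subgroup G, IsCoatom M ∧ (R : Subgroup G) ≤ M) ↔
      ((∃ M : Subgroup G, IsCoatom M ∧ ¬ r ∣ M.index) ∧
        ∀ M₁ M₂ : Subgroup G, IsCoatom M₁ → ¬ r ∣ M₁.index → IsCoatom M₂ → ¬ r ∣ M₂.index → ∃ g : G, M₂ = M₁.map (MulAut.conj g).toMonoidHom) := by
  have hNtop := normalizer_inf_ne_top T hT hna R hR0
  set N := Subgroup.normalizer (((R : Subgroup G) ⊓ T : Subgroup G) : Set G) with hNdef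
  have hRN : (R : Subgroup G) ≤ N := by
    intro x hx
    rw [hNdef, Subgroup.mem_normalizer_iff]
    intro y
    constructor
    · rintro ⟨hy1, hy2⟩
      exact ⟨(R : Subgroup G).mul_mem ((R : Subgroup G).mul_mem hx hy1) ((R : Subgroup G).inv_mem hx),
        (inferInstance : T.Normal).conj_mem y hy2 x⟩
    · rintro ⟨hy1, hy2⟩
      refine ⟨?_, ?_⟩
      · have := (R : Subgroup G).mul_mem ((R : Subgroup G).mul_mem ((R : Subgroup G).inv_mem hx) hy1) hx
        have h2 : x⁻¹ * (x * y * x⁻¹) * x = y := by group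
        rw [h2] at this
        exact this
      · have := (inferInstance : T.Normal).conj_mem _ hy2 x⁻¹
        have h2 : x⁻¹ * (x * y * x⁻¹) * x⁻¹⁻¹ = y := by group
        rw [h2] at this
        exact this
  have hNR : Subgroup.normalizer ((R : Subgroup G) : Set G) ≤ N := by
    intro x hx
    rw [Subgroup.mem_normalizer_iff] at hx
    rw [hNdef, Subgroup.mem_normalizer_iff]
    intro y
    constructor
    · rintro ⟨hy1, hy2⟩
      exact ⟨(hx y).mp hy1, (inferInstance : T.Normal).conj_mem y hy2 x⟩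
    · rintro ⟨hy1, hy2⟩
      refine ⟨(hx y).mpr hy1, ?_⟩
      have := (inferInstance : T.Normal).conj_mem _ hy2 x⁻¹
      have h2 : x⁻¹ * (x * y * x⁻¹) * x⁻¹⁻¹ = y := by group
      rw [h2] at this
      exact this
  constructor
  · rintro ⟨M, ⟨hM, hRM⟩, hMu⟩
    have hMidx : ¬ r ∣ M.index := fun h => R.not_dvd_index (dvd_trans h (Subgroup.index_dvd_of_le hRM))
    have key : ∀ M₁ : Subgroup G, IsCoatom M₁ → ¬ r ∣ M₁.index →
        ∃ g : G, M₁ = M.map (MulAut.conj g).toMonoidHom := by
      intro M₁ hM₁ hidx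
      obtain ⟨g, hg⟩ := exists_conj_le_of_not_dvd_index R M₁ hidx
      refine ⟨g, ?_⟩
      have h1 : (R : Subgroup G) ≤ M₁.map (MulAut.conj g⁻¹).toMonoidHom := by
        have := Subgroup.map_mono (f := (MulAut.conj g⁻¹).toMonoidHom) hg
        rwa [conj_map_inv_cancel] at this
      have h2 := hMu _ ⟨isCoatom_conj M₁ g⁻¹ hM₁, h1⟩
      rw [← h2, conj_map_cancel_inv]
    refine ⟨⟨M, hM, hMidx⟩, ?_⟩
    intro M₁ M₂ hM₁ h1 hM₂ h2
    obtain ⟨g₁, rfl⟩ := key M₁ hM₁ h1
    obtain ⟨g₂, rfl⟩ := key M₂ hM₂ h2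
    refine ⟨g₂ * g₁⁻¹, ?_⟩
    rw [← conj_map_mul]
    congr 2
    group
  · rintro ⟨⟨M₀, hM₀, hM₀idx⟩, hconj⟩
    obtain ⟨M, hM, hNM⟩ : ∃ M, IsCoatom M ∧ N ≤ M := by
      rcases eq_top_or_exists_le_coatom N with h | h
      · exact absurd h hNtop
      · exact h
    have hRM : (R : Subgroup G) ≤ M := hRN.trans hNM
    have hMidx : ¬ r ∣ M.index := fun h => R.not_dvd_index (dvd_trans h (Subgroup.index_dvd_of_le hRM))
    refine ⟨M, ⟨hM, hRM⟩, ?_⟩
    rintro M' ⟨hM', hRM'⟩
    have hM'idx : ¬ r ∣ M'.index := fun h => R.not_dvd_index (dvd_trans h (Subgroup.index_dvd_of_le hRM'))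
    obtain ⟨g, hg⟩ := hconj M M' hM hMidx hM' hM'idx
    have hgR : ((g • R : Sylow r G) : Subgroup G) ≤ M' := by
      rw [sylow_smul_coe, hg]
      exact Subgroup.map_mono hRM
    obtain ⟨m, hm⟩ := MulAction.exists_smul_eq M' ((g • R).subtype hgR) (R.subtype hRM')
    rw [Sylow.smul_subtype] at hm
    have hm' := Sylow.subtype_injective hm
    have hmg : (m : G) * g ∈ Subgroup.normalizer ((R : Subgroup G) : Set G) := by
      have h7 : ((m : G) * g) • R = R := by
        rw [mul_smul]
        exact hm'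
      exact Sylow.smul_eq_iff_mem_normalizer.mp h7
    have hmgM : (m : G) * g ∈ M := hNM (hNR hmg)
    have h3 : M.map (MulAut.conj ((m : G) * g)).toMonoidHom = M := by
      apply le_antisymm
      · rintro _ ⟨y, hy, rfl⟩
        simp only [MulEquiv.toMonoidHom_eq_coe, MonoidHom.coe_coe, MulAut.conj_apply]
        exact M.mul_mem (M.mul_mem hmgM hy) (M.inv_mem hmgM)
      · intro y hy
        refine ⟨((m : G) * g)⁻¹ * y * ((m : G) * g), M.mul_mem (M.mul_mem (M.inv_mem hmgM) hy) hmgM, ?_⟩
        simp only [MulEquiv.toMonoidHom_eq_coe, MonoidHom.coe_coe, MulAut.conj_apply]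
        group
    have h4 : M'.map (MulAut.conj (m : G)).toMonoidHom = M' := by
      apply le_antisymm
      · rintro _ ⟨y, hy, rfl⟩
        simp only [MulEquiv.toMonoidHom_eq_coe, MonoidHom.coe_coe, MulAut.conj_apply]
        exact M'.mul_mem (M'.mul_mem m.2 hy) (M'.inv_mem m.2)
      · intro y hy
        refine ⟨(m : G)⁻¹ * y * (m : G), M'.mul_mem (M'.mul_mem (M'.inv_mem m.2) hy) m.2, ?_⟩
        simp only [MulEquiv.toMonoidHom_eq_coe, MonoidHom.coe_coe, MulAut.conj_apply]
        group
    have h5 : M'.map (MulAut.conj (m : G)).toMonoidHom = M := by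
      have h6 : M'.map (MulAut.conj (m : G)).toMonoidHom =
          (M.map (MulAut.conj g).toMonoidHom).map (MulAut.conj (m : G)).toMonoidHom :=
        congrArg (fun K => K.map (MulAut.conj (m : G)).toMonoidHom) hg
      rw [h6, ← conj_map_mul, h3]
    rw [← h4]
    exact h5

end Cfsg.Agent.S3858
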