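import Cfsg.Statements.S3859
import Mathlib

set_option autoImplicit false
open Cfsg

namespace Cfsg.Agent.S3859

theorem card_mul_relIndex_of_le {G : Type*} [Group G] {H K : Subgroup G} (h : H ≤ K) :
    Nat.card H * H.relIndex K = Nat.card K := by
  rw [Subgroup.relIndex, ← Subgroup.card_mul_index (H.subgroupOf K),
    Nat.card_congr (Subgroup.subgroupOfEquivOfLe h).toEquiv]

theorem relIndex_of_normal_eq {G : Type*} [Group G] [Finite G] (R T : Subgroup G) [T.Normal] :
    R.relIndex T = R.relIndex (R ⊔ T) := by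
  have hA := card_mul_relIndex_of_le (le_sup_left : R ≤ R ⊔ T)
  have hB := card_mul_relIndex_of_le (le_sup_right : T ≤ R ⊔ T)
  have hB' : T.relIndex (R ⊔ T) = T.relIndex R := Subgroup.relIndex_sup_right R T
  have hC := card_mul_relIndex_of_le (inf_le_left : R ⊓ T ≤ R)
  have hD := card_mul_relIndex_of_le (inf_le_right : R ⊓ T ≤ T)
  rw [Subgroup.inf_relIndex_right] at hD
  rw [inf_comm, Subgroup.inf_relIndex_right, inf_comm] at hC
  rw [hB'] at hB
  have hpos : 0 < Nat.card (R ⊓ T : Subgroup G) := Nat.card_pos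
  have hposR : 0 < Nat.card R := Nat.card_pos
  have key : Nat.card (R ⊓ T : Subgroup G) * Nat.card R * R.relIndex T =
      Nat.card (R ⊓ T : Subgroup G) * Nat.card R * R.relIndex (R ⊔ T) := by
    calc Nat.card (R ⊓ T : Subgroup G) * Nat.card R * R.relIndex T
        = Nat.card R * (Nat.card (R ⊓ T : Subgroup G) * R.relIndex T) := by ring
      _ = Nat.card R * Nat.card T := by rw [hD]
      _ = Nat.card T * (Nat.card (R ⊓ T : Subgroup G) * T.relIndex R) := by rw [hC]; ring
      _ = Nat.card (R ⊓ T : Subgroup G) * (Nat.card T * T.relIndex R) := by ring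
      _ = Nat.card (R ⊓ T : Subgroup G) * (Nat.card R * R.relIndex (R ⊔ T)) := by rw [hB, hA]
      _ = Nat.card (R ⊓ T : Subgroup G) * Nat.card R * R.relIndex (R ⊔ T) := by ring
  exact Nat.eq_of_mul_eq_mul_left (Nat.mul_pos hpos hposR) key

theorem sylow_inf_normal_not_dvd {G : Type*} [Group G] [Finite G] {r : ℕ} [Fact r.Prime]
    (R : Sylow r G) (T : Subgroup G) [T.Normal] :
    ¬ r ∣ (((R : Subgroup G) ⊓ T).subgroupOf T).index := by
  change ¬ r ∣ ((R : Subgroup G) ⊓ T).relIndex T
  rw [Subgroup.inf_relIndex_right, relIndex_of_normal_eq]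
  intro h
  exact R.not_dvd_index (h.trans (Subgroup.relIndex_dvd_index_of_le le_sup_left))

/-- Frattini argument for `R ⊓ T`. -/
theorem frattini_inf {G : Type*} [Group G] [Finite G] {r : ℕ} [Fact r.Prime]
    (R : Sylow r G) (T : Subgroup G) [T.Normal] :
    Subgroup.normalizer (((R : Subgroup G) ⊓ T : Subgroup G) : Set G) ⊔ T = ⊤ := by
  have hp : IsPGroup r (((R : Subgroup G) ⊓ T).subgroupOf T) := by
    have h1 : IsPGroup r ((R : Subgroup G) ⊓ T : Subgroup G) := R.isPGroup'.to_le inf_le_left
    exact h1.comap_of_injective T.subtype T.subtype_injective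
  have h := Sylow.normalizer_sup_eq_top (hp.toSylow (sylow_inf_normal_not_dvd R T))
  simpa [Subgroup.subgroupOf_map_subtype] using h

theorem normalizer_inf_ne_top {G : Type*} [Group G] [Finite G] (T : Subgroup G) [T.Normal]
    (hT : IsSimpleGroup T) (hna : ¬ IsMulCommutative T) {r : ℕ} [Fact r.Prime] (R : Sylow r G)
    (hR0 : (R : Subgroup G) ⊓ T ≠ ⊥) :
    Subgroup.normalizer (((R : Subgroup G) ⊓ T : Subgroup G) : Set G) ≠ ⊤ := by
  intro htop
  have hn : ((R : Subgroup G) ⊓ T).Normal := Subgroup.normalizer_eq_top_iff.mp htop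
  have hn' : (((R : Subgroup G) ⊓ T).subgroupOf T).Normal := inferInstance
  rcases hn'.eq_bot_or_eq_top with h | h
  · rw [Subgroup.subgroupOf_eq_bot] at h
    exact hR0 (by simpa [disjoint_iff, inf_assoc] using h)
  · rw [Subgroup.subgroupOf_eq_top] at h
    have hTR : T ≤ (R : Subgroup G) := h.trans inf_le_left
    have hpT : IsPGroup r T := R.isPGroup'.to_le hTR
    have hnt : Nontrivial (Subgroup.center T) := hpT.center_nontrivial
    have hc : Subgroup.center T = ⊤ := by
      rcases (inferInstance : (Subgroup.center T).Normal).eq_bot_or_eq_top with h' | h'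
      · exfalso
        rw [h'] at hnt
        exact not_nontrivial _ hnt
      · exact h'
    apply hna
    rw [isMulCommutative_iff]
    intro a b
    have : a ∈ Subgroup.center T := by rw [hc]; trivial
    exact ((Subgroup.mem_center_iff.mp this) b).symm

/-- Let G be a finite group with a normal non-abelian simple subgroup T whose centralizer is trivial (G almost simple with socle T), r a prime and R a Sylow r-subgroup of G meeting T nontrivially. If R lies in exactly one maximal subgroup of G, then G/T is an r-group. -/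
theorem result {G : Type*} [Group G] [Finite G] (T : Subgroup G) [T.Normal] (hT : IsSimpleGroup T) (hna : ¬ IsMulCommutative T)
    (hC : Subgroup.centralizer (T : Set G) = ⊥) {r : ℕ} [Fact r.Prime] (R : Sylow r G) (hR0 : (R : Subgroup G) ⊓ T ≠ ⊥)
    (huniq : ∃! M : Subgroup G, IsCoatom M ∧ (R : Subgroup G) ≤ M) : IsPGroup r (G ⧸ T) := by
  obtain ⟨M, ⟨hM, hRM⟩, hMu⟩ := huniq
  set N := Subgroup.normalizer (((R : Subgroup G) ⊓ T : Subgroup G) : Set G) with hNdef
  have hNtop : N ≠ ⊤ := normalizer_inf_ne_top T hT hna R hR0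
  have hRN : (R : Subgroup G) ≤ N := by
    intro x hx
    rw [hNdef, Subgroup.mem_normalizer_iff]
    intro y
    constructor
    · rintro ⟨hy1, hy2⟩
      exact ⟨(R : Subgroup G).mul_mem ((R : Subgroup G).mul_mem hx hy1) ((R : Subgroup G).inv_mem hx),
        (inferInstance : T.Normal).conj_mem y hy2 x⟩
    · rintro ⟨hy1, hy2⟩
      refine ⟨?_, ?_⟩
      · have := (R : Subgroup G).mul_mem ((R : Subgroup G).mul_mem ((R : Subgroup G).inv_mem hx) hy1) hx
        have h2 : x⁻¹ * (x * y * x⁻¹) * x = y := by group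
        rw [h2] at this
        exact this
      · have := (inferInstance : T.Normal).conj_mem _ hy2 x⁻¹
        have h2 : x⁻¹ * (x * y * x⁻¹) * x⁻¹⁻¹ = y := by group
        rw [h2] at this
        exact this
  have hNM : N ≤ M := by
    rcases eq_top_or_exists_le_coatom N with h | ⟨M', hM', hNM'⟩
    · exact absurd h hNtop
    · have := hMu M' ⟨hM', hRN.trans hNM'⟩
      rw [← this]; exact hNM'
  have hTM : ¬ T ≤ M := by
    intro hTM
    have : (⊤ : Subgroup G) ≤ M := by
      rw [← frattini_inf R T]
      exact sup_le hNM hTM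
    exact hM.1 (top_le_iff.mp this)
  have hRT : (R : Subgroup G) ⊔ T = ⊤ := by
    rcases eq_top_or_exists_le_coatom ((R : Subgroup G) ⊔ T) with h | ⟨M', hM', hle⟩
    · exact h
    · have := hMu M' ⟨hM', le_sup_left.trans hle⟩
      rw [this] at hle
      exact absurd (le_sup_right.trans hle) hTM
  have hmap : (R : Subgroup G).map (QuotientGroup.mk' T) = ⊤ := by
    have h1 : ((R : Subgroup G) ⊔ T).map (QuotientGroup.mk' T) = ⊤ := by
      rw [hRT, ← MonoidHom.range_eq_map, MonoidHom.range_eq_top]
      exact QuotientGroup.mk'_surjective T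
    rw [Subgroup.map_sup] at h1
    have h2 : T.map (QuotientGroup.mk' T) = ⊥ := by
      rw [Subgroup.map_eq_bot_iff, QuotientGroup.ker_mk']
    rw [h2, sup_bot_eq] at h1
    exact h1
  have hp : IsPGroup r ((R : Subgroup G).map (QuotientGroup.mk' T)) := R.isPGroup'.map _
  rw [hmap] at hp
  exact hp.of_equiv Subgroup.topEquiv

end Cfsg.Agent.S3859
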