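import Cfsg.Statements.S3861
import Cfsg.Agent.Lib.Helper5.BaerSuzuki
import Mathlib

set_option autoImplicit false
open Cfsg

namespace Cfsg.Agent.S3861

universe u

theorem exists_two_elt {G : Type*} [Group G] [Finite G] (x : G) (hx : IsConj x x⁻¹) :
    ∃ t : G, (∃ j : ℕ, orderOf t = 2 ^ j) ∧ t * x * t⁻¹ = x⁻¹ := by
  obtain ⟨g, hg⟩ := isConj_iff.mp hx
  obtain ⟨k, m, hm, hkm⟩ := Nat.exists_eq_two_pow_mul_odd (orderOf_pos g).ne'
  obtain ⟨j, rfl⟩ := hm
  have hgx : g * x = x⁻¹ * g := by rw [← hg]; group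
  have hcomm : Commute (g ^ 2) x := by
    have h1 : g ^ 2 * x = x * g ^ 2 := by
      calc g ^ 2 * x = g * (g * x) := by rw [pow_two, mul_assoc]
        _ = g * (x⁻¹ * g) := by rw [hgx]
        _ = (g * x * g⁻¹)⁻¹ * g ^ 2 := by simp [pow_two, mul_assoc]
        _ = x * g ^ 2 := by rw [hg, inv_inv]
    exact h1
  have hcomm' : Commute ((g ^ 2) ^ j) x := hcomm.pow_left j
  refine ⟨g ^ (2 * j + 1), ⟨k, ?_⟩, ?_⟩
  · rw [orderOf_pow, hkm, Nat.gcd_mul_left_left, Nat.mul_div_cancel _ (by omega)]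
  · have h1 : g ^ (2 * j + 1) = (g ^ 2) ^ j * g := by rw [pow_succ, pow_mul]
    rw [h1]
    calc (g ^ 2) ^ j * g * x * ((g ^ 2) ^ j * g)⁻¹
        = (g ^ 2) ^ j * (g * x * g⁻¹) * ((g ^ 2) ^ j)⁻¹ := by group
      _ = (g ^ 2) ^ j * x⁻¹ * ((g ^ 2) ^ j)⁻¹ := by rw [hg]
      _ = x⁻¹ := by
        rw [(hcomm'.inv_right).eq]
        group

def NoOddReal (G : Type u) [Group G] : Prop :=
  ∀ x : G, x ≠ 1 → Odd (orderOf x) → ¬ IsConj x x⁻¹

lemma dihedral_two {G : Type u} [Group G] [Finite G] (h : NoOddReal G) (s t : G)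
    (hs : orderOf s = 2) (ht : orderOf t = 2) :
    IsPGroup 2 (Subgroup.closure ({s, t} : Set G)) := by
  haveI : Fact (Nat.Prime 2) := ⟨Nat.prime_two⟩
  have hs2 : s * s = 1 := by
    have h1 := pow_orderOf_eq_one s
    rwa [hs, pow_two] at h1
  have ht2 : t * t = 1 := by
    have h1 := pow_orderOf_eq_one t
    rwa [ht, pow_two] at h1
  have hsinv : s⁻¹ = s := inv_eq_of_mul_eq_one_left hs2
  have htinv : t⁻¹ = t := inv_eq_of_mul_eq_one_left ht2
  have hsw : s * (s * t) * s⁻¹ = (s * t)⁻¹ := by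
    rw [mul_inv_rev, hsinv, htinv, ← mul_assoc, hs2, one_mul]
  obtain ⟨a, m, hm, hom⟩ := Nat.exists_eq_two_pow_mul_odd (orderOf_pos (s * t)).ne'
  have hm0 : 0 < m := by
    rcases Nat.eq_zero_or_pos m with rfl | h0
    · simp at hm
    · exact h0
  have hw' : (s * t) ^ (2 ^ a) = 1 := by
    by_contra hne
    apply h ((s * t) ^ 2 ^ a) hne
    · rw [orderOf_pow, hom, Nat.gcd_mul_right_left, Nat.mul_div_cancel_left _ (by positivity)]
      exact hm
    · rw [isConj_iff]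
      exact ⟨s, by rw [← conj_pow, hsw, inv_pow]⟩
  have hC : IsPGroup 2 (Subgroup.zpowers (s * t)) := by
    obtain ⟨j, -, hj⟩ := (Nat.dvd_prime_pow Nat.prime_two).mp (orderOf_dvd_of_pow_eq_one hw')
    exact IsPGroup.of_card (n := j) (by rw [Nat.card_zpowers, hj])
  have hS : IsPGroup 2 (Subgroup.zpowers s) :=
    IsPGroup.of_card (n := 1) (by rw [Nat.card_zpowers, hs, pow_one])
  have hnorm : Subgroup.zpowers s ≤ Subgroup.normalizer (Subgroup.zpowers (s * t) : Set G) := by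
    rw [Subgroup.zpowers_le, Subgroup.mem_normalizer_iff]
    intro g
    constructor
    · rintro ⟨k, rfl⟩
      refine ⟨-k, ?_⟩
      show (s * t) ^ (-k) = s * (s * t) ^ k * s⁻¹
      rw [← conj_zpow, hsw, inv_zpow, zpow_neg]
    · rintro ⟨k, hk⟩
      refine ⟨-k, ?_⟩
      have hk' : (s * t) ^ k = s * g * s⁻¹ := hk
      show (s * t) ^ (-k) = g
      have h1 : g = s * (s * g * s⁻¹) * s⁻¹ := by
        rw [hsinv]
        calc g = (s * s) * g * (s * s) := by rw [hs2]; simp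
          _ = s * (s * g * s) * s := by group
      rw [h1, ← hk', ← conj_zpow, hsw, inv_zpow, zpow_neg]
  have hsup := IsPGroup.to_sup_of_normal_right' hS hC hnorm
  apply hsup.to_le
  rw [Subgroup.closure_le]
  rintro g (rfl | hg)
  · exact Subgroup.mem_sup_left (Subgroup.mem_zpowers _)
  · rw [Set.mem_singleton_iff] at hg
    subst hg
    have h1 : s⁻¹ * (s * g) ∈ Subgroup.zpowers s ⊔ Subgroup.zpowers (s * g) :=
      Subgroup.mul_mem _ (Subgroup.mem_sup_left (Subgroup.inv_mem _ (Subgroup.mem_zpowers _)))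
        (Subgroup.mem_sup_right (Subgroup.mem_zpowers _))
    simpa using h1

lemma invol_in_normal {G : Type u} [Group G] [Finite G] (h : NoOddReal G) :
    ∃ N : Subgroup G, N.Normal ∧ IsPGroup 2 N ∧ ∀ t : G, orderOf t = 2 → t ∈ N := by
  haveI : Fact (Nat.Prime 2) := ⟨Nat.prime_two⟩
  obtain ⟨N, hN, hNp, hK⟩ := Cfsg.Agent.Lib.Helper5.baer_suzuki_set (p := 2) {t : G | orderOf t = 2}
    (by
      intro x hx g
      have h1 : orderOf x = 2 := hx
      show orderOf (g * x * g⁻¹) = 2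
      rw [← h1]
      exact (MulAut.conj g).orderOf_eq x)
    (by
      intro x hx y hy
      exact dihedral_two h x y hx hy)
  exact ⟨N, hN, hNp, fun t ht => hK ht⟩

lemma lift_real {G : Type u} [Group G] [Finite G] (N : Subgroup G) [N.Normal] (hN : IsPGroup 2 N)
    {q : ℕ} [Fact q.Prime] (hq : q ≠ 2) (x g : G) (hx : IsPGroup q (Subgroup.zpowers x))
    (hg : (g : G ⧸ N) * (x : G ⧸ N) * (g : G ⧸ N)⁻¹ = (x : G ⧸ N)⁻¹) : IsConj x x⁻¹ := by
  haveI : Fact (Nat.Prime 2) := ⟨Nat.prime_two⟩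
  have hpow : ∀ u ∈ Subgroup.zpowers x,
      (g : G ⧸ N) * (u : G ⧸ N) * (g : G ⧸ N)⁻¹ = (u : G ⧸ N)⁻¹ := by
    rintro _ ⟨k, rfl⟩
    show (g : G ⧸ N) * ((x ^ k : G) : G ⧸ N) * (g : G ⧸ N)⁻¹ = ((x ^ k : G) : G ⧸ N)⁻¹
    rw [QuotientGroup.mk_zpow, ← conj_zpow, hg, inv_zpow]
  letI : MulAction (Subgroup.zpowers x) {h : G // (h : G ⧸ N) = (g : G ⧸ N)} :=
    { smul := fun u h => ⟨(u : G)⁻¹ * h.1 * (u : G)⁻¹, by
        have h1 := hpow u u.2
        have h2 := h.2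
        rw [QuotientGroup.mk_mul, QuotientGroup.mk_mul, QuotientGroup.mk_inv, h2]
        have h3 : ((u : G) : G ⧸ N)⁻¹ = (g : G ⧸ N) * ((u : G) : G ⧸ N) * (g : G ⧸ N)⁻¹ := h1.symm
        nth_rewrite 1 [h3]; group⟩
      one_smul := fun h => Subtype.ext (by
        show ((1 : Subgroup.zpowers x) : G)⁻¹ * h.1 * ((1 : Subgroup.zpowers x) : G)⁻¹ = h.1
        simp)
      mul_smul := fun u v h => Subtype.ext (by
        show ((u * v : Subgroup.zpowers x) : G)⁻¹ * h.1 * ((u * v : Subgroup.zpowers x) : G)⁻¹ =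
          (u : G)⁻¹ * ((v : G)⁻¹ * h.1 * (v : G)⁻¹) * (u : G)⁻¹
        have hcomm : (u : G) * (v : G) = (v : G) * (u : G) := by
          obtain ⟨i, hi⟩ := u.2
          obtain ⟨j, hj⟩ := v.2
          rw [← hi, ← hj]
          show x ^ i * x ^ j = x ^ j * x ^ i
          rw [← zpow_add, ← zpow_add, add_comm]
        have hcomm' : (v : G)⁻¹ * (u : G)⁻¹ = (u : G)⁻¹ * (v : G)⁻¹ := by
          rw [← mul_inv_rev, ← mul_inv_rev, hcomm]
        rw [Subgroup.coe_mul, mul_inv_rev]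
        nth_rewrite 1 [hcomm']
        group) }
  have hcardS : Nat.card {h : G // (h : G ⧸ N) = (g : G ⧸ N)} = Nat.card N := by
    apply Nat.card_congr
    exact { toFun := fun h => ⟨g⁻¹ * h.1, QuotientGroup.eq.mp h.2.symm⟩
            invFun := fun n => ⟨g * n.1, by
              rw [QuotientGroup.mk_mul]
              have h1 : ((n.1 : G) : G ⧸ N) = 1 := (QuotientGroup.eq_one_iff _).mpr n.2
              rw [h1, mul_one]⟩
            left_inv := fun h => Subtype.ext (by simp)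
            right_inv := fun n => Subtype.ext (by simp) }
  obtain ⟨k, hk⟩ := hN.exists_card_eq
  have hnd : ¬ q ∣ Nat.card {h : G // (h : G ⧸ N) = (g : G ⧸ N)} := by
    rw [hcardS, hk]
    intro hdiv
    exact hq ((Nat.prime_dvd_prime_iff_eq Fact.out Nat.prime_two).mp
      (Nat.Prime.dvd_of_dvd_pow Fact.out hdiv))
  obtain ⟨h, hh⟩ := hx.nonempty_fixed_point_of_prime_not_dvd_card _ hnd
  have h1 := MulAction.mem_fixedPoints.mp hh ⟨x, Subgroup.mem_zpowers x⟩
  have h2 : x⁻¹ * h.1 * x⁻¹ = h.1 := congrArg Subtype.val h1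
  rw [isConj_iff]
  refine ⟨h.1, ?_⟩
  calc h.1 * x * h.1⁻¹ = (x⁻¹ * h.1 * x⁻¹) * x * h.1⁻¹ := by rw [h2]
    _ = x⁻¹ := by group

lemma quot_noOddReal {G : Type u} [Group G] [Finite G] (h : NoOddReal G) (N : Subgroup G)
    [N.Normal] (hN : IsPGroup 2 N) : NoOddReal (G ⧸ N) := by
  intro xb hxb hodd hreal
  obtain ⟨gb, hgb⟩ := isConj_iff.mp hreal
  obtain ⟨x₀, rfl⟩ := QuotientGroup.mk_surjective xb
  obtain ⟨g, rfl⟩ := QuotientGroup.mk_surjective gb
  have hne1 : orderOf (x₀ : G ⧸ N) ≠ 1 := by rwa [Ne, orderOf_eq_one_iff]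
  obtain ⟨q, hq, hqd⟩ := Nat.exists_prime_and_dvd hne1
  haveI : Fact q.Prime := ⟨hq⟩
  have hq2 : q ≠ 2 := by
    rintro rfl
    exact (Nat.not_even_iff_odd.mpr hodd) (even_iff_two_dvd.mpr hqd)
  obtain ⟨a, m, hm, hom⟩ := Nat.exists_eq_pow_mul_and_not_dvd (orderOf_pos x₀).ne' q hq.ne_one
  have hm0 : 0 < m := by
    rcases Nat.eq_zero_or_pos m with rfl | h0
    · exact absurd (dvd_zero q) hm
    · exact h0
  have hxord : orderOf (x₀ ^ m) = q ^ a := by
    rw [orderOf_pow, hom, Nat.gcd_mul_left_left, Nat.mul_div_cancel _ hm0]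
  have hxq : IsPGroup q (Subgroup.zpowers (x₀ ^ m)) :=
    IsPGroup.of_card (n := a) (by rw [Nat.card_zpowers, hxord])
  have hgx : (g : G ⧸ N) * ((x₀ ^ m : G) : G ⧸ N) * (g : G ⧸ N)⁻¹ = ((x₀ ^ m : G) : G ⧸ N)⁻¹ := by
    rw [QuotientGroup.mk_pow, ← conj_pow, hgb, inv_pow]
  have hreal' := lift_real N hN hq2 (x₀ ^ m) g hxq hgx
  have hx1 : x₀ ^ m ≠ 1 := by
    intro hx1
    have h1 : (x₀ : G ⧸ N) ^ m = 1 := by
      rw [← QuotientGroup.mk_pow, hx1]; rfl
    exact hm (hqd.trans (orderOf_dvd_of_pow_eq_one h1))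
  exact h (x₀ ^ m) hx1 (by rw [hxord]; exact (hq.odd_of_ne_two hq2).pow) hreal'

lemma main : ∀ n : ℕ, ∀ (G : Type u) [Group G] [Finite G], Nat.card G = n → NoOddReal G →
    ∃ N : Subgroup G, N.Normal ∧ IsPGroup 2 N ∧ Odd N.index := by
  intro n
  induction n using Nat.strong_induction_on with
  | _ n ih =>
  intro G _ _ hn h
  haveI : Fact (Nat.Prime 2) := ⟨Nat.prime_two⟩
  obtain ⟨N₁, hN₁, hN₁p, hinv⟩ := invol_in_normal h
  by_cases hbot : N₁ = ⊥
  · refine ⟨⊥, inferInstance, IsPGroup.of_bot, ?_⟩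
    rw [Subgroup.index_bot]
    by_contra hodd
    rw [Nat.not_odd_iff_even, even_iff_two_dvd] at hodd
    obtain ⟨t, ht⟩ := exists_prime_orderOf_dvd_card' 2 hodd
    have h1 := hinv t ht
    rw [hbot, Subgroup.mem_bot] at h1
    rw [h1, orderOf_one] at ht
    omega
  · have hlt : Nat.card (G ⧸ N₁) < n := by
      rw [← hn, ← Subgroup.index_eq_card, ← Subgroup.card_mul_index N₁]
      have h1 : 1 < Nat.card N₁ := (Subgroup.one_lt_card_iff_ne_bot (H := N₁)).mpr hbot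
      have h2 : 0 < N₁.index := Nat.pos_of_ne_zero Subgroup.index_ne_zero_of_finite
      nlinarith
    obtain ⟨Nb, hNb, hNbp, hNbi⟩ := ih _ hlt (G ⧸ N₁) rfl (quot_noOddReal h N₁ hN₁p)
    refine ⟨Nb.comap (QuotientGroup.mk' N₁), hNb.comap _, ?_, ?_⟩
    · apply hNbp.comap_of_ker_isPGroup
      rw [QuotientGroup.ker_mk']; exact hN₁p
    · rw [Subgroup.index_comap_of_surjective _ (QuotientGroup.mk'_surjective N₁)]; exact hNbi

/-- A finite group G has no non-identity element of odd order that is conjugate to its inverse if and only if the Sylow 2-subgroups of G are normal. -/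
theorem result {G : Type*} [Group G] [Finite G] (P : Sylow 2 G) : (∀ x : G, x ≠ 1 → Odd (orderOf x) → ¬ IsConj x x⁻¹) ↔ (P : Subgroup G).Normal := by
  haveI : Fact (Nat.Prime 2) := ⟨Nat.prime_two⟩
  constructor
  · intro h
    obtain ⟨N, hN, hNp, hodd⟩ := main (Nat.card G) G rfl h
    have hnd : ¬ 2 ∣ N.index := by
      rw [← even_iff_two_dvd, Nat.not_even_iff_odd]; exact hodd
    let S : Sylow 2 G := hNp.toSylow hnd
    have hS : (S : Subgroup G) = N := rfl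
    haveI : (S : Subgroup G).Normal := hS ▸ hN
    obtain ⟨g, hg⟩ := MulAction.exists_smul_eq G S P
    rw [Sylow.smul_eq_of_normal] at hg
    rw [← hg]; infer_instance
  · intro hP x hx1 hodd hreal
    obtain ⟨t, ⟨j, hj⟩, ht⟩ := exists_two_elt x hreal
    have htP : t ∈ (P : Subgroup G) := by
      have h1 : IsPGroup 2 (Subgroup.zpowers t) :=
        IsPGroup.of_card (n := j) (by rw [Nat.card_zpowers, hj])
      obtain ⟨Q, hQ⟩ := h1.exists_le_sylow
      obtain ⟨g, hg⟩ := MulAction.exists_smul_eq G P Q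
      haveI := hP
      rw [Sylow.smul_eq_of_normal] at hg
      rw [hg]; exact hQ (Subgroup.mem_zpowers t)
    have h2 : x⁻¹ * x⁻¹ ∈ (P : Subgroup G) := by
      have h3 : x⁻¹ * x⁻¹ = t * (x * t⁻¹ * x⁻¹) := by
        rw [← ht]; group
      rw [h3]
      exact (P : Subgroup G).mul_mem htP (hP.conj_mem _ ((P : Subgroup G).inv_mem htP) x)
    have h4 : x ^ 2 ∈ (P : Subgroup G) := by
      have h5 : x ^ 2 = (x⁻¹ * x⁻¹)⁻¹ := by group
      rw [h5]; exact (P : Subgroup G).inv_mem h2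
    obtain ⟨k, hk⟩ := P.isPGroup' ⟨x ^ 2, h4⟩
    have h5 : (x ^ 2) ^ 2 ^ k = 1 := by simpa using congrArg Subtype.val hk
    rw [← pow_mul] at h5
    have h6 : orderOf x ∣ 2 * 2 ^ k := orderOf_dvd_of_pow_eq_one h5
    have h7 : Nat.Coprime (orderOf x) (2 * 2 ^ k) := by
      rw [← pow_succ']
      exact Nat.Coprime.pow_right _ (Nat.Coprime.symm (Nat.coprime_two_left.mpr hodd))
    have h8 : orderOf x = 1 := Nat.Coprime.eq_one_of_dvd h7 h6
    exact hx1 (orderOf_eq_one_iff.mp h8)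

end Cfsg.Agent.S3861
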