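import Cfsg.Statements.S3862
import Cfsg.Agent.S0071
import Mathlib

set_option autoImplicit false
open Cfsg

namespace Cfsg.Agent.S3862

variable {X : Type*} [Group X]

lemma conj_pow_eq {a x c : X} (h : a * x * a⁻¹ = x * c) (hc : Commute a c) (j : ℕ) :
    a ^ j * x * (a ^ j)⁻¹ = x * c ^ j := by
  induction j with
  | zero => simp
  | succ j ih =>
    have h1 : a ^ (j + 1) * x * (a ^ (j + 1))⁻¹ = a * (a ^ j * x * (a ^ j)⁻¹) * a⁻¹ := by
      rw [pow_succ']; group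
    rw [h1, ih]
    have h2 : a * c ^ j * a⁻¹ = c ^ j := by
      have h3 := (hc.pow_right j).eq
      rw [h3]; group
    calc a * (x * c ^ j) * a⁻¹ = (a * x * a⁻¹) * (a * c ^ j * a⁻¹) := by group
      _ = x * c * c ^ j := by rw [h, h2]
      _ = x * c ^ (j + 1) := by rw [pow_succ', mul_assoc]

lemma L1 [Finite X] {a x c : X} (h : a * x * a⁻¹ = x * c) (hc : Commute a c) (ha : Odd (orderOf a))
    {k : ℕ} (hck : c ^ 2 ^ k = 1) : c = 1 := by
  have h1 := conj_pow_eq h hc (orderOf a)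
  rw [pow_orderOf_eq_one] at h1
  simp at h1
  have h2 : c ^ Nat.gcd (orderOf a) (2 ^ k) = 1 := pow_gcd_eq_one.mpr ⟨h1, hck⟩
  have h3 : Nat.gcd (orderOf a) (2 ^ k) = 1 := by
    have h4 : Nat.Coprime (orderOf a) (2 ^ k) :=
      Nat.Coprime.pow_right k (Nat.Coprime.symm (Nat.coprime_two_left.mpr ha))
    exact h4
  rw [h3, pow_one] at h2
  exact h2

lemma exists_between [Finite X] {p : ℕ} [Fact p.Prime] {P H : Subgroup X} (hHP : H ≤ P) {k m : ℕ}
    (hH : Nat.card H = p ^ k) (hkm : k ≤ m) (hm : p ^ m ∣ Nat.card P) :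
    ∃ K : Subgroup X, H ≤ K ∧ K ≤ P ∧ Nat.card K = p ^ m := by
  have h1 : Nat.card (H.subgroupOf P) = p ^ k := by
    rw [← hH]; exact Nat.card_congr (Subgroup.subgroupOfEquivOfLe hHP).toEquiv
  obtain ⟨K', hK', hle⟩ := Sylow.exists_subgroup_card_pow_prime_le p hm (H.subgroupOf P) h1 hkm
  refine ⟨K'.map P.subtype, ?_, Subgroup.map_subtype_le K', ?_⟩
  · intro h hh
    exact ⟨⟨h, hHP hh⟩, hle (Subgroup.mem_subgroupOf.mpr hh), rfl⟩
  · rw [← hK']
    exact Nat.card_congr (K'.equivMapOfInjective P.subtype P.subtype_injective).symm.toEquiv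

def sq (P : Subgroup X) : Subgroup X := Subgroup.closure {y | ∃ x ∈ P, y = x ^ 2}

lemma sq_le (P : Subgroup X) : sq P ≤ P := by
  rw [sq, Subgroup.closure_le]
  rintro _ ⟨x, hx, rfl⟩
  exact P.pow_mem hx 2

lemma sq_conj {P : Subgroup X} {a : X} (ha : ∀ x ∈ P, a * x * a⁻¹ ∈ P) {s : X} (hs : s ∈ sq P) :
    a * s * a⁻¹ ∈ sq P := by
  unfold sq at hs ⊢
  induction hs using Subgroup.closure_induction with
  | mem y hy =>
    obtain ⟨x, hx, rfl⟩ := hy
    apply Subgroup.subset_closure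
    exact ⟨a * x * a⁻¹, ha x hx, by rw [conj_pow]⟩
  | one => simp
  | mul u v _ _ hu hv =>
    have h1 : a * (u * v) * a⁻¹ = (a * u * a⁻¹) * (a * v * a⁻¹) := by group
    rw [h1]; exact Subgroup.mul_mem _ hu hv
  | inv u _ hu =>
    have h1 : a * u⁻¹ * a⁻¹ = (a * u * a⁻¹)⁻¹ := by group
    rw [h1]; exact Subgroup.inv_mem _ hu

lemma index_two_of_card [Finite X] {P M : Subgroup X} (hMP : M ≤ P) {n : ℕ} (hn : n ≠ 0)
    (hP : Nat.card P = 2 ^ n) (hM : Nat.card M = 2 ^ (n - 1)) : (M.subgroupOf P).index = 2 := by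
  have h0 : Nat.card (M.subgroupOf P) = Nat.card M :=
    Nat.card_congr (Subgroup.subgroupOfEquivOfLe hMP).toEquiv
  have h1 : (M.subgroupOf P).index * Nat.card M = Nat.card P := by
    rw [← h0, mul_comm]; exact Subgroup.card_mul_index _
  rw [hM, hP] at h1
  have h2 : 2 ^ n = 2 * 2 ^ (n - 1) := by
    rw [← pow_succ']; congr 1; omega
  rw [h2] at h1
  have h3 : 0 < 2 ^ (n - 1) := by positivity
  exact Nat.eq_of_mul_eq_mul_right h3 h1

lemma sq_ne [Finite X] {P : Subgroup X} (hP : IsPGroup 2 P) (hne : P ≠ ⊥) : sq P ≠ P := by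
  haveI : Fact (Nat.Prime 2) := ⟨Nat.prime_two⟩
  obtain ⟨n, hn⟩ := hP.exists_card_eq
  have hn0 : n ≠ 0 := by
    rintro rfl
    rw [pow_zero, Subgroup.card_eq_one] at hn
    exact hne hn
  obtain ⟨M, -, hMP, hM⟩ := exists_between (p := 2) (P := P) (H := ⊥) bot_le (k := 0) (m := n - 1)
    (by simp) (Nat.zero_le _) (by rw [hn]; exact pow_dvd_pow 2 (Nat.sub_le n 1))
  intro hsq
  have hidx : (M.subgroupOf P).index = 2 := index_two_of_card hMP hn0 hn hM
  have hle : sq P ≤ M := by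
    rw [sq, Subgroup.closure_le]
    rintro _ ⟨x, hx, rfl⟩
    have h1 := Subgroup.sq_mem_of_index_two hidx (⟨x, hx⟩ : P)
    rw [Subgroup.mem_subgroupOf] at h1
    simpa using h1
  rw [hsq] at hle
  have h4 := Subgroup.card_le_of_le hle
  rw [hM, hn] at h4
  have h5 : 2 ^ (n - 1) < 2 ^ n := Nat.pow_lt_pow_right (by norm_num) (by omega)
  omega

lemma LR [Finite X] (A : Subgroup X) (hA : ∀ a ∈ A, Odd (orderOf a)) :
    ∀ n : ℕ, ∀ P : Subgroup X, Nat.card P = n → IsPGroup 2 P →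
      (∀ a ∈ A, ∀ x ∈ P, a * x * a⁻¹ ∈ P) →
      (∀ x ∈ P, IsConj x x⁻¹ → ∀ a ∈ A, a * x * a⁻¹ = x) → ∀ x ∈ P, ∀ a ∈ A, a * x * a⁻¹ = x := by
  intro n
  induction n using Nat.strong_induction_on with
  | _ n ih =>
  intro P hn hP hinv h4 x hx a ha
  have ih' : ∀ R : Subgroup X, R ≤ P → R ≠ P → (∀ a ∈ A, ∀ x ∈ R, a * x * a⁻¹ ∈ R) →
      ∀ x ∈ R, ∀ a ∈ A, a * x * a⁻¹ = x := by
    intro R hR hne hRinv
    have hlt : Nat.card R < n := by
      rw [← hn]
      exact lt_of_le_of_ne (Subgroup.card_le_of_le hR)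
        (fun h => hne (Subgroup.eq_of_le_of_card_ge hR h.ge))
    exact ih _ hlt R rfl (hP.to_le hR) hRinv (fun x hx => h4 x (hR hx))
  by_cases hbot : P = ⊥
  · subst hbot
    rw [Subgroup.mem_bot] at hx
    subst hx
    simp
  have hS := ih' (sq P) (sq_le P) (sq_ne hP hbot) (fun a ha s hs => sq_conj (hinv a ha) hs)
  set c := x⁻¹ * (a * x * a⁻¹) with hc
  have hcP : c ∈ P := P.mul_mem (P.inv_mem hx) (hinv a ha x hx)
  have hax : a * x * a⁻¹ = x * c := by rw [hc]; group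
  obtain ⟨k, hk⟩ : ∃ k, c ^ 2 ^ k = 1 := by
    obtain ⟨k, hk⟩ := hP ⟨c, hcP⟩
    exact ⟨k, by simpa using congrArg Subtype.val hk⟩
  suffices hcomm : Commute a c by
    have h1 := L1 hax hcomm (hA a ha) hk
    rw [hax, h1, mul_one]
  have hx2 : x ^ 2 ∈ sq P := Subgroup.subset_closure ⟨x, hx, rfl⟩
  have hy2 : (a * x * a⁻¹) ^ 2 = x ^ 2 := by
    rw [conj_pow]; exact hS _ hx2 a ha
  have hreal : IsConj c c⁻¹ := by
    rw [isConj_iff]
    refine ⟨x, ?_⟩
    rw [hc]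
    generalize a * x * a⁻¹ = y at hy2
    have e4 : y * y = x * x := by simpa [pow_two] using hy2
    have e5 : y * x⁻¹ = y⁻¹ * x := by
      calc y * x⁻¹ = y⁻¹ * (y * y) * x⁻¹ := by group
        _ = y⁻¹ * (x * x) * x⁻¹ := by rw [e4]
        _ = y⁻¹ * x := by group
    calc x * (x⁻¹ * y) * x⁻¹ = y * x⁻¹ := by group
      _ = y⁻¹ * x := e5
      _ = (x⁻¹ * y)⁻¹ := by group
  have h1 := h4 c hcP hreal a ha
  exact (mul_inv_eq_iff_eq_mul.mp h1 : a * c = c * a)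

theorem result {G : Type*} [Group G] [Finite G] (h : ∀ x : G, (∃ j : ℕ, orderOf x = 2 ^ j) → IsConj x x⁻¹ → x ∈ Subgroup.center G) : Cfsg.HasNormalPComplement 2 G := by
  haveI : Fact (Nat.Prime 2) := ⟨Nat.prime_two⟩
  let P : Sylow 2 G := default
  obtain ⟨N, hN, hc⟩ := (Cfsg.Agent.S0071.result P).mpr (by
    intro Q hQ g hg hcop
    have hQ2 : IsPGroup 2 Q := P.isPGroup'.to_le hQ
    have hodd : Odd (orderOf g) := Nat.coprime_two_right.mp hcop
    have hA : ∀ a ∈ Subgroup.zpowers g, Odd (orderOf a) := by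
      intro a ha
      exact Odd.of_dvd_nat hodd (orderOf_dvd_of_mem_zpowers ha)
    have hAQ : Subgroup.zpowers g ≤ Subgroup.normalizer (Q : Set G) := by
      rw [Subgroup.zpowers_le]; exact hg
    have hmain := LR (Subgroup.zpowers g) hA (Nat.card Q) Q rfl hQ2
      (fun a ha x hx => (Subgroup.mem_normalizer_iff.mp (hAQ ha) x).mp hx)
      (by
        intro x hx hreal a ha
        have hx2 : ∃ j : ℕ, orderOf x = 2 ^ j := by
          obtain ⟨k, hk⟩ := hQ2 ⟨x, hx⟩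
          have h1 : x ^ 2 ^ k = 1 := by simpa using congrArg Subtype.val hk
          obtain ⟨j, -, hj⟩ := (Nat.dvd_prime_pow Nat.prime_two).mp (orderOf_dvd_of_pow_eq_one h1)
          exact ⟨j, hj⟩
        have hxc := h x hx2 hreal
        rw [Subgroup.mem_center_iff] at hxc
        rw [hxc a]; group)
    rw [Subgroup.mem_centralizer_iff]
    intro x hx
    have h1 := hmain x hx g (Subgroup.mem_zpowers g)
    exact (mul_inv_eq_iff_eq_mul.mp h1).symm)
  exact ⟨P, N, hN, hc⟩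

end Cfsg.Agent.S3862
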