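import Cfsg.Statements.S3863
import Mathlib

set_option autoImplicit false
open Cfsg

namespace Cfsg.Agent.S3863

theorem exists_two_elt {G : Type*} [Group G] [Finite G] (x : G) (hx : IsConj x x⁻¹) :
    ∃ t : G, (∃ j : ℕ, orderOf t = 2 ^ j) ∧ t * x * t⁻¹ = x⁻¹ := by
  obtain ⟨g, hg⟩ := isConj_iff.mp hx
  obtain ⟨k, m, hm, hkm⟩ := Nat.exists_eq_two_pow_mul_odd (orderOf_pos g).ne'
  obtain ⟨j, rfl⟩ := hm
  have hgx : g * x = x⁻¹ * g := by rw [← hg]; group
  have hcomm : Commute (g ^ 2) x := by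
    have h1 : g ^ 2 * x = x * g ^ 2 := by
      calc g ^ 2 * x = g * (g * x) := by rw [pow_two, mul_assoc]
        _ = g * (x⁻¹ * g) := by rw [hgx]
        _ = (g * x * g⁻¹)⁻¹ * g ^ 2 := by simp [pow_two, mul_assoc]
        _ = x * g ^ 2 := by rw [hg, inv_inv]
    exact h1
  have hcomm' : Commute ((g ^ 2) ^ j) x := hcomm.pow_left j
  refine ⟨g ^ (2 * j + 1), ⟨k, ?_⟩, ?_⟩
  · rw [orderOf_pow, hkm, Nat.gcd_mul_left_left, Nat.mul_div_cancel _ (by omega)]
  · have h1 : g ^ (2 * j + 1) = (g ^ 2) ^ j * g := by rw [pow_succ, pow_mul]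
    rw [h1]
    calc (g ^ 2) ^ j * g * x * ((g ^ 2) ^ j * g)⁻¹
        = (g ^ 2) ^ j * (g * x * g⁻¹) * ((g ^ 2) ^ j)⁻¹ := by group
      _ = (g ^ 2) ^ j * x⁻¹ * ((g ^ 2) ^ j)⁻¹ := by rw [hg]
      _ = x⁻¹ := by
        rw [(hcomm'.inv_right).eq]
        group

theorem eq_one_of_pow_two_pow {G : Type*} [Group G] [Finite G] (N : Subgroup G) [N.Normal]
    (hodd : Odd N.index) (q : G ⧸ N) (j : ℕ) (h : q ^ (2 ^ j) = 1) : q = 1 := by
  have h1 : orderOf q ∣ 2 ^ j := orderOf_dvd_of_pow_eq_one h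
  have h2 : orderOf q ∣ N.index := by
    rw [Subgroup.index_eq_card]
    exact orderOf_dvd_natCard q
  have hc : Nat.Coprime (2 ^ j) N.index := Nat.Coprime.pow_left j (Nat.coprime_two_left.mpr hodd)
  have h3 : Nat.Coprime (orderOf q) N.index := Nat.Coprime.coprime_dvd_left h1 hc
  exact orderOf_eq_one_iff.mp (Nat.Coprime.eq_one_of_dvd h3 h2)

theorem sq_eq_one_of_odd {G : Type*} [Group G] [Finite G] (x t : G) (ht : t * x * t⁻¹ = x⁻¹)
    (hodd : Odd (Subgroup.centralizer ({x} : Set G)).index) : x ^ 2 = 1 := by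
  by_contra hne
  have hxx : x ≠ x⁻¹ := by
    intro h
    apply hne
    rw [pow_two]
    nth_rewrite 2 [h]
    exact mul_inv_cancel x
  have htx' : t * x⁻¹ * t⁻¹ = x := by
    have : t * x⁻¹ * t⁻¹ = (t * x * t⁻¹)⁻¹ := by group
    rw [this, ht, inv_inv]
  set C := Subgroup.centralizer ({x} : Set G) with hC
  set K := Subgroup.normalizer ({x, x⁻¹} : Set G) with hK
  have hmemK : ∀ b : G, b ∈ K → (b * x * b⁻¹ = x ∨ b * x * b⁻¹ = x⁻¹) := by
    intro b hb
    rw [hK, Subgroup.mem_set_normalizer_iff] at hb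
    have := (hb x).mp (by simp)
    simpa using this
  have hCK : C ≤ K := by
    intro g hg
    rw [hC, Subgroup.mem_centralizer_singleton_iff] at hg
    have h1 : g * x * g⁻¹ = x := by rw [hg]; group
    have h2 : g * x⁻¹ * g⁻¹ = x⁻¹ := by
      have : g * x⁻¹ * g⁻¹ = (g * x * g⁻¹)⁻¹ := by group
      rw [this, h1]
    rw [hK, Subgroup.mem_set_normalizer_iff]
    intro n
    constructor
    · intro hn
      rcases hn with rfl | hn
      · rw [h1]; simp
      · rw [Set.mem_singleton_iff] at hn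
        rw [hn, h2]; simp
    · intro hn
      have h3 : n = g⁻¹ * (g * n * g⁻¹) * g := by group
      have h1' : g⁻¹ * x * g = x := by
        nth_rewrite 1 [← h1]; group
      have h2' : g⁻¹ * x⁻¹ * g = x⁻¹ := by
        nth_rewrite 1 [← h2]; group
      rcases hn with hn | hn
      · left
        rw [h3, hn, h1']
      · rw [Set.mem_singleton_iff] at hn
        right
        rw [Set.mem_singleton_iff, h3, hn, h2']
  have htK : t ∈ K := by
    rw [hK, Subgroup.mem_set_normalizer_iff]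
    intro n
    constructor
    · intro hn
      rcases hn with rfl | hn
      · rw [ht]; simp
      · rw [Set.mem_singleton_iff] at hn
        rw [hn, htx']; simp
    · intro hn
      have h3 : n = t⁻¹ * (t * n * t⁻¹) * t := by group
      have h1' : t⁻¹ * x * t = x⁻¹ := by
        nth_rewrite 1 [← htx']; group
      have h2' : t⁻¹ * x⁻¹ * t = x := by
        nth_rewrite 1 [← ht]; group
      rcases hn with hn | hn
      · right
        rw [Set.mem_singleton_iff, h3, hn, h1']
      · rw [Set.mem_singleton_iff] at hn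
        left
        rw [h3, hn, h2']
  have hrel : C.relIndex K = 2 := by
    rw [Subgroup.relIndex_eq_two_iff]
    refine ⟨t, htK, ?_⟩
    intro b hb
    have hbt : b * t * x * (b * t)⁻¹ = b * x⁻¹ * b⁻¹ := by
      calc b * t * x * (b * t)⁻¹ = b * (t * x * t⁻¹) * b⁻¹ := by group
        _ = b * x⁻¹ * b⁻¹ := by rw [ht]
    have hinv : b * x⁻¹ * b⁻¹ = (b * x * b⁻¹)⁻¹ := by group
    have hmemC : ∀ c : G, c ∈ C ↔ c * x * c⁻¹ = x := by
      intro c
      rw [hC, Subgroup.mem_centralizer_singleton_iff]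
      constructor
      · intro h; rw [h]; group
      · intro h
        nth_rewrite 2 [← h]
        group
    rw [hmemC, hmemC, hbt, hinv]
    rcases hmemK b hb with h | h
    · right
      refine ⟨h, ?_⟩
      rw [h]
      exact fun h' => hxx h'.symm
    · left
      refine ⟨by rw [h, inv_inv], ?_⟩
      rw [h]
      exact fun h' => hxx h'.symm
  have hdvd : 2 ∣ C.index := hrel ▸ Subgroup.relIndex_dvd_index_of_le hCK
  exact (Nat.not_even_iff_odd.mpr hodd) (even_iff_two_dvd.mpr hdvd)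

/-- Let x be an element of the finite group G that is conjugate to its inverse. Then some 2-element conjugates x to its inverse; if the conjugacy class of x has odd size then x ^ 2 = 1; and x lies in, and is conjugate to its inverse inside, every normal subgroup of odd index. -/
theorem result {G : Type*} [Group G] [Finite G] (x : G) (hx : IsConj x x⁻¹) : (∃ t : G, (∃ j : ℕ, orderOf t = 2 ^ j) ∧ t * x * t⁻¹ = x⁻¹) ∧ (Odd (Subgroup.centralizer ({x} : Set G)).index → x ^ 2 = 1) ∧ ∀ (N : Subgroup G) [N.Normal], Odd N.index → ∃ hxN : x ∈ N, IsConj (⟨x, hxN⟩ : N) (⟨x, hxN⟩ : N)⁻¹ := by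
  obtain ⟨t, ⟨j, hj⟩, ht⟩ := exists_two_elt x hx
  refine ⟨⟨t, ⟨j, hj⟩, ht⟩, fun hodd => sq_eq_one_of_odd x t ht hodd, ?_⟩
  intro N _ hodd
  have htN : t ∈ N := by
    rw [← QuotientGroup.eq_one_iff]
    apply eq_one_of_pow_two_pow N hodd _ j
    rw [← QuotientGroup.mk_pow, ← hj, pow_orderOf_eq_one]
    rfl
  have hxN : x ∈ N := by
    rw [← QuotientGroup.eq_one_iff]
    apply eq_one_of_pow_two_pow N hodd _ 1
    have h1 : ((t : G) : G ⧸ N) = 1 := (QuotientGroup.eq_one_iff t).mpr htN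
    have h2 : ((x⁻¹ : G) : G ⧸ N) = (x : G ⧸ N) := by
      rw [← ht]
      simp [h1]
    rw [pow_one, pow_two]
    nth_rewrite 2 [← h2]
    simp
  refine ⟨hxN, ?_⟩
  rw [isConj_iff]
  refine ⟨⟨t, htN⟩, ?_⟩
  ext
  simpa using ht

end Cfsg.Agent.S3863
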