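import Cfsg.Statements.S3864
import Mathlib
import Cfsg.Agent.S0111
import Cfsg.Agent.S1255
import Cfsg.Agent.Lib.Helper43.DihSyl3

set_option autoImplicit false
open Cfsg

namespace Cfsg.Agent.S3864

open Cfsg.Agent.Lib.Helper42 Cfsg.Agent.Lib.Helper75 Cfsg.Agent.Lib.Helper14 Cfsg.Agent.Lib.Helper43

theorem orderOf_conj_eq {X : Type*} [Group X] (g t : X) : orderOf (g * t * g⁻¹) = orderOf t :=
  (MulAut.conj g).orderOf_eq t

theorem mult_zmod2_xor : ∀ y : Multiplicative (ZMod 2),
    Xor (y * Multiplicative.ofAdd (1 : ZMod 2) = 1) (y = 1) := by decide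

theorem mult_zmod2_ne : Multiplicative.ofAdd (1 : ZMod 2) ≠ 1 := by decide

/-- Let G be a finite group whose Sylow 2-subgroups are dihedral of order 2 ^ n with n ≥ 3, and count the conjugacy classes of involutions of G. Then exactly one of the following holds: there is one class of involutions and no normal subgroup of index 2; there are two classes of involutions, a normal subgroup of index 2 and none of index 4; there are three classes of involutions and G has a normal 2-complement. -/
theorem result {G : Type*} [Group G] [Finite G] (P : Sylow 2 G) (n : ℕ) (hn : 3 ≤ n) (hdih : Nonempty (↥(P : Subgroup G) ≃* DihedralGroup (2 ^ (n - 1)))) : (Nat.card {C : ConjClasses G // ∃ g : G, ConjClasses.mk g = C ∧ orderOf g = 2} = 1 ∧ ∀ N : Subgroup G, N.Normal → N.index ≠ 2) ∨ (Nat.card {C : ConjClasses G // ∃ g : G, ConjClasses.mk g = C ∧ orderOf g = 2} = 2 ∧ (∃ N : Subgroup G, N.Normal ∧ N.index = 2) ∧ ∀ N : Subgroup G, N.Normal → N.index ≠ 4) ∨ (Nat.card {C : ConjClasses G // ∃ g : G, ConjClasses.mk g = C ∧ orderOf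 g = 2} = 3 ∧ Cfsg.HasNormalPComplement 2 G) := by
  classical
  obtain ⟨eS⟩ := hdih
  obtain ⟨m, hm⟩ : ∃ m, m = 2 ^ (n - 1) := ⟨_, rfl⟩
  rw [← hm] at eS
  obtain ⟨k, hk, hmk⟩ : ∃ k, 0 < k ∧ m = 4 * k := by
    refine ⟨2 ^ (n - 3), pow_pos (by norm_num) _, ?_⟩
    have h1 : n - 1 = (n - 3) + 2 := by omega
    rw [hm, h1, pow_add]; ring
  have hm2 : 2 ≤ m := by omega
  obtain ⟨k', hk', hmk', ι, hinj, hS, hsurj⟩ := exists_dih_emb P m hm2 eS
  have hm0 : NeZero m := ⟨by omega⟩
  have h2m : 2 ∣ m := ⟨k', hmk'⟩
  obtain ⟨M, hMmem, hMS, hMc, hMi⟩ := dih_cyclic_max P m ι hinj hS hsurj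
  obtain ⟨z, hz⟩ : ∃ z, z = ι (DihedralGroup.r (k' : ZMod m)) := ⟨_, rfl⟩
  obtain ⟨a, ha⟩ : ∃ a, a = ι (DihedralGroup.sr 0) := ⟨_, rfl⟩
  obtain ⟨b, hb⟩ : ∃ b, b = ι (DihedralGroup.sr 1) := ⟨_, rfl⟩
  have hzo : orderOf z = 2 := by rw [hz, orderOf_injective ι hinj, dih_orderOf_r_half hk' hmk']
  have hro : ∀ i, orderOf (ι (DihedralGroup.sr i)) = 2 := by
    intro i; rw [orderOf_injective ι hinj, DihedralGroup.orderOf_sr]
  have hao : orderOf a = 2 := by rw [ha]; exact hro 0
  have hbo : orderOf b = 2 := by rw [hb]; exact hro 1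
  have hzS : z ∈ (P : Subgroup G) := by rw [hz]; exact hS _
  -- involutions of P
  have hinvS : ∀ x ∈ (P : Subgroup G), orderOf x = 2 →
      x = z ∨ ∃ i, x = ι (DihedralGroup.sr i) := by
    intro x hx hxo
    obtain ⟨d, rfl⟩ := hsurj x hx
    rw [orderOf_injective ι hinj] at hxo
    rcases dih_involution hk' hmk' d hxo with rfl | ⟨i, rfl⟩
    · left; rw [hz]
    · right; exact ⟨i, rfl⟩
  have hreflM : ∀ i, ι (DihedralGroup.sr i) ∉ M := by
    intro i hi
    obtain ⟨j, hj⟩ := (hMmem _).mp hi
    have := hinj hj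
    cases this
  -- reflections `sr c` and `sr (c + 2j)` are conjugate
  have hrc : ∀ c j : ZMod m,
      IsConj (ι (DihedralGroup.sr c)) (ι (DihedralGroup.sr (c + (j + j)))) := by
    intro c j
    refine isConj_iff.mpr ⟨ι (DihedralGroup.r (-j)), ?_⟩
    rw [← map_inv, ← map_mul, ← map_mul, dih_sr_conj]
  have hrefl_ab : ∀ i, IsConj (ι (DihedralGroup.sr i)) a ∨ IsConj (ι (DihedralGroup.sr i)) b := by
    intro i
    rcases zpar_cases h2m i with ⟨j, rfl⟩ | ⟨j, rfl⟩
    · left
      have := hrc 0 j
      rw [zero_add, ← ha] at this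
      exact this.symm
    · right
      have := hrc 1 j
      rw [← hb] at this
      exact this.symm
  -- every involution is conjugate to `z`, `a` or `b`
  have hF1 : ∀ t : G, orderOf t = 2 → IsConj t z ∨ IsConj t a ∨ IsConj t b := by
    intro t ht
    obtain ⟨g, hg⟩ := exists_conj_mem_sylow_of_involution P t ht
    have hgo : orderOf (g * t * g⁻¹) = 2 := by rw [orderOf_conj_eq, ht]
    have htg : IsConj t (g * t * g⁻¹) := isConj_iff.mpr ⟨g, rfl⟩
    rcases hinvS _ hg hgo with h | ⟨i, h⟩
    · left; rw [← h]; exact htg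
    · rcases hrefl_ab i with h' | h'
      · right; left; rw [h] at htg; exact htg.trans h'
      · right; right; rw [h] at htg; exact htg.trans h'
  have hcount : Nat.card {C : ConjClasses G // ∃ g : G, ConjClasses.mk g = C ∧ orderOf g = 2} =
      (({ConjClasses.mk z, ConjClasses.mk a, ConjClasses.mk b} :
        Finset (ConjClasses G))).card := by
    rw [← Nat.card_eq_finsetCard]
    apply Nat.card_congr
    apply Equiv.subtypeEquivRight
    intro C
    simp only [Finset.mem_insert, Finset.mem_singleton]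
    constructor
    · rintro ⟨g, rfl, hg⟩
      rcases hF1 g hg with h | h | h
      · left; exact ConjClasses.mk_eq_mk_iff_isConj.mpr h
      · right; left; exact ConjClasses.mk_eq_mk_iff_isConj.mpr h
      · right; right; exact ConjClasses.mk_eq_mk_iff_isConj.mpr h
    · rintro (rfl | rfl | rfl)
      exacts [⟨z, rfl, hzo⟩, ⟨a, rfl, hao⟩, ⟨b, rfl, hbo⟩]
  -- the rotation `r k` and the commutator formula
  obtain ⟨κ, hκ⟩ : ∃ κ : ZMod m, κ = (k : ZMod m) := ⟨_, rfl⟩
  have hκ2 : (k' : ZMod m) = κ + κ := by
    have h1 : k' = 2 * k := by omega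
    rw [h1, hκ]; push_cast; ring
  have hcomm_z : ∀ c : ZMod m, z = ι (DihedralGroup.r κ) * ι (DihedralGroup.sr c) *
      (ι (DihedralGroup.r κ))⁻¹ * (ι (DihedralGroup.sr c))⁻¹ := by
    intro c
    rw [hz, ← map_inv, ← map_inv, ← map_mul, ← map_mul, ← map_mul]
    congr 1
    rw [dih_conj_sr, DihedralGroup.inv_sr, DihedralGroup.sr_mul_r, DihedralGroup.sr_mul_sr, hκ2]
    congr 1; ring
  -- two classes: a normal subgroup of index 2 and none of index 4
  have keyβ : ∀ c : ZMod m, IsConj (ι (DihedralGroup.sr c)) z →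
      ¬ IsConj (ι (DihedralGroup.sr (c + 1))) z →
      (∃ N : Subgroup G, N.Normal ∧ N.index = 2) ∧
        ∀ N : Subgroup G, N.Normal → N.index ≠ 4 := by
    intro c hAz hBz
    obtain ⟨χ, hχ⟩ : ∃ χ, χ = dihPar m h2m c := ⟨_, rfl⟩
    obtain ⟨Mc, hMcdef⟩ : ∃ Mc : Subgroup G, Mc = (χ.ker).map ι := ⟨_, rfl⟩
    have hMcmem : ∀ d, ι d ∈ Mc ↔ χ d = 1 := by
      intro d
      rw [hMcdef, Subgroup.mem_map]
      constructor
      · rintro ⟨d', hd', he⟩
        rw [← hinj he]; exact MonoidHom.mem_ker.mp hd'
      · intro h; exact ⟨d, MonoidHom.mem_ker.mpr h, rfl⟩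
    have hMcS : Mc ≤ (P : Subgroup G) := by
      rw [hMcdef]; rintro x ⟨d, -, rfl⟩; exact hS d
    obtain ⟨B, hB⟩ : ∃ B, B = ι (DihedralGroup.sr (c + 1)) := ⟨_, rfl⟩
    have hχB : χ (DihedralGroup.sr (c + 1)) = Multiplicative.ofAdd (1 : ZMod 2) := by
      rw [hχ, dihPar_sr]; congr 1
      rw [add_sub_cancel_left, map_one]
    have hBS : B ∈ (P : Subgroup G) := by rw [hB]; exact hS _
    have hxor : ∀ x ∈ (P : Subgroup G), Xor (x * B ∈ Mc) (x ∈ Mc) := by
      intro x hx
      obtain ⟨d, rfl⟩ := hsurj x hx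
      rw [hB, ← map_mul, hMcmem, hMcmem, map_mul, hχB]
      exact mult_zmod2_xor _
    have hMci : Mc.relIndex (P : Subgroup G) = 2 :=
      Subgroup.relIndex_eq_two_iff.mpr ⟨B, hBS, hxor⟩
    have hBMc : B ∉ Mc := by
      rw [hB, hMcmem, hχB]; exact mult_zmod2_ne
    have hBo : orderOf B = 2 := by rw [hB]; exact hro _
    -- elements of `Mc` of order two are conjugate to `z`
    have hMcz : ∀ x ∈ Mc, orderOf x = 2 → IsConj x z := by
      intro x hx hxo
      rcases hinvS x (hMcS hx) hxo with h | ⟨i, h⟩
      · rw [h]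
      · rw [h, hMcmem, hχ, dihPar_sr] at hx
        have h0 : ZMod.castHom h2m (ZMod 2) (i - c) = 0 := hx
        obtain ⟨j, hj⟩ := zpar_eq_zero h2m (i - c) h0
        have hi : i = c + (j + j) := by rw [← hj]; ring
        rw [h, hi]
        exact (hrc c j).symm.trans hAz
    have hmcN : ∀ N : Subgroup G, N.Normal → z ∈ N → Mc ≤ N := by
      intro N hN hzN
      have hconjN : ∀ x y : G, IsConj x y → x ∈ N → y ∈ N := by
        intro x y hxy hx
        obtain ⟨g, rfl⟩ := isConj_iff.mp hxy
        exact hN.conj_mem x hx g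
      have hAN : ι (DihedralGroup.sr c) ∈ N := hconjN _ _ hAz.symm hzN
      have hAjN : ∀ j : ZMod m, ι (DihedralGroup.sr (c + (j + j))) ∈ N := fun j =>
        hconjN _ _ (hrc c j) hAN
      rw [hMcdef]
      rintro x ⟨d, hd, rfl⟩
      have hd1 : χ d = 1 := MonoidHom.mem_ker.mp hd
      cases d with
      | r j =>
        rw [hχ, dihPar_r] at hd1
        have h0 : ZMod.castHom h2m (ZMod 2) j = 0 := hd1
        obtain ⟨t, ht⟩ := zpar_eq_zero h2m j h0
        have : ι (DihedralGroup.r j) =
            ι (DihedralGroup.sr c) * ι (DihedralGroup.sr (c + (t + t))) := by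
          rw [← map_mul, DihedralGroup.sr_mul_sr, ht]; congr 2; ring
        rw [this]; exact N.mul_mem hAN (hAjN t)
      | sr i =>
        rw [hχ, dihPar_sr] at hd1
        have h0 : ZMod.castHom h2m (ZMod 2) (i - c) = 0 := hd1
        obtain ⟨t, ht⟩ := zpar_eq_zero h2m (i - c) h0
        have hi : i = c + (t + t) := by rw [← ht]; ring
        rw [hi]; exact hAjN t
    constructor
    · rcases Cfsg.Agent.S0111.result P Mc hMcS hMci B hBo hBS hBMc with ⟨N, hN, hNi, _⟩ | ⟨g, hg⟩
      · exact ⟨N, hN, hNi⟩
      · exfalso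
        have h1 : IsConj (g * B * g⁻¹) z := hMcz _ hg (by rw [orderOf_conj_eq, hBo])
        apply hBz
        rw [← hB]
        exact (isConj_iff.mpr ⟨g, rfl⟩ : IsConj B (g * B * g⁻¹)).trans h1
    · intro N hN hN4
      have hcardQ : Nat.card (G ⧸ N) = 2 ^ 2 := by rw [← Subgroup.index_eq_card, hN4]; norm_num
      have hQc := IsPGroup.isMulCommutative_of_card_eq_prime_sq hcardQ
      have hzN : z ∈ N := by
        rw [hcomm_z c, ← QuotientGroup.eq_one_iff]
        simp only [QuotientGroup.mk_mul, QuotientGroup.mk_inv]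
        rw [hQc.is_comm.comm (QuotientGroup.mk (ι (DihedralGroup.r κ)))
          (QuotientGroup.mk (ι (DihedralGroup.sr c)))]
        group
      have hMcN : Mc ≤ N := hmcN N hN hzN
      have htop : N ⊔ (P : Subgroup G) = ⊤ := by
        rw [← Subgroup.index_eq_one]
        have h1 : (N ⊔ (P : Subgroup G)).index ∣ 4 := by
          rw [← hN4]; exact Subgroup.index_dvd_of_le le_sup_left
        have h2 : (N ⊔ (P : Subgroup G)).index ∣ (P : Subgroup G).index :=
          Subgroup.index_dvd_of_le le_sup_right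
        have h3 : ¬ 2 ∣ (N ⊔ (P : Subgroup G)).index := fun h => P.not_dvd_index (h.trans h2)
        have h4 : (N ⊔ (P : Subgroup G)).index ∣ 2 ^ 2 := by norm_num; exact h1
        obtain ⟨e, -, he⟩ := (Nat.dvd_prime_pow Nat.prime_two).mp h4
        rcases e with _ | e
        · simpa using he
        · exfalso; apply h3; rw [he, pow_succ]; exact dvd_mul_left 2 _
      have hall : ∀ g : G, g ∈ N ∨ g * B ∈ N := by
        intro g
        have htop' : (P : Subgroup G) ⊔ N = ⊤ := by rw [sup_comm]; exact htop
        obtain ⟨c', hc', s, hs, rfl⟩ := exists_mul_of_sup_normal_eq_top htop' g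
        rcases hxor s hs with ⟨h1, -⟩ | ⟨h1, -⟩
        · right
          rw [mul_assoc]
          exact N.mul_mem hc' (hMcN h1)
        · left
          exact N.mul_mem hc' (hMcN h1)
      by_cases hBN : B ∈ N
      · have : N = ⊤ := by
          rw [eq_top_iff]
          intro g _
          rcases hall g with h | h
          · exact h
          · have : g = g * B * B⁻¹ := by group
            rw [this]; exact N.mul_mem h (N.inv_mem hBN)
        rw [this, Subgroup.index_top] at hN4
        omega
      · have h2 : N.index = 2 := by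
          rw [Subgroup.index_eq_two_iff]
          refine ⟨B, fun g => ?_⟩
          rcases hall g with h | h
          · refine Or.inr ⟨h, fun h' => hBN ?_⟩
            have : B = g⁻¹ * (g * B) := by group
            rw [this]; exact N.mul_mem (N.inv_mem h) h'
          · by_cases hg : g ∈ N
            · exfalso; apply hBN
              have : B = g⁻¹ * (g * B) := by group
              rw [this]; exact N.mul_mem (N.inv_mem hg) h
            · exact Or.inl ⟨h, hg⟩
        omega
  by_cases haz : IsConj a z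
  · by_cases hbz : IsConj b z
    · -- one class
      left
      constructor
      · rw [hcount, ConjClasses.mk_eq_mk_iff_isConj.mpr haz, ConjClasses.mk_eq_mk_iff_isConj.mpr hbz]
        simp
      · intro N _
        have hR1 : ∀ x y : G, orderOf x = 2 → orderOf y = 2 → IsConj x y := by
          have hall : ∀ t : G, orderOf t = 2 → IsConj t z := by
            intro t ht
            rcases hF1 t ht with h | h | h
            · exact h
            · exact h.trans haz
            · exact h.trans hbz
          intro x y hx hy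
          exact (hall x hx).trans (hall y hy).symm
        exact ((Cfsg.Agent.S1255.result P m hm2 eS).mpr (Or.inl hR1)).1 N
    · -- two classes: `a ~ z`, `b` apart
      right; left
      have hkey := keyβ 0 (by rw [← ha]; exact haz) (by rw [zero_add, ← hb]; exact hbz)
      refine ⟨?_, hkey.1, hkey.2⟩
      rw [hcount, ConjClasses.mk_eq_mk_iff_isConj.mpr haz]
      have hne : ConjClasses.mk z ≠ ConjClasses.mk b := by
        intro h; exact hbz (ConjClasses.mk_eq_mk_iff_isConj.mp h).symm
      simp [hne]
  · by_cases hbz : IsConj b z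
    · -- two classes: `b ~ z`, `a` apart
      right; left
      have hB2 : ¬ IsConj (ι (DihedralGroup.sr (1 + 1))) z := by
        intro h
        apply haz
        have h1 := hrc 0 1
        rw [zero_add, ← ha] at h1
        exact h1.trans h
      have hkey := keyβ 1 (by rw [← hb]; exact hbz) hB2
      refine ⟨?_, hkey.1, hkey.2⟩
      rw [hcount, ConjClasses.mk_eq_mk_iff_isConj.mpr hbz]
      have hne : ConjClasses.mk z ≠ ConjClasses.mk a := by
        intro h; exact haz (ConjClasses.mk_eq_mk_iff_isConj.mp h).symm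
      have hfin : ({ConjClasses.mk z, ConjClasses.mk a, ConjClasses.mk z} :
          Finset (ConjClasses G)) = {ConjClasses.mk z, ConjClasses.mk a} := by
        ext C; simp only [Finset.mem_insert, Finset.mem_singleton]; tauto
      rw [hfin, Finset.card_pair hne]
    · -- three classes: normal 2-complement
      right; right
      have hfus : ∀ u ∈ (P : Subgroup G), u ∉ M → ∀ g : G, g * u * g⁻¹ ∉ M := by
        intro u huS huM g hg
        have huo : orderOf u = 2 := by
          obtain ⟨d, rfl⟩ := hsurj u huS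
          cases d with
          | r j => exact absurd ((hMmem _).mpr ⟨j, rfl⟩) huM
          | sr i => exact hro i
        have hgo : orderOf (g * u * g⁻¹) = 2 := by rw [orderOf_conj_eq, huo]
        have huz : IsConj u z := by
          rcases hinvS _ (hMS hg) hgo with h | ⟨i, h⟩
          · exact isConj_iff.mpr ⟨g, h⟩
          · rw [h] at hg; exact absurd hg (hreflM i)
        rcases hinvS u huS huo with h | ⟨i, h⟩
        · apply huM; rw [h, hz]; exact (hMmem _).mpr ⟨_, rfl⟩
        · rw [h] at huz
          rcases hrefl_ab i with h' | h'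
          · exact haz (h'.symm.trans huz)
          · exact hbz (h'.symm.trans huz)
      have hinvM : ∀ u ∈ (P : Subgroup G), u ∉ M → orderOf u = 2 := by
        intro u huS huM
        obtain ⟨d, rfl⟩ := hsurj u huS
        cases d with
        | r j => exact absurd ((hMmem _).mpr ⟨j, rfl⟩) huM
        | sr i => exact hro i
      have hnpc : NPC 2 G := npc_of_no_fusion P M hMc hinvM hfus
        (fun u hu huS huM => Cfsg.Agent.S0111.result P M hMS hMi u hu huS huM)
      obtain ⟨N, hN, hNc⟩ := hnpc.exists_isComplement' P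
      refine ⟨?_, ⟨P, N, hN, hNc⟩⟩
      have hab : ¬ IsConj a b := by
        intro h
        obtain ⟨g, hg⟩ := isConj_iff.mp h
        have haS : a ∈ (P : Subgroup G) := by rw [ha]; exact hS _
        have hbS : b ∈ (P : Subgroup G) := by rw [hb]; exact hS _
        obtain ⟨s, hs, hsab⟩ := conj_in_sylow_of_complement (P : Subgroup G) N hNc a b haS hbS g hg
        obtain ⟨d, rfl⟩ := hsurj s hs
        rw [ha, hb, ← map_inv, ← map_mul, ← map_mul] at hsab
        have h1 := hinj hsab
        have h2 := congrArg (dihPar m h2m 0) h1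
        rw [map_mul, map_mul, map_inv, mul_comm, inv_mul_cancel_left, dihPar_sr, dihPar_sr,
          sub_self, sub_zero, map_zero, map_one] at h2
        exact mult_zmod2_ne h2.symm
      rw [hcount]
      have h1 : ConjClasses.mk z ≠ ConjClasses.mk a := by
        intro h; exact haz (ConjClasses.mk_eq_mk_iff_isConj.mp h).symm
      have h2 : ConjClasses.mk z ≠ ConjClasses.mk b := by
        intro h; exact hbz (ConjClasses.mk_eq_mk_iff_isConj.mp h).symm
      have h3 : ConjClasses.mk a ≠ ConjClasses.mk b := by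
        intro h; exact hab (ConjClasses.mk_eq_mk_iff_isConj.mp h)
      rw [Finset.card_insert_of_notMem, Finset.card_insert_of_notMem, Finset.card_singleton]
      · simp [h3]
      · simp [h1, h2]

end Cfsg.Agent.S3864
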