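import Cfsg.Statements.S3867
import Mathlib

set_option autoImplicit false
open Cfsg

namespace Cfsg.Agent.S3867

variable {G : Type*} [Group G]

theorem card_mul_relIndex_of_le {H K : Subgroup G} (h : H ≤ K) :
    Nat.card H * H.relIndex K = Nat.card K := by
  rw [Subgroup.relIndex, ← Subgroup.card_mul_index (H.subgroupOf K),
    Nat.card_congr (Subgroup.subgroupOfEquivOfLe h).toEquiv]

/-- product formula when `B` is normal -/
theorem card_sup_mul_card_inf (A B : Subgroup G) [B.Normal] :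
    Nat.card (A ⊔ B : Subgroup G) * Nat.card (A ⊓ B : Subgroup G) = Nat.card A * Nat.card B := by
  have h1 : Nat.card (A ⊓ B : Subgroup G) * B.relIndex A = Nat.card A := by
    have := card_mul_relIndex_of_le (inf_le_left : A ⊓ B ≤ A)
    rwa [Subgroup.inf_relIndex_left] at this
  have h2 : Nat.card B * B.relIndex (A ⊔ B) = Nat.card (A ⊔ B : Subgroup G) :=
    card_mul_relIndex_of_le le_sup_right
  rw [Subgroup.relIndex_sup_right] at h2
  rw [← h2, ← h1]
  ring

/-- Frattini: the normalizer of `P ⊔ K` is `N(P) ⊔ K`. -/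
theorem normalizer_sup_eq [Finite G] {p : ℕ} [Fact p.Prime] (P : Sylow p G) (K : Subgroup G)
    [K.Normal] :
    Subgroup.normalizer (((P : Subgroup G) ⊔ K : Subgroup G) : Set G) =
      Subgroup.normalizer ((P : Subgroup G) : Set G) ⊔ K := by
  have hKn : K.Normal := inferInstance
  apply le_antisymm
  · intro g hg
    set L := (P : Subgroup G) ⊔ K with hL
    have hPL : (P : Subgroup G) ≤ L := le_sup_left
    have hgP : ((g • P : Sylow p G) : Subgroup G) ≤ L := by
      rintro _ ⟨u, hu, rfl⟩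
      exact (Subgroup.mem_normalizer_iff.mp hg u).mp (hPL hu)
    obtain ⟨m, hm⟩ := MulAction.exists_smul_eq L ((g • P).subtype hgP) (P.subtype hPL)
    rw [Sylow.smul_subtype] at hm
    have hm' := Sylow.subtype_injective hm
    have hmg : (m : G) * g ∈ Subgroup.normalizer ((P : Subgroup G) : Set G) := by
      have h7 : ((m : G) * g) • P = P := by
        rw [mul_smul]
        exact hm'
      exact Sylow.smul_eq_iff_mem_normalizer.mp h7
    have hmL : (m : G) ∈ Subgroup.normalizer ((P : Subgroup G) : Set G) ⊔ K :=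
      (sup_le (Subgroup.le_normalizer.trans le_sup_left) le_sup_right) m.2
    have hg' : g = (m : G)⁻¹ * ((m : G) * g) := by group
    rw [hg']
    exact Subgroup.mul_mem _ (Subgroup.inv_mem _ hmL) (Subgroup.mem_sup_left hmg)
  · apply sup_le
    · rw [Subgroup.le_normalizer_iff]
      intro x hx y hy
      obtain ⟨u, hu, k, hk, rfl⟩ := Subgroup.mem_sup_of_normal_right.mp hy
      have h1 : x * (u * k) * x⁻¹ = (x * u * x⁻¹) * (x * k * x⁻¹) := by group
      rw [h1]
      exact Subgroup.mul_mem_sup ((Subgroup.mem_normalizer_iff.mp hx u).mp hu) (hKn.conj_mem k hk x)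
    · exact le_sup_right.trans Subgroup.le_normalizer

theorem card_sylow_quotient [Finite G] {p : ℕ} [Fact p.Prime] (P : Sylow p G) (K : Subgroup G)
    [K.Normal] :
    Nat.card (Sylow p (G ⧸ K)) = (Subgroup.normalizer ((P : Subgroup G) : Set G) ⊔ K).index := by
  have hπ := QuotientGroup.mk'_surjective K
  rw [Sylow.card_eq_index_normalizer (P.mapSurjective hπ),
    ← Subgroup.index_comap_of_surjective _ hπ]
  congr 1
  have h1 : Subgroup.normalizer (((P.mapSurjective hπ : Sylow p (G ⧸ K)) : Subgroup (G ⧸ K)) : Set (G ⧸ K))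
      = Subgroup.normalizer (((P : Subgroup G).map (QuotientGroup.mk' K) : Subgroup (G ⧸ K)) : Set (G ⧸ K)) := rfl
  have h2 : Subgroup.comap (QuotientGroup.mk' K)
      (Subgroup.normalizer (((P : Subgroup G).map (QuotientGroup.mk' K) : Subgroup (G ⧸ K)) : Set (G ⧸ K)))
      = Subgroup.normalizer ((P : Subgroup G) : Set G) ⊔ K := by
    rw [Subgroup.comap_normalizer_eq_of_surjective _ hπ, Subgroup.comap_map_eq,
      QuotientGroup.ker_mk', normalizer_sup_eq]
  exact h2

theorem key_inf [Finite G] {p : ℕ} [Fact p.Prime] (P : Sylow p G) (M N : Subgroup G) [M.Normal]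
    [N.Normal] (hMN : M ⊓ N = ⊥) :
    (Subgroup.normalizer ((P : Subgroup G) : Set G) ⊔ N) ⊓ M ≤
      Subgroup.normalizer ((P : Subgroup G) : Set G) := by
  have hMn : M.Normal := inferInstance
  have hNn : N.Normal := inferInstance
  set X := Subgroup.normalizer ((P : Subgroup G) : Set G) with hX
  set K₀ := (M ⊔ (P : Subgroup G)) ⊓ N with hK₀
  -- K₀ is a p-group
  have hK₀p : IsPGroup p K₀ := by
    have hPmap : IsPGroup p ((P : Subgroup G).map (QuotientGroup.mk' M)) := P.isPGroup'.map _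
    intro k
    have hk1 : (k : G) ∈ M ⊔ (P : Subgroup G) := k.2.1
    have hk2 : (QuotientGroup.mk' M (k : G)) ∈ (P : Subgroup G).map (QuotientGroup.mk' M) := by
      obtain ⟨m, hm, u, hu, h⟩ := Subgroup.mem_sup_of_normal_left.mp hk1
      refine ⟨u, hu, ?_⟩
      rw [← h, map_mul]
      have : QuotientGroup.mk' M m = 1 := (QuotientGroup.eq_one_iff m).mpr hm
      rw [this, one_mul]
    obtain ⟨j, hj⟩ := hPmap ⟨_, hk2⟩
    refine ⟨j, ?_⟩
    have hj' : (QuotientGroup.mk' M (k : G)) ^ p ^ j = 1 := by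
      have := congrArg Subtype.val hj
      simpa using this
    rw [← map_pow] at hj'
    have h3 : (k : G) ^ p ^ j ∈ M := (QuotientGroup.eq_one_iff _).mp hj'
    have h4 : (k : G) ^ p ^ j ∈ N := N.pow_mem k.2.2 _
    have h5 : (k : G) ^ p ^ j ∈ M ⊓ N := ⟨h3, h4⟩
    rw [hMN, Subgroup.mem_bot] at h5
    apply Subtype.ext
    simpa using h5
  -- P normalizes K₀
  have hPK₀ : (P : Subgroup G) ≤ Subgroup.normalizer (K₀ : Set G) := by
    rw [Subgroup.le_normalizer_iff]
    intro u hu k hk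
    refine ⟨?_, hNn.conj_mem k hk.2 u⟩
    have hu' : u ∈ M ⊔ (P : Subgroup G) := Subgroup.mem_sup_right hu
    exact Subgroup.mul_mem _ (Subgroup.mul_mem _ hu' hk.1) (Subgroup.inv_mem _ hu')
  have hK₀P : K₀ ≤ (P : Subgroup G) := by
    have h1 : IsPGroup p ((P : Subgroup G) ⊔ K₀ : Subgroup G) :=
      IsPGroup.to_sup_of_normal_right' P.isPGroup' hK₀p hPK₀
    have h2 := P.is_maximal' h1 le_sup_left
    rw [← h2]
    exact le_sup_right
  -- Y = N ⊓ (X ⊔ M) normalizes P
  have hY : N ⊓ (X ⊔ M) ≤ X := by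
    rw [hX, Subgroup.le_normalizer_iff]
    rintro n ⟨hnN, hnXM⟩ u hu
    obtain ⟨x, hx, m', hm', rfl⟩ := Subgroup.mem_sup_of_normal_right.mp hnXM
    have h1 : m' * u * m'⁻¹ ∈ M ⊔ (P : Subgroup G) := by
      have : m' * u * m'⁻¹ = (m' * (u * m'⁻¹ * u⁻¹)) * u := by group
      rw [this]
      exact Subgroup.mul_mem_sup (M.mul_mem hm' (hMn.conj_mem _ (M.inv_mem hm') u)) hu
    have h2 : x * (m' * u * m'⁻¹) * x⁻¹ ∈ M ⊔ (P : Subgroup G) := by
      obtain ⟨m₁, hm₁, u₁, hu₁, h⟩ := Subgroup.mem_sup_of_normal_left.mp h1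
      rw [← h]
      have : x * (m₁ * u₁) * x⁻¹ = (x * m₁ * x⁻¹) * (x * u₁ * x⁻¹) := by group
      rw [this]
      exact Subgroup.mul_mem_sup (hMn.conj_mem m₁ hm₁ x) ((Subgroup.mem_normalizer_iff.mp hx u₁).mp hu₁)
    have h3 : (x * m') * u * (x * m')⁻¹ = x * (m' * u * m'⁻¹) * x⁻¹ := by group
    have h4 : (x * m') * u * (x * m')⁻¹ * u⁻¹ ∈ K₀ := by
      constructor
      · rw [h3]
        exact Subgroup.mul_mem _ h2 (Subgroup.inv_mem _ (Subgroup.mem_sup_right hu))
      · have : (x * m') * u * (x * m')⁻¹ * u⁻¹ = (x * m') * (u * (x * m')⁻¹ * u⁻¹) := by group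
        rw [this]
        exact N.mul_mem hnN (hNn.conj_mem _ (N.inv_mem hnN) u)
    have h5 : (x * m') * u * (x * m')⁻¹ = ((x * m') * u * (x * m')⁻¹ * u⁻¹) * u := by group
    rw [h5]
    exact (P : Subgroup G).mul_mem (hK₀P h4) hu
  rintro m ⟨hmXN, hmM⟩
  obtain ⟨x, hx, n, hn, rfl⟩ := Subgroup.mem_sup_of_normal_right.mp hmXN
  have hnXM : n ∈ X ⊔ M := by
    have : n = x⁻¹ * (x * n) := by group
    rw [this]
    exact Subgroup.mul_mem_sup (X.inv_mem hx) hmM
  exact X.mul_mem hx (hY ⟨hn, hnXM⟩)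

/-- Let M and N be nontrivial normal subgroups of the finite group G with M ⊓ N trivial, and let p be a prime. Writing n(X) for the number of Sylow p-subgroups of a group X, one has n(G) · n(G/MN) = n(G/M) · n(G/N). -/
theorem result {G : Type*} [Group G] [Finite G] (p : ℕ) [Fact p.Prime] (M N : Subgroup G) [M.Normal] [N.Normal] (hM : M ≠ ⊥) (hN : N ≠ ⊥) (hMN : M ⊓ N = ⊥) : Nat.card (Sylow p G) * Nat.card (Sylow p (G ⧸ (M ⊔ N))) = Nat.card (Sylow p (G ⧸ M)) * Nat.card (Sylow p (G ⧸ N)) := by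
  let P : Sylow p G := default
  rw [card_sylow_quotient P (M ⊔ N), card_sylow_quotient P M, card_sylow_quotient P N,
    Sylow.card_eq_index_normalizer P]
  set X := Subgroup.normalizer ((P : Subgroup G) : Set G) with hX
  have hX' : Subgroup.normalizer (P : Set G) = X := rfl
  rw [hX']
  have e1 := card_sup_mul_card_inf X M
  have e2 := card_sup_mul_card_inf (X ⊔ N) M
  have e3 : (X ⊔ N) ⊓ M = X ⊓ M := by
    apply le_antisymm
    · exact le_inf (key_inf P M N hMN) inf_le_right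
    · exact inf_le_inf_right M le_sup_left
  rw [e3] at e2
  have hassoc : X ⊔ N ⊔ M = X ⊔ (M ⊔ N) := by
    rw [sup_assoc, sup_comm N M]
  rw [hassoc] at e2
  have hbc : Nat.card (X ⊔ M : Subgroup G) * Nat.card (X ⊔ N : Subgroup G) =
      Nat.card X * Nat.card (X ⊔ (M ⊔ N) : Subgroup G) := by
    have hpos : 0 < Nat.card M * Nat.card (X ⊓ M : Subgroup G) :=
      Nat.mul_pos Nat.card_pos Nat.card_pos
    apply Nat.eq_of_mul_eq_mul_left hpos
    calc Nat.card M * Nat.card (X ⊓ M : Subgroup G) *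
          (Nat.card (X ⊔ M : Subgroup G) * Nat.card (X ⊔ N : Subgroup G))
        = (Nat.card (X ⊔ M : Subgroup G) * Nat.card (X ⊓ M : Subgroup G)) *
            (Nat.card (X ⊔ N : Subgroup G) * Nat.card M) := by ring
      _ = (Nat.card X * Nat.card M) *
            (Nat.card (X ⊔ (M ⊔ N) : Subgroup G) * Nat.card (X ⊓ M : Subgroup G)) := by
          rw [e1, e2]
      _ = Nat.card M * Nat.card (X ⊓ M : Subgroup G) *
          (Nat.card X * Nat.card (X ⊔ (M ⊔ N) : Subgroup G)) := by ring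
  have ia := Subgroup.card_mul_index X
  have ib := Subgroup.card_mul_index (X ⊔ M)
  have ic := Subgroup.card_mul_index (X ⊔ N)
  have id' := Subgroup.card_mul_index (X ⊔ (M ⊔ N))
  have hpos : 0 < Nat.card X * Nat.card (X ⊔ (M ⊔ N) : Subgroup G) :=
    Nat.mul_pos Nat.card_pos Nat.card_pos
  apply Nat.eq_of_mul_eq_mul_left hpos
  calc Nat.card X * Nat.card (X ⊔ (M ⊔ N) : Subgroup G) * (X.index * (X ⊔ (M ⊔ N)).index)
      = (Nat.card X * X.index) * (Nat.card (X ⊔ (M ⊔ N) : Subgroup G) * (X ⊔ (M ⊔ N)).index) := by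
        ring
    _ = (Nat.card (X ⊔ M : Subgroup G) * (X ⊔ M).index) *
          (Nat.card (X ⊔ N : Subgroup G) * (X ⊔ N).index) := by rw [ia, id', ib, ic]
    _ = (Nat.card (X ⊔ M : Subgroup G) * Nat.card (X ⊔ N : Subgroup G)) *
          ((X ⊔ M).index * (X ⊔ N).index) := by ring
    _ = Nat.card X * Nat.card (X ⊔ (M ⊔ N) : Subgroup G) * ((X ⊔ M).index * (X ⊔ N).index) := by
        rw [hbc]

end Cfsg.Agent.S3867
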