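import Cfsg.Statements.S3878
import Cfsg.Agent.Lib.Helper69.PClassCount

set_option autoImplicit false
open Cfsg

namespace Cfsg.Agent.S3878


section aux

open Cfsg.Agent.Lib.Helper69 Equiv Equiv.Perm MulAction

/-- the property on the right-hand side -/
def CondC (π : Set ℕ) : Prop :=
  (∀ p q : ℕ, p.Prime → q.Prime → p ∈ π → q ∈ π → p = q) ∨ ∀ p : ℕ, p.Prime → p ∈ π

theorem piSubgroup_iff_isPGroup {G : Type*} [Group G] [Finite G] (π : Set ℕ) (p : ℕ)
    [Fact p.Prime] (hp : p ∈ π) (huniq : ∀ q : ℕ, q.Prime → q ∈ π → q = p) (K : Subgroup G) :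
    Cfsg.IsPiSubgroup π K ↔ IsPGroup p ↥K := by
  have hpp := (Fact.out : p.Prime)
  constructor
  · intro h
    apply IsPGroup.of_card (n := (Nat.card ↥K).primeFactorsList.length)
    exact Nat.eq_prime_pow_of_unique_prime_dvd Nat.card_pos.ne'
      (fun {d} hd hdvd => huniq d hd (h d hd hdvd))
  · intro h q hq hdvd
    obtain ⟨k, hk⟩ := IsPGroup.iff_card.mp h
    rw [hk] at hdvd
    have := (Nat.prime_dvd_prime_iff_eq hq hpp).mp (hq.dvd_of_dvd_pow hdvd)
    rw [this]
    exact hp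

theorem map_conj_one {G : Type*} [Group G] (H : Subgroup G) :
    H.map (MulAut.conj (1 : G)).toMonoidHom = H := by
  ext x
  simp

theorem condC_imp_E (π : Set ℕ) (hC : CondC π) (G : Type) [Group G] [Finite G] :
    Cfsg.IsEPiGroup π G := by
  rcases hC with h1 | hall
  · by_cases h : ∃ p : ℕ, p.Prime ∧ p ∈ π
    · obtain ⟨p, hp, hpπ⟩ := h
      have := Fact.mk hp
      obtain ⟨P⟩ : Nonempty (Sylow p G) := inferInstance
      refine ⟨P, ?_, ?_⟩
      · exact (piSubgroup_iff_isPGroup π p hpπ (fun q hq hqπ => h1 q p hq hp hqπ hpπ) _).mpr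
          P.isPGroup'
      · intro q hq hqπ hdvd
        have hqp := h1 q p hq hp hqπ hpπ
        rw [hqp] at hdvd
        exact P.not_dvd_index hdvd
    · refine ⟨⊥, ?_, ?_⟩
      · intro q hq hdvd
        rw [Subgroup.card_bot] at hdvd
        exact absurd (Nat.dvd_one.mp hdvd) hq.one_lt.ne'
      · intro q hq hqπ
        exact absurd ⟨q, hq, hqπ⟩ h
  · refine ⟨⊤, fun q hq _ => hall q hq, ?_⟩
    intro q hq _ hdvd
    rw [Subgroup.index_top] at hdvd
    exact absurd (Nat.dvd_one.mp hdvd) hq.one_lt.ne'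

theorem condC_imp_D (π : Set ℕ) (hC : CondC π) (G : Type) [Group G] [Finite G] :
    Cfsg.IsDPiGroup π G := by
  intro H K hH hK
  rcases hC with h1 | hall
  · by_cases h : ∃ p : ℕ, p.Prime ∧ p ∈ π
    · obtain ⟨p, hp, hpπ⟩ := h
      have := Fact.mk hp
      have hiff := piSubgroup_iff_isPGroup (G := G) π p hpπ (fun q hq hqπ => h1 q p hq hp hqπ hpπ)
      let P : Sylow p G := ⟨H, (hiff H).mp hH.1, fun {Q} hQ hle =>
        le_antisymm (hH.2 ((hiff Q).mpr hQ) hle) hle⟩
      let Q : Sylow p G := ⟨K, (hiff K).mp hK.1, fun {Q} hQ hle =>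
        le_antisymm (hK.2 ((hiff Q).mpr hQ) hle) hle⟩
      obtain ⟨g, hg⟩ := MulAction.exists_smul_eq G P Q
      refine ⟨g, ?_⟩
      ext x
      have h2 : x ∈ K ↔ x ∈ ((g • P : Sylow p G) : Subgroup G) := by
        rw [hg]
      rw [h2, mem_smul_sylow_iff', Subgroup.mem_map]
      constructor
      · intro hx
        exact ⟨g⁻¹ * x * g, hx, by simp [MulAut.conj_apply, mul_assoc]⟩
      · rintro ⟨y, hy, rfl⟩
        have hy' : y ∈ (P : Subgroup G) := hy
        simpa [MulAut.conj_apply, mul_assoc] using hy'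
    · have hbot : ∀ L : Subgroup G, Cfsg.IsPiSubgroup π L → L = ⊥ := by
        intro L hL
        rw [← Subgroup.card_eq_one, Nat.eq_one_iff_not_exists_prime_dvd]
        intro q hq hdvd
        exact h ⟨q, hq, hL q hq hdvd⟩
      refine ⟨1, ?_⟩
      rw [map_conj_one, hbot H hH.1, hbot K hK.1]
  · have htop : Cfsg.IsPiSubgroup π (⊤ : Subgroup G) := fun q hq _ => hall q hq
    have hH' : H = ⊤ := top_le_iff.mp (hH.2 htop le_top)
    have hK' : K = ⊤ := top_le_iff.mp (hK.2 htop le_top)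
    refine ⟨1, ?_⟩
    rw [map_conj_one, hH', hK']

theorem D_imp_E (π : Set ℕ) (G : Type) [Group G] [Finite G] (hD : Cfsg.IsDPiGroup π G) :
    Cfsg.IsEPiGroup π G := by
  have hbot : Cfsg.IsPiSubgroup π (⊥ : Subgroup G) := by
    intro q hq hdvd
    rw [Subgroup.card_bot] at hdvd
    exact absurd (Nat.dvd_one.mp hdvd) hq.one_lt.ne'
  obtain ⟨H₀, -, hH₀⟩ := Finite.exists_le_maximal hbot
  refine ⟨H₀, hH₀.1, ?_⟩
  intro p hp hpπ hdvd
  have := Fact.mk hp
  obtain ⟨P⟩ : Nonempty (Sylow p G) := inferInstance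
  have hP : Cfsg.IsPiSubgroup π (P : Subgroup G) := by
    intro q hq hq'
    obtain ⟨k, hk⟩ := IsPGroup.iff_card.mp P.isPGroup'
    rw [hk] at hq'
    have := (Nat.prime_dvd_prime_iff_eq hq hp).mp (hq.dvd_of_dvd_pow hq')
    rw [this]
    exact hpπ
  obtain ⟨M, hPM, hM⟩ := Finite.exists_le_maximal hP
  obtain ⟨g, hg⟩ := hD H₀ M hH₀ hM
  have hcard : Nat.card ↥M = Nat.card ↥H₀ := by
    rw [hg]
    exact Subgroup.card_map_of_injective (MulAut.conj g).injective
  have h1 : Nat.card ↥(P : Subgroup G) ∣ Nat.card ↥H₀ := by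
    rw [← hcard]
    exact Subgroup.card_dvd_of_le hPM
  have h2 : H₀.index ∣ (P : Subgroup G).index := by
    obtain ⟨c, hc⟩ := h1
    have e1 := Subgroup.card_mul_index H₀
    have e2 := Subgroup.card_mul_index (P : Subgroup G)
    refine ⟨c, ?_⟩
    have hpos : 0 < Nat.card ↥(P : Subgroup G) := Nat.card_pos
    apply Nat.eq_of_mul_eq_mul_left hpos
    rw [e2, ← e1, hc]
    ring
  exact P.not_dvd_index (hdvd.trans h2)

/-- a Hall π-subgroup contains a conjugate of every `s`-element, for `s ∈ π` -/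
theorem hall_contains_conj {G : Type*} [Group G] [Finite G] (π : Set ℕ) (H : Subgroup G)
    (hH : Cfsg.IsPiHall π H) (s : ℕ) [Fact s.Prime] (hs : s ∈ π) (x : G) (k : ℕ)
    (hx : orderOf x = s ^ k) : ∃ g : G, g * x * g⁻¹ ∈ H := by
  have hsp := (Fact.out : s.Prime)
  obtain ⟨Q⟩ : Nonempty (Sylow s ↥H) := inferInstance
  have hcard : Nat.card ↥((Q : Subgroup ↥H).map H.subtype) = s ^ (Nat.card G).factorization s := by
    rw [Subgroup.card_map_of_injective H.subtype_injective, Sylow.card_eq_multiplicity]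
    congr 1
    have h1 := Subgroup.card_mul_index H
    rw [← h1, Nat.factorization_mul Nat.card_pos.ne' Subgroup.index_ne_zero_of_finite]
    simp [Nat.factorization_eq_zero_of_not_dvd (hH.2 s hsp hs)]
  have hpg : IsPGroup s (Subgroup.zpowers x) := IsPGroup.of_card (n := k) (by
    rw [Nat.card_zpowers, hx])
  obtain ⟨X, hX⟩ := hpg.exists_le_sylow
  obtain ⟨g, hg⟩ := MulAction.exists_smul_eq G X (Sylow.ofCard _ hcard)
  refine ⟨g, ?_⟩
  have h2 : g * x * g⁻¹ ∈ ((g • X : Sylow s G) : Subgroup G) := by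
    rw [mem_smul_sylow_iff']
    have : g⁻¹ * (g * x * g⁻¹) * g = x := by group
    rw [this]
    exact hX (Subgroup.mem_zpowers x)
  rw [hg] at h2
  have h3 : g * x * g⁻¹ ∈ (Q : Subgroup ↥H).map H.subtype := h2
  obtain ⟨y, _, hy⟩ := h3
  rw [← hy]
  exact y.2

theorem preprimitive_of_cycle {n : ℕ} (hq : (n + 2).Prime) (H : Subgroup (Perm (Fin (n + 2))))
    (σ : Perm (Fin (n + 2))) (hσ : σ.IsCycle) (hsupp : σ.support = Finset.univ) (hσH : σ ∈ H) :
    IsPreprimitive H (Fin (n + 2)) := by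
  have : IsPretransitive H (Fin (n + 2)) := by
    constructor
    intro a b
    obtain ⟨i, hi⟩ := hσ.exists_pow_eq (Equiv.Perm.mem_support.mp (hsupp ▸ Finset.mem_univ a))
      (Equiv.Perm.mem_support.mp (hsupp ▸ Finset.mem_univ b))
    exact ⟨⟨σ ^ i, pow_mem hσH i⟩, hi⟩
  apply IsPreprimitive.of_prime_card
  rw [Nat.card_eq_fintype_card, Fintype.card_fin]
  exact hq

/-- the `q`-cycle in a Hall subgroup -/
theorem exists_full_cycle_mem {n : ℕ} (hq : (n + 2).Prime) (π : Set ℕ) (hqπ : n + 2 ∈ π)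
    (H : Subgroup (Perm (Fin (n + 2)))) (hH : Cfsg.IsPiHall π H) :
    ∃ σ : Perm (Fin (n + 2)), σ.IsCycle ∧ σ.support = Finset.univ ∧ σ ∈ H := by
  have := Fact.mk hq
  have hord : orderOf (finRotate (n + 2)) = (n + 2) ^ 1 := by
    rw [pow_one, isCycle_finRotate.orderOf, support_finRotate, Finset.card_univ, Fintype.card_fin]
  obtain ⟨g, hg⟩ := hall_contains_conj π H hH (n + 2) hqπ (finRotate (n + 2)) 1 hord
  refine ⟨g * finRotate (n + 2) * g⁻¹, isCycle_finRotate.conj, ?_, hg⟩
  rw [support_conj, support_finRotate]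
  exact Finset.map_univ_equiv g

theorem hall_eq_top_of_two {n : ℕ} (hq : (n + 2).Prime) (π : Set ℕ) (h2 : 2 ∈ π)
    (hqπ : n + 2 ∈ π) (H : Subgroup (Perm (Fin (n + 2)))) (hH : Cfsg.IsPiHall π H) : H = ⊤ := by
  obtain ⟨σ, hσ, hsupp, hσH⟩ := exists_full_cycle_mem hq π hqπ H hH
  have := Fact.mk Nat.prime_two
  have hsw : IsSwap (swap (0 : Fin (n + 2)) 1) := ⟨0, 1, by simp, rfl⟩
  have hord : orderOf (swap (0 : Fin (n + 2)) 1) = 2 ^ 1 := by
    rw [pow_one, hsw.orderOf]
  obtain ⟨g, hg⟩ := hall_contains_conj π H hH 2 h2 (swap (0 : Fin (n + 2)) 1) 1 hord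
  have hsw' : IsSwap (g * swap (0 : Fin (n + 2)) 1 * g⁻¹) := by
    rw [← swap_apply_apply]
    exact ⟨g 0, g 1, by simp, rfl⟩
  have hcl := closure_prime_cycle_swap (by rw [Fintype.card_fin]; exact hq) hσ hsupp hsw'
  rw [eq_top_iff, ← hcl, Subgroup.closure_le]
  intro x hx
  rcases hx with rfl | hx
  · exact hσH
  · rw [Set.mem_singleton_iff] at hx
    rw [hx]
    exact hg

theorem prime_le_mem_of_two (π : Set ℕ) (hE : ∀ (G : Type) [Group G] [Finite G], Cfsg.IsEPiGroup π G)
    (h2 : 2 ∈ π) (q : ℕ) (hq : q.Prime) (hqπ : q ∈ π) (r : ℕ) (hr : r.Prime) (hrq : r ≤ q) :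
    r ∈ π := by
  obtain ⟨n, rfl⟩ := Nat.exists_eq_add_of_le' hq.two_le
  obtain ⟨H, hH⟩ := hE (Perm (Fin (n + 2)))
  have htop := hall_eq_top_of_two hq π h2 hqπ H hH
  apply hH.1 r hr
  rw [htop, Subgroup.card_top, Nat.card_perm, Nat.card_eq_fintype_card, Fintype.card_fin]
  exact Nat.dvd_factorial hr.pos hrq

theorem no_hall_odd (π : Set ℕ) (h2 : 2 ∉ π) (p q : ℕ) (hp : p.Prime) (hq : q.Prime)
    (hpπ : p ∈ π) (hqπ : q ∈ π) (hpq : p < q) (H : Subgroup (Perm (Fin q)))
    (hH : Cfsg.IsPiHall π H) : False := by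
  classical
  have hp3 : 3 ≤ p := by
    rcases hp.eq_two_or_odd with h | h
    · exact absurd (h ▸ hpπ) h2
    · have := hp.two_le
      omega
  obtain ⟨n, rfl⟩ := Nat.exists_eq_add_of_le' hq.two_le
  have hq_odd : (n + 2) % 2 = 1 := by
    rcases hq.eq_two_or_odd with h | h
    · omega
    · exact h
  obtain ⟨σ, hσ, hsupp, hσH⟩ := exists_full_cycle_mem hq π hqπ H hH
  have hprim := preprimitive_of_cycle hq H σ hσ hsupp hσH
  -- a p-cycle
  have := Fact.mk hp
  have hi0 : (⟨p - 1, by omega⟩ : Fin (n + 2)) ≠ 0 := by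
    rw [Ne, Fin.ext_iff]
    simp only [Fin.val_zero]
    omega
  have hτ₀c : (Fin.cycleRange (⟨p - 1, by omega⟩ : Fin (n + 2))).IsCycle :=
    Fin.isCycle_cycleRange hi0
  have hτ₀s : (Fin.cycleRange (⟨p - 1, by omega⟩ : Fin (n + 2))).support.card = p := by
    rw [← sum_cycleType, Fin.cycleType_cycleRange hi0]
    simp
    omega
  have hord : orderOf (Fin.cycleRange (⟨p - 1, by omega⟩ : Fin (n + 2))) = p ^ 1 := by
    rw [pow_one, hτ₀c.orderOf, hτ₀s]
  obtain ⟨g, hg⟩ := hall_contains_conj π H hH p hpπ _ 1 hord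
  have hτc := hτ₀c.conj (g := g)
  have hτs : (g * Fin.cycleRange (⟨p - 1, by omega⟩ : Fin (n + 2)) * g⁻¹).support.card = p := by
    rw [card_support_conj, hτ₀s]
  generalize g * Fin.cycleRange (⟨p - 1, by omega⟩ : Fin (n + 2)) * g⁻¹ = τ at hg hτc hτs
  -- Jordan
  obtain ⟨m, hm⟩ : ∃ m : ℕ, n + 2 = p + (m + 1) := ⟨n + 2 - p - 1, by omega⟩
  have hmp : IsMultiplyPreprimitive H (Fin (n + 2)) (m + 2) := by
    apply hprim.isMultiplyPreprimitive (s := (τ.supportᶜ : Set (Fin (n + 2))))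
    · apply Nat.add_left_cancel (n := p)
      rw [← hm]
      have h1 := Set.ncard_add_ncard_compl (τ.support : Set (Fin (n + 2)))
      rw [Set.ncard_coe_finset, hτs, Nat.card_eq_fintype_card, Fintype.card_fin] at h1
      exact h1
    · rw [Nat.card_eq_fintype_card, Fintype.card_fin]
      omega
    have := isPretransitive_of_isCycle_mem hτc hg
    apply IsPreprimitive.of_prime_card
    convert hp
    rw [Nat.card_eq_fintype_card, Fintype.card_subtype, ← hτs]
    apply congr_arg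
    ext x
    simp [SubMulAction.mem_ofFixingSubgroup_iff]
  have h2t : IsMultiplyPretransitive H (Fin (n + 2)) 2 := by
    have := hmp.isMultiplyPretransitive
    exact isMultiplyPretransitive_of_le (m := 2) (n := m + 2) (by omega) (by
      rw [Nat.card_eq_fintype_card, Fintype.card_fin]
      omega)
  rw [is_two_pretransitive_iff] at h2t
  have h01 : (0 : Fin (n + 2)) ≠ 1 := by simp
  obtain ⟨h, h0, h1⟩ := h2t h01 h01.symm
  have heven : 2 ∣ orderOf h := by
    by_contra hodd
    have key : ∀ k : ℕ, (h ^ (2 * k + 1)) • (0 : Fin (n + 2)) = 1 := by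
      intro k
      induction k with
      | zero => simpa using h0
      | succ k ih =>
        have e1 : 2 * (k + 1) + 1 = (2 * k + 1) + 2 := by ring
        have e2 : h ^ 2 • (0 : Fin (n + 2)) = 0 := by rw [pow_two, mul_smul, h0, h1]
        rw [e1, pow_add, mul_smul, e2, ih]
    have h3 := key (orderOf h / 2)
    have e3 : 2 * (orderOf h / 2) + 1 = orderOf h := by omega
    rw [e3, pow_orderOf_eq_one, one_smul] at h3
    exact h01 h3
  exact h2 (hH.1 2 Nat.prime_two (heven.trans (orderOf_dvd_natCard h)))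

theorem no_hall_initial (π : Set ℕ) (r : ℕ) (hrp : r.Prime) (hr5 : 5 ≤ r) (hr : r ∉ π)
    (hlt : ∀ s : ℕ, s.Prime → s < r → s ∈ π)
    (H : Subgroup (Perm (Fin (r + 1)))) (hH : Cfsg.IsPiHall π H) : False := by
  have hcardG : Nat.card (Perm (Fin (r + 1))) = (r + 1).factorial := by
    rw [Nat.card_perm, Nat.card_eq_fintype_card, Fintype.card_fin]
  have hmul := Subgroup.card_mul_index H
  have hrH : ¬ r ∣ Nat.card ↥H := fun h => hr (hH.1 r hrp h)
  have hodd : r % 2 = 1 := (hrp.eq_two_or_odd).resolve_left (by omega)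
  obtain ⟨j, hj⟩ : ∃ j, H.index = r ^ j := by
    refine ⟨_, Nat.eq_prime_pow_of_unique_prime_dvd Subgroup.index_ne_zero_of_finite
      (fun {d} hd hdvd => ?_)⟩
    have h1 : d ∉ π := fun h => hH.2 d hd h hdvd
    have h2 : ¬ d < r := fun h => h1 (hlt d hd h)
    have h3 : d ∣ (r + 1).factorial := by
      rw [← hcardG, ← hmul]
      exact Dvd.dvd.mul_left hdvd _
    have h4 : d ≤ r + 1 := (Nat.Prime.dvd_factorial hd).mp h3
    rcases Nat.lt_or_ge d (r + 1) with h5 | h5
    · omega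
    · exfalso
      have h6 : d = r + 1 := by omega
      have h7 : 2 ∣ d := by omega
      have h8 := (Nat.prime_dvd_prime_iff_eq Nat.prime_two hd).mp h7
      omega
  have hfact : (r + 1).factorial = r * ((r + 1) * (r - 1).factorial) := by
    obtain ⟨t, rfl⟩ : ∃ t, r = t + 1 := ⟨r - 1, by omega⟩
    rw [Nat.factorial_succ, Nat.factorial_succ]
    simp only [Nat.add_sub_cancel]
    ring
  have hndvd : ¬ r ∣ (r + 1) * (r - 1).factorial := by
    intro h
    rcases (Nat.Prime.dvd_mul hrp).mp h with h1 | h1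
    · have : r ∣ 1 := (Nat.dvd_add_right (dvd_refl r)).mp h1
      exact hrp.one_lt.ne' (Nat.dvd_one.mp this)
    · have := (Nat.Prime.dvd_factorial hrp).mp h1
      omega
  have hj1 : j = 1 := by
    rw [hj, hcardG, hfact] at hmul
    rcases Nat.lt_or_ge j 1 with h | h
    · exfalso
      have : j = 0 := by omega
      rw [this, pow_zero, mul_one] at hmul
      exact hrH (hmul ▸ Dvd.intro _ rfl)
    · rcases Nat.lt_or_ge j 2 with h' | h'
      · omega
      · exfalso
        obtain ⟨i, rfl⟩ := Nat.exists_eq_add_of_le h'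
        have e1 : Nat.card ↥H * r ^ (2 + i) = r * (r * (Nat.card ↥H * r ^ i)) := by ring
        rw [e1] at hmul
        have e2 := Nat.eq_of_mul_eq_mul_left hrp.pos hmul
        exact hndvd (e2 ▸ Dvd.intro _ rfl)
  rw [hj1, pow_one] at hj
  -- the normal core
  have hKle : H.normalCore ≤ H := Subgroup.normalCore_le H
  have hKidx : H.normalCore.index ≤ r.factorial := by
    rw [Subgroup.normalCore_eq_ker, Subgroup.index_ker]
    refine (Subgroup.card_le_card_group _).trans ?_
    rw [Nat.card_perm]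
    have : Nat.card (Perm (Fin (r + 1)) ⧸ H) = r := hj
    rw [this]
  have hKcard : 2 < Nat.card ↥H.normalCore := by
    by_contra hle
    have h1 := Subgroup.card_mul_index H.normalCore
    rw [hcardG, Nat.factorial_succ] at h1
    have h2 : Nat.card ↥H.normalCore * H.normalCore.index ≤ 2 * r.factorial :=
      Nat.mul_le_mul (by omega) hKidx
    have h3 : 2 * r.factorial < (r + 1) * r.factorial :=
      Nat.mul_lt_mul_of_pos_right (by omega) (Nat.factorial_pos r)
    omega
  have h5 : 5 ≤ Nat.card (Fin (r + 1)) := by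
    rw [Nat.card_eq_fintype_card, Fintype.card_fin]
    omega
  have hN : (H.normalCore.subgroupOf (alternatingGroup (Fin (r + 1)))).Normal :=
    (Subgroup.normalCore_normal H).subgroupOf _
  rcases alternatingGroup.normal_subgroup_eq_bot_or_eq_top h5
      (N := H.normalCore.subgroupOf (alternatingGroup (Fin (r + 1)))) with hbot | htop
  · rw [Subgroup.subgroupOf_eq_bot] at hbot
    have hinj : Function.Injective (fun x : ↥H.normalCore => Equiv.Perm.sign x.1) := by
      intro x y hxy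
      have h1 : x.1⁻¹ * y.1 ∈ alternatingGroup (Fin (r + 1)) := by
        rw [Equiv.Perm.mem_alternatingGroup, map_mul, map_inv]
        have hxy' : Equiv.Perm.sign x.1 = Equiv.Perm.sign y.1 := hxy
        rw [hxy']
        simp
      have h2 : x.1⁻¹ * y.1 ∈ H.normalCore := mul_mem (inv_mem x.2) y.2
      have h3 := Subgroup.disjoint_def.mp hbot h2 h1
      exact Subtype.ext (inv_mul_eq_one.mp h3)
    have h1 := Nat.card_le_card_of_injective _ hinj
    rw [Nat.card_eq_fintype_card (α := ℤˣ), Fintype.card_units_int] at h1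
    omega
  · rw [Subgroup.subgroupOf_eq_top] at htop
    have h1 : H.index ∣ (alternatingGroup (Fin (r + 1))).index :=
      Subgroup.index_dvd_of_le (htop.trans hKle)
    have : Nontrivial (Fin (r + 1)) := Fin.nontrivial_iff_two_le.mpr (by omega)
    rw [alternatingGroup.index_eq_two, hj] at h1
    have := Nat.le_of_dvd (by norm_num) h1
    omega

theorem E_imp_condC (π : Set ℕ)
    (hE : ∀ (G : Type) [Group G] [Finite G], Cfsg.IsEPiGroup π G) : CondC π := by
  by_contra hC
  unfold CondC at hC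
  push Not at hC
  obtain ⟨⟨p, q, hp, hq, hpπ, hqπ, hpq⟩, ⟨r, hr, hrπ⟩⟩ := hC
  by_cases h2 : 2 ∈ π
  · classical
    -- the least prime not in π
    have hex : ∃ r : ℕ, r.Prime ∧ r ∉ π := ⟨r, hr, hrπ⟩
    obtain ⟨hr₀, hr₀π⟩ := Nat.find_spec hex
    have hmin : ∀ s : ℕ, s.Prime → s < Nat.find hex → s ∈ π := by
      intro s hs hlt
      by_contra hsπ
      exact Nat.find_min hex hlt ⟨hs, hsπ⟩
    -- every prime of π is below it
    have hbelow : ∀ s : ℕ, s.Prime → s ∈ π → s < Nat.find hex := by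
      intro s hs hsπ
      by_contra hge
      exact hr₀π (prime_le_mem_of_two π hE h2 s hs hsπ _ hr₀ (not_lt.mp hge))
    -- 3 ∈ π
    have h3 : 3 ∈ π := by
      have hbig : ∃ s : ℕ, s.Prime ∧ s ∈ π ∧ 3 ≤ s := by
        rcases hp.eq_two_or_odd with h | h
        · rcases hq.eq_two_or_odd with h' | h'
          · exact absurd (h.trans h'.symm) hpq
          · exact ⟨q, hq, hqπ, by have := hq.two_le; omega⟩
        · exact ⟨p, hp, hpπ, by have := hp.two_le; omega⟩
      obtain ⟨s, hs, hsπ, hs3⟩ := hbig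
      exact prime_le_mem_of_two π hE h2 s hs hsπ 3 Nat.prime_three hs3
    have hr5 : 5 ≤ Nat.find hex := by
      have h2' := hbelow 3 Nat.prime_three h3
      by_contra hlt
      have h4 : Nat.find hex = 4 := by omega
      rw [h4] at hr₀
      exact absurd hr₀ (by decide)
    obtain ⟨H, hH⟩ := hE (Perm (Fin (Nat.find hex + 1)))
    exact no_hall_initial π _ hr₀ hr5 hr₀π hmin H hH
  · rcases Nat.lt_or_ge p q with hlt | hge
    · obtain ⟨H, hH⟩ := hE (Perm (Fin q))
      exact no_hall_odd π h2 p q hp hq hpπ hqπ hlt H hH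
    · have hlt : q < p := lt_of_le_of_ne hge (Ne.symm hpq)
      obtain ⟨H, hH⟩ := hE (Perm (Fin p))
      exact no_hall_odd π h2 q p hq hp hqπ hpπ hlt H hH

end aux

/-- For a set of primes π the following are equivalent: every finite group has a Hall π-subgroup; in every finite group the maximal π-subgroups are pairwise conjugate; π contains at most one prime or contains every prime. -/
theorem result (π : Set ℕ) :
    ((∀ (G : Type) [Group G] [Finite G], Cfsg.IsEPiGroup π G) ↔
      ((∀ p q : ℕ, p.Prime → q.Prime → p ∈ π → q ∈ π → p = q) ∨ ∀ p : ℕ, p.Prime → p ∈ π)) ∧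
    ((∀ (G : Type) [Group G] [Finite G], Cfsg.IsDPiGroup π G) ↔
      ((∀ p q : ℕ, p.Prime → q.Prime → p ∈ π → q ∈ π → p = q) ∨ ∀ p : ℕ, p.Prime → p ∈ π)) := by
  refine ⟨⟨fun hE => E_imp_condC π hE, fun hC G _ _ => condC_imp_E π hC G⟩,
    ⟨fun hD => E_imp_condC π (fun G _ _ => D_imp_E π G (hD G)), fun hC G _ _ => condC_imp_D π hC G⟩⟩

end Cfsg.Agent.S3878
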