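import Cfsg.Statements.S3879
import Cfsg.Agent.Lib.Helper69.MetaSub
-- import your own Cfsg.Agent.* helpers here

set_option autoImplicit false
open Cfsg

namespace Cfsg.Agent.S3879

/-- Let p be an odd prime and G a finite metacyclic p-group (G has a cyclic normal subgroup with cyclic quotient). Then the index of the center of G is the square of the order of the derived subgroup: |G : Z(G)| = |G'|². -/
theorem result {G : Type*} [Group G] [Finite G] {p : ℕ} [Fact p.Prime] (hp : p ≠ 2) (hG : IsPGroup p G) (hmc : Cfsg.IsMetacyclic G) : (Subgroup.center G).index = Nat.card ↥(commutator G) ^ 2 := by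
  obtain ⟨M⟩ := Cfsg.Agent.Lib.Helper69.exists_MC hG hmc
  obtain ⟨n, hn⟩ := IsPGroup.iff_card.mp (hG.to_subgroup (commutator G))
  have h1 := M.card_center_mul hp hG hn
  have h2 := Subgroup.card_mul_index (Subgroup.center G)
  have hpos : 0 < Nat.card ↥(Subgroup.center G) := Nat.card_pos
  have h3 : (Subgroup.center G).index = p ^ n * p ^ n :=
    Nat.eq_of_mul_eq_mul_left hpos (h2.trans h1.symm)
  rw [h3, hn]
  ring

end Cfsg.Agent.S3879
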