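import Cfsg.Statements.S3880
import Cfsg.Agent.Lib.Helper69.MetaAb
-- import your own Cfsg.Agent.* helpers here

set_option autoImplicit false
open Cfsg

namespace Cfsg.Agent.S3880

/-- Let p be an odd prime and G a finite metacyclic p-group (G has a cyclic normal subgroup with cyclic quotient). Then a subgroup L of G is abelian if and only if |L| ≤ |G : G'|, and L is a maximal abelian subgroup of G if and only if |L| = |G : G'|. -/
theorem result {G : Type*} [Group G] [Finite G] {p : ℕ} [Fact p.Prime] (hp : p ≠ 2) (hG : IsPGroup p G) (hmc : Cfsg.IsMetacyclic G) (L : Subgroup G) :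
    (IsMulCommutative ↥L ↔ Nat.card ↥L ≤ (commutator G).index) ∧
      (Maximal (fun K : Subgroup G => IsMulCommutative ↥K) L ↔ Nat.card ↥L = (commutator G).index) := by
  have hpp := (Fact.out : p.Prime)
  obtain ⟨M⟩ := Cfsg.Agent.Lib.Helper69.exists_MC hG hmc
  have key := fun K : Subgroup G => M.abelian_iff_card hp hG K
  refine ⟨key L, ?_⟩
  constructor
  · intro hmax
    have hab : IsMulCommutative ↥L := hmax.prop
    have hle := (key L).mp hab
    by_contra hne
    have hlt : Nat.card ↥L < (commutator G).index := lt_of_le_of_ne hle hne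
    obtain ⟨k, hk⟩ := IsPGroup.iff_card.mp (hG.to_subgroup L)
    obtain ⟨m, hm⟩ := hG.index (commutator G)
    rw [hk, hm] at hlt
    have hkm : k < m := (Nat.pow_lt_pow_iff_right hpp.one_lt).mp hlt
    have hdvd : p ^ (k + 1) ∣ Nat.card G := by
      have h1 : p ^ (k + 1) ∣ p ^ m := pow_dvd_pow p hkm
      rw [← hm] at h1
      exact h1.trans (Subgroup.index_dvd_card _)
    obtain ⟨K, hKcard, hLK⟩ := Sylow.exists_subgroup_card_pow_succ hdvd hk
    have hKab : IsMulCommutative ↥K :=
      (key K).mpr (by rw [hKcard, hm]; exact Nat.pow_le_pow_right hpp.pos hkm)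
    have hKL := hmax.le_of_ge hKab hLK
    have h2 := Subgroup.card_le_of_le hKL
    rw [hKcard, hk] at h2
    have h3 : p ^ k < p ^ (k + 1) := Nat.pow_lt_pow_right hpp.one_lt (Nat.lt_succ_self k)
    omega
  · intro hcard
    refine ⟨(key L).mpr hcard.le, ?_⟩
    intro K hK hLK
    have h1 := (key K).mp hK
    rw [← hcard] at h1
    exact (Subgroup.eq_of_le_of_card_ge hLK h1).ge

end Cfsg.Agent.S3880
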