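import Cfsg.Statements.S3881
import Cfsg.Agent.Lib.Helper69.MetaSub
-- import your own Cfsg.Agent.* helpers here

set_option autoImplicit false
open Cfsg

namespace Cfsg.Agent.S3881

open Cfsg.Agent.Lib.Helper69 in
theorem card_agemo_eq {G : Type*} [Group G] [Finite G] {p : ℕ} [Fact p.Prime] (hp : p ≠ 2)
    (hG : IsPGroup p G) (M : MC p G) (n : ℕ) (hGn : Nat.card ↥(commutator G) = p ^ n)
    (s : ℕ) (hs : s ≤ n) :
    Nat.card ↥(Subgroup.closure {x : G | ∃ y : G, y ^ p ^ s = x}) =
      Nat.card ↥(Subgroup.center G) * p ^ (2 * (n - s)) := by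
  have hpp := (Fact.out : p.Prime)
  have h1 := M.card_agemo_mul hp hG hGn s hs
  have h2 := M.card_center_mul hp hG hGn
  have hpos : 0 < p ^ s * p ^ s := Nat.mul_pos (pow_pos hpp.pos s) (pow_pos hpp.pos s)
  apply Nat.eq_of_mul_eq_mul_right hpos
  rw [h1, ← h2, mul_assoc]
  congr 1
  rw [← pow_add, ← pow_add, ← pow_add]
  congr 1
  omega

/-- Let p be an odd prime and G a finite metacyclic p-group (G has a cyclic normal subgroup with cyclic quotient). Suppose G is non-abelian with |G'| = p^n. Then for 1 ≤ i ≤ n the number of elements of G whose conjugacy class has exactly p^i elements is |Z(G)| · (p^(2i) − p^(2i−2)). -/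
theorem result {G : Type*} [Group G] [Finite G] {p : ℕ} [Fact p.Prime] (hp : p ≠ 2) (hG : IsPGroup p G) (hmc : Cfsg.IsMetacyclic G) (n : ℕ) (hn : n ≠ 0) (hGn : Nat.card ↥(commutator G) = p ^ n) (i : ℕ) (hi : 1 ≤ i) (hin : i ≤ n) :
    Nat.card {g : G // (Subgroup.centralizer ({g} : Set G)).index = p ^ i} =
      Nat.card ↥(Subgroup.center G) * (p ^ (2 * i) - p ^ (2 * i - 2)) := by
  classical
  have hpp := (Fact.out : p.Prime)
  obtain ⟨M⟩ := Cfsg.Agent.Lib.Helper69.exists_MC hG hmc
  have hs1 : n - i ≤ n := Nat.sub_le n i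
  have hs2 : n - i + 1 ≤ n := by omega
  have hA := card_agemo_eq hp hG M n hGn (n - i) hs1
  have hB := card_agemo_eq hp hG M n hGn (n - i + 1) hs2
  have e1 : n - (n - i) = i := by omega
  have e2 : n - (n - i + 1) = i - 1 := by omega
  rw [e1] at hA
  rw [e2] at hB
  have hset : {g : G | (Subgroup.centralizer ({g} : Set G)).index = p ^ i} =
      ((Subgroup.closure {x : G | ∃ y : G, y ^ p ^ (n - i) = x} : Subgroup G) : Set G) \
        ((Subgroup.closure {x : G | ∃ y : G, y ^ p ^ (n - i + 1) = x} : Subgroup G) : Set G) := by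
    ext g
    rw [Set.mem_sdiff, SetLike.mem_coe, SetLike.mem_coe, M.mem_agemo_iff hp hG hGn _ hs1,
      M.mem_agemo_iff hp hG hGn _ hs2, e1, e2, Set.mem_ofPred_eq]
    obtain ⟨d, hd⟩ := hG.index (Subgroup.centralizer ({g} : Set G))
    rw [hd, Nat.pow_le_pow_iff_right hpp.one_lt, Nat.pow_le_pow_iff_right hpp.one_lt]
    constructor
    · intro h
      have := Nat.pow_right_injective hpp.two_le h
      omega
    · rintro ⟨h1, h2⟩
      congr 1
      omega
  have hsub : ((Subgroup.closure {x : G | ∃ y : G, y ^ p ^ (n - i + 1) = x} : Subgroup G) : Set G) ⊆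
      ((Subgroup.closure {x : G | ∃ y : G, y ^ p ^ (n - i) = x} : Subgroup G) : Set G) := by
    intro g hg
    rw [SetLike.mem_coe, M.mem_agemo_iff hp hG hGn _ hs2, e2] at hg
    rw [SetLike.mem_coe, M.mem_agemo_iff hp hG hGn _ hs1, e1]
    exact hg.trans (Nat.pow_le_pow_right hpp.pos (Nat.sub_le i 1))
  have hcard : Nat.card {g : G // (Subgroup.centralizer ({g} : Set G)).index = p ^ i} =
      Set.ncard {g : G | (Subgroup.centralizer ({g} : Set G)).index = p ^ i} :=
    Nat.card_coe_set_eq _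
  rw [hcard, hset, Set.ncard_sdiff hsub, ← Nat.card_coe_set_eq, ← Nat.card_coe_set_eq]
  have hA' : Nat.card ↥((Subgroup.closure {x : G | ∃ y : G, y ^ p ^ (n - i) = x} : Subgroup G) : Set G) =
      Nat.card ↥(Subgroup.center G) * p ^ (2 * i) := hA
  have hB' : Nat.card ↥((Subgroup.closure {x : G | ∃ y : G, y ^ p ^ (n - i + 1) = x} : Subgroup G) : Set G) =
      Nat.card ↥(Subgroup.center G) * p ^ (2 * (i - 1)) := hB
  have e3 : 2 * (i - 1) = 2 * i - 2 := by omega
  rw [hA', hB', e3, Nat.mul_sub]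

end Cfsg.Agent.S3881
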