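import Cfsg.Statements.S3883
import Cfsg.Agent.Lib.Helper69.MetaAb
import Cfsg.Agent.S0012
-- import your own Cfsg.Agent.* helpers here

set_option autoImplicit false
open Cfsg

namespace Cfsg.Agent.S3883

/-- Let p be an odd prime and G a finite metacyclic p-group (G has a cyclic normal subgroup with cyclic quotient). Suppose G is non-abelian. Then an element g of G lies outside the Frattini subgroup if and only if its centralizer C_G(g) is abelian. -/
theorem result {G : Type*} [Group G] [Finite G] {p : ℕ} [Fact p.Prime] (hp : p ≠ 2) (hG : IsPGroup p G) (hmc : Cfsg.IsMetacyclic G) (hna : ¬ IsMulCommutative G) (g : G) :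
    g ∉ frattini G ↔ IsMulCommutative ↥(Subgroup.centralizer ({g} : Set G)) := by
  classical
  have hpp := (Fact.out : p.Prime)
  obtain ⟨M⟩ := Cfsg.Agent.Lib.Helper69.exists_MC hG hmc
  obtain ⟨n, hn⟩ := IsPGroup.iff_card.mp (hG.to_subgroup (commutator G))
  have hn1 : 1 ≤ n := by
    by_contra h0
    have h0' : n = 0 := by omega
    apply hna
    have h1 := (M.abelian_iff_card hp hG ⊤).mpr (by
      rw [Subgroup.card_top]
      have := Subgroup.card_mul_index (commutator G)
      rw [hn, h0', pow_zero, one_mul] at this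
      rw [this])
    exact ⟨⟨fun a b => by
      have := mul_comm' (⟨a, Subgroup.mem_top a⟩ : ↥(⊤ : Subgroup G)) ⟨b, Subgroup.mem_top b⟩
      exact congrArg Subtype.val this⟩⟩
  have hcyc : ∀ y : G, Subgroup.zpowers y = ⊤ → False := by
    intro y hz
    apply hna
    exact ⟨⟨fun x x' => by
      have hx : x ∈ Subgroup.zpowers y := hz ▸ Subgroup.mem_top x
      have hx' : x' ∈ Subgroup.zpowers y := hz ▸ Subgroup.mem_top x'
      obtain ⟨k, rfl⟩ := Subgroup.mem_zpowers_iff.mp hx
      obtain ⟨l, rfl⟩ := Subgroup.mem_zpowers_iff.mp hx'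
      rw [← zpow_add, ← zpow_add, add_comm]⟩⟩
  obtain ⟨i, j, rfl⟩ := M.gen g
  have hfr : M.a ^ i * M.b ^ j ∈ frattini G ↔ (p ∣ i ∧ p ∣ j) := by
    constructor
    · intro hmem
      constructor
      · by_contra hi
        have hcop : Nat.Coprime i (orderOf M.a) := by
          obtain ⟨k, hk⟩ := (IsPGroup.iff_orderOf.mp hG) M.a
          rw [hk]
          exact Nat.Coprime.pow_right _ ((Nat.Prime.coprime_iff_not_dvd hpp).mpr hi).symm
        obtain ⟨m, hm⟩ := exists_pow_eq_self_of_coprime hcop
        have htop : Subgroup.zpowers M.b ⊔ frattini G = ⊤ := by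
          rw [eq_top_iff]
          intro x _
          obtain ⟨k, l, rfl⟩ := M.gen x
          have hb : M.b ∈ Subgroup.zpowers M.b ⊔ frattini G :=
            (le_sup_left : Subgroup.zpowers M.b ≤ _) (Subgroup.mem_zpowers _)
          have ha : M.a ∈ Subgroup.zpowers M.b ⊔ frattini G := by
            rw [← hm]
            apply Subgroup.pow_mem
            have h1 : M.a ^ i = (M.a ^ i * M.b ^ j) * (M.b ^ j)⁻¹ := by group
            rw [h1]
            exact Subgroup.mul_mem _ ((le_sup_right : frattini G ≤ _) hmem)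
              (Subgroup.inv_mem _ (Subgroup.pow_mem _ hb _))
          exact Subgroup.mul_mem _ (Subgroup.pow_mem _ ha _) (Subgroup.pow_mem _ hb _)
        exact hcyc M.b (frattini_nongenerating htop)
      · by_contra hj
        have hcop : Nat.Coprime j (orderOf M.b) := by
          obtain ⟨k, hk⟩ := (IsPGroup.iff_orderOf.mp hG) M.b
          rw [hk]
          exact Nat.Coprime.pow_right _ ((Nat.Prime.coprime_iff_not_dvd hpp).mpr hj).symm
        obtain ⟨m, hm⟩ := exists_pow_eq_self_of_coprime hcop
        have htop : Subgroup.zpowers M.a ⊔ frattini G = ⊤ := by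
          rw [eq_top_iff]
          intro x _
          obtain ⟨k, l, rfl⟩ := M.gen x
          have ha : M.a ∈ Subgroup.zpowers M.a ⊔ frattini G :=
            (le_sup_left : Subgroup.zpowers M.a ≤ _) (Subgroup.mem_zpowers _)
          have hb : M.b ∈ Subgroup.zpowers M.a ⊔ frattini G := by
            rw [← hm]
            apply Subgroup.pow_mem
            have h1 : M.b ^ j = (M.a ^ i)⁻¹ * (M.a ^ i * M.b ^ j) := by group
            rw [h1]
            exact Subgroup.mul_mem _ (Subgroup.inv_mem _ (Subgroup.pow_mem _ ha _))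
              ((le_sup_right : frattini G ≤ _) hmem)
          exact Subgroup.mul_mem _ (Subgroup.pow_mem _ ha _) (Subgroup.pow_mem _ hb _)
        exact hcyc M.a (frattini_nongenerating htop)
    · rintro ⟨⟨i', rfl⟩, ⟨j', rfl⟩⟩
      have key : ∀ x : G, x ^ p ∈ frattini G := by
        intro x
        simp only [frattini, Order.radical, Subgroup.mem_iInf]
        intro K hK
        exact (Cfsg.Agent.S0012.coatom_facts p hG K hK).2 x
      rw [pow_mul', pow_mul']
      exact Subgroup.mul_mem _ (key _) (key _)
  rw [hfr, M.abelian_iff_card hp hG]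
  have hCS := M.index_centralizer_le_iff hp hG hn i j 1 hn1
  rw [pow_one] at hCS
  rw [hCS]
  obtain ⟨d, hd⟩ := hG.index (Subgroup.centralizer ({M.a ^ i * M.b ^ j} : Set G))
  have h1 := Subgroup.card_mul_index (Subgroup.centralizer ({M.a ^ i * M.b ^ j} : Set G))
  have h2 := Subgroup.card_mul_index (commutator G)
  rw [hn] at h2
  rw [hd] at h1
  rw [hd, Nat.pow_le_pow_iff_right hpp.one_lt]
  constructor
  · intro h
    have hdn : n ≤ d := by omega
    obtain ⟨e, he⟩ := Nat.exists_eq_add_of_le hdn
    have h3 : p ^ n * (Nat.card ↥(Subgroup.centralizer ({M.a ^ i * M.b ^ j} : Set G)) * p ^ e) =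
        p ^ n * (commutator G).index := by
      rw [h2, ← h1, he, pow_add]
      ring
    have h4 := Nat.eq_of_mul_eq_mul_left (pow_pos hpp.pos n) h3
    rw [← h4]
    exact Nat.le_mul_of_pos_right _ (pow_pos hpp.pos e)
  · intro h hdn
    have h3 : p ^ d < p ^ n := Nat.pow_lt_pow_right hpp.one_lt (by omega)
    have hCpos : 0 < Nat.card ↥(Subgroup.centralizer ({M.a ^ i * M.b ^ j} : Set G)) :=
      Nat.card_pos
    have h4 := Nat.mul_le_mul_left (p ^ n) h
    have h5 := Nat.mul_lt_mul_of_pos_left h3 hCpos
    rw [h2, ← h1] at h4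
    rw [mul_comm (p ^ n)] at h4
    omega

end Cfsg.Agent.S3883
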