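import Cfsg.Statements.S3884
import Cfsg.Agent.Lib.Helper69.MetaSub
-- import your own Cfsg.Agent.* helpers here

set_option autoImplicit false
open Cfsg

namespace Cfsg.Agent.S3884

theorem exists_mul_add_dvd {q σ : ℕ} (hq : 0 < q) (hcop : Nat.Coprime σ q) (t : ℕ) :
    ∃ x : ℕ, q ∣ x * σ + t := by
  haveI : NeZero q := ⟨hq.ne'⟩
  refine ⟨((-(t : ZMod q)) * (((ZMod.unitOfCoprime σ hcop)⁻¹ : (ZMod q)ˣ) : ZMod q)).val, ?_⟩
  rw [← ZMod.natCast_eq_zero_iff]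
  push_cast
  rw [ZMod.natCast_zmod_val, ← ZMod.coe_unitOfCoprime σ hcop, mul_assoc, Units.inv_mul, mul_one]
  ring

/-- Let p be an odd prime and G a finite metacyclic p-group (G has a cyclic normal subgroup with cyclic quotient). Then G is the product of two cyclic subgroups with trivial intersection: there are cyclic subgroups A and B with A ∩ B = 1 and |A| · |B| = |G|. -/
theorem result {G : Type*} [Group G] [Finite G] {p : ℕ} [Fact p.Prime] (hp : p ≠ 2) (hG : IsPGroup p G) (hmc : Cfsg.IsMetacyclic G) : ∃ A B : Subgroup G, IsCyclic ↥A ∧ IsCyclic ↥B ∧ A ⊓ B = ⊥ ∧ Nat.card ↥A * Nat.card ↥B = Nat.card G := by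
  classical
  have hpp := (Fact.out : p.Prime)
  obtain ⟨M⟩ := Cfsg.Agent.Lib.Helper69.exists_MC hG hmc
  obtain ⟨α, hα⟩ := (IsPGroup.iff_orderOf.mp hG) M.a
  have haα : M.a ^ p ^ α = 1 := by
    rw [← hα]
    exact pow_orderOf_eq_one _
  obtain ⟨mb, hmb⟩ := hG M.b
  obtain ⟨β, -, hβ⟩ := Cfsg.Agent.Lib.Helper69.exists_pow_mem_iff hpp (Subgroup.zpowers M.a) M.b hmb
  obtain ⟨γ, hγα, hγ⟩ := Cfsg.Agent.Lib.Helper69.exists_pow_mem_iff hpp (Subgroup.zpowers M.b) M.a haα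
  have hcardG : Nat.card G = orderOf M.a * p ^ β := by
    have h := M.card_of_inv hG (Subgroup.zpowers M.a) 0 β (by
      intro k
      simp [Subgroup.pow_mem _ (Subgroup.mem_zpowers M.a)]) (by
      intro j
      rw [← hβ]
      constructor
      · rintro ⟨e, he⟩
        have h1 : M.b ^ j = (M.a ^ e)⁻¹ * (M.a ^ e * M.b ^ j) := by group
        rw [h1]
        exact Subgroup.mul_mem _
          (Subgroup.inv_mem _ (Subgroup.pow_mem _ (Subgroup.mem_zpowers _) _)) he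
      · intro h
        exact ⟨0, by simpa using h⟩)
    rw [Nat.card_zpowers, pow_zero, one_mul] at h
    exact h.symm
  have hbβ : M.b ^ p ^ β ∈ Subgroup.zpowers M.a := (hβ _).mpr dvd_rfl
  obtain ⟨z, hz⟩ := Subgroup.mem_zpowers_iff.mp hbβ
  obtain ⟨t₀, ht₀⟩ := Cfsg.Agent.Lib.Helper69.zpow_eq_pow_of_finite M.a z
  have hbt : M.b ^ p ^ β = M.a ^ t₀ := by rw [← ht₀, hz]
  have hγt : p ^ γ ∣ t₀ := by
    rw [← hγ, ← hbt]
    exact Subgroup.pow_mem _ (Subgroup.mem_zpowers _) _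
  by_cases hc1 : β ≤ γ ∨ M.a ^ p ^ γ = 1
  · have ht1 : ∃ t₁ : ℕ, M.b ^ p ^ β = M.a ^ (p ^ β * t₁) := by
      rcases hc1 with h | h
      · obtain ⟨t', ht'⟩ := (pow_dvd_pow p h).trans hγt
        exact ⟨t', by rw [hbt, ht']⟩
      · obtain ⟨t', ht'⟩ := hγt
        exact ⟨0, by rw [hbt, ht', pow_mul, h, one_pow, mul_zero, pow_zero]⟩
    obtain ⟨t₁, ht₁⟩ := ht1
    obtain ⟨σ, hσ, hσp⟩ := Cfsg.Agent.Lib.Helper69.gs_pow_eq hpp hp M.hr1 M.hr β
    have hcop : Nat.Coprime σ (orderOf M.a) := by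
      rw [hα]
      exact Nat.Coprime.pow_right _ ((Nat.Prime.coprime_iff_not_dvd hpp).mpr hσp).symm
    obtain ⟨x, hx⟩ := exists_mul_add_dvd (orderOf_pos M.a) hcop t₁
    have hpow : ∀ m : ℕ, (M.a ^ x * M.b) ^ m =
        M.a ^ (x * Cfsg.Agent.Lib.Helper69.gs M.r m) * M.b ^ m := by
      intro m
      have := M.pow_formula x 1 m
      rwa [pow_one, pow_one, one_mul] at this
    have hb'β : (M.a ^ x * M.b) ^ p ^ β = 1 := by
      rw [hpow, ht₁, ← pow_add, hσ]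
      have e1 : x * (p ^ β * σ) + p ^ β * t₁ = (x * σ + t₁) * p ^ β := by ring
      rw [e1, pow_mul, orderOf_dvd_iff_pow_eq_one.mp hx, one_pow]
    have hmemN : ∀ m : ℕ, (M.a ^ x * M.b) ^ m ∈ Subgroup.zpowers M.a → p ^ β ∣ m := by
      intro m hm
      rw [hpow] at hm
      rw [← hβ]
      have e1 : M.b ^ m = (M.a ^ (x * Cfsg.Agent.Lib.Helper69.gs M.r m))⁻¹ *
          (M.a ^ (x * Cfsg.Agent.Lib.Helper69.gs M.r m) * M.b ^ m) := by group
      rw [e1]
      exact Subgroup.mul_mem _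
        (Subgroup.inv_mem _ (Subgroup.pow_mem _ (Subgroup.mem_zpowers _) _)) hm
    have hord : orderOf (M.a ^ x * M.b) = p ^ β := by
      apply Nat.dvd_antisymm (orderOf_dvd_of_pow_eq_one hb'β)
      apply hmemN
      rw [pow_orderOf_eq_one]
      exact Subgroup.one_mem _
    refine ⟨Subgroup.zpowers M.a, Subgroup.zpowers (M.a ^ x * M.b), inferInstance,
      inferInstance, ?_, ?_⟩
    · rw [eq_bot_iff]
      intro w hw
      obtain ⟨hwA, hwB⟩ := Subgroup.mem_inf.mp hw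
      obtain ⟨z', rfl⟩ := Subgroup.mem_zpowers_iff.mp hwB
      obtain ⟨m, hm⟩ := Cfsg.Agent.Lib.Helper69.zpow_eq_pow_of_finite (M.a ^ x * M.b) z'
      rw [hm] at hwA ⊢
      obtain ⟨m', rfl⟩ := hmemN m hwA
      rw [Subgroup.mem_bot, pow_mul, hb'β, one_pow]
    · rw [Nat.card_zpowers, Nat.card_zpowers, hord, hcardG]
  · push Not at hc1
    obtain ⟨hγβ, haγ⟩ := hc1
    have hγα' : γ < α := by
      by_contra h
      apply haγ
      have h1 : α ≤ γ := by omega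
      obtain ⟨e, rfl⟩ := Nat.exists_eq_add_of_le h1
      rw [pow_add, pow_mul, haα, one_pow]
    obtain ⟨τ, hτ⟩ := hγt
    have hτp : ¬ p ∣ τ := by
      intro hpτ
      have h1 : M.a ^ p ^ γ ∈ Subgroup.zpowers M.b := (hγ _).mpr dvd_rfl
      obtain ⟨z', hz'⟩ := Subgroup.mem_zpowers_iff.mp h1
      obtain ⟨m, hm⟩ := Cfsg.Agent.Lib.Helper69.zpow_eq_pow_of_finite M.b z'
      have h2 : M.b ^ m = M.a ^ p ^ γ := by rw [← hm, hz']
      have h3 : p ^ β ∣ m := by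
        rw [← hβ, h2]
        exact Subgroup.pow_mem _ (Subgroup.mem_zpowers _) _
      obtain ⟨m', rfl⟩ := h3
      rw [pow_mul, hbt, ← pow_mul, pow_eq_pow_iff_modEq, hα] at h2
      have h4 : t₀ * m' ≡ p ^ γ [MOD p ^ (γ + 1)] := h2.of_dvd (pow_dvd_pow p (by omega))
      obtain ⟨τ', rfl⟩ := hpτ
      have h5 : p ^ (γ + 1) ∣ t₀ * m' := by
        rw [hτ]
        exact Dvd.intro (τ' * m') (by ring)
      have h6 : p ^ (γ + 1) ∣ p ^ γ :=
        (Nat.modEq_zero_iff_dvd.mp ((h4.symm.trans (Nat.modEq_zero_iff_dvd.mpr h5))))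
      have := (Nat.pow_dvd_pow_iff_le_right hpp.one_lt).mp h6
      omega
    obtain ⟨y, hy⟩ : ∃ y : ℕ, y = p ^ (β - γ) := ⟨_, rfl⟩
    have hR1 : 1 ≤ M.r ^ y := Nat.one_le_pow _ _ M.hr1
    have hR : p ∣ M.r ^ y - 1 := Cfsg.Agent.Lib.Helper69.dvd_pow_sub_one M.hr1 M.hr y
    obtain ⟨σ, hσ, hσp⟩ := Cfsg.Agent.Lib.Helper69.gs_pow_eq hpp hp hR1 hR γ
    have hcop : Nat.Coprime σ (orderOf M.a) := by
      rw [hα]
      exact Nat.Coprime.pow_right _ ((Nat.Prime.coprime_iff_not_dvd hpp).mpr hσp).symm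
    obtain ⟨x, hx⟩ := exists_mul_add_dvd (orderOf_pos M.a) hcop τ
    have hxp : ¬ p ∣ x := by
      intro hpx
      have h1 : p ∣ x * σ + τ := by
        rw [hα] at hx
        exact (dvd_pow_self p (by omega : α ≠ 0)).trans hx
      have h2 : p ∣ x * σ := Dvd.dvd.mul_right hpx σ
      exact hτp ((Nat.dvd_add_right h2).mp h1)
    have hyγ : y * p ^ γ = p ^ β := by
      rw [hy, ← pow_add]
      congr 1
      omega
    have hdγ : (M.a ^ x * M.b ^ y) ^ p ^ γ = 1 := by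
      rw [M.pow_formula, hyγ, hbt, ← pow_add, hσ, hτ]
      have e1 : x * (p ^ γ * σ) + p ^ γ * τ = (x * σ + τ) * p ^ γ := by ring
      rw [e1, pow_mul, orderOf_dvd_iff_pow_eq_one.mp hx, one_pow]
    have hmemB : ∀ m : ℕ, (M.a ^ x * M.b ^ y) ^ m ∈ Subgroup.zpowers M.b → p ^ γ ∣ m := by
      intro m hm
      rw [M.pow_formula] at hm
      have h1 : M.a ^ (x * Cfsg.Agent.Lib.Helper69.gs (M.r ^ y) m) ∈ Subgroup.zpowers M.b := by
        have e1 : M.a ^ (x * Cfsg.Agent.Lib.Helper69.gs (M.r ^ y) m) =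
            (M.a ^ (x * Cfsg.Agent.Lib.Helper69.gs (M.r ^ y) m) * M.b ^ (y * m)) *
              (M.b ^ (y * m))⁻¹ := by group
        rw [e1]
        exact Subgroup.mul_mem _ hm
          (Subgroup.inv_mem _ (Subgroup.pow_mem _ (Subgroup.mem_zpowers _) _))
      rw [hγ, Cfsg.Agent.Lib.Helper69.pow_dvd_mul_gs_iff hpp hp hR1 hR] at h1
      exact (Nat.Coprime.pow_left γ
        ((Nat.Prime.coprime_iff_not_dvd hpp).mpr hxp)).dvd_of_dvd_mul_left h1
    have hord : orderOf (M.a ^ x * M.b ^ y) = p ^ γ := by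
      apply Nat.dvd_antisymm (orderOf_dvd_of_pow_eq_one hdγ)
      apply hmemB
      rw [pow_orderOf_eq_one]
      exact Subgroup.one_mem _
    refine ⟨Subgroup.zpowers M.b, Subgroup.zpowers (M.a ^ x * M.b ^ y), inferInstance,
      inferInstance, ?_, ?_⟩
    · rw [eq_bot_iff]
      intro w hw
      obtain ⟨hwA, hwB⟩ := Subgroup.mem_inf.mp hw
      obtain ⟨z', rfl⟩ := Subgroup.mem_zpowers_iff.mp hwB
      obtain ⟨m, hm⟩ := Cfsg.Agent.Lib.Helper69.zpow_eq_pow_of_finite (M.a ^ x * M.b ^ y) z'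
      rw [hm] at hwA ⊢
      obtain ⟨m', rfl⟩ := hmemB m hwA
      rw [Subgroup.mem_bot, pow_mul, hdγ, one_pow]
    · rw [Nat.card_zpowers, Nat.card_zpowers, hord, hcardG]
      have h1 := Cfsg.Agent.Lib.Helper69.card_inf_zpowers_mul hpp (Subgroup.zpowers M.a) M.b hmb hβ
      have h2 := Cfsg.Agent.Lib.Helper69.card_inf_zpowers_mul hpp (Subgroup.zpowers M.b) M.a haα hγ
      rw [inf_comm] at h2
      rw [← h1, ← h2]
      ring

end Cfsg.Agent.S3884
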