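import Cfsg.Statements.S3885
import Cfsg.Agent.Lib.Helper69.MetaCD
-- import your own Cfsg.Agent.* helpers here

set_option autoImplicit false
open Cfsg

namespace Cfsg.Agent.S3885

/-- Let p be an odd prime and G a finite metacyclic p-group (G has a cyclic normal subgroup with cyclic quotient). Then every abelian subgroup K of G containing the center of G is the center of its own centralizer: K = Z(C_G(K)). -/
theorem result {G : Type*} [Group G] [Finite G] {p : ℕ} [Fact p.Prime] (hp : p ≠ 2) (hG : IsPGroup p G) (hmc : Cfsg.IsMetacyclic G) (K : Subgroup G) (hK : IsMulCommutative ↥K) (hZ : Subgroup.center G ≤ K) :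
    K = Subgroup.centralizer (K : Set G) ⊓ Subgroup.centralizer (Subgroup.centralizer (K : Set G) : Set G) := by
  have hKC : K ≤ Subgroup.centralizer (K : Set G) :=
    Subgroup.le_centralizer_iff_isMulCommutative.mpr hK
  have hKCC : K ≤ Subgroup.centralizer (Subgroup.centralizer (K : Set G) : Set G) :=
    Subgroup.le_centralizer_iff.mpr le_rfl
  have h1 := Cfsg.Agent.Lib.Helper69.measure_eq_of_center_le hp hG hmc K hZ
  have h2 := Cfsg.Agent.Lib.Helper69.measure_eq_of_center_le hp hG hmc
    (Subgroup.centralizer (K : Set G)) (hZ.trans hKC)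
  have hpos : 0 < Nat.card ↥(Subgroup.centralizer (K : Set G)) := Nat.card_pos
  have h3 : Nat.card ↥(Subgroup.centralizer (Subgroup.centralizer (K : Set G) : Set G)) =
      Nat.card ↥K := by
    apply Nat.eq_of_mul_eq_mul_left hpos
    rw [h2, ← h1, mul_comm]
  have h4 : K = Subgroup.centralizer (Subgroup.centralizer (K : Set G) : Set G) :=
    Subgroup.eq_of_le_of_card_ge hKCC h3.le
  apply le_antisymm
  · exact le_inf hKC hKCC
  · rw [← h4]
    exact inf_le_right

end Cfsg.Agent.S3885
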