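import Cfsg.Statements.S3886
import Cfsg.Agent.Lib.Helper69.MetaSubgroup
import Cfsg.Agent.S3880
-- import your own Cfsg.Agent.* helpers here

set_option autoImplicit false
open Cfsg

namespace Cfsg.Agent.S3886

/-- Let p be an odd prime and G a finite metacyclic p-group (G has a cyclic normal subgroup with cyclic quotient). Then the largest value of |R| · |Z(R)| over subgroups R of G is |G : G'|², and the subgroups attaining it (the centrally large subgroups) are exactly the non-abelian subgroups together with the maximal abelian subgroups of G. -/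
theorem result {G : Type*} [Group G] [Finite G] {p : ℕ} [Fact p.Prime] (hp : p ≠ 2) (hG : IsPGroup p G) (hmc : Cfsg.IsMetacyclic G) : Cfsg.maxCentralProduct G = (commutator G).index ^ 2 ∧
    ∀ R : Subgroup G, Cfsg.IsCentrallyLarge R ↔ (¬ IsMulCommutative ↥R ∨ Maximal (fun K : Subgroup G => IsMulCommutative ↥K) R) := by
  classical
  have hpp := (Fact.out : p.Prime)
  have hval := fun R : Subgroup G =>
    Cfsg.Agent.Lib.Helper69.card_mul_card_center_eq hp hG hmc R
  have h80 := fun R : Subgroup G => Cfsg.Agent.S3880.result hp hG hmc R
  -- the index of the commutator subgroup of `R`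
  have hab : ∀ R : Subgroup G, IsMulCommutative ↥R →
      (commutator ↥R).index = Nat.card ↥R := by
    intro R hR
    rw [(commutator_eq_bot_iff _).mpr hR, Subgroup.index_bot]
  have hle : ∀ R : Subgroup G, (commutator ↥R).index ≤ (commutator G).index := by
    intro R
    by_cases hR : IsMulCommutative ↥R
    · rw [hab R hR]
      exact (h80 R).1.mp hR
    · exact (Cfsg.Agent.Lib.Helper69.index_commutator_subgroup hp hG hmc R hR).le
  have heq : ∀ R : Subgroup G, (commutator ↥R).index = (commutator G).index ↔
      (¬ IsMulCommutative ↥R ∨ Maximal (fun K : Subgroup G => IsMulCommutative ↥K) R) := by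
    intro R
    by_cases hR : IsMulCommutative ↥R
    · rw [hab R hR, ← (h80 R).2]
      constructor
      · intro h
        exact Or.inr h
      · rintro (h | h)
        · exact absurd hR h
        · exact h
    · constructor
      · intro _
        exact Or.inl hR
      · intro _
        exact Cfsg.Agent.Lib.Helper69.index_commutator_subgroup hp hG hmc R hR
  have htop : (commutator ↥(⊤ : Subgroup G)).index = (commutator G).index := by
    rw [heq]
    by_cases hR : IsMulCommutative ↥(⊤ : Subgroup G)
    · exact Or.inr ⟨hR, fun K _ _ => le_top⟩
    · exact Or.inl hR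
  have hmax : Cfsg.maxCentralProduct G = (commutator G).index ^ 2 := by
    unfold Cfsg.maxCentralProduct
    apply IsGreatest.csSup_eq
    constructor
    · exact ⟨⊤, by rw [hval, htop]⟩
    · rintro k ⟨R, rfl⟩
      rw [hval]
      exact Nat.pow_le_pow_left (hle R) 2
  refine ⟨hmax, ?_⟩
  intro R
  unfold Cfsg.IsCentrallyLarge
  rw [hmax, hval, ← heq]
  constructor
  · intro h
    exact Nat.pow_left_injective (by norm_num : (2 : ℕ) ≠ 0) h
  · intro h
    rw [h]

end Cfsg.Agent.S3886
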