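import Cfsg.Statements.S3895
import Cfsg.Agent.Lib.Helper69.TwoClassCount

set_option autoImplicit false
open Cfsg

namespace Cfsg.Agent.S3895

/-- Let G be a finite group with Sylow 2-subgroup P, and write k₂(G) for the number of conjugacy classes of G consisting of 2-elements (elements of 2-power order, the identity included). Then k₂(G) > |P|/2 if and only if G has a normal 2-complement and P has more than |P|/2 conjugacy classes. -/
theorem result {G : Type*} [Group G] [Finite G] (P : Sylow 2 G) :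
    Nat.card ↥(P : Subgroup G) < 2 * Nat.card {c : ConjClasses G // ∀ x ∈ c.carrier, ∃ k : ℕ, orderOf x = 2 ^ k} ↔
      Cfsg.HasNormalPComplement 2 G ∧ Nat.card ↥(P : Subgroup G) < 2 * Nat.card (ConjClasses ↥(P : Subgroup G)) := by
  haveI : Fact (Nat.Prime 2) := ⟨Nat.prime_two⟩
  constructor
  · intro h
    have h5 : Nat.card {c : ConjClasses G // ∀ x ∈ c.carrier, ∃ k : ℕ, orderOf x = 2 ^ k} ≤
        Nat.card (ConjClasses ↥(P : Subgroup G)) :=
      Cfsg.Agent.Lib.Helper69.card_pcl_le_conjClasses P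
    refine ⟨?_, by omega⟩
    by_contra hnc
    have hfrob : ¬ Cfsg.Agent.Lib.Helper75.FrobCond 2 G := by
      intro hF
      obtain ⟨N, hNn, hNc⟩ := (Cfsg.Agent.Lib.Helper75.npc_of_frobCond hF).exists_isComplement' P
      exact hnc ⟨P, N, hNn, hNc⟩
    unfold Cfsg.Agent.Lib.Helper75.FrobCond at hfrob
    push Not at hfrob
    obtain ⟨B, hB, z, hzN, hzo, hzC⟩ := hfrob
    obtain ⟨P₀, Q, g, hQP, hZ, hgN, hgC, hgo⟩ :=
      Cfsg.Agent.Lib.Helper69.frob_reduction B hB z hzN hzo hzC
    have h4 : 2 * Nat.card {c : ConjClasses G // ∀ x ∈ c.carrier, ∃ k : ℕ, orderOf x = 2 ^ k} ≤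
        Nat.card ↥(P₀ : Subgroup G) :=
      Cfsg.Agent.Lib.Helper69.two_mul_card_pcl_le P₀ Q g hQP hZ hgN hgC hgo
    have h6 : Nat.card ↥(P₀ : Subgroup G) = Nat.card ↥(P : Subgroup G) :=
      Cfsg.Agent.Lib.Helper69.card_sylow_eq_card P P₀
    omega
  · rintro ⟨⟨P', N, hNn, hNc⟩, h⟩
    have hcard : Nat.card ↥N * Nat.card ↥(P : Subgroup G) = Nat.card G := by
      rw [Cfsg.Agent.Lib.Helper69.card_sylow_eq_card P' P]; exact hNc.card_mul_card
    have hidx : Nat.card ↥N = (P : Subgroup G).index := by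
      have h1 := (P : Subgroup G).card_mul_index
      have hpos : 0 < Nat.card ↥(P : Subgroup G) := Nat.card_pos
      exact Nat.eq_of_mul_eq_mul_left hpos (by rw [h1, mul_comm]; exact hcard)
    have hcop : Nat.Coprime (Nat.card ↥N) (Nat.card ↥(P : Subgroup G)) := by
      rw [hidx]; exact P.card_coprime_index.symm
    have hNc' : N.IsComplement' (P : Subgroup G) := Subgroup.isComplement'_of_coprime hcard hcop
    haveI := hNn
    have h5 : Nat.card (ConjClasses ↥(P : Subgroup G)) ≤
        Nat.card {c : ConjClasses G // ∀ x ∈ c.carrier, ∃ k : ℕ, orderOf x = 2 ^ k} :=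
      Cfsg.Agent.Lib.Helper69.card_conjClasses_le_pcl P N hNc'
    omega

end Cfsg.Agent.S3895
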