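import Cfsg.Statements.S3897
import Cfsg.Agent.Lib.Helper69.PClassCount

set_option autoImplicit false
open Cfsg

namespace Cfsg.Agent.S3897

/-- Let p be an odd prime and G a finite group with Sylow p-subgroup P, and write k_p(G) for the number of conjugacy classes of G consisting of p-elements (elements of p-power order, the identity included). Then k_p(G) > (p + 1)|P|/(2p) if and only if G has a normal p-complement and P is abelian. -/
theorem result {G : Type*} [Group G] [Finite G] {p : ℕ} [Fact p.Prime] (hp : p ≠ 2) (P : Sylow p G) :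
    (p + 1) * Nat.card ↥(P : Subgroup G) < 2 * p * Nat.card {c : ConjClasses G // ∀ x ∈ c.carrier, ∃ k : ℕ, orderOf x = p ^ k} ↔
      Cfsg.HasNormalPComplement p G ∧ IsMulCommutative ↥(P : Subgroup G) := by
  have hpp := (Fact.out : p.Prime)
  constructor
  · intro hlt
    have hNC : Subgroup.normalizer ((P : Subgroup G) : Set G) ≤
        Subgroup.centralizer ((P : Subgroup G) : Set G) := by
      by_contra hNC
      have := Cfsg.Agent.Lib.Helper69.card_pclasses_bound P hNC
      omega
    refine ⟨⟨P, (MonoidHom.transferSylow P hNC).ker, MonoidHom.normal_ker _,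
      MonoidHom.ker_transferSylow_isComplement' P hNC⟩, ?_⟩
    exact ⟨⟨fun a b => Subtype.ext (hNC (Subgroup.le_normalizer b.2) a.1 a.2)⟩⟩
  · rintro ⟨⟨P', K, hKn, hcompl⟩, hab⟩
    have hK : ¬ p ∣ Nat.card ↥K := by
      rw [← hcompl.index_eq_card]
      exact P'.not_dvd_index
    have hKP : Nat.card ↥K * Nat.card ↥(P : Subgroup G) = Nat.card G := by
      rw [Sylow.card_eq_multiplicity, ← Sylow.card_eq_multiplicity P']
      exact hcompl.card_mul_card
    have h1 := Cfsg.Agent.Lib.Helper69.card_le_pclasses P hab K hK hKP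
    have h2 : 0 < Nat.card ↥(P : Subgroup G) := Nat.card_pos
    have h3 : p + 1 < 2 * p := by
      have := hpp.two_le
      omega
    calc (p + 1) * Nat.card ↥(P : Subgroup G) < 2 * p * Nat.card ↥(P : Subgroup G) :=
          Nat.mul_lt_mul_of_pos_right h3 h2
      _ ≤ _ := Nat.mul_le_mul_left _ h1

end Cfsg.Agent.S3897
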