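import Cfsg.Statements.S3898
import Cfsg.Agent.Lib.Helper69.OddClassCount
import Cfsg.Agent.S3895

set_option autoImplicit false
open Cfsg

namespace Cfsg.Agent.S3898

/-- Let π be a finite set of primes containing 2 and G a finite group. Write k_π(G) for the number of conjugacy classes of G consisting of π-elements (elements all of whose order's prime divisors lie in π) and |G|_π for the π-part of the order of G. If k_π(G) > |G|_π/2, then G has a normal π-complement (a normal subgroup of order prime to π whose index is a π-number) and an abelian Hall subgroup for the set of odd primes in π. -/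
theorem result {G : Type*} [Group G] [Finite G] (π : Finset ℕ) (hπ : ∀ r ∈ π, r.Prime) (h2 : 2 ∈ π)
    (hk : π.prod (fun r => r ^ (Nat.card G).factorization r) < 2 * Nat.card {c : ConjClasses G // ∀ x ∈ c.carrier, ∀ r : ℕ, r.Prime → r ∣ orderOf x → r ∈ π}) :
    (∃ N : Subgroup G, N.Normal ∧ (∀ r : ℕ, r.Prime → r ∣ Nat.card ↥N → r ∉ π) ∧ ∀ r : ℕ, r.Prime → r ∣ N.index → r ∈ π) ∧ ∃ H : Subgroup G, Cfsg.IsPiHall ((↑π : Set ℕ) \ {2}) H ∧ IsMulCommutative ↥H := by
  classical
  -- Step 0: for each `r ∈ π` and Sylow `r`-subgroup `P`: `|P| < 2 k_r(G)`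
  have hkr : ∀ r ∈ π, ∀ [Fact r.Prime] (P : Sylow r G), Nat.card ↥(P : Subgroup G) <
      2 * Nat.card {c : ConjClasses G // ∀ x ∈ c.carrier, ∃ k : ℕ, orderOf x = r ^ k} := by
    intro r hr _ P
    have h1 := Cfsg.Agent.Lib.Helper69.card_piCl_le_mul (G := G) π hπ r hr
    have hprod : r ^ (Nat.card G).factorization r *
        (π.erase r).prod (fun s => s ^ (Nat.card G).factorization s) =
        π.prod (fun s => s ^ (Nat.card G).factorization s) :=
      Finset.mul_prod_erase π (fun s => s ^ (Nat.card G).factorization s) hr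
    have hM0 : 0 < (π.erase r).prod (fun s => s ^ (Nat.card G).factorization s) :=
      Finset.prod_pos (fun s hs => pow_pos (hπ s (Finset.mem_of_mem_erase hs)).pos _)
    have hcardP : Nat.card ↥(P : Subgroup G) = r ^ (Nat.card G).factorization r :=
      Sylow.card_eq_multiplicity P
    generalize (π.erase r).prod (fun s => s ^ (Nat.card G).factorization s) = M at h1 hprod hM0
    generalize hkr : Nat.card {c : ConjClasses G // ∀ x ∈ c.carrier, ∃ k : ℕ, orderOf x = r ^ k}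
      = kr at h1 ⊢
    rw [hcardP]
    have h4 : r ^ (Nat.card G).factorization r * M < 2 * (kr * M) := by
      rw [hprod]
      exact lt_of_lt_of_le hk (Nat.mul_le_mul_left _ h1)
    have h5 : r ^ (Nat.card G).factorization r * M < 2 * kr * M := by
      rw [mul_assoc]
      exact h4
    exact Nat.lt_of_mul_lt_mul_right h5
  -- Step 1: the normal 2-complement
  haveI : Fact (Nat.Prime 2) := ⟨Nat.prime_two⟩
  obtain ⟨P2⟩ : Nonempty (Sylow 2 G) := inferInstance
  obtain ⟨⟨P', K, hKn, hKc⟩, -⟩ := (Cfsg.Agent.S3895.result P2).mp (hkr 2 h2 P2)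
  haveI := hKn
  have hKidx : K.index = 2 ^ (Nat.card G).factorization 2 := by
    rw [hKc.symm.index_eq_card, Sylow.card_eq_multiplicity]
  have hK2 : ¬ 2 ∣ Nat.card ↥K := by
    rw [← hKc.index_eq_card]
    exact P'.not_dvd_index
  have hKodd : Odd (Nat.card ↥K) := by
    rw [Nat.odd_iff]
    omega
  -- Step 2: for each `r ∈ π` a normal subgroup `L r`
  have hA : ∀ r ∈ π, ∃ L : Subgroup G, L.Normal ∧ L ≤ K ∧ ¬ r ∣ Nat.card ↥L ∧
      (∃ b : ℕ, L.index = K.index * r ^ b) ∧ ∀ x ∈ K, ∀ y ∈ K, x * y * x⁻¹ * y⁻¹ ∈ L := by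
    intro r hr
    by_cases hr2 : r = 2
    · subst hr2
      exact ⟨K, hKn, le_rfl, hK2, ⟨0, by simp⟩, fun x hx y hy =>
        K.mul_mem (K.mul_mem (K.mul_mem hx hy) (K.inv_mem hx)) (K.inv_mem hy)⟩
    · have hrp := hπ r hr
      haveI := Fact.mk hrp
      have hKr : ¬ r ∣ K.index := by
        rw [hKidx]
        intro hdvd
        exact hr2 ((Nat.prime_dvd_prime_iff_eq hrp Nat.prime_two).mp (hrp.dvd_of_dvd_pow hdvd))
      exact Cfsg.Agent.Lib.Helper69.exists_normal_r_complement_in K hKodd hKr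
        (fun R => Cfsg.Agent.Lib.Helper69.sylow_comm_of_pcl hr2 R (hkr r hr R))
        (fun R g hg hodd => Cfsg.Agent.Lib.Helper69.odd_normalizer_le_centralizer hr2 R
          (hkr r hr R) g hg hodd)
  choose! L hL using hA
  obtain ⟨hNn, hNidx⟩ := Cfsg.Agent.Lib.Helper69.finset_inf_normal_index π L
    (fun r hr => (hL r hr).1)
  have hNle : ∀ r ∈ π, π.inf L ≤ L r := fun r hr => Finset.inf_le hr
  have h_i : ∀ r : ℕ, r.Prime → r ∣ Nat.card ↥(π.inf L) → r ∉ π := by
    intro r hrp hdvd hr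
    exact (hL r hr).2.2.1 (hdvd.trans (Subgroup.card_dvd_of_le (hNle r hr)))
  have h_ii : ∀ r : ℕ, r.Prime → r ∣ (π.inf L).index → r ∈ π := by
    intro r hrp hdvd
    have h1 := hdvd.trans hNidx
    rw [Prime.dvd_finsetProd_iff hrp.prime] at h1
    obtain ⟨s, hs, hrs⟩ := h1
    obtain ⟨b, hb⟩ := (hL s hs).2.2.2.1
    rw [hb, hKidx] at hrs
    rcases (Nat.Prime.dvd_mul hrp).mp hrs with h | h
    · have := (Nat.prime_dvd_prime_iff_eq hrp Nat.prime_two).mp (hrp.dvd_of_dvd_pow h)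
      rw [this]
      exact h2
    · have := (Nat.prime_dvd_prime_iff_eq hrp (hπ s hs)).mp (hrp.dvd_of_dvd_pow h)
      rw [this]
      exact hs
  refine ⟨⟨π.inf L, hNn, h_i, h_ii⟩, ?_⟩
  have hcop : Nat.Coprime (Nat.card ↥(π.inf L)) (π.inf L).index :=
    Nat.coprime_of_dvd (fun k hk h1 h2 => h_i k hk h1 (h_ii k hk h2))
  obtain ⟨H₀, hH₀⟩ := Subgroup.exists_right_complement'_of_coprime hcop
  refine ⟨K ⊓ H₀, ⟨?_, ?_⟩, ?_⟩
  · intro q hq hdvd
    have h1 : q ∣ Nat.card ↥H₀ := hdvd.trans (Subgroup.card_dvd_of_le inf_le_right)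
    rw [← hH₀.symm.index_eq_card] at h1
    have h3 : q ∣ Nat.card ↥K := hdvd.trans (Subgroup.card_dvd_of_le inf_le_left)
    refine ⟨Finset.mem_coe.mpr (h_ii q hq h1), ?_⟩
    intro hq2
    rw [Set.mem_singleton_iff] at hq2
    rw [hq2] at h3
    exact hK2 h3
  · intro q hq hqπ hdvd
    obtain ⟨hqπ', hq2⟩ := hqπ
    have e1 : (K ⊓ H₀).index = K.relIndex H₀ * H₀.index := by
      rw [← Subgroup.inf_relIndex_right, Subgroup.relIndex_mul_index inf_le_right]
    rw [e1] at hdvd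
    rcases (Nat.Prime.dvd_mul hq).mp hdvd with h | h
    · have h5 : q ∣ K.index := h.trans (Subgroup.relIndex_dvd_index_of_normal K H₀)
      rw [hKidx] at h5
      exact hq2 ((Nat.prime_dvd_prime_iff_eq hq Nat.prime_two).mp (hq.dvd_of_dvd_pow h5))
    · rw [hH₀.index_eq_card] at h
      exact h_i q hq h (Finset.mem_coe.mp hqπ')
  · refine ⟨⟨fun a b => Subtype.ext ?_⟩⟩
    have haK : a.1 ∈ K := (Subgroup.mem_inf.mp a.2).1
    have hbK : b.1 ∈ K := (Subgroup.mem_inf.mp b.2).1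
    have haH : a.1 ∈ H₀ := (Subgroup.mem_inf.mp a.2).2
    have hbH : b.1 ∈ H₀ := (Subgroup.mem_inf.mp b.2).2
    have h1 : a.1 * b.1 * a.1⁻¹ * b.1⁻¹ ∈ π.inf L := by
      have h0 : Subgroup.zpowers (a.1 * b.1 * a.1⁻¹ * b.1⁻¹) ≤ π.inf L :=
        Finset.le_inf (fun r hr => by
          rw [Subgroup.zpowers_le]
          exact (hL r hr).2.2.2.2 a.1 haK b.1 hbK)
      exact h0 (Subgroup.mem_zpowers _)
    have h2' : a.1 * b.1 * a.1⁻¹ * b.1⁻¹ ∈ H₀ :=
      mul_mem (mul_mem (mul_mem haH hbH) (inv_mem haH)) (inv_mem hbH)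
    have h3 := Subgroup.disjoint_def.mp hH₀.disjoint h1 h2'
    show a.1 * b.1 = b.1 * a.1
    have h4 := congrArg (fun t => t * b.1 * a.1) h3
    simpa [mul_assoc] using h4

end Cfsg.Agent.S3898
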