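import Cfsg.Statements.S3899
import Cfsg.Agent.Lib.Helper69.PiClassCount
import Cfsg.Agent.S3897

set_option autoImplicit false
open Cfsg

namespace Cfsg.Agent.S3899

/-- Let π be a finite non-empty set of odd primes with smallest member p and G a finite group. Write k_π(G) for the number of conjugacy classes of G consisting of π-elements (elements all of whose order's prime divisors lie in π) and |G|_π for the π-part of the order of G. If k_π(G) > (p + 1)|G|_π/(2p), then G has a normal π-complement (a normal subgroup of order prime to π whose index is a π-number) and an abelian Hall π-subgroup. -/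
theorem result {G : Type*} [Group G] [Finite G] (π : Finset ℕ) (hπ : ∀ r ∈ π, r.Prime) (h2 : 2 ∉ π) (p : ℕ) (hp : p ∈ π)
    (hmin : ∀ r ∈ π, p ≤ r) (hk : (p + 1) * π.prod (fun r => r ^ (Nat.card G).factorization r) < 2 * p * Nat.card {c : ConjClasses G // ∀ x ∈ c.carrier, ∀ r : ℕ, r.Prime → r ∣ orderOf x → r ∈ π}) :
    (∃ N : Subgroup G, N.Normal ∧ (∀ r : ℕ, r.Prime → r ∣ Nat.card ↥N → r ∉ π) ∧ ∀ r : ℕ, r.Prime → r ∣ N.index → r ∈ π) ∧ ∃ H : Subgroup G, Cfsg.IsPiHall (↑π : Set ℕ) H ∧ IsMulCommutative ↥H := by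
  classical
  have hA : ∀ r ∈ π, ∃ K : Subgroup G, K.Normal ∧ ¬ r ∣ Nat.card ↥K ∧
      K.index = r ^ (Nat.card G).factorization r ∧ ∀ x y : G, x * y * x⁻¹ * y⁻¹ ∈ K := by
    intro r hr
    have hrp := hπ r hr
    have := Fact.mk hrp
    have hr2 : r ≠ 2 := fun h => h2 (h ▸ hr)
    obtain ⟨P⟩ : Nonempty (Sylow r G) := inferInstance
    have h1 := Cfsg.Agent.Lib.Helper69.card_piCl_le_mul (G := G) π hπ r hr
    have hprod : r ^ (Nat.card G).factorization r *
        (π.erase r).prod (fun s => s ^ (Nat.card G).factorization s) =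
        π.prod (fun s => s ^ (Nat.card G).factorization s) :=
      Finset.mul_prod_erase π (fun s => s ^ (Nat.card G).factorization s) hr
    have hM0 : 0 < (π.erase r).prod (fun s => s ^ (Nat.card G).factorization s) :=
      Finset.prod_pos (fun s hs => pow_pos (hπ s (Finset.mem_of_mem_erase hs)).pos _)
    have hcardP : Nat.card ↥(P : Subgroup G) = r ^ (Nat.card G).factorization r :=
      Sylow.card_eq_multiplicity P
    generalize (π.erase r).prod (fun s => s ^ (Nat.card G).factorization s) = M at h1 hprod hM0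
    generalize hkr : Nat.card {c : ConjClasses G // ∀ x ∈ c.carrier, ∃ k : ℕ, orderOf x = r ^ k}
      = kr at h1
    have h3 : (p + 1) * r ^ (Nat.card G).factorization r < 2 * p * kr := by
      have h4 : (p + 1) * (r ^ (Nat.card G).factorization r * M) < 2 * p * (kr * M) := by
        rw [hprod]
        exact lt_of_lt_of_le hk (Nat.mul_le_mul_left _ h1)
      have h5 : (p + 1) * r ^ (Nat.card G).factorization r * M < 2 * p * kr * M := by
        calc (p + 1) * r ^ (Nat.card G).factorization r * M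
            = (p + 1) * (r ^ (Nat.card G).factorization r * M) := by ring
          _ < 2 * p * (kr * M) := h4
          _ = 2 * p * kr * M := by ring
      exact Nat.lt_of_mul_lt_mul_right h5
    have hpr : p ≤ r := hmin r hr
    have hpp : p.Prime := hπ p hp
    have h6 : (r + 1) * Nat.card ↥(P : Subgroup G) < 2 * r * kr := by
      rw [hcardP]
      have h7 : (r + 1) * p ≤ (p + 1) * r := by nlinarith
      have h8 : ((r + 1) * r ^ (Nat.card G).factorization r) * p < (2 * r * kr) * p := by
        calc ((r + 1) * r ^ (Nat.card G).factorization r) * p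
            = ((r + 1) * p) * r ^ (Nat.card G).factorization r := by ring
          _ ≤ ((p + 1) * r) * r ^ (Nat.card G).factorization r := Nat.mul_le_mul_right _ h7
          _ = r * ((p + 1) * r ^ (Nat.card G).factorization r) := by ring
          _ < r * (2 * p * kr) := Nat.mul_lt_mul_of_pos_left h3 hrp.pos
          _ = (2 * r * kr) * p := by ring
      exact Nat.lt_of_mul_lt_mul_right h8
    rw [← hkr] at h6
    obtain ⟨⟨P', K, hKn, hcompl⟩, hab⟩ := (Cfsg.Agent.S3897.result hr2 P).mp h6
    have hab' : IsMulCommutative ↥(P' : Subgroup G) := by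
      have h9 : (r + 1) * Nat.card ↥(P' : Subgroup G) < 2 * r *
          Nat.card {c : ConjClasses G // ∀ x ∈ c.carrier, ∃ k : ℕ, orderOf x = r ^ k} := by
        rw [Sylow.card_eq_multiplicity P', ← hcardP]
        exact h6
      exact ((Cfsg.Agent.S3897.result hr2 P').mp h9).2
    refine ⟨K, hKn, ?_, ?_, fun x y =>
      Cfsg.Agent.Lib.Helper69.commutator_mem_of_complement K P' hcompl hab' x y⟩
    · rw [← hcompl.index_eq_card]
      exact P'.not_dvd_index
    · rw [hcompl.symm.index_eq_card, Sylow.card_eq_multiplicity]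
  choose! K hK using hA
  obtain ⟨hNn, hNidx⟩ := Cfsg.Agent.Lib.Helper69.finset_inf_normal_index π K
    (fun r hr => (hK r hr).1)
  have hNle : ∀ r ∈ π, π.inf K ≤ K r := fun r hr => Finset.inf_le hr
  have h_i : ∀ r : ℕ, r.Prime → r ∣ Nat.card ↥(π.inf K) → r ∉ π := by
    intro r hrp hdvd hr
    exact (hK r hr).2.1 (hdvd.trans (Subgroup.card_dvd_of_le (hNle r hr)))
  have h_ii : ∀ r : ℕ, r.Prime → r ∣ (π.inf K).index → r ∈ π := by
    intro r hrp hdvd
    have h1 := hdvd.trans hNidx
    rw [Prime.dvd_finsetProd_iff hrp.prime] at h1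
    obtain ⟨s, hs, hrs⟩ := h1
    rw [(hK s hs).2.2.1] at hrs
    have h2 := (Nat.prime_dvd_prime_iff_eq hrp (hπ s hs)).mp (hrp.dvd_of_dvd_pow hrs)
    rw [h2]
    exact hs
  refine ⟨⟨π.inf K, hNn, h_i, h_ii⟩, ?_⟩
  have hcop : Nat.Coprime (Nat.card ↥(π.inf K)) (π.inf K).index :=
    Nat.coprime_of_dvd (fun k hk h1 h2 => h_i k hk h1 (h_ii k hk h2))
  obtain ⟨H, hH⟩ := Subgroup.exists_right_complement'_of_coprime hcop
  refine ⟨H, ⟨?_, ?_⟩, ?_⟩
  · intro q hq hdvd
    rw [← hH.symm.index_eq_card] at hdvd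
    exact Finset.mem_coe.mpr (h_ii q hq hdvd)
  · intro q hq hqπ hdvd
    rw [hH.index_eq_card] at hdvd
    exact h_i q hq hdvd (Finset.mem_coe.mp hqπ)
  · refine ⟨⟨fun a b => Subtype.ext ?_⟩⟩
    have h1 : a.1 * b.1 * a.1⁻¹ * b.1⁻¹ ∈ π.inf K := by
      have h0 : Subgroup.zpowers (a.1 * b.1 * a.1⁻¹ * b.1⁻¹) ≤ π.inf K :=
        Finset.le_inf (fun r hr => by
          rw [Subgroup.zpowers_le]
          exact (hK r hr).2.2.2 a.1 b.1)
      exact h0 (Subgroup.mem_zpowers _)
    have h2 : a.1 * b.1 * a.1⁻¹ * b.1⁻¹ ∈ H :=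
      mul_mem (mul_mem (mul_mem a.2 b.2) (inv_mem a.2)) (inv_mem b.2)
    have h3 := Subgroup.disjoint_def.mp hH.disjoint h1 h2
    show a.1 * b.1 = b.1 * a.1
    have h4 := congrArg (fun t => t * b.1 * a.1) h3
    simpa [mul_assoc] using h4

end Cfsg.Agent.S3899
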