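import Cfsg.Statements.S3909
import Mathlib
-- import your own Cfsg.Agent.* helpers here

set_option autoImplicit false
open Cfsg

namespace Cfsg.Agent.S3909

theorem part1 {G : Type*} [Group G] [Finite G] (hB : ∀ A B : Subgroup G, IsMulCommutative ↥A → IsMulCommutative ↥B → Nat.card ↥A = Nat.card ↥B → ∃ g : G, B = A.map (MulAut.conj g).toMonoidHom) (M : Subgroup G) [M.Normal] :
    ∀ a : G, (∃ m ∈ M, orderOf m = orderOf a) → a ∈ M := by
  rintro a ⟨m, hm, hord⟩
  have h1 : IsMulCommutative ↥(Subgroup.zpowers m) := IsCyclic.isMulCommutative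
  have h2 : IsMulCommutative ↥(Subgroup.zpowers a) := IsCyclic.isMulCommutative
  obtain ⟨g, hg⟩ := hB (Subgroup.zpowers m) (Subgroup.zpowers a) h1 h2
    (by rw [Nat.card_zpowers, Nat.card_zpowers, hord])
  have ha : a ∈ Subgroup.zpowers a := Subgroup.mem_zpowers a
  rw [hg] at ha
  obtain ⟨x, hx, rfl⟩ := ha
  have hxM : x ∈ M := (Subgroup.zpowers_le.mpr hm) hx
  exact (inferInstance : M.Normal).conj_mem x hxM g

/-- Let G be a finite group in which any two abelian subgroups of the same order are conjugate. Let M be a normal subgroup of G. If M contains an element of the same order as a ∈ G, then a ∈ M; and if M is elementary abelian of order p^t with p prime and t ≥ 2, then M is the unique Sylow p-subgroup of G. -/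
theorem result {G : Type*} [Group G] [Finite G] (hB : ∀ A B : Subgroup G, IsMulCommutative ↥A → IsMulCommutative ↥B → Nat.card ↥A = Nat.card ↥B → ∃ g : G, B = A.map (MulAut.conj g).toMonoidHom) (M : Subgroup G) [M.Normal] :
    (∀ a : G, (∃ m ∈ M, orderOf m = orderOf a) → a ∈ M) ∧
    ∀ (p t : ℕ) [Fact p.Prime], 2 ≤ t → Nat.card ↥M = p ^ t → Cfsg.IsElementaryAbelian p M → ∀ P : Sylow p G, (P : Subgroup G) = M := by
  have hpart1 := part1 hB M
  refine ⟨hpart1, ?_⟩
  intro p t _ ht hcard hM P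
  have hpp : p.Prime := Fact.out
  obtain ⟨hMc, hMp⟩ := hM
  have hMpg : IsPGroup p ↥M := IsPGroup.of_card hcard
  have hMP : M ≤ (P : Subgroup G) := hMpg.le_sylow_of_normal P
  apply le_antisymm _ hMP
  -- an element of order p in M
  have hpd : p ∣ Nat.card ↥M := by
    rw [hcard]
    exact dvd_pow_self p (by omega)
  obtain ⟨m, hm⟩ := exists_prime_orderOf_dvd_card' p hpd
  rw [← Subgroup.orderOf_coe] at hm
  -- a subgroup of order p^2 in M
  have hp2 : p ^ 2 ∣ Nat.card ↥M := by
    rw [hcard]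
    exact pow_dvd_pow p ht
  obtain ⟨K, hK⟩ := Sylow.exists_subgroup_card_pow_prime p hp2
  have hKc : IsMulCommutative ↥(K.map M.subtype) := by
    constructor
    constructor
    rintro ⟨_, ⟨a, ha, rfl⟩⟩ ⟨_, ⟨b, hb, rfl⟩⟩
    apply Subtype.ext
    have h0 := mul_comm' a b
    have h0' := congrArg Subtype.val h0
    simpa using h0'
  have hKcard : Nat.card ↥(K.map M.subtype) = p ^ 2 := by
    rw [Subgroup.card_map_of_injective M.subtype_injective, hK]
  intro x hx
  obtain ⟨k, hk⟩ := (IsPGroup.iff_orderOf.mp P.isPGroup') ⟨x, hx⟩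
  rw [← Subgroup.orderOf_coe] at hk
  have hk' : orderOf x = p ^ k := hk
  rcases Nat.lt_or_ge k 2 with hk2 | hk2
  · rcases Nat.eq_zero_or_pos k with hk0 | hk1
    · rw [hk0, pow_zero, orderOf_eq_one_iff] at hk'
      rw [hk']
      exact M.one_mem
    · have hk1' : k = 1 := by omega
      rw [hk1', pow_one] at hk'
      exact hpart1 x ⟨m, m.2, by rw [hm, hk']⟩
  · exfalso
    -- z = x^(p^(k-2)) has order p^2
    have hz : orderOf (x ^ p ^ (k - 2)) = p ^ 2 := by
      rw [orderOf_pow_of_dvd (pow_ne_zero _ hpp.ne_zero) (by rw [hk']; exact pow_dvd_pow p (by omega)),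
        hk', Nat.pow_div (by omega) hpp.pos]
      congr 1
      omega
    have hzc : IsMulCommutative ↥(Subgroup.zpowers (x ^ p ^ (k - 2))) := IsCyclic.isMulCommutative
    obtain ⟨g, hg⟩ := hB (Subgroup.zpowers (x ^ p ^ (k - 2))) (K.map M.subtype) hzc hKc
      (by rw [Nat.card_zpowers, hz, hKcard])
    have h1 : (MulAut.conj g).toMonoidHom (x ^ p ^ (k - 2)) ∈ K.map M.subtype := by
      rw [hg]
      exact ⟨_, Subgroup.mem_zpowers _, rfl⟩
    have h2 : (MulAut.conj g).toMonoidHom (x ^ p ^ (k - 2)) ∈ M := Subgroup.map_subtype_le K h1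
    have h3 := hMp _ h2
    have h4 : orderOf ((MulAut.conj g).toMonoidHom (x ^ p ^ (k - 2))) = p ^ 2 := by
      rw [MulEquiv.coe_toMonoidHom, MulEquiv.orderOf_eq, hz]
    have h5 : p ^ 2 ∣ p := by
      rw [← h4]
      exact orderOf_dvd_of_pow_eq_one h3
    have h6 := Nat.le_of_dvd hpp.pos h5
    have h7 : p < p ^ 2 := by
      have := hpp.one_lt
      nlinarith
    omega

end Cfsg.Agent.S3909
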