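import Cfsg.Statements.S3910
import Mathlib

set_option autoImplicit false
open Cfsg

namespace Cfsg.Agent.S3910


section aux

variable {G : Type*} [Group G]

/-- the subgroup `Z(G)⟨x⟩` -/
def zx (x : G) : Subgroup G :=
  (Subgroup.zpowers (QuotientGroup.mk' (Subgroup.center G) x)).comap
    (QuotientGroup.mk' (Subgroup.center G))

theorem mem_zx_iff (x y : G) :
    y ∈ zx x ↔ ∃ i : ℤ, ∃ z ∈ Subgroup.center G, y = x ^ i * z := by
  unfold zx
  rw [Subgroup.mem_comap, Subgroup.mem_zpowers_iff]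
  constructor
  · rintro ⟨i, hi⟩
    refine ⟨i, (x ^ i)⁻¹ * y, ?_, by group⟩
    rw [← map_zpow] at hi
    exact QuotientGroup.eq.mp hi
  · rintro ⟨i, z, hz, rfl⟩
    refine ⟨i, ?_⟩
    rw [map_mul, map_zpow]
    have : QuotientGroup.mk' (Subgroup.center G) z = 1 := (QuotientGroup.eq_one_iff z).mpr hz
    rw [this, mul_one]

theorem zx_comm (x : G) : IsMulCommutative ↥(zx x) := by
  refine ⟨⟨fun a b => Subtype.ext ?_⟩⟩
  obtain ⟨i, z, hz, ha⟩ := (mem_zx_iff x a.1).mp a.2
  obtain ⟨j, w, hw, hb⟩ := (mem_zx_iff x b.1).mp b.2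
  show a.1 * b.1 = b.1 * a.1
  rw [ha, hb]
  have hz' : ∀ g : G, Commute g z := fun g => Subgroup.mem_center_iff.mp hz g
  have hw' : ∀ g : G, Commute g w := fun g => Subgroup.mem_center_iff.mp hw g
  have h1 : Commute (x ^ i) (x ^ j * w) :=
    Commute.mul_right (Commute.zpow_zpow_self x i j) (hw' _)
  have h2 : Commute z (x ^ j * w) := (hz' _).symm
  exact (Commute.mul_left h1 h2).eq

theorem card_zx [Finite G] (x : G) (p : ℕ)
    (hord : orderOf (QuotientGroup.mk' (Subgroup.center G) x) = p) :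
    Nat.card ↥(zx x) = p * Nat.card ↥(Subgroup.center G) := by
  have h1 : (zx x).index = (Subgroup.zpowers (QuotientGroup.mk' (Subgroup.center G) x)).index :=
    Subgroup.index_comap_of_surjective _ (QuotientGroup.mk'_surjective _)
  have h2 := Subgroup.card_mul_index (zx x)
  have h3 := Subgroup.card_mul_index (Subgroup.zpowers (QuotientGroup.mk' (Subgroup.center G) x))
  have h4 : Nat.card G = Nat.card (G ⧸ Subgroup.center G) * Nat.card (Subgroup.center G) :=
    Subgroup.card_eq_card_quotient_mul_card_subgroup _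
  rw [Nat.card_zpowers, hord] at h3
  have hidx : (Subgroup.zpowers (QuotientGroup.mk' (Subgroup.center G) x)).index ≠ 0 :=
    Subgroup.index_ne_zero_of_finite
  have key : Nat.card ↥(zx x) * (Subgroup.zpowers (QuotientGroup.mk' (Subgroup.center G) x)).index
      = p * Nat.card ↥(Subgroup.center G) *
        (Subgroup.zpowers (QuotientGroup.mk' (Subgroup.center G) x)).index := by
    rw [← h1, h2, h4, ← h3, h1]
    ring
  exact Nat.eq_of_mul_eq_mul_right (Nat.pos_of_ne_zero hidx) key

theorem zx_conj_mem (x : G) (hx : ∀ y : G, x * y * x⁻¹ * y⁻¹ ∈ Subgroup.center G) (g y : G)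
    (hy : y ∈ zx x) : g * y * g⁻¹ ∈ zx x := by
  unfold zx at hy ⊢
  rw [Subgroup.mem_comap, Subgroup.mem_zpowers_iff] at hy ⊢
  obtain ⟨i, hi⟩ := hy
  refine ⟨i, ?_⟩
  rw [map_mul, map_mul, map_inv, ← hi]
  have hc : Commute (QuotientGroup.mk' (Subgroup.center G) g)
      (QuotientGroup.mk' (Subgroup.center G) x) := by
    show _ * _ = _ * _
    rw [← map_mul, ← map_mul]
    symm
    apply QuotientGroup.eq.mpr
    have h1 : (x * g)⁻¹ * (g * x) = (g * x)⁻¹ * (x * g * x⁻¹ * g⁻¹)⁻¹ * (g * x) := by group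
    rw [h1]
    exact (inferInstance : (Subgroup.center G).Normal).conj_mem' _ (inv_mem (hx g)) _
  rw [(hc.zpow_right i).eq, mul_inv_cancel_right]

theorem orderOf_pow_div {H : Type*} [Group H] [Finite H] (x : H) (p : ℕ) (hp : p.Prime)
    (hpk : p ∣ orderOf x) : orderOf (x ^ (orderOf x / p)) = p := by
  have hk0 : 0 < orderOf x := orderOf_pos x
  rw [orderOf_pow_of_dvd (Nat.div_pos (Nat.le_of_dvd hk0 hpk) hp.pos).ne'
    (Nat.div_dvd_of_dvd hpk), Nat.div_div_self hpk hk0.ne']

theorem exists_max_order {H : Type*} [CommGroup H] [Finite H] :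
    ∃ g : H, ∀ x : H, orderOf x ∣ orderOf g := by
  obtain ⟨g, hg⟩ := Monoid.exists_orderOf_eq_exponent (Monoid.ExponentExists.of_finite (G := H))
  exact ⟨g, fun x => hg ▸ Monoid.order_dvd_exponent x⟩

theorem cyclic_of_comm [Finite G]
    (hB : ∀ A B : Subgroup G, IsMulCommutative ↥A → IsMulCommutative ↥B →
      Nat.card ↥A = Nat.card ↥B → ∃ g : G, B = A.map (MulAut.conj g).toMonoidHom)
    (hcomm : ∀ x y : G, x * y = y * x) : IsCyclic G := by
  obtain ⟨g, hg⟩ : ∃ g : G, ∀ x : G, orderOf x ∣ orderOf g :=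
    @exists_max_order G { (inferInstance : Group G) with mul_comm := hcomm } _
  refine ⟨g, fun x => ?_⟩
  have hdvd := hg x
  have hy : orderOf (g ^ (orderOf g / orderOf x)) = orderOf x := by
    have hk0 : 0 < orderOf g := orderOf_pos g
    rw [orderOf_pow_of_dvd (Nat.div_pos (Nat.le_of_dvd hk0 hdvd) (orderOf_pos x)).ne'
      (Nat.div_dvd_of_dvd hdvd), Nat.div_div_self hdvd hk0.ne']
  obtain ⟨g₀, hg₀⟩ := hB (Subgroup.zpowers (g ^ (orderOf g / orderOf x))) (Subgroup.zpowers x)
    IsCyclic.isMulCommutative IsCyclic.isMulCommutative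
    (by rw [Nat.card_zpowers, Nat.card_zpowers, hy])
  have hx : x ∈ Subgroup.zpowers x := Subgroup.mem_zpowers x
  rw [hg₀] at hx
  obtain ⟨w, hw, rfl⟩ := hx
  have h1 : (MulAut.conj g₀).toMonoidHom w = w := by
    show g₀ * w * g₀⁻¹ = w
    rw [hcomm g₀ w, mul_inv_cancel_right]
  rw [h1]
  exact (Subgroup.zpowers_le.mpr (pow_mem (Subgroup.mem_zpowers g) _)) hw

theorem comm_of_B [Finite G]
    (hB : ∀ A B : Subgroup G, IsMulCommutative ↥A → IsMulCommutative ↥B →
      Nat.card ↥A = Nat.card ↥B → ∃ g : G, B = A.map (MulAut.conj g).toMonoidHom)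
    (hnil : Group.IsNilpotent G) : ∀ x y : G, x * y = y * x := by
  by_contra hcon
  have hZ : Subgroup.center G ≠ ⊤ := by
    intro h
    apply hcon
    intro x y
    have : y ∈ Subgroup.center G := h ▸ Subgroup.mem_top y
    exact Subgroup.mem_center_iff.mp this x
  obtain ⟨a₀, ha₀2, ha₀Z⟩ : ∃ a₀ : G, a₀ ∈ Subgroup.upperCentralSeries G 2 ∧
      a₀ ∉ Subgroup.center G := by
    by_contra hno
    push Not at hno
    obtain ⟨n, hn⟩ := hnil.nilpotent'
    have key : ∀ k, Subgroup.upperCentralSeries G k ≤ Subgroup.center G := by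
      intro k
      induction k with
      | zero =>
        rw [Subgroup.upperCentralSeries_zero]
        exact bot_le
      | succ k ih =>
        intro x hx
        apply hno
        rw [Subgroup.mem_upperCentralSeries_succ_iff, Subgroup.upperCentralSeries_one]
        intro y
        rw [Subgroup.mem_upperCentralSeries_succ_iff] at hx
        exact ih (hx y)
    exact hZ (top_le_iff.mp (hn ▸ key n))
  -- a of prime order modulo the center
  have hk1 : orderOf (QuotientGroup.mk' (Subgroup.center G) a₀) ≠ 1 := by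
    rw [Ne, orderOf_eq_one_iff, QuotientGroup.mk'_apply, QuotientGroup.eq_one_iff]
    exact ha₀Z
  obtain ⟨p, hp, hpk⟩ := Nat.exists_prime_and_dvd hk1
  have hordA := orderOf_pow_div _ p hp hpk
  rw [← map_pow] at hordA
  set a := a₀ ^ (orderOf (QuotientGroup.mk' (Subgroup.center G) a₀) / p) with ha_def
  have ha2 : a ∈ Subgroup.upperCentralSeries G 2 := pow_mem ha₀2 _
  have ha2' : ∀ y : G, a * y * a⁻¹ * y⁻¹ ∈ Subgroup.center G := by
    intro y
    have := (Subgroup.mem_upperCentralSeries_succ_iff).mp ha2 y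
    rwa [Subgroup.upperCentralSeries_one] at this
  have haZ : a ∉ Subgroup.center G := by
    intro h
    have h1 : QuotientGroup.mk' (Subgroup.center G) a = 1 := (QuotientGroup.eq_one_iff a).mpr h
    rw [h1, orderOf_one] at hordA
    exact hp.one_lt.ne hordA
  have hapZ : a ^ p ∈ Subgroup.center G := by
    have h1 := pow_orderOf_eq_one (QuotientGroup.mk' (Subgroup.center G) a)
    rw [hordA, ← map_pow] at h1
    exact (QuotientGroup.eq_one_iff _).mp h1
  -- g not commuting with a
  obtain ⟨g, hg⟩ : ∃ g : G, g * a ≠ a * g := by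
    by_contra hno
    push Not at hno
    exact haZ (Subgroup.mem_center_iff.mpr hno)
  set c := a * g * a⁻¹ * g⁻¹ with hc_def
  have hcZ : c ∈ Subgroup.center G := ha2' g
  have hcc : ∀ y : G, Commute y c := fun y => Subgroup.mem_center_iff.mp hcZ y
  have hc1 : c ≠ 1 := by
    intro h
    apply hg
    have h2 : a * g = c * (g * a) := by rw [hc_def]; group
    rw [h2, h, one_mul]
  have hconj1 : a * g * a⁻¹ = c * g := by rw [hc_def]; group
  have hconj2 : g⁻¹ * a * g = c * a := by
    have h2 : g⁻¹ * a * g = g⁻¹ * c * g * a := by rw [hc_def]; group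
    rw [h2, mul_assoc g⁻¹ c g, ← (hcc g).eq, inv_mul_cancel_left]
  have hcp : c ^ p = 1 := by
    have h1 : g⁻¹ * a ^ p * g = (c * a) ^ p := by
      rw [← hconj2]
      have h := conj_pow (a := g⁻¹) (b := a) (i := p)
      rw [inv_inv] at h
      exact h.symm
    rw [((hcc a).symm).mul_pow] at h1
    have h2 : g⁻¹ * a ^ p * g = a ^ p := by
      rw [mul_assoc, ← (Subgroup.mem_center_iff.mp hapZ g), inv_mul_cancel_left]
    rw [h2] at h1
    exact (mul_eq_right.mp h1.symm)
  set n := orderOf (QuotientGroup.mk' (Subgroup.center G) g) with hn_def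
  have hgnZ : g ^ n ∈ Subgroup.center G := by
    have h1 := pow_orderOf_eq_one (QuotientGroup.mk' (Subgroup.center G) g)
    rw [← map_pow] at h1
    exact (QuotientGroup.eq_one_iff _).mp h1
  have hcn : c ^ n = 1 := by
    have h1 : a * g ^ n * a⁻¹ = (c * g) ^ n := by
      rw [← hconj1, conj_pow]
    rw [((hcc g).symm).mul_pow] at h1
    have h2 : a * g ^ n * a⁻¹ = g ^ n := by
      rw [(Subgroup.mem_center_iff.mp hgnZ a), mul_inv_cancel_right]
    rw [h2] at h1
    exact (mul_eq_right.mp h1.symm)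
  have hordc : orderOf c = p := by
    have := Fact.mk hp
    exact orderOf_eq_prime hcp hc1
  have hpn : p ∣ n := hordc ▸ orderOf_dvd_of_pow_eq_one hcn
  have hordH := orderOf_pow_div _ p hp hpn
  rw [← map_pow] at hordH
  set h := g ^ (n / p) with hh_def
  have hcard : Nat.card ↥(zx a) = Nat.card ↥(zx h) := by
    rw [card_zx a p hordA, card_zx h p hordH]
  obtain ⟨g₀, hg₀⟩ := hB (zx a) (zx h) (zx_comm a) (zx_comm h) hcard
  have hle : zx h ≤ zx a := by
    intro y hy
    rw [hg₀] at hy
    obtain ⟨w, hw, rfl⟩ := hy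
    exact zx_conj_mem a ha2' g₀ w hw
  have heq : zx h = zx a := Subgroup.eq_of_le_of_card_ge hle hcard.le
  have haa : a ∈ zx a := (mem_zx_iff a a).mpr ⟨1, 1, one_mem _, by simp⟩
  rw [← heq, mem_zx_iff] at haa
  obtain ⟨j, z, hz, haj⟩ := haa
  apply hg
  have h1 : Commute g (h ^ j) := by
    have : Commute g h := (Commute.refl g).pow_right _
    exact this.zpow_right j
  have h2 : Commute g z := Subgroup.mem_center_iff.mp hz g
  rw [haj]
  exact (h1.mul_right h2).eq

end aux

/-- A finite nilpotent group in which any two abelian subgroups of the same order are conjugate is cyclic. -/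
theorem result {G : Type*} [Group G] [Finite G] (hB : ∀ A B : Subgroup G, IsMulCommutative ↥A → IsMulCommutative ↥B → Nat.card ↥A = Nat.card ↥B → ∃ g : G, B = A.map (MulAut.conj g).toMonoidHom) (hnil : Group.IsNilpotent G) : IsCyclic G := by
  exact cyclic_of_comm hB (comm_of_B hB hnil)

end Cfsg.Agent.S3910
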