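import Cfsg.Statements.S3917
import Mathlib
-- import your own Cfsg.Agent.* helpers here

set_option autoImplicit false
open Cfsg

namespace Cfsg.Agent.S3917

/-- Say that a group has self-centralizing non-cyclic subgroups when every non-cyclic subgroup H satisfies C_G(H) ≤ H. A finite abelian group with self-centralizing non-cyclic subgroups is cyclic or elementary abelian of order p² for a prime p. -/
theorem result {G : Type*} [CommGroup G] [Finite G] (hX : (∀ H : Subgroup G, ¬ IsCyclic ↥H → Subgroup.centralizer (H : Set G) ≤ H)) :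
    IsCyclic G ∨ ∃ p : ℕ, p.Prime ∧ Nat.card G = p ^ 2 ∧ Monoid.exponent G = p := by
  by_cases hc : IsCyclic G
  · exact Or.inl hc
  right
  have hX' : ∀ H : Subgroup G, ¬ IsCyclic ↥H → H = ⊤ := by
    intro H hH
    rw [eq_top_iff]
    refine le_trans ?_ (hX H hH)
    intro a _
    rw [Subgroup.mem_centralizer_iff]
    intro h _
    exact mul_comm h a
  obtain ⟨g, hg⟩ := Monoid.exists_orderOf_eq_exponent (G := G) Monoid.ExponentExists.of_finite
  have hgtop : Subgroup.zpowers g ≠ ⊤ := fun h => hc (isCyclic_iff_exists_zpowers_eq_top.mpr ⟨g, h⟩)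
  have hidx : (Subgroup.zpowers g).index ≠ 1 := fun h => hgtop (Subgroup.index_eq_one.mp h)
  obtain ⟨p, hp, hpd⟩ := Nat.exists_prime_and_dvd hidx
  haveI : Fact p.Prime := ⟨hp⟩
  rw [Subgroup.index_eq_card] at hpd
  obtain ⟨u, hu⟩ := exists_prime_orderOf_dvd_card' p hpd
  obtain ⟨x, rfl⟩ := QuotientGroup.mk_surjective u
  have hxg : x ∉ Subgroup.zpowers g := by
    intro h
    have h1 : (x : G ⧸ Subgroup.zpowers g) = 1 := (QuotientGroup.eq_one_iff x).mpr h
    rw [h1, orderOf_one] at hu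
    exact hp.one_lt.ne hu
  have hxp : x ^ p ∈ Subgroup.zpowers g := by
    rw [← QuotientGroup.eq_one_iff, QuotientGroup.mk_pow, ← hu, pow_orderOf_eq_one]
  obtain ⟨k, hk⟩ := Subgroup.mem_zpowers_iff.mp hxp
  have hepos : 0 < Monoid.exponent G := by
    rw [← hg]
    exact orderOf_pos g
  have hpe : p ∣ Monoid.exponent G := by
    by_contra hpe
    have hnd : ¬ p ∣ orderOf x := fun h => hpe (dvd_trans h (Monoid.order_dvd_exponent x))
    have hcop : p.Coprime (orderOf x) := (Nat.Prime.coprime_iff_not_dvd hp).mpr hnd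
    have hb := Nat.gcd_eq_gcd_ab p (orderOf x)
    rw [hcop] at hb
    apply hxg
    have h1 : x = (x ^ p) ^ (Nat.gcdA p (orderOf x)) := by
      conv_lhs => rw [← zpow_one x]
      have h2 : (1 : ℤ) = (p : ℤ) * Nat.gcdA p (orderOf x) + (orderOf x : ℤ) * Nat.gcdB p (orderOf x) := by
        exact_mod_cast hb
      rw [h2, zpow_add, zpow_mul, zpow_mul, zpow_natCast, zpow_natCast, pow_orderOf_eq_one, one_zpow,
        mul_one]
    rw [h1]
    exact Subgroup.zpow_mem _ hxp _
  obtain ⟨c, hcdef⟩ := hpe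
  have hcpos : 0 < c := by
    rcases Nat.eq_zero_or_pos c with h | h
    · rw [h, mul_zero] at hcdef
      omega
    · exact h
  have hpk : (p : ℤ) ∣ k := by
    have h1 : x ^ Monoid.exponent G = 1 := Monoid.pow_exponent_eq_one x
    rw [hcdef, pow_mul, ← hk, ← zpow_natCast, ← zpow_mul] at h1
    have h2 := orderOf_dvd_iff_zpow_eq_one.mpr h1
    rw [hg, hcdef] at h2
    push_cast at h2
    exact Int.dvd_of_mul_dvd_mul_right (by exact_mod_cast hcpos.ne') h2
  obtain ⟨j, hj⟩ := hpk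
  have hy : x * (g ^ j)⁻¹ ∉ Subgroup.zpowers g := by
    intro h
    apply hxg
    have h1 := (Subgroup.zpowers g).mul_mem h (Subgroup.zpow_mem _ (Subgroup.mem_zpowers g) j)
    simpa using h1
  have hyp : (x * (g ^ j)⁻¹) ^ p = 1 := by
    rw [mul_pow, ← hk, inv_pow, ← zpow_natCast (g ^ j), ← zpow_mul, hj, mul_comm j (p : ℤ),
      mul_inv_cancel]
  have hy1 : x * (g ^ j)⁻¹ ≠ 1 := by
    intro h
    apply hy
    rw [h]
    exact Subgroup.one_mem _
  have hyo : orderOf (x * (g ^ j)⁻¹) = p := orderOf_eq_prime hyp hy1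
  have hg1o : orderOf (g ^ c) = p := by
    rw [orderOf_pow_of_dvd hcpos.ne' (by rw [hg, hcdef]; exact Dvd.intro_left p rfl), hg, hcdef,
      Nat.mul_div_cancel _ hcpos]
  have hg1p : (g ^ c) ^ p = 1 := by rw [← hg1o, pow_orderOf_eq_one]
  have hHle : Subgroup.zpowers (g ^ c) ⊔ Subgroup.zpowers (x * (g ^ j)⁻¹) ≤ (powMonoidHom p : G →* G).ker := by
    apply sup_le
    · rw [Subgroup.zpowers_le, MonoidHom.mem_ker]
      exact hg1p
    · rw [Subgroup.zpowers_le, MonoidHom.mem_ker]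
      exact hyp
  have hg1g : Subgroup.zpowers (g ^ c) ≤ Subgroup.zpowers g :=
    Subgroup.zpowers_le.mpr (Subgroup.pow_mem _ (Subgroup.mem_zpowers g) c)
  have hHnc : ¬ IsCyclic ↥(Subgroup.zpowers (g ^ c) ⊔ Subgroup.zpowers (x * (g ^ j)⁻¹)) := by
    intro hcyc
    obtain ⟨h, hh⟩ := IsCyclic.exists_generator (α := ↥(Subgroup.zpowers (g ^ c) ⊔ Subgroup.zpowers (x * (g ^ j)⁻¹)))
    have h1 := orderOf_eq_card_of_forall_mem_zpowers hh
    have h2 : h ^ p = 1 := by
      apply Subtype.ext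
      have h3 := hHle h.2
      rw [MonoidHom.mem_ker] at h3
      simpa using h3
    have h4 : Nat.card ↥(Subgroup.zpowers (g ^ c) ⊔ Subgroup.zpowers (x * (g ^ j)⁻¹)) ≤ p := by
      rw [← h1]
      exact Nat.le_of_dvd hp.pos (orderOf_dvd_of_pow_eq_one h2)
    have h5 : Subgroup.zpowers (g ^ c) = Subgroup.zpowers (g ^ c) ⊔ Subgroup.zpowers (x * (g ^ j)⁻¹) := by
      apply Subgroup.eq_of_le_of_card_ge le_sup_left
      rw [Nat.card_zpowers, hg1o]
      exact h4
    apply hy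
    apply hg1g
    rw [h5]
    exact le_sup_right (a := Subgroup.zpowers (g ^ c)) (Subgroup.mem_zpowers _)
  have hHtop := hX' _ hHnc
  have hexp : ∀ a : G, a ^ p = 1 := by
    intro a
    have h1 : a ∈ Subgroup.zpowers (g ^ c) ⊔ Subgroup.zpowers (x * (g ^ j)⁻¹) := by
      rw [hHtop]
      trivial
    have h2 := hHle h1
    rw [MonoidHom.mem_ker] at h2
    exact h2
  have hexp' : Monoid.exponent G = p := by
    apply Nat.dvd_antisymm (Monoid.exponent_dvd_of_forall_pow_eq_one hexp)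
    rw [hcdef]
    exact Dvd.intro c rfl
  have hdisj : Disjoint (Subgroup.zpowers (g ^ c)) (Subgroup.zpowers (x * (g ^ j)⁻¹)) := by
    rw [disjoint_iff]
    have h1 : Nat.card ↥(Subgroup.zpowers (g ^ c) ⊓ Subgroup.zpowers (x * (g ^ j)⁻¹)) ∣ p := by
      have h2 := Subgroup.card_dvd_of_le (inf_le_right : Subgroup.zpowers (g ^ c) ⊓ Subgroup.zpowers (x * (g ^ j)⁻¹) ≤ Subgroup.zpowers (x * (g ^ j)⁻¹))
      rwa [Nat.card_zpowers, hyo] at h2
    rcases (Nat.dvd_prime hp).mp h1 with h3 | h3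
    · exact Subgroup.card_eq_one.mp h3
    · exfalso
      have h4 : Subgroup.zpowers (g ^ c) ⊓ Subgroup.zpowers (x * (g ^ j)⁻¹) = Subgroup.zpowers (x * (g ^ j)⁻¹) := by
        apply Subgroup.eq_of_le_of_card_ge inf_le_right
        rw [Nat.card_zpowers, hyo, h3]
      apply hy
      apply hg1g
      have h5 : x * (g ^ j)⁻¹ ∈ Subgroup.zpowers (g ^ c) ⊓ Subgroup.zpowers (x * (g ^ j)⁻¹) := by
        rw [h4]
        exact Subgroup.mem_zpowers _
      exact h5.1
  have hcompl : (Subgroup.zpowers (g ^ c)).IsComplement' (Subgroup.zpowers (x * (g ^ j)⁻¹)) := by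
    apply Subgroup.isComplement'_of_disjoint_and_mul_eq_univ hdisj
    apply Set.eq_univ_of_forall
    intro a
    have h1 : a ∈ Subgroup.zpowers (g ^ c) ⊔ Subgroup.zpowers (x * (g ^ j)⁻¹) := by
      rw [hHtop]
      trivial
    obtain ⟨s, hs, t, ht, rfl⟩ := Subgroup.mem_sup.mp h1
    exact Set.mem_mul.mpr ⟨s, hs, t, ht, rfl⟩
  have hcard := hcompl.card_mul_card
  rw [Nat.card_zpowers, Nat.card_zpowers, hg1o, hyo] at hcard
  exact ⟨p, hp, by rw [← hcard, sq], hexp'⟩

end Cfsg.Agent.S3917
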