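import Cfsg.Statements.S3918
import Cfsg.Agent.Lib.Helper69.PClassCount
import Cfsg.Agent.S0636

set_option autoImplicit false
open Cfsg

namespace Cfsg.Agent.S3918


section aux

open Cfsg.Agent.Lib.Helper69

variable {G : Type*} [Group G] [Finite G] {p : ℕ} [Fact p.Prime]

theorem card_lt_of_lt' {H K : Subgroup G} (h : H < K) : Nat.card ↥H < Nat.card ↥K := by
  by_contra hge
  push Not at hge
  exact h.ne (Subgroup.eq_of_le_of_card_ge h.le hge)

/-- a nontrivial normal subgroup of a `p`-group contains a nontrivial central element -/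
theorem exists_central_mem (hG : IsPGroup p G) (A : Subgroup G) [A.Normal]
    (hA : p ∣ Nat.card ↥A) : ∃ z ∈ A, z ≠ 1 ∧ z ∈ Subgroup.center G := by
  have hN : ∀ g ∈ (⊤ : Subgroup G), ∀ x ∈ A, g * x * g⁻¹ ∈ A :=
    fun g _ x hx => (inferInstance : A.Normal).conj_mem x hx g
  let _ := conjActionOn (⊤ : Subgroup G) A hN
  have hfix : (1 : ↥A) ∈ MulAction.fixedPoints ↥(⊤ : Subgroup G) ↥A := by
    intro g
    apply Subtype.ext
    show g.1 * (1 : G) * g.1⁻¹ = 1
    simp
  obtain ⟨b, hb, hb1⟩ :=
    (hG.to_subgroup (⊤ : Subgroup G)).exists_fixed_point_of_prime_dvd_card_of_fixed_point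
      (α := ↥A) hA hfix
  refine ⟨b.1, b.2, ?_, ?_⟩
  · intro h
    exact hb1 (Subtype.ext h.symm)
  · rw [Subgroup.mem_center_iff]
    intro g
    have h1 := hb ⟨g, Subgroup.mem_top g⟩
    have h2 : g * b.1 * g⁻¹ = b.1 := congrArg Subtype.val h1
    rw [mul_inv_eq_iff_eq_mul] at h2
    exact h2

theorem index_centralizer_le (A : Subgroup G) [A.Normal] (e : G) (he : e ∈ A) (he1 : e ≠ 1) :
    (Subgroup.centralizer ({e} : Set G)).index + 1 ≤ Nat.card ↥A := by
  classical
  let f : G ⧸ Subgroup.centralizer ({e} : Set G) → {a : ↥A // a ≠ 1} :=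
    Quotient.lift (fun g : G => (⟨⟨g * e * g⁻¹, (inferInstance : A.Normal).conj_mem e he g⟩, by
      intro h
      have h1 : g * e * g⁻¹ = 1 := congrArg Subtype.val h
      apply he1
      have h2 : e = g⁻¹ * (g * e * g⁻¹) * g := by group
      rw [h2, h1]
      group⟩ : {a : ↥A // a ≠ 1}))
      (by
        intro a b hab
        have hab' : a⁻¹ * b ∈ Subgroup.centralizer ({e} : Set G) :=
          QuotientGroup.leftRel_apply.mp hab
        rw [Subgroup.mem_centralizer_iff] at hab'
        have h1 := hab' e rfl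
        apply Subtype.ext
        apply Subtype.ext
        show a * e * a⁻¹ = b * e * b⁻¹
        have h2 : b * e * b⁻¹ = a * ((a⁻¹ * b) * e) * b⁻¹ := by group
        rw [h2, ← h1]
        group)
  have hinj : Function.Injective f := by
    intro x y
    induction x using Quotient.inductionOn with
    | _ a =>
      induction y using Quotient.inductionOn with
      | _ b =>
        intro hxy
        have h1 : a * e * a⁻¹ = b * e * b⁻¹ :=
          congrArg (fun t : {a : ↥A // a ≠ 1} => (t.1.1 : G)) hxy
        apply Quotient.sound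
        apply QuotientGroup.leftRel_apply.mpr
        rw [Subgroup.mem_centralizer_iff]
        intro u hu
        rw [Set.mem_singleton_iff] at hu
        subst hu
        have h2 : a⁻¹ * b * u = a⁻¹ * (b * u * b⁻¹) * b := by group
        rw [h2, ← h1]
        group
  have h1 := Nat.card_le_card_of_injective f hinj
  have h2 : Nat.card {a : ↥A // a ≠ 1} + 1 = Nat.card ↥A := by
    have := Fintype.ofFinite ↥A
    rw [Nat.card_eq_fintype_card, Nat.card_eq_fintype_card, Fintype.card_subtype_compl,
      Fintype.card_subtype_eq]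
    have : 0 < Fintype.card ↥A := Fintype.card_pos
    omega
  have h3 : (Subgroup.centralizer ({e} : Set G)).index =
      Nat.card (G ⧸ Subgroup.centralizer ({e} : Set G)) := rfl
  omega

theorem dir1 (hp : p ≠ 2) (hG : IsPGroup p G) (hna : ¬ IsMulCommutative G)
    (h : ∀ H : Subgroup G, ¬ IsCyclic ↥H → Subgroup.centralizer (H : Set G) ≤ H) :
    Nat.card G = p ^ 3 := by
  have hpp := (Fact.out : p.Prime)
  have hnc : ¬ IsCyclic ↥(⊤ : Subgroup G) := by
    intro hc
    apply hna
    have : IsCyclic G := by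
      obtain ⟨g, hg⟩ := hc
      exact ⟨g.1, fun x => by
        obtain ⟨k, hk⟩ := Subgroup.mem_zpowers_iff.mp (hg ⟨x, Subgroup.mem_top x⟩)
        exact Subgroup.mem_zpowers_iff.mpr ⟨k, by simpa using congrArg Subtype.val hk⟩⟩
    exact IsCyclic.isMulCommutative
  obtain ⟨A, -, hAn, hAe, hAcard⟩ := Cfsg.Agent.S0636.result hp hG (⊤ : Subgroup G) hnc
  have hAnc : ¬ IsCyclic ↥A := by
    intro hc
    obtain ⟨g, hg⟩ := hc.exists_generator
    have hord : orderOf g = Nat.card ↥A := orderOf_eq_card_of_forall_mem_zpowers hg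
    have hgp : g ^ p = 1 := by
      apply Subtype.ext
      rw [Subgroup.coe_pow, Subgroup.coe_one]
      exact hAe.2 g.1 g.2
    have h1 := orderOf_le_of_pow_eq_one hpp.pos hgp
    rw [hord, hAcard] at h1
    have h2 : p < p ^ 2 := by
      have := hpp.two_le
      nlinarith
    omega
  have hCA := h A hAnc
  obtain ⟨z, hzA, hz1, hzZ⟩ := exists_central_mem hG A (by rw [hAcard]; exact dvd_pow_self p two_ne_zero)
  have hzp : z ^ p = 1 := hAe.2 z hzA
  have hzord : orderOf z = p := orderOf_eq_prime hzp hz1
  -- an element of A outside ⟨z⟩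
  obtain ⟨e, heA, hez⟩ : ∃ e ∈ A, e ∉ Subgroup.zpowers z := by
    by_contra hno
    push Not at hno
    have hle : A ≤ Subgroup.zpowers z := hno
    have h1 := Subgroup.card_le_of_le hle
    rw [Nat.card_zpowers, hzord, hAcard] at h1
    have h2 : p < p ^ 2 := by
      have := hpp.two_le
      nlinarith
    omega
  have he1 : e ≠ 1 := by
    rintro rfl
    exact hez (one_mem _)
  -- C_G(e) ≤ C_G(A)
  have hCe : Subgroup.centralizer ({e} : Set G) ≤ Subgroup.centralizer (A : Set G) := by
    intro g hg
    have hzg : z ∈ A ⊓ Subgroup.centralizer ({g} : Set G) := by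
      refine Subgroup.mem_inf.mpr ⟨hzA, ?_⟩
      rw [Subgroup.mem_centralizer_iff]
      intro u hu
      rw [Set.mem_singleton_iff] at hu
      subst hu
      exact Subgroup.mem_center_iff.mp hzZ u
    have heg : e ∈ A ⊓ Subgroup.centralizer ({g} : Set G) := by
      refine Subgroup.mem_inf.mpr ⟨heA, ?_⟩
      rw [Subgroup.mem_centralizer_iff]
      intro u hu
      rw [Set.mem_singleton_iff] at hu
      subst hu
      exact ((Subgroup.mem_centralizer_iff.mp hg) e rfl).symm
    have hlt : Subgroup.zpowers z < A ⊓ Subgroup.centralizer ({g} : Set G) := by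
      refine lt_of_le_of_ne (Subgroup.zpowers_le.mpr hzg) ?_
      intro heq
      exact hez (heq ▸ heg)
    have hcardlt := card_lt_of_lt' hlt
    rw [Nat.card_zpowers, hzord] at hcardlt
    have hdvd : Nat.card ↥(A ⊓ Subgroup.centralizer ({g} : Set G)) ∣ p ^ 2 := by
      rw [← hAcard]
      exact Subgroup.card_dvd_of_le inf_le_left
    obtain ⟨k, hk2, hk⟩ := (Nat.dvd_prime_pow hpp).mp hdvd
    have hk2' : k = 2 := by
      by_contra hne
      have hk1 : k ≤ 1 := by omega
      have := Nat.pow_le_pow_right hpp.pos hk1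
      rw [pow_one] at this
      omega
    have heq : A ⊓ Subgroup.centralizer ({g} : Set G) = A := by
      apply Subgroup.eq_of_le_of_card_ge inf_le_left
      rw [hk, hk2', hAcard]
    rw [Subgroup.mem_centralizer_iff]
    intro a ha
    have ha' : a ∈ A ⊓ Subgroup.centralizer ({g} : Set G) := by
      rw [heq]
      exact ha
    exact ((Subgroup.mem_centralizer_iff.mp ha'.2) g rfl).symm
  have hCle : Nat.card ↥(Subgroup.centralizer ({e} : Set G)) ≤ p ^ 2 := by
    rw [← hAcard]
    exact Subgroup.card_le_of_le (hCe.trans hCA)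
  have hidx := index_centralizer_le A e heA he1
  rw [hAcard] at hidx
  obtain ⟨j, hj⟩ := hG.index (Subgroup.centralizer ({e} : Set G))
  have hj1 : j ≤ 1 := by
    by_contra hgt
    have : p ^ 2 ≤ p ^ j := Nat.pow_le_pow_right hpp.pos (by omega)
    omega
  have hidxp : (Subgroup.centralizer ({e} : Set G)).index ≤ p := by
    rw [hj]
    calc p ^ j ≤ p ^ 1 := Nat.pow_le_pow_right hpp.pos hj1
      _ = p := pow_one p
  have hmul := Subgroup.card_mul_index (Subgroup.centralizer ({e} : Set G))
  have hle : Nat.card G ≤ p ^ 3 := by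
    rw [← hmul]
    calc Nat.card ↥(Subgroup.centralizer ({e} : Set G)) *
          (Subgroup.centralizer ({e} : Set G)).index ≤ p ^ 2 * p := Nat.mul_le_mul hCle hidxp
      _ = p ^ 3 := by ring
  obtain ⟨k, hk⟩ := IsPGroup.iff_card.mp hG
  have hk3 : 3 ≤ k := by
    by_contra hlt
    apply hna
    have hk2 : k ≤ 2 := by omega
    interval_cases k
    · have : Subsingleton G := by
        rw [pow_zero] at hk
        exact (Nat.card_eq_one_iff_unique.mp hk).1
      exact ⟨⟨fun a b => Subsingleton.elim _ _⟩⟩
    · rw [pow_one] at hk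
      have := isCyclic_of_prime_card hk
      exact IsCyclic.isMulCommutative
    · exact IsPGroup.isMulCommutative_of_card_eq_prime_sq hk
  rw [hk] at hle ⊢
  have hk3' : k ≤ 3 := by
    by_contra hgt
    have : p ^ 4 ≤ p ^ k := Nat.pow_le_pow_right hpp.pos (by omega)
    have h2 : p ^ 3 < p ^ 4 := Nat.pow_lt_pow_right hpp.one_lt (by norm_num)
    omega
  have : k = 3 := by omega
  rw [this]

theorem dir2 (hna : ¬ IsMulCommutative G) (hcard : Nat.card G = p ^ 3) (H : Subgroup G)
    (hH : ¬ IsCyclic ↥H) : Subgroup.centralizer (H : Set G) ≤ H := by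
  have hpp := (Fact.out : p.Prime)
  have hdvd : Nat.card ↥H ∣ p ^ 3 := hcard ▸ Subgroup.card_subgroup_dvd_card H
  obtain ⟨k, hk3, hk⟩ := (Nat.dvd_prime_pow hpp).mp hdvd
  have hk2 : 2 ≤ k := by
    by_contra hlt
    apply hH
    have hk1 : k ≤ 1 := by omega
    apply isCyclic_of_card_dvd_prime (p := p)
    rw [hk]
    calc p ^ k ∣ p ^ 1 := pow_dvd_pow p hk1
      _ = p := pow_one p
  rcases Nat.lt_or_ge k 3 with hlt | hge
  · have hk2' : k = 2 := by omega
    rw [hk2'] at hk
    have hHc : IsMulCommutative ↥H := IsPGroup.isMulCommutative_of_card_eq_prime_sq hk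
    have hHC : H ≤ Subgroup.centralizer (H : Set G) := by
      intro x hx
      rw [Subgroup.mem_centralizer_iff]
      intro y hy
      exact congrArg Subtype.val (mul_comm' (⟨y, hy⟩ : ↥H) ⟨x, hx⟩)
    by_contra hnot
    have hlt' : H < Subgroup.centralizer (H : Set G) := lt_of_le_of_ne hHC (fun heq => hnot heq.ge)
    have h1 := card_lt_of_lt' hlt'
    have hdvd' : Nat.card ↥(Subgroup.centralizer (H : Set G)) ∣ p ^ 3 :=
      hcard ▸ Subgroup.card_subgroup_dvd_card _
    obtain ⟨j, hj3, hj⟩ := (Nat.dvd_prime_pow hpp).mp hdvd'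
    have hj3' : j = 3 := by
      by_contra hne
      have hj2 : j ≤ 2 := by omega
      have := Nat.pow_le_pow_right hpp.pos hj2
      rw [hk, hj] at h1
      omega
    have htop : Subgroup.centralizer (H : Set G) = ⊤ := by
      apply Subgroup.eq_top_of_card_eq
      rw [hj, hj3', hcard]
    -- H ≤ center
    have hHZ : H ≤ Subgroup.center G := by
      intro x hx
      rw [Subgroup.mem_center_iff]
      intro g
      have hg : g ∈ Subgroup.centralizer (H : Set G) := htop ▸ Subgroup.mem_top g
      exact ((Subgroup.mem_centralizer_iff.mp hg) x hx).symm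
    have hZcard := Subgroup.card_le_of_le hHZ
    rw [hk] at hZcard
    have hZmul := Subgroup.card_mul_index (Subgroup.center G)
    rw [hcard] at hZmul
    have hidx : (Subgroup.center G).index ∣ p := by
      have hZdvd : Nat.card ↥(Subgroup.center G) ∣ p ^ 3 := Dvd.intro _ hZmul
      obtain ⟨i, hi3, hi⟩ := (Nat.dvd_prime_pow hpp).mp hZdvd
      have hi2 : 2 ≤ i := by
        by_contra hlt2
        have hi1 : i ≤ 1 := by omega
        have := Nat.pow_le_pow_right hpp.pos hi1
        rw [pow_one] at this
        have h2 : p < p ^ 2 := by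
          have := hpp.two_le
          nlinarith
        omega
      rw [hi] at hZmul
      obtain ⟨d, rfl⟩ := Nat.exists_eq_add_of_le hi2
      have hd : d ≤ 1 := by omega
      have e1 : p ^ 3 = p ^ (2 + d) * p ^ (1 - d) := by
        rw [← pow_add]
        congr 1
        omega
      rw [e1] at hZmul
      have := Nat.eq_of_mul_eq_mul_left (pow_pos hpp.pos _) hZmul
      rw [this]
      calc p ^ (1 - d) ∣ p ^ 1 := pow_dvd_pow p (by omega)
        _ = p := pow_one p
    apply hna
    have : IsCyclic (G ⧸ Subgroup.center G) := isCyclic_of_card_dvd_prime (p := p) hidx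
    exact isMulCommutative_of_isCyclic_quotient_center_self G
  · have hk3' : k = 3 := by omega
    have htop : H = ⊤ := by
      apply Subgroup.eq_top_of_card_eq
      rw [hk, hk3', hcard]
    rw [htop]
    exact le_top

end aux

/-- Say that a group has self-centralizing non-cyclic subgroups when every non-cyclic subgroup H satisfies C_G(H) ≤ H. For an odd prime p, a finite non-abelian p-group has self-centralizing non-cyclic subgroups if and only if it has order p³. -/
theorem result {G : Type*} [Group G] [Finite G] {p : ℕ} [Fact p.Prime] (hp : p ≠ 2) (hG : IsPGroup p G) (hna : ¬ IsMulCommutative G) :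
    (∀ H : Subgroup G, ¬ IsCyclic ↥H → Subgroup.centralizer (H : Set G) ≤ H) ↔ Nat.card G = p ^ 3 := by
  exact ⟨fun h => dir1 hp hG hna h, fun hcard H hH => dir2 hna hcard H hH⟩

end Cfsg.Agent.S3918
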