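import Cfsg.Statements.S3920
import Mathlib

set_option autoImplicit false
open Cfsg

namespace Cfsg.Agent.S3920


section aux

open DihedralGroup

theorem val_of_double {n : ℕ} [NeZero n] (x : ZMod n) (hx0 : x ≠ 0) (hx : x + x = 0) :
    2 * x.val = n := by
  have h1 : ((x.val + x.val : ℕ) : ZMod n) = 0 := by
    rw [Nat.cast_add, ZMod.natCast_zmod_val, hx]
  rw [ZMod.natCast_eq_zero_iff] at h1
  have h2 : x.val < n := ZMod.val_lt x
  have h3 : x.val ≠ 0 := by rwa [Ne, ZMod.val_eq_zero]
  obtain ⟨c, hc⟩ := h1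
  have hc1 : c = 1 := by
    rcases Nat.lt_or_ge c 1 with h | h
    · have : c = 0 := by omega
      subst this
      omega
    · rcases Nat.lt_or_ge c 2 with h' | h'
      · omega
      · exfalso
        have : n * 2 ≤ n * c := Nat.mul_le_mul_left n h'
        omega
  subst hc1
  omega

/-- index of an element of the dihedral group -/
def idx {n : ℕ} : DihedralGroup n → ZMod n
  | r i => i
  | sr i => i

theorem dir2 (n : ℕ) (hn : 3 ≤ n) (hcase : Odd n ∨ ∃ k : ℕ, n = 2 ^ k)
    (H : Subgroup (DihedralGroup n)) (hH : ¬ IsCyclic ↥H) :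
    Subgroup.centralizer (H : Set (DihedralGroup n)) ≤ H := by
  have : NeZero n := ⟨by omega⟩
  obtain ⟨i, hi⟩ : ∃ i, sr i ∈ H := by
    by_contra hno
    push Not at hno
    apply hH
    have hle : H ≤ Subgroup.zpowers (r 1 : DihedralGroup n) := by
      intro x hx
      cases x with
      | r j =>
        rw [Subgroup.mem_zpowers_iff]
        exact ⟨j.val, by rw [zpow_natCast, r_one_pow, ZMod.natCast_zmod_val]⟩
      | sr j => exact absurd hx (hno j)
    exact Subgroup.isCyclic_of_le hle
  obtain ⟨d, hd0, hd⟩ : ∃ d, d ≠ 0 ∧ r d ∈ H := by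
    by_contra hno
    push Not at hno
    apply hH
    have hle : H ≤ Subgroup.zpowers (sr i : DihedralGroup n) := by
      intro x hx
      cases x with
      | r j =>
        have : j = 0 := by
          by_contra hj
          exact hno j hj hx
        rw [this, r_zero]
        exact one_mem _
      | sr j =>
        have h1 : sr i * sr j ∈ H := mul_mem hi hx
        rw [sr_mul_sr] at h1
        have : j - i = 0 := by
          by_contra hj
          exact hno _ hj h1
        rw [sub_eq_zero] at this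
        rw [this]
        exact Subgroup.mem_zpowers _
    exact Subgroup.isCyclic_of_le hle
  have key : ∀ x : ZMod n, x + x = 0 → r x ∈ H := by
    intro x hx
    by_cases hx0 : x = 0
    · rw [hx0, r_zero]
      exact one_mem _
    have hval := val_of_double x hx0 hx
    rcases hcase with hodd | ⟨k, hk⟩
    · exfalso
      rcases hodd with ⟨t, ht⟩
      omega
    · have hdvd : addOrderOf d ∣ 2 ^ k := by
        have h0 := addOrderOf_dvd_natCard d
        rw [Nat.card_zmod] at h0
        exact h0.trans (dvd_of_eq hk)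
      obtain ⟨e, hek, he⟩ := (Nat.dvd_prime_pow Nat.prime_two).mp hdvd
      have he0 : e ≠ 0 := by
        rintro rfl
        rw [pow_zero, AddMonoid.addOrderOf_eq_one_iff] at he
        exact hd0 he
      have h2e : 2 ^ e = 2 * 2 ^ (e - 1) := by
        rw [← pow_succ', (by omega : e - 1 + 1 = e)]
      have hmm : (2 ^ (e - 1)) • d + (2 ^ (e - 1)) • d = 0 := by
        rw [← add_nsmul, ← two_mul, ← h2e, ← he]
        exact addOrderOf_nsmul_eq_zero d
      have hm0 : (2 ^ (e - 1)) • d ≠ 0 := by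
        intro h
        have h1 := addOrderOf_dvd_of_nsmul_eq_zero h
        rw [he] at h1
        have h2 := Nat.le_of_dvd (by positivity) h1
        have h3 : 0 < 2 ^ (e - 1) := by positivity
        omega
      have hval2 := val_of_double _ hm0 hmm
      have hxm : x = (2 ^ (e - 1)) • d := ZMod.val_injective n (by omega)
      rw [hxm]
      have h4 : r ((2 ^ (e - 1)) • d) = (r d) ^ (2 ^ (e - 1)) := by
        rw [r_pow]
        congr 1
        rw [nsmul_eq_mul, mul_comm]
      rw [h4]
      exact pow_mem hd _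
  intro c hc
  rw [Subgroup.mem_centralizer_iff] at hc
  cases c with
  | r m =>
    apply key
    have h1 := hc (sr i) hi
    rw [sr_mul_r, r_mul_sr] at h1
    have h2 : i + m = i - m := by injection h1
    have h3 : m + m = (i + m) - (i - m) := by ring
    rw [h3, h2, sub_self]
  | sr m =>
    have h1 := hc (sr i) hi
    rw [sr_mul_sr, sr_mul_sr] at h1
    have h2 : m - i = i - m := by injection h1
    have h3 : (m - i) + (m - i) = 0 := by
      nth_rewrite 2 [h2]
      ring
    have h4 := key _ h3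
    have h5 : sr i * r (m - i) ∈ H := mul_mem hi h4
    rw [sr_mul_r] at h5
    have h6 : i + (m - i) = m := by ring
    rwa [h6] at h5

theorem dir1 (n : ℕ) (hn : 3 ≤ n)
    (h : ∀ H : Subgroup (DihedralGroup n), ¬ IsCyclic ↥H →
      Subgroup.centralizer (H : Set (DihedralGroup n)) ≤ H) :
    Odd n ∨ ∃ k : ℕ, n = 2 ^ k := by
  by_contra hcon
  push Not at hcon
  obtain ⟨hodd, hpow⟩ := hcon
  have : NeZero n := ⟨by omega⟩
  obtain ⟨a, m, hm, hnam⟩ := Nat.exists_eq_two_pow_mul_odd (by omega : n ≠ 0)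
  have ha : a ≠ 0 := by
    rintro rfl
    apply hodd
    rw [hnam]
    simpa using hm
  have hm1 : m ≠ 1 := by
    rintro rfl
    exact hpow a (by rw [hnam, mul_one])
  have hm3 : 3 ≤ m := by
    rcases hm with ⟨t, rfl⟩
    omega
  have hdvd : 2 ^ a ∣ n := Dvd.intro m hnam.symm
  have h2a : 2 ^ a = 2 * 2 ^ (a - 1) := by
    rw [← pow_succ', (by omega : a - 1 + 1 = a)]
  have hn2 : n / 2 = 2 ^ (a - 1) * m := by
    rw [hnam, h2a, mul_assoc, Nat.mul_div_cancel_left _ (by norm_num : 0 < 2)]
  have hn22 : n / 2 + n / 2 = n := by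
    rw [hn2, hnam, h2a]
    ring
  let f : ZMod n →+* ZMod (2 ^ a) := ZMod.castHom hdvd (ZMod (2 ^ a))
  let H : Subgroup (DihedralGroup n) :=
    { carrier := {x | f (idx x) = 0}
      mul_mem' := by
        intro x y hx hy
        cases x <;> cases y <;>
          simp only [Set.mem_ofPred_eq, idx, r_mul_r, r_mul_sr, sr_mul_r, sr_mul_sr] at hx hy ⊢ <;>
          simp [map_add, map_sub, hx, hy]
      one_mem' := by
        show f (idx (1 : DihedralGroup n)) = 0
        rw [one_def]
        simp [idx]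
      inv_mem' := by
        intro x hx
        cases x <;> simp only [Set.mem_ofPred_eq, idx, inv_r, inv_sr] at hx ⊢ <;> simp [hx] }
  have hr : r ((2 ^ a : ℕ) : ZMod n) ∈ H := by
    show f (idx (r ((2 ^ a : ℕ) : ZMod n))) = 0
    simp only [idx]
    rw [map_natCast, ZMod.natCast_self]
  have hs : sr (0 : ZMod n) ∈ H := by
    show f (idx (sr (0 : ZMod n))) = 0
    simp [idx]
  have hHnc : ¬ IsCyclic ↥H := by
    intro hc
    have hcomm := mul_comm' (⟨r ((2 ^ a : ℕ) : ZMod n), hr⟩ : ↥H) ⟨sr 0, hs⟩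
    have h1 : r ((2 ^ a : ℕ) : ZMod n) * sr (0 : ZMod n) = sr 0 * r ((2 ^ a : ℕ) : ZMod n) :=
      congrArg Subtype.val hcomm
    rw [r_mul_sr, sr_mul_r] at h1
    have h2 : (0 : ZMod n) - ((2 ^ a : ℕ) : ZMod n) = 0 + ((2 ^ a : ℕ) : ZMod n) := by
      injection h1
    have h3 : ((2 ^ a + 2 ^ a : ℕ) : ZMod n) = 0 := by
      rw [Nat.cast_add]
      have : ((2 ^ a : ℕ) : ZMod n) + ((2 ^ a : ℕ) : ZMod n)
          = (0 + ((2 ^ a : ℕ) : ZMod n)) - (0 - ((2 ^ a : ℕ) : ZMod n)) := by ring
      rw [this, ← h2, sub_self]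
    rw [ZMod.natCast_eq_zero_iff] at h3
    have h4 : 2 ^ a * m ∣ 2 ^ a * 2 := by
      rw [← hnam, mul_two]
      exact h3
    have h5 : m ∣ 2 := Nat.dvd_of_mul_dvd_mul_left (by positivity) h4
    have := Nat.le_of_dvd (by norm_num) h5
    omega
  have hz : r ((n / 2 : ℕ) : ZMod n) ∈ Subgroup.centralizer (H : Set (DihedralGroup n)) := by
    rw [Subgroup.mem_centralizer_iff]
    intro x _
    have hjj : ((n / 2 : ℕ) : ZMod n) + ((n / 2 : ℕ) : ZMod n) = 0 := by
      rw [← Nat.cast_add, hn22, ZMod.natCast_self]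
    cases x with
    | r i => rw [r_mul_r, r_mul_r, add_comm]
    | sr i =>
      rw [sr_mul_r, r_mul_sr]
      congr 1
      have : i + ((n / 2 : ℕ) : ZMod n) = i - ((n / 2 : ℕ) : ZMod n) +
          (((n / 2 : ℕ) : ZMod n) + ((n / 2 : ℕ) : ZMod n)) := by ring
      rw [this, hjj, add_zero]
  have hzH : r ((n / 2 : ℕ) : ZMod n) ∉ H := by
    intro hmem
    have h1 : f (idx (r ((n / 2 : ℕ) : ZMod n))) = 0 := hmem
    simp only [idx] at h1
    rw [map_natCast, ZMod.natCast_eq_zero_iff, hn2, h2a] at h1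
    have h2 : 2 ∣ m := Nat.dvd_of_mul_dvd_mul_left (by positivity : 0 < 2 ^ (a - 1)) (by
      rw [mul_comm (2 ^ (a - 1)) 2]
      exact h1)
    rcases hm with ⟨t, rfl⟩
    omega
  exact hzH (h H hHnc hz)

end aux

/-- Say that a group has self-centralizing non-cyclic subgroups when every non-cyclic subgroup H satisfies C_G(H) ≤ H. For n ≥ 3, the dihedral group of order 2n has self-centralizing non-cyclic subgroups if and only if n is odd or a power of 2. -/
theorem result (n : ℕ) (hn : 3 ≤ n) : (∀ H : Subgroup (DihedralGroup n), ¬ IsCyclic ↥H → Subgroup.centralizer (H : Set (DihedralGroup n)) ≤ H) ↔ (Odd n ∨ ∃ k : ℕ, n = 2 ^ k) := by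
  exact ⟨dir1 n hn, fun hcase H hH => dir2 n hn hcase H hH⟩

end Cfsg.Agent.S3920
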