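-- Statement S3927: iterated commutators with an automorphism generate.
import Cfsg.Statements.S3927
import Cfsg.Agent.Lib.Helper31.Flavell

set_option autoImplicit false
open Cfsg

namespace Cfsg.Agent.S3927

open Cfsg.Agent.Lib.Helper31 Cfsg.Agent.Lib.Helper32

universe u

/-- The commutator map `c ↦ c * (α c)⁻¹`. -/
def phi {G : Type*} [Group G] (α : MulAut G) (c : G) : G := c * (α c)⁻¹

theorem phi_comm {G : Type*} [Group G] (α : MulAut G) (c : G) :
    α (phi α c) = phi α (α c) := by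
  simp [phi]

theorem phi_iter_comm {G : Type*} [Group G] (α : MulAut G) (k : ℕ) (c : G) :
    α ((phi α)^[k] c) = (phi α)^[k] (α c) := by
  induction k with
  | zero => rfl
  | succ k ih =>
    rw [Function.iterate_succ_apply', Function.iterate_succ_apply', phi_comm, ih]

theorem phi_mul {G : Type*} [Group G] (α : MulAut G) (x y : G) :
    phi α (x * y) = x * phi α y * x⁻¹ * phi α x := by
  simp [phi, mul_assoc]

/-- An `α`-invariant subgroup of a finite group is invariant under all powers of `α`. -/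
theorem inv_of_alpha {G : Type*} [Group G] [Finite G] (α : MulAut G) (D : Subgroup G)
    (hD : ∀ d ∈ D, α d ∈ D) : ∀ q ∈ Subgroup.zpowers α, ∀ d ∈ D, q d ∈ D := by
  have hpow : ∀ m : ℕ, ∀ d ∈ D, (α ^ m) d ∈ D := by
    intro m
    induction m with
    | zero => intro d hd; simpa using hd
    | succ m ih =>
      intro d hd
      rw [pow_succ, MulAut.mul_apply]
      exact ih _ (hD d hd)
  intro q hq
  have hfin : IsOfFinOrder α := isOfFinOrder_of_finite α
  rw [← hfin.mem_powers_iff_mem_zpowers] at hq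
  obtain ⟨m, rfl⟩ := hq
  exact hpow m

/-- The semidirect product of `G` with the cyclic group generated by `α`. -/
abbrev Gam {G : Type*} [Group G] (α : MulAut G) :=
  G ⋊[(Subgroup.zpowers α).subtype] (Subgroup.zpowers α)

theorem finite_gam {G : Type*} [Group G] [Finite G] (α : MulAut G) : Finite (Gam α) :=
  Finite.of_equiv _ (SemidirectProduct.equivProd (φ := (Subgroup.zpowers α).subtype)).symm

/-- The element of the semidirect product inducing `α`. -/
def aEl {G : Type*} [Group G] (α : MulAut G) : Gam α :=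
  SemidirectProduct.inr ⟨α, Subgroup.mem_zpowers α⟩

/-- The cyclic subgroup of the semidirect product generated by `aEl`. -/
def AA {G : Type*} [Group G] (α : MulAut G) : Subgroup (Gam α) := Subgroup.zpowers (aEl α)

theorem aEl_mem {G : Type*} [Group G] (α : MulAut G) : aEl α ∈ AA α :=
  Subgroup.mem_zpowers _

theorem a_conj {G : Type*} [Group G] (α : MulAut G) (c : G) :
    aEl α * SemidirectProduct.inl c * (aEl α)⁻¹ = (SemidirectProduct.inl (α c) : Gam α) := by
  have h := SemidirectProduct.inl_aut (φ := (Subgroup.zpowers α).subtype)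
    (⟨α, Subgroup.mem_zpowers α⟩ : Subgroup.zpowers α) c
  rw [map_inv] at h
  exact h.symm

theorem inl_phi {G : Type*} [Group G] (α : MulAut G) (c : G) :
    (SemidirectProduct.inl (phi α c) : Gam α) =
      SemidirectProduct.inl c * aEl α * (SemidirectProduct.inl c)⁻¹ * (aEl α)⁻¹ := by
  unfold phi
  rw [map_mul, map_inv, ← a_conj]
  group

theorem inr_mem_AA {G : Type*} [Group G] (α : MulAut G) (q : Subgroup.zpowers α) :
    (SemidirectProduct.inr q : Gam α) ∈ AA α := by
  obtain ⟨i, hi⟩ := Subgroup.mem_zpowers_iff.mp q.2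
  have hq : q = (⟨α, Subgroup.mem_zpowers α⟩ : Subgroup.zpowers α) ^ i := by
    apply Subtype.ext
    rw [Subgroup.coe_zpow]
    exact hi.symm
  rw [hq, map_zpow]
  exact Subgroup.zpow_mem_zpowers _ _

theorem eq_top_of_inl {G : Type*} [Group G] (α : MulAut G) (K : Subgroup (Gam α))
    (hA : AA α ≤ K) (h : ∀ n : G, (SemidirectProduct.inl n : Gam α) ∈ K) : K = ⊤ := by
  rw [eq_top_iff]
  intro x _
  rw [← SemidirectProduct.inl_left_mul_inr_right x]
  exact K.mul_mem (h _) (hA (inr_mem_AA α _))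

/-- The subgroup `D ⋊ ⟨α⟩` of the semidirect product, for an invariant subgroup `D`. -/
def Zs {G : Type*} [Group G] (α : MulAut G) (D : Subgroup G)
    (hD : ∀ q ∈ Subgroup.zpowers α, ∀ d ∈ D, q d ∈ D) : Subgroup (Gam α) where
  carrier := {x | x.left ∈ D}
  mul_mem' := by
    intro x y hx hy
    show (x * y).left ∈ D
    rw [SemidirectProduct.mul_left]
    exact D.mul_mem hx (hD _ x.right.2 _ hy)
  one_mem' := by
    show (1 : Gam α).left ∈ D
    rw [SemidirectProduct.one_left]
    exact D.one_mem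
  inv_mem' := by
    intro x hx
    show (x⁻¹).left ∈ D
    rw [SemidirectProduct.inv_left]
    exact hD _ (x.right⁻¹).2 _ (D.inv_mem hx)

theorem mem_Zs {G : Type*} [Group G] (α : MulAut G) (D : Subgroup G)
    (hD : ∀ q ∈ Subgroup.zpowers α, ∀ d ∈ D, q d ∈ D) (x : Gam α) :
    x ∈ Zs α D hD ↔ x.left ∈ D := Iff.rfl

theorem AA_le_Zs {G : Type*} [Group G] (α : MulAut G) (D : Subgroup G)
    (hD : ∀ q ∈ Subgroup.zpowers α, ∀ d ∈ D, q d ∈ D) : AA α ≤ Zs α D hD := by
  unfold AA
  rw [Subgroup.zpowers_le, mem_Zs]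
  unfold aEl
  rw [SemidirectProduct.left_inr]
  exact D.one_mem

theorem perf_AA {G : Type*} [Group G] (α : MulAut G)
    (hG : Subgroup.closure (Set.range (phi α)) = ⊤) : Perf (AA α) ⊤ := by
  refine ⟨le_top, fun X hAX hX => ?_⟩
  rw [top_le_iff]
  apply eq_top_of_inl α X hAX
  have hn : ∀ (g x : Gam α), x ∈ X → g * x * g⁻¹ ∈ X :=
    fun g x hx => (Subgroup.le_normalizer_iff.mp hX) g trivial x hx
  have ha : aEl α ∈ X := hAX (aEl_mem α)
  have hle : Subgroup.closure (Set.range (phi α)) ≤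
      X.comap (SemidirectProduct.inl : G →* Gam α) := by
    rw [Subgroup.closure_le]
    rintro _ ⟨c, rfl⟩
    show (SemidirectProduct.inl (phi α c) : Gam α) ∈ X
    rw [inl_phi]
    exact X.mul_mem (hn _ _ ha) (X.inv_mem ha)
  rw [hG] at hle
  intro n
  exact hle (Subgroup.mem_top n)

theorem comm_zp {G : Type*} [Group G] (α : MulAut G) (q s : Subgroup.zpowers α) :
    q * s = s * q := by
  obtain ⟨i, hi⟩ := Subgroup.mem_zpowers_iff.mp q.2
  obtain ⟨j, hj⟩ := Subgroup.mem_zpowers_iff.mp s.2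
  apply Subtype.ext
  rw [Subgroup.coe_mul, Subgroup.coe_mul, ← hi, ← hj, ← zpow_add, ← zpow_add, add_comm]

theorem case1 {G : Type*} [Group G] [Finite G] (α : MulAut G) (H' : Subgroup (Gam α))
    (hP : Perf (AA α) H') (hH' : H' ≠ ⊤) :
    ∃ X : Subgroup G, X ≠ ⊤ ∧ (∀ n ∈ X, α n ∈ X) ∧
      Subgroup.closure (phi α '' (X : Set G)) = X ∧ ∀ y ∈ H', y.left ∈ X := by
  have ha : aEl α ∈ H' := hP.1 (aEl_mem α)
  let X : Subgroup G := H'.comap (SemidirectProduct.inl : G →* Gam α)
  have hXmem : ∀ n : G, n ∈ X ↔ (SemidirectProduct.inl n : Gam α) ∈ H' := fun n => Iff.rfl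
  have hXα : ∀ n ∈ X, α n ∈ X := by
    intro n hn
    rw [hXmem, ← a_conj]
    exact H'.mul_mem (H'.mul_mem ha ((hXmem n).mp hn)) (H'.inv_mem ha)
  have hleft : ∀ y ∈ H', y.left ∈ X := by
    intro y hy
    rw [hXmem]
    have h1 : (SemidirectProduct.inl y.left : Gam α) = y * (SemidirectProduct.inr y.right)⁻¹ :=
      eq_mul_inv_of_mul_eq (SemidirectProduct.inl_left_mul_inr_right y)
    rw [h1]
    exact H'.mul_mem hy (H'.inv_mem (hP.1 (inr_mem_AA α _)))
  have hXtop : X ≠ ⊤ := by
    intro h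
    apply hH'
    apply eq_top_of_inl α H' hP.1
    intro n
    rw [← hXmem, h]
    trivial
  have hXinv := inv_of_alpha α X hXα
  set D : Subgroup G := Subgroup.closure (phi α '' (X : Set G)) with hDdef
  have hDX : D ≤ X := by
    rw [hDdef, Subgroup.closure_le]
    rintro _ ⟨x, hx, rfl⟩
    exact X.mul_mem hx (X.inv_mem (hXα x hx))
  have hDα : ∀ d ∈ D, α d ∈ D := by
    intro d hd
    refine Subgroup.closure_induction (p := fun d _ => α d ∈ D) ?_ ?_ ?_ ?_ hd
    · rintro _ ⟨x, hx, rfl⟩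
      rw [phi_comm]
      exact Subgroup.subset_closure ⟨α x, hXα x hx, rfl⟩
    · rw [map_one]; exact D.one_mem
    · intro x y _ _ hx hy; rw [map_mul]; exact D.mul_mem hx hy
    · intro x _ hx; rw [map_inv]; exact D.inv_mem hx
  have hDinv := inv_of_alpha α D hDα
  have hXD : ∀ x ∈ X, ∀ d ∈ D, x * d * x⁻¹ ∈ D := by
    intro x hx d hd
    refine Subgroup.closure_induction (p := fun d _ => x * d * x⁻¹ ∈ D) ?_ ?_ ?_ ?_ hd
    · rintro _ ⟨y, hy, rfl⟩
      have h1 : x * phi α y * x⁻¹ = phi α (x * y) * (phi α x)⁻¹ := by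
        rw [phi_mul]; group
      rw [h1]
      exact D.mul_mem (Subgroup.subset_closure ⟨x * y, X.mul_mem hx hy, rfl⟩)
        (D.inv_mem (Subgroup.subset_closure ⟨x, hx, rfl⟩))
    · simp
    · intro a b _ _ ha hb
      have h1 : x * (a * b) * x⁻¹ = (x * a * x⁻¹) * (x * b * x⁻¹) := by group
      rw [h1]; exact D.mul_mem ha hb
    · intro a _ ha
      have h1 : x * a⁻¹ * x⁻¹ = (x * a * x⁻¹)⁻¹ := by group
      rw [h1]; exact D.inv_mem ha
  have hXr : ∀ m : ℕ, ∀ n ∈ X, n * ((α ^ m) n)⁻¹ ∈ D := by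
    intro m
    induction m with
    | zero => intro n _; simp
    | succ m ih =>
      intro n hn
      rw [pow_succ, MulAut.mul_apply]
      have h1 : n * ((α ^ m) (α n))⁻¹ = (n * (α n)⁻¹) * (α n * ((α ^ m) (α n))⁻¹) := by group
      rw [h1]
      exact D.mul_mem (Subgroup.subset_closure ⟨n, hn, rfl⟩) (ih _ (hXα n hn))
  have hXr' : ∀ r ∈ Subgroup.zpowers α, ∀ n ∈ X, n * (r n)⁻¹ ∈ D := by
    intro r hr
    have hfin : IsOfFinOrder α := isOfFinOrder_of_finite α
    rw [← hfin.mem_powers_iff_mem_zpowers] at hr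
    obtain ⟨m, rfl⟩ := hr
    exact hXr m
  have hnorm : H' ≤ Subgroup.normalizer (Zs α D hDinv : Set (Gam α)) := by
    rw [Subgroup.le_normalizer_iff]
    intro y hy z hz
    rw [mem_Zs] at hz ⊢
    have hyX := hleft y hy
    rw [SemidirectProduct.mul_left, SemidirectProduct.mul_left, SemidirectProduct.mul_right,
      SemidirectProduct.inv_left, comm_zp α y.right z.right]
    have h1 : ((Subgroup.zpowers α).subtype (z.right * y.right))
        (((Subgroup.zpowers α).subtype y.right⁻¹) y.left⁻¹) =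
        (((Subgroup.zpowers α).subtype z.right) y.left)⁻¹ := by
      rw [map_mul, MulAut.mul_apply, map_inv (Subgroup.zpowers α).subtype,
        MulAut.apply_inv_self, map_inv]
    rw [h1]
    have h2 : y.left * ((Subgroup.zpowers α).subtype y.right) z.left *
        (((Subgroup.zpowers α).subtype z.right) y.left)⁻¹ =
        (y.left * ((Subgroup.zpowers α).subtype y.right) z.left * y.left⁻¹) *
        (y.left * (((Subgroup.zpowers α).subtype z.right) y.left)⁻¹) := by group
    rw [h2]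
    exact D.mul_mem (hXD _ hyX _ (hDinv _ y.right.2 _ hz)) (hXr' _ z.right.2 _ hyX)
  have hle : H' ≤ Zs α D hDinv := hP.2 _ (AA_le_Zs α D hDinv) hnorm
  refine ⟨X, hXtop, hXα, le_antisymm hDX ?_, hleft⟩
  intro n hn
  have h1 := hle ((hXmem n).mp hn)
  rw [mem_Zs, SemidirectProduct.left_inl] at h1
  exact h1

theorem case2 {G : Type*} [Group G] [Finite G] (α : MulAut G) (hPerf : Perf (AA α) ⊤)
    (huniq : ∀ K₁ K₂ : Subgroup (Gam α), IsCoatom K₁ → IsCoatom K₂ → AA α ≤ K₁ → AA α ≤ K₂ →
      K₁ = K₂)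
    (M : Subgroup (Gam α)) (hM : IsCoatom M) (hAM : AA α ≤ M) :
    ∀ (j : ℕ) (c : G), (SemidirectProduct.inl ((phi α)^[j] c) : Gam α) ∈ M →
      (SemidirectProduct.inl c : Gam α) ∈ M := by
  have hnM : Subgroup.normalizer (M : Set (Gam α)) = M := by
    rcases hM.le_iff.mp (Subgroup.le_normalizer (H := M)) with h | h
    · exfalso
      apply hM.1
      rw [← top_le_iff]
      exact hPerf.2 M hAM (by rw [h])
    · exact h
  have ha : aEl α ∈ M := hAM (aEl_mem α)
  intro j
  induction j with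
  | zero => intro c hc; exact hc
  | succ j ih =>
    intro c hc
    rw [Function.iterate_succ_apply] at hc
    have h1 := ih (phi α c) hc
    rw [inl_phi] at h1
    have h2 : (SemidirectProduct.inl c : Gam α) * aEl α * (SemidirectProduct.inl c)⁻¹ ∈ M := by
      have := M.mul_mem h1 ha
      rwa [inv_mul_cancel_right] at this
    have h3 : AA α ≤ cj (SemidirectProduct.inl c : Gam α)⁻¹ M := by
      unfold AA
      rw [Subgroup.zpowers_le, mem_cj, inv_inv]
      exact h2
    have h4 := huniq _ M (isCoatom_cj hM _) hM h3 hAM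
    have h5 := cj_eq_self_iff.mp h4
    rw [hnM] at h5
    exact (M.inv_mem_iff).mp h5

theorem main {G : Type*} [Group G] [Finite G] (α : MulAut G)
    (hG : Subgroup.closure (Set.range (phi α)) = ⊤) (k : ℕ)
    (IH : ∀ X : Subgroup G, X ≠ ⊤ → (∀ n ∈ X, α n ∈ X) →
      Subgroup.closure (phi α '' (X : Set G)) = X →
      X ≤ Subgroup.closure (Set.range ((phi α)^[k]))) :
    Subgroup.closure (Set.range ((phi α)^[k])) = ⊤ := by
  by_contra hne
  have hfinG : Finite (Gam α) := finite_gam α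
  set H : Subgroup G := Subgroup.closure (Set.range ((phi α)^[k])) with hHdef
  have hHα : ∀ d ∈ H, α d ∈ H := by
    intro d hd
    refine Subgroup.closure_induction (p := fun d _ => α d ∈ H) ?_ ?_ ?_ ?_ hd
    · rintro _ ⟨c, rfl⟩
      rw [phi_iter_comm]
      exact Subgroup.subset_closure ⟨_, rfl⟩
    · rw [map_one]; exact H.one_mem
    · intro x y _ _ hx hy; rw [map_mul]; exact H.mul_mem hx hy
    · intro x _ hx; rw [map_inv]; exact H.inv_mem hx
  have hHinv := inv_of_alpha α H hHα
  have hZH : Zs α H hHinv ≠ ⊤ := by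
    intro h
    apply hne
    rw [eq_top_iff]
    intro n _
    have h1 : (SemidirectProduct.inl n : Gam α) ∈ Zs α H hHinv := by rw [h]; trivial
    rw [mem_Zs, SemidirectProduct.left_inl] at h1
    exact h1
  have hPerf : Perf (AA α) ⊤ := perf_AA α hG
  have hAtop : AA α ≠ ⊤ := by
    intro h
    apply hZH
    rw [← top_le_iff, ← h]
    exact AA_le_Zs α H hHinv
  by_cases hcase : sSup {H' : Subgroup (Gam α) | Perf (AA α) H' ∧ H' ≠ ⊤} = ⊤
  · apply hZH
    rw [eq_top_iff, ← hcase]
    apply sSup_le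
    rintro H' ⟨hP, hH'⟩
    obtain ⟨X, hX1, hX2, hX3, hX4⟩ := case1 α H' hP hH'
    have hXH := IH X hX1 hX2 hX3
    intro y hy
    rw [mem_Zs]
    exact hXH (hX4 y hy)
  · obtain ⟨M, hM, hZM⟩ := (eq_top_or_exists_le_coatom (Zs α H hHinv)).resolve_left hZH
    have huniq := flavell_aux (Nat.card (Gam α)) (AA α) (Nat.sub_le _ _) hAtop hPerf hcase
    have hAM : AA α ≤ M := (AA_le_Zs α H hHinv).trans hZM
    have hc2 := case2 α hPerf huniq M hM hAM k
    apply hM.1
    apply eq_top_of_inl α M hAM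
    intro n
    apply hc2
    apply hZM
    rw [mem_Zs, SemidirectProduct.left_inl]
    exact Subgroup.subset_closure ⟨n, rfl⟩

/-- Restriction of an automorphism to an invariant subgroup. -/
def restr {G : Type*} [Group G] (α : MulAut G) (X : Subgroup G)
    (h1 : ∀ n ∈ X, α n ∈ X) (h2 : ∀ n ∈ X, α⁻¹ n ∈ X) : MulAut ↥X where
  toFun := fun x => ⟨α x.1, h1 x.1 x.2⟩
  invFun := fun x => ⟨α⁻¹ x.1, h2 x.1 x.2⟩
  left_inv := fun x => Subtype.ext (by simp)
  right_inv := fun x => Subtype.ext (by simp)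
  map_mul' := fun x y => Subtype.ext (by simp)

theorem restr_apply {G : Type*} [Group G] (α : MulAut G) (X : Subgroup G)
    (h1 : ∀ n ∈ X, α n ∈ X) (h2 : ∀ n ∈ X, α⁻¹ n ∈ X) (x : ↥X) :
    ((restr α X h1 h2 x : ↥X) : G) = α x.1 := rfl

theorem phi_restr {G : Type*} [Group G] (α : MulAut G) (X : Subgroup G)
    (h1 : ∀ n ∈ X, α n ∈ X) (h2 : ∀ n ∈ X, α⁻¹ n ∈ X) (x : ↥X) :
    ((phi (restr α X h1 h2) x : ↥X) : G) = phi α x.1 := rfl

theorem phi_iter_restr {G : Type*} [Group G] (α : MulAut G) (X : Subgroup G)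
    (h1 : ∀ n ∈ X, α n ∈ X) (h2 : ∀ n ∈ X, α⁻¹ n ∈ X) (k : ℕ) (x : ↥X) :
    (((phi (restr α X h1 h2))^[k] x : ↥X) : G) = (phi α)^[k] x.1 := by
  induction k with
  | zero => rfl
  | succ k ih =>
    rw [Function.iterate_succ_apply', Function.iterate_succ_apply', phi_restr, ih]

theorem aux : ∀ (n : ℕ) (G : Type u) [Group G] [Finite G], Nat.card G ≤ n →
    ∀ α : MulAut G, Subgroup.closure (Set.range (phi α)) = ⊤ → ∀ k : ℕ,
      Subgroup.closure (Set.range ((phi α)^[k])) = ⊤ := by
  intro n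
  induction n with
  | zero =>
    intro G _ _ hcard
    have := Nat.card_pos (α := G)
    omega
  | succ n ih =>
    intro G _ _ hcard α hG k
    apply main α hG k
    intro X hXtop hXα hXcl
    have hXinv := inv_of_alpha α X hXα
    have hXα' : ∀ n ∈ X, α⁻¹ n ∈ X := hXinv _ (Subgroup.inv_mem _ (Subgroup.mem_zpowers α))
    have hlt : Nat.card X < Nat.card G := by
      by_contra hlt
      apply hXtop
      apply (Subgroup.card_eq_iff_eq_top X).mp
      have := Subgroup.card_le_card_group X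
      omega
    have hgen : Subgroup.closure (Set.range (phi (restr α X hXα hXα'))) = ⊤ := by
      rw [eq_top_iff]
      intro y _
      have hy : (y : G) ∈ Subgroup.closure (phi α '' (X : Set G)) := by rw [hXcl]; exact y.2
      have himg : phi α '' (X : Set G) = X.subtype '' Set.range (phi (restr α X hXα hXα')) := by
        ext z
        constructor
        · rintro ⟨x, hx, rfl⟩
          exact ⟨_, ⟨⟨x, hx⟩, rfl⟩, rfl⟩
        · rintro ⟨_, ⟨x, rfl⟩, rfl⟩
          exact ⟨x.1, x.2, rfl⟩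
      rw [himg, ← MonoidHom.map_closure] at hy
      obtain ⟨z, hz, hzy⟩ := hy
      have : z = y := Subtype.ext hzy
      rwa [this] at hz
    have hres := ih ↥X (by omega) (restr α X hXα hXα') hgen k
    intro x hx
    have h1 : (⟨x, hx⟩ : ↥X) ∈
        Subgroup.closure (Set.range ((phi (restr α X hXα hXα'))^[k])) := by
      rw [hres]; trivial
    have h2 : x ∈ (Subgroup.closure (Set.range ((phi (restr α X hXα hXα'))^[k]))).map
        X.subtype := ⟨_, h1, rfl⟩
    rw [MonoidHom.map_closure] at h2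
    refine Subgroup.closure_mono ?_ h2
    rintro _ ⟨_, ⟨y, rfl⟩, rfl⟩
    exact ⟨y.1, (phi_iter_restr α X hXα hXα' k y).symm⟩

/-- Let G be a finite group and α an automorphism of G with [G, α] = G, that is, the elements g·α(g)⁻¹ generate G. Then for every k ≥ 1 the iterated commutators [g, α, …, α] with k entries α — the values of the k-th iterate of the map c ↦ c·α(c)⁻¹ — also generate G. -/
theorem result {G : Type*} [Group G] [Finite G] (α : MulAut G) (hG : Subgroup.closure (Set.range (fun c : G => c * (α c)⁻¹)) = ⊤) (k : ℕ) (hk : 1 ≤ k) :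
    Subgroup.closure (Set.range ((fun c : G => c * (α c)⁻¹)^[k])) = ⊤ := by
  exact aux (Nat.card G) G le_rfl α hG k

end Cfsg.Agent.S3927
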