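import Mathlib
import Cfsg.Statements.S3939
import Cfsg.Agent.Lib.Helper34.Nilp
import Cfsg.Agent.Lib.Helper66.PAct

set_option autoImplicit false
open Cfsg

namespace Cfsg.Agent.S3939

universe u

theorem nilpotent_of_le {G : Type*} [Group G] {H K : Subgroup G} (h : H ≤ K)
    (hK : Group.IsNilpotent K) : Group.IsNilpotent H := by
  have : Group.IsNilpotent (H.subgroupOf K) := Subgroup.isNilpotent _
  exact (Group.isNilpotent_congr (Subgroup.subgroupOfEquivOfLe h)).mp this

theorem ucs_subgroupOf_le {G : Type*} [Group G] (H : Subgroup G) (n : ℕ) :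
    (Subgroup.upperCentralSeries G n).subgroupOf H ≤ Subgroup.upperCentralSeries H n := by
  induction n with
  | zero =>
    rw [Subgroup.upperCentralSeries_zero, Subgroup.upperCentralSeries_zero,
      Subgroup.bot_subgroupOf]
  | succ n ih =>
    intro a ha
    rw [Subgroup.mem_upperCentralSeries_succ_iff]
    intro b
    apply ih
    rw [Subgroup.mem_subgroupOf] at ha ⊢
    have := Subgroup.mem_upperCentralSeries_succ_iff.mp ha (b : G)
    simpa [commutatorElement_def] using this

theorem closure_pair_nilpotent {G : Type*} [Group G] (x g : G) (n : ℕ)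
    (hg : g ∈ Subgroup.upperCentralSeries G n) :
    Group.IsNilpotent (Subgroup.closure ({x, g} : Set G)) := by
  let π := QuotientGroup.mk' (Subgroup.upperCentralSeries G n)
  have hle : Subgroup.closure ({x, g} : Set G) ≤ (Subgroup.zpowers (π x)).comap π := by
    rw [Subgroup.closure_le]
    rintro y (rfl | rfl)
    · exact Subgroup.mem_zpowers _
    · show π y ∈ Subgroup.zpowers (π x)
      have : π y = 1 := (QuotientGroup.eq_one_iff y).mpr hg
      rw [this]
      exact one_mem _
  have hcomm : ∀ a ∈ Subgroup.closure ({x, g} : Set G), ∀ b ∈ Subgroup.closure ({x, g} : Set G),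
      a * b * a⁻¹ * b⁻¹ ∈ Subgroup.upperCentralSeries G n := by
    intro a ha b hb
    obtain ⟨i, hi⟩ := Subgroup.mem_zpowers_iff.mp (hle ha)
    obtain ⟨j, hj⟩ := Subgroup.mem_zpowers_iff.mp (hle hb)
    rw [← QuotientGroup.eq_one_iff]
    show π (a * b * a⁻¹ * b⁻¹) = 1
    rw [map_mul, map_mul, map_mul, map_inv, map_inv, ← hi, ← hj]
    have h1 : (π x) ^ i * (π x) ^ j = (π x) ^ j * (π x) ^ i := by
      rw [← zpow_add, ← zpow_add, add_comm]
    rw [h1]
    group
  refine ⟨⟨n + 1, ?_⟩⟩
  rw [eq_top_iff]
  intro a _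
  rw [Subgroup.mem_upperCentralSeries_succ_iff]
  intro b
  apply ucs_subgroupOf_le
  rw [Subgroup.mem_subgroupOf, commutatorElement_def]
  exact hcomm a a.2 b b.2

theorem commute_of_commute_pow {G : Type*} [Group G] (a y : G) (n m : ℕ) (hnm : Nat.Coprime n m)
    (hy : y ^ m = 1) (h : Commute a (y ^ n)) : Commute a y := by
  obtain ⟨u, v, huv⟩ := Nat.isCoprime_iff_coprime.mpr hnm
  have hy' : y = (y ^ n) ^ u := by
    calc y = y ^ (1 : ℤ) := (zpow_one y).symm
      _ = y ^ (u * (n : ℤ) + v * (m : ℤ)) := by rw [huv]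
      _ = y ^ ((n : ℤ) * u) * y ^ ((m : ℤ) * v) := by rw [zpow_add, mul_comm u, mul_comm v]
      _ = (y ^ n) ^ u * (y ^ m) ^ v := by rw [zpow_mul, zpow_mul, zpow_natCast, zpow_natCast]
      _ = (y ^ n) ^ u := by rw [hy, one_zpow, mul_one]
  rw [hy']
  exact h.zpow_right u

/-- The `p'`-part power: `x ^ p ^ e` has order prime to `p` for a suitable `e`. -/
theorem exists_pow_coprime {G : Type*} [Group G] [Finite G] (p : ℕ) [hp : Fact p.Prime] (x : G) :
    ∃ e : ℕ, (orderOf (x ^ p ^ e)).Coprime p := by
  obtain ⟨e, m, hm, hord⟩ :=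
    Nat.exists_eq_pow_mul_and_not_dvd (orderOf_pos x).ne' p hp.out.ne_one
  refine ⟨e, ?_⟩
  have h1 : orderOf (x ^ p ^ e) ∣ m := by
    apply orderOf_dvd_of_pow_eq_one
    rw [← pow_mul, ← hord]
    exact pow_orderOf_eq_one x
  exact Nat.Coprime.coprime_dvd_left h1 ((Nat.Prime.coprime_iff_not_dvd hp.out).mpr hm).symm

/-- A nontrivial `p`-element commuting with all `p'`-elements forces a nontrivial centre. -/
theorem center_ne_bot_of {G : Type u} [Group G] [Finite G] (p : ℕ) [hp : Fact p.Prime] (g : G)
    (hg1 : g ≠ 1) (hgp : ∃ k : ℕ, g ^ p ^ k = 1)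
    (hcomm : ∀ y : G, (orderOf y).Coprime p → Commute g y) : Subgroup.center G ≠ ⊥ := by
  classical
  obtain ⟨k, hk⟩ := hgp
  have hz : IsPGroup p (Subgroup.zpowers g) := by
    rintro ⟨x, hx⟩
    obtain ⟨i, rfl⟩ := Subgroup.mem_zpowers_iff.mp hx
    refine ⟨k, Subtype.ext ?_⟩
    show (g ^ i) ^ p ^ k = 1
    rw [← zpow_natCast, ← zpow_mul, mul_comm, zpow_mul, zpow_natCast, hk, one_zpow]
  obtain ⟨P, hP⟩ := hz.exists_le_sylow
  have hgP : g ∈ (P : Subgroup G) := hP (Subgroup.mem_zpowers g)
  let S : Set G := {y | (orderOf y).Coprime p}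
  have hSconj : ∀ y ∈ S, ∀ u : G, u * y * u⁻¹ ∈ S := by
    intro y hy u
    show (orderOf (u * y * u⁻¹)).Coprime p
    have h1 : orderOf (u * y * u⁻¹) = orderOf y := (MulAut.conj u).orderOf_eq y
    rw [h1]
    exact hy
  let A : Subgroup (P : Subgroup G) := (Subgroup.centralizer S).subgroupOf (P : Subgroup G)
  have hAn : A.Normal := by
    constructor
    intro a ha u
    rw [Subgroup.mem_subgroupOf, Subgroup.mem_centralizer_iff] at ha ⊢
    intro y hy
    have h1 := ha ((u : G)⁻¹ * y * (u : G)) (by simpa using hSconj y hy (u : G)⁻¹)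
    simp only [Subgroup.coe_mul, InvMemClass.coe_inv]
    calc y * ((u : G) * (a : G) * (u : G)⁻¹)
        = (u : G) * (((u : G)⁻¹ * y * (u : G)) * (a : G)) * (u : G)⁻¹ := by group
      _ = (u : G) * ((a : G) * ((u : G)⁻¹ * y * (u : G))) * (u : G)⁻¹ := by rw [h1]
      _ = (u : G) * (a : G) * (u : G)⁻¹ * y := by group
  have hAne : A ≠ ⊥ := by
    intro h
    have hmem : (⟨g, hgP⟩ : (P : Subgroup G)) ∈ A := by
      rw [Subgroup.mem_subgroupOf, Subgroup.mem_centralizer_iff]
      intro y hy
      exact (hcomm y hy).eq.symm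
    rw [h, Subgroup.mem_bot] at hmem
    exact hg1 (congrArg Subtype.val hmem)
  have hPp : IsPGroup p (P : Subgroup G) := P.isPGroup'
  have hne := Cfsg.Agent.Lib.Helper66.normal_inf_center_ne_bot hPp hAne
  obtain ⟨⟨z, hzmem⟩, hz1⟩ := Subgroup.ne_bot_iff_exists_ne_one.mp hne
  have hzA : z ∈ A := hzmem.1
  have hzC : z ∈ Subgroup.center (P : Subgroup G) := hzmem.2
  have hz1' : (z : G) ≠ 1 := by
    intro h
    apply hz1
    apply Subtype.ext
    apply Subtype.ext
    exact h
  -- the subgroup generated by `P` and the `p'`-elements is everything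
  let M : Subgroup G := Subgroup.closure ((P : Set G) ∪ S)
  have hPM : (P : Subgroup G) ≤ M := fun x hx => Subgroup.subset_closure (Or.inl hx)
  have hNM : Subgroup.normalClosure S ≤ M := by
    rw [Subgroup.normalClosure, Subgroup.closure_le]
    intro x hx
    rw [Group.mem_conjugatesOfSet_iff] at hx
    obtain ⟨y, hy, hxy⟩ := hx
    obtain ⟨c, rfl⟩ := isConj_iff.mp hxy
    exact Subgroup.subset_closure (Or.inr (hSconj y hy c))
  have hQ : IsPGroup p (G ⧸ Subgroup.normalClosure S) := by
    intro q
    obtain ⟨x, rfl⟩ := QuotientGroup.mk_surjective q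
    obtain ⟨e, he⟩ := exists_pow_coprime p x
    refine ⟨e, ?_⟩
    rw [← QuotientGroup.mk_pow, QuotientGroup.eq_one_iff]
    exact Subgroup.subset_normalClosure he
  obtain ⟨j, hj⟩ := IsPGroup.iff_card.mp hQ
  have hidx1 : M.index ∣ p ^ j := by
    rw [← hj, ← Subgroup.index_eq_card]
    exact Subgroup.index_dvd_of_le hNM
  have hidx2 : M.index ∣ (P : Subgroup G).index := Subgroup.index_dvd_of_le hPM
  have hMtop : M = ⊤ := by
    rw [← Subgroup.index_eq_one]
    obtain ⟨i, -, hi⟩ := (Nat.dvd_prime_pow hp.out).mp hidx1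
    rcases Nat.eq_zero_or_pos i with h0 | hpos
    · rw [hi, h0, pow_zero]
    · exfalso
      apply P.not_dvd_index
      apply dvd_trans _ hidx2
      rw [hi]
      exact dvd_pow_self p hpos.ne'
  have hcent : M ≤ Subgroup.centralizer ({(z : G)} : Set G) := by
    rw [Subgroup.closure_le]
    rintro x (hx | hx)
    · show x ∈ Subgroup.centralizer ({(z : G)} : Set G)
      rw [Subgroup.mem_centralizer_singleton_iff]
      have h1 := Subgroup.mem_center_iff.mp hzC ⟨x, hx⟩
      exact congrArg Subtype.val h1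
    · show x ∈ Subgroup.centralizer ({(z : G)} : Set G)
      rw [Subgroup.mem_centralizer_singleton_iff]
      rw [Subgroup.mem_subgroupOf, Subgroup.mem_centralizer_iff] at hzA
      exact hzA x hx
  intro hbot
  have hzcen : (z : G) ∈ Subgroup.center G := by
    rw [Subgroup.mem_center_iff]
    intro x
    have hx : x ∈ M := by rw [hMtop]; exact Subgroup.mem_top x
    exact Subgroup.mem_centralizer_singleton_iff.mp (hcent hx)
  rw [hbot, Subgroup.mem_bot] at hzcen
  exact hz1' hzcen

theorem baer_aux (p : ℕ) [hp : Fact p.Prime] : ∀ (N : ℕ) (G : Type u) [Group G] [Finite G],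
    Nat.card G ≤ N → ∀ g : G, (∃ k : ℕ, g ^ p ^ k = 1) →
    (∀ y : G, (orderOf y).Coprime p → Commute g y) →
    g ∈ ⨆ n : ℕ, Subgroup.upperCentralSeries G n := by
  intro N
  induction N with
  | zero =>
    intro G _ _ hc
    have := Nat.card_pos (α := G)
    omega
  | succ N ih =>
    intro G _ _ hc g hgp hcomm
    by_cases hg1 : g = 1
    · rw [hg1]
      exact one_mem _
    have hZ := center_ne_bot_of p g hg1 hgp hcomm
    have hlt : Nat.card (G ⧸ Subgroup.center G) < Nat.card G := by
      rw [← Subgroup.index_eq_card]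
      have h1 := Subgroup.card_mul_index (Subgroup.center G)
      have h2 : 1 < Nat.card (Subgroup.center G) := (Subgroup.one_lt_card_iff_ne_bot _).mpr hZ
      have h3 : 0 < (Subgroup.center G).index :=
        Nat.pos_of_ne_zero Subgroup.index_ne_zero_of_finite
      nlinarith
    have hq := ih (G ⧸ Subgroup.center G) (by omega) (QuotientGroup.mk' _ g) (by
      obtain ⟨k, hk⟩ := hgp
      exact ⟨k, by rw [← map_pow, hk, map_one]⟩) (by
      intro ybar hy
      obtain ⟨y, rfl⟩ := QuotientGroup.mk'_surjective _ ybar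
      obtain ⟨e, he⟩ := exists_pow_coprime p y
      have h1 : Commute g (y ^ p ^ e) := hcomm _ he
      have h2 : Commute (QuotientGroup.mk' (Subgroup.center G) g)
          ((QuotientGroup.mk' (Subgroup.center G) y) ^ p ^ e) := by
        rw [← map_pow]
        exact h1.map _
      exact commute_of_commute_pow _ _ (p ^ e) (orderOf (QuotientGroup.mk' (Subgroup.center G) y))
        (Nat.Coprime.pow_left e hy.symm) (pow_orderOf_eq_one _) h2)
    obtain ⟨n, hn⟩ := (Subgroup.mem_iSup_of_directed
      (Subgroup.upperCentralSeries_mono _).directed_le).mp hq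
    have hmem : g ∈ Subgroup.upperCentralSeries G (n + 1) := by
      rw [← Subgroup.comap_upperCentralSeries_quotient_center]
      exact hn
    exact Subgroup.mem_iSup_of_mem (n + 1) hmem

set_option maxHeartbeats 400000 in
theorem forward {G : Type u} [Group G] [Finite G] : ∀ (n : ℕ) (g : G), orderOf g = n →
    (∀ x : G, Group.IsNilpotent (Subgroup.closure ({x, g} : Set G))) →
    g ∈ ⨆ n : ℕ, Subgroup.upperCentralSeries G n := by
  intro n
  induction n using Nat.strong_induction_on with
  | _ n ih =>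
    intro g hgn h
    by_cases hg1 : g = 1
    · rw [hg1]
      exact one_mem _
    have hn1 : orderOf g ≠ 1 := fun h1 => hg1 (orderOf_eq_one_iff.mp h1)
    have hp : (orderOf g).minFac.Prime := Nat.minFac_prime hn1
    haveI : Fact (orderOf g).minFac.Prime := ⟨hp⟩
    obtain ⟨e, m, hm, hord⟩ :=
      Nat.exists_eq_pow_mul_and_not_dvd (orderOf_pos g).ne' (orderOf g).minFac hp.ne_one
    generalize hpdef : (orderOf g).minFac = p at hp hm hord
    haveI : Fact p.Prime := ⟨hp⟩
    have hpd : p ∣ orderOf g := hpdef ▸ Nat.minFac_dvd _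
    have he : e ≠ 0 := by
      rintro rfl
      rw [pow_zero, one_mul] at hord
      exact hm (hord ▸ hpd)
    have hpow : ∀ j : ℕ, ∀ x : G,
        Group.IsNilpotent (Subgroup.closure ({x, g ^ j} : Set G)) := by
      intro j x
      apply nilpotent_of_le _ (h x)
      have hgc : g ∈ Subgroup.closure ({x, g} : Set G) :=
        Subgroup.subset_closure (Set.mem_insert_of_mem _ (Set.mem_singleton g))
      have hxc : x ∈ Subgroup.closure ({x, g} : Set G) :=
        Subgroup.subset_closure (Set.mem_insert x _)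
      have hgj : g ^ j ∈ Subgroup.closure ({x, g} : Set G) := Subgroup.pow_mem _ hgc j
      rw [Subgroup.closure_le]
      intro y hy
      rcases hy with hy | hy
      · rw [hy]
        exact hxc
      · rw [Set.mem_singleton_iff] at hy
        rw [hy]
        exact hgj
    by_cases hm1 : m = 1
    · subst hm1
      rw [mul_one] at hord
      apply baer_aux p (Nat.card G) G le_rfl g ⟨e, by rw [← hord]; exact pow_orderOf_eq_one g⟩
      intro y hy
      have hH := h y
      have hgH : g ∈ Subgroup.closure ({y, g} : Set G) :=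
        Subgroup.subset_closure (Set.mem_insert_of_mem _ rfl)
      have hyH : y ∈ Subgroup.closure ({y, g} : Set G) :=
        Subgroup.subset_closure (Set.mem_insert _ _)
      have hc := Cfsg.Agent.Lib.Helper34.commute_of_coprime_orderOf
        (N := Subgroup.closure ({y, g} : Set G)) ⟨g, hgH⟩ ⟨y, hyH⟩ (by
          rw [Subgroup.orderOf_mk, Subgroup.orderOf_mk, hord]
          exact Nat.Coprime.pow_left e hy.symm)
      exact (congrArg Subtype.val hc.eq : g * y = y * g)
    · have hm0 : m ≠ 0 := by
        rintro rfl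
        exact hm (dvd_zero p)
      have hm2 : 1 < m := by omega
      have hpe : 1 < p ^ e := Nat.one_lt_pow he hp.one_lt
      have hao : orderOf (g ^ p ^ e) < orderOf g := by
        have h1 : orderOf (g ^ p ^ e) ∣ m := by
          apply orderOf_dvd_of_pow_eq_one
          rw [← pow_mul, ← hord]
          exact pow_orderOf_eq_one g
        have h2 := Nat.le_of_dvd (by omega) h1
        rw [hord]
        nlinarith
      have hbo : orderOf (g ^ m) < orderOf g := by
        have h1 : orderOf (g ^ m) ∣ p ^ e := by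
          apply orderOf_dvd_of_pow_eq_one
          rw [← pow_mul, mul_comm, ← hord]
          exact pow_orderOf_eq_one g
        have h2 := Nat.le_of_dvd (by omega) h1
        rw [hord]
        nlinarith
      have haZ := ih (orderOf (g ^ p ^ e)) (hgn ▸ hao) (g ^ p ^ e) rfl (hpow _)
      have hbZ := ih (orderOf (g ^ m)) (hgn ▸ hbo) (g ^ m) rfl (hpow _)
      have hcop : Nat.Coprime (p ^ e) m :=
        Nat.Coprime.pow_left e ((Nat.Prime.coprime_iff_not_dvd hp).mpr hm)
      obtain ⟨u, v, huv⟩ := Nat.isCoprime_iff_coprime.mpr hcop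
      have hg : g = (g ^ p ^ e) ^ u * (g ^ m) ^ v := by
        calc g = g ^ (1 : ℤ) := (zpow_one g).symm
          _ = g ^ (u * ((p ^ e : ℕ) : ℤ) + v * (m : ℤ)) := by rw [huv]
          _ = g ^ (((p ^ e : ℕ) : ℤ) * u) * g ^ ((m : ℤ) * v) := by
            rw [zpow_add, mul_comm u, mul_comm v]
          _ = (g ^ p ^ e) ^ u * (g ^ m) ^ v := by
            rw [zpow_mul, zpow_mul, zpow_natCast, zpow_natCast]
      rw [hg]
      exact mul_mem (zpow_mem haZ u) (zpow_mem hbZ v)

/-- In a finite group G the set of elements g such that the subgroup generated by g and x is nilpotent for every x ∈ G is exactly the hypercenter of G (the last term of the upper central series). -/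
theorem result {G : Type*} [Group G] [Finite G] (g : G) :
    (∀ x : G, Group.IsNilpotent ↥(Subgroup.closure ({x, g} : Set G))) ↔ g ∈ ⨆ n : ℕ, Subgroup.upperCentralSeries G n := by
  constructor
  · intro h
    exact forward (orderOf g) g rfl h
  · intro hg x
    obtain ⟨n, hn⟩ := (Subgroup.mem_iSup_of_directed
      (Subgroup.upperCentralSeries_mono G).directed_le).mp hg
    exact closure_pair_nilpotent x g n hn

end Cfsg.Agent.S3939
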