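import Mathlib
import Cfsg.Statements.S3941

set_option autoImplicit false
open Cfsg

namespace Cfsg.Agent.S3941

open Equiv Equiv.Perm

/-- An element of `p`-power order lies in a normal Sylow `p`-subgroup. -/
theorem mem_of_normal_sylow {G : Type*} [Group G] [Finite G] {p : ℕ} [Fact p.Prime]
    (P : Sylow p G) (hP : (P : Subgroup G).Normal) (x : G) (k : ℕ) (hx : x ^ p ^ k = 1) :
    x ∈ (P : Subgroup G) := by
  have hz : IsPGroup p (Subgroup.zpowers x) := by
    rintro ⟨y, hy⟩
    obtain ⟨i, rfl⟩ := Subgroup.mem_zpowers_iff.mp hy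
    refine ⟨k, Subtype.ext ?_⟩
    show (x ^ i) ^ p ^ k = 1
    rw [← zpow_natCast, ← zpow_mul, mul_comm, zpow_mul, zpow_natCast, hx, one_zpow]
  obtain ⟨Q, hQ⟩ := hz.exists_le_sylow
  have hu := Sylow.unique_of_normal P hP
  have hQP : Q = P := Subsingleton.elim _ _
  rw [← hQP]
  exact hQ (Subgroup.mem_zpowers x)

/-- An involution is not killed by a power of an odd prime. -/
theorem pow_ne_one_of_sq {G : Type*} [Group G] (x : G) (hx2 : x ^ 2 = 1) (hx1 : x ≠ 1)
    (p : ℕ) (hp : Odd p) (k : ℕ) : x ^ p ^ k ≠ 1 := by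
  have hodd : Odd (p ^ k) := hp.pow
  obtain ⟨j, hj⟩ := hodd
  rw [hj, pow_add, pow_mul, hx2, one_pow, one_mul, pow_one]
  exact hx1

/-- The case `n = 5`, `p = 3`. -/
theorem case_five : ∃ H : Subgroup ↥(alternatingGroup (Fin 5)), H ≠ ⊤ ∧ 3 ∣ Nat.card ↥H ∧
    ¬ Cfsg.IsPClosed 3 ↥H := by
  haveI : Fact (Nat.Prime 3) := ⟨by norm_num⟩
  let H : Subgroup ↥(alternatingGroup (Fin 5)) := MulAction.stabilizer _ (4 : Fin 5)
  let c : ↥(alternatingGroup (Fin 5)) := ⟨c[0, 1, 2], Equiv.Perm.mem_alternatingGroup.mpr (by decide)⟩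
  let c' : ↥(alternatingGroup (Fin 5)) := ⟨c[1, 2, 3], Equiv.Perm.mem_alternatingGroup.mpr (by decide)⟩
  let d : ↥(alternatingGroup (Fin 5)) := ⟨c[2, 3, 4], Equiv.Perm.mem_alternatingGroup.mpr (by decide)⟩
  have hc : c ∈ H := by
    rw [MulAction.mem_stabilizer_iff]
    decide
  have hc' : c' ∈ H := by
    rw [MulAction.mem_stabilizer_iff]
    decide
  have hd : d ∉ H := by
    rw [MulAction.mem_stabilizer_iff]
    decide
  have hc3 : c ^ 3 = 1 := by decide
  have hc'3 : c' ^ 3 = 1 := by decide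
  have hc1 : c ≠ 1 := by decide
  have hcc2 : (c * c') ^ 2 = 1 := by decide
  have hcc1 : c * c' ≠ 1 := by decide
  refine ⟨H, ?_, ?_, ?_⟩
  · intro h
    apply hd
    rw [h]
    exact Subgroup.mem_top d
  · have h3 : orderOf (⟨c, hc⟩ : H) = 3 := by
      apply orderOf_eq_prime
      · exact Subtype.ext hc3
      · intro h
        exact hc1 (congrArg Subtype.val h)
    rw [← h3]
    exact orderOf_dvd_natCard _
  · intro hcl
    obtain ⟨P⟩ : Nonempty (Sylow 3 H) := inferInstance
    have hPn := hcl P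
    have h1 : (⟨c, hc⟩ : H) ∈ (P : Subgroup H) :=
      mem_of_normal_sylow P hPn _ 1 (by rw [pow_one]; exact Subtype.ext hc3)
    have h2 : (⟨c', hc'⟩ : H) ∈ (P : Subgroup H) :=
      mem_of_normal_sylow P hPn _ 1 (by rw [pow_one]; exact Subtype.ext hc'3)
    have h3 := Subgroup.mul_mem _ h1 h2
    obtain ⟨k, hk⟩ := P.isPGroup' ⟨_, h3⟩
    have hk' : (c * c') ^ 3 ^ k = 1 := by
      have := congrArg (fun x : (P : Subgroup H) => ((x : H) : ↥(alternatingGroup (Fin 5)))) hk
      simpa using this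
    exact pow_ne_one_of_sq _ hcc2 hcc1 3 (by decide) k hk'

set_option maxHeartbeats 400000 in
/-- The case `n ≥ 6`: a point stabiliser is a simple alternating group, which is not a `p`-group. -/
theorem case_ge_six (n p : ℕ) (hn : 6 ≤ n) [hp : Fact p.Prime] (hp2 : p ≠ 2) (hpn : p < n) :
    ∃ H : Subgroup ↥(alternatingGroup (Fin n)), H ≠ ⊤ ∧ p ∣ Nat.card ↥H ∧
      ¬ Cfsg.IsPClosed p ↥H := by
  let i₀ : Fin n := ⟨0, by omega⟩
  have hcardα : Fintype.card {i : Fin n // i ≠ i₀} = n - 1 := by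
    rw [Fintype.card_subtype_compl, Fintype.card_fin, Fintype.card_subtype_eq]
  let f : alternatingGroup {i : Fin n // i ≠ i₀} →* Equiv.Perm (Fin n) :=
    (Equiv.Perm.ofSubtype).comp (Subgroup.subtype _)
  have hf : Function.Injective f :=
    Equiv.Perm.ofSubtype_injective.comp (Subgroup.subtype_injective _)
  have hmem : ∀ σ : alternatingGroup {i : Fin n // i ≠ i₀}, f σ ∈ alternatingGroup (Fin n) := by
    intro σ
    have hfσ : f σ = Equiv.Perm.ofSubtype σ.1 := rfl
    rw [Equiv.Perm.mem_alternatingGroup, hfσ, Equiv.Perm.sign_ofSubtype]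
    exact Equiv.Perm.mem_alternatingGroup.mp σ.2
  let ψ : alternatingGroup {i : Fin n // i ≠ i₀} →* alternatingGroup (Fin n) :=
    f.codRestrict _ hmem
  have hψ : Function.Injective ψ := (MonoidHom.injective_codRestrict _ _ _).mpr hf
  let e : alternatingGroup {i : Fin n // i ≠ i₀} ≃* ψ.range := MonoidHom.ofInjective hψ
  have hsimple : IsSimpleGroup (alternatingGroup {i : Fin n // i ≠ i₀}) :=
    alternatingGroup.isSimpleGroup (by rw [Nat.card_eq_fintype_card, hcardα]; omega)
  have hsimpleH : IsSimpleGroup ψ.range := e.isSimpleGroup_congr.mp hsimple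
  have hnt : Nontrivial {i : Fin n // i ≠ i₀} :=
    Fintype.one_lt_card_iff_nontrivial.mp (by rw [hcardα]; omega)
  have hcardH : 2 * Nat.card ψ.range = (n - 1).factorial := by
    rw [← Nat.card_congr e.toEquiv, two_mul_nat_card_alternatingGroup, Nat.card_perm,
      Nat.card_eq_fintype_card, hcardα]
  have hcardA : 2 * Nat.card (alternatingGroup (Fin n)) = n.factorial := by
    haveI : Nontrivial (Fin n) := Fin.nontrivial_iff_two_le.mpr (by omega)
    rw [two_mul_nat_card_alternatingGroup, Nat.card_perm, Nat.card_eq_fintype_card,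
      Fintype.card_fin]
  have hpd : p ∣ Nat.card ψ.range := by
    have h1 : p ∣ (n - 1).factorial := (Nat.Prime.dvd_factorial hp.out).mpr (by omega)
    rw [← hcardH] at h1
    have hcop : Nat.Coprime p 2 := by
      rw [Nat.coprime_primes hp.out Nat.prime_two]
      exact hp2
    exact hcop.dvd_of_dvd_mul_left h1
  refine ⟨ψ.range, ?_, hpd, ?_⟩
  · intro htop
    have h0 : Nat.card ψ.range = Nat.card (alternatingGroup (Fin n)) := by
      rw [htop, Subgroup.card_top]
    have h1 : (n - 1).factorial < n.factorial := by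
      obtain ⟨m, rfl⟩ : ∃ m, n = m + 1 := ⟨n - 1, by omega⟩
      rw [Nat.factorial_succ, Nat.add_sub_cancel]
      have := Nat.factorial_pos m
      nlinarith
    omega
  · intro hcl
    obtain ⟨P⟩ : Nonempty (Sylow p ψ.range) := inferInstance
    have hPn := hcl P
    have hPbot := P.ne_bot_of_dvd_card hpd
    have hPtop : (P : Subgroup ψ.range) = ⊤ := (hPn.eq_bot_or_eq_top).resolve_left hPbot
    have hpg : IsPGroup p ψ.range := by
      intro x
      obtain ⟨k, hk⟩ := P.isPGroup' ⟨x, by rw [hPtop]; exact Subgroup.mem_top x⟩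
      exact ⟨k, congrArg Subtype.val hk⟩
    obtain ⟨k, hk⟩ := IsPGroup.iff_card.mp hpg
    have h120 : 120 ∣ (n - 1).factorial := by
      have h5 : (5 : ℕ).factorial ∣ (n - 1).factorial := Nat.factorial_dvd_factorial (by omega)
      have h5' : (5 : ℕ).factorial = 120 := by decide
      rw [h5'] at h5
      exact h5
    have h60 : 60 ∣ Nat.card ψ.range := by omega
    rw [hk] at h60
    have h3 : 3 ∣ p ^ k := dvd_trans (by norm_num) h60
    have h5 : 5 ∣ p ^ k := dvd_trans (by norm_num) h60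
    have e3 : 3 = p := (Nat.prime_dvd_prime_iff_eq (by norm_num) hp.out).mp
      (Nat.Prime.dvd_of_dvd_pow (by norm_num) h3)
    have e5 : 5 = p := (Nat.prime_dvd_prime_iff_eq (by norm_num) hp.out).mp
      (Nat.Prime.dvd_of_dvd_pow (by norm_num) h5)
    omega

/-- Let n ≥ 5 and p an odd prime with p ≤ n, and suppose that every proper subgroup of the alternating group of degree n whose order is divisible by p has a normal Sylow p-subgroup. Then n = p. -/
theorem result (n p : ℕ) (hn : 5 ≤ n) [Fact p.Prime] (hp : p ≠ 2) (hpn : p ≤ n)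
    (h : ∀ H : Subgroup ↥(alternatingGroup (Fin n)), H ≠ ⊤ → p ∣ Nat.card ↥H → Cfsg.IsPClosed p ↥H) : n = p := by
  by_contra hne
  have hlt : p < n := by omega
  rcases Nat.lt_or_ge n 6 with h6 | h6
  · have hn5 : n = 5 := by omega
    subst hn5
    have hpp : p.Prime := Fact.out
    have h2 := hpp.two_le
    have hp3 : p = 3 := by
      interval_cases p
      · exact absurd rfl hp
      · rfl
      · exact absurd hpp (by norm_num)
    subst hp3
    obtain ⟨H, h1, h2, h3⟩ := case_five
    exact h3 (h H h1 h2)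
  · obtain ⟨H, h1, h2, h3⟩ := case_ge_six n p h6 hp hlt
    exact h3 (h H h1 h2)

end Cfsg.Agent.S3941
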