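import Cfsg.Statements.S3949

set_option autoImplicit false
open Cfsg

namespace Cfsg.Agent.S3949

/-- Let G be a finite group and α an automorphism of G of order 2 such that the elements g·α(g)⁻¹ generate G. Let j be a positive integer such that 2^j divides the order of no element inverted by α. Then the set of values of the j-th iterate of the map c ↦ c·α(c)⁻¹ is exactly the set of elements of odd order inverted by α. -/
theorem result {G : Type*} [Group G] [Finite G] (α : MulAut G) (hα : orderOf α = 2) (hG : Subgroup.closure (Set.range (fun c : G => c * (α c)⁻¹)) = ⊤)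
    (j : ℕ) (hj : ∀ g : G, α g = g⁻¹ → ¬ 2 ^ j ∣ orderOf g) :
    Set.range ((fun c : G => c * (α c)⁻¹)^[j]) = {g : G | Odd (orderOf g) ∧ α g = g⁻¹} := by
  have hα2 : ∀ g : G, α (α g) = g := by
    intro g
    have h : α ^ 2 = 1 := by rw [← hα]; exact pow_orderOf_eq_one α
    have : (α ^ 2) g = g := by rw [h]; rfl
    simpa [pow_two] using this
  set f : G → G := fun c : G => c * (α c)⁻¹ with hf
  -- values of f are inverted
  have hinv : ∀ c : G, α (f c) = (f c)⁻¹ := by
    intro c
    simp [hf, hα2]
  -- on inverted elements f is squaring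
  have hsq : ∀ g : G, α g = g⁻¹ → f g = g ^ 2 := by
    intro g hg
    simp [hf, hg, pow_two]
  have hpowinv : ∀ (g : G) (n : ℕ), α g = g⁻¹ → α (g ^ n) = (g ^ n)⁻¹ := by
    intro g n hg
    rw [map_pow, hg, inv_pow]
  have hiter : ∀ (k : ℕ) (c : G), f^[k + 1] c = (f c) ^ (2 ^ k) := by
    intro k
    induction k with
    | zero => intro c; simp
    | succ k ih =>
      intro c
      rw [Function.iterate_succ_apply', ih c, hsq _ (hpowinv _ _ (hinv c)), ← pow_mul, pow_succ]
  have hj0 : j ≠ 0 := by
    rintro rfl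
    exact hj 1 (by simp) (by simp)
  obtain ⟨k, rfl⟩ := Nat.exists_eq_succ_of_ne_zero hj0
  ext g
  simp only [Set.mem_range, Set.mem_ofPred_eq]
  constructor
  · rintro ⟨c, rfl⟩
    rw [hiter k c]
    refine ⟨?_, hpowinv _ _ (hinv c)⟩
    set d := f c with hd
    have hdpos : orderOf d ≠ 0 := (orderOf_pos d).ne'
    obtain ⟨a, m, hm, ho⟩ := Nat.exists_eq_two_pow_mul_odd hdpos
    have hak : a ≤ k := by
      by_contra hcon
      push Not at hcon
      apply hj d (hinv c)
      rw [ho]
      exact Dvd.dvd.mul_right (pow_dvd_pow 2 hcon) m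
    have hone : (d ^ (2 ^ k)) ^ m = 1 := by
      rw [← pow_mul]
      have : 2 ^ k * m = orderOf d * 2 ^ (k - a) := by
        rw [ho]
        have : 2 ^ k = 2 ^ a * 2 ^ (k - a) := by rw [← pow_add]; congr 1; omega
        rw [this]; ring
      rw [this, pow_mul, pow_orderOf_eq_one, one_pow]
    have hdvd : orderOf (d ^ (2 ^ k)) ∣ m := orderOf_dvd_of_pow_eq_one hone
    exact Odd.of_dvd_nat hm hdvd
  · rintro ⟨hodd, hg⟩
    have hcop : Nat.Coprime (2 ^ (k + 1)) (orderOf g) := by
      apply Nat.Coprime.pow_left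
      exact (Nat.coprime_two_left).mpr hodd
    -- find e with 2^(k+1) * e ≡ 1 mod orderOf g
    have hex : ∃ e : ℕ, (g ^ e) ^ (2 ^ (k + 1)) = g := by
      by_cases h1 : orderOf g = 1
      · refine ⟨0, ?_⟩
        rw [orderOf_eq_one_iff] at h1
        simp [h1]
      · have hlt : 1 < orderOf g := by
          have := orderOf_pos g
          omega
        obtain ⟨e, -, he⟩ := Nat.exists_mul_mod_eq_one_of_coprime hcop hlt
        refine ⟨e, ?_⟩
        rw [← pow_mul, mul_comm]
        conv_rhs => rw [← pow_one g]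
        rw [pow_eq_pow_iff_modEq]
        show 2 ^ (k + 1) * e % orderOf g = 1 % orderOf g
        rw [he, Nat.mod_eq_of_lt hlt]
    obtain ⟨e, he⟩ := hex
    refine ⟨g ^ e, ?_⟩
    rw [hiter k, hsq _ (hpowinv g e hg), ← pow_mul, ← pow_succ']
    exact he

end Cfsg.Agent.S3949
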