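import Cfsg.Statements.S3982
import Mathlib

set_option autoImplicit false
open Cfsg
open scoped Pointwise

namespace Cfsg.Agent.S3982

/-- Let p be an odd prime and G a finite group of even order divisible by p in which the centralizer of every non-identity p-element has odd order. If some nontrivial p-subgroup of G has a normalizer of even order, then the normalizer of every Sylow p-subgroup of G has even order. -/
theorem result {G : Type*} [Group G] [Finite G] (p : ℕ) [Fact p.Prime] (hp2 : p ≠ 2) (hpG : p ∣ Nat.card G) (h2G : 2 ∣ Nat.card G) (hC : ∀ g : G, g ≠ 1 → (∃ k : ℕ, orderOf g = p ^ k) → Odd (Nat.card ↥(Subgroup.centralizer ({g} : Set G)))) (Q : Subgroup G) (hQ : IsPGroup p ↥Q) (hQ1 : Q ≠ ⊥) (hev : Even (Nat.card ↥(Subgroup.normalizer (Q : Set G)))) (P : Sylow p G) : Even (Nat.card ↥(Subgroup.normalizer ((P : Subgroup G) : Set G))) := by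
  have hp : p.Prime := Fact.out
  obtain ⟨T, hTdef⟩ : ∃ T : Set (Subgroup G), T = {Q : Subgroup G | IsPGroup p Q ∧ Q ≠ ⊥ ∧
      Even (Nat.card (Subgroup.normalizer (Q : Set G)))} := ⟨_, rfl⟩
  have hTne : Nonempty T := ⟨⟨Q, by rw [hTdef]; exact ⟨hQ, hQ1, hev⟩⟩⟩
  obtain ⟨⟨Q₀, hQ₀T⟩, hmax⟩ := Finite.exists_max (fun Q : T => Nat.card (Q.1))
  have hmax' : ∀ R : Subgroup G, IsPGroup p R → R ≠ ⊥ →
      Even (Nat.card (Subgroup.normalizer (R : Set G))) → Nat.card R ≤ Nat.card Q₀ :=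
    fun R h1 h2 h3 => hmax ⟨R, by rw [hTdef]; exact ⟨h1, h2, h3⟩⟩
  clear hmax
  rw [hTdef] at hQ₀T
  obtain ⟨hQ₀p, hQ₀1, hQ₀ev⟩ := hQ₀T
  -- the involution
  obtain ⟨y', hy'⟩ := exists_prime_orderOf_dvd_card' (G := Subgroup.normalizer (Q₀ : Set G)) 2
    hQ₀ev.two_dvd
  obtain ⟨y, hydef⟩ : ∃ y : G, y = y' := ⟨_, rfl⟩
  have hy : orderOf y = 2 := by rw [hydef, Subgroup.orderOf_coe]; exact hy'
  have hyN : y ∈ Subgroup.normalizer (Q₀ : Set G) := hydef ▸ y'.2
  have hy2 : y * y = 1 := by rw [← pow_two, ← hy, pow_orderOf_eq_one]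
  have hyinv : y⁻¹ = y := inv_eq_of_mul_eq_one_left hy2
  have hyy : ∀ m : G, y * (y * m * y⁻¹) * y⁻¹ = m := by
    intro m
    calc y * (y * m * y⁻¹) * y⁻¹ = (y * y) * m * (y * y)⁻¹ := by group
      _ = m := by rw [hy2, one_mul, inv_one, mul_one]
  have hfpf : ∀ c ∈ Q₀, y * c = c * y → c = 1 := by
    intro c hc hcomm
    by_contra hc1
    obtain ⟨k, hk⟩ := (IsPGroup.iff_orderOf.1 hQ₀p) ⟨c, hc⟩
    rw [Subgroup.orderOf_mk] at hk
    have hodd := hC c hc1 ⟨k, hk⟩
    have hyC : y ∈ Subgroup.centralizer ({c} : Set G) := by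
      rw [Subgroup.mem_centralizer_iff]
      intro z hz
      rw [Set.mem_singleton_iff] at hz
      subst hz
      exact hcomm.symm
    have hdvd : orderOf (⟨y, hyC⟩ : Subgroup.centralizer ({c} : Set G)) ∣ Nat.card _ :=
      orderOf_dvd_natCard _
    rw [Subgroup.orderOf_mk, hy] at hdvd
    exact (Nat.not_even_iff_odd.2 hodd) (even_iff_two_dvd.2 hdvd)
  have hyQ : ∀ x ∈ Q₀, y * x * y⁻¹ ∈ Q₀ := fun x hx =>
    (Subgroup.mem_normalizer_iff.1 hyN x).1 hx
  have hinv : ∀ z ∈ Q₀, y * z * y⁻¹ = z⁻¹ := by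
    let f : Q₀ → Q₀ := fun x =>
      ⟨x.1⁻¹ * (y * x.1 * y⁻¹), Q₀.mul_mem (Q₀.inv_mem x.2) (hyQ x.1 x.2)⟩
    have hf : Function.Injective f := by
      intro a b hab
      have h : a.1⁻¹ * (y * a.1 * y⁻¹) = b.1⁻¹ * (y * b.1 * y⁻¹) := congrArg Subtype.val hab
      have hc : y * (b.1 * a.1⁻¹) = (b.1 * a.1⁻¹) * y := by
        have h' : b.1 * (a.1⁻¹ * (y * a.1 * y⁻¹)) * (y * a.1⁻¹)
            = b.1 * (b.1⁻¹ * (y * b.1 * y⁻¹)) * (y * a.1⁻¹) := by rw [h]
        have e1 : b.1 * (a.1⁻¹ * (y * a.1 * y⁻¹)) * (y * a.1⁻¹) = b.1 * a.1⁻¹ * y := by group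
        have e2 : b.1 * (b.1⁻¹ * (y * b.1 * y⁻¹)) * (y * a.1⁻¹) = y * (b.1 * a.1⁻¹) := by group
        rw [e1, e2] at h'
        exact h'.symm
      have h1 := hfpf _ (Q₀.mul_mem b.2 (Q₀.inv_mem a.2)) hc
      exact Subtype.ext (mul_inv_eq_one.1 h1).symm
    have hsurj := Finite.injective_iff_surjective.1 hf
    intro z hz
    obtain ⟨x, hx⟩ := hsurj ⟨z, hz⟩
    have hx' : x.1⁻¹ * (y * x.1 * y⁻¹) = z := congrArg Subtype.val hx
    rw [← hx']
    have e : y * (x.1⁻¹ * (y * x.1 * y⁻¹)) * y⁻¹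
        = y * x.1⁻¹ * ((y * y) * y⁻¹ * x.1 * (y * y)⁻¹) := by group
    rw [e, hy2]
    group
  -- a Sylow subgroup containing Q₀
  obtain ⟨P₀, hP₀⟩ := hQ₀p.exists_le_sylow
  have hQP : Q₀ = (P₀ : Subgroup G) := by
    by_contra hne
    obtain ⟨g, hgP, hgN, hgQ⟩ : ∃ g, g ∈ (P₀ : Subgroup G) ∧
        g ∈ Subgroup.normalizer (Q₀ : Set G) ∧ g ∉ Q₀ := by
      have hnil : Group.IsNilpotent (P₀ : Subgroup G) := P₀.2.isNilpotent
      have hnc := Group.normalizerCondition_of_isNilpotent (G := (P₀ : Subgroup G))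
      have hQ'lt : Q₀.subgroupOf (P₀ : Subgroup G) < ⊤ := by
        rw [lt_top_iff_ne_top]
        intro h
        rw [Subgroup.subgroupOf_eq_top] at h
        exact hne (le_antisymm hP₀ h)
      have hlt := hnc _ hQ'lt
      obtain ⟨g', hg'N, hg'Q⟩ := SetLike.exists_of_lt hlt
      refine ⟨g'.1, g'.2, ?_, fun h => hg'Q (Subgroup.mem_subgroupOf.2 h)⟩
      rw [Subgroup.mem_normalizer_iff]
      rw [Subgroup.mem_normalizer_iff] at hg'N
      intro h
      constructor
      · intro hh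
        have := (hg'N ⟨h, hP₀ hh⟩).1 (Subgroup.mem_subgroupOf.2 hh)
        exact Subgroup.mem_subgroupOf.1 this
      · intro hh
        have hhR : h ∈ (P₀ : Subgroup G) := by
          have : (g'.1)⁻¹ * (g'.1 * h * (g'.1)⁻¹) * g'.1 ∈ (P₀ : Subgroup G) :=
            Subgroup.mul_mem _ (Subgroup.mul_mem _ (Subgroup.inv_mem _ g'.2) (hP₀ hh)) g'.2
          have e : (g'.1)⁻¹ * (g'.1 * h * (g'.1)⁻¹) * g'.1 = h := by group
          rwa [e] at this
        have := (hg'N ⟨h, hhR⟩).2 (Subgroup.mem_subgroupOf.2 hh)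
        exact Subgroup.mem_subgroupOf.1 this
    obtain ⟨S, hSdef⟩ : ∃ S : Subgroup G,
        S = Subgroup.normalizer (Q₀ : Set G) ⊓ (P₀ : Subgroup G) := ⟨_, rfl⟩
    have hSp : IsPGroup p S := by rw [hSdef]; exact P₀.2.to_le inf_le_right
    have hQS : Q₀ ≤ S := by rw [hSdef]; exact le_inf Subgroup.le_normalizer hP₀
    have hSN : S ≤ Subgroup.normalizer (Q₀ : Set G) := by rw [hSdef]; exact inf_le_left
    have hgS : g ∈ S := by rw [hSdef]; exact ⟨hgN, hgP⟩
    -- a central element of S inside Q₀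
    obtain ⟨z, hzQ, hz1, hzS⟩ : ∃ z ∈ Q₀, z ≠ 1 ∧ ∀ s ∈ S, s * z = z * s := by
      let act : MulAction S Q₀ :=
        { smul := fun s q => ⟨s.1 * q.1 * s.1⁻¹,
            (Subgroup.mem_normalizer_iff.1 (hSN s.2) q.1).1 q.2⟩
          one_smul := fun q => by
            apply Subtype.ext
            show (1 : G) * q.1 * (1 : G)⁻¹ = q.1
            group
          mul_smul := fun a b q => by
            apply Subtype.ext
            show (a.1 * b.1) * q.1 * (a.1 * b.1)⁻¹ = a.1 * (b.1 * q.1 * b.1⁻¹) * a.1⁻¹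
            group }
      have hsmul : ∀ (s : S) (q : Q₀), ((s • q : Q₀) : G) = s.1 * q.1 * s.1⁻¹ := fun s q => rfl
      have hcard : p ∣ Nat.card Q₀ := by
        obtain ⟨n, hn⟩ := IsPGroup.iff_card.1 hQ₀p
        have hn0 : n ≠ 0 := by
          rintro rfl
          rw [pow_zero, Subgroup.card_eq_one] at hn
          exact hQ₀1 hn
        rw [hn]
        exact dvd_pow_self p hn0
      have h1fix : (1 : Q₀) ∈ MulAction.fixedPoints S Q₀ := by
        intro s
        apply Subtype.ext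
        rw [hsmul]
        simp
      obtain ⟨b, hb, hb1⟩ := hSp.exists_fixed_point_of_prime_dvd_card_of_fixed_point
        (α := Q₀) hcard h1fix
      refine ⟨b.1, b.2, ?_, ?_⟩
      · intro h
        exact hb1 (Subtype.ext h.symm)
      · intro s hs
        have h := congrArg Subtype.val (hb ⟨s, hs⟩)
        rw [hsmul] at h
        calc s * b.1 = (s * b.1 * s⁻¹) * s := by group
          _ = b.1 * s := by rw [h]
    obtain ⟨M, hMdef⟩ : ∃ M : Subgroup G, M = Subgroup.centralizer ({z} : Set G) := ⟨_, rfl⟩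
    have hMmem : ∀ m : G, m ∈ M ↔ z * m = m * z := by
      intro m
      rw [hMdef, Subgroup.mem_centralizer_iff]
      constructor
      · intro h; exact h z rfl
      · intro h w hw
        rw [Set.mem_singleton_iff] at hw
        subst hw
        exact h
    have hModd : Odd (Nat.card M) := by
      obtain ⟨k, hk⟩ := (IsPGroup.iff_orderOf.1 hQ₀p) ⟨z, hzQ⟩
      rw [Subgroup.orderOf_mk] at hk
      rw [hMdef]
      exact hC z hz1 ⟨k, hk⟩
    have hSM : S ≤ M := fun s hs => (hMmem s).2 (hzS s hs).symm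
    have hyz : y * z * y⁻¹ = z⁻¹ := hinv z hzQ
    have hyM : ∀ m ∈ M, y * m * y⁻¹ ∈ M := by
      intro m hm
      rw [hMmem] at hm ⊢
      have hz' : y⁻¹ * z * y = z⁻¹ := by
        have h := hyz
        rw [hyinv] at h ⊢
        exact h
      have hzm : z⁻¹ * m = m * z⁻¹ := by
        calc z⁻¹ * m = z⁻¹ * (m * z) * z⁻¹ := by group
          _ = z⁻¹ * (z * m) * z⁻¹ := by rw [hm]
          _ = m * z⁻¹ := by group
      have hz'' : y * z⁻¹ * y⁻¹ = z := by rw [← conj_inv, hyz, inv_inv]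
      calc z * (y * m * y⁻¹) = y * ((y⁻¹ * z * y) * m) * y⁻¹ := by group
        _ = y * (z⁻¹ * m) * y⁻¹ := by rw [hz']
        _ = y * (m * z⁻¹) * y⁻¹ := by rw [hzm]
        _ = y * m * y⁻¹ * (y * z⁻¹ * y⁻¹) := by group
        _ = y * m * y⁻¹ * z := by rw [hz'']
    let σ : M ≃* M :=
      { toFun := fun m => ⟨y * m.1 * y⁻¹, hyM m.1 m.2⟩
        invFun := fun m => ⟨y * m.1 * y⁻¹, hyM m.1 m.2⟩
        left_inv := fun m => Subtype.ext (hyy m.1)
        right_inv := fun m => Subtype.ext (hyy m.1)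
        map_mul' := fun a b => by
          apply Subtype.ext
          show y * (a.1 * b.1) * y⁻¹ = (y * a.1 * y⁻¹) * (y * b.1 * y⁻¹)
          group }
    have hσapp : ∀ m : M, ((σ m : M) : G) = y * m.1 * y⁻¹ := fun m => rfl
    have hσ2 : σ * σ = 1 := by
      apply MulEquiv.ext
      intro m
      apply Subtype.ext
      show ((σ (σ m) : M) : G) = m.1
      rw [hσapp, hσapp, hyy]
    obtain ⟨A, hAdef⟩ : ∃ A : Subgroup (MulAut M), A = Subgroup.zpowers σ := ⟨_, rfl⟩
    have hA : IsPGroup 2 A := by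
      rintro ⟨a, ha⟩
      rw [hAdef, Subgroup.mem_zpowers_iff] at ha
      obtain ⟨k, rfl⟩ := ha
      refine ⟨1, ?_⟩
      apply Subtype.ext
      simp only [Subgroup.coe_pow, Subgroup.coe_one, pow_one]
      rw [← zpow_natCast, ← zpow_mul, mul_comm, zpow_mul, zpow_natCast, pow_two, hσ2, one_zpow]
    have hoddSyl : ¬ 2 ∣ Nat.card (Sylow p M) := by
      intro h
      obtain ⟨P'⟩ : Nonempty (Sylow p M) := inferInstance
      have h1 := (P'.card_dvd_index).trans (Subgroup.index_dvd_card _)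
      exact (Nat.not_even_iff_odd.2 hModd) (even_iff_two_dvd.2 (h.trans h1))
    obtain ⟨R', hR'⟩ := hA.nonempty_fixed_point_of_prime_not_dvd_card (Sylow p M) hoddSyl
    have hσR : ∀ m : M, m ∈ (R' : Subgroup M) → σ m ∈ (R' : Subgroup M) := by
      intro m hm
      have hσA : σ ∈ A := hAdef ▸ Subgroup.mem_zpowers σ
      have h1 := hR' ⟨σ, hσA⟩
      have h2 : (⟨σ, hσA⟩ : A) • m ∈ (⟨σ, hσA⟩ : A) • (R' : Subgroup M) :=
        Subgroup.smul_mem_pointwise_smul m _ _ hm
      have h2' : (⟨σ, hσA⟩ : A) • m ∈ (((⟨σ, hσA⟩ : A) • R' : Sylow p M) : Subgroup M) := h2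
      rw [h1] at h2'
      exact h2'
    obtain ⟨R, hRdef⟩ : ∃ R : Subgroup G, R = (R' : Subgroup M).map M.subtype := ⟨_, rfl⟩
    have hRp : IsPGroup p R := by rw [hRdef]; exact R'.2.map _
    have hRcard : Nat.card R = Nat.card R' := by
      rw [hRdef, Subgroup.card_map_of_injective M.subtype_injective]
    have hScard : Nat.card S ≤ Nat.card R := by
      rw [hRcard, Sylow.card_eq_multiplicity]
      obtain ⟨a, ha⟩ := IsPGroup.iff_card.1 hSp
      rw [ha]
      apply Nat.pow_le_pow_right hp.pos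
      rw [← Nat.Prime.pow_dvd_iff_le_factorization hp (Nat.card_pos.ne'), ← ha]
      exact Subgroup.card_dvd_of_le hSM
    have hQScard : Nat.card Q₀ < Nat.card S := by
      by_contra hle
      have := Subgroup.eq_of_le_of_card_ge hQS (not_lt.1 hle)
      exact hgQ (this ▸ hgS)
    have hR1 : R ≠ ⊥ := by
      intro h
      rw [h, Subgroup.card_bot] at hScard
      have := Nat.card_pos (α := Q₀)
      omega
    have hyR : y ∈ Subgroup.normalizer (R : Set G) := by
      have hconj : ∀ r ∈ R, y * r * y⁻¹ ∈ R := by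
        intro r hr
        rw [hRdef] at hr ⊢
        obtain ⟨m, hm, rfl⟩ := hr
        exact ⟨σ m, hσR m hm, rfl⟩
      rw [Subgroup.mem_normalizer_iff]
      intro r
      refine ⟨hconj r, fun h => ?_⟩
      have := hconj _ h
      rwa [hyy] at this
    have hRev : Even (Nat.card (Subgroup.normalizer (R : Set G))) := by
      have hdvd : orderOf (⟨y, hyR⟩ : Subgroup.normalizer (R : Set G)) ∣ Nat.card _ :=
        orderOf_dvd_natCard _
      rw [Subgroup.orderOf_mk, hy] at hdvd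
      exact even_iff_two_dvd.2 hdvd
    have := hmax' R hRp hR1 hRev
    omega
  -- conclusion: all Sylow normalizers are conjugate
  obtain ⟨g, hg⟩ := MulAction.exists_smul_eq G P₀ P
  have hcardN : Nat.card (Subgroup.normalizer ((P : Subgroup G) : Set G))
      = Nat.card (Subgroup.normalizer ((P₀ : Subgroup G) : Set G)) := by
    have e : ∀ P' : Sylow p G, Subgroup.normalizer ((P' : Subgroup G) : Set G)
        = MulAction.stabilizer G P' := fun P' => (Sylow.stabilizer_eq_normalizer P').symm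
    rw [e P, e P₀, ← hg,
      MulAction.stabilizer_smul_eq_stabilizer_map_conj,
      Subgroup.card_map_of_injective (MulAut.conj g).injective]
  rw [hcardN, ← hQP]
  exact hQ₀ev

end Cfsg.Agent.S3982
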