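import Cfsg.Statements.S3983
import Mathlib

set_option autoImplicit false
open Cfsg

namespace Cfsg.Agent.S3983

open scoped Pointwise

theorem mem_conj_smul {G : Type*} [Group G] (g x : G) (H : Subgroup G) :
    x ∈ MulAut.conj g • H ↔ g⁻¹ * x * g ∈ H := by
  rw [Subgroup.mem_pointwise_smul_iff_inv_smul_mem]
  simp [MulAut.smul_def]

theorem mem_normalizer_iff_conj_smul_eq {G : Type*} [Group G] (g : G) (H : Subgroup G) :
    g ∈ Subgroup.normalizer (H : Set G) ↔ MulAut.conj g • H = H := by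
  rw [Subgroup.mem_normalizer_iff_map_conj_eq]; rfl

theorem ti_elt {G : Type*} [Group G] (H : Subgroup G)
    (hTI : ∀ g : G, g ∉ Subgroup.normalizer (H : Set G) → H ⊓ (MulAut.conj g • H) = ⊥)
    (g x : G) (hx : x ∈ H) (hx1 : x ≠ 1) (hgx : g⁻¹ * x * g ∈ H) :
    g ∈ Subgroup.normalizer (H : Set G) := by
  by_contra hg
  have h1 : x ∈ H ⊓ (MulAut.conj g • H) := ⟨hx, (mem_conj_smul g x H).mpr hgx⟩
  rw [hTI g hg, Subgroup.mem_bot] at h1
  exact hx1 h1

theorem ti_of_elt {G : Type*} [Group G] (H : Subgroup G)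
    (h : ∀ g x : G, x ∈ H → x ≠ 1 → g⁻¹ * x * g ∈ H → g ∈ Subgroup.normalizer (H : Set G)) :
    ∀ g : G, g ∉ Subgroup.normalizer (H : Set G) → H ⊓ (MulAut.conj g • H) = ⊥ := by
  intro g hg
  rw [eq_bot_iff]
  intro x hx
  rw [Subgroup.mem_bot]
  by_contra hx1
  exact hg (h g x hx.1 hx1 ((mem_conj_smul g x H).mp hx.2))

theorem ti_elt_conj {G : Type*} [Group G] (H : Subgroup G)
    (hH : ∀ g x : G, x ∈ H → x ≠ 1 → g⁻¹ * x * g ∈ H → g ∈ Subgroup.normalizer (H : Set G))
    (h : G) : ∀ g x : G, x ∈ MulAut.conj h • H → x ≠ 1 → g⁻¹ * x * g ∈ MulAut.conj h • H →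
      g ∈ Subgroup.normalizer ((MulAut.conj h • H : Subgroup G) : Set G) := by
  intro g x hx hx1 hgx
  rw [mem_conj_smul] at hx hgx
  have h1 : h⁻¹ * g * h ∈ Subgroup.normalizer (H : Set G) := by
    refine hH (h⁻¹ * g * h) (h⁻¹ * x * h) hx ?_ ?_
    · intro h2
      apply hx1
      have : x = h * (h⁻¹ * x * h) * h⁻¹ := by group
      rw [this, h2]; group
    · have : (h⁻¹ * g * h)⁻¹ * (h⁻¹ * x * h) * (h⁻¹ * g * h) = h⁻¹ * (g⁻¹ * x * g) * h := by group
      rw [this]; exact hgx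
  rw [mem_normalizer_iff_conj_smul_eq] at h1 ⊢
  rw [← mul_smul, ← map_mul]
  have : g * h = h * (h⁻¹ * g * h) := by group
  rw [this, map_mul, mul_smul, h1]

/-- Let P be a Sylow p-subgroup of the finite group G that meets each conjugate g P g⁻¹ with g outside N_G(P) trivially, and let U be a subgroup of G of order divisible by p. Then a Sylow p-subgroup Q of U has the same property inside U: Q meets each conjugate u Q u⁻¹ with u ∈ U outside N_U(Q) trivially. -/
theorem result {G : Type*} [Group G] [Finite G] (p : ℕ) [Fact p.Prime] (P : Sylow p G) (hTI : ∀ g : G, g ∉ Subgroup.normalizer ((P : Subgroup G) : Set G) → (P : Subgroup G) ⊓ (MulAut.conj g • (P : Subgroup G)) = ⊥) (U : Subgroup G) (hU : p ∣ Nat.card ↥U) (Q : Sylow p ↥U) : ∀ u : ↥U, u ∉ Subgroup.normalizer ((Q : Subgroup ↥U) : Set ↥U) → (Q : Subgroup ↥U) ⊓ (MulAut.conj u • (Q : Subgroup ↥U)) = ⊥ := by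
  -- a Sylow subgroup of G containing the image of Q
  have hQp : IsPGroup p ((Q : Subgroup U).map U.subtype) := Q.isPGroup'.map _
  obtain ⟨P', hP'⟩ := hQp.exists_le_sylow
  obtain ⟨h, hh⟩ := MulAction.exists_smul_eq G P P'
  have hP'eq : (P' : Subgroup G) = MulAut.conj h • (P : Subgroup G) := by
    rw [← hh]; rfl
  have hTI' := ti_elt_conj (P : Subgroup G) (ti_elt (P : Subgroup G) hTI) h
  rw [← hP'eq] at hTI'
  -- Q is the intersection of P' with U
  have hQeq : (Q : Subgroup U) = (P' : Subgroup G).subgroupOf U := by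
    have h1 : (Q : Subgroup U) ≤ (P' : Subgroup G).subgroupOf U := by
      intro x hx
      rw [Subgroup.mem_subgroupOf]
      exact hP' (Subgroup.mem_map_of_mem _ hx)
    have h2 : IsPGroup p ((P' : Subgroup G).subgroupOf U) :=
      P'.isPGroup'.comap_of_injective _ (Subgroup.subtype_injective _)
    exact (Q.is_maximal' h2 h1).symm
  apply ti_of_elt
  intro u x hx hx1 hux
  rw [hQeq, Subgroup.mem_subgroupOf] at hx hux
  have hu : (u : G) ∈ Subgroup.normalizer ((P' : Subgroup G) : Set G) := by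
    refine hTI' (u : G) (x : G) hx ?_ ?_
    · intro h1; apply hx1; exact Subtype.ext h1
    · simpa using hux
  rw [hQeq]
  rw [Subgroup.mem_normalizer_iff] at hu ⊢
  intro n
  rw [Subgroup.mem_subgroupOf, Subgroup.mem_subgroupOf]
  simpa using hu (n : G)

end Cfsg.Agent.S3983
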