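import Cfsg.Statements.S3984
import Mathlib

set_option autoImplicit false
open Cfsg

namespace Cfsg.Agent.S3984

open scoped Pointwise

theorem mem_conj_smul {G : Type*} [Group G] (g x : G) (H : Subgroup G) :
    x ∈ MulAut.conj g • H ↔ g⁻¹ * x * g ∈ H := by
  rw [Subgroup.mem_pointwise_smul_iff_inv_smul_mem]
  simp [MulAut.smul_def]

theorem mem_normalizer_iff_conj_smul_eq {G : Type*} [Group G] (g : G) (H : Subgroup G) :
    g ∈ Subgroup.normalizer (H : Set G) ↔ MulAut.conj g • H = H := by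
  rw [Subgroup.mem_normalizer_iff_map_conj_eq]; rfl

theorem ti_elt {G : Type*} [Group G] (H : Subgroup G)
    (hTI : ∀ g : G, g ∉ Subgroup.normalizer (H : Set G) → H ⊓ (MulAut.conj g • H) = ⊥)
    (g x : G) (hx : x ∈ H) (hx1 : x ≠ 1) (hgx : g⁻¹ * x * g ∈ H) :
    g ∈ Subgroup.normalizer (H : Set G) := by
  by_contra hg
  have h1 : x ∈ H ⊓ (MulAut.conj g • H) := ⟨hx, (mem_conj_smul g x H).mpr hgx⟩
  rw [hTI g hg, Subgroup.mem_bot] at h1
  exact hx1 h1

theorem ti_of_elt {G : Type*} [Group G] (H : Subgroup G)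
    (h : ∀ g x : G, x ∈ H → x ≠ 1 → g⁻¹ * x * g ∈ H → g ∈ Subgroup.normalizer (H : Set G)) :
    ∀ g : G, g ∉ Subgroup.normalizer (H : Set G) → H ⊓ (MulAut.conj g • H) = ⊥ := by
  intro g hg
  rw [eq_bot_iff]
  intro x hx
  rw [Subgroup.mem_bot]
  by_contra hx1
  exact hg (h g x hx.1 hx1 ((mem_conj_smul g x H).mp hx.2))

theorem ti_elt_conj {G : Type*} [Group G] (H : Subgroup G)
    (hH : ∀ g x : G, x ∈ H → x ≠ 1 → g⁻¹ * x * g ∈ H → g ∈ Subgroup.normalizer (H : Set G))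
    (h : G) : ∀ g x : G, x ∈ MulAut.conj h • H → x ≠ 1 → g⁻¹ * x * g ∈ MulAut.conj h • H →
      g ∈ Subgroup.normalizer ((MulAut.conj h • H : Subgroup G) : Set G) := by
  intro g x hx hx1 hgx
  rw [mem_conj_smul] at hx hgx
  have h1 : h⁻¹ * g * h ∈ Subgroup.normalizer (H : Set G) := by
    refine hH (h⁻¹ * g * h) (h⁻¹ * x * h) hx ?_ ?_
    · intro h2
      apply hx1
      have : x = h * (h⁻¹ * x * h) * h⁻¹ := by group
      rw [this, h2]; group
    · have : (h⁻¹ * g * h)⁻¹ * (h⁻¹ * x * h) * (h⁻¹ * g * h) = h⁻¹ * (g⁻¹ * x * g) * h := by group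
      rw [this]; exact hgx
  rw [mem_normalizer_iff_conj_smul_eq] at h1 ⊢
  rw [← mul_smul, ← map_mul]
  have : g * h = h * (h⁻¹ * g * h) := by group
  rw [this, map_mul, mul_smul, h1]

/-- Let P be a Sylow p-subgroup of the finite group G that meets each conjugate g P g⁻¹ with g outside N_G(P) trivially, and let N be a normal subgroup of G of order prime to p. Then every Sylow p-subgroup Q of G ⧸ N meets each conjugate x Q x⁻¹ with x outside its normalizer trivially. -/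
theorem result {G : Type*} [Group G] [Finite G] (p : ℕ) [Fact p.Prime] (P : Sylow p G) (hTI : ∀ g : G, g ∉ Subgroup.normalizer ((P : Subgroup G) : Set G) → (P : Subgroup G) ⊓ (MulAut.conj g • (P : Subgroup G)) = ⊥) (N : Subgroup G) [N.Normal] (hN : (Nat.card ↥N).Coprime p) (Q : Sylow p (G ⧸ N)) : ∀ x : G ⧸ N, x ∉ Subgroup.normalizer ((Q : Subgroup (G ⧸ N)) : Set (G ⧸ N)) → (Q : Subgroup (G ⧸ N)) ⊓ (MulAut.conj x • (Q : Subgroup (G ⧸ N))) = ⊥ := by
  -- Q is the image of a Sylow subgroup P' of G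
  obtain ⟨P', hP'⟩ := Sylow.mapSurjective_surjective (QuotientGroup.mk'_surjective N) p Q
  have hQeq : (Q : Subgroup (G ⧸ N)) = (P' : Subgroup G).map (QuotientGroup.mk' N) := by
    rw [← hP']; rfl
  obtain ⟨h, hh⟩ := MulAction.exists_smul_eq G P P'
  have hP'eq : (P' : Subgroup G) = MulAut.conj h • (P : Subgroup G) := by
    rw [← hh]; rfl
  have hTI' := ti_elt_conj (P : Subgroup G) (ti_elt (P : Subgroup G) hTI) h
  rw [← hP'eq] at hTI'
  apply ti_of_elt
  intro x y hy hy1 hxy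
  obtain ⟨g, rfl⟩ := QuotientGroup.mk'_surjective N x
  rw [hQeq] at hy hxy ⊢
  obtain ⟨a, ha, rfl⟩ := Subgroup.mem_map.mp hy
  obtain ⟨b, hb, hab⟩ := Subgroup.mem_map.mp hxy
  have ha1 : a ≠ 1 := by
    rintro rfl; exact hy1 (map_one _)
  -- c = g⁻¹ a g lies in P' ⊔ N
  set c : G := g⁻¹ * a * g with hc
  have hbc : b⁻¹ * c ∈ N := by
    rw [← QuotientGroup.eq]
    simpa [hc] using hab
  have hcK : c ∈ (P' : Subgroup G) ⊔ N := by
    have : c = b * (b⁻¹ * c) := by group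
    rw [this]
    exact Subgroup.mul_mem_sup hb hbc
  -- Sylow theory inside K = P' ⊔ N
  let K : Subgroup G := (P' : Subgroup G) ⊔ N
  let PK : Sylow p K := P'.subtype (le_sup_left : (P' : Subgroup G) ≤ K)
  have hcp : IsPGroup p (Subgroup.zpowers (⟨c, hcK⟩ : K)) := by
    have h1 : IsPGroup p (Subgroup.zpowers a) := P'.isPGroup'.to_le (by
      rw [Subgroup.zpowers_le]; exact ha)
    rw [IsPGroup.iff_card, Nat.card_zpowers] at h1 ⊢
    obtain ⟨k, hk⟩ := h1
    refine ⟨k, ?_⟩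
    rw [← hk, ← Subgroup.orderOf_coe (⟨c, hcK⟩ : K)]
    exact (MulAut.conj g⁻¹).orderOf_eq a |>.symm ▸ (by simp [hc])
  obtain ⟨R, hR⟩ := hcp.exists_le_sylow
  obtain ⟨k, hk⟩ := MulAction.exists_smul_eq K PK R
  have hcR : (⟨c, hcK⟩ : K) ∈ (R : Subgroup K) := hR (Subgroup.mem_zpowers _)
  rw [← hk, Sylow.coe_subgroup_smul, mem_conj_smul] at hcR
  have hcR' : (k : G)⁻¹ * c * (k : G) ∈ (P' : Subgroup G) := by
    have := hcR
    rw [Sylow.coe_subtype, Subgroup.mem_subgroupOf] at this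
    simpa using this
  -- write k = n * b' with n ∈ N, b' ∈ P'
  have hkK : (k : G) ∈ (N ⊔ (P' : Subgroup G) : Subgroup G) := by
    rw [sup_comm]; exact k.2
  rw [← SetLike.mem_coe, Subgroup.normal_mul] at hkK
  obtain ⟨n, hn, b', hb', hbn⟩ := Set.mem_mul.mp hkK
  have hgn : g * n ∈ Subgroup.normalizer ((P' : Subgroup G) : Set G) := by
    refine hTI' (g * n) a ha ha1 ?_
    have h1 : (g * n)⁻¹ * a * (g * n) = b' * ((k : G)⁻¹ * c * (k : G)) * b'⁻¹ := by
      rw [← hbn, hc]; group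
    rw [h1]
    exact Subgroup.mul_mem _ (Subgroup.mul_mem _ hb' hcR') (Subgroup.inv_mem _ hb')
  have h2 : (QuotientGroup.mk' N) g = (QuotientGroup.mk' N) (g * n) := by
    have h3 : (QuotientGroup.mk' N) n = 1 := (QuotientGroup.eq_one_iff n).mpr hn
    rw [map_mul, h3, mul_one]
  rw [h2]
  exact Subgroup.le_normalizer_map _ (Subgroup.mem_map_of_mem _ hgn)

end Cfsg.Agent.S3984
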