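import Cfsg.Statements.S3985
import Mathlib

set_option autoImplicit false
open Cfsg

namespace Cfsg.Agent.S3985

open scoped Pointwise

theorem mem_conj_smul {G : Type*} [Group G] (g x : G) (H : Subgroup G) :
    x ∈ MulAut.conj g • H ↔ g⁻¹ * x * g ∈ H := by
  rw [Subgroup.mem_pointwise_smul_iff_inv_smul_mem]
  simp [MulAut.smul_def]

theorem mem_normalizer_iff_conj_smul_eq {G : Type*} [Group G] (g : G) (H : Subgroup G) :
    g ∈ Subgroup.normalizer (H : Set G) ↔ MulAut.conj g • H = H := by
  rw [Subgroup.mem_normalizer_iff_map_conj_eq]; rfl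

theorem ti_elt {G : Type*} [Group G] (H : Subgroup G)
    (hTI : ∀ g : G, g ∉ Subgroup.normalizer (H : Set G) → H ⊓ (MulAut.conj g • H) = ⊥)
    (g x : G) (hx : x ∈ H) (hx1 : x ≠ 1) (hgx : g⁻¹ * x * g ∈ H) :
    g ∈ Subgroup.normalizer (H : Set G) := by
  by_contra hg
  have h1 : x ∈ H ⊓ (MulAut.conj g • H) := ⟨hx, (mem_conj_smul g x H).mpr hgx⟩
  rw [hTI g hg, Subgroup.mem_bot] at h1
  exact hx1 h1

theorem ti_of_elt {G : Type*} [Group G] (H : Subgroup G)
    (h : ∀ g x : G, x ∈ H → x ≠ 1 → g⁻¹ * x * g ∈ H → g ∈ Subgroup.normalizer (H : Set G)) :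
    ∀ g : G, g ∉ Subgroup.normalizer (H : Set G) → H ⊓ (MulAut.conj g • H) = ⊥ := by
  intro g hg
  rw [eq_bot_iff]
  intro x hx
  rw [Subgroup.mem_bot]
  by_contra hx1
  exact hg (h g x hx.1 hx1 ((mem_conj_smul g x H).mp hx.2))

theorem ti_elt_conj {G : Type*} [Group G] (H : Subgroup G)
    (hH : ∀ g x : G, x ∈ H → x ≠ 1 → g⁻¹ * x * g ∈ H → g ∈ Subgroup.normalizer (H : Set G))
    (h : G) : ∀ g x : G, x ∈ MulAut.conj h • H → x ≠ 1 → g⁻¹ * x * g ∈ MulAut.conj h • H →
      g ∈ Subgroup.normalizer ((MulAut.conj h • H : Subgroup G) : Set G) := by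
  intro g x hx hx1 hgx
  rw [mem_conj_smul] at hx hgx
  have h1 : h⁻¹ * g * h ∈ Subgroup.normalizer (H : Set G) := by
    refine hH (h⁻¹ * g * h) (h⁻¹ * x * h) hx ?_ ?_
    · intro h2
      apply hx1
      have : x = h * (h⁻¹ * x * h) * h⁻¹ := by group
      rw [this, h2]; group
    · have : (h⁻¹ * g * h)⁻¹ * (h⁻¹ * x * h) * (h⁻¹ * g * h) = h⁻¹ * (g⁻¹ * x * g) * h := by group
      rw [this]; exact hgx
  rw [mem_normalizer_iff_conj_smul_eq] at h1 ⊢
  rw [← mul_smul, ← map_mul]
  have : g * h = h * (h⁻¹ * g * h) := by group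
  rw [this, map_mul, mul_smul, h1]


/-- An endomorphism of a finite cyclic `p`-group which fixes a nontrivial element and whose
`s`-th iterate is the identity, `s` prime to `p`, is the identity. -/
theorem cyc_endo_eq_id {P : Type*} [Group P] [Finite P] [IsCyclic P] (p n : ℕ) [Fact p.Prime]
    (hcard : Nat.card P = p ^ n) (α : P →* P) (x : P) (hx1 : x ≠ 1) (hx : α x = x)
    (s : ℕ) (hs : ¬ p ∣ s) (hαs : ∀ y : P, α^[s] y = y) : ∀ y : P, α y = y := by
  have hp : p.Prime := Fact.out
  obtain ⟨c, hc⟩ := IsCyclic.exists_monoid_generator (α := P)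
  obtain ⟨r, hr⟩ := hc (α c)
  simp only at hr
  have hα : ∀ y : P, α y = y ^ r := by
    intro y
    obtain ⟨i, rfl⟩ := hc y
    simp only
    rw [map_pow, ← hr, ← pow_mul, ← pow_mul, mul_comm]
  have hiter : ∀ (t : ℕ) (y : P), α^[t] y = y ^ (r ^ t) := by
    intro t
    induction t with
    | zero => intro y; simp
    | succ t ih =>
      intro y
      rw [Function.iterate_succ_apply', ih, hα, ← pow_mul, pow_succ]
  have hordc : orderOf c = p ^ n := by
    rw [← hcard]
    apply orderOf_eq_card_of_forall_mem_zpowers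
    intro y
    exact Submonoid.powers_le_zpowers c (hc y)
  -- r ^ s ≡ 1 mod p ^ n
  have h1 : r ^ s ≡ 1 [MOD p ^ n] := by
    rw [← hordc, ← pow_eq_pow_iff_modEq, pow_one, ← hiter, hαs]
  -- r ≡ 1 mod p
  have hn : n ≠ 0 := by
    rintro rfl
    rw [pow_zero] at hcard
    have := (Nat.card_eq_one_iff_unique.mp hcard).1
    exact hx1 (Subsingleton.elim _ _)
  have hpx : p ∣ orderOf x := by
    have h2 : orderOf x ∣ p ^ n := hcard ▸ orderOf_dvd_natCard x
    obtain ⟨k, hk, hk2⟩ := (Nat.dvd_prime_pow hp).mp h2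
    have hk0 : k ≠ 0 := by
      rintro rfl
      rw [pow_zero, orderOf_eq_one_iff] at hk2
      exact hx1 hk2
    rw [hk2]; exact dvd_pow_self p hk0
  have h3 : r ≡ 1 [MOD p] := by
    have : r ≡ 1 [MOD orderOf x] := by
      rw [← pow_eq_pow_iff_modEq, pow_one, ← hα, hx]
    exact this.of_dvd hpx
  have hr1 : 1 ≤ r := by
    rcases Nat.eq_zero_or_pos r with h | h
    · exfalso
      rw [h] at h3
      have := (Nat.modEq_zero_iff_dvd.mp h3.symm)
      exact hp.one_lt.ne' (Nat.dvd_one.mp this)
    · exact h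
  have h4 : ((r : ZMod (p ^ n)) = 1) ∨ IsUnit ((r : ZMod (p ^ n)) - 1) := by
    apply ZMod.eq_one_or_isUnit_sub_one (p := p) (k := n) rfl
    have h5 : (r : ZMod (p ^ n)) ^ s = 1 := by
      have := (ZMod.natCast_eq_natCast_iff _ _ _).mpr h1
      simpa using this
    have h6 : orderOf (r : ZMod (p ^ n)) ∣ s := orderOf_dvd_of_pow_eq_one h5
    apply Nat.Coprime.pow_right
    apply Nat.Coprime.coprime_dvd_left h6
    rw [Nat.coprime_comm]
    exact (Nat.Prime.coprime_iff_not_dvd hp).mpr hs
  have h7 : (r : ZMod (p ^ n)) = 1 := by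
    rcases h4 with h | h
    · exact h
    · exfalso
      have h8 : ((r : ZMod (p ^ n)) - 1) = ((r - 1 : ℕ) : ZMod (p ^ n)) := by
        rw [Nat.cast_sub hr1, Nat.cast_one]
      rw [h8, ZMod.isUnit_iff_coprime] at h
      have h9 : p ∣ r - 1 := (Nat.modEq_iff_dvd' hr1).mp h3.symm
      have h10 : p ∣ Nat.gcd (r - 1) (p ^ n) := Nat.dvd_gcd h9 (dvd_pow_self p hn)
      rw [h] at h10
      exact hp.one_lt.ne' (Nat.dvd_one.mp h10)
  have h11 : r ≡ 1 [MOD p ^ n] := by
    have := (ZMod.natCast_eq_natCast_iff r 1 (p ^ n)).mp (by simpa using h7)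
    exact this
  have h12 : α c = c := by
    rw [hα, ← pow_one c, ← pow_mul, one_mul, pow_eq_pow_iff_modEq, hordc]
    exact h11
  intro y
  obtain ⟨i, rfl⟩ := hc y
  simp only
  rw [map_pow, h12]

/-- Let P be a cyclic Sylow p-subgroup of the finite group G. Then P meets each conjugate g P g⁻¹ with g outside N_G(P) trivially if and only if P is weakly self-centralizing: C_G(x) = C_G(P) for every non-identity x ∈ P. -/
theorem result {G : Type*} [Group G] [Finite G] (p : ℕ) [Fact p.Prime] (P : Sylow p G) (hcyc : IsCyclic ↥(P : Subgroup G)) : (∀ g : G, g ∉ Subgroup.normalizer ((P : Subgroup G) : Set G) → (P : Subgroup G) ⊓ (MulAut.conj g • (P : Subgroup G)) = ⊥) ↔ ∀ x : G, x ∈ (P : Subgroup G) → x ≠ 1 → Subgroup.centralizer ({x} : Set G) = Subgroup.centralizer ((P : Subgroup G) : Set G) := by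
  have hp : p.Prime := Fact.out
  have := hcyc
  have hcomm : ∀ a b : G, a ∈ (P : Subgroup G) → b ∈ (P : Subgroup G) → a * b = b * a := by
    intro a b ha hb
    have := mul_comm' (⟨a, ha⟩ : (P : Subgroup G)) ⟨b, hb⟩
    exact congrArg Subtype.val this
  -- a p-subgroup of the normalizer lies in P
  have hpN : ∀ y : G, y ∈ Subgroup.normalizer ((P : Subgroup G) : Set G) →
      (∃ e : ℕ, orderOf y = p ^ e) → y ∈ (P : Subgroup G) := by
    intro y hy ⟨e, he⟩
    have hz : IsPGroup p (Subgroup.zpowers y) := by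
      rw [IsPGroup.iff_card, Nat.card_zpowers]; exact ⟨e, he⟩
    have h1 : Subgroup.zpowers y ⊓ Subgroup.normalizer ((P : Subgroup G) : Set G) =
        Subgroup.zpowers y ⊓ (P : Subgroup G) := hz.inf_normalizer_sylow P
    have h2 : Subgroup.zpowers y ≤ Subgroup.normalizer ((P : Subgroup G) : Set G) := by
      rw [Subgroup.zpowers_le]; exact hy
    rw [inf_eq_left.mpr h2] at h1
    have h3 : Subgroup.zpowers y ≤ (P : Subgroup G) := by
      rw [h1]; exact inf_le_right
    exact h3 (Subgroup.mem_zpowers y)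
  constructor
  · intro hTI x hx hx1
    apply le_antisymm
    · intro g hg
      rw [Subgroup.mem_centralizer_iff] at hg
      have hgx : x * g = g * x := hg x rfl
      have hgx' : g⁻¹ * x * g = x := by rw [mul_assoc, hgx, inv_mul_cancel_left]
      have hgN : g ∈ Subgroup.normalizer ((P : Subgroup G) : Set G) :=
        ti_elt (P : Subgroup G) hTI g x hx hx1 (hgx'.symm ▸ hx)
      have hgN' := Subgroup.mem_normalizer_iff.mp hgN
      -- the conjugation endomorphism of P
      let α : (P : Subgroup G) →* (P : Subgroup G) :=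
        { toFun := fun y => ⟨g * y * g⁻¹, (hgN' y).mp y.2⟩
          map_one' := by ext; simp
          map_mul' := by intro a b; ext; simp }
      have hαiter : ∀ (t : ℕ) (y : (P : Subgroup G)), ((α^[t] y : (P : Subgroup G)) : G) = g ^ t * y * (g ^ t)⁻¹ := by
        intro t
        induction t with
        | zero => intro y; simp
        | succ t ih =>
          intro y
          rw [Function.iterate_succ_apply']
          change g * ((α^[t] y : (P : Subgroup G)) : G) * g⁻¹ = _
          rw [ih, pow_succ']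
          group
      -- split the order of g
      have hog : orderOf g ≠ 0 := (orderOf_pos g).ne'
      obtain ⟨e, s, hs, hes⟩ := Nat.exists_eq_pow_mul_and_not_dvd hog p hp.ne_one
      have hs0 : s ≠ 0 := by rintro rfl; exact hs (dvd_zero p)
      have hgs : g ^ s ∈ (P : Subgroup G) := by
        apply hpN
        · exact Subgroup.pow_mem _ hgN s
        · refine ⟨e, ?_⟩
          rw [orderOf_pow, hes, Nat.gcd_eq_right (Dvd.intro_left _ rfl),
            Nat.mul_div_cancel _ (Nat.pos_of_ne_zero hs0)]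
      obtain ⟨n, hn⟩ := IsPGroup.iff_card.mp P.isPGroup'
      have key := cyc_endo_eq_id p n hn α ⟨x, hx⟩ (by
          intro h; exact hx1 (congrArg Subtype.val h)) (by
          apply Subtype.ext
          change g * x * g⁻¹ = x
          rw [← hgx, mul_inv_cancel_right]) s hs (by
          intro y
          apply Subtype.ext
          rw [hαiter, hcomm _ _ hgs y.2, mul_inv_cancel_right])
      rw [Subgroup.mem_centralizer_iff]
      intro y hy
      have := congrArg Subtype.val (key ⟨y, hy⟩)
      change g * y * g⁻¹ = y at this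
      calc y * g = g * y * g⁻¹ * g := by rw [this]
        _ = g * y := by group
    · exact Subgroup.centralizer_le (Set.singleton_subset_iff.mpr hx)
  · intro h
    apply ti_of_elt
    intro g x hx hx1 hgx
    have hx'1 : g⁻¹ * x * g ≠ 1 := by
      intro h1
      apply hx1
      have : x = g * (g⁻¹ * x * g) * g⁻¹ := by group
      rw [this, h1]; group
    have hC := h x hx hx1
    have hC' := h (g⁻¹ * x * g) hgx hx'1
    -- g⁻¹ P g ≤ C(P) ≤ N(P)
    have hsub : ∀ y : G, y ∈ (P : Subgroup G) → g⁻¹ * y * g ∈ (P : Subgroup G) := by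
      intro y hy
      apply hpN
      · have h1 : g⁻¹ * y * g ∈ Subgroup.centralizer ((P : Subgroup G) : Set G) := by
          rw [← hC', Subgroup.mem_centralizer_iff]
          intro z hz
          rw [Set.mem_singleton_iff] at hz
          rw [hz]
          have h2 : x * y = y * x := hcomm x y hx hy
          calc g⁻¹ * x * g * (g⁻¹ * y * g) = g⁻¹ * (x * y) * g := by group
            _ = g⁻¹ * (y * x) * g := by rw [h2]
            _ = g⁻¹ * y * g * (g⁻¹ * x * g) := by group
        have h3 : Subgroup.centralizer ((P : Subgroup G) : Set G) ≤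
            Subgroup.normalizer ((P : Subgroup G) : Set G) := Subgroup.centralizer_le_normalizer _
        exact h3 h1
      · obtain ⟨e, he⟩ := (IsPGroup.iff_orderOf.mp P.isPGroup') ⟨y, hy⟩
        refine ⟨e, ?_⟩
        rw [← he, Subgroup.orderOf_mk]
        have := (MulAut.conj g⁻¹).orderOf_eq y
        simpa [MulAut.conj_apply] using this
    have hle : ((g⁻¹ • P : Sylow p G) : Subgroup G) ≤ (P : Subgroup G) := by
      intro z hz
      rw [Sylow.coe_subgroup_smul, mem_conj_smul] at hz
      have := hsub _ hz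
      simpa [mul_assoc] using this
    have heq : (g⁻¹ • P : Sylow p G) = P := by
      apply Sylow.ext
      exact ((g⁻¹ • P : Sylow p G).is_maximal' P.isPGroup' hle).symm
    have := Sylow.smul_eq_iff_mem_normalizer.mp heq
    simpa using this

end Cfsg.Agent.S3985
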