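import Cfsg.Statements.S3986
import Mathlib

set_option autoImplicit false
open Cfsg

namespace Cfsg.Agent.S3986

/-- A subgroup containing a Sylow subgroup for every prime is everything. -/
theorem eq_top_of_forall_sylow_le {G : Type*} [Group G] [Finite G] (H : Subgroup G)
    (h : ∀ q : ℕ, q.Prime → ∃ Q : Sylow q G, (Q : Subgroup G) ≤ H) : H = ⊤ := by
  apply Subgroup.eq_top_of_card_eq
  apply Nat.dvd_antisymm (Subgroup.card_subgroup_dvd_card H)
  rw [← Nat.factorization_prime_le_iff_dvd Nat.card_pos.ne' Nat.card_pos.ne']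
  intro q hq
  have := Fact.mk hq
  obtain ⟨Q, hQH⟩ := h q hq
  rw [← hq.pow_dvd_iff_le_factorization Nat.card_pos.ne', ← Sylow.card_eq_multiplicity Q]
  exact Subgroup.card_dvd_of_le hQH

theorem sylow_mem_orderOf {G : Type*} [Group G] (q : ℕ) [Fact q.Prime] (Q : Sylow q G) (x : G)
    (hx : x ∈ (Q : Subgroup G)) : ∃ a : ℕ, orderOf x = q ^ a := by
  obtain ⟨a, ha⟩ := (IsPGroup.iff_orderOf.mp Q.isPGroup') ⟨x, hx⟩
  exact ⟨a, by rw [← ha, Subgroup.orderOf_mk]⟩

/-- In a finite group with a normal Sylow `p`-subgroup, the `p`-elements are exactly its elements. -/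
theorem pElements_eq_of_normal {G : Type*} [Group G] [Finite G] (p : ℕ) [Fact p.Prime]
    (P : Sylow p G) (hP : (P : Subgroup G).Normal) :
    {g : G | ∃ k : ℕ, orderOf g = p ^ k} = (P : Set G) := by
  ext g
  constructor
  · rintro ⟨k, hk⟩
    have hz : IsPGroup p (Subgroup.zpowers g) := by
      rw [IsPGroup.iff_card, Nat.card_zpowers]
      exact ⟨k, hk⟩
    obtain ⟨Q, hQ⟩ := hz.exists_le_sylow
    have := Sylow.unique_of_normal P hP
    have hQP : Q = P := Subsingleton.elim _ _
    rw [hQP] at hQ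
    exact hQ (Subgroup.mem_zpowers g)
  · intro hg
    obtain ⟨k, hk⟩ := (IsPGroup.iff_orderOf.mp P.isPGroup') ⟨g, hg⟩
    exact ⟨k, by rw [← hk, Subgroup.orderOf_mk]⟩

/-- If a normal Sylow `p`-subgroup has a normal complement `K`, the elements of `q`-power order,
`q ≠ p`, lie in `K`. -/
theorem mem_of_complement {G : Type*} [Group G] [Finite G] (p : ℕ) [Fact p.Prime] (P : Sylow p G)
    (K : Subgroup G) (hP : (P : Subgroup G).Normal) (hK : K.Normal)
    (hPK : (P : Subgroup G) ⊓ K = ⊥) (hsup : (P : Subgroup G) ⊔ K = ⊤)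
    (y : G) (q b : ℕ) (hq : q.Prime) (hqp : q ≠ p) (hy : orderOf y = q ^ b) : y ∈ K := by
  have hp : p.Prime := Fact.out
  have hyt : y ∈ (((P : Subgroup G) ⊔ K : Subgroup G) : Set G) := by
    rw [hsup]; exact Set.mem_univ y
  rw [Subgroup.mul_normal] at hyt
  obtain ⟨a, ha, k, hk, rfl⟩ := Set.mem_mul.mp hyt
  have hcomm : Commute a k :=
    Subgroup.commute_of_normal_of_disjoint _ _ hP hK (disjoint_iff.mpr hPK) a k ha hk
  have h1 : (a * k) ^ (q ^ b) = 1 := by rw [← hy]; exact pow_orderOf_eq_one _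
  rw [hcomm.mul_pow] at h1
  have h2 : a ^ (q ^ b) ∈ (P : Subgroup G) ⊓ K := by
    refine ⟨Subgroup.pow_mem _ ha _, ?_⟩
    have : a ^ (q ^ b) = (k ^ (q ^ b))⁻¹ := eq_inv_of_mul_eq_one_left h1
    rw [this]
    exact Subgroup.inv_mem _ (Subgroup.pow_mem _ hk _)
  rw [hPK, Subgroup.mem_bot] at h2
  obtain ⟨e, he⟩ := (IsPGroup.iff_orderOf.mp P.isPGroup') ⟨a, ha⟩
  rw [Subgroup.orderOf_mk] at he
  have h3 : p ^ e ∣ q ^ b := he ▸ orderOf_dvd_of_pow_eq_one h2
  have h4 : Nat.Coprime (p ^ e) (q ^ b) :=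
    Nat.Coprime.pow _ _ ((Nat.coprime_primes hp hq).mpr hqp.symm)
  have h5 : p ^ e = 1 := Nat.Coprime.eq_one_of_dvd h4 h3
  rw [h5, orderOf_eq_one_iff] at he
  rw [he, one_mul]
  exact hk

/-- If every `p`-element commutes with every element of prime power order for the other primes,
then a Sylow `p`-subgroup is a direct factor. -/
theorem direct_factor_of_commute {G : Type*} [Group G] [Finite G] (p : ℕ) [Fact p.Prime]
    (h : ∀ x y : G, (∃ a : ℕ, orderOf x = p ^ a) →
      (∃ q b : ℕ, q.Prime ∧ q ≠ p ∧ orderOf y = q ^ b) → x * y = y * x) :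
    ∃ (P : Sylow p G) (K : Subgroup G), (P : Subgroup G).Normal ∧ K.Normal ∧
      (P : Subgroup G) ⊓ K = ⊥ ∧ (P : Subgroup G) ⊔ K = ⊤ := by
  have hp : p.Prime := Fact.out
  obtain ⟨P⟩ : Nonempty (Sylow p G) := inferInstance
  have hPel : ∀ x : G, x ∈ (P : Subgroup G) → ∃ a : ℕ, orderOf x = p ^ a := by
    intro x hx
    obtain ⟨a, ha⟩ := (IsPGroup.iff_orderOf.mp P.isPGroup') ⟨x, hx⟩
    exact ⟨a, by rw [← ha, Subgroup.orderOf_mk]⟩
  -- P is normal
  have hN : Subgroup.normalizer ((P : Subgroup G) : Set G) = ⊤ := by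
    apply eq_top_of_forall_sylow_le
    intro q hq
    by_cases hqp : q = p
    · subst hqp
      exact ⟨P, Subgroup.le_normalizer⟩
    · have := Fact.mk hq
      obtain ⟨Q⟩ : Nonempty (Sylow q G) := inferInstance
      refine ⟨Q, fun g hg => ?_⟩
      obtain ⟨b, hb⟩ := sylow_mem_orderOf q Q g hg
      have hc : g ∈ Subgroup.centralizer ((P : Subgroup G) : Set G) := by
        rw [Subgroup.mem_centralizer_iff]
        intro x hx
        exact h x g (hPel x hx) ⟨q, b, hq, hqp, hb⟩
      exact Subgroup.centralizer_le_normalizer _ hc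
  have hPn : (P : Subgroup G).Normal := Subgroup.normalizer_eq_top_iff.mp hN
  -- Schur-Zassenhaus complement
  obtain ⟨L, hL⟩ := Subgroup.exists_right_complement'_of_coprime P.card_coprime_index
  have hLcard : (Nat.card L).Coprime p := by
    have h1 : Nat.card L = (P : Subgroup G).index := by
      rw [← hL.symm.index_eq_card]
    rw [h1, Nat.coprime_comm, Nat.Prime.coprime_iff_not_dvd hp]
    exact P.not_dvd_index
  -- L centralizes P
  have hLc : L ≤ Subgroup.centralizer ((P : Subgroup G) : Set G) := by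
    have h1 : (Subgroup.centralizer ((P : Subgroup G) : Set G)).subgroupOf L = ⊤ := by
      apply eq_top_of_forall_sylow_le
      intro q hq
      have := Fact.mk hq
      obtain ⟨Q⟩ : Nonempty (Sylow q L) := inferInstance
      refine ⟨Q, fun g hg => ?_⟩
      obtain ⟨b, hb⟩ := sylow_mem_orderOf q Q g hg
      rw [Subgroup.mem_subgroupOf, Subgroup.mem_centralizer_iff]
      intro x hx
      by_cases hqp : q = p
      · subst hqp
        -- the order of g divides |L|, prime to p
        have h2 : orderOf g ∣ Nat.card L := orderOf_dvd_natCard g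
        rw [hb] at h2
        have h3 : q ^ b = 1 := by
          apply Nat.Coprime.eq_one_of_dvd _ h2
          exact Nat.Coprime.pow_left _ hLcard.symm
        rw [h3, orderOf_eq_one_iff] at hb
        rw [hb]; simp
      · exact h x g (hPel x hx) ⟨q, b, hq, hqp, by rw [← hb, Subgroup.orderOf_coe]⟩
    intro l hl
    have : (⟨l, hl⟩ : L) ∈ (Subgroup.centralizer ((P : Subgroup G) : Set G)).subgroupOf L := by
      rw [h1]; exact Subgroup.mem_top _
    exact this
  -- L is normal
  have hLn : L.Normal := by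
    rw [← Subgroup.normalizer_eq_top_iff, eq_top_iff, ← hL.sup_eq_top]
    apply sup_le
    · exact (Subgroup.le_centralizer_iff.mp hLc).trans (Subgroup.centralizer_le_normalizer _)
    · exact Subgroup.le_normalizer
  exact ⟨P, L, hPn, hLn, hL.disjoint.eq_bot, hL.sup_eq_top⟩

/-- Let p be a prime and G a finite group. Then some Sylow p-subgroup of G is a direct factor of G (it is normal and has a normal complement) if and only if every element of p-power order commutes with every element whose order is a power of a prime other than p. -/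
theorem result {G : Type*} [Group G] [Finite G] (p : ℕ) [Fact p.Prime] : (∃ (P : Sylow p G) (K : Subgroup G), (P : Subgroup G).Normal ∧ K.Normal ∧ (P : Subgroup G) ⊓ K = ⊥ ∧ (P : Subgroup G) ⊔ K = ⊤) ↔ ∀ x y : G, (∃ a : ℕ, orderOf x = p ^ a) → (∃ q b : ℕ, q.Prime ∧ q ≠ p ∧ orderOf y = q ^ b) → x * y = y * x := by
  constructor
  · rintro ⟨P, K, hP, hK, hPK, hsup⟩ x y hx ⟨q, b, hq, hqp, hy⟩
    have hxP : x ∈ (P : Subgroup G) := by
      have : x ∈ {g : G | ∃ k : ℕ, orderOf g = p ^ k} := hx
      rw [pElements_eq_of_normal p P hP] at this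
      exact this
    have hyK : y ∈ K := mem_of_complement p P K hP hK hPK hsup y q b hq hqp hy
    exact Subgroup.commute_of_normal_of_disjoint _ _ hP hK (disjoint_iff.mpr hPK) x y hxP hyK
  · exact direct_factor_of_commute p

end Cfsg.Agent.S3986
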