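import Cfsg.Statements.S3987
import Mathlib
import Cfsg.Agent.S3986

set_option autoImplicit false
open Cfsg

namespace Cfsg.Agent.S3987

theorem ncard_conj_eq_index {G : Type*} [Group G] (g : G) :
    Set.ncard {h : G | IsConj g h} = (Subgroup.centralizer ({g} : Set G)).index := by
  have h1 : {h : G | IsConj g h} = MulAction.orbit (ConjAct G) g := by
    ext h
    change IsConj g h ↔ _
    rw [ConjAct.mem_orbit_conjAct, isConj_comm]
  rw [h1, ← MulAction.index_stabilizer, Subgroup.centralizer_eq_comap_stabilizer]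
  exact (Subgroup.index_comap_of_surjective _ ConjAct.toConjAct.surjective).symm

/-- If the class of `x * y` has as many elements as the product of the classes of `x` and `y`,
then `x` and `y` commute. -/
theorem commute_of_ncard {G : Type*} [Group G] [Finite G] (x y : G)
    (h : Set.ncard {h : G | IsConj (x * y) h} =
      Set.ncard {h : G | IsConj x h} * Set.ncard {h : G | IsConj y h}) : x * y = y * x := by
  set A : Set G := {h : G | IsConj x h} with hA
  set B : Set G := {h : G | IsConj y h} with hB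
  set m : G × G → G := fun ab => ab.1 * ab.2 with hm
  have hsub : {h : G | IsConj (x * y) h} ⊆ m '' (A ×ˢ B) := by
    intro z hz
    obtain ⟨t, rfl⟩ := isConj_iff.mp hz
    refine ⟨(t * x * t⁻¹, t * y * t⁻¹), ⟨isConj_iff.mpr ⟨t, rfl⟩, isConj_iff.mpr ⟨t, rfl⟩⟩, ?_⟩
    simp only [hm]; group
  have hle : (m '' (A ×ˢ B)).ncard ≤ (A ×ˢ B).ncard := Set.ncard_image_le (Set.toFinite _)
  have hprod : (A ×ˢ B).ncard = A.ncard * B.ncard := Set.ncard_prod
  have hge : (A ×ˢ B).ncard ≤ (m '' (A ×ˢ B)).ncard := by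
    rw [hprod, ← h]
    exact Set.ncard_le_ncard hsub (Set.toFinite _)
  have hinj : Set.InjOn m (A ×ˢ B) :=
    Set.injOn_of_ncard_image_eq (le_antisymm hle hge) (Set.toFinite _)
  have h1 : ((x, x⁻¹ * y * x) : G × G) ∈ A ×ˢ B :=
    ⟨isConj_iff.mpr ⟨1, by simp⟩, isConj_iff.mpr ⟨x⁻¹, by simp⟩⟩
  have h2 : ((y * x * y⁻¹, y) : G × G) ∈ A ×ˢ B :=
    ⟨isConj_iff.mpr ⟨y, rfl⟩, isConj_iff.mpr ⟨1, by simp⟩⟩
  have h3 := hinj h1 h2 (by simp only [hm]; group)
  have h4 : x = y * x * y⁻¹ := congrArg Prod.fst h3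
  calc x * y = y * x * y⁻¹ * y := by rw [← h4]
    _ = y * x := by group

/-- Let p be a prime and G a finite group. Then some Sylow p-subgroup of G is a direct factor of G (normal with a normal complement) if and only if for every element x of p-power order and every element y whose order is a power of a prime other than p, the conjugacy class of x y has as many elements as the product of the sizes of the classes of x and of y. -/
theorem result {G : Type*} [Group G] [Finite G] (p : ℕ) [Fact p.Prime] : (∃ (P : Sylow p G) (K : Subgroup G), (P : Subgroup G).Normal ∧ K.Normal ∧ (P : Subgroup G) ⊓ K = ⊥ ∧ (P : Subgroup G) ⊔ K = ⊤) ↔ ∀ x y : G, (∃ a : ℕ, orderOf x = p ^ a) → (∃ q b : ℕ, q.Prime ∧ q ≠ p ∧ orderOf y = q ^ b) → (Subgroup.centralizer ({x * y} : Set G)).index = (Subgroup.centralizer ({x} : Set G)).index * (Subgroup.centralizer ({y} : Set G)).index := by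
  constructor
  · rintro ⟨P, K, hP, hK, hPK, hsup⟩ x y hx ⟨q, b, hq, hqp, hy⟩
    have hxP : x ∈ (P : Subgroup G) := by
      have : x ∈ {g : G | ∃ k : ℕ, orderOf g = p ^ k} := hx
      rw [Cfsg.Agent.S3986.pElements_eq_of_normal p P hP] at this
      exact this
    have hyK : y ∈ K := Cfsg.Agent.S3986.mem_of_complement p P K hP hK hPK hsup y q b hq hqp hy
    have hcomm : ∀ a k : G, a ∈ (P : Subgroup G) → k ∈ K → a * k = k * a := fun a k ha hk =>
      Subgroup.commute_of_normal_of_disjoint _ _ hP hK (disjoint_iff.mpr hPK) a k ha hk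
    rw [← ncard_conj_eq_index, ← ncard_conj_eq_index, ← ncard_conj_eq_index]
    set A : Set G := {h : G | IsConj x h} with hA
    set B : Set G := {h : G | IsConj y h} with hB
    set m : G × G → G := fun ab => ab.1 * ab.2 with hm
    have hAP : A ⊆ (P : Subgroup G) := by
      intro z hz
      obtain ⟨t, rfl⟩ := isConj_iff.mp hz
      exact hP.conj_mem x hxP t
    have hBK : B ⊆ K := by
      intro z hz
      obtain ⟨t, rfl⟩ := isConj_iff.mp hz
      exact hK.conj_mem y hyK t
    have hdecomp : ∀ g : G, ∃ a ∈ (P : Subgroup G), ∃ k ∈ K, g = a * k := by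
      intro g
      have hg : g ∈ (((P : Subgroup G) ⊔ K : Subgroup G) : Set G) := by
        rw [hsup]; exact Set.mem_univ g
      rw [Subgroup.mul_normal] at hg
      obtain ⟨a, ha, k, hk, rfl⟩ := Set.mem_mul.mp hg
      exact ⟨a, ha, k, hk, rfl⟩
    have himg : {h : G | IsConj (x * y) h} = m '' (A ×ˢ B) := by
      ext z
      constructor
      · intro hz
        obtain ⟨t, rfl⟩ := isConj_iff.mp hz
        refine ⟨(t * x * t⁻¹, t * y * t⁻¹), ⟨isConj_iff.mpr ⟨t, rfl⟩, isConj_iff.mpr ⟨t, rfl⟩⟩, ?_⟩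
        simp only [hm]; group
      · rintro ⟨⟨u, v⟩, ⟨hu, hv⟩, rfl⟩
        obtain ⟨g, rfl⟩ := isConj_iff.mp hu
        obtain ⟨h, rfl⟩ := isConj_iff.mp hv
        obtain ⟨a, ha, k, hk, rfl⟩ := hdecomp g
        obtain ⟨a', ha', k', hk', rfl⟩ := hdecomp h
        apply isConj_iff.mpr
        refine ⟨a * k', ?_⟩
        simp only [hm]
        have e1 : k * x = x * k := (hcomm x k hxP hk).symm
        have e2 : a' * (k' * y * k'⁻¹) = (k' * y * k'⁻¹) * a' :=
          hcomm a' _ ha' (hK.conj_mem y hyK k')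
        have e3 : k' * x = x * k' := (hcomm x k' hxP hk').symm
        have e4 : a * k * x * (a * k)⁻¹ = a * x * a⁻¹ := by
          calc a * k * x * (a * k)⁻¹ = a * (k * x) * k⁻¹ * a⁻¹ := by group
            _ = a * (x * k) * k⁻¹ * a⁻¹ := by rw [e1]
            _ = a * x * a⁻¹ := by group
        have e5 : a' * k' * y * (a' * k')⁻¹ = k' * y * k'⁻¹ := by
          calc a' * k' * y * (a' * k')⁻¹ = a' * (k' * y * k'⁻¹) * a'⁻¹ := by group
            _ = (k' * y * k'⁻¹) * a' * a'⁻¹ := by rw [e2]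
            _ = k' * y * k'⁻¹ := by group
        have e6 : a⁻¹ * (k' * y * k'⁻¹) = (k' * y * k'⁻¹) * a⁻¹ :=
          hcomm a⁻¹ _ (Subgroup.inv_mem _ ha) (hK.conj_mem y hyK k')
        rw [e4, e5]
        calc a * k' * (x * y) * (a * k')⁻¹ = a * (k' * x) * y * k'⁻¹ * a⁻¹ := by group
          _ = a * (x * k') * y * k'⁻¹ * a⁻¹ := by rw [e3]
          _ = a * x * ((k' * y * k'⁻¹) * a⁻¹) := by group
          _ = a * x * (a⁻¹ * (k' * y * k'⁻¹)) := by rw [e6]
          _ = a * x * a⁻¹ * (k' * y * k'⁻¹) := by group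
    have hinj : Set.InjOn m (A ×ˢ B) := by
      rintro ⟨u, v⟩ ⟨hu, hv⟩ ⟨u', v'⟩ ⟨hu', hv'⟩ huv
      simp only [hm] at huv
      have hu1 := hAP hu
      have hu2 := hAP hu'
      have hv1 := hBK hv
      have hv2 := hBK hv'
      have h1 : u'⁻¹ * u = v' * v⁻¹ := by
        calc u'⁻¹ * u = u'⁻¹ * (u * v) * v⁻¹ := by group
          _ = u'⁻¹ * (u' * v') * v⁻¹ := by rw [huv]
          _ = v' * v⁻¹ := by group
      have h2 : u'⁻¹ * u ∈ (P : Subgroup G) ⊓ K :=
        ⟨Subgroup.mul_mem _ (Subgroup.inv_mem _ hu2) hu1,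
          h1 ▸ Subgroup.mul_mem _ hv2 (Subgroup.inv_mem _ hv1)⟩
      rw [hPK, Subgroup.mem_bot] at h2
      have h3 : u = u' := by
        calc u = u' * (u'⁻¹ * u) := by group
          _ = u' := by rw [h2, mul_one]
      have h4 : v = v' := by
        subst h3
        exact mul_left_cancel huv
      rw [h3, h4]
    rw [himg, Set.InjOn.ncard_image hinj, Set.ncard_prod]
  · intro h
    apply Cfsg.Agent.S3986.direct_factor_of_commute p
    intro x y hx hy
    apply commute_of_ncard
    rw [ncard_conj_eq_index, ncard_conj_eq_index, ncard_conj_eq_index]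
    exact h x y hx hy

end Cfsg.Agent.S3987
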