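import Cfsg.Statements.S4001
import Mathlib
import Cfsg.Agent.S0042
import Cfsg.Agent.S0041
import Cfsg.Agent.S3003

set_option autoImplicit false
open Cfsg

namespace Cfsg.Agent.S4001

universe u

open scoped Pointwise in
/-- Package of facts about a Frobenius complement `C` with kernel (as a set) `N`. -/
theorem frob_pack {Γ : Type u} [Group Γ] [Finite Γ] (C N : Subgroup Γ)
    (hC : Cfsg.IsFrobeniusComplement C) (hN : Cfsg.frobeniusKernel C = (N : Set Γ)) :
    N.Normal ∧ Subgroup.IsComplement' N C ∧ N ≠ ⊥ ∧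
      (∀ k : Γ, k ∉ N → ∀ h ∈ N, k * h = h * k → h = 1) ∧
      Nat.Coprime (Nat.card N) (Nat.card C) ∧ Group.IsNilpotent N := by
  classical
  obtain ⟨N', hset, hNn, hnil⟩ := Cfsg.Agent.S0042.aux C hC
  have hNN : N' = N := SetLike.coe_injective (hset.trans hN)
  subst hNN
  obtain ⟨N₂, hN₂n, hc, hN1, hmem, hfpf⟩ := Cfsg.Agent.S0037.frob_data C hC
  have hN₂ : N₂ = N' := by
    apply SetLike.coe_injective
    rw [hset]
    ext x
    rw [SetLike.mem_coe, hmem]
    show _ ↔ (x = 1 ∨ ∀ g : Γ, x ∉ MulAut.conj g • C)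
    apply or_congr Iff.rfl
    apply forall_congr'
    intro g
    rw [Cfsg.Agent.S0034.mem_conj_smul]
  subst hN₂
  refine ⟨hNn, hc, hN1, ?_, ?_, hnil⟩
  · intro k hk h hh hkh
    have hk' : ¬ (k = 1 ∨ ∀ g : Γ, g⁻¹ * k * g ∉ C) := fun h' => hk ((hmem k).mpr h')
    push Not at hk'
    obtain ⟨hk1, g, hg⟩ := hk'
    have hc1 : g⁻¹ * k * g ≠ 1 := by
      intro h1
      apply hk1
      calc k = g * (g⁻¹ * k * g) * g⁻¹ := by group
        _ = 1 := by rw [h1]; group
    have h2 : g⁻¹ * h * g ∈ N₂ ⊓ Subgroup.centralizer {g⁻¹ * k * g} := by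
      refine Subgroup.mem_inf.mpr ⟨?_, ?_⟩
      · have := hNn.conj_mem h hh g⁻¹
        simpa using this
      · rw [Subgroup.mem_centralizer_iff]
        intro y hy
        rw [Set.mem_singleton_iff] at hy
        rw [hy]
        calc g⁻¹ * k * g * (g⁻¹ * h * g) = g⁻¹ * (k * h) * g := by group
          _ = g⁻¹ * (h * k) * g := by rw [hkh]
          _ = g⁻¹ * h * g * (g⁻¹ * k * g) := by group
    rw [hfpf _ hg hc1, Subgroup.mem_bot] at h2
    calc h = g * (g⁻¹ * h * g) * g⁻¹ := by group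
      _ = 1 := by rw [h2]; group
  · have h1 := Cfsg.Agent.S0034.index_mod C hC
    have h2 : Nat.card N₂ = C.index := by
      have h3 := hc.card_mul_card
      have h4 := C.card_mul_index
      have hpos : 0 < Nat.card C := Nat.card_pos
      have h5 : Nat.card N₂ * Nat.card C = C.index * Nat.card C := by
        rw [h3, ← h4, mul_comm]
      exact Nat.eq_of_mul_eq_mul_right hpos h5
    rw [← h2] at h1
    have h6 : Nat.gcd (Nat.card N₂) (Nat.card C) = Nat.gcd 1 (Nat.card C) := Nat.ModEq.gcd_eq h1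
    rw [Nat.gcd_one_left] at h6
    exact h6

/-- Two involutions acting fixed-point-freely on a nontrivial normal subgroup, whose product
is trivial or fixed-point-free, coincide. -/
theorem invol_unique {Γ : Type u} [Group Γ] [Finite Γ] (N : Subgroup Γ) [hNn : N.Normal]
    (hN : N ≠ ⊥) (s t : Γ) (hs2 : s * s = 1) (ht2 : t * t = 1)
    (hfs : ∀ h ∈ N, s * h = h * s → h = 1) (hft : ∀ h ∈ N, t * h = h * t → h = 1)
    (hfst : s * t = 1 ∨ ∀ h ∈ N, s * t * h = h * (s * t) → h = 1) : s = t := by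
  -- a fixed-point-free involution inverts `N`
  have hinv : ∀ a : Γ, (∀ h ∈ N, a * h = h * a → h = 1) → a * a = 1 →
      ∀ n ∈ N, a * n * a⁻¹ = n⁻¹ := by
    intro a ha ha2 n hn
    let φ : N →* N := (MulAut.conjNormal a : N ≃* N).toMonoidHom
    have hφ : ∀ x : N, ((φ x : N) : Γ) = a * x * a⁻¹ := fun x => rfl
    have hfix : MonoidHom.FixedPointFree φ := by
      intro x hx
      have h1 : a * (x : Γ) * a⁻¹ = x := by rw [← hφ, hx]
      have h2 : a * (x : Γ) = x * a := by
        calc a * (x : Γ) = a * x * a⁻¹ * a := by group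
          _ = x * a := by rw [h1]
      exact Subtype.ext (ha x x.2 h2)
    have hinvol : Function.Involutive φ := by
      intro x
      apply Subtype.ext
      rw [hφ, hφ]
      have ha' : a⁻¹ = a := inv_eq_of_mul_eq_one_left ha2
      rw [ha']
      calc a * (a * (x : Γ) * a) * a = (a * a) * x * (a * a) := by group
        _ = x := by rw [ha2]; group
    have h3 := hfix.coe_eq_inv_of_involutive hinvol
    have h4 : φ ⟨n, hn⟩ = (⟨n, hn⟩ : N)⁻¹ := by rw [h3]
    have h5 := congrArg Subtype.val h4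
    rw [hφ] at h5
    exact h5
  rcases hfst with hnot | hnot
  · have ht' : t⁻¹ = t := inv_eq_of_mul_eq_one_left ht2
    calc s = s * t * t⁻¹ := by group
      _ = t := by rw [hnot, one_mul, ht']
  · exfalso
    obtain ⟨⟨n, hn⟩, hn1⟩ := (Subgroup.ne_bot_iff_exists_ne_one).mp hN
    apply hn1
    apply Subtype.ext
    apply hnot n hn
    have h1 := hinv t hft ht2 n hn
    have h2 := hinv s hfs hs2 n⁻¹ (inv_mem hn)
    rw [inv_inv] at h2
    calc s * t * n = s * (t * n * t⁻¹) * s⁻¹ * (s * t) := by group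
      _ = n * (s * t) := by rw [h1, h2]

/-- An element whose order is divisible by `n` has a power of order `n`. -/
theorem exists_pow_orderOf_eq {Γ : Type u} [Group Γ] [Finite Γ] (g : Γ) (n : ℕ)
    (h : n ∣ orderOf g) : ∃ k : ℕ, orderOf (g ^ k) = n := by
  obtain ⟨k, hk⟩ := h
  have hpos : 0 < orderOf g := orderOf_pos g
  have hk0 : k ≠ 0 := by
    rintro rfl
    rw [mul_zero] at hk
    omega
  refine ⟨k, ?_⟩
  rw [orderOf_pow_of_dvd hk0 ⟨n, by rw [hk, mul_comm]⟩, hk]
  exact Nat.mul_div_cancel _ (Nat.pos_of_ne_zero hk0)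

theorem isMulComm_of {Γ : Type u} [Group Γ] (V : Subgroup Γ)
    (h : ∀ a ∈ V, ∀ b ∈ V, a * b = b * a) : IsMulCommutative V :=
  ⟨⟨fun a b => Subtype.ext (h a a.2 b b.2)⟩⟩

/-- An element whose order is divisible by `n` has a power of order `n`. -/
theorem exists_orderOf_eq {Γ : Type u} [Group Γ] [Finite Γ] (g : Γ) (n : ℕ)
    (h : n ∣ orderOf g) : ∃ g' : Γ, orderOf g' = n := by
  obtain ⟨k, hk⟩ := h
  have hpos : 0 < orderOf g := orderOf_pos g
  have hk0 : k ≠ 0 := by
    rintro rfl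
    rw [mul_zero] at hk
    omega
  refine ⟨g ^ k, ?_⟩
  rw [orderOf_pow_of_dvd hk0 ⟨n, by rw [hk, mul_comm]⟩, hk]
  exact Nat.mul_div_cancel _ (Nat.pos_of_ne_zero hk0)

/-- Lifting an element of order divisible by `n` along a homomorphism. -/
theorem exists_orderOf_eq_of_map {Γ Δ : Type u} [Group Γ] [Finite Γ] [Group Δ] (f : Γ →* Δ)
    (g : Γ) (n : ℕ) (h : n ∣ orderOf (f g)) : ∃ g' : Γ, orderOf g' = n := by
  obtain ⟨k, hk⟩ := exists_pow_orderOf_eq g n (h.trans (orderOf_map_dvd f g))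
  exact ⟨_, hk⟩

/-- A nilpotent group whose order is divisible by distinct primes `p`, `q` has an element of
order `p * q`. -/
theorem nilp_pq {Γ : Type u} [Group Γ] [Finite Γ] (hnil : Group.IsNilpotent Γ) (p q : ℕ)
    (hp : p.Prime) (hq : q.Prime) (hpq : p ≠ q) (hpd : p ∣ Nat.card Γ) (hqd : q ∣ Nat.card Γ) :
    ∃ g : Γ, orderOf g = p * q := by
  haveI : Fact p.Prime := ⟨hp⟩
  haveI : Fact q.Prime := ⟨hq⟩
  obtain ⟨a, ha⟩ := exists_prime_orderOf_dvd_card' p hpd
  obtain ⟨b, hb⟩ := exists_prime_orderOf_dvd_card' q hqd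
  have hnorm := (Group.isNilpotent_of_finite_tfae (G := Γ)).out 0 3
  have hnorm' := hnorm.mp hnil
  obtain ⟨P, hP⟩ := (IsPGroup.of_card (p := p) (n := 1) (G := Subgroup.zpowers a)
    (by rw [Nat.card_zpowers, ha, pow_one])).exists_le_sylow
  obtain ⟨Q, hQ⟩ := (IsPGroup.of_card (p := q) (n := 1) (G := Subgroup.zpowers b)
    (by rw [Nat.card_zpowers, hb, pow_one])).exists_le_sylow
  have hPn : (P : Subgroup Γ).Normal := hnorm' p inferInstance P
  have hQn : (Q : Subgroup Γ).Normal := hnorm' q inferInstance Q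
  have hdisj : Disjoint (P : Subgroup Γ) (Q : Subgroup Γ) :=
    IsPGroup.disjoint_of_ne p q hpq _ _ P.isPGroup' Q.isPGroup'
  have hcomm : Commute a b :=
    Subgroup.commute_of_normal_of_disjoint _ _ hPn hQn hdisj a b
      (hP (Subgroup.mem_zpowers a)) (hQ (Subgroup.mem_zpowers b))
  refine ⟨a * b, ?_⟩
  rw [hcomm.orderOf_mul_eq_mul_orderOf_of_coprime, ha, hb]
  rw [ha, hb]
  exact (Nat.coprime_primes hp hq).mpr hpq

theorem aux {G : Type u} [Group G] [Finite G] (H K : Subgroup G) [hHn : H.Normal]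
    [hKn : K.Normal] (hlt : H < K)
    (hK : ∃ C : Subgroup ↥K, Cfsg.IsFrobeniusComplement C ∧
      Cfsg.frobeniusKernel C = (H.subgroupOf K : Set ↥K))
    (hGH : ∃ C : Subgroup (G ⧸ H), Cfsg.IsFrobeniusComplement C ∧
      Cfsg.frobeniusKernel C = (K.map (QuotientGroup.mk' H) : Set (G ⧸ H))) :
    Group.IsSolvable G ∧ Odd (Nat.card (↥K ⧸ H.subgroupOf K)) ∧
      Nat.Coprime (Nat.card (↥K ⧸ H.subgroupOf K)) (Nat.card ↥H * Nat.card (G ⧸ K)) ∧
      IsCyclic (G ⧸ K) ∧
      ∀ p q : ℕ, p.Prime → q.Prime → p ≠ q → p ∣ Nat.card G → q ∣ Nat.card G →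
        ((∃ g : G, orderOf g = p * q) ↔ (p ∣ Nat.card (↥K ⧸ H.subgroupOf K) ↔
          q ∣ Nat.card (↥K ⧸ H.subgroupOf K))) := by
  classical
  obtain ⟨C, hC, hCker⟩ := hK
  obtain ⟨D, hD, hDker⟩ := hGH
  have hHK : H ≤ K := hlt.le
  obtain ⟨hN1n, hN1c, hN1ne, hN1fpf, hN1cop, hN1nil⟩ := frob_pack C (H.subgroupOf K) hC hCker
  obtain ⟨hN2n, hN2c, hN2ne, hN2fpf, hN2cop, hN2nil⟩ :=
    frob_pack D (K.map (QuotientGroup.mk' H)) hD hDker
  obtain ⟨π, hπdef⟩ : ∃ π : G →* G ⧸ H, π = QuotientGroup.mk' H := ⟨_, rfl⟩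
  rw [← hπdef] at hN2n hN2c hN2ne hN2fpf hN2cop hN2nil
  obtain ⟨m, hm⟩ : ∃ m : ℕ, m = Nat.card (↥K ⧸ H.subgroupOf K) := ⟨_, rfl⟩
  rw [← hm]
  have hπ : ∀ a b : G, π a = π b ↔ a⁻¹ * b ∈ H := by
    intro a b
    rw [hπdef]
    exact QuotientGroup.eq
  have hπ1 : ∀ a : G, π a = 1 ↔ a ∈ H := by
    intro a
    rw [hπdef]
    exact QuotientGroup.eq_one_iff a
  have hπsurj : Function.Surjective π := by
    rw [hπdef]
    exact QuotientGroup.mk'_surjective _
  have hπker : π.ker = H := by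
    rw [hπdef]
    exact QuotientGroup.ker_mk' H
  have hKbar : ∀ g : G, π g ∈ K.map π ↔ g ∈ K := by
    intro g
    constructor
    · rintro ⟨k, hk, hkg⟩
      have h1 : k⁻¹ * g ∈ H := (hπ k g).mp hkg
      have : g = k * (k⁻¹ * g) := by group
      rw [this]
      exact mul_mem hk (hHK h1)
    · intro hg
      exact Subgroup.mem_map_of_mem π hg
  -- facts in `G` from the Frobenius group `K`
  have hfpf1 : ∀ k ∈ K, k ∉ H → ∀ h ∈ H, k * h = h * k → h = 1 := by
    intro k hk hkH h hh hkh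
    have h1 := hN1fpf ⟨k, hk⟩ (by rwa [Subgroup.mem_subgroupOf]) ⟨h, hHK hh⟩
      (by rwa [Subgroup.mem_subgroupOf]) (Subtype.ext hkh)
    exact congrArg Subtype.val h1
  have hHne : H ≠ ⊥ := by
    intro hb
    apply hN1ne
    rw [Subgroup.eq_bot_iff_forall]
    intro x hx
    rw [Subgroup.mem_subgroupOf, hb, Subgroup.mem_bot] at hx
    exact Subtype.ext hx
  obtain ⟨C', hC'def⟩ : ∃ C' : Subgroup G, C' = C.map K.subtype := ⟨_, rfl⟩
  have hC'K : C' ≤ K := by
    rw [hC'def]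
    rintro _ ⟨c, _, rfl⟩
    exact c.2
  have hC'H : ∀ c ∈ C', c ∈ H → c = 1 := by
    rw [hC'def]
    rintro _ ⟨c, hc, rfl⟩ hcH
    have h1 : c ∈ H.subgroupOf K ⊓ C :=
      Subgroup.mem_inf.mpr ⟨by rw [Subgroup.mem_subgroupOf]; exact hcH, hc⟩
    rw [hN1c.disjoint.eq_bot, Subgroup.mem_bot] at h1
    rw [h1]; rfl
  have hdec1 : ∀ k ∈ K, ∃ h ∈ H, ∃ c ∈ C', k = h * c := by
    intro k hk
    obtain ⟨⟨a, b⟩, hab, -⟩ := (Subgroup.isComplement_iff_existsUnique.mp hN1c) ⟨k, hk⟩
    refine ⟨a.1, Subgroup.mem_subgroupOf.mp a.2, b.1, ?_, ?_⟩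
    · rw [hC'def]; exact ⟨b.1, b.2, rfl⟩
    · exact (congrArg Subtype.val hab).symm
  have hHnil : Group.IsNilpotent H :=
    Group.nilpotent_of_mulEquiv (Subgroup.subgroupOfEquivOfLe hHK)
  -- cardinalities
  have hcardN1 : Nat.card (H.subgroupOf K) = Nat.card H :=
    Nat.card_congr (Subgroup.subgroupOfEquivOfLe hHK).toEquiv
  have hcardK : Nat.card K = m * Nat.card H := by
    rw [Subgroup.card_eq_card_quotient_mul_card_subgroup (H.subgroupOf K), hcardN1, hm]
  have hHpos : 0 < Nat.card H := Nat.card_pos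
  have hcardC : Nat.card C = m := by
    have h1 := hN1c.card_mul_card
    rw [hcardN1, hcardK, mul_comm] at h1
    exact Nat.eq_of_mul_eq_mul_right hHpos h1
  have hcop1 : Nat.Coprime (Nat.card H) m := by
    rw [← hcardC, ← hcardN1]; exact hN1cop
  have hm1 : 1 < m := by
    rw [← hcardC]
    exact C.one_lt_card_iff_ne_bot.mpr hC.1
  have hcardG : Nat.card G = Nat.card (G ⧸ K) * Nat.card K :=
    Subgroup.card_eq_card_quotient_mul_card_subgroup K
  have hcardGH : Nat.card G = Nat.card (G ⧸ H) * Nat.card H :=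
    Subgroup.card_eq_card_quotient_mul_card_subgroup H
  have hcardKbar : Nat.card (K.map π) = m := by
    have h1 : (K.map π).index = K.index :=
      Subgroup.index_map_eq K hπsurj (by rw [hπker]; exact hHK)
    have h2 := (K.map π).card_mul_index
    rw [h1, Subgroup.index_eq_card K] at h2
    have h3 : Nat.card (K.map π) * (Nat.card (G ⧸ K) * Nat.card H) =
        m * (Nat.card (G ⧸ K) * Nat.card H) := by
      calc Nat.card (K.map π) * (Nat.card (G ⧸ K) * Nat.card H)
          = Nat.card (K.map π) * Nat.card (G ⧸ K) * Nat.card H := by ring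
        _ = Nat.card G := by rw [h2, ← hcardGH]
        _ = m * (Nat.card (G ⧸ K) * Nat.card H) := by rw [hcardG, hcardK]; ring
    have hpos : 0 < Nat.card (G ⧸ K) * Nat.card H := Nat.mul_pos Nat.card_pos hHpos
    exact Nat.eq_of_mul_eq_mul_right hpos h3
  have hcardD : Nat.card D = Nat.card (G ⧸ K) := by
    have h1 := hN2c.card_mul_card
    have h2 := (K.map π).card_mul_index
    have h3 : (K.map π).index = K.index :=
      Subgroup.index_map_eq K hπsurj (by rw [hπker]; exact hHK)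
    rw [h3, Subgroup.index_eq_card K, ← h1] at h2
    have hpos : 0 < Nat.card (K.map π) := Nat.card_pos
    exact (Nat.eq_of_mul_eq_mul_left hpos h2).symm
  have hcop2 : Nat.Coprime m (Nat.card (G ⧸ K)) := by
    rw [← hcardKbar, ← hcardD]; exact hN2cop
  -- lifting elements of `K̄` to `C'`
  have hliftC : ∀ wb ∈ K.map π, ∃ c ∈ C', π c = wb := by
    rintro _ ⟨k, hk, rfl⟩
    obtain ⟨h, hh, c, hc, rfl⟩ := hdec1 k hk
    exact ⟨c, hc, by rw [map_mul, (hπ1 h).mpr hh, one_mul]⟩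
  obtain ⟨⟨d₁, hd₁⟩, hd₁1⟩ := (Subgroup.ne_bot_iff_exists_ne_one).mp hD.1
  have hd₁1' : d₁ ≠ 1 := fun h => hd₁1 (Subtype.ext h)
  have hDK : ∀ d ∈ D, d ≠ 1 → d ∉ K.map π := by
    intro d hd hd1 h
    have : d ∈ K.map π ⊓ D := Subgroup.mem_inf.mpr ⟨h, hd⟩
    rw [hN2c.disjoint.eq_bot, Subgroup.mem_bot] at this
    exact hd1 this
  -- `m` is odd
  have hodd : Odd m := by
    by_contra hne
    have heven : 2 ∣ m := even_iff_two_dvd.mp (Nat.not_odd_iff_even.mp hne)
    rw [← hcardKbar] at heven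
    haveI : Fact (Nat.Prime 2) := ⟨Nat.prime_two⟩
    obtain ⟨⟨zb, hzb⟩, hzord⟩ := exists_prime_orderOf_dvd_card' 2 heven
    have hzb2 : zb * zb = 1 := by
      have h1 : (⟨zb, hzb⟩ : K.map π) ^ 2 = 1 := by rw [← hzord]; exact pow_orderOf_eq_one _
      have h2 := congrArg Subtype.val h1
      rw [pow_two] at h2
      exact h2
    have hzb1 : zb ≠ 1 := by
      intro h
      have : (⟨zb, hzb⟩ : K.map π) = 1 := Subtype.ext h
      rw [this, orderOf_one] at hzord
      omega
    have hlift : ∀ wb ∈ K.map π, wb * wb = 1 → wb ≠ 1 →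
        ∃ c ∈ C', π c = wb ∧ c * c = 1 ∧ c ≠ 1 := by
      intro wb hwb hw2 hw1
      obtain ⟨c, hc, hπc⟩ := hliftC wb hwb
      refine ⟨c, hc, hπc, ?_, ?_⟩
      · apply hC'H _ (mul_mem hc hc)
        rw [← hπ1, map_mul, hπc]; exact hw2
      · rintro rfl
        apply hw1; rw [← hπc, map_one]
    obtain ⟨c, hc, hπc, hc2, hc1⟩ := hlift zb hzb hzb2 hzb1
    have hw : d₁ * zb * d₁⁻¹ ∈ K.map π := hN2n.conj_mem zb hzb d₁
    have hw2 : (d₁ * zb * d₁⁻¹) * (d₁ * zb * d₁⁻¹) = 1 := by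
      calc (d₁ * zb * d₁⁻¹) * (d₁ * zb * d₁⁻¹) = d₁ * (zb * zb) * d₁⁻¹ := by group
        _ = 1 := by rw [hzb2]; group
    have hw1 : d₁ * zb * d₁⁻¹ ≠ 1 := by
      intro h
      apply hzb1
      calc zb = d₁⁻¹ * (d₁ * zb * d₁⁻¹) * d₁ := by group
        _ = 1 := by rw [h]; group
    obtain ⟨c₂, hc₂, hπc₂, hc₂2, hc₂1⟩ := hlift _ hw hw2 hw1
    have hcc : c = c₂ := by
      apply invol_unique H hHne c c₂ hc2 hc₂2
      · exact hfpf1 c (hC'K hc) (fun h => hc1 (hC'H c hc h))
      · exact hfpf1 c₂ (hC'K hc₂) (fun h => hc₂1 (hC'H c₂ hc₂ h))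
      · by_cases hst : c * c₂ = 1
        · exact Or.inl hst
        · exact Or.inr (hfpf1 _ (hC'K (mul_mem hc hc₂))
            (fun h => hst (hC'H _ (mul_mem hc hc₂) h)))
    have hcomm : d₁ * zb = zb * d₁ := by
      have : d₁ * zb * d₁⁻¹ = zb := by rw [← hπc₂, ← hcc, hπc]
      calc d₁ * zb = d₁ * zb * d₁⁻¹ * d₁ := by group
        _ = zb * d₁ := by rw [this]
    exact hzb1 (hN2fpf d₁ (hDK d₁ hd₁ hd₁1') zb hzb hcomm)
  -- the centre of `K̄` is cyclic
  obtain ⟨Zb, hZbdef⟩ : ∃ Zb : Subgroup (G ⧸ H),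
      Zb = K.map π ⊓ Subgroup.centralizer (K.map π : Set (G ⧸ H)) := ⟨_, rfl⟩
  have hZbK : Zb ≤ K.map π := by rw [hZbdef]; exact inf_le_left
  have hZbn : Zb.Normal := by
    rw [hZbdef]
    exact Subgroup.normal_inf_normal _ _
  have hZbcomm : ∀ a ∈ Zb, ∀ b ∈ K.map π, a * b = b * a := by
    intro a ha b hb
    rw [hZbdef] at ha
    exact ((Subgroup.mem_centralizer_iff.mp (Subgroup.mem_inf.mp ha).2) b hb).symm
  have hZbne : Zb ≠ ⊥ := by
    haveI : Nontrivial (K.map π) := (Subgroup.nontrivial_iff_ne_bot _).mpr hN2ne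
    have h1 := Group.IsNilpotent.center_ne_bot (G := K.map π)
    obtain ⟨⟨z, hz⟩, hz1⟩ := (Subgroup.ne_bot_iff_exists_ne_one).mp h1
    intro hb
    apply hz1
    have h2 : (z : G ⧸ H) ∈ Zb := by
      rw [hZbdef]
      refine Subgroup.mem_inf.mpr ⟨z.2, ?_⟩
      rw [Subgroup.mem_centralizer_iff]
      intro w hw
      have h3 := Subgroup.mem_center_iff.mp hz ⟨w, hw⟩
      exact congrArg Subtype.val h3
    rw [hb, Subgroup.mem_bot] at h2
    exact Subtype.ext (Subtype.ext h2)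
  obtain ⟨A₁, hA₁def⟩ : ∃ A₁ : Subgroup G, A₁ = C' ⊓ Zb.comap π := ⟨_, rfl⟩
  have hA₁C : A₁ ≤ C' := by rw [hA₁def]; exact inf_le_left
  have hA₁Z : ∀ a ∈ A₁, π a ∈ Zb := by
    intro a ha
    rw [hA₁def] at ha
    exact (Subgroup.mem_inf.mp ha).2
  have hA₁comm : ∀ a ∈ A₁, ∀ b ∈ A₁, a * b = b * a := by
    intro a ha b hb
    have h1 : π a * π b = π b * π a :=
      hZbcomm (π a) (hA₁Z a ha) (π b) ((hKbar b).mpr (hC'K (hA₁C hb)))
    have h2 : (b * a)⁻¹ * (a * b) ∈ H := by
      rw [← hπ, map_mul, map_mul, h1]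
    have h3 := hC'H _ (mul_mem (inv_mem (mul_mem (hA₁C hb) (hA₁C ha)))
      (mul_mem (hA₁C ha) (hA₁C hb))) h2
    calc a * b = (b * a) * ((b * a)⁻¹ * (a * b)) := by group
      _ = b * a := by rw [h3, mul_one]
  obtain ⟨V₁, hV₁def⟩ : ∃ V₁ : Subgroup G,
      V₁ = H ⊓ Subgroup.centralizer (H : Set G) := ⟨_, rfl⟩
  have hV₁H : V₁ ≤ H := by rw [hV₁def]; exact inf_le_left
  have hV₁n : V₁.Normal := by
    rw [hV₁def]
    exact Subgroup.normal_inf_normal _ _
  have hV₁c : IsMulCommutative V₁ := by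
    apply isMulComm_of
    intro a ha b hb
    rw [hV₁def] at ha
    exact ((Subgroup.mem_centralizer_iff.mp (Subgroup.mem_inf.mp ha).2) b (hV₁H hb)).symm
  have hV₁ne : V₁ ≠ ⊥ := by
    haveI : Nontrivial H := (Subgroup.nontrivial_iff_ne_bot _).mpr hHne
    have h1 := Group.IsNilpotent.center_ne_bot (G := H)
    obtain ⟨⟨z, hz⟩, hz1⟩ := (Subgroup.ne_bot_iff_exists_ne_one).mp h1
    intro hb
    apply hz1
    have h2 : (z : G) ∈ V₁ := by
      rw [hV₁def]
      refine Subgroup.mem_inf.mpr ⟨z.2, ?_⟩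
      rw [Subgroup.mem_centralizer_iff]
      intro w hw
      have h3 := Subgroup.mem_center_iff.mp hz ⟨w, hw⟩
      exact congrArg Subtype.val h3
    rw [hb, Subgroup.mem_bot] at h2
    exact Subtype.ext (Subtype.ext h2)
  have hA₁cyc : IsCyclic A₁ := by
    haveI := hV₁c
    apply Cfsg.Agent.S0041.result A₁ V₁ hV₁ne
    · rw [Subgroup.normalizer_eq_top]; exact le_top
    · intro a ha ha1
      rw [Subgroup.eq_bot_iff_forall]
      intro x hx
      obtain ⟨hx1, hx2⟩ := Subgroup.mem_inf.mp hx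
      have haC := hA₁C ha
      apply hfpf1 a (hC'K haC) (fun h => ha1 (hC'H a haC h)) x (hV₁H hx1)
      exact ((Subgroup.mem_centralizer_iff.mp hx2) a rfl)
    · exact Or.inl (isMulComm_of A₁ hA₁comm)
  obtain ⟨⟨a₀, ha₀⟩, hgen₁⟩ := hA₁cyc.exists_generator
  obtain ⟨z₀, hz₀def⟩ : ∃ z₀ : G ⧸ H, z₀ = π a₀ := ⟨_, rfl⟩
  have hz₀Z : z₀ ∈ Zb := by rw [hz₀def]; exact hA₁Z a₀ ha₀
  have hZbgen : ∀ zb ∈ Zb, ∃ i : ℤ, zb = z₀ ^ i := by
    intro zb hzb
    obtain ⟨c, hc, hπc⟩ := hliftC zb (hZbK hzb)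
    have hcA : c ∈ A₁ := by
      rw [hA₁def]
      refine Subgroup.mem_inf.mpr ⟨hc, ?_⟩
      rw [Subgroup.mem_comap, hπc]; exact hzb
    obtain ⟨i, hi⟩ := Subgroup.mem_zpowers_iff.mp (hgen₁ ⟨c, hcA⟩)
    refine ⟨i, ?_⟩
    have h1 : a₀ ^ i = c := by
      have := congrArg Subtype.val hi
      simpa using this
    rw [← hπc, ← h1, map_zpow, hz₀def]
  have hz₀1 : z₀ ≠ 1 := by
    intro h
    apply hZbne
    rw [Subgroup.eq_bot_iff_forall]
    intro zb hzb
    obtain ⟨i, hi⟩ := hZbgen zb hzb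
    rw [hi, h, one_zpow]
  -- `D` is abelian, hence cyclic
  have hconj : ∀ d : G ⧸ H, ∃ n : ℤ, d * z₀ * d⁻¹ = z₀ ^ n :=
    fun d => hZbgen _ (hZbn.conj_mem z₀ hz₀Z d)
  have hDcomm : ∀ a ∈ D, ∀ b ∈ D, a * b = b * a := by
    intro a ha b hb
    obtain ⟨n₁, hn₁⟩ := hconj a
    obtain ⟨n₂, hn₂⟩ := hconj b
    have h1 : (a * b) * z₀ * (a * b)⁻¹ = (b * a) * z₀ * (b * a)⁻¹ := by
      calc (a * b) * z₀ * (a * b)⁻¹ = a * (b * z₀ * b⁻¹) * a⁻¹ := by group
        _ = a * z₀ ^ n₂ * a⁻¹ := by rw [hn₂]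
        _ = (a * z₀ * a⁻¹) ^ n₂ := by rw [conj_zpow]
        _ = (z₀ ^ n₁) ^ n₂ := by rw [hn₁]
        _ = (z₀ ^ n₂) ^ n₁ := by rw [← zpow_mul, ← zpow_mul, mul_comm]
        _ = (b * z₀ * b⁻¹) ^ n₁ := by rw [hn₂]
        _ = b * z₀ ^ n₁ * b⁻¹ := by rw [conj_zpow]
        _ = b * (a * z₀ * a⁻¹) * b⁻¹ := by rw [hn₁]
        _ = (b * a) * z₀ * (b * a)⁻¹ := by group
    by_contra hab
    have hc1 : (b * a)⁻¹ * (a * b) ≠ 1 := by
      intro h
      apply hab
      calc a * b = (b * a) * ((b * a)⁻¹ * (a * b)) := by group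
        _ = b * a := by rw [h, mul_one]
    have hcD : (b * a)⁻¹ * (a * b) ∈ D := mul_mem (inv_mem (mul_mem hb ha)) (mul_mem ha hb)
    apply hz₀1
    apply hN2fpf _ (hDK _ hcD hc1) z₀ (hZbK hz₀Z)
    calc (b * a)⁻¹ * (a * b) * z₀ = (b * a)⁻¹ * ((a * b) * z₀ * (a * b)⁻¹) * (a * b) := by group
      _ = (b * a)⁻¹ * ((b * a) * z₀ * (b * a)⁻¹) * (a * b) := by rw [h1]
      _ = z₀ * ((b * a)⁻¹ * (a * b)) := by group
  have hDcyc : IsCyclic D := by
    haveI := isMulComm_of Zb (fun a ha b hb => hZbcomm a ha b (hZbK hb))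
    apply Cfsg.Agent.S0041.result D Zb hZbne
    · rw [Subgroup.normalizer_eq_top]; exact le_top
    · intro a ha ha1
      rw [Subgroup.eq_bot_iff_forall]
      intro x hx
      obtain ⟨hx1, hx2⟩ := Subgroup.mem_inf.mp hx
      apply hN2fpf a (hDK a ha ha1) x (hZbK hx1)
      exact ((Subgroup.mem_centralizer_iff.mp hx2) a rfl)
    · exact Or.inl (isMulComm_of D hDcomm)
  have hcyc : IsCyclic (G ⧸ K) := by
    obtain ⟨⟨d₀, hd₀⟩, hgenD⟩ := hDcyc.exists_generator
    obtain ⟨g₀, rfl⟩ := hπsurj d₀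
    refine ⟨⟨QuotientGroup.mk g₀, ?_⟩⟩
    intro x
    obtain ⟨g, rfl⟩ := QuotientGroup.mk_surjective x
    obtain ⟨⟨kb, db⟩, hkd, -⟩ := (Subgroup.isComplement_iff_existsUnique.mp hN2c) (π g)
    obtain ⟨i, hi⟩ := Subgroup.mem_zpowers_iff.mp (hgenD db)
    have hi' : (π g₀) ^ i = (db : G ⧸ H) := by
      have := congrArg Subtype.val hi
      simpa using this
    obtain ⟨k, hk, hkb⟩ := kb.2
    have h1 : π (k * g₀ ^ i) = π g := by
      rw [map_mul, map_zpow, hkb, hi']; exact hkd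
    have h2 : (k * g₀ ^ i)⁻¹ * g ∈ H := (hπ _ _).mp h1
    refine ⟨i, ?_⟩
    show (QuotientGroup.mk g₀ : G ⧸ K) ^ i = QuotientGroup.mk g
    rw [← QuotientGroup.mk_zpow]
    apply QuotientGroup.eq.mpr
    have h3 : (g₀ ^ i)⁻¹ * g = ((g₀ ^ i)⁻¹ * k * g₀ ^ i) * ((k * g₀ ^ i)⁻¹ * g) := by group
    rw [h3]
    refine mul_mem ?_ (hHK h2)
    have := hKn.conj_mem k hk (g₀ ^ i)⁻¹
    simpa using this
  -- solvability
  have hsolvGK : Group.IsSolvable (G ⧸ K) := by
    obtain ⟨gb, hgb⟩ := hcyc.exists_generator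
    apply Group.isSolvable_of_comm
    intro a b
    obtain ⟨i, rfl⟩ := Subgroup.mem_zpowers_iff.mp (hgb a)
    obtain ⟨j, rfl⟩ := Subgroup.mem_zpowers_iff.mp (hgb b)
    rw [← zpow_add, ← zpow_add, add_comm]
  have hsolvGH : Group.IsSolvable (G ⧸ H) := by
    haveI : Group.IsSolvable (K.map π) := by
      haveI := hN2nil
      infer_instance
    refine Group.isSolvable_of_ker_le_range (K.map π).subtype
      (QuotientGroup.map H K (MonoidHom.id G) (fun x hx => hHK hx)) ?_
    intro x hx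
    obtain ⟨g, rfl⟩ := hπsurj x
    rw [MonoidHom.mem_ker, hπdef] at hx
    have h1 : (QuotientGroup.mk g : G ⧸ K) = 1 := hx
    have h2 : g ∈ K := (QuotientGroup.eq_one_iff g).mp h1
    rw [Subgroup.range_subtype]
    exact (hKbar g).mpr h2
  have hsolv : Group.IsSolvable G := by
    haveI : Group.IsSolvable H := by
      haveI := hHnil
      infer_instance
    refine Group.isSolvable_of_ker_le_range H.subtype π ?_
    rw [hπker, Subgroup.range_subtype]
  -- no mixed elements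
  have no_mixed : ∀ p q : ℕ, p.Prime → q.Prime → p ∣ m → ¬ q ∣ m → ∀ u v : G,
      orderOf u = p → orderOf v = q → u * v = v * u → False := by
    intro p q hp hq hpm hqm u v hu hv huv
    have hpH : ¬ p ∣ Nat.card H := by
      intro h
      exact hp.one_lt.ne' (Nat.eq_one_of_dvd_coprimes hcop1 h hpm)
    have hpGK : ¬ p ∣ Nat.card (G ⧸ K) := by
      intro h
      exact hp.one_lt.ne' (Nat.eq_one_of_dvd_coprimes hcop2 hpm h)
    have huK : u ∈ K := by
      have h1 : orderOf (QuotientGroup.mk' K u) ∣ p := by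
        rw [← hu]; exact orderOf_map_dvd _ u
      have h2 : orderOf (QuotientGroup.mk' K u) ∣ Nat.card (G ⧸ K) := orderOf_dvd_natCard _
      rcases (Nat.dvd_prime hp).mp h1 with h | h
      · exact (QuotientGroup.eq_one_iff u).mp (orderOf_eq_one_iff.mp h)
      · rw [h] at h2; exact absurd h2 hpGK
    have huH : u ∉ H := by
      intro h
      have h1 := orderOf_dvd_natCard (⟨u, h⟩ : H)
      rw [Subgroup.orderOf_mk, hu] at h1
      exact hpH h1
    by_cases hvH : v ∈ H
    · have h1 := hfpf1 u huK huH v hvH huv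
      rw [h1, orderOf_one] at hv
      exact hq.one_lt.ne hv
    · have hvK : v ∉ K := by
        intro h
        have h1 : orderOf (π v) ∣ q := by rw [← hv]; exact orderOf_map_dvd _ v
        have h2 : orderOf (π v) ∣ Nat.card (K.map π) := by
          have := orderOf_dvd_natCard (⟨π v, (hKbar v).mpr h⟩ : K.map π)
          rwa [Subgroup.orderOf_mk] at this
        rcases (Nat.dvd_prime hq).mp h1 with h3 | h3
        · exact hvH ((hπ1 v).mp (orderOf_eq_one_iff.mp h3))
        · rw [h3, hcardKbar] at h2; exact hqm h2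
      have h1 : π v * π u = π u * π v := by rw [← map_mul, ← map_mul, huv]
      have h2 := hN2fpf (π v) (fun h => hvK ((hKbar v).mp h)) (π u) ((hKbar u).mpr huK) h1
      exact huH ((hπ1 u).mp h2)
  -- mixed case: `p ∣ |H|`, `q ∣ |G/K|`
  have mixed : ∀ p q : ℕ, p.Prime → q.Prime → p ≠ q → p ∣ Nat.card H → ¬ q ∣ Nat.card H →
      ¬ q ∣ m → q ∣ Nat.card G → ∃ g : G, orderOf g = p * q := by
    intro p q hp hq hpq hpH hqH hqm hqG
    by_contra hno
    push Not at hno
    haveI : Fact p.Prime := ⟨hp⟩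
    haveI : Fact q.Prime := ⟨hq⟩
    obtain ⟨r, hr, hrm⟩ := Nat.exists_prime_and_dvd (Nat.ne_of_gt hm1)
    haveI : Fact r.Prime := ⟨hr⟩
    have hrH : ¬ r ∣ Nat.card H := by
      intro h
      exact hr.one_lt.ne' (Nat.eq_one_of_dvd_coprimes hcop1 h hrm)
    have hrp : r ≠ p := by
      rintro rfl
      exact hrH hpH
    have hqK : ¬ q ∣ Nat.card K := by
      rw [hcardK]
      intro h
      rcases (Nat.Prime.dvd_mul hq).mp h with h | h
      · exact hqm h
      · exact hqH h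
    obtain ⟨y, hy⟩ := exists_prime_orderOf_dvd_card' q hqG
    have hyq : y ^ q = 1 := by rw [← hy]; exact pow_orderOf_eq_one y
    have hyK : y ∉ K := by
      intro h
      have h1 := orderOf_dvd_natCard (⟨y, h⟩ : K)
      rw [Subgroup.orderOf_mk, hy] at h1
      exact hqK h1
    have hYp : IsPGroup q (Subgroup.zpowers y) :=
      IsPGroup.of_card (n := 1) (by rw [Nat.card_zpowers, hy, pow_one])
    obtain ⟨T, hT⟩ := Cfsg.Agent.S3003.exists_invariant_sylow_of_pGroup (p := q) (q := r) K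
      (Subgroup.zpowers y) (by rw [Subgroup.normalizer_eq_top]; exact le_top) hYp hqK
    obtain ⟨M, hMdef⟩ : ∃ M : Subgroup G, M = (T : Subgroup K).map K.subtype := ⟨_, rfl⟩
    rw [← hMdef] at hT
    have hyM : y ∈ Subgroup.normalizer (M : Set G) := hT (Subgroup.mem_zpowers y)
    have hMK : M ≤ K := by
      rw [hMdef]
      rintro _ ⟨c, _, rfl⟩
      exact c.2
    have hMp : IsPGroup r M := by
      rw [hMdef]
      exact T.isPGroup'.map K.subtype
    have hMpow : ∀ x ∈ M, ∃ j : ℕ, x ^ (r ^ j) = 1 := by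
      intro x hx
      obtain ⟨j, hj⟩ := hMp ⟨x, hx⟩
      exact ⟨j, by simpa using congrArg Subtype.val hj⟩
    have hMH : ∀ x ∈ M, x ∈ H → x = 1 := by
      intro x hx hxH
      obtain ⟨j, hj⟩ := hMpow x hx
      have h1 : orderOf x ∣ r ^ j := orderOf_dvd_of_pow_eq_one hj
      have h2 : orderOf x ∣ Nat.card H := by
        have := orderOf_dvd_natCard (⟨x, hxH⟩ : H)
        rwa [Subgroup.orderOf_mk] at this
      have hcop : Nat.Coprime (r ^ j) (Nat.card H) :=
        Nat.Coprime.pow_left j ((Nat.Prime.coprime_iff_not_dvd hr).mpr hrH)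
      exact orderOf_eq_one_iff.mp (Nat.eq_one_of_dvd_coprimes hcop h1 h2)
    have hMne : M ≠ ⊥ := by
      intro hb
      have h1 : r ∣ Nat.card K := by rw [hcardK]; exact Dvd.dvd.mul_right hrm _
      have h2 := T.card_eq_multiplicity
      have h3 : Nat.card M = Nat.card (T : Subgroup K) := by
        rw [hMdef]; exact Subgroup.card_map_of_injective K.subtype_injective
      rw [hb, Subgroup.card_bot] at h3
      rw [← h3] at h2
      have h4 : 0 < (Nat.card K).factorization r :=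
        hr.factorization_pos_of_dvd Nat.card_pos.ne' h1
      have h5 : 1 < r ^ (Nat.card K).factorization r := Nat.one_lt_pow h4.ne' hr.one_lt
      omega
    -- the abelian normal `p`-subgroup `V`
    obtain ⟨PH⟩ : Nonempty (Sylow p H) := inferInstance
    have hnormH := (Group.isNilpotent_of_finite_tfae (G := H)).out 0 3
    have hnormH' := hnormH.mp hHnil
    have hPHn : (PH : Subgroup H).Normal := hnormH' p inferInstance PH
    haveI : (PH : Subgroup H).Characteristic := Sylow.characteristic_of_normal PH hPHn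
    obtain ⟨P', hP'def⟩ : ∃ P' : Subgroup G, P' = (PH : Subgroup H).map H.subtype := ⟨_, rfl⟩
    have hP'n : P'.Normal := by
      rw [hP'def]
      exact ConjAct.normal_of_characteristic_of_normal
    have hP'H : P' ≤ H := by
      rw [hP'def]
      rintro _ ⟨c, _, rfl⟩
      exact c.2
    have hP'p : IsPGroup p P' := by
      rw [hP'def]
      exact PH.isPGroup'.map H.subtype
    have hP'ne : P' ≠ ⊥ := by
      intro hb
      have h2 := PH.card_eq_multiplicity
      have h3 : Nat.card P' = Nat.card (PH : Subgroup H) := by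
        rw [hP'def]; exact Subgroup.card_map_of_injective H.subtype_injective
      rw [hb, Subgroup.card_bot] at h3
      rw [← h3] at h2
      have h4 : 0 < (Nat.card H).factorization p :=
        hp.factorization_pos_of_dvd Nat.card_pos.ne' hpH
      have h5 : 1 < p ^ (Nat.card H).factorization p := Nat.one_lt_pow h4.ne' hp.one_lt
      omega
    obtain ⟨V, hVdef⟩ : ∃ V : Subgroup G,
        V = P' ⊓ Subgroup.centralizer (P' : Set G) := ⟨_, rfl⟩
    have hVP : V ≤ P' := by rw [hVdef]; exact inf_le_left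
    haveI hVn : V.Normal := by
      rw [hVdef]
      exact Subgroup.normal_inf_normal _ _
    haveI hVc : IsMulCommutative V := by
      apply isMulComm_of
      intro a ha b hb
      rw [hVdef] at ha
      exact ((Subgroup.mem_centralizer_iff.mp (Subgroup.mem_inf.mp ha).2) b (hVP hb)).symm
    have hVne : V ≠ ⊥ := by
      haveI : Nontrivial P' := (Subgroup.nontrivial_iff_ne_bot _).mpr hP'ne
      have h1 := hP'p.center_nontrivial
      obtain ⟨⟨z, hz⟩, hz1⟩ := (Subgroup.ne_bot_iff_exists_ne_one).mp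
        ((Subgroup.nontrivial_iff_ne_bot _).mp h1)
      intro hb
      apply hz1
      have h2 : (z : G) ∈ V := by
        rw [hVdef]
        refine Subgroup.mem_inf.mpr ⟨z.2, ?_⟩
        rw [Subgroup.mem_centralizer_iff]
        intro w hw
        have h3 := Subgroup.mem_center_iff.mp hz ⟨w, hw⟩
        exact congrArg Subtype.val h3
      rw [hb, Subgroup.mem_bot] at h2
      exact Subtype.ext (Subtype.ext h2)
    have hVpow : ∀ w ∈ V, ∃ j : ℕ, w ^ (p ^ j) = 1 := by
      intro w hw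
      obtain ⟨j, hj⟩ := hP'p ⟨w, hVP hw⟩
      exact ⟨j, by simpa using congrArg Subtype.val hj⟩
    -- elements `m' * y` have order `q`
    have hgs : ∀ m' ∈ M, (m' * y) ^ q = 1 := by
      intro m' hm'
      have hφ : ∀ i : ℕ, (m' * y) ^ i * (y ^ i)⁻¹ ∈ M := by
        intro i
        induction i with
        | zero => simp
        | succ i ih =>
          have h1 : (m' * y) ^ (i + 1) * (y ^ (i + 1))⁻¹ =
              ((m' * y) ^ i * (y ^ i)⁻¹) * (y ^ i * m' * (y ^ i)⁻¹) := by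
            rw [pow_succ, pow_succ]; group
          rw [h1]
          exact M.mul_mem ih
            ((Subgroup.mem_normalizer_iff.1 (Subgroup.pow_mem _ hyM i) m').1 hm')
      have h1 : (m' * y) ^ q ∈ M := by
        have := hφ q
        rwa [hyq, inv_one, mul_one] at this
      apply hMH _ h1
      have hγ : π (m' * y) ∉ K.map π := by
        intro h
        have h2 : m' * y ∈ K := (hKbar _).mp h
        apply hyK
        have : y = m'⁻¹ * (m' * y) := by group
        rw [this]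
        exact mul_mem (inv_mem (hMK hm')) h2
      have h3 : π (m' * y) * π ((m' * y) ^ q) = π ((m' * y) ^ q) * π (m' * y) := by
        rw [← map_mul, ← map_mul, ← pow_succ', ← pow_succ]
      exact (hπ1 _).mp (hN2fpf _ hγ _ ((hKbar _).mpr (hMK h1)) h3)
    have hfix1 : ∀ m' ∈ M, ∀ w : V, MulAut.conjNormal (m' * y) w = w → w = 1 := by
      intro m' hm' w hw
      by_contra hw1
      have hw1' : (w : G) ≠ 1 := fun h => hw1 (Subtype.ext h)
      have hg1 : m' * y ≠ 1 := by
        intro h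
        apply hyK
        have : y = m'⁻¹ * (m' * y) := by group
        rw [this, h, mul_one]
        exact inv_mem (hMK hm')
      have hgord : orderOf (m' * y) = q := orderOf_eq_prime (hgs m' hm') hg1
      have hcomm : Commute (m' * y) (w : G) := by
        have h1 := congrArg Subtype.val hw
        rw [MulAut.conjNormal_apply] at h1
        show m' * y * (w : G) = (w : G) * (m' * y)
        calc m' * y * (w : G) = m' * y * (w : G) * (m' * y)⁻¹ * (m' * y) := by group
          _ = (w : G) * (m' * y) := by rw [h1]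
      obtain ⟨j, hj⟩ := hVpow (w : G) w.2
      have h2 : orderOf (w : G) ∣ p ^ j := orderOf_dvd_of_pow_eq_one hj
      obtain ⟨j', -, hj'⟩ := (Nat.dvd_prime_pow hp).mp h2
      have hj0 : j' ≠ 0 := by
        rintro rfl
        rw [pow_zero, orderOf_eq_one_iff] at hj'
        exact hw1' hj'
      have h3 : p ∣ orderOf (w : G) := by rw [hj']; exact dvd_pow_self p hj0
      obtain ⟨k, hk⟩ := exists_pow_orderOf_eq (w : G) p h3
      have hcomm' : Commute ((w : G) ^ k) (m' * y) := (hcomm.pow_right k).symm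
      have h4 := hcomm'.orderOf_mul_eq_mul_orderOf_of_coprime
        (by rw [hk, hgord]; exact (Nat.coprime_primes hp hq).mpr hpq)
      rw [hk, hgord] at h4
      exact hno _ h4
    obtain ⟨⟨m₀, hm₀⟩, hm₀1⟩ := (Subgroup.ne_bot_iff_exists_ne_one).mp hMne
    have hm₀1' : m₀ ≠ 1 := fun h => hm₀1 (Subtype.ext h)
    have hfix2 : ∀ w : V, MulAut.conjNormal m₀ w = w → w = 1 := by
      intro w hw
      apply Subtype.ext
      apply hfpf1 m₀ (hMK hm₀) (fun h => hm₀1' (hMH m₀ hm₀ h)) (w : G) (hP'H (hVP w.2))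
      have h1 := congrArg Subtype.val hw
      rw [MulAut.conjNormal_apply] at h1
      calc m₀ * (w : G) = m₀ * (w : G) * m₀⁻¹ * m₀ := by group
        _ = (w : G) * m₀ := by rw [h1]
    have key := Cfsg.Agent.S0041.frob_trace V M y q hq hyM hgs hfix1 m₀ hm₀ hfix2
    obtain ⟨⟨v, hv⟩, hv1⟩ := (Subgroup.ne_bot_iff_exists_ne_one).mp hVne
    apply hv1
    have h1 : v ^ Nat.card M = 1 := by
      have := congrArg Subtype.val (key ⟨v, hv⟩)
      simpa using this
    obtain ⟨j, hj⟩ := hVpow v hv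
    obtain ⟨n, hn⟩ := (IsPGroup.iff_card.mp hMp)
    have h2 : orderOf v ∣ r ^ n := by rw [← hn]; exact orderOf_dvd_of_pow_eq_one h1
    have h3 : orderOf v ∣ p ^ j := orderOf_dvd_of_pow_eq_one hj
    have hcop : Nat.Coprime (r ^ n) (p ^ j) :=
      Nat.Coprime.pow n j ((Nat.coprime_primes hr hp).mpr hrp)
    exact Subtype.ext (orderOf_eq_one_iff.mp (Nat.eq_one_of_dvd_coprimes hcop h2 h3))
  refine ⟨hsolv, hodd, Nat.Coprime.mul_right hcop1.symm hcop2, hcyc, ?_⟩
  intro p q hp hq hpq hpG hqG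
  constructor
  · rintro ⟨g, hg⟩
    have hu : orderOf (g ^ q) = p := by
      rw [orderOf_pow_of_dvd hq.ne_zero ⟨p, by rw [hg, mul_comm]⟩, hg]
      exact Nat.mul_div_cancel _ hq.pos
    have hv : orderOf (g ^ p) = q := by
      rw [orderOf_pow_of_dvd hp.ne_zero ⟨q, by rw [hg]⟩, hg]
      exact Nat.mul_div_cancel_left _ hp.pos
    have huv : g ^ q * g ^ p = g ^ p * g ^ q := by rw [← pow_add, ← pow_add, add_comm]
    constructor
    · intro hpm
      by_contra hqm
      exact no_mixed p q hp hq hpm hqm (g ^ q) (g ^ p) hu hv huv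
    · intro hqm
      by_contra hpm
      exact no_mixed q p hq hp hqm hpm (g ^ p) (g ^ q) hv hu huv.symm
  · intro hiff
    by_cases hpm : p ∣ m
    · have hqm := hiff.mp hpm
      obtain ⟨κ, hκ⟩ := nilp_pq hN2nil p q hp hq hpq (by rw [hcardKbar]; exact hpm)
        (by rw [hcardKbar]; exact hqm)
      obtain ⟨k, hk⟩ := hπsurj (κ : G ⧸ H)
      exact exists_orderOf_eq_of_map π k (p * q) (by rw [hk, Subgroup.orderOf_coe, hκ])
    · have hqm : ¬ q ∣ m := fun h => hpm (hiff.mpr h)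
      by_cases hpH : p ∣ Nat.card H
      · by_cases hqH : q ∣ Nat.card H
        · obtain ⟨h, hh⟩ := nilp_pq hHnil p q hp hq hpq hpH hqH
          exact ⟨(h : G), by rw [Subgroup.orderOf_coe, hh]⟩
        · exact mixed p q hp hq hpq hpH hqH hqm hqG
      · by_cases hqH : q ∣ Nat.card H
        · obtain ⟨g, hg⟩ := mixed q p hq hp hpq.symm hqH hpH hpm hpG
          exact ⟨g, by rw [hg, mul_comm]⟩
        · have hdiv : ∀ s : ℕ, s.Prime → s ∣ Nat.card G → ¬ s ∣ m → ¬ s ∣ Nat.card H →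
              s ∣ Nat.card (G ⧸ K) := by
            intro s hs hsG hsm hsH
            rw [hcardG, hcardK] at hsG
            rcases (Nat.Prime.dvd_mul hs).mp hsG with h | h
            · exact h
            · rcases (Nat.Prime.dvd_mul hs).mp h with h | h
              · exact absurd h hsm
              · exact absurd h hsH
          have h1 := hdiv p hp hpG hpm hpH
          have h2 := hdiv q hq hqG hqm hqH
          obtain ⟨gb, hgb⟩ := hcyc.exists_generator
          have h3 : orderOf gb = Nat.card (G ⧸ K) := orderOf_eq_card_of_forall_mem_zpowers hgb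
          obtain ⟨g, rfl⟩ := QuotientGroup.mk'_surjective K gb
          apply exists_orderOf_eq_of_map (QuotientGroup.mk' K) g (p * q)
          rw [h3]
          exact Nat.Coprime.mul_dvd_of_dvd_of_dvd ((Nat.coprime_primes hp hq).mpr hpq) h1 h2

/-- Let G be a 2-Frobenius group: it has normal subgroups H < K with K a Frobenius group with kernel H and G/H a Frobenius group with kernel K/H. Then G is solvable; K/H has odd order coprime to the order of H and to the order of G/K (it is the image of an odd-order Hall subgroup); G/K is cyclic; and the prime graph of G has exactly two connected components, both complete: for distinct primes p, q dividing the order of G, G has an element of order pq exactly when p and q either both divide the order of K/H or both do not. -/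
theorem result {G : Type*} [Group G] [Finite G] (H K : Subgroup G) [H.Normal] [K.Normal] (hlt : H < K)
    (hK : ∃ C : Subgroup ↥K, Cfsg.IsFrobeniusComplement C ∧ Cfsg.frobeniusKernel C = (H.subgroupOf K : Set ↥K))
    (hGH : ∃ C : Subgroup (G ⧸ H), Cfsg.IsFrobeniusComplement C ∧ Cfsg.frobeniusKernel C = (K.map (QuotientGroup.mk' H) : Set (G ⧸ H))) :
    Group.IsSolvable G ∧ Odd (Nat.card (↥K ⧸ H.subgroupOf K)) ∧
      Nat.Coprime (Nat.card (↥K ⧸ H.subgroupOf K)) (Nat.card ↥H * Nat.card (G ⧸ K)) ∧ IsCyclic (G ⧸ K) ∧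
      ∀ p q : ℕ, p.Prime → q.Prime → p ≠ q → p ∣ Nat.card G → q ∣ Nat.card G →
        ((∃ g : G, orderOf g = p * q) ↔ (p ∣ Nat.card (↥K ⧸ H.subgroupOf K) ↔ q ∣ Nat.card (↥K ⧸ H.subgroupOf K))) := by
  exact aux H K hlt hK hGH

end Cfsg.Agent.S4001
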