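-- Statement S4010: derived length of a linear p-group of degree n is at most log₂ n + 1.
import Cfsg.Statements.S4010
import Cfsg.Agent.Lib.Helper74.LinDL

set_option autoImplicit false
open Cfsg

namespace Cfsg.Agent.S4010

/-- Let F be a field, n ≥ 1, and P a finite p-group (p a prime) admitting an injective homomorphism into the general linear group of degree n over F. Then the derived length of P is at most ⌊log₂ n⌋ + 1: that term of the derived series of P is trivial. -/
theorem result {P : Type*} [Group P] [Finite P] (p : ℕ) [Fact p.Prime] (hP : IsPGroup p P) (F : Type*) [Field F] (n : ℕ) (hn : 1 ≤ n) (ρ : P →* Matrix.GeneralLinearGroup (Fin n) F) (hρ : Function.Injective ρ) : derivedSeries P (Nat.log 2 n + 1) = ⊥ := by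
  have h1 := Cfsg.Agent.Lib.Helper74.LinDL.gl_claim p hP ρ
  rw [(MonoidHom.ker_eq_bot_iff ρ).2 hρ] at h1
  exact le_bot_iff.1 h1

end Cfsg.Agent.S4010
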