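import Cfsg.Statements.S4013
import Mathlib

set_option autoImplicit false
open Cfsg

namespace Cfsg.Agent.S4013

theorem ncard_conj_eq_index {G : Type*} [Group G] (g : G) :
    Set.ncard {h : G | IsConj g h} = (Subgroup.centralizer ({g} : Set G)).index := by
  have h1 : {h : G | IsConj g h} = MulAction.orbit (ConjAct G) g := by
    ext h
    change IsConj g h ↔ _
    rw [ConjAct.mem_orbit_conjAct, isConj_comm]
  rw [h1, ← MulAction.index_stabilizer, Subgroup.centralizer_eq_comap_stabilizer]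
  exact (Subgroup.index_comap_of_surjective _ ConjAct.toConjAct.surjective).symm

/-- In a finite p-group, if a conjugacy class equals M∖N for normal N < M, then p = 2 and [M:N] = 2. -/
theorem result {G : Type*} [Group G] [Finite G] (p : ℕ) [Fact p.Prime] (hG : IsPGroup p G) (N M : Subgroup G) [N.Normal] [M.Normal] (hNM : N < M) (g : G) (hgM : g ∈ M) (hgN : g ∉ N) (hcl : {h : G | IsConj g h} = (M : Set G) \ (N : Set G)) : p = 2 ∧ N.relIndex M = 2 := by
  have hp : p.Prime := Fact.out
  -- class size is a power of p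
  obtain ⟨k, hk⟩ := hG.index (Subgroup.centralizer ({g} : Set G))
  have h1 : Set.ncard ((M : Set G) \ (N : Set G)) = p ^ k := by
    rw [← hcl, ncard_conj_eq_index, hk]
  have h2 : Set.ncard ((M : Set G) \ (N : Set G)) = Nat.card M - Nat.card N := by
    rw [Set.ncard_sdiff (by exact_mod_cast hNM.le) (Set.toFinite _)]
    rfl
  -- |M| = |N| * relIndex
  have h3 : Nat.card M = Nat.card N * N.relIndex M := by
    have := Subgroup.card_mul_index (N.subgroupOf M)
    rw [Nat.card_congr (Subgroup.subgroupOfEquivOfLe hNM.le).toEquiv] at this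
    exact this.symm
  obtain ⟨i, hi⟩ := IsPGroup.iff_card.mp (hG.to_subgroup N)
  obtain ⟨j, hj⟩ : ∃ j, N.relIndex M = p ^ j := by
    have : IsPGroup p M := hG.to_subgroup M
    exact this.index (N.subgroupOf M)
  have hj0 : j ≠ 0 := by
    rintro rfl
    rw [pow_zero] at hj
    exact hNM.not_ge (Subgroup.relIndex_eq_one.mp hj)
  have h4 : p ^ k = p ^ i * (p ^ j - 1) := by
    rw [← h1, h2, h3, hi, hj, Nat.mul_sub, mul_one]
  -- p ^ j - 1 is coprime to p and divides p ^ k
  have h5 : p ^ j - 1 ∣ p ^ k := ⟨p ^ i, by rw [h4, mul_comm]⟩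
  have hpj : 1 ≤ p ^ j := Nat.one_le_pow _ _ hp.pos
  have h6 : Nat.Coprime (p ^ j - 1) (p ^ k) := by
    apply Nat.Coprime.pow_right
    rw [Nat.coprime_comm, Nat.Prime.coprime_iff_not_dvd hp]
    intro hdvd
    have h7 : p ∣ p ^ j := dvd_pow_self p hj0
    have h8 : p ∣ 1 := by
      have := (Nat.dvd_sub h7 hdvd)
      rwa [Nat.sub_sub_self hpj] at this
    exact hp.one_lt.ne' (Nat.dvd_one.mp h8)
  have h9 : p ^ j - 1 = 1 := Nat.Coprime.eq_one_of_dvd h6 h5
  have h10 : p ^ j = 2 := by omega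
  have hp2 : p ∣ 2 := by rw [← h10]; exact dvd_pow_self p hj0
  have hpeq : p = 2 := (Nat.prime_dvd_prime_iff_eq hp Nat.prime_two).mp hp2
  exact ⟨hpeq, by rw [hj, h10]⟩

end Cfsg.Agent.S4013
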