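import Cfsg.Statements.S4014
import Mathlib

set_option autoImplicit false
universe u
open Cfsg

namespace Cfsg.Agent.S4014

/-- derived series of a subgroup contained in `derivedSeries G j` -/
theorem map_derivedSeries_le {G : Type*} [Group G] (S : Subgroup G) (j : ℕ)
    (hS : S ≤ derivedSeries G j) (i : ℕ) :
    (derivedSeries ↥S i).map S.subtype ≤ derivedSeries G (i + j) := by
  induction i with
  | zero =>
    rw [derivedSeries_zero, zero_add, ← MonoidHom.range_eq_map, Subgroup.range_subtype]
    exact hS
  | succ i ih =>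
    rw [derivedSeries_succ, Subgroup.map_commutator, Nat.succ_add, derivedSeries_succ]
    exact Subgroup.commutator_mono ih ih

theorem derivedSeries_succ_le_map {G : Type*} [Group G] (k : ℕ) :
    derivedSeries G (k + 1) ≤ (derivedSeries ↥(commutator G) k).map (commutator G).subtype := by
  induction k with
  | zero =>
    rw [derivedSeries_one, derivedSeries_zero, ← MonoidHom.range_eq_map, Subgroup.range_subtype]
  | succ k ih =>
    rw [derivedSeries_succ, derivedSeries_succ (G := ↥(commutator G)), Subgroup.map_commutator]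
    exact Subgroup.commutator_mono ih ih

/-- orbits of the commutator subgroup of a `p`-group are at least `p` times smaller -/
theorem orbit_commutator_lt (p : ℕ) [Fact p.Prime] {α : Type*} {G : Type*} [Group G] [Finite G]
    [MulAction G α] (hG : IsPGroup p G) (k : ℕ) (y : α)
    (horb : (MulAction.orbit G y).ncard < p ^ (k + 2)) :
    (MulAction.orbit ↥(commutator G) y).ncard < p ^ (k + 1) := by
  have hp : p.Prime := Fact.out
  by_cases hS : MulAction.stabilizer G y = ⊤
  · have h1 : MulAction.orbit ↥(commutator G) y = {y} := by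
      ext z
      constructor
      · rintro ⟨c, rfl⟩
        have : (c : G) ∈ MulAction.stabilizer G y := by rw [hS]; trivial
        exact MulAction.mem_stabilizer_iff.mp this
      · rintro rfl
        exact MulAction.mem_orbit_self _
    rw [h1, Set.ncard_singleton]
    exact Nat.one_lt_pow (by omega) hp.one_lt
  · obtain ⟨N, hN⟩ := IsPGroup.iff_card.mp hG
    obtain ⟨n, hn⟩ := IsPGroup.iff_card.mp (hG.to_subgroup (MulAction.stabilizer G y))
    have hnN : n < N := by
      by_contra hcon
      push Not at hcon
      apply hS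
      apply Subgroup.eq_top_of_le_card
      rw [hN, hn]
      exact Nat.pow_le_pow_right hp.pos hcon
    obtain ⟨M, hMcard, hSM⟩ := Sylow.exists_subgroup_card_pow_prime_le p
      (n := n) (m := N - 1) (by rw [hN]; exact pow_dvd_pow p (by omega))
      (MulAction.stabilizer G y) hn (by omega)
    have hMidx : M.index = p := by
      have h1 := M.card_mul_index
      rw [hMcard, hN] at h1
      have h2 : p ^ (N - 1) * M.index = p ^ (N - 1) * p := by
        rw [h1, ← pow_succ]; congr 1; omega
      exact Nat.eq_of_mul_eq_mul_left (pow_pos hp.pos _) h2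
    have hMn : M.Normal := by
      apply Subgroup.normal_of_index_eq_minFac_card
      rw [hMidx, hN, Nat.Prime.pow_minFac hp (by omega)]
    have hq : Nat.card (G ⧸ M) = p := by rw [← Subgroup.index_eq_card]; exact hMidx
    have hcyc : IsCyclic (G ⧸ M) := isCyclic_of_prime_card hq
    let _ : CommGroup (G ⧸ M) := IsCyclic.commGroup
    have hcomm : commutator G ≤ M := by
      have h1 := Abelianization.commutator_subset_ker (QuotientGroup.mk' M)
      rwa [QuotientGroup.ker_mk'] at h1
    have hsub : MulAction.orbit ↥(commutator G) y ⊆ MulAction.orbit ↥M y := by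
      rintro z ⟨c, rfl⟩
      exact ⟨⟨(c : G), hcomm c.2⟩, rfl⟩
    have hstab : MulAction.stabilizer ↥M y = (MulAction.stabilizer G y).subgroupOf M := by
      ext m
      simp [Subgroup.mem_subgroupOf, MulAction.mem_stabilizer_iff, Subgroup.smul_def]
    have hMorb : (MulAction.orbit ↥M y).ncard * p = (MulAction.orbit G y).ncard := by
      rw [← MulAction.index_stabilizer, ← MulAction.index_stabilizer, hstab, ← hMidx]
      exact Subgroup.relIndex_mul_index hSM
    have hfin : (MulAction.orbit ↥M y).Finite := Set.finite_range _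
    have h3 : (MulAction.orbit ↥(commutator G) y).ncard ≤ (MulAction.orbit ↥M y).ncard :=
      Set.ncard_le_ncard hsub hfin
    have h4 : (MulAction.orbit ↥M y).ncard * p < p ^ (k + 1) * p := by
      rw [hMorb, ← pow_succ]; exact horb
    have h5 := Nat.lt_of_mul_lt_mul_right h4
    omega

theorem fixes_of_mem_derivedSeries (p : ℕ) [Fact p.Prime] (α : Type*) :
    ∀ (k : ℕ) (G : Type u) [Group G] [Finite G] [MulAction G α], IsPGroup p G →
      (∀ x : α, (MulAction.orbit G x).ncard < p ^ (k + 1)) →
      ∀ g ∈ derivedSeries G k, ∀ x : α, g • x = x := by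
  have hp : p.Prime := Fact.out
  intro k
  induction k with
  | zero =>
    intro G _ _ _ hG horb g _ x
    have h1 := horb x
    rw [← MulAction.index_stabilizer] at h1
    obtain ⟨j, hj⟩ := hG.index (MulAction.stabilizer G x)
    rw [hj, zero_add, pow_one] at h1
    have hj0 : j = 0 := by
      by_contra hcon
      have : p ^ 1 ≤ p ^ j := Nat.pow_le_pow_right hp.pos (by omega)
      rw [pow_one] at this
      omega
    rw [hj0, pow_zero] at hj
    have h2 := Subgroup.index_eq_one.mp hj
    have h3 : g ∈ MulAction.stabilizer G x := by rw [h2]; trivial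
    exact MulAction.mem_stabilizer_iff.mp h3
  | succ k ih =>
    intro G _ _ _ hG horb g hg x
    have h1 : ∀ y : α, (MulAction.orbit ↥(commutator G) y).ncard < p ^ (k + 1) :=
      fun y => orbit_commutator_lt p hG k y (horb y)
    obtain ⟨g₁, hg₁, rfl⟩ := derivedSeries_succ_le_map k hg
    exact ih ↥(commutator G) (hG.to_subgroup _) h1 g₁ hg₁ x


open RegularWreathProduct in
/-- one wreath step raises the derived length -/
theorem wreath_derived_ne_bot {D Q : Type*} [Group D] [Group Q] (q : Q) (hq : q ≠ 1) (i : ℕ)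
    (h : derivedSeries D i ≠ ⊥) : derivedSeries (D ≀ᵣ Q) (i + 1) ≠ ⊥ := by
  classical
  let S : Subgroup (D ≀ᵣ Q) := commutator (D ≀ᵣ Q) ⊓ (rightHom : D ≀ᵣ Q →* Q).ker
  let π : ↥S →* D :=
    { toFun := fun s => (s : D ≀ᵣ Q).left 1
      map_one' := rfl
      map_mul' := fun a b => by
        have ha : (a : D ≀ᵣ Q).right = 1 := a.2.2
        simp [ha] }
  have hπ : Function.Surjective π := by
    intro d
    let w : D ≀ᵣ Q := ⟨Pi.mulSingle 1 d, 1⟩
    let σ : D ≀ᵣ Q := inl q
    refine ⟨⟨w * σ * w⁻¹ * σ⁻¹, ?_, ?_⟩, ?_⟩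
    · rw [← commutatorElement_def]
      exact Subgroup.commutator_mem_commutator (Subgroup.mem_top _) (Subgroup.mem_top _)
    · simp [w, σ]
    · simp [π, w, σ, Pi.mulSingle_apply, hq]
  have h1 : derivedSeries ↥S i ≠ ⊥ := by
    intro hbot
    apply h
    rw [← map_derivedSeries_eq hπ i, hbot, Subgroup.map_bot]
  have h2 := map_derivedSeries_le S 1 (by rw [derivedSeries_one]; exact inf_le_left) i
  intro hbot
  rw [hbot, le_bot_iff] at h2
  apply h1
  exact (Subgroup.map_eq_bot_iff_of_injective _ (Subgroup.subtype_injective S)).mp h2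

theorem iter_derived_ne_bot {C : Type u} [Group C] (q : C) (hq : q ≠ 1) (k : ℕ) :
    derivedSeries (IteratedWreathProduct C (k + 1)) k ≠ ⊥ := by
  induction k with
  | zero =>
    rw [derivedSeries_zero]
    intro hbot
    have h1 : (RegularWreathProduct.inl q : IteratedWreathProduct C 0 ≀ᵣ C) ∈
        (⊤ : Subgroup (IteratedWreathProduct C 0 ≀ᵣ C)) := Subgroup.mem_top _
    have h2 : (RegularWreathProduct.inl q : IteratedWreathProduct C 0 ≀ᵣ C) = 1 := by
      have h3 : (⊤ : Subgroup (IteratedWreathProduct C 0 ≀ᵣ C)) = ⊥ := hbot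
      rw [h3] at h1
      exact Subgroup.mem_bot.mp h1
    apply hq
    exact congrArg RegularWreathProduct.right h2
  | succ k ih =>
    have h := wreath_derived_ne_bot (D := IteratedWreathProduct C (k + 1)) q hq k ih
    exact h

theorem lower (p : ℕ) [Fact p.Prime] (n k : ℕ) (hk : p ^ (k + 1) ≤ n)
    (P : Sylow p (Equiv.Perm (Fin n))) :
    derivedSeries ↥(P : Subgroup (Equiv.Perm (Fin n))) k ≠ ⊥ := by
  have hp : p.Prime := Fact.out
  have hC : Nat.card (Multiplicative (ZMod p)) = p := by
    rw [Nat.card_eq_fintype_card, Fintype.card_multiplicative, ZMod.card]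
  have hq : (Multiplicative.ofAdd (1 : ZMod p)) ≠ 1 := by
    intro h
    have h1 : (1 : ZMod p) = 0 := by simp at h
    have : Fact (1 < p) := ⟨hp.one_lt⟩
    exact one_ne_zero h1
  have hW := iter_derived_ne_bot (Multiplicative.ofAdd (1 : ZMod p)) hq k
  have hcard : Fintype.card (Fin (k + 1) → Multiplicative (ZMod p)) = p ^ (k + 1) := by
    rw [Fintype.card_fun, Fintype.card_fin, Fintype.card_multiplicative, ZMod.card]
  obtain ⟨ι⟩ : Nonempty ((Fin (k + 1) → Multiplicative (ZMod p)) ↪ Fin n) := by
    apply Function.Embedding.nonempty_of_card_le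
    rw [hcard, Fintype.card_fin]; exact hk
  let f : IteratedWreathProduct (Multiplicative (ZMod p)) (k + 1) →* Equiv.Perm (Fin n) :=
    (Equiv.Perm.viaEmbeddingHom ι).comp (iteratedWreathToPermHom (Multiplicative (ZMod p)) (k + 1))
  have hf : Function.Injective f :=
    (Equiv.Perm.viaEmbeddingHom_injective ι).comp
      (iteratedWreathToPermHomInj (Multiplicative (ZMod p)) (k + 1))
  have hWp : IsPGroup p (IteratedWreathProduct (Multiplicative (ZMod p)) (k + 1)) :=
    IsPGroup.of_card (by rw [IteratedWreathProduct.card, hC])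
  have hrange : IsPGroup p f.range := hWp.of_equiv (MonoidHom.ofInjective hf)
  obtain ⟨Q, hQ⟩ := hrange.exists_le_sylow
  let e : ↥(Q : Subgroup (Equiv.Perm (Fin n))) ≃* ↥(P : Subgroup (Equiv.Perm (Fin n))) :=
    Sylow.equiv Q P
  let g : IteratedWreathProduct (Multiplicative (ZMod p)) (k + 1) →*
      ↥(P : Subgroup (Equiv.Perm (Fin n))) :=
    e.toMonoidHom.comp ((Subgroup.inclusion hQ).comp f.rangeRestrict)
  have hg : Function.Injective g := by
    intro a b hab
    have h1 : (Subgroup.inclusion hQ) (f.rangeRestrict a) = (Subgroup.inclusion hQ) (f.rangeRestrict b) :=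
      e.injective hab
    have h2 := Subgroup.inclusion_injective hQ h1
    have h3 : f a = f b := congrArg Subtype.val h2
    exact hf h3
  intro hbot
  apply hW
  have h4 := map_derivedSeries_le_derivedSeries g k
  rw [hbot, le_bot_iff] at h4
  exact (Subgroup.map_eq_bot_iff_of_injective _ hg).mp h4

/-- Let p be a prime, n ≥ 1, and P a Sylow p-subgroup of the symmetric group on n letters. Then the derived length of P is exactly k = ⌊log_p n⌋ (the largest k with p^k ≤ n): the k-th derived subgroup of P is trivial and, when k ≥ 1, the (k−1)-st is not. -/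
theorem result (p : ℕ) [Fact p.Prime] (n : ℕ) (hn : 1 ≤ n) (P : Sylow p (Equiv.Perm (Fin n))) : derivedSeries ↥(P : Subgroup (Equiv.Perm (Fin n))) (Nat.log p n) = ⊥ ∧ (1 ≤ Nat.log p n → derivedSeries ↥(P : Subgroup (Equiv.Perm (Fin n))) (Nat.log p n - 1) ≠ ⊥) := by
  have hp : p.Prime := Fact.out
  constructor
  · rw [eq_bot_iff]
    intro g hg
    rw [Subgroup.mem_bot]
    have key := fixes_of_mem_derivedSeries p (Fin n) (Nat.log p n)
      ↥(P : Subgroup (Equiv.Perm (Fin n))) P.isPGroup' ?_ g hg
    · apply Subtype.ext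
      apply Equiv.ext
      intro x
      exact key x
    · intro x
      calc (MulAction.orbit ↥(P : Subgroup (Equiv.Perm (Fin n))) x).ncard
          ≤ Nat.card (Fin n) := Set.ncard_le_card _
        _ = n := Nat.card_fin n
        _ < p ^ (Nat.log p n + 1) := Nat.lt_pow_succ_log_self hp.one_lt n
  · intro hk
    obtain ⟨k, hk'⟩ : ∃ k, Nat.log p n = k + 1 := ⟨Nat.log p n - 1, by omega⟩
    rw [hk', Nat.add_sub_cancel]
    apply lower p n k _ P
    rw [← hk']; exact Nat.pow_log_le_self p (by omega)

end Cfsg.Agent.S4014
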