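-- Statement S4015: exact derived length of a Sylow p-subgroup of GL_n(q), p odd, p not dividing q.
import Cfsg.Statements.S4015
import Cfsg.Agent.Lib.Helper74.CrossChar
import Cfsg.Agent.Lib.Helper74.LinDLp
import Cfsg.Agent.Lib.Helper74.Wreath

set_option autoImplicit false
open Cfsg

namespace Cfsg.Agent.S4015

open Cfsg.Agent.Lib.Helper74.LinDL Cfsg.Agent.Lib.Helper74.CrossChar
  Cfsg.Agent.Lib.Helper74.LinDLp Cfsg.Agent.Lib.Helper74.Wreath

/-- Upper bound: a `p`-subgroup of `GL_n(F)`, `F` finite with `p ∤ |F|`, has derived length at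
most `⌊log_p (n / e)⌋ + 1`. -/
theorem upper {F : Type*} [Field F] [Fintype F] (p : ℕ) [Fact p.Prime]
    (hpq : ¬ p ∣ Fintype.card F) (n : ℕ) (P : Subgroup (Matrix.GeneralLinearGroup (Fin n) F))
    (hP : IsPGroup p P) :
    derivedSeries ↥P (Nat.log p (n / orderOf ((Fintype.card F : ℕ) : ZMod p)) + 1) = ⊥ := by
  have hp : p.Prime := Fact.out
  have hpK : (p : AlgebraicClosure F) ≠ 0 := by
    intro h0
    have h1 : (p : F) = 0 := by
      apply (algebraMap F (AlgebraicClosure F)).injective
      rw [map_natCast, map_zero]; exact h0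
    obtain ⟨ℓ, hℓ⟩ := CharP.exists F
    obtain ⟨r, hprime, hcard⟩ := FiniteField.card F ℓ
    have h2 : ℓ ∣ p := (CharP.cast_eq_zero_iff F ℓ p).1 h1
    have h3 : ℓ = p := (Nat.prime_dvd_prime_iff_eq hprime hp).1 h2
    apply hpq
    rw [hcard, h3]
    exact dvd_pow_self p r.ne_zero
  have hker : MonoidHom.ker (matRep (AlgebraicClosure F) P.subtype) = ⊥ := by
    rw [matRep_ker]
    exact (MonoidHom.ker_eq_bot_iff _).2 P.subtype_injective
  have hgood := good_span p hpK n hP (matRep (AlgebraicClosure F) P.subtype)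
    (by rw [Module.finrank_fin_fun])
  rw [eq_bot_iff, ← hker]
  intro d hd
  rw [MonoidHom.mem_ker]
  have key : ∀ W : Submodule (AlgebraicClosure F) (Fin n → AlgebraicClosure F),
      Good (matRep (AlgebraicClosure F) P.subtype) W →
      W ≤ LinearMap.eqLocus (matRep (AlgebraicClosure F) P.subtype d) 1 := by
    intro W hW w hw
    rw [LinearMap.mem_eqLocus, Module.End.one_apply]
    obtain ⟨hWinv, hW2⟩ := hW
    rcases hW2 with h | ⟨g, ζ, hζ, h⟩
    · exact h d w hw
    · obtain ⟨k, hk⟩ := hP g
      have hk' : (g : Matrix.GeneralLinearGroup (Fin n) F) ^ p ^ k = 1 := by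
        have := congrArg Subtype.val hk
        simpa using this
      have hb := eig_bound (K := AlgebraicClosure F) p hpq
        (g : Matrix.GeneralLinearGroup (Fin n) F) k hk' ζ hζ
      have hle : W ≤ Module.End.eigenspace
          (Matrix.toLin' ((g : Matrix.GeneralLinearGroup (Fin n) F).1.map
            (algebraMap F (AlgebraicClosure F)))) ζ := by
        intro u hu
        rw [Module.End.mem_eigenspace_iff]
        exact h u hu
      have hfin : Module.finrank (AlgebraicClosure F) W ≤
          n / orderOf ((Fintype.card F : ℕ) : ZMod p) := by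
        have h1 := Submodule.finrank_mono hle
        have hpos : 0 < orderOf ((Fintype.card F : ℕ) : ZMod p) := by
          have hq0 : ((Fintype.card F : ℕ) : ZMod p) ≠ 0 := by
            rw [Ne, ZMod.natCast_eq_zero_iff]; exact hpq
          have h2 : orderOf (Units.mk0 _ hq0) = orderOf ((Fintype.card F : ℕ) : ZMod p) := by
            rw [← orderOf_units]; rfl
          rw [← h2]
          exact orderOf_pos _
        rw [Nat.le_div_iff_mul_le hpos]
        calc Module.finrank (AlgebraicClosure F) W * orderOf ((Fintype.card F : ℕ) : ZMod p)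
            ≤ Module.finrank (AlgebraicClosure F) _ * orderOf ((Fintype.card F : ℕ) : ZMod p) :=
              Nat.mul_le_mul_right _ h1
          _ ≤ n := by rw [mul_comm]; exact hb
      have hWinv' : ∀ g, W ≤ W.comap (matRep (AlgebraicClosure F) P.subtype g) :=
        fun g u hu => hWinv g u hu
      have h1 := coprime_claim_p p hpK _ hP
        ((matRep (AlgebraicClosure F) P.subtype).subrepresentation W hWinv') hfin hd
      rw [MonoidHom.mem_ker] at h1
      have h2 := congrArg (fun f : Module.End (AlgebraicClosure F) W =>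
        (f ⟨w, hw⟩ : Fin n → AlgebraicClosure F)) h1
      simpa using h2
  have htop : (⊤ : Submodule (AlgebraicClosure F) (Fin n → AlgebraicClosure F)) ≤
      LinearMap.eqLocus (matRep (AlgebraicClosure F) P.subtype d) 1 := by
    rw [← hgood]
    exact iSup₂_le key
  exact LinearMap.ext fun v => by
    have := htop (Submodule.mem_top (x := v))
    rw [LinearMap.mem_eqLocus] at this
    exact this

/-- Lower bound: some finite `p`-group with nontrivial `k`-th derived subgroup embeds in
`GL_n(F)`, `k = ⌊log_p (n / e)⌋`. -/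
theorem lower {F : Type*} [Field F] [Fintype F] (p : ℕ) [Fact p.Prime]
    (hpq : ¬ p ∣ Fintype.card F) (n : ℕ)
    (hn : orderOf ((Fintype.card F : ℕ) : ZMod p) ≤ n)
    (P : Sylow p (Matrix.GeneralLinearGroup (Fin n) F)) :
    derivedSeries ↥(P : Subgroup (Matrix.GeneralLinearGroup (Fin n) F))
      (Nat.log p (n / orderOf ((Fintype.card F : ℕ) : ZMod p))) ≠ ⊥ := by
  have hp : p.Prime := Fact.out
  obtain ⟨e, he⟩ : ∃ e, e = orderOf ((Fintype.card F : ℕ) : ZMod p) := ⟨_, rfl⟩
  rw [← he] at hn ⊢
  have hpos : 0 < e := by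
    have hq0 : ((Fintype.card F : ℕ) : ZMod p) ≠ 0 := by
      rw [Ne, ZMod.natCast_eq_zero_iff]; exact hpq
    have h2 : orderOf (Units.mk0 _ hq0) = orderOf ((Fintype.card F : ℕ) : ZMod p) := by
      rw [← orderOf_units]; rfl
    rw [he, ← h2]
    exact orderOf_pos _
  -- an element of order `p` in `GL_e(F)`
  have hdvd : p ∣ Nat.card (Matrix.GeneralLinearGroup (Fin e) F) := by
    rw [Matrix.card_GL_field]
    have h1 : p ∣ Fintype.card F ^ e - Fintype.card F ^ ((⟨0, hpos⟩ : Fin e) : ℕ) := by
      have h2 : ((Fintype.card F : ℕ) : ZMod p) ^ e = 1 := by rw [he]; exact pow_orderOf_eq_one _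
      have h3 : 1 ≤ Fintype.card F ^ e := Nat.one_le_pow _ _ Fintype.card_pos
      rw [← ZMod.natCast_eq_zero_iff]
      simp only [pow_zero]
      rw [Nat.cast_sub h3, Nat.cast_pow, h2, Nat.cast_one, sub_self]
    exact h1.trans (Finset.dvd_prod_of_mem _ (Finset.mem_univ _))
  obtain ⟨c, hc⟩ := exists_prime_orderOf_dvd_card' p hdvd
  have hbase : HasRep F p 0 e := HasRep.base hpos c hc
  have hk := hbase.iterate (Nat.log p (n / e))
  have hle : p ^ Nat.log p (n / e) * e ≤ n := by
    have h1 : p ^ Nat.log p (n / e) ≤ n / e :=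
      Nat.pow_log_le_self p (Nat.div_pos hn hpos).ne'
    calc p ^ Nat.log p (n / e) * e ≤ (n / e) * e := Nat.mul_le_mul_right _ h1
      _ ≤ n := Nat.div_mul_le_self n e
  obtain ⟨T, _, _, φ, hT, hder, hinj⟩ := hk.exists_hom hle
  exact sylow_derivedSeries_ne_bot p P hT φ hinj _ hder

/-- Let p be an odd prime, F a finite field with q elements where p does not divide q, and e the multiplicative order of q modulo p. Let n ≥ e and write w = ⌊n/e⌋ and k = ⌊log_p w⌋. Then a Sylow p-subgroup of GL(n, F) has derived length exactly k + 1: its (k+1)-st derived subgroup is trivial and its k-th is not. -/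
theorem result (p : ℕ) [Fact p.Prime] (hp : p ≠ 2) (F : Type*) [Field F] [Fintype F] (q : ℕ) (hq : Fintype.card F = q) (hpq : ¬ p ∣ q) (n : ℕ) (hn : orderOf (q : ZMod p) ≤ n) (P : Sylow p (Matrix.GeneralLinearGroup (Fin n) F)) : derivedSeries ↥(P : Subgroup (Matrix.GeneralLinearGroup (Fin n) F)) (Nat.log p (n / orderOf (q : ZMod p)) + 1) = ⊥ ∧ derivedSeries ↥(P : Subgroup (Matrix.GeneralLinearGroup (Fin n) F)) (Nat.log p (n / orderOf (q : ZMod p))) ≠ ⊥ := by
  subst hq
  exact ⟨upper p hpq n _ P.isPGroup', lower p hpq n hn P⟩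

end Cfsg.Agent.S4015
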