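import Cfsg.Statements.S4023
import Mathlib
import Cfsg.Agent.S0016
import Cfsg.Agent.Lib.Helper43.EqOrd

set_option autoImplicit false
open Cfsg

namespace Cfsg.Agent.S4023


open Cfsg.Agent.Lib.Helper43 in
theorem conj_comm {G : Type*} [Group G] (H K : Subgroup G) (g : G)
    (hK : K = H.map (MulAut.conj g).toMonoidHom) (hH : ∀ a ∈ H, ∀ b ∈ H, a * b = b * a) :
    ∀ a ∈ K, ∀ b ∈ K, a * b = b * a := by
  subst hK
  rintro _ ⟨a, ha, rfl⟩ _ ⟨b, hb, rfl⟩
  rw [← map_mul, ← map_mul, hH a ha b hb]

open Cfsg.Agent.Lib.Helper43 in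
theorem main {G : Type*} [Group G] [Finite G]
    {p : ℕ} [Fact p.Prime] (hC : ∀ H K : Subgroup G, IsPGroup p H → IsPGroup p K → Nat.card H = Nat.card K →
      ∃ g : G, K = H.map (MulAut.conj g).toMonoidHom) (P : Sylow p G) :
    IsCyclic ↥(P : Subgroup G) ∨ Cfsg.IsElementaryAbelian p (P : Subgroup G) ∨
      (p = 2 ∧ Nonempty ((P : Subgroup G) ≃* QuaternionGroup 2)) ∨
      (p ≠ 2 ∧ ¬ IsMulCommutative ↥(P : Subgroup G) ∧ Nat.card ↥(P : Subgroup G) = p ^ 3 ∧
        Monoid.exponent ↥(P : Subgroup G) = p) := by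
  have hp : p.Prime := Fact.out
  have hPp : IsPGroup p ↥(P : Subgroup G) := P.isPGroup'
  have hmapP : ∀ K : Subgroup ↥(P : Subgroup G), IsPGroup p ↥(K.map (P : Subgroup G).subtype) :=
    fun K => hPp.to_le (Subgroup.map_subtype_le K)
  have hcardmap : ∀ K : Subgroup ↥(P : Subgroup G),
      Nat.card ↥(K.map (P : Subgroup G).subtype) = Nat.card K :=
    fun K => Subgroup.card_map_of_injective (Subgroup.subtype_injective _)
  have key : ∀ K₁ K₂ : Subgroup ↥(P : Subgroup G), Nat.card K₁ = Nat.card K₂ →
      (∀ a ∈ K₁, ∀ b ∈ K₁, a * b = b * a) → ∀ a ∈ K₂, ∀ b ∈ K₂, a * b = b * a := by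
    intro K₁ K₂ hc h1 a ha b hb
    obtain ⟨g, hg⟩ := hC (K₁.map (P : Subgroup G).subtype) (K₂.map (P : Subgroup G).subtype)
      (hmapP K₁) (hmapP K₂) (by rw [hcardmap, hcardmap, hc])
    have h1' : ∀ a ∈ K₁.map (P : Subgroup G).subtype, ∀ b ∈ K₁.map (P : Subgroup G).subtype,
        a * b = b * a := by
      rintro _ ⟨a, ha, rfl⟩ _ ⟨b, hb, rfl⟩
      rw [← map_mul, ← map_mul, h1 a ha b hb]
    have h2' := conj_comm _ _ g hg h1'
    have := h2' (a : G) ⟨a, ha, rfl⟩ (b : G) ⟨b, hb, rfl⟩
    exact Subtype.ext this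
  by_cases huniq : ∀ H K : Subgroup ↥(P : Subgroup G), Nat.card H = p → Nat.card K = p → H = K
  · rcases Cfsg.Agent.S0016.result p hPp huniq with hcyc | ⟨hp2, n, ⟨e⟩⟩
    · exact Or.inl hcyc
    · rcases Nat.lt_or_ge n 2 with hn | hn
      · interval_cases n
        · left
          have : IsCyclic (QuaternionGroup (2 ^ 0)) := QuaternionGroup.quaternionGroup_one_isCyclic
          exact isCyclic_of_surjective e.symm e.symm.surjective
        · right; right; left
          exact ⟨hp2, ⟨e⟩⟩
      · exfalso
        have h4 : 4 ≤ 2 ^ n := by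
          calc 4 = 2 ^ 2 := by norm_num
            _ ≤ 2 ^ n := Nat.pow_le_pow_right (by norm_num) hn
        have hev : Even (2 ^ n) := (Nat.even_pow).mpr ⟨even_two, by omega⟩
        obtain ⟨K₁, K₂, hc, h1, ⟨u, hu, v, hv, huv⟩⟩ := quat_two_index_two h4 hev
        have := key (K₁.map e.symm.toMonoidHom) (K₂.map e.symm.toMonoidHom)
          (by rw [Subgroup.card_map_of_injective e.symm.injective,
            Subgroup.card_map_of_injective e.symm.injective, hc])
          (by
            rintro _ ⟨a, ha, rfl⟩ _ ⟨b, hb, rfl⟩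
            rw [← map_mul, ← map_mul, h1 a ha b hb])
        have h' := this (e.symm u) ⟨u, hu, rfl⟩ (e.symm v) ⟨v, hv, rfl⟩
        rw [← map_mul, ← map_mul] at h'
        exact huv (e.symm.injective h')
  · push Not at huniq
    obtain ⟨H, K, hH, hK, hHK⟩ := huniq
    obtain ⟨E, hEcard, hEexp⟩ := exists_sq_exp hPp H K hH hK hHK
    have hexp : ∀ x : ↥(P : Subgroup G), x ^ p = 1 := by
      intro x
      by_contra hx
      obtain ⟨y, hyo⟩ := exists_orderOf_sq hPp x hx
      have hCcard : Nat.card (Subgroup.zpowers y) = p ^ 2 := by rw [Nat.card_zpowers, hyo]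
      obtain ⟨g, hg⟩ := hC (E.map (P : Subgroup G).subtype)
        ((Subgroup.zpowers y).map (P : Subgroup G).subtype) (hmapP E) (hmapP _)
        (by rw [hcardmap, hcardmap, hEcard, hCcard])
      have hyC : (y : G) ∈ (Subgroup.zpowers y).map (P : Subgroup G).subtype :=
        ⟨y, Subgroup.mem_zpowers y, rfl⟩
      rw [hg] at hyC
      obtain ⟨e', ⟨e, he, rfl⟩, hey⟩ := hyC
      have h1 : (y : G) ^ p = 1 := by
        rw [← hey, ← map_pow, ← map_pow, hEexp e he, map_one, map_one]
      have hyp : y ^ p = 1 := Subtype.ext (by simpa using h1)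
      have h2 := orderOf_dvd_of_pow_eq_one hyp
      rw [hyo] at h2
      have h3 := Nat.le_of_dvd hp.pos h2
      nlinarith [hp.two_le]
    by_cases hcomm : ∀ a b : ↥(P : Subgroup G), a * b = b * a
    · right; left
      refine ⟨⟨⟨hcomm⟩⟩, fun a ha => ?_⟩
      have := congrArg Subtype.val (hexp ⟨a, ha⟩)
      simpa using this
    · right; right; right
      have hp2 : p ≠ 2 := by
        rintro rfl
        apply hcomm
        intro a b
        have hinv : ∀ u : ↥(P : Subgroup G), u⁻¹ = u := by
          intro u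
          rw [inv_eq_iff_eq_inv, eq_inv_iff_mul_eq_one, ← pow_two]
          exact hexp u
        calc a * b = (a * b)⁻¹ := (hinv _).symm
          _ = b⁻¹ * a⁻¹ := mul_inv_rev a b
          _ = b * a := by rw [hinv a, hinv b]
      have hncI : ¬ IsMulCommutative ↥(P : Subgroup G) := fun h => hcomm (fun a b => mul_comm' a b)
      have hcenter : Subgroup.center ↥(P : Subgroup G) ≠ ⊤ := by
        intro h
        apply hcomm
        intro a b
        have : b ∈ Subgroup.center ↥(P : Subgroup G) := h ▸ Subgroup.mem_top b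
        exact Subgroup.mem_center_iff.mp this a
      obtain ⟨m, hm⟩ := (IsPGroup.iff_card).mp hPp
      have hm3 : m = 3 := by
        rcases Nat.lt_or_ge m 3 with h | h
        · exfalso
          interval_cases m
          · have : Subsingleton ↥(P : Subgroup G) :=
              (Nat.card_eq_one_iff_unique.mp (by simpa using hm)).1
            exact hcomm (fun a b => by rw [Subsingleton.elim a b])
          · have : IsCyclic ↥(P : Subgroup G) := isCyclic_of_prime_card (by simpa using hm)
            exact hcomm (fun a b => IsCyclic.commGroup.mul_comm a b)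
          · exact hncI (IsPGroup.isMulCommutative_of_card_eq_prime_sq hm)
        · rcases Nat.eq_or_lt_of_le h with h | h
          · exact h.symm
          · exfalso
            have h4 : p ^ 4 ≤ Nat.card ↥(P : Subgroup G) := by
              rw [hm]; exact Nat.pow_le_pow_right hp.pos h
            obtain ⟨T, ⟨a, haT, b, hbT, hab⟩, hTcard⟩ :=
              exists_nonabelian_le_cube hPp hexp hcenter
            obtain ⟨A, hAc, hAcard⟩ := exists_abelian_ge_cube hPp hcenter h4
            obtain ⟨t, ht⟩ := (IsPGroup.iff_card).mp (hPp.to_subgroup T)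
            have ht3 : t ≤ 3 := by
              rw [ht] at hTcard; exact (Nat.pow_le_pow_iff_right hp.one_lt).mp hTcard
            obtain ⟨T', hT'card, hTT'⟩ := Sylow.exists_subgroup_card_pow_prime_le p
              (by rw [hm]; exact pow_dvd_pow p (by omega) : p ^ 3 ∣ Nat.card ↥(P : Subgroup G))
              T ht ht3
            obtain ⟨a', ha'⟩ := (IsPGroup.iff_card).mp (hPp.to_subgroup A)
            have ha3 : 3 ≤ a' := by
              rw [ha'] at hAcard; exact (Nat.pow_le_pow_iff_right hp.one_lt).mp hAcard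
            obtain ⟨A'', hA''⟩ := Sylow.exists_subgroup_card_pow_prime p
              (by rw [ha']; exact pow_dvd_pow p ha3 : p ^ 3 ∣ Nat.card ↥A)
            have hA'c : ∀ u ∈ A''.map A.subtype, ∀ v ∈ A''.map A.subtype, u * v = v * u := by
              rintro _ ⟨u, hu, rfl⟩ _ ⟨v, hv, rfl⟩
              exact hAc _ u.2 _ v.2
            have := key (A''.map A.subtype) T'
              (by rw [Subgroup.card_map_of_injective A.subtype_injective, hA'', hT'card]) hA'c
              a (hTT' haT) b (hTT' hbT)
            exact hab this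
      refine ⟨hp2, hncI, by rw [hm, hm3], ?_⟩
      have hdvd : Monoid.exponent ↥(P : Subgroup G) ∣ p :=
        Monoid.exponent_dvd_of_forall_pow_eq_one hexp
      rcases (Nat.dvd_prime hp).mp hdvd with h1 | h1
      · exfalso
        have : Subsingleton ↥(P : Subgroup G) := Monoid.exp_eq_one_iff.mp h1
        exact hcomm (fun a b => by rw [Subsingleton.elim a b])
      · exact h1

/-- Let p be a prime and G a finite group in which any two p-subgroups of the same order are conjugate, with Sylow p-subgroup P. Then P is cyclic, or elementary abelian, or p = 2 and P is a quaternion group of order 8, or p is odd and P is non-abelian of order p³ and exponent p. -/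
theorem result {G : Type*} [Group G] [Finite G]
    {p : ℕ} [Fact p.Prime] (hC : ∀ H K : Subgroup G, IsPGroup p H → IsPGroup p K → Nat.card H = Nat.card K →
      ∃ g : G, K = H.map (MulAut.conj g).toMonoidHom) (P : Sylow p G) :
    IsCyclic P ∨ Cfsg.IsElementaryAbelian p (P : Subgroup G) ∨
      (p = 2 ∧ Nonempty ((P : Subgroup G) ≃* QuaternionGroup 2)) ∨
      (p ≠ 2 ∧ ¬ IsMulCommutative P ∧ Nat.card P = p ^ 3 ∧ Monoid.exponent P = p) := by
  exact main hC P

end Cfsg.Agent.S4023
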