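import Cfsg.Statements.S4020
import Cfsg.Agent.S4023
import Cfsg.Agent.Lib.Helper91.EqOrdC

set_option autoImplicit false
open Cfsg

namespace Cfsg.Agent.S4020

/-- Let G be a finite group in which, for every prime p, any two p-subgroups of the same order are conjugate. Then every Sylow subgroup of G is cyclic, elementary abelian, or a quaternion group of order 8. -/
theorem result {G : Type*} [Group G] [Finite G]
    (hD : ∀ p : ℕ, p.Prime → ∀ H K : Subgroup G, IsPGroup p H → IsPGroup p K → Nat.card H = Nat.card K →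
      ∃ g : G, K = H.map (MulAut.conj g).toMonoidHom) {p : ℕ} [Fact p.Prime] (P : Sylow p G) :
    IsCyclic P ∨ Cfsg.IsElementaryAbelian p (P : Subgroup G) ∨ Nonempty ((P : Subgroup G) ≃* QuaternionGroup 2) := by
  have hp : p.Prime := Fact.out
  have hS2 : ∀ S : Sylow 2 G, IsCyclic (S : Subgroup G) ∨
      Cfsg.IsElementaryAbelian 2 (S : Subgroup G) ∨
      Nonempty ((S : Subgroup G) ≃* QuaternionGroup 2) := by
    intro S
    rcases Cfsg.Agent.S4023.result (hD 2 Nat.prime_two) S with h | h | ⟨-, h⟩ | ⟨h, -⟩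
    · exact Or.inl h
    · exact Or.inr (Or.inl h)
    · exact Or.inr (Or.inr h)
    · exact absurd rfl h
  rcases Cfsg.Agent.S4023.result (hD p hp) P with h | h | ⟨-, h⟩ | ⟨h2, hnc, hcard, hexp⟩
  · exact Or.inl h
  · exact Or.inr (Or.inl h)
  · exact Or.inr (Or.inr h)
  · exfalso
    refine Cfsg.Agent.Lib.Helper91.no_heis_sylow hD hS2 P h2 hnc hcard ?_
    intro q hq
    have h1 : (⟨q, hq⟩ : (P : Subgroup G)) ^ Monoid.exponent (P : Subgroup G) = 1 :=
      Monoid.pow_exponent_eq_one _
    have h3 : Monoid.exponent (P : Subgroup G) = p := hexp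
    rw [h3] at h1
    exact congrArg Subtype.val h1

end Cfsg.Agent.S4020
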