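import Cfsg.Statements.S4024
import Mathlib
import Cfsg.Agent.S4023

set_option autoImplicit false
open Cfsg

namespace Cfsg.Agent.S4024

open scoped Pointwise

/-- In a finite subgroup, one-sided invariance under conjugation gives the normalizer. -/
theorem mem_normalizer_of_conj_mem {G : Type*} [Group G] (N : Subgroup G) [Finite N] (x : G)
    (h : ∀ n ∈ N, x * n * x⁻¹ ∈ N) : x ∈ Subgroup.normalizer (N : Set G) := by
  rw [Subgroup.mem_normalizer_iff]
  intro n
  refine ⟨h n, fun hn => ?_⟩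
  have hinj : Function.Injective (fun m : N => (⟨x * m * x⁻¹, h m m.2⟩ : N)) := by
    intro a b hab
    have h1 : x * (a : G) * x⁻¹ = x * (b : G) * x⁻¹ := congrArg Subtype.val hab
    apply Subtype.ext
    have h2 : (a : G) = x⁻¹ * (x * (a : G) * x⁻¹) * x := by group
    rw [h2, h1]; group
  obtain ⟨m, hm⟩ := (Finite.injective_iff_surjective.mp hinj) ⟨x * n * x⁻¹, hn⟩
  have h1 : x * (m : G) * x⁻¹ = x * n * x⁻¹ := congrArg Subtype.val hm
  have h2 : n = (m : G) := by
    have h3 : n = x⁻¹ * (x * n * x⁻¹) * x := by group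
    rw [h3, ← h1]; group
  rw [h2]; exact m.2

/-- extraction of a `p'`-by-`p` section from a `p`-solvable chain -/
theorem exists_section {X : Type*} [Group X] [Finite X] (p : ℕ) [Fact p.Prime]
    (hsolv : Cfsg.IsPSolvable p X) (hdiv : p ∣ Nat.card X) :
    ∃ K L : Subgroup X, K.Normal ∧ L.Normal ∧ K ≤ L ∧ (Nat.card K).Coprime p ∧
      ∃ m : ℕ, 1 ≤ m ∧ K.relIndex L = p ^ m := by
  have hp : p.Prime := Fact.out
  obtain ⟨n, Hc, h0, hlast, hmono, hnorm, hfac⟩ := hsolv
  by_contra hcon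
  have key : ∀ i : Fin (n + 1), (Nat.card (Hc i)).Coprime p := by
    intro i
    induction i using Fin.induction with
    | zero => rw [h0]; simp
    | succ i ih =>
      have hle : Hc i.castSucc ≤ Hc i.succ := hmono (Fin.castSucc_lt_succ).le
      have hcard : Nat.card (Hc i.succ) =
          Nat.card (Hc i.castSucc) * (Hc i.castSucc).relIndex (Hc i.succ) := by
        have := Subgroup.relIndex_mul_relIndex ⊥ (Hc i.castSucc) (Hc i.succ) bot_le hle
        rw [Subgroup.relIndex_bot_left, Subgroup.relIndex_bot_left] at this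
        exact this.symm
      rcases hfac i with ⟨m, hm⟩ | hco
      · rcases Nat.eq_zero_or_pos m with rfl | hmpos
        · rw [hcard, hm, pow_zero, mul_one]; exact ih
        · exact absurd ⟨Hc i.castSucc, Hc i.succ, hnorm _, hnorm _, hle, ih, m, hmpos, hm⟩ hcon
      · rw [hcard]; exact Nat.Coprime.mul_left ih hco
  have h1 := key (Fin.last n)
  rw [hlast, Subgroup.card_top] at h1
  exact hp.one_lt.ne' (Nat.Coprime.eq_one_of_dvd h1.symm hdiv)

/-- Frattini-type factorisation `X = K · N_X(P)` when `P ≤ L = K P`. -/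
theorem frattini_KN {X : Type*} [Group X] [Finite X] (p : ℕ) [Fact p.Prime] (P : Sylow p X)
    (K L : Subgroup X) [K.Normal] [L.Normal] (hKL : K ≤ L) (hK : (Nat.card K).Coprime p)
    (m : ℕ) (hm : K.relIndex L = p ^ m) (hPL : (P : Subgroup X) ≤ L) (x : X) :
    ∃ k ∈ K, ∃ n ∈ Subgroup.normalizer ((P : Subgroup X) : Set X), x = k * n := by
  have hp : p.Prime := Fact.out
  have h1 : Subgroup.normalizer ((P : Subgroup X) : Set X) ⊔ L = ⊤ :=
    Sylow.normalizer_sup_eq_top' P hPL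
  have hx : x ∈ ((L ⊔ Subgroup.normalizer ((P : Subgroup X) : Set X) : Subgroup X) : Set X) := by
    rw [sup_comm, h1]; trivial
  rw [Subgroup.normal_mul] at hx
  obtain ⟨l, hl, n, hn, rfl⟩ := Set.mem_mul.mp hx
  have hKP : K ⊔ (P : Subgroup X) = L := by
    apply Subgroup.eq_of_le_of_card_ge (sup_le hKL hPL)
    have hcardL : Nat.card L = Nat.card K * p ^ m := by
      have := Subgroup.relIndex_mul_relIndex ⊥ K L bot_le hKL
      rw [Subgroup.relIndex_bot_left, Subgroup.relIndex_bot_left, hm] at this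
      exact this.symm
    have hpm : p ^ m ∣ Nat.card (P : Subgroup X) := by
      apply P.pow_dvd_card_of_pow_dvd_card
      exact dvd_trans (Dvd.intro_left _ hcardL.symm) (Subgroup.card_subgroup_dvd_card L)
    have hd1 : Nat.card K ∣ Nat.card (K ⊔ (P : Subgroup X) : Subgroup X) :=
      Subgroup.card_dvd_of_le le_sup_left
    have hd2 : p ^ m ∣ Nat.card (K ⊔ (P : Subgroup X) : Subgroup X) :=
      dvd_trans hpm (Subgroup.card_dvd_of_le le_sup_right)
    have hco : (Nat.card K).Coprime (p ^ m) := Nat.Coprime.pow_right m hK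
    have := Nat.Coprime.mul_dvd_of_dvd_of_dvd hco hd1 hd2
    rw [hcardL]
    exact Nat.le_of_dvd Nat.card_pos this
  have hl' : l ∈ ((K ⊔ (P : Subgroup X) : Subgroup X) : Set X) := by rw [hKP]; exact hl
  rw [Subgroup.normal_mul] at hl'
  obtain ⟨k, hk, y, hy, rfl⟩ := Set.mem_mul.mp hl'
  exact ⟨k, hk, y * n, mul_mem (Subgroup.le_normalizer hy) hn, by rw [mul_assoc]⟩

/-- The centre of a non-abelian group of order `p³` has order `p`. -/
theorem card_center {X : Type*} [Group X] [Finite X] (p : ℕ) [Fact p.Prime]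
    (hcard : Nat.card X = p ^ 3) (hnc : ¬ ∀ a b : X, a * b = b * a) :
    Nat.card (Subgroup.center X) = p := by
  have hp : p.Prime := Fact.out
  have hX : IsPGroup p X := IsPGroup.of_card hcard
  have : Nontrivial X := by
    rw [← Finite.one_lt_card_iff_nontrivial, hcard]
    exact Nat.one_lt_pow (by norm_num) hp.one_lt
  have hnt : Nontrivial (Subgroup.center X) := hX.center_nontrivial
  have hdvd : Nat.card (Subgroup.center X) ∣ p ^ 3 := hcard ▸ Subgroup.card_subgroup_dvd_card _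
  obtain ⟨k, hk, hck⟩ := (Nat.dvd_prime_pow hp).mp hdvd
  have hk0 : k ≠ 0 := by
    rintro rfl
    rw [pow_zero] at hck
    have := Finite.one_lt_card_iff_nontrivial.mpr hnt
    omega
  have hidx : Nat.card (Subgroup.center X) * (Subgroup.center X).index = p ^ 3 := by
    rw [Subgroup.card_mul_index, hcard]
  rw [hck] at hidx
  have hk3 : k ≠ 3 := by
    rintro rfl
    apply hnc
    have htop : Subgroup.center X = ⊤ := Subgroup.eq_top_of_card_eq _ (by rw [hck, hcard])
    intro a b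
    have : a ∈ Subgroup.center X := by rw [htop]; trivial
    exact (Subgroup.mem_center_iff.mp this b).symm
  have hk2 : k ≠ 2 := by
    rintro rfl
    apply hnc
    have hi : (Subgroup.center X).index = p := by
      have h3 : p ^ 2 * (Subgroup.center X).index = p ^ 2 * p := by rw [hidx]; ring
      exact Nat.eq_of_mul_eq_mul_left (pow_pos hp.pos 2) h3
    have hq : Nat.card (X ⧸ Subgroup.center X) = p := by
      rw [← Subgroup.index_eq_card]; exact hi
    have hc : IsCyclic (X ⧸ Subgroup.center X) := isCyclic_of_prime_card hq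
    have := (QuotientGroup.mk' (Subgroup.center X)).isMulCommutative_of_isCyclic_of_ker_le_center
      (by rw [QuotientGroup.ker_mk'])
    intro a b
    exact mul_comm' a b
  have hk1 : k = 1 := by omega
  rw [hck, hk1, pow_one]


theorem conj_of_order_p {G : Type*} [Group G] [Finite G] {p : ℕ} [Fact p.Prime]
    (hC : ∀ H K : Subgroup G, IsPGroup p H → IsPGroup p K → Nat.card H = Nat.card K →
      ∃ g : G, K = H.map (MulAut.conj g).toMonoidHom)
    (x y : G) (hx : orderOf x = p) (hy : orderOf y = p) :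
    ∃ g : G, ∃ w ∈ Subgroup.zpowers x, y = g * w * g⁻¹ := by
  have h1 : IsPGroup p (Subgroup.zpowers x) :=
    IsPGroup.of_card (n := 1) (by rw [Nat.card_zpowers, hx, pow_one])
  have h2 : IsPGroup p (Subgroup.zpowers y) :=
    IsPGroup.of_card (n := 1) (by rw [Nat.card_zpowers, hy, pow_one])
  obtain ⟨g, hg⟩ := hC _ _ h1 h2 (by rw [Nat.card_zpowers, Nat.card_zpowers, hx, hy])
  have h3 : y ∈ (Subgroup.zpowers x).map (MulAut.conj g).toMonoidHom :=
    hg ▸ Subgroup.mem_zpowers y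
  obtain ⟨w, hw, hwy⟩ := Subgroup.mem_map.mp h3
  exact ⟨g, w, hw, by rw [← hwy]; simp [MulAut.conj_apply]⟩

/-- A Sylow subgroup of exponent `p` lies in every normal subgroup of order divisible by `p`. -/
theorem sylow_le_of_exp {G : Type*} [Group G] [Finite G] {p : ℕ} [Fact p.Prime]
    (hC : ∀ H K : Subgroup G, IsPGroup p H → IsPGroup p K → Nat.card H = Nat.card K →
      ∃ g : G, K = H.map (MulAut.conj g).toMonoidHom) (P : Sylow p G)
    (H : Subgroup G) [hHn : H.Normal] (hdiv : p ∣ Nat.card H)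
    (hexp : ∀ x ∈ (P : Subgroup G), x ^ p = 1) : (P : Subgroup G) ≤ H := by
  have hp : p.Prime := Fact.out
  intro x hx
  by_cases hx1 : x = 1
  · rw [hx1]; exact one_mem _
  have hox : orderOf x = p := by
    rcases (Nat.dvd_prime hp).mp (orderOf_dvd_of_pow_eq_one (hexp x hx)) with h | h
    · exact absurd (orderOf_eq_one_iff.mp h) hx1
    · exact h
  obtain ⟨y, hy⟩ := exists_prime_orderOf_dvd_card' p hdiv
  have hoy : orderOf (y : G) = p := by rw [Subgroup.orderOf_coe]; exact hy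
  obtain ⟨g, w, hw, rfl⟩ := conj_of_order_p hC (y : G) x hoy hox
  exact hHn.conj_mem w ((Subgroup.zpowers_le.mpr y.2) hw) g

theorem extra_contra {G : Type*} [Group G] [Finite G] {p : ℕ} [Fact p.Prime]
    (hC : ∀ H K : Subgroup G, IsPGroup p H → IsPGroup p K → Nat.card H = Nat.card K →
      ∃ g : G, K = H.map (MulAut.conj g).toMonoidHom) (P : Sylow p G)
    (H : Subgroup G) [H.Normal] (hsolv : Cfsg.IsPSolvable p H) (hdiv : p ∣ Nat.card H)
    (hPH : (P : Subgroup G) ≤ H)
    (hexp : ∀ x ∈ (P : Subgroup G), x ^ p = 1)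
    (Z : Subgroup G) (hZP : Z ≤ (P : Subgroup G))
    (hZc : ∀ z ∈ Z, ∀ y ∈ (P : Subgroup G), z * y = y * z)
    (hcen : ∀ z ∈ (P : Subgroup G), (∀ y ∈ (P : Subgroup G), z * y = y * z) → z ∈ Z)
    (hZcard : Nat.card Z = p) :
    (P : Subgroup G) ≤ Z := by
  have hp : p.Prime := Fact.out
  have hord : ∀ x ∈ (P : Subgroup G), x ≠ 1 → orderOf x = p := by
    intro x hx hx1
    rcases (Nat.dvd_prime hp).mp (orderOf_dvd_of_pow_eq_one (hexp x hx)) with h | h
    · exact absurd (orderOf_eq_one_iff.mp h) hx1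
    · exact h
  have hZgen : ∀ z ∈ Z, z ≠ 1 → Z ≤ Subgroup.zpowers z := by
    intro z hz hz1
    have h1 : Subgroup.zpowers z ≤ Z := Subgroup.zpowers_le.mpr hz
    have h2 : Subgroup.zpowers z = Z :=
      Subgroup.eq_of_le_of_card_ge h1 (by rw [Nat.card_zpowers, hord z (hZP hz) hz1, hZcard])
    exact h2.ge
  have hNZ : ∀ n ∈ Subgroup.normalizer ((P : Subgroup G) : Set G), ∀ z ∈ Z,
      n * z * n⁻¹ ∈ Z := by
    intro n hn z hz
    have hn' := Subgroup.mem_normalizer_iff.mp hn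
    have hninv := Subgroup.mem_normalizer_iff.mp (inv_mem hn)
    apply hcen
    · exact (hn' z).mp (hZP hz)
    · intro y hy
      have hy' : n⁻¹ * y * n ∈ (P : Subgroup G) := by
        have := (hninv y).mp hy
        simpa using this
      have := hZc z hz _ hy'
      calc n * z * n⁻¹ * y = n * (z * (n⁻¹ * y * n)) * n⁻¹ := by group
        _ = n * ((n⁻¹ * y * n) * z) * n⁻¹ := by rw [this]
        _ = y * (n * z * n⁻¹) := by group
  have hfrat : ∀ g : G, ∃ h ∈ H, ∃ n ∈ Subgroup.normalizer ((P : Subgroup G) : Set G),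
      g = h * n := by
    intro g
    have h1 : Subgroup.normalizer ((P : Subgroup G) : Set G) ⊔ H = ⊤ :=
      Sylow.normalizer_sup_eq_top' P hPH
    have hx : g ∈ ((H ⊔ Subgroup.normalizer ((P : Subgroup G) : Set G) : Subgroup G) : Set G) := by
      rw [sup_comm, h1]; trivial
    rw [Subgroup.normal_mul] at hx
    obtain ⟨h, hh, n, hn, rfl⟩ := Set.mem_mul.mp hx
    exact ⟨h, hh, n, hn, rfl⟩
  obtain ⟨z₁, hz₁Z, hz₁⟩ : ∃ z₁ ∈ Z, z₁ ≠ 1 := by
    by_contra hcon
    push Not at hcon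
    have : Z = ⊥ := (Subgroup.eq_bot_iff_forall _).mpr hcon
    rw [this, Subgroup.card_bot] at hZcard
    exact hp.one_lt.ne hZcard
  have hoz₁ : orderOf z₁ = p := hord z₁ (hZP hz₁Z) hz₁
  have hstep5 : ∀ y : G, orderOf y = p → ∃ h ∈ H, ∃ z ∈ Z, y = h * z * h⁻¹ := by
    intro y hy
    obtain ⟨g, w, hw, rfl⟩ := conj_of_order_p hC z₁ y hoz₁ hy
    have hwZ : w ∈ Z := (Subgroup.zpowers_le.mpr hz₁Z) hw
    obtain ⟨h, hh, n, hn, rfl⟩ := hfrat g
    exact ⟨h, hh, n * w * n⁻¹, hNZ n hn w hwZ, by group⟩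
  obtain ⟨K, L, hKn, hLn, hKL, hKco, m, hm1, hm⟩ := exists_section p hsolv hdiv
  have hcardL : Nat.card L = Nat.card K * p ^ m := by
    have := Subgroup.relIndex_mul_relIndex ⊥ K L bot_le hKL
    rw [Subgroup.relIndex_bot_left, Subgroup.relIndex_bot_left, hm] at this
    exact this.symm
  have hpL : p ∣ Nat.card L := by
    rw [hcardL]; exact Dvd.dvd.mul_left (dvd_pow_self p (by omega)) _
  have hZL : ∀ z ∈ Z, ∃ l ∈ L, (l : G) = z := by
    obtain ⟨l, hl⟩ := exists_prime_orderOf_dvd_card' p hpL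
    have hol : orderOf ((l : ↥H) : G) = p := by
      rw [Subgroup.orderOf_coe, Subgroup.orderOf_coe]; exact hl
    obtain ⟨h, hh, z, hz, hzeq⟩ := hstep5 _ hol
    have hz1 : z ≠ 1 := by
      rintro rfl
      rw [mul_one, mul_inv_cancel] at hzeq
      rw [hzeq, orderOf_one] at hol
      exact hp.one_lt.ne hol
    have hzL : (⟨h, hh⟩ : ↥H)⁻¹ * (l : ↥H) * ⟨h, hh⟩ ∈ L := by
      have := hLn.conj_mem (l : ↥H) l.2 (⟨h, hh⟩ : ↥H)⁻¹
      simpa using this
    have hzval : (((⟨h, hh⟩ : ↥H)⁻¹ * (l : ↥H) * ⟨h, hh⟩ : ↥H) : G) = z := by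
      simp only [Subgroup.coe_mul, Subgroup.coe_inv]
      rw [hzeq]; group
    intro z' hz'
    obtain ⟨j, rfl⟩ := Subgroup.mem_zpowers_iff.mp (hZgen z hz hz1 hz')
    refine ⟨((⟨h, hh⟩ : ↥H)⁻¹ * (l : ↥H) * ⟨h, hh⟩) ^ j, zpow_mem hzL j, ?_⟩
    rw [Subgroup.coe_zpow, hzval]
  have hstep7 : ∀ y : G, orderOf y = p → ∃ l ∈ L, (l : G) = y := by
    intro y hy
    obtain ⟨h, hh, z, hz, rfl⟩ := hstep5 y hy
    obtain ⟨l, hl, rfl⟩ := hZL z hz
    refine ⟨(⟨h, hh⟩ : ↥H) * l * (⟨h, hh⟩ : ↥H)⁻¹, hLn.conj_mem l hl _, ?_⟩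
    simp
  have hPL : ((P.subtype hPH : Sylow p ↥H) : Subgroup ↥H) ≤ L := by
    intro a ha
    rw [Sylow.coe_subtype, Subgroup.mem_subgroupOf] at ha
    by_cases ha1 : (a : G) = 1
    · have : a = 1 := Subtype.ext ha1
      rw [this]; exact one_mem _
    · obtain ⟨l, hl, hla⟩ := hstep7 (a : G) (hord _ ha ha1)
      have : l = a := Subtype.ext hla
      rw [← this]; exact hl
  intro x hx
  by_cases hx1 : x = 1
  · rw [hx1]; exact one_mem _
  obtain ⟨g, w, hw, hxeq⟩ := conj_of_order_p hC z₁ x hoz₁ (hord x hx hx1)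
  have hwZ : w ∈ Z := (Subgroup.zpowers_le.mpr hz₁Z) hw
  obtain ⟨h, hh, n₁, hn₁, rfl⟩ := hfrat g
  obtain ⟨k, hk, n, hn, hkn⟩ := frattini_KN p (P.subtype hPH) K L hKL hKco m hm hPL ⟨h, hh⟩
  have hnG : (n : G) ∈ Subgroup.normalizer ((P : Subgroup G) : Set G) := by
    apply mem_normalizer_of_conj_mem
    intro y hy
    have hn' := Subgroup.mem_normalizer_iff.mp hn
    have h1 : (⟨y, hPH hy⟩ : ↥H) ∈ ((P.subtype hPH : Sylow p ↥H) : Subgroup ↥H) := by
      rw [Sylow.coe_subtype, Subgroup.mem_subgroupOf]; exact hy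
    have h2 := (hn' ⟨y, hPH hy⟩).mp h1
    rw [Sylow.coe_subtype, Subgroup.mem_subgroupOf] at h2
    simpa using h2
  have hheq : h = (k : G) * (n : G) := by
    have := congrArg Subtype.val hkn
    simpa using this
  obtain ⟨w', hw'⟩ : ∃ w', w' = ((n : G) * n₁) * w * ((n : G) * n₁)⁻¹ := ⟨_, rfl⟩
  have hw'Z : w' ∈ Z := by rw [hw']; exact hNZ _ (mul_mem hnG hn₁) w hwZ
  have hxk : x = (k : G) * w' * (k : G)⁻¹ := by
    rw [hxeq, hheq, hw']; group
  have hcP : x * w'⁻¹ ∈ (P : Subgroup G) := mul_mem hx (inv_mem (hZP hw'Z))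
  have hcK : ∃ k' ∈ K, (k' : G) = x * w'⁻¹ := by
    refine ⟨k * ((⟨w', hPH (hZP hw'Z)⟩ : ↥H) * k⁻¹ * (⟨w', hPH (hZP hw'Z)⟩ : ↥H)⁻¹),
      mul_mem hk (hKn.conj_mem _ (inv_mem hk) _), ?_⟩
    rw [hxk]; simp [mul_assoc]
  obtain ⟨k', hk', hk'eq⟩ := hcK
  have hc1 : x * w'⁻¹ = 1 := by
    have h1 : orderOf (x * w'⁻¹) ∣ Nat.card K := by
      rw [← hk'eq, Subgroup.orderOf_coe]
      have h2 : orderOf (⟨k', hk'⟩ : ↥K) ∣ Nat.card K := orderOf_dvd_natCard _
      rwa [← Subgroup.orderOf_coe] at h2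
    obtain ⟨j, hj⟩ := P.isPGroup' ⟨x * w'⁻¹, hcP⟩
    have h3 : orderOf (x * w'⁻¹) ∣ p ^ j := by
      apply orderOf_dvd_of_pow_eq_one
      exact congrArg Subtype.val hj
    have h4 := Nat.eq_one_of_dvd_coprimes (Nat.Coprime.pow_right j hKco) h1 h3
    exact orderOf_eq_one_iff.mp h4
  rw [mul_inv_eq_one] at hc1
  rw [hc1]; exact hw'Z

/-- Let p be an odd prime and G a finite group in which any two p-subgroups of the same order are conjugate, with Sylow p-subgroup P. If H is a normal p-solvable subgroup of G whose order is divisible by p, then P is abelian, and either P ≤ H or P is cyclic. -/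
theorem result {G : Type*} [Group G] [Finite G]
    {p : ℕ} [Fact p.Prime] (hp : p ≠ 2) (hC : ∀ H K : Subgroup G, IsPGroup p H → IsPGroup p K → Nat.card H = Nat.card K →
      ∃ g : G, K = H.map (MulAut.conj g).toMonoidHom) (P : Sylow p G)
    (H : Subgroup G) [H.Normal] (hsolv : Cfsg.IsPSolvable p H) (hdiv : p ∣ Nat.card H) :
    IsMulCommutative P ∧ ((P : Subgroup G) ≤ H ∨ IsCyclic P) := by
  have hpr : p.Prime := Fact.out
  rcases Cfsg.Agent.S4023.result hC P with h | h | ⟨h2, _⟩ | ⟨_, hnc, hcard, hexp⟩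
  · refine ⟨?_, Or.inr h⟩
    obtain ⟨g, hg⟩ := h.exists_generator
    refine ⟨⟨fun a b => ?_⟩⟩
    obtain ⟨i, rfl⟩ := Subgroup.mem_zpowers_iff.mp (hg a)
    obtain ⟨k, rfl⟩ := Subgroup.mem_zpowers_iff.mp (hg b)
    rw [← zpow_add, ← zpow_add, add_comm]
  · exact ⟨h.1, Or.inl (sylow_le_of_exp hC P H hdiv h.2)⟩
  · exact absurd h2 hp
  · exfalso
    have hexp' : ∀ x ∈ (P : Subgroup G), x ^ p = 1 := by
      intro x hx
      have h1 := Monoid.pow_exponent_eq_one (⟨x, hx⟩ : ↥(P : Subgroup G))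
      have h2 : Monoid.exponent ↥(P : Subgroup G) = p := hexp
      rw [h2] at h1
      exact congrArg Subtype.val h1
    have hPH := sylow_le_of_exp hC P H hdiv hexp'
    have hnc' : ¬ ∀ a b : ↥(P : Subgroup G), a * b = b * a := fun hh => hnc ⟨⟨hh⟩⟩
    have hcard' : Nat.card ↥(P : Subgroup G) = p ^ 3 := hcard
    have hZ := card_center (X := ↥(P : Subgroup G)) p hcard' hnc'
    have hZ' : Nat.card ((Subgroup.center ↥(P : Subgroup G)).map (P : Subgroup G).subtype) = p := by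
      rw [Subgroup.card_map_of_injective (Subgroup.subtype_injective _)]; exact hZ
    have hle := extra_contra hC P H hsolv hdiv hPH hexp'
      ((Subgroup.center ↥(P : Subgroup G)).map (P : Subgroup G).subtype)
      (Subgroup.map_subtype_le _) ?_ ?_ hZ'
    · have h1 := Subgroup.card_le_of_le hle
      rw [hZ', hcard'] at h1
      have h2 : p ^ 1 < p ^ 3 := Nat.pow_lt_pow_right hpr.one_lt (by norm_num)
      rw [pow_one] at h2
      omega
    · rintro z ⟨c, hc, rfl⟩ y hy
      have h1 := Subgroup.mem_center_iff.mp hc ⟨y, hy⟩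
      exact (congrArg Subtype.val h1).symm
    · intro z hz hzc
      refine ⟨⟨z, hz⟩, ?_, rfl⟩
      apply Subgroup.mem_center_iff.mpr
      intro y
      exact Subtype.ext (hzc y y.2).symm

end Cfsg.Agent.S4024
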