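import Mathlib
import Cfsg.Statements.S4027
import Cfsg.Agent.Lib.Helper72.TwoClosed

set_option autoImplicit false
open Cfsg
open Cfsg.Agent.Lib.Helper72

namespace Cfsg.Agent.S4027

theorem result {G : Type*} [Group G] [Finite G]
    (hirr : ∀ x : G, (∀ r : ℕ, r.Prime → r ∣ orderOf x → r ≠ 2) →
      Subgroup.normalizer ((Subgroup.zpowers x : Subgroup G) : Set G) ≤ Subgroup.centralizer {x}) (P : Sylow 2 G) :
    (P : Subgroup G).Normal := by
  apply sylow_two_normal_of_noRealOdd
  intro x g hodd hg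
  apply eq_one_of_odd_of_eq_inv hodd
  have h1 : ∀ r : ℕ, r.Prime → r ∣ orderOf x → r ≠ 2 := by
    rintro r hr hrx rfl
    exact (Nat.not_even_iff_odd.2 hodd) (even_iff_two_dvd.2 hrx)
  have hgn : g ∈ Subgroup.normalizer ((Subgroup.zpowers x : Subgroup G) : Set G) := by
    apply mem_normalizer_zpowers_of_conj_mem
    rw [hg]; exact Subgroup.inv_mem _ (Subgroup.mem_zpowers x)
  have hc := mem_centralizer_singleton_iff'.1 (hirr x h1 hgn)
  rw [← hg, ← hc, mul_inv_cancel_right]

end Cfsg.Agent.S4027
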