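import Mathlib
import Cfsg.Statements.S4028
import Cfsg.Agent.Lib.Helper72.Basic

set_option autoImplicit false
open Cfsg
open Cfsg.Agent.Lib.Helper72

namespace Cfsg.Agent.S4028

theorem conj_pow_iter {G : Type*} [Group G] {x t : G} {j : ℕ} (h : t * x * t⁻¹ = x ^ j) (i : ℕ) :
    t ^ i * x * (t ^ i)⁻¹ = x ^ (j ^ i) := by
  induction i with
  | zero => simp
  | succ i ih =>
    have e : t ^ (i + 1) * x * (t ^ (i + 1))⁻¹ = t * (t ^ i * x * (t ^ i)⁻¹) * t⁻¹ := by
      rw [pow_succ']; group
    rw [e, ih, ← conj_pow, h, ← pow_mul, pow_succ, mul_comm]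

theorem result {G : Type*} [Group G] [Finite G] (P : Sylow 2 G) :
    (∀ x : G, (∀ r : ℕ, r.Prime → r ∣ orderOf x → r = 2) →
      Subgroup.normalizer ((Subgroup.zpowers x : Subgroup G) : Set G) ≤ Subgroup.centralizer {x}) ↔
    (∀ y : ↥(P : Subgroup G), Subgroup.normalizer ((Subgroup.zpowers y : Subgroup ↥(P : Subgroup G)) : Set ↥(P : Subgroup G)) ≤
        Subgroup.centralizer {y}) := by
  have h2 : Fact (Nat.Prime 2) := ⟨Nat.prime_two⟩
  constructor
  · intro h y g hg
    rw [mem_centralizer_singleton_iff']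
    have hy2 : ∀ r : ℕ, r.Prime → r ∣ orderOf (y : G) → r = 2 := by
      intro r hr hry
      obtain ⟨n, hn⟩ := (IsPGroup.iff_card.1 P.isPGroup')
      have : orderOf (y : G) ∣ 2 ^ n := by
        rw [← hn, Subgroup.orderOf_coe]; exact orderOf_dvd_natCard y
      exact (Nat.prime_dvd_prime_iff_eq hr Nat.prime_two).1 (hr.dvd_of_dvd_pow (hry.trans this))
    have hgn : (g : G) ∈ Subgroup.normalizer ((Subgroup.zpowers (y : G) : Subgroup G) : Set G) := by
      apply mem_normalizer_zpowers_of_conj_mem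
      obtain ⟨j, hj⟩ := Subgroup.mem_zpowers_iff.1 (conj_mem_zpowers_of_mem_normalizer hg)
      refine Subgroup.mem_zpowers_iff.2 ⟨j, ?_⟩
      have := congrArg Subtype.val hj
      simpa using this
    have := mem_centralizer_singleton_iff'.1 (h (y : G) hy2 hgn)
    exact Subtype.ext (by simpa using this)
  · intro h x hx t ht
    rw [mem_centralizer_singleton_iff']
    have hn0 : orderOf x ≠ 0 := (orderOf_pos x).ne'
    have hox : orderOf x = 2 ^ (orderOf x).primeFactorsList.length :=
      Nat.eq_prime_pow_of_unique_prime_dvd hn0 (fun {d} hd hdx => hx d hd hdx)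
    set a := (orderOf x).primeFactorsList.length with ha
    -- t x t⁻¹ = x ^ j
    have hconj := conj_mem_zpowers_of_mem_normalizer ht
    rw [← mem_powers_iff_mem_zpowers] at hconj
    obtain ⟨j, hj⟩ := (Submonoid.mem_powers_iff _ _).1 hconj
    have hj' : t * x * t⁻¹ = x ^ j := hj.symm
    -- j is coprime to the order of x
    have hjc : Nat.Coprime j (orderOf x) := by
      have h1 : orderOf (x ^ j) = orderOf x := by rw [← hj', orderOf_conj_eq]
      rw [orderOf_pow, Nat.div_eq_self] at h1
      rcases h1 with h1 | h1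
      · exact absurd h1 hn0
      · rw [Nat.coprime_comm]; exact h1
    -- t ^ φ(orderOf x) commutes with x
    have hc1 : Commute (t ^ Nat.totient (orderOf x)) x := by
      have h1 := conj_pow_iter hj' (Nat.totient (orderOf x))
      have h2 : x ^ j ^ Nat.totient (orderOf x) = x ^ 1 :=
        pow_eq_pow_iff_modEq.2 (Nat.ModEq.pow_totient hjc)
      rw [h2, pow_one] at h1
      have : t ^ Nat.totient (orderOf x) * x = x * t ^ Nat.totient (orderOf x) := by
        calc t ^ Nat.totient (orderOf x) * x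
            = (t ^ Nat.totient (orderOf x) * x * (t ^ Nat.totient (orderOf x))⁻¹) *
                t ^ Nat.totient (orderOf x) := by group
          _ = x * t ^ Nat.totient (orderOf x) := by rw [h1]
      exact this
    -- the totient is a power of two
    obtain ⟨b, hb⟩ : ∃ b : ℕ, Nat.totient (orderOf x) = 2 ^ b := by
      rw [hox]
      rcases Nat.eq_zero_or_pos a with h0 | h0
      · rw [h0]; exact ⟨0, by simp⟩
      · refine ⟨a - 1, ?_⟩
        rw [Nat.totient_prime_pow Nat.prime_two h0]; simp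
    rw [hb] at hc1
    -- odd part of the order of t
    have htn0 : orderOf t ≠ 0 := (orderOf_pos t).ne'
    set m := orderOf t / 2 ^ (orderOf t).factorization 2 with hm
    have hmcop : Nat.Coprime m (2 ^ b) :=
      Nat.Coprime.pow_right _ (Nat.coprime_ordCompl Nat.prime_two htn0).symm
    -- reduce to s = t ^ m
    suffices hs : Commute (t ^ m) x by
      have hbez := Nat.gcd_eq_gcd_ab m (2 ^ b)
      rw [hmcop] at hbez
      have ht : t = (t ^ m) ^ (Nat.gcdA m (2 ^ b)) * (t ^ 2 ^ b) ^ (Nat.gcdB m (2 ^ b)) := by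
        rw [← zpow_natCast, ← zpow_natCast, ← zpow_mul, ← zpow_mul, ← zpow_add, ← hbez]
        simp
      have : Commute t x := by
        rw [ht]; exact (hs.zpow_left _).mul_left (hc1.zpow_left _)
      exact this.eq.symm
    -- s is a 2-element normalizing ⟨x⟩
    have hsn : t ^ m ∈ Subgroup.normalizer ((Subgroup.zpowers x : Subgroup G) : Set G) :=
      Subgroup.pow_mem _ ht _
    have hs2 : IsPGroup 2 (Subgroup.zpowers (t ^ m)) := by
      apply IsPGroup.of_card (n := (orderOf t).factorization 2)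
      rw [Nat.card_zpowers, orderOf_pow_of_dvd]
      · exact Nat.div_div_self (Nat.ordProj_dvd _ _) htn0
      · exact (Nat.div_pos (Nat.le_of_dvd (Nat.pos_of_ne_zero htn0) (Nat.ordProj_dvd _ _))
          (pow_pos (by norm_num) _)).ne'
      · exact Nat.div_dvd_of_dvd (Nat.ordProj_dvd _ _)
    have hx2 : IsPGroup 2 (Subgroup.zpowers x) :=
      IsPGroup.of_card (n := a) (by rw [Nat.card_zpowers]; exact hox)
    have hQ : IsPGroup 2 (Subgroup.zpowers (t ^ m) ⊔ Subgroup.zpowers x : Subgroup G) :=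
      IsPGroup.to_sup_of_normal_right' hs2 hx2 (Subgroup.zpowers_le.2 hsn)
    have hidx : ¬ 2 ∣ (P : Subgroup G).relIndex ⊤ := by
      rw [Subgroup.relIndex_top_right]; exact P.not_dvd_index
    obtain ⟨g, -, hg⟩ := exists_conj_mem_of_isPGroup (le_top) P.isPGroup' hQ hidx
    have hyP : g⁻¹ * x * g ∈ (P : Subgroup G) :=
      hg x (Subgroup.mem_sup_right (Subgroup.mem_zpowers x))
    have hsP : g⁻¹ * t ^ m * g ∈ (P : Subgroup G) :=
      hg (t ^ m) (Subgroup.mem_sup_left (Subgroup.mem_zpowers _))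
    have hnP : (⟨g⁻¹ * t ^ m * g, hsP⟩ : (P : Subgroup G)) ∈
        Subgroup.normalizer ((Subgroup.zpowers (⟨g⁻¹ * x * g, hyP⟩ : (P : Subgroup G)) :
          Subgroup (P : Subgroup G)) : Set (P : Subgroup G)) := by
      apply mem_normalizer_zpowers_of_conj_mem
      obtain ⟨i, hi⟩ := Subgroup.mem_zpowers_iff.1 (conj_mem_zpowers_of_mem_normalizer hsn)
      refine Subgroup.mem_zpowers_iff.2 ⟨i, ?_⟩
      apply Subtype.ext
      simp only [Subgroup.coe_zpow, Subgroup.coe_mul, Subgroup.coe_inv]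
      have e : g⁻¹ * t ^ m * g * (g⁻¹ * x * g) * (g⁻¹ * t ^ m * g)⁻¹ =
          g⁻¹ * (t ^ m * x * (t ^ m)⁻¹) * g := by group
      rw [e, ← hi]
      have := conj_zpow (a := g⁻¹) (b := x) (i := i)
      simpa using this
    have hcP := mem_centralizer_singleton_iff'.1 (h _ hnP)
    have hcG := congrArg Subtype.val hcP
    simp only [Subgroup.coe_mul] at hcG
    have : t ^ m * x = x * t ^ m := by
      have e1 : t ^ m * x = g * (g⁻¹ * t ^ m * g * (g⁻¹ * x * g)) * g⁻¹ := by group
      have e2 : x * t ^ m = g * (g⁻¹ * x * g * (g⁻¹ * t ^ m * g)) * g⁻¹ := by group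
      rw [e1, e2, hcG]
    exact this

end Cfsg.Agent.S4028
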