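import Mathlib
import Cfsg.Statements.S4029
import Cfsg.Agent.Lib.Helper72.Basic
import Cfsg.Agent.Lib.Helper72.Frattini

set_option autoImplicit false
open Cfsg
open Cfsg.Agent.Lib.Helper72

namespace Cfsg.Agent.S4029

/-- A class-equation type bound: pairs `(x, g)` with `x` in a set `T` and `g` centralizing `x`
are at most (number of classes meeting `T`) times the group order. -/
theorem card_commuting_le {G : Type*} [Group G] [Finite G] (T : Set G) :
    Nat.card {p : G × G // p.1 ∈ T ∧ p.2 * p.1 = p.1 * p.2} ≤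
      Nat.card {c : ConjClasses G // ∃ x ∈ T, ConjClasses.mk x = c} * Nat.card G := by
  classical
  -- representatives and conjugators
  have hrep : ∀ x : G, ∃ k : G, k * (Quotient.out (ConjClasses.mk x)) * k⁻¹ = x := by
    intro x
    have h1 : ConjClasses.mk (Quotient.out (ConjClasses.mk x)) = ConjClasses.mk x :=
      Quotient.out_eq _
    exact isConj_iff.1 (ConjClasses.mk_eq_mk_iff_isConj.1 h1)
  choose k hk using hrep
  rw [← Nat.card_prod]
  apply Nat.card_le_card_of_injective
    (fun p : {p : G × G // p.1 ∈ T ∧ p.2 * p.1 = p.1 * p.2} =>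
      ((⟨ConjClasses.mk p.1.1, p.1.1, p.2.1, rfl⟩ :
        {c : ConjClasses G // ∃ x ∈ T, ConjClasses.mk x = c}), p.1.2 * k p.1.1))
  rintro ⟨⟨x, g⟩, hxT, hgx⟩ ⟨⟨x', g'⟩, hxT', hgx'⟩ h
  simp only [Prod.mk.injEq, Subtype.mk.injEq] at h
  obtain ⟨hc, hu⟩ := h
  have hx : x = (g * k x) * Quotient.out (ConjClasses.mk x) * (g * k x)⁻¹ := by
    have e : (g * k x) * Quotient.out (ConjClasses.mk x) * (g * k x)⁻¹ =
        g * (k x * Quotient.out (ConjClasses.mk x) * (k x)⁻¹) * g⁻¹ := by group
    rw [e, hk x, hgx, mul_inv_cancel_right]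
  have hx' : x' = (g' * k x') * Quotient.out (ConjClasses.mk x') * (g' * k x')⁻¹ := by
    have e : (g' * k x') * Quotient.out (ConjClasses.mk x') * (g' * k x')⁻¹ =
        g' * (k x' * Quotient.out (ConjClasses.mk x') * (k x')⁻¹) * g'⁻¹ := by group
    rw [e, hk x', hgx', mul_inv_cancel_right]
  have hxx : x = x' := by
    rw [hx, hx', hc, hu]
  subst hxx
  have hgg : g = g' := mul_right_cancel hu
  subst hgg
  rfl

theorem card_sq_le {P : Type*} [Group P] [Fintype P] [DecidableEq P] (Φ : Subgroup P)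
    (hΦ : ∀ g : P, g ^ 2 ∈ Φ) :
    Nat.card P ^ 2 ≤ Nat.card Φ * Nat.card {pq : P × P // pq.1 ^ 2 = pq.2 ^ 2} := by
  set W : Finset P := Finset.univ.image (fun g : P => g ^ 2) with hW
  set r : P → ℕ := fun w => (Finset.univ.filter (fun g : P => g ^ 2 = w)).card with hr
  have H1 : ∑ w ∈ W, r w = Fintype.card P := by
    rw [← Finset.card_univ, Finset.card_eq_sum_card_image (fun g : P => g ^ 2) Finset.univ]
  have H2 : Nat.card {pq : P × P // pq.1 ^ 2 = pq.2 ^ 2} = ∑ w ∈ W, r w ^ 2 := by
    rw [Nat.card_eq_fintype_card, Fintype.card_subtype]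
    rw [Finset.card_eq_sum_card_fiberwise (f := fun pq : P × P => pq.1 ^ 2) (t := W)]
    · apply Finset.sum_congr rfl
      intro w _
      rw [pow_two, ← Finset.card_product]
      congr 1
      ext ⟨g, h⟩
      simp only [Finset.mem_filter, Finset.mem_univ, true_and, Finset.mem_product]
      constructor
      · rintro ⟨h1, h2⟩; exact ⟨h2, by rw [← h1, h2]⟩
      · rintro ⟨h1, h2⟩; exact ⟨by rw [h1, h2], h1⟩
    · intro pq _
      simp [hW]
  have H3 : (∑ w ∈ W, r w) ^ 2 ≤ W.card * ∑ w ∈ W, r w ^ 2 := sq_sum_le_card_mul_sum_sq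
  have H4 : W.card ≤ Nat.card Φ := by
    have hsub : (↑W : Set P) ⊆ (Φ : Set P) := by
      intro w hw
      rw [Finset.mem_coe, hW, Finset.mem_image] at hw
      obtain ⟨g, -, rfl⟩ := hw
      exact hΦ g
    have := Set.ncard_le_ncard hsub (Set.toFinite _)
    rw [Set.ncard_coe_finset] at this
    rw [← Nat.card_coe_set_eq] at this
    exact this
  rw [H2, Nat.card_eq_fintype_card (α := P), ← H1]
  exact H3.trans (Nat.mul_le_mul_right _ H4)

theorem result {P : Type*} [Group P] [Finite P] (hP : IsPGroup 2 P)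
    (hirr : ∀ y : P, Subgroup.normalizer ((Subgroup.zpowers y : Subgroup P) : Set P) ≤ Subgroup.centralizer {y}) :
    Nat.card (P ⧸ frattini P) ≤ Nat.card {c : ConjClasses P // ∃ y : P, ConjClasses.mk y = c ∧ orderOf y = 2} + 1 ∧
    Nat.card (P ⧸ frattini P) ≤ Nat.card (Subgroup.closure {y : P | orderOf y = 2}) := by
  classical
  have h2 : Fact (Nat.Prime 2) := ⟨Nat.prime_two⟩
  have hfin : Fintype P := Fintype.ofFinite P
  set s := Nat.card {c : ConjClasses P // ∃ y : P, ConjClasses.mk y = c ∧ orderOf y = 2} with hs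
  -- step 1 : counting pairs with equal squares
  have hA := card_sq_le (frattini P) (fun g => pow_mem_frattini hP g)
  -- step 2 : pairs with equal squares inject into commuting pairs (x, g) with x * x = 1
  have hB : Nat.card {pq : P × P // pq.1 ^ 2 = pq.2 ^ 2} ≤
      Nat.card {p : P × P // p.1 ∈ {x : P | x * x = 1} ∧ p.2 * p.1 = p.1 * p.2} := by
    have key : ∀ g h : P, g ^ 2 = h ^ 2 → (g⁻¹ * h) * (g⁻¹ * h) = 1 ∧ g * (g⁻¹ * h) = (g⁻¹ * h) * g := by
      intro g h hgh
      have h1 : g * (g⁻¹ * h) * g⁻¹ = (g⁻¹ * h)⁻¹ := by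
        have e1 : g * (g⁻¹ * h) * g⁻¹ = h * g⁻¹ := by group
        have e2 : (g⁻¹ * h)⁻¹ = h⁻¹ * g := by group
        rw [e1, e2]
        have : h * g⁻¹ = h⁻¹ * (h ^ 2) * g⁻¹ := by rw [pow_two]; group
        rw [this, ← hgh, pow_two]; group
      have hn : g ∈ Subgroup.normalizer ((Subgroup.zpowers (g⁻¹ * h) : Subgroup P) : Set P) := by
        apply mem_normalizer_zpowers_of_conj_mem
        rw [h1]; exact Subgroup.inv_mem _ (Subgroup.mem_zpowers _)
      have hc := mem_centralizer_singleton_iff'.1 (hirr _ hn)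
      refine ⟨?_, hc.symm⟩
      have h3 : g⁻¹ * h = (g⁻¹ * h)⁻¹ := by
        rw [← h1, ← hc, mul_inv_cancel_right]
      nth_rewrite 2 [h3]
      exact mul_inv_cancel _
    apply Nat.card_le_card_of_injective
      (fun pq : {pq : P × P // pq.1 ^ 2 = pq.2 ^ 2} =>
        (⟨(pq.1.1⁻¹ * pq.1.2, pq.1.1), (key _ _ pq.2).1, (key _ _ pq.2).2⟩ :
          {p : P × P // p.1 ∈ {x : P | x * x = 1} ∧ p.2 * p.1 = p.1 * p.2}))
    rintro ⟨⟨g, h⟩, hgh⟩ ⟨⟨g', h'⟩, hgh'⟩ heq
    simp only [Subtype.mk.injEq, Prod.mk.injEq] at heq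
    obtain ⟨h1, h2'⟩ := heq
    subst h2'
    have : h = h' := mul_left_cancel h1
    subst this
    rfl
  -- step 3 : class counting
  have hC := card_commuting_le {x : P | x * x = 1}
  -- step 4 : the classes of elements with x * x = 1
  have hD : Nat.card {c : ConjClasses P // ∃ x ∈ {x : P | x * x = 1}, ConjClasses.mk x = c} ≤ s + 1 := by
    have hsub : {c : ConjClasses P | ∃ x ∈ {x : P | x * x = 1}, ConjClasses.mk x = c} ⊆
        insert (ConjClasses.mk 1) {c : ConjClasses P | ∃ y : P, ConjClasses.mk y = c ∧ orderOf y = 2} := by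
      rintro c ⟨x, hx, rfl⟩
      by_cases hx1 : x = 1
      · left; rw [hx1]
      · right
        refine ⟨x, rfl, orderOf_eq_prime (by rw [pow_two]; exact hx) hx1⟩
    have h1 := Set.ncard_le_ncard hsub (Set.toFinite _)
    have h2' := Set.ncard_insert_le (ConjClasses.mk (1 : P))
      {c : ConjClasses P | ∃ y : P, ConjClasses.mk y = c ∧ orderOf y = 2}
    rw [← Nat.card_coe_set_eq] at h1
    have h3 : Set.ncard {c : ConjClasses P | ∃ y : P, ConjClasses.mk y = c ∧ orderOf y = 2} = s := by
      rw [hs, ← Nat.card_coe_set_eq]; rfl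
    rw [h3] at h2'
    exact h1.trans h2'
  -- assemble
  have hN : Nat.card P = Nat.card (P ⧸ frattini P) * Nat.card (frattini P) :=
    Subgroup.card_eq_card_quotient_mul_card_subgroup (frattini P)
  have hNpos : 0 < Nat.card P := Nat.card_pos
  have hΦpos : 0 < Nat.card (frattini P) := Nat.card_pos
  have claim1 : Nat.card (P ⧸ frattini P) ≤ s + 1 := by
    have h1 : Nat.card P ^ 2 ≤ Nat.card (frattini P) * ((s + 1) * Nat.card P) := by
      refine hA.trans (Nat.mul_le_mul_left _ (hB.trans (hC.trans (Nat.mul_le_mul_right _ hD))))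
    have h2' : Nat.card P ≤ Nat.card (frattini P) * (s + 1) := by
      have : Nat.card P * Nat.card P ≤ (Nat.card (frattini P) * (s + 1)) * Nat.card P := by
        rw [← pow_two]; rw [mul_assoc]; exact h1
      exact Nat.le_of_mul_le_mul_right this hNpos
    rw [hN, mul_comm] at h2'
    exact Nat.le_of_mul_le_mul_left h2' hΦpos
  refine ⟨claim1, claim1.trans ?_⟩
  -- the involutions generate a subgroup with at least s + 1 elements
  have hch : ∀ c : {c : ConjClasses P // ∃ y : P, ConjClasses.mk y = c ∧ orderOf y = 2},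
      ∃ y : P, ConjClasses.mk y = c.1 ∧ orderOf y = 2 := fun c => c.2
  choose y hy1 hy2 using hch
  rw [hs, ← Finite.card_option]
  apply Nat.card_le_card_of_injective
    (fun o : Option {c : ConjClasses P // ∃ y : P, ConjClasses.mk y = c ∧ orderOf y = 2} =>
      match o with
      | none => (1 : Subgroup.closure {y : P | orderOf y = 2})
      | some c => ⟨y c, Subgroup.subset_closure (hy2 c)⟩)
  rintro (_ | c) (_ | c') h
  · rfl
  · exfalso
    have h1 : (1 : P) = y c' := congrArg Subtype.val h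
    have := hy2 c'
    rw [← h1, orderOf_one] at this
    exact absurd this (by norm_num)
  · exfalso
    have h1 : y c = (1 : P) := congrArg Subtype.val h
    have := hy2 c
    rw [h1, orderOf_one] at this
    exact absurd this (by norm_num)
  · have h1 : y c = y c' := congrArg Subtype.val h
    congr 1
    apply Subtype.ext
    rw [← hy1 c, ← hy1 c', h1]

end Cfsg.Agent.S4029
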