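import Mathlib
import Cfsg.Statements.S4032
import Cfsg.Agent.Lib.Helper72.Basic

set_option autoImplicit false
open Cfsg
open Cfsg.Agent.Lib.Helper72

namespace Cfsg.Agent.S4032

theorem primeCase {G : Type*} [Group G] [Finite G] (π : Set ℕ)
    (hirr : ∀ x : G, (∀ r : ℕ, r.Prime → r ∣ orderOf x → r ∈ π) →
      Subgroup.normalizer ((Subgroup.zpowers x : Subgroup G) : Set G) ≤ Subgroup.centralizer {x})
    (N : Subgroup G) [N.Normal] (hN : ∀ r : ℕ, r.Prime → r ∣ Nat.card N → r ∉ π)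
    {p : ℕ} (hp : p.Prime) (hpπ : p ∈ π) (y : G ⧸ N) (k : ℕ) (hy : y ^ p ^ k = 1) (g : G ⧸ N)
    (hg : g ∈ Subgroup.normalizer ((Subgroup.zpowers y : Subgroup (G ⧸ N)) : Set (G ⧸ N))) :
    Commute g y := by
  have : Fact p.Prime := ⟨hp⟩
  obtain ⟨x, rfl, a, hxa⟩ := exists_lift_pow_eq_one N hp y k hy
  obtain ⟨t, rfl⟩ := QuotientGroup.mk_surjective g
  have hox : orderOf x ∣ p ^ a := orderOf_dvd_of_pow_eq_one hxa
  have hπx : ∀ r : ℕ, r.Prime → r ∣ orderOf x → r ∈ π := by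
    intro r hr hrx
    have : r = p := (Nat.prime_dvd_prime_iff_eq hr hp).1 (hr.dvd_of_dvd_pow (hrx.trans hox))
    rw [this]; exact hpπ
  have hNx := hirr x hπx
  set M : Subgroup G := (Subgroup.zpowers (x : G ⧸ N)).comap (QuotientGroup.mk' N) with hM
  have hYM : Subgroup.zpowers (t * x * t⁻¹) ≤ M := by
    rw [Subgroup.zpowers_le, hM, Subgroup.mem_comap]
    have := conj_mem_zpowers_of_mem_normalizer hg
    simpa using this
  have hXM : Subgroup.zpowers x ≤ M := by
    rw [Subgroup.zpowers_le, hM, Subgroup.mem_comap]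
    exact Subgroup.mem_zpowers _
  obtain ⟨a', -, ha'⟩ := (Nat.dvd_prime_pow hp).1 hox
  have hX : IsPGroup p (Subgroup.zpowers x) := IsPGroup.of_card (n := a') (by rw [Nat.card_zpowers, ha'])
  have hY : IsPGroup p (Subgroup.zpowers (t * x * t⁻¹)) :=
    IsPGroup.of_card (n := a') (by rw [Nat.card_zpowers, orderOf_conj_eq, ha'])
  have hidx : ¬ p ∣ (Subgroup.zpowers x).relIndex M := by
    have h1 : (Subgroup.zpowers x).relIndex M * M.index = (Subgroup.zpowers x).index :=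
      Subgroup.relIndex_mul_index hXM
    have h2 : M.index = (Subgroup.zpowers (x : G ⧸ N)).index :=
      Subgroup.index_comap_of_surjective _ (QuotientGroup.mk'_surjective N)
    have h3 : Nat.card (Subgroup.zpowers x) * (Subgroup.zpowers x).index = Nat.card G :=
      Subgroup.card_mul_index _
    have h4 : Nat.card (Subgroup.zpowers (x : G ⧸ N)) * (Subgroup.zpowers (x : G ⧸ N)).index =
        Nat.card (G ⧸ N) := Subgroup.card_mul_index _
    have h5 : Nat.card N * Nat.card (G ⧸ N) = Nat.card G := by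
      rw [← Subgroup.index_eq_card, Subgroup.card_mul_index]
    rw [Nat.card_zpowers] at h3 h4
    obtain ⟨c, hc⟩ : orderOf (x : G ⧸ N) ∣ orderOf x := orderOf_map_dvd (QuotientGroup.mk' N) x
    have hi0 : 0 < (Subgroup.zpowers (x : G ⧸ N)).index := Nat.pos_of_ne_zero Subgroup.index_ne_zero_of_finite
    have ho0 : 0 < orderOf (x : G ⧸ N) := orderOf_pos _
    have key : (Subgroup.zpowers x).relIndex M * c = Nat.card N := by
      have e1 : orderOf (x : G ⧸ N) * (Subgroup.zpowers (x : G ⧸ N)).index *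
          ((Subgroup.zpowers x).relIndex M * c) =
          orderOf (x : G ⧸ N) * (Subgroup.zpowers (x : G ⧸ N)).index * Nat.card N := by
        calc orderOf (x : G ⧸ N) * (Subgroup.zpowers (x : G ⧸ N)).index *
              ((Subgroup.zpowers x).relIndex M * c)
            = (orderOf (x : G ⧸ N) * c) * ((Subgroup.zpowers x).relIndex M * M.index) := by
              rw [h2]; ring
          _ = Nat.card G := by rw [← hc, h1, h3]
          _ = orderOf (x : G ⧸ N) * (Subgroup.zpowers (x : G ⧸ N)).index * Nat.card N := by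
              rw [h4, ← h5, mul_comm]
      exact Nat.eq_of_mul_eq_mul_left (Nat.mul_pos ho0 hi0) e1
    intro hdvd
    exact hN p hp (key ▸ Dvd.dvd.mul_right hdvd c) hpπ
  obtain ⟨m, hmM, hm⟩ := exists_conj_mem_of_isPGroup hYM hX hY hidx
  have hs : m⁻¹ * t ∈ Subgroup.normalizer ((Subgroup.zpowers x : Subgroup G) : Set G) := by
    apply mem_normalizer_zpowers_of_conj_mem
    have := hm (t * x * t⁻¹) (Subgroup.mem_zpowers _)
    have e : m⁻¹ * t * x * (m⁻¹ * t)⁻¹ = m⁻¹ * (t * x * t⁻¹) * m := by group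
    rw [e]; exact this
  have hcomm : x * (m⁻¹ * t) = m⁻¹ * t * x := mem_centralizer_singleton_iff'.1 (hNx hs)
  have hmz : (m : G ⧸ N) ∈ Subgroup.zpowers (x : G ⧸ N) := hmM
  obtain ⟨j, hj⟩ := Subgroup.mem_zpowers_iff.1 hmz
  have hcq : (x : G ⧸ N) * ((m : G ⧸ N)⁻¹ * (t : G ⧸ N)) = (m : G ⧸ N)⁻¹ * (t : G ⧸ N) * (x : G ⧸ N) := by
    have := congrArg (QuotientGroup.mk' N) hcomm
    simpa using this
  rw [← hj] at hcq
  have hc2 : Commute (x : G ⧸ N) ((x : G ⧸ N) ^ j)⁻¹ := ((Commute.refl _).zpow_right j).inv_right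
  show (t : G ⧸ N) * (x : G ⧸ N) = (x : G ⧸ N) * (t : G ⧸ N)
  have e2 : ((x : G ⧸ N) ^ j)⁻¹ * ((x : G ⧸ N) * (t : G ⧸ N)) = ((x : G ⧸ N) ^ j)⁻¹ * ((t : G ⧸ N) * (x : G ⧸ N)) := by
    rw [← mul_assoc, ← hc2.eq, mul_assoc, hcq, mul_assoc]
  exact (mul_left_cancel e2).symm

theorem result {G : Type*} [Group G] [Finite G] (π : Set ℕ)
    (hirr : ∀ x : G, (∀ r : ℕ, r.Prime → r ∣ orderOf x → r ∈ π) →
      Subgroup.normalizer ((Subgroup.zpowers x : Subgroup G) : Set G) ≤ Subgroup.centralizer {x})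
    (N : Subgroup G) [N.Normal] (hN : ∀ r : ℕ, r.Prime → r ∣ Nat.card N → r ∉ π) :
    ∀ y : G ⧸ N, (∀ r : ℕ, r.Prime → r ∣ orderOf y → r ∈ π) →
      Subgroup.normalizer ((Subgroup.zpowers y : Subgroup (G ⧸ N)) : Set (G ⧸ N)) ≤ Subgroup.centralizer {y} := by
  intro y hy g hg
  rw [mem_centralizer_singleton_iff']
  refine (commute_of_primary (y := y) (g := g) ?_).eq.symm
  intro p hp hpy
  have hn0 : orderOf y ≠ 0 := (orderOf_pos y).ne'
  apply primeCase π hirr N hN hp (hy p hp hpy) _ ((orderOf y).factorization p)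
  · rw [← pow_mul, Nat.div_mul_cancel (Nat.ordProj_dvd _ _), pow_orderOf_eq_one]
  · exact mem_normalizer_zpowers_pow hg _

end Cfsg.Agent.S4032
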