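import Cfsg.Statements.S4039
import Cfsg.Agent.Lib.Helper1.NilMax

set_option autoImplicit false
set_option linter.unusedVariables false
open Cfsg

namespace Cfsg.Agent.S4039

open Cfsg.Agent.Lib.Helper1 Cfsg.Agent.Lib.Helper26 Cfsg.Agent.Lib.Helper2
open scoped commutatorElement

universe u

section aux

variable {G : Type u} [Group G]

theorem conj_pow_eq_one {x : G} {n : ℕ} (h : x ^ n = 1) (g : G) : (g * x * g⁻¹) ^ n = 1 := by
  rw [conj_pow, h]; group

/-- the centre of a nontrivial `p`-subgroup, as a subgroup of the ambient group, is nontrivial -/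
theorem zc_ne_bot' [Finite G] {p : ℕ} [Fact p.Prime] {U : Subgroup G} (hU : IsPGroup p U)
    (hne : U ≠ ⊥) : U ⊓ Subgroup.centralizer (U : Set G) ≠ ⊥ := by
  have hnt : Nontrivial U := (Subgroup.nontrivial_iff_ne_bot U).mpr hne
  have hcnt := hU.center_nontrivial
  obtain ⟨z, hz⟩ := exists_ne (1 : Subgroup.center U)
  intro hbot
  have hzmem : ((z : U) : G) ∈ U ⊓ Subgroup.centralizer (U : Set G) := by
    refine Subgroup.mem_inf.mpr ⟨(z : U).2, ?_⟩
    rw [Subgroup.mem_centralizer_iff]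
    intro r hr
    have := Subgroup.mem_center_iff.mp z.2 ⟨r, hr⟩
    exact congrArg Subtype.val this
  rw [hbot, Subgroup.mem_bot] at hzmem
  apply hz
  apply Subtype.ext
  apply Subtype.ext
  exact hzmem

/-- Two `p`-subgroups of `C` can be put in a common `p`-subgroup after conjugating one of them
by an element of `C`. -/
theorem sylow_in [Finite G] {p : ℕ} [Fact p.Prime] (C A B : Subgroup G) (hA : A ≤ C) (hB : B ≤ C)
    (hAp : IsPGroup p A) (hBp : IsPGroup p B) :
    ∃ c ∈ C, ∃ R : Subgroup G, IsPGroup p R ∧ A ≤ R ∧ ∀ b ∈ B, c * b * c⁻¹ ∈ R := by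
  have hA' : IsPGroup p (A.subgroupOf C) := hAp.comap_subtype
  have hB' : IsPGroup p (B.subgroupOf C) := hBp.comap_subtype
  obtain ⟨RA, hRA⟩ := hA'.exists_le_sylow
  obtain ⟨RB, hRB⟩ := hB'.exists_le_sylow
  obtain ⟨c, hc⟩ := MulAction.exists_smul_eq C RB RA
  refine ⟨(c : G), c.2, (RA : Subgroup C).map C.subtype, RA.isPGroup'.map _, ?_, ?_⟩
  · intro a ha
    exact ⟨⟨a, hA ha⟩, hRA (Subgroup.mem_subgroupOf.mpr ha), rfl⟩
  · intro b hb
    have h1 : (⟨b, hB hb⟩ : C) ∈ (RB : Subgroup C) := hRB (Subgroup.mem_subgroupOf.mpr hb)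
    have h2 : c * ⟨b, hB hb⟩ * c⁻¹ ∈ ((c • RB : Sylow p C) : Subgroup C) := by
      rw [mem_smul_sylow]
      have : c⁻¹ * (c * ⟨b, hB hb⟩ * c⁻¹) * c = ⟨b, hB hb⟩ := by group
      rw [this]; exact h1
    rw [hc] at h2
    exact ⟨_, h2, rfl⟩

end aux

/-- The core-free case: class at most 2 forces `P` to control its own fusion. -/
theorem core_case (G : Type u) [Group G] [Finite G] (M : Subgroup G) (hmax : IsCoatom M)
    (hcf : NMCoreFree M) (hM : M ≠ ⊥) (hnil : Group.IsNilpotent M)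
    (hΦ : ∀ a b c : M, (a * b * a⁻¹ * b⁻¹) * c = c * (a * b * a⁻¹ * b⁻¹))
    (p : ℕ) [Fact p.Prime] (hp : p ∣ Nat.card M) : Npc p G := by
  classical
  obtain ⟨P, hPM, hPne, hPN, hpel, hdec⟩ := nm_exists_sylow hmax hcf hnil hp
  obtain ⟨Z, hZdef⟩ : ∃ Z : Subgroup G,
      Z = (P : Subgroup G) ⊓ Subgroup.centralizer ((P : Subgroup G) : Set G) := ⟨_, rfl⟩
  have hZP : ∀ z ∈ Z, z ∈ (P : Subgroup G) := by
    intro z hz
    rw [hZdef] at hz
    exact hz.1
  have hZc : ∀ z ∈ Z, ∀ r ∈ (P : Subgroup G), r * z = z * r := by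
    intro z hz r hr
    rw [hZdef] at hz
    exact Subgroup.mem_centralizer_iff.mp hz.2 r hr
  have hZmk : ∀ z, z ∈ (P : Subgroup G) → (∀ r ∈ (P : Subgroup G), r * z = z * r) → z ∈ Z := by
    intro z hz hc
    rw [hZdef]
    exact Subgroup.mem_inf.mpr ⟨hz, Subgroup.mem_centralizer_iff.mpr hc⟩
  have hZne : Z ≠ ⊥ := hZdef ▸ zc_ne_bot' P.isPGroup' hPne
  -- `M` normalizes `P`
  have hMP : ∀ m ∈ M, ∀ d ∈ (P : Subgroup G), m * d * m⁻¹ ∈ (P : Subgroup G) := by
    intro m hm d hd
    rw [← hPN] at hm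
    exact (Subgroup.mem_normalizer_iff.mp hm d).mp hd
  -- commutators of elements of `M` are central in `M`
  have hF1 : ∀ m ∈ M, ∀ d ∈ M, ∀ r ∈ M,
      (m * d * m⁻¹ * d⁻¹) * r = r * (m * d * m⁻¹ * d⁻¹) := by
    intro m hm d hd r hr
    have h1 := hΦ ⟨m, hm⟩ ⟨d, hd⟩ ⟨r, hr⟩
    have h3 := congrArg Subtype.val h1
    simpa using h3
  have hcz : ∀ m ∈ M, ∀ d ∈ (P : Subgroup G), m * d * m⁻¹ * d⁻¹ ∈ Z := by
    intro m hm d hd
    apply hZmk
    · exact Subgroup.mul_mem _ (hMP m hm d hd) (Subgroup.inv_mem _ hd)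
    · intro r hr
      exact (hF1 m hm d (hPM hd) r (hPM hr)).symm
  have hZN : Subgroup.normalizer (Z : Set G) = M := by
    apply nm_normalizer_eq_of_coatom hmax hcf (fun z hz => hPM (hZP z hz)) hZne
    apply nm_le_normalizer_of_forall_conj_mem
    intro m hm z hz
    apply hZmk
    · exact hMP m hm z (hZP z hz)
    · intro r hr
      have hr' : m⁻¹ * r * m ∈ (P : Subgroup G) := by
        have := hMP m⁻¹ (M.inv_mem hm) r hr
        simpa using this
      have h1 := hZc z hz _ hr'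
      calc r * (m * z * m⁻¹) = m * ((m⁻¹ * r * m) * z) * m⁻¹ := by group
        _ = m * (z * (m⁻¹ * r * m)) * m⁻¹ := by rw [h1]
        _ = m * z * m⁻¹ * r := by group
  have hMN : Subgroup.normalizer (M : Set G) = M :=
    nm_normalizer_eq_of_coatom hmax hcf le_rfl hM Subgroup.le_normalizer
  -- weak closure of `Z`
  have hW : ∀ g : G, (∀ z ∈ Z, g * z * g⁻¹ ∈ (P : Subgroup G)) → g ∈ M := by
    intro g hg
    by_contra hgM
    have h1 : ∀ z ∈ Z, g⁻¹ * z * g ∈ (P : Subgroup G) := by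
      intro z hz
      apply hpel
      · rw [← hZN]
        apply Subgroup.centralizer_le_normalizer
        rw [Subgroup.mem_centralizer_iff]
        intro w hw
        have h2 := hZc z hz _ (hg w hw)
        calc w * (g⁻¹ * z * g) = g⁻¹ * ((g * w * g⁻¹) * z) * g := by group
          _ = g⁻¹ * (z * (g * w * g⁻¹)) * g := by rw [h2]
          _ = g⁻¹ * z * g * w := by group
      · obtain ⟨k, hk⟩ := P.isPGroup' ⟨z, hZP z hz⟩
        refine ⟨k, ?_⟩
        have hk' : z ^ p ^ k = 1 := by simpa using congrArg Subtype.val hk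
        have := conj_pow_eq_one hk' g⁻¹
        simpa using this
    obtain ⟨D, hDdef⟩ : ∃ D : Subgroup G, D = (P : Subgroup G) ⊓
        (P : Subgroup G).comap (MulAut.conj g⁻¹).toMonoidHom := ⟨_, rfl⟩
    have hD : ∀ d, d ∈ D ↔ d ∈ (P : Subgroup G) ∧ g⁻¹ * d * g ∈ (P : Subgroup G) := by
      intro d
      rw [hDdef, Subgroup.mem_inf, Subgroup.mem_comap]
      simp
    have hZD : ∀ z ∈ Z, z ∈ D := fun z hz => (hD z).mpr ⟨hZP z hz, h1 z hz⟩
    have hMD : ∀ m ∈ M, ∀ d ∈ D, m * d * m⁻¹ ∈ D := by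
      intro m hm d hd
      have h2 : m * d * m⁻¹ = (m * d * m⁻¹ * d⁻¹) * d := by group
      rw [h2]
      exact D.mul_mem (hZD _ (hcz m hm d ((hD d).mp hd).1)) hd
    have hM2D : ∀ m ∈ M, ∀ d ∈ D, (g * m * g⁻¹) * d * (g * m * g⁻¹)⁻¹ ∈ D := by
      intro m hm d hd
      have hd' := ((hD d).mp hd).2
      have hc' := hcz m hm _ hd'
      have h2 : (g * m * g⁻¹) * d * (g * m * g⁻¹)⁻¹
          = (g * (m * (g⁻¹ * d * g) * m⁻¹ * (g⁻¹ * d * g)⁻¹) * g⁻¹) * d := by group
      rw [h2]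
      refine D.mul_mem ((hD _).mpr ⟨hg _ hc', ?_⟩) hd
      have h3 : g⁻¹ * (g * (m * (g⁻¹ * d * g) * m⁻¹ * (g⁻¹ * d * g)⁻¹) * g⁻¹) * g
          = m * (g⁻¹ * d * g) * m⁻¹ * (g⁻¹ * d * g)⁻¹ := by group
      rw [h3]
      exact hZP _ hc'
    obtain ⟨M2, hM2def⟩ : ∃ M2 : Subgroup G, M2 = M.map (MulAut.conj g).toMonoidHom := ⟨_, rfl⟩
    have hM2mem : ∀ m ∈ M, g * m * g⁻¹ ∈ M2 := by
      intro m hm
      rw [hM2def]
      exact ⟨m, hm, rfl⟩
    have hM2D' : M2 ≤ Subgroup.normalizer (D : Set G) := by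
      apply nm_le_normalizer_of_forall_conj_mem
      intro m2 hm2 d hd
      rw [hM2def] at hm2
      obtain ⟨m, hm, rfl⟩ := hm2
      exact hM2D m hm d hd
    have hMD' : M ≤ Subgroup.normalizer (D : Set G) :=
      nm_le_normalizer_of_forall_conj_mem hMD
    have hM2M : ¬ M2 ≤ M := by
      intro hle
      have hcard : Nat.card M2 = Nat.card M := by
        rw [hM2def]
        exact Subgroup.card_map_of_injective (MulAut.conj g).injective
      have heq : M2 = M := Subgroup.eq_of_le_of_card_ge hle hcard.ge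
      apply hgM
      rw [← hMN]
      apply nm_le_normalizer_of_forall_conj_mem (M := Subgroup.zpowers g) (S := M) _
        (Subgroup.mem_zpowers g)
      intro x hx s hs
      obtain ⟨j, rfl⟩ := Subgroup.mem_zpowers_iff.mp hx
      have key : ∀ s ∈ M, g * s * g⁻¹ ∈ M := fun s hs => heq ▸ hM2mem s hs
      have keyinv : ∀ s ∈ M, g⁻¹ * s * g ∈ M := by
        intro s hs
        have : s ∈ M2 := heq ▸ hs
        rw [hM2def] at this
        obtain ⟨m, hm, hms⟩ := this
        have h5 : g⁻¹ * s * g = m := by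
          rw [← hms]; simp [MulAut.conj_apply, mul_assoc]
        rw [h5]; exact hm
      have hnat : ∀ (n : ℕ) (s : G), s ∈ M → g ^ n * s * (g ^ n)⁻¹ ∈ M := by
        intro n
        induction n with
        | zero => intro s hs; simpa using hs
        | succ n ih =>
          intro s hs
          have h6 : g ^ (n + 1) * s * (g ^ (n + 1))⁻¹ = g ^ n * (g * s * g⁻¹) * (g ^ n)⁻¹ := by
            rw [pow_succ]; group
          rw [h6]; exact ih _ (key s hs)
      have hnat' : ∀ (n : ℕ) (s : G), s ∈ M → (g ^ n)⁻¹ * s * (g ^ n) ∈ M := by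
        intro n
        induction n with
        | zero => intro s hs; simpa using hs
        | succ n ih =>
          intro s hs
          have h6 : (g ^ (n + 1))⁻¹ * s * (g ^ (n + 1)) = (g ^ n)⁻¹ * (g⁻¹ * s * g) * (g ^ n) := by
            rw [pow_succ']; group
          rw [h6]; exact ih _ (keyinv s hs)
      rcases Int.eq_nat_or_neg j with ⟨n, rfl | rfl⟩
      · simpa using hnat n s hs
      · simpa using hnat' n s hs
    have hsup : M ⊔ M2 = ⊤ := by
      apply hmax.2
      refine lt_of_le_of_ne le_sup_left (fun heq => hM2M ?_)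
      rw [heq]; exact le_sup_right
    have hDn : D.Normal := by
      rw [← Subgroup.normalizer_eq_top_iff, eq_top_iff, ← hsup]
      exact sup_le hMD' hM2D'
    have hDbot : D = ⊥ := hcf D hDn (fun d hd => hPM ((hD d).mp hd).1)
    apply hZne
    rw [eq_bot_iff]
    intro z hz
    rw [← hDbot]
    exact hZD z hz
  -- fusion control
  have hFC : FusionControl P := by
    intro x hx g hgx
    obtain ⟨y, hy⟩ : ∃ y : G, y = g * x * g⁻¹ := ⟨_, rfl⟩
    rw [← hy] at hgx ⊢
    have hAC : Z ≤ Subgroup.centralizer ({y} : Set G) := by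
      intro z hz
      rw [Subgroup.mem_centralizer_iff]
      intro h hh
      rw [Set.mem_singleton_iff] at hh
      rw [hh]
      exact hZc z hz y hgx
    have hBC : Z.map (MulAut.conj g).toMonoidHom ≤ Subgroup.centralizer ({y} : Set G) := by
      rintro b ⟨z, hz, rfl⟩
      rw [Subgroup.mem_centralizer_iff]
      intro h hh
      rw [Set.mem_singleton_iff] at hh
      rw [hh, hy]
      have h1 := hZc z hz x hx
      simp only [MulEquiv.coe_toMonoidHom, MulAut.conj_apply]
      calc g * x * g⁻¹ * (g * z * g⁻¹) = g * (x * z) * g⁻¹ := by group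
        _ = g * (z * x) * g⁻¹ := by rw [h1]
        _ = g * z * g⁻¹ * (g * x * g⁻¹) := by group
    have hZp : IsPGroup p Z := P.isPGroup'.to_le (fun z hz => hZP z hz)
    obtain ⟨c, hc, R, hRp, hAR, hBR⟩ := sylow_in (Subgroup.centralizer ({y} : Set G)) Z
      (Z.map (MulAut.conj g).toMonoidHom) hAC hBC hZp (hZp.map _)
    obtain ⟨P2, hP2⟩ := hRp.exists_le_sylow
    obtain ⟨u, hu⟩ := MulAction.exists_smul_eq G P P2
    have hRu : ∀ r ∈ R, u⁻¹ * r * u ∈ (P : Subgroup G) := by
      intro r hr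
      have := hP2 hr
      rw [← hu, mem_smul_sylow] at this
      exact this
    have hu1 : u⁻¹ ∈ M := by
      apply hW
      intro z hz
      simpa using hRu z (hAR hz)
    have hu2 : u⁻¹ * c * g ∈ M := by
      apply hW
      intro z hz
      have h1 := hRu _ (hBR _ ⟨z, hz, rfl⟩)
      have h2 : u⁻¹ * c * g * z * (u⁻¹ * c * g)⁻¹
          = u⁻¹ * (c * ((MulAut.conj g).toMonoidHom z) * c⁻¹) * u := by
        simp only [MulEquiv.coe_toMonoidHom, MulAut.conj_apply]; group
      rw [h2]; exact h1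
    have hnM : c * g ∈ M := by
      have h1 : c * g = (u⁻¹)⁻¹ * (u⁻¹ * c * g) := by group
      rw [h1]; exact M.mul_mem (M.inv_mem hu1) hu2
    have hcy : c * y * c⁻¹ = y := by
      have h1 := Subgroup.mem_centralizer_iff.mp hc y (Set.mem_singleton y)
      rw [← h1]; group
    obtain ⟨u', hu', m, hm, hn⟩ := hdec _ hnM
    refine ⟨u', hu', ?_⟩
    have hmx : m * x * m⁻¹ = x := by
      have h1 := Subgroup.mem_centralizer_iff.mp hm x hx
      rw [← h1]; group
    calc u' * x * u'⁻¹ = u' * (m * x * m⁻¹) * u'⁻¹ := by rw [hmx]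
      _ = (u' * m) * x * (u' * m)⁻¹ := by group
      _ = (c * g) * x * (c * g)⁻¹ := by rw [hn]
      _ = c * (g * x * g⁻¹) * c⁻¹ := by group
      _ = y := by rw [← hy, hcy]
  exact npc_of_hasNPC ⟨P, Cfsg.pResidual p G, pResidual_normal p,
    isComplement'_pResidual_of_fusionControl P hFC⟩

/-- A finite group possessing a maximal subgroup that is nilpotent of class at most 2 is solvable. -/
theorem result {G : Type*} [Group G] [Finite G]
    (M : Subgroup G) (hmax : IsCoatom M) (hnil : Group.IsNilpotent M) (hcl : Group.nilpotencyClass ↥M ≤ 2) :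
    Group.IsSolvable G := by
  have hΦ : ∀ a b c : M, (a * b * a⁻¹ * b⁻¹) * c = c * (a * b * a⁻¹ * b⁻¹) := by
    intro a b c
    have h2 : (⊤ : Subgroup M).lowerCentralSeries 2 = ⊥ :=
      Subgroup.lowerCentralSeries_eq_bot_iff_nilpotencyClass_le.mpr hcl
    have h3 : ⁅⁅a, b⁆, c⁆ ∈ (⊤ : Subgroup M).lowerCentralSeries 2 := by
      rw [Subgroup.lowerCentralSeries_succ, Subgroup.lowerCentralSeries_succ,
        Subgroup.lowerCentralSeries_zero]
      exact Subgroup.commutator_mem_commutator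
        (Subgroup.commutator_mem_commutator (Subgroup.mem_top a) (Subgroup.mem_top b))
        (Subgroup.mem_top c)
    rw [h2] at h3
    have h4 : ⁅⁅a, b⁆, c⁆ = 1 := Subgroup.mem_bot.mp h3
    exact (commutatorElement_eq_one_iff_commute.mp h4).eq
  refine nm_solvable_of_reduction
    (fun H _ => ∀ a b c : H, (a * b * a⁻¹ * b⁻¹) * c = c * (a * b * a⁻¹ * b⁻¹)) ?_ ?_
    (Nat.card G) G rfl M hmax hnil hΦ
  · intro A B _ _ _ f hf hA a b c
    obtain ⟨a, rfl⟩ := hf a
    obtain ⟨b, rfl⟩ := hf b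
    obtain ⟨c, rfl⟩ := hf c
    have := congrArg f (hA a b c)
    simpa using this
  · intro G _ _ M hmax hcf hM hnil hΦ p _ hp
    exact core_case G M hmax hcf hM hnil hΦ p hp

end Cfsg.Agent.S4039
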