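import Mathlib
import Cfsg.Statements.S4043
import Cfsg.Agent.Lib.Helper72.Basic
import Cfsg.Agent.Lib.Helper1.SZ

set_option autoImplicit false
set_option linter.style.haveILetI false
open Cfsg

namespace Cfsg.Agent.S4043

open Cfsg.Agent.Lib.Helper72
open Pointwise

theorem mem_of_pow_mem_of_coprime {G : Type*} [Group G] (N : Subgroup G) (g : G) {a b : ℕ}
    (hab : Nat.Coprime a b) (ha : g ^ a ∈ N) (hb : g ^ b ∈ N) : g ∈ N := by
  obtain ⟨u, v, huv⟩ := Nat.isCoprime_iff_coprime.2 hab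
  have : g = (g ^ a) ^ u * (g ^ b) ^ v := by
    rw [← zpow_natCast, ← zpow_natCast, ← zpow_mul, ← zpow_mul, ← zpow_add, mul_comm _ u,
      mul_comm _ v, huv, zpow_one]
  rw [this]
  exact N.mul_mem (N.zpow_mem ha u) (N.zpow_mem hb v)

/-- A `p`-group normalizing a nontrivial `p`-subgroup `D` fixes a nontrivial element of `D`. -/
theorem exists_fixed_ne_one {G : Type*} [Group G] [Finite G] {p : ℕ} [Fact p.Prime]
    (D P : Subgroup G) (hD : IsPGroup p D) (hP : IsPGroup p P)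
    (hnorm : ∀ x ∈ P, ∀ d ∈ D, x * d * x⁻¹ ∈ D) (hne : D ≠ ⊥) :
    ∃ d ∈ D, d ≠ 1 ∧ ∀ x ∈ P, x * d * x⁻¹ = d := by
  classical
  letI : MulAction P D :=
    { smul := fun x d => ⟨(x : G) * (d : G) * (x : G)⁻¹, hnorm x x.2 d d.2⟩
      one_smul := fun d => Subtype.ext (by
        change ((1 : P) : G) * (d : G) * ((1 : P) : G)⁻¹ = d
        simp)
      mul_smul := fun x y d => Subtype.ext (by
        change ((x * y : P) : G) * (d : G) * ((x * y : P) : G)⁻¹ =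
          (x : G) * ((y : G) * (d : G) * (y : G)⁻¹) * (x : G)⁻¹
        simp only [Subgroup.coe_mul]
        group) }
  have hsmul : ∀ (x : P) (d : D), ((x • d : D) : G) = (x : G) * (d : G) * (x : G)⁻¹ :=
    fun _ _ => rfl
  have h1 := hP.card_modEq_card_fixedPoints D
  obtain ⟨n, hn⟩ := IsPGroup.iff_card.1 hD
  have hn0 : n ≠ 0 := by
    rintro rfl
    rw [pow_zero] at hn
    exact hne (Subgroup.card_eq_one.1 hn)
  have h2 : p ∣ Nat.card (MulAction.fixedPoints P D) := by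
    rw [← Nat.modEq_zero_iff_dvd]
    refine h1.symm.trans ?_
    rw [Nat.modEq_zero_iff_dvd, hn]
    exact dvd_pow_self p hn0
  have h3 : (1 : D) ∈ MulAction.fixedPoints P D := by
    intro x
    apply Subtype.ext
    rw [hsmul]
    simp
  have h4 : 1 < Nat.card (MulAction.fixedPoints P D) := by
    have hpos : 0 < Nat.card (MulAction.fixedPoints P D) :=
      Nat.card_pos_iff.2 ⟨⟨⟨1, h3⟩⟩, inferInstance⟩
    have := Nat.le_of_dvd hpos h2
    exact lt_of_lt_of_le (Fact.out : p.Prime).one_lt this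
  rw [Finite.one_lt_card_iff_nontrivial] at h4
  obtain ⟨d, hd⟩ := exists_ne (⟨1, h3⟩ : MulAction.fixedPoints P D)
  refine ⟨((d : D) : G), (d : D).2, ?_, ?_⟩
  · intro h
    apply hd
    apply Subtype.ext
    apply Subtype.ext
    exact h
  · intro x hx
    have := d.2 ⟨x, hx⟩
    exact congrArg Subtype.val this


theorem exists_mul_of_mem_sup_normal {G : Type*} [Group G] (H N : Subgroup G) [N.Normal] {g : G}
    (hg : g ∈ H ⊔ N) : ∃ h ∈ H, ∃ n ∈ N, g = h * n := by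
  have h1 : g ∈ ((H ⊔ N : Subgroup G) : Set G) := hg
  rw [Subgroup.mul_normal, Set.mem_mul] at h1
  obtain ⟨h, hh, n, hn, rfl⟩ := h1
  exact ⟨h, hh, n, hn, rfl⟩

theorem exists_mul_of_mem_normal_sup {G : Type*} [Group G] (N H : Subgroup G) [N.Normal] {g : G}
    (hg : g ∈ N ⊔ H) : ∃ n ∈ N, ∃ h ∈ H, g = n * h := by
  have h1 : g ∈ ((N ⊔ H : Subgroup G) : Set G) := hg
  rw [Subgroup.normal_mul, Set.mem_mul] at h1
  obtain ⟨n, hn, h, hh, rfl⟩ := h1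
  exact ⟨n, hn, h, hh, rfl⟩

theorem mem_of_normalizes {G : Type*} [Group G] [Finite G] {p : ℕ} [Fact p.Prime]
    (N : Subgroup G) [hNn : N.Normal] (hN : IsPGroup p N) (A K P : Subgroup G)
    (hAN : A ⊔ N = ⊤) (hAN' : A ⊓ N = ⊥)
    (hKA : K ≤ A) (hPA : P ≤ A) (hP : IsPGroup p P)
    (hKn : ∀ a ∈ A, ∀ k ∈ K, a * k * a⁻¹ ∈ K)
    (hdec : ∀ a ∈ A, ∃ k ∈ K, ∃ x ∈ P, a = k * x)
    (hC : ∀ n : G, n ∈ N → (∀ a : G, a ∈ A → a * n * a⁻¹ = n) → n = 1)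
    (t : G) (ht : ∀ k ∈ K, t * k * t⁻¹ ∈ K) : t ∈ A := by
  obtain ⟨a, ha, n', hn', rfl⟩ := exists_mul_of_mem_sup_normal A N (hAN ▸ Subgroup.mem_top t)
  have hn'K : ∀ k ∈ K, n' * k * n'⁻¹ ∈ K := by
    intro k hk
    have h1 := ht k hk
    have h2 := hKn a⁻¹ (A.inv_mem ha) _ h1
    have h3 : a⁻¹ * (a * n' * k * (a * n')⁻¹) * a⁻¹⁻¹ = n' * k * n'⁻¹ := by group
    rw [h3] at h2; exact h2
  have hn'c : ∀ k ∈ K, n' * k = k * n' := by
    intro k hk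
    have h1 : n' * k * n'⁻¹ * k⁻¹ ∈ A ⊓ N := by
      refine ⟨hKA (K.mul_mem (hn'K k hk) (K.inv_mem hk)), ?_⟩
      have h2 : n' * k * n'⁻¹ * k⁻¹ = n' * (k * n'⁻¹ * k⁻¹) := by group
      rw [h2]; exact N.mul_mem hn' (hNn.conj_mem _ (N.inv_mem hn') k)
    rw [hAN', Subgroup.mem_bot] at h1
    have h3 : n' * k = (n' * k * n'⁻¹ * k⁻¹) * (k * n') := by group
    rw [h3, h1, one_mul]
  have hn'D : n' ∈ N ⊓ Subgroup.centralizer (K : Set G) :=
    ⟨hn', Subgroup.mem_centralizer_iff.2 (fun k hk => (hn'c k hk).symm)⟩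
  have hDbot : N ⊓ Subgroup.centralizer (K : Set G) = ⊥ := by
    by_contra hne
    have hDp : IsPGroup p (N ⊓ Subgroup.centralizer (K : Set G) : Subgroup G) :=
      hN.to_le inf_le_left
    have hnorm : ∀ x ∈ P, ∀ d ∈ N ⊓ Subgroup.centralizer (K : Set G),
        x * d * x⁻¹ ∈ N ⊓ Subgroup.centralizer (K : Set G) := by
      intro x hx d hd
      have hd1 : d ∈ N := (Subgroup.mem_inf.1 hd).1
      have hd2 : d ∈ Subgroup.centralizer (K : Set G) := (Subgroup.mem_inf.1 hd).2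
      refine Subgroup.mem_inf.2 ⟨hNn.conj_mem d hd1 x, ?_⟩
      rw [Subgroup.mem_centralizer_iff]
      intro k hk
      have hk' : x⁻¹ * k * x⁻¹⁻¹ ∈ K := hKn x⁻¹ (A.inv_mem (hPA hx)) k hk
      have hc := Subgroup.mem_centralizer_iff.1 hd2 _ hk'
      calc k * (x * d * x⁻¹) = x * ((x⁻¹ * k * x⁻¹⁻¹) * d) * x⁻¹ := by group
        _ = x * (d * (x⁻¹ * k * x⁻¹⁻¹)) * x⁻¹ := by rw [hc]
        _ = x * d * x⁻¹ * k := by group
    obtain ⟨d, hd, hd1, hdfix⟩ := exists_fixed_ne_one _ P hDp hP hnorm hne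
    apply hd1
    apply hC d hd.1
    intro a' ha'
    obtain ⟨k, hk, x, hx, rfl⟩ := hdec a' ha'
    have hkd : k * d = d * k := Subgroup.mem_centralizer_iff.1 hd.2 k hk
    calc k * x * d * (k * x)⁻¹ = k * (x * d * x⁻¹) * k⁻¹ := by group
      _ = k * d * k⁻¹ := by rw [hdfix x hx]
      _ = d := by rw [hkd, mul_inv_cancel_right]
  rw [hDbot, Subgroup.mem_bot] at hn'D
  rw [hn'D, mul_one]; exact ha

/-- Let G be a finite group that is the semidirect product of a normal p-subgroup N by a subgroup A, and also of N by a subgroup A₁, where p is a prime and A and A₁ both have normal p-complements. If C_N(A) = C_N(A₁) = 1, then A₁ is conjugate to A by an element of N. -/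
theorem result {G : Type*} [Group G] [Finite G] {p : ℕ}
    [Fact p.Prime] (N : Subgroup G) [N.Normal] (hN : IsPGroup p N) (A A₁ : Subgroup G)
    (hA : A.IsComplement' N) (hA₁ : A₁.IsComplement' N)
    (hAp : Cfsg.HasNormalPComplement p A) (hA₁p : Cfsg.HasNormalPComplement p A₁)
    (hC : ∀ n : G, n ∈ N → (∀ a : G, a ∈ A → a * n * a⁻¹ = n) → n = 1)
    (hC₁ : ∀ n : G, n ∈ N → (∀ a : G, a ∈ A₁ → a * n * a⁻¹ = n) → n = 1) :
    ∃ n : G, n ∈ N ∧ A₁ = A.map (MulAut.conj n).toMonoidHom := by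
  classical
  have _ := hC₁
  obtain ⟨PA, KA, hKAn, hKAc⟩ := hAp
  obtain ⟨PA₁, KA₁, hKA₁n, hKA₁c⟩ := hA₁p
  haveI := hKAn
  haveI := hKA₁n
  have hp : p.Prime := Fact.out
  have hAN : A ⊔ N = ⊤ := hA.sup_eq_top
  have hAN' : A ⊓ N = ⊥ := disjoint_iff.1 hA.disjoint
  have hcardA : Nat.card A = N.index := hA.index_eq_card.symm
  have hcardA₁ : Nat.card A₁ = N.index := hA₁.index_eq_card.symm
  obtain ⟨K, hK⟩ : ∃ K : Subgroup G, K = KA.map A.subtype := ⟨_, rfl⟩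
  obtain ⟨P, hP⟩ : ∃ P : Subgroup G, P = (PA : Subgroup A).map A.subtype := ⟨_, rfl⟩
  obtain ⟨K₁, hK₁⟩ : ∃ K₁ : Subgroup G, K₁ = KA₁.map A₁.subtype := ⟨_, rfl⟩
  have hKA : K ≤ A := by rw [hK]; rintro _ ⟨k, _, rfl⟩; exact k.2
  have hPA : P ≤ A := by rw [hP]; rintro _ ⟨k, _, rfl⟩; exact k.2
  have hPp : IsPGroup p P := by rw [hP]; exact PA.2.map _
  have hKn : ∀ a ∈ A, ∀ k ∈ K, a * k * a⁻¹ ∈ K := by
    intro a ha k hk
    rw [hK] at hk ⊢
    obtain ⟨k', hk', rfl⟩ := hk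
    exact ⟨⟨a, ha⟩ * k' * ⟨a, ha⟩⁻¹, hKAn.conj_mem k' hk' ⟨a, ha⟩, by simp⟩
  have hK₁n : ∀ a ∈ A₁, ∀ k ∈ K₁, a * k * a⁻¹ ∈ K₁ := by
    intro a ha k hk
    rw [hK₁] at hk ⊢
    obtain ⟨k', hk', rfl⟩ := hk
    exact ⟨⟨a, ha⟩ * k' * ⟨a, ha⟩⁻¹, hKA₁n.conj_mem k' hk' ⟨a, ha⟩, by simp⟩
  have hdec : ∀ a ∈ A, ∃ k ∈ K, ∃ x ∈ P, a = k * x := by
    intro a ha
    have htop : KA ⊔ (PA : Subgroup A) = ⊤ := hKAc.sup_eq_top
    obtain ⟨k', hk', x', hx', he⟩ := exists_mul_of_mem_normal_sup KA (PA : Subgroup A)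
      (htop ▸ Subgroup.mem_top (⟨a, ha⟩ : A))
    refine ⟨k', ?_, x', ?_, ?_⟩
    · rw [hK]; exact Subgroup.mem_map_of_mem _ hk'
    · rw [hP]; exact Subgroup.mem_map_of_mem _ hx'
    · exact congrArg Subtype.val he
  have hcK : Nat.card K = Nat.card KA := by
    rw [hK]; exact Subgroup.card_map_of_injective A.subtype_injective
  have hcK₁ : Nat.card K₁ = Nat.card KA₁ := by
    rw [hK₁]; exact Subgroup.card_map_of_injective A₁.subtype_injective
  have hKAp : ¬ p ∣ Nat.card KA := by rw [← hKAc.index_eq_card]; exact PA.not_dvd_index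
  have hKA₁p : ¬ p ∣ Nat.card KA₁ := by rw [← hKA₁c.index_eq_card]; exact PA₁.not_dvd_index
  obtain ⟨e, he⟩ := IsPGroup.iff_card.1 PA.2
  obtain ⟨e₁, he₁⟩ := IsPGroup.iff_card.1 PA₁.2
  have h1 : Nat.card KA * p ^ e = N.index := by rw [← he, hKAc.card_mul_card, hcardA]
  have h2 : Nat.card KA₁ * p ^ e₁ = N.index := by rw [← he₁, hKA₁c.card_mul_card, hcardA₁]
  have hKK₁ : Nat.card KA = Nat.card KA₁ := by
    apply Nat.dvd_antisymm
    · exact Nat.Coprime.dvd_of_dvd_mul_right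
        (Nat.Coprime.pow_right _ ((Nat.Prime.coprime_iff_not_dvd hp).2 hKAp).symm)
        (Dvd.intro (p ^ e) (h1.trans h2.symm))
    · exact Nat.Coprime.dvd_of_dvd_mul_right
        (Nat.Coprime.pow_right _ ((Nat.Prime.coprime_iff_not_dvd hp).2 hKA₁p).symm)
        (Dvd.intro (p ^ e₁) (h2.trans h1.symm))
  obtain ⟨L, hL⟩ : ∃ L : Subgroup G, L = N ⊔ K := ⟨_, rfl⟩
  have hNL : N ≤ L := hL ▸ le_sup_left
  have hKL : K ≤ L := hL ▸ le_sup_right
  have hK₁L : K₁ ≤ L := by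
    intro k₁ hk₁
    obtain ⟨a, ha, n', hn', rfl⟩ :=
      exists_mul_of_mem_sup_normal A N (hAN ▸ Subgroup.mem_top k₁)
    suffices haK : a ∈ K from L.mul_mem (hKL haK) (hNL hn')
    have hord : (a * n') ^ Nat.card K₁ = 1 := by
      have := pow_card_eq_one' (G := K₁) (x := ⟨a * n', hk₁⟩)
      exact congrArg Subtype.val this
    have ha1 : a ^ Nat.card K₁ = 1 := by
      have h3 : (QuotientGroup.mk (a ^ Nat.card K₁) : G ⧸ N) = 1 := by
        rw [QuotientGroup.mk_pow]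
        have h4 : (QuotientGroup.mk a : G ⧸ N) = QuotientGroup.mk (a * n') := by
          rw [QuotientGroup.mk_mul, (QuotientGroup.eq_one_iff n').2 hn', mul_one]
        rw [h4, ← QuotientGroup.mk_pow, hord, QuotientGroup.mk_one]
      have h5 : a ^ Nat.card K₁ ∈ A ⊓ N := ⟨A.pow_mem ha _, (QuotientGroup.eq_one_iff _).1 h3⟩
      rw [hAN', Subgroup.mem_bot] at h5
      exact h5
    have h6 : (⟨a, ha⟩ : A) ∈ KA := by
      apply mem_of_pow_mem_of_coprime KA _ (a := Nat.card K₁) (b := KA.index)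
      · rw [hcK₁, hKAc.symm.index_eq_card, he]
        exact Nat.Coprime.pow_right _ ((Nat.Prime.coprime_iff_not_dvd hp).2 hKA₁p).symm
      · have h7 : (⟨a, ha⟩ : A) ^ Nat.card K₁ = 1 := Subtype.ext (by simpa using ha1)
        rw [h7]; exact KA.one_mem
      · exact KA.pow_index_mem _
    rw [hK]; exact ⟨⟨a, ha⟩, h6, rfl⟩
  have hNKbot : N ⊓ K = ⊥ := by
    rw [eq_bot_iff, ← hAN']
    exact fun g hg => ⟨hKA hg.2, hg.1⟩
  obtain ⟨c, hc⟩ := IsPGroup.iff_card.1 hN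
  haveI : Group.IsSolvable (N.subgroupOf L) := by
    haveI : Group.IsNilpotent (N.subgroupOf L) := (hN.comap_subtype).isNilpotent
    infer_instance
  have hidx : (N.subgroupOf L).index = Nat.card K := by
    change N.relIndex L = _
    rw [hL, Subgroup.relIndex_sup_left,
      Cfsg.Agent.Lib.Helper1.relIndex_eq_card_of_inf_eq_bot hNKbot]
  have hcop : (Nat.card (N.subgroupOf L)).Coprime (N.subgroupOf L).index := by
    rw [Cfsg.Agent.Lib.Helper1.card_subgroupOf_of_le hNL, hc, hidx, hcK]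
    exact Nat.Coprime.pow_left _ ((Nat.Prime.coprime_iff_not_dvd hp).2 hKAp)
  obtain ⟨l, hl⟩ := Cfsg.Agent.Lib.Helper1.sz_conj_solvable_normal (G := L) (N.subgroupOf L)
    hcop (K.subgroupOf L) (K₁.subgroupOf L)
    (by rw [Cfsg.Agent.Lib.Helper1.card_subgroupOf_of_le hKL, hidx])
    (by rw [Cfsg.Agent.Lib.Helper1.card_subgroupOf_of_le hK₁L, hidx, hcK₁, hcK, hKK₁])
  have hlL : (l : G) ∈ N ⊔ K := by rw [← hL]; exact l.2
  obtain ⟨n, hn, k₀, hk₀, hlnk'⟩ := exists_mul_of_mem_normal_sup N K hlL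
  have hlnk : (l : G) = n * k₀ := hlnk'
  have hconj : ∀ k ∈ K, n * k * n⁻¹ ∈ K₁ := by
    intro k hk
    have hk' : k₀⁻¹ * k * k₀ ∈ K := K.mul_mem (K.mul_mem (K.inv_mem hk₀) hk) hk₀
    have hmem : l * ⟨k₀⁻¹ * k * k₀, hKL hk'⟩ * l⁻¹ ∈ MulAut.conj l • K.subgroupOf L := by
      rw [Cfsg.Agent.Lib.Helper1.mem_conj_smul_iff]
      have h3 : l⁻¹ * (l * ⟨k₀⁻¹ * k * k₀, hKL hk'⟩ * l⁻¹) * l = ⟨k₀⁻¹ * k * k₀, hKL hk'⟩ := by
        group
      rw [h3, Subgroup.mem_subgroupOf]; exact hk'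
    rw [hl, Subgroup.mem_subgroupOf] at hmem
    have h4 : ((l * ⟨k₀⁻¹ * k * k₀, hKL hk'⟩ * l⁻¹ : L) : G) = n * k * n⁻¹ := by
      simp only [Subgroup.coe_mul, Subgroup.coe_inv]
      rw [hlnk]; group
    rw [h4] at hmem; exact hmem
  have hconj' : ∀ k₁ ∈ K₁, n⁻¹ * k₁ * n ∈ K := by
    intro k₁ hk₁
    have hmem : (⟨k₁, hK₁L hk₁⟩ : L) ∈ MulAut.conj l • K.subgroupOf L := by
      rw [hl, Subgroup.mem_subgroupOf]; exact hk₁
    rw [Cfsg.Agent.Lib.Helper1.mem_conj_smul_iff, Subgroup.mem_subgroupOf] at hmem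
    have h3 : (l : G)⁻¹ * k₁ * (l : G) ∈ K := by simpa using hmem
    rw [hlnk] at h3
    have h4 : n⁻¹ * k₁ * n = k₀ * ((n * k₀)⁻¹ * k₁ * (n * k₀)) * k₀⁻¹ := by group
    rw [h4]; exact K.mul_mem (K.mul_mem hk₀ h3) (K.inv_mem hk₀)
  refine ⟨n, hn, ?_⟩
  have hle : A₁ ≤ A.map (MulAut.conj n).toMonoidHom := by
    intro a₁ ha₁
    have ht : n⁻¹ * a₁ * n ∈ A := by
      apply mem_of_normalizes N hN A K P hAN hAN' hKA hPA hPp hKn hdec hC
      intro k hk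
      have h3 : a₁ * (n * k * n⁻¹) * a₁⁻¹ ∈ K₁ := hK₁n a₁ ha₁ _ (hconj k hk)
      have h4 := hconj' _ h3
      have h5 : n⁻¹ * a₁ * n * k * (n⁻¹ * a₁ * n)⁻¹ = n⁻¹ * (a₁ * (n * k * n⁻¹) * a₁⁻¹) * n := by
        group
      rw [h5]; exact h4
    refine ⟨n⁻¹ * a₁ * n, ht, ?_⟩
    change n * (n⁻¹ * a₁ * n) * n⁻¹ = a₁
    group
  apply Subgroup.eq_of_le_of_card_ge hle
  rw [Subgroup.card_map_of_injective (MulEquiv.injective _), hcardA, hcardA₁]

end Cfsg.Agent.S4043
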