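import Mathlib
import Cfsg.Statements.S4049
import Cfsg.Agent.Lib.Helper72.TwoClosed

set_option autoImplicit false
open Cfsg
open Cfsg.Agent.Lib.Helper72

namespace Cfsg.Agent.S4049

theorem result {G : Type*} [Group G] [Finite G]
    (hhom : ∀ H : Subgroup G, H ≠ ⊥ → ¬ 2 ∣ Nat.card ↥H →
        ¬ 2 ∣ (Subgroup.centralizer (H : Set G)).relIndex (Subgroup.normalizer (H : Set G))) (P : Sylow 2 G) :
    (P : Subgroup G).Normal := by
  apply sylow_two_normal_of_noRealOdd
  intro x g hodd hg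
  by_contra hx1
  have hxx : x ≠ x⁻¹ := fun h => hx1 (eq_one_of_odd_of_eq_inv hodd h)
  have hne : Subgroup.zpowers x ≠ ⊥ := by
    intro h
    rw [Subgroup.zpowers_eq_bot] at h
    exact hx1 h
  have hcard : ¬ 2 ∣ Nat.card (Subgroup.zpowers x) := by
    rw [Nat.card_zpowers, ← even_iff_two_dvd]
    exact Nat.not_even_iff_odd.2 hodd
  apply hhom _ hne hcard
  obtain ⟨K, hCK, hrel, hKN⟩ := exists_relIndex_two hg hxx
  rw [centralizer_zpowers_eq]
  rw [← Subgroup.relIndex_mul_relIndex _ _ _ hCK hKN, hrel]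
  exact dvd_mul_right 2 _

end Cfsg.Agent.S4049
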