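import Mathlib
import Cfsg.Statements.S4050
import Cfsg.Agent.Lib.Helper72.PiClosed

set_option autoImplicit false
set_option linter.style.haveILetI false
open Cfsg

namespace Cfsg.Agent.S4050

open Cfsg.Agent.Lib.Helper72

theorem pow_relIndex_mem {G : Type*} [Group G] (K M : Subgroup G) [K.Normal] {x : G}
    (hx : x ∈ M) : x ^ K.relIndex M ∈ K := by
  have h1 : (⟨x, hx⟩ : M) ^ (K.subgroupOf M).index ∈ K.subgroupOf M :=
    Subgroup.pow_index_mem _ _
  rw [Subgroup.mem_subgroupOf] at h1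
  exact h1

theorem forward_series {G : Type*} [Group G] [Finite G] (π : Set ℕ) (T : Subgroup G)
    (hT : ∀ x : G, x ∈ T ↔ PiElt π x) :
    ∃ (n : ℕ) (H : Fin (n + 1) → Subgroup G), H 0 = ⊥ ∧ H (Fin.last n) = ⊤ ∧ Monotone H ∧
      (∀ i, (H i).Normal) ∧
      ∀ i : Fin n, (∀ q : ℕ, q.Prime → q ∣ (H i.castSucc).relIndex (H i.succ) → q ∈ π) ∨
        (∀ q : ℕ, q.Prime → q ∣ (H i.castSucc).relIndex (H i.succ) → q ∉ π) := by
  have hTn : T.Normal := by
    constructor
    intro n hn g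
    rw [hT] at hn ⊢
    exact hn.conj g
  refine ⟨2, ![⊥, T, ⊤], rfl, rfl, ?_, ?_, ?_⟩
  · rw [Fin.monotone_iff_le_succ]
    intro i
    fin_cases i
    · exact bot_le
    · exact le_top
  · intro i
    fin_cases i
    · exact Subgroup.normal_bot
    · exact hTn
    · exact Subgroup.normal_top
  · intro i
    fin_cases i
    · left
      intro q hq hd
      have hd' : q ∣ Nat.card T := by
        have h1 : (⊥ : Subgroup G).relIndex T = Nat.card T := Subgroup.relIndex_bot_left T
        rw [← h1]; exact hd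
      haveI : Fact q.Prime := ⟨hq⟩
      obtain ⟨y, hy⟩ := exists_prime_orderOf_dvd_card' (G := T) q hd'
      have h2 : PiElt π (y : G) := (hT y).1 y.2
      apply h2 q hq
      rw [Subgroup.orderOf_coe, hy]
    · right
      intro q hq hd hqπ
      have hd' : q ∣ T.relIndex ⊤ := hd
      exact not_dvd_relIndex_of_mem ⊤ T (fun x => by rw [hT]; simp) hq hqπ hd'

theorem forward_hom {G : Type*} [Group G] [Finite G] (π : Set ℕ) (T : Subgroup G)
    (hT : ∀ x : G, x ∈ T ↔ PiElt π x) : PiHom π G := by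
  have hTn : T.Normal := by
    constructor
    intro n hn g
    rw [hT] at hn ⊢
    exact hn.conj g
  intro H _ hH p hp hd hpπ
  haveI : Fact p.Prime := ⟨hp⟩
  haveI : ((Subgroup.centralizer (H : Set G)).subgroupOf
      (Subgroup.normalizer (H : Set G))).Normal := by
    rw [← Subgroup.normalizerMonoidHom_ker]; infer_instance
  have hd' : p ∣ Nat.card (Subgroup.normalizer (H : Set G) ⧸
      (Subgroup.centralizer (H : Set G)).subgroupOf (Subgroup.normalizer (H : Set G))) := hd
  obtain ⟨ybar, hybar⟩ := exists_prime_orderOf_dvd_card' p hd'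
  have hpow : ybar ^ p ^ 1 = 1 := by rw [pow_one, ← hybar]; exact pow_orderOf_eq_one _
  obtain ⟨y, hy, a, ha⟩ := exists_lift_pow_eq_one _ hp ybar 1 hpow
  have hyG : (y : G) ^ p ^ a = 1 := by
    rw [← Subgroup.coe_pow, ha, Subgroup.coe_one]
  have hyT : (y : G) ∈ T := (hT _).2 (piElt_of_pow_prime_pow hpπ hp hyG)
  have hyC : (y : G) ∈ Subgroup.centralizer (H : Set G) := by
    rw [Subgroup.mem_centralizer_iff]
    intro h hh
    have h1 : (y : G) * h * (y : G)⁻¹ ∈ H :=
      (Subgroup.mem_set_normalizer_iff.1 y.2 h).1 hh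
    have h2 : (y : G) * h * (y : G)⁻¹ * h⁻¹ ∈ H := H.mul_mem h1 (H.inv_mem hh)
    have h3 : (y : G) * h * (y : G)⁻¹ * h⁻¹ ∈ T := by
      have h4 : (y : G) * h * (y : G)⁻¹ * h⁻¹ = (y : G) * (h * (y : G)⁻¹ * h⁻¹) := by group
      rw [h4]
      exact T.mul_mem hyT (hTn.conj_mem _ (T.inv_mem hyT) h)
    have h5 : PiElt π ((y : G) * h * (y : G)⁻¹ * h⁻¹) := (hT _).1 h3
    have h6 : orderOf ((y : G) * h * (y : G)⁻¹ * h⁻¹) = 1 := by
      rw [Nat.eq_one_iff_not_exists_prime_dvd]
      intro r hr hrd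
      refine hH r hr ?_ (h5 r hr hrd)
      have h7 : orderOf (⟨_, h2⟩ : H) ∣ Nat.card H := orderOf_dvd_natCard _
      rw [← Subgroup.orderOf_coe] at h7
      exact hrd.trans h7
    rw [orderOf_eq_one_iff] at h6
    have h8 : h * (y : G) = ((y : G) * h * (y : G)⁻¹ * h⁻¹)⁻¹ * ((y : G) * h) := by group
    rw [h8, h6, inv_one, one_mul]
  have hy1 : ybar = 1 := by
    rw [← hy, QuotientGroup.eq_one_iff, Subgroup.mem_subgroupOf]
    exact hyC
  rw [hy1, orderOf_one] at hybar
  exact hp.ne_one hybar.symm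

theorem backward {G : Type*} [Group G] [Finite G] (π : Set ℕ) (hhom : PiHom π G)
    (n : ℕ) (H : Fin (n + 1) → Subgroup G) (h0 : H 0 = ⊥) (hmono : Monotone H)
    (hnorm : ∀ i, (H i).Normal)
    (hstep : ∀ i : Fin n, (∀ q : ℕ, q.Prime → q ∣ (H i.castSucc).relIndex (H i.succ) → q ∈ π) ∨
        (∀ q : ℕ, q.Prime → q ∣ (H i.castSucc).relIndex (H i.succ) → q ∉ π)) :
    ∀ i : Fin (n + 1), ∃ T : Subgroup G, ∀ x, x ∈ T ↔ x ∈ H i ∧ PiElt π x := by
  intro i
  induction i using Fin.induction with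
  | zero =>
    refine ⟨⊥, fun x => ?_⟩
    rw [h0, Subgroup.mem_bot]
    constructor
    · rintro rfl; exact ⟨rfl, piElt_one π⟩
    · exact fun h => h.1
  | succ i ih =>
    haveI := hnorm i.castSucc
    have hle : H i.castSucc ≤ H i.succ := hmono (Fin.castSucc_le_succ i)
    rcases hstep i with hπi | hπi
    · apply exists_piElt_subgroup_of_piHom hhom (H i.castSucc) (H i.succ) ih
      intro x hx
      refine ⟨(H i.castSucc).relIndex (H i.succ), ?_, hπi, pow_relIndex_mem _ _ hx⟩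
      exact (Subgroup.index_ne_zero_of_finite :
        ((H i.castSucc).subgroupOf (H i.succ)).index ≠ 0)
    · obtain ⟨T, hT⟩ := ih
      refine ⟨T, fun x => ?_⟩
      rw [hT]
      constructor
      · exact fun h => ⟨hle h.1, h.2⟩
      · rintro ⟨hx, hxπ⟩
        refine ⟨?_, hxπ⟩
        apply mem_of_pow_mem_of_coprime' (H i.castSucc) x (a := orderOf x)
          (b := (H i.castSucc).relIndex (H i.succ))
        · exact Nat.coprime_of_dvd fun k hk hk1 hk2 => hπi k hk hk2 (hxπ k hk hk1)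
        · rw [pow_orderOf_eq_one]; exact Subgroup.one_mem _
        · exact pow_relIndex_mem _ _ hx


/-- Let π be a set of primes and G a finite group. The π-elements of G (elements whose order is divisible only by primes of π) form a subgroup if and only if G is π-separable (it has a chain of normal subgroups from 1 to G with each successive index divisible only by primes in π or only by primes outside π) and N_G(H)/C_G(H) is a π'-group for every nontrivial π'-subgroup H of G. -/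
theorem result {G : Type*} [Group G] [Finite G] (π : Set ℕ)
    (hπ : ∀ p ∈ π, p.Prime) :
    (∃ K : Subgroup G, ∀ x : G, x ∈ K ↔ ∀ p : ℕ, p.Prime → p ∣ orderOf x → p ∈ π) ↔
    ((∃ (n : ℕ) (H : Fin (n + 1) → Subgroup G), H 0 = ⊥ ∧ H (Fin.last n) = ⊤ ∧ Monotone H ∧ (∀ i, (H i).Normal) ∧
      ∀ i : Fin n, (∀ q : ℕ, q.Prime → q ∣ (H i.castSucc).relIndex (H i.succ) → q ∈ π) ∨
        (∀ q : ℕ, q.Prime → q ∣ (H i.castSucc).relIndex (H i.succ) → q ∉ π)) ∧
     (∀ H : Subgroup G, H ≠ ⊥ → (∀ p : ℕ, p.Prime → p ∣ Nat.card ↥H → p ∉ π) →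
        ∀ p : ℕ, p.Prime → p ∣ (Subgroup.centralizer (H : Set G)).relIndex (Subgroup.normalizer (H : Set G)) → p ∉ π)) := by
  constructor
  · rintro ⟨T, hT⟩
    exact ⟨forward_series π T hT, forward_hom π T hT⟩
  · rintro ⟨⟨n, H, h0, hlast, hmono, hnorm, hstep⟩, hhom⟩
    obtain ⟨T, hT⟩ := backward π hhom n H h0 hmono hnorm hstep (Fin.last n)
    refine ⟨T, fun x => ?_⟩
    rw [hT, hlast]
    exact ⟨fun h => h.2, fun h => ⟨Subgroup.mem_top x, h⟩⟩

end Cfsg.Agent.S4050
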