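import Mathlib
import Cfsg.Statements.S4051
import Cfsg.Agent.Lib.Helper72.PiClosed

set_option autoImplicit false
open Cfsg

namespace Cfsg.Agent.S4051

open Cfsg.Agent.Lib.Helper72


/-- Let π be a set of primes and G a finite group such that N_G(H)/C_G(H) is a π'-group for every nontrivial π'-subgroup H of G. If K is a normal subgroup of G such that the π-elements of K form a subgroup and the π-elements of G/K form a subgroup, then the π-elements of G form a subgroup. -/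
theorem result {G : Type*} [Group G] [Finite G] (π : Set ℕ)
    (hπ : ∀ p ∈ π, p.Prime) (hhom : (∀ H : Subgroup G, H ≠ ⊥ → (∀ p : ℕ, p.Prime → p ∣ Nat.card ↥H → p ∉ π) →
        ∀ p : ℕ, p.Prime → p ∣ (Subgroup.centralizer (H : Set G)).relIndex (Subgroup.normalizer (H : Set G)) → p ∉ π))
    (K : Subgroup G) [K.Normal]
    (hK : ∃ L : Subgroup ↥K, ∀ x : ↥K, x ∈ L ↔ ∀ p : ℕ, p.Prime → p ∣ orderOf x → p ∈ π)
    (hQ : ∃ L : Subgroup (G ⧸ K), ∀ x : G ⧸ K, x ∈ L ↔ ∀ p : ℕ, p.Prime → p ∣ orderOf x → p ∈ π) :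
    (∃ K : Subgroup G, ∀ x : G, x ∈ K ↔ ∀ p : ℕ, p.Prime → p ∣ orderOf x → p ∈ π) := by
  obtain ⟨L₀, hL₀⟩ := hK
  obtain ⟨Mbar, hMbar⟩ := hQ
  have hK' : ∃ L : Subgroup G, ∀ x, x ∈ L ↔ x ∈ K ∧ PiElt π x := by
    refine ⟨L₀.map K.subtype, fun x => ?_⟩
    constructor
    · rintro ⟨y, hy, rfl⟩
      exact ⟨y.2, (piElt_coe y).2 ((hL₀ y).1 hy)⟩
    · rintro ⟨hxK, hx⟩
      exact ⟨⟨x, hxK⟩, (hL₀ _).2 ((piElt_coe (⟨x, hxK⟩ : K)).1 hx), rfl⟩
  obtain ⟨T, hT⟩ := exists_piElt_subgroup_of_piHom hhom K (Mbar.comap (QuotientGroup.mk' K)) hK'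
    (by
      intro x hx
      rw [Subgroup.mem_comap, hMbar] at hx
      refine ⟨orderOf (QuotientGroup.mk' K x), (orderOf_pos _).ne', hx, ?_⟩
      rw [← QuotientGroup.eq_one_iff, QuotientGroup.mk_pow]; exact pow_orderOf_eq_one _)
  refine ⟨T, fun x => ?_⟩
  rw [hT]
  constructor
  · exact fun h => h.2
  · intro h
    refine ⟨?_, h⟩
    rw [Subgroup.mem_comap, hMbar]
    exact PiElt.map h (QuotientGroup.mk' K)

end Cfsg.Agent.S4051
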