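import Cfsg.Statements.S4058
import Mathlib
import Cfsg.Agent.Lib.Helper79.AFT3
import Cfsg.Agent.Lib.Helper72.Frattini

set_option autoImplicit false
open Cfsg

namespace Cfsg.Agent.S4058

open scoped ComplexConjugate
open Cfsg.Agent.Lib.Helper79

section Key

variable {G : Type*} [Group G] [Fintype G]

theorem hom_finite : Finite (G →* ℂˣ) := by
  have := Cfsg.Agent.Lib.Helper4.irr_finite (G := G)
  exact Finite.of_injective _ (linIrr_injective (G := G))

open scoped Classical in
theorem sum_hom (lam : G →* ℂˣ) :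
    ∑ g : G, ((lam g : ℂˣ) : ℂ) = if lam = 1 then (Nat.card G : ℂ) else 0 := by
  split_ifs with h
  · subst h
    simp [Nat.card_eq_fintype_card]
  · obtain ⟨g0, hg0⟩ : ∃ g0, lam g0 ≠ 1 := by
      by_contra hcon
      push Not at hcon
      exact h (MonoidHom.ext hcon)
    have h1 : ∑ g : G, ((lam g : ℂˣ) : ℂ)
        = ((lam g0 : ℂˣ) : ℂ) * ∑ g : G, ((lam g : ℂˣ) : ℂ) := by
      rw [Finset.mul_sum, ← Equiv.sum_comp (Equiv.mulLeft g0)]
      apply Finset.sum_congr rfl
      intro g _
      simp [map_mul]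
    have h2 : ((lam g0 : ℂˣ) : ℂ) ≠ 1 := fun h3 => hg0 (Units.ext h3)
    have h3 : (((lam g0 : ℂˣ) : ℂ) - 1) * ∑ g : G, ((lam g : ℂˣ) : ℂ) = 0 := by
      linear_combination -h1
    rcases mul_eq_zero.1 h3 with h4 | h4
    · exact absurd (sub_eq_zero.1 h4) h2
    · exact h4

theorem sum_norm_irr (χ : Cfsg.IrrCharacter G) :
    ∑ g : G, (χ : G → ℂ) g * conj ((χ : G → ℂ) g) = (Nat.card G : ℂ) := by
  classical
  have h1 := Cfsg.Agent.Lib.Helper4.classInner_irr χ χ
  rw [if_pos rfl, Cfsg.classInner] at h1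
  have hne : (Nat.card G : ℂ) ≠ 0 := Cfsg.Agent.Lib.Helper4.card_ne_zero_complex
  field_simp at h1
  exact h1

/-- The stabilizer of `χ` under twisting has order at most `χ(1)^2`. -/
theorem card_stab_le (χ : Cfsg.IrrCharacter G) (S : Subgroup (G →* ℂˣ))
    (hS : ∀ lam ∈ S, twist lam χ = χ) :
    Nat.card S ≤ (Cfsg.charDegree (χ : G → ℂ)) ^ 2 := by
  classical
  haveI := hom_finite (G := G)
  letI : Fintype S := Fintype.ofFinite S
  set θ : G → ℂ := fun g => ∑ lam : S, (((lam : G →* ℂˣ) g : ℂˣ) : ℂ) with hθ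
  have hcardS : (Fintype.card S : ℂ) = (Nat.card S : ℂ) := by
    rw [Nat.card_eq_fintype_card]
  -- (a)
  have ha : ∀ g, θ g = 0 ∨ θ g = (Nat.card S : ℂ) := by
    intro g
    have h1 : θ g * θ g = (Nat.card S : ℂ) * θ g := by
      simp only [hθ]
      rw [Finset.sum_mul_sum]
      have : ∀ lam : S, ∑ mu : S, (((lam : G →* ℂˣ) g : ℂˣ) : ℂ) * (((mu : G →* ℂˣ) g : ℂˣ) : ℂ)
          = ∑ mu : S, (((mu : G →* ℂˣ) g : ℂˣ) : ℂ) := by
        intro lam
        rw [← Equiv.sum_comp (Equiv.mulLeft lam)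
          (fun mu : S => (((mu : G →* ℂˣ) g : ℂˣ) : ℂ))]
        apply Finset.sum_congr rfl
        intro mu _
        simp
      rw [Finset.sum_congr rfl (fun lam _ => this lam), Finset.sum_const, Finset.card_univ,
        nsmul_eq_mul, hcardS]
    have h2 : θ g * (θ g - (Nat.card S : ℂ)) = 0 := by linear_combination h1
    rcases mul_eq_zero.1 h2 with h3 | h3
    · left; exact h3
    · right; exact sub_eq_zero.1 h3
  -- (b)
  have hb : ∑ g : G, θ g = (Nat.card G : ℂ) := by
    simp only [hθ]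
    rw [Finset.sum_comm]
    simp only [sum_hom]
    rw [Finset.sum_eq_single (1 : S)]
    · simp
    · intro lam _ hne
      rw [if_neg]
      intro h
      exact hne (Subtype.ext h)
    · intro h
      exact absurd (Finset.mem_univ _) h
  -- (c)
  have hc : ∑ g : G, θ g * ((χ : G → ℂ) g * conj ((χ : G → ℂ) g))
      = (Nat.card S : ℂ) * (Nat.card G : ℂ) := by
    simp only [hθ, Finset.sum_mul]
    rw [Finset.sum_comm]
    have : ∀ lam : S, ∑ g : G, (((lam : G →* ℂˣ) g : ℂˣ) : ℂ) *
        ((χ : G → ℂ) g * conj ((χ : G → ℂ) g)) = (Nat.card G : ℂ) := by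
      intro lam
      rw [← sum_norm_irr χ]
      apply Finset.sum_congr rfl
      intro g _
      have h1 := congrArg (fun ψ : Cfsg.IrrCharacter G => (ψ : G → ℂ) g) (hS lam.1 lam.2)
      simp only [twist_apply] at h1
      rw [← mul_assoc, h1]
    rw [Finset.sum_congr rfl (fun lam _ => this lam), Finset.sum_const, Finset.card_univ,
      nsmul_eq_mul, hcardS]
  -- real version
  set t : G → ℝ := fun g => if θ g = 0 then 0 else (Nat.card S : ℝ) with ht
  have htθ : ∀ g, θ g = (t g : ℂ) := by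
    intro g
    simp only [ht]
    rcases ha g with h | h
    · rw [if_pos h, h]; simp
    · by_cases h0 : θ g = 0
      · rw [if_pos h0, h0]; simp
      · rw [if_neg h0, h]; simp
  have ht0 : ∀ g, 0 ≤ t g := by
    intro g
    simp only [ht]
    split_ifs
    · exact le_refl _
    · positivity
  have hb' : ∑ g : G, t g = (Nat.card G : ℝ) := by
    have : ((∑ g : G, t g : ℝ) : ℂ) = ((Nat.card G : ℝ) : ℂ) := by
      push_cast
      rw [← hb]
      exact Finset.sum_congr rfl (fun g _ => (htθ g).symm)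
    exact_mod_cast this
  have hc' : ∑ g : G, t g * Complex.normSq ((χ : G → ℂ) g) = (Nat.card S : ℝ) * (Nat.card G : ℝ) := by
    have : ((∑ g : G, t g * Complex.normSq ((χ : G → ℂ) g) : ℝ) : ℂ)
        = (((Nat.card S : ℝ) * (Nat.card G : ℝ) : ℝ) : ℂ) := by
      push_cast
      rw [← hc]
      apply Finset.sum_congr rfl
      intro g _
      rw [htθ g, Complex.mul_conj]
    exact_mod_cast this
  have hd : ∀ g, Complex.normSq ((χ : G → ℂ) g) ≤ ((Cfsg.charDegree (χ : G → ℂ) : ℝ)) ^ 2 := by
    intro g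
    rw [Complex.normSq_eq_norm_sq]
    have := Cfsg.Agent.Lib.Helper83.irr_norm_le χ.2 g
    exact pow_le_pow_left₀ (norm_nonneg _) this 2
  have hle : (Nat.card S : ℝ) * (Nat.card G : ℝ)
      ≤ ((Cfsg.charDegree (χ : G → ℂ) : ℝ)) ^ 2 * (Nat.card G : ℝ) := by
    rw [← hc', ← hb', Finset.mul_sum]
    apply Finset.sum_le_sum
    intro g _
    rw [mul_comm (((Cfsg.charDegree (χ : G → ℂ) : ℝ)) ^ 2)]
    exact mul_le_mul_of_nonneg_left (hd g) (ht0 g)
  have hGpos : (0 : ℝ) < (Nat.card G : ℝ) := by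
    exact_mod_cast Nat.card_pos
  have hfin := le_of_mul_le_mul_right hle hGpos
  exact_mod_cast hfin

end Key

section Action

variable {G : Type*} [Group G] [Fintype G]

theorem fsInd_twist (lam : G →* ℂˣ) (hlam : lam ^ 2 = 1) (χ : Cfsg.IrrCharacter G) :
    fsInd (twist lam χ : G → ℂ) = fsInd (χ : G → ℂ) := by
  unfold fsInd
  congr 1
  apply Finset.sum_congr rfl
  intro s _
  rw [twist_apply]
  have h1 := congrArg (fun l : G →* ℂˣ => ((l s : ℂˣ) : ℂ)) hlam
  simp only [MonoidHom.pow_apply, Units.val_pow_eq_pow_val, MonoidHom.one_apply,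
    Units.val_one] at h1
  rw [map_mul, Units.val_mul, ← pow_two, h1, one_mul]

theorem fsSign_twist (lam : G →* ℂˣ) (hlam : lam ^ 2 = 1) (χ : Cfsg.IrrCharacter G) :
    fsSign (twist lam χ) = fsSign χ := by
  have h1 := fsSign_spec (twist lam χ)
  rw [fsInd_twist lam hlam, fsSign_spec χ] at h1
  exact_mod_cast h1.symm

noncomputable instance twistAction : MulAction (realLin G) (Cfsg.IrrCharacter G) where
  smul lam χ := twist lam.1 χ
  one_smul := twist_one
  mul_smul a b χ := twist_mul a.1 b.1 χ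

theorem smul_eq_twist (lam : realLin G) (χ : Cfsg.IrrCharacter G) : lam • χ = twist lam.1 χ := rfl

end Action

theorem dvd_sum_of_orbit {L X : Type*} [Group L] [Fintype X] [MulAction L X]
    (f : X → ℤ) (hf : ∀ (l : L) (x : X), f (l • x) = f x) (m : ℤ)
    (h : ∀ x : X, m ∣ (Nat.card (MulAction.orbit L x) : ℤ) * f x) : m ∣ ∑ x, f x := by
  classical
  haveI : Finite (MulAction.orbitRel.Quotient L X) := Quotient.finite _
  letI : Fintype (MulAction.orbitRel.Quotient L X) := Fintype.ofFinite _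
  rw [← Finset.sum_fiberwise Finset.univ
    (fun x : X => (Quotient.mk'' x : MulAction.orbitRel.Quotient L X)) f]
  apply Finset.dvd_sum
  intro ω _
  obtain ⟨x0, rfl⟩ := Quotient.mk''_surjective ω
  have hmem : ∀ x : X, (Quotient.mk'' x : MulAction.orbitRel.Quotient L X) = Quotient.mk'' x0
      ↔ x ∈ MulAction.orbit L x0 := by
    intro x
    rw [Quotient.eq'']
    exact MulAction.orbitRel_apply
  have hconst : ∀ x ∈ Finset.univ.filter (fun x : X =>
      (Quotient.mk'' x : MulAction.orbitRel.Quotient L X) = Quotient.mk'' x0), f x = f x0 := by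
    intro x hx
    rw [Finset.mem_filter, hmem] at hx
    obtain ⟨l, rfl⟩ := hx.2
    exact hf l x0
  rw [Finset.sum_congr rfl hconst, Finset.sum_const, nsmul_eq_mul]
  have hcard : (Finset.univ.filter (fun x : X =>
      (Quotient.mk'' x : MulAction.orbitRel.Quotient L X) = Quotient.mk'' x0)).card
      = Nat.card (MulAction.orbit L x0) := by
    rw [Nat.card_eq_fintype_card, Fintype.card_subtype]
    congr 1
    ext x
    simp only [Finset.mem_filter, Finset.mem_univ, true_and]
    exact hmem x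
  rw [hcard]
  exact h x0

theorem card_quot_le {G : Type*} [Group G] [Finite G] (hG : IsPGroup 2 G) :
    Nat.card (G ⧸ frattini G) ≤ Nat.card (realLin G) := by
  classical
  haveI : Fact (Nat.Prime 2) := ⟨Nat.prime_two⟩
  letI : Fintype G := Fintype.ofFinite G
  haveI := hom_finite (G := G)
  letI : CommGroup (G ⧸ frattini G) :=
    { (inferInstance : Group (G ⧸ frattini G)) with
      mul_comm := by
        intro a b
        induction a using QuotientGroup.induction_on with | _ a => ?_
        induction b using QuotientGroup.induction_on with | _ b => ?_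
        rw [← QuotientGroup.mk_mul, ← QuotientGroup.mk_mul]
        apply QuotientGroup.eq.2
        have := Cfsg.Agent.Lib.Helper72.comm_mem_frattini hG b⁻¹ a⁻¹
        have h2 : (a * b)⁻¹ * (b * a) = b⁻¹ * a⁻¹ * b⁻¹⁻¹ * a⁻¹⁻¹ := by group
        rw [h2]
        exact this }
  haveI : NeZero (Monoid.exponent (G ⧸ frattini G)) := ⟨Monoid.exponent_ne_zero_of_finite⟩
  obtain ⟨e⟩ := CommGroup.monoidHom_mulEquiv_of_hasEnoughRootsOfUnity (G ⧸ frattini G) ℂ
  rw [← Nat.card_congr e.toEquiv]
  have hmem : ∀ φ : (G ⧸ frattini G) →* ℂˣ,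
      φ.comp (QuotientGroup.mk' (frattini G)) ∈ realLin G := by
    intro φ
    rw [mem_realLin]
    ext g
    simp only [MonoidHom.pow_apply, MonoidHom.comp_apply, MonoidHom.one_apply,
      QuotientGroup.mk'_apply]
    rw [← map_pow, ← QuotientGroup.mk_pow,
      (QuotientGroup.eq_one_iff (g ^ 2)).2 (Cfsg.Agent.Lib.Helper72.pow_mem_frattini hG g), map_one]
  apply Nat.card_le_card_of_injective
    (fun φ : (G ⧸ frattini G) →* ℂˣ =>
      (⟨φ.comp (QuotientGroup.mk' (frattini G)), hmem φ⟩ : realLin G))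
  intro φ ψ h
  have h1 := congrArg Subtype.val h
  simp only at h1
  exact (MonoidHom.cancel_right (QuotientGroup.mk'_surjective (frattini G))).1 h1

theorem card_sq_eq {G : Type*} [Group G] [Fintype G] :
    Nat.card {x : G // x ^ 2 = 1} = 1 + Nat.card {x : G // orderOf x = 2} := by
  classical
  haveI : Fact (Nat.Prime 2) := ⟨Nat.prime_two⟩
  have h1 : Finset.univ.filter (fun h : G => h ^ 2 = 1)
      = insert 1 (Finset.univ.filter (fun h : G => orderOf h = 2)) := by
    ext h
    simp only [Finset.mem_filter, Finset.mem_univ, true_and, Finset.mem_insert]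
    rw [orderOf_eq_prime_iff]
    constructor
    · intro hh
      by_cases h1 : h = 1
      · left; exact h1
      · right; exact ⟨hh, h1⟩
    · rintro (rfl | ⟨hh, -⟩)
      · simp
      · exact hh
  have h2 : (1 : G) ∉ Finset.univ.filter (fun h : G => orderOf h = 2) := by
    simp
  rw [Nat.card_eq_fintype_card, Fintype.card_subtype, h1, Finset.card_insert_of_notMem h2,
    Nat.card_eq_fintype_card, Fintype.card_subtype, add_comm]

/-- Let G be a finite 2-group with #(G/Φ(G)) ≥ 2^(2k+1). Then the number of elements x of G with x² = 1 is divisible by 2^(k+1). -/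
theorem result {G : Type*} [Group G] [Finite G] (hG : IsPGroup 2 G) (k : ℕ)
    (hgen : 2 ^ (2 * k + 1) ≤ Nat.card (G ⧸ frattini G)) :
    2 ^ (k + 1) ∣ Nat.card {x : G // x ^ 2 = 1} := by
  classical
  haveI : Fact (Nat.Prime 2) := ⟨Nat.prime_two⟩
  letI : Fintype G := Fintype.ofFinite G
  haveI := Cfsg.Agent.Lib.Helper4.irr_finite (G := G)
  letI : Fintype (Cfsg.IrrCharacter G) := Fintype.ofFinite _
  haveI := hom_finite (G := G)
  have hcount : (Nat.card {x : G // x ^ 2 = 1} : ℤ)
      = ∑ χ : Cfsg.IrrCharacter G, fsSign χ * (Cfsg.charDegree (χ : G → ℂ) : ℤ) := by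
    rw [← one_add_card_involutions, card_sq_eq]
    push_cast
    rfl
  have hp : IsPGroup 2 (realLin G) := by
    intro x
    refine ⟨1, ?_⟩
    apply Subtype.ext
    rw [pow_one]
    exact x.2
  obtain ⟨D, hD⟩ := IsPGroup.iff_card.1 hp
  have hDk : 2 * k + 1 ≤ D := by
    have h1 := hgen.trans (card_quot_le hG)
    rw [hD] at h1
    exact (Nat.pow_le_pow_iff_right (by norm_num)).1 h1
  obtain ⟨n, hn⟩ := IsPGroup.iff_card.1 hG
  rw [← Int.natCast_dvd_natCast, hcount]
  push_cast
  apply dvd_sum_of_orbit (L := realLin G)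
  · intro l χ
    rw [smul_eq_twist, fsSign_twist _ l.2, charDegree_twist]
  · intro χ
    have h1 : Nat.card (MulAction.orbit (realLin G) χ)
        * Nat.card (MulAction.stabilizer (realLin G) χ) = 2 ^ D := by
      rw [← hD, Nat.card_congr (MulAction.orbitEquivQuotientStabilizer (realLin G) χ), mul_comm]
      exact Subgroup.card_mul_index _
    have h2 : Nat.card (MulAction.stabilizer (realLin G) χ)
        ≤ (Cfsg.charDegree (χ : G → ℂ)) ^ 2 := by
      have h3 := card_stab_le χ ((MulAction.stabilizer (realLin G) χ).map (realLin G).subtype)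
        (by
          rintro lam ⟨l, hl, rfl⟩
          exact hl)
      rwa [Subgroup.card_map_of_injective (Subgroup.subtype_injective _)] at h3
    have hdeg : Cfsg.charDegree (χ : G → ℂ) ∣ 2 ^ n := by
      rw [← hn]
      exact Cfsg.Agent.Lib.Helper83.irr_degree_dvd_card χ
    obtain ⟨e, -, he⟩ := (Nat.dvd_prime_pow Nat.prime_two).1 hdeg
    obtain ⟨a, -, ha⟩ := (Nat.dvd_prime_pow Nat.prime_two).1 (Dvd.intro _ h1)
    obtain ⟨s, -, hs⟩ := (Nat.dvd_prime_pow Nat.prime_two).1 (Dvd.intro_left _ h1)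
    rw [ha, hs, ← pow_add] at h1
    have has : a + s = D := Nat.pow_right_injective (le_refl 2) h1
    rw [hs, he, ← pow_mul] at h2
    have hs2 : s ≤ e * 2 := (Nat.pow_le_pow_iff_right (by norm_num)).1 h2
    have hae : k + 1 ≤ a + e := by omega
    rw [ha, he]
    push_cast
    have h5 : ((2 : ℤ) ^ a) * (fsSign χ * (2 : ℤ) ^ e) = (2 : ℤ) ^ (a + e) * fsSign χ := by
      rw [pow_add]; ring
    rw [h5]
    exact Dvd.dvd.mul_right (pow_dvd_pow 2 hae) _

end Cfsg.Agent.S4058
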