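import Mathlib
import Cfsg.Statements.S4065

set_option autoImplicit false
open Cfsg

namespace Cfsg.Agent.S4065

/-- A matrix commuting with a non-scalar `2 × 2` matrix `B` is a polynomial in `B`. -/
theorem exists_eq_add_smul {F : Type*} [Field F] {A B : Matrix (Fin 2) (Fin 2) F}
    (hB : B 0 1 ≠ 0 ∨ B 1 0 ≠ 0 ∨ B 0 0 ≠ B 1 1) (h : A * B = B * A) :
    ∃ α β : F, A = α • (1 : Matrix (Fin 2) (Fin 2) F) + β • B := by
  have h00 := congrFun (congrFun h 0) 0
  have h01 := congrFun (congrFun h 0) 1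
  have h10 := congrFun (congrFun h 1) 0
  have h11 := congrFun (congrFun h 1) 1
  simp only [Matrix.mul_apply, Fin.sum_univ_two] at h00 h01 h10 h11
  rcases hB with hB | hB | hB
  · refine ⟨A 0 0 - A 0 1 / B 0 1 * B 0 0, A 0 1 / B 0 1, ?_⟩
    ext i j
    fin_cases i <;> fin_cases j <;> simp <;> field_simp <;> grind
  · refine ⟨A 0 0 - A 1 0 / B 1 0 * B 0 0, A 1 0 / B 1 0, ?_⟩
    ext i j
    fin_cases i <;> fin_cases j <;> simp <;> field_simp <;> grind
  · have hB' : B 0 0 - B 1 1 ≠ 0 := sub_ne_zero.2 hB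
    refine ⟨A 0 0 - (A 0 0 - A 1 1) / (B 0 0 - B 1 1) * B 0 0,
      (A 0 0 - A 1 1) / (B 0 0 - B 1 1), ?_⟩
    ext i j
    fin_cases i <;> fin_cases j <;> simp <;> field_simp <;> grind

theorem matrix_comm_trans {F : Type*} [Field F] {A B C : Matrix (Fin 2) (Fin 2) F}
    (hB : B 0 1 ≠ 0 ∨ B 1 0 ≠ 0 ∨ B 0 0 ≠ B 1 1) (h : A * B = B * A) (h' : B * C = C * B) :
    A * C = C * A := by
  obtain ⟨α, β, rfl⟩ := exists_eq_add_smul hB h
  simp only [add_mul, mul_add, Matrix.smul_mul, Matrix.mul_smul, Matrix.one_mul, Matrix.mul_one,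
    h']

theorem sq_eq_one_char_two {F : Type*} [Field F] [CharP F 2] {r : F} (h : r ^ 2 = 1) : r = 1 := by
  have h2 : (2 : F) = 0 := CharTwo.two_eq_zero
  have h3 : (r - 1) ^ 2 = 0 := by
    have : (r - 1) ^ 2 = r ^ 2 + 1 - 2 * r := by ring
    rw [this, h, h2]; ring_nf
    rw [h2]
  exact sub_eq_zero.1 ((pow_eq_zero_iff (two_ne_zero)).1 h3)


open Matrix in
theorem center_eq_bot {F : Type*} [Field F] [CharP F 2] :
    Subgroup.center (Matrix.SpecialLinearGroup (Fin 2) F) = ⊥ := by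
  rw [eq_bot_iff]
  intro A hA
  obtain ⟨r, hr, hA'⟩ := Matrix.SpecialLinearGroup.mem_center_iff.1 hA
  rw [Fintype.card_fin] at hr
  have hr1 : r = 1 := sq_eq_one_char_two hr
  rw [Subgroup.mem_bot]
  apply Subtype.ext
  rw [← hA', hr1]
  simp

theorem nonscalar_of_ne_one {F : Type*} [Field F] [CharP F 2]
    {B : Matrix.SpecialLinearGroup (Fin 2) F} (hB : B ≠ 1) :
    B.1 0 1 ≠ 0 ∨ B.1 1 0 ≠ 0 ∨ B.1 0 0 ≠ B.1 1 1 := by
  by_contra hcon
  push Not at hcon
  obtain ⟨h01, h10, h00⟩ := hcon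
  have hdet := B.2
  rw [Matrix.det_fin_two, h01, h10, ← h00] at hdet
  have hr : B.1 0 0 = 1 := sq_eq_one_char_two (by rw [pow_two]; simpa using hdet)
  apply hB
  apply Subtype.ext
  ext i j
  fin_cases i <;> fin_cases j <;> simp [h01, h10, hr, ← h00]

theorem psl_comm_trans {F : Type*} [Field F] [CharP F 2]
    {a b c : Matrix.ProjectiveSpecialLinearGroup (Fin 2) F} (hb : b ≠ 1)
    (h : a * b = b * a) (h' : b * c = c * b) : a * c = c * a := by
  obtain ⟨A, rfl⟩ := QuotientGroup.mk_surjective a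
  obtain ⟨B, rfl⟩ := QuotientGroup.mk_surjective b
  obtain ⟨C, rfl⟩ := QuotientGroup.mk_surjective c
  have hinj : ∀ X Y : Matrix.SpecialLinearGroup (Fin 2) F,
      (QuotientGroup.mk X : Matrix.ProjectiveSpecialLinearGroup (Fin 2) F) = QuotientGroup.mk Y →
      X = Y := by
    intro X Y hXY
    rw [QuotientGroup.eq, center_eq_bot, Subgroup.mem_bot] at hXY
    exact inv_mul_eq_one.1 hXY
  have hB1 : B ≠ 1 := by
    rintro rfl
    exact hb rfl
  have hAB : A * B = B * A := hinj _ _ (by simpa using h)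
  have hBC : B * C = C * B := hinj _ _ (by simpa using h')
  have hAC : A * C = C * A := by
    apply Subtype.ext
    rw [Matrix.SpecialLinearGroup.coe_mul, Matrix.SpecialLinearGroup.coe_mul]
    apply matrix_comm_trans (nonscalar_of_ne_one hB1)
    · rw [← Matrix.SpecialLinearGroup.coe_mul, hAB, Matrix.SpecialLinearGroup.coe_mul]
    · rw [← Matrix.SpecialLinearGroup.coe_mul, hBC, Matrix.SpecialLinearGroup.coe_mul]
  rw [← QuotientGroup.mk_mul, ← QuotientGroup.mk_mul, hAC]

theorem ti_of_comm_trans {G : Type*} [Group G]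
    (T : ∀ a b c : G, b ≠ 1 → a * b = b * a → b * c = c * b → a * c = c * a) (x : G) :
    Cfsg.IsTISubset (Subgroup.centralizer ({x} : Set G) : Set G) := by
  intro g hg y hy hy'
  by_contra hy1
  apply hg
  rw [SetLike.mem_coe, Subgroup.mem_centralizer_iff] at hy hy'
  have hyx : x * y = y * x := hy x rfl
  have hy'x : x * (g * y * g⁻¹) = (g * y * g⁻¹) * x := hy' x rfl
  by_cases hx1 : x = 1
  · subst hx1
    have : Subgroup.centralizer ({1} : Set G) = ⊤ := by
      rw [eq_top_iff]; intro w _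
      rw [Subgroup.mem_centralizer_iff]; rintro _ rfl; simp
    rw [this, Subgroup.mem_set_normalizer_iff]
    intro h; simp
  have hy'1 : g * y * g⁻¹ ≠ 1 := by
    intro h; apply hy1
    have : y = g⁻¹ * (g * y * g⁻¹) * g := by group
    rw [this, h]; group
  rw [Subgroup.mem_set_normalizer_iff]
  intro w
  rw [SetLike.mem_coe, SetLike.mem_coe, Subgroup.mem_centralizer_iff, Subgroup.mem_centralizer_iff]
  constructor
  · intro hw
    have hwx : x * w = w * x := hw x rfl
    have hwy : w * y = y * w := T w x y hx1 hwx.symm hyx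
    have hwy' : (g * w * g⁻¹) * (g * y * g⁻¹) = (g * y * g⁻¹) * (g * w * g⁻¹) := by
      have e1 : (g * w * g⁻¹) * (g * y * g⁻¹) = g * (w * y) * g⁻¹ := by group
      have e2 : (g * y * g⁻¹) * (g * w * g⁻¹) = g * (y * w) * g⁻¹ := by group
      rw [e1, e2, hwy]
    intro v hv
    rw [Set.mem_singleton_iff] at hv
    rw [hv]
    exact (T (g * w * g⁻¹) (g * y * g⁻¹) x hy'1 hwy' hy'x.symm).symm
  · intro hw
    have hwx : x * (g * w * g⁻¹) = (g * w * g⁻¹) * x := hw x rfl
    have hwy' : (g * w * g⁻¹) * (g * y * g⁻¹) = (g * y * g⁻¹) * (g * w * g⁻¹) :=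
      T _ x _ hx1 hwx.symm hy'x
    have hwy : w * y = y * w := by
      have e1 : w * y = g⁻¹ * ((g * w * g⁻¹) * (g * y * g⁻¹)) * g := by group
      have e2 : y * w = g⁻¹ * ((g * y * g⁻¹) * (g * w * g⁻¹)) * g := by group
      rw [e1, e2, hwy']
    intro v hv
    rw [Set.mem_singleton_iff] at hv
    rw [hv]
    exact (T w y x hy1 hwy hyx.symm).symm

/-- Let F be a finite field with 2ⁿ elements, n ≥ 2. In PSL₂(F) the centralizer of every element meets each of its conjugates by elements outside its normalizer trivially. -/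
theorem result (n : ℕ) (hn : 2 ≤ n)
    (x : Matrix.ProjectiveSpecialLinearGroup (Fin 2) (GaloisField 2 n)) :
    Cfsg.IsTISubset (Subgroup.centralizer ({x} : Set (Matrix.ProjectiveSpecialLinearGroup (Fin 2) (GaloisField 2 n))) :
      Set (Matrix.ProjectiveSpecialLinearGroup (Fin 2) (GaloisField 2 n))) := by
  have _ := hn
  exact ti_of_comm_trans (fun a b c hb h h' => psl_comm_trans hb h h') x

end Cfsg.Agent.S4065
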