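import Mathlib
import Cfsg.Statements.S4066
import Cfsg.Agent.Lib.Helper72.Basic

set_option autoImplicit false
open Cfsg
open Cfsg.Agent.Lib.Helper72

namespace Cfsg.Agent.S4066

theorem ti_normalizer {G : Type*} [Group G] {X : Set G} (hX : Cfsg.IsTISubset X) {g x : G}
    (hx : x ∈ X) (hx1 : x ≠ 1) (hgx : g * x * g⁻¹ ∈ X) : g ∈ Subgroup.normalizer X := by
  by_contra hg
  exact hx1 (hX g hg x hx hgx)

theorem le_of_inf_ne_bot {G : Type*} [Group G] [Finite G]
    (hTI : ∀ x : G, Cfsg.IsTISubset (Subgroup.centralizer ({x} : Set G) : Set G))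
    {p : ℕ} [Fact p.Prime] (P Q : Sylow p G) (d : G) (hdP : d ∈ (P : Subgroup G))
    (hdQ : d ∈ (Q : Subgroup G)) (hd1 : d ≠ 1) : (P : Subgroup G) ≤ Q := by
  -- a nontrivial central element of P
  have hnt : Nontrivial (P : Subgroup G) := ⟨⟨⟨d, hdP⟩, 1, fun h => hd1 (congrArg Subtype.val h)⟩⟩
  have hcnt := IsPGroup.center_nontrivial P.isPGroup'
  obtain ⟨z', hz'⟩ := exists_ne (1 : Subgroup.center (P : Subgroup G))
  set z : G := ((z' : (P : Subgroup G)) : G) with hz
  have hz1 : z ≠ 1 := by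
    intro h
    apply hz'
    apply Subtype.ext
    apply Subtype.ext
    exact h
  have hzP : ∀ y : G, y ∈ (P : Subgroup G) → y * z = z * y := by
    intro y hy
    have := Subgroup.mem_center_iff.1 z'.2 ⟨y, hy⟩
    exact congrArg Subtype.val this
  -- Q = g P g⁻¹
  have hidx : ¬ p ∣ (P : Subgroup G).relIndex ⊤ := by
    rw [Subgroup.relIndex_top_right]; exact P.not_dvd_index
  obtain ⟨g, -, hg⟩ := exists_conj_mem_of_isPGroup (le_top) P.isPGroup' Q.isPGroup' hidx
  -- g⁻¹ normalizes C(z)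
  have hdC : d ∈ (Subgroup.centralizer ({z} : Set G) : Set G) :=
    mem_centralizer_singleton_iff'.2 (hzP d hdP).symm
  have hgd : g⁻¹ * d * g⁻¹⁻¹ ∈ (Subgroup.centralizer ({z} : Set G) : Set G) := by
    rw [inv_inv]
    exact mem_centralizer_singleton_iff'.2 (hzP _ (hg d hdQ)).symm
  have hgN := ti_normalizer (hTI z) hdC hd1 hgd
  -- Q ≤ C(z)
  have hQC : ∀ u : G, u ∈ (Q : Subgroup G) → z * u = u * z := by
    intro u hu
    have h1 : g⁻¹ * u * g⁻¹⁻¹ ∈ (Subgroup.centralizer ({z} : Set G) : Set G) := by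
      rw [inv_inv]
      exact mem_centralizer_singleton_iff'.2 (hzP _ (hg u hu)).symm
    have h2 := (Subgroup.mem_set_normalizer_iff.1 hgN u).2 h1
    exact mem_centralizer_singleton_iff'.1 h2
  intro x hxP
  by_cases hx1 : x = 1
  · rw [hx1]; exact one_mem _
  -- Q normalizes C(x)
  have hQN : ∀ u : G, u ∈ (Q : Subgroup G) →
      u ∈ Subgroup.normalizer (Subgroup.centralizer ({x} : Set G) : Set G) := by
    intro u hu
    have hzx : z ∈ (Subgroup.centralizer ({x} : Set G) : Set G) :=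
      mem_centralizer_singleton_iff'.2 (hzP x hxP)
    have huz : u * z * u⁻¹ ∈ (Subgroup.centralizer ({x} : Set G) : Set G) := by
      have : u * z * u⁻¹ = z := by rw [← hQC u hu]; group
      rw [this]; exact hzx
    exact ti_normalizer (hTI x) hzx hz1 huz
  -- the double centralizer
  set B : Subgroup G := Subgroup.centralizer (Subgroup.centralizer ({x} : Set G) : Set G) with hB
  have hxB : x ∈ B := by
    rw [hB, Subgroup.mem_centralizer_iff]
    intro c hc
    exact (mem_centralizer_singleton_iff'.1 hc).symm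
  have hBC : ∀ b : G, b ∈ B → b ∈ Subgroup.centralizer ({x} : Set G) := by
    intro b hb
    rw [hB, Subgroup.mem_centralizer_iff] at hb
    rw [mem_centralizer_singleton_iff']
    exact hb x (mem_centralizer_singleton_iff'.2 rfl)
  have hBcomm : ∀ a b : G, a ∈ B → b ∈ B → Commute a b := by
    intro a b ha hb
    rw [hB, Subgroup.mem_centralizer_iff] at ha
    exact (ha b (hBC b hb)).symm
  let Bp : Subgroup G :=
    { carrier := {y | y ∈ B ∧ ∃ n : ℕ, y ^ p ^ n = 1}
      one_mem' := ⟨B.one_mem, 0, by simp⟩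
      mul_mem' := by
        rintro a b ⟨ha, n, hn⟩ ⟨hb, m, hm⟩
        refine ⟨B.mul_mem ha hb, n + m, ?_⟩
        rw [(hBcomm a b ha hb).mul_pow, pow_add, pow_mul, hn, one_pow, mul_comm (p ^ n), pow_mul, hm,
          one_pow, one_mul]
      inv_mem' := by
        rintro a ⟨ha, n, hn⟩
        exact ⟨B.inv_mem ha, n, by rw [inv_pow, hn, inv_one]⟩ }
  have hBpP : IsPGroup p Bp := by
    intro y
    obtain ⟨n, hn⟩ := y.2.2
    exact ⟨n, Subtype.ext (by simpa using hn)⟩
  have hQBp : (Q : Subgroup G) ≤ Subgroup.normalizer (Bp : Set G) := by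
    intro u hu
    apply mem_normalizer_of_conj_mem
    rintro s ⟨hsB, n, hn⟩
    refine ⟨?_, n, by rw [conj_pow, hn]; group⟩
    rw [hB, Subgroup.mem_centralizer_iff]
    intro c hc
    have hc' : u⁻¹ * c * u ∈ Subgroup.centralizer ({x} : Set G) :=
      (Subgroup.mem_set_normalizer_iff''.1 (hQN u hu) c).1 hc
    rw [hB, Subgroup.mem_centralizer_iff] at hsB
    have h1 := hsB _ hc'
    calc c * (u * s * u⁻¹) = u * ((u⁻¹ * c * u) * s) * u⁻¹ := by group
      _ = u * (s * (u⁻¹ * c * u)) * u⁻¹ := by rw [h1]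
      _ = u * s * u⁻¹ * c := by group
  have hsup : IsPGroup p ((Q : Subgroup G) ⊔ Bp : Subgroup G) :=
    IsPGroup.to_sup_of_normal_right' Q.isPGroup' hBpP hQBp
  have hmax := Q.is_maximal' hsup le_sup_left
  have hxBp : x ∈ Bp := by
    refine ⟨hxB, ?_⟩
    obtain ⟨k, hk⟩ := P.isPGroup' ⟨x, hxP⟩
    exact ⟨k, by simpa using congrArg Subtype.val hk⟩
  have : x ∈ ((Q : Subgroup G) ⊔ Bp : Subgroup G) := Subgroup.mem_sup_right hxBp
  rw [hmax] at this
  exact this

theorem result {G : Type*} [Group G] [Finite G] (hTI : ∀ x : G, Cfsg.IsTISubset (Subgroup.centralizer ({x} : Set G) : Set G))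
    {p : ℕ} [Fact p.Prime] (P Q : Sylow p G) (hPQ : P ≠ Q) : (P : Subgroup G) ⊓ (Q : Subgroup G) = ⊥ := by
  rw [eq_bot_iff]
  intro d hd
  rw [Subgroup.mem_bot]
  by_contra hd1
  apply hPQ
  have hle := le_of_inf_ne_bot hTI P Q d hd.1 hd.2 hd1
  exact Sylow.ext (P.is_maximal' Q.isPGroup' hle).symm

end Cfsg.Agent.S4066
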