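import Cfsg.Statements.S4067
import Cfsg.Agent.Lib.Helper82.AutOrbC
import Cfsg.Agent.Lib.Helper82.CharCore
import Cfsg.Agent.Lib.Helper83.Count
import Cfsg.Agent.Lib.Helper83.Ortho
import Cfsg.Agent.Lib.Helper83.LinearCount

set_option autoImplicit false
open Cfsg

namespace Cfsg.Agent.S4067

open Cfsg.Agent.Lib.Helper82
open scoped BigOperators commutatorElement

/-- If `k(G) * p > |G|` for the least prime `p` dividing `|G|` and `G` is not abelian, then
`|G'| = p` (count the irreducible character degrees). -/
theorem s4067_commutator_card {G : Type*} [Group G] [Finite G] (hna : commutator G ≠ ⊥)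
    (hK : Nat.card G < Nat.card (ConjClasses G) * (Nat.card G).minFac) :
    Nat.card (commutator G) = (Nat.card G).minFac := by
  classical
  haveI : Fintype (IrrCharacter G) := Fintype.ofFinite _
  set p := (Nat.card G).minFac with hpdef
  have hsum := Cfsg.Agent.Lib.Helper83.sum_charDegree_sq (G := G)
  have hL := Cfsg.Agent.Lib.Helper83.card_linear' (G := G)
  have hKc := Cfsg.Agent.Lib.Helper83.card_irr_eq_card_conjClasses (G := G)
  have hdeg : ∀ χ : IrrCharacter G,
      (if charDegree (χ : G → ℂ) = 1 then 1 else p ^ 2) ≤ (charDegree (χ : G → ℂ)) ^ 2 := by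
    intro χ
    split_ifs with h1
    · rw [h1]
      norm_num
    · have hpos := (Cfsg.Agent.Lib.Helper83.irr_degree χ.2).1
      have hdvd := irr_degree_dvd_card χ
      have h2 := Nat.minFac_le_of_dvd (by omega) hdvd
      exact Nat.pow_le_pow_left h2 2
  have h1 : ∑ χ : IrrCharacter G, (if charDegree (χ : G → ℂ) = 1 then 1 else p ^ 2) ≤
      Nat.card G := by
    rw [← hsum]
    exact Finset.sum_le_sum (fun χ _ => hdeg χ)
  have hLsum : (commutator G).index =
      ∑ χ : IrrCharacter G, (if charDegree (χ : G → ℂ) = 1 then 1 else 0) := by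
    rw [← hL, Nat.card_eq_fintype_card, Fintype.card_subtype, Finset.card_filter]
  have hKsum : Nat.card (ConjClasses G) * p ^ 2 = ∑ _χ : IrrCharacter G, p ^ 2 := by
    rw [← hKc, Nat.card_eq_fintype_card, Finset.sum_const, Finset.card_univ, smul_eq_mul]
  have h2 : ∑ χ : IrrCharacter G, (if charDegree (χ : G → ℂ) = 1 then 1 else p ^ 2) +
      (commutator G).index * p ^ 2 = (commutator G).index + Nat.card (ConjClasses G) * p ^ 2 := by
    rw [hKsum, hLsum, Finset.sum_mul, ← Finset.sum_add_distrib, ← Finset.sum_add_distrib]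
    apply Finset.sum_congr rfl
    intro χ _
    split_ifs <;> ring
  have hidx := Subgroup.index_mul_card (commutator G)
  have hcpos : 0 < Nat.card (commutator G) := Nat.card_pos
  have hc1 : Nat.card (commutator G) ≠ 1 := by
    intro h; exact hna (Subgroup.card_eq_one.mp h)
  have hge : p ≤ Nat.card (commutator G) :=
    Nat.minFac_le_of_dvd (by omega) (Subgroup.card_subgroup_dvd_card _)
  obtain ⟨q, hq⟩ : ∃ q, p = q + 1 := ⟨p - 1, by have := Nat.minFac_pos (Nat.card G); omega⟩
  by_contra hne
  have hgt : q + 2 ≤ Nat.card (commutator G) := by omega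
  have e1 : (commutator G).index * (q + 2) ≤ Nat.card G := by
    rw [← hidx]; exact Nat.mul_le_mul_left _ hgt
  have e2 : (Nat.card G + 1) * p ≤ Nat.card (ConjClasses G) * p * p := Nat.mul_le_mul_right p hK
  have e3 : (commutator G).index + Nat.card (ConjClasses G) * p ^ 2 ≤
      Nat.card G + (commutator G).index * p ^ 2 := by
    rw [← h2]; exact Nat.add_le_add_right h1 _
  have e4 := Nat.mul_le_mul_right q e1
  rw [hq] at e2 e3
  nlinarith

theorem s4067_sum_ind {G : Type*} [Group G] [Fintype G] (S : Subgroup G)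
    [DecidablePred (· ∈ S)] :
    ∑ x : G, (if x ∈ S then 1 else 0) = Nat.card S := by
  rw [Finset.sum_boole, Nat.cast_id, Nat.card_eq_fintype_card, Fintype.card_subtype]

/-- Let G be a finite non-abelian group and p the least prime dividing its order. Then the automorphism group of G has at most #G/p orbits on G. -/
theorem result {G : Type*} [Group G] [Finite G] (hna : ¬ IsMulCommutative G) :
    Nat.card (MulAction.orbitRel.Quotient (MulAut G) G) ≤ Nat.card G / (Nat.card G).minFac := by
  classical
  have hZ : Subgroup.center G ≠ ⊤ := by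
    intro h
    apply hna
    refine ⟨⟨fun a b => ?_⟩⟩
    have hb : b ∈ Subgroup.center G := by rw [h]; trivial
    exact (Subgroup.mem_center_iff.mp hb a)
  have hN1 : Nat.card G ≠ 1 := by
    intro h
    apply hZ
    haveI : Subsingleton G := (Nat.card_eq_one_iff_unique.mp h).1
    exact Subsingleton.elim _ _
  have hp : (Nat.card G).minFac.Prime := Nat.minFac_prime hN1
  rw [Nat.le_div_iff_mul_le hp.pos]
  have hA : Nat.card (MulAction.orbitRel.Quotient (MulAut G) G) ≤ Nat.card (ConjClasses G) := by
    apply Nat.card_le_card_of_surjective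
      (Quotient.map' (s₁ := IsConj.setoid G) (s₂ := MulAction.orbitRel (MulAut G) G) id
        (fun a b hab => ?_)) ?_
    · intro q
      induction q using Quotient.inductionOn' with
      | h x => exact ⟨Quotient.mk'' x, rfl⟩
    · obtain ⟨c, hc⟩ := isConj_iff.mp hab
      show a ∈ MulAction.orbit (MulAut G) b
      refine ⟨MulAut.conj c⁻¹, ?_⟩
      show (MulAut.conj c⁻¹) • b = a
      rw [MulAut.smul_def, MulAut.conj_apply, ← hc]
      group
  by_cases hK : Nat.card (ConjClasses G) * (Nat.card G).minFac ≤ Nat.card G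
  · exact le_trans (Nat.mul_le_mul_right _ hA) hK
  push_neg at hK
  have hcomm_ne : commutator G ≠ ⊥ := by
    intro h
    apply hZ
    rw [Subgroup.eq_top_iff']
    intro z
    rw [Subgroup.mem_center_iff]
    intro g
    have h1 : ⁅g, z⁆ ∈ commutator G :=
      Subgroup.commutator_mem_commutator (Subgroup.mem_top _) (Subgroup.mem_top _)
    rw [h, Subgroup.mem_bot, commutatorElement_eq_one_iff_mul_comm] at h1
    exact h1
  have hcard := s4067_commutator_card hcomm_ne hK
  have hc : commutator G ≤ Subgroup.center G := autorb_comm_le_center (le_of_eq hcard)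
  have hpc : (Nat.card (commutator G)).Prime := hcard ▸ hp
  obtain ⟨x₀, hx₀⟩ : ∃ x₀, x₀ ∉ Subgroup.center G := by
    by_contra hcon
    push_neg at hcon
    exact hZ ((Subgroup.eq_top_iff' _).mpr hcon)
  obtain ⟨y, a, hy, haG', hay, hcen, hpow⟩ := autorb_exists_data hc hcard hp x₀ hx₀
  obtain ⟨hHcard, hZcard⟩ := autorb_center_bound hc hcard hp y hy
  have hHidx0 := autorb_centralizer_index hc hpc y hy
  set p := (Nat.card G).minFac with hpdef
  set H : Subgroup G := Subgroup.centralizer {y} with hHdef
  have hmemH : ∀ g, g ∈ H ↔ g * y = y * g := by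
    intro g
    rw [hHdef, Subgroup.mem_centralizer_iff]
    simp only [Set.mem_singleton_iff, forall_eq]
    exact eq_comm
  have hZH : Subgroup.center G ≤ H := Subgroup.center_le_centralizer _
  haveI hHn : H.Normal := by
    constructor
    intro h hh g
    have h1 : ⁅g, h⁆ ∈ H :=
      hZH (hc (Subgroup.commutator_mem_commutator (Subgroup.mem_top _) (Subgroup.mem_top _)))
    have h2 : g * h * g⁻¹ = ⁅g, h⁆ * h := by rw [commutatorElement_def]; group
    rw [h2]
    exact Subgroup.mul_mem _ h1 hh
  have hHidx : H.index = p := by rw [hHidx0, hcard]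
  have hHp : H.index.Prime := hHidx ▸ hp
  obtain ⟨b, hb⟩ : ∃ b, b ∉ H := by
    by_contra hcon
    push_neg at hcon
    have h1 : H = ⊤ := (Subgroup.eq_top_iff' _).mpr hcon
    rw [h1, Subgroup.index_top] at hHidx
    exact hp.one_lt.ne' hHidx.symm
  have haH : a ∈ H := (hmemH a).mpr hay
  obtain ⟨α, hαH, hαb⟩ := autorb_exists_aut H hHp a b haH
    (fun h hh => hcen h ((hmemH h).mp hh)) hb
    (by rw [hHidx]; exact hpow b (fun h => hb ((hmemH b).mpr h)))
  have horbW : ∀ (x : G) (W : Subgroup G), (∀ w ∈ W, x * w ∈ MulAction.orbit (MulAut G) x) →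
      Nat.card W ≤ Nat.card (MulAction.orbit (MulAut G) x) := by
    intro x W hW
    have h1 : (fun w : G => x * w) '' (W : Set G) ⊆ MulAction.orbit (MulAut G) x := by
      rintro _ ⟨w, hw, rfl⟩
      exact hW w hw
    have h2 := Set.ncard_le_ncard h1 (Set.toFinite _)
    rw [Set.ncard_image_of_injective _ (mul_right_injective x)] at h2
    rw [Nat.card_coe_set_eq]
    have h3 : (W : Set G).ncard = Nat.card W := by rw [← Nat.card_coe_set_eq]; rfl
    omega
  have hconj : ∀ x : G, x ∉ Subgroup.center G → ∀ c ∈ commutator G, ∀ g : G,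
      x ∈ MulAction.orbit (MulAut G) g → x * c ∈ MulAction.orbit (MulAut G) g := by
    intro x hx c hcc g hxg
    obtain ⟨t, ht⟩ := autorb_conj_mul hc hpc x hx c hcc
    obtain ⟨β, hβ⟩ := hxg
    refine ⟨MulAut.conj t * β, ?_⟩
    have hβ' : β • g = x := hβ
    show (MulAut.conj t * β) • g = x * c
    rw [mul_smul, hβ', MulAut.smul_def, MulAut.conj_apply, ht]
  have horbZ : ∀ x : G, x ∉ Subgroup.center G →
      p ≤ Nat.card (MulAction.orbit (MulAut G) x) := by
    intro x hx
    rw [← hcard]
    apply horbW x (commutator G)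
    intro w hw
    exact hconj x hx w hw x (MulAction.mem_orbit_self x)
  have horbH : ∀ g : G, g ∉ H → p * p ≤ Nat.card (MulAction.orbit (MulAut G) g) := by
    intro g hg
    obtain ⟨hu, hu'⟩ := autorb_shift H hHp a b haH hb haG' α hαH hαb g hg
    set u := g⁻¹ * α g with hudef
    have hαg : α g = g * u := by rw [hudef]; group
    have hpowα : ∀ j : ℕ, (α ^ j) g = g * u ^ j := by
      intro j
      induction j with
      | zero => simp
      | succ j ih =>
        rw [pow_succ', MulAut.mul_apply, ih, map_mul, map_pow, hαH u hu, hαg, pow_succ']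
        group
    set W : Subgroup G := Subgroup.zpowers u ⊔ commutator G with hWdef
    have hW1 : commutator G ≤ W := le_sup_right
    have hW2 : commutator G ≠ W := by
      intro h
      apply hu'
      rw [h]
      exact (le_sup_left : Subgroup.zpowers u ≤ W) (Subgroup.mem_zpowers u)
    have hWcard : p * p ≤ Nat.card W := by
      have h1 := autorb_card_mul_minFac_le hW1 hW2
      rwa [hcard] at h1
    refine le_trans hWcard (horbW g W ?_)
    intro w hw
    have hw' : w ∈ ((Subgroup.zpowers u ⊔ commutator G : Subgroup G) : Set G) := hw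
    rw [Subgroup.mul_normal] at hw'
    obtain ⟨u', hu'z, c, hcc, rfl⟩ := Set.mem_mul.mp hw'
    obtain ⟨j, rfl⟩ := (mem_powers_iff_mem_zpowers.mpr hu'z)
    rw [← mul_assoc]
    apply hconj (g * u ^ j) ?_ c hcc g ?_
    · intro hmem
      apply hg
      have h1 : g * u ^ j ∈ H := hZH hmem
      have h2 : u ^ j ∈ H := Subgroup.pow_mem _ hu j
      have h3 := Subgroup.mul_mem _ h1 (Subgroup.inv_mem _ h2)
      simpa using h3
    · refine ⟨α ^ j, ?_⟩
      show (α ^ j) • g = g * u ^ j
      rw [MulAut.smul_def, hpowα]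
  haveI : Fintype G := Fintype.ofFinite G
  have hcount := autorb_orbit_count_bound (A := MulAut G) (X := G) (p * p)
    (fun x => 1 + (p - 1) * (if x ∈ H then 1 else 0) +
      (p * p - p) * (if x ∈ Subgroup.center G then 1 else 0)) ?_
  · rw [Finset.sum_add_distrib, Finset.sum_add_distrib, ← Finset.mul_sum, ← Finset.mul_sum,
      s4067_sum_ind, s4067_sum_ind, Finset.sum_const, Finset.card_univ, smul_eq_mul, mul_one,
      ← Nat.card_eq_fintype_card] at hcount
    obtain ⟨q, hq⟩ : ∃ q, p = q + 1 := ⟨p - 1, by have := hp.pos; omega⟩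
    have e1 : p - 1 = q := by omega
    have e2 : p * p - p = q * p := by
      rw [hq]
      apply Nat.sub_eq_of_eq_add
      ring
    rw [e1, e2] at hcount
    have e3 := Nat.mul_le_mul_left q hZcard
    have e4 := Nat.mul_le_mul_left (Nat.card H) (Nat.le_mul_self q)
    apply Nat.le_of_mul_le_mul_left (c := p) _ hp.pos
    rw [hq] at hcount hHcard e3 ⊢
    nlinarith
  · intro x
    by_cases hxZ : x ∈ Subgroup.center G
    · have hxH : x ∈ H := hZH hxZ
      simp only [hxZ, hxH, if_true, mul_one]
      have hpos : 0 < Nat.card (MulAction.orbit (MulAut G) x) :=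
        Nat.card_pos_iff.mpr ⟨⟨⟨x, MulAction.mem_orbit_self x⟩⟩, inferInstance⟩
      have h1 : 1 + (p - 1) + (p * p - p) = p * p := by
        have h2 := hp.pos
        have h3 : p ≤ p * p := Nat.le_mul_self p
        omega
      rw [h1]
      exact Nat.le_mul_of_pos_right _ hpos
    · by_cases hxH : x ∈ H
      · simp only [hxZ, hxH, if_true, if_false, mul_one, mul_zero, add_zero]
        have h1 : 1 + (p - 1) = p := by have h2 := hp.pos; omega
        rw [h1]
        exact Nat.mul_le_mul_left p (horbZ x hxZ)
      · simp only [hxZ, hxH, if_false, mul_zero, add_zero, one_mul]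
        exact horbH x hxH

end Cfsg.Agent.S4067
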