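import Mathlib
import Cfsg.Statements.S4071
import Cfsg.Agent.Lib.Helper72.Basic
import Cfsg.Agent.Lib.Helper1.SZ

set_option autoImplicit false
set_option linter.style.haveILetI false
open Cfsg

namespace Cfsg.Agent.S4071

open Cfsg.Agent.Lib.Helper72

theorem sup_comm_of_comm {G : Type*} [Group G] (A B : Subgroup G)
    (hA : ∀ a ∈ A, ∀ b ∈ A, a * b = b * a) (hB : ∀ a ∈ B, ∀ b ∈ B, a * b = b * a)
    (hAB : ∀ a ∈ A, ∀ b ∈ B, a * b = b * a) :
    ∀ u ∈ A ⊔ B, ∀ v ∈ A ⊔ B, u * v = v * u := by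
  have h1 : A ≤ Subgroup.centralizer (A : Set G) :=
    fun a ha => Subgroup.mem_centralizer_iff.2 (fun b hb => hA b hb a ha)
  have h2 : B ≤ Subgroup.centralizer (A : Set G) :=
    fun b hb => Subgroup.mem_centralizer_iff.2 (fun a ha => hAB a ha b hb)
  have h3 : A ≤ Subgroup.centralizer (B : Set G) := Subgroup.le_centralizer_iff.1 h2
  have h4 : B ≤ Subgroup.centralizer (B : Set G) :=
    fun a ha => Subgroup.mem_centralizer_iff.2 (fun b hb => hB b hb a ha)
  have h5 : A ⊔ B ≤ Subgroup.centralizer (A : Set G) := sup_le h1 h2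
  have h6 : A ⊔ B ≤ Subgroup.centralizer (B : Set G) := sup_le h3 h4
  have h7 : A ≤ Subgroup.centralizer ((A ⊔ B : Subgroup G) : Set G) :=
    Subgroup.le_centralizer_iff.1 h5
  have h8 : B ≤ Subgroup.centralizer ((A ⊔ B : Subgroup G) : Set G) :=
    Subgroup.le_centralizer_iff.1 h6
  have h9 : A ⊔ B ≤ Subgroup.centralizer ((A ⊔ B : Subgroup G) : Set G) := sup_le h7 h8
  intro u hu v hv
  exact Subgroup.mem_centralizer_iff.1 (h9 hv) u hu

theorem exists_mul_of_mem_sup_normal {G : Type*} [Group G] (H N : Subgroup G) [N.Normal] {g : G}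
    (hg : g ∈ H ⊔ N) : ∃ h ∈ H, ∃ n ∈ N, g = h * n := by
  have h1 : g ∈ ((H ⊔ N : Subgroup G) : Set G) := hg
  rw [Subgroup.mul_normal, Set.mem_mul] at h1
  obtain ⟨h, hh, n, hn, rfl⟩ := h1
  exact ⟨h, hh, n, hn, rfl⟩

theorem zpowers_comm {G : Type*} [Group G] (z : G) :
    ∀ a ∈ Subgroup.zpowers z, ∀ b ∈ Subgroup.zpowers z, a * b = b * a := by
  intro a ha b hb
  obtain ⟨s, rfl⟩ := Subgroup.mem_zpowers_iff.1 ha
  obtain ⟨t, rfl⟩ := Subgroup.mem_zpowers_iff.1 hb
  rw [← zpow_add, ← zpow_add, add_comm]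

theorem sn_of_structure {G : Type*} [Group G] [Finite G] (x : G) (A : Subgroup G) (p : ℕ)
    (hp : p.Prime) [hAn : A.Normal]
    (hAab : ∀ a ∈ A, ∀ b ∈ A, a * b = b * a) (k : ℕ) (hxo : orderOf x = p ^ k)
    (hcompl : (Subgroup.zpowers x).IsComplement' A)
    (hxp : x ^ p ∈ Subgroup.center G) (hfpf : ∀ a : G, a ∈ A → a ≠ 1 → x * a * x⁻¹ ≠ a)
    (H : Subgroup G) (hH : ¬ IsMulCommutative H) : Subgroup.normalizer (H : Set G) = H := by
  apply le_antisymm _ Subgroup.le_normalizer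
  intro g hg
  have htop : Subgroup.zpowers x ⊔ A = ⊤ := hcompl.sup_eq_top
  have hM₀ : ∀ u ∈ A ⊔ Subgroup.zpowers (x ^ p), ∀ v ∈ A ⊔ Subgroup.zpowers (x ^ p),
      u * v = v * u := by
    apply sup_comm_of_comm A _ hAab (zpowers_comm _)
    intro a _ b hb
    obtain ⟨t, rfl⟩ := Subgroup.mem_zpowers_iff.1 hb
    have hc : (x ^ p) ^ t ∈ Subgroup.center G := Subgroup.zpow_mem _ hxp t
    exact Subgroup.mem_center_iff.1 hc a
  obtain ⟨h, hhH, hhM⟩ : ∃ h ∈ H, h ∉ A ⊔ Subgroup.zpowers (x ^ p) := by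
    by_contra hcon
    push Not at hcon
    exact hH (isMulCommutative_iff.2 fun u v =>
      Subtype.ext (hM₀ u (hcon u u.2) v (hcon v v.2)))
  obtain ⟨y, hy, a, ha, hya⟩ :=
    exists_mul_of_mem_sup_normal (Subgroup.zpowers x) A (htop ▸ Subgroup.mem_top h)
  obtain ⟨n, hn⟩ := (mem_powers_iff_mem_zpowers).2 hy
  have hn' : x ^ n = y := hn
  have hpn : ¬ p ∣ n := by
    rintro ⟨j, rfl⟩
    apply hhM
    rw [hya, ← hn', pow_mul]
    exact Subgroup.mul_mem _
      ((le_sup_right : Subgroup.zpowers (x ^ p) ≤ _) (Subgroup.pow_mem _ (Subgroup.mem_zpowers _) j))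
      ((le_sup_left : A ≤ _) ha)
  obtain ⟨m, hm⟩ := exists_pow_eq_self_of_coprime (x := x) (n := n)
    (by rw [hxo]; exact Nat.Coprime.pow_right _ ((Nat.Prime.coprime_iff_not_dvd hp).2 hpn).symm)
  have hfh : ∀ b ∈ A, b ≠ 1 → h * b * h⁻¹ ≠ b := by
    intro b hb hb1 hcon
    have h1 : h * b * h⁻¹ = x ^ n * b * (x ^ n)⁻¹ := by
      have hab : a * b = b * a := hAab a ha b hb
      calc h * b * h⁻¹ = x ^ n * (a * b) * a⁻¹ * (x ^ n)⁻¹ := by rw [hya, ← hn']; group
        _ = x ^ n * (b * a) * a⁻¹ * (x ^ n)⁻¹ := by rw [hab]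
        _ = x ^ n * b * (x ^ n)⁻¹ := by group
    rw [h1] at hcon
    have hc : Commute (x ^ n) b := mul_inv_eq_iff_eq_mul.1 hcon
    have hc2 : Commute x b := by rw [← hm]; exact hc.pow_left m
    exact hfpf b hb hb1 (by rw [hc2.eq, mul_inv_cancel_right])
  have htop2 : Subgroup.zpowers h ⊔ A = ⊤ := by
    rw [eq_top_iff, ← htop]
    refine sup_le ?_ le_sup_right
    rw [Subgroup.zpowers_le]
    have h1 : x ^ n ∈ Subgroup.zpowers h ⊔ A := by
      have : x ^ n = h * a⁻¹ := by rw [hya, ← hn']; group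
      rw [this]
      exact Subgroup.mul_mem _ ((le_sup_left : Subgroup.zpowers h ≤ _) (Subgroup.mem_zpowers h))
        ((le_sup_right : A ≤ _) (A.inv_mem ha))
    rw [← hm]; exact Subgroup.pow_mem _ h1 m
  obtain ⟨h', hh', a'', ha'', rfl⟩ :=
    exists_mul_of_mem_sup_normal (Subgroup.zpowers h) A (htop2 ▸ Subgroup.mem_top g)
  have hh'H : h' ∈ H := (Subgroup.zpowers_le.2 hhH) hh'
  have ha''N : a'' ∈ Subgroup.normalizer (H : Set G) := by
    have : a'' = h'⁻¹ * (h' * a'') := by group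
    rw [this]
    exact Subgroup.mul_mem _ (Subgroup.inv_mem _ (Subgroup.le_normalizer hh'H)) hg
  have hAconj : ∀ u ∈ A, u * h * u⁻¹ * h⁻¹ ∈ A := by
    intro u hu
    have : u * h * u⁻¹ * h⁻¹ = u * (h * u⁻¹ * h⁻¹) := by group
    rw [this]; exact A.mul_mem hu (hAn.conj_mem _ (A.inv_mem hu) h)
  have hcH : a'' * h * a''⁻¹ * h⁻¹ ∈ H :=
    H.mul_mem ((Subgroup.mem_set_normalizer_iff.1 ha''N h).1 hhH) (H.inv_mem hhH)
  have hinj : ∀ u ∈ A, ∀ v ∈ A, u * h * u⁻¹ * h⁻¹ = v * h * v⁻¹ * h⁻¹ → u = v := by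
    intro u hu v hv he
    have h1 : u * h * u⁻¹ = v * h * v⁻¹ := mul_right_cancel he
    have h2 : h * (v⁻¹ * u) * h⁻¹ = v⁻¹ * u := by
      have h3 : v⁻¹ * u * h = h * (v⁻¹ * u) := by
        calc v⁻¹ * u * h = v⁻¹ * (u * h * u⁻¹) * u := by group
          _ = v⁻¹ * (v * h * v⁻¹) * u := by rw [h1]
          _ = h * (v⁻¹ * u) := by group
      rw [← h3]; group
    by_contra hne
    exact hfh (v⁻¹ * u) (A.mul_mem (A.inv_mem hv) hu)
      (fun h3 => hne (by rw [inv_mul_eq_one] at h3; exact h3.symm)) h2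
  let ψ : (H ⊓ A : Subgroup G) → (H ⊓ A : Subgroup G) := fun b =>
    ⟨(b : G) * h * (b : G)⁻¹ * h⁻¹,
      ⟨H.mul_mem (H.mul_mem (H.mul_mem b.2.1 hhH) (H.inv_mem b.2.1)) (H.inv_mem hhH),
        hAconj _ b.2.2⟩⟩
  have hψinj : Function.Injective ψ := by
    intro b b' hbb'
    apply Subtype.ext
    exact hinj _ b.2.2 _ b'.2.2 (congrArg Subtype.val hbb')
  obtain ⟨b, hb⟩ := (Finite.injective_iff_surjective.1 hψinj) ⟨_, ⟨hcH, hAconj _ ha''⟩⟩
  have hab : a'' = (b : G) := hinj _ ha'' _ b.2.2 (congrArg Subtype.val hb).symm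
  rw [hab]
  exact H.mul_mem hh'H b.2.1


theorem mem_of_pow_mem_of_coprime {G : Type*} [Group G] (N : Subgroup G) (g : G) {a b : ℕ}
    (hab : Nat.Coprime a b) (ha : g ^ a ∈ N) (hb : g ^ b ∈ N) : g ∈ N := by
  obtain ⟨u, v, huv⟩ := Nat.isCoprime_iff_coprime.2 hab
  have : g = (g ^ a) ^ u * (g ^ b) ^ v := by
    rw [← zpow_natCast, ← zpow_natCast, ← zpow_mul, ← zpow_mul, ← zpow_add, mul_comm _ u,
      mul_comm _ v, huv, zpow_one]
  rw [this]
  exact N.mul_mem (N.zpow_mem ha u) (N.zpow_mem hb v)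

theorem coprime_orderOf_pow_ordProj {G : Type*} [Group G] [Finite G] {p : ℕ} (hp : p.Prime)
    (g : G) : (orderOf (g ^ (p ^ (orderOf g).factorization p))).Coprime p := by
  have hn0 : orderOf g ≠ 0 := (orderOf_pos g).ne'
  have hdvd : orderOf (g ^ (p ^ (orderOf g).factorization p)) ∣
      orderOf g / p ^ (orderOf g).factorization p := by
    apply orderOf_dvd_of_pow_eq_one
    rw [← pow_mul, Nat.mul_div_cancel' (Nat.ordProj_dvd _ _), pow_orderOf_eq_one]
  exact Nat.Coprime.coprime_dvd_left hdvd (Nat.coprime_ordCompl hp hn0).symm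

theorem eq_one_of_pow_prime_pow {G : Type*} [Group G] {g : G} {p j : ℕ}
    (h1 : g ^ (p ^ j) = 1) (h2 : (orderOf g).Coprime p) : g = 1 := by
  rw [← orderOf_eq_one_iff]
  exact Nat.Coprime.eq_one_of_dvd (Nat.Coprime.pow_right j h2) (orderOf_dvd_of_pow_eq_one h1)

theorem pow_index_mem_commutator {G : Type*} [Group G] (H : Subgroup G) [H.FiniteIndex] (z : G)
    (hzc : z ∈ Subgroup.center G) (hzH : z ∈ H) (hzG : z ∈ commutator G) :
    (⟨z ^ H.index, H.pow_mem hzH _⟩ : H) ∈ commutator H := by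
  have key : ∀ (k : ℕ) (g₀ : G), g₀⁻¹ * z ^ k * g₀ ∈ H → g₀⁻¹ * z ^ k * g₀ = z ^ k := by
    intro k g₀ _
    have hc : z ^ k ∈ Subgroup.center G := Subgroup.pow_mem _ hzc k
    rw [Subgroup.mem_center_iff] at hc
    rw [mul_assoc, ← hc g₀, inv_mul_cancel_left]
  have h1 := MonoidHom.transfer_eq_pow (H := H)
    (Abelianization.of : H →* Abelianization H) z key
  have h2 : MonoidHom.transfer (Abelianization.of : H →* Abelianization H) z = 1 :=
    (Abelianization.commutator_subset_ker _) hzG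
  rw [h2] at h1
  rw [← Abelianization.ker_of, MonoidHom.mem_ker]
  exact h1.symm

theorem pow_orderOf_eq_one_of_comm_fix {G : Type*} [Group G] (x a b : G)
    (hb : b = a * x * a⁻¹ * x⁻¹) (hxb : x * b = b * x) : b ^ orderOf x = 1 := by
  have h0 : x * a * x⁻¹ = b⁻¹ * a := by rw [hb]; group
  have hcb : Commute x b⁻¹ := (show Commute x b from hxb).inv_right
  have hind : ∀ i : ℕ, x ^ i * a * (x ^ i)⁻¹ = (b⁻¹) ^ i * a := by
    intro i
    induction i with
    | zero => simp
    | succ i ih =>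
      have e1 : x ^ (i + 1) * a * (x ^ (i + 1))⁻¹ = x * (x ^ i * a * (x ^ i)⁻¹) * x⁻¹ := by
        rw [pow_succ']; group
      have hc2 : x * b⁻¹ ^ i = b⁻¹ ^ i * x := (hcb.pow_right i).eq
      rw [e1, ih]
      calc x * (b⁻¹ ^ i * a) * x⁻¹ = (x * b⁻¹ ^ i) * a * x⁻¹ := by group
        _ = b⁻¹ ^ i * x * a * x⁻¹ := by rw [hc2]
        _ = b⁻¹ ^ i * (x * a * x⁻¹) := by group
        _ = b⁻¹ ^ (i + 1) * a := by rw [h0, pow_succ]; group
  have h1 := hind (orderOf x)
  rw [pow_orderOf_eq_one, one_mul, inv_one, mul_one] at h1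
  have h2 : b⁻¹ ^ orderOf x = 1 := by
    have := mul_right_cancel (h1.symm.trans (one_mul a).symm)
    exact this
  rw [inv_pow, inv_eq_one] at h2
  exact h2


theorem structure_of_sn {G : Type*} [Group G] [Finite G] [Group.IsSolvable G]
    (hnn : ¬ Group.IsNilpotent G)
    (hS : ∀ H : Subgroup G, ¬ IsMulCommutative H → Subgroup.normalizer (H : Set G) = H) :
    ∃ (x : G) (A : Subgroup G) (p : ℕ), p.Prime ∧ A.Normal ∧ IsMulCommutative A ∧
      (∃ k : ℕ, orderOf x = p ^ k) ∧ ¬ p ∣ Nat.card A ∧ (Subgroup.zpowers x).IsComplement' A ∧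
      x ^ p ∈ Subgroup.center G ∧ ∀ a : G, a ∈ A → a ≠ 1 → x * a * x⁻¹ ≠ a := by
  classical
  have habN : ∀ K : Subgroup G, K.Normal → K ≠ ⊤ → ∀ a ∈ K, ∀ b ∈ K, a * b = b * a := by
    intro K hK hKtop a ha b hb
    by_contra hne
    have hnc : ¬ IsMulCommutative K := by
      intro hc
      exact hne (congrArg Subtype.val ((isMulCommutative_iff.1 hc) ⟨a, ha⟩ ⟨b, hb⟩))
    have := hS K hnc
    rw [Subgroup.normalizer_eq_top_iff.2 hK] at this
    exact hKtop this.symm
  have hnt : Nontrivial G := by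
    by_contra h
    rw [not_nontrivial_iff_subsingleton] at h
    exact hnn inferInstance
  obtain ⟨M, hMn, hMp⟩ := Cfsg.Agent.Lib.Helper1.exists_normal_prime_index G
  haveI := hMn
  obtain ⟨p, hpM⟩ : ∃ p, p = M.index := ⟨_, rfl⟩
  rw [← hpM] at hMp
  haveI : Fact p.Prime := ⟨hMp⟩
  have hMtop : M ≠ ⊤ := by
    rintro rfl
    rw [Subgroup.index_top] at hpM
    exact hMp.one_lt.ne' hpM
  have hMab := habN M hMn hMtop
  let A : Subgroup G :=
    { carrier := {g | g ∈ M ∧ (orderOf g).Coprime p}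
      one_mem' := ⟨M.one_mem, by simp⟩
      mul_mem' := by
        rintro a b ⟨ha, hac⟩ ⟨hb, hbc⟩
        refine ⟨M.mul_mem ha hb, ?_⟩
        have hc : Commute a b := hMab a ha b hb
        exact Nat.Coprime.coprime_dvd_left hc.orderOf_mul_dvd_lcm
          (Nat.Coprime.coprime_dvd_left (Nat.lcm_dvd_mul _ _) (Nat.Coprime.mul_left hac hbc))
      inv_mem' := by
        rintro a ⟨ha, hac⟩
        exact ⟨M.inv_mem ha, by rwa [orderOf_inv]⟩ }
  have hAM : ∀ g, g ∈ A → g ∈ M := fun g hg => hg.1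
  have hAc : ∀ g, g ∈ A → (orderOf g).Coprime p := fun g hg => hg.2
  have hAn : A.Normal := by
    constructor
    intro a ha g
    exact ⟨hMn.conj_mem a ha.1 g, by rw [orderOf_conj_eq]; exact ha.2⟩
  haveI := hAn
  have hAab : ∀ a ∈ A, ∀ b ∈ A, a * b = b * a := fun a ha b hb => hMab a ha.1 b hb.1
  have hpA : ¬ p ∣ Nat.card A := by
    intro hd
    obtain ⟨a, ha⟩ := exists_prime_orderOf_dvd_card' (G := A) p hd
    have h1 : (orderOf (a : G)).Coprime p := a.2.2
    rw [Subgroup.orderOf_coe, ha] at h1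
    exact hMp.one_lt.ne' ((Nat.coprime_self p).1 h1)
  have hQp : IsPGroup p (G ⧸ A) := by
    intro g
    obtain ⟨g₀, rfl⟩ := QuotientGroup.mk_surjective g
    have h1 : g₀ ^ p ∈ M := by rw [hpM]; exact M.pow_index_mem g₀
    refine ⟨(orderOf (g₀ ^ p)).factorization p + 1, ?_⟩
    rw [← QuotientGroup.mk_pow, QuotientGroup.eq_one_iff, pow_succ', pow_mul]
    exact ⟨M.pow_mem h1 _, coprime_orderOf_pow_ordProj hMp (g₀ ^ p)⟩
  obtain ⟨g, hg⟩ : ∃ g : G, g ∉ M := by
    by_contra hcon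
    push Not at hcon
    exact hMtop (eq_top_iff.2 fun g _ => hcon g)
  obtain ⟨x, hxM, k, hxo⟩ : ∃ x : G, x ∉ M ∧ ∃ k : ℕ, orderOf x = p ^ k := by
    have hn0 : orderOf g ≠ 0 := (orderOf_pos g).ne'
    refine ⟨g ^ (orderOf g / p ^ (orderOf g).factorization p), ?_, ?_⟩
    · intro hmem
      apply hg
      have h1 : g ^ p ∈ M := by rw [hpM]; exact M.pow_index_mem g
      exact mem_of_pow_mem_of_coprime M g (Nat.coprime_ordCompl hMp hn0).symm hmem h1
    · have hd : orderOf (g ^ (orderOf g / p ^ (orderOf g).factorization p)) ∣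
          p ^ (orderOf g).factorization p := by
        apply orderOf_dvd_of_pow_eq_one
        rw [← pow_mul, Nat.div_mul_cancel (Nat.ordProj_dvd _ _), pow_orderOf_eq_one]
      obtain ⟨k, -, hk⟩ := (Nat.dvd_prime_pow hMp).1 hd
      exact ⟨k, hk⟩
  have hMx : M ⊔ Subgroup.zpowers x = ⊤ := by
    have h1 : (M ⊔ Subgroup.zpowers x).index ∣ p := hpM ▸ Subgroup.index_dvd_of_le le_sup_left
    rcases (Nat.dvd_prime hMp).1 h1 with h2 | h2
    · exact Subgroup.index_eq_one.1 h2
    · exfalso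
      have h3 := Subgroup.relIndex_mul_index (le_sup_left : M ≤ M ⊔ Subgroup.zpowers x)
      rw [h2, ← hpM] at h3
      have h4 : M.relIndex (M ⊔ Subgroup.zpowers x) = 1 :=
        Nat.eq_of_mul_eq_mul_right hMp.pos (h3.trans (one_mul p).symm)
      rw [Subgroup.relIndex_eq_one] at h4
      exact hxM (h4 ((le_sup_right : Subgroup.zpowers x ≤ _) (Subgroup.mem_zpowers x)))
  have hxA : ¬ ∀ a ∈ A, x * a = a * x := by
    intro hc
    apply hnn
    have hAcen : A ≤ Subgroup.center G := by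
      intro a ha
      rw [Subgroup.mem_center_iff]
      intro g
      have hg : g ∈ Subgroup.centralizer ({a} : Set G) := by
        have hle : M ⊔ Subgroup.zpowers x ≤ Subgroup.centralizer ({a} : Set G) := by
          refine sup_le (fun m hm => mem_centralizer_singleton_iff'.2 (hMab a ha.1 m hm)) ?_
          rw [Subgroup.zpowers_le]
          exact mem_centralizer_singleton_iff'.2 (hc a ha).symm
        exact hle (hMx ▸ Subgroup.mem_top g)
      exact (mem_centralizer_singleton_iff'.1 hg).symm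
    haveI : Group.IsNilpotent (G ⧸ A) := hQp.isNilpotent
    exact Subgroup.isNilpotent_of_ker_le_center (QuotientGroup.mk' A)
      (by rw [QuotientGroup.ker_mk']; exact hAcen)
  have hAx : A ⊔ Subgroup.zpowers x = ⊤ := by
    by_contra hne
    have hna : ¬ IsMulCommutative (A ⊔ Subgroup.zpowers x : Subgroup G) := by
      intro hc
      apply hxA
      intro a ha
      exact congrArg Subtype.val ((isMulCommutative_iff.1 hc)
        ⟨x, (le_sup_right : Subgroup.zpowers x ≤ _) (Subgroup.mem_zpowers x)⟩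
        ⟨a, (le_sup_left : A ≤ _) ha⟩)
    have hself := hS _ hna
    haveI : Group.IsNilpotent (G ⧸ A) := hQp.isNilpotent
    obtain ⟨Hb, hHb⟩ : ∃ Hb : Subgroup (G ⧸ A),
        Hb = (A ⊔ Subgroup.zpowers x).map (QuotientGroup.mk' A) := ⟨_, rfl⟩
    have hcomap : Hb.comap (QuotientGroup.mk' A) = A ⊔ Subgroup.zpowers x := by
      rw [hHb]
      exact Subgroup.comap_map_eq_self (by rw [QuotientGroup.ker_mk']; exact le_sup_left)
    have hHbtop : Hb ≠ ⊤ := by
      intro h
      rw [h, Subgroup.comap_top] at hcomap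
      exact hne hcomap.symm
    have hlt := Group.normalizerCondition_of_isNilpotent (G := G ⧸ A) Hb
      (lt_top_iff_ne_top.2 hHbtop)
    obtain ⟨yb, hybN, hybH⟩ := SetLike.exists_of_lt hlt
    obtain ⟨y, rfl⟩ := QuotientGroup.mk_surjective yb
    apply hybH
    have hy : y ∈ Subgroup.normalizer ((A ⊔ Subgroup.zpowers x : Subgroup G) : Set G) := by
      apply mem_normalizer_of_conj_mem
      intro s hs
      rw [SetLike.mem_coe, ← hcomap, Subgroup.mem_comap] at hs ⊢
      rw [map_mul, map_mul, map_inv]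
      exact (Subgroup.mem_set_normalizer_iff.1 hybN _).1 hs
    rw [hself, ← hcomap, Subgroup.mem_comap] at hy
    exact hy
  have hxpM : x ^ p ∈ M := by rw [hpM]; exact M.pow_index_mem x
  have hcenter : ∀ z : G, (∀ a ∈ A, z * a = a * z) → x * z = z * x → z ∈ Subgroup.center G := by
    intro z hzA hzx
    rw [Subgroup.mem_center_iff]
    intro g
    have hg : g ∈ Subgroup.centralizer ({z} : Set G) := by
      have hle : A ⊔ Subgroup.zpowers x ≤ Subgroup.centralizer ({z} : Set G) := by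
        refine sup_le (fun a ha => mem_centralizer_singleton_iff'.2 (hzA a ha)) ?_
        rw [Subgroup.zpowers_le]
        exact mem_centralizer_singleton_iff'.2 hzx.symm
      exact hle (hAx ▸ Subgroup.mem_top g)
    exact (mem_centralizer_singleton_iff'.1 hg).symm
  have hxpc : x ^ p ∈ Subgroup.center G :=
    hcenter _ (fun a ha => hMab _ hxpM a ha.1) (by rw [← pow_succ, ← pow_succ'])
  have hdisj : Disjoint (Subgroup.zpowers x) A := by
    apply Subgroup.disjoint_of_coprime_natCard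
    rw [Nat.card_zpowers, hxo]
    exact Nat.Coprime.pow_left k ((Nat.Prime.coprime_iff_not_dvd hMp).2 hpA)
  have hcompl : (Subgroup.zpowers x).IsComplement' A := by
    apply Subgroup.isComplement'_of_disjoint_and_mul_eq_univ hdisj
    rw [← Subgroup.mul_normal, sup_comm, hAx]
    rfl
  have hfpf : ∀ a : G, a ∈ A → a ≠ 1 → x * a * x⁻¹ ≠ a := by
    intro a₀ ha₀ ha₀1 hfix
    have hxa₀ : x * a₀ = a₀ * x := mul_inv_eq_iff_eq_mul.1 hfix
    by_cases hX : Subgroup.normalClosure ({x} : Set G) = ⊤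
    · have hcomm : a₀ ∈ commutator G := by
        have hK : Subgroup.normalClosure ({x} : Set G) ≤
            (Subgroup.zpowers (Abelianization.of x)).comap Abelianization.of := by
          apply Subgroup.normalClosure_le_normal
          rintro y rfl
          exact Subgroup.mem_zpowers _
        have hmem := hK (hX ▸ Subgroup.mem_top a₀)
        rw [Subgroup.mem_comap] at hmem
        obtain ⟨i, hi⟩ := Subgroup.mem_zpowers_iff.1 hmem
        have h1 : (Abelianization.of a₀) ^ (p ^ k) = 1 := by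
          rw [← hi, ← zpow_natCast, ← zpow_mul, mul_comm, zpow_mul, zpow_natCast, ← map_pow,
            ← hxo, pow_orderOf_eq_one, map_one, one_zpow]
        have h2 : (orderOf (Abelianization.of a₀)).Coprime p :=
          Nat.Coprime.coprime_dvd_left (orderOf_map_dvd _ a₀) (hAc a₀ ha₀)
        have h3 := eq_one_of_pow_prime_pow h1 h2
        rw [← Abelianization.ker_of, MonoidHom.mem_ker]
        exact h3
      have hcen : a₀ ∈ Subgroup.center G := hcenter a₀ (fun a ha => hAab a₀ ha₀ a ha) hxa₀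
      have h4 := pow_index_mem_commutator A a₀ hcen ha₀ hcomm
      have h5 : commutator A = ⊥ := by
        rw [commutator_def, Subgroup.commutator_eq_bot_iff_le_centralizer]
        intro a _
        rw [Subgroup.mem_centralizer_iff]
        intro b _
        exact Subtype.ext (hAab b b.2 a a.2)
      rw [h5, Subgroup.mem_bot] at h4
      have h6 : a₀ ^ A.index = 1 := congrArg Subtype.val h4
      obtain ⟨j, hj⟩ := IsPGroup.iff_card.1 hQp
      rw [Subgroup.index_eq_card, hj] at h6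
      exact ha₀1 (eq_one_of_pow_prime_pow h6 (hAc a₀ ha₀))
    · have hXab := habN _ inferInstance hX
      apply hxA
      intro a ha
      have hxX : x ∈ Subgroup.normalClosure ({x} : Set G) :=
        Subgroup.subset_normalClosure rfl
      have hbX : a * x * a⁻¹ * x⁻¹ ∈ Subgroup.normalClosure ({x} : Set G) :=
        Subgroup.mul_mem _ (Subgroup.normalClosure_normal.conj_mem x hxX a)
          (Subgroup.inv_mem _ hxX)
      have hbA : a * x * a⁻¹ * x⁻¹ ∈ A := by
        have : a * x * a⁻¹ * x⁻¹ = a * (x * a⁻¹ * x⁻¹) := by group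
        rw [this]; exact A.mul_mem ha (hAn.conj_mem _ (A.inv_mem ha) x)
      have h1 := pow_orderOf_eq_one_of_comm_fix x a _ rfl (hXab x hxX _ hbX)
      rw [hxo] at h1
      have h2 := eq_one_of_pow_prime_pow h1 (hAc _ hbA)
      have h3 : a * x = x * a := by
        have : a * x = (a * x * a⁻¹ * x⁻¹) * (x * a) := by group
        rw [this, h2, one_mul]
      exact h3.symm
  exact ⟨x, A, p, hMp, hAn, isMulCommutative_iff.2 (fun a b => Subtype.ext (hAab a a.2 b b.2)),
    ⟨k, hxo⟩, hpA, hcompl, hxpc, hfpf⟩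

/-- Let G be a finite solvable non-nilpotent group. Every non-abelian subgroup of G is self-normalizing if and only if G is a semidirect product ⟨x⟩ ⋉ A in which ⟨x⟩ is a p-group for some prime p, A is a normal abelian subgroup of order prime to p, x^p is central in G, and x acts fixed-point-freely on A (no non-identity element of A commutes with x). -/
theorem result {G : Type*} [Group G] [Finite G]
    [Group.IsSolvable G] (hnn : ¬ Group.IsNilpotent G) :
    (∀ H : Subgroup G, ¬ IsMulCommutative H → Subgroup.normalizer (H : Set G) = H) ↔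
    ∃ (x : G) (A : Subgroup G) (p : ℕ), p.Prime ∧ A.Normal ∧ IsMulCommutative A ∧ (∃ k : ℕ, orderOf x = p ^ k) ∧
      ¬ p ∣ Nat.card A ∧ (Subgroup.zpowers x).IsComplement' A ∧ x ^ p ∈ Subgroup.center G ∧
      ∀ a : G, a ∈ A → a ≠ 1 → x * a * x⁻¹ ≠ a := by
  constructor
  · exact structure_of_sn hnn
  · rintro ⟨x, A, p, hp, hAn, hAab, ⟨k, hxo⟩, -, hcompl, hxp, hfpf⟩ H hH
    haveI := hAn
    exact sn_of_structure x A p hp
      (fun a ha b hb => congrArg Subtype.val ((isMulCommutative_iff.1 hAab) ⟨a, ha⟩ ⟨b, hb⟩))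
      k hxo hcompl hxp hfpf H hH

end Cfsg.Agent.S4071
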