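import Mathlib
import Cfsg.Statements.S4072
import Cfsg.Agent.Lib.Helper72.Basic
import Cfsg.Agent.Lib.Helper72.Frattini

set_option autoImplicit false
set_option linter.style.haveILetI false
open Cfsg

namespace Cfsg.Agent.S4072

open Cfsg.Agent.Lib.Helper72
open scoped commutatorElement

/-- A non-abelian simple group has no nontrivial Sylow subgroup `P` with `N(P) ≤ C(P)`. -/
theorem false_of_sylow {G : Type*} [Group G] [Finite G] [IsSimpleGroup G]
    (hna : ¬ ∀ a b : G, a * b = b * a) {p : ℕ} [Fact p.Prime] (P : Sylow p G)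
    (hP : Subgroup.normalizer ((P : Subgroup G) : Set G) ≤
      Subgroup.centralizer ((P : Subgroup G) : Set G))
    (hne : (P : Subgroup G) ≠ ⊥) : False := by
  have hc : Subgroup.IsComplement' (MonoidHom.transferSylow P hP).ker (P : Subgroup G) :=
    MonoidHom.ker_transferSylow_isComplement' P hP
  rcases IsSimpleGroup.eq_bot_or_eq_top_of_normal (MonoidHom.transferSylow P hP).ker
      (MonoidHom.normal_ker _) with h | h
  · rw [h, Subgroup.isComplement'_bot_left] at hc
    apply hna
    intro a b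
    have haP : a ∈ (P : Subgroup G) := hc ▸ Subgroup.mem_top a
    have hbP : b ∈ (P : Subgroup G) := hc ▸ Subgroup.mem_top b
    have ha : a ∈ Subgroup.centralizer ((P : Subgroup G) : Set G) :=
      hP (Subgroup.le_normalizer haP)
    exact (Subgroup.mem_centralizer_iff.1 ha b hbP).symm
  · rw [h, Subgroup.isComplement'_top_left] at hc
    exact hne hc

/-- Transfer: in a perfect group, a central element of a Sylow subgroup lies in its derived
subgroup. -/
theorem mem_commutator_of_center {G : Type*} [Group G] [Finite G] {r : ℕ} [Fact r.Prime]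
    (R : Sylow r G) (hperf : commutator G = ⊤) (z : G) (hzc : z ∈ Subgroup.center G)
    (hz : z ∈ (R : Subgroup G)) : (⟨z, hz⟩ : (R : Subgroup G)) ∈ commutator (R : Subgroup G) := by
  have key : ∀ (k : ℕ) (g₀ : G), g₀⁻¹ * z ^ k * g₀ ∈ (R : Subgroup G) →
      g₀⁻¹ * z ^ k * g₀ = z ^ k := by
    intro k g₀ _
    have hc : z ^ k ∈ Subgroup.center G := Subgroup.pow_mem _ hzc k
    rw [Subgroup.mem_center_iff] at hc
    rw [mul_assoc, ← hc g₀, inv_mul_cancel_left]
  have h1 := MonoidHom.transfer_eq_pow (H := (R : Subgroup G))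
    (Abelianization.of : (R : Subgroup G) →* Abelianization (R : Subgroup G)) z key
  have h2 : MonoidHom.transfer
      (Abelianization.of : (R : Subgroup G) →* Abelianization (R : Subgroup G)) z = 1 := by
    have h3 := Abelianization.commutator_subset_ker (MonoidHom.transfer
      (Abelianization.of : (R : Subgroup G) →* Abelianization (R : Subgroup G)))
    rw [hperf] at h3
    exact h3 (Subgroup.mem_top z)
  rw [h2] at h1
  have h4 : (⟨z ^ (R : Subgroup G).index, MonoidHom.transfer_eq_pow_aux z key⟩ :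
      (R : Subgroup G)) ∈ commutator (R : Subgroup G) := by
    rw [← Abelianization.ker_of, MonoidHom.mem_ker]; exact h1.symm
  have hzr : ∃ e : ℕ, orderOf z = r ^ e := by
    obtain ⟨e, he⟩ := (IsPGroup.iff_orderOf.1 R.2) ⟨z, hz⟩
    exact ⟨e, by rw [← he, Subgroup.orderOf_mk]⟩
  obtain ⟨e, he⟩ := hzr
  have hcop : Nat.Coprime (R : Subgroup G).index (orderOf z) := by
    rw [he]
    exact Nat.Coprime.pow_right _ ((Nat.Prime.coprime_iff_not_dvd Fact.out).2 R.not_dvd_index).symm
  obtain ⟨t, ht⟩ := exists_pow_eq_self_of_coprime hcop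
  have h5 : (⟨z, hz⟩ : (R : Subgroup G)) =
      (⟨z ^ (R : Subgroup G).index, MonoidHom.transfer_eq_pow_aux z key⟩ : (R : Subgroup G)) ^ t := by
    apply Subtype.ext
    simp only [Subgroup.coe_pow]
    exact ht.symm
  rw [h5]
  exact Subgroup.pow_mem _ h4 t


/-- A non-abelian finite `r`-group all of whose proper subgroups are abelian has derived subgroup
inside a central cyclic subgroup of order `r`. -/
theorem exists_central_commutator {Q : Type*} [Group Q] [Finite Q] {r : ℕ} [Fact r.Prime]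
    (hQ : IsPGroup r Q) (hna : ¬ ∀ a b : Q, a * b = b * a)
    (hprop : ∀ H : Subgroup Q, H ≠ ⊤ → ∀ a ∈ H, ∀ b ∈ H, a * b = b * a) :
    ∃ c : Q, c ^ r = 1 ∧ ∀ x y : Q, x * y * x⁻¹ * y⁻¹ ∈ Subgroup.zpowers c := by
  push Not at hna
  obtain ⟨a, b, hab⟩ := hna
  have hcl : Subgroup.closure ({a, b} : Set Q) = ⊤ := by
    by_contra hne
    exact hab (hprop _ hne a (Subgroup.subset_closure (by simp)) b
      (Subgroup.subset_closure (by simp)))
  have hmax : ∀ g : Q, ∃ M : Subgroup Q, IsCoatom M ∧ g ∈ M := by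
    intro g
    have hne : Subgroup.zpowers g ≠ ⊤ := by
      intro htop
      apply hab
      have ha : a ∈ Subgroup.zpowers g := htop ▸ Subgroup.mem_top a
      have hb : b ∈ Subgroup.zpowers g := htop ▸ Subgroup.mem_top b
      obtain ⟨i, rfl⟩ := Subgroup.mem_zpowers_iff.1 ha
      obtain ⟨j, rfl⟩ := Subgroup.mem_zpowers_iff.1 hb
      rw [← zpow_add, ← zpow_add, add_comm]
    obtain ⟨M, hM, hle⟩ := (eq_top_or_exists_le_coatom (Subgroup.zpowers g)).resolve_left hne
    exact ⟨M, hM, hle (Subgroup.mem_zpowers g)⟩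
  obtain ⟨Ma, hMa, haM⟩ := hmax a
  obtain ⟨Mb, hMb, hbM⟩ := hmax b
  have hMa' := pow_mem_and_comm_mem_of_isCoatom hQ hMa
  have hMb' := pow_mem_and_comm_mem_of_isCoatom hQ hMb
  obtain ⟨c, hc⟩ : ∃ c : Q, c = a * b * a⁻¹ * b⁻¹ := ⟨_, rfl⟩
  have hcMa : c ∈ Ma := hc ▸ hMa'.2 a b
  have hcMb : c ∈ Mb := hc ▸ hMb'.2 a b
  have hca : c * a = a * c := hprop Ma hMa.1 c hcMa a haM
  have hcb : c * b = b * c := hprop Mb hMb.1 c hcMb b hbM
  have hcen : ∀ g : Q, c * g = g * c := by
    intro g
    have hg : g ∈ Subgroup.centralizer ({c} : Set Q) := by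
      have hle : Subgroup.closure ({a, b} : Set Q) ≤ Subgroup.centralizer ({c} : Set Q) := by
        rw [Subgroup.closure_le]
        rintro x (rfl | rfl)
        · exact mem_centralizer_singleton_iff'.2 hca
        · exact mem_centralizer_singleton_iff'.2 hcb
      exact hle (hcl ▸ Subgroup.mem_top g)
    exact mem_centralizer_singleton_iff'.1 hg
  refine ⟨c, ?_, ?_⟩
  · have h1 : a * b * a⁻¹ = c * b := by rw [hc]; group
    have h2 : a * b ^ r * a⁻¹ = c ^ r * b ^ r := by
      rw [← conj_pow, h1, (show Commute c b from hcb).mul_pow]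
    have h3 : b ^ r ∈ Ma := hMa'.1 b
    have h4 : a * b ^ r = b ^ r * a := hprop Ma hMa.1 a haM _ h3
    rw [h4, mul_inv_cancel_right] at h2
    exact mul_right_cancel (h2.symm.trans (one_mul _).symm)
  · haveI hn : (Subgroup.zpowers c).Normal := by
      constructor
      intro x hx g
      obtain ⟨i, rfl⟩ := Subgroup.mem_zpowers_iff.1 hx
      have : g * c ^ i * g⁻¹ = c ^ i := by
        rw [← conj_zpow, ← hcen g, mul_inv_cancel_right]
      rw [this]; exact hx
    have hmkc : (QuotientGroup.mk c : Q ⧸ Subgroup.zpowers c) = 1 :=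
      (QuotientGroup.eq_one_iff c).2 (Subgroup.mem_zpowers c)
    have hcomm_ab : (QuotientGroup.mk a : Q ⧸ Subgroup.zpowers c) * QuotientGroup.mk b =
        QuotientGroup.mk b * QuotientGroup.mk a := by
      have h1 : a * b = c * (b * a) := by rw [hc]; group
      rw [← QuotientGroup.mk_mul, h1, QuotientGroup.mk_mul, hmkc, one_mul, QuotientGroup.mk_mul]
    have hcenq : ∀ g : Q, (QuotientGroup.mk g : Q ⧸ Subgroup.zpowers c) ∈
        Subgroup.centralizer ({(QuotientGroup.mk a : Q ⧸ Subgroup.zpowers c),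
          (QuotientGroup.mk b : Q ⧸ Subgroup.zpowers c)} : Set (Q ⧸ Subgroup.zpowers c)) := by
      intro g
      have hle : Subgroup.closure ({a, b} : Set Q) ≤
          (Subgroup.centralizer ({(QuotientGroup.mk a : Q ⧸ Subgroup.zpowers c),
            (QuotientGroup.mk b : Q ⧸ Subgroup.zpowers c)} :
              Set (Q ⧸ Subgroup.zpowers c))).comap (QuotientGroup.mk' (Subgroup.zpowers c)) := by
        rw [Subgroup.closure_le]
        rintro x (rfl | rfl)
        · rw [SetLike.mem_coe, Subgroup.mem_comap, Subgroup.mem_centralizer_iff]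
          rintro y (rfl | rfl)
          · rfl
          · exact hcomm_ab.symm
        · rw [SetLike.mem_coe, Subgroup.mem_comap, Subgroup.mem_centralizer_iff]
          rintro y (rfl | rfl)
          · exact hcomm_ab
          · rfl
      exact hle (hcl ▸ Subgroup.mem_top g)
    have hcenq2 : ∀ x y : Q, (QuotientGroup.mk x : Q ⧸ Subgroup.zpowers c) * QuotientGroup.mk y =
        QuotientGroup.mk y * QuotientGroup.mk x := by
      intro x y
      have hle : Subgroup.closure ({a, b} : Set Q) ≤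
          (Subgroup.centralizer ({(QuotientGroup.mk x : Q ⧸ Subgroup.zpowers c)} :
              Set (Q ⧸ Subgroup.zpowers c))).comap (QuotientGroup.mk' (Subgroup.zpowers c)) := by
        rw [Subgroup.closure_le]
        rintro w (rfl | rfl)
        · rw [SetLike.mem_coe, Subgroup.mem_comap, mem_centralizer_singleton_iff']
          exact (Subgroup.mem_centralizer_iff.1 (hcenq x) _ (by simp)).symm
        · rw [SetLike.mem_coe, Subgroup.mem_comap, mem_centralizer_singleton_iff']
          exact (Subgroup.mem_centralizer_iff.1 (hcenq x) _ (by simp)).symm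
      have hy := hle (hcl ▸ Subgroup.mem_top y)
      rw [Subgroup.mem_comap, mem_centralizer_singleton_iff'] at hy
      exact hy
    intro x y
    rw [← QuotientGroup.eq_one_iff, QuotientGroup.mk_mul, QuotientGroup.mk_mul,
      QuotientGroup.mk_mul, hcenq2 x y, QuotientGroup.mk_inv, QuotientGroup.mk_inv]
    group


theorem mem_of_pow_mem_of_coprime {G : Type*} [Group G] (N : Subgroup G) (g : G) {a b : ℕ}
    (hab : Nat.Coprime a b) (ha : g ^ a ∈ N) (hb : g ^ b ∈ N) : g ∈ N := by
  obtain ⟨u, v, huv⟩ := Nat.isCoprime_iff_coprime.2 hab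
  have : g = (g ^ a) ^ u * (g ^ b) ^ v := by
    rw [← zpow_natCast, ← zpow_natCast, ← zpow_mul, ← zpow_mul, ← zpow_add, mul_comm _ u,
      mul_comm _ v, huv, zpow_one]
  rw [this]
  exact N.mul_mem (N.zpow_mem ha u) (N.zpow_mem hb v)

theorem normal_zpowers_of_center {G : Type*} [Group G] (z : G) (hz : z ∈ Subgroup.center G) :
    (Subgroup.zpowers z).Normal := by
  constructor
  intro x hx g
  obtain ⟨i, rfl⟩ := Subgroup.mem_zpowers_iff.1 hx
  have hc : z ^ i ∈ Subgroup.center G := Subgroup.zpow_mem _ hz i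
  rw [Subgroup.mem_center_iff] at hc
  rw [hc g, mul_inv_cancel_right]
  exact hx

theorem case1 {G : Type*} [Group G] [Finite G]
    (hS : ∀ H : Subgroup G, ¬ IsMulCommutative H → Subgroup.normalizer (H : Set G) = H)
    (N : Subgroup G) [N.Normal] [IsSimpleGroup (G ⧸ N)]
    (hQna : ¬ ∀ a b : G ⧸ N, a * b = b * a)
    (hC : Subgroup.centralizer (N : Set G) = N) : False := by
  classical
  have hcard : Nat.card (G ⧸ N) ≠ 1 := (Finite.one_lt_card (α := G ⧸ N)).ne'
  obtain ⟨p, hp⟩ : ∃ p : ℕ, p = (Nat.card (G ⧸ N)).minFac := ⟨_, rfl⟩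
  haveI : Fact p.Prime := ⟨hp ▸ Nat.minFac_prime hcard⟩
  let P : Sylow p (G ⧸ N) := default
  have hPne : (P : Subgroup (G ⧸ N)) ≠ ⊥ := P.ne_bot_of_dvd_card (hp ▸ Nat.minFac_dvd _)
  haveI : Nontrivial (P : Subgroup (G ⧸ N)) := (Subgroup.nontrivial_iff_ne_bot _).2 hPne
  haveI : Nontrivial (Subgroup.center (P : Subgroup (G ⧸ N))) := P.2.center_nontrivial
  obtain ⟨z, hz⟩ := exists_ne (1 : Subgroup.center (P : Subgroup (G ⧸ N)))
  obtain ⟨xb, hxb⟩ : ∃ xb : G ⧸ N, xb = ((z : (P : Subgroup (G ⧸ N))) : G ⧸ N) := ⟨_, rfl⟩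
  have hxb1 : xb ≠ 1 := by
    intro h
    apply hz
    apply Subtype.ext
    apply Subtype.ext
    rw [← hxb, h]; rfl
  have hxbP : xb ∈ (P : Subgroup (G ⧸ N)) := hxb ▸ (z : (P : Subgroup (G ⧸ N))).2
  have hxbc : ∀ y ∈ (P : Subgroup (G ⧸ N)), y * xb = xb * y := by
    intro y hy
    have := (Subgroup.mem_center_iff.1 z.2) ⟨y, hy⟩
    rw [hxb]
    exact congrArg Subtype.val this
  obtain ⟨H, hH⟩ : ∃ H : Subgroup G, H = (Subgroup.zpowers xb).comap (QuotientGroup.mk' N) :=
    ⟨_, rfl⟩
  obtain ⟨x, hx⟩ := QuotientGroup.mk_surjective xb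
  have hxH : x ∈ H := by
    rw [hH, Subgroup.mem_comap, QuotientGroup.mk'_apply, hx]; exact Subgroup.mem_zpowers _
  have hNH : N ≤ H := by
    intro n hn
    rw [hH, Subgroup.mem_comap, QuotientGroup.mk'_apply, (QuotientGroup.eq_one_iff n).2 hn]
    exact Subgroup.one_mem _
  have hxN : x ∉ N := by
    intro h; apply hxb1; rw [← hx]; exact (QuotientGroup.eq_one_iff x).2 h
  have hHna : ¬ IsMulCommutative H := by
    intro hc
    apply hxN
    rw [← hC, Subgroup.mem_centralizer_iff]
    intro n hn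
    exact congrArg Subtype.val ((isMulCommutative_iff.1 hc) ⟨n, hNH hn⟩ ⟨x, hxH⟩)
  have hHN := hS H hHna
  have hnorm : ∀ g : G ⧸ N, (∀ i : ℤ, g * xb ^ i * g⁻¹ ∈ Subgroup.zpowers xb) →
      g ∈ Subgroup.zpowers xb := by
    intro g hg
    obtain ⟨g₀, rfl⟩ := QuotientGroup.mk_surjective g
    have hmem : g₀ ∈ Subgroup.normalizer (H : Set G) := by
      apply mem_normalizer_of_conj_mem
      intro s hs
      rw [SetLike.mem_coe, hH, Subgroup.mem_comap] at hs ⊢
      obtain ⟨i, hi⟩ := Subgroup.mem_zpowers_iff.1 hs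
      rw [map_mul, map_mul, map_inv, ← hi]
      exact hg i
    rw [hHN, hH, Subgroup.mem_comap] at hmem
    exact hmem
  have hPle : (P : Subgroup (G ⧸ N)) ≤ Subgroup.zpowers xb := by
    intro y hy
    apply hnorm
    intro i
    have hc : Commute y xb := hxbc y hy
    have : y * xb ^ i * y⁻¹ = xb ^ i := by
      rw [(hc.zpow_right i).eq, mul_inv_cancel_right]
    rw [this]; exact Subgroup.zpow_mem _ (Subgroup.mem_zpowers _) i
  have hPeq : (P : Subgroup (G ⧸ N)) = Subgroup.zpowers xb :=
    le_antisymm hPle ((Subgroup.zpowers_le).2 hxbP)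
  have hNC : Subgroup.normalizer ((P : Subgroup (G ⧸ N)) : Set (G ⧸ N)) ≤
      Subgroup.centralizer ((P : Subgroup (G ⧸ N)) : Set (G ⧸ N)) := by
    intro g hg
    have hgz : g ∈ Subgroup.zpowers xb := by
      apply hnorm
      intro i
      rw [hPeq] at hg
      exact (Subgroup.mem_set_normalizer_iff.1 hg (xb ^ i)).1
        (Subgroup.zpow_mem _ (Subgroup.mem_zpowers _) i)
    rw [Subgroup.mem_centralizer_iff]
    intro y hy
    rw [SetLike.mem_coe, hPeq] at hy
    obtain ⟨i, rfl⟩ := Subgroup.mem_zpowers_iff.1 hgz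
    obtain ⟨j, rfl⟩ := Subgroup.mem_zpowers_iff.1 hy
    rw [← zpow_add, ← zpow_add, add_comm]
  exact false_of_sylow hQna P hNC hPne


theorem case2 {G : Type*} [Group G] [Finite G]
    (hS : ∀ H : Subgroup G, ¬ IsMulCommutative H → Subgroup.normalizer (H : Set G) = H)
    (N : Subgroup G) [N.Normal] [IsSimpleGroup (G ⧸ N)]
    (hQna : ¬ ∀ a b : G ⧸ N, a * b = b * a) (hNbot : N ≠ ⊥)
    (hperf : commutator G = ⊤) (hcen : N ≤ Subgroup.center G) : False := by
  classical
  have hcardN : Nat.card N ≠ 1 := fun h => hNbot (Subgroup.card_eq_one.1 h)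
  obtain ⟨r, hr⟩ : ∃ r : ℕ, r = (Nat.card N).minFac := ⟨_, rfl⟩
  haveI hrp : Fact r.Prime := ⟨hr ▸ Nat.minFac_prime hcardN⟩
  obtain ⟨z', hz'⟩ := exists_prime_orderOf_dvd_card' (G := N) r (hr ▸ Nat.minFac_dvd _)
  have hzo : orderOf (z' : G) = r := by rw [Subgroup.orderOf_coe]; exact hz'
  have hzN : (z' : G) ∈ N := z'.2
  have hzc : (z' : G) ∈ Subgroup.center G := hcen hzN
  have hz1 : (z' : G) ≠ 1 := by
    intro h; rw [h, orderOf_one] at hzo; exact hrp.out.one_lt.ne hzo
  let R : Sylow r G := default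
  have hzR : (z' : G) ∈ (R : Subgroup G) := by
    haveI := normal_zpowers_of_center (z' : G) hzc
    have hpz : IsPGroup r (Subgroup.zpowers (z' : G)) :=
      IsPGroup.of_card (n := 1) (by rw [Nat.card_zpowers, hzo, pow_one])
    have hsup : IsPGroup r (Subgroup.zpowers (z' : G) ⊔ (R : Subgroup G) : Subgroup G) :=
      IsPGroup.to_sup_of_normal_left hpz R.2
    have := R.is_maximal' hsup le_sup_right
    rw [← this]; exact (le_sup_left : Subgroup.zpowers (z' : G) ≤ _) (Subgroup.mem_zpowers _)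
  have hRna : ¬ IsMulCommutative (R : Subgroup G) := by
    intro hc
    have h1 := mem_commutator_of_center R hperf (z' : G) hzc hzR
    have h2 : commutator (R : Subgroup G) = ⊥ := by
      rw [commutator_def, Subgroup.commutator_eq_bot_iff_le_centralizer]
      intro a _
      rw [Subgroup.mem_centralizer_iff]
      intro b _
      exact (isMulCommutative_iff.1 hc) b a
    rw [h2, Subgroup.mem_bot] at h1
    exact hz1 (congrArg Subtype.val h1)
  have hRN := hS (R : Subgroup G) hRna
  have hNR : N ≤ (R : Subgroup G) := by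
    intro n hn
    rw [← hRN]
    have hnc := hcen hn
    rw [Subgroup.mem_set_normalizer_iff]
    intro h
    have : n * h * n⁻¹ = h := by
      rw [Subgroup.mem_center_iff] at hnc
      rw [← hnc h, mul_inv_cancel_right]
    rw [this]
  have hRp : IsPGroup r (R : Subgroup G) := R.2
  have hprop : ∀ H' : Subgroup (R : Subgroup G), H' ≠ ⊤ → ∀ a ∈ H', ∀ b ∈ H', a * b = b * a := by
    intro H' hH' a ha b hb
    by_contra hne
    have hnc : ¬ IsMulCommutative (H'.map (R : Subgroup G).subtype) := by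
      intro hc
      apply hne
      have h := (isMulCommutative_iff.1 hc)
        ⟨(a : G), Subgroup.mem_map_of_mem (R : Subgroup G).subtype ha⟩
        ⟨(b : G), Subgroup.mem_map_of_mem (R : Subgroup G).subtype hb⟩
      have h' : (a : G) * (b : G) = (b : G) * (a : G) := congrArg Subtype.val h
      exact Subtype.ext h'
    have hself := hS _ hnc
    haveI : Group.IsNilpotent (R : Subgroup G) := hRp.isNilpotent
    have hlt := Group.normalizerCondition_of_isNilpotent (G := (R : Subgroup G)) H'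
      (lt_top_iff_ne_top.2 hH')
    obtain ⟨y, hyN, hyH⟩ := SetLike.exists_of_lt hlt
    apply hyH
    have hyG : (y : G) ∈ Subgroup.normalizer
        ((H'.map (R : Subgroup G).subtype : Subgroup G) : Set G) := by
      apply mem_normalizer_of_conj_mem
      rintro _ ⟨h', hh', rfl⟩
      exact ⟨y * h' * y⁻¹, (Subgroup.mem_set_normalizer_iff.1 hyN h').1 hh', by simp⟩
    rw [hself] at hyG
    obtain ⟨y', hy', hye⟩ := hyG
    have : y' = y := Subtype.ext hye
    rw [← this]; exact hy'
  have hRna' : ¬ ∀ a b : (R : Subgroup G), a * b = b * a :=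
    fun h => hRna (isMulCommutative_iff.2 h)
  obtain ⟨c, hcr, hcomm⟩ := exists_central_commutator hRp hRna' hprop
  have hcomle : commutator (R : Subgroup G) ≤ Subgroup.zpowers c := by
    rw [commutator_def, Subgroup.commutator_le]
    intro x _ y _
    exact hcomm x y
  have hzc' : (⟨(z' : G), hzR⟩ : (R : Subgroup G)) ∈ Subgroup.zpowers c :=
    hcomle (mem_commutator_of_center R hperf _ hzc hzR)
  have hcN : (c : G) ∈ N := by
    obtain ⟨k, hk⟩ := (mem_powers_iff_mem_zpowers).2 hzc'
    have hk' : c ^ k = ⟨(z' : G), hzR⟩ := hk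
    have hkr : Nat.Coprime k r := by
      rw [Nat.coprime_comm, Nat.Prime.coprime_iff_not_dvd hrp.out]
      rintro ⟨m, rfl⟩
      rw [pow_mul, hcr, one_pow] at hk'
      exact hz1 (congrArg Subtype.val hk').symm
    have hmem : c ∈ N.subgroupOf (R : Subgroup G) :=
      mem_of_pow_mem_of_coprime (N.subgroupOf (R : Subgroup G)) c hkr
        (by rw [hk', Subgroup.mem_subgroupOf]; exact hzN) (by rw [hcr]; exact Subgroup.one_mem _)
    exact hmem
  have hRcomm : ∀ x ∈ (R : Subgroup G), ∀ y ∈ (R : Subgroup G), x * y * x⁻¹ * y⁻¹ ∈ N := by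
    intro x hx y hy
    obtain ⟨i, hi⟩ := Subgroup.mem_zpowers_iff.1 (hcomm ⟨x, hx⟩ ⟨y, hy⟩)
    have h1 : x * y * x⁻¹ * y⁻¹ = (c : G) ^ i := by
      have := congrArg Subtype.val hi
      simpa using this.symm
    rw [h1]; exact N.zpow_mem hcN i
  have hRbp : IsPGroup r ((R : Subgroup G).map (QuotientGroup.mk' N)) := R.2.map _
  have hRbidx : ¬ r ∣ ((R : Subgroup G).map (QuotientGroup.mk' N)).index := fun hd =>
    R.not_dvd_index (hd.trans (Subgroup.index_map_dvd _ (QuotientGroup.mk'_surjective N)))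
  let Pb : Sylow r (G ⧸ N) := hRbp.toSylow hRbidx
  have hPb : (Pb : Subgroup (G ⧸ N)) = (R : Subgroup G).map (QuotientGroup.mk' N) := rfl
  have hPbne : (Pb : Subgroup (G ⧸ N)) ≠ ⊥ := by
    rw [hPb]
    intro h
    apply hRna'
    intro a b
    have ha : (a : G) ∈ N := by
      have hm : (QuotientGroup.mk' N) (a : G) ∈ (R : Subgroup G).map (QuotientGroup.mk' N) :=
        Subgroup.mem_map_of_mem _ a.2
      rw [h, Subgroup.mem_bot] at hm
      exact (QuotientGroup.eq_one_iff _).1 hm
    have := Subgroup.mem_center_iff.1 (hcen ha) (b : G)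
    exact Subtype.ext this.symm
  have hNCb : Subgroup.normalizer ((Pb : Subgroup (G ⧸ N)) : Set (G ⧸ N)) ≤
      Subgroup.centralizer ((Pb : Subgroup (G ⧸ N)) : Set (G ⧸ N)) := by
    intro g hg
    obtain ⟨g₀, rfl⟩ := QuotientGroup.mk_surjective g
    have hg₀ : g₀ ∈ Subgroup.normalizer ((R : Subgroup G) : Set G) := by
      apply mem_normalizer_of_conj_mem
      intro s hs
      have h1 : (QuotientGroup.mk' N) (g₀ * s * g₀⁻¹) ∈
          (R : Subgroup G).map (QuotientGroup.mk' N) := by
        have := (Subgroup.mem_set_normalizer_iff.1 hg ((QuotientGroup.mk' N) s)).1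
          (Subgroup.mem_map_of_mem _ hs)
        rw [map_mul, map_mul, map_inv]
        exact this
      obtain ⟨t, ht, hte⟩ := h1
      have h2 : t⁻¹ * (g₀ * s * g₀⁻¹) ∈ N := by rw [← QuotientGroup.eq]; exact hte
      have h3 : g₀ * s * g₀⁻¹ = t * (t⁻¹ * (g₀ * s * g₀⁻¹)) := by group
      rw [SetLike.mem_coe, h3]
      exact Subgroup.mul_mem _ ht (hNR h2)
    rw [hRN] at hg₀
    rw [Subgroup.mem_centralizer_iff]
    rintro y ⟨y₀, hy₀, rfl⟩
    have h3 := hRcomm y₀ hy₀ g₀ hg₀
    have h4 : y₀ * g₀ = (y₀ * g₀ * y₀⁻¹ * g₀⁻¹) * (g₀ * y₀) := by group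
    rw [QuotientGroup.mk'_apply, ← QuotientGroup.mk_mul, h4, QuotientGroup.mk_mul,
      (QuotientGroup.eq_one_iff _).2 h3, one_mul, QuotientGroup.mk_mul]
  exact false_of_sylow hQna Pb hNCb hPbne

/-- A finite group in which every non-abelian subgroup is self-normalizing is solvable or simple. -/
theorem result {G : Type*} [Group G] [Finite G] (hS : ∀ H : Subgroup G, ¬ IsMulCommutative H → Subgroup.normalizer (H : Set G) = H) :
    Group.IsSolvable G ∨ IsSimpleGroup G := by
  by_contra hcon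
  push Not at hcon
  obtain ⟨hns, hnsimp⟩ := hcon
  have habN : ∀ K : Subgroup G, K.Normal → K ≠ ⊤ → ∀ a ∈ K, ∀ b ∈ K, a * b = b * a := by
    intro K hK hKtop a ha b hb
    by_contra hne
    have hnc : ¬ IsMulCommutative K := by
      intro hc
      exact hne (congrArg Subtype.val ((isMulCommutative_iff.1 hc) ⟨a, ha⟩ ⟨b, hb⟩))
    have := hS K hnc
    rw [Subgroup.normalizer_eq_top_iff.2 hK] at this
    exact hKtop this.symm
  have hnt : Nontrivial G := by
    by_contra h
    rw [not_nontrivial_iff_subsingleton] at h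
    exact hns (Group.isSolvable_of_comm (fun a b => Subsingleton.elim _ _))
  obtain ⟨N₀, hN₀n, hN₀bot, hN₀top⟩ : ∃ N₀ : Subgroup G, N₀.Normal ∧ N₀ ≠ ⊥ ∧ N₀ ≠ ⊤ := by
    by_contra h
    push Not at h
    exact hnsimp ⟨fun K hK => by
      by_cases hb : K = ⊥
      · exact Or.inl hb
      · exact Or.inr (h K hK hb)⟩
  obtain ⟨N, hN₀N, hNmax⟩ := Finite.exists_le_maximal
    (p := fun K : Subgroup G => K.Normal ∧ K ≠ ⊤) ⟨hN₀n, hN₀top⟩
  have hNn : N.Normal := hNmax.prop.1
  have hNtop : N ≠ ⊤ := hNmax.prop.2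
  have hNbot : N ≠ ⊥ := fun h => hN₀bot (le_bot_iff.1 (h ▸ hN₀N))
  haveI := hNn
  have hNab := habN N hNn hNtop
  have hmaxN : ∀ K : Subgroup G, K.Normal → N ≤ K → K = N ∨ K = ⊤ := by
    intro K hK hNK
    by_cases hKt : K = ⊤
    · exact Or.inr hKt
    · exact Or.inl (le_antisymm (hNmax.le_of_ge ⟨hK, hKt⟩ hNK) hNK)
  haveI hQnt : Nontrivial (G ⧸ N) := by
    obtain ⟨g, hg⟩ : ∃ g : G, g ∉ N := by
      by_contra h
      push Not at h
      exact hNtop (eq_top_iff.2 fun g _ => h g)
    exact ⟨⟨(g : G ⧸ N), 1, fun h => hg ((QuotientGroup.eq_one_iff g).1 h)⟩⟩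
  haveI hQs : IsSimpleGroup (G ⧸ N) := by
    refine ⟨fun K hK => ?_⟩
    haveI := hK
    have hle : N ≤ K.comap (QuotientGroup.mk' N) := by
      intro n hn
      rw [Subgroup.mem_comap, QuotientGroup.mk'_apply, (QuotientGroup.eq_one_iff n).2 hn]
      exact K.one_mem
    rcases hmaxN (K.comap (QuotientGroup.mk' N)) inferInstance hle with h | h
    · left
      rw [← Subgroup.map_comap_eq_self_of_surjective (QuotientGroup.mk'_surjective N) K, h]
      exact QuotientGroup.map_mk'_self N
    · right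
      rw [← Subgroup.map_comap_eq_self_of_surjective (QuotientGroup.mk'_surjective N) K, h]
      exact Subgroup.map_top_of_surjective _ (QuotientGroup.mk'_surjective N)
  have hQna : ¬ ∀ a b : G ⧸ N, a * b = b * a := by
    intro hc
    haveI : Group.IsSolvable N :=
      Group.isSolvable_of_comm (fun a b => Subtype.ext (hNab a a.2 b b.2))
    haveI : Group.IsSolvable (G ⧸ N) := Group.isSolvable_of_comm hc
    exact hns (Group.isSolvable_of_ker_le_range N.subtype (QuotientGroup.mk' N) (by simp))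
  have hperf : commutator G = ⊤ := by
    by_contra hne
    have hcab := habN (commutator G) inferInstance hne
    haveI : Group.IsSolvable (commutator G) :=
      Group.isSolvable_of_comm (fun a b => Subtype.ext (hcab a a.2 b b.2))
    exact hns (Group.isSolvable_of_ker_le_range (commutator G).subtype (Abelianization.of)
      (by rw [Abelianization.ker_of]; simp))
  have hCn : (Subgroup.centralizer (N : Set G)).Normal := inferInstance
  have hNC : N ≤ Subgroup.centralizer (N : Set G) :=
    fun a ha => Subgroup.mem_centralizer_iff.2 (fun b hb => hNab b hb a ha)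
  rcases hmaxN _ hCn hNC with hC | hC
  · exact case1 hS N hQna hC
  · refine case2 hS N hQna hNbot hperf ?_
    intro n hn
    rw [Subgroup.mem_center_iff]
    intro g
    have hg : g ∈ Subgroup.centralizer (N : Set G) := hC ▸ Subgroup.mem_top g
    exact (Subgroup.mem_centralizer_iff.1 hg n hn).symm

end Cfsg.Agent.S4072
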