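import Mathlib
import Cfsg.Statements.S4074

set_option autoImplicit false
open Cfsg

namespace Cfsg.Agent.S4074

open DihedralGroup

theorem zmod4_aux : ∀ i j : ZMod 4, i + i ≠ 0 → ∃ k : Fin 4, i * ((k : ℕ) : ZMod 4) = j := by
  decide

/-- the parity of the index of an element of the dihedral group, for even `n` -/
def par {n : ℕ} (h : 2 ∣ n) : DihedralGroup n → ZMod 2
  | r i => ZMod.castHom h (ZMod 2) i
  | sr i => ZMod.castHom h (ZMod 2) i

theorem par_r {n : ℕ} (h : 2 ∣ n) (i : ZMod n) : par h (r i) = ZMod.castHom h (ZMod 2) i := rfl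

theorem par_sr {n : ℕ} (h : 2 ∣ n) (i : ZMod n) : par h (sr i) = ZMod.castHom h (ZMod 2) i := rfl

/-- the even subgroup -/
def evenSub {n : ℕ} (h : 2 ∣ n) : Subgroup (DihedralGroup n) where
  carrier := {g | par h g = 0}
  one_mem' := by
    show par h 1 = 0
    rw [one_def, par_r, map_zero]
  mul_mem' := by
    rintro (a | a) (b | b) ha hb <;>
    simp only [Set.mem_ofPred_eq, par_r, par_sr, r_mul_r, r_mul_sr, sr_mul_r, sr_mul_sr, map_add,
      map_sub] at ha hb ⊢ <;> simp [ha, hb]
  inv_mem' := by
    rintro (a | a) ha <;>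
    simp only [Set.mem_ofPred_eq, par_r, par_sr, inv_r, inv_sr, map_neg] at ha ⊢ <;> simp [ha]

theorem mem_evenSub {n : ℕ} (h : 2 ∣ n) (g : DihedralGroup n) : g ∈ evenSub h ↔ par h g = 0 :=
  Iff.rfl

theorem result (n : ℕ) (hn : 2 < n) :
    (∀ H : Subgroup (DihedralGroup n), ¬ IsMulCommutative H → Subgroup.normalizer (H : Set (DihedralGroup n)) = H) ↔
    (n = 4 ∨ Odd n) := by
  constructor
  · intro hall
    by_contra hcon
    push Not at hcon
    obtain ⟨hn4, hodd⟩ := hcon
    have heven : 2 ∣ n := by
      rw [← even_iff_two_dvd]; exact Nat.not_odd_iff_even.1 hodd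
    have h4 : ¬ n ∣ 4 := by
      intro h
      have hle := Nat.le_of_dvd (by norm_num) h
      interval_cases n <;> omega
    have hr2 : r (2 : ZMod n) ∈ evenSub heven := by
      rw [mem_evenSub, par_r, map_ofNat]; decide
    have hs0 : sr (0 : ZMod n) ∈ evenSub heven := by
      rw [mem_evenSub, par_sr, map_zero]
    have hnc : ¬ IsMulCommutative (evenSub heven) := by
      rw [isMulCommutative_iff]
      intro hc
      have := congrArg Subtype.val (hc ⟨r 2, hr2⟩ ⟨sr 0, hs0⟩)
      simp only [Subgroup.coe_mul, r_mul_sr, sr_mul_r, sr.injEq, zero_sub, zero_add] at this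
      have h40 : ((4 : ℕ) : ZMod n) = 0 := by
        push_cast; linear_combination (-1 : ZMod n) * this
      exact h4 ((ZMod.natCast_eq_zero_iff 4 n).1 h40)
    have hN := hall _ hnc
    have hr1 : r (1 : ZMod n) ∈ Subgroup.normalizer ((evenSub heven : Subgroup (DihedralGroup n)) : Set (DihedralGroup n)) := by
      rw [Subgroup.mem_set_normalizer_iff]
      rintro (i | i)
      · simp only [SetLike.mem_coe, mem_evenSub, par_r, inv_r, r_mul_r, map_add, map_neg, map_one]
        constructor <;> intro h <;> linear_combination h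
      · simp only [SetLike.mem_coe, mem_evenSub, par_sr, inv_r, r_mul_sr, sr_mul_r, map_add, map_sub,
          map_neg, map_one]
        have e : (ZMod.castHom heven (ZMod 2)) i - 1 + -1 = (ZMod.castHom heven (ZMod 2)) i := by
          have h2 : (1 : ZMod 2) + 1 = 0 := by decide
          linear_combination (-1 : ZMod 2) * h2
        rw [e]
    rw [hN] at hr1
    rw [mem_evenSub, par_r, map_one] at hr1
    exact absurd hr1 (by decide)
  · intro hn' H hH
    have hne : NeZero n := ⟨by omega⟩
    apply le_antisymm _ Subgroup.le_normalizer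
    -- extract a reflection and a rotation not of order ≤ 2
    have hex : ∃ k : ZMod n, sr k ∈ H ∧ ∃ i : ZMod n, r i ∈ H ∧ i + i ≠ 0 := by
      rw [isMulCommutative_iff] at hH
      push Not at hH
      obtain ⟨⟨a, ha⟩, ⟨b, hb⟩, hab⟩ := hH
      have hab' : a * b ≠ b * a := fun h => hab (Subtype.ext h)
      rcases a with i | i <;> rcases b with j | j
      · exfalso; apply hab'; simp [add_comm]
      · refine ⟨j, hb, i, ha, ?_⟩
        intro h0
        apply hab'
        simp only [r_mul_sr, sr_mul_r, sr.injEq]
        linear_combination (-1 : ZMod n) * h0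
      · refine ⟨i, ha, j, hb, ?_⟩
        intro h0
        apply hab'
        simp only [r_mul_sr, sr_mul_r, sr.injEq]
        linear_combination h0
      · refine ⟨i, ha, j - i, ?_, ?_⟩
        · have := H.mul_mem ha hb
          simpa using this
        · intro h0
          apply hab'
          simp only [sr_mul_sr, r.injEq]
          linear_combination h0
    obtain ⟨k, hk, i, hi, hii⟩ := hex
    have hrot : ∀ j : ZMod n, r j ∈ Subgroup.normalizer (H : Set (DihedralGroup n)) → r j ∈ H := by
      intro j hj
      have h1 : r j * sr k * (r j)⁻¹ ∈ H := (Subgroup.mem_set_normalizer_iff.1 hj (sr k)).1 hk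
      have h2 : r (j + j) ∈ H := by
        have := H.mul_mem h1 hk
        simp only [inv_r, r_mul_sr, sr_mul_r, sr_mul_sr] at this
        have e : k - (k - j + -j) = j + j := by ring
        rw [e] at this
        exact this
      rcases hn' with rfl | ⟨m, rfl⟩
      · obtain ⟨c, hc⟩ := zmod4_aux i j hii
        have := H.pow_mem hi (c : ℕ)
        rw [r_pow, hc] at this
        exact this
      · have := H.pow_mem h2 (m + 1)
        rw [r_pow] at this
        have e : (j + j) * ((m + 1 : ℕ) : ZMod (2 * m + 1)) = j := by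
          have h0 : ((2 * m + 1 : ℕ) : ZMod (2 * m + 1)) = 0 := ZMod.natCast_self _
          push_cast at h0 ⊢
          linear_combination j * h0
        rw [e] at this
        exact this
    rintro (j | j) hj
    · exact hrot j hj
    · have h1 : sr j * sr k ∈ Subgroup.normalizer (H : Set (DihedralGroup n)) :=
        Subgroup.mul_mem _ hj (Subgroup.le_normalizer hk)
      rw [sr_mul_sr] at h1
      have h2 := H.mul_mem (hrot _ h1) hk
      rw [r_mul_sr] at h2
      have e : k - (k - j) = j := by ring
      rw [e] at h2
      exact h2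

end Cfsg.Agent.S4074
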