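import Mathlib
import Cfsg.Statements.S4075

set_option autoImplicit false
open Cfsg

namespace Cfsg.Agent.S4075

theorem exists_noncomm_sylow {G : Type*} [Group G] [Finite G] [Group.IsNilpotent G]
    (hG : ¬ IsMulCommutative G) : ∃ p : ℕ, p.Prime ∧ ∃ P : Sylow p G, ¬ IsMulCommutative P := by
  by_contra hall
  push Not at hall
  apply hG
  have hnil : Group.IsNilpotent G := inferInstance
  obtain ⟨e⟩ := ((Group.isNilpotent_of_finite_tfae (G := G)).out 0 4).1 hnil
  rw [isMulCommutative_iff]
  intro a b
  apply e.symm.injective
  rw [map_mul, map_mul]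
  funext p P
  have hc := hall p.1 (Nat.prime_of_mem_primeFactors p.2) P
  exact (isMulCommutative_iff.1 hc) _ _

theorem result {G : Type*} [Group G] [Finite G]
    [Group.IsNilpotent G] :
    (∀ H : Subgroup G, ¬ IsMulCommutative H → Subgroup.normalizer (H : Set G) = H) ↔
    (IsMulCommutative G ∨ (IsPrimePow (Nat.card G) ∧ ¬ IsMulCommutative G ∧ ∀ H : Subgroup G, H ≠ ⊤ → IsMulCommutative H)) := by
  constructor
  · intro h
    by_cases hG : IsMulCommutative G
    · exact Or.inl hG
    · right
      have hproper : ∀ H : Subgroup G, H ≠ ⊤ → IsMulCommutative H := by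
        intro H hH
        by_contra hc
        have h1 := h H hc
        have h2 := Group.normalizerCondition_of_isNilpotent (G := G) H (lt_top_iff_ne_top.2 hH)
        rw [h1] at h2
        exact lt_irrefl _ h2
      refine ⟨?_, hG, hproper⟩
      obtain ⟨p, hp, P, hP⟩ := exists_noncomm_sylow hG
      have : Fact p.Prime := ⟨hp⟩
      have hPtop : (P : Subgroup G) = ⊤ := by
        by_contra hne
        exact hP (hproper _ hne)
      obtain ⟨n, hn⟩ := IsPGroup.iff_card.1 P.isPGroup'
      have hcard : Nat.card G = p ^ n := by
        rw [← hn, hPtop, Subgroup.card_top]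
      rw [isPrimePow_nat_iff]
      refine ⟨p, n, hp, ?_, hcard.symm⟩
      rcases Nat.eq_zero_or_pos n with h0 | h0
      · exfalso
        rw [h0, pow_zero] at hcard
        apply hG
        have : Subsingleton G := (Nat.card_eq_one_iff_unique.1 hcard).1
        rw [isMulCommutative_iff]
        intro a b
        exact Subsingleton.elim _ _
      · exact h0
  · rintro (hG | ⟨-, hG, hproper⟩) H hH
    · exfalso
      apply hH
      rw [isMulCommutative_iff]
      intro a b
      exact Subtype.ext ((isMulCommutative_iff.1 hG) _ _)
    · have hHtop : H = ⊤ := by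
        by_contra hne
        exact hH (hproper H hne)
      subst hHtop
      ext x
      simp [Subgroup.mem_set_normalizer_iff]

end Cfsg.Agent.S4075
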