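import Mathlib
import Cfsg.Statements.S4080

set_option autoImplicit false
open Cfsg

namespace Cfsg.Agent.S4080

theorem sq_eq_zero_of_pow_eq_zero {K : Type*} [Field K] (N : Matrix (Fin 2) (Fin 2) K) (k : ℕ)
    (h : N ^ k = 0) : N ^ 2 = 0 := by
  have hCH : N ^ 2 = N.trace • N - N.det • (1 : Matrix (Fin 2) (Fin 2) K) := by
    ext i j
    fin_cases i <;> fin_cases j <;>
      simp [pow_two, Matrix.mul_apply, Fin.sum_univ_two, Matrix.det_fin_two, Matrix.trace_fin_two] <;>
      ring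
  have hdet : N.det = 0 := by
    have h1 := congrArg Matrix.det h
    rw [Matrix.det_pow, Matrix.det_zero] at h1
    exact IsNilpotent.eq_zero ⟨k, h1⟩
  rw [hdet, zero_smul, sub_zero] at hCH
  have hpow : ∀ m : ℕ, N ^ (m + 1) = N.trace ^ m • N := by
    intro m
    induction m with
    | zero => simp
    | succ m ih =>
      rw [pow_succ, ih, Matrix.smul_mul, ← pow_two, hCH, smul_smul, ← pow_succ]
  rcases k with _ | m
  · rw [pow_zero] at h
    exact absurd h one_ne_zero
  · rw [hpow m] at h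
    rcases smul_eq_zero.1 h with h1 | h1
    · rcases m with _ | m
      · rw [pow_zero] at h1; exact absurd h1 one_ne_zero
      · have ht : N.trace = 0 := by
          exact IsNilpotent.eq_zero ⟨m + 1, h1⟩
        rw [hCH, ht, zero_smul]
    · rw [h1]; simp

theorem exists_eq_mul_of_cast_eq_zero {p : ℕ} [Fact p.Prime] (y : ZMod (p ^ 2))
    (h : (ZMod.castHom (dvd_pow_self p two_ne_zero) (ZMod p)) y = 0) :
    ∃ m : ZMod (p ^ 2), y = (p : ZMod (p ^ 2)) * m := by
  have hp : p.Prime := Fact.out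
  have : NeZero (p ^ 2) := ⟨pow_ne_zero 2 hp.ne_zero⟩
  rw [← ZMod.natCast_zmod_val y, map_natCast, ZMod.natCast_eq_zero_iff] at h
  obtain ⟨m, hm⟩ := h
  refine ⟨(m : ZMod (p ^ 2)), ?_⟩
  rw [← ZMod.natCast_zmod_val y, hm]
  push_cast
  rfl

theorem exists_eq_mul_of_mul_eq_zero {p : ℕ} [Fact p.Prime] (y : ZMod (p ^ 2))
    (h : (p : ZMod (p ^ 2)) * y = 0) :
    ∃ m : ZMod (p ^ 2), y = (p : ZMod (p ^ 2)) * m := by
  have hp : p.Prime := Fact.out
  have : NeZero (p ^ 2) := ⟨pow_ne_zero 2 hp.ne_zero⟩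
  rw [← ZMod.natCast_zmod_val y, ← Nat.cast_mul, ZMod.natCast_eq_zero_iff] at h
  have h' : p * p ∣ p * y.val := by rw [← pow_two]; exact h
  obtain ⟨m, hm⟩ := Nat.dvd_of_mul_dvd_mul_left hp.pos h'
  refine ⟨(m : ZMod (p ^ 2)), ?_⟩
  rw [← ZMod.natCast_zmod_val y, hm]
  push_cast
  rfl

theorem ring_key {E : Type*} [Ring E] {p : ℕ} (hp : p.Prime) (h5 : 5 ≤ p) (n M : E)
    (hc2 : (p : E) * (p : E) = 0) (hn2 : n ^ 2 = (p : E) * M) (hpow : (1 + n) ^ p = 1) :
    (p : E) * n = 0 := by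
  have hcomm : Commute n 1 := Commute.one_right n
  rw [add_comm, hcomm.add_pow] at hpow
  have hpc : ∀ e : E, e * (p : E) = (p : E) * e := fun e => (Nat.cast_commute p e).eq.symm
  have ht : ∀ m : ℕ, m + 2 ≤ p → n ^ (m + 2) * 1 ^ (p - (m + 2)) * ((p.choose (m + 2) : ℕ) : E) = 0 := by
    intro m hmp
    rw [one_pow, mul_one]
    rcases Nat.lt_or_eq_of_le hmp with hlt | heq
    · obtain ⟨d, hd⟩ := hp.dvd_choose_self (by omega : m + 2 ≠ 0) hlt
      rw [hd, Nat.cast_mul, add_comm m 2, pow_add, hn2]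
      calc (p : E) * M * n ^ m * ((p : E) * (d : E))
          = (p : E) * (M * n ^ m * (p : E)) * (d : E) := by simp only [mul_assoc]
        _ = (p : E) * ((p : E) * (M * n ^ m)) * (d : E) := by rw [hpc]
        _ = ((p : E) * (p : E)) * (M * n ^ m) * (d : E) := by simp only [mul_assoc]
        _ = 0 := by rw [hc2, zero_mul, zero_mul]
    · rw [heq, Nat.choose_self, Nat.cast_one, mul_one]
      have e : p = 2 + 2 + (p - 4) := by omega
      rw [e, pow_add, pow_add, hn2]
      calc (p : E) * M * ((p : E) * M) * n ^ (p - 4)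
          = (p : E) * (M * (p : E)) * M * n ^ (p - 4) := by simp only [mul_assoc]
        _ = (p : E) * ((p : E) * M) * M * n ^ (p - 4) := by rw [hpc]
        _ = ((p : E) * (p : E)) * M * M * n ^ (p - 4) := by simp only [mul_assoc]
        _ = 0 := by rw [hc2, zero_mul, zero_mul, zero_mul]
  have e : p + 1 = (p - 1) + 1 + 1 := by omega
  rw [e, Finset.sum_range_succ', Finset.sum_range_succ'] at hpow
  rw [Finset.sum_eq_zero (fun m hm => ht m (by rw [Finset.mem_range] at hm; omega))] at hpow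
  simp only [zero_add, pow_one, one_pow, mul_one, Nat.choose_one_right, pow_zero, Nat.choose_zero_right,
    Nat.cast_one] at hpow
  have h1 : n * (p : E) = 0 := by
    have := hpow
    rwa [add_eq_right] at this
  rw [← hpc]; exact h1

theorem result {p : ℕ} [Fact p.Prime] (hp : 3 < p)
    (a : MulAut (Multiplicative (ZMod (p ^ 2) × ZMod (p ^ 2)))) (ha : orderOf a = p)
    (x : Multiplicative (ZMod (p ^ 2) × ZMod (p ^ 2))) (hx : orderOf x = p) : a x = x := by
  have hpp : p.Prime := Fact.out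
  have h5 : 5 ≤ p := by
    rcases Nat.lt_or_ge p 5 with h | h
    · interval_cases p; exact absurd hpp (by decide)
    · exact h
  -- the additive, hence linear, map induced by `a`
  let α : (ZMod (p ^ 2) × ZMod (p ^ 2)) →+ (ZMod (p ^ 2) × ZMod (p ^ 2)) :=
    AddMonoidHom.toMultiplicative.symm a.toMonoidHom
  let f : (ZMod (p ^ 2) × ZMod (p ^ 2)) →ₗ[ZMod (p ^ 2)] (ZMod (p ^ 2) × ZMod (p ^ 2)) :=
    α.toZModLinearMap (p ^ 2)
  have hf : ∀ v : ZMod (p ^ 2) × ZMod (p ^ 2),
      f v = Multiplicative.toAdd (a (Multiplicative.ofAdd v)) := fun v => rfl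
  have hfpow : ∀ (k : ℕ) (v : ZMod (p ^ 2) × ZMod (p ^ 2)),
      (f ^ k) v = Multiplicative.toAdd ((a ^ k) (Multiplicative.ofAdd v)) := by
    intro k
    induction k with
    | zero => intro v; simp
    | succ k ih =>
      intro v
      rw [pow_succ f, Module.End.mul_apply, ih, hf, pow_succ a, MulAut.mul_apply]
      simp
  have hfp : f ^ p = 1 := by
    apply LinearMap.ext
    intro v
    have hap : a ^ p = 1 := by
      have := pow_orderOf_eq_one a
      rwa [ha] at this
    rw [hfpow, hap]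
    simp
  -- reduction modulo p of the matrix of f - 1
  let A := LinearMap.toMatrixAlgEquiv (Module.Basis.finTwoProd (ZMod (p ^ 2)))
  let Φ : Matrix (Fin 2) (Fin 2) (ZMod (p ^ 2)) →+* Matrix (Fin 2) (Fin 2) (ZMod p) :=
    (ZMod.castHom (dvd_pow_self p two_ne_zero) (ZMod p)).mapMatrix
  have hF : (Φ (A f)) ^ p = 1 := by rw [← map_pow, ← map_pow, hfp, map_one, map_one]
  have hN : (Φ (A (f - 1))) ^ p = 0 := by
    rw [map_sub, map_sub, map_one, map_one, sub_pow_char_of_commute p (Commute.one_right _), hF,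
      one_pow, sub_self]
  have hN2 : (Φ (A (f - 1))) ^ 2 = 0 := sq_eq_zero_of_pow_eq_zero _ p hN
  have hent : ∀ i j, ∃ m : ZMod (p ^ 2), (A ((f - 1) ^ 2)) i j = (p : ZMod (p ^ 2)) * m := by
    intro i j
    apply exists_eq_mul_of_cast_eq_zero
    have := congrFun (congrFun hN2 i) j
    rw [← map_pow, ← map_pow] at this
    simpa [Φ, RingHom.mapMatrix_apply, Matrix.map_apply] using this
  choose m hm using hent
  have hn2 : (f - 1) ^ 2 =
      ((p : ℕ) : Module.End (ZMod (p ^ 2)) (ZMod (p ^ 2) × ZMod (p ^ 2))) * A.symm (Matrix.of m) := by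
    apply A.injective
    rw [← nsmul_eq_mul, map_nsmul, AlgEquiv.apply_symm_apply]
    ext i j
    rw [hm i j, Matrix.smul_apply, nsmul_eq_mul]
    rfl
  have hc2 : ((p : ℕ) : Module.End (ZMod (p ^ 2)) (ZMod (p ^ 2) × ZMod (p ^ 2))) *
      ((p : ℕ) : Module.End (ZMod (p ^ 2)) (ZMod (p ^ 2) × ZMod (p ^ 2))) = 0 := by
    rw [← Nat.cast_mul, ← pow_two]
    apply LinearMap.ext
    intro v
    rw [Module.End.natCast_apply]
    have hz : (p : ZMod (p ^ 2)) ^ 2 = 0 := by
      rw [← Nat.cast_pow]; exact ZMod.natCast_self _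
    ext
    · simp [hz]
    · simp [hz]
  have hkey := ring_key hpp h5 (f - 1) (A.symm (Matrix.of m)) hc2 hn2
    (by rw [add_sub_cancel]; exact hfp)
  -- x is p times something
  have hxp : x ^ p = 1 := by
    have := pow_orderOf_eq_one x
    rwa [hx] at this
  have hv : p • (Multiplicative.toAdd x) = 0 := by
    rw [← toAdd_pow, hxp]; rfl
  have hv1 : (p : ZMod (p ^ 2)) * (Multiplicative.toAdd x).1 = 0 := by
    have := congrArg Prod.fst hv
    simpa using this
  have hv2 : (p : ZMod (p ^ 2)) * (Multiplicative.toAdd x).2 = 0 := by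
    have := congrArg Prod.snd hv
    simpa using this
  obtain ⟨m1, hm1⟩ := exists_eq_mul_of_mul_eq_zero _ hv1
  obtain ⟨m2, hm2⟩ := exists_eq_mul_of_mul_eq_zero _ hv2
  have hvw : Multiplicative.toAdd x = p • ((m1, m2) : ZMod (p ^ 2) × ZMod (p ^ 2)) := by
    ext
    · simp [hm1]
    · simp [hm2]
  have hfix : f (Multiplicative.toAdd x) = Multiplicative.toAdd x := by
    have h1 : (f - 1) (p • ((m1, m2) : ZMod (p ^ 2) × ZMod (p ^ 2))) = 0 := by
      have e : ((p : ℕ) : Module.End (ZMod (p ^ 2)) (ZMod (p ^ 2) × ZMod (p ^ 2)))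
          ((f - 1) ((m1, m2) : ZMod (p ^ 2) × ZMod (p ^ 2))) = 0 := by
        rw [← Module.End.mul_apply, hkey]; rfl
      rw [Module.End.natCast_apply] at e
      rw [map_nsmul]; exact e
    rw [hvw]
    rw [LinearMap.sub_apply, Module.End.one_apply, sub_eq_zero] at h1
    exact h1
  rw [hf] at hfix
  exact hfix

end Cfsg.Agent.S4080
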