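import Mathlib
import Cfsg.Statements.S4081
import Cfsg.Agent.Lib.Helper72.AutOrbGrp
import Cfsg.Agent.Lib.Helper4.Burnside

set_option autoImplicit false
set_option linter.style.haveILetI false
open Cfsg

namespace Cfsg.Agent.S4081

open Cfsg.Agent.Lib.Helper72
open scoped commutatorElement

/-- (⇒): three automorphism orbits force the structure. -/
theorem structure_of_three_orbits {G : Type*} [Group G] [Finite G]
    (hnpp : ¬ IsPrimePow (Nat.card G)) (hnt : Nat.card G ≠ 1)
    (h3 : Nat.card (MulAction.orbitRel.Quotient (MulAut G) G) = 3) :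
    ∃ (p q n : ℕ) (_ : Fact p.Prime) (_ : Fact q.Prime) (N : Subgroup G), p ≠ q ∧ 1 ≤ n ∧
      Nat.card G = p ^ n * q ∧ N.Normal ∧ (∀ P : Sylow p G, (P : Subgroup G) = N) ∧
      (∀ a ∈ N, ∀ b ∈ N, a * b = b * a) ∧ (∀ a ∈ N, a ^ p = 1) ∧
      orderOf (p : ZMod q) = q - 1 ∧
      ∀ x y : G, orderOf x = q → orderOf y = p → x * y * x⁻¹ ≠ y := by
  have hn0 : Nat.card G ≠ 0 := Nat.card_pos.ne'
  obtain ⟨p, hp, hpd⟩ := Nat.exists_prime_and_dvd hnt
  obtain ⟨q, hq, hqd, hqp⟩ : ∃ q : ℕ, q.Prime ∧ q ∣ Nat.card G ∧ q ≠ p := by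
    by_contra hcon
    push Not at hcon
    apply hnpp
    rw [isPrimePow_iff_unique_prime_dvd]
    exact ⟨p, ⟨hp, hpd⟩, fun r hr => hcon r hr.1 hr.2⟩
  haveI : Fact p.Prime := ⟨hp⟩
  haveI : Fact q.Prime := ⟨hq⟩
  have hpq : p ≠ q := fun h => hqp h.symm
  obtain ⟨b₀, hb₀⟩ := exists_prime_orderOf_dvd_card' (G := G) p hpd
  obtain ⟨c₀, hc₀⟩ := exists_prime_orderOf_dvd_card' (G := G) q hqd
  -- the three classes exhaust the orbit space
  have hS3 : ({Quotient.mk (MulAction.orbitRel (MulAut G) G) 1,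
        Quotient.mk (MulAction.orbitRel (MulAut G) G) b₀,
        Quotient.mk (MulAction.orbitRel (MulAut G) G) c₀} :
      Set (MulAction.orbitRel.Quotient (MulAut G) G)).ncard = 3 := by
    rw [Set.ncard_eq_three]
    refine ⟨_, _, _, ?_, ?_, ?_, rfl⟩
    · intro h
      have h1 := orderOf_eq_of_orbit_mk_eq h
      rw [orderOf_one, hb₀] at h1
      exact hp.ne_one h1.symm
    · intro h
      have h1 := orderOf_eq_of_orbit_mk_eq h
      rw [orderOf_one, hc₀] at h1
      exact hq.ne_one h1.symm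
    · intro h
      have h1 := orderOf_eq_of_orbit_mk_eq h
      rw [hb₀, hc₀] at h1
      exact hpq h1
  have huniv : ({Quotient.mk (MulAction.orbitRel (MulAut G) G) 1,
        Quotient.mk (MulAction.orbitRel (MulAut G) G) b₀,
        Quotient.mk (MulAction.orbitRel (MulAut G) G) c₀} :
      Set (MulAction.orbitRel.Quotient (MulAut G) G)) = Set.univ := by
    apply Set.eq_of_subset_of_ncard_le (Set.subset_univ _) _ (Set.toFinite _)
    rw [Set.ncard_univ, h3, hS3]
  have hcls : ∀ g : G, Quotient.mk (MulAction.orbitRel (MulAut G) G) g =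
        Quotient.mk (MulAction.orbitRel (MulAut G) G) 1 ∨
      Quotient.mk (MulAction.orbitRel (MulAut G) G) g =
        Quotient.mk (MulAction.orbitRel (MulAut G) G) b₀ ∨
      Quotient.mk (MulAction.orbitRel (MulAut G) G) g =
        Quotient.mk (MulAction.orbitRel (MulAut G) G) c₀ := by
    intro g
    have h1 : Quotient.mk (MulAction.orbitRel (MulAut G) G) g ∈ (Set.univ :
      Set (MulAction.orbitRel.Quotient (MulAut G) G)) := Set.mem_univ _
    rw [← huniv] at h1
    exact h1
  have hord : ∀ g : G, orderOf g = 1 ∨ orderOf g = p ∨ orderOf g = q := by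
    intro g
    rcases hcls g with h | h | h
    · left; rw [orderOf_eq_of_orbit_mk_eq h, orderOf_one]
    · right; left; rw [orderOf_eq_of_orbit_mk_eq h, hb₀]
    · right; right; rw [orderOf_eq_of_orbit_mk_eq h, hc₀]
  have hexact : ∀ g h : G, Quotient.mk (MulAction.orbitRel (MulAut G) G) h =
      Quotient.mk (MulAction.orbitRel (MulAut G) G) g → ∃ α : MulAut G, α g = h := by
    intro g h hgh
    have h1 := Quotient.exact hgh
    change h ∈ MulAction.orbit (MulAut G) g at h1
    obtain ⟨α, hα⟩ := h1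
    exact ⟨α, hα⟩
  have htp : ∀ g h : G, orderOf g = p → orderOf h = p → ∃ α : MulAut G, α g = h := by
    intro g h hg hh
    have hg' : Quotient.mk (MulAction.orbitRel (MulAut G) G) g =
        Quotient.mk (MulAction.orbitRel (MulAut G) G) b₀ := by
      rcases hcls g with h1 | h1 | h1
      · have h2 := orderOf_eq_of_orbit_mk_eq h1
        rw [hg, orderOf_one] at h2; exact absurd h2 hp.ne_one
      · exact h1
      · have h2 := orderOf_eq_of_orbit_mk_eq h1
        rw [hg, hc₀] at h2; exact absurd h2 hpq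
    have hh' : Quotient.mk (MulAction.orbitRel (MulAut G) G) h =
        Quotient.mk (MulAction.orbitRel (MulAut G) G) b₀ := by
      rcases hcls h with h1 | h1 | h1
      · have h2 := orderOf_eq_of_orbit_mk_eq h1
        rw [hh, orderOf_one] at h2; exact absurd h2 hp.ne_one
      · exact h1
      · have h2 := orderOf_eq_of_orbit_mk_eq h1
        rw [hh, hc₀] at h2; exact absurd h2 hpq
    exact hexact g h (hh'.trans hg'.symm)
  have htq : ∀ g h : G, orderOf g = q → orderOf h = q → ∃ α : MulAut G, α g = h := by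
    intro g h hg hh
    have hg' : Quotient.mk (MulAction.orbitRel (MulAut G) G) g =
        Quotient.mk (MulAction.orbitRel (MulAut G) G) c₀ := by
      rcases hcls g with h1 | h1 | h1
      · have h2 := orderOf_eq_of_orbit_mk_eq h1
        rw [hg, orderOf_one] at h2; exact absurd h2 hq.ne_one
      · have h2 := orderOf_eq_of_orbit_mk_eq h1
        rw [hg, hb₀] at h2; exact absurd h2 hqp
      · exact h1
    have hh' : Quotient.mk (MulAction.orbitRel (MulAut G) G) h =
        Quotient.mk (MulAction.orbitRel (MulAut G) G) c₀ := by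
      rcases hcls h with h1 | h1 | h1
      · have h2 := orderOf_eq_of_orbit_mk_eq h1
        rw [hh, orderOf_one] at h2; exact absurd h2 hq.ne_one
      · have h2 := orderOf_eq_of_orbit_mk_eq h1
        rw [hh, hb₀] at h2; exact absurd h2 hqp
      · exact h1
    exact hexact g h (hh'.trans hg'.symm)
  -- the order of G
  have hprimes : ∀ r : ℕ, r.Prime → r ∣ Nat.card G → r = p ∨ r = q := by
    intro r hr hrd
    haveI : Fact r.Prime := ⟨hr⟩
    obtain ⟨g, hg⟩ := exists_prime_orderOf_dvd_card' (G := G) r hrd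
    rcases hord g with h | h | h
    · rw [hg] at h; exact absurd h hr.ne_one
    · left; rw [← hg, h]
    · right; rw [← hg, h]
  have hab : ∃ a b : ℕ, Nat.card G = p ^ a * q ^ b := by
    have h1 : Nat.card G = p ^ (Nat.card G).factorization p * (Nat.card G / p ^ (Nat.card G).factorization p) :=
      (Nat.ordProj_mul_ordCompl_eq_self (Nat.card G) p).symm
    have hm0 : Nat.card G / p ^ (Nat.card G).factorization p ≠ 0 :=
      (Nat.ordCompl_pos p hn0).ne'
    have h2 : Nat.card G / p ^ (Nat.card G).factorization p =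
        q ^ (Nat.card G / p ^ (Nat.card G).factorization p).primeFactorsList.length := by
      apply Nat.eq_prime_pow_of_unique_prime_dvd hm0
      intro d hd hdd
      rcases hprimes d hd (hdd.trans (Nat.ordCompl_dvd (Nat.card G) p)) with h | h
      · exfalso
        rw [h] at hdd
        exact Nat.not_dvd_ordCompl hp hn0 hdd
      · exact h
    exact ⟨_, _, by rw [← h2]; exact h1⟩
  obtain ⟨a, b, hab'⟩ := hab
  haveI : Group.IsSolvable G := Cfsg.Agent.Lib.Helper4.burnside p q a b hp hq hab'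
  -- a characteristic abelian subgroup
  haveI : Nontrivial G := by
    rw [← Finite.one_lt_card_iff_nontrivial]
    have := Nat.card_pos (α := G)
    omega
  obtain ⟨D, hDne, hDchar, hDcomm⟩ : ∃ D : Subgroup G, D ≠ ⊥ ∧
      (∀ α : MulAut G, ∀ d ∈ D, α d ∈ D) ∧ (∀ a ∈ D, ∀ b ∈ D, a * b = b * a) := by
    have hsolv : ∃ n : ℕ, derivedSeries G n = ⊥ := Group.IsSolvable.solvable
    classical
    have hfind := Nat.find_spec hsolv
    have hmin := fun m => Nat.find_min hsolv (m := m)
    rcases hk : Nat.find hsolv with _ | k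
    · rw [hk, derivedSeries_zero] at hfind
      exact absurd hfind top_ne_bot
    · refine ⟨derivedSeries G k, ?_, ?_, ?_⟩
      · exact hmin k (by rw [hk]; exact Nat.lt_succ_self k)
      · intro α d hd
        have hchar : (derivedSeries G k).Characteristic := derivedSeries_characteristic G k
        have h1 := (Subgroup.characteristic_iff_map_eq.1 hchar) α
        rw [← h1]
        exact Subgroup.mem_map_of_mem _ hd
      · intro a ha b hb
        rw [hk, derivedSeries_succ] at hfind
        have h1 : ⁅a, b⁆ ∈ ⁅derivedSeries G k, derivedSeries G k⁆ :=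
          Subgroup.commutator_mem_commutator ha hb
        rw [hfind, Subgroup.mem_bot] at h1
        exact commutatorElement_eq_one_iff_mul_comm.1 h1
  obtain ⟨d, hdD, hd1⟩ : ∃ d : G, d ∈ D ∧ d ≠ 1 := by
    by_contra hcon
    push Not at hcon
    apply hDne
    rw [eq_bot_iff]
    intro g hg
    rw [Subgroup.mem_bot]
    exact hcon g hg
  rcases hord d with h | h | h
  · exact absurd (orderOf_eq_one_iff.1 h) hd1
  · obtain ⟨n, N, hn, hcard, hNn, hSyl, hNcomm, hNexp, hprim, hfpf⟩ :=
      structure_of_orbits p q hpq hord htp htq ⟨c₀, hc₀⟩ D hDchar hDcomm ⟨d, hdD, h⟩ ⟨a, b, hab'⟩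
    exact ⟨p, q, n, ⟨hp⟩, ⟨hq⟩, N, hpq, hn, hcard, hNn, hSyl, hNcomm, hNexp, hprim, hfpf⟩
  · obtain ⟨n, N, hn, hcard, hNn, hSyl, hNcomm, hNexp, hprim, hfpf⟩ :=
      structure_of_orbits q p hqp (fun g => by rcases hord g with h | h | h <;> tauto) htq htp
        ⟨b₀, hb₀⟩ D hDchar hDcomm ⟨d, hdD, h⟩ ⟨b, a, by rw [hab', mul_comm]⟩
    exact ⟨q, p, n, ⟨hq⟩, ⟨hp⟩, N, hqp, hn, hcard, hNn, hSyl, hNcomm, hNexp, hprim, hfpf⟩

theorem result {G : Type*} [Group G] [Finite G] (hnpp : ¬ IsPrimePow (Nat.card G)) (hnt : Nat.card G ≠ 1) :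
    Nat.card (MulAction.orbitRel.Quotient (MulAut G) G) = 3 ↔
    ∃ (p q n : ℕ) (_ : Fact p.Prime) (_ : Fact q.Prime), p ≠ q ∧ 1 ≤ n ∧ Nat.card G = p ^ n * q ∧
      (∀ P : Sylow p G, (P : Subgroup G).Normal ∧ Cfsg.IsElementaryAbelian p (P : Subgroup G)) ∧
      orderOf (p : ZMod q) = q - 1 ∧
      ∀ x y : G, orderOf x = q → orderOf y = p → x * y * x⁻¹ ≠ y := by
  constructor
  · intro h3
    obtain ⟨p, q, n, hp, hq, N, hpq, hn, hcard, hNn, hSyl, hNcomm, hNexp, hprim, hfpf⟩ :=
      structure_of_three_orbits hnpp hnt h3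
    refine ⟨p, q, n, hp, hq, hpq, hn, hcard, fun P => ?_, hprim, hfpf⟩
    rw [hSyl P]
    exact ⟨hNn, ⟨⟨fun a b => Subtype.ext (hNcomm a a.2 b b.2)⟩⟩, hNexp⟩
  · rintro ⟨p, q, n, hp, hq, hpq, hn, hcard, hP, hprim, hfpf⟩
    obtain P : Sylow p G := default
    obtain ⟨hPn, hPc, hPe⟩ := hP P
    haveI := hPn
    haveI := hPc
    have hPcard : Nat.card (P : Subgroup G) = p ^ n :=
      card_sylow_of_card p q n 1 hpq (by rw [pow_one]; exact hcard) P
    exact card_orbits_eq_three p q n hpq hn hcard (P : Subgroup G) hPcard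
      (fun a ha b hb => congrArg Subtype.val (mul_comm' (⟨a, ha⟩ : (P : Subgroup G)) ⟨b, hb⟩))
      hPe hprim hfpf

end Cfsg.Agent.S4081
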