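import Cfsg.Statements.S4082
import Mathlib
import Cfsg.Agent.S0206

set_option autoImplicit false
open Cfsg

namespace Cfsg.Agent.S4082

open Subgroup

section
variable {G : Type*} [Group G]

/-- elements of `A ⊔ zpowers y` when `y` normalizes `A` -/
theorem mem_sup_zpowers {A : Subgroup G} {y : G} (hy : y ∈ normalizer (A : Set G)) {h : G}
    (hh : h ∈ A ⊔ zpowers y) : ∃ k : ℤ, ∃ a ∈ A, h = y ^ k * a := by
  have hle : zpowers y ≤ normalizer (A : Set G) := by
    rw [zpowers_le]; exact hy
  have h1 := Subgroup.coe_mul_of_left_le_normalizer_right (zpowers y) A hle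
  rw [sup_comm] at hh
  have hh' : h ∈ ((zpowers y ⊔ A : Subgroup G) : Set G) := hh
  rw [h1] at hh'
  obtain ⟨z, hz, a, ha, rfl⟩ := Set.mem_mul.mp hh'
  obtain ⟨k, rfl⟩ := mem_zpowers_iff.mp hz
  exact ⟨k, a, ha, rfl⟩

theorem conj_zpow_mem {A : Subgroup G} {y : G} (hy : y ∈ normalizer (A : Set G)) (k : ℤ) {a : G}
    (ha : a ∈ A) : y ^ k * a * (y ^ k)⁻¹ ∈ A := by
  have h1 : y ^ k ∈ normalizer (A : Set G) := zpow_mem hy k
  exact (mem_normalizer_iff.mp h1 a).mp ha

theorem pclosed (p : ℕ) [Fact p.Prime] [Finite G] {A : Subgroup G} (hA : IsPGroup p A) {y : G}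
    (hy : y ∈ normalizer (A : Set G)) :
    (∀ S : Sylow p ↥(A ⊔ zpowers y), (S : Subgroup ↥(A ⊔ zpowers y)).Normal) ∧
    (∀ (S : Sylow p ↥(A ⊔ zpowers y)) [(S : Subgroup ↥(A ⊔ zpowers y)).Normal],
        IsCyclic (↥(A ⊔ zpowers y) ⧸ (S : Subgroup ↥(A ⊔ zpowers y)))) := by
  set H := A ⊔ zpowers y with hH
  have hAH : A ≤ H := le_sup_left
  have hyH : y ∈ H := (le_sup_right : zpowers y ≤ H) (mem_zpowers y)
  have hHN : H ≤ normalizer (A : Set G) :=
    sup_le le_normalizer (by rw [zpowers_le]; exact hy)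
  have hAn : (A.subgroupOf H).Normal := (normal_subgroupOf_iff_le_normalizer hAH).mpr hHN
  have hA' : IsPGroup p (A.subgroupOf H) := hA.comap_subtype
  have hle : ∀ S : Sylow p ↥H, A.subgroupOf H ≤ S := by
    intro S
    have h1 : IsPGroup p ((S : Subgroup ↥H) ⊔ A.subgroupOf H : Subgroup ↥H) :=
      IsPGroup.to_sup_of_normal_right S.isPGroup' hA'
    have h2 := S.is_maximal' h1 le_sup_left
    rw [← h2]; exact le_sup_right
  have hnorm : ∀ S : Sylow p ↥H, (S : Subgroup ↥H).Normal := by
    intro S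
    constructor
    intro s hs h
    have hc : h * s * h⁻¹ * s⁻¹ ∈ A.subgroupOf H := by
      rw [mem_subgroupOf]
      obtain ⟨k, a, ha, hk⟩ := mem_sup_zpowers hy h.2
      obtain ⟨j, b, hb, hj⟩ := mem_sup_zpowers hy s.2
      have e : ((h * s * h⁻¹ * s⁻¹ : ↥H) : G) =
          (y ^ k * a * (y ^ k)⁻¹) * (y ^ (k + j) * (b * a⁻¹) * (y ^ (k + j))⁻¹) *
            (y ^ j * b⁻¹ * (y ^ j)⁻¹) := by
        push_cast
        rw [hk, hj]
        group
      rw [e]
      exact A.mul_mem (A.mul_mem (conj_zpow_mem hy k ha)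
        (conj_zpow_mem hy (k + j) (A.mul_mem hb (A.inv_mem ha)))) (conj_zpow_mem hy j (A.inv_mem hb))
    have e2 : h * s * h⁻¹ = (h * s * h⁻¹ * s⁻¹) * s := by group
    rw [e2]
    exact (S : Subgroup ↥H).mul_mem (hle S hc) hs
  refine ⟨hnorm, ?_⟩
  intro S _
  refine ⟨⟨QuotientGroup.mk (⟨y, hyH⟩ : ↥H), fun x => ?_⟩⟩
  obtain ⟨h, rfl⟩ := QuotientGroup.mk_surjective x
  obtain ⟨k, a, ha, hk⟩ := mem_sup_zpowers hy h.2
  refine ⟨k, ?_⟩
  show (QuotientGroup.mk (⟨y, hyH⟩ : ↥H) : ↥H ⧸ (S : Subgroup ↥H)) ^ k = QuotientGroup.mk h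
  rw [← QuotientGroup.mk_zpow, QuotientGroup.eq]
  apply hle S
  rw [mem_subgroupOf]
  have e3 : ((((⟨y, hyH⟩ : ↥H) ^ k)⁻¹ * h : ↥H) : G) = a := by
    push_cast
    rw [hk]
    group
  rw [e3]; exact ha

theorem not_sr (p : ℕ) [Fact p.Prime] (hp : p ≠ 2) {H : Subgroup G} {m : ℕ}
    (e : ↥H ≃* DihedralGroup m) (a : ↥H) (k : ℕ) (hk : (a : G) ^ p ^ k = 1) (j : ZMod m)
    (hj : e a = DihedralGroup.sr j) : False := by
  have h2 : a * a = 1 := by
    apply e.injective
    rw [map_mul, hj, DihedralGroup.sr_mul_self, map_one]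
  have h3 : (a : G) ^ 2 = 1 := by
    have := congrArg Subtype.val h2
    simpa [pow_two] using this
  have hcop : Nat.Coprime (p ^ k) 2 :=
    Nat.Coprime.pow_left k ((Nat.coprime_primes (Fact.out) Nat.prime_two).mpr hp)
  have h4 : (a : G) ^ (Nat.gcd (p ^ k) 2) = 1 := pow_gcd_eq_one.mpr ⟨hk, h3⟩
  rw [Nat.Coprime.gcd_eq_one hcop, pow_one] at h4
  have h5 : a = 1 := Subtype.ext h4
  rw [h5, map_one, DihedralGroup.one_def] at hj
  cases hj

/-- consequences of the hypothesis for `A ⊔ zpowers y` -/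
theorem key (p : ℕ) [Fact p.Prime] (hp : p ≠ 2) [Finite G]
    (hR : ∀ H : Subgroup G, (∀ S : Sylow p ↥H, (S : Subgroup ↥H).Normal) →
        (∀ (S : Sylow p ↥H) [(S : Subgroup ↥H).Normal], IsCyclic (↥H ⧸ (S : Subgroup ↥H))) →
        IsCyclic H ∨ (∃ n : ℕ, Nonempty (H ≃* DihedralGroup (p ^ n))))
    {A : Subgroup G} (hA : IsPGroup p A) {y : G} (hy : y ∈ normalizer (A : Set G)) :
    y ∈ centralizer (A : Set G) ∨ (orderOf y = 2 ∧ ∀ a ∈ A, y * a * y⁻¹ = a⁻¹) := by
  obtain ⟨h1, h2⟩ := pclosed p hA hy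
  have hyH : y ∈ A ⊔ zpowers y := (le_sup_right : zpowers y ≤ _) (mem_zpowers y)
  have hAH : A ≤ A ⊔ zpowers y := le_sup_left
  rcases hR _ h1 h2 with hc | ⟨n, ⟨e⟩⟩
  · left
    rw [mem_centralizer_iff]
    intro a ha
    have := (IsCyclic.isMulCommutative (α := ↥(A ⊔ zpowers y))).is_comm.comm
      ⟨a, hAH ha⟩ ⟨y, hyH⟩
    exact congrArg Subtype.val this
  · have hrot : ∀ a (ha : a ∈ A), ∃ j, e ⟨a, hAH ha⟩ = DihedralGroup.r j := by
      intro a ha
      cases hcase : e ⟨a, hAH ha⟩ with
      | r j => exact ⟨j, rfl⟩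
      | sr j =>
        exfalso
        obtain ⟨k, hk⟩ := hA ⟨a, ha⟩
        have hk' : a ^ p ^ k = 1 := by
          have := congrArg Subtype.val hk
          simpa using this
        exact not_sr p hp e ⟨a, hAH ha⟩ k hk' j hcase
    cases hcase : e ⟨y, hyH⟩ with
    | r i =>
      left
      rw [mem_centralizer_iff]
      intro a ha
      obtain ⟨j, hj⟩ := hrot a ha
      have h3 : (⟨a, hAH ha⟩ : ↥(A ⊔ zpowers y)) * ⟨y, hyH⟩ = ⟨y, hyH⟩ * ⟨a, hAH ha⟩ := by
        apply e.injective
        rw [map_mul, map_mul, hj, hcase, DihedralGroup.r_mul_r, DihedralGroup.r_mul_r, add_comm]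
      exact congrArg Subtype.val h3
    | sr i =>
      right
      have hyy : y * y = 1 := by
        have h3 : (⟨y, hyH⟩ : ↥(A ⊔ zpowers y)) * ⟨y, hyH⟩ = 1 := by
          apply e.injective
          rw [map_mul, hcase, DihedralGroup.sr_mul_self, map_one]
        exact congrArg Subtype.val h3
      have hy1 : y ≠ 1 := by
        intro h1'
        have h3 : (⟨y, hyH⟩ : ↥(A ⊔ zpowers y)) = 1 := Subtype.ext h1'
        rw [h3, map_one, DihedralGroup.one_def] at hcase
        cases hcase
      refine ⟨?_, ?_⟩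
      · have : Fact (Nat.Prime 2) := ⟨Nat.prime_two⟩
        exact orderOf_eq_prime (by rw [pow_two]; exact hyy) hy1
      · intro a ha
        obtain ⟨j, hj⟩ := hrot a ha
        have h3 : (⟨y, hyH⟩ : ↥(A ⊔ zpowers y)) * ⟨a, hAH ha⟩ * (⟨y, hyH⟩)⁻¹ =
            (⟨a, hAH ha⟩)⁻¹ := by
          apply e.injective
          rw [map_mul, map_mul, map_inv, map_inv, hj, hcase, DihedralGroup.sr_mul_r,
            DihedralGroup.inv_sr, DihedralGroup.sr_mul_sr, DihedralGroup.inv_r]
          congr 1
          ring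
        exact congrArg Subtype.val h3

/-- the property of a subgroup of order `p` in the statement, elementwise -/
def Pi (Q : Subgroup G) : Prop :=
  (∀ a ∈ centralizer (Q : Set G), ∀ b ∈ centralizer (Q : Set G), a * b = b * a) ∧
  ∀ x : G, x ∈ normalizer (Q : Set G) → x ∉ centralizer (Q : Set G) →
    orderOf x = 2 ∧ ∀ c : G, c ∈ centralizer (Q : Set G) → x * c * x⁻¹ = c⁻¹

theorem mem_centralizer_map (f : G ≃* G) (Q : Subgroup G) (x : G) :
    x ∈ centralizer (Q : Set G) ↔ f x ∈ centralizer ((Q.map f.toMonoidHom : Subgroup G) : Set G) := by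
  rw [mem_centralizer_iff, mem_centralizer_iff]
  constructor
  · intro h u hu
    obtain ⟨q, hq, rfl⟩ := mem_map.mp hu
    have := h q hq
    show f q * f x = f x * f q
    rw [← map_mul, ← map_mul, this]
  · intro h q hq
    have := h (f q) (mem_map_of_mem _ hq)
    apply f.injective
    rw [map_mul, map_mul]; exact this

theorem mem_normalizer_map (f : G ≃* G) (Q : Subgroup G) (x : G) :
    x ∈ normalizer (Q : Set G) ↔ f x ∈ normalizer ((Q.map f.toMonoidHom : Subgroup G) : Set G) := by
  rw [← map_equiv_normalizer_eq Q f]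
  exact (mem_map_iff_mem f.injective).symm

theorem Pi_of_map (f : G ≃* G) (Q : Subgroup G) (h : Pi (Q.map f.toMonoidHom)) : Pi Q := by
  obtain ⟨h1, h2⟩ := h
  refine ⟨?_, ?_⟩
  · intro a ha b hb
    have := h1 (f a) ((mem_centralizer_map f Q a).mp ha) (f b) ((mem_centralizer_map f Q b).mp hb)
    apply f.injective
    rw [map_mul, map_mul]; exact this
  · intro x hx hxc
    obtain ⟨h3, h4⟩ := h2 (f x) ((mem_normalizer_map f Q x).mp hx)
      (fun hh => hxc ((mem_centralizer_map f Q x).mpr hh))
    refine ⟨?_, ?_⟩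
    · rw [← h3]; exact (MulEquiv.orderOf_eq f x).symm
    · intro c hc
      have := h4 (f c) ((mem_centralizer_map f Q c).mp hc)
      apply f.injective
      rw [map_mul, map_mul, map_inv, map_inv]; exact this

theorem forward (p : ℕ) [Fact p.Prime] (hp : p ≠ 2) [Finite G] (P : Sylow p G)
    (hR : ∀ H : Subgroup G, (∀ S : Sylow p ↥H, (S : Subgroup ↥H).Normal) →
        (∀ (S : Sylow p ↥H) [(S : Subgroup ↥H).Normal], IsCyclic (↥H ⧸ (S : Subgroup ↥H))) →
        IsCyclic H ∨ (∃ n : ℕ, Nonempty (H ≃* DihedralGroup (p ^ n)))) :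
    IsCyclic P ∧
      (normalizer ((P : Subgroup G) : Set G) = centralizer ((P : Subgroup G) : Set G) ∨
       ((centralizer ((P : Subgroup G) : Set G)).relIndex (normalizer ((P : Subgroup G) : Set G)) = 2 ∧
        ∀ Q : Subgroup G, Q ≤ P → Nat.card Q = p → Pi Q)) := by
  have hcop2 : Nat.Coprime p 2 := (Nat.coprime_primes (Fact.out) Nat.prime_two).mpr hp
  -- odd-order elements with square one are trivial
  have hodd : ∀ a : G, a ^ p = 1 → a ^ 2 = 1 → a = 1 := by
    intro a h1 h2
    have h4 : a ^ (Nat.gcd p 2) = 1 := pow_gcd_eq_one.mpr ⟨h1, h2⟩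
    rwa [Nat.Coprime.gcd_eq_one hcop2, pow_one] at h4
  have hcyc : IsCyclic P := by
    have h1 := pclosed p P.isPGroup' (one_mem (normalizer ((P : Subgroup G) : Set G)))
    have heq : (P : Subgroup G) ⊔ zpowers (1 : G) = P := by simp
    rcases hR _ h1.1 h1.2 with hc | ⟨n, ⟨e⟩⟩
    · exact (MulEquiv.subgroupCongr heq).isCyclic.mp hc
    · exfalso
      set x := e.symm (DihedralGroup.sr 0) with hx
      have hxP : (x : G) ∈ (P : Subgroup G) := heq.le x.2
      obtain ⟨k, hk⟩ := P.isPGroup' ⟨(x : G), hxP⟩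
      have hk' : (x : G) ^ p ^ k = 1 := by
        have := congrArg Subtype.val hk
        simpa using this
      exact not_sr p hp e x k hk' 0 (by rw [hx]; simp)
  refine ⟨hcyc, ?_⟩
  have hkeyP : ∀ x ∈ normalizer ((P : Subgroup G) : Set G),
      x ∈ centralizer ((P : Subgroup G) : Set G) ∨
        (orderOf x = 2 ∧ ∀ a ∈ (P : Subgroup G), x * a * x⁻¹ = a⁻¹) :=
    fun x hx => key p hp hR P.isPGroup' hx
  by_cases hNC : normalizer ((P : Subgroup G) : Set G) ≤ centralizer ((P : Subgroup G) : Set G)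
  · left
    exact le_antisymm hNC (centralizer_le_normalizer _)
  · right
    obtain ⟨t, htN, htC⟩ := SetLike.not_le_iff_exists.mp hNC
    obtain ⟨ht2, htinv⟩ := (hkeyP t htN).resolve_left htC
    have htt : t * t = 1 := by
      have := pow_orderOf_eq_one t
      rwa [ht2, pow_two] at this
    refine ⟨?_, ?_⟩
    · rw [Subgroup.relIndex, Subgroup.index_eq_two_iff]
      refine ⟨⟨t, htN⟩, fun b => ?_⟩
      simp only [mem_subgroupOf, Subgroup.coe_mul]
      by_cases hb : (b : G) ∈ centralizer ((P : Subgroup G) : Set G)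
      · right
        refine ⟨hb, fun h => htC ?_⟩
        have := (centralizer ((P : Subgroup G) : Set G)).mul_mem
          ((centralizer ((P : Subgroup G) : Set G)).inv_mem hb) h
        simpa using this
      · left
        refine ⟨?_, hb⟩
        obtain ⟨-, hbinv⟩ := (hkeyP b b.2).resolve_left hb
        rw [mem_centralizer_iff]
        intro a ha
        have h1 := htinv a ha
        have h2 := hbinv a⁻¹ ((P : Subgroup G).inv_mem ha)
        rw [inv_inv] at h2
        have h3 : (b : G) * t * a * ((b : G) * t)⁻¹ = a := by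
          have : (b : G) * t * a * ((b : G) * t)⁻¹ = (b : G) * (t * a * t⁻¹) * (b : G)⁻¹ := by
            group
          rw [this, h1, h2]
        calc a * ((b : G) * t) = ((b : G) * t * a * ((b : G) * t)⁻¹) * ((b : G) * t) := by rw [h3]
          _ = (b : G) * t * a := by group
    · intro Q hQP hQcard
      have hQp : IsPGroup p Q := IsPGroup.of_card (n := 1) (by rw [hQcard, pow_one])
      have hkeyQ : ∀ y ∈ normalizer (Q : Set G), y ∉ centralizer (Q : Set G) → orderOf y = 2 :=
        fun y hy hyD => ((key p hp hR hQp hy).resolve_left hyD).1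
      have hpowQ : ∀ q ∈ Q, q ^ p = 1 := by
        intro q hq
        have := pow_card_eq_one' (G := ↥Q) (x := ⟨q, hq⟩)
        rw [hQcard] at this
        have := congrArg Subtype.val this
        simpa using this
      -- t normalizes Q
      have htM : t ∈ normalizer (Q : Set G) := by
        rw [mem_normalizer_iff]
        intro h
        constructor
        · intro hh
          rw [htinv h (hQP hh)]
          exact Q.inv_mem hh
        · intro hh
          have h1 := htinv _ (hQP hh)
          have h2 : t * (t * h * t⁻¹) * t⁻¹ = h := by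
            have : t * (t * h * t⁻¹) * t⁻¹ = (t * t) * h * (t * t)⁻¹ := by group
            rw [this, htt]; group
          rw [h2] at h1
          rw [h1]
          exact Q.inv_mem hh
      -- t does not centralize Q
      have htD : t ∉ centralizer (Q : Set G) := by
        intro hh
        have hne : Q ≠ ⊥ := by
          rw [← Subgroup.one_lt_card_iff_ne_bot, hQcard]
          exact (Fact.out : p.Prime).one_lt
        obtain ⟨q, hq1⟩ := (Subgroup.ne_bot_iff_exists_ne_one).mp hne
        have h1 := htinv q (hQP q.2)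
        have h2 := (mem_centralizer_iff.mp hh) q q.2
        have h3 : t * (q : G) * t⁻¹ = q := by rw [← h2]; group
        have h4 : (q : G) ^ 2 = 1 := by
          rw [pow_two]
          nth_rewrite 1 [← h3]
          rw [h1]; group
        exact hq1 (Subtype.ext (hodd q (hpowQ q q.2) h4))
      have hinvD : ∀ x : G, x ∈ normalizer (Q : Set G) → x ∉ centralizer (Q : Set G) →
          ∀ c : G, c ∈ centralizer (Q : Set G) → x * c * x⁻¹ = c⁻¹ := by
        intro x hx hxD c hc
        have hx2 := hkeyQ x hx hxD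
        have hxc : x * c ∈ normalizer (Q : Set G) :=
          (normalizer (Q : Set G)).mul_mem hx (centralizer_le_normalizer _ hc)
        have hxcD : x * c ∉ centralizer (Q : Set G) := by
          intro hh
          apply hxD
          have := (centralizer (Q : Set G)).mul_mem hh ((centralizer (Q : Set G)).inv_mem hc)
          simpa using this
        have hxc2 := hkeyQ (x * c) hxc hxcD
        have h1 : x * x = 1 := by
          have := pow_orderOf_eq_one x
          rwa [hx2, pow_two] at this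
        have h2 : (x * c) * (x * c) = 1 := by
          have := pow_orderOf_eq_one (x * c)
          rwa [hxc2, pow_two] at this
        have h3 : x⁻¹ = x := inv_eq_of_mul_eq_one_left h1
        rw [h3]
        have h4 : (x * c * x) * c = 1 := by rw [← h2]; group
        exact eq_inv_of_mul_eq_one_left h4
      refine ⟨?_, fun x hx hxD => ⟨hkeyQ x hx hxD, hinvD x hx hxD⟩⟩
      intro a ha b hb
      have h1 := hinvD t htM htD (a * b) ((centralizer (Q : Set G)).mul_mem ha hb)
      have h2 := hinvD t htM htD a ha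
      have h3 := hinvD t htM htD b hb
      have h4 : t * (a * b) * t⁻¹ = (t * a * t⁻¹) * (t * b * t⁻¹) := by group
      rw [h4, h2, h3] at h1
      have h5 : (b * a)⁻¹ = (a * b)⁻¹ := by rw [mul_inv_rev, h1]
      exact (inv_injective h5).symm

end

theorem cyclic_of_split {H : Type*} [Group H] [Finite H] (p : ℕ) [Fact p.Prime] (S : Sylow p H)
    [hn : (S : Subgroup H).Normal] (hS : IsCyclic (S : Subgroup H))
    (hq : IsCyclic (H ⧸ (S : Subgroup H)))
    (hcomm : ∀ l : H, (orderOf l).Coprime p → ∀ s ∈ (S : Subgroup H), s * l = l * s) :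
    IsCyclic H := by
  obtain ⟨s₀, hs₀⟩ := hS.exists_generator
  obtain ⟨gq, hgq⟩ := hq.exists_generator
  obtain ⟨g, rfl⟩ := QuotientGroup.mk_surjective gq
  set a := Nat.card (S : Subgroup H) with ha
  set m := (S : Subgroup H).index with hm
  have hcop : Nat.Coprime a m := S.card_coprime_index
  have hos : orderOf s₀ = a := orderOf_eq_card_of_forall_mem_zpowers hs₀
  have hog : orderOf (QuotientGroup.mk g : H ⧸ (S : Subgroup H)) = m := by
    rw [orderOf_eq_card_of_forall_mem_zpowers hgq]; rfl
  have hgm : g ^ m ∈ (S : Subgroup H) := by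
    rw [← QuotientGroup.eq_one_iff, QuotientGroup.mk_pow, ← hog, pow_orderOf_eq_one]
  have hlm : (g ^ a) ^ m = 1 := by
    rw [← pow_mul, mul_comm, pow_mul]
    have h2 := pow_card_eq_one' (G := ↥(S : Subgroup H)) (x := ⟨g ^ m, hgm⟩)
    have h3 := congrArg Subtype.val h2
    rw [Subgroup.coe_pow, Subgroup.coe_one] at h3
    exact h3
  have hol : orderOf (g ^ a) = m := by
    apply Nat.dvd_antisymm (orderOf_dvd_of_pow_eq_one hlm)
    have h1 : orderOf (QuotientGroup.mk (g ^ a) : H ⧸ (S : Subgroup H)) = m := by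
      rw [QuotientGroup.mk_pow, Nat.Coprime.orderOf_pow (by rw [hog]; exact hcop.symm), hog]
    rw [← h1]
    exact orderOf_map_dvd (QuotientGroup.mk' (S : Subgroup H)) (g ^ a)
  have hmp : Nat.Coprime m p :=
    (Nat.Coprime.symm ((Nat.Prime.coprime_iff_not_dvd Fact.out).mpr S.not_dvd_index))
  have hc := hcomm (g ^ a) (by rw [hol]; exact hmp) (s₀ : H) s₀.2
  have hord : orderOf ((s₀ : H) * g ^ a) = a * m := by
    have h1 : orderOf (s₀ : H) = a := by rw [Subgroup.orderOf_coe, hos]
    rw [Commute.orderOf_mul_eq_mul_orderOf_of_coprime (show Commute (s₀ : H) (g ^ a) from hc)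
      (by rw [h1, hol]; exact hcop), h1, hol]
  apply isCyclic_of_orderOf_eq_card ((s₀ : H) * g ^ a)
  rw [hord, ← Subgroup.card_mul_index (S : Subgroup H)]

theorem backward {G : Type*} [Group G] [Finite G] (p : ℕ) [Fact p.Prime] (P : Sylow p G)
    (hcyc : IsCyclic P)
    (hdisj : normalizer ((P : Subgroup G) : Set G) = centralizer ((P : Subgroup G) : Set G) ∨
       (∀ Q : Subgroup G, Q ≤ P → Nat.card Q = p → Pi Q))
    (H : Subgroup G) (hS : ∀ S : Sylow p ↥H, (S : Subgroup ↥H).Normal)
    (hq : ∀ (S : Sylow p ↥H) [(S : Subgroup ↥H).Normal], IsCyclic (↥H ⧸ (S : Subgroup ↥H))) :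
    IsCyclic H ∨ (∃ n : ℕ, Nonempty (H ≃* DihedralGroup (p ^ n))) := by
  obtain ⟨S₀⟩ : Nonempty (Sylow p ↥H) := inferInstance
  have hS₀n : (S₀ : Subgroup ↥H).Normal := hS S₀
  have hq₀ := hq S₀
  set S : Subgroup G := (S₀ : Subgroup ↥H).map H.subtype with hSdef
  have hSp : IsPGroup p S := S₀.isPGroup'.map _
  have hSH : S ≤ H := map_subtype_le _
  have hmemS : ∀ x : ↥H, x ∈ (S₀ : Subgroup ↥H) → (x : G) ∈ S := fun x hx => mem_map_of_mem _ hx
  have hSmem : ∀ s ∈ S, ∃ x : ↥H, x ∈ (S₀ : Subgroup ↥H) ∧ (x : G) = s := by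
    intro s hs
    obtain ⟨x, hx, rfl⟩ := mem_map.mp hs
    exact ⟨x, hx, rfl⟩
  obtain ⟨P', hP'⟩ := hSp.exists_le_sylow
  obtain ⟨g, hg⟩ := MulAction.exists_smul_eq G P P'
  have hmemP : ∀ x, x ∈ (P' : Subgroup G) → g⁻¹ * x * g ∈ (P : Subgroup G) := by
    intro x hx
    have hx' : x ∈ ((g • P : Sylow p G) : Subgroup G) := by rw [hg]; exact hx
    rw [Sylow.smul_def, Sylow.pointwise_smul_def, Subgroup.mem_pointwise_smul_iff_inv_smul_mem] at hx'
    simpa [MulAut.smul_def] using hx'
  have hS₀cyc : IsCyclic (S₀ : Subgroup ↥H) := by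
    have := hcyc
    let φ : ↥(S₀ : Subgroup ↥H) →* ↥(P : Subgroup G) :=
      { toFun := fun s => ⟨g⁻¹ * ((s : ↥H) : G) * g, hmemP _ (hP' (hmemS _ s.2))⟩
        map_one' := by ext; simp
        map_mul' := by intro a b; ext; simp; group }
    apply isCyclic_of_injective φ
    intro a b hab
    have h1 := congrArg Subtype.val hab
    simp only [φ, MonoidHom.coe_mk, OneHom.coe_mk] at h1
    have h2 : ((a : ↥H) : G) = ((b : ↥H) : G) := by
      have : ((a : ↥H) : G) = g * (g⁻¹ * ((a : ↥H) : G) * g) * g⁻¹ := by group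
      rw [this, h1]; group
    exact Subtype.ext (Subtype.ext h2)
  obtain ⟨s₀, hs₀⟩ := hS₀cyc.exists_generator
  set σ : G := ((s₀ : ↥H) : G) with hσdef
  have hσS : σ ∈ S := hmemS _ s₀.2
  have hSσ : ∀ s ∈ S, ∃ k : ℤ, σ ^ k = s := by
    intro s hs
    obtain ⟨x, hx, rfl⟩ := hSmem s hs
    obtain ⟨k, hk⟩ := mem_zpowers_iff.mp (hs₀ ⟨x, hx⟩)
    refine ⟨k, ?_⟩
    have := congrArg (fun u : ↥(S₀ : Subgroup ↥H) => ((u : ↥H) : G)) hk
    simpa using this
  rcases hdisj with hNC | hQ
  · left
    have hP : normalizer ((P : Subgroup G) : Set G) ≤ centralizer ((P : Subgroup G) : Set G) :=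
      hNC.le
    apply cyclic_of_split p S₀ hS₀cyc hq₀
    intro l hl s hs
    have hlK : (l : G) ∈ (MonoidHom.transferSylow P hP).ker := by
      rw [MonoidHom.mem_ker]
      obtain ⟨k, hk⟩ := (IsPGroup.iff_orderOf.mp P.isPGroup')
        (MonoidHom.transferSylow P hP (l : G))
      have h1 : orderOf (MonoidHom.transferSylow P hP (l : G)) ∣ orderOf (l : G) :=
        orderOf_map_dvd _ _
      rw [Subgroup.orderOf_coe, hk] at h1
      have h2 : p ^ k = 1 := Nat.Coprime.eq_one_of_dvd (Nat.Coprime.pow_left k hl.symm) h1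
      rw [h2] at hk
      exact orderOf_eq_one_iff.mp hk
    have hcK : (s : G) * l * (s : G)⁻¹ * (l : G)⁻¹ ∈ (MonoidHom.transferSylow P hP).ker :=
      Subgroup.mul_mem _ ((MonoidHom.normal_ker _).conj_mem _ hlK _) (Subgroup.inv_mem _ hlK)
    have hcS : (s : G) * l * (s : G)⁻¹ * (l : G)⁻¹ ∈ S := by
      have h1 : (l * s⁻¹ * l⁻¹ : ↥H) ∈ (S₀ : Subgroup ↥H) := hS₀n.conj_mem _ (inv_mem hs) l
      have h2 := S.mul_mem (hmemS s hs) (hmemS _ h1)
      have e : (s : G) * l * (s : G)⁻¹ * (l : G)⁻¹ = (s : G) * ((l * s⁻¹ * l⁻¹ : ↥H) : G) := by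
        push_cast; group
      rw [e]; exact h2
    have hdj := MonoidHom.ker_transferSylow_disjoint P hP S hSp
    have h1 := Subgroup.disjoint_def.mp hdj hcK hcS
    apply Subtype.ext
    push_cast
    calc (s : G) * l = ((s : G) * l * (s : G)⁻¹ * (l : G)⁻¹) * ((l : G) * s) := by group
      _ = (l : G) * s := by rw [h1, one_mul]
  · by_cases hbot : (S₀ : Subgroup ↥H) = ⊥
    · left
      apply cyclic_of_split p S₀ hS₀cyc hq₀
      intro l _ s hs
      rw [hbot, mem_bot] at hs
      rw [hs, one_mul, mul_one]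
    · have hpd : p ∣ Nat.card (S₀ : Subgroup ↥H) := by
        obtain ⟨k, hk⟩ := IsPGroup.iff_card.mp S₀.isPGroup'
        rw [hk]
        have hk0 : k ≠ 0 := by
          rintro rfl
          apply hbot
          rw [pow_zero] at hk
          exact Subgroup.card_eq_one.mp hk
        exact dvd_pow_self p hk0
      obtain ⟨z₀, hz₀⟩ := exists_prime_orderOf_dvd_card' p hpd
      set z : G := ((z₀ : ↥H) : G) with hzdef
      have hzo : orderOf z = p := by
        rw [hzdef, Subgroup.orderOf_coe, Subgroup.orderOf_coe, hz₀]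
      have hzS : z ∈ S := hmemS _ z₀.2
      have hZS : zpowers z ≤ S := by rw [zpowers_le]; exact hzS
      have hPi : Pi (zpowers z) := by
        apply Pi_of_map (MulAut.conj g⁻¹)
        apply hQ
        · intro x hx
          obtain ⟨u, hu, rfl⟩ := mem_map.mp hx
          have := hmemP u (hP' (hZS hu))
          simpa [MulAut.conj_apply] using this
        · rw [Subgroup.card_map_of_injective (MulAut.conj g⁻¹).injective, Nat.card_zpowers, hzo]
      obtain ⟨hcomm, hinv⟩ := hPi
      have hScomm : ∀ a ∈ S, ∀ b ∈ S, a * b = b * a := by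
        intro a ha b hb
        obtain ⟨k, rfl⟩ := hSσ a ha
        obtain ⟨j, rfl⟩ := hSσ b hb
        exact zpow_mul_comm σ k j
      have hSD : ∀ s ∈ S, s ∈ centralizer ((zpowers z : Subgroup G) : Set G) := by
        intro s hs
        rw [mem_centralizer_iff]
        intro u hu
        exact hScomm u (hZS hu) s hs
      have hconj : ∀ h ∈ H, ∀ u ∈ zpowers z, h * u * h⁻¹ ∈ zpowers z := by
        intro h hh u hu
        obtain ⟨k, rfl⟩ := mem_zpowers_iff.mp hu
        obtain ⟨i, hi⟩ := hSσ z hzS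
        have hσc : h * σ * h⁻¹ ∈ S := by
          have h1 : ((⟨h, hh⟩ : ↥H) * s₀ * (⟨h, hh⟩ : ↥H)⁻¹ : ↥H) ∈ (S₀ : Subgroup ↥H) :=
            hS₀n.conj_mem _ s₀.2 _
          have h2 := hmemS _ h1
          simpa using h2
        obtain ⟨j, hj⟩ := hSσ _ hσc
        have h2 : h * z * h⁻¹ = z ^ j := by
          rw [← hi, ← conj_zpow, ← hj, ← zpow_mul, ← zpow_mul, mul_comm]
        rw [← conj_zpow, h2, ← zpow_mul]
        exact zpow_mem (mem_zpowers z) _
      have hHM : ∀ h ∈ H, h ∈ normalizer ((zpowers z : Subgroup G) : Set G) := by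
        intro h hh
        rw [mem_normalizer_iff]
        intro u
        constructor
        · exact hconj h hh u
        · intro hu
          have := hconj h⁻¹ (H.inv_mem hh) _ hu
          have e : h⁻¹ * (h * u * h⁻¹) * h⁻¹⁻¹ = u := by group
          rwa [e] at this
      by_cases hHD : ∀ h ∈ H, h ∈ centralizer ((zpowers z : Subgroup G) : Set G)
      · left
        apply cyclic_of_split p S₀ hS₀cyc hq₀
        intro l _ s _
        exact Subtype.ext (hcomm _ (hHD _ s.2) _ (hHD _ l.2))
      · right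
        push Not at hHD
        obtain ⟨y, hyH, hyD⟩ := hHD
        set D := centralizer ((zpowers z : Subgroup G) : Set G) with hD
        have hinvH : ∀ h ∈ H, h ∉ D → orderOf h = 2 ∧ ∀ c ∈ D, h * c * h⁻¹ = c⁻¹ :=
          fun h hh hd => hinv h (hHM h hh) hd
        have hZD : zpowers z ≤ D := fun u hu => hSD u (hZS hu)
        have hprod : ∀ h ∈ H, h ∉ D → ∀ h' ∈ H, h' ∉ D → h * h' ∈ D := by
          intro h hh hd h' hh' hd'
          rw [hD, mem_centralizer_iff]
          intro u hu
          have h1 := (hinvH h' hh' hd').2 u (hZD hu)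
          have h2 := (hinvH h hh hd).2 u⁻¹ (D.inv_mem (hZD hu))
          rw [inv_inv] at h2
          have h3 : h * h' * u * (h * h')⁻¹ = u := by
            have : h * h' * u * (h * h')⁻¹ = h * (h' * u * h'⁻¹) * h⁻¹ := by group
            rw [this, h1, h2]
          calc u * (h * h') = (h * h' * u * (h * h')⁻¹) * (h * h') := by rw [h3]
            _ = h * h' * u := by group
        obtain ⟨gq, hgq⟩ := hq₀.exists_generator
        obtain ⟨g₀, rfl⟩ := QuotientGroup.mk_surjective gq
        have hdecomp : ∀ h : ↥H, ∃ k : ℤ, ∃ s ∈ (S₀ : Subgroup ↥H), h = g₀ ^ k * s := by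
          intro h
          obtain ⟨k, hk⟩ := mem_zpowers_iff.mp (hgq (QuotientGroup.mk h))
          rw [← QuotientGroup.mk_zpow, QuotientGroup.eq] at hk
          exact ⟨k, _, hk, by group⟩
        have hg₀D : (g₀ : G) ∉ D := by
          intro hh
          apply hyD
          obtain ⟨k, s, hs, hk⟩ := hdecomp ⟨y, hyH⟩
          have hk' : y = (g₀ : G) ^ k * (s : G) := by
            have := congrArg Subtype.val hk
            simpa using this
          rw [hk']
          exact D.mul_mem (zpow_mem hh k) (hSD _ (hmemS s hs))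
        have hg₀2 : (g₀ : G) * (g₀ : G) = 1 := by
          have := pow_orderOf_eq_one (g₀ : G)
          rwa [(hinvH _ g₀.2 hg₀D).1, pow_two] at this
        have hHDS : ∀ h ∈ H, h ∈ D → h ∈ S := by
          intro h hh hd
          obtain ⟨k, s, hs, hk⟩ := hdecomp ⟨h, hh⟩
          have hk' : h = (g₀ : G) ^ k * (s : G) := by
            have := congrArg Subtype.val hk
            simpa using this
          have h1 : (g₀ : G) ^ k ∈ D := by
            have : (g₀ : G) ^ k = h * (s : G)⁻¹ := by rw [hk']; group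
            rw [this]
            exact D.mul_mem hd (D.inv_mem (hSD _ (hmemS s hs)))
          rcases Int.even_or_odd k with ⟨j, hj⟩ | ⟨j, hj⟩
          · have h2 : (g₀ : G) ^ k = 1 := by
              rw [hj, ← two_mul, zpow_mul, zpow_two, hg₀2, one_zpow]
            rw [hk', h2, one_mul]
            exact hmemS s hs
          · exfalso
            have h2 : (g₀ : G) ^ k = g₀ := by
              rw [hj, zpow_add, zpow_mul, zpow_two, hg₀2, one_zpow, one_mul, zpow_one]
            rw [h2] at h1
            exact hg₀D h1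
        have hy2 : orderOf y = 2 := (hinvH y hyH hyD).1
        have hyy : y * y = 1 := by
          have := pow_orderOf_eq_one y
          rwa [hy2, pow_two] at this
        have hσ1 : σ ≠ 1 := by
          intro h1
          apply hbot
          rw [eq_bot_iff]
          intro x hx
          obtain ⟨k, hk⟩ := hSσ _ (hmemS x hx)
          rw [h1, one_zpow] at hk
          rw [mem_bot]
          exact Subtype.ext hk.symm
        have hyσH : y * σ ∈ H := H.mul_mem hyH (hSH hσS)
        have hyσD : y * σ ∉ D := by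
          intro hh
          apply hyD
          have := D.mul_mem hh (D.inv_mem (hSD σ hσS))
          simpa using this
        have hyσ2 : orderOf (y * σ) = 2 := (hinvH _ hyσH hyσD).1
        have hne : y ≠ y * σ := by
          intro hh
          have h2 : y * 1 = y * σ := by rw [mul_one]; exact hh
          exact hσ1 (mul_left_cancel h2).symm
        obtain ⟨e₀⟩ := Cfsg.Agent.S0206.result y (y * σ) hy2 hyσ2 hne
        have hprodσ : y * (y * σ) = σ := by rw [← mul_assoc, hyy, one_mul]
        rw [hprodσ] at e₀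
        obtain ⟨n, hn⟩ : ∃ n : ℕ, orderOf σ = p ^ n := by
          obtain ⟨k, hk⟩ := IsPGroup.iff_card.mp S₀.isPGroup'
          refine ⟨k, ?_⟩
          rw [← hk, ← orderOf_eq_card_of_forall_mem_zpowers hs₀, hσdef, Subgroup.orderOf_coe,
            Subgroup.orderOf_coe]
        rw [hn] at e₀
        have hcl : closure ({y, y * σ} : Set G) = H := by
          apply le_antisymm
          · rw [closure_le]
            rintro x (rfl | rfl)
            · exact hyH
            · exact hyσH
          · intro h hh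
            have hyc : y ∈ closure ({y, y * σ} : Set G) := subset_closure (by simp)
            have hσc : σ ∈ closure ({y, y * σ} : Set G) := by
              have h1 : y * σ ∈ closure ({y, y * σ} : Set G) := subset_closure (by simp)
              have := (closure ({y, y * σ} : Set G)).mul_mem ((Subgroup.closure ({y, y * σ} : Set G)).inv_mem hyc) h1
              simpa using this
            have hSc : ∀ s ∈ S, s ∈ closure ({y, y * σ} : Set G) := by
              intro s hs
              obtain ⟨k, rfl⟩ := hSσ s hs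
              exact zpow_mem hσc k
            by_cases hd : h ∈ D
            · exact hSc h (hHDS h hh hd)
            · have h1 := hprod h hh hd y hyH hyD
              have h2 := hSc _ (hHDS _ (H.mul_mem hh hyH) h1)
              have := (closure ({y, y * σ} : Set G)).mul_mem h2 ((Subgroup.closure ({y, y * σ} : Set G)).inv_mem hyc)
              simpa using this
        exact ⟨n, ⟨(MulEquiv.subgroupCongr hcl.symm).trans e₀⟩⟩

/-- Let p be an odd prime and G a finite group with Sylow p-subgroup P. Say that G has restricted p-by-cyclic subgroups when every subgroup H of G whose Sylow p-subgroup is normal in H with cyclic quotient is itself cyclic or dihedral of order 2pⁿ for some n. Then G has restricted p-by-cyclic subgroups if and only if P is cyclic and one of the following holds: (1) N_G(P) = C_G(P); or (2) N_G(P)/C_G(P) has order 2 and, for the subgroup Q of order p of P, the centralizer C_G(Q) is abelian and every element of N_G(Q) outside C_G(Q) is an involution inverting every element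 of C_G(Q). -/
theorem result {G : Type*} [Group G] [Finite G] {p : ℕ}
    [Fact p.Prime] (hp : p ≠ 2) (P : Sylow p G) :
    (∀ H : Subgroup G, (∀ S : Sylow p ↥H, (S : Subgroup ↥H).Normal) →
        (∀ (S : Sylow p ↥H) [(S : Subgroup ↥H).Normal], IsCyclic (↥H ⧸ (S : Subgroup ↥H))) →
        IsCyclic H ∨ (∃ n : ℕ, Nonempty (H ≃* DihedralGroup (p ^ n)))) ↔
    (IsCyclic P ∧
      (Subgroup.normalizer ((P : Subgroup G) : Set G) = Subgroup.centralizer ((P : Subgroup G) : Set G) ∨
       ((Subgroup.centralizer ((P : Subgroup G) : Set G)).relIndex (Subgroup.normalizer ((P : Subgroup G) : Set G)) = 2 ∧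
        ∀ Q : Subgroup G, Q ≤ P → Nat.card Q = p →
          IsMulCommutative ↥(Subgroup.centralizer (Q : Set G)) ∧
          ∀ x : G, x ∈ Subgroup.normalizer (Q : Set G) → x ∉ Subgroup.centralizer (Q : Set G) →
            orderOf x = 2 ∧ ∀ c : G, c ∈ Subgroup.centralizer (Q : Set G) → x * c * x⁻¹ = c⁻¹))) := by
  constructor
  · intro hR
    obtain ⟨h1, h2⟩ := forward p hp P hR
    refine ⟨h1, ?_⟩
    rcases h2 with h2 | ⟨h2, h3⟩
    · exact Or.inl h2
    · refine Or.inr ⟨h2, fun Q hQP hQc => ?_⟩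
      obtain ⟨h4, h5⟩ := h3 Q hQP hQc
      exact ⟨⟨⟨fun a b => Subtype.ext (h4 a a.2 b b.2)⟩⟩, h5⟩
  · rintro ⟨h1, h2⟩ H hS hq
    apply backward p P h1 ?_ H hS hq
    rcases h2 with h2 | ⟨-, h3⟩
    · exact Or.inl h2
    · refine Or.inr (fun Q hQP hQc => ?_)
      obtain ⟨h4, h5⟩ := h3 Q hQP hQc
      exact ⟨fun a ha b hb => congrArg Subtype.val (h4.is_comm.comm ⟨a, ha⟩ ⟨b, hb⟩), h5⟩

end Cfsg.Agent.S4082
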