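import Cfsg.Statements.S4083
import Mathlib
import Cfsg.Agent.S4082
import Cfsg.Agent.S0228

set_option autoImplicit false
open Cfsg

namespace Cfsg.Agent.S4083

open Subgroup

/-- an element of odd order normalizing a cyclic `2`-subgroup centralizes it -/
theorem odd_centralizes {G : Type*} [Group G] [Finite G] (C : Subgroup G) (hC : IsCyclic C)
    (hC2 : IsPGroup 2 C) (l : G) (hl : l ∈ normalizer (C : Set G))
    (hodd : (orderOf l).Coprime 2) : l ∈ centralizer (C : Set G) := by
  have hCN : C ≤ normalizer (C : Set G) := le_normalizer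
  have hnorm : (C.subgroupOf (normalizer (C : Set G))).Normal := normal_in_normalizer
  have hcyc : IsCyclic ↥(C.subgroupOf (normalizer (C : Set G))) :=
    (subgroupOfEquivOfLe hCN).isCyclic.mpr hC
  let α : MulAut ↥(C.subgroupOf (normalizer (C : Set G))) :=
    MulAut.conjNormal (⟨l, hl⟩ : ↥(normalizer (C : Set G)))
  have h1 : α ^ orderOf l = 1 := by
    have h0 : (⟨l, hl⟩ : ↥(normalizer (C : Set G))) ^ orderOf l = 1 :=
      Subtype.ext (by simp [pow_orderOf_eq_one])
    show (MulAut.conjNormal (⟨l, hl⟩ : ↥(normalizer (C : Set G)))) ^ orderOf l = 1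
    rw [← map_pow, h0, map_one]
  have h2 : α ^ Nat.card (MulAut ↥(C.subgroupOf (normalizer (C : Set G)))) = 1 :=
    pow_card_eq_one'
  obtain ⟨k, hk⟩ : ∃ k, Nat.card (MulAut ↥(C.subgroupOf (normalizer (C : Set G)))) = 2 ^ k := by
    rw [IsCyclic.card_mulAut]
    have hp2 : IsPGroup 2 ↥(C.subgroupOf (normalizer (C : Set G))) := hC2.comap_subtype
    obtain ⟨k, hk⟩ := IsPGroup.iff_card.mp hp2
    rw [hk]
    rcases k with _ | k
    · exact ⟨0, by simp⟩
    · exact ⟨k, by rw [Nat.totient_prime_pow Nat.prime_two (Nat.succ_pos k)]; simp⟩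
  rw [hk] at h2
  have h3 : α = 1 := by
    have := pow_gcd_eq_one.mpr ⟨h1, h2⟩
    rwa [Nat.Coprime.gcd_eq_one (Nat.Coprime.pow_right k hodd), pow_one] at this
  rw [mem_centralizer_iff]
  intro c hc
  have hc' : (⟨c, hCN hc⟩ : ↥(normalizer (C : Set G))) ∈ C.subgroupOf (normalizer (C : Set G)) :=
    mem_subgroupOf.mpr hc
  have h4 : α ⟨⟨c, hCN hc⟩, hc'⟩ = ⟨⟨c, hCN hc⟩, hc'⟩ := by rw [h3]; rfl
  have h5 := congrArg (fun u : ↥(C.subgroupOf (normalizer (C : Set G))) =>
    ((u : ↥(normalizer (C : Set G))) : G)) h4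
  simp only [α, MulAut.conjNormal_apply] at h5
  have h6 : l * c * l⁻¹ = c := h5
  calc c * l = (l * c * l⁻¹) * l := by rw [h6]
    _ = l * c := by group

theorem exists_orderOf_eq_index {H : Type*} [Group H] [Finite H] (p : ℕ) [Fact p.Prime]
    (S : Sylow p H) [hn : (S : Subgroup H).Normal] (hq : IsCyclic (H ⧸ (S : Subgroup H))) :
    ∃ l : H, orderOf l = (S : Subgroup H).index := by
  obtain ⟨gq, hgq⟩ := hq.exists_generator
  obtain ⟨g, rfl⟩ := QuotientGroup.mk_surjective gq
  set a := Nat.card (S : Subgroup H) with ha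
  set m := (S : Subgroup H).index with hm
  have hcop : Nat.Coprime a m := S.card_coprime_index
  have hog : orderOf (QuotientGroup.mk g : H ⧸ (S : Subgroup H)) = m := by
    rw [orderOf_eq_card_of_forall_mem_zpowers hgq]; rfl
  have hgm : g ^ m ∈ (S : Subgroup H) := by
    rw [← QuotientGroup.eq_one_iff, QuotientGroup.mk_pow, ← hog, pow_orderOf_eq_one]
  have hlm : (g ^ a) ^ m = 1 := by
    rw [← pow_mul, mul_comm, pow_mul]
    have h2 := pow_card_eq_one' (G := ↥(S : Subgroup H)) (x := ⟨g ^ m, hgm⟩)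
    have h3 := congrArg Subtype.val h2
    rw [Subgroup.coe_pow, Subgroup.coe_one] at h3
    exact h3
  refine ⟨g ^ a, ?_⟩
  apply Nat.dvd_antisymm (orderOf_dvd_of_pow_eq_one hlm)
  have h1 : orderOf (QuotientGroup.mk (g ^ a) : H ⧸ (S : Subgroup H)) = m := by
    rw [QuotientGroup.mk_pow, Nat.Coprime.orderOf_pow (by rw [hog]; exact hcop.symm), hog]
  rw [← h1]
  exact orderOf_map_dvd (QuotientGroup.mk' (S : Subgroup H)) (g ^ a)

/-- the rotation subgroup of a dihedral subgroup -/
theorem dih_struct {G : Type*} [Group G] (P : Subgroup G) {m : ℕ} (e : ↥P ≃* DihedralGroup m) :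
    ∃ ρ : G, ρ ∈ P ∧
      (∀ x ∈ P, x ∉ zpowers ρ → x * x = 1 ∧ ∀ u ∈ zpowers ρ, x * u * x⁻¹ = u⁻¹) ∧
      (∀ x ∈ P, x ∉ zpowers ρ → ∀ y ∈ P, y ∉ zpowers ρ → x * y ∈ zpowers ρ) := by
  set ρ' : ↥P := e.symm (DihedralGroup.r 1) with hρ'
  have hrot : ∀ (x : ↥P) (i : ZMod m), e x = DihedralGroup.r i → (x : G) ∈ zpowers (ρ' : G) := by
    intro x i hi
    rw [mem_zpowers_iff]
    refine ⟨(ZMod.cast i : ℤ), ?_⟩
    have h1 : ρ' ^ (ZMod.cast i : ℤ) = x := by
      apply e.injective
      rw [map_zpow, hρ', MulEquiv.apply_symm_apply, DihedralGroup.r_one_zpow, hi]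
      congr 1
      exact ZMod.intCast_zmod_cast i
    have := congrArg Subtype.val h1
    simpa using this
  have hsr : ∀ x : ↥P, (x : G) ∉ zpowers (ρ' : G) → ∃ i, e x = DihedralGroup.sr i := by
    intro x hx
    cases hcase : e x with
    | r i => exact absurd (hrot x i hcase) hx
    | sr i => exact ⟨i, rfl⟩
  have hpow : ∀ u ∈ zpowers (ρ' : G), ∃ (hu : u ∈ P) (k : ZMod m),
      e ⟨u, hu⟩ = DihedralGroup.r k := by
    intro u hu
    obtain ⟨k, rfl⟩ := mem_zpowers_iff.mp hu
    refine ⟨zpow_mem ρ'.2 k, (k : ZMod m), ?_⟩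
    have : (⟨(ρ' : G) ^ k, zpow_mem ρ'.2 k⟩ : ↥P) = ρ' ^ k := Subtype.ext (by simp)
    rw [this, map_zpow, hρ', MulEquiv.apply_symm_apply, DihedralGroup.r_one_zpow]
  refine ⟨ρ', ρ'.2, ?_, ?_⟩
  · intro x hx hxρ
    obtain ⟨i, hi⟩ := hsr ⟨x, hx⟩ hxρ
    refine ⟨?_, ?_⟩
    · have h3 : (⟨x, hx⟩ : ↥P) * ⟨x, hx⟩ = 1 := by
        apply e.injective
        rw [map_mul, hi, DihedralGroup.sr_mul_self, map_one]
      exact congrArg Subtype.val h3
    · intro u hu
      obtain ⟨huP, k, hk⟩ := hpow u hu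
      have h3 : (⟨x, hx⟩ : ↥P) * ⟨u, huP⟩ * (⟨x, hx⟩)⁻¹ = (⟨u, huP⟩)⁻¹ := by
        apply e.injective
        rw [map_mul, map_mul, map_inv, map_inv, hk, hi, DihedralGroup.sr_mul_r,
          DihedralGroup.inv_sr, DihedralGroup.sr_mul_sr, DihedralGroup.inv_r]
        congr 1
        ring
      exact congrArg Subtype.val h3
  · intro x hx hxρ y hy hyρ
    obtain ⟨i, hi⟩ := hsr ⟨x, hx⟩ hxρ
    obtain ⟨j, hj⟩ := hsr ⟨y, hy⟩ hyρ
    have := hrot (⟨x, hx⟩ * ⟨y, hy⟩) (j - i) (by rw [map_mul, hi, hj, DihedralGroup.sr_mul_sr])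
    simpa using this

theorem tri {G : Type*} [Group G] (l w x : G) (hl3 : l * l * l = 1) (hw : w * w = 1)
    (hlw : l * w = w * l)
    (h : l * x * l⁻¹ = 1 ∨ l * x * l⁻¹ = w ∨ l * x * l⁻¹ = x ∨ l * x * l⁻¹ = x * w) :
    l * x = x * l := by
  rcases h with h | h | h | h
  · have : x = 1 := by
      have : x = l⁻¹ * (l * x * l⁻¹) * l := by group
      rw [this, h]; group
    rw [this, mul_one, one_mul]
  · have : x = w := by
      have h1 : x = l⁻¹ * (l * x * l⁻¹) * l := by group
      rw [h1, h]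
      calc l⁻¹ * w * l = l⁻¹ * (w * l) := by group
        _ = l⁻¹ * (l * w) := by rw [hlw]
        _ = w := by group
    rw [this, hlw]
  · calc l * x = (l * x * l⁻¹) * l := by group
      _ = x * l := by rw [h]
  · have h2 : (l * l) * x * (l * l)⁻¹ = x := by
      calc (l * l) * x * (l * l)⁻¹ = l * (l * x * l⁻¹) * l⁻¹ := by group
        _ = l * (x * w) * l⁻¹ := by rw [h]
        _ = (l * x * l⁻¹) * (l * w) * l⁻¹ := by group
        _ = (x * w) * (w * l) * l⁻¹ := by rw [h, hlw]
        _ = x * (w * w) := by group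
        _ = x := by rw [hw, mul_one]
    have h3 : l = (l * l) * (l * l) := by
      calc l = (l * l * l) * l := by rw [hl3, one_mul]
        _ = (l * l) * (l * l) := by group
    have h4 : (l * l) * x = x * (l * l) := by
      calc (l * l) * x = ((l * l) * x * (l * l)⁻¹) * (l * l) := by group
        _ = x * (l * l) := by rw [h2]
    calc l * x = (l * l) * ((l * l) * x) := by rw [← mul_assoc, ← h3]
      _ = (l * l) * (x * (l * l)) := by rw [h4]
      _ = ((l * l) * x) * (l * l) := by group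
      _ = (x * (l * l)) * (l * l) := by rw [h4]
      _ = x * ((l * l) * (l * l)) := by group
      _ = x * l := by rw [← h3]

theorem dih_two_sq (d : DihedralGroup 2) : d ^ 2 = 1 := by
  cases d with
  | r i =>
    rw [pow_two, DihedralGroup.r_mul_r, CharTwo.add_self_eq_zero, DihedralGroup.r_zero]
  | sr i => rw [pow_two, DihedralGroup.sr_mul_self]

theorem a4_not_comm : ¬ ∀ a b : alternatingGroup (Fin 4), a * b = b * a := by
  intro h
  have h1 := h ⟨Equiv.swap 0 1 * Equiv.swap 1 2, by rw [Equiv.Perm.mem_alternatingGroup]; decide⟩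
    ⟨Equiv.swap 0 1 * Equiv.swap 2 3, by rw [Equiv.Perm.mem_alternatingGroup]; decide⟩
  have h2 := congrArg Subtype.val h1
  revert h2
  decide

theorem a4_order_three : ∃ c : alternatingGroup (Fin 4), c ^ 3 = 1 ∧ c ≠ 1 := by
  refine ⟨⟨Equiv.swap 0 1 * Equiv.swap 1 2, by rw [Equiv.Perm.mem_alternatingGroup]; decide⟩, ?_, ?_⟩
  · apply Subtype.ext
    show (Equiv.swap (0 : Fin 4) 1 * Equiv.swap 1 2) ^ 3 = 1
    decide
  · intro h
    have h2 := congrArg Subtype.val h
    revert h2
    decide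

theorem forward2 {G : Type*} [Group G] [Finite G] (P : Sylow 2 G)
    (hR : ∀ H : Subgroup G, (∀ S : Sylow 2 ↥H, (S : Subgroup ↥H).Normal) →
        (∀ (S : Sylow 2 ↥H) [(S : Subgroup ↥H).Normal], IsCyclic (↥H ⧸ (S : Subgroup ↥H))) →
        IsCyclic H ∨ (∃ n : ℕ, Nonempty (H ≃* DihedralGroup (2 ^ n))) ∨
          Nonempty (H ≃* alternatingGroup (Fin 4))) :
    IsCyclic P ∨
      ((∃ n : ℕ, 1 ≤ n ∧ Nonempty ((P : Subgroup G) ≃* DihedralGroup (2 ^ n))) ∧
        ∀ K : Subgroup G, K ≤ P → Nat.card K = 4 → (∀ k ∈ K, k ^ 2 = 1) →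
          centralizer (K : Set G) = K) := by
  have hf2 : Fact (Nat.Prime 2) := ⟨Nat.prime_two⟩
  have h1 := S4082.pclosed 2 P.isPGroup' (one_mem (normalizer ((P : Subgroup G) : Set G)))
  have heq : (P : Subgroup G) ⊔ zpowers (1 : G) = P := by simp
  have hKcond : ∀ K : Subgroup G, K ≤ P → Nat.card K = 4 → (∀ k ∈ K, k ^ 2 = 1) →
      centralizer (K : Set G) = K := by
    intro K hKP hK4 hKsq
    have hKab : ∀ a ∈ K, ∀ b ∈ K, a * b = b * a := by
      intro a ha b hb
      have h1 := hKsq a ha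
      have h2 := hKsq b hb
      have h3 := hKsq (a * b) (K.mul_mem ha hb)
      rw [pow_two] at h1 h2 h3
      have ha' : a⁻¹ = a := inv_eq_of_mul_eq_one_left h1
      have hb' : b⁻¹ = b := inv_eq_of_mul_eq_one_left h2
      have h4 : a * b = (a * b)⁻¹ := (inv_eq_of_mul_eq_one_left h3).symm
      rw [h4, mul_inv_rev, ha', hb']
    apply le_antisymm
    · intro c hc
      have hcN : c ∈ normalizer (K : Set G) := centralizer_le_normalizer _ hc
      have hK2 : IsPGroup 2 K := IsPGroup.of_card (n := 2) (by rw [hK4]; norm_num)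
      obtain ⟨h1, h2⟩ := S4082.pclosed 2 hK2 hcN
      have hcH : c ∈ K ⊔ zpowers c := (le_sup_right : zpowers c ≤ _) (mem_zpowers c)
      have hKH : K ≤ K ⊔ zpowers c := le_sup_left
      have hci : ∀ i : ℤ, ∀ u ∈ K, u * c ^ i = c ^ i * u :=
        fun i u hu => (mem_centralizer_iff.mp (zpow_mem hc i)) u hu
      have hHab : ∀ a b : ↥(K ⊔ zpowers c), a * b = b * a := by
        intro a b
        obtain ⟨k, a', ha', hk⟩ := S4082.mem_sup_zpowers hcN a.2
        obtain ⟨j, b', hb', hj⟩ := S4082.mem_sup_zpowers hcN b.2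
        apply Subtype.ext
        push_cast
        rw [hk, hj]
        calc c ^ k * a' * (c ^ j * b') = c ^ k * (a' * c ^ j) * b' := by group
          _ = c ^ k * (c ^ j * a') * b' := by rw [hci j a' ha']
          _ = (c ^ k * c ^ j) * (a' * b') := by group
          _ = (c ^ j * c ^ k) * (b' * a') := by rw [hKab a' ha' b' hb', zpow_mul_comm c k j]
          _ = c ^ j * (c ^ k * b') * a' := by group
          _ = c ^ j * (b' * c ^ k) * a' := by rw [hci k b' hb']
          _ = c ^ j * b' * (c ^ k * a') := by group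
      rcases hR _ h1 h2 with hc' | ⟨n, ⟨e⟩⟩ | ⟨⟨e⟩⟩
      · exfalso
        have hcyc : IsCyclic ↥(K ⊔ zpowers c) := hc'
        have hKc : IsCyclic ↥K := Subgroup.isCyclic_of_le hKH
        obtain ⟨g, hg⟩ := hKc.exists_generator
        have h3 : orderOf g = 4 := by rw [orderOf_eq_card_of_forall_mem_zpowers hg, hK4]
        have h4 : g ^ 2 = 1 := Subtype.ext (by simpa using hKsq g g.2)
        have h5 := orderOf_dvd_of_pow_eq_one h4
        rw [h3] at h5
        norm_num at h5
      · have hcomm : IsMulCommutative (DihedralGroup (2 ^ n)) := ⟨⟨fun a b => by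
          have h4 := hHab (e.symm a) (e.symm b)
          have h5 := congrArg e h4
          simpa using h5⟩⟩
        rw [DihedralGroup.commutative_iff] at hcomm
        have hcard : Nat.card ↥(K ⊔ zpowers c) ≤ 4 := by
          rw [Nat.card_congr e.toEquiv, DihedralGroup.nat_card]
          rcases hcomm with h | h <;> rw [h] <;> norm_num
        have h6 : K = K ⊔ zpowers c :=
          Subgroup.eq_of_le_of_card_ge hKH (by rw [hK4]; exact hcard)
        rw [h6]; exact hcH
      · exfalso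
        apply a4_not_comm
        intro a b
        have h4 := hHab (e.symm a) (e.symm b)
        have h5 := congrArg e h4
        simpa using h5
    · intro k hk
      rw [mem_centralizer_iff]
      intro u hu
      exact hKab u hu k hk
  rcases hR _ h1.1 h1.2 with hc | ⟨n, ⟨e⟩⟩ | ⟨⟨e⟩⟩
  · left; exact (MulEquiv.subgroupCongr heq).isCyclic.mp hc
  · rcases Nat.eq_zero_or_pos n with hn | hn
    · left
      have hcard : Nat.card ↥(P : Subgroup G) = 2 := by
        rw [Nat.card_congr ((MulEquiv.subgroupCongr heq).symm.trans e).toEquiv,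
          DihedralGroup.nat_card, hn]
        norm_num
      exact isCyclic_of_prime_card hcard
    · right
      exact ⟨⟨n, hn, ⟨(MulEquiv.subgroupCongr heq).symm.trans e⟩⟩, hKcond⟩
  · exfalso
    obtain ⟨c, hc3, hc1⟩ := a4_order_three
    set x := e.symm c with hx
    have hx3 : x ^ 3 = 1 := by rw [hx, ← map_pow, hc3, map_one]
    have hx1 : x ≠ 1 := by
      intro h
      apply hc1
      have := congrArg e h
      rwa [hx, MulEquiv.apply_symm_apply, map_one] at this
    have hxP : (x : G) ∈ (P : Subgroup G) := heq.le x.2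
    obtain ⟨k, hk⟩ := P.isPGroup' ⟨(x : G), hxP⟩
    have hk' : (x : G) ^ 2 ^ k = 1 := by
      have := congrArg Subtype.val hk
      simpa using this
    have hx3' : (x : G) ^ 3 = 1 := by
      have := congrArg Subtype.val hx3
      simpa using this
    have h4 : (x : G) ^ (Nat.gcd (2 ^ k) 3) = 1 := pow_gcd_eq_one.mpr ⟨hk', hx3'⟩
    have hcop : Nat.Coprime (2 ^ k) 3 := Nat.Coprime.pow_left k (by norm_num)
    rw [Nat.Coprime.gcd_eq_one hcop, pow_one] at h4
    exact hx1 (Subtype.ext h4)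

/-- for `l` normalizing `S`, `l ^ n` centralizes `S` as soon as `|Aut S| ∣ n` -/
theorem pow_mem_centralizer {G : Type*} [Group G] (S : Subgroup G) (l : G)
    (hl : l ∈ normalizer (S : Set G)) (n : ℕ) (hn : Nat.card (MulAut ↥S) ∣ n) :
    l ^ n ∈ centralizer (S : Set G) := by
  have h1 : (S.normalizerMonoidHom ⟨l, hl⟩) ^ n = 1 := by
    obtain ⟨c, rfl⟩ := hn
    rw [pow_mul, pow_card_eq_one', one_pow]
  have h2 : (⟨l, hl⟩ : ↥(normalizer (S : Set G))) ^ n ∈ S.normalizerMonoidHom.ker := by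
    rw [MonoidHom.mem_ker, map_pow, h1]
  rw [normalizerMonoidHom_ker, mem_subgroupOf] at h2
  simpa using h2

theorem card_mulAut_dvd {S : Type*} [Group S] [Finite S] (h4 : Nat.card S = 4) :
    Nat.card (MulAut S) ∣ 24 := by
  have h1 := Subgroup.card_dvd_of_injective (MulAut.toPerm S)
    (fun a b hab => MulEquiv.toEquiv_injective hab)
  rw [Nat.card_perm, h4] at h1
  exact h1

theorem backward_dih {G : Type*} [Group G] [Finite G] (P : Subgroup G) (ρ₁ : G)
    (hF1 : ∀ x ∈ P, x ∉ zpowers ρ₁ → x * x = 1 ∧ ∀ u ∈ zpowers ρ₁, x * u * x⁻¹ = u⁻¹)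
    (hF3 : ∀ x ∈ P, x ∉ zpowers ρ₁ → ∀ y ∈ P, y ∉ zpowers ρ₁ → x * y ∈ zpowers ρ₁)
    (hK : ∀ K : Subgroup G, K ≤ P → Nat.card K = 4 → (∀ k ∈ K, k ^ 2 = 1) →
      centralizer (K : Set G) = K)
    (H S : Subgroup G) (hSH : S ≤ H) (hSP : S ≤ P) (hS2 : IsPGroup 2 S)
    (hSn : H ≤ normalizer (S : Set G)) (hncyc : ¬ IsCyclic S)
    (hinv : ∀ x ∈ H, x * x = 1 → x ∈ S)
    (l : G) (hlH : l ∈ H) (hlodd : (orderOf l).Coprime 2)
    (hcard : Nat.card H = Nat.card S * orderOf l) :
    (∃ n : ℕ, Nonempty (H ≃* DihedralGroup (2 ^ n))) ∨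
      Nonempty (H ≃* alternatingGroup (Fin 4)) := by
  -- Step 1: a non-rotation `t` of `S`
  obtain ⟨t, htS, htρ⟩ : ∃ t ∈ S, t ∉ zpowers ρ₁ := by
    by_contra hcon
    push Not at hcon
    have hle : S ≤ zpowers ρ₁ := hcon
    exact hncyc (Subgroup.isCyclic_of_le hle)
  have htP : t ∈ P := hSP htS
  have htt : t * t = 1 := (hF1 t htP htρ).1
  have htinv : t⁻¹ = t := inv_eq_of_mul_eq_one_left htt
  -- Step 2: the rotations of `S`
  have hRc : IsCyclic ↥(S ⊓ zpowers ρ₁) :=
    Subgroup.isCyclic_of_le (inf_le_right : S ⊓ zpowers ρ₁ ≤ zpowers ρ₁)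
  obtain ⟨ρ₀, hρ₀⟩ := (Subgroup.isCyclic_iff_exists_zpowers_eq_top _).mp hRc
  have hρ₀R : ρ₀ ∈ S ⊓ zpowers ρ₁ := hρ₀ ▸ mem_zpowers ρ₀
  have hρ₀S : ρ₀ ∈ S := hρ₀R.1
  have hzpS : zpowers ρ₀ ≤ S := by rw [hρ₀]; exact inf_le_left
  have hzpρ : zpowers ρ₀ ≤ zpowers ρ₁ := by rw [hρ₀]; exact inf_le_right
  have hrot : ∀ x ∈ S, x ∈ zpowers ρ₁ → x ∈ zpowers ρ₀ := by
    intro x hx hxρ; rw [hρ₀]; exact ⟨hx, hxρ⟩
  -- Step 3: structure of `S`
  have hstruct : ∀ x ∈ S, x ∉ zpowers ρ₁ → ∃ u ∈ zpowers ρ₀, x = t * u := by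
    intro x hx hxρ
    have h1 := hF3 t htP htρ x (hSP hx) hxρ
    refine ⟨t * x, hrot _ (S.mul_mem htS hx) h1, ?_⟩
    rw [← mul_assoc, htt, one_mul]
  have htu : ∀ u ∈ zpowers ρ₀, t * u * t = u⁻¹ := by
    intro u hu
    have := (hF1 t htP htρ).2 u (hzpρ hu)
    rwa [htinv] at this
  have htu' : ∀ u ∈ zpowers ρ₀, t * u ∉ zpowers ρ₁ := by
    intro u hu h
    apply htρ
    have := (zpowers ρ₁).mul_mem h (inv_mem (hzpρ hu))
    simpa using this
  -- Step 4: `ρ₀ ≠ 1`
  have hρ₀1 : ρ₀ ≠ 1 := by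
    intro h1
    apply hncyc
    have hle : S ≤ zpowers t := by
      intro x hx
      by_cases hxρ : x ∈ zpowers ρ₁
      · have := hrot x hx hxρ
        rw [h1, zpowers_one_eq_bot, mem_bot] at this
        rw [this]; exact one_mem _
      · obtain ⟨u, hu, rfl⟩ := hstruct x hx hxρ
        rw [h1, zpowers_one_eq_bot, mem_bot] at hu
        rw [hu, mul_one]; exact mem_zpowers t
    exact Subgroup.isCyclic_of_le hle
  -- Step 5: the involution `z`
  obtain ⟨a, ha⟩ : ∃ a, orderOf ρ₀ = 2 ^ a := by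
    obtain ⟨k, hk⟩ := hS2 ⟨ρ₀, hρ₀S⟩
    have hk' : ρ₀ ^ 2 ^ k = 1 := by
      have := congrArg Subtype.val hk
      simpa using this
    obtain ⟨a, _, ha⟩ := (Nat.dvd_prime_pow Nat.prime_two).mp (orderOf_dvd_of_pow_eq_one hk')
    exact ⟨a, ha⟩
  have ha1 : 1 ≤ a := by
    rcases Nat.eq_zero_or_pos a with h | h
    · exfalso; apply hρ₀1; rw [h, pow_zero, orderOf_eq_one_iff] at ha; exact ha
    · exact h
  obtain ⟨z, hz⟩ : ∃ z, z = ρ₀ ^ 2 ^ (a - 1) := ⟨_, rfl⟩
  have hzz : z * z = 1 := by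
    rw [hz, ← pow_add, ← two_mul, ← pow_succ', Nat.sub_add_cancel ha1, ← ha, pow_orderOf_eq_one]
  have hz1 : z ≠ 1 := by
    rw [hz]
    apply pow_ne_one_of_lt_orderOf (by positivity)
    rw [ha]; exact Nat.pow_lt_pow_right (by norm_num) (by omega)
  have hzρ₀ : z ∈ zpowers ρ₀ := by rw [hz]; exact Subgroup.pow_mem _ (mem_zpowers ρ₀) _
  have hzS : z ∈ S := hzpS hzρ₀
  have hzinv : z⁻¹ = z := inv_eq_of_mul_eq_one_left hzz
  have htz : t * z = z * t := by
    have h1 := htu z hzρ₀
    rw [hzinv] at h1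
    calc t * z = (t * z * t) * t⁻¹ := by group
      _ = z * t := by rw [h1, htinv]
  -- Step 6: the four-group `K`
  have hzt_ne : z ≠ t := fun h => htρ (h ▸ hzpρ hzρ₀)
  have hoz : orderOf z = 2 := orderOf_eq_prime (by rw [pow_two]; exact hzz) hz1
  have hot : orderOf t = 2 :=
    orderOf_eq_prime (by rw [pow_two]; exact htt) (fun h => htρ (h ▸ one_mem _))
  have hozt : orderOf (z * t) = 2 := by
    apply orderOf_eq_prime
    · rw [pow_two]
      calc z * t * (z * t) = z * (t * z) * t := by group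
        _ = z * (z * t) * t := by rw [htz]
        _ = (z * z) * (t * t) := by group
        _ = 1 := by rw [hzz, htt, one_mul]
    · intro h
      apply hzt_ne
      have : z = t⁻¹ := eq_inv_of_mul_eq_one_left h
      rw [this, htinv]
  obtain ⟨eK₀⟩ := S0206.result z t hoz hot hzt_ne
  have eK : ↥(closure ({z, t} : Set G)) ≃* DihedralGroup 2 := hozt ▸ eK₀
  obtain ⟨K, hKdef⟩ : ∃ K : Subgroup G, K = closure ({z, t} : Set G) := ⟨_, rfl⟩
  rw [← hKdef] at eK
  have hKP : K ≤ P := by
    rw [hKdef, closure_le]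
    intro x hx
    rcases hx with rfl | rfl
    · exact hSP hzS
    · exact htP
  have hKS : K ≤ S := by
    rw [hKdef, closure_le]
    intro x hx
    rcases hx with rfl | rfl
    · exact hzS
    · exact htS
  have hK4 : Nat.card K = 4 := by
    rw [Nat.card_congr eK.toEquiv, DihedralGroup.nat_card]
  have hKsq : ∀ k ∈ K, k ^ 2 = 1 := by
    intro k hk
    have h1 := dih_two_sq (eK ⟨k, hk⟩)
    rw [← map_pow] at h1
    have h2 := eK.injective (h1.trans (map_one eK).symm)
    have := congrArg Subtype.val h2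
    simpa using this
  have hCK := hK K hKP hK4 hKsq
  have hA : ∀ g : G, g * z = z * g → g * t = t * g → (orderOf g).Coprime 2 → g = 1 := by
    intro g hgz hgt hodd
    have hgK : g ∈ K := by
      rw [← hCK, mem_centralizer_iff]
      intro k hk
      have hle : K ≤ centralizer ({g} : Set G) := by
        rw [hKdef, closure_le]
        intro x hx
        rcases hx with rfl | rfl
        · exact mem_centralizer_iff.mpr
            (fun y hy => by rw [Set.mem_singleton_iff.mp hy]; exact hgz)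
        · exact mem_centralizer_iff.mpr
            (fun y hy => by rw [Set.mem_singleton_iff.mp hy]; exact hgt)
      exact (mem_centralizer_iff.mp (hle hk) g rfl).symm
    have h1 : orderOf g ∣ 4 := hK4 ▸ Subgroup.orderOf_dvd_natCard K hgK
    have h2 : orderOf g = 1 :=
      Nat.Coprime.eq_one_of_dvd (show (orderOf g).Coprime (2 ^ 2) from Nat.Coprime.pow_right 2 hodd) h1
    exact orderOf_eq_one_iff.mp h2
  have hlN : l ∈ normalizer (S : Set G) := hSn hlH
  have hconjS : ∀ h ∈ H, ∀ s ∈ S, h * s * h⁻¹ ∈ S :=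
    fun h hh s hs => (mem_normalizer_iff.mp (hSn hh) s).mp hs
  -- the case `S = H`
  have hfinal : l = 1 → ∃ n : ℕ, Nonempty (H ≃* DihedralGroup (2 ^ n)) := by
    intro hl1
    have hSH' : S = H := by
      apply Subgroup.eq_of_le_of_card_ge hSH
      rw [hcard, hl1, orderOf_one, mul_one]
    have hotρ : orderOf (t * ρ₀) = 2 := by
      have hmem := htu' ρ₀ (mem_zpowers ρ₀)
      apply orderOf_eq_prime
      · rw [pow_two]; exact (hF1 _ (P.mul_mem htP (hSP hρ₀S)) hmem).1
      · intro h; exact hmem (h ▸ one_mem _)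
    have hne : t ≠ t * ρ₀ := by
      intro h
      apply hρ₀1
      have : t * 1 = t * ρ₀ := by rw [mul_one]; exact h
      exact (mul_left_cancel this).symm
    obtain ⟨eD₀⟩ := S0206.result t (t * ρ₀) hot hotρ hne
    have hprod : t * (t * ρ₀) = ρ₀ := by rw [← mul_assoc, htt, one_mul]
    have hord : orderOf (t * (t * ρ₀)) = 2 ^ a := by rw [hprod, ha]
    have eD : ↥(closure ({t, t * ρ₀} : Set G)) ≃* DihedralGroup (2 ^ a) := hord ▸ eD₀
    have hcl : closure ({t, t * ρ₀} : Set G) = H := by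
      rw [← hSH']
      apply le_antisymm
      · rw [closure_le]
        intro x hx
        rcases hx with rfl | rfl
        · exact htS
        · exact S.mul_mem htS hρ₀S
      · have ht_mem : t ∈ closure ({t, t * ρ₀} : Set G) := subset_closure (by simp)
        have hρ_mem : ρ₀ ∈ closure ({t, t * ρ₀} : Set G) := by
          have h1 : t * ρ₀ ∈ closure ({t, t * ρ₀} : Set G) := subset_closure (by simp)
          have h2 := mul_mem ht_mem h1
          rwa [hprod] at h2
        have hzp : zpowers ρ₀ ≤ closure ({t, t * ρ₀} : Set G) := by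
          rw [zpowers_le]; exact hρ_mem
        intro x hx
        by_cases hxρ : x ∈ zpowers ρ₁
        · exact hzp (hrot x hx hxρ)
        · obtain ⟨u, hu, rfl⟩ := hstruct x hx hxρ
          exact mul_mem ht_mem (hzp hu)
    exact ⟨a, ⟨(MulEquiv.subgroupCongr hcl).symm.trans eD⟩⟩
  by_cases hρsq : ρ₀ * ρ₀ = 1
  · -- Case B: `S` is a four-group
    have hzp2 : ∀ u ∈ zpowers ρ₀, u = 1 ∨ u = ρ₀ := by
      intro u hu
      obtain ⟨k, rfl⟩ := mem_zpowers_iff.mp hu
      rcases Int.even_or_odd k with ⟨j, hj⟩ | ⟨j, hj⟩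
      · left; rw [hj, ← two_mul, zpow_mul, zpow_two, hρsq, one_zpow]
      · right; rw [hj, zpow_add, zpow_mul, zpow_two, hρsq, one_zpow, one_mul, zpow_one]
    have hzρ : z = ρ₀ := by
      rcases hzp2 z hzρ₀ with h | h
      · exact absurd h hz1
      · exact h
    have hS4 : ∀ x ∈ S, x = 1 ∨ x = z ∨ x = t ∨ x = t * z := by
      intro x hx
      by_cases hxρ : x ∈ zpowers ρ₁
      · rcases hzp2 x (hrot x hx hxρ) with h | h
        · left; exact h
        · right; left; rw [hzρ]; exact h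
      · obtain ⟨u, hu, rfl⟩ := hstruct x hx hxρ
        rcases hzp2 u hu with h | h
        · right; right; left; rw [h, mul_one]
        · right; right; right; rw [h, hzρ]
    have hSK : S = K := by
      apply le_antisymm _ hKS
      intro x hx
      have hzK : z ∈ K := by rw [hKdef]; exact subset_closure (by simp)
      have htK : t ∈ K := by rw [hKdef]; exact subset_closure (by simp)
      rcases hS4 x hx with rfl | rfl | rfl | rfl
      · exact one_mem _
      · exact hzK
      · exact htK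
      · exact mul_mem htK hzK
    have hScard : Nat.card S = 4 := by rw [hSK]; exact hK4
    have h24 : l ^ 24 ∈ centralizer (S : Set G) :=
      pow_mem_centralizer S l hlN 24 (card_mulAut_dvd hScard)
    have h24' : l ^ 24 = 1 := by
      apply hA
      · exact (mem_centralizer_iff.mp h24 z hzS).symm
      · exact (mem_centralizer_iff.mp h24 t htS).symm
      · exact Nat.Coprime.coprime_dvd_left (orderOf_pow_dvd 24) hlodd
    have h3 : orderOf l ∣ 3 := by
      have h1 : orderOf l ∣ 3 * 8 := orderOf_dvd_of_pow_eq_one h24'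
      exact Nat.Coprime.dvd_of_dvd_mul_right
        (show (orderOf l).Coprime (2 ^ 3) from Nat.Coprime.pow_right 3 hlodd) h1
    rcases (Nat.dvd_prime Nat.prime_three).mp h3 with h1 | h3
    · left; exact hfinal (orderOf_eq_one_iff.mp h1)
    · right
      have hH12 : Nat.card ↥H = 12 := by rw [hcard, hScard, h3]
      have hlll : l * l * l = 1 := by
        have := pow_orderOf_eq_one l
        rw [h3] at this
        calc l * l * l = l ^ 3 := by rw [pow_succ, pow_succ, pow_one]
          _ = 1 := this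
      have hl1 : l ≠ 1 := by
        intro h
        rw [h, orderOf_one] at h3
        norm_num at h3
      apply S0228.result hH12
      intro z' hz' hcen
      have hz'2 : (z' : G) * (z' : G) = 1 := by
        have h1 := pow_orderOf_eq_one z'
        rw [hz', pow_two] at h1
        exact congrArg Subtype.val h1
      have hz'1 : (z' : G) ≠ 1 := by
        intro h
        have : z' = 1 := Subtype.ext h
        rw [this, orderOf_one] at hz'
        norm_num at hz'
      have hlz' : l * (z' : G) = (z' : G) * l := by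
        have h1 := Subgroup.mem_center_iff.mp hcen ⟨l, hlH⟩
        exact congrArg Subtype.val h1
      apply hl1
      rcases hS4 _ (hinv _ z'.2 hz'2) with h | h | h | h
      · exact absurd h hz'1
      · rw [h] at hlz'
        have hlt := tri l z t hlll hzz hlz' (hS4 _ (hconjS l hlH t htS))
        exact hA l hlz' hlt hlodd
      · rw [h] at hlz'
        have hlz : l * z = z * l := by
          apply tri l t z hlll htt hlz'
          rcases hS4 _ (hconjS l hlH z hzS) with h' | h' | h' | h'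
          · left; exact h'
          · right; right; left; exact h'
          · right; left; exact h'
          · right; right; right; rw [h', htz]
        exact hA l hlz hlz' hlodd
      · rw [h] at hlz'
        have hww : (t * z) * (t * z) = 1 := by
          calc (t * z) * (t * z) = t * (z * t) * z := by group
            _ = t * (t * z) * z := by rw [htz]
            _ = (t * t) * (z * z) := by group
            _ = 1 := by rw [htt, hzz, one_mul]
        have hlt : l * t = t * l := by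
          apply tri l (t * z) t hlll hww hlz'
          rcases hS4 _ (hconjS l hlH t htS) with h' | h' | h' | h'
          · left; exact h'
          · right; right; right; rw [h', ← mul_assoc, htt, one_mul]
          · right; right; left; exact h'
          · right; left; exact h'
        have hlz : l * z = z * l := by
          calc l * z = l * (t * (t * z)) := by rw [← mul_assoc t t z, htt, one_mul]
            _ = (l * t) * (t * z) := by group
            _ = (t * l) * (t * z) := by rw [hlt]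
            _ = t * (l * (t * z)) := by group
            _ = t * ((t * z) * l) := by rw [hlz']
            _ = (t * t) * z * l := by group
            _ = z * l := by rw [htt, one_mul]
        exact hA l hlz hlt hlodd
  · -- Case A: the rotation subgroup of `S` has order at least `4`
    left
    apply hfinal
    have hconjρ : ∀ h ∈ H, h * ρ₀ * h⁻¹ ∈ zpowers ρ₀ := by
      intro h hh
      have h1 : h * ρ₀ * h⁻¹ ∈ S := hconjS h hh ρ₀ hρ₀S
      apply hrot _ h1
      by_contra hnot
      have h2 := (hF1 _ (hSP h1) hnot).1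
      apply hρsq
      have h3 : h * (ρ₀ * ρ₀) * h⁻¹ = 1 := by
        calc h * (ρ₀ * ρ₀) * h⁻¹ = (h * ρ₀ * h⁻¹) * (h * ρ₀ * h⁻¹) := by group
          _ = 1 := h2
      calc ρ₀ * ρ₀ = h⁻¹ * (h * (ρ₀ * ρ₀) * h⁻¹) * h := by group
        _ = 1 := by rw [h3]; group
    have hconjZ : ∀ h ∈ H, ∀ u ∈ zpowers ρ₀, h * u * h⁻¹ ∈ zpowers ρ₀ := by
      intro h hh u hu
      obtain ⟨k, rfl⟩ := mem_zpowers_iff.mp hu
      have : h * ρ₀ ^ k * h⁻¹ = (h * ρ₀ * h⁻¹) ^ k := by
        rw [conj_zpow]
      rw [this]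
      exact zpow_mem (hconjρ h hh) k
    have hlNρ : l ∈ normalizer ((zpowers ρ₀ : Subgroup G) : Set G) := by
      rw [mem_normalizer_iff]
      intro u
      constructor
      · exact hconjZ l hlH u
      · intro hu
        have := hconjZ l⁻¹ (inv_mem hlH) _ hu
        have e : l⁻¹ * (l * u * l⁻¹) * l⁻¹⁻¹ = u := by group
        rwa [e] at this
    have hlC := odd_centralizes (zpowers ρ₀) inferInstance (hS2.to_le hzpS) l hlNρ hlodd
    have hlρ : ∀ u ∈ zpowers ρ₀, u * l = l * u := fun u hu => mem_centralizer_iff.mp hlC u hu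
    have hlz : l * z = z * l := (hlρ z hzρ₀).symm
    have h1 : l * t * l⁻¹ ∈ S := hconjS l hlH t htS
    have h2 : l * t * l⁻¹ ∉ zpowers ρ₁ := by
      intro hin
      have h3 := hrot _ h1 hin
      apply htρ
      apply hzpρ
      have h4 := hlρ _ h3
      have h5 : t = l * t * l⁻¹ := by
        have : l * t = l * (l * t * l⁻¹) := by rw [← h4]; group
        exact mul_left_cancel this
      rw [h5]; exact h3
    obtain ⟨ρ, hρ, hρeq⟩ := hstruct _ h1 h2
    have hpow : ∀ i : ℕ, l ^ i * t * (l ^ i)⁻¹ = t * ρ ^ i := by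
      intro i
      induction i with
      | zero => simp
      | succ i ih =>
        have hc : ρ ^ i * l = l * ρ ^ i := hlρ _ (Subgroup.pow_mem _ hρ i)
        calc l ^ (i + 1) * t * (l ^ (i + 1))⁻¹ = l * (l ^ i * t * (l ^ i)⁻¹) * l⁻¹ := by
              rw [pow_succ']; group
          _ = l * (t * ρ ^ i) * l⁻¹ := by rw [ih]
          _ = (l * t * l⁻¹) * (l * ρ ^ i) * l⁻¹ := by group
          _ = (t * ρ) * (ρ ^ i * l) * l⁻¹ := by rw [hρeq, hc]
          _ = t * ρ ^ (i + 1) := by rw [pow_succ']; group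
    have h3 := hpow (orderOf l)
    rw [pow_orderOf_eq_one, inv_one, one_mul, mul_one] at h3
    have h4 : ρ ^ orderOf l = 1 := by
      have : t * 1 = t * ρ ^ orderOf l := by rw [mul_one]; exact h3
      exact (mul_left_cancel this).symm
    have hρ1 : ρ = 1 := by
      obtain ⟨k, hk⟩ := hS2 ⟨ρ, hzpS hρ⟩
      have hk' : ρ ^ 2 ^ k = 1 := by
        have := congrArg Subtype.val hk
        simpa using this
      have h5 := pow_gcd_eq_one.mpr ⟨h4, hk'⟩
      rwa [Nat.Coprime.gcd_eq_one (Nat.Coprime.pow_right k hlodd), pow_one] at h5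
    have hlt : l * t = t * l := by
      rw [hρ1, mul_one] at hρeq
      calc l * t = (l * t * l⁻¹) * l := by group
        _ = t * l := by rw [hρeq]
    exact hA l hlz hlt hlodd

theorem backward2 {G : Type*} [Group G] [Finite G] (P : Sylow 2 G)
    (hP : IsCyclic P ∨
      ((∃ n : ℕ, 1 ≤ n ∧ Nonempty ((P : Subgroup G) ≃* DihedralGroup (2 ^ n))) ∧
        ∀ K : Subgroup G, K ≤ P → Nat.card K = 4 → (∀ k ∈ K, k ^ 2 = 1) →
          centralizer (K : Set G) = K))
    (H : Subgroup G) (hS : ∀ S : Sylow 2 ↥H, (S : Subgroup ↥H).Normal)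
    (hq : ∀ (S : Sylow 2 ↥H) [(S : Subgroup ↥H).Normal], IsCyclic (↥H ⧸ (S : Subgroup ↥H))) :
    IsCyclic H ∨ (∃ n : ℕ, Nonempty (H ≃* DihedralGroup (2 ^ n))) ∨
      Nonempty (H ≃* alternatingGroup (Fin 4)) := by
  have hf2 : Fact (Nat.Prime 2) := ⟨Nat.prime_two⟩
  obtain ⟨S₀⟩ : Nonempty (Sylow 2 ↥H) := inferInstance
  have hS₀n : (S₀ : Subgroup ↥H).Normal := hS S₀
  have hq₀ := hq S₀
  obtain ⟨S, hSdef⟩ : ∃ S : Subgroup G, S = (S₀ : Subgroup ↥H).map H.subtype := ⟨_, rfl⟩
  have hSp : IsPGroup 2 S := by rw [hSdef]; exact S₀.isPGroup'.map _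
  have hSH : S ≤ H := by rw [hSdef]; exact map_subtype_le _
  have hmemS : ∀ x : ↥H, x ∈ (S₀ : Subgroup ↥H) → (x : G) ∈ S := by
    intro x hx; rw [hSdef]; exact mem_map_of_mem _ hx
  have hSmem : ∀ s ∈ S, ∃ x : ↥H, x ∈ (S₀ : Subgroup ↥H) ∧ (x : G) = s := by
    intro s hs
    rw [hSdef] at hs
    obtain ⟨x, hx, rfl⟩ := mem_map.mp hs
    exact ⟨x, hx, rfl⟩
  have eS : ↥(S₀ : Subgroup ↥H) ≃* ↥S := by
    rw [hSdef]
    exact (S₀ : Subgroup ↥H).equivMapOfInjective H.subtype H.subtype_injective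
  have hSn : H ≤ normalizer (S : Set G) := by
    intro h hh
    rw [mem_normalizer_iff]
    intro n
    constructor
    · intro hn
      obtain ⟨x, hx, rfl⟩ := hSmem n hn
      have := hS₀n.conj_mem x hx ⟨h, hh⟩
      exact hmemS _ this
    · intro hn
      obtain ⟨x, hx, hxeq⟩ := hSmem _ hn
      have := hS₀n.conj_mem x hx (⟨h, hh⟩)⁻¹
      have h2 := hmemS _ this
      have e : (((⟨h, hh⟩ : ↥H)⁻¹ * x * (⟨h, hh⟩ : ↥H)⁻¹⁻¹ : ↥H) : G) = n := by
        push_cast; rw [hxeq]; group
      rwa [e] at h2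
  obtain ⟨P', hP'⟩ := hSp.exists_le_sylow
  obtain ⟨g, rfl⟩ := MulAction.exists_smul_eq G P P'
  have hmemP : ∀ x, x ∈ ((g • P : Sylow 2 G) : Subgroup G) → g⁻¹ * x * g ∈ (P : Subgroup G) := by
    intro x hx
    rw [Sylow.smul_def, Sylow.pointwise_smul_def, Subgroup.mem_pointwise_smul_iff_inv_smul_mem] at hx
    simpa [MulAut.smul_def] using hx
  by_cases hS₀cyc : IsCyclic (S₀ : Subgroup ↥H)
  · left
    apply S4082.cyclic_of_split 2 S₀ hS₀cyc hq₀
    intro l hl s hs
    have hSc : IsCyclic S := eS.isCyclic.mp hS₀cyc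
    have hlodd : (orderOf (l : G)).Coprime 2 := by rw [Subgroup.orderOf_coe]; exact hl
    have := odd_centralizes S hSc hSp (l : G) (hSn l.2) hlodd
    have h1 := mem_centralizer_iff.mp this (s : G) (hmemS s hs)
    exact Subtype.ext h1
  · right
    rcases hP with hPc | ⟨⟨n, hn, ⟨e⟩⟩, hKc⟩
    · exfalso
      apply hS₀cyc
      have := hPc
      let φ : ↥(S₀ : Subgroup ↥H) →* ↥(P : Subgroup G) :=
        { toFun := fun s => ⟨g⁻¹ * ((s : ↥H) : G) * g, hmemP _ (hP' (hmemS _ s.2))⟩
          map_one' := by ext; simp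
          map_mul' := by intro a b; ext; simp; group }
      apply isCyclic_of_injective φ
      intro a b hab
      have h1 := congrArg Subtype.val hab
      simp only [φ, MonoidHom.coe_mk, OneHom.coe_mk] at h1
      have h2 : ((a : ↥H) : G) = ((b : ↥H) : G) := by
        have : ((a : ↥H) : G) = g * (g⁻¹ * ((a : ↥H) : G) * g) * g⁻¹ := by group
        rw [this, h1]; group
      exact Subtype.ext (Subtype.ext h2)
    · have e' : ↥((g • P : Sylow 2 G) : Subgroup G) ≃* DihedralGroup (2 ^ n) :=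
        (Sylow.equivSMul P g).symm.trans e
      obtain ⟨ρ₁, -, hF1, hF3⟩ := dih_struct ((g • P : Sylow 2 G) : Subgroup G) e'
      have hK' : ∀ K : Subgroup G, K ≤ ((g • P : Sylow 2 G) : Subgroup G) → Nat.card K = 4 →
          (∀ k ∈ K, k ^ 2 = 1) → centralizer (K : Set G) = K := by
        intro K hKP hK4 hKsq
        have hcent' := hKc (K.map (MulAut.conj g⁻¹).toMonoidHom) (by
            intro x hx
            obtain ⟨k, hk, rfl⟩ := mem_map.mp hx
            have := hmemP k (hKP hk)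
            simpa using this) (by
            rw [Subgroup.card_map_of_injective (MulAut.conj g⁻¹).injective]; exact hK4) (by
            intro x hx
            obtain ⟨k, hk, rfl⟩ := mem_map.mp hx
            rw [← map_pow, hKsq k hk, map_one])
        ext x
        rw [S4082.mem_centralizer_map (MulAut.conj g⁻¹) K x, hcent']
        exact mem_map_iff_mem (MulAut.conj g⁻¹).injective
      obtain ⟨l₀, hl₀⟩ := exists_orderOf_eq_index 2 S₀ hq₀
      have hidx : (S₀ : Subgroup ↥H).index.Coprime 2 := by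
        have h1 : ¬ 2 ∣ (S₀ : Subgroup ↥H).index := S₀.not_dvd_index
        exact ((Nat.Prime.coprime_iff_not_dvd Nat.prime_two).mpr h1).symm
      apply backward_dih ((g • P : Sylow 2 G) : Subgroup G) ρ₁ hF1 hF3 hK' H S hSH hP' hSp hSn
        ?_ ?_ (l₀ : G) l₀.2 ?_ ?_
      · intro hc
        exact hS₀cyc (eS.isCyclic.mpr hc)
      · intro x hx hxx
        have hx2 : IsPGroup 2 ↥(zpowers (⟨x, hx⟩ : ↥H)) := by
          intro y
          obtain ⟨k, hk⟩ := mem_zpowers_iff.mp y.2
          refine ⟨1, Subtype.ext ?_⟩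
          have hxx' : (⟨x, hx⟩ : ↥H) ^ (2 : ℤ) = 1 := by
            rw [zpow_two]; exact Subtype.ext hxx
          rw [pow_one, Subgroup.coe_pow, Subgroup.coe_one, ← hk, ← zpow_natCast, ← zpow_mul,
            mul_comm, zpow_mul]
          push_cast
          rw [hxx', one_zpow]
        obtain ⟨Q, hQ⟩ := hx2.exists_le_sylow
        have hu := Sylow.unique_of_normal S₀ hS₀n
        have hQS : Q = S₀ := Subsingleton.elim Q S₀
        rw [hQS] at hQ
        exact hmemS ⟨x, hx⟩ (hQ (mem_zpowers _))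
      · rw [Subgroup.orderOf_coe, hl₀]; exact hidx
      · rw [Subgroup.orderOf_coe, hl₀, ← Nat.card_congr eS.toEquiv]
        exact (Subgroup.card_mul_index (S₀ : Subgroup ↥H)).symm

/-- Let G be a finite group with Sylow 2-subgroup P. Every subgroup H of G whose Sylow 2-subgroup is normal in H with cyclic quotient is cyclic, dihedral of 2-power order, or isomorphic to the alternating group of degree 4, if and only if either P is cyclic, or P is dihedral (of order at least 4) and every elementary abelian subgroup K of order 4 of P satisfies C_G(K) = K. -/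
theorem result {G : Type*} [Group G] [Finite G] (P : Sylow 2 G) :
    (∀ H : Subgroup G, (∀ S : Sylow 2 ↥H, (S : Subgroup ↥H).Normal) →
        (∀ (S : Sylow 2 ↥H) [(S : Subgroup ↥H).Normal], IsCyclic (↥H ⧸ (S : Subgroup ↥H))) →
        IsCyclic H ∨ (∃ n : ℕ, Nonempty (H ≃* DihedralGroup (2 ^ n))) ∨ Nonempty (H ≃* alternatingGroup (Fin 4))) ↔
    (IsCyclic P ∨
      ((∃ n : ℕ, 1 ≤ n ∧ Nonempty ((P : Subgroup G) ≃* DihedralGroup (2 ^ n))) ∧
        ∀ K : Subgroup G, K ≤ P → Nat.card K = 4 → (∀ k ∈ K, k ^ 2 = 1) → Subgroup.centralizer (K : Set G) = K)) := by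
  constructor
  · exact forward2 P
  · intro hP H hS hq
    exact backward2 P hP H hS hq

end Cfsg.Agent.S4083
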