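import Mathlib
import Cfsg.Statements.S4084

set_option autoImplicit false
open Cfsg

namespace Cfsg.Agent.S4084

/-- one direction, stated for an arbitrary commuting-preserving bijection -/
theorem aux {G H : Type*} [Group G] [Finite G] [Group H] [Finite H] (e : G ≃ H)
    (he : ∀ x y : G, Commute x y ↔ Commute (e x) (e y))
    {p q : ℕ} (hp : p.Prime) (hq : q.Prime) (hpq : p ≠ q) :
    (∃ g : G, orderOf g = p * q) → (∃ h : H, orderOf h = p * q) := by
  rintro ⟨g, hg⟩
  have : Fact p.Prime := ⟨hp⟩
  have : Fact q.Prime := ⟨hq⟩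
  -- double centralizers
  set A : Subgroup G := Subgroup.centralizer (Subgroup.centralizer ({g} : Set G) : Set G) with hA
  set B : Subgroup H := Subgroup.centralizer (Subgroup.centralizer ({e g} : Set H) : Set H) with hB
  have hgA : g ∈ A := by
    rw [hA, Subgroup.mem_centralizer_iff]
    intro y hy
    rw [SetLike.mem_coe, Subgroup.mem_centralizer_iff] at hy
    exact (hy g rfl).symm
  have hmem : ∀ x : G, x ∈ A ↔ e x ∈ B := by
    intro x
    rw [hA, hB, Subgroup.mem_centralizer_iff, Subgroup.mem_centralizer_iff]
    constructor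
    · intro h y hy
      obtain ⟨y', rfl⟩ := e.surjective y
      have hy' : y' ∈ Subgroup.centralizer ({g} : Set G) := by
        rw [Subgroup.mem_centralizer_iff]
        rintro z rfl
        rw [SetLike.mem_coe, Subgroup.mem_centralizer_iff] at hy
        have := hy (e z) rfl
        exact ((he z y').2 this).eq
      exact ((he y' x).1 (h y' hy')).eq
    · intro h y hy
      have hy' : e y ∈ Subgroup.centralizer ({e g} : Set H) := by
        rw [Subgroup.mem_centralizer_iff]
        rintro z rfl
        rw [SetLike.mem_coe, Subgroup.mem_centralizer_iff] at hy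
        have := hy g rfl
        exact ((he g y).1 this).eq
      exact ((he y x).2 (h (e y) hy')).eq
  have hcard : Nat.card A = Nat.card B := by
    apply Nat.card_congr
    exact
      { toFun := fun x => ⟨e x, (hmem x).1 x.2⟩
        invFun := fun y => ⟨e.symm y, (hmem _).2 (by simpa using y.2)⟩
        left_inv := fun x => by simp
        right_inv := fun y => by simp }
  have hdvd : p * q ∣ Nat.card B := by
    rw [← hcard, ← hg]
    exact Subgroup.orderOf_dvd_natCard A hgA
  have hBcomm : ∀ a b : H, a ∈ B → b ∈ B → a * b = b * a := by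
    intro a b ha hb
    have hb' : b ∈ Subgroup.centralizer ({e g} : Set H) := by
      rw [Subgroup.mem_centralizer_iff]
      rintro z rfl
      rw [hB, Subgroup.mem_centralizer_iff] at hb
      exact hb (e g) (by
        rw [SetLike.mem_coe, Subgroup.mem_centralizer_iff]
        rintro w rfl; rfl)
    rw [hB, Subgroup.mem_centralizer_iff] at ha
    exact (ha b hb').symm
  obtain ⟨u, hu⟩ := exists_prime_orderOf_dvd_card' (G := B) p (Dvd.dvd.trans (dvd_mul_right p q) hdvd)
  obtain ⟨v, hv⟩ := exists_prime_orderOf_dvd_card' (G := B) q (Dvd.dvd.trans (dvd_mul_left q p) hdvd)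
  refine ⟨(u : H) * (v : H), ?_⟩
  have hu' : orderOf (u : H) = p := by rw [Subgroup.orderOf_coe]; exact hu
  have hv' : orderOf (v : H) = q := by rw [Subgroup.orderOf_coe]; exact hv
  have hc : Commute (u : H) (v : H) := hBcomm _ _ u.2 v.2
  rw [hc.orderOf_mul_eq_mul_orderOf_of_coprime (by rw [hu', hv']; exact (Nat.coprime_primes hp hq).2 hpq), hu', hv']

theorem result {G H : Type*} [Group G] [Finite G] [Group H] [Finite H] (e : G ≃ H)
    (he : ∀ x y : G, Commute x y ↔ Commute (e x) (e y))
    {p q : ℕ} (hp : p.Prime) (hq : q.Prime) (hpq : p ≠ q) :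
    (∃ g : G, orderOf g = p * q) ↔ (∃ h : H, orderOf h = p * q) := by
  refine ⟨aux e he hp hq hpq, aux e.symm ?_ hp hq hpq⟩
  intro x y
  rw [he (e.symm x) (e.symm y)]
  simp

end Cfsg.Agent.S4084
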