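import Mathlib
import Cfsg.Statements.S4086

set_option autoImplicit false
open Cfsg

namespace Cfsg.Agent.S4086

theorem mem_zpowers_of_orderOf_dvd {α : Type*} [Group α] [Finite α] [IsCyclic α] {x y : α}
    (h : orderOf x ∣ orderOf y) : x ∈ Subgroup.zpowers y := by
  classical
  have := Fintype.ofFinite α
  have hle := IsCyclic.card_pow_eq_one_le (α := α) (n := orderOf y) (orderOf_pos y)
  have hsub : (Finset.univ.filter fun z : α => z ∈ Subgroup.zpowers y) ⊆
      (Finset.univ.filter fun a : α => a ^ orderOf y = 1) := by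
    intro z hz
    simp only [Finset.mem_filter, Finset.mem_univ, true_and] at hz ⊢
    obtain ⟨k, rfl⟩ := Subgroup.mem_zpowers_iff.1 hz
    rw [← zpow_natCast, ← zpow_mul, mul_comm, zpow_mul, zpow_natCast, pow_orderOf_eq_one, one_zpow]
  have hcard : (Finset.univ.filter fun z : α => z ∈ Subgroup.zpowers y).card = orderOf y := by
    rw [← Nat.card_zpowers, Nat.card_eq_fintype_card, Fintype.card_subtype]
  have heq := Finset.eq_of_subset_of_card_le hsub (by rw [hcard]; exact hle)
  have hx : x ∈ (Finset.univ.filter fun a : α => a ^ orderOf y = 1) := by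
    simp only [Finset.mem_filter, Finset.mem_univ, true_and]
    exact orderOf_dvd_iff_pow_eq_one.1 h
  rw [← heq] at hx
  simpa using hx

theorem result {G : Type*} [Group G] [Finite G] :
    (∀ g : G, g ≠ 1 → IsPrimePow (orderOf g)) ↔
    (∀ x y : G, IsCyclic ↥(Subgroup.closure ({x, y} : Set G)) → (x ∈ Subgroup.zpowers y ∨ y ∈ Subgroup.zpowers x)) := by
  constructor
  · intro h x y hc
    set K : Subgroup G := Subgroup.closure ({x, y} : Set G) with hK
    have hxK : x ∈ K := Subgroup.subset_closure (by simp)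
    have hyK : y ∈ K := Subgroup.subset_closure (by simp)
    obtain ⟨c, hgen⟩ := hc.exists_generator
    -- reduce to a statement inside K
    suffices hs : (⟨x, hxK⟩ : K) ∈ Subgroup.zpowers (⟨y, hyK⟩ : K) ∨
        (⟨y, hyK⟩ : K) ∈ Subgroup.zpowers (⟨x, hxK⟩ : K) by
      rcases hs with hs | hs
      · left
        obtain ⟨k, hk⟩ := Subgroup.mem_zpowers_iff.1 hs
        exact Subgroup.mem_zpowers_iff.2 ⟨k, by simpa using congrArg Subtype.val hk⟩
      · right
        obtain ⟨k, hk⟩ := Subgroup.mem_zpowers_iff.1 hs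
        exact Subgroup.mem_zpowers_iff.2 ⟨k, by simpa using congrArg Subtype.val hk⟩
    by_cases hc1 : (c : G) = 1
    · left
      have hx1 : (⟨x, hxK⟩ : K) = 1 := by
        obtain ⟨k, hk⟩ := Subgroup.mem_zpowers_iff.1 (hgen ⟨x, hxK⟩)
        have hc1' : c = 1 := Subtype.ext hc1
        rw [← hk, hc1', one_zpow]
      rw [hx1]
      exact one_mem _
    · obtain ⟨p, m, hp, hm, hpm⟩ := (isPrimePow_nat_iff _).1 (h (c : G) hc1)
      have hordc : orderOf c = p ^ m := by rw [← Subgroup.orderOf_coe, hpm]
      have hcard : Nat.card K = p ^ m := by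
        rw [← hordc]; exact (orderOf_eq_card_of_forall_mem_zpowers hgen).symm
      have hox : orderOf (⟨x, hxK⟩ : K) ∣ p ^ m := hcard ▸ orderOf_dvd_natCard _
      have hoy : orderOf (⟨y, hyK⟩ : K) ∣ p ^ m := hcard ▸ orderOf_dvd_natCard _
      obtain ⟨i, -, hi⟩ := (Nat.dvd_prime_pow hp).1 hox
      obtain ⟨j, -, hj⟩ := (Nat.dvd_prime_pow hp).1 hoy
      rcases le_total i j with hij | hij
      · left
        apply mem_zpowers_of_orderOf_dvd
        rw [hi, hj]; exact pow_dvd_pow p hij
      · right
        apply mem_zpowers_of_orderOf_dvd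
        rw [hi, hj]; exact pow_dvd_pow p hij
  · intro h g hg
    by_contra hnpp
    set n := orderOf g with hn
    have hn0 : n ≠ 0 := (orderOf_pos g).ne'
    have hn1 : n ≠ 1 := by
      intro h1; exact hg (orderOf_eq_one_iff.1 h1)
    set p := n.minFac with hp
    have hpp : p.Prime := Nat.minFac_prime hn1
    set a := p ^ n.factorization p with ha
    set b := n / a with hb
    have hab : a * b = n := Nat.ordProj_mul_ordCompl_eq_self n p
    have hcop : Nat.Coprime a b := by
      have := Nat.coprime_ordCompl hpp hn0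
      exact Nat.Coprime.pow_left _ this
    have ha0 : a ≠ 0 := pow_ne_zero _ hpp.ne_zero
    have hb0 : b ≠ 0 := by
      intro hb0; rw [hb0, mul_zero] at hab; exact hn0 hab.symm
    have hk1 : n.factorization p ≠ 0 := by
      have : 0 < n.factorization p := hpp.factorization_pos_of_dvd hn0 (Nat.minFac_dvd n)
      omega
    have ha1 : a ≠ 1 := by
      intro h1
      have := (Nat.pow_eq_one.1 h1)
      rcases this with h2 | h2
      · exact hpp.one_lt.ne' h2
      · exact hk1 h2
    have hb1 : b ≠ 1 := by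
      intro h1
      apply hnpp
      rw [isPrimePow_nat_iff]
      have hna : n = a := by rw [← hab, h1, mul_one]
      exact ⟨p, n.factorization p, hpp, Nat.pos_of_ne_zero hk1, hna.symm⟩
    have hoa : orderOf (g ^ a) = b := by
      rw [orderOf_pow_of_dvd ha0 (Dvd.intro _ hab)]
    have hob : orderOf (g ^ b) = a := by
      rw [orderOf_pow_of_dvd hb0 (Dvd.intro_left _ hab)]
      exact Nat.div_eq_of_eq_mul_left (Nat.pos_of_ne_zero hb0) hab.symm
    have hcyc : IsCyclic ↥(Subgroup.closure ({g ^ a, g ^ b} : Set G)) := by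
      have hle : Subgroup.closure ({g ^ a, g ^ b} : Set G) ≤ Subgroup.zpowers g := by
        rw [Subgroup.closure_le]
        intro z hz
        rcases hz with rfl | rfl
        · exact Subgroup.pow_mem _ (Subgroup.mem_zpowers g) _
        · exact Subgroup.pow_mem _ (Subgroup.mem_zpowers g) _
      exact Subgroup.isCyclic_of_le hle
    rcases h (g ^ a) (g ^ b) hcyc with h1 | h1
    · have : orderOf (g ^ a) ∣ orderOf (g ^ b) := by
        obtain ⟨k, hk⟩ := Subgroup.mem_zpowers_iff.1 h1
        rw [← hk]; exact orderOf_dvd_of_pow_eq_one (by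
          rw [← zpow_natCast, ← zpow_mul, mul_comm, zpow_mul, zpow_natCast, pow_orderOf_eq_one, one_zpow])
      rw [hoa, hob] at this
      exact hb1 (Nat.Coprime.eq_one_of_dvd hcop.symm this)
    · have : orderOf (g ^ b) ∣ orderOf (g ^ a) := by
        obtain ⟨k, hk⟩ := Subgroup.mem_zpowers_iff.1 h1
        rw [← hk]; exact orderOf_dvd_of_pow_eq_one (by
          rw [← zpow_natCast, ← zpow_mul, mul_comm, zpow_mul, zpow_natCast, pow_orderOf_eq_one, one_zpow])
      rw [hoa, hob] at this
      exact ha1 (Nat.Coprime.eq_one_of_dvd hcop this)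

end Cfsg.Agent.S4086
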