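import Cfsg.Statements.S4088
import Mathlib
import Cfsg.Agent.Lib.Helper32.Wielandt

set_option autoImplicit false
open Cfsg
open Cfsg.Agent.Lib.Helper32

namespace Cfsg.Agent.S4088

open Classical

/-- Möbius-type coefficients on a finite family of subgroups. -/
noncomputable def cf {G : Type*} [Group G] [Finite G] (S : Finset (Subgroup G)) : Subgroup G → ℤ :=
  (wellFounded_gt (α := Subgroup G)).fix
    (fun T rec => 1 - ∑ T' ∈ (S.filter (fun T' => T < T')).attach,
      rec T'.1 ((Finset.mem_filter.mp T'.2).2))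

theorem cf_eq {G : Type*} [Group G] [Finite G] (S : Finset (Subgroup G)) (T : Subgroup G) :
    cf S T = 1 - ∑ T' ∈ S.filter (fun T' => T < T'), cf S T' := by
  have h := WellFounded.fix_eq (C := fun _ => ℤ) (wellFounded_gt (α := Subgroup G))
    (fun T rec => 1 - ∑ T' ∈ (S.filter (fun T' => T < T')).attach,
      rec T'.1 ((Finset.mem_filter.mp T'.2).2)) T
  rw [← Finset.sum_attach (S.filter (fun T' => T < T')) (cf S)]
  exact h

theorem sum_cf_ge {G : Type*} [Group G] [Finite G] (S : Finset (Subgroup G)) {T : Subgroup G}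
    (hT : T ∈ S) : ∑ T' ∈ S.filter (fun T' => T ≤ T'), cf S T' = 1 := by
  have h1 : S.filter (fun T' => T ≤ T') = insert T (S.filter (fun T' => T < T')) := by
    ext T'
    simp only [Finset.mem_filter, Finset.mem_insert]
    constructor
    · rintro ⟨h1, h2⟩
      rcases eq_or_lt_of_le h2 with h | h
      · left; exact h.symm
      · right; exact ⟨h1, h⟩
    · rintro (rfl | ⟨h1, h2⟩)
      · exact ⟨hT, le_rfl⟩
      · exact ⟨h1, h2.le⟩
  rw [h1, Finset.sum_insert (by simp), cf_eq S T]
  ring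

/-- `p`-subgroups of `K` normalized by `g`. -/
noncomputable def Sg {G : Type*} [Group G] [Finite G] (p : ℕ) (K : Subgroup G) (g : G) :
    Finset (Subgroup G) :=
  (Set.toFinite {T : Subgroup G | IsPGroup p T ∧ T ≤ K ∧
    g ∈ Subgroup.normalizer (T : Set G)}).toFinset

theorem mem_Sg {G : Type*} [Group G] [Finite G] {p : ℕ} {K : Subgroup G} {g : G}
    {T : Subgroup G} : T ∈ Sg p K g ↔ IsPGroup p T ∧ T ≤ K ∧
      g ∈ Subgroup.normalizer (T : Set G) := by
  unfold Sg
  rw [Set.Finite.mem_toFinset]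
  rfl

/-- `p`-subgroups of `K` containing `H`. -/
noncomputable def PS {G : Type*} [Group G] [Finite G] (p : ℕ) (K H : Subgroup G) :
    Finset (Subgroup G) :=
  (Set.toFinite {T : Subgroup G | IsPGroup p T ∧ T ≤ K ∧ H ≤ T}).toFinset

theorem mem_PS {G : Type*} [Group G] [Finite G] {p : ℕ} {K H : Subgroup G}
    {T : Subgroup G} : T ∈ PS p K H ↔ IsPGroup p T ∧ T ≤ K ∧ H ≤ T := by
  unfold PS
  rw [Set.Finite.mem_toFinset]
  rfl

noncomputable def els {G : Type*} [Group G] [Finite G] (K : Subgroup G) : Finset G :=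
  (Set.toFinite (K : Set G)).toFinset

theorem mem_els {G : Type*} [Group G] [Finite G] {K : Subgroup G} {g : G} :
    g ∈ els K ↔ g ∈ K := by
  unfold els
  rw [Set.Finite.mem_toFinset]
  rfl

theorem card_els {G : Type*} [Group G] [Finite G] (K : Subgroup G) :
    (els K).card = Nat.card K := by
  unfold els
  rw [← Set.ncard_eq_toFinset_card (K : Set G) (Set.toFinite _)]
  exact (Nat.card_coe_set_eq (K : Set G)).symm

theorem els_inf {G : Type*} [Group G] [Finite G] (K A : Subgroup G) :
    els (K ⊓ A) = (els K).filter (fun g => g ∈ A) := by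
  ext g
  simp only [mem_els, Finset.mem_filter, Subgroup.mem_inf]

noncomputable def W {G : Type*} [Group G] [Finite G] (p : ℕ) (K T : Subgroup G) : ℤ :=
  ∑ g ∈ els K, if g ∈ Subgroup.normalizer (T : Set G) then cf (Sg p K g) T else 0

theorem sum_cf_of_le {G : Type*} [Group G] [Finite G] (p : ℕ) (K H : Subgroup G) (g : G) :
    ∑ T' ∈ (Sg p K g).filter (fun T' => H ≤ T'), cf (Sg p K g) T' =
      if ∃ T', T' ∈ Sg p K g ∧ H ≤ T' then 1 else 0 := by
  split_ifs with h
  · obtain ⟨T0, hT0, hHT0⟩ := h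
    set M : Subgroup G := sInf {T' | T' ∈ Sg p K g ∧ H ≤ T'} with hM
    have hMle : ∀ T', T' ∈ Sg p K g → H ≤ T' → M ≤ T' := fun T' h1 h2 => sInf_le ⟨h1, h2⟩
    have hHM : H ≤ M := le_sInf (fun T' h => h.2)
    have hMS : M ∈ Sg p K g := by
      have hT0' := mem_Sg.mp hT0
      rw [mem_Sg]
      refine ⟨hT0'.1.to_le (hMle T0 hT0 hHT0), (hMle T0 hT0 hHT0).trans hT0'.2.1, ?_⟩
      rw [Subgroup.mem_normalizer_iff]
      intro h
      simp only [hM, Subgroup.mem_sInf]
      constructor
      · intro hh T' hT'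
        have := (mem_Sg.mp hT'.1).2.2
        rw [Subgroup.mem_normalizer_iff] at this
        exact (this h).mp (hh T' hT')
      · intro hh T' hT'
        have := (mem_Sg.mp hT'.1).2.2
        rw [Subgroup.mem_normalizer_iff] at this
        exact (this h).mpr (hh T' hT')
    have : (Sg p K g).filter (fun T' => H ≤ T') = (Sg p K g).filter (fun T' => M ≤ T') := by
      ext T'
      simp only [Finset.mem_filter]
      constructor
      · rintro ⟨h1, h2⟩; exact ⟨h1, hMle T' h1 h2⟩
      · rintro ⟨h1, h2⟩; exact ⟨h1, hHM.trans h2⟩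
    rw [this, sum_cf_ge _ hMS]
  · apply Finset.sum_eq_zero
    intro T' hT'
    rw [Finset.mem_filter] at hT'
    exact absurd ⟨T', hT'.1, hT'.2⟩ h

theorem count_eq_sum_W {G : Type*} [Group G] [Finite G] (p : ℕ) (K H : Subgroup G) :
    (((els K).filter (fun g => ∃ T', T' ∈ Sg p K g ∧ H ≤ T')).card : ℤ) =
      ∑ T ∈ PS p K H, W p K T := by
  rw [Finset.card_filter]
  push_cast
  unfold W
  rw [Finset.sum_comm]
  apply Finset.sum_congr rfl
  intro g _
  rw [← sum_cf_of_le p K H g, ← Finset.sum_filter]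
  apply Finset.sum_congr
  · ext T
    simp only [Finset.mem_filter, mem_Sg, mem_PS]
    tauto
  · intro T _; rfl

theorem sum_gamma {α β : Type*} (U : Finset α) (B : Finset β) (f : α → β) (c : α → ℤ) :
    ∑ T₂ ∈ B, ∑ R' ∈ U, (if f R' = T₂ then c R' else 0) =
      ∑ R' ∈ U, if f R' ∈ B then c R' else 0 := by
  rw [Finset.sum_comm]
  apply Finset.sum_congr rfl
  intro R' _
  exact Finset.sum_ite_eq B (f R') (fun _ => c R')

theorem card_fiber {A X : Type*} [Group A] (S : Subgroup A) (φ : A → X)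
    (hφ : ∀ a b, φ a = φ b ↔ a⁻¹ * b ∈ S) (Y : Set X) :
    Nat.card {a : A // φ a ∈ Y} =
      Nat.card {y : X // y ∈ Y ∧ ∃ a, φ a = y} * Nat.card S := by
  rw [← Nat.card_prod]
  apply Nat.card_congr
  have hr : ∀ y : {y : X // y ∈ Y ∧ ∃ a, φ a = y}, φ (Function.invFun φ y.1) = y.1 :=
    fun y => Function.invFun_eq y.2.2
  have hr' : ∀ a : A, φ (Function.invFun φ (φ a)) = φ a :=
    fun a => Function.invFun_eq ⟨a, rfl⟩
  refine ⟨fun a => (⟨φ a.1, a.2, a.1, rfl⟩,
      ⟨(Function.invFun φ (φ a.1))⁻¹ * a.1, (hφ _ _).mp (hr' a.1)⟩),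
    fun ys => ⟨Function.invFun φ ys.1.1 * ys.2.1, ?_⟩, ?_, ?_⟩
  · have h1 : φ (Function.invFun φ ys.1.1) = φ (Function.invFun φ ys.1.1 * ys.2.1) :=
      (hφ _ _).mpr (by simp)
    rw [← h1, hr]
    exact ys.1.2.1
  · intro a
    apply Subtype.ext
    simp
  · rintro ⟨y, s⟩
    have h1 : φ (Function.invFun φ y.1) = φ (Function.invFun φ y.1 * s.1) :=
      (hφ _ _).mpr (by simp)
    have h2 : φ (Function.invFun φ y.1 * s.1) = y.1 := by rw [← h1, hr]
    apply Prod.ext
    · apply Subtype.ext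
      exact h2
    · apply Subtype.ext
      simp only [h2]
      simp

theorem cf_local {G : Type*} [Group G] [Finite G] (p : ℕ) [Fact p.Prime] (K T : Subgroup G)
    (g : G) (hT : T ∈ Sg p K g) :
    cf (Sg p K g) T = cf (Sg p (K ⊓ Subgroup.normalizer (T : Set G)) g) T := by
  have hT' := mem_Sg.mp hT
  set N : Subgroup G := K ⊓ Subgroup.normalizer (T : Set G) with hN
  set SK := Sg p K g with hSK
  set SN := Sg p N g with hSN
  set U := SK.filter (fun T' => T < T') with hU
  set V := SN.filter (fun T' => T < T') with hV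
  let f : Subgroup G → Subgroup G := fun R' => R' ⊓ Subgroup.normalizer (T : Set G)
  have hSNK : ∀ T₁, T₁ ∈ SN → T₁ ∈ SK := by
    intro T₁ h
    have h' := mem_Sg.mp h
    exact mem_Sg.mpr ⟨h'.1, h'.2.1.trans inf_le_left, h'.2.2⟩
  have hf : ∀ R', R' ∈ U → f R' ∈ V := by
    intro R' hR'
    rw [hU, Finset.mem_filter] at hR'
    have hR'S := mem_Sg.mp hR'.1
    rw [hV, Finset.mem_filter]
    refine ⟨mem_Sg.mpr ⟨hR'S.1.to_le inf_le_left, inf_le_inf_right _ hR'S.2.1, ?_⟩, ?_⟩
    · rw [Subgroup.mem_normalizer_iff]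
      intro h
      have hgR := Subgroup.mem_normalizer_iff.mp hR'S.2.2
      show h ∈ R' ⊓ Subgroup.normalizer (T : Set G) ↔
        g * h * g⁻¹ ∈ R' ⊓ Subgroup.normalizer (T : Set G)
      simp only [Subgroup.mem_inf]
      constructor
      · rintro ⟨h1, h2⟩
        exact ⟨(hgR h).mp h1, Subgroup.mul_mem _ (Subgroup.mul_mem _ hT'.2.2 h2)
          (Subgroup.inv_mem _ hT'.2.2)⟩
      · rintro ⟨h1, h2⟩
        refine ⟨(hgR h).mpr h1, ?_⟩
        have := Subgroup.mul_mem _ (Subgroup.mul_mem _ (Subgroup.inv_mem _ hT'.2.2) h2) hT'.2.2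
        have e : g⁻¹ * (g * h * g⁻¹) * g = h := by group
        rwa [e] at this
    · obtain ⟨x, hxR, hxT, hxN⟩ := exists_normalizing_not_mem hR'S.1 hR'.2.le hR'.2.ne
      refine lt_of_le_of_ne (le_inf hR'.2.le Subgroup.le_normalizer) ?_
      intro heq
      apply hxT
      rw [heq]
      exact ⟨hxR, hxN⟩
  let γ : Subgroup G → ℤ := fun T₂ => ∑ R' ∈ U, if f R' = T₂ then cf SK R' else 0
  have key3 : ∀ T₁, T₁ ∈ V → γ T₁ = cf SN T₁ := by
    intro T₁
    refine (wellFounded_gt (α := Subgroup G)).induction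
      (C := fun T₁ => T₁ ∈ V → γ T₁ = cf SN T₁) T₁ ?_
    intro T₁ ih hT₁
    rw [hV, Finset.mem_filter] at hT₁
    have hT₁S := mem_Sg.mp hT₁.1
    have e1 : ∑ T₂ ∈ SN.filter (fun T₂ => T₁ ≤ T₂), γ T₂ = 1 := by
      show ∑ T₂ ∈ SN.filter (fun T₂ => T₁ ≤ T₂),
        ∑ R' ∈ U, (if f R' = T₂ then cf SK R' else 0) = 1
      rw [sum_gamma, ← Finset.sum_filter]
      refine Eq.trans ?_ (sum_cf_ge SK (hSNK T₁ hT₁.1))
      apply Finset.sum_congr
      · ext R'
        simp only [Finset.mem_filter]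
        constructor
        · rintro ⟨h1, h2, h3⟩
          exact ⟨(Finset.mem_filter.mp h1).1, h3.trans inf_le_left⟩
        · rintro ⟨h1, h2⟩
          have hRU : R' ∈ U := Finset.mem_filter.mpr ⟨h1, lt_of_lt_of_le hT₁.2 h2⟩
          exact ⟨hRU, (Finset.mem_filter.mp (hf R' hRU)).1,
            le_inf h2 (hT₁S.2.1.trans inf_le_right)⟩
      · intro _ _; rfl
    have e2 : SN.filter (fun T₂ => T₁ ≤ T₂) = insert T₁ (SN.filter (fun T₂ => T₁ < T₂)) := by
      ext T'
      simp only [Finset.mem_filter, Finset.mem_insert]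
      constructor
      · rintro ⟨h1, h2⟩
        rcases eq_or_lt_of_le h2 with h | h
        · left; exact h.symm
        · right; exact ⟨h1, h⟩
      · rintro (rfl | ⟨h1, h2⟩)
        · exact ⟨hT₁.1, le_rfl⟩
        · exact ⟨h1, h2.le⟩
    rw [e2, Finset.sum_insert (by simp)] at e1
    have e3 : ∑ T₂ ∈ SN.filter (fun T₂ => T₁ < T₂), γ T₂ =
        ∑ T₂ ∈ SN.filter (fun T₂ => T₁ < T₂), cf SN T₂ := by
      apply Finset.sum_congr rfl
      intro T₂ hT₂
      rw [Finset.mem_filter] at hT₂
      exact ih T₂ hT₂.2 (Finset.mem_filter.mpr ⟨hT₂.1, lt_trans hT₁.2 hT₂.2⟩)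
    rw [cf_eq SN T₁, ← e3]
    linarith
  rw [cf_eq SK T, cf_eq SN T]
  congr 1
  have e4 : ∑ T₂ ∈ V, cf SN T₂ = ∑ T₂ ∈ V, γ T₂ :=
    Finset.sum_congr rfl (fun T₂ h => (key3 T₂ h).symm)
  refine Eq.trans ?_ e4.symm
  show ∑ R' ∈ U, cf SK R' = ∑ T₂ ∈ V, ∑ R' ∈ U, (if f R' = T₂ then cf SK R' else 0)
  rw [sum_gamma]
  apply Finset.sum_congr rfl
  intro R' hR'
  rw [if_pos (hf R' hR')]

theorem card_subgroupOf_inf {G : Type*} [Group G] (N A : Subgroup G) :
    Nat.card (A.subgroupOf N) = Nat.card ↥(N ⊓ A) := by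
  rw [← Subgroup.inf_subgroupOf_right A N, inf_comm]
  exact Nat.card_congr (Subgroup.subgroupOfEquivOfLe inf_le_left).toEquiv

theorem cj_eq_cj_iff {G : Type*} [Group G] (a b : G) (T : Subgroup G) :
    cj a T = cj b T ↔ a⁻¹ * b ∈ Subgroup.normalizer (T : Set G) := by
  rw [← cj_eq_self_iff, cj_mul]
  constructor
  · intro h
    rw [← h, cj_inv_cj]
  · intro h
    have := congrArg (cj a) h
    rw [cj_cj_inv] at this
    exact this.symm

theorem card_syl_mul {G : Type*} [Group G] [Finite G] (p : ℕ) [Fact p.Prime] (N : Subgroup G)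
    {T : Subgroup G} (hT : T ∈ sylSet p N) :
    Nat.card N = (Set.toFinite (sylSet p N)).toFinset.card *
      Nat.card ↥(N ⊓ Subgroup.normalizer (T : Set G)) := by
  have h := card_fiber ((Subgroup.normalizer (T : Set G)).subgroupOf N) (fun n : N => cj n.1 T)
    (fun a b => by
      rw [cj_eq_cj_iff, Subgroup.mem_subgroupOf]
      simp) Set.univ
  rw [card_subgroupOf_inf] at h
  have h1 : Nat.card {a : N // (fun n : N => cj n.1 T) a ∈ (Set.univ : Set (Subgroup G))} =
      Nat.card N :=
    Nat.card_congr (Equiv.subtypeUnivEquiv (fun a => Set.mem_univ _))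
  have h2 : Nat.card {y : Subgroup G // y ∈ (Set.univ : Set (Subgroup G)) ∧
      ∃ a : N, (fun n : N => cj n.1 T) a = y} = (Set.toFinite (sylSet p N)).toFinset.card := by
    rw [← Set.ncard_eq_toFinset_card (sylSet p N) (Set.toFinite _), ← Nat.card_coe_set_eq]
    apply Nat.card_congr
    apply Equiv.subtypeEquivRight
    intro y
    constructor
    · rintro ⟨-, a, rfl⟩
      exact cj_mem_sylSet (Subgroup.le_normalizer a.2) hT
    · intro hy
      obtain ⟨n, hn, rfl⟩ := sylSet_conj hT hy
      exact ⟨Set.mem_univ _, ⟨n, hn⟩, rfl⟩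
  rw [h1, h2] at h
  exact h

theorem sum_syl {G : Type*} [Group G] [Finite G] (p : ℕ) [Fact p.Prime] (N : Subgroup G) :
    ∑ T' ∈ (Set.toFinite (sylSet p N)).toFinset,
      (Nat.card ↥(N ⊓ Subgroup.normalizer (T' : Set G)) : ℤ) = Nat.card N := by
  obtain ⟨T₁, hT₁⟩ := sylSet_nonempty p N
  have hpos : 0 < (Set.toFinite (sylSet p N)).toFinset.card :=
    Finset.card_pos.mpr ⟨T₁, (Set.Finite.mem_toFinset _).mpr hT₁⟩
  have hc : ∀ T' ∈ (Set.toFinite (sylSet p N)).toFinset,
      (Nat.card ↥(N ⊓ Subgroup.normalizer (T' : Set G)) : ℤ) =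
        (Nat.card ↥(N ⊓ Subgroup.normalizer (T₁ : Set G)) : ℤ) := by
    intro T' hT'
    have h1 := card_syl_mul p N ((Set.Finite.mem_toFinset _).mp hT')
    have h2 := card_syl_mul p N hT₁
    rw [h1] at h2
    exact_mod_cast Nat.eq_of_mul_eq_mul_left hpos h2
  rw [Finset.sum_congr rfl hc, Finset.sum_const, card_syl_mul p N hT₁]
  simp

theorem W_eq {G : Type*} [Group G] [Finite G] (p : ℕ) [Fact p.Prime] :
    ∀ (n : ℕ) (K T : Subgroup G), Nat.card G - Nat.card T = n → IsPGroup p T → T ≤ K →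
      W p K T = if T ∈ sylSet p K then
        (Nat.card ↥(K ⊓ Subgroup.normalizer (T : Set G)) : ℤ) else 0 := by
  intro n
  induction n using Nat.strong_induction_on with
  | _ n ih =>
    intro K T hn hT hTK
    split_ifs with hS
    · unfold W
      have h1 : ∀ g ∈ els K, (if g ∈ Subgroup.normalizer (T : Set G) then cf (Sg p K g) T else 0)
          = (if g ∈ Subgroup.normalizer (T : Set G) then (1 : ℤ) else 0) := by
        intro g _
        split_ifs with hg
        · rw [cf_eq]
          have : (Sg p K g).filter (fun T' => T < T') = ∅ := by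
            apply Finset.filter_eq_empty_iff.mpr
            intro T' hT' hlt
            have hT'' := mem_Sg.mp hT'
            exact hlt.ne (sylSet_eq_of_le hS hT''.1 hT''.2.1 hlt.le).symm
          rw [this]; simp
        · rfl
      rw [Finset.sum_congr rfl h1, Finset.sum_boole, ← els_inf, card_els]
    · set N : Subgroup G := K ⊓ Subgroup.normalizer (T : Set G) with hN
      have hTN : T ≤ N := le_inf hTK Subgroup.le_normalizer
      have hNn : N ≤ Subgroup.normalizer (T : Set G) := inf_le_right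
      have ha : W p K T = W p N T := by
        unfold W
        rw [← Finset.sum_filter, ← els_inf]
        apply Finset.sum_congr rfl
        intro g hg
        have hgN : g ∈ N := mem_els.mp hg
        rw [if_pos (hNn hgN)]
        exact cf_local p K T g (mem_Sg.mpr ⟨hT, hTK, hNn hgN⟩)
      have hb : ((els N).card : ℤ) = ∑ T' ∈ PS p N T, W p N T' := by
        rw [← count_eq_sum_W, Finset.filter_true_of_mem]
        intro g hg
        exact ⟨T, mem_Sg.mpr ⟨hT, hTN, hNn (mem_els.mp hg)⟩, le_rfl⟩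
      have hTPS : T ∈ PS p N T := mem_PS.mpr ⟨hT, hTN, le_rfl⟩
      rw [← Finset.add_sum_erase _ _ hTPS] at hb
      have hf : T ∉ sylSet p N := by
        intro hTS
        obtain ⟨R, hR, hTR⟩ := exists_sylSet_ge hT hTK
        have hne : T ≠ R := fun h => hS (h ▸ hR)
        obtain ⟨x, hxR, hxT, hxN⟩ :=
          exists_normalizing_not_mem (isPGroup_of_mem_sylSet hR) hTR hne
        have hD : R ⊓ Subgroup.normalizer (T : Set G) = T :=
          sylSet_eq_of_le hTS ((isPGroup_of_mem_sylSet hR).to_le inf_le_left)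
            (inf_le_inf_right _ hR.1) (le_inf hTR Subgroup.le_normalizer)
        apply hxT
        rw [← hD]
        exact ⟨hxR, hxN⟩
      have hg' : ∀ T', T' ∈ sylSet p N → T ≤ T' := by
        intro T' hT'
        have h1 : IsPGroup p ↥(T ⊔ T') :=
          IsPGroup.to_sup_of_normal_left' hT (isPGroup_of_mem_sylSet hT') (hT'.1.trans hNn)
        have h2 : T ⊔ T' = T' := sylSet_eq_of_le hT' h1 (sup_le hTN hT'.1) le_sup_right
        rw [← h2]; exact le_sup_left
      have he : ∑ T' ∈ (PS p N T).erase T, W p N T' =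
          ∑ T' ∈ (Set.toFinite (sylSet p N)).toFinset,
            (Nat.card ↥(N ⊓ Subgroup.normalizer (T' : Set G)) : ℤ) := by
        have h1 : ∀ T' ∈ (PS p N T).erase T, W p N T' = if T' ∈ sylSet p N then
            (Nat.card ↥(N ⊓ Subgroup.normalizer (T' : Set G)) : ℤ) else 0 := by
          intro T' hT'
          rw [Finset.mem_erase] at hT'
          have hT'' := mem_PS.mp hT'.2
          have hlt : Nat.card T < Nat.card T' := card_lt_of_le_of_ne' hT''.2.2 (Ne.symm hT'.1)
          have hle : Nat.card T' ≤ Nat.card G := Subgroup.card_le_card_group T'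
          exact ih (Nat.card G - Nat.card T') (by omega) N T' rfl hT''.1 hT''.2.1
        rw [Finset.sum_congr rfl h1, ← Finset.sum_filter]
        apply Finset.sum_congr
        · ext T'
          simp only [Finset.mem_filter, Finset.mem_erase, mem_PS, Set.Finite.mem_toFinset]
          constructor
          · rintro ⟨_, h⟩; exact h
          · intro h
            exact ⟨⟨fun e => hf (e ▸ h), isPGroup_of_mem_sylSet h, h.1, hg' T' h⟩, h⟩
        · intro _ _; rfl
      rw [he, sum_syl, card_els] at hb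
      rw [ha]
      linarith

theorem rsn_of_pgroup {G : Type*} [Group G] [Finite G] (p : ℕ) [Fact p.Prime] :
    ∀ (n : ℕ) (H D : Subgroup G), Nat.card G - Nat.card H = n → IsPGroup p D → H ≤ D →
      RSN H D := by
  intro n
  induction n using Nat.strong_induction_on with
  | _ n ih =>
    intro H D hn hD hHD
    by_cases hne : H = D
    · rw [hne]; exact RSN.refl D
    · obtain ⟨x, hxD, hxH, hxN⟩ := exists_normalizing_not_mem hD hHD hne
      set H₁ : Subgroup G := D ⊓ Subgroup.normalizer (H : Set G) with hH₁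
      have h1 : H ≤ H₁ := le_inf hHD Subgroup.le_normalizer
      have hx1 : x ∈ H₁ := ⟨hxD, hxN⟩
      have h2 : H ≠ H₁ := fun e => hxH (by rw [e]; exact hx1)
      have hlt : Nat.card H < Nat.card H₁ := card_lt_of_le_of_ne' h1 h2
      have hle : Nat.card H₁ ≤ Nat.card G := Subgroup.card_le_card_group H₁
      exact RSN.step H H₁ D h1 inf_le_right
        (ih (Nat.card G - Nat.card H₁) (by omega) H₁ D rfl hD inf_le_left)

theorem cj_sup {G : Type*} [Group G] (g : G) (A B : Subgroup G) :
    cj g (A ⊔ B) = cj g A ⊔ cj g B := by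
  unfold cj; exact Subgroup.map_sup A B _

theorem exists_pcore {G : Type*} [Group G] [Finite G] (p : ℕ) [Fact p.Prime] (S T : Subgroup G)
    (hTS : T ≤ S) (hT : IsPGroup p T) (hST : S ≤ Subgroup.normalizer (T : Set G)) :
    ∃ O : Subgroup G, T ≤ O ∧ O ≤ S ∧ IsPGroup p O ∧
      Subgroup.normalizer (S : Set G) ≤ Subgroup.normalizer (O : Set G) := by
  obtain ⟨O, hTO, ⟨hOp, hOS, hSO⟩, hmax⟩ := exists_maximal_above
    (fun T' : Subgroup G => IsPGroup p T' ∧ T' ≤ S ∧ S ≤ Subgroup.normalizer (T' : Set G))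
    (a := T) ⟨hT, hTS, hST⟩
  have hlargest : ∀ T' : Subgroup G, IsPGroup p T' → T' ≤ S →
      S ≤ Subgroup.normalizer (T' : Set G) → T' ≤ O := by
    intro T' h1 h2 h3
    have h4 : O ⊔ T' = O := by
      apply hmax (O ⊔ T')
        ⟨IsPGroup.to_sup_of_normal_left' hOp h1 (h2.trans hSO), sup_le hOS h2, ?_⟩ le_sup_left
      apply le_normalizer_of_cj_eq
      intro a ha
      rw [cj_sup, cj_eq_self_of_le_normalizer hSO ha, cj_eq_self_of_le_normalizer h3 ha]
    rw [← h4]; exact le_sup_right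
  refine ⟨O, hTO, hOS, hOp, ?_⟩
  intro a ha
  rw [← cj_eq_self_iff]
  have haS : cj a S = S := cj_eq_self_iff.mpr ha
  have h5 : cj a O ≤ O := by
    apply hlargest (cj a O) (isPGroup_cj hOp)
    · rw [← haS]; exact cj_mono a hOS
    · apply le_normalizer_of_cj_eq
      intro s hs
      have hs' : a⁻¹ * s * a ∈ S := by
        refine (Subgroup.mem_normalizer_iff.mp ha (a⁻¹ * s * a)).mpr ?_
        have e : a * (a⁻¹ * s * a) * a⁻¹ = s := by group
        rw [e]; exact hs
      have e2 : s * a = a * (a⁻¹ * s * a) := by group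
      rw [← cj_mul, e2, cj_mul, cj_eq_self_of_le_normalizer hSO hs']
  exact Subgroup.eq_of_le_of_card_ge h5 (card_cj a O).symm.le

theorem rsn_pcore {G : Type*} [Group G] [Finite G] (p : ℕ) [Fact p.Prime] {S K : Subgroup G}
    (h : RSN S K) :
    ∀ T : Subgroup G, T ≤ S → IsPGroup p T → S ≤ Subgroup.normalizer (T : Set G) →
      ∃ R : Subgroup G, T ≤ R ∧ R ≤ K ∧ IsPGroup p R ∧
        K ≤ Subgroup.normalizer (R : Set G) := by
  induction h with
  | refl K => intro T hTK hT hKT; exact ⟨T, le_rfl, hTK, hT, hKT⟩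
  | step S H' K hSH hHN _ ih =>
    intro T hTS hT hST
    obtain ⟨O, hTO, hOS, hOp, hON⟩ := exists_pcore p S T hTS hT hST
    obtain ⟨R, hOR, hRK, hRp, hKR⟩ := ih O (hOS.trans hSH) hOp (hHN.trans hON)
    exact ⟨R, hTO.trans hOR, hRK, hRp, hKR⟩

theorem subnormal_iff {G : Type*} [Group G] [Finite G] (p : ℕ) [Fact p.Prime] (H : Subgroup G)
    (hH : IsPGroup p H) (g : G) :
    ((H).subgroupOf (H ⊔ Subgroup.zpowers g)).IsSubnormal ↔
      ∃ T', T' ∈ Sg p (⊤ : Subgroup G) g ∧ H ≤ T' := by
  constructor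
  · intro h
    have h1 : RSN H (H ⊔ Subgroup.zpowers g) := rsn_of_subgroupOf le_sup_left h
    obtain ⟨R, hHR, -, hRp, hKR⟩ := rsn_pcore p h1 H le_rfl hH Subgroup.le_normalizer
    have hg : g ∈ H ⊔ Subgroup.zpowers g :=
      (le_sup_right : Subgroup.zpowers g ≤ H ⊔ Subgroup.zpowers g) (Subgroup.mem_zpowers g)
    exact ⟨R, mem_Sg.mpr ⟨hRp, le_top, hKR hg⟩, hHR⟩
  · rintro ⟨T', hT', hHT'⟩
    have hT'' := mem_Sg.mp hT'
    set K : Subgroup G := H ⊔ Subgroup.zpowers g with hK
    have hKN : K ≤ Subgroup.normalizer (T' : Set G) :=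
      sup_le (hHT'.trans Subgroup.le_normalizer) ((Subgroup.zpowers_le).mpr hT''.2.2)
    have h1 : RSN H (T' ⊓ K) :=
      rsn_of_pgroup p _ H (T' ⊓ K) rfl (hT''.1.to_le inf_le_left) (le_inf hHT' le_sup_left)
    have h2 : RSN (T' ⊓ K) K := by
      refine RSN.step _ K K inf_le_right ?_ (RSN.refl K)
      apply le_normalizer_of_cj_eq
      intro a ha
      ext x
      rw [mem_cj, Subgroup.mem_inf, Subgroup.mem_inf]
      have ha' := hKN ha
      have h3 : a⁻¹ * x * a ∈ T' ↔ x ∈ T' := by
        rw [← mem_cj, cj_eq_self_iff.mpr ha']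
      have h4 : a⁻¹ * x * a ∈ K ↔ x ∈ K := by
        constructor
        · intro hx
          have := K.mul_mem (K.mul_mem ha hx) (K.inv_mem ha)
          have e : a * (a⁻¹ * x * a) * a⁻¹ = x := by group
          rwa [e] at this
        · intro hx
          exact K.mul_mem (K.mul_mem (K.inv_mem ha) hx) ha
      rw [h3, h4]
    exact (h1.trans h2).subgroupOf

theorem card_subtype_els {G : Type*} [Group G] [Finite G] (P : G → Prop) [DecidablePred P] :
    Nat.card {g : G // P g} = ((els (⊤ : Subgroup G)).filter P).card := by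
  rw [← Set.ncard_coe_finset, ← Nat.card_coe_set_eq]
  apply Nat.card_congr
  apply Equiv.subtypeEquivRight
  intro g
  simp [mem_els]

theorem main_count {G : Type*} [Group G] [Finite G] (p : ℕ) [Fact p.Prime] (H : Subgroup G)
    (hH : IsPGroup p H) (P : Sylow p G) :
    Nat.card {g : G // ((H).subgroupOf (H ⊔ Subgroup.zpowers g)).IsSubnormal} =
      Nat.card {Q : Sylow p G // H ≤ (Q : Subgroup G)} *
        Nat.card (Subgroup.normalizer ((P : Subgroup G) : Set G)) := by
  have h1 : Nat.card {g : G // ((H).subgroupOf (H ⊔ Subgroup.zpowers g)).IsSubnormal} =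
      ((els (⊤ : Subgroup G)).filter
        (fun g => ∃ T', T' ∈ Sg p (⊤ : Subgroup G) g ∧ H ≤ T')).card := by
    rw [← card_subtype_els]
    exact Nat.card_congr (Equiv.subtypeEquivRight (fun g => subnormal_iff p H hH g))
  have h2 := count_eq_sum_W p (⊤ : Subgroup G) H
  have h3 : ∀ T ∈ PS p (⊤ : Subgroup G) H, W p ⊤ T =
      if T ∈ sylSet p (⊤ : Subgroup G) then
        (Nat.card (Subgroup.normalizer ((P : Subgroup G) : Set G)) : ℤ) else 0 := by
    intro T hT
    have hT' := mem_PS.mp hT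
    rw [W_eq p _ ⊤ T rfl hT'.1 le_top]
    split_ifs with hS
    · have hc : Nat.card T = p ^ (Nat.card G).factorization p := by
        have := hS.2; rwa [Subgroup.card_top] at this
      have e1 := Sylow.card_eq_index_normalizer (Sylow.ofCard T hc)
      have e2 := Sylow.card_eq_index_normalizer P
      have e3 := Subgroup.card_mul_index
        (Subgroup.normalizer ((Sylow.ofCard T hc : Sylow p G) : Set G))
      have e4 := Subgroup.card_mul_index (Subgroup.normalizer (P : Set G))
      rw [← e1] at e3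
      rw [← e2, ← e3] at e4
      have hpos : 0 < Nat.card (Sylow p G) := Nat.card_pos
      have e5 := Nat.eq_of_mul_eq_mul_right hpos e4
      have e6 : Nat.card ↥(Subgroup.normalizer ((P : Subgroup G) : Set G)) =
          Nat.card ↥(Subgroup.normalizer (T : Set G)) := e5
      rw [top_inf_eq, e6]
    · rfl
  have h4 : Nat.card {Q : Sylow p G // H ≤ (Q : Subgroup G)} =
      Nat.card {T : Subgroup G // T ∈ sylSet p (⊤ : Subgroup G) ∧ H ≤ T} := by
    have hc : ∀ T : {T : Subgroup G // T ∈ sylSet p (⊤ : Subgroup G) ∧ H ≤ T},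
        Nat.card T.1 = p ^ (Nat.card G).factorization p := by
      intro T
      have := T.2.1.2
      rwa [Subgroup.card_top] at this
    exact Nat.card_congr
      { toFun := fun Q => ⟨(Q.1 : Subgroup G),
          ⟨le_top, by rw [Subgroup.card_top]; exact Q.1.card_eq_multiplicity⟩, Q.2⟩
        invFun := fun T => ⟨Sylow.ofCard T.1 (hc T), by rw [Sylow.coe_ofCard]; exact T.2.2⟩
        left_inv := fun Q => by
          apply Subtype.ext
          apply Sylow.ext
          rfl
        right_inv := fun T => Subtype.ext (Sylow.coe_ofCard T.1 (hc T)) }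
  have h4' : Nat.card {T : Subgroup G // T ∈ sylSet p (⊤ : Subgroup G) ∧ H ≤ T} =
      ((PS p (⊤ : Subgroup G) H).filter (fun T => T ∈ sylSet p (⊤ : Subgroup G))).card := by
    rw [← Set.ncard_coe_finset, ← Nat.card_coe_set_eq]
    apply Nat.card_congr
    apply Equiv.subtypeEquivRight
    intro T
    simp only [Finset.coe_filter, Set.mem_ofPred_eq, mem_PS]
    constructor
    · rintro ⟨h1, h2⟩; exact ⟨⟨isPGroup_of_mem_sylSet h1, le_top, h2⟩, h1⟩
    · rintro ⟨⟨_, _, h2⟩, h1⟩; exact ⟨h1, h2⟩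
  rw [h1]
  have h5 : (((els (⊤ : Subgroup G)).filter
      (fun g => ∃ T', T' ∈ Sg p (⊤ : Subgroup G) g ∧ H ≤ T')).card : ℤ) =
      ((Nat.card {Q : Sylow p G // H ≤ (Q : Subgroup G)} *
        Nat.card (Subgroup.normalizer ((P : Subgroup G) : Set G)) : ℕ) : ℤ) := by
    rw [h2, Finset.sum_congr rfl h3, ← Finset.sum_filter, Finset.sum_const, h4, h4']
    simp
  exact_mod_cast h5

theorem second_count {G : Type*} [Group G] [Finite G] (p : ℕ) [Fact p.Prime] (H : Subgroup G)
    (P : Sylow p G) :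
    Nat.card {Q : Sylow p G // H ≤ (Q : Subgroup G)} *
        Nat.card (Subgroup.normalizer ((P : Subgroup G) : Set G)) =
      Nat.card {K : Subgroup G // K ≤ (P : Subgroup G) ∧
          ∃ g : G, K = H.map (MulAut.conj g).toMonoidHom} *
        Nat.card (Subgroup.normalizer (H : Set G)) := by
  have h1 := card_fiber (Subgroup.normalizer ((P : Subgroup G) : Set G)) (fun g : G => g • P)
    (fun a b => by
      have h := Sylow.smul_eq_iff_mem_normalizer (g := a⁻¹ * b) (P := P)
      rw [mul_smul, inv_smul_eq_iff] at h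
      exact eq_comm.trans h) {Q : Sylow p G | H ≤ (Q : Subgroup G)}
  have h2 := card_fiber (Subgroup.normalizer (H : Set G)) (fun g : G => cj g H)
    (fun a b => cj_eq_cj_iff a b H) {K : Subgroup G | K ≤ (P : Subgroup G)}
  have h3 : Nat.card {Q : Sylow p G // Q ∈ {Q : Sylow p G | H ≤ (Q : Subgroup G)} ∧
      ∃ a : G, (fun g : G => g • P) a = Q} = Nat.card {Q : Sylow p G // H ≤ (Q : Subgroup G)} :=
    Nat.card_congr (Equiv.subtypeEquivRight
      (fun Q => ⟨fun h => h.1, fun h => ⟨h, MulAction.exists_smul_eq G P Q⟩⟩))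
  have h4 : Nat.card {K : Subgroup G // K ∈ {K : Subgroup G | K ≤ (P : Subgroup G)} ∧
      ∃ a : G, (fun g : G => cj g H) a = K} =
      Nat.card {K : Subgroup G // K ≤ (P : Subgroup G) ∧
          ∃ g : G, K = H.map (MulAut.conj g).toMonoidHom} :=
    Nat.card_congr (Equiv.subtypeEquivRight
      (fun K => ⟨fun h => ⟨h.1, h.2.imp (fun g hg => hg.symm)⟩,
        fun h => ⟨h.1, h.2.imp (fun g hg => hg.symm)⟩⟩))
  have h5 : Nat.card {a : G // (fun g : G => g • P) a ∈ {Q : Sylow p G | H ≤ (Q : Subgroup G)}} =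
      Nat.card {a : G // (fun g : G => cj g H) a ∈ {K : Subgroup G | K ≤ (P : Subgroup G)}} := by
    apply Nat.card_congr
    refine (Equiv.inv G).subtypeEquiv ?_
    intro a
    show H ≤ ((a • P : Sylow p G) : Subgroup G) ↔ cj a⁻¹ H ≤ (P : Subgroup G)
    rw [Sylow.coe_subgroup_smul, smul_eq_cj]
    constructor
    · intro h
      have := cj_mono a⁻¹ h
      rwa [cj_inv_cj] at this
    · intro h
      have := cj_mono a h
      rwa [cj_cj_inv] at this
  rw [h3] at h1
  rw [h4] at h2
  rw [← h1, ← h2, h5]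

/-- Let G be a finite group, p a prime dividing the order of G, H a p-subgroup of G and P a Sylow p-subgroup of G. Call the subnormalizer of H the set of elements g of G such that H is subnormal in the subgroup generated by H and g. Then the number of elements of the subnormalizer of H equals the number of Sylow p-subgroups of G containing H times the order of N_G(P), and also equals the number of conjugates of H contained in P times the order of N_G(H). -/
theorem result {G : Type*} [Group G] [Finite G] (p : ℕ) [Fact p.Prime]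
    (hp : p ∣ Nat.card G) (H : Subgroup G) (hH : IsPGroup p H) (P : Sylow p G) :
    Nat.card {g : G // ((H).subgroupOf (H ⊔ Subgroup.zpowers g)).IsSubnormal} =
        Nat.card {Q : Sylow p G // H ≤ (Q : Subgroup G)} * Nat.card (Subgroup.normalizer ((P : Subgroup G) : Set G)) ∧
    Nat.card {g : G // ((H).subgroupOf (H ⊔ Subgroup.zpowers g)).IsSubnormal} =
        Nat.card {K : Subgroup G // K ≤ (P : Subgroup G) ∧ ∃ g : G, K = H.map (MulAut.conj g).toMonoidHom} *
          Nat.card (Subgroup.normalizer (H : Set G)) := by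
  have h1 := main_count p H hH P
  exact ⟨h1, h1.trans (second_count p H P)⟩

end Cfsg.Agent.S4088
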