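import Cfsg.Statements.S4089
import Mathlib

set_option autoImplicit false
open Cfsg

namespace Cfsg.Agent.S4089

open scoped Pointwise

universe u

theorem pCore_normal' {G : Type*} [Group G] (p : ℕ) : (Cfsg.pCore p G).Normal :=
  Subgroup.sSup_normal _ (fun _ hK => hK.1)

theorem pCore_isPGroup' {G : Type*} [Group G] (p : ℕ) : IsPGroup p (Cfsg.pCore p G) :=
  Sylow.sSup_of_normal _ (fun _ hK => hK.2) (fun _ hK => hK.1)

theorem le_pCore' {G : Type*} [Group G] {p : ℕ} {N : Subgroup G} (hN : N.Normal)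
    (hp : IsPGroup p N) : N ≤ Cfsg.pCore p G :=
  le_sSup ⟨hN, hp⟩

theorem pCore_characteristic {G : Type*} [Group G] (p : ℕ) :
    (Cfsg.pCore p G).Characteristic := by
  rw [Subgroup.characteristic_iff_map_le]
  intro ϕ
  rw [Subgroup.map_le_iff_le_comap]
  apply sSup_le
  rintro N ⟨hN, hNp⟩
  rw [← Subgroup.map_le_iff_le_comap]
  exact le_sSup ⟨hN.map _ ϕ.surjective, hNp.map _⟩

/-- `L` normalizes the image of the `p`-core of `L` -/
theorem le_normalizer_pCore_map {G : Type*} [Group G] (p : ℕ) (L : Subgroup G) :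
    L ≤ Subgroup.normalizer (((Cfsg.pCore p L).map L.subtype : Subgroup G) : Set G) := by
  haveI := pCore_normal' (G := L) p
  have h := Subgroup.le_normalizer_map (H := Cfsg.pCore p L) L.subtype
  rw [Subgroup.normalizer_eq_top, ← MonoidHom.range_eq_map, Subgroup.range_subtype] at h
  exact h

theorem subnormal_le_pCore_aux (p : ℕ) : ∀ (n : ℕ) (G : Type u) [Group G] [Finite G],
    Nat.card G ≤ n → ∀ A : Subgroup G, A.IsSubnormal → IsPGroup p A → A ≤ Cfsg.pCore p G := by
  intro n
  induction n with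
  | zero =>
    intro G _ _ hcard
    exact absurd hcard (by have := Nat.card_pos (α := G); omega)
  | succ n ih =>
    intro G _ _ hcard A hA hAp
    rcases hA.lt_normal with rfl | ⟨N, hN, hAN, hNlt⟩
    · exact le_sSup ⟨inferInstance, hAp⟩
    · have hcardN : Nat.card N ≤ n := by
        by_contra hlt
        have : Nat.card G ≤ Nat.card N := by omega
        exact hNlt.ne (Subgroup.eq_top_of_le_card N this)
      have hA' : (A.subgroupOf N).IsSubnormal := hA.subgroupOf
      have hAp' : IsPGroup p (A.subgroupOf N) := hAp.comap_subtype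
      have h1 := ih N hcardN _ hA' hAp'
      haveI := pCore_characteristic (G := N) p
      have h2 : ((Cfsg.pCore p N).map N.subtype).Normal :=
        ConjAct.normal_of_characteristic_of_normal
      have h3 : IsPGroup p ((Cfsg.pCore p N).map N.subtype) := (pCore_isPGroup' p).map _
      calc A = (A.subgroupOf N).map N.subtype := (Subgroup.map_subgroupOf_eq_of_le hAN).symm
        _ ≤ (Cfsg.pCore p N).map N.subtype := Subgroup.map_mono h1
        _ ≤ Cfsg.pCore p G := le_sSup ⟨h2, h3⟩

theorem le_pCore_map_of_subnormal {G : Type*} [Group G] [Finite G] (p : ℕ) (A L : Subgroup G)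
    (hAL : A ≤ L) (hA : IsPGroup p A) (hsn : (A.subgroupOf L).IsSubnormal) :
    A ≤ (Cfsg.pCore p L).map L.subtype := by
  have h := subnormal_le_pCore_aux p _ L le_rfl (A.subgroupOf L) hsn hA.comap_subtype
  calc A = (A.subgroupOf L).map L.subtype := (Subgroup.map_subgroupOf_eq_of_le hAL).symm
    _ ≤ (Cfsg.pCore p L).map L.subtype := Subgroup.map_mono h

theorem isSubnormal_of_nilpotent {N : Type*} [Group N] [Finite N] [Group.IsNilpotent N] :
    ∀ (n : ℕ) (A : Subgroup N), Nat.card N - Nat.card A ≤ n → A.IsSubnormal := by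
  intro n
  induction n with
  | zero =>
    intro A h
    have : A = ⊤ := Subgroup.eq_top_of_le_card A (by omega)
    rw [this]; exact Subgroup.IsSubnormal.top
  | succ n ih =>
    intro A h
    by_cases hA : A = ⊤
    · rw [hA]; exact Subgroup.IsSubnormal.top
    · have hlt : A < Subgroup.normalizer (A : Set N) :=
        Group.normalizerCondition_of_isNilpotent A (lt_top_iff_ne_top.mpr hA)
      have hcard : Nat.card A < Nat.card (Subgroup.normalizer (A : Set N)) := by
        by_contra hle
        push Not at hle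
        exact hlt.ne (Subgroup.eq_of_le_of_card_ge hlt.le hle)
      have hle : Nat.card (Subgroup.normalizer (A : Set N)) ≤ Nat.card N :=
        Subgroup.card_le_card_group _
      exact Subgroup.IsSubnormal.step A _ Subgroup.le_normalizer (ih _ (by omega))
        Subgroup.normal_in_normalizer

theorem subnormal_of_le_pGroup {G : Type*} [Group G] [Finite G] (p : ℕ) [Fact p.Prime]
    (A R L : Subgroup G) (hAR : A ≤ R) (_hAL : A ≤ L) (hR : IsPGroup p R)
    (hLR : L ≤ Subgroup.normalizer (R : Set G)) : (A.subgroupOf L).IsSubnormal := by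
  have hn : (R.subgroupOf L).Normal := Subgroup.normal_subgroupOf_of_le_normalizer hLR
  have hRp : IsPGroup p (R.subgroupOf L) := hR.comap_subtype
  haveI : Group.IsNilpotent (R.subgroupOf L) := hRp.isNilpotent
  have hle : A.subgroupOf L ≤ R.subgroupOf L := Subgroup.comap_mono hAR
  exact Subgroup.IsSubnormal.trans hle (isSubnormal_of_nilpotent _ _ le_rfl) hn.isSubnormal

theorem exists_radical {G : Type*} [Group G] [Finite G] (p : ℕ) [Fact p.Prime] (H : Subgroup G)
    (hH : IsPGroup p H) (g : G)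
    (hsn : (H.subgroupOf (H ⊔ Subgroup.zpowers g)).IsSubnormal) :
    ∃ R : Subgroup G, H ≤ R ∧
      (Cfsg.pCore p (Subgroup.normalizer (R : Set G))).map
        (Subgroup.normalizer (R : Set G)).subtype = R ∧
      g ∈ Subgroup.normalizer (R : Set G) := by
  classical
  have hne : ({R | H ≤ R ∧ IsPGroup p R ∧ g ∈ Subgroup.normalizer (R : Set G)} :
      Set (Subgroup G)).Nonempty := by
    refine ⟨(Cfsg.pCore p (H ⊔ Subgroup.zpowers g : Subgroup G)).map
      (H ⊔ Subgroup.zpowers g : Subgroup G).subtype, ?_, ?_, ?_⟩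
    · exact le_pCore_map_of_subnormal p H _ le_sup_left hH hsn
    · exact (pCore_isPGroup' p).map _
    · exact le_normalizer_pCore_map p _
        ((le_sup_right : Subgroup.zpowers g ≤ H ⊔ Subgroup.zpowers g) (Subgroup.mem_zpowers g))
  obtain ⟨R, ⟨hHR, hRp, hgR⟩, hmax⟩ := Set.exists_max_image _ (fun R : Subgroup G => Nat.card R)
    (Set.toFinite _) hne
  refine ⟨R, hHR, ?_, hgR⟩
  have hRle : R ≤ (Cfsg.pCore p (Subgroup.normalizer (R : Set G))).map
      (Subgroup.normalizer (R : Set G)).subtype := by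
    have h1 : (R.subgroupOf (Subgroup.normalizer (R : Set G))) ≤
        Cfsg.pCore p (Subgroup.normalizer (R : Set G)) :=
      le_pCore' Subgroup.normal_in_normalizer hRp.comap_subtype
    calc R = (R.subgroupOf (Subgroup.normalizer (R : Set G))).map
          (Subgroup.normalizer (R : Set G)).subtype :=
          (Subgroup.map_subgroupOf_eq_of_le Subgroup.le_normalizer).symm
      _ ≤ _ := Subgroup.map_mono h1
  have hR'S : (Cfsg.pCore p (Subgroup.normalizer (R : Set G))).map
      (Subgroup.normalizer (R : Set G)).subtype ∈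
      ({R | H ≤ R ∧ IsPGroup p R ∧ g ∈ Subgroup.normalizer (R : Set G)} : Set (Subgroup G)) :=
    ⟨hHR.trans hRle, (pCore_isPGroup' p).map _, le_normalizer_pCore_map p _ hgR⟩
  exact (Subgroup.eq_of_le_of_card_ge hRle (hmax _ hR'S)).symm

theorem sInf_sylow_le_radical {G : Type*} [Group G] [Finite G] (p : ℕ) [Fact p.Prime]
    (R : Subgroup G)
    (hR : (Cfsg.pCore p (Subgroup.normalizer (R : Set G))).map
      (Subgroup.normalizer (R : Set G)).subtype = R) :
    sInf {K : Subgroup G | ∃ Q : Sylow p G, R ≤ (Q : Subgroup G) ∧ K = (Q : Subgroup G)} ≤ R := by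
  have hRp : IsPGroup p R := by rw [← hR]; exact (pCore_isPGroup' p).map _
  obtain ⟨Q₀, hQ₀⟩ := hRp.exists_le_sylow
  have hD'Q : ∀ Q : Sylow p G, R ≤ (Q : Subgroup G) →
      sInf {K : Subgroup G | ∃ Q : Sylow p G, R ≤ (Q : Subgroup G) ∧ K = (Q : Subgroup G)} ≤ Q :=
    fun Q hQ => sInf_le ⟨Q, hQ, rfl⟩
  have hRD' : R ≤
      sInf {K : Subgroup G | ∃ Q : Sylow p G, R ≤ (Q : Subgroup G) ∧ K = (Q : Subgroup G)} :=
    le_sInf (by rintro K ⟨Q, hQ, rfl⟩; exact hQ)
  generalize sInf {K : Subgroup G | ∃ Q : Sylow p G, R ≤ (Q : Subgroup G) ∧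
    K = (Q : Subgroup G)} = D' at hD'Q hRD'
  have hD'p : IsPGroup p D' := Q₀.isPGroup'.to_le (hD'Q Q₀ hQ₀)
  by_contra hnle
  haveI : Group.IsNilpotent D' := hD'p.isNilpotent
  have hlt : R.subgroupOf D' < ⊤ := by
    rw [lt_top_iff_ne_top]
    intro h
    exact hnle (Subgroup.subgroupOf_eq_top.mp h)
  have hnc := Group.normalizerCondition_of_isNilpotent (G := D') (R.subgroupOf D') hlt
  obtain ⟨t, htN, htR⟩ := SetLike.exists_of_lt hnc
  have htR' : (t : G) ∉ R := fun h => htR (Subgroup.mem_subgroupOf.mpr h)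
  have htNR : (t : G) ∈ Subgroup.normalizer (R : Set G) := by
    rw [Subgroup.mem_normalizer_iff]
    intro r
    rw [Subgroup.mem_normalizer_iff] at htN
    constructor
    · intro hr
      have := (htN ⟨r, hRD' hr⟩).mp (Subgroup.mem_subgroupOf.mpr hr)
      exact Subgroup.mem_subgroupOf.mp this
    · intro hr
      have hrD : r ∈ D' := by
        have : r = (t : G)⁻¹ * ((t : G) * r * (t : G)⁻¹) * (t : G) := by group
        rw [this]
        exact D'.mul_mem (D'.mul_mem (D'.inv_mem t.2) (hRD' hr)) t.2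
      have := (htN ⟨r, hrD⟩).mpr (Subgroup.mem_subgroupOf.mpr hr)
      exact Subgroup.mem_subgroupOf.mp this
  apply htR'
  rw [← hR]
  refine ⟨⟨(t : G), htNR⟩, ?_, rfl⟩
  have hI : sInf {K : Subgroup (Subgroup.normalizer (R : Set G)) |
      ∃ S : Sylow p (Subgroup.normalizer (R : Set G)), K = (S : Subgroup _)} ≤
      Cfsg.pCore p (Subgroup.normalizer (R : Set G)) := by
    apply le_pCore'
    · constructor
      intro y hy x
      rw [Subgroup.mem_sInf] at hy ⊢
      rintro K ⟨S, rfl⟩
      have h1 := hy _ ⟨x⁻¹ • S, rfl⟩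
      have h2 : x * y * x⁻¹ ∈ ((x • (x⁻¹ • S) : Sylow p _) : Subgroup _) :=
        Subgroup.smul_mem_pointwise_smul y (MulAut.conj x) _ h1
      rwa [smul_inv_smul] at h2
    · obtain ⟨S⟩ : Nonempty (Sylow p (Subgroup.normalizer (R : Set G))) := inferInstance
      exact S.isPGroup'.to_le (sInf_le ⟨S, rfl⟩)
  apply hI
  rw [Subgroup.mem_sInf]
  rintro K ⟨S, rfl⟩
  obtain ⟨Q, hQ⟩ :=
    (S.isPGroup'.map (Subgroup.normalizer (R : Set G)).subtype).exists_le_sylow
  have hRS : R ≤ (S : Subgroup _).map (Subgroup.normalizer (R : Set G)).subtype := by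
    haveI : (R.subgroupOf (Subgroup.normalizer (R : Set G))).Normal :=
      Subgroup.normal_in_normalizer
    have h1 : R.subgroupOf (Subgroup.normalizer (R : Set G)) ≤ S :=
      IsPGroup.le_sylow_of_normal (N := R.subgroupOf (Subgroup.normalizer (R : Set G)))
        hRp.comap_subtype S
    calc R = (R.subgroupOf (Subgroup.normalizer (R : Set G))).map
          (Subgroup.normalizer (R : Set G)).subtype :=
          (Subgroup.map_subgroupOf_eq_of_le Subgroup.le_normalizer).symm
      _ ≤ _ := Subgroup.map_mono h1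
  have htQ : (t : G) ∈ (Q : Subgroup G) := hD'Q Q (hRS.trans hQ) t.2
  have hmax := S.is_maximal'
    (Q := (Q : Subgroup G).subgroupOf (Subgroup.normalizer (R : Set G)))
    Q.isPGroup'.comap_subtype (by
      intro s hs
      rw [Subgroup.mem_subgroupOf]
      exact hQ ⟨s, hs, rfl⟩)
  have hmem : (⟨(t : G), htNR⟩ : Subgroup.normalizer (R : Set G)) ∈
      (Q : Subgroup G).subgroupOf (Subgroup.normalizer (R : Set G)) :=
    Subgroup.mem_subgroupOf.mpr htQ
  rw [hmax] at hmem
  exact hmem

/-- Let G be a finite group, p a prime and H a p-subgroup of G. Then the set of elements g of G such that H is subnormal in the subgroup generated by H and g is the union of the normalizers N_G(R) over the subgroups R of G containing H with R = O_p(N_G(R)); and this set does not change when H is replaced by the intersection of all Sylow p-subgroups of G containing H. -/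
theorem result {G : Type*} [Group G] [Finite G] (p : ℕ) [Fact p.Prime]
    (H : Subgroup G) (hH : IsPGroup p H) :
    {g : G | ((H).subgroupOf (H ⊔ Subgroup.zpowers g)).IsSubnormal} =
      {g : G | ∃ R : Subgroup G, H ≤ R ∧ (Cfsg.pCore p (Subgroup.normalizer (R : Set G))).map (Subgroup.normalizer (R : Set G)).subtype = R ∧ g ∈ Subgroup.normalizer (R : Set G)} ∧
    ∀ g : G, (((H).subgroupOf (H ⊔ Subgroup.zpowers g)).IsSubnormal ↔
      (((sInf {K : Subgroup G | ∃ Q : Sylow p G, H ≤ (Q : Subgroup G) ∧ K = (Q : Subgroup G)})).subgroupOf ((sInf {K : Subgroup G | ∃ Q : Sylow p G, H ≤ (Q : Subgroup G) ∧ K = (Q : Subgroup G)}) ⊔ Subgroup.zpowers g)).IsSubnormal) := by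
  have hbwd : ∀ (A : Subgroup G) (g : G) (R : Subgroup G), A ≤ R →
      (Cfsg.pCore p (Subgroup.normalizer (R : Set G))).map
        (Subgroup.normalizer (R : Set G)).subtype = R →
      g ∈ Subgroup.normalizer (R : Set G) →
      (A.subgroupOf (A ⊔ Subgroup.zpowers g)).IsSubnormal := by
    intro A g R hAR hR hg
    have hRp : IsPGroup p R := by rw [← hR]; exact (pCore_isPGroup' p).map _
    apply subnormal_of_le_pGroup p A R _ hAR le_sup_left hRp
    apply sup_le (hAR.trans Subgroup.le_normalizer)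
    rw [Subgroup.zpowers_le]; exact hg
  refine ⟨?_, ?_⟩
  · ext g
    constructor
    · intro h; exact exists_radical p H hH g h
    · rintro ⟨R, hHR, hR, hg⟩; exact hbwd H g R hHR hR hg
  · intro g
    have hHD : H ≤ sInf {K : Subgroup G | ∃ Q : Sylow p G, H ≤ (Q : Subgroup G) ∧
        K = (Q : Subgroup G)} := le_sInf (by rintro K ⟨Q, hQ, rfl⟩; exact hQ)
    obtain ⟨Q₀, hQ₀⟩ := hH.exists_le_sylow
    have hDp : IsPGroup p (sInf {K : Subgroup G | ∃ Q : Sylow p G, H ≤ (Q : Subgroup G) ∧
        K = (Q : Subgroup G)} : Subgroup G) := Q₀.isPGroup'.to_le (sInf_le ⟨Q₀, hQ₀, rfl⟩)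
    constructor
    · intro h
      obtain ⟨R, hHR, hR, hg⟩ := exists_radical p H hH g h
      have hDR : sInf {K : Subgroup G | ∃ Q : Sylow p G, H ≤ (Q : Subgroup G) ∧
          K = (Q : Subgroup G)} ≤ R := by
        refine le_trans ?_ (sInf_sylow_le_radical p R hR)
        apply le_sInf
        rintro K ⟨Q, hQ, rfl⟩
        exact sInf_le ⟨Q, hHR.trans hQ, rfl⟩
      exact hbwd _ g R hDR hR hg
    · intro h
      have h1 := le_pCore_map_of_subnormal p _ _ le_sup_left hDp h
      apply subnormal_of_le_pGroup p H _ _ (hHD.trans h1) le_sup_left ((pCore_isPGroup' p).map _)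
      exact (sup_le_sup_right hHD _).trans (le_normalizer_pCore_map p _)

end Cfsg.Agent.S4089
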