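import Cfsg.Statements.S4090
import Mathlib
import Cfsg.Agent.S4088

set_option autoImplicit false
open Cfsg
open Cfsg.Agent.Lib.Helper32

namespace Cfsg.Agent.S4090

open Cfsg.Agent.S4088 (subnormal_iff mem_Sg card_fiber main_count second_count card_subgroupOf_inf)

theorem sub_iff {G : Type*} [Group G] [Finite G] (p : ℕ) [Fact p.Prime] (H : Subgroup G)
    (hH : IsPGroup p H) (g : G) :
    (H.subgroupOf (H ⊔ Subgroup.zpowers g)).IsSubnormal ↔
      ∃ T : Subgroup G, IsPGroup p T ∧ H ≤ T ∧ g ∈ Subgroup.normalizer (T : Set G) := by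
  rw [subnormal_iff p H hH g]
  constructor
  · rintro ⟨T, hT, hHT⟩
    have := mem_Sg.mp hT
    exact ⟨T, this.1, hHT, this.2.2⟩
  · rintro ⟨T, h1, h2, h3⟩
    exact ⟨T, mem_Sg.mpr ⟨h1, le_top, h3⟩, h2⟩

theorem card_preimage {G₁ G₂ : Type*} [Group G₁] [Group G₂] (φ : G₁ →* G₂)
    (hφ : Function.Surjective φ) (Y : Set G₂) :
    Nat.card {a : G₁ // φ a ∈ Y} = Nat.card {y : G₂ // y ∈ Y} * Nat.card φ.ker := by
  have h := card_fiber φ.ker φ (fun a b => by
    rw [MonoidHom.mem_ker, map_mul, map_inv, inv_mul_eq_one]) Y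
  rw [h]
  congr 1
  exact Nat.card_congr (Equiv.subtypeEquivRight (fun y => ⟨fun h => h.1, fun h => ⟨h, hφ y⟩⟩))

theorem sub_map {G₁ G₂ : Type*} [Group G₁] [Finite G₁] [Group G₂] [Finite G₂] (p : ℕ)
    [Fact p.Prime] (φ : G₁ →* G₂) (H : Subgroup G₁) (hH : IsPGroup p H) (g : G₁)
    (h : (H.subgroupOf (H ⊔ Subgroup.zpowers g)).IsSubnormal) :
    ((H.map φ).subgroupOf (H.map φ ⊔ Subgroup.zpowers (φ g))).IsSubnormal := by
  rw [sub_iff p H hH] at h
  rw [sub_iff p (H.map φ) (hH.map φ)]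
  obtain ⟨T, h1, h2, h3⟩ := h
  exact ⟨T.map φ, h1.map φ, Subgroup.map_mono h2,
    Subgroup.le_normalizer_map φ (Subgroup.mem_map_of_mem φ h3)⟩

theorem count_pker {G₁ G₂ : Type*} [Group G₁] [Finite G₁] [Group G₂] [Finite G₂] (p : ℕ)
    [Fact p.Prime] (φ : G₁ →* G₂) (hφ : Function.Surjective φ) (hker : IsPGroup p φ.ker)
    (H : Subgroup G₁) (hH : IsPGroup p H) :
    Nat.card {g : G₁ // (H.subgroupOf (H ⊔ Subgroup.zpowers g)).IsSubnormal} =
      Nat.card {g : G₂ // ((H.map φ).subgroupOf (H.map φ ⊔ Subgroup.zpowers g)).IsSubnormal} *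
        Nat.card φ.ker := by
  refine Eq.trans ?_ (card_preimage φ hφ
    {y : G₂ | ((H.map φ).subgroupOf (H.map φ ⊔ Subgroup.zpowers y)).IsSubnormal})
  apply Nat.card_congr
  apply Equiv.subtypeEquivRight
  intro g
  constructor
  · exact sub_map p φ H hH g
  · intro h
    have h' : ((H.map φ).subgroupOf (H.map φ ⊔ Subgroup.zpowers (φ g))).IsSubnormal := h
    rw [sub_iff p (H.map φ) (hH.map φ)] at h'
    rw [sub_iff p H hH]
    obtain ⟨T, h1, h2, h3⟩ := h'
    exact ⟨T.comap φ, h1.comap_of_ker_isPGroup φ hker, Subgroup.map_le_iff_le_comap.mp h2,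
      Subgroup.le_normalizer_comap φ (Subgroup.mem_comap.mpr h3)⟩

theorem eq_one_of_mem_pgroup_coprime {G : Type*} [Group G] (p : ℕ) [Fact p.Prime]
    {X V : Subgroup G} (hX : IsPGroup p X) (hV : (Nat.card V).Coprime p) {x : G} (hx : x ∈ X)
    (hxV : x ∈ V) : x = 1 := by
  obtain ⟨k, hk⟩ := hX ⟨x, hx⟩
  have h1 : x ^ p ^ k = 1 := by
    have := congrArg Subtype.val hk
    simpa using this
  have h2 : orderOf x ∣ p ^ k := orderOf_dvd_of_pow_eq_one h1
  have h3 : orderOf x ∣ Nat.card V := Subgroup.orderOf_dvd_natCard V hxV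
  have h4 : orderOf x = 1 := Nat.eq_one_of_dvd_coprimes (Nat.Coprime.pow_left k hV.symm) h2 h3
  exact orderOf_eq_one_iff.mp h4

theorem conj_into {G : Type*} [Group G] [Finite G] (p : ℕ) [Fact p.Prime] (X V Y : Subgroup G)
    [V.Normal] (hX : IsPGroup p X) (hV : (Nat.card V).Coprime p) (hY : IsPGroup p Y)
    (hYle : Y ≤ X ⊔ V) : ∃ v ∈ V, cj v Y ≤ X := by
  have hdec : ∀ r ∈ X ⊔ V, ∃ x ∈ X, ∃ v ∈ V, r = x * v := by
    intro r hr
    have : r ∈ ((X ⊔ V : Subgroup G) : Set G) := hr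
    rw [Subgroup.mul_normal, Set.mem_mul] at this
    obtain ⟨x, hx, v, hv, rfl⟩ := this
    exact ⟨x, hx, v, hv, rfl⟩
  obtain ⟨R, hR, hXR⟩ := exists_sylSet_ge hX (le_sup_left : X ≤ X ⊔ V)
  have hRX : R = X := by
    apply le_antisymm _ hXR
    intro r hr
    obtain ⟨x, hx, v, hv, rfl⟩ := hdec r (hR.1 hr)
    have hvR : v ∈ R := by
      have := R.mul_mem (R.inv_mem (hXR hx)) hr
      simpa using this
    have := eq_one_of_mem_pgroup_coprime p (isPGroup_of_mem_sylSet hR) hV hvR hv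
    rw [this, mul_one]; exact hx
  rw [hRX] at hR
  obtain ⟨R', hR', hYR'⟩ := exists_sylSet_ge hY hYle
  obtain ⟨n, hn, hcj⟩ := sylSet_conj hR' hR
  obtain ⟨x, hx, v, hv, rfl⟩ := hdec n hn
  refine ⟨v, hv, ?_⟩
  rw [cj_mul] at hcj
  have h1 : cj v R' = X := by
    have := congrArg (cj x⁻¹) hcj
    rw [cj_inv_cj, cj_eq_self_of_le_normalizer Subgroup.le_normalizer (X.inv_mem hx)] at this
    exact this
  rw [← h1]
  exact cj_mono v hYR'

theorem map_cj {G₁ G₂ : Type*} [Group G₁] [Group G₂] (φ : G₁ →* G₂) (g : G₁)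
    (K : Subgroup G₁) : (cj g K).map φ = cj (φ g) (K.map φ) := by
  ext y
  simp only [Subgroup.mem_map, mem_cj]
  constructor
  · rintro ⟨x, hx, rfl⟩
    exact ⟨g⁻¹ * x * g, hx, by simp⟩
  · rintro ⟨k, hk, hky⟩
    refine ⟨g * k * g⁻¹, by simpa [mul_assoc] using hk, ?_⟩
    rw [map_mul, map_mul, map_inv, hky]
    group

theorem count_cker {G₁ G₂ : Type*} [Group G₁] [Finite G₁] [Group G₂] [Finite G₂] (p : ℕ)
    [Fact p.Prime] (φ : G₁ →* G₂) (hφ : Function.Surjective φ)
    (hker : (Nat.card φ.ker).Coprime p) (H : Subgroup G₁) (hH : IsPGroup p H) :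
    Nat.card {g : G₁ // (H.subgroupOf (H ⊔ Subgroup.zpowers g)).IsSubnormal} =
      Nat.card {g : G₂ // ((H.map φ).subgroupOf (H.map φ ⊔ Subgroup.zpowers g)).IsSubnormal} *
        Nat.card {v : G₁ // v ∈ φ.ker ∧ ∀ h ∈ H, h * v * h⁻¹ * v⁻¹ = 1} := by
  obtain ⟨P₁⟩ : Nonempty (Sylow p G₁) := inferInstance
  set P₂ : Sylow p G₂ := P₁.mapSurjective hφ with hP₂
  have hP₂' : (P₂ : Subgroup G₂) = (P₁ : Subgroup G₁).map φ := Sylow.coe_mapSurjective hφ P₁
  have e1 := (main_count p H hH P₁).trans (second_count p H P₁)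
  have e2 := (main_count p (H.map φ) (hH.map φ) P₂).trans (second_count p (H.map φ) P₂)
  rw [e1, e2, mul_assoc]
  have hα : Nat.card {K : Subgroup G₁ // K ≤ (P₁ : Subgroup G₁) ∧
        ∃ g : G₁, K = H.map (MulAut.conj g).toMonoidHom} =
      Nat.card {K : Subgroup G₂ // K ≤ (P₂ : Subgroup G₂) ∧
        ∃ g : G₂, K = (H.map φ).map (MulAut.conj g).toMonoidHom} := by
    apply Nat.card_congr
    refine Equiv.ofBijective (fun K => ⟨K.1.map φ, ?_, ?_⟩) ⟨?_, ?_⟩
    · rw [hP₂']; exact Subgroup.map_mono K.2.1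
    · obtain ⟨g, hg⟩ := K.2.2
      refine ⟨φ g, ?_⟩
      rw [hg]
      exact map_cj φ g H
    · intro K K' hKK'
      have hKK'' : K.1.map φ = K'.1.map φ := congrArg Subtype.val hKK'
      apply Subtype.ext
      have key : ∀ (A B : Subgroup G₁), A ≤ (P₁ : Subgroup G₁) → B ≤ (P₁ : Subgroup G₁) →
          A.map φ = B.map φ → A ≤ B := by
        intro A B hA hB hAB a ha
        have : φ a ∈ B.map φ := hAB ▸ Subgroup.mem_map_of_mem φ ha
        obtain ⟨b, hb, hba⟩ := Subgroup.mem_map.mp this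
        have h1 : b⁻¹ * a ∈ φ.ker := by
          rw [MonoidHom.mem_ker, map_mul, map_inv, hba, inv_mul_cancel]
        have h2 : b⁻¹ * a ∈ (P₁ : Subgroup G₁) :=
          Subgroup.mul_mem _ (Subgroup.inv_mem _ (hB hb)) (hA ha)
        have h3 := eq_one_of_mem_pgroup_coprime p P₁.isPGroup' hker h2 h1
        have : a = b := by rw [inv_mul_eq_one] at h3; exact h3.symm
        rw [this]; exact hb
      exact le_antisymm (key _ _ K.2.1 K'.2.1 hKK'') (key _ _ K'.2.1 K.2.1 hKK''.symm)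
    · rintro ⟨K₂, hK₂P, y, hy⟩
      obtain ⟨x, rfl⟩ := hφ y
      have h1 : K₂ = (cj x H).map φ := by rw [hy]; exact (map_cj φ x H).symm
      have h2 : cj x H ≤ (P₁ : Subgroup G₁) ⊔ φ.ker := by
        rw [← Subgroup.comap_map_eq, ← hP₂', ← Subgroup.map_le_iff_le_comap, ← h1]
        exact hK₂P
      obtain ⟨v, hv, hvle⟩ := conj_into p (P₁ : Subgroup G₁) φ.ker (cj x H) P₁.isPGroup' hker
        (isPGroup_cj hH) h2
      refine ⟨⟨cj (v * x) H, ?_, v * x, rfl⟩, ?_⟩
      · rw [cj_mul]; exact hvle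
      · apply Subtype.ext
        show (cj (v * x) H).map φ = K₂
        rw [h1, map_cj, map_cj, map_mul, MonoidHom.mem_ker.mp hv, one_mul]
  have hβ : Nat.card (Subgroup.normalizer (H : Set G₁)) =
      Nat.card (Subgroup.normalizer ((H.map φ : Subgroup G₂) : Set G₂)) *
        Nat.card {v : G₁ // v ∈ φ.ker ∧ ∀ h ∈ H, h * v * h⁻¹ * v⁻¹ = 1} := by
    have h := card_fiber (φ.ker.subgroupOf (Subgroup.normalizer (H : Set G₁)))
      (fun a : Subgroup.normalizer (H : Set G₁) => φ a.1)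
      (fun a b => by
        simp only [Subgroup.mem_subgroupOf, MonoidHom.mem_ker, Subgroup.coe_mul,
          Subgroup.coe_inv, map_mul, map_inv, inv_mul_eq_one])
      Set.univ
    have h1 : Nat.card {a : Subgroup.normalizer (H : Set G₁) //
        (fun a : Subgroup.normalizer (H : Set G₁) => φ a.1) a ∈ (Set.univ : Set G₂)} =
        Nat.card (Subgroup.normalizer (H : Set G₁)) :=
      Nat.card_congr (Equiv.subtypeUnivEquiv (fun a => Set.mem_univ _))
    have h2 : Nat.card {y : G₂ // y ∈ (Set.univ : Set G₂) ∧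
        ∃ a : Subgroup.normalizer (H : Set G₁),
          (fun a : Subgroup.normalizer (H : Set G₁) => φ a.1) a = y} =
        Nat.card (Subgroup.normalizer ((H.map φ : Subgroup G₂) : Set G₂)) := by
      apply Nat.card_congr
      apply Equiv.subtypeEquivRight
      intro y
      constructor
      · rintro ⟨-, a, rfl⟩
        exact Subgroup.le_normalizer_map φ (Subgroup.mem_map_of_mem φ a.2)
      · intro hy
        obtain ⟨x, rfl⟩ := hφ y
        have h3 : (cj x H).map φ = H.map φ := by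
          rw [map_cj]; exact cj_eq_self_iff.mpr hy
        have h4 : cj x H ≤ H ⊔ φ.ker := by
          rw [← Subgroup.comap_map_eq, ← Subgroup.map_le_iff_le_comap, h3]
        obtain ⟨v, hv, hvle⟩ := conj_into p H φ.ker (cj x H) hH hker (isPGroup_cj hH) h4
        have h5 : cj (v * x) H = H := by
          rw [cj_mul]
          exact Subgroup.eq_of_le_of_card_ge hvle (by rw [card_cj, card_cj])
        refine ⟨Set.mem_univ _, ⟨v * x, cj_eq_self_iff.mp h5⟩, ?_⟩
        show φ (v * x) = φ x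
        rw [map_mul, MonoidHom.mem_ker.mp hv, one_mul]
    have h3 : Nat.card (φ.ker.subgroupOf (Subgroup.normalizer (H : Set G₁))) =
        Nat.card {v : G₁ // v ∈ φ.ker ∧ ∀ h ∈ H, h * v * h⁻¹ * v⁻¹ = 1} := by
      rw [card_subgroupOf_inf]
      apply Nat.card_congr
      apply Equiv.subtypeEquivRight
      intro v
      rw [Subgroup.mem_inf]
      constructor
      · rintro ⟨hvN, hvK⟩
        refine ⟨hvK, fun h hh => ?_⟩
        apply eq_one_of_mem_pgroup_coprime p hH hker
        · have := (Subgroup.mem_normalizer_iff.mp hvN h⁻¹).mp (H.inv_mem hh)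
          have e : h * v * h⁻¹ * v⁻¹ = h * (v * h⁻¹ * v⁻¹) := by group
          rw [e]; exact H.mul_mem hh this
        · exact Subgroup.mul_mem _ (φ.normal_ker.conj_mem v hvK h) (Subgroup.inv_mem _ hvK)
      · rintro ⟨hvK, hcomm⟩
        refine ⟨?_, hvK⟩
        rw [Subgroup.mem_normalizer_iff]
        have hc : ∀ h ∈ H, v * h * v⁻¹ = h := by
          intro h hh
          have := hcomm h hh
          have e : v * h * v⁻¹ = (h * v * h⁻¹ * v⁻¹)⁻¹ * h := by group
          rw [e, this]; simp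
        intro h
        constructor
        · intro hh; rw [hc h hh]; exact hh
        · intro hh
          have h6 := hc _ hh
          have e : v * h * v⁻¹ = h := by
            have := congrArg (fun z => v⁻¹ * z * v) h6
            simpa [mul_assoc] using this
          rw [← e]; exact hh
    rw [h1, h2, h3] at h
    exact h
  rw [hα, hβ]

/-- The subnormalizer count of the image of `H` in `G ⧸ N`. -/
noncomputable def dcount {G : Type*} [Group G] (H N : Subgroup G) [N.Normal] : ℕ :=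
  Nat.card {x : G ⧸ N // ((H.map (QuotientGroup.mk' N)).subgroupOf
    (H.map (QuotientGroup.mk' N) ⊔ Subgroup.zpowers x)).IsSubnormal}

theorem dcount_top {G : Type*} [Group G] [Finite G] (p : ℕ) [Fact p.Prime] (H N : Subgroup G)
    [N.Normal] (hH : IsPGroup p H) (hN : N = ⊤) : dcount H N = 1 := by
  subst hN
  unfold dcount
  rw [Nat.card_eq_one_iff_unique]
  haveI : Subsingleton (G ⧸ (⊤ : Subgroup G)) := QuotientGroup.subsingleton_quotient_top
  refine ⟨⟨fun a b => Subtype.ext (Subsingleton.elim _ _)⟩, ⟨⟨1, ?_⟩⟩⟩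
  rw [sub_iff p _ (hH.map _)]
  exact ⟨H.map (QuotientGroup.mk' ⊤), hH.map _, le_rfl, Subgroup.one_mem _⟩

theorem dcount_bot {G : Type*} [Group G] [Finite G] (p : ℕ) [Fact p.Prime] (H N : Subgroup G)
    [N.Normal] (hH : IsPGroup p H) (hN : N = ⊥) :
    Nat.card {g : G // (H.subgroupOf (H ⊔ Subgroup.zpowers g)).IsSubnormal} = dcount H N := by
  subst hN
  have h := count_pker p (QuotientGroup.mk' (⊥ : Subgroup G)) (QuotientGroup.mk'_surjective _) (by
    rw [QuotientGroup.ker_mk']; exact IsPGroup.of_bot) H hH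
  rw [QuotientGroup.ker_mk', Subgroup.card_bot, mul_one] at h
  exact h

/-- The natural map `G ⧸ N₁ → G ⧸ N₂`. -/
noncomputable def qmap {G : Type*} [Group G] (N₁ N₂ : Subgroup G) [N₁.Normal] [N₂.Normal]
    (hle : N₁ ≤ N₂) : G ⧸ N₁ →* G ⧸ N₂ :=
  QuotientGroup.map N₁ N₂ (MonoidHom.id G) (by simpa using hle)

theorem qmap_mk {G : Type*} [Group G] (N₁ N₂ : Subgroup G) [N₁.Normal] [N₂.Normal]
    (hle : N₁ ≤ N₂) (x : G) :
    qmap N₁ N₂ hle (QuotientGroup.mk' N₁ x) = QuotientGroup.mk' N₂ x := rfl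

theorem qmap_surjective {G : Type*} [Group G] (N₁ N₂ : Subgroup G) [N₁.Normal] [N₂.Normal]
    (hle : N₁ ≤ N₂) : Function.Surjective (qmap N₁ N₂ hle) := by
  intro y
  obtain ⟨x, rfl⟩ := QuotientGroup.mk'_surjective N₂ y
  exact ⟨QuotientGroup.mk' N₁ x, qmap_mk N₁ N₂ hle x⟩

theorem map_qmap {G : Type*} [Group G] (N₁ N₂ : Subgroup G) [N₁.Normal] [N₂.Normal]
    (hle : N₁ ≤ N₂) (H : Subgroup G) :
    (H.map (QuotientGroup.mk' N₁)).map (qmap N₁ N₂ hle) = H.map (QuotientGroup.mk' N₂) := by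
  rw [Subgroup.map_map]
  congr 1

theorem card_ker_qmap {G : Type*} [Group G] [Finite G] (N₁ N₂ : Subgroup G) [N₁.Normal]
    [N₂.Normal] (hle : N₁ ≤ N₂) : Nat.card (qmap N₁ N₂ hle).ker = N₁.relIndex N₂ := by
  have h1 := Subgroup.card_mul_index (qmap N₁ N₂ hle).ker
  rw [Subgroup.index_ker, MonoidHom.range_eq_top.mpr (qmap_surjective N₁ N₂ hle),
    Subgroup.card_top, ← Subgroup.index_eq_card, ← Subgroup.index_eq_card] at h1
  have h2 := Subgroup.relIndex_mul_index hle
  have hpos : 0 < N₂.index := Nat.pos_of_ne_zero Subgroup.index_ne_zero_of_finite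
  exact Nat.eq_of_mul_eq_mul_right hpos (h1.trans h2.symm)

theorem step_p {G : Type*} [Group G] [Finite G] (p : ℕ) [Fact p.Prime] (H N₁ N₂ : Subgroup G)
    [N₁.Normal] [N₂.Normal] (hH : IsPGroup p H) (hle : N₁ ≤ N₂)
    (hp : ∃ m : ℕ, N₁.relIndex N₂ = p ^ m) :
    dcount H N₁ = dcount H N₂ * N₁.relIndex N₂ := by
  have hker : IsPGroup p (qmap N₁ N₂ hle).ker := by
    obtain ⟨m, hm⟩ := hp
    exact IsPGroup.of_card (n := m) (by rw [card_ker_qmap, hm])
  have h := count_pker p (qmap N₁ N₂ hle) (qmap_surjective N₁ N₂ hle) hker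
    (H.map (QuotientGroup.mk' N₁)) (hH.map _)
  rw [card_ker_qmap, map_qmap] at h
  exact h

theorem step_c {G : Type*} [Group G] [Finite G] (p : ℕ) [Fact p.Prime] (H N₁ N₂ : Subgroup G)
    [N₁.Normal] [N₂.Normal] (hH : IsPGroup p H) (hle : N₁ ≤ N₂)
    (hc : (N₁.relIndex N₂).Coprime p) :
    dcount H N₁ = dcount H N₂ *
      (Nat.card {u : G // u ∈ N₂ ∧ ∀ h ∈ H, h * u * h⁻¹ * u⁻¹ ∈ N₁} / Nat.card N₁) := by
  have hker : (Nat.card (qmap N₁ N₂ hle).ker).Coprime p := by rw [card_ker_qmap]; exact hc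
  have h := count_cker p (qmap N₁ N₂ hle) (qmap_surjective N₁ N₂ hle) hker
    (H.map (QuotientGroup.mk' N₁)) (hH.map _)
  rw [map_qmap] at h
  have hC : Nat.card {u : G // u ∈ N₂ ∧ ∀ h ∈ H, h * u * h⁻¹ * u⁻¹ ∈ N₁} =
      Nat.card {v : G ⧸ N₁ // v ∈ (qmap N₁ N₂ hle).ker ∧
        ∀ h ∈ H.map (QuotientGroup.mk' N₁), h * v * h⁻¹ * v⁻¹ = 1} * Nat.card N₁ := by
    have h2 := card_preimage (QuotientGroup.mk' N₁) (QuotientGroup.mk'_surjective N₁)
      {v : G ⧸ N₁ | v ∈ (qmap N₁ N₂ hle).ker ∧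
        ∀ h ∈ H.map (QuotientGroup.mk' N₁), h * v * h⁻¹ * v⁻¹ = 1}
    rw [QuotientGroup.ker_mk'] at h2
    refine Eq.trans ?_ h2
    apply Nat.card_congr
    apply Equiv.subtypeEquivRight
    intro u
    show (u ∈ N₂ ∧ ∀ h ∈ H, h * u * h⁻¹ * u⁻¹ ∈ N₁) ↔
      (QuotientGroup.mk' N₁ u ∈ (qmap N₁ N₂ hle).ker ∧
        ∀ h ∈ H.map (QuotientGroup.mk' N₁),
          h * QuotientGroup.mk' N₁ u * h⁻¹ * (QuotientGroup.mk' N₁ u)⁻¹ = 1)
    constructor
    · rintro ⟨h1, h2⟩
      refine ⟨?_, ?_⟩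
      · rw [MonoidHom.mem_ker, qmap_mk]; exact (QuotientGroup.eq_one_iff u).mpr h1
      · rintro _ ⟨h, hh, rfl⟩
        rw [← map_inv, ← map_inv, ← map_mul, ← map_mul, ← map_mul]
        exact (QuotientGroup.eq_one_iff _).mpr (h2 h hh)
    · rintro ⟨h1, h2⟩
      refine ⟨?_, ?_⟩
      · rw [MonoidHom.mem_ker, qmap_mk] at h1; exact (QuotientGroup.eq_one_iff u).mp h1
      · intro h hh
        have := h2 _ (Subgroup.mem_map_of_mem (QuotientGroup.mk' N₁) hh)
        rw [← map_inv, ← map_inv, ← map_mul, ← map_mul, ← map_mul] at this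
        exact (QuotientGroup.eq_one_iff _).mp this
  unfold dcount
  rw [h, hC, Nat.mul_div_cancel _ Nat.card_pos]

theorem card_mul_relIndex {G : Type*} [Group G] (N₁ N₂ : Subgroup G) (hle : N₁ ≤ N₂) :
    Nat.card N₁ * N₁.relIndex N₂ = Nat.card N₂ := by
  have := Subgroup.card_mul_index (N₁.subgroupOf N₂)
  rw [Nat.card_congr (Subgroup.subgroupOfEquivOfLe hle).toEquiv] at this
  exact this

theorem chain {G : Type*} [Group G] [Finite G] (p : ℕ) [Fact p.Prime] (H : Subgroup G)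
    (hH : IsPGroup p H) :
    ∀ (n : ℕ) (M : Fin (n + 1) → Subgroup G) (hnormal : ∀ i, (M i).Normal),
      M (Fin.last n) = ⊤ → Monotone M →
      (∀ i : Fin n, (∃ m : ℕ, (M i.castSucc).relIndex (M i.succ) = p ^ m) ∨
        ((M i.castSucc).relIndex (M i.succ)).Coprime p) →
      @dcount G _ H (M 0) (hnormal 0) =
        ∏ i : Fin n, (if ((M i.castSucc).relIndex (M i.succ)).Coprime p then
          Nat.card {u : G // u ∈ M i.succ ∧ ∀ h ∈ H, h * u * h⁻¹ * u⁻¹ ∈ M i.castSucc} /
            Nat.card (M i.castSucc)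
          else (M i.castSucc).relIndex (M i.succ)) := by
  intro n
  induction n with
  | zero =>
    intro M hnormal hlast _ _
    have := hnormal 0
    simp only [Finset.univ_eq_empty, Finset.prod_empty]
    exact dcount_top p H (M 0) hH hlast
  | succ n ih =>
    intro M hnormal hlast hmono hfac
    rw [Fin.prod_univ_succ]
    have ih' := ih (fun i => M i.succ) (fun i => hnormal i.succ)
      (by show M (Fin.last n).succ = ⊤; rw [Fin.succ_last]; exact hlast)
      (fun a b hab => hmono (Fin.succ_le_succ_iff.mpr hab)) (fun i => hfac i.succ)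
    simp only [Fin.succ_castSucc] at ih'
    have := hnormal 0
    have := hnormal (0 : Fin (n + 1)).succ
    have h01 : M 0 ≤ M (0 : Fin (n + 1)).succ := hmono (Fin.zero_le _)
    have hstep : @dcount G _ H (M 0) (hnormal 0) =
        @dcount G _ H (M (0 : Fin (n + 1)).succ) (hnormal _) *
        (if ((M (0 : Fin (n + 1)).castSucc).relIndex (M (0 : Fin (n + 1)).succ)).Coprime p then
          Nat.card {u : G // u ∈ M (0 : Fin (n + 1)).succ ∧
            ∀ h ∈ H, h * u * h⁻¹ * u⁻¹ ∈ M (0 : Fin (n + 1)).castSucc} /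
            Nat.card (M (0 : Fin (n + 1)).castSucc)
          else (M (0 : Fin (n + 1)).castSucc).relIndex (M (0 : Fin (n + 1)).succ)) := by
      by_cases hc : ((M (0 : Fin (n + 1)).castSucc).relIndex (M (0 : Fin (n + 1)).succ)).Coprime p
      · rw [if_pos hc]
        exact step_c p H (M 0) (M (0 : Fin (n + 1)).succ) hH h01 hc
      · rw [if_neg hc]
        exact step_p p H (M 0) (M (0 : Fin (n + 1)).succ) hH h01 ((hfac 0).resolve_right hc)
    rw [hstep, ih', mul_comm]

theorem tele {G : Type*} [Group G] [Finite G] :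
    ∀ (n : ℕ) (M : Fin (n + 1) → Subgroup G), Monotone M →
      Nat.card (M 0) * ∏ i : Fin n, (M i.castSucc).relIndex (M i.succ) =
        Nat.card (M (Fin.last n)) := by
  intro n
  induction n with
  | zero => intro M _; simp
  | succ n ih =>
    intro M hmono
    rw [Fin.prod_univ_succ, ← mul_assoc]
    have h1 : Nat.card (M 0) * (M (0 : Fin (n + 1)).castSucc).relIndex (M (0 : Fin (n + 1)).succ) =
        Nat.card (M (0 : Fin (n + 1)).succ) :=
      card_mul_relIndex (M 0) (M (0 : Fin (n + 1)).succ) (hmono (Fin.zero_le _))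
    have ih' := ih (fun i => M i.succ) (fun a b hab => hmono (Fin.succ_le_succ_iff.mpr hab))
    simp only [Fin.succ_castSucc, Fin.succ_last] at ih'
    rw [h1]
    exact ih'

/-- Let G be a finite p-solvable group, H a p-subgroup of G and P a Sylow p-subgroup, and fix a chain of normal subgroups 1 = M₀ ≤ M₁ ≤ ⋯ ≤ Mₙ = G of G each of whose factors is a p-group or a p'-group. Then the number of elements g of G such that H is subnormal in the subgroup generated by H and g equals the order of P times the product, over the factors Mᵢ₊₁/Mᵢ of order prime to p, of the order of the centralizer of H in Mᵢ₊₁/Mᵢ (counted as the number of u ∈ Mᵢ₊₁ with [h, u] ∈ Mᵢ for all h ∈ H, divided by the order of Mᵢ). -/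
theorem result {G : Type*} [Group G] [Finite G] (p : ℕ) [Fact p.Prime]
    (hG : Cfsg.IsPSolvable p G) (H : Subgroup G) (hH : IsPGroup p H) (P : Sylow p G)
    (n : ℕ) (M : Fin (n + 1) → Subgroup G) (h0 : M 0 = ⊥) (hn : M (Fin.last n) = ⊤) (hmono : Monotone M)
    (hnormal : ∀ i, (M i).Normal)
    (hfac : ∀ i : Fin n, (∃ m : ℕ, (M i.castSucc).relIndex (M i.succ) = p ^ m) ∨ ((M i.castSucc).relIndex (M i.succ)).Coprime p) :
    Nat.card {g : G // ((H).subgroupOf (H ⊔ Subgroup.zpowers g)).IsSubnormal} =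
      Nat.card (P : Subgroup G) *
        ∏ i : Fin n, (if ((M i.castSucc).relIndex (M i.succ)).Coprime p then
          Nat.card {u : G // u ∈ M i.succ ∧ ∀ h ∈ H, h * u * h⁻¹ * u⁻¹ ∈ M i.castSucc} / Nat.card (M i.castSucc)
          else 1) := by
  classical
  have := hnormal 0
  have h1 := dcount_bot p H (M 0) hH h0
  have h2 := chain p H hH n M hnormal hn hmono hfac
  rw [h1, h2]
  have hsplit : ∀ i : Fin n,
      (if ((M i.castSucc).relIndex (M i.succ)).Coprime p then
          Nat.card {u : G // u ∈ M i.succ ∧ ∀ h ∈ H, h * u * h⁻¹ * u⁻¹ ∈ M i.castSucc} /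
            Nat.card (M i.castSucc)
          else (M i.castSucc).relIndex (M i.succ)) =
      (if ((M i.castSucc).relIndex (M i.succ)).Coprime p then 1
          else (M i.castSucc).relIndex (M i.succ)) *
      (if ((M i.castSucc).relIndex (M i.succ)).Coprime p then
          Nat.card {u : G // u ∈ M i.succ ∧ ∀ h ∈ H, h * u * h⁻¹ * u⁻¹ ∈ M i.castSucc} /
            Nat.card (M i.castSucc)
          else 1) := by
    intro i; split_ifs <;> simp
  rw [Finset.prod_congr rfl (fun i _ => hsplit i), Finset.prod_mul_distrib]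
  congr 1
  -- the `p`-part
  have hA : ∃ a : ℕ, (∏ i : Fin n, (if ((M i.castSucc).relIndex (M i.succ)).Coprime p then 1
      else (M i.castSucc).relIndex (M i.succ))) = p ^ a := by
    apply Finset.prod_induction _ (fun x : ℕ => ∃ a : ℕ, x = p ^ a)
    · rintro _ _ ⟨a, rfl⟩ ⟨b, rfl⟩; exact ⟨a + b, (pow_add p a b).symm⟩
    · exact ⟨0, rfl⟩
    · intro i _
      by_cases hc : ((M i.castSucc).relIndex (M i.succ)).Coprime p
      · rw [if_pos hc]; exact ⟨0, rfl⟩
      · rw [if_neg hc]; exact (hfac i).resolve_right hc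
  have hB : (∏ i : Fin n, (if ((M i.castSucc).relIndex (M i.succ)).Coprime p then
      (M i.castSucc).relIndex (M i.succ) else 1)).Coprime p := by
    apply Nat.Coprime.prod_left
    intro i _
    by_cases hc : ((M i.castSucc).relIndex (M i.succ)).Coprime p
    · rw [if_pos hc]; exact hc
    · rw [if_neg hc]; exact Nat.coprime_one_left p
  have hAB : (∏ i : Fin n, (if ((M i.castSucc).relIndex (M i.succ)).Coprime p then 1
      else (M i.castSucc).relIndex (M i.succ))) *
      (∏ i : Fin n, (if ((M i.castSucc).relIndex (M i.succ)).Coprime p then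
      (M i.castSucc).relIndex (M i.succ) else 1)) = Nat.card G := by
    rw [← Finset.prod_mul_distrib]
    have ht := tele n M hmono
    rw [h0, hn, Subgroup.card_bot, one_mul, Subgroup.card_top] at ht
    rw [← ht]
    apply Finset.prod_congr rfl
    intro i _
    split_ifs <;> simp
  obtain ⟨a, ha⟩ := hA
  rw [ha] at hAB ⊢
  have hp : p.Prime := Fact.out
  have hBne : (∏ i : Fin n, (if ((M i.castSucc).relIndex (M i.succ)).Coprime p then
      (M i.castSucc).relIndex (M i.succ) else 1)) ≠ 0 := by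
    intro h
    rw [h, mul_zero] at hAB
    exact (Nat.card_pos (α := G)).ne' hAB.symm
  have hfact : (Nat.card G).factorization p = a := by
    rw [← hAB, Nat.factorization_mul (pow_ne_zero a hp.ne_zero) hBne, Finsupp.add_apply,
      hp.factorization_pow, Finsupp.single_eq_same,
      Nat.factorization_eq_zero_of_not_dvd ((Nat.Prime.coprime_iff_not_dvd hp).mp hB.symm),
      add_zero]
  rw [P.card_eq_multiplicity, hfact]

end Cfsg.Agent.S4090
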