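import Cfsg.Statements.S4091
import Cfsg.Agent.S4090
import Cfsg.Agent.Lib.Helper73.FixProd2

set_option autoImplicit false
open Cfsg

namespace Cfsg.Agent.S4091

open Cfsg.Agent.Lib.Helper73.FixProd (fix_prod_hom centralizer_closure_eq le_normalizer_of_normal)

/-- AM-GM in the form used here. -/
theorem amgm {ι : Type*} [Fintype ι] (a : ι → ℝ) (ha : ∀ i, 0 < a i) :
    (Fintype.card ι : ℝ) ^ Fintype.card ι ≤ (∑ i, (a i)⁻¹) ^ Fintype.card ι * ∏ i, a i := by
  rcases Nat.eq_zero_or_pos (Fintype.card ι) with h0 | hpos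
  · haveI : IsEmpty ι := Fintype.card_eq_zero_iff.mp h0
    simp
  have hN : (0 : ℝ) < (Fintype.card ι : ℝ) := by exact_mod_cast hpos
  have h := Real.geom_mean_le_arith_mean_weighted Finset.univ
    (fun _ : ι => (1 : ℝ) / (Fintype.card ι : ℝ)) (fun i => (a i)⁻¹)
    (fun i _ => by positivity)
    (by rw [Finset.sum_const, Finset.card_univ, nsmul_eq_mul]; field_simp)
    (fun i _ => (inv_pos.mpr (ha i)).le)
  have h0 : 0 ≤ ∏ i, ((a i)⁻¹) ^ ((1 : ℝ) / (Fintype.card ι : ℝ)) :=
    Finset.prod_nonneg (fun i _ => Real.rpow_nonneg (inv_pos.mpr (ha i)).le _)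
  have h1 := pow_le_pow_left₀ h0 h (Fintype.card ι)
  have e1 : (∏ i, ((a i)⁻¹) ^ ((1 : ℝ) / (Fintype.card ι : ℝ))) ^ Fintype.card ι =
      ∏ i, (a i)⁻¹ := by
    rw [← Finset.prod_pow]
    apply Finset.prod_congr rfl
    intro i _
    rw [← Real.rpow_natCast, ← Real.rpow_mul (inv_pos.mpr (ha i)).le,
      one_div_mul_cancel hN.ne', Real.rpow_one]
  have e2 : (∑ i, (1 : ℝ) / (Fintype.card ι : ℝ) * (a i)⁻¹) ^ Fintype.card ι =
      (∑ i, (a i)⁻¹) ^ Fintype.card ι / (Fintype.card ι : ℝ) ^ Fintype.card ι := by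
    rw [← Finset.mul_sum, mul_pow, one_div, inv_pow]
    field_simp
  rw [e1, e2, Finset.prod_inv_distrib] at h1
  have hprod : 0 < ∏ i, a i := Finset.prod_pos (fun i _ => ha i)
  have hNN : (0 : ℝ) < (Fintype.card ι : ℝ) ^ Fintype.card ι := pow_pos hN _
  rw [le_div_iff₀ hNN, inv_mul_le_iff₀ hprod] at h1
  linarith

/-- the number of Sylow `p`-subgroups containing `g`. -/
noncomputable def lam {G : Type*} [Group G] (p : ℕ) (g : G) : ℕ :=
  Nat.card {Q : Sylow p G // g ∈ (Q : Subgroup G)}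

theorem lam_conj {G : Type*} [Group G] [Finite G] (p : ℕ) [Fact p.Prime] (c g : G) :
    lam p (c * g * c⁻¹) = lam p g := by
  unfold lam
  symm
  apply Nat.card_congr
  refine Equiv.subtypeEquiv (MulAction.toPerm c : Sylow p G ≃ Sylow p G) ?_
  intro Q
  show g ∈ (Q : Subgroup G) ↔ c * g * c⁻¹ ∈ ((c • Q : Sylow p G) : Subgroup G)
  rw [Sylow.coe_subgroup_smul, Cfsg.Agent.Lib.Helper1.mem_conj_smul_iff]
  have e : c⁻¹ * (c * g * c⁻¹) * c = g := by group
  rw [e]

theorem lam_ne_zero_iff {G : Type*} [Group G] [Finite G] (p : ℕ) [hp : Fact p.Prime] (g : G) :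
    lam p g ≠ 0 ↔ ∃ k : ℕ, orderOf g = p ^ k := by
  unfold lam
  constructor
  · intro h
    have hne : Nonempty {Q : Sylow p G // g ∈ (Q : Subgroup G)} := by
      by_contra hemp
      rw [not_nonempty_iff] at hemp
      exact h Nat.card_of_isEmpty
    obtain ⟨Q, hQ⟩ := hne
    obtain ⟨k, hk⟩ := Q.isPGroup' ⟨g, hQ⟩
    have hk' : g ^ p ^ k = 1 := by
      have := congrArg Subtype.val hk
      simpa using this
    exact (Nat.dvd_prime_pow hp.out).mp (orderOf_dvd_of_pow_eq_one hk') |>.imp (fun j hj => hj.2)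
  · rintro ⟨k, hk⟩
    have hz : IsPGroup p (Subgroup.zpowers g) := by
      apply IsPGroup.of_card (n := k)
      rw [Nat.card_zpowers, hk]
    obtain ⟨Q, hQ⟩ := hz.exists_le_sylow
    haveI : Nonempty {Q : Sylow p G // g ∈ (Q : Subgroup G)} :=
      ⟨⟨Q, hQ (Subgroup.mem_zpowers g)⟩⟩
    exact Nat.card_pos.ne'

/-- double counting of `p`-elements against Sylow subgroups, combined with AM-GM. -/
theorem count_p_elements {G : Type*} [Group G] [Finite G] (p : ℕ) [Fact p.Prime] (P : Sylow p G)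
    [Fintype ↥(P : Subgroup G)] :
    (Nat.card (Sylow p G) * Fintype.card ↥(P : Subgroup G)) ^ Fintype.card ↥(P : Subgroup G) ≤
      Nat.card {g : G // ∃ k : ℕ, orderOf g = p ^ k} ^ Fintype.card ↥(P : Subgroup G) *
        ∏ x : ↥(P : Subgroup G), lam p (x : G) := by
  classical
  haveI : Fintype G := Fintype.ofFinite G
  haveI : Fintype (Sylow p G) := Fintype.ofFinite _
  obtain ⟨f, hf⟩ : ∃ f : G → ℝ, f = fun g => ((lam p g : ℕ) : ℝ)⁻¹ := ⟨_, rfl⟩
  -- each Sylow subgroup contributes the same sum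
  have hQ : ∀ Q : Sylow p G, ∑ g : G, (if g ∈ (Q : Subgroup G) then f g else 0) =
      ∑ x : ↥(P : Subgroup G), f (x : G) := by
    intro Q
    obtain ⟨c, rfl⟩ := MulAction.exists_smul_eq G P Q
    have h1 : ∑ g : G, (if g ∈ (P : Subgroup G) then f g else 0) =
        ∑ g : G, (if g ∈ ((c • P : Sylow p G) : Subgroup G) then f g else 0) := by
      apply Fintype.sum_equiv (MulAut.conj c).toEquiv
      intro h
      have hmem : (MulAut.conj c).toEquiv h ∈ ((c • P : Sylow p G) : Subgroup G) ↔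
          h ∈ (P : Subgroup G) := by
        rw [Sylow.coe_subgroup_smul, Cfsg.Agent.Lib.Helper1.mem_conj_smul_iff]
        have e : c⁻¹ * (MulAut.conj c).toEquiv h * c = h := by
          show c⁻¹ * (c * h * c⁻¹) * c = h
          group
        rw [e]
      have hval : f ((MulAut.conj c).toEquiv h) = f h := by
        rw [hf]
        show ((lam p (c * h * c⁻¹) : ℕ) : ℝ)⁻¹ = ((lam p h : ℕ) : ℝ)⁻¹
        rw [lam_conj]
      simp only [hmem, hval]
    rw [← h1, ← Finset.sum_filter]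
    exact Finset.sum_subtype (Finset.univ.filter (fun g : G => g ∈ (P : Subgroup G)))
      (by intro x; simp) f
  -- the double sum counts the `p`-elements
  have hsum : ∑ Q : Sylow p G, ∑ g : G, (if g ∈ (Q : Subgroup G) then f g else 0) =
      (Nat.card {g : G // ∃ k : ℕ, orderOf g = p ^ k} : ℝ) := by
    rw [Finset.sum_comm]
    have h2 : ∀ g : G, ∑ Q : Sylow p G, (if g ∈ (Q : Subgroup G) then f g else 0) =
        if (∃ k : ℕ, orderOf g = p ^ k) then (1 : ℝ) else 0 := by
      intro g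
      rw [← Finset.sum_filter, Finset.sum_const, nsmul_eq_mul]
      have hc : (Finset.univ.filter (fun Q : Sylow p G => g ∈ (Q : Subgroup G))).card = lam p g := by
        unfold lam
        rw [Nat.card_eq_fintype_card, Fintype.card_subtype]
      rw [hc, hf]
      by_cases h : ∃ k : ℕ, orderOf g = p ^ k
      · rw [if_pos h]
        have : (lam p g : ℝ) ≠ 0 := by exact_mod_cast (lam_ne_zero_iff p g).mpr h
        exact mul_inv_cancel₀ this
      · rw [if_neg h]
        have : lam p g = 0 := by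
          by_contra h0
          exact h ((lam_ne_zero_iff p g).mp h0)
        rw [this]
        simp
    simp only [h2]
    rw [Finset.sum_boole, Nat.card_eq_fintype_card, Fintype.card_subtype]
  simp only [hQ] at hsum
  rw [Finset.sum_const, Finset.card_univ, nsmul_eq_mul, ← Nat.card_eq_fintype_card] at hsum
  -- AM-GM
  have hpos : ∀ x : ↥(P : Subgroup G), (0 : ℝ) < ((lam p (x : G) : ℕ) : ℝ) := by
    intro x
    have : lam p (x : G) ≠ 0 := by
      unfold lam
      haveI : Nonempty {Q : Sylow p G // (x : G) ∈ (Q : Subgroup G)} := ⟨⟨P, x.2⟩⟩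
      exact Nat.card_pos.ne'
    exact_mod_cast Nat.pos_of_ne_zero this
  have hA := amgm (fun x : ↥(P : Subgroup G) => ((lam p (x : G) : ℕ) : ℝ)) hpos
  have hfx : ∀ x : ↥(P : Subgroup G), f (x : G) = ((lam p (x : G) : ℕ) : ℝ)⁻¹ := by
    intro x; rw [hf]
  simp only [hfx] at hsum
  have hS0 : (0 : ℝ) ≤ ∑ x : ↥(P : Subgroup G), ((lam p (x : G) : ℕ) : ℝ)⁻¹ :=
    Finset.sum_nonneg (fun x _ => (inv_pos.mpr (hpos x)).le)
  have hfinal : ((Nat.card (Sylow p G) : ℝ) * (Fintype.card ↥(P : Subgroup G) : ℝ)) ^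
      Fintype.card ↥(P : Subgroup G) ≤
      (Nat.card {g : G // ∃ k : ℕ, orderOf g = p ^ k} : ℝ) ^ Fintype.card ↥(P : Subgroup G) *
        ∏ x : ↥(P : Subgroup G), ((lam p (x : G) : ℕ) : ℝ) := by
    rw [← hsum, mul_pow, mul_pow, mul_assoc]
    exact mul_le_mul_of_nonneg_left hA (by positivity)
  exact_mod_cast hfinal

/-- the section count of S4090 as a fixed point count in the quotient. -/
theorem cc_eq {G : Type*} [Group G] [Finite G] (M₁ M₂ H : Subgroup G) [M₁.Normal]
    (hle : M₁ ≤ M₂) :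
    Nat.card {u : G // u ∈ M₂ ∧ ∀ h ∈ H, h * u * h⁻¹ * u⁻¹ ∈ M₁} / Nat.card M₁ =
      Nat.card ↥(M₂.map (QuotientGroup.mk' M₁) ⊓
        Subgroup.centralizer ((QuotientGroup.mk' M₁) '' (H : Set G))) := by
  obtain ⟨π, hπ⟩ : ∃ π : G →* G ⧸ M₁, π = QuotientGroup.mk' M₁ := ⟨_, rfl⟩
  rw [← hπ]
  have hker : π.ker = M₁ := by rw [hπ]; exact QuotientGroup.ker_mk' M₁
  have hπs : Function.Surjective π := by rw [hπ]; exact QuotientGroup.mk'_surjective M₁
  have h := Cfsg.Agent.S4090.card_preimage π hπs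
    ((M₂.map π ⊓ Subgroup.centralizer (π '' (H : Set G)) : Subgroup (G ⧸ M₁)) : Set (G ⧸ M₁))
  rw [hker] at h
  have e : Nat.card {u : G // u ∈ M₂ ∧ ∀ h ∈ H, h * u * h⁻¹ * u⁻¹ ∈ M₁} =
      Nat.card {a : G // π a ∈
        ((M₂.map π ⊓ Subgroup.centralizer (π '' (H : Set G)) : Subgroup (G ⧸ M₁)) :
          Set (G ⧸ M₁))} := by
    apply Nat.card_congr
    apply Equiv.subtypeEquivRight
    intro u
    rw [SetLike.mem_coe, Subgroup.mem_inf]
    constructor
    · rintro ⟨hu, hc⟩
      refine ⟨Subgroup.mem_map_of_mem _ hu, ?_⟩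
      rw [Subgroup.mem_centralizer_iff]
      rintro _ ⟨h, hh, rfl⟩
      have h1 : π (h * u * h⁻¹ * u⁻¹) = 1 := by
        rw [← MonoidHom.mem_ker, hker]; exact hc h hh
      rw [map_mul, map_mul, map_mul, map_inv, map_inv] at h1
      calc π h * π u = (π h * π u * (π h)⁻¹ * (π u)⁻¹) * (π u * π h) := by group
        _ = π u * π h := by rw [h1, one_mul]
    · rintro ⟨hu, hc⟩
      constructor
      · obtain ⟨m, hm, hmu⟩ := hu
        have h1 : m⁻¹ * u ∈ M₁ := by
          rw [← hker, MonoidHom.mem_ker, map_mul, map_inv, hmu, inv_mul_cancel]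
        have h2 : u = m * (m⁻¹ * u) := by group
        rw [h2]
        exact M₂.mul_mem hm (hle h1)
      · intro h hh
        rw [Subgroup.mem_centralizer_iff] at hc
        have h1 := hc _ ⟨h, hh, rfl⟩
        rw [← hker, MonoidHom.mem_ker, map_mul, map_mul, map_mul, map_inv, map_inv, h1]
        group
  rw [e, h, Nat.mul_div_cancel _ Nat.card_pos]
  rfl

/-- the fixed point inequality for one `p'`-section `M₂ / M₁` of the chain. -/
theorem section_ineq {G : Type*} [Group G] [Finite G] (p : ℕ) [Fact p.Prime] (P : Sylow p G)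
    [Fintype ↥(P : Subgroup G)] (M₁ M₂ : Subgroup G) [M₁.Normal] [M₂.Normal] (hle : M₁ ≤ M₂)
    (hcop : (M₁.relIndex M₂).Coprime p) :
    ∏ x : ↥(P : Subgroup G),
        (Nat.card {u : G // u ∈ M₂ ∧ ∀ h ∈ Subgroup.zpowers (x : G), h * u * h⁻¹ * u⁻¹ ∈ M₁} /
          Nat.card M₁) ^ p ≤
      (M₁.relIndex M₂) ^ Fintype.card ↥(P : Subgroup G) *
        (Nat.card {u : G // u ∈ M₂ ∧ ∀ h ∈ (P : Subgroup G), h * u * h⁻¹ * u⁻¹ ∈ M₁} /
          Nat.card M₁) ^ (Fintype.card ↥(P : Subgroup G) * (p - 1)) := by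
  simp only [cc_eq _ _ _ hle]
  obtain ⟨π, hπ⟩ : ∃ π : G →* G ⧸ M₁, π = QuotientGroup.mk' M₁ := ⟨_, rfl⟩
  simp only [← hπ]
  have hker : π.ker = M₁ := by rw [hπ]; exact QuotientGroup.ker_mk' M₁
  have hπs : Function.Surjective π := by rw [hπ]; exact QuotientGroup.mk'_surjective M₁
  haveI : (M₂.map π).Normal := Subgroup.Normal.map inferInstance π hπs
  have hW : Nat.card (M₂.map π) = M₁.relIndex M₂ := by
    rw [← Subgroup.relIndex_ker, hker]
  have key := fix_prod_hom p P.isPGroup' (π.comp (P : Subgroup G).subtype) _ (M₂.map π) rfl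
    (by rw [hW]; exact hcop) (le_normalizer_of_normal _ _)
  have e1 : ∀ x : ↥(P : Subgroup G),
      Subgroup.centralizer (π '' ((Subgroup.zpowers (x : G) : Subgroup G) : Set G)) =
        Subgroup.centralizer {(π.comp (P : Subgroup G).subtype) x} := by
    intro x
    rw [Subgroup.zpowers_eq_closure, ← Subgroup.coe_map, MonoidHom.map_closure,
      Set.image_singleton, centralizer_closure_eq]
    rfl
  have e2 : Subgroup.centralizer (π '' ((P : Subgroup G) : Set G)) =
      Subgroup.centralizer (((π.comp (P : Subgroup G).subtype).range : Subgroup (G ⧸ M₁)) :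
        Set (G ⧸ M₁)) := by
    congr 1
    rw [MonoidHom.range_comp, Subgroup.range_subtype, Subgroup.coe_map]
  simp only [e1, e2]
  rw [← hW]
  exact key

theorem star_arith (N nS FP A LamP Fx p : ℕ) (hp : 1 ≤ p) (hFP : 0 < FP)
    (h1 : LamP * FP ^ (p * N) = Fx) (h2 : Fx ≤ A ^ N * FP ^ (N * (p - 1)))
    (h3 : nS * FP = A) : LamP ≤ nS ^ N := by
  obtain ⟨q, rfl⟩ : ∃ q, p = q + 1 := ⟨p - 1, by omega⟩
  simp only [Nat.add_sub_cancel] at h2
  rw [← h1, ← h3] at h2
  have e : (nS * FP) ^ N * FP ^ (N * q) = nS ^ N * FP ^ ((q + 1) * N) := by ring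
  rw [e] at h2
  exact Nat.le_of_mul_le_mul_right h2 (pow_pos hFP _)

theorem final_arith (N nS u L p : ℕ) (hp : 1 ≤ p) (hN : 0 < N) (hnS : 0 < nS)
    (h1 : (nS * N) ^ N ≤ u ^ N * L) (h2 : L ^ p ≤ nS ^ N) :
    N ^ p * nS ^ (p - 1) ≤ u ^ p := by
  obtain ⟨q, rfl⟩ : ∃ q, p = q + 1 := ⟨p - 1, by omega⟩
  simp only [Nat.add_sub_cancel]
  have h3 : ((nS * N) ^ N) ^ (q + 1) ≤ (u ^ N * L) ^ (q + 1) := Nat.pow_le_pow_left h1 _
  have h4 : (u ^ N * L) ^ (q + 1) ≤ (u ^ (q + 1)) ^ N * nS ^ N := by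
    rw [mul_pow, ← pow_mul, ← pow_mul, mul_comm N]
    exact Nat.mul_le_mul_left _ h2
  have h5 : ((nS * N) ^ N) ^ (q + 1) = (N ^ (q + 1) * nS ^ q) ^ N * nS ^ N := by ring
  rw [h5] at h3
  have h7 := Nat.le_of_mul_le_mul_right (le_trans h3 h4) (pow_pos hnS N)
  exact (Nat.pow_le_pow_iff_left hN.ne').mp h7

/-- Let G be a finite p-solvable group, P a Sylow p-subgroup of G, u the number of p-elements of G (elements of p-power order, the identity included) and n the number of Sylow p-subgroups of G. Then u/#P ≥ n^((p−1)/p), stated as u^p ≥ #P^p · n^(p−1). -/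
theorem result {G : Type*} [Group G] [Finite G] (p : ℕ) [Fact p.Prime]
    (hG : Cfsg.IsPSolvable p G) (P : Sylow p G) :
    Nat.card (P : Subgroup G) ^ p * Nat.card (Sylow p G) ^ (p - 1) ≤ Nat.card {g : G // ∃ k : ℕ, orderOf g = p ^ k} ^ p := by
  classical
  have hp : p.Prime := Fact.out
  haveI : Fintype ↥(P : Subgroup G) := Fintype.ofFinite _
  by_cases hpG : p ∣ Nat.card G
  swap
  · have hP1 : Nat.card (P : Subgroup G) = 1 := by
      rw [P.card_eq_multiplicity, Nat.factorization_eq_zero_of_not_dvd hpG, pow_zero]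
    have hbot : (P : Subgroup G) = ⊥ := Subgroup.card_eq_one.mp hP1
    have hS1 : Nat.card (Sylow p G) = 1 := by
      rw [Sylow.card_eq_index_normalizer P]
      show (Subgroup.normalizer ((P : Subgroup G) : Set G)).index = 1
      rw [hbot, Subgroup.normalizer_eq_top, Subgroup.index_top]
    rw [hP1, hS1, one_pow, one_pow, one_mul]
    haveI : Nonempty {g : G // ∃ k : ℕ, orderOf g = p ^ k} := ⟨⟨1, 0, by simp⟩⟩
    exact Nat.one_le_pow _ _ Nat.card_pos
  have hG' := hG
  obtain ⟨n, M, h0, hn, hmono, hnormal, hfac⟩ := hG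
  haveI hnormI : ∀ i, (M i).Normal := hnormal
  obtain ⟨N, hN⟩ : ∃ N : ℕ, N = Fintype.card ↥(P : Subgroup G) := ⟨_, rfl⟩
  have hNcard : Nat.card (P : Subgroup G) = N := by rw [hN, Nat.card_eq_fintype_card]
  have hNpos : 0 < N := by rw [← hNcard]; exact Nat.card_pos
  obtain ⟨F, hF⟩ : ∃ F : Subgroup G → ℕ, F = fun H => ∏ i : Fin n,
      (if ((M i.castSucc).relIndex (M i.succ)).Coprime p then
        Nat.card {u : G // u ∈ M i.succ ∧ ∀ h ∈ H, h * u * h⁻¹ * u⁻¹ ∈ M i.castSucc} /
          Nat.card (M i.castSucc)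
        else 1) := ⟨_, rfl⟩
  have hS : ∀ H : Subgroup G, IsPGroup p H →
      Nat.card {Q : Sylow p G // H ≤ (Q : Subgroup G)} *
        Nat.card (Subgroup.normalizer ((P : Subgroup G) : Set G)) = N * F H := by
    intro H hH
    rw [← (Cfsg.Agent.S4088.result p hpG H hH P).1,
      Cfsg.Agent.S4090.result p hG' H hH P n M h0 hn hmono hnormal hfac, hNcard, hF]
  have hPP : Nat.card {Q : Sylow p G // (P : Subgroup G) ≤ (Q : Subgroup G)} = 1 := by
    rw [Nat.card_eq_one_iff_unique]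
    refine ⟨⟨?_⟩, ⟨⟨P, le_rfl⟩⟩⟩
    rintro ⟨Q, hQ⟩ ⟨Q', hQ'⟩
    apply Subtype.ext
    have e1 : (Q : Subgroup G) = P := P.is_maximal' Q.isPGroup' hQ
    have e2 : (Q' : Subgroup G) = P := P.is_maximal' Q'.isPGroup' hQ'
    exact Sylow.ext (e1.trans e2.symm)
  have E2 : Nat.card (Subgroup.normalizer ((P : Subgroup G) : Set G)) = N * F P := by
    have := hS P P.isPGroup'
    rw [hPP, one_mul] at this
    exact this
  have hlam : ∀ x : ↥(P : Subgroup G),
      Nat.card {Q : Sylow p G // Subgroup.zpowers (x : G) ≤ (Q : Subgroup G)} = lam p (x : G) := by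
    intro x
    unfold lam
    exact Nat.card_congr (Equiv.subtypeEquivRight (fun Q => Subgroup.zpowers_le))
  have hzp : ∀ x : ↥(P : Subgroup G), IsPGroup p (Subgroup.zpowers (x : G)) := fun x =>
    P.isPGroup'.to_le (Subgroup.zpowers_le.mpr x.2)
  have E1 : ∀ x : ↥(P : Subgroup G), lam p (x : G) * F P = F (Subgroup.zpowers (x : G)) := by
    intro x
    have h1 := hS _ (hzp x)
    rw [hlam, E2] at h1
    apply Nat.eq_of_mul_eq_mul_left hNpos
    rw [← h1]
    ring
  obtain ⟨nS, hnS⟩ : ∃ nS : ℕ, nS = Nat.card (Sylow p G) := ⟨_, rfl⟩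
  have hnSpos : 0 < nS := by rw [hnS]; exact Nat.card_pos
  have E3 : nS * (N * F P) = Nat.card G := by
    rw [← E2, hnS, Sylow.card_eq_index_normalizer P]
    exact Subgroup.index_mul_card _
  obtain ⟨A, hA⟩ : ∃ A : ℕ, A = ∏ i : Fin n,
      (if ((M i.castSucc).relIndex (M i.succ)).Coprime p then
        (M i.castSucc).relIndex (M i.succ) else 1) := ⟨_, rfl⟩
  have hNA : N * A = Nat.card G := by
    have hBp : ∃ a : ℕ, (∏ i : Fin n, (if ((M i.castSucc).relIndex (M i.succ)).Coprime p then 1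
        else (M i.castSucc).relIndex (M i.succ))) = p ^ a := by
      apply Finset.prod_induction _ (fun x : ℕ => ∃ a : ℕ, x = p ^ a)
      · rintro _ _ ⟨a, rfl⟩ ⟨b, rfl⟩; exact ⟨a + b, (pow_add p a b).symm⟩
      · exact ⟨0, rfl⟩
      · intro i _
        by_cases hc : ((M i.castSucc).relIndex (M i.succ)).Coprime p
        · rw [if_pos hc]; exact ⟨0, rfl⟩
        · rw [if_neg hc]; exact (hfac i).resolve_right hc
    have hAc : A.Coprime p := by
      rw [hA]
      apply Nat.Coprime.prod_left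
      intro i _
      by_cases hc : ((M i.castSucc).relIndex (M i.succ)).Coprime p
      · rw [if_pos hc]; exact hc
      · rw [if_neg hc]; exact Nat.coprime_one_left p
    have hAB : (∏ i : Fin n, (if ((M i.castSucc).relIndex (M i.succ)).Coprime p then 1
        else (M i.castSucc).relIndex (M i.succ))) * A = Nat.card G := by
      rw [hA, ← Finset.prod_mul_distrib]
      have ht := Cfsg.Agent.S4090.tele n M hmono
      rw [h0, hn, Subgroup.card_bot, one_mul, Subgroup.card_top] at ht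
      rw [← ht]
      apply Finset.prod_congr rfl
      intro i _
      split_ifs <;> simp
    obtain ⟨a, ha⟩ := hBp
    rw [ha] at hAB
    have hAne : A ≠ 0 := by
      intro h
      rw [h, mul_zero] at hAB
      exact (Nat.card_pos (α := G)).ne' hAB.symm
    have hfact : (Nat.card G).factorization p = a := by
      rw [← hAB, Nat.factorization_mul (pow_ne_zero a hp.ne_zero) hAne, Finsupp.add_apply,
        hp.factorization_pow, Finsupp.single_eq_same,
        Nat.factorization_eq_zero_of_not_dvd ((Nat.Prime.coprime_iff_not_dvd hp).mp hAc.symm),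
        add_zero]
    rw [← hNcard, P.card_eq_multiplicity, hfact]
    exact hAB
  have E4 : nS * F P = A := by
    apply Nat.eq_of_mul_eq_mul_left hNpos
    rw [hNA, ← E3]
    ring
  have hApos : 0 < A := by
    rcases Nat.eq_zero_or_pos A with h | h
    · rw [h, mul_zero] at hNA
      exact absurd hNA.symm (Nat.card_pos (α := G)).ne'
    · exact h
  have hFPpos : 0 < F P := by
    rcases Nat.eq_zero_or_pos (F P) with h | h
    · rw [h, mul_zero] at E4
      omega
    · exact h
  have E6 : ∏ x : ↥(P : Subgroup G), F (Subgroup.zpowers (x : G)) ^ p ≤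
      A ^ N * F P ^ (N * (p - 1)) := by
    rw [hF, hA]
    simp only
    have e1 : ∀ x : ↥(P : Subgroup G),
        (∏ i : Fin n, (if ((M i.castSucc).relIndex (M i.succ)).Coprime p then
          Nat.card {u : G // u ∈ M i.succ ∧
            ∀ h ∈ Subgroup.zpowers (x : G), h * u * h⁻¹ * u⁻¹ ∈ M i.castSucc} /
            Nat.card (M i.castSucc) else 1)) ^ p =
        ∏ i : Fin n, (if ((M i.castSucc).relIndex (M i.succ)).Coprime p then
          Nat.card {u : G // u ∈ M i.succ ∧
            ∀ h ∈ Subgroup.zpowers (x : G), h * u * h⁻¹ * u⁻¹ ∈ M i.castSucc} /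
            Nat.card (M i.castSucc) else 1) ^ p := fun x => (Finset.prod_pow _ _ _).symm
    simp only [e1]
    rw [Finset.prod_comm, ← Finset.prod_pow, ← Finset.prod_pow, ← Finset.prod_mul_distrib]
    apply Finset.prod_le_prod (fun i _ => Nat.zero_le _)
    intro i _
    by_cases hc : ((M i.castSucc).relIndex (M i.succ)).Coprime p
    · simp only [if_pos hc]
      rw [hN]
      exact section_ineq p P (M i.castSucc) (M i.succ) (hmono (Fin.castSucc_le_succ i)) hc
    · simp only [if_neg hc, one_pow, Finset.prod_const_one, mul_one, le_refl]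
  have hstar : ∏ x : ↥(P : Subgroup G), lam p (x : G) ^ p ≤ nS ^ N := by
    apply star_arith N nS (F P) A _ _ p hp.one_le hFPpos _ E6 E4
    simp only [← E1, mul_pow]
    rw [Finset.prod_mul_distrib, Finset.prod_const, Finset.card_univ, ← hN, ← pow_mul]
  have hcount := count_p_elements p P
  rw [← hN, ← hnS] at hcount
  rw [hNcard, ← hnS]
  rw [Finset.prod_pow] at hstar
  exact final_arith N nS _ _ p hp.one_le hNpos hnSpos hcount hstar

end Cfsg.Agent.S4091
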