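import Cfsg.Statements.S4092
import Mathlib

set_option autoImplicit false
open Cfsg

namespace Cfsg.Agent.S4092

open scoped Pointwise

theorem exists_normalizer_not_mem {G : Type*} [Group G] [Finite G] (p : ℕ) [Fact p.Prime]
    (R D : Subgroup G) (hR : IsPGroup p R) (hDR : D ≤ R) (hne : ¬ R ≤ D) :
    ∃ t ∈ R, t ∉ D ∧ t ∈ Subgroup.normalizer (D : Set G) := by
  haveI : Group.IsNilpotent R := hR.isNilpotent
  have hlt : D.subgroupOf R < ⊤ := by
    rw [lt_top_iff_ne_top]
    intro h
    exact hne (Subgroup.subgroupOf_eq_top.mp h)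
  have hnc := Group.normalizerCondition_of_isNilpotent (G := R) (D.subgroupOf R) hlt
  obtain ⟨t, htN, htD⟩ := SetLike.exists_of_lt hnc
  refine ⟨t, t.2, fun h => htD (Subgroup.mem_subgroupOf.mpr h), ?_⟩
  rw [Subgroup.mem_normalizer_iff]
  intro r
  rw [Subgroup.mem_normalizer_iff] at htN
  constructor
  · intro hr
    have := (htN ⟨r, hDR hr⟩).mp (Subgroup.mem_subgroupOf.mpr hr)
    exact Subgroup.mem_subgroupOf.mp this
  · intro hr
    have hrR : r ∈ R := by
      have : r = (t : G)⁻¹ * ((t : G) * r * (t : G)⁻¹) * (t : G) := by group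
      rw [this]
      exact R.mul_mem (R.mul_mem (R.inv_mem t.2) (hDR hr)) t.2
    have := (htN ⟨r, hrR⟩).mpr (Subgroup.mem_subgroupOf.mpr hr)
    exact Subgroup.mem_subgroupOf.mp this

theorem card_not_mem {G : Type*} [Group G] [Finite G] (R D : Subgroup G) (hDR : D ≤ R) :
    Nat.card {x : R // (x : G) ∉ D} + Nat.card D = Nat.card R := by
  classical
  have h1 := Nat.card_congr (Equiv.sumCompl (fun x : R => (x : G) ∈ D))
  rw [Nat.card_sum] at h1
  have h2 : Nat.card {x : R // (x : G) ∈ D} = Nat.card D := by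
    have e1 : Nat.card {x : R // (x : G) ∈ D} = Nat.card (D.subgroupOf R) :=
      Nat.card_congr (Equiv.subtypeEquivRight (fun x => Subgroup.mem_subgroupOf.symm))
    rw [e1]
    exact Nat.card_congr (Subgroup.subgroupOfEquivOfLe hDR).toEquiv
  rw [← h1, h2, add_comm]

/-- Let G be a finite group, p a prime and P a Sylow p-subgroup of G that is not normal in G. Then G has at least p·#P elements of p-power order (the identity included). -/
theorem result {G : Type*} [Group G] [Finite G] (p : ℕ) [Fact p.Prime]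
    (P : Sylow p G) (hP : ¬ (P : Subgroup G).Normal) :
    p * Nat.card (P : Subgroup G) ≤ Nat.card {g : G // ∃ k : ℕ, orderOf g = p ^ k} := by
  classical
  have hp : p.Prime := Fact.out
  have hcardS : ∀ Q : Sylow p G, Nat.card (Q : Subgroup G) = Nat.card (P : Subgroup G) :=
    fun Q => Q.card_eq_multiplicity.trans P.card_eq_multiplicity.symm
  have hpel : ∀ (S : Sylow p G) (g : G), g ∈ (S : Subgroup G) → ∃ k : ℕ, orderOf g = p ^ k := by
    intro S g hg
    obtain ⟨k, hk⟩ := S.isPGroup' ⟨g, hg⟩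
    have hk' : g ^ (p ^ k) = 1 := by simpa using congrArg Subtype.val hk
    obtain ⟨j, -, hj⟩ := (Nat.dvd_prime_pow hp).mp (orderOf_dvd_of_pow_eq_one hk')
    exact ⟨j, hj⟩
  obtain ⟨Q₀, hQ₀⟩ : ∃ Q : Sylow p G, Q ≠ P := by
    by_contra hcon
    push Not at hcon
    apply hP
    rw [← Subgroup.normalizer_eq_top_iff, eq_top_iff]
    intro g _
    exact Sylow.smul_eq_iff_mem_normalizer.mp (hcon (g • P))
  have hne : ({x : Sylow p G × Sylow p G | x.1 ≠ x.2} : Set _).Nonempty := ⟨(Q₀, P), hQ₀⟩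
  obtain ⟨⟨R₁, R₂⟩, hR12, hmax⟩ := Set.exists_max_image _
    (fun x : Sylow p G × Sylow p G =>
      Nat.card ((x.1 : Subgroup G) ⊓ (x.2 : Subgroup G) : Subgroup G)) (Set.toFinite _) hne
  have hR12' : R₁ ≠ R₂ := hR12
  have hmax' : ∀ A B : Sylow p G, A ≠ B →
      Nat.card ((A : Subgroup G) ⊓ (B : Subgroup G) : Subgroup G) ≤
        Nat.card ((R₁ : Subgroup G) ⊓ (R₂ : Subgroup G) : Subgroup G) :=
    fun A B hAB => hmax (A, B) hAB
  have hD1 : ¬ (R₁ : Subgroup G) ≤ (R₁ : Subgroup G) ⊓ (R₂ : Subgroup G) := by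
    intro h
    apply hR12'
    have h12 : (R₁ : Subgroup G) ≤ R₂ := h.trans inf_le_right
    exact Sylow.ext (R₁.is_maximal' R₂.isPGroup' h12).symm
  have hD2 : ¬ (R₂ : Subgroup G) ≤ (R₁ : Subgroup G) ⊓ (R₂ : Subgroup G) := by
    intro h
    apply hR12'
    have h21 : (R₂ : Subgroup G) ≤ R₁ := h.trans inf_le_left
    exact Sylow.ext (R₂.is_maximal' R₁.isPGroup' h21)
  have hDR1 : (R₁ : Subgroup G) ⊓ (R₂ : Subgroup G) ≤ R₁ := inf_le_left
  have hDR2 : (R₁ : Subgroup G) ⊓ (R₂ : Subgroup G) ≤ R₂ := inf_le_right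
  generalize (R₁ : Subgroup G) ⊓ (R₂ : Subgroup G) = D at hmax' hD1 hD2 hDR1 hDR2
  have hDp : IsPGroup p D := R₁.isPGroup'.to_le hDR1
  obtain ⟨t₁, ht₁R, ht₁D, ht₁N⟩ :=
    exists_normalizer_not_mem p (R₁ : Subgroup G) D R₁.isPGroup' hDR1 hD1
  obtain ⟨t₂, ht₂R, ht₂D, ht₂N⟩ :=
    exists_normalizer_not_mem p (R₂ : Subgroup G) D R₂.isPGroup' hDR2 hD2
  have hDT : ∀ T : Sylow p (Subgroup.normalizer (D : Set G)),
      D ≤ (T : Subgroup _).map (Subgroup.normalizer (D : Set G)).subtype := by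
    intro T
    haveI : (D.subgroupOf (Subgroup.normalizer (D : Set G))).Normal :=
      Subgroup.normal_in_normalizer
    have h1 : D.subgroupOf (Subgroup.normalizer (D : Set G)) ≤ T :=
      IsPGroup.le_sylow_of_normal (N := D.subgroupOf (Subgroup.normalizer (D : Set G)))
        hDp.comap_subtype T
    calc D = (D.subgroupOf (Subgroup.normalizer (D : Set G))).map
          (Subgroup.normalizer (D : Set G)).subtype :=
          (Subgroup.map_subgroupOf_eq_of_le Subgroup.le_normalizer).symm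
      _ ≤ _ := Subgroup.map_mono h1
  have hRex : ∀ T : Sylow p (Subgroup.normalizer (D : Set G)), ∃ R : Sylow p G,
      (T : Subgroup _).map (Subgroup.normalizer (D : Set G)).subtype ≤ R :=
    fun T => (T.isPGroup'.map _).exists_le_sylow
  choose Rf hRf using hRex
  have hTeq : ∀ T : Sylow p (Subgroup.normalizer (D : Set G)),
      ((Rf T : Subgroup G).subgroupOf (Subgroup.normalizer (D : Set G))) = T := by
    intro T
    exact T.is_maximal' (Rf T).isPGroup'.comap_subtype (by
      intro s hs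
      rw [Subgroup.mem_subgroupOf]
      exact hRf T ⟨s, hs, rfl⟩)
  have hRinj : Function.Injective Rf := by
    intro T T' h
    apply Sylow.ext
    rw [← hTeq T, ← hTeq T', h]
  have hnontriv : Nontrivial (Sylow p (Subgroup.normalizer (D : Set G))) := by
    by_contra hcon
    rw [not_nontrivial_iff_subsingleton] at hcon
    obtain ⟨T⟩ : Nonempty (Sylow p (Subgroup.normalizer (D : Set G))) := inferInstance
    have hmemT : ∀ t : G, t ∈ Subgroup.normalizer (D : Set G) →
        (∃ S : Sylow p G, t ∈ (S : Subgroup G)) → t ∈ (Rf T : Subgroup G) := by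
      rintro t ht ⟨S, hS⟩
      obtain ⟨k, hk⟩ := S.isPGroup' ⟨t, hS⟩
      have hk' : t ^ (p ^ k) = 1 := by simpa using congrArg Subtype.val hk
      have hz : IsPGroup p (Subgroup.zpowers (⟨t, ht⟩ : Subgroup.normalizer (D : Set G))) := by
        rintro ⟨y, hy⟩
        obtain ⟨j, rfl⟩ := Subgroup.mem_zpowers_iff.mp hy
        refine ⟨k, ?_⟩
        apply Subtype.ext
        apply Subtype.ext
        show (t ^ j) ^ (p ^ k) = 1
        rw [← zpow_natCast, ← zpow_mul, mul_comm, zpow_mul, zpow_natCast, hk', one_zpow]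
      obtain ⟨T', hT'⟩ := hz.exists_le_sylow
      have : T' = T := Subsingleton.elim _ _
      subst this
      exact hRf T' ⟨⟨t, ht⟩, hT' (Subgroup.mem_zpowers _), rfl⟩
    have h1 := hmemT t₁ ht₁N ⟨R₁, ht₁R⟩
    have h2 := hmemT t₂ ht₂N ⟨R₂, ht₂R⟩
    have hRf1 : Rf T = R₁ := by
      by_contra hne'
      have hle := hmax' (Rf T) R₁ hne'
      have hDle : D ≤ (Rf T : Subgroup G) ⊓ (R₁ : Subgroup G) :=
        le_inf ((hDT T).trans (hRf T)) hDR1
      have := Subgroup.eq_of_le_of_card_ge hDle hle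
      apply ht₁D
      rw [this]
      exact ⟨h1, ht₁R⟩
    have hRf2 : Rf T = R₂ := by
      by_contra hne'
      have hle := hmax' (Rf T) R₂ hne'
      have hDle : D ≤ (Rf T : Subgroup G) ⊓ (R₂ : Subgroup G) :=
        le_inf ((hDT T).trans (hRf T)) hDR2
      have := Subgroup.eq_of_le_of_card_ge hDle hle
      apply ht₂D
      rw [this]
      exact ⟨h2, ht₂R⟩
    exact hR12' (hRf1.symm.trans hRf2)
  have hcardT : p + 1 ≤ Nat.card (Sylow p (Subgroup.normalizer (D : Set G))) := by
    have hmod : Nat.card (Sylow p (Subgroup.normalizer (D : Set G))) % p = 1 % p :=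
      card_sylow_modEq_one p (Subgroup.normalizer (D : Set G))
    have hgt : 1 < Nat.card (Sylow p (Subgroup.normalizer (D : Set G))) :=
      Finite.one_lt_card_iff_nontrivial.mpr hnontriv
    rw [Nat.mod_eq_of_lt hp.one_lt] at hmod
    by_contra hlt
    push Not at hlt
    rcases Nat.lt_or_ge (Nat.card (Sylow p (Subgroup.normalizer (D : Set G)))) p with h | h
    · rw [Nat.mod_eq_of_lt h] at hmod
      omega
    · have heq : Nat.card (Sylow p (Subgroup.normalizer (D : Set G))) = p := by omega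
      rw [heq, Nat.mod_self] at hmod
      omega
  have hinter : ∀ T T' : Sylow p (Subgroup.normalizer (D : Set G)), T ≠ T' → ∀ x : G,
      x ∈ (Rf T : Subgroup G) → x ∈ (Rf T' : Subgroup G) → x ∈ D := by
    intro T T' hTT x hx hx'
    have hne' : Rf T ≠ Rf T' := fun h => hTT (hRinj h)
    have hle := hmax' (Rf T) (Rf T') hne'
    have hDle : D ≤ (Rf T : Subgroup G) ⊓ (Rf T' : Subgroup G) :=
      le_inf ((hDT T).trans (hRf T)) ((hDT T').trans (hRf T'))
    have := Subgroup.eq_of_le_of_card_ge hDle hle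
    rw [this]; exact ⟨hx, hx'⟩
  have hinj : Nat.card (D ⊕ (Σ T : Sylow p (Subgroup.normalizer (D : Set G)),
      {x : (Rf T : Subgroup G) // (x : G) ∉ D})) ≤
      Nat.card {g : G // ∃ k : ℕ, orderOf g = p ^ k} := by
    refine Nat.card_le_card_of_injective
      (Sum.elim (fun d => ⟨(d : G), hpel R₁ _ (hDR1 d.2)⟩)
        (fun z => ⟨(z.2.1 : G), hpel (Rf z.1) _ z.2.1.2⟩)) ?_
    rintro (d | ⟨T, x⟩) (d' | ⟨T', x'⟩) heq
    · have : (d : G) = (d' : G) :=
        congrArg (Subtype.val : {g : G // ∃ k : ℕ, orderOf g = p ^ k} → G) heq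
      rw [Subtype.ext this]
    · exfalso
      have : (d : G) = (x'.1 : G) :=
        congrArg (Subtype.val : {g : G // ∃ k : ℕ, orderOf g = p ^ k} → G) heq
      exact x'.2 (this ▸ d.2)
    · exfalso
      have : (x.1 : G) = (d' : G) :=
        congrArg (Subtype.val : {g : G // ∃ k : ℕ, orderOf g = p ^ k} → G) heq
      exact x.2 (this ▸ d'.2)
    · have hv : (x.1 : G) = (x'.1 : G) :=
        congrArg (Subtype.val : {g : G // ∃ k : ℕ, orderOf g = p ^ k} → G) heq
      have hT : T = T' := by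
        by_contra hne'
        exact x.2 (hinter T T' hne' _ x.1.2 (hv ▸ x'.1.2))
      subst hT
      have : x = x' := Subtype.ext (Subtype.ext hv)
      rw [this]
  haveI : Fintype (Sylow p (Subgroup.normalizer (D : Set G))) := Fintype.ofFinite _
  rw [Nat.card_sum, Nat.card_sigma] at hinj
  obtain ⟨e, he⟩ : ∃ e : ℕ, Nat.card (P : Subgroup G) = Nat.card D + e := by
    have := card_not_mem (R₁ : Subgroup G) D hDR1
    rw [hcardS] at this
    exact ⟨_, by rw [← this, add_comm]⟩
  have hterm : ∀ T : Sylow p (Subgroup.normalizer (D : Set G)),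
      Nat.card {x : (Rf T : Subgroup G) // (x : G) ∉ D} = e := by
    intro T
    have := card_not_mem (Rf T : Subgroup G) D ((hDT T).trans (hRf T))
    rw [hcardS, he] at this
    omega
  rw [Finset.sum_congr rfl (fun T _ => hterm T)] at hinj
  simp only [Finset.sum_const, Finset.card_univ, smul_eq_mul] at hinj
  rw [← Nat.card_eq_fintype_card] at hinj
  have hpd : p * Nat.card D ≤ Nat.card (P : Subgroup G) := by
    obtain ⟨a, ha⟩ := IsPGroup.iff_card.mp hDp
    obtain ⟨b, hb⟩ := IsPGroup.iff_card.mp R₁.isPGroup'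
    rw [← hcardS R₁, ha, hb]
    have hdvd : p ^ a ∣ p ^ b := by
      rw [← ha, ← hb]; exact Subgroup.card_dvd_of_le hDR1
    have hab : a ≤ b := (Nat.pow_dvd_pow_iff_le_right hp.one_lt).mp hdvd
    have hne' : a ≠ b := by
      intro h
      apply hD1
      have := Subgroup.eq_of_le_of_card_ge hDR1 (by rw [ha, hb, h])
      rw [this]
    have : p ^ (a + 1) ≤ p ^ b := Nat.pow_le_pow_right hp.pos (by omega)
    calc p * p ^ a = p ^ (a + 1) := by ring
      _ ≤ p ^ b := this
  calc p * Nat.card (P : Subgroup G) = p * Nat.card D + p * e := by rw [he]; ring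
    _ ≤ Nat.card (P : Subgroup G) + p * e := Nat.add_le_add_right hpd _
    _ = Nat.card D + (p + 1) * e := by rw [he]; ring
    _ ≤ Nat.card D + Nat.card (Sylow p (Subgroup.normalizer (D : Set G))) * e :=
        Nat.add_le_add_left (Nat.mul_le_mul_right e hcardT) _
    _ ≤ _ := hinj

end Cfsg.Agent.S4092
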