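import Cfsg.Statements.S4093
import Cfsg.Agent.Lib.Helper73.Count
import Mathlib

set_option autoImplicit false
open scoped BigOperators
open Cfsg

namespace Cfsg.Agent.S4093

open scoped Pointwise
open Cfsg.Agent.Lib.Helper73

theorem orderOf_conj' {G : Type*} [Group G] (c x : G) : orderOf (c * x * c⁻¹) = orderOf x :=
  MulEquiv.orderOf_eq (MulAut.conj c) x

theorem isPGroup_zpowers {G : Type*} [Group G] (p : ℕ) (u : G) (a : ℕ) (hu : u ^ (p ^ a) = 1) :
    IsPGroup p (Subgroup.zpowers u) := by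
  rintro ⟨y, hy⟩
  obtain ⟨k, rfl⟩ := Subgroup.mem_zpowers_iff.mp hy
  refine ⟨a, ?_⟩
  apply Subtype.ext
  show (u ^ k) ^ (p ^ a) = 1
  rw [← zpow_natCast, ← zpow_mul, mul_comm, zpow_mul, zpow_natCast, hu, one_zpow]

theorem exists_conj_mem_sylow {G : Type*} [Group G] [Finite G] (p : ℕ) [Fact p.Prime]
    (P : Sylow p G) (u : G) (a : ℕ) (hu : u ^ (p ^ a) = 1) : ∃ g : G, g * u * g⁻¹ ∈ P := by
  have hQ : IsPGroup p (Subgroup.zpowers u) := isPGroup_zpowers p u a hu
  obtain ⟨Q, hQ'⟩ := hQ.exists_le_sylow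
  obtain ⟨g, hg⟩ := MulAction.exists_smul_eq G Q P
  refine ⟨g, ?_⟩
  rw [← hg]
  have hu' : u ∈ (Q : Subgroup G) := hQ' (Subgroup.mem_zpowers u)
  have := Subgroup.smul_mem_pointwise_smul u (MulAut.conj g) (Q : Subgroup G) hu'
  exact this

/-- Let G be a finite group with a normal subgroup N complementing a Sylow p-subgroup P (a normal p-complement). Then the number of elements of G of p-power order equals the sum over x ∈ P of the index of C_N(x) in N. -/
theorem result {G : Type*} [Group G] [Finite G] (p : ℕ) [Fact p.Prime]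
    (P : Sylow p G) (N : Subgroup G) [N.Normal] (hNP : N.IsComplement' (P : Subgroup G)) :
    Nat.card {g : G // ∃ k : ℕ, orderOf g = p ^ k} =
      ∑ᶠ x : (P : Subgroup G), Nat.card N / Nat.card ↥(N ⊓ Subgroup.centralizer ({(x : G)} : Set G)) := by
  classical
  have hp : p.Prime := Fact.out
  haveI : Fintype (P : Subgroup G) := Fintype.ofFinite _
  rw [finsum_eq_sum_of_fintype]
  have hpel : ∀ g : G, g ∈ (P : Subgroup G) → ∃ k : ℕ, orderOf g = p ^ k := by
    intro g hg
    obtain ⟨k, hk⟩ := P.isPGroup' ⟨g, hg⟩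
    have hk' : g ^ (p ^ k) = 1 := by simpa using congrArg Subtype.val hk
    obtain ⟨j, -, hj⟩ := (Nat.dvd_prime_pow hp).mp (orderOf_dvd_of_pow_eq_one hk')
    exact ⟨j, hj⟩
  have hcls : ∀ x : G, Nat.card {y : G // ∃ n ∈ N, n * x * n⁻¹ = y} =
      Nat.card N / Nat.card ↥(N ⊓ Subgroup.centralizer ({x} : Set G)) := by
    intro x
    have h1 := card_range_mul_card_fiber (fun n : N => (n : G) * x * (n : G)⁻¹)
      ((Subgroup.centralizer ({x} : Set G)).subgroupOf N) (by
      intro a b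
      rw [Subgroup.mem_subgroupOf, Subgroup.mem_centralizer_iff]
      simp only [Set.mem_singleton_iff, forall_eq, Subgroup.coe_mul, Subgroup.coe_inv]
      constructor
      · intro h
        calc x * ((a : G)⁻¹ * (b : G))
            = (a : G)⁻¹ * ((a : G) * x * (a : G)⁻¹) * (b : G) := by group
          _ = (a : G)⁻¹ * ((b : G) * x * (b : G)⁻¹) * (b : G) := by rw [h]
          _ = (a : G)⁻¹ * (b : G) * x := by group
      · intro h
        calc (a : G) * x * (a : G)⁻¹
            = (a : G) * (x * ((a : G)⁻¹ * (b : G))) * (b : G)⁻¹ := by group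
          _ = (a : G) * ((a : G)⁻¹ * (b : G) * x) * (b : G)⁻¹ := by rw [h]
          _ = (b : G) * x * (b : G)⁻¹ := by group)
    have h3 : Nat.card ((Subgroup.centralizer ({x} : Set G)).subgroupOf N) =
        Nat.card (N ⊓ Subgroup.centralizer ({x} : Set G) : Subgroup G) := by
      rw [← Subgroup.inf_subgroupOf_left]
      exact Nat.card_congr (Subgroup.subgroupOfEquivOfLe inf_le_left).toEquiv
    have h4 : Nat.card {y : G // ∃ n ∈ N, n * x * n⁻¹ = y} =
        Nat.card (Set.range (fun n : N => (n : G) * x * (n : G)⁻¹)) := by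
      apply Nat.card_congr
      apply Equiv.subtypeEquivRight
      intro y
      constructor
      · rintro ⟨n, hn, rfl⟩; exact ⟨⟨n, hn⟩, rfl⟩
      · rintro ⟨n, rfl⟩; exact ⟨n, n.2, rfl⟩
    rw [h4, ← h1, h3]
    exact (Nat.mul_div_cancel _ Nat.card_pos).symm
  have hsum : ∑ x : (P : Subgroup G), Nat.card N /
      Nat.card ↥(N ⊓ Subgroup.centralizer ({(x : G)} : Set G)) =
      ∑ x : (P : Subgroup G), Nat.card {y : G // ∃ n ∈ N, n * (x : G) * n⁻¹ = y} :=
    Finset.sum_congr rfl (fun x _ => (hcls (x : G)).symm)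
  rw [hsum, ← Nat.card_sigma]
  symm
  apply Nat.card_congr
  refine Equiv.ofBijective
    (fun z : (Σ x : (P : Subgroup G), {y : G // ∃ n ∈ N, n * (x : G) * n⁻¹ = y}) =>
      (⟨z.2.1, by
        obtain ⟨n, hn, h⟩ := z.2.2
        obtain ⟨k, hk⟩ := hpel z.1 z.1.2
        exact ⟨k, by rw [← h, orderOf_conj', hk]⟩⟩ : {g : G // ∃ k : ℕ, orderOf g = p ^ k}))
    ⟨?_, ?_⟩
  · rintro ⟨x, y, n, hn, rfl⟩ ⟨x', y', n', hn', rfl⟩ heq
    have h1 : n * (x : G) * n⁻¹ = n' * (x' : G) * n'⁻¹ := congrArg Subtype.val heq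
    have hxx : x = x' := by
      apply Subtype.ext
      have hN : (x' : G) * (x : G)⁻¹ ∈ N := by
        have e : (x' : G) * (x : G)⁻¹ =
            (n'⁻¹ * n) * ((x : G) * (n'⁻¹ * n)⁻¹ * (x : G)⁻¹) := by
          have : (x' : G) = n'⁻¹ * (n' * (x' : G) * n'⁻¹) * n' := by group
          rw [this, ← h1]; group
        rw [e]
        exact N.mul_mem (N.mul_mem (N.inv_mem hn') hn)
          (Subgroup.Normal.conj_mem inferInstance _
            (N.inv_mem (N.mul_mem (N.inv_mem hn') hn)) _)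
      have hP : (x' : G) * (x : G)⁻¹ ∈ (P : Subgroup G) :=
        (P : Subgroup G).mul_mem x'.2 ((P : Subgroup G).inv_mem x.2)
      have := Subgroup.disjoint_def.mp hNP.disjoint hN hP
      exact (mul_inv_eq_one.mp this).symm
    subst hxx
    exact Sigma.ext rfl (heq_of_eq (Subtype.ext h1))
  · rintro ⟨g, k, hk⟩
    obtain ⟨c, hc⟩ := exists_conj_mem_sylow p P g k (by rw [← hk]; exact pow_orderOf_eq_one g)
    obtain ⟨⟨n, u⟩, hnu⟩ := hNP.2 c⁻¹
    have hnu' : (n : G) * (u : G) = c⁻¹ := hnu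
    refine ⟨⟨⟨(u : G) * (c * g * c⁻¹) * (u : G)⁻¹,
      (P : Subgroup G).mul_mem ((P : Subgroup G).mul_mem u.2 hc) ((P : Subgroup G).inv_mem u.2)⟩,
      ⟨g, n, n.2, ?_⟩⟩, rfl⟩
    show (n : G) * ((u : G) * (c * g * c⁻¹) * (u : G)⁻¹) * (n : G)⁻¹ = g
    calc (n : G) * ((u : G) * (c * g * c⁻¹) * (u : G)⁻¹) * (n : G)⁻¹
        = ((n : G) * (u : G)) * (c * g * c⁻¹) * ((n : G) * (u : G))⁻¹ := by group
      _ = g := by rw [hnu']; group

end Cfsg.Agent.S4093
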