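import Cfsg.Statements.S4097
import Cfsg.Agent.S0035
import Cfsg.Agent.Lib.Helper26.FpfConj

set_option autoImplicit false
open Cfsg
open Cfsg.Agent.Lib.Helper26
open scoped Pointwise

namespace Cfsg.Agent.S4097

universe u

section aux

variable {G : Type u} [Group G]

/-- an abelian normal subgroup extended by a cyclic group is solvable -/
theorem isSolvable_sup_zpowers (N : Subgroup G) [hN : N.Normal]
    (hab : ∀ a ∈ N, ∀ b ∈ N, a * b = b * a) (g : G) :
    Group.IsSolvable ↥(N ⊔ Subgroup.zpowers g) := by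
  have hmap : (N ⊔ Subgroup.zpowers g).map (QuotientGroup.mk' N) =
      Subgroup.zpowers (QuotientGroup.mk' N g) := by
    rw [Subgroup.map_sup, QuotientGroup.map_mk'_self, bot_sup_eq, MonoidHom.map_zpowers]
  have h1 : Group.IsSolvable ↥(N.subgroupOf (N ⊔ Subgroup.zpowers g)) := by
    apply Group.isSolvable_of_comm
    intro a b
    apply Subtype.ext
    apply Subtype.ext
    exact hab _ (Subgroup.mem_subgroupOf.mp a.2) _ (Subgroup.mem_subgroupOf.mp b.2)
  have h2 : Group.IsSolvable
      ↥((QuotientGroup.mk' N).comp (N ⊔ Subgroup.zpowers g).subtype).range := by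
    apply Group.isSolvable_of_comm
    rintro ⟨x, hx⟩ ⟨y, hy⟩
    apply Subtype.ext
    obtain ⟨s, rfl⟩ := hx
    obtain ⟨s', rfl⟩ := hy
    have hs : QuotientGroup.mk' N (s : G) ∈ Subgroup.zpowers (QuotientGroup.mk' N g) := by
      rw [← hmap]; exact Subgroup.mem_map_of_mem _ s.2
    have hs' : QuotientGroup.mk' N (s' : G) ∈ Subgroup.zpowers (QuotientGroup.mk' N g) := by
      rw [← hmap]; exact Subgroup.mem_map_of_mem _ s'.2
    obtain ⟨i, hi⟩ := Subgroup.mem_zpowers_iff.mp hs
    obtain ⟨j, hj⟩ := Subgroup.mem_zpowers_iff.mp hs'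
    show QuotientGroup.mk' N (s : G) * QuotientGroup.mk' N (s' : G) =
      QuotientGroup.mk' N (s' : G) * QuotientGroup.mk' N (s : G)
    rw [← hi, ← hj]
    exact zpow_mul_comm _ _ _
  refine Group.isSolvable_of_ker_le_range (N.subgroupOf (N ⊔ Subgroup.zpowers g)).subtype
    ((QuotientGroup.mk' N).comp (N ⊔ Subgroup.zpowers g).subtype).rangeRestrict ?_
  rw [MonoidHom.ker_rangeRestrict]
  intro x hx
  rw [MonoidHom.mem_ker] at hx
  have hxN : (x : G) ∈ N := (QuotientGroup.eq_one_iff _).mp hx
  exact ⟨⟨x, Subgroup.mem_subgroupOf.mpr hxN⟩, rfl⟩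

/-- the hypothesis passes to subgroups containing `A` -/
theorem sub_hyp (A H : Subgroup G) (hAH : A ≤ H) (hA : Group.IsSolvable A)
    (hc : ∀ S : Subgroup G, A ≤ S → Group.IsSolvable S → ∀ a ∈ A, ∀ s ∈ S, a * s = s * a) :
    Group.IsSolvable ↥(A.subgroupOf H) ∧
      ∀ S' : Subgroup H, A.subgroupOf H ≤ S' → Group.IsSolvable S' →
        ∀ a ∈ A.subgroupOf H, ∀ s ∈ S', a * s = s * a := by
  constructor
  · exact Group.isSolvable_of_isSolvable_injective
      (f := (Subgroup.subgroupOfEquivOfLe hAH).toMonoidHom)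
      (Subgroup.subgroupOfEquivOfLe hAH).injective
  · intro S' hAS' hS' a ha s hs
    have hS : Group.IsSolvable ↥(S'.map H.subtype) :=
      Group.isSolvable_of_surjective (f := H.subtype.subgroupMap S')
        (MonoidHom.subgroupMap_surjective _ _)
    have hAS : A ≤ S'.map H.subtype := by
      intro x hx
      exact ⟨⟨x, hAH hx⟩, hAS' (Subgroup.mem_subgroupOf.mpr hx), rfl⟩
    have h1 := hc _ hAS hS (a : G) (Subgroup.mem_subgroupOf.mp ha) (s : G) ⟨s, hs, rfl⟩
    exact Subtype.ext h1

/-- the inductive step -/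
theorem core [Finite G] (A : Subgroup G) (hA : Group.IsSolvable A)
    (hc : ∀ S : Subgroup G, A ≤ S → Group.IsSolvable S → ∀ a ∈ A, ∀ s ∈ S, a * s = s * a)
    (hprop : ∀ H : Subgroup G, A ≤ H → H ≠ ⊤ → H ≤ Subgroup.centralizer (A : Set G)) :
    A ≤ Subgroup.center G := by
  by_contra hAZ
  have hab : ∀ a ∈ A, ∀ b ∈ A, a * b = b * a := hc A le_rfl hA
  have hGns : ¬ Group.IsSolvable G := by
    intro hG
    apply hAZ
    intro a ha
    rw [Subgroup.mem_center_iff]
    intro g
    have hT : Group.IsSolvable ↥(⊤ : Subgroup G) := inferInstance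
    exact (hc ⊤ le_top hT a ha g trivial).symm
  obtain ⟨M, hM⟩ : ∃ M : Subgroup G, M = Subgroup.centralizer (A : Set G) := ⟨_, rfl⟩
  rw [← hM] at hprop
  have hMmem : ∀ x, x ∈ M ↔ ∀ b ∈ A, b * x = x * b := by
    intro x; rw [hM, Subgroup.mem_centralizer_iff]; exact Iff.rfl
  have hAM : A ≤ M := by
    intro a ha
    rw [hMmem]
    intro b hb
    exact hab b hb a ha
  have hMtop : M ≠ ⊤ := by
    intro h
    apply hAZ
    intro a ha
    rw [Subgroup.mem_center_iff]
    intro g
    have hg : g ∈ M := by rw [h]; trivial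
    exact ((hMmem g).mp hg a ha).symm
  obtain ⟨a, haA, haZ⟩ := SetLike.not_le_iff_exists.mp hAZ
  have hCa : Subgroup.centralizer ({a} : Set G) = M := by
    apply le_antisymm
    · apply hprop
      · intro b hb
        rw [Subgroup.mem_centralizer_singleton_iff]
        exact hab b hb a haA
      · intro h
        apply haZ
        rw [Subgroup.mem_center_iff]
        intro g
        have hg : g ∈ Subgroup.centralizer ({a} : Set G) := by rw [h]; trivial
        exact Subgroup.mem_centralizer_singleton_iff.mp hg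
    · rw [hM]
      exact Subgroup.centralizer_le (Set.singleton_subset_iff.mpr haA)
  have hMa : ∀ x, x ∈ M ↔ x * a = a * x := by
    intro x; rw [← hCa]; exact Subgroup.mem_centralizer_singleton_iff
  -- `M` is not normal
  have hMnn : ¬ M.Normal := by
    intro hMn
    have hZn : (M ⊓ Subgroup.centralizer (M : Set G)).Normal := by
      rw [← Subgroup.normalizer_eq_top_iff]
      apply top_le_iff.mp
      calc ⊤ = Subgroup.normalizer (M : Set G) := (Subgroup.normalizer_eq_top_iff.mpr hMn).symm
        _ ≤ _ := normalizer_le_normalizer_zc M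
    have hAZm : A ≤ M ⊓ Subgroup.centralizer (M : Set G) := by
      intro b hb
      refine Subgroup.mem_inf.mpr ⟨hAM hb, ?_⟩
      rw [Subgroup.mem_centralizer_iff]
      intro m hm
      exact ((hMmem m).mp hm b hb).symm
    have hZab : ∀ x ∈ M ⊓ Subgroup.centralizer (M : Set G),
        ∀ y ∈ M ⊓ Subgroup.centralizer (M : Set G), x * y = y * x := by
      intro x hx y hy
      exact (Subgroup.mem_centralizer_iff.mp hy.2) x hx.1
    apply hAZ
    intro b hb
    rw [Subgroup.mem_center_iff]
    intro g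
    have hS := isSolvable_sup_zpowers (M ⊓ Subgroup.centralizer (M : Set G)) hZab g
    have hg : g ∈ (M ⊓ Subgroup.centralizer (M : Set G)) ⊔ Subgroup.zpowers g :=
      (le_sup_right : Subgroup.zpowers g ≤ _) (Subgroup.mem_zpowers g)
    exact (hc _ (hAZm.trans le_sup_left) hS b hb g hg).symm
  have hNM : ∀ g, g ∈ Subgroup.normalizer (M : Set G) → g ∈ M := by
    intro g hg
    by_contra hgM
    have hle : M ≤ Subgroup.normalizer (M : Set G) := Subgroup.le_normalizer
    have htop : Subgroup.normalizer (M : Set G) = ⊤ := by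
      by_contra hne
      exact hgM (hprop _ (hAM.trans hle) hne hg)
    exact hMnn (Subgroup.normalizer_eq_top_iff.mp htop)
  -- `M ∩ M^g = Z(G)` for `g ∉ M`
  have hTI : ∀ g, g ∉ M → ∀ x ∈ M, g⁻¹ * x * g ∈ M → x ∈ Subgroup.center G := by
    intro g hg x hx hxg
    obtain ⟨y, hy⟩ : ∃ y : G, y = g * a * g⁻¹ := ⟨_, rfl⟩
    by_cases hH : A ⊔ Subgroup.zpowers y = ⊤
    · have h1 : A ≤ Subgroup.centralizer ({x} : Set G) := by
        intro b hb
        rw [Subgroup.mem_centralizer_singleton_iff]
        exact (hMmem x).mp hx b hb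
      have h2 : Subgroup.zpowers y ≤ Subgroup.centralizer ({x} : Set G) := by
        rw [Subgroup.zpowers_le, Subgroup.mem_centralizer_singleton_iff]
        have h3 : (g⁻¹ * x * g) * a = a * (g⁻¹ * x * g) := (hMa _).mp hxg
        calc y * x = g * (a * (g⁻¹ * x * g)) * g⁻¹ := by rw [hy]; group
          _ = g * ((g⁻¹ * x * g) * a) * g⁻¹ := by rw [h3]
          _ = x * y := by rw [hy]; group
      have h4 : (⊤ : Subgroup G) ≤ Subgroup.centralizer ({x} : Set G) := by
        rw [← hH]; exact sup_le h1 h2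
      rw [Subgroup.mem_center_iff]
      intro z
      exact Subgroup.mem_centralizer_singleton_iff.mp (h4 (Subgroup.mem_top z))
    · exfalso
      have hle := hprop _ le_sup_left hH
      have hyM : y ∈ M := hle ((le_sup_right : Subgroup.zpowers y ≤ _) (Subgroup.mem_zpowers y))
      have hCy : Subgroup.centralizer ({y} : Set G) ≤ M := by
        apply hprop
        · intro b hb
          rw [Subgroup.mem_centralizer_singleton_iff]
          exact (hMmem y).mp hyM b hb
        · intro h
          apply haZ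
          have hyc : ∀ z, z * y = y * z := fun z =>
            Subgroup.mem_centralizer_singleton_iff.mp (h ▸ Subgroup.mem_top z)
          rw [Subgroup.mem_center_iff]
          intro z
          have h5 := hyc (g * z * g⁻¹)
          calc z * a = g⁻¹ * ((g * z * g⁻¹) * y) * g := by rw [hy]; group
            _ = g⁻¹ * (y * (g * z * g⁻¹)) * g := by rw [h5]
            _ = a * z := by rw [hy]; group
      apply hg
      apply hNM
      apply mem_normalizer_of_forall_conj_mem
      intro m hm
      apply hCy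
      rw [Subgroup.mem_centralizer_singleton_iff]
      have h3 : m * a = a * m := (hMa m).mp hm
      calc g * m * g⁻¹ * y = g * (m * a) * g⁻¹ := by rw [hy]; group
        _ = g * (a * m) * g⁻¹ := by rw [h3]
        _ = y * (g * m * g⁻¹) := by rw [hy]; group
  -- pass to `G / Z(G)`
  obtain ⟨π, hπ⟩ : ∃ π : G →* G ⧸ Subgroup.center G, π = QuotientGroup.mk' (Subgroup.center G) :=
    ⟨_, rfl⟩
  have hπs : Function.Surjective π := by rw [hπ]; exact QuotientGroup.mk'_surjective _
  have hπ1 : ∀ x, π x = 1 ↔ x ∈ Subgroup.center G := by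
    intro x; rw [hπ]; exact QuotientGroup.eq_one_iff x
  have hZM : Subgroup.center G ≤ M := by
    intro z hz
    rw [hMmem]
    intro b _
    exact Subgroup.mem_center_iff.mp hz b
  have hcm : (M.map π).comap π = M :=
    Subgroup.comap_map_eq_self (by rw [hπ, QuotientGroup.ker_mk']; exact hZM)
  have hmemM : ∀ x, π x ∈ M.map π ↔ x ∈ M := by
    intro x
    rw [← Subgroup.mem_comap, hcm]
  have hFrob : Cfsg.IsFrobeniusComplement (M.map π) := by
    refine ⟨?_, ?_, ?_⟩
    · intro hbot
      apply hMnn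
      constructor
      intro m hm g
      have h1 : π m ∈ M.map π := Subgroup.mem_map_of_mem π hm
      rw [hbot, Subgroup.mem_bot, hπ1] at h1
      have h2 : g * m * g⁻¹ = m := by
        rw [Subgroup.mem_center_iff.mp h1 g]; group
      rw [h2]; exact hm
    · intro htop
      apply hMtop
      rw [← hcm, htop, Subgroup.comap_top]
    · intro gbar hgbar
      obtain ⟨g, rfl⟩ := hπs gbar
      have hg : g ∉ M := fun h => hgbar ((hmemM g).mpr h)
      rw [Subgroup.eq_bot_iff_forall]
      intro xbar hxbar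
      obtain ⟨x, rfl⟩ := hπs xbar
      have hx : x ∈ M := (hmemM x).mp hxbar.1
      have hx2 : π x ∈ MulAut.conj (π g) • M.map π := hxbar.2
      rw [Subgroup.mem_pointwise_smul_iff_inv_smul_mem] at hx2
      have e : (MulAut.conj (π g))⁻¹ • π x = π (g⁻¹ * x * g) := by
        rw [MulAut.smul_def, ← map_inv, MulAut.conj_apply, inv_inv, map_mul, map_mul, map_inv]
      rw [e] at hx2
      exact (hπ1 x).mpr (hTI g hg x hx ((hmemM _).mp hx2))
  obtain ⟨K, hKset, hKn, hKc⟩ := Cfsg.Agent.S0035.result (M.map π) hFrob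
  have hfpf : ∀ m ∈ M.map π, m ≠ 1 → ∀ k ∈ K, m * k = k * m → k = 1 := by
    intro m hm hm1 k hk hmk
    by_contra hk1
    have hk' : k ∈ Cfsg.frobeniusKernel (M.map π) := by rw [← hKset]; exact hk
    rcases hk' with h | h
    · exact hk1 h
    · have hkM : k ∉ M.map π := by
        have h0 := h 1
        rwa [map_one, one_smul] at h0
      have h3 := hFrob.2.2 k hkM
      have h4 : m ∈ M.map π ⊓ MulAut.conj k • M.map π := by
        refine Subgroup.mem_inf.mpr ⟨hm, ?_⟩
        rw [Subgroup.mem_pointwise_smul_iff_inv_smul_mem]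
        have e : (MulAut.conj k)⁻¹ • m = m := by
          rw [MulAut.smul_def, ← map_inv, MulAut.conj_apply, inv_inv, mul_assoc, hmk,
            ← mul_assoc, inv_mul_cancel, one_mul]
        rw [e]; exact hm
      rw [h3, Subgroup.mem_bot] at h4
      exact hm1 h4
  -- an element of prime order of the complement
  have ha1 : π a ≠ 1 := fun h => haZ ((hπ1 a).mp h)
  have haM : π a ∈ M.map π := Subgroup.mem_map_of_mem π (hAM haA)
  have hord : orderOf (π a) ≠ 1 := fun h => ha1 (orderOf_eq_one_iff.mp h)
  obtain ⟨r, hr, hrdvd⟩ := Nat.exists_prime_and_dvd hord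
  have hpos : orderOf (π a) ≠ 0 := (orderOf_pos (π a)).ne'
  obtain ⟨b, hb⟩ : ∃ b : G ⧸ Subgroup.center G, b = (π a) ^ (orderOf (π a) / r) := ⟨_, rfl⟩
  have hbord : orderOf b = r := by rw [hb]; exact orderOf_pow_orderOf_div hpos hrdvd
  have hbM : b ∈ M.map π := by rw [hb]; exact Subgroup.pow_mem _ haM _
  have hb1 : b ≠ 1 := by
    intro h
    rw [h, orderOf_one] at hbord
    rw [← hbord] at hr
    exact Nat.not_prime_one hr
  have hbr : b ^ r = 1 := by
    have h := pow_orderOf_eq_one b
    rw [hbord] at h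
    exact h
  have hKnil : Group.IsNilpotent K :=
    nilpotent_of_conj_fpf K b r hr hbr (fun x hx => hKn.conj_mem x hx b)
      (fun x hx => by have h := hKn.conj_mem x hx b⁻¹; rwa [inv_inv] at h)
      (fun x hx h => hfpf b hbM hb1 x hx h)
  have hKsolv : Group.IsSolvable K := inferInstance
  have hAK : A.map π ⊔ K = ⊤ := by
    by_contra hne
    have h1 : (A.map π ⊔ K).comap π ≠ ⊤ := by
      intro h
      apply hne
      rw [eq_top_iff]
      intro x _
      obtain ⟨x', rfl⟩ := hπs x
      have hx' : x' ∈ (A.map π ⊔ K).comap π := by rw [h]; trivial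
      exact hx'
    have h2 : A ≤ (A.map π ⊔ K).comap π := by
      intro b' hb'
      exact Subgroup.mem_comap.mpr
        ((le_sup_left : A.map π ≤ _) (Subgroup.mem_map_of_mem π hb'))
    have h3 := hprop _ h2 h1
    have h4 : K ≤ M.map π := by
      intro k hk
      obtain ⟨k', rfl⟩ := hπs k
      have hk' : k' ∈ (A.map π ⊔ K).comap π :=
        Subgroup.mem_comap.mpr ((le_sup_right : K ≤ _) hk)
      exact Subgroup.mem_map_of_mem π (h3 hk')
    have h5 : K = ⊥ := by
      rw [eq_bot_iff]
      exact hKc.disjoint le_rfl h4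
    have h6 : M.map π = ⊤ := by
      have h7 := hKc.sup_eq_top
      rwa [h5, bot_sup_eq] at h7
    exact hFrob.2.1 h6
  have hKn' : K.Normal := hKn
  have hψ : Function.Surjective
      ((QuotientGroup.mk' K).comp (π.comp A.subtype)) := by
    intro y
    obtain ⟨x, rfl⟩ := QuotientGroup.mk'_surjective K y
    have hx : x ∈ A.map π ⊔ K := by rw [hAK]; trivial
    obtain ⟨u, hu, v, hv, rfl⟩ := Subgroup.mem_sup_of_normal_right.mp hx
    obtain ⟨a', ha', rfl⟩ := hu
    refine ⟨⟨a', ha'⟩, ?_⟩
    show QuotientGroup.mk' K (π a') = QuotientGroup.mk' K (π a' * v)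
    have hv1 : QuotientGroup.mk' K v = 1 := (QuotientGroup.eq_one_iff v).mpr hv
    rw [map_mul, hv1, mul_one]
  have hq : Group.IsSolvable ((G ⧸ Subgroup.center G) ⧸ K) :=
    Group.isSolvable_of_surjective hψ
  have hGbar : Group.IsSolvable (G ⧸ Subgroup.center G) :=
    (Group.isSolvable_iff_subgroup_quotient K).mpr ⟨hKsolv, hq⟩
  have hZs : Group.IsSolvable ↥(Subgroup.center G) := by
    apply Group.isSolvable_of_comm
    intro x y
    apply Subtype.ext
    exact Subgroup.mem_center_iff.mp y.2 x
  exact hGns ((Group.isSolvable_iff_subgroup_quotient (Subgroup.center G)).mpr ⟨hZs, hGbar⟩)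

end aux

theorem main : ∀ (n : ℕ) (G : Type u) [Group G] [Finite G], Nat.card G = n →
    ∀ (A : Subgroup G), Group.IsSolvable A →
    (∀ S : Subgroup G, A ≤ S → Group.IsSolvable S → ∀ a ∈ A, ∀ s ∈ S, a * s = s * a) →
    A ≤ Subgroup.center G := by
  intro n
  induction n using Nat.strong_induction_on with
  | _ n ih =>
    intro G _ _ hn A hA hc
    apply core A hA hc
    intro H hAH hH h hh
    have hlt : Nat.card H < n := by
      rw [← hn]
      exact lt_of_le_of_ne (Subgroup.card_le_card_group H)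
        (fun h => hH ((Subgroup.card_eq_iff_eq_top H).mp h))
    obtain ⟨hs, hh'⟩ := sub_hyp A H hAH hA hc
    have hcen := ih _ hlt H rfl (A.subgroupOf H) hs hh'
    rw [Subgroup.mem_centralizer_iff]
    intro b hb
    have hb' : (⟨b, hAH hb⟩ : H) ∈ Subgroup.center H := hcen (Subgroup.mem_subgroupOf.mpr hb)
    have h1 := Subgroup.mem_center_iff.mp hb' ⟨h, hh⟩
    exact (congrArg Subtype.val h1).symm

/-- Let A be a solvable subgroup of a finite group G such that A lies in the centre of every solvable subgroup of G containing A. Then A lies in the centre of G. -/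
theorem result {G : Type*} [Group G] [Finite G]
    (A : Subgroup G) (hA : Group.IsSolvable A)
    (hc : ∀ S : Subgroup G, A ≤ S → Group.IsSolvable S → ∀ a ∈ A, ∀ s ∈ S, a * s = s * a) : A ≤ Subgroup.center G := by
  exact main (Nat.card G) G rfl A hA hc

end Cfsg.Agent.S4097
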