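import Cfsg.Statements.S4106
import Mathlib

set_option autoImplicit false
open Cfsg

namespace Cfsg.Agent.S4106

open scoped Pointwise

universe u

theorem orderOf_conj' {G : Type*} [Group G] (c x : G) : orderOf (c * x * c⁻¹) = orderOf x :=
  MulEquiv.orderOf_eq (MulAut.conj c) x

theorem orderOf_eq_of_mk_eq {G : Type*} [Group G] {a b : G}
    (h : ConjClasses.mk a = ConjClasses.mk b) : orderOf a = orderOf b := by
  rw [ConjClasses.mk_eq_mk_iff_isConj, isConj_iff] at h
  obtain ⟨c, hc⟩ := h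
  rw [← hc, orderOf_conj']

/-- p-part / p'-part decomposition -/
theorem exists_decomp {G : Type*} [Group G] [Finite G] (p : ℕ) (hp : p.Prime) (x : G) :
    ∃ (i j : ℤ) (a : ℕ), x = x ^ i * x ^ j ∧ (x ^ i) ^ (p ^ a) = 1 ∧ ¬ p ∣ orderOf (x ^ j) := by
  have hn : orderOf x ≠ 0 := (orderOf_pos x).ne'
  obtain ⟨a, n', hpn', hn'⟩ := Nat.exists_eq_pow_mul_and_not_dvd hn p hp.ne_one
  have hcop : Nat.Coprime (p ^ a) n' :=
    Nat.Coprime.pow_left _ ((Nat.Prime.coprime_iff_not_dvd hp).mpr hpn')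
  have hb := Nat.gcd_eq_gcd_ab (p ^ a) n'
  rw [hcop.gcd_eq_one] at hb
  refine ⟨(n' : ℤ) * Nat.gcdB (p ^ a) n', ((p ^ a : ℕ) : ℤ) * Nat.gcdA (p ^ a) n', a, ?_, ?_, ?_⟩
  · rw [← zpow_add]
    have : (n' : ℤ) * Nat.gcdB (p ^ a) n' + ((p ^ a : ℕ) : ℤ) * Nat.gcdA (p ^ a) n' = 1 := by
      rw [add_comm]; exact_mod_cast hb.symm
    rw [this, zpow_one]
  · rw [← zpow_natCast, ← zpow_mul]
    have : (n' : ℤ) * Nat.gcdB (p ^ a) n' * ((p ^ a : ℕ) : ℤ) =
        ((orderOf x : ℕ) : ℤ) * Nat.gcdB (p ^ a) n' := by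
      rw [hn']; push_cast; ring
    rw [this, zpow_mul, zpow_natCast, pow_orderOf_eq_one, one_zpow]
  · intro hpd
    have h1 : (x ^ (((p ^ a : ℕ) : ℤ) * Nat.gcdA (p ^ a) n')) ^ n' = 1 := by
      rw [← zpow_natCast, ← zpow_mul]
      have : ((p ^ a : ℕ) : ℤ) * Nat.gcdA (p ^ a) n' * (n' : ℤ) =
          ((orderOf x : ℕ) : ℤ) * Nat.gcdA (p ^ a) n' := by
        rw [hn']; push_cast; ring
      rw [this, zpow_mul, zpow_natCast, pow_orderOf_eq_one, one_zpow]
    exact hpn' (hpd.trans (orderOf_dvd_of_pow_eq_one h1))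

theorem exists_conj_mem_sylow {G : Type*} [Group G] [Finite G] (p : ℕ) [Fact p.Prime]
    (P : Sylow p G) (u : G) (a : ℕ) (hu : u ^ (p ^ a) = 1) : ∃ g : G, g * u * g⁻¹ ∈ P := by
  have hQ : IsPGroup p (Subgroup.zpowers u) := by
    rintro ⟨y, hy⟩
    obtain ⟨k, rfl⟩ := Subgroup.mem_zpowers_iff.mp hy
    refine ⟨a, ?_⟩
    apply Subtype.ext
    show (u ^ k) ^ (p ^ a) = 1
    rw [← zpow_natCast, ← zpow_mul, mul_comm, zpow_mul, zpow_natCast, hu, one_zpow]
  obtain ⟨Q, hQ'⟩ := hQ.exists_le_sylow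
  obtain ⟨g, hg⟩ := MulAction.exists_smul_eq G Q P
  refine ⟨g, ?_⟩
  rw [← hg]
  have hu' : u ∈ (Q : Subgroup G) := hQ' (Subgroup.mem_zpowers u)
  have := Subgroup.smul_mem_pointwise_smul u (MulAut.conj g) (Q : Subgroup G) hu'
  exact this

theorem arith {N m M K c q : ℕ} (hN : 0 < N) (hm : m ∣ N) (hKM : K * M = m) (hc : c ∣ N)
    (hq : q.Prime) (hqK : ¬ q ∣ K) (hqm : ¬ q ∣ N / m) : ¬ q ∣ c / Nat.gcd c M := by
  intro hqd
  obtain ⟨t, ht⟩ := hm
  subst ht
  have hmpos : 0 < m := Nat.pos_of_mul_pos_right hN |> fun h => by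
    rcases Nat.eq_zero_or_pos m with h0 | h0
    · subst h0; simp at hN
    · exact h0
  rw [Nat.mul_div_cancel_left t hmpos] at hqm
  subst hKM
  have hcpos : 0 < c := Nat.pos_of_dvd_of_pos hc hN
  have hgpos : 0 < Nat.gcd c M := Nat.gcd_pos_of_pos_left _ hcpos
  have hcop : Nat.Coprime (c / Nat.gcd c M) (M / Nat.gcd c M) := Nat.coprime_div_gcd_div_gcd hgpos
  have h1 : c / Nat.gcd c M ∣ K * t := by
    have h2 : (c / Nat.gcd c M) * Nat.gcd c M ∣ (M / Nat.gcd c M) * Nat.gcd c M * (K * t) := by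
      rw [Nat.div_mul_cancel (Nat.gcd_dvd_left c M), Nat.div_mul_cancel (Nat.gcd_dvd_right c M)]
      have : M * (K * t) = K * M * t := by ring
      rw [this]; exact hc
    have h3 : (c / Nat.gcd c M) ∣ (M / Nat.gcd c M) * (K * t) := by
      apply Nat.dvd_of_mul_dvd_mul_right hgpos
      have : M / Nat.gcd c M * (K * t) * Nat.gcd c M = (M / Nat.gcd c M) * Nat.gcd c M * (K * t) := by
        ring
      rw [this]; exact h2
    exact hcop.dvd_of_dvd_mul_left h3
  have h2 := hqd.trans h1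
  rcases (Nat.Prime.dvd_mul hq).mp h2 with h | h
  · exact hqK h
  · exact hqm h

theorem key (σ : Finset ℕ) : ∀ (G : Type u) [Group G] [Finite G] (m : ℕ), m ∣ Nat.card G →
    (∀ q ∈ σ, q.Prime) → (∀ q ∈ σ, ¬ q ∣ Nat.card G / m) →
    Nat.card {C : ConjClasses G // ∀ q : ℕ, q.Prime →
      (∃ g : G, ConjClasses.mk g = C ∧ q ∣ orderOf g) → q ∈ σ} ≤ m := by
  classical
  induction σ using Finset.induction_on with
  | empty =>
    intro G _ _ m hm _ _
    have hm0 : 0 < m := Nat.pos_of_dvd_of_pos hm Nat.card_pos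
    have h1 : ∀ C : ConjClasses G, (∀ q : ℕ, q.Prime →
        (∃ g : G, ConjClasses.mk g = C ∧ q ∣ orderOf g) → q ∈ (∅ : Finset ℕ)) →
        C = ConjClasses.mk 1 := by
      intro C hC
      obtain ⟨x, rfl⟩ := ConjClasses.exists_rep C
      have : orderOf x = 1 := by
        by_contra h
        obtain ⟨q, hq, hqd⟩ := Nat.exists_prime_and_dvd h
        exact absurd (hC q hq ⟨x, rfl, hqd⟩) (Finset.notMem_empty q)
      rw [orderOf_eq_one_iff] at this
      rw [this]
    have : Subsingleton {C : ConjClasses G // ∀ q : ℕ, q.Prime →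
        (∃ g : G, ConjClasses.mk g = C ∧ q ∣ orderOf g) → q ∈ (∅ : Finset ℕ)} := by
      constructor
      rintro ⟨C, hC⟩ ⟨D, hD⟩
      apply Subtype.ext
      show C = D
      rw [h1 C hC, h1 D hD]
    calc Nat.card _ ≤ 1 := Finite.card_le_one_iff_subsingleton.mpr this
      _ ≤ m := hm0
  | insert p σ' hp ih =>
    intro G _ _ m hm hprime hnd
    have hpp : p.Prime := hprime p (Finset.mem_insert_self _ _)
    haveI : Fact p.Prime := ⟨hpp⟩
    obtain ⟨P⟩ : Nonempty (Sylow p G) := inferInstance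
    obtain ⟨k, hk⟩ := IsPGroup.iff_card.mp P.isPGroup'
    have hPdvd : Nat.card P ∣ Nat.card G := Subgroup.card_subgroup_dvd_card _
    have hPm : Nat.card P ∣ m := by
      have h1 : Nat.Coprime (Nat.card P) (Nat.card G / m) := by
        rw [hk]
        exact Nat.Coprime.pow_left _
          ((Nat.Prime.coprime_iff_not_dvd hpp).mpr (hnd p (Finset.mem_insert_self _ _)))
      have h2 : Nat.card P ∣ m * (Nat.card G / m) := by
        rw [Nat.mul_div_cancel' hm]; exact hPdvd
      exact h1.dvd_of_dvd_mul_right h2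
    obtain ⟨M, hM⟩ := hPm
    have hm0 : 0 < m := Nat.pos_of_dvd_of_pos hm Nat.card_pos
    have hMpos : 0 < M := by
      rcases Nat.eq_zero_or_pos M with h0 | h0
      · subst h0; simp at hM; omega
      · exact h0
    let T : P → Type u := fun u =>
      {D : ConjClasses (Subgroup.centralizer ({(u : G)} : Set G)) // ∀ q : ℕ, q.Prime →
        (∃ g, ConjClasses.mk g = D ∧ q ∣ orderOf g) → q ∈ σ'}
    have hΦ : ∀ (u : P) (D : T u), ∀ q : ℕ, q.Prime →
        (∃ g : G, ConjClasses.mk g = ConjClasses.mk ((u : G) *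
          ((Quotient.out D.1 : Subgroup.centralizer ({(u : G)} : Set G)) : G)) ∧ q ∣ orderOf g) →
        q ∈ insert p σ' := by
      intro u D q hq ⟨g, hg, hqg⟩
      rw [orderOf_eq_of_mk_eq hg] at hqg
      have hcomm : Commute (u : G)
          ((Quotient.out D.1 : Subgroup.centralizer ({(u : G)} : Set G)) : G) := by
        have := (Quotient.out D.1 : Subgroup.centralizer ({(u : G)} : Set G)).2
        rw [Subgroup.mem_centralizer_iff] at this
        exact this (u : G) rfl
      have hdvd := hcomm.orderOf_mul_dvd_mul_orderOf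
      rcases (Nat.Prime.dvd_mul hq).mp (hqg.trans hdvd) with h | h
      · obtain ⟨k', hk'⟩ := P.isPGroup' u
        have h2 : (u : G) ^ (p ^ k') = 1 := by
          have := congrArg Subtype.val hk'
          simpa using this
        have h3 := h.trans (orderOf_dvd_of_pow_eq_one h2)
        have h4 := (Nat.prime_dvd_prime_iff_eq hq hpp).mp (hq.dvd_of_dvd_pow h3)
        exact Finset.mem_insert.mpr (Or.inl h4)
      · refine Finset.mem_insert_of_mem (D.2 q hq ⟨Quotient.out D.1, Quotient.out_eq D.1, ?_⟩)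
        rwa [← Subgroup.orderOf_coe]
    let Φ : (Σ u : P, T u) → {C : ConjClasses G // ∀ q : ℕ, q.Prime →
        (∃ g : G, ConjClasses.mk g = C ∧ q ∣ orderOf g) → q ∈ insert p σ'} := fun z =>
      ⟨ConjClasses.mk ((z.1 : G) *
          ((Quotient.out z.2.1 : Subgroup.centralizer ({(z.1 : G)} : Set G)) : G)), hΦ z.1 z.2⟩
    have hsurj : Function.Surjective Φ := by
      rintro ⟨C, hC⟩
      obtain ⟨x, rfl⟩ := ConjClasses.exists_rep C
      obtain ⟨i, j, a, hx, hu, hy⟩ := exists_decomp p hpp x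
      obtain ⟨g, hg⟩ := exists_conj_mem_sylow p P (x ^ i) a hu
      have hcommij : x ^ i * x ^ j = x ^ j * x ^ i := by
        rw [← zpow_add, ← zpow_add, add_comm]
      have hordj : orderOf (x ^ j) ∣ orderOf x := orderOf_dvd_of_pow_eq_one (by
        rw [← zpow_natCast, ← zpow_mul, mul_comm, zpow_mul, zpow_natCast, pow_orderOf_eq_one,
          one_zpow])
      generalize x ^ i = A at *
      generalize x ^ j = B at *
      let u : P := ⟨g * A * g⁻¹, hg⟩
      have hycent : g * B * g⁻¹ ∈ Subgroup.centralizer ({(u : G)} : Set G) := by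
        rw [Subgroup.mem_centralizer_iff]
        intro z hz
        rw [Set.mem_singleton_iff] at hz
        rw [hz]
        show g * A * g⁻¹ * (g * B * g⁻¹) = g * B * g⁻¹ * (g * A * g⁻¹)
        calc g * A * g⁻¹ * (g * B * g⁻¹) = g * (A * B) * g⁻¹ := by group
          _ = g * (B * A) * g⁻¹ := by rw [hcommij]
          _ = _ := by group
      let y : Subgroup.centralizer ({(u : G)} : Set G) := ⟨g * B * g⁻¹, hycent⟩
      have hD : ∀ q : ℕ, q.Prime → (∃ z, ConjClasses.mk z = ConjClasses.mk y ∧ q ∣ orderOf z) →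
          q ∈ σ' := by
        rintro q hq ⟨z, hz, hqz⟩
        rw [orderOf_eq_of_mk_eq hz] at hqz
        have h1 : orderOf y = orderOf B := by
          rw [← Subgroup.orderOf_coe]; exact orderOf_conj' g B
        rw [h1] at hqz
        have h2 : q ∣ orderOf x := hqz.trans hordj
        have h3 := hC q hq ⟨x, rfl, h2⟩
        rcases Finset.mem_insert.mp h3 with h | h
        · subst h; exact absurd hqz hy
        · exact h
      refine ⟨⟨u, ⟨ConjClasses.mk y, hD⟩⟩, ?_⟩
      apply Subtype.ext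
      show ConjClasses.mk ((u : G) * ((Quotient.out (ConjClasses.mk y) :
        Subgroup.centralizer ({(u : G)} : Set G)) : G)) = ConjClasses.mk x
      obtain ⟨c, hc⟩ : ∃ c : Subgroup.centralizer ({(u : G)} : Set G),
          c * y * c⁻¹ = Quotient.out (ConjClasses.mk y) := by
        have : ConjClasses.mk y = ConjClasses.mk (Quotient.out (ConjClasses.mk y)) :=
          (Quotient.out_eq _).symm
        rw [ConjClasses.mk_eq_mk_iff_isConj, isConj_iff] at this
        exact this
      rw [← hc]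
      rw [ConjClasses.mk_eq_mk_iff_isConj, isConj_iff]
      refine ⟨((c : G) * g)⁻¹, ?_⟩
      have hcu : (g * A * g⁻¹) * (c : G) = (c : G) * (g * A * g⁻¹) := by
        have := c.2
        rw [Subgroup.mem_centralizer_iff] at this
        exact this (u : G) rfl
      show ((c : G) * g)⁻¹ * ((g * A * g⁻¹) * ((c : G) * (g * B * g⁻¹) * (c : G)⁻¹)) *
        ((c : G) * g)⁻¹⁻¹ = x
      calc ((c : G) * g)⁻¹ * ((g * A * g⁻¹) * ((c : G) * (g * B * g⁻¹) * (c : G)⁻¹)) *
            ((c : G) * g)⁻¹⁻¹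
          = ((c : G) * g)⁻¹ * (((g * A * g⁻¹) * (c : G)) * (g * B * g⁻¹) * (c : G)⁻¹) *
            ((c : G) * g) := by group
        _ = ((c : G) * g)⁻¹ * (((c : G) * (g * A * g⁻¹)) * (g * B * g⁻¹) * (c : G)⁻¹) *
            ((c : G) * g) := by rw [hcu]
        _ = A * B := by group
        _ = x := hx.symm
    have hcard := Nat.card_le_card_of_surjective Φ hsurj
    haveI : Fintype P := Fintype.ofFinite P
    rw [Nat.card_sigma] at hcard
    have hbound : ∀ u : P, Nat.card (T u) ≤ M := by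
      intro u
      have hc := ih (Subgroup.centralizer ({(u : G)} : Set G))
        (Nat.gcd (Nat.card (Subgroup.centralizer ({(u : G)} : Set G))) M)
        (Nat.gcd_dvd_left _ _) (fun q hq => hprime q (Finset.mem_insert_of_mem hq)) ?_
      · exact hc.trans (Nat.le_of_dvd hMpos (Nat.gcd_dvd_right _ _))
      · intro q hq
        refine arith (N := Nat.card G) (m := m) (K := Nat.card P) Nat.card_pos hm hM.symm
          (Subgroup.card_subgroup_dvd_card _) (hprime q (Finset.mem_insert_of_mem hq)) ?_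
          (hnd q (Finset.mem_insert_of_mem hq))
        intro hqK
        rw [hk] at hqK
        have hqp := (Nat.prime_dvd_prime_iff_eq (hprime q (Finset.mem_insert_of_mem hq)) hpp).mp
          ((hprime q (Finset.mem_insert_of_mem hq)).dvd_of_dvd_pow hqK)
        exact hp (hqp ▸ hq)
    calc Nat.card _ ≤ ∑ u : P, Nat.card (T u) := hcard
      _ ≤ ∑ _u : P, M := Finset.sum_le_sum (fun u _ => hbound u)
      _ = Nat.card P * M := by simp [Nat.card_eq_fintype_card]
      _ = m := hM.symm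

/-- Let G be a finite group, π a set of primes and m the π-part of the order of G. Then the number of conjugacy classes of G consisting of π-elements (elements whose order is divisible only by primes in π) is at most m. -/
theorem result {G : Type*} [Group G] [Finite G]
    (π : Set ℕ) (hπ : ∀ q ∈ π, q.Prime)
    (m : ℕ) (hm : m ∣ Nat.card G) (hmπ : ∀ q : ℕ, q.Prime → q ∣ m → q ∈ π)
    (hm' : ∀ q ∈ π, ¬ q ∣ Nat.card G / m) :
    Nat.card {C : ConjClasses G // ∀ q : ℕ, q.Prime → (∃ g : G, ConjClasses.mk g = C ∧ q ∣ orderOf g) → q ∈ π} ≤ m := by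
  classical
  let σ : Finset ℕ := (Nat.card G).primeFactors.filter (· ∈ π)
  have h := key σ G m hm (fun q hq => hπ q (Finset.mem_filter.mp hq).2)
    (fun q hq => hm' q (Finset.mem_filter.mp hq).2)
  refine le_trans (le_of_eq ?_) h
  apply Nat.card_congr
  apply Equiv.subtypeEquivRight
  intro C
  constructor
  · intro hC q hq hex
    obtain ⟨g, hg, hqg⟩ := hex
    exact Finset.mem_filter.mpr ⟨Nat.mem_primeFactors.mpr
      ⟨hq, hqg.trans (orderOf_dvd_natCard g), Nat.card_pos.ne'⟩, hC q hq ⟨g, hg, hqg⟩⟩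
  · intro hC q hq hex
    exact (Finset.mem_filter.mp (hC q hq hex)).2

end Cfsg.Agent.S4106
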