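import Cfsg.Statements.S4107
import Mathlib

set_option autoImplicit false
open Cfsg

namespace Cfsg.Agent.S4107

/-- an element outside a normal subgroup has a prime-power-order power outside it -/
lemma exists_prime_pow_power {G : Type*} [Group G] [Finite G] (N : Subgroup G) [N.Normal] (x : G)
    (hx : x ∉ N) : ∃ (q : ℕ) (a r : ℕ), q.Prime ∧ x ^ r ∉ N ∧ orderOf (x ^ r) = q ^ a := by
  set d := orderOf (QuotientGroup.mk x : G ⧸ N) with hd
  have hd1 : d ≠ 1 := by
    intro h
    apply hx
    have : (QuotientGroup.mk x : G ⧸ N) = 1 := orderOf_eq_one_iff.mp h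
    exact (QuotientGroup.eq_one_iff x).mp this
  obtain ⟨q, hq, hqd⟩ := Nat.exists_prime_and_dvd hd1
  have hopos : 0 < orderOf x := orderOf_pos x
  obtain ⟨a, r, hqr, hor⟩ := Nat.exists_eq_pow_mul_and_not_dvd hopos.ne' q hq.ne_one
  have hr0 : r ≠ 0 := by
    intro h; rw [h, mul_zero] at hor; exact hopos.ne' hor
  refine ⟨q, a, r, hq, ?_, ?_⟩
  · intro h
    have h1 : (QuotientGroup.mk x : G ⧸ N) ^ r = 1 := by
      rw [← QuotientGroup.mk_pow]
      exact (QuotientGroup.eq_one_iff _).mpr h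
    have : d ∣ r := orderOf_dvd_of_pow_eq_one h1
    exact hqr (dvd_trans hqd this)
  · rw [orderOf_pow' x hr0, hor]
    have : Nat.gcd (q ^ a * r) r = r := Nat.gcd_eq_right (Dvd.intro_left _ rfl)
    rw [this]
    exact Nat.mul_div_cancel _ (Nat.pos_of_ne_zero hr0)

/-- key lemma: a normal q-subgroup not inside N forces N to be a q-group -/
lemma isPGroup_of_normal_pgroup_not_le {G : Type*} [Group G] [Finite G] (N : Subgroup G)
    (heq : ∀ x : G, x ∉ N → ∀ n ∈ N, orderOf (x * n) = orderOf x)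
    (q : ℕ) [Fact q.Prime] (Q : Subgroup G) [Q.Normal] (hQ : IsPGroup q Q) (hQN : ¬ Q ≤ N) :
    IsPGroup q N := by
  obtain ⟨x, hxQ, hxN⟩ := SetLike.not_le_iff_exists.mp hQN
  obtain ⟨k, hk⟩ := hQ ⟨x, hxQ⟩
  have hk' : x ^ q ^ k = 1 := congrArg Subtype.val hk
  intro n
  have ho := heq x hxN n n.2
  have h1 : (x * (n : G)) ^ q ^ k = 1 := by
    have : orderOf (x * (n : G)) ∣ q ^ k := by
      rw [ho]; exact orderOf_dvd_of_pow_eq_one hk'
    exact orderOf_dvd_iff_pow_eq_one.mp this
  have h2 : ((n : G)) ^ q ^ k ∈ Q := by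
    have : (QuotientGroup.mk (x * (n : G)) : G ⧸ Q) = QuotientGroup.mk (n : G) := by
      rw [QuotientGroup.mk_mul, (QuotientGroup.eq_one_iff x).mpr hxQ, one_mul]
    have h3 : (QuotientGroup.mk ((n : G) ^ q ^ k) : G ⧸ Q) = 1 := by
      rw [QuotientGroup.mk_pow, ← this, ← QuotientGroup.mk_pow, h1]
      rfl
    exact (QuotientGroup.eq_one_iff _).mp h3
  obtain ⟨j, hj⟩ := hQ ⟨(n : G) ^ q ^ k, h2⟩
  have hj' : ((n : G) ^ q ^ k) ^ q ^ j = 1 := congrArg Subtype.val hj
  refine ⟨k + j, ?_⟩
  apply Subtype.ext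
  rw [Subgroup.coe_pow, pow_add, pow_mul]
  exact hj'

lemma le_fitting_of_isPGroup {G : Type*} [Group G] [Finite G] (N : Subgroup G) [hN : N.Normal]
    (q : ℕ) [Fact q.Prime] (hq : IsPGroup q N) : N ≤ Cfsg.fittingSubgroup G :=
  le_sSup ⟨hN, hq.isNilpotent⟩

/-- Sylow subgroup of a normal nilpotent subgroup, as a normal subgroup of G -/
lemma sylow_map_normal {G : Type*} [Group G] [Finite G] (K : Subgroup G) [K.Normal]
    (hK : Group.IsNilpotent K) (q : ℕ) [Fact q.Prime] (P : Sylow q K) :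
    ((P : Subgroup K).map K.subtype).Normal := by
  have hPn : (P : Subgroup K).Normal := inferInstance
  have : (P : Subgroup K).Characteristic := Sylow.characteristic_of_normal P hPn
  exact ConjAct.normal_of_characteristic_of_normal

lemma sylow_map_isPGroup {G : Type*} [Group G] (K : Subgroup G)
    (q : ℕ) [Fact q.Prime] (P : Sylow q K) : IsPGroup q ((P : Subgroup K).map K.subtype) :=
  P.2.map K.subtype

/-- a q-element of a nilpotent normal subgroup lies in the image of its Sylow q-subgroup -/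
lemma mem_sylow_map {G : Type*} [Group G] [Finite G] (K : Subgroup G)
    (hK : Group.IsNilpotent K) (q : ℕ) [Fact q.Prime] (P : Sylow q K) (y : G) (hy : y ∈ K)
    (a : ℕ) (hoy : orderOf y = q ^ a) : y ∈ (P : Subgroup K).map K.subtype := by
  have hPn : (P : Subgroup K).Normal := inferInstance
  have hz : IsPGroup q (Subgroup.zpowers (⟨y, hy⟩ : K)) := by
    rw [IsPGroup.iff_card, Nat.card_zpowers]
    refine ⟨a, ?_⟩
    rw [← hoy]
    exact (Subgroup.orderOf_mk y hy)
  obtain ⟨Q', hQ'⟩ := hz.exists_le_sylow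
  have hu : Unique (Sylow q K) := Sylow.unique_of_normal P hPn
  have hQP : Q' = P := Subsingleton.elim Q' P
  rw [hQP] at hQ'
  exact ⟨⟨y, hy⟩, hQ' (Subgroup.mem_zpowers _), rfl⟩

/-- Let G be a finite group and N a proper non-trivial normal subgroup such that for every x outside N all elements of the coset xN have the same order as x. Then N ≤ F(G) or F(G) ≤ N, where F(G) is the Fitting subgroup; and if N is properly contained in F(G) then F(G) has prime-power order. -/
theorem result {G : Type*} [Group G] [Finite G] (N : Subgroup G) [N.Normal] (hN1 : N ≠ ⊥) (hN2 : N ≠ ⊤)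
    (heq : ∀ x : G, x ∉ N → ∀ n ∈ N, orderOf (x * n) = orderOf x) :
    (N ≤ Cfsg.fittingSubgroup G ∨ Cfsg.fittingSubgroup G ≤ N) ∧
    (N < Cfsg.fittingSubgroup G → IsPrimePow (Nat.card (Cfsg.fittingSubgroup G))) := by
  -- main consequence of F ≰ N
  have hmain : ¬ Cfsg.fittingSubgroup G ≤ N → ∃ (q : ℕ) (_ : Fact q.Prime), IsPGroup q N := by
    intro hF
    have : ∃ K : Subgroup G, (K.Normal ∧ Group.IsNilpotent K) ∧ ¬ K ≤ N := by
      by_contra hcon
      push Not at hcon
      exact hF (sSup_le fun K hK => hcon K hK)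
    obtain ⟨K, ⟨hKn, hKnil⟩, hKN⟩ := this
    obtain ⟨x, hxK, hxN⟩ := SetLike.not_le_iff_exists.mp hKN
    obtain ⟨q, a, r, hq, hxr, hor⟩ := exists_prime_pow_power N x hxN
    have hqf : Fact q.Prime := ⟨hq⟩
    obtain ⟨P⟩ : Nonempty (Sylow q K) := inferInstance
    have hQn := sylow_map_normal K hKnil q P
    have hQp := sylow_map_isPGroup K q P
    have hmem := mem_sylow_map K hKnil q P (x ^ r) (K.pow_mem hxK r) a hor
    refine ⟨q, hqf, ?_⟩
    exact isPGroup_of_normal_pgroup_not_le N heq q _ hQp (fun hle => hxr (hle hmem))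
  constructor
  · by_cases hF : Cfsg.fittingSubgroup G ≤ N
    · exact Or.inr hF
    · obtain ⟨q, hqf, hqN⟩ := hmain hF
      exact Or.inl (le_fitting_of_isPGroup N q hqN)
  · intro hlt
    have hF : ¬ Cfsg.fittingSubgroup G ≤ N := not_le_of_gt hlt
    obtain ⟨q, hqf, hqN⟩ := hmain hF
    have hq : q.Prime := hqf.out
    -- every normal nilpotent subgroup is a q-group
    have hall : ∀ K ∈ {K : Subgroup G | K.Normal ∧ Group.IsNilpotent K}, IsPGroup q K := by
      rintro K ⟨hKn, hKnil⟩
      by_contra hKq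
      -- some prime r ≠ q divides card K
      have : ∃ r : ℕ, r.Prime ∧ r ∣ Nat.card K ∧ r ≠ q := by
        by_contra hcon
        push Not at hcon
        apply hKq
        rw [IsPGroup.iff_card]
        have hne : Nat.card K ≠ 0 := Nat.card_pos.ne'
        exact ⟨_, Nat.eq_prime_pow_of_unique_prime_dvd hne (fun {r} hr hrd => hcon r hr hrd)⟩
      obtain ⟨r, hr, hrK, hrq⟩ := this
      have hrf : Fact r.Prime := ⟨hr⟩
      obtain ⟨R⟩ : Nonempty (Sylow r K) := inferInstance
      have hRn := sylow_map_normal K hKnil r R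
      have hRp := sylow_map_isPGroup K r R
      have hRne : (R : Subgroup K) ≠ ⊥ := R.ne_bot_of_dvd_card hrK
      have hRN : ¬ (R : Subgroup K).map K.subtype ≤ N := by
        intro hle
        apply hRne
        rw [Subgroup.eq_bot_iff_forall]
        intro y hy
        have hyN : ((y : K) : G) ∈ N := hle ⟨y, hy, rfl⟩
        obtain ⟨k, hk⟩ := hqN ⟨(y : G), hyN⟩
        obtain ⟨j, hj⟩ := R.2 ⟨y, hy⟩
        have hk' : (y : G) ^ q ^ k = 1 := congrArg Subtype.val hk
        have hj' : (y : G) ^ r ^ j = 1 := by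
          have := congrArg Subtype.val hj
          have h2 := congrArg Subtype.val this
          simpa using h2
        have h1 : orderOf (y : G) ∣ q ^ k := orderOf_dvd_of_pow_eq_one hk'
        have h2 : orderOf (y : G) ∣ r ^ j := orderOf_dvd_of_pow_eq_one hj'
        have hcop : (q ^ k).Coprime (r ^ j) :=
          Nat.Coprime.pow k j ((Nat.coprime_primes hq hr).mpr (Ne.symm hrq))
        have : orderOf (y : G) = 1 := Nat.eq_one_of_dvd_coprimes hcop h1 h2
        have hy1 : (y : G) = 1 := orderOf_eq_one_iff.mp this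
        exact Subtype.ext hy1
      have hrN : IsPGroup r N := isPGroup_of_normal_pgroup_not_le N heq r _ hRp hRN
      -- N is both q-group and r-group
      apply hN1
      rw [Subgroup.eq_bot_iff_forall]
      intro n hn
      obtain ⟨k, hk⟩ := hqN ⟨n, hn⟩
      obtain ⟨j, hj⟩ := hrN ⟨n, hn⟩
      have hk' : n ^ q ^ k = 1 := congrArg Subtype.val hk
      have hj' : n ^ r ^ j = 1 := congrArg Subtype.val hj
      have h1 : orderOf n ∣ q ^ k := orderOf_dvd_of_pow_eq_one hk'
      have h2 : orderOf n ∣ r ^ j := orderOf_dvd_of_pow_eq_one hj'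
      have hcop : (q ^ k).Coprime (r ^ j) :=
        Nat.Coprime.pow k j ((Nat.coprime_primes hq hr).mpr (Ne.symm hrq))
      have : orderOf n = 1 := Nat.eq_one_of_dvd_coprimes hcop h1 h2
      exact orderOf_eq_one_iff.mp this
    have hFq : IsPGroup q (Cfsg.fittingSubgroup G) :=
      Sylow.sSup_of_normal _ hall (fun K hK => hK.1)
    obtain ⟨k, hk⟩ := IsPGroup.iff_card.mp hFq
    rw [hk]
    have hk0 : k ≠ 0 := by
      intro h0
      rw [h0, pow_zero] at hk
      have hbot : Cfsg.fittingSubgroup G = ⊥ := Subgroup.card_eq_one.mp hk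
      rw [hbot] at hlt
      exact not_lt_bot hlt
    exact ⟨q, k, hq.prime, Nat.pos_of_ne_zero hk0, rfl⟩

end Cfsg.Agent.S4107
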