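import Cfsg.Statements.S4108
import Mathlib

set_option autoImplicit false
open Cfsg

namespace Cfsg.Agent.S4108

open scoped Pointwise

lemma mem_conj_smul {X : Type*} [Group X] (K : Subgroup X) (g x : X) :
    x ∈ MulAut.conj g • K ↔ ∃ b ∈ K, x = g * b * g⁻¹ := by
  rw [Subgroup.mem_smul_pointwise_iff_exists]
  constructor
  · rintro ⟨b, hb, rfl⟩
    exact ⟨b, hb, by simp [MulAut.smul_def]⟩
  · rintro ⟨b, hb, rfl⟩
    exact ⟨b, hb, by simp [MulAut.smul_def]⟩

/-- Let G be a finite group, p a prime and N a proper non-trivial normal p-subgroup such that for every x outside N all elements of the coset xN have the same order as x. Then every non-trivial subgroup H of G of order prime to p acts fixed-point-freely on N: NH is a Frobenius group with complement H and kernel N. -/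
theorem result {G : Type*} [Group G] [Finite G] (N : Subgroup G) [N.Normal] (hN1 : N ≠ ⊥) (hN2 : N ≠ ⊤)
    (heq : ∀ x : G, x ∉ N → ∀ n ∈ N, orderOf (x * n) = orderOf x)
    (p : ℕ) [Fact p.Prime] (hNp : IsPGroup p N) :
    ∀ H : Subgroup G, H ≠ ⊥ → (Nat.card H).Coprime p →
      Cfsg.IsFrobeniusComplement (H.subgroupOf (N ⊔ H)) ∧ Cfsg.frobeniusKernel (H.subgroupOf (N ⊔ H)) = (N.subgroupOf (N ⊔ H) : Set ↥(N ⊔ H)) := by
  intro H hH1 hHp
  have hp : p.Prime := Fact.out
  -- F1
  have hdisj : ∀ x : G, x ∈ H → x ∈ N → x = 1 := by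
    intro x hxH hxN
    obtain ⟨k, hk⟩ := IsPGroup.iff_card.mp hNp
    have hcop : (Nat.card H).Coprime (Nat.card N) := by
      rw [hk]; exact Nat.Coprime.pow_right k hHp
    have : H ⊓ N = ⊥ := Subgroup.inf_eq_bot_of_coprime hcop
    have hx : x ∈ H ⊓ N := ⟨hxH, hxN⟩
    rw [this] at hx
    exact Subgroup.mem_bot.mp hx
  -- F2
  have hfpf : ∀ h ∈ H, h ≠ 1 → ∀ n ∈ N, h * n = n * h → n = 1 := by
    intro h hh hh1 n hn hcomm
    have hhN : h ∉ N := fun hc => hh1 (hdisj h hh hc)
    have ho := heq h hhN n hn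
    have hoh : (orderOf h).Coprime p := by
      have : orderOf h ∣ Nat.card H := by
        have := Subgroup.orderOf_dvd_natCard H hh
        exact this
      exact Nat.Coprime.coprime_dvd_left this hHp
    obtain ⟨k, hk⟩ := (IsPGroup.iff_orderOf.mp hNp) ⟨n, hn⟩
    have hk' : orderOf n = p ^ k := by
      rw [← hk]; exact (Subgroup.orderOf_coe ⟨n, hn⟩)
    have hcop : (orderOf h).Coprime (orderOf n) := by
      rw [hk']; exact Nat.Coprime.pow_right k hoh
    have hc : Commute h n := hcomm
    have := hc.orderOf_mul_eq_mul_orderOf_of_coprime hcop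
    rw [ho] at this
    have hpos : 0 < orderOf h := orderOf_pos h
    have h1 : orderOf n = 1 := by
      have : orderOf h * 1 = orderOf h * orderOf n := by rw [mul_one]; exact this
      exact (Nat.eq_of_mul_eq_mul_left hpos this).symm
    exact orderOf_eq_one_iff.mp h1
  -- F3
  have hdecomp : ∀ x : G, x ∈ N ⊔ H → ∃ n ∈ N, ∃ h ∈ H, x = n * h := by
    intro x hx
    have : (↑(N ⊔ H) : Set G) = (N : Set G) * (H : Set G) := Subgroup.normal_mul N H
    have hx' : x ∈ (N : Set G) * (H : Set G) := by rw [← this]; exact hx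
    obtain ⟨n, hn, h, hh, rfl⟩ := Set.mem_mul.mp hx'
    exact ⟨n, hn, h, hh, rfl⟩
  have hNle : N ≤ N ⊔ H := le_sup_left
  have hHle : H ≤ N ⊔ H := le_sup_right
  refine ⟨⟨?_, ?_, ?_⟩, ?_⟩
  · -- K ≠ ⊥
    intro hbot
    apply hH1
    rw [Subgroup.eq_bot_iff_forall]
    intro h hh
    have : (⟨h, hHle hh⟩ : ↥(N ⊔ H)) ∈ H.subgroupOf (N ⊔ H) := Subgroup.mem_subgroupOf.mpr hh
    rw [hbot, Subgroup.mem_bot] at this
    exact congrArg Subtype.val this
  · -- K ≠ ⊤
    intro htop
    apply hN1
    rw [Subgroup.eq_bot_iff_forall]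
    intro n hn
    have : (⟨n, hNle hn⟩ : ↥(N ⊔ H)) ∈ H.subgroupOf (N ⊔ H) := by rw [htop]; trivial
    exact hdisj n (Subgroup.mem_subgroupOf.mp this) hn
  · -- TI
    intro g hg
    rw [Subgroup.eq_bot_iff_forall]
    rintro a ⟨haK, haconj⟩
    have haH : (a : G) ∈ H := Subgroup.mem_subgroupOf.mp haK
    obtain ⟨b, hbK, hab⟩ := (mem_conj_smul _ g a).mp haconj
    have hbH : (b : G) ∈ H := Subgroup.mem_subgroupOf.mp hbK
    obtain ⟨n, hn, h, hh, hgnh⟩ := hdecomp g g.2
    have hn1 : n ≠ 1 := by
      intro hn1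
      apply hg
      rw [Subgroup.mem_subgroupOf, hgnh, hn1, one_mul]
      exact hh
    have habG : (a : G) = n * (h * b * h⁻¹) * n⁻¹ := by
      have := congrArg Subtype.val hab
      simp only [Subgroup.coe_mul, Subgroup.coe_inv] at this
      rw [this, hgnh]; group
    set b' : G := h * b * h⁻¹ with hb'
    have hb'H : b' ∈ H := H.mul_mem (H.mul_mem hh hbH) (H.inv_mem hh)
    have h1 : (a : G) * b'⁻¹ = 1 := by
      apply hdisj
      · exact H.mul_mem haH (H.inv_mem hb'H)
      · have : (a : G) * b'⁻¹ = n * (b' * n⁻¹ * b'⁻¹) := by rw [habG]; group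
        rw [this]
        exact N.mul_mem hn (Subgroup.Normal.conj_mem inferInstance n⁻¹ (N.inv_mem hn) b')
    have hab' : (a : G) = b' := by
      have := mul_inv_eq_one.mp h1
      exact this
    by_contra ha1
    have ha1G : (a : G) ≠ 1 := fun hc => ha1 (Subtype.ext hc)
    apply hn1
    apply hfpf (a : G) haH ha1G n hn
    have : (a : G) = n * a * n⁻¹ := by
      conv_lhs => rw [habG, ← hab']
    calc (a : G) * n = (n * a * n⁻¹) * n := by rw [← this]
      _ = n * a := by group
  · -- kernel
    ext x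
    simp only [frobeniusKernel, Set.mem_setOf_eq, SetLike.mem_coe, Subgroup.mem_subgroupOf]
    constructor
    · rintro (rfl | hx)
      · exact N.one_mem
      · by_contra hxN
        obtain ⟨n, hn, h, hh, hxnh⟩ := hdecomp x x.2
        have hh1 : h ≠ 1 := by
          intro hh1
          apply hxN
          rw [hxnh, hh1, mul_one]; exact hn
        -- the map m ↦ m h m⁻¹ h⁻¹ on N
        let φ : N → N := fun m => ⟨(m : G) * h * (m : G)⁻¹ * h⁻¹, by
          have : (m : G) * h * (m : G)⁻¹ * h⁻¹ = (m : G) * (h * (m : G)⁻¹ * h⁻¹) := by group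
          rw [this]
          exact N.mul_mem m.2 (Subgroup.Normal.conj_mem inferInstance _ (N.inv_mem m.2) h)⟩
        have hφinj : Function.Injective φ := by
          intro m m' hmm
          have hval : (m : G) * h * (m : G)⁻¹ * h⁻¹ = (m' : G) * h * (m' : G)⁻¹ * h⁻¹ :=
            congrArg Subtype.val hmm
          have hval' : (m : G) * h * (m : G)⁻¹ = (m' : G) * h * (m' : G)⁻¹ := mul_right_cancel hval
          have hcomm : h * ((m' : G)⁻¹ * m) = ((m' : G)⁻¹ * m) * h := by
            calc h * ((m' : G)⁻¹ * m) = (m' : G)⁻¹ * ((m' : G) * h * (m' : G)⁻¹) * m := by group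
              _ = (m' : G)⁻¹ * ((m : G) * h * (m : G)⁻¹) * m := by rw [hval']
              _ = ((m' : G)⁻¹ * m) * h := by group
          have := hfpf h hh hh1 ((m' : G)⁻¹ * m) (N.mul_mem (N.inv_mem m'.2) m.2) hcomm
          have h2 : (m : G) = m' := by
            have := inv_mul_eq_one.mp this
            exact this.symm
          exact Subtype.ext h2
        have hφsurj : Function.Surjective φ := Finite.injective_iff_surjective.mp hφinj
        obtain ⟨m, hm⟩ := hφsurj ⟨n, hn⟩
        have hmG : (m : G) * h * (m : G)⁻¹ * h⁻¹ = n := congrArg Subtype.val hm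
        apply hx ⟨m, hNle m.2⟩
        rw [mem_conj_smul]
        refine ⟨⟨h, hHle hh⟩, Subgroup.mem_subgroupOf.mpr hh, ?_⟩
        apply Subtype.ext
        simp only [Subgroup.coe_mul, Subgroup.coe_inv]
        rw [hxnh, ← hmG]; group
    · intro hxN
      by_cases hx1 : x = 1
      · exact Or.inl hx1
      · right
        intro g hxg
        obtain ⟨b, hbK, hxb⟩ := (mem_conj_smul _ g x).mp hxg
        have hbH : (b : G) ∈ H := Subgroup.mem_subgroupOf.mp hbK
        have hbN : (b : G) ∈ N := by
          have : (b : G) = (g : G)⁻¹ * x * (g : G)⁻¹⁻¹ := by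
            have := congrArg Subtype.val hxb
            simp only [Subgroup.coe_mul, Subgroup.coe_inv] at this
            rw [this]; group
          rw [this]
          exact Subgroup.Normal.conj_mem inferInstance _ hxN _
        have hb1 : (b : G) = 1 := hdisj b hbH hbN
        apply hx1
        apply Subtype.ext
        have := congrArg Subtype.val hxb
        simp only [Subgroup.coe_mul, Subgroup.coe_inv] at this
        rw [this, hb1]; simp

end Cfsg.Agent.S4108
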