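import Cfsg.Statements.S4112
import Mathlib

set_option autoImplicit false
open Cfsg

namespace Cfsg.Agent.S4112

/-- a proper supplement exists when a prime divides the order but not the index of a normal subgroup -/
lemma exists_proper_supplement {H : Type*} [Group H] [Finite H] (K : Subgroup H) [K.Normal]
    (p : ℕ) [Fact p.Prime] (hpH : p ∣ Nat.card H) (hpK : ¬ p ∣ K.index) :
    ∃ L : Subgroup H, L ≠ ⊤ ∧ L ⊔ K = ⊤ := by
  have hp : p.Prime := Fact.out
  have hpK' : p ∣ Nat.card K := by
    have h := Subgroup.card_mul_index K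
    rw [← h] at hpH
    rcases (Nat.Prime.dvd_mul hp).mp hpH with h1 | h1
    · exact h1
    · exact absurd h1 hpK
  obtain ⟨P⟩ : Nonempty (Sylow p K) := inferInstance
  have hPne : (P : Subgroup K) ≠ ⊥ := P.ne_bot_of_dvd_card hpK'
  set P' : Subgroup H := (P : Subgroup K).map K.subtype with hP'
  have hP'ne : P' ≠ ⊥ := by
    intro h
    apply hPne
    rw [hP'] at h
    exact (Subgroup.map_eq_bot_iff_of_injective _ K.subtype_injective).mp h
  have hfrat : Subgroup.normalizer (P' : Set H) ⊔ K = ⊤ := Sylow.normalizer_sup_eq_top P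
  by_cases hn : Subgroup.normalizer (P' : Set H) = ⊤
  · -- P' normal Hall subgroup
    haveI : P'.Normal := Subgroup.normalizer_eq_top_iff.mp hn
    have hidx : P'.index = (P : Subgroup K).index * K.index := Subgroup.index_map_subtype _
    have hcard : Nat.card P' = Nat.card (P : Subgroup K) :=
      Nat.card_congr ((P : Subgroup K).equivMapOfInjective K.subtype K.subtype_injective).symm.toEquiv
    have hcop : (Nat.card P').Coprime P'.index := by
      rw [hcard, hidx]
      obtain ⟨n, hn⟩ := IsPGroup.iff_card.mp P.2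
      rw [hn]
      apply Nat.Coprime.pow_left
      apply Nat.Coprime.mul_right
      · exact (Nat.Prime.coprime_iff_not_dvd hp).mpr P.not_dvd_index
      · exact (Nat.Prime.coprime_iff_not_dvd hp).mpr hpK
    obtain ⟨L, hL⟩ := Subgroup.exists_right_complement'_of_coprime hcop
    refine ⟨L, ?_, ?_⟩
    · intro hLtop
      apply hP'ne
      have := hL.disjoint
      rw [hLtop] at this
      exact disjoint_top.mp this
    · have h1 : P' ⊔ L = ⊤ := hL.sup_eq_top
      have h2 : P' ≤ K := by
        rw [hP']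
        exact Subgroup.map_subtype_le _
      apply top_le_iff.mp
      rw [← h1]
      exact sup_le (le_trans h2 le_sup_right) le_sup_left
  · exact ⟨Subgroup.normalizer (P' : Set H), hn, hfrat⟩

lemma part_a_mpr {G : Type*} [Group G] [Finite G] (N M : Subgroup G) [N.Normal] [M.Normal]
    (hcam : ∀ g : G, g ∉ N → ∀ m ∈ M, ∃ x : G, x * g * x⁻¹ = g * m)
    (hcop : N.index.Coprime (Nat.card M)) :
    ∀ x ∈ M, x ≠ 1 → Subgroup.centralizer ({x} : Set G) ≤ N := by
  intro x hxM hx1 g hg
  by_contra hgN
  have hcomm : x * g = g * x := by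
    rw [Subgroup.mem_centralizer_iff] at hg
    exact hg x rfl
  -- order of image of g
  set d := orderOf (QuotientGroup.mk g : G ⧸ N) with hd
  have hd1 : d ≠ 1 := by
    intro h
    apply hgN
    have : (QuotientGroup.mk g : G ⧸ N) = 1 := orderOf_eq_one_iff.mp h
    exact (QuotientGroup.eq_one_iff g).mp this
  obtain ⟨q, hq, hqd⟩ := Nat.exists_prime_and_dvd hd1
  have hqidx : q ∣ N.index := by
    have : d ∣ Nat.card (G ⧸ N) := orderOf_dvd_natCard _
    rw [Subgroup.index_eq_card]
    exact dvd_trans hqd this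
  have hqM : ¬ q ∣ Nat.card M := by
    intro h
    have := Nat.dvd_gcd hqidx h
    rw [Nat.Coprime.gcd_eq_one hcop] at this
    exact hq.one_lt.ne' (Nat.dvd_one.mp this)
  -- q-part of g
  have hopos : 0 < orderOf g := orderOf_pos g
  obtain ⟨a, r, hqr, hor⟩ := Nat.exists_eq_pow_mul_and_not_dvd hopos.ne' q hq.ne_one
  have hr0 : r ≠ 0 := by
    intro h; rw [h, mul_zero] at hor; exact hopos.ne' hor
  set g₁ := g ^ r with hg₁
  have hog₁ : orderOf g₁ = q ^ a := by
    rw [hg₁, orderOf_pow' g hr0, hor]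
    have : Nat.gcd (q ^ a * r) r = r := Nat.gcd_eq_right (Dvd.intro_left _ rfl)
    rw [this]
    exact Nat.mul_div_cancel _ (Nat.pos_of_ne_zero hr0)
  have hg₁N : g₁ ∉ N := by
    intro h
    have h1 : (QuotientGroup.mk g : G ⧸ N) ^ r = 1 := by
      rw [← QuotientGroup.mk_pow]
      exact (QuotientGroup.eq_one_iff _).mpr h
    have : d ∣ r := orderOf_dvd_of_pow_eq_one h1
    exact hqr (dvd_trans hqd this)
  have hcomm₁ : Commute g₁ x := by
    have : Commute g x := hcomm.symm
    exact this.pow_left r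
  have hox : (orderOf x).Coprime q := by
    have h1 : orderOf x ∣ Nat.card M := Subgroup.orderOf_dvd_natCard M hxM
    have h2 : (Nat.card M).Coprime q := ((Nat.Prime.coprime_iff_not_dvd hq).mpr hqM).symm
    exact Nat.Coprime.coprime_dvd_left h1 h2
  have hcop₁ : (orderOf g₁).Coprime (orderOf x) := by
    rw [hog₁]
    exact Nat.Coprime.pow_left a hox.symm
  have hmul := hcomm₁.orderOf_mul_eq_mul_orderOf_of_coprime hcop₁
  obtain ⟨y, hy⟩ := hcam g₁ hg₁N x hxM
  have hconj : orderOf (g₁ * x) = orderOf g₁ := by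
    rw [← hy]
    have : y * g₁ * y⁻¹ = MulAut.conj y g₁ := by simp
    rw [this]
    exact MulEquiv.orderOf_eq (MulAut.conj y) g₁
  rw [hconj] at hmul
  have hpos : 0 < orderOf g₁ := orderOf_pos g₁
  have : orderOf x = 1 := by
    have h2 : orderOf g₁ * 1 = orderOf g₁ * orderOf x := by rw [mul_one]; exact hmul
    exact (Nat.eq_of_mul_eq_mul_left hpos h2).symm
  exact hx1 (orderOf_eq_one_iff.mp this)

lemma part_a_mp {G : Type*} [Group G] [Finite G] (N M : Subgroup G) [N.Normal] [M.Normal]
    (h : ∀ x ∈ M, x ≠ 1 → Subgroup.centralizer ({x} : Set G) ≤ N) :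
    N.index.Coprime (Nat.card M) := by
  apply Nat.coprime_of_dvd
  intro q hq hqidx hqM
  have : Fact q.Prime := ⟨hq⟩
  obtain ⟨Q⟩ : Nonempty (Sylow q G) := inferInstance
  -- Q acts on M by conjugation
  let _ : MulAction (Q : Subgroup G) M :=
    MulAction.compHom M ((MulAut.conjNormal (H := M)).comp (Q : Subgroup G).subtype)
  have hQ : IsPGroup q (Q : Subgroup G) := Q.2
  have h1 : (1 : M) ∈ MulAction.fixedPoints (Q : Subgroup G) M := by
    intro s
    show (MulAut.conjNormal (H := M) (s : G)) 1 = 1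
    simp
  obtain ⟨b, hb, hb1⟩ := hQ.exists_fixed_point_of_prime_dvd_card_of_fixed_point M hqM h1
  have hbM : (b : G) ∈ M := b.2
  have hbne : (b : G) ≠ 1 := by
    intro hc
    apply hb1
    exact (Subtype.ext hc).symm
  have hQle : (Q : Subgroup G) ≤ Subgroup.centralizer ({(b : G)} : Set G) := by
    intro s hs
    rw [Subgroup.mem_centralizer_iff]
    intro y hy
    rw [Set.mem_singleton_iff] at hy
    subst hy
    have := hb ⟨s, hs⟩
    have h2 : (MulAut.conjNormal (H := M) s) b = b := this
    have h3 : s * (b : G) * s⁻¹ = b := by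
      have := congrArg Subtype.val h2
      simpa using this
    calc (b : G) * s = (s * (b : G) * s⁻¹) * s := by rw [h3]
      _ = s * b := by group
  have hQN : (Q : Subgroup G) ≤ N := le_trans hQle (h b hbM hbne)
  have : N.index ∣ (Q : Subgroup G).index := Subgroup.index_dvd_of_le hQN
  exact Q.not_dvd_index (dvd_trans hqidx this)

lemma part_b {G : Type*} [Group G] [Finite G] (N M : Subgroup G) [N.Normal] [M.Normal]
    (hcop : N.index.Coprime (Nat.card M)) :
    ∃ H : Subgroup G, H ⊔ N = ⊤ ∧ H ⊓ M = ⊥ := by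
  classical
  -- minimal supplement
  have hex : ∃ n : ℕ, ∃ H : Subgroup G, H ⊔ N = ⊤ ∧ Nat.card H = n :=
    ⟨Nat.card (⊤ : Subgroup G), ⊤, by simp, rfl⟩
  obtain ⟨H, hHN, hHcard⟩ := Nat.find_spec hex
  have hmin : ∀ L : Subgroup G, L ⊔ N = ⊤ → Nat.card H ≤ Nat.card L := by
    intro L hL
    rw [hHcard]
    exact Nat.find_min' hex ⟨L, hL, rfl⟩
  refine ⟨H, hHN, ?_⟩
  by_contra hne
  have hcard1 : Nat.card (H ⊓ M : Subgroup G) ≠ 1 := by
    intro h
    exact hne (Subgroup.card_eq_one.mp h)
  obtain ⟨p, hp, hpd⟩ := Nat.exists_prime_and_dvd hcard1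
  have : Fact p.Prime := ⟨hp⟩
  have hpH : p ∣ Nat.card H := dvd_trans hpd (Subgroup.card_dvd_of_le inf_le_left)
  have hpM : p ∣ Nat.card M := dvd_trans hpd (Subgroup.card_dvd_of_le inf_le_right)
  have hpidx : ¬ p ∣ N.index := by
    intro h
    have := Nat.dvd_gcd h hpM
    rw [Nat.Coprime.gcd_eq_one hcop] at this
    exact hp.one_lt.ne' (Nat.dvd_one.mp this)
  -- index of N ∩ H in H
  have hrel : (N.subgroupOf H).index = N.index := by
    have h1 : N.relIndex (H ⊔ N) = N.relIndex H := Subgroup.relIndex_sup_right H N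
    rw [hHN, Subgroup.relIndex_top_right] at h1
    exact h1.symm
  obtain ⟨L, hLtop, hLsup⟩ := exists_proper_supplement (N.subgroupOf H) p hpH (by rw [hrel]; exact hpidx)
  set L' : Subgroup G := L.map H.subtype with hL'
  have hL'N : L' ⊔ N = ⊤ := by
    have h1 : (L ⊔ N.subgroupOf H).map H.subtype = H := by
      rw [hLsup, ← MonoidHom.range_eq_map, Subgroup.range_subtype]
    rw [Subgroup.map_sup] at h1
    have h2 : (N.subgroupOf H).map H.subtype ≤ N := by
      rw [Subgroup.subgroupOf_map_subtype]; exact inf_le_left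
    apply top_le_iff.mp
    rw [← hHN]
    apply sup_le _ le_sup_right
    rw [← h1]
    exact sup_le le_sup_left (le_trans h2 le_sup_right)
  have hcardL' : Nat.card L' = Nat.card L :=
    Nat.card_congr (L.equivMapOfInjective H.subtype H.subtype_injective).symm.toEquiv
  have hlt : Nat.card L < Nat.card H := by
    have hidx : L.index ≠ 1 := fun h => hLtop (Subgroup.index_eq_one.mp h)
    have hmul := Subgroup.card_mul_index L
    have hpos : 0 < Nat.card L := Nat.card_pos
    have hidxpos : 0 < L.index := Nat.pos_of_ne_zero Subgroup.index_ne_zero_of_finite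
    have : 2 ≤ L.index := by omega
    nlinarith
  have := hmin L' hL'N
  omega

/-- Let G be a finite group and M ≤ N non-trivial proper normal subgroups such that for every g outside N the conjugacy class of g is a union of cosets of M (equivalently gm is conjugate to g for every m ∈ M). Then (1) and (2) below are equivalent, and they imply (3): (1) every g outside N acts fixed-point-freely on M, that is C_G(x) ≤ N for every x ∈ M, x ≠ 1; (2) the index of N in G is coprime to the order of M; (3) there is a subgroup H of G with HN = G and H ∩ M = 1. -/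
theorem result {G : Type*} [Group G] [Finite G] (N M : Subgroup G) [N.Normal] [M.Normal] (hMN : M ≤ N) (hM1 : M ≠ ⊥) (hN2 : N ≠ ⊤)
    (hcam : ∀ g : G, g ∉ N → ∀ m ∈ M, ∃ x : G, x * g * x⁻¹ = g * m) :
    ((∀ x ∈ M, x ≠ 1 → Subgroup.centralizer ({x} : Set G) ≤ N) ↔ N.index.Coprime (Nat.card M)) ∧
    ((∀ x ∈ M, x ≠ 1 → Subgroup.centralizer ({x} : Set G) ≤ N) → ∃ H : Subgroup G, H ⊔ N = ⊤ ∧ H ⊓ M = ⊥) := by
  refine ⟨⟨part_a_mp N M, part_a_mpr N M hcam⟩, fun h => part_b N M (part_a_mp N M h)⟩

end Cfsg.Agent.S4112
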