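import Cfsg.Statements.S4115
import Cfsg.Agent.S0877
import Cfsg.Agent.S0039
import Cfsg.Agent.Lib.Helper73.TIHall

set_option autoImplicit false
universe u
open Cfsg

namespace Cfsg.Agent.S4115

open Cfsg.Agent.Lib.Helper73.TIHall

/-- forward direction: a normal complement in the normalizer gives one in the group -/
theorem forward {G : Type u} [Group G] [Finite G] (H : Subgroup G)
    (hTI' : ∀ g : G, ∀ u ∈ H, u ≠ 1 → g * u * g⁻¹ ∈ H → g ∈ Subgroup.normalizer (H : Set G))
    (hHallG : (Nat.card H).Coprime H.index)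
    (K : Subgroup (Subgroup.normalizer (H : Set G))) (hKn : K.Normal)
    (hKc : K.IsComplement' (H.subgroupOf (Subgroup.normalizer (H : Set G)))) :
    ∃ N : Subgroup G, N.Normal ∧ N.IsComplement' H := by
  classical
  haveI := hKn
  haveI hHn : (H.subgroupOf (Subgroup.normalizer (H : Set G))).Normal :=
    Subgroup.normal_in_normalizer
  have hfus : ∀ x ∈ H, ∀ y ∈ H, IsConj x y → ∃ h ∈ H, h * x * h⁻¹ = y := by
    intro x hx y hy hxy
    obtain ⟨g, hg⟩ := isConj_iff.mp hxy
    by_cases hx1 : x = 1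
    · refine ⟨1, H.one_mem, ?_⟩
      rw [← hg, hx1]; simp
    · have hgM : g ∈ Subgroup.normalizer (H : Set G) := hTI' g x hx hx1 (by rw [hg]; exact hy)
      have hmem : (⟨g, hgM⟩ : Subgroup.normalizer (H : Set G)) ∈
          ((K ⊔ H.subgroupOf (Subgroup.normalizer (H : Set G)) :
            Subgroup (Subgroup.normalizer (H : Set G))) : Set (Subgroup.normalizer (H : Set G))) := by
        rw [hKc.sup_eq_top]; trivial
      rw [Subgroup.normal_mul] at hmem
      obtain ⟨k, hk, h, hh, hkh⟩ := Set.mem_mul.mp hmem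
      have hxM : (⟨x, Subgroup.le_normalizer hx⟩ : Subgroup.normalizer (H : Set G)) ∈
          H.subgroupOf (Subgroup.normalizer (H : Set G)) := hx
      have hw := Subgroup.mul_mem _ (Subgroup.mul_mem _ hh hxM) (Subgroup.inv_mem _ hh)
      have hcomm := Subgroup.commute_of_normal_of_disjoint K
        (H.subgroupOf (Subgroup.normalizer (H : Set G))) hKn hHn hKc.disjoint k _ hk hw
      refine ⟨(h : G), hh, ?_⟩
      have e1 : k * (h * ⟨x, Subgroup.le_normalizer hx⟩ * h⁻¹) * k⁻¹
          = h * ⟨x, Subgroup.le_normalizer hx⟩ * h⁻¹ := by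
        rw [hcomm.eq]; group
      have e2 := congrArg (fun z : Subgroup.normalizer (H : Set G) => (z : G)) e1
      have e3 : (k : G) * ((h : G) * x * (h : G)⁻¹) * (k : G)⁻¹ = (h : G) * x * (h : G)⁻¹ := by
        simpa using e2
      have e4 : g = (k : G) * (h : G) := by
        have := congrArg (fun z : Subgroup.normalizer (H : Set G) => (z : G)) hkh
        simpa using this.symm
      rw [← hg, e4, ← e3]
      group
  have helem : ∀ (E : Subgroup G) (p : ℕ), p.Prime → Cfsg.IsElementary p E →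
      Nat.card E ∣ Nat.card H → ∃ g : G, E.map (MulAut.conj g).toMonoidHom ≤ H := by
    intro E p _ _ hdvd
    obtain ⟨y, hy⟩ := exists_conj_le_ti H hTI' E (Nat.Coprime.coprime_dvd_left hdvd hHallG)
    refine ⟨y⁻¹, ?_⟩
    rintro _ ⟨x, hx, rfl⟩
    simpa [MulAut.conj_apply] using hy x hx
  obtain ⟨N, hNn, hNH, hNH'⟩ := Cfsg.Agent.S0877.result H hHallG hfus helem
  haveI := hNn
  refine ⟨N, hNn, ?_⟩
  apply Subgroup.isComplement'_of_disjoint_and_mul_eq_univ (disjoint_iff.mpr hNH')
  rw [← Subgroup.normal_mul, hNH]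
  rfl

/-- backward direction -/
theorem backward {G : Type u} [Group G] [Finite G] (H : Subgroup G)
    (N : Subgroup G) (hNn : N.Normal) (hc : N.IsComplement' H) :
    ∃ K : Subgroup (Subgroup.normalizer (H : Set G)), K.Normal ∧
      K.IsComplement' (H.subgroupOf (Subgroup.normalizer (H : Set G))) := by
  haveI := hNn
  refine ⟨N.subgroupOf (Subgroup.normalizer (H : Set G)), inferInstance, ?_⟩
  apply Subgroup.isComplement'_of_disjoint_and_mul_eq_univ
  · rw [Subgroup.disjoint_def]
    intro x hx1 hx2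
    have : (x : G) = 1 := Subgroup.disjoint_def.mp hc.disjoint hx1 hx2
    exact Subtype.ext this
  · rw [Set.eq_univ_iff_forall]
    intro m
    have hm : (m : G) ∈ ((N ⊔ H : Subgroup G) : Set G) := by rw [hc.sup_eq_top]; trivial
    rw [Subgroup.normal_mul] at hm
    obtain ⟨n, hn, h, hh, hnh⟩ := Set.mem_mul.mp hm
    have hhM : h ∈ Subgroup.normalizer (H : Set G) := Subgroup.le_normalizer hh
    have hnM : n ∈ Subgroup.normalizer (H : Set G) := by
      have e : n = (m : G) * h⁻¹ := by rw [← hnh]; group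
      rw [e]
      exact Subgroup.mul_mem _ m.2 (Subgroup.inv_mem _ hhM)
    rw [Set.mem_mul]
    exact ⟨⟨n, hnM⟩, hn, ⟨h, hhM⟩, hh, Subtype.ext hnh⟩

theorem result {G : Type u} [Group G] [Finite G] (H : Subgroup G)
    (hTI : Cfsg.IsTISubset (H : Set G)) (hHall : (Nat.card H).Coprime (H.subgroupOf (Subgroup.normalizer (H : Set G))).index) :
    ((∃ K : Subgroup (Subgroup.normalizer (H : Set G)), K.Normal ∧ K.IsComplement' (H.subgroupOf (Subgroup.normalizer (H : Set G)))) ↔
      (∃ N : Subgroup G, N.Normal ∧ N.IsComplement' H)) ∧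
    (¬ H.Normal → (∃ K : Subgroup (Subgroup.normalizer (H : Set G)), K.Normal ∧ K.IsComplement' (H.subgroupOf (Subgroup.normalizer (H : Set G)))) →
      ∃ (F : Type u) (_ : Group F) (_ : Finite F) (C : Subgroup F), Cfsg.IsFrobeniusComplement C ∧ Nonempty (H ≃* C)) := by
  classical
  have hTI' : ∀ g : G, ∀ u ∈ H, u ≠ 1 → g * u * g⁻¹ ∈ H →
      g ∈ Subgroup.normalizer (H : Set G) := by
    intro g u hu hu1 hgu
    by_contra hg
    exact hu1 (hTI g hg u hu hgu)
  have hHallG : (Nat.card H).Coprime H.index := coprime_index_of_ti H hTI' hHall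
  refine ⟨⟨?_, ?_⟩, ?_⟩
  · rintro ⟨K, hKn, hKc⟩
    exact forward H hTI' hHallG K hKn hKc
  · rintro ⟨N, hNn, hc⟩
    exact backward H N hNn hc
  · rintro hnn ⟨K, hKn, hKc⟩
    obtain ⟨N, hNn, hc⟩ := forward H hTI' hHallG K hKn hKc
    haveI := hNn
    have hcop : (Nat.card N).Coprime (Nat.card H) := by
      rw [← hc.index_eq_card]
      exact hHallG.symm
    have hH1 : H ≠ ⊥ := by
      intro h
      apply hnn
      rw [h]
      infer_instance
    have hdisj : ∀ x, x ∈ N → x ∈ H → x = 1 :=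
      fun x hxN hxH => Subgroup.disjoint_def.mp hc.disjoint hxN hxH
    have hKne : N ⊓ Subgroup.normalizer (H : Set G) ≠ N := by
      intro h
      have hNM : N ≤ Subgroup.normalizer (H : Set G) := by rw [← h]; exact inf_le_right
      apply hnn
      rw [← Subgroup.normalizer_eq_top_iff]
      rw [eq_top_iff, ← hc.sup_eq_top]
      exact sup_le hNM Subgroup.le_normalizer
    have hcent : ∀ h ∈ H, h ≠ 1 → ∀ n ∈ N,
        (n * h = h * n ↔ n ∈ N ⊓ Subgroup.normalizer (H : Set G)) := by
      intro h hh h1 n hn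
      constructor
      · intro hnh
        refine Subgroup.mem_inf.mpr ⟨hn, hTI' n h hh h1 ?_⟩
        rw [hnh]
        simpa using hh
      · intro hnK
        have hnM := (Subgroup.mem_inf.mp hnK).2
        have h2 : n * h * n⁻¹ * h⁻¹ = 1 := by
          apply hdisj
          · have e : n * h * n⁻¹ * h⁻¹ = n * (h * n⁻¹ * h⁻¹) := by group
            rw [e]
            exact N.mul_mem hn (hNn.conj_mem _ (N.inv_mem hn) h)
          · exact H.mul_mem ((Subgroup.mem_normalizer_iff.mp hnM h).mp hh) (H.inv_mem hh)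
        calc n * h = (n * h * n⁻¹ * h⁻¹) * h * n := by group
          _ = h * n := by rw [h2]; group
    obtain ⟨F, hFg, hFf, Kf, Cf, hKfn, hcompl, hKf1, hfpf, ⟨e⟩⟩ :=
      frobenius_of_complement N H (N ⊓ Subgroup.normalizer (H : Set G)) hc hcop inf_le_left
        hKne hH1 hcent
    haveI := hKfn
    have hCf1 : Cf ≠ ⊥ := by
      intro hbot
      apply hH1
      rw [Subgroup.eq_bot_iff_forall]
      intro x hx
      have h1 : ((e ⟨x, hx⟩ : Cf) : F) = 1 :=
        (Subgroup.eq_bot_iff_forall Cf).mp hbot _ (e ⟨x, hx⟩).2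
      have h2 : e ⟨x, hx⟩ = 1 := Subtype.ext h1
      have h3 : (⟨x, hx⟩ : H) = 1 := e.map_eq_one_iff.mp h2
      exact congrArg Subtype.val h3
    exact ⟨F, hFg, hFf, Cf, (Cfsg.Agent.S0039.result Kf Cf hcompl hKf1 hCf1).mpr hfpf, ⟨e⟩⟩

end Cfsg.Agent.S4115
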