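import Cfsg.Statements.S4116
import Mathlib
import Cfsg.Agent.Lib.Helper73.Count

set_option autoImplicit false
open Cfsg

namespace Cfsg.Agent.S4116

open Cfsg.Agent.Lib.Helper73

section abstract

variable {K : Type*} [Group K] [Finite K]

/-- the union of conjugates of the non-identity elements of `L` -/
def Uset (L : Subgroup K) : Set K := {y : K | ∃ k : K, ∃ s ∈ {s : K | s ∈ L ∧ s ≠ 1}, y = k * s * k⁻¹}

omit [Finite K] in
lemma one_notMem_Uset (L : Subgroup K) : (1 : K) ∉ Uset L := by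
  rintro ⟨k, s, ⟨-, hs1⟩, h⟩
  apply hs1
  have : s = k⁻¹ * (k * s * k⁻¹) * k := by group
  rw [this, ← h]; group

lemma card_Uset (L : Subgroup K) (hL1 : L ≠ ⊥) (hL2 : L ≠ ⊤)
    (hTI : ∀ k : K, k ∉ L → ∀ s ∈ L, k * s * k⁻¹ ∈ L → s = 1) :
    Nat.card K ≤ 2 * (Uset L).ncard ∧ (Uset L).ncard + 2 ≤ Nat.card K := by
  classical
  let S : Set K := {s : K | s ∈ L ∧ s ≠ 1}
  have hinv : ∀ h ∈ L, ∀ s ∈ S, h * s * h⁻¹ ∈ S := by
    rintro h hh s ⟨hsL, hs1⟩
    refine ⟨L.mul_mem (L.mul_mem hh hsL) (L.inv_mem hh), ?_⟩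
    intro hc
    apply hs1
    have : s = h⁻¹ * (h * s * h⁻¹) * h := by group
    rw [this, hc]; group
  have hti : ∀ g : K, g ∉ L → ∀ s ∈ S, g * s * g⁻¹ ∉ S := by
    rintro g hg s ⟨hsL, hs1⟩ ⟨hgs, -⟩
    exact hs1 (hTI g hg s hsL hgs)
  have hcount := ti_count L S hinv hti
  have hU : Nat.card {y : K // ∃ g : K, ∃ s ∈ S, y = g * s * g⁻¹} = (Uset L).ncard :=
    Nat.card_coe_set_eq (Uset L)
  rw [hU] at hcount
  have hS : Nat.card S = Nat.card L - 1 := by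
    have h1 : S = (L : Set K) \ {1} := by
      ext s; simp [S]
    rw [Nat.card_coe_set_eq, h1, Set.ncard_sdiff_singleton_of_mem (L.one_mem),
      ← Nat.card_coe_set_eq]
    rfl
  rw [hS] at hcount
  have hidx := Subgroup.card_mul_index L
  have hLpos : 0 < Nat.card L := Nat.card_pos
  have hL2' : 2 ≤ Nat.card L := by
    have : Nat.card L ≠ 1 := fun h => hL1 (Subgroup.card_eq_one.mp h)
    omega
  have hidx2 : 2 ≤ L.index := by
    have h0 : L.index ≠ 0 := Subgroup.index_ne_zero_of_finite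
    have h1 : L.index ≠ 1 := fun h => hL2 (Subgroup.index_eq_one.mp h)
    omega
  -- ncard U = index * (card L - 1)
  have hUeq : (Uset L).ncard = L.index * (Nat.card L - 1) := by
    have : (Uset L).ncard * Nat.card L = (L.index * (Nat.card L - 1)) * Nat.card L := by
      rw [hcount, ← hidx]; ring
    exact Nat.eq_of_mul_eq_mul_right hLpos this
  obtain ⟨a, ha⟩ : ∃ a, Nat.card L = a + 2 := ⟨Nat.card L - 2, by omega⟩
  obtain ⟨n, hn⟩ : ∃ n, L.index = n + 2 := ⟨L.index - 2, by omega⟩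
  rw [hUeq, ← hidx, ha, hn]
  have e : a + 2 - 1 = a + 1 := by omega
  rw [e]
  constructor <;> nlinarith

lemma final_contra (L₁ L₂ : Subgroup K) (h11 : L₁ ≠ ⊥) (h12 : L₁ ≠ ⊤) (h21 : L₂ ≠ ⊥) (h22 : L₂ ≠ ⊤)
    (hTI1 : ∀ k : K, k ∉ L₁ → ∀ s ∈ L₁, k * s * k⁻¹ ∈ L₁ → s = 1)
    (hTI2 : ∀ k : K, k ∉ L₂ → ∀ s ∈ L₂, k * s * k⁻¹ ∈ L₂ → s = 1)
    (hdisj : ∀ s ∈ L₁, ∀ k : K, k * s * k⁻¹ ∈ L₂ → s = 1) : False := by
  classical
  obtain ⟨ha1, -⟩ := card_Uset L₁ h11 h12 hTI1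
  obtain ⟨ha2, -⟩ := card_Uset L₂ h21 h22 hTI2
  have hd : Disjoint (Uset L₁) (Uset L₂) := by
    rw [Set.disjoint_left]
    rintro y ⟨k, s, ⟨hsL, hs1⟩, hy⟩ ⟨k', s', ⟨hs'L, hs'1⟩, hy'⟩
    apply hs1
    apply hdisj s hsL (k'⁻¹ * k)
    have : k'⁻¹ * k * s * (k'⁻¹ * k)⁻¹ = s' := by
      calc k'⁻¹ * k * s * (k'⁻¹ * k)⁻¹ = k'⁻¹ * (k * s * k⁻¹) * k' := by group
        _ = k'⁻¹ * (k' * s' * k'⁻¹) * k' := by rw [← hy, hy']
        _ = s' := by group
    rw [this]; exact hs'L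
  have hsub : Uset L₁ ∪ Uset L₂ ⊆ (Set.univ : Set K) \ {1} := by
    intro y hy
    refine ⟨trivial, ?_⟩
    intro h1
    rw [Set.mem_singleton_iff] at h1
    subst h1
    rcases hy with h | h
    · exact one_notMem_Uset L₁ h
    · exact one_notMem_Uset L₂ h
  have hfin : ((Set.univ : Set K) \ {1}).Finite := Set.toFinite _
  have h1 := Set.ncard_le_ncard hsub hfin
  rw [Set.ncard_union_eq hd (Set.toFinite _) (Set.toFinite _)] at h1
  have h2 : ((Set.univ : Set K) \ {1}).ncard = Nat.card K - 1 := by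
    rw [Set.ncard_sdiff_singleton_of_mem (Set.mem_univ _), Set.ncard_univ]
  rw [h2] at h1
  have hpos : 0 < Nat.card K := Nat.card_pos
  omega

lemma exists_not_conj (L : Subgroup K) (hL1 : L ≠ ⊥) (hL2 : L ≠ ⊤)
    (hTI : ∀ k : K, k ∉ L → ∀ s ∈ L, k * s * k⁻¹ ∈ L → s = 1) :
    ∃ x : K, x ≠ 1 ∧ ∀ k : K, ∀ s ∈ L, x ≠ k * s * k⁻¹ := by
  classical
  obtain ⟨-, hb⟩ := card_Uset L hL1 hL2 hTI
  by_contra hcon
  push Not at hcon
  have hsub : (Set.univ : Set K) \ {1} ⊆ Uset L := by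
    rintro x ⟨-, hx1⟩
    rw [Set.mem_singleton_iff] at hx1
    obtain ⟨k, s, hs, hxs⟩ := hcon x hx1
    refine ⟨k, s, ⟨hs, ?_⟩, hxs⟩
    intro hs1
    apply hx1
    rw [hxs, hs1]; group
  have h1 := Set.ncard_le_ncard hsub (Set.toFinite _)
  have h2 : ((Set.univ : Set K) \ {1}).ncard = Nat.card K - 1 := by
    rw [Set.ncard_sdiff_singleton_of_mem (Set.mem_univ _), Set.ncard_univ]
  rw [h2] at h1
  omega

end abstract

variable {G : Type*} [Group G]

/-- the conjugate `g H g⁻¹` -/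
def cj (H : Subgroup G) (g : G) : Subgroup G := H.map (MulAut.conj g).toMonoidHom

lemma mem_cj (H : Subgroup G) (g a : G) : a ∈ cj H g ↔ g⁻¹ * a * g ∈ H := by
  unfold cj
  rw [Subgroup.mem_map]
  constructor
  · rintro ⟨b, hb, rfl⟩
    have : g⁻¹ * ((MulAut.conj g).toMonoidHom b) * g = b := by simp [mul_assoc]
    rw [this]; exact hb
  · intro h
    exact ⟨g⁻¹ * a * g, h, by simp [mul_assoc]⟩

lemma ti_conj (H : Subgroup G) (hTI : Cfsg.IsTISubset (H : Set G)) (a b x : G) (hx1 : x ≠ 1)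
    (ha : x ∈ cj H a) (hb : x ∈ cj H b) : b⁻¹ * a ∈ Subgroup.normalizer (H : Set G) := by
  by_contra hn
  rw [mem_cj] at ha hb
  have h2 : (b⁻¹ * a) * (a⁻¹ * x * a) * (b⁻¹ * a)⁻¹ ∈ (H : Set G) := by
    have : (b⁻¹ * a) * (a⁻¹ * x * a) * (b⁻¹ * a)⁻¹ = b⁻¹ * x * b := by group
    rw [this]; exact hb
  have h3 := hTI (b⁻¹ * a) hn (a⁻¹ * x * a) ha h2
  apply hx1
  have : x = a * (a⁻¹ * x * a) * a⁻¹ := by group
  rw [this, h3]; group

lemma mem_of_mem_normalizer [Finite G] (H : Subgroup G) (hHall : (Nat.card H).Coprime H.index)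
    (n : G) (hn : n ∈ Subgroup.normalizer (H : Set G))
    (hπ : ∀ q : ℕ, q.Prime → q ∣ orderOf n → q ∣ Nat.card H) : n ∈ H := by
  have h1 : (⟨n, hn⟩ : Subgroup.normalizer (H : Set G)) ^ (H.subgroupOf (Subgroup.normalizer (H : Set G))).index ∈
      H.subgroupOf (Subgroup.normalizer (H : Set G)) := Subgroup.pow_index_mem _ _
  have h1' : n ^ (H.relIndex (Subgroup.normalizer (H : Set G))) ∈ H := by
    have := Subgroup.mem_subgroupOf.mp h1
    simpa [Subgroup.relIndex] using this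
  have hdvd : H.relIndex (Subgroup.normalizer (H : Set G)) ∣ H.index :=
    Subgroup.relIndex_dvd_index_of_le H.le_normalizer
  have hcop : Nat.Coprime (H.relIndex (Subgroup.normalizer (H : Set G))) (orderOf n) := by
    apply Nat.coprime_of_dvd
    intro q hq hq1 hq2
    have := Nat.dvd_gcd (hπ q hq hq2) (dvd_trans hq1 hdvd)
    rw [Nat.Coprime.gcd_eq_one hHall] at this
    exact hq.one_lt.ne' (Nat.dvd_one.mp this)
  obtain ⟨m, hm⟩ := exists_pow_eq_self_of_coprime hcop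
  rw [← hm]
  exact H.pow_mem h1' m

lemma exists_cj_of_pi [Finite G] (H : Subgroup G) (hHall : (Nat.card H).Coprime H.index)
    (hTI : Cfsg.IsTISubset (H : Set G)) (x : G)
    (hπ : ∀ q : ℕ, q.Prime → q ∣ orderOf x → q ∣ Nat.card H) : ∃ g : G, x ∈ cj H g := by
  by_cases hx : x = 1
  · exact ⟨1, by rw [hx]; exact Subgroup.one_mem _⟩
  have ho1 : orderOf x ≠ 1 := fun h => hx (orderOf_eq_one_iff.mp h)
  obtain ⟨p, hp, hpd⟩ := Nat.exists_prime_and_dvd ho1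
  have hpf : Fact p.Prime := ⟨hp⟩
  set y := x ^ (orderOf x / p) with hy
  have hoy : orderOf y = p := orderOf_pow_orderOf_div (orderOf_pos x).ne' hpd
  have hy1 : y ≠ 1 := by
    intro h
    rw [h, orderOf_one] at hoy
    exact hp.one_lt.ne' hoy.symm
  have hpidx : ¬ p ∣ Nat.card (G ⧸ H) := by
    intro h
    rw [← Subgroup.index_eq_card] at h
    have := Nat.dvd_gcd (hπ p hp hpd) h
    rw [Nat.Coprime.gcd_eq_one hHall] at this
    exact hp.one_lt.ne' (Nat.dvd_one.mp this)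
  have hz : IsPGroup p (Subgroup.zpowers y) := by
    rw [IsPGroup.iff_card, Nat.card_zpowers, hoy]
    exact ⟨1, (pow_one p).symm⟩
  obtain ⟨q, hq⟩ := hz.nonempty_fixed_point_of_prime_not_dvd_card (G ⧸ H) hpidx
  induction q using QuotientGroup.induction_on with
  | H g =>
    have hfix : (⟨y, Subgroup.mem_zpowers y⟩ : Subgroup.zpowers y) • (g : G ⧸ H) = (g : G ⧸ H) := hq _
    have hfix' : ((y * g : G) : G ⧸ H) = (g : G ⧸ H) := hfix
    have hyg : g⁻¹ * y * g ∈ H := by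
      have := QuotientGroup.eq.mp hfix'
      have h2 : g⁻¹ * y * g = ((y * g)⁻¹ * g)⁻¹ := by group
      rw [h2]
      exact H.inv_mem this
    have hycj : y ∈ cj H g := (mem_cj H g y).mpr hyg
    have hcomm : x * y = y * x := by
      rw [hy]
      exact (Commute.pow_right (Commute.refl x) _).eq
    have hycj' : y ∈ cj H (x * g) := by
      rw [mem_cj]
      have : (x * g)⁻¹ * y * (x * g) = g⁻¹ * (x⁻¹ * (y * x)) * g := by group
      rw [this, ← hcomm]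
      have : g⁻¹ * (x⁻¹ * (x * y)) * g = g⁻¹ * y * g := by group
      rw [this]; exact hyg
    have hnorm := ti_conj H hTI (x * g) g y hy1 hycj' hycj
    refine ⟨g, ?_⟩
    rw [mem_cj]
    have hmem := mem_of_mem_normalizer H hHall (g⁻¹ * (x * g)) hnorm (by
      intro q hq hqd
      apply hπ q hq
      have : g⁻¹ * (x * g) = MulAut.conj g⁻¹ x := by simp [mul_assoc]
      rw [this, MulEquiv.orderOf_eq] at hqd
      exact hqd)
    have : g⁻¹ * x * g = g⁻¹ * (x * g) := by group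
    rw [this]; exact hmem

/-- Let G be a finite group with a subgroup H whose order is coprime to its index (a Hall subgroup) and which meets each of its conjugates by elements outside N_G(H) trivially. Then every subgroup of G whose order is divisible only by primes dividing the order of H lies in a conjugate of H. -/
theorem result {G : Type*} [Group G] [Finite G] (H : Subgroup G)
    (hHall : (Nat.card H).Coprime H.index) (hTI : Cfsg.IsTISubset (H : Set G))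
    (K : Subgroup G) (hK : ∀ q : ℕ, q.Prime → q ∣ Nat.card K → q ∣ Nat.card H) :
    ∃ g : G, K ≤ H.map (MulAut.conj g).toMonoidHom := by
  by_contra hcon
  push Not at hcon
  have hcon' : ∀ g : G, ¬ K ≤ cj H g := hcon
  have hπK : ∀ k ∈ K, ∀ q : ℕ, q.Prime → q ∣ orderOf k → q ∣ Nat.card H := by
    intro k hk q hq hqd
    exact hK q hq (dvd_trans hqd (Subgroup.orderOf_dvd_natCard K hk))
  -- the subgroups L g of K
  let L : G → Subgroup K := fun g => (cj H g).subgroupOf K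
  have hLtop : ∀ g, L g ≠ ⊤ := by
    intro g htop
    apply hcon' g
    intro k hk
    have : (⟨k, hk⟩ : K) ∈ L g := by rw [htop]; trivial
    exact Subgroup.mem_subgroupOf.mp this
  have hLTI : ∀ g, ∀ k : K, k ∉ L g → ∀ s ∈ L g, k * s * k⁻¹ ∈ L g → s = 1 := by
    intro g k hk s hs hks
    by_contra hs1
    have hs1G : (s : G) ≠ 1 := fun h => hs1 (Subtype.ext h)
    have hsG : (s : G) ∈ cj H g := Subgroup.mem_subgroupOf.mp hs
    have hksG : (k : G) * s * (k : G)⁻¹ ∈ cj H g := by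
      have := Subgroup.mem_subgroupOf.mp hks
      simpa using this
    have hsG' : (s : G) ∈ cj H ((k : G)⁻¹ * g) := by
      rw [mem_cj] at hksG ⊢
      have : ((k : G)⁻¹ * g)⁻¹ * s * ((k : G)⁻¹ * g) = g⁻¹ * ((k : G) * s * (k : G)⁻¹) * g := by group
      rw [this]; exact hksG
    have hnorm := ti_conj H hTI ((k : G)⁻¹ * g) g s hs1G hsG' hsG
    have hmem := mem_of_mem_normalizer H hHall (g⁻¹ * ((k : G)⁻¹ * g)) hnorm (by
      intro q hq hqd
      apply hπK k k.2 q hq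
      have : g⁻¹ * ((k : G)⁻¹ * g) = MulAut.conj g⁻¹ (k : G)⁻¹ := by simp [mul_assoc]
      rw [this, MulEquiv.orderOf_eq, orderOf_inv] at hqd
      exact hqd)
    apply hk
    rw [Subgroup.mem_subgroupOf, mem_cj]
    have : g⁻¹ * (k : G) * g = (g⁻¹ * ((k : G)⁻¹ * g))⁻¹ := by group
    rw [this]
    exact H.inv_mem hmem
  -- K is nontrivial
  have hKbot : K ≠ ⊥ := by
    intro h
    apply hcon' 1
    rw [h]; exact bot_le
  obtain ⟨x₁', hx₁'⟩ := (Subgroup.ne_bot_iff_exists_ne_one).mp hKbot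
  obtain ⟨x₁, hx₁K, hx₁1⟩ : ∃ x₁ : G, x₁ ∈ K ∧ x₁ ≠ 1 :=
    ⟨(x₁' : G), x₁'.2, fun h => hx₁' (Subtype.ext h)⟩
  obtain ⟨g₁, hg₁⟩ := exists_cj_of_pi H hHall hTI x₁ (hπK x₁ hx₁K)
  have hL1bot : L g₁ ≠ ⊥ := by
    intro h
    have : (⟨x₁, hx₁K⟩ : K) ∈ L g₁ := Subgroup.mem_subgroupOf.mpr hg₁
    rw [h, Subgroup.mem_bot] at this
    exact hx₁1 (congrArg Subtype.val this)
  obtain ⟨x₂, hx₂1, hx₂⟩ := exists_not_conj (L g₁) hL1bot (hLtop g₁) (hLTI g₁)
  have hx₂1G : (x₂ : G) ≠ 1 := fun h => hx₂1 (Subtype.ext h)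
  obtain ⟨g₂, hg₂⟩ := exists_cj_of_pi H hHall hTI x₂ (hπK x₂ x₂.2)
  have hL2bot : L g₂ ≠ ⊥ := by
    intro h
    have : x₂ ∈ L g₂ := Subgroup.mem_subgroupOf.mpr hg₂
    rw [h, Subgroup.mem_bot] at this
    exact hx₂1 this
  apply final_contra (L g₁) (L g₂) hL1bot (hLtop g₁) hL2bot (hLtop g₂) (hLTI g₁) (hLTI g₂)
  intro s hs k hks
  by_contra hs1
  have hs1G : (s : G) ≠ 1 := fun h => hs1 (Subtype.ext h)
  have hsG : (s : G) ∈ cj H g₁ := Subgroup.mem_subgroupOf.mp hs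
  have hksG : (k : G) * s * (k : G)⁻¹ ∈ cj H g₂ := by
    have := Subgroup.mem_subgroupOf.mp hks
    simpa using this
  have hks1 : (k : G) * s * (k : G)⁻¹ ≠ 1 := by
    intro h
    apply hs1G
    have : (s : G) = (k : G)⁻¹ * ((k : G) * s * (k : G)⁻¹) * k := by group
    rw [this, h]; group
  have hksG' : (k : G) * s * (k : G)⁻¹ ∈ cj H ((k : G) * g₁) := by
    rw [mem_cj] at hsG ⊢
    have : ((k : G) * g₁)⁻¹ * ((k : G) * s * (k : G)⁻¹) * ((k : G) * g₁) = g₁⁻¹ * s * g₁ := by group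
    rw [this]; exact hsG
  have hnorm := ti_conj H hTI ((k : G) * g₁) g₂ _ hks1 hksG' hksG
  -- x₂ ∈ cj H (k g₁)
  have hx₂' : (x₂ : G) ∈ cj H ((k : G) * g₁) := by
    rw [mem_cj] at hg₂ ⊢
    set n := g₂⁻¹ * ((k : G) * g₁) with hn
    have hiff := (Subgroup.mem_normalizer_iff (H := H)).mp (Subgroup.inv_mem _ hnorm) (g₂⁻¹ * x₂ * g₂)
    have h3 := hiff.mp hg₂
    have : n⁻¹ * (g₂⁻¹ * x₂ * g₂) * n⁻¹⁻¹ = ((k : G) * g₁)⁻¹ * x₂ * ((k : G) * g₁) := by
      rw [hn]; group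
    rw [this] at h3
    exact h3
  apply hx₂ k ⟨(k : G)⁻¹ * x₂ * k, K.mul_mem (K.mul_mem (K.inv_mem k.2) x₂.2) k.2⟩
  · rw [Subgroup.mem_subgroupOf, mem_cj]
    rw [mem_cj] at hx₂'
    have : g₁⁻¹ * ((k : G)⁻¹ * x₂ * k) * g₁ = ((k : G) * g₁)⁻¹ * x₂ * ((k : G) * g₁) := by group
    show g₁⁻¹ * ((k : G)⁻¹ * x₂ * k) * g₁ ∈ H
    rw [this]; exact hx₂'
  · apply Subtype.ext
    simp only [Subgroup.coe_mul, Subgroup.coe_inv]
    group

end Cfsg.Agent.S4116
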