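import Cfsg.Statements.S4117
import Mathlib

set_option autoImplicit false
open Cfsg
open scoped Pointwise

namespace Cfsg.Agent.S4117

variable {G A : Type*} [Group G] [Group A] [MulDistribMulAction A G]

/-- The commutator subgroup `[G, A]` of an action. -/
def KK (A G : Type*) [Group G] [Group A] [MulDistribMulAction A G] : Subgroup G :=
  Subgroup.closure {y : G | ∃ (a : A) (g : G), y = g⁻¹ * a • g}

theorem gen_mem (a : A) (g : G) : g⁻¹ * a • g ∈ KK A G :=
  Subgroup.subset_closure ⟨a, g, rfl⟩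

theorem KK_normal : (KK A G).Normal := by
  refine ⟨fun y hy h => ?_⟩
  induction hy using Subgroup.closure_induction with
  | mem y hy =>
    obtain ⟨a, g, rfl⟩ := hy
    have h1 := gen_mem a (g * h⁻¹)
    have h2 := gen_mem a h⁻¹
    have h3 : h * (g⁻¹ * a • g) * h⁻¹ =
        ((g * h⁻¹)⁻¹ * a • (g * h⁻¹)) * ((h⁻¹)⁻¹ * a • h⁻¹)⁻¹ := by
      simp only [smul_mul', smul_inv', mul_inv_rev, inv_inv]
      group
    rw [h3]
    exact (KK A G).mul_mem h1 ((KK A G).inv_mem h2)
  | one => simp
  | mul x y _ _ hx hy =>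
    have : h * (x * y) * h⁻¹ = (h * x * h⁻¹) * (h * y * h⁻¹) := by group
    rw [this]; exact (KK A G).mul_mem hx hy
  | inv x _ hx =>
    have : h * x⁻¹ * h⁻¹ = (h * x * h⁻¹)⁻¹ := by group
    rw [this]; exact (KK A G).inv_mem hx

theorem KK_inv (a : A) (y : G) (hy : y ∈ KK A G) : a • y ∈ KK A G := by
  induction hy using Subgroup.closure_induction with
  | mem y hy =>
    obtain ⟨b, g, rfl⟩ := hy
    have h1 := gen_mem a g
    have h2 := gen_mem (a * b) g
    have h3 : a • (g⁻¹ * b • g) = (g⁻¹ * a • g)⁻¹ * (g⁻¹ * (a * b) • g) := by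
      simp only [smul_mul', smul_inv', mul_inv_rev, inv_inv, mul_smul]
      group
    rw [h3]
    exact (KK A G).mul_mem ((KK A G).inv_mem h1) h2
  | one => simp
  | mul x y _ _ hx hy => rw [smul_mul']; exact (KK A G).mul_mem hx hy
  | inv x _ hx => rw [smul_inv']; exact (KK A G).inv_mem hx

/-- `[G, A]` centralizes every `A`-invariant cyclic normal subgroup. -/
theorem KK_le_centralizer (D : Subgroup G) [D.Normal] [IsCyclic D]
    (hD : ∀ (a : A) (x : G), x ∈ D → a • x ∈ D) :
    KK A G ≤ Subgroup.centralizer (D : Set G) := by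
  obtain ⟨⟨d₀, hd₀⟩, hgen⟩ := IsCyclic.exists_generator (α := ↥D)
  have hpow : ∀ d ∈ D, ∃ j : ℤ, d₀ ^ j = d := by
    intro d hd
    obtain ⟨j, hj⟩ := Subgroup.mem_zpowers_iff.mp (hgen ⟨d, hd⟩)
    exact ⟨j, by simpa using congrArg Subtype.val hj⟩
  refine (Subgroup.closure_le _).mpr ?_
  rintro _ ⟨a, g, rfl⟩
  rw [SetLike.mem_coe, Subgroup.mem_centralizer_iff]
  intro d hd
  obtain ⟨m, hm⟩ := hpow (g * d₀ * g⁻¹) (Subgroup.Normal.conj_mem inferInstance d₀ hd₀ g)
  have hconj : ∀ d ∈ D, g * d * g⁻¹ = d ^ m := by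
    intro d hd
    obtain ⟨j, rfl⟩ := hpow d hd
    rw [← conj_zpow, ← hm, ← zpow_mul, ← zpow_mul, mul_comm]
  have h1 : (a • g) * d * (a • g)⁻¹ = g * d * g⁻¹ := by
    have h2 : (a • g) * d * (a • g)⁻¹ = a • (g * (a⁻¹ • d) * g⁻¹) := by
      simp only [smul_mul', smul_inv', smul_inv_smul]
    rw [h2, hconj _ (hD a⁻¹ d hd), smul_zpow', smul_inv_smul, hconj d hd]
  calc d * (g⁻¹ * a • g) = g⁻¹ * (g * d * g⁻¹) * (a • g) := by group
    _ = g⁻¹ * ((a • g) * d * (a • g)⁻¹) * (a • g) := by rw [h1]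
    _ = g⁻¹ * a • g * d := by group

/-- the centralizer of the derived subgroup of a Z-group is abelian -/
theorem centralizer_comm [Finite G] [IsZGroup G] :
    ∀ x y : ↥(Subgroup.centralizer ((commutator G : Subgroup G) : Set G)), x * y = y * x := by
  set D := commutator G with hDdef
  set M := Subgroup.centralizer (D : Set G) with hMdef
  have hcyc : IsCyclic (G ⧸ D) := inferInstanceAs (IsCyclic (Abelianization G))
  let f : ↥M →* G ⧸ D := (QuotientGroup.mk' D).comp M.subtype
  have hker : f.rangeRestrict.ker ≤ Subgroup.center ↥M := by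
    intro x hx
    rw [MonoidHom.mem_ker] at hx
    have hx1 : f x = 1 := by
      have := congrArg Subtype.val hx
      simpa using this
    have hxD : (x : G) ∈ D := by
      have : ((x : G) : G ⧸ D) = 1 := hx1
      exact (QuotientGroup.eq_one_iff _).mp this
    rw [Subgroup.mem_center_iff]
    intro y
    apply Subtype.ext
    have := Subgroup.mem_centralizer_iff.mp y.2 (x : G) hxD
    simpa using this.symm
  exact (MonoidHom.isMulCommutative_of_isCyclic_of_ker_le_center f.rangeRestrict hker).is_comm.comm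

/-- restriction of the action to `[G, A]` -/
def psi (a : A) : ↥(KK A G) →* ↥(KK A G) where
  toFun x := ⟨a • (x : G), KK_inv a (x : G) x.2⟩
  map_one' := by ext; simp
  map_mul' x y := by ext; simp [smul_mul']

theorem psi_coe (a : A) (x : ↥(KK A G)) : ((psi a x : ↥(KK A G)) : G) = a • (x : G) := rfl

theorem main [Finite G] [Finite A] [IsZGroup G] (hcop : (Nat.card A).Coprime (Nat.card G)) :
    (Nat.card (MulAction.fixedPoints A G : Set G)).Coprime
      (Nat.card G / Nat.card (MulAction.fixedPoints A G : Set G)) ∧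
    IsCyclic (KK A G) ∧ (KK A G).Normal ∧
    ((KK A G : Subgroup G) : Set G) ∩ MulAction.fixedPoints A G = {1} ∧
    KK A G ⊔ Subgroup.closure (MulAction.fixedPoints A G) = ⊤ := by
  classical
  have hKn : (KK A G).Normal := KK_normal
  have hDinv : ∀ (a : A) (x : G), x ∈ commutator G → a • x ∈ commutator G := by
    intro a x hx
    have hc : (commutator G).Characteristic := inferInstance
    have := Subgroup.characteristic_iff_map_le.mp hc (MulDistribMulAction.toMulAut A G a)
    exact this ⟨x, hx, rfl⟩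
  have hDc : IsCyclic ↥(commutator G) := IsZGroup.isCyclic_commutator G
  have hKM := KK_le_centralizer (A := A) (commutator G) hDinv
  have hMcomm := centralizer_comm (G := G)
  have hKcomm : ∀ x y : ↥(KK A G), x * y = y * x := by
    intro x y
    have := hMcomm ⟨x, hKM x.2⟩ ⟨y, hKM y.2⟩
    apply Subtype.ext
    simpa using congrArg Subtype.val this
  let _ : CommGroup ↥(KK A G) := ⟨hKcomm⟩
  have hKcyc : IsCyclic ↥(KK A G) := by
    have : Group.IsNilpotent ↥(KK A G) := inferInstance
    infer_instance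
  have hcopK : (Nat.card ↥(KK A G)).Coprime (Nat.card A) := by
    have := Subgroup.card_subgroup_dvd_card (KK A G)
    exact (Nat.Coprime.coprime_dvd_right this hcop).symm
  let e := powCoprime hcopK
  have he : ∀ x, e x = x ^ Nat.card A := fun x => rfl
  let _ : Fintype A := Fintype.ofFinite A
  -- fixed point in each coset
  have hfix : ∀ g : G, ∃ m ∈ KK A G, ∀ a : A, a • (g * m) = g * m := by
    intro g
    let n : A → ↥(KK A G) := fun b => ⟨g⁻¹ * b • g, gen_mem b g⟩
    have hcoc : ∀ a b, n (a * b) = n a * psi a (n b) := by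
      intro a b
      apply Subtype.ext
      show g⁻¹ * (a * b) • g = g⁻¹ * a • g * a • (g⁻¹ * b • g)
      simp only [smul_mul', smul_inv', mul_smul]; group
    let s : ↥(KK A G) := ∏ b : A, n b
    have hs : ∀ a, s = n a ^ Nat.card A * psi a s := by
      intro a
      calc s = ∏ b : A, n (a * b) := (Equiv.prod_comp (Equiv.mulLeft a) n).symm
        _ = ∏ b : A, (n a * psi a (n b)) := by simp only [hcoc]
        _ = n a ^ Nat.card A * psi a s := by
            rw [Finset.prod_mul_distrib, Finset.prod_const, Finset.card_univ, map_prod,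
              Nat.card_eq_fintype_card]
    let m := e.symm s
    have hm : m ^ Nat.card A = s := e.apply_symm_apply s
    refine ⟨m, m.2, fun a => ?_⟩
    have h1 : n a * psi a m = m := by
      apply e.injective
      show (n a * psi a m) ^ Nat.card A = m ^ Nat.card A
      rw [mul_pow, ← map_pow, hm, ← hs a]
    have h2 : g⁻¹ * a • g * a • (m : G) = m := congrArg Subtype.val h1
    rw [smul_mul']
    calc a • g * a • (m : G) = g * (g⁻¹ * a • g * a • (m:G)) := by group
      _ = g * m := by rw [h2]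
  -- the norm map
  let Nm : ↥(KK A G) →* ↥(KK A G) := ∏ a : A, psi a
  have hNm : ∀ x, Nm x = ∏ a : A, psi a x := fun x => MonoidHom.finsetProd_apply _ _ x
  have hNm_gen : ∀ (a : A) (k : ↥(KK A G)), Nm (k⁻¹ * psi a k) = 1 := by
    intro a k
    rw [map_mul, map_inv, hNm (psi a k), hNm k]
    have : ∏ b : A, psi b (psi a k) = ∏ b : A, psi b k := by
      rw [← Equiv.prod_comp (Equiv.mulRight a) (fun b => psi b k)]
      refine Finset.prod_congr rfl fun b _ => ?_
      apply Subtype.ext
      show b • a • (k : G) = (b * a) • (k : G)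
      rw [mul_smul]
    rw [this]; simp
  have hNm_one : ∀ (x : G) (hx : x ∈ KK A G), Nm ⟨x, hx⟩ = 1 := by
    intro x hx
    induction hx using Subgroup.closure_induction with
    | mem y hy =>
      obtain ⟨a, g, rfl⟩ := hy
      obtain ⟨m, hm, hfixm⟩ := hfix g
      have key : (⟨g⁻¹ * a • g, Subgroup.subset_closure ⟨a, g, rfl⟩⟩ : ↥(KK A G)) =
          ((⟨m, hm⟩ : ↥(KK A G))⁻¹)⁻¹ * psi a ((⟨m, hm⟩ : ↥(KK A G))⁻¹) := by
        apply Subtype.ext
        show g⁻¹ * a • g = (m⁻¹)⁻¹ * a • (m⁻¹)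
        have h1 := hfixm a
        rw [smul_mul'] at h1
        have h2 : a • g = g * m * (a • m)⁻¹ := by rw [← h1]; group
        rw [h2, smul_inv']; group
      rw [key]
      exact hNm_gen a _
    | one => exact map_one Nm
    | mul x y hx hy ihx ihy =>
      have : (⟨x * y, (KK A G).mul_mem hx hy⟩ : ↥(KK A G)) = ⟨x, hx⟩ * ⟨y, hy⟩ := rfl
      rw [this, map_mul, ihx, ihy, mul_one]
    | inv x hx ihx =>
      have : (⟨x⁻¹, (KK A G).inv_mem hx⟩ : ↥(KK A G)) = (⟨x, hx⟩ : ↥(KK A G))⁻¹ := rfl
      rw [this, map_inv, ihx, inv_one]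
  have hinter : ∀ x : G, x ∈ KK A G → (∀ a : A, a • x = x) → x = 1 := by
    intro x hx hxfix
    have h1 := hNm_one x hx
    rw [hNm] at h1
    have h2 : ∀ a : A, psi a ⟨x, hx⟩ = ⟨x, hx⟩ := fun a => Subtype.ext (hxfix a)
    simp only [h2, Finset.prod_const, Finset.card_univ] at h1
    have h3 : e ⟨x, hx⟩ = e 1 := by
      rw [he, he, one_pow, Nat.card_eq_fintype_card]; exact h1
    exact congrArg Subtype.val (e.injective h3)
  -- complement
  let C : Subgroup G := FixedPoints.subgroup A G
  have hCset : (MulAction.fixedPoints A G : Set G) = (C : Set G) := rfl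
  have hdisj : Disjoint (KK A G) C := by
    rw [Subgroup.disjoint_def]
    intro x hx hxC
    exact hinter x hx hxC
  have hmul : ((KK A G : Subgroup G) : Set G) * (C : Set G) = Set.univ := by
    rw [Set.eq_univ_iff_forall]
    intro g
    obtain ⟨m, hm, hfixm⟩ := hfix g⁻¹
    refine ⟨m, hm, (g⁻¹ * m)⁻¹, ?_, by group⟩
    exact C.inv_mem hfixm
  have hcompl : (KK A G).IsComplement' C := Subgroup.isComplement'_of_disjoint_and_mul_eq_univ hdisj hmul
  have hcard : Nat.card ↥(KK A G) * Nat.card ↥C = Nat.card G := hcompl.card_mul_card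
  refine ⟨?_, hKcyc, hKn, ?_, ?_⟩
  · have hCpos : 0 < Nat.card ↥C := Nat.card_pos
    have hdiv : Nat.card G / Nat.card ↥C = Nat.card ↥(KK A G) :=
      Nat.div_eq_of_eq_mul_left hCpos hcard.symm
    show (Nat.card ↥C).Coprime (Nat.card G / Nat.card ↥C)
    rw [hdiv]
    by_contra hnc
    obtain ⟨r, hr, hrC, hrK⟩ := Nat.Prime.not_coprime_iff_dvd.mp hnc
    have : Fact r.Prime := ⟨hr⟩
    obtain ⟨c, hc⟩ := exists_prime_orderOf_dvd_card' r hrC
    obtain ⟨k, hk⟩ := exists_prime_orderOf_dvd_card' r hrK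
    have hc' : orderOf (c : G) = r := by rw [Subgroup.orderOf_coe]; exact hc
    have hk' : orderOf (k : G) = r := by rw [Subgroup.orderOf_coe]; exact hk
    have hpc : IsPGroup r ↥(Subgroup.zpowers (c : G)) :=
      IsPGroup.of_card (n := 1) (by rw [Nat.card_zpowers, hc', pow_one])
    have hpk : IsPGroup r ↥(Subgroup.zpowers (k : G)) :=
      IsPGroup.of_card (n := 1) (by rw [Nat.card_zpowers, hk', pow_one])
    obtain ⟨R, hR⟩ := hpc.exists_le_sylow
    obtain ⟨R', hR'⟩ := hpk.exists_le_sylow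
    obtain ⟨g, hg⟩ := MulAction.exists_smul_eq G R' R
    have hk1 : g * (k : G) * g⁻¹ ∈ (R : Subgroup G) := by
      have h1 : (k : G) ∈ (R' : Subgroup G) := hR' (Subgroup.mem_zpowers _)
      have h2 : MulAut.conj g • (k : G) ∈ MulAut.conj g • (R' : Subgroup G) :=
        Subgroup.smul_mem_pointwise_smul _ _ _ h1
      rw [← hg, Sylow.smul_def, Sylow.pointwise_smul_def]
      exact h2
    have hk₁K : g * (k : G) * g⁻¹ ∈ KK A G := hKn.conj_mem _ k.2 g
    have hk₁r : (g * (k : G) * g⁻¹) ^ r = 1 := by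
      rw [conj_pow, ← hk', pow_orderOf_eq_one]; group
    have hk₁ne : g * (k : G) * g⁻¹ ≠ 1 := by
      intro h
      have : (k : G) = 1 := by
        have : (k : G) = g⁻¹ * (g * (k : G) * g⁻¹) * g := by group
        rw [this, h]; group
      rw [this, orderOf_one] at hk'
      exact hr.one_lt.ne hk'
    have hRc : IsCyclic ↥(R : Subgroup G) := inferInstance
    let _ : CommGroup ↥(R : Subgroup G) := IsCyclic.commGroup
    let c' : ↥(R : Subgroup G) := ⟨c, hR (Subgroup.mem_zpowers _)⟩
    let k' : ↥(R : Subgroup G) := ⟨g * (k : G) * g⁻¹, hk1⟩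
    have hc'o : orderOf c' = r := (Subgroup.orderOf_coe c').symm.trans hc'
    have hle : Subgroup.zpowers c' ≤ (powMonoidHom r : ↥(R : Subgroup G) →* ↥(R : Subgroup G)).ker := by
      rw [Subgroup.zpowers_le, MonoidHom.mem_ker]
      show c' ^ r = 1
      have h := pow_orderOf_eq_one c'
      rwa [hc'o] at h
    have hcardker : Nat.card (powMonoidHom r : ↥(R : Subgroup G) →* ↥(R : Subgroup G)).ker ≤
        Nat.card (Subgroup.zpowers c') := by
      rw [IsCyclic.card_powMonoidHom_ker, Nat.card_zpowers, hc'o]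
      exact Nat.gcd_le_right _ hr.pos
    have heq := Subgroup.eq_of_le_of_card_ge hle hcardker
    have hk'mem : k' ∈ Subgroup.zpowers c' := by
      rw [heq, MonoidHom.mem_ker]
      show k' ^ r = 1
      exact Subtype.ext hk₁r
    obtain ⟨j, hj⟩ := Subgroup.mem_zpowers_iff.mp hk'mem
    have hj' : (c : G) ^ j = g * (k : G) * g⁻¹ := by
      have := congrArg Subtype.val hj
      simpa [c', k'] using this
    have hk₁C : g * (k : G) * g⁻¹ ∈ C := by
      rw [← hj']; exact C.zpow_mem c.2 j
    exact hk₁ne (hinter _ hk₁K hk₁C)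
  · ext x
    simp only [Set.mem_inter_iff, SetLike.mem_coe, Set.mem_singleton_iff]
    constructor
    · rintro ⟨hx, hxC⟩
      exact hinter x hx hxC
    · rintro rfl
      exact ⟨(KK A G).one_mem, fun a => smul_one a⟩
  · rw [eq_top_iff]
    intro g _
    obtain ⟨m, hm, hfixm⟩ := hfix g⁻¹
    have hg : g = m * (g⁻¹ * m)⁻¹ := by group
    rw [hg]
    refine Subgroup.mul_mem_sup hm ?_
    exact (Subgroup.closure _).inv_mem (Subgroup.subset_closure hfixm)

theorem result {G A : Type*} [Group G] [Finite G] [Group A] [Finite A]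
    [MulDistribMulAction A G] (hcop : (Nat.card A).Coprime (Nat.card G))
    (hcyc : ∀ (p : ℕ) [Fact p.Prime] (P : Sylow p G), IsCyclic (P : Subgroup G)) :
    (Nat.card (MulAction.fixedPoints A G : Set G)).Coprime (Nat.card G / Nat.card (MulAction.fixedPoints A G : Set G)) ∧
    IsCyclic (Subgroup.closure {y : G | ∃ (a : A) (g : G), y = g⁻¹ * a • g}) ∧
    (Subgroup.closure {y : G | ∃ (a : A) (g : G), y = g⁻¹ * a • g}).Normal ∧
    (Subgroup.closure {y : G | ∃ (a : A) (g : G), y = g⁻¹ * a • g} : Set G) ∩ MulAction.fixedPoints A G = {1} ∧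
    Subgroup.closure {y : G | ∃ (a : A) (g : G), y = g⁻¹ * a • g} ⊔ Subgroup.closure (MulAction.fixedPoints A G) = ⊤ := by
  have hZ : IsZGroup G := ⟨fun p hp P => @hcyc p ⟨hp⟩ P⟩
  exact main hcop

end Cfsg.Agent.S4117
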