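import Cfsg.Statements.S4151
import Cfsg.Agent.S0040
import Cfsg.Agent.S4117
import Cfsg.Agent.Lib.Helper73.TIHall

set_option autoImplicit false
open Cfsg

namespace Cfsg.Agent.S4151

open Cfsg.Agent.Lib.Helper73.TIHall
open scoped Pointwise

/-- card of a subgroup in terms of a smaller one -/
theorem card_eq_mul_relIndex {G : Type*} [Group G] (A B : Subgroup G) (h : A ≤ B) :
    Nat.card B = Nat.card A * A.relIndex B := by
  have e1 := Subgroup.card_mul_index (A.subgroupOf B)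
  have e2 : Nat.card (A.subgroupOf B) = Nat.card A :=
    Nat.card_congr (Subgroup.subgroupOfEquivOfLe h).toEquiv
  rw [e2] at e1
  exact e1.symm

/-- a maximal normal subgroup of order coprime to `m` -/
theorem exists_maximal_coprime {G : Type*} [Group G] [Finite G] (m : ℕ) :
    ∃ O : Subgroup G, O.Normal ∧ (Nat.card O).Coprime m ∧
      ∀ N' : Subgroup G, N'.Normal → (Nat.card N').Coprime m → O ≤ N' → N' = O := by
  have h0 : (fun N : Subgroup G => N.Normal ∧ (Nat.card N).Coprime m) ⊥ := by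
    refine ⟨inferInstance, ?_⟩
    rw [Subgroup.card_bot]
    exact Nat.coprime_one_left m
  obtain ⟨O, -, hO⟩ := Finite.exists_le_maximal
    (p := fun N : Subgroup G => N.Normal ∧ (Nat.card N).Coprime m) h0
  refine ⟨O, hO.1.1, hO.1.2, ?_⟩
  intro N' hN' hc hle
  exact le_antisymm (hO.2 ⟨hN', hc⟩ hle) hle

/-- the first `π`-layer above the maximal normal `π'`-subgroup -/
theorem exists_pi_layer {G : Type*} [Group G] [Finite G] (m : ℕ) (O : Subgroup G)
    (hOn : O.Normal)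
    (hOmax : ∀ N' : Subgroup G, N'.Normal → (Nat.card N').Coprime m → O ≤ N' → N' = O)
    (hOc : (Nat.card O).Coprime m) (hOtop : O ≠ ⊤)
    (hsep : ∃ (n : ℕ) (M : Fin (n + 1) → Subgroup G), M 0 = ⊥ ∧ M (Fin.last n) = ⊤ ∧
      Monotone M ∧ (∀ i, (M i).Normal) ∧
      ∀ i : Fin n, (∀ q : ℕ, q.Prime → q ∣ (M i.castSucc).relIndex (M i.succ) → q ∣ m) ∨
        ((M i.castSucc).relIndex (M i.succ)).Coprime m) :
    ∃ R₁ : Subgroup G, R₁.Normal ∧ O ≤ R₁ ∧ R₁ ≠ O ∧
      ∀ q : ℕ, q.Prime → q ∣ O.relIndex R₁ → q ∣ m := by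
  classical
  obtain ⟨n, Ms, h0, hlast, hmono, hnorm, hfac⟩ := hsep
  haveI := hOn
  have hex : ∃ k : ℕ, ∃ hk : k < n + 1, ¬ Ms ⟨k, hk⟩ ≤ O := by
    refine ⟨n, Nat.lt_succ_self n, ?_⟩
    intro h
    apply hOtop
    rw [eq_top_iff, ← hlast]
    exact h
  obtain ⟨hk, hkO⟩ := Nat.find_spec hex
  have hk0 : Nat.find hex ≠ 0 := by
    intro h
    apply hkO
    have : (⟨Nat.find hex, hk⟩ : Fin (n + 1)) = 0 := Fin.ext h
    rw [this, h0]
    exact bot_le
  obtain ⟨j, hj⟩ := Nat.exists_eq_succ_of_ne_zero hk0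
  have hjn : j < n := by omega
  have hjO : Ms (⟨j, hjn⟩ : Fin n).castSucc ≤ O := by
    by_contra hcon
    have := Nat.find_min hex (m := j) (by omega)
    exact this ⟨by omega, hcon⟩
  have hsO : ¬ Ms (⟨j, hjn⟩ : Fin n).succ ≤ O := by
    have e : (⟨j, hjn⟩ : Fin n).succ = ⟨Nat.find hex, hk⟩ :=
      Fin.ext (show j + 1 = Nat.find hex by omega)
    rw [e]; exact hkO
  haveI := hnorm (⟨j, hjn⟩ : Fin n).succ
  refine ⟨Ms (⟨j, hjn⟩ : Fin n).succ ⊔ O, inferInstance, le_sup_right, ?_, ?_⟩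
  · intro h
    exact hsO (le_sup_left.trans (le_of_eq h))
  · intro q hq hqd
    have e1 : O.relIndex (Ms (⟨j, hjn⟩ : Fin n).succ ⊔ O)
        = O.relIndex (Ms (⟨j, hjn⟩ : Fin n).succ) := Subgroup.relIndex_sup_right _ _
    have e2 : O.relIndex (Ms (⟨j, hjn⟩ : Fin n).succ) ∣
        (Ms (⟨j, hjn⟩ : Fin n).castSucc).relIndex (Ms (⟨j, hjn⟩ : Fin n).succ) :=
      Subgroup.relIndex_dvd_of_le_left _ hjO
    rcases hfac ⟨j, hjn⟩ with hπ | hπ'
    · rw [e1] at hqd
      exact hπ q hq (dvd_trans hqd e2)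
    · exfalso
      have hc1 : (O.relIndex (Ms (⟨j, hjn⟩ : Fin n).succ ⊔ O)).Coprime m := by
        rw [e1]; exact Nat.Coprime.coprime_dvd_left e2 hπ'
      have hc2 : (Nat.card (Ms (⟨j, hjn⟩ : Fin n).succ ⊔ O : Subgroup G)).Coprime m := by
        rw [card_eq_mul_relIndex O _ le_sup_right]
        exact Nat.Coprime.mul_left hOc hc1
      have := hOmax _ inferInstance hc2 le_sup_right
      exact hsO (le_sup_left.trans (le_of_eq this))

/-- the `π`-layer lies in `O H` -/
theorem layer_le {G : Type*} [Group G] [Finite G] (H O R₁ : Subgroup G) (hOn : O.Normal)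
    (hR₁n : R₁.Normal) (hOc : (Nat.card O).Coprime (Nat.card H))
    (hHallG : (Nat.card H).Coprime H.index) (hOR : O ≤ R₁)
    (hπ : ∀ q : ℕ, q.Prime → q ∣ O.relIndex R₁ → q ∣ Nat.card H) :
    R₁ ≤ O ⊔ H := by
  haveI := hOn
  haveI := hR₁n
  have hOH : O ⊓ H = ⊥ := Subgroup.inf_eq_bot_of_coprime hOc
  have hcL : Nat.card (O ⊔ H : Subgroup G) = Nat.card O * Nat.card H := by
    rw [card_eq_mul_relIndex O _ le_sup_left, Subgroup.relIndex_sup_left,
      ← Subgroup.inf_relIndex_right O H, hOH, Subgroup.relIndex_bot_left]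
  have hcL' : Nat.card (R₁ ⊔ H : Subgroup G)
      = Nat.card O * (O.relIndex R₁ * R₁.relIndex H) := by
    rw [card_eq_mul_relIndex R₁ _ le_sup_left, Subgroup.relIndex_sup_left,
      card_eq_mul_relIndex O R₁ hOR, mul_assoc]
  have hmπ : ∀ q : ℕ, q.Prime → q ∣ O.relIndex R₁ * R₁.relIndex H → q ∣ Nat.card H := by
    intro q hq hqm
    rcases (Nat.Prime.dvd_mul hq).mp hqm with h | h
    · exact hπ q hq h
    · exact dvd_trans h (Subgroup.relIndex_dvd_card _ _)
  have hmc : (O.relIndex R₁ * R₁.relIndex H).Coprime H.index := by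
    apply Nat.coprime_of_dvd
    intro q hq hqm hqi
    have h1 := hmπ q hq hqm
    have := Nat.dvd_gcd h1 hqi
    rw [hHallG] at this
    exact hq.one_lt.ne' (Nat.dvd_one.mp this)
  have hmd : O.relIndex R₁ * R₁.relIndex H ∣ Nat.card H := by
    apply hmc.dvd_of_dvd_mul_right
    rw [Subgroup.card_mul_index]
    have h1 : Nat.card (R₁ ⊔ H : Subgroup G) ∣ Nat.card G := Subgroup.card_subgroup_dvd_card _
    rw [hcL'] at h1
    exact dvd_trans (Dvd.intro_left _ rfl) h1
  have hle : Nat.card (R₁ ⊔ H : Subgroup G) ≤ Nat.card (O ⊔ H : Subgroup G) := by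
    rw [hcL, hcL']
    exact Nat.mul_le_mul_left _ (Nat.le_of_dvd Nat.card_pos hmd)
  have hLL' : O ⊔ H ≤ R₁ ⊔ H := sup_le_sup_right hOR H
  have heq := Subgroup.eq_of_le_of_card_ge hLL' hle
  rw [heq]; exact le_sup_left

/-- the `π`-layer meets `H` nontrivially -/
theorem layer_inf_ne_bot {G : Type*} [Group G] (H O R₁ : Subgroup G) (hOn : O.Normal)
    (hOR : O ≤ R₁) (hne : R₁ ≠ O) (hle : R₁ ≤ O ⊔ H) : R₁ ⊓ H ≠ ⊥ := by
  haveI := hOn
  intro hbot
  apply hne
  apply le_antisymm _ hOR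
  intro x hx
  have hx' : x ∈ ((O ⊔ H : Subgroup G) : Set G) := hle hx
  rw [Subgroup.normal_mul] at hx'
  obtain ⟨o, ho, h, hh, rfl⟩ := Set.mem_mul.mp hx'
  have hhR : h ∈ R₁ := by
    have e : h = o⁻¹ * (o * h) := by group
    rw [e]; exact R₁.mul_mem (R₁.inv_mem (hOR ho)) hx
  have : h ∈ R₁ ⊓ H := ⟨hhR, hh⟩
  rw [hbot, Subgroup.mem_bot] at this
  rw [this, mul_one]; exact ho

/-- Frattini argument: `G = N_G(H) O` -/
theorem frattini {G : Type*} [Group G] [Finite G] (H O R₁ : Subgroup G) (hR₁n : R₁.Normal)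
    (hTI' : ∀ g : G, ∀ u ∈ H, u ≠ 1 → g * u * g⁻¹ ∈ H → g ∈ Subgroup.normalizer (H : Set G))
    (hHallG : (Nat.card H).Coprime H.index)
    (hle : R₁ ≤ O ⊔ H) (hH₀ : R₁ ⊓ H ≠ ⊥) :
    Subgroup.normalizer (H : Set G) ⊔ O = ⊤ := by
  classical
  haveI := hR₁n
  have hc1 : Nat.card (R₁ ⊓ H : Subgroup G) ≠ 1 := by
    intro h; exact hH₀ (Subgroup.eq_bot_of_card_eq _ h)
  obtain ⟨p, hp, hpd⟩ := Nat.exists_prime_and_dvd hc1
  haveI : Fact p.Prime := ⟨hp⟩
  have hpH : p ∣ Nat.card H := dvd_trans hpd (Subgroup.card_dvd_of_le inf_le_right)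
  have hpR : p ∣ Nat.card R₁ := dvd_trans hpd (Subgroup.card_dvd_of_le inf_le_left)
  have hpi : ¬ p ∣ H.index := by
    intro h
    have := Nat.dvd_gcd hpH h
    rw [hHallG] at this
    exact hp.one_lt.ne' (Nat.dvd_one.mp this)
  obtain P : Sylow p R₁ := default
  have hP'p : IsPGroup p ((P : Subgroup R₁).map R₁.subtype) := P.isPGroup'.map _
  obtain ⟨y, hy⟩ := exists_conj_le_of_pgroup H p hpi _ hP'p
  have hP'1 : ∃ u ∈ (P : Subgroup R₁).map R₁.subtype, u ≠ 1 := by
    by_contra hcon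
    push_neg at hcon
    have hbot : (P : Subgroup R₁).map R₁.subtype = ⊥ := (Subgroup.eq_bot_iff_forall _).mpr hcon
    have hcP : Nat.card ((P : Subgroup R₁).map R₁.subtype) = Nat.card (P : Subgroup R₁) :=
      Subgroup.card_map_of_injective R₁.subtype_injective
    rw [hbot, Subgroup.card_bot] at hcP
    have := P.dvd_card_of_dvd_card hpR
    rw [← hcP] at this
    exact hp.one_lt.ne' (Nat.dvd_one.mp this)
  obtain ⟨u, hu, hu1⟩ := hP'1
  have hFr : Subgroup.normalizer (((P : Subgroup R₁).map R₁.subtype : Subgroup G) : Set G) ⊔ R₁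
      = ⊤ := Sylow.normalizer_sup_eq_top P
  have hT : ∀ t ∈ Subgroup.normalizer (((P : Subgroup R₁).map R₁.subtype : Subgroup G) : Set G),
      y⁻¹ * t * y ∈ Subgroup.normalizer (H : Set G) := by
    intro t ht
    apply hTI' _ (y⁻¹ * u * y) (hy u hu)
    · intro h
      apply hu1
      calc u = y * (y⁻¹ * u * y) * y⁻¹ := by group
        _ = 1 := by rw [h]; group
    · have e : y⁻¹ * t * y * (y⁻¹ * u * y) * (y⁻¹ * t * y)⁻¹ = y⁻¹ * (t * u * t⁻¹) * y := by
        group
      rw [e]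
      exact hy _ ((Subgroup.mem_normalizer_iff.mp ht u).mp hu)
  have hR₁' : R₁ ≤ Subgroup.normalizer (H : Set G) ⊔ O :=
    le_trans hle (sup_le le_sup_right (le_trans Subgroup.le_normalizer le_sup_left))
  rw [eq_top_iff]
  intro g _
  have hg : y * g * y⁻¹ ∈ ((Subgroup.normalizer
      (((P : Subgroup R₁).map R₁.subtype : Subgroup G) : Set G) ⊔ R₁ : Subgroup G) : Set G) := by
    rw [hFr]; trivial
  rw [Subgroup.mul_normal] at hg
  obtain ⟨t, ht, r, hr, htr⟩ := Set.mem_mul.mp hg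
  have e : g = (y⁻¹ * t * y) * (y⁻¹ * r * y) := by
    calc g = y⁻¹ * (y * g * y⁻¹) * y := by group
      _ = y⁻¹ * (t * r) * y := by rw [htr]
      _ = (y⁻¹ * t * y) * (y⁻¹ * r * y) := by group
  rw [e]
  apply Subgroup.mul_mem _ (Subgroup.mem_sup_left (hT t ht))
  apply hR₁'
  have := hR₁n.conj_mem r hr y⁻¹
  simpa using this

/-- the centralizer in `O` of a nonidentity element of `H` is `O ∩ N_G(H)` -/
theorem cent_char {G : Type*} [Group G] (H O : Subgroup G) (hOn : O.Normal)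
    (hTI' : ∀ g : G, ∀ u ∈ H, u ≠ 1 → g * u * g⁻¹ ∈ H → g ∈ Subgroup.normalizer (H : Set G))
    (hdisj : ∀ x, x ∈ O → x ∈ H → x = 1) :
    ∀ h ∈ H, h ≠ 1 → ∀ n ∈ O,
      (n * h = h * n ↔ n ∈ O ⊓ Subgroup.normalizer (H : Set G)) := by
  intro h hh h1 n hn
  constructor
  · intro hnh
    refine Subgroup.mem_inf.mpr ⟨hn, hTI' n h hh h1 ?_⟩
    rw [hnh]
    simpa using hh
  · intro hnK
    have hnM := (Subgroup.mem_inf.mp hnK).2
    have h2 : n * h * n⁻¹ * h⁻¹ = 1 := by
      apply hdisj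
      · have e : n * h * n⁻¹ * h⁻¹ = n * (h * n⁻¹ * h⁻¹) := by group
        rw [e]
        exact O.mul_mem hn (hOn.conj_mem _ (O.inv_mem hn) h)
      · exact H.mul_mem ((Subgroup.mem_normalizer_iff.mp hnM h).mp hh) (H.inv_mem hh)
    calc n * h = (n * h * n⁻¹ * h⁻¹) * h * n := by group
      _ = h * n := by rw [h2]; group

/-- all Sylow subgroups of `H` are cyclic -/
theorem sylow_cyclic {G : Type*} [Group G] [Finite G] (H O : Subgroup G) (hOn : O.Normal)
    (hOc : (Nat.card O).Coprime (Nat.card H))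
    (hKne : O ⊓ Subgroup.normalizer (H : Set G) ≠ O)
    (hcent : ∀ h ∈ H, h ≠ 1 → ∀ n ∈ O,
      (n * h = h * n ↔ n ∈ O ⊓ Subgroup.normalizer (H : Set G)))
    (h2 : ∀ P : Sylow 2 H, IsMulCommutative (P : Subgroup H))
    (p : ℕ) [Fact p.Prime] (P : Sylow p H) : IsCyclic (P : Subgroup H) := by
  classical
  haveI := hOn
  have hp : p.Prime := Fact.out
  by_cases hP1 : Nat.card (P : Subgroup H) = 1
  · haveI : Subsingleton (P : Subgroup H) := (Nat.card_eq_one_iff_unique.mp hP1).1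
    exact isCyclic_of_subsingleton
  have hr : ∃ r : ℕ, r.Prime ∧
      (Nat.card (O ⊓ Subgroup.normalizer (H : Set G) : Subgroup G)).factorization r
        < (Nat.card O).factorization r := by
    by_contra hcon
    push_neg at hcon
    have hle : (Nat.card O).factorization
        ≤ (Nat.card (O ⊓ Subgroup.normalizer (H : Set G) : Subgroup G)).factorization := by
      intro r
      by_cases hr : r.Prime
      · exact hcon r hr
      · rw [Nat.factorization_eq_zero_of_not_prime _ hr]; exact Nat.zero_le _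
    have hdvd := (Nat.factorization_le_iff_dvd Nat.card_pos.ne' Nat.card_pos.ne').mp hle
    exact hKne (Subgroup.eq_of_le_of_card_ge inf_le_left (Nat.le_of_dvd Nat.card_pos hdvd))
  obtain ⟨r, hrp, hrlt⟩ := hr
  haveI : Fact r.Prime := ⟨hrp⟩
  have hAH : (P : Subgroup H).map H.subtype ≤ H := Subgroup.map_subtype_le _
  have hAp : IsPGroup p ((P : Subgroup H).map H.subtype) := P.isPGroup'.map _
  have hcA : Nat.card ((P : Subgroup H).map H.subtype) = Nat.card (P : Subgroup H) :=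
    Subgroup.card_map_of_injective H.subtype_injective
  have hA1 : (P : Subgroup H).map H.subtype ≠ ⊥ := by
    intro h
    rw [h, Subgroup.card_bot] at hcA
    exact hP1 hcA.symm
  have hAO : (Nat.card ((P : Subgroup H).map H.subtype)).Coprime (Nat.card O) :=
    Nat.Coprime.coprime_dvd_left (Subgroup.card_dvd_of_le hAH) hOc.symm
  have hrO : r ∣ Nat.card O := Nat.dvd_of_factorization_pos (by omega)
  have hAr : (Nat.card ((P : Subgroup H).map H.subtype)).Coprime r :=
    Nat.Coprime.coprime_dvd_right hrO hAO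
  have hpA : p ∣ Nat.card ((P : Subgroup H).map H.subtype) := by
    obtain ⟨k, hk⟩ := IsPGroup.iff_card.mp hAp
    rw [hk]
    have hk0 : k ≠ 0 := by
      intro h
      rw [h, pow_zero] at hk
      rw [hk] at hcA
      exact hP1 hcA.symm
    exact dvd_pow_self p hk0
  have hpO : ¬ p ∣ Nat.card O := by
    intro h
    have := Nat.dvd_gcd hpA h
    rw [hAO] at this
    exact hp.one_lt.ne' (Nat.dvd_one.mp this)
  -- an invariant Sylow `r`-subgroup of `O`
  have hA'p : IsPGroup p (((P : Subgroup H).map H.subtype).map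
      (ConjAct.toConjAct : G ≃* ConjAct G).toMonoidHom) := hAp.map _
  have hnd : ¬ p ∣ Nat.card (Sylow r O) := by
    intro h
    obtain R₀ : Sylow r O := default
    exact hpO (dvd_trans h (dvd_trans R₀.card_dvd_index (Subgroup.index_dvd_card _)))
  obtain ⟨R', hR'⟩ := hA'p.nonempty_fixed_point_of_prime_not_dvd_card (Sylow r O) hnd
  rw [MulAction.mem_fixedPoints] at hR'
  have hAR : ∀ a ∈ (P : Subgroup H).map H.subtype, ∀ x ∈ (R' : Subgroup O).map O.subtype,
      a * x * a⁻¹ ∈ (R' : Subgroup O).map O.subtype := by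
    intro a ha x hx
    obtain ⟨x', hx', rfl⟩ := hx
    have h1 := hR' ⟨ConjAct.toConjAct a, ⟨a, ha, rfl⟩⟩
    have h2 : (ConjAct.toConjAct a) • R' = R' := h1
    have h3 : (ConjAct.toConjAct a) • (R' : Subgroup O) = (R' : Subgroup O) := by
      rw [← Sylow.pointwise_smul_def, h2]
    have h4 : (ConjAct.toConjAct a) • x' ∈ (ConjAct.toConjAct a) • (R' : Subgroup O) :=
      Subgroup.smul_mem_pointwise_smul _ _ _ hx'
    rw [h3] at h4
    refine ⟨(ConjAct.toConjAct a) • x', h4, ?_⟩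
    rw [Subgroup.coe_subtype, ConjAct.Subgroup.val_conj_smul, ConjAct.smul_def,
      ConjAct.ofConjAct_toConjAct]
  have hRp : IsPGroup r ((R' : Subgroup O).map O.subtype) := R'.isPGroup'.map _
  have hRO : (R' : Subgroup O).map O.subtype ≤ O := Subgroup.map_subtype_le _
  have hcR : Nat.card ((R' : Subgroup O).map O.subtype) = r ^ (Nat.card O).factorization r := by
    rw [Subgroup.card_map_of_injective O.subtype_injective]
    exact R'.card_eq_multiplicity
  have hRK : ¬ (R' : Subgroup O).map O.subtype ≤ O ⊓ Subgroup.normalizer (H : Set G) := by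
    intro h
    have h1 := Subgroup.card_dvd_of_le h
    rw [hcR] at h1
    have h2 := (hrp.pow_dvd_iff_le_factorization Nat.card_pos.ne').mp h1
    omega
  obtain ⟨F, hFg, hFf, Kf, Cf, hKfn, hcompl, hKf1, hfpf, ⟨e⟩⟩ :=
    frobenius_of_action r ((R' : Subgroup O).map O.subtype) ((P : Subgroup H).map H.subtype)
      ((R' : Subgroup O).map O.subtype ⊓ (O ⊓ Subgroup.normalizer (H : Set G)))
      hRp hAr hA1 hAR inf_le_left
      (fun h => hRK (by rw [← h]; exact inf_le_right))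
      (fun a ha ha1 x hx => by
        rw [hcent a (hAH ha) ha1 x (hRO hx), Subgroup.mem_inf]
        exact ⟨fun h => ⟨hx, h⟩, fun h => h.2⟩)
  haveI := hKfn
  obtain PC : Sylow p Cf := default
  have hCfp : IsPGroup p Cf := hAp.of_equiv e
  have htop : (⊤ : Subgroup Cf) = (PC : Subgroup Cf) :=
    PC.is_maximal' (hCfp.of_equiv Subgroup.topEquiv.symm) le_top
  let ε : (P : Subgroup H) ≃* (PC : Subgroup Cf) :=
    ((Subgroup.equivMapOfInjective (P : Subgroup H) H.subtype H.subtype_injective).trans e).trans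
      (Subgroup.topEquiv.symm.trans (MulEquiv.subgroupCongr htop))
  rcases Cfsg.Agent.S0040.result Kf Cf hcompl hKf1 hfpf p PC with hcyc | ⟨n, ⟨δ⟩⟩
  · exact isCyclic_of_surjective ε.symm ε.symm.surjective
  · rcases Nat.eq_zero_or_pos n with hn | hn
    · subst hn
      haveI : IsCyclic (QuaternionGroup (2 ^ 0)) := QuaternionGroup.quaternionGroup_one_isCyclic
      exact isCyclic_of_surjective (ε.trans δ).symm (ε.trans δ).symm.surjective
    · exfalso
      have hcard : Nat.card (P : Subgroup H) = 4 * 2 ^ n := by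
        rw [Nat.card_congr (ε.trans δ).toEquiv, Nat.card_eq_fintype_card, QuaternionGroup.card]
      have hp2 : p = 2 := by
        have h1 : p ∣ Nat.card (P : Subgroup H) := by rw [← hcA]; exact hpA
        rw [hcard] at h1
        have h2 : p ∣ 2 ^ (n + 2) := by
          have : 4 * 2 ^ n = 2 ^ (n + 2) := by ring
          rwa [this] at h1
        exact (Nat.prime_dvd_prime_iff_eq hp Nat.prime_two).mp (hp.dvd_of_dvd_pow h2)
      subst hp2
      haveI := h2 P
      have hcomm : ∀ a b : QuaternionGroup (2 ^ n), a * b = b * a := by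
        intro a b
        have := mul_comm' ((ε.trans δ).symm a) ((ε.trans δ).symm b)
        rw [← map_mul, ← map_mul] at this
        exact (ε.trans δ).symm.injective this
      have h3 := hcomm (QuaternionGroup.a 1) (QuaternionGroup.xa 0)
      rw [QuaternionGroup.a_mul_xa, QuaternionGroup.xa_mul_a] at h3
      have h4 : (0 : ZMod (2 * 2 ^ n)) - 1 = 0 + 1 := QuaternionGroup.xa.inj h3
      have h5 : (2 : ZMod (2 * 2 ^ n)) = 0 := by
        linear_combination (-1 : ZMod (2 * 2 ^ n)) * h4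
      have h5' : ((2 : ℕ) : ZMod (2 * 2 ^ n)) = 0 := by exact_mod_cast h5
      rw [ZMod.natCast_eq_zero_iff] at h5'
      have h6 : 2 * 2 ^ n ≤ 2 := Nat.le_of_dvd (by norm_num) h5'
      have h7 : 2 ^ 1 ≤ 2 ^ n := Nat.pow_le_pow_right (by norm_num) hn
      omega

/-- conjugation action of `Q ≤ N_G(H)` on `H` -/
@[reducible] def conjAct {G : Type*} [Group G] (H Q : Subgroup G)
    (hQ : Q ≤ Subgroup.normalizer (H : Set G)) : MulDistribMulAction Q H where
  smul q h := ⟨(q : G) * (h : G) * (q : G)⁻¹,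
    (Subgroup.mem_normalizer_iff.mp (hQ q.2) h).mp h.2⟩
  one_smul h := Subtype.ext (show ((1 : Q) : G) * (h : G) * ((1 : Q) : G)⁻¹ = h by simp)
  mul_smul q₁ q₂ h := Subtype.ext
    (show ((q₁ * q₂ : Q) : G) * (h : G) * ((q₁ * q₂ : Q) : G)⁻¹
      = (q₁ : G) * ((q₂ : G) * (h : G) * (q₂ : G)⁻¹) * (q₁ : G)⁻¹ by push_cast; group)
  smul_mul q h₁ h₂ := Subtype.ext
    (show (q : G) * ((h₁ * h₂ : H) : G) * (q : G)⁻¹
      = ((q : G) * (h₁ : G) * (q : G)⁻¹) * ((q : G) * (h₂ : G) * (q : G)⁻¹) by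
        push_cast; group)
  smul_one q := Subtype.ext (show (q : G) * ((1 : H) : G) * (q : G)⁻¹ = ((1 : H) : G) by simp)

/-- `O ∩ N_G(H) ≤ Q` -/
theorem inf_normalizer_le {G : Type*} [Group G] [Finite G] (H O Q : Subgroup G)
    (hQ : Q ≤ Subgroup.normalizer (H : Set G))
    (hQH' : Q ⊔ H = Subgroup.normalizer (H : Set G))
    (hcop : (Nat.card Q).Coprime (Nat.card H))
    (hdisj : ∀ x, x ∈ O → x ∈ H → x = 1)
    (hcent : ∀ h ∈ H, h ≠ 1 → ∀ n ∈ O,
      (n * h = h * n ↔ n ∈ O ⊓ Subgroup.normalizer (H : Set G))) :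
    O ⊓ Subgroup.normalizer (H : Set G) ≤ Q := by
  intro k hk
  have hkO := (Subgroup.mem_inf.mp hk).1
  have hkM := (Subgroup.mem_inf.mp hk).2
  have hkM' : k ∈ ((Q ⊔ H : Subgroup G) : Set G) := by rw [hQH']; exact hkM
  rw [Subgroup.coe_mul_of_left_le_normalizer_right Q H hQ] at hkM'
  obtain ⟨q, hq, h, hh, hqh⟩ := Set.mem_mul.mp hkM'
  have hkh : k * h = h * k := by
    by_cases h1 : h = 1
    · rw [h1]; simp
    · exact (hcent h hh h1 k hkO).mpr hk
  have hqh' : Commute q h := by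
    have e : q = k * h⁻¹ := by rw [← hqh]; group
    show q * h = h * q
    rw [e]
    calc k * h⁻¹ * h = k := by group
      _ = h * k * h⁻¹ := by rw [← hkh]; group
      _ = h * (k * h⁻¹) := by group
  have hpow : k ^ Nat.card Q = h ^ Nat.card Q := by
    rw [← hqh, hqh'.mul_pow]
    have : q ^ Nat.card Q = 1 := by
      have h' : (⟨q, hq⟩ : Q) ^ Nat.card Q = 1 := pow_card_eq_one'
      have h'' := congrArg (fun z : Q => (z : G)) h'
      simpa only [Subgroup.coe_pow, Subgroup.coe_one] using h''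
    rw [this, one_mul]
  have h1 : h ^ Nat.card Q = 1 := by
    apply hdisj
    · rw [← hpow]; exact O.pow_mem hkO _
    · exact H.pow_mem hh _
  have h2 : h ^ Nat.card H = 1 := by
    have h' : (⟨h, hh⟩ : H) ^ Nat.card H = 1 := pow_card_eq_one'
    have h'' := congrArg (fun z : H => (z : G)) h'
    simpa only [Subgroup.coe_pow, Subgroup.coe_one] using h''
  have h3 : h = 1 := eq_one_of_pow_of_coprime h1 h2 hcop
  rw [← hqh, h3, mul_one]
  exact hq

/-- the final assembly of the normal complement -/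
theorem assemble {G : Type*} [Group G] (H O Q B' : Subgroup G) (hOn : O.Normal)
    (hQ : Q ≤ Subgroup.normalizer (H : Set G))
    (hQH : Q ⊓ H = ⊥) (hQH' : Q ⊔ H = Subgroup.normalizer (H : Set G))
    (hMO : Subgroup.normalizer (H : Set G) ⊔ O = ⊤)
    (hK₀Q : O ⊓ Subgroup.normalizer (H : Set G) ≤ Q)
    (hB'H : B' ≤ H)
    (hHB : ∀ h ∈ H, ∀ b ∈ B', h * b * h⁻¹ ∈ B')
    (hQB : ∀ q ∈ Q, ∀ b ∈ B', q * b * q⁻¹ ∈ B')
    (hcomm : ∀ h ∈ H, ∀ q ∈ Q, h * q * h⁻¹ * q⁻¹ ∈ B')
    (hBD : ∀ x, x ∈ B' → x ∈ H ⊓ Subgroup.centralizer (Q : Set G) → x = 1)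
    (hHBD : H ≤ B' ⊔ (H ⊓ Subgroup.centralizer (Q : Set G))) :
    ∃ N : Subgroup G, N.Normal ∧ N.IsComplement' (H ⊓ Subgroup.centralizer (Q : Set G)) := by
  haveI := hOn
  have hQnB : Q ≤ Subgroup.normalizer (B' : Set G) := by
    intro q hq
    rw [Subgroup.mem_normalizer_iff]
    intro b
    constructor
    · intro hb
      exact hQB q hq b hb
    · intro hb
      have := hQB q⁻¹ (Q.inv_mem hq) _ hb
      have e : q⁻¹ * (q * b * q⁻¹) * q⁻¹⁻¹ = b := by group
      rw [e] at this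
      exact this
  have hNmem : ∀ x ∈ O ⊔ (B' ⊔ Q), ∃ o ∈ O, ∃ b ∈ B', ∃ q ∈ Q, o * (b * q) = x := by
    intro x hx
    have hx' : x ∈ ((O ⊔ (B' ⊔ Q) : Subgroup G) : Set G) := hx
    rw [Subgroup.normal_mul] at hx'
    obtain ⟨o, ho, w, hw, how⟩ := Set.mem_mul.mp hx'
    have hw' : w ∈ ((B' ⊔ Q : Subgroup G) : Set G) := hw
    rw [Subgroup.coe_mul_of_right_le_normalizer_left B' Q hQnB] at hw'
    obtain ⟨b, hb, q, hq, hbq⟩ := Set.mem_mul.mp hw'
    exact ⟨o, ho, b, hb, q, hq, by rw [hbq, how]⟩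
  have hOle : O ≤ O ⊔ (B' ⊔ Q) := le_sup_left
  have hBle : B' ≤ O ⊔ (B' ⊔ Q) := le_trans le_sup_left le_sup_right
  have hQle : Q ≤ O ⊔ (B' ⊔ Q) := le_trans le_sup_right le_sup_right
  have hHconj : ∀ h ∈ H, ∀ x ∈ O ⊔ (B' ⊔ Q), h * x * h⁻¹ ∈ O ⊔ (B' ⊔ Q) := by
    intro h hh x hx
    obtain ⟨o, ho, b, hb, q, hq, rfl⟩ := hNmem x hx
    have e : h * (o * (b * q)) * h⁻¹
        = (h * o * h⁻¹) * ((h * b * h⁻¹) * (h * q * h⁻¹ * q⁻¹)) * q := by group
    rw [e]
    refine Subgroup.mul_mem _ (Subgroup.mul_mem _ (hOle (hOn.conj_mem o ho h)) ?_) (hQle hq)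
    exact hBle (B'.mul_mem (hHB h hh b hb) (hcomm h hh q hq))
  have hHn : H ≤ Subgroup.normalizer ((O ⊔ (B' ⊔ Q) : Subgroup G) : Set G) := by
    intro h hh
    rw [Subgroup.mem_normalizer_iff]
    intro x
    constructor
    · intro hx
      exact hHconj h hh x hx
    · intro hx
      have := hHconj h⁻¹ (H.inv_mem hh) _ hx
      have e : h⁻¹ * (h * x * h⁻¹) * h⁻¹⁻¹ = x := by group
      rw [e] at this
      exact this
  have hNn : (O ⊔ (B' ⊔ Q)).Normal := by
    rw [← Subgroup.normalizer_eq_top_iff, eq_top_iff, ← hMO, ← hQH']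
    exact sup_le (sup_le (le_trans hQle Subgroup.le_normalizer) hHn)
      (le_trans hOle Subgroup.le_normalizer)
  haveI := hNn
  have hsup : (O ⊔ (B' ⊔ Q)) ⊔ (H ⊓ Subgroup.centralizer (Q : Set G)) = ⊤ := by
    rw [eq_top_iff, ← hMO, ← hQH']
    refine sup_le (sup_le (le_trans hQle le_sup_left) ?_) (le_trans hOle le_sup_left)
    exact le_trans hHBD (sup_le (le_trans hBle le_sup_left) le_sup_right)
  refine ⟨O ⊔ (B' ⊔ Q), hNn, ?_⟩
  apply Subgroup.isComplement'_of_disjoint_and_mul_eq_univ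
  · rw [Subgroup.disjoint_def]
    intro x hxN hxD
    obtain ⟨o, ho, b, hb, q, hq, rfl⟩ := hNmem x hxN
    have hxH : o * (b * q) ∈ H := (Subgroup.mem_inf.mp hxD).1
    have hoM : o ∈ Subgroup.normalizer (H : Set G) := by
      have e : o = (o * (b * q)) * (b * q)⁻¹ := by group
      rw [e]
      exact Subgroup.mul_mem _ (Subgroup.le_normalizer hxH)
        (Subgroup.inv_mem _ (Subgroup.mul_mem _ (Subgroup.le_normalizer (hB'H hb)) (hQ hq)))
    have hoQ : o ∈ Q := hK₀Q (Subgroup.mem_inf.mpr ⟨ho, hoM⟩)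
    have hb₂ : o * b * o⁻¹ ∈ B' := hQB o hoQ b hb
    have hq₂ : o * q ∈ Q := Q.mul_mem hoQ hq
    have e : o * (b * q) = (o * b * o⁻¹) * (o * q) := by group
    have hq₂H : o * q ∈ H := by
      have e' : o * q = (o * b * o⁻¹)⁻¹ * (o * (b * q)) := by group
      rw [e']
      exact H.mul_mem (H.inv_mem (hB'H hb₂)) hxH
    have hq₂1 : o * q = 1 := by
      have : o * q ∈ Q ⊓ H := ⟨hq₂, hq₂H⟩
      rw [hQH, Subgroup.mem_bot] at this
      exact this
    rw [e, hq₂1, mul_one] at hxD ⊢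
    exact hBD _ hb₂ hxD
  · rw [← Subgroup.normal_mul, hsup]
    rfl

/-- Let G be a finite group and H a non-normal subgroup meeting each of its conjugates by elements outside N_G(H) trivially, with the order of H coprime to its index in N_G(H), such that G is π-separable for π the set of primes dividing the order of H (G has a chain of normal subgroups from 1 to G each of whose factors has order divisible only by primes dividing the order of H or coprime to it). Suppose a Sylow 2-subgroup of H is abelian and Q is a complement of H in N_G(H). Then C_H(Q), the subgroup of elements of H commuting with Q, has order coprime to its index in G and has a normal complement in G. -/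
theorem result {G : Type*} [Group G] [Finite G] (H : Subgroup G)
    (hTI : Cfsg.IsTISubset (H : Set G)) (hnn : ¬ H.Normal)
    (hHall : (Nat.card H).Coprime (H.subgroupOf (Subgroup.normalizer (H : Set G))).index)
    (hsep : ∃ (n : ℕ) (M : Fin (n + 1) → Subgroup G), M 0 = ⊥ ∧ M (Fin.last n) = ⊤ ∧ Monotone M ∧ (∀ i, (M i).Normal) ∧
      ∀ i : Fin n, (∀ q : ℕ, q.Prime → q ∣ (M i.castSucc).relIndex (M i.succ) → q ∣ Nat.card H) ∨
        ((M i.castSucc).relIndex (M i.succ)).Coprime (Nat.card H))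
    (h2 : ∀ P : Sylow 2 H, IsMulCommutative (P : Subgroup H))
    (Q : Subgroup G) (hQ : Q ≤ Subgroup.normalizer (H : Set G)) (hQH : Q ⊓ H = ⊥) (hQH' : Q ⊔ H = Subgroup.normalizer (H : Set G)) :
    (Nat.card ↥(H ⊓ Subgroup.centralizer (Q : Set G))).Coprime (H ⊓ Subgroup.centralizer (Q : Set G)).index ∧
    ∃ N : Subgroup G, N.Normal ∧ N.IsComplement' (H ⊓ Subgroup.centralizer (Q : Set G)) := by
  classical
  have hTI' : ∀ g : G, ∀ u ∈ H, u ≠ 1 → g * u * g⁻¹ ∈ H →
      g ∈ Subgroup.normalizer (H : Set G) := by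
    intro g u hu hu1 hgu
    by_contra hg
    exact hu1 (hTI g hg u hu hgu)
  have hHallG : (Nat.card H).Coprime H.index := coprime_index_of_ti H hTI' hHall
  have hH1 : H ≠ ⊥ := by
    intro h
    apply hnn
    rw [h]
    infer_instance
  obtain ⟨O, hOn, hOc, hOmax⟩ := exists_maximal_coprime (G := G) (Nat.card H)
  haveI := hOn
  have hOH : O ⊓ H = ⊥ := Subgroup.inf_eq_bot_of_coprime hOc
  have hdisj : ∀ x, x ∈ O → x ∈ H → x = 1 := by
    intro x hxO hxH
    have : x ∈ O ⊓ H := ⟨hxO, hxH⟩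
    rw [hOH, Subgroup.mem_bot] at this
    exact this
  have hOtop : O ≠ ⊤ := by
    intro h
    apply hH1
    rw [← hOH, h, top_inf_eq]
  obtain ⟨R₁, hR₁n, hOR, hR₁ne, hπ⟩ :=
    exists_pi_layer (Nat.card H) O hOn hOmax hOc hOtop hsep
  have hle := layer_le H O R₁ hOn hR₁n hOc hHallG hOR hπ
  have hH₀ := layer_inf_ne_bot H O R₁ hOn hOR hR₁ne hle
  have hMO : Subgroup.normalizer (H : Set G) ⊔ O = ⊤ :=
    frattini H O R₁ hR₁n hTI' hHallG hle hH₀
  have hcent := cent_char H O hOn hTI' hdisj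
  have hKne : O ⊓ Subgroup.normalizer (H : Set G) ≠ O := by
    intro h
    have hOM : O ≤ Subgroup.normalizer (H : Set G) := by rw [← h]; exact inf_le_right
    apply hnn
    rw [← Subgroup.normalizer_eq_top_iff, eq_top_iff, ← hMO]
    exact sup_le le_rfl hOM
  have hcyc : ∀ (p : ℕ) [Fact p.Prime] (P : Sylow p H), IsCyclic (P : Subgroup H) :=
    fun p _ P => sylow_cyclic H O hOn hOc hKne hcent h2 p P
  have hcQ : Nat.card Q = (H.subgroupOf (Subgroup.normalizer (H : Set G))).index := by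
    have hcomp : (H.subgroupOf (Subgroup.normalizer (H : Set G))).IsComplement'
        (Q.subgroupOf (Subgroup.normalizer (H : Set G))) := by
      apply Subgroup.isComplement'_of_disjoint_and_mul_eq_univ
      · rw [Subgroup.disjoint_def]
        intro x hx1 hx2
        have : (x : G) ∈ Q ⊓ H := ⟨hx2, hx1⟩
        rw [hQH, Subgroup.mem_bot] at this
        exact Subtype.ext this
      · rw [Set.eq_univ_iff_forall]
        intro m
        have hm : (m : G) ∈ ((Q ⊔ H : Subgroup G) : Set G) := by rw [hQH']; exact m.2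
        rw [Subgroup.coe_mul_of_left_le_normalizer_right Q H hQ] at hm
        obtain ⟨q, hq, h, hh, hqh⟩ := Set.mem_mul.mp hm
        rw [Set.mem_mul]
        have hqM := hQ hq
        have hconj : q * h * q⁻¹ ∈ H := (Subgroup.mem_normalizer_iff.mp hqM h).mp hh
        refine ⟨⟨q * h * q⁻¹, Subgroup.le_normalizer hconj⟩, hconj, ⟨q, hqM⟩, hq,
          Subtype.ext ?_⟩
        show q * h * q⁻¹ * q = (m : G)
        rw [← hqh]; group
    have h1 := hcomp.symm.index_eq_card
    rw [h1]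
    exact (Nat.card_congr (Subgroup.subgroupOfEquivOfLe hQ).toEquiv).symm
  have hcop : (Nat.card Q).Coprime (Nat.card H) := by rw [hcQ]; exact hHall.symm
  have hK₀Q := inf_normalizer_le H O Q hQ hQH' hcop hdisj hcent
  letI := conjAct H Q hQ
  obtain ⟨r1, r2, r3, r4, r5⟩ := Cfsg.Agent.S4117.result (G := H) (A := Q) hcop hcyc
  have hsmul : ∀ (q : Q) (h : H), ((q • h : H) : G) = (q : G) * (h : G) * (q : G)⁻¹ :=
    fun _ _ => rfl
  have hfix : (MulAction.fixedPoints Q H : Set H)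
      = (((H ⊓ Subgroup.centralizer (Q : Set G)).subgroupOf H : Subgroup H) : Set H) := by
    ext h
    rw [MulAction.mem_fixedPoints, SetLike.mem_coe, Subgroup.mem_subgroupOf, Subgroup.mem_inf,
      Subgroup.mem_centralizer_iff]
    constructor
    · intro hf
      refine ⟨h.2, ?_⟩
      intro q hq
      have h3 : q * (h : G) * q⁻¹ = (h : G) := congrArg Subtype.val (hf ⟨q, hq⟩)
      calc q * (h : G) = (q * (h : G) * q⁻¹) * q := by group
        _ = (h : G) * q := by rw [h3]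
    · rintro ⟨-, hc⟩ q
      apply Subtype.ext
      rw [hsmul, hc q q.2]
      group
  have hDH : H ⊓ Subgroup.centralizer (Q : Set G) ≤ H := inf_le_left
  have hcD : Nat.card (MulAction.fixedPoints Q H : Set H)
      = Nat.card (H ⊓ Subgroup.centralizer (Q : Set G) : Subgroup G) := by
    rw [hfix]
    exact Nat.card_congr (Subgroup.subgroupOfEquivOfLe hDH).toEquiv
  refine ⟨?_, ?_⟩
  · rw [hcD] at r1
    have e1 : Nat.card H / Nat.card (H ⊓ Subgroup.centralizer (Q : Set G) : Subgroup G)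
        = (H ⊓ Subgroup.centralizer (Q : Set G)).relIndex H := by
      rw [card_eq_mul_relIndex _ H hDH]
      exact Nat.mul_div_cancel_left _ Nat.card_pos
    rw [e1] at r1
    rw [← Subgroup.relIndex_mul_index hDH]
    exact Nat.Coprime.mul_right r1
      (Nat.Coprime.coprime_dvd_left (Subgroup.card_dvd_of_le hDH) hHallG)
  · have hgen : ∀ (a : Q) (g : H), g⁻¹ * a • g ∈
        Subgroup.closure {y : H | ∃ (a : Q) (g : H), y = g⁻¹ * a • g} :=
      fun a g => Subgroup.subset_closure ⟨a, g, rfl⟩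
    have hB'H : (Subgroup.closure {y : H | ∃ (a : Q) (g : H), y = g⁻¹ * a • g}).map H.subtype
        ≤ H := Subgroup.map_subtype_le _
    have hHB : ∀ h ∈ H, ∀ b ∈
        (Subgroup.closure {y : H | ∃ (a : Q) (g : H), y = g⁻¹ * a • g}).map H.subtype,
        h * b * h⁻¹ ∈
        (Subgroup.closure {y : H | ∃ (a : Q) (g : H), y = g⁻¹ * a • g}).map H.subtype := by
      rintro h hh _ ⟨b, hb, rfl⟩
      exact ⟨⟨h, hh⟩ * b * ⟨h, hh⟩⁻¹, r3.conj_mem b hb ⟨h, hh⟩, rfl⟩
    have hQB : ∀ q ∈ Q, ∀ b ∈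
        (Subgroup.closure {y : H | ∃ (a : Q) (g : H), y = g⁻¹ * a • g}).map H.subtype,
        q * b * q⁻¹ ∈
        (Subgroup.closure {y : H | ∃ (a : Q) (g : H), y = g⁻¹ * a • g}).map H.subtype := by
      rintro q hq _ ⟨b, hb, rfl⟩
      have hle' : Subgroup.closure {y : H | ∃ (a : Q) (g : H), y = g⁻¹ * a • g} ≤
          (Subgroup.closure {y : H | ∃ (a : Q) (g : H), y = g⁻¹ * a • g}).comap
            (MulDistribMulAction.toMonoidHom H (⟨q, hq⟩ : Q)) := by
        rw [Subgroup.closure_le]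
        rintro y ⟨a, g, rfl⟩
        show (⟨q, hq⟩ : Q) • (g⁻¹ * a • g) ∈
          Subgroup.closure {y : H | ∃ (a : Q) (g : H), y = g⁻¹ * a • g}
        have e : (⟨q, hq⟩ : Q) • (g⁻¹ * a • g)
            = ((⟨q, hq⟩ : Q) • g)⁻¹ * ((⟨q, hq⟩ : Q) * a * (⟨q, hq⟩ : Q)⁻¹) •
              ((⟨q, hq⟩ : Q) • g) := by
          rw [smul_mul', smul_inv', smul_smul, smul_smul]
          congr 2
          group
        rw [e]
        exact hgen _ _
      exact ⟨(⟨q, hq⟩ : Q) • b, hle' hb, rfl⟩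
    have hcomm : ∀ h ∈ H, ∀ q ∈ Q, h * q * h⁻¹ * q⁻¹ ∈
        (Subgroup.closure {y : H | ∃ (a : Q) (g : H), y = g⁻¹ * a • g}).map H.subtype := by
      intro h hh q hq
      refine ⟨(⟨h, hh⟩ : H)⁻¹⁻¹ * (⟨q, hq⟩ : Q) • (⟨h, hh⟩ : H)⁻¹, hgen _ _, ?_⟩
      show (((⟨h, hh⟩ : H)⁻¹⁻¹ : H) : G) * (q * (((⟨h, hh⟩ : H)⁻¹ : H) : G) * q⁻¹)
        = h * q * h⁻¹ * q⁻¹
      simp [mul_assoc]
    have hBD : ∀ x, x ∈
        (Subgroup.closure {y : H | ∃ (a : Q) (g : H), y = g⁻¹ * a • g}).map H.subtype →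
        x ∈ H ⊓ Subgroup.centralizer (Q : Set G) → x = 1 := by
      rintro _ ⟨b, hb, rfl⟩ hxD
      have h1 : b ∈ ((Subgroup.closure {y : H | ∃ (a : Q) (g : H), y = g⁻¹ * a • g} :
          Subgroup H) : Set H) ∩ MulAction.fixedPoints Q H := by
        refine ⟨hb, ?_⟩
        rw [hfix]
        exact hxD
      rw [r4, Set.mem_singleton_iff] at h1
      rw [h1]
      rfl
    have hHBD : H ≤
        (Subgroup.closure {y : H | ∃ (a : Q) (g : H), y = g⁻¹ * a • g}).map H.subtype ⊔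
          (H ⊓ Subgroup.centralizer (Q : Set G)) := by
      intro h hh
      have h1 : (⟨h, hh⟩ : H) ∈
          Subgroup.closure {y : H | ∃ (a : Q) (g : H), y = g⁻¹ * a • g} ⊔
            Subgroup.closure (MulAction.fixedPoints Q H) := by
        rw [r5]; trivial
      rw [hfix, Subgroup.closure_eq] at h1
      have h2 : h ∈ (Subgroup.closure {y : H | ∃ (a : Q) (g : H), y = g⁻¹ * a • g} ⊔
          (H ⊓ Subgroup.centralizer (Q : Set G)).subgroupOf H).map H.subtype :=
        ⟨⟨h, hh⟩, h1, rfl⟩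
      rw [Subgroup.map_sup, Subgroup.subgroupOf_map_subtype] at h2
      have h3 : (Subgroup.closure {y : H | ∃ (a : Q) (g : H), y = g⁻¹ * a • g}).map H.subtype ⊔
          ((H ⊓ Subgroup.centralizer (Q : Set G)) ⊓ H) ≤
          (Subgroup.closure {y : H | ∃ (a : Q) (g : H), y = g⁻¹ * a • g}).map H.subtype ⊔
          (H ⊓ Subgroup.centralizer (Q : Set G)) := sup_le_sup_left inf_le_left _
      exact h3 h2
    exact assemble H O Q _ hOn hQ hQH hQH' hMO hK₀Q hB'H hHB hQB hcomm hBD hHBD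

end Cfsg.Agent.S4151
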