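import Cfsg.Statements.S4118
import Cfsg.Agent.S4151
import Cfsg.Agent.S0040
import Cfsg.Agent.S0690
import Cfsg.Agent.Lib.Helper73.TIHall
import Cfsg.Agent.Lib.Helper73.AutComm
import Cfsg.Agent.Lib.Helper1.Coprime2

set_option autoImplicit false
open Cfsg

namespace Cfsg.Agent.S4118

open Cfsg.Agent.Lib.Helper73.TIHall Cfsg.Agent.Lib.Helper73.AutComm Cfsg.Agent.Lib.Helper1
open Cfsg.Agent.S4151 (exists_maximal_coprime exists_pi_layer layer_le layer_inf_ne_bot frattini
  cent_char card_eq_mul_relIndex)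
open scoped Pointwise

/-- A group acting without fixed points (a complement in a Frobenius-type group) and having no
subgroup isomorphic to `SL(2,5)` is solvable (Zassenhaus, via S0690). -/
theorem solvable_of_fpf {F : Type*} [Group F] [Finite F] (Kf Cf : Subgroup F) [Kf.Normal]
    (hKf1 : Kf ≠ ⊥) (hfpf : ∀ c ∈ Cf, c ≠ 1 → Kf ⊓ Subgroup.centralizer {c} = ⊥)
    (hno : ∀ K : Subgroup Cf, ¬ Nonempty (K ≃* Matrix.SpecialLinearGroup (Fin 2) (ZMod 5))) :
    Group.IsSolvable Cf := by
  by_contra hns
  obtain ⟨P, hPne, hPperf⟩ := exists_perfect_of_not_solvable hns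
  let f : Cf →* MulAut Kf := (MulAut.conjNormal (H := Kf)).comp Cf.subtype
  have hf : ∀ (c : Cf) (k : Kf), ((f c k : Kf) : F) = (c : F) * k * (c : F)⁻¹ := fun c k => by
    simp [f]
  have hcomm_of : ∀ (c : Cf) (k : Kf), f c k = k → (c : F) * k = k * c := by
    intro c k hk
    have h2 := hf c k
    rw [hk] at h2
    calc (c : F) * k = ((c : F) * k * (c : F)⁻¹) * c := by group
      _ = k * c := by rw [← h2]
  have hker : ∀ c : Cf, f c = 1 → c = 1 := by
    intro c hc
    by_contra hc1
    have hc1' : (c : F) ≠ 1 := fun h => hc1 (Subtype.ext h)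
    have hb := hfpf c c.2 hc1'
    apply hKf1
    rw [eq_bot_iff, ← hb]
    intro k hk
    refine Subgroup.mem_inf.mpr ⟨hk, ?_⟩
    rw [Subgroup.mem_centralizer_iff]
    intro y hy
    rw [Set.mem_singleton_iff] at hy
    subst hy
    exact hcomm_of c ⟨k, hk⟩ (by rw [hc]; rfl)
  have hfinj : Function.Injective f := (injective_iff_map_eq_one f).mpr hker
  have h1 : ∀ φ ∈ P.map f, φ ≠ 1 → ∀ k : Kf, φ k = k → k = 1 := by
    rintro φ ⟨c, hc, rfl⟩ hφ k hk
    have hc1 : (c : F) ≠ 1 := by
      intro h
      apply hφ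
      have : c = 1 := Subtype.ext h
      rw [this, map_one]
    have hkc : (k : F) ∈ Kf ⊓ Subgroup.centralizer {(c : F)} := by
      refine Subgroup.mem_inf.mpr ⟨k.2, ?_⟩
      rw [Subgroup.mem_centralizer_iff]
      intro y hy
      rw [Set.mem_singleton_iff] at hy
      subst hy
      exact hcomm_of c k hk
    rw [hfpf c c.2 hc1, Subgroup.mem_bot] at hkc
    exact Subtype.ext hkc
  have h2 : commutator (P.map f) = ⊤ := by
    haveI : Group.IsPerfect P := Subgroup.isPerfect_iff.mpr hPperf
    haveI : Group.IsPerfect (P.map f) := Group.IsPerfect.map f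
    exact Group.IsPerfect.commutator_eq_top
  have h3 : P.map f ≠ ⊥ := by
    intro h
    apply hPne
    rw [eq_bot_iff]
    intro c hc
    have : f c ∈ P.map f := ⟨c, hc, rfl⟩
    rw [h, Subgroup.mem_bot] at this
    rw [Subgroup.mem_bot]
    exact hker c this
  obtain ⟨ε⟩ := Cfsg.Agent.S0690.result (P.map f) h1 h2 h3
  exact hno P ⟨(Subgroup.equivMapOfInjective P f hfinj).trans ε⟩

/-- `Q` normalizes `Q ⊓ C(H)` when it normalizes `H`. -/
theorem le_normalizer_inf_centralizer {G : Type*} [Group G] (H Q : Subgroup G)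
    (hQ : Q ≤ Subgroup.normalizer (H : Set G)) :
    Q ≤ Subgroup.normalizer ((Q ⊓ Subgroup.centralizer (H : Set G) : Subgroup G) : Set G) := by
  have key : ∀ a ∈ Q, ∀ x ∈ Q ⊓ Subgroup.centralizer (H : Set G),
      a * x * a⁻¹ ∈ Q ⊓ Subgroup.centralizer (H : Set G) := by
    intro a ha x hx
    obtain ⟨hxQ, hxC⟩ := Subgroup.mem_inf.mp hx
    refine Subgroup.mem_inf.mpr ⟨Q.mul_mem (Q.mul_mem ha hxQ) (Q.inv_mem ha), ?_⟩
    rw [Subgroup.mem_centralizer_iff]
    intro h hh
    have h1 : a⁻¹ * h * a ∈ H := (Subgroup.mem_normalizer_iff''.mp (hQ ha) h).mp hh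
    have h2 := (Subgroup.mem_centralizer_iff.mp hxC) _ h1
    calc h * (a * x * a⁻¹) = a * ((a⁻¹ * h * a) * x) * a⁻¹ := by group
      _ = a * (x * (a⁻¹ * h * a)) * a⁻¹ := by rw [h2]
      _ = a * x * a⁻¹ * h := by group
  intro q hq
  rw [Subgroup.mem_normalizer_iff]
  intro x
  constructor
  · exact key q hq x
  · intro hx
    have := key q⁻¹ (Q.inv_mem hq) _ hx
    have e : q⁻¹ * (q * x * q⁻¹) * q⁻¹⁻¹ = x := by group
    rw [e] at this
    exact this

/-- Let G be a finite group and H a non-normal subgroup meeting each of its conjugates by elements outside N_G(H) trivially, with the order of H coprime to its index in N_G(H); let π be the set of primes dividing the order of H and suppose G is π-separable (it has a chain of normal subgroups from 1 to G each of whose factors has order divisible only by primes in π or coprime to the order of H). Let O be the largest normal subgroup of G of order coprime to the order of H. Then G = O·N_G(H), O·H is normal in G, and G is solvable if and only if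 O is solvable and H has no subgroup isomorphic to SL₂(5). -/
theorem result {G : Type*} [Group G] [Finite G] (H : Subgroup G)
    (hTI : Cfsg.IsTISubset (H : Set G)) (hnn : ¬ H.Normal)
    (hHall : (Nat.card H).Coprime (H.subgroupOf (Subgroup.normalizer (H : Set G))).index)
    (hsep : ∃ (n : ℕ) (M : Fin (n + 1) → Subgroup G), M 0 = ⊥ ∧ M (Fin.last n) = ⊤ ∧ Monotone M ∧ (∀ i, (M i).Normal) ∧
      ∀ i : Fin n, (∀ q : ℕ, q.Prime → q ∣ (M i.castSucc).relIndex (M i.succ) → q ∣ Nat.card H) ∨
        ((M i.castSucc).relIndex (M i.succ)).Coprime (Nat.card H))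
    (O : Subgroup G) (hO : O = sSup {K : Subgroup G | K.Normal ∧ (Nat.card K).Coprime (Nat.card H)}) :
    O ⊔ Subgroup.normalizer (H : Set G) = ⊤ ∧ (O ⊔ H).Normal ∧
    (Group.IsSolvable G ↔ Group.IsSolvable O ∧
      ∀ K : Subgroup G, K ≤ H → ¬ Nonempty (K ≃* Matrix.SpecialLinearGroup (Fin 2) (ZMod 5))) := by
  classical
  have hTI' : ∀ g : G, ∀ u ∈ H, u ≠ 1 → g * u * g⁻¹ ∈ H →
      g ∈ Subgroup.normalizer (H : Set G) := by
    intro g u hu hu1 hgu
    by_contra hg
    exact hu1 (hTI g hg u hu hgu)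
  have hHallG : (Nat.card H).Coprime H.index := coprime_index_of_ti H hTI' hHall
  have hH1 : H ≠ ⊥ := by
    intro h
    apply hnn
    rw [h]
    infer_instance
  obtain ⟨O', hOn, hOc, hOmax⟩ := exists_maximal_coprime (G := G) (Nat.card H)
  haveI := hOn
  have hsupc : ∀ K : Subgroup G, (Nat.card K).Coprime (Nat.card H) →
      (Nat.card (O' ⊔ K : Subgroup G)).Coprime (Nat.card H) := by
    intro K hKc
    rw [card_eq_mul_relIndex O' _ le_sup_left, Subgroup.relIndex_sup_left]
    exact Nat.Coprime.mul_left hOc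
      (Nat.Coprime.coprime_dvd_left (Subgroup.relIndex_dvd_card _ _) hKc)
  have hOO : O = O' := by
    apply le_antisymm
    · rw [hO]
      apply sSup_le
      rintro K ⟨hKn, hKc⟩
      haveI := hKn
      have h1 : O' ⊔ K = O' := hOmax (O' ⊔ K) inferInstance (hsupc K hKc) le_sup_left
      rw [← h1]
      exact le_sup_right
    · rw [hO]
      exact le_sSup ⟨hOn, hOc⟩
  subst hOO
  have hOH : O ⊓ H = ⊥ := (Subgroup.disjoint_of_coprime_natCard hOc).eq_bot
  have hdisj : ∀ x, x ∈ O → x ∈ H → x = 1 := by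
    intro x hxO hxH
    have : x ∈ O ⊓ H := ⟨hxO, hxH⟩
    rw [hOH, Subgroup.mem_bot] at this
    exact this
  have hOtop : O ≠ ⊤ := by
    intro h
    apply hH1
    rw [← hOH, h, top_inf_eq]
  obtain ⟨R₁, hR₁n, hOR, hR₁ne, hπ⟩ :=
    exists_pi_layer (Nat.card H) O hOn hOmax hOc hOtop hsep
  have hle := layer_le H O R₁ hOn hR₁n hOc hHallG hOR hπ
  have hH₀ := layer_inf_ne_bot H O R₁ hOn hOR hR₁ne hle
  have hMO : Subgroup.normalizer (H : Set G) ⊔ O = ⊤ :=
    frattini H O R₁ hR₁n hTI' hHallG hle hH₀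
  have hcent := cent_char H O hOn hTI' hdisj
  have hKne : O ⊓ Subgroup.normalizer (H : Set G) ≠ O := by
    intro h
    have hOM : O ≤ Subgroup.normalizer (H : Set G) := by rw [← h]; exact inf_le_right
    apply hnn
    rw [← Subgroup.normalizer_eq_top_iff, eq_top_iff, ← hMO]
    exact sup_le le_rfl hOM
  -- `O ⊔ H` is normal
  have hMn : (O ⊔ H).Normal := by
    rw [← Subgroup.normalizer_eq_top_iff, eq_top_iff, ← hMO]
    apply sup_le
    · intro n hn
      rw [mem_normalizer_iff_conj_smul, Subgroup.smul_sup,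
        (mem_normalizer_iff_conj_smul n H).mp hn, Subgroup.Normal.conj_smul_eq_self]
    · exact le_trans le_sup_left Subgroup.le_normalizer
  refine ⟨by rw [sup_comm]; exact hMO, hMn, ?_⟩
  constructor
  · intro hG
    haveI := hG
    refine ⟨inferInstance, ?_⟩
    rintro K - ⟨e⟩
    exact sl25_not_solvable (Group.isSolvable_of_surjective (f := e.toMonoidHom) e.surjective)
  · rintro ⟨hOs, hnoSL⟩
    -- a prime `r` with no Sylow `r`-subgroup of `O` inside `N_G(H)`
    have hr : ∃ r : ℕ, r.Prime ∧
        (Nat.card (O ⊓ Subgroup.normalizer (H : Set G) : Subgroup G)).factorization r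
          < (Nat.card O).factorization r := by
      by_contra hcon
      push Not at hcon
      have hle' : (Nat.card O).factorization
          ≤ (Nat.card (O ⊓ Subgroup.normalizer (H : Set G) : Subgroup G)).factorization := by
        intro r
        by_cases hr : r.Prime
        · exact hcon r hr
        · rw [Nat.factorization_eq_zero_of_not_prime _ hr]; exact Nat.zero_le _
      have hdvd := (Nat.factorization_le_iff_dvd Nat.card_pos.ne' Nat.card_pos.ne').mp hle'
      exact hKne (Subgroup.eq_of_le_of_card_ge inf_le_left (Nat.le_of_dvd Nat.card_pos hdvd))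
    obtain ⟨r, hrp, hrlt⟩ := hr
    haveI : Fact r.Prime := ⟨hrp⟩
    have hHO : H ≤ Subgroup.normalizer (O : Set G) := by
      rw [Subgroup.normalizer_eq_top_iff.mpr hOn]; exact le_top
    obtain ⟨R', hR'⟩ := exists_invariant_sylow (A := H) (K := O) hHO hOc.symm (Or.inr hOs) r
    have hRp : IsPGroup r ((R' : Subgroup O).map O.subtype) := R'.isPGroup'.map _
    have hRO : (R' : Subgroup O).map O.subtype ≤ O := Subgroup.map_subtype_le _
    have hcR : Nat.card ((R' : Subgroup O).map O.subtype) = r ^ (Nat.card O).factorization r := by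
      rw [Subgroup.card_map_of_injective O.subtype_injective]
      exact R'.card_eq_multiplicity
    have hRK : ¬ (R' : Subgroup O).map O.subtype ≤ O ⊓ Subgroup.normalizer (H : Set G) := by
      intro h
      have h1 := Subgroup.card_dvd_of_le h
      rw [hcR] at h1
      have h2 := (hrp.pow_dvd_iff_le_factorization Nat.card_pos.ne').mp h1
      omega
    have hrO : r ∣ Nat.card O := Nat.dvd_of_factorization_pos (by omega)
    have hHr : (Nat.card H).Coprime r := Nat.Coprime.coprime_dvd_right hrO hOc.symm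
    have hAR : ∀ a ∈ H, ∀ x ∈ (R' : Subgroup O).map O.subtype,
        a * x * a⁻¹ ∈ (R' : Subgroup O).map O.subtype := by
      intro a ha x hx
      exact (Subgroup.mem_normalizer_iff.mp (hR' ha) x).mp hx
    obtain ⟨F, hFg, hFf, Kf, Cf, hKfn, hcompl, hKf1, hfpf, ⟨e⟩⟩ :=
      frobenius_of_action r ((R' : Subgroup O).map O.subtype) H
        ((R' : Subgroup O).map O.subtype ⊓ (O ⊓ Subgroup.normalizer (H : Set G)))
        hRp hHr hH1 hAR inf_le_left
        (fun h => hRK (by rw [← h]; exact inf_le_right))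
        (fun a ha ha1 x hx => by
          rw [hcent a ha ha1 x (hRO hx), Subgroup.mem_inf]
          exact ⟨fun h => ⟨hx, h⟩, fun h => h.2⟩)
    haveI := hKfn
    -- `H` is solvable
    have hCs : Group.IsSolvable Cf := by
      apply solvable_of_fpf Kf Cf hKf1 hfpf
      rintro K ⟨ε⟩
      refine hnoSL ((K.map e.symm.toMonoidHom).map H.subtype) (Subgroup.map_subtype_le _) ⟨?_⟩
      exact ((Subgroup.equivMapOfInjective K e.symm.toMonoidHom e.symm.injective).trans
        (Subgroup.equivMapOfInjective _ H.subtype H.subtype_injective)).symm.trans ε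
    have hHs : Group.IsSolvable H := by
      haveI := hCs
      exact Group.isSolvable_of_isSolvable_injective (f := e.toMonoidHom) e.injective
    -- Sylow subgroups of `H` are cyclic or generalized quaternion
    have hcq : ∀ (p : ℕ) [Fact p.Prime] (P : Sylow p H),
        IsCyclic ((P : Subgroup H).map H.subtype) ∨
          ∃ n : ℕ, Nonempty (((P : Subgroup H).map H.subtype) ≃* QuaternionGroup (2 ^ n)) := by
      intro p _ P
      have hcardP' : Nat.card ((P : Subgroup H).map e.toMonoidHom)
          = p ^ (Nat.card Cf).factorization p := by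
        rw [Subgroup.card_map_of_injective e.injective, P.card_eq_multiplicity,
          Nat.card_congr e.toEquiv]
      let PC : Sylow p Cf := Sylow.ofCard ((P : Subgroup H).map e.toMonoidHom) hcardP'
      let ε : ((P : Subgroup H).map H.subtype) ≃* (PC : Subgroup Cf) :=
        (Subgroup.equivMapOfInjective (P : Subgroup H) H.subtype H.subtype_injective).symm.trans
          (Subgroup.equivMapOfInjective (P : Subgroup H) e.toMonoidHom e.injective)
      rcases Cfsg.Agent.S0040.result Kf Cf hcompl hKf1 hfpf p PC with hcyc | ⟨n, ⟨δ⟩⟩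
      · left; exact isCyclic_of_surjective ε.symm ε.symm.surjective
      · right; exact ⟨n, ⟨ε.trans δ⟩⟩
    -- a complement `Q` of `H` in `N_G(H)`
    haveI : (H.subgroupOf (Subgroup.normalizer (H : Set G))).Normal :=
      Subgroup.normal_in_normalizer
    have hcH : Nat.card (H.subgroupOf (Subgroup.normalizer (H : Set G))) = Nat.card H :=
      Nat.card_congr (Subgroup.subgroupOfEquivOfLe Subgroup.le_normalizer).toEquiv
    obtain ⟨Q', hQ'⟩ := Subgroup.exists_right_complement'_of_coprime
      (N := H.subgroupOf (Subgroup.normalizer (H : Set G))) (by rw [hcH]; exact hHall)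
    obtain ⟨Q, hQdef⟩ : ∃ Q : Subgroup G, Q = Q'.map (Subgroup.normalizer (H : Set G)).subtype :=
      ⟨_, rfl⟩
    have hQN : Q ≤ Subgroup.normalizer (H : Set G) := by
      rw [hQdef]; exact Subgroup.map_subtype_le Q'
    have hcQ : Nat.card Q = (H.subgroupOf (Subgroup.normalizer (H : Set G))).index := by
      rw [hQdef, Subgroup.card_map_of_injective (Subgroup.subtype_injective _)]
      exact hQ'.symm.index_eq_card.symm
    have hcopQ : (Nat.card Q).Coprime (Nat.card H) := by
      rw [hcQ]; exact hHall.symm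
    have hNdec : ∀ n ∈ Subgroup.normalizer (H : Set G), ∃ h ∈ H, ∃ q ∈ Q, n = h * q := by
      intro n hn
      obtain ⟨⟨⟨h, hh⟩, ⟨q, hq⟩⟩, hhq⟩ := hQ'.2 ⟨n, hn⟩
      refine ⟨(h : G), Subgroup.mem_subgroupOf.mp hh, (q : G), ?_, ?_⟩
      · rw [hQdef]; exact ⟨q, hq, rfl⟩
      · have := congrArg Subtype.val hhq
        simpa using this.symm
    have hGdec : ∀ g : G, ∃ m ∈ O ⊔ H, ∃ q ∈ Q, g = m * q := by
      intro g
      have hg : g ∈ ((Subgroup.normalizer (H : Set G) ⊔ O : Subgroup G) : Set G) := by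
        rw [hMO]; trivial
      rw [Subgroup.mul_normal] at hg
      obtain ⟨n, hn, o, ho, rfl⟩ := Set.mem_mul.mp hg
      obtain ⟨h, hh, q, hq, rfl⟩ := hNdec n hn
      refine ⟨h * (q * o * q⁻¹), (O ⊔ H).mul_mem (Subgroup.mem_sup_right hh)
        (Subgroup.mem_sup_left (hOn.conj_mem o ho q)), q, hq, by group⟩
    -- `C_Q(H) ≤ O`
    have hBO : Q ⊓ Subgroup.centralizer (H : Set G) ≤ O := by
      obtain ⟨B, hB⟩ : ∃ B : Subgroup G, B = Q ⊓ Subgroup.centralizer (H : Set G) := ⟨_, rfl⟩
      rw [← hB]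
      have hQB : Q ≤ Subgroup.normalizer (B : Set G) := by
        rw [hB]; exact le_normalizer_inf_centralizer H Q hQN
      have hHB : H ≤ Subgroup.normalizer (B : Set G) := by
        refine le_trans ?_ (Subgroup.centralizer_le_normalizer _)
        intro h hh
        rw [Subgroup.mem_centralizer_iff]
        intro b hb
        rw [SetLike.mem_coe, hB] at hb
        exact ((Subgroup.mem_centralizer_iff.mp (Subgroup.mem_inf.mp hb).2) h hh).symm
      have hNB : Subgroup.normalizer (H : Set G) ≤ Subgroup.normalizer (B : Set G) := by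
        intro n hn
        obtain ⟨h, hh, q, hq, rfl⟩ := hNdec n hn
        exact Subgroup.mul_mem _ (hHB hh) (hQB hq)
      have hBn : (O ⊔ B).Normal := by
        rw [← Subgroup.normalizer_eq_top_iff, eq_top_iff, ← hMO]
        apply sup_le
        · intro n hn
          rw [mem_normalizer_iff_conj_smul, Subgroup.smul_sup,
            (mem_normalizer_iff_conj_smul n B).mp (hNB hn), Subgroup.Normal.conj_smul_eq_self]
        · exact le_trans le_sup_left Subgroup.le_normalizer
      have hBc : (Nat.card B).Coprime (Nat.card H) := by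
        rw [hB]
        exact Nat.Coprime.coprime_dvd_left (Subgroup.card_dvd_of_le inf_le_left) hcopQ
      have h1 : O ⊔ B = O := hOmax (O ⊔ B) hBn (hsupc B hBc) le_sup_left
      rw [← h1]; exact le_sup_right
    -- commutators of `Q` centralize `H`
    have hQc : ∀ q₁ ∈ Q, ∀ q₂ ∈ Q,
        q₁ * q₂ * q₁⁻¹ * q₂⁻¹ ∈ Subgroup.centralizer (H : Set G) := by
      intro q₁ h1 q₂ h2
      have hD : H ⊓ Subgroup.centralizer {q₁ * q₂ * q₁⁻¹ * q₂⁻¹} = H := by
        apply Subgroup.eq_of_le_of_card_ge inf_le_left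
        apply Nat.le_of_dvd Nat.card_pos
        rw [← Nat.factorization_le_iff_dvd Nat.card_pos.ne' Nat.card_pos.ne']
        intro p
        by_cases hp : p.Prime
        · haveI : Fact p.Prime := ⟨hp⟩
          obtain ⟨P, hP⟩ := exists_invariant_sylow (A := Q) (K := H) hQN hcopQ (Or.inr hHs) p
          have hcP : Nat.card ((P : Subgroup H).map H.subtype)
              = p ^ (Nat.card H).factorization p := by
            rw [Subgroup.card_map_of_injective H.subtype_injective]
            exact P.card_eq_multiplicity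
          have hPD : (P : Subgroup H).map H.subtype
              ≤ H ⊓ Subgroup.centralizer {q₁ * q₂ * q₁⁻¹ * q₂⁻¹} := by
            intro x hx
            refine Subgroup.mem_inf.mpr ⟨Subgroup.map_subtype_le _ hx, ?_⟩
            rw [Subgroup.mem_centralizer_iff]
            intro y hy
            rw [Set.mem_singleton_iff] at hy
            subst hy
            exact comm_centralizes ((P : Subgroup H).map H.subtype) Q (hcq p P) hP
              (Nat.Coprime.coprime_dvd_right
                (Subgroup.card_dvd_of_le (Subgroup.map_subtype_le _)) hcopQ) q₁ q₂ h1 h2 x hx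
          have h3 := Subgroup.card_dvd_of_le hPD
          rw [hcP] at h3
          exact (hp.pow_dvd_iff_le_factorization Nat.card_pos.ne').mp h3
        · rw [Nat.factorization_eq_zero_of_not_prime _ hp]; exact Nat.zero_le _
      rw [Subgroup.mem_centralizer_iff]
      intro h hh
      have h3 : h ∈ H ⊓ Subgroup.centralizer {q₁ * q₂ * q₁⁻¹ * q₂⁻¹} := by rw [hD]; exact hh
      exact (Subgroup.mem_centralizer_iff.mp (Subgroup.mem_inf.mp h3).2 _ rfl).symm
    -- `G ⧸ (O ⊔ H)` is commutative
    haveI := hMn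
    have hcomm : ∀ a b : G ⧸ (O ⊔ H), a * b = b * a := by
      intro a b
      obtain ⟨g₁, rfl⟩ := QuotientGroup.mk_surjective a
      obtain ⟨g₂, rfl⟩ := QuotientGroup.mk_surjective b
      obtain ⟨m₁, hm₁, q₁, hq₁, rfl⟩ := hGdec g₁
      obtain ⟨m₂, hm₂, q₂, hq₂, rfl⟩ := hGdec g₂
      have e1 : ((m₁ * q₁ : G) : G ⧸ (O ⊔ H)) = (q₁ : G ⧸ (O ⊔ H)) := by
        rw [QuotientGroup.mk_mul, (QuotientGroup.eq_one_iff m₁).mpr hm₁, one_mul]
      have e2 : ((m₂ * q₂ : G) : G ⧸ (O ⊔ H)) = (q₂ : G ⧸ (O ⊔ H)) := by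
        rw [QuotientGroup.mk_mul, (QuotientGroup.eq_one_iff m₂).mpr hm₂, one_mul]
      rw [e1, e2, ← QuotientGroup.mk_mul, ← QuotientGroup.mk_mul, QuotientGroup.eq]
      have hc := hQc q₂⁻¹ (Q.inv_mem hq₂) q₁⁻¹ (Q.inv_mem hq₁)
      have e3 : (q₁ * q₂)⁻¹ * (q₂ * q₁) = q₂⁻¹ * q₁⁻¹ * q₂⁻¹⁻¹ * q₁⁻¹⁻¹ := by group
      rw [e3]
      refine Subgroup.mem_sup_left (hBO (Subgroup.mem_inf.mpr ⟨?_, hc⟩))
      exact Q.mul_mem (Q.mul_mem (Q.mul_mem (Q.inv_mem hq₂) (Q.inv_mem hq₁))
        (Q.inv_mem (Q.inv_mem hq₂))) (Q.inv_mem (Q.inv_mem hq₁))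
    haveI : Group.IsSolvable (G ⧸ (O ⊔ H)) := Group.isSolvable_of_comm hcomm
    haveI : Group.IsSolvable ↥(O ⊔ H) := solvable_sup O H hOs hHs
    exact Group.isSolvable_of_ker_le_range (O ⊔ H).subtype (QuotientGroup.mk' (O ⊔ H))
      (by rw [QuotientGroup.ker_mk', Subgroup.range_subtype])

end Cfsg.Agent.S4118
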