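import Cfsg.Statements.S4139
import Mathlib

set_option autoImplicit false
open Cfsg

namespace Cfsg.Agent.S4139

open Pointwise

/-- class size = index of centralizer -/
theorem card_carrier_eq_index {G : Type*} [Group G] (x : G) :
    Nat.card (ConjClasses.mk x).carrier = (Subgroup.centralizer ({x} : Set G)).index := by
  have h1 := Subgroup.index_comap_of_surjective (MulAction.stabilizer (ConjAct G) x)
    (f := (ConjAct.toConjAct (G := G)).toMonoidHom) (MulEquiv.surjective _)
  rw [Nat.card_coe_set_eq, ← ConjAct.orbit_eq_carrier_conjClasses, ← MulAction.index_stabilizer,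
    Subgroup.centralizer_eq_comap_stabilizer]
  exact h1.symm

/-- A class-size-preserving bijection. -/
theorem exists_equiv {G H : Type*} [Group G] [Finite G] [Group H] [Finite H]
    (h : ∀ k : ℕ, Nat.card {C : ConjClasses G // Nat.card C.carrier = k} =
      Nat.card {C : ConjClasses H // Nat.card C.carrier = k}) :
    ∃ ψ : G ≃ H, ∀ x, Nat.card (ConjClasses.mk (ψ x)).carrier =
      Nat.card (ConjClasses.mk x).carrier := by
  classical
  have h1 : ∀ k, Nonempty ({C : ConjClasses G // Nat.card C.carrier = k} ≃
      {C : ConjClasses H // Nat.card C.carrier = k}) := fun k => Finite.card_eq.mp (h k)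
  let e : ∀ k, {C : ConjClasses G // Nat.card C.carrier = k} ≃
      {C : ConjClasses H // Nat.card C.carrier = k} := fun k => (h1 k).some
  let φ : ConjClasses G ≃ ConjClasses H :=
    (Equiv.sigmaFiberEquiv (fun C : ConjClasses G => Nat.card C.carrier)).symm.trans
      ((Equiv.sigmaCongrRight e).trans
        (Equiv.sigmaFiberEquiv (fun C : ConjClasses H => Nat.card C.carrier)))
  have hφ : ∀ C, Nat.card (φ C).carrier = Nat.card C.carrier := by
    intro C
    exact (e (Nat.card C.carrier) ⟨C, rfl⟩).2
  have h2 : ∀ C : ConjClasses G, Nonempty ({x : G // ConjClasses.mk x = C} ≃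
      {y : H // ConjClasses.mk y = φ C}) := by
    intro C
    apply Finite.card_eq.mp
    have e1 : Nat.card C.carrier = Nat.card {x : G // ConjClasses.mk x = C} :=
      Nat.card_congr (Equiv.subtypeEquivRight (fun a => ConjClasses.mem_carrier_iff_mk_eq))
    have e2 : Nat.card (φ C).carrier = Nat.card {y : H // ConjClasses.mk y = φ C} :=
      Nat.card_congr (Equiv.subtypeEquivRight (fun a => ConjClasses.mem_carrier_iff_mk_eq))
    rw [← e1, ← e2, hφ]
  let e' : ∀ C : ConjClasses G, {x : G // ConjClasses.mk x = C} ≃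
      {y : H // ConjClasses.mk y = φ C} := fun C => (h2 C).some
  let ψ : G ≃ H :=
    (Equiv.sigmaFiberEquiv (ConjClasses.mk : G → ConjClasses G)).symm.trans
      ((Equiv.sigmaCongr φ e').trans
        (Equiv.sigmaFiberEquiv (ConjClasses.mk : H → ConjClasses H)))
  refine ⟨ψ, fun x => ?_⟩
  have h3 : ConjClasses.mk (ψ x) = φ (ConjClasses.mk x) := (e' (ConjClasses.mk x) ⟨x, rfl⟩).2
  rw [h3, hφ]

theorem card_eq_of {G H : Type*} [Group G] [Finite G] [Group H] [Finite H]
    (h : ∀ k : ℕ, Nat.card {C : ConjClasses G // Nat.card C.carrier = k} =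
      Nat.card {C : ConjClasses H // Nat.card C.carrier = k}) :
    Nat.card G = Nat.card H := by
  obtain ⟨ψ, _⟩ := exists_equiv h
  exact Nat.card_congr ψ

theorem mem_center_iff_card {G : Type*} [Group G] (x : G) :
    x ∈ Subgroup.center G ↔ Nat.card (ConjClasses.mk x).carrier = 1 := by
  rw [card_carrier_eq_index, Subgroup.index_eq_one, Subgroup.centralizer_eq_top_iff_subset,
    Set.singleton_subset_iff]
  rfl

theorem card_center_eq_of {G H : Type*} [Group G] [Finite G] [Group H] [Finite H]
    (h : ∀ k : ℕ, Nat.card {C : ConjClasses G // Nat.card C.carrier = k} =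
      Nat.card {C : ConjClasses H // Nat.card C.carrier = k}) :
    Nat.card (Subgroup.center G) = Nat.card (Subgroup.center H) := by
  obtain ⟨ψ, hψ⟩ := exists_equiv h
  have e1 : Nat.card (Subgroup.center G) =
      Nat.card {x : G // Nat.card (ConjClasses.mk x).carrier = 1} :=
    Nat.card_congr (Equiv.subtypeEquivRight (fun a => mem_center_iff_card a))
  have e2 : Nat.card (Subgroup.center H) =
      Nat.card {x : H // Nat.card (ConjClasses.mk x).carrier = 1} :=
    Nat.card_congr (Equiv.subtypeEquivRight (fun a => mem_center_iff_card a))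
  rw [e1, e2]
  exact Nat.card_congr (ψ.subtypeEquiv (fun x => by rw [hψ x]))

theorem card_reg_eq_of {G H : Type*} [Group G] [Finite G] [Group H] [Finite H]
    (h : ∀ k : ℕ, Nat.card {C : ConjClasses G // Nat.card C.carrier = k} =
      Nat.card {C : ConjClasses H // Nat.card C.carrier = k}) (q : ℕ) :
    Nat.card {x : G // ¬ q ∣ Nat.card (ConjClasses.mk x).carrier} =
      Nat.card {x : H // ¬ q ∣ Nat.card (ConjClasses.mk x).carrier} := by
  obtain ⟨ψ, hψ⟩ := exists_equiv h
  exact Nat.card_congr (ψ.subtypeEquiv (fun x => by rw [hψ x]))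



/-- number of Sylow `q`-subgroups centralized by `x` -/
noncomputable def nS {G : Type*} [Group G] (q : ℕ) (x : G) : ℕ :=
  Nat.card {P : Sylow q G // x ∈ Subgroup.centralizer (P : Set G)}

theorem mem_centralizer_sylow_iff {G : Type*} [Group G] {q : ℕ} (P : Sylow q G) (x : G) :
    x ∈ Subgroup.centralizer (P : Set G) ↔
      (P : Subgroup G) ≤ Subgroup.centralizer ({x} : Set G) := by
  constructor
  · intro hx y hy
    rw [Subgroup.mem_centralizer_iff]
    intro z hz
    rw [Set.mem_singleton_iff] at hz
    subst hz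
    exact ((Subgroup.mem_centralizer_iff.mp hx) y hy).symm
  · intro hP
    rw [Subgroup.mem_centralizer_iff]
    intro y hy
    have := Subgroup.mem_centralizer_iff.mp (hP hy) x (Set.mem_singleton x)
    exact this.symm

theorem nS_pos_imp {G : Type*} [Group G] [Finite G] (q : ℕ) [Fact q.Prime] (x : G)
    (h : 0 < nS q x) : ¬ q ∣ Nat.card (ConjClasses.mk x).carrier := by
  unfold nS at h
  obtain ⟨⟨P, hP⟩⟩ := (Nat.card_pos_iff.mp h).1
  rw [card_carrier_eq_index]
  intro hq
  exact P.not_dvd_index (hq.trans (Subgroup.index_dvd_of_le ((mem_centralizer_sylow_iff P x).mp hP)))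

theorem nS_eq_card_sylow {G : Type*} [Group G] [Finite G] (q : ℕ) [Fact q.Prime] (x : G)
    (h : ¬ q ∣ Nat.card (ConjClasses.mk x).carrier) :
    nS q x = Nat.card (Sylow q (Subgroup.centralizer ({x} : Set G))) := by
  rw [card_carrier_eq_index] at h
  set Cx := Subgroup.centralizer ({x} : Set G) with hCx
  have hidx : ∀ R : Sylow q Cx, ¬ q ∣ ((R : Subgroup Cx).map Cx.subtype).index := by
    intro R
    rw [Subgroup.index_map_subtype]
    intro hd
    rcases (Nat.Prime.dvd_mul Fact.out).mp hd with h1 | h1
    · exact R.not_dvd_index h1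
    · exact h h1
  let F : Sylow q Cx → {P : Sylow q G // x ∈ Subgroup.centralizer (P : Set G)} := fun R =>
    ⟨IsPGroup.toSylow (P := (R : Subgroup Cx).map Cx.subtype) (R.2.map _) (hidx R), by
      rw [mem_centralizer_sylow_iff]
      rw [IsPGroup.toSylow_coe]
      exact Subgroup.map_subtype_le _⟩
  have hF : Function.Bijective F := by
    constructor
    · intro R R' hRR
      have h1 := congrArg (fun P => ((P.1 : Sylow q G) : Subgroup G)) hRR
      simp only [F, IsPGroup.toSylow_coe] at h1
      exact Sylow.ext (Subgroup.map_injective Cx.subtype_injective h1)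
    · rintro ⟨P, hP⟩
      have hP' : (P : Subgroup G) ≤ Cx := (mem_centralizer_sylow_iff P x).mp hP
      refine ⟨P.subtype hP', ?_⟩
      apply Subtype.ext
      apply Sylow.ext
      simp only [F, IsPGroup.toSylow_coe, Sylow.coe_subtype]
      exact Subgroup.map_subgroupOf_eq_of_le hP'
  unfold nS
  exact (Nat.card_congr (Equiv.ofBijective F hF)).symm

theorem nS_pos_iff {G : Type*} [Group G] [Finite G] (q : ℕ) [Fact q.Prime] (x : G) :
    0 < nS q x ↔ ¬ q ∣ Nat.card (ConjClasses.mk x).carrier := by
  refine ⟨nS_pos_imp q x, fun h => ?_⟩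
  rw [nS_eq_card_sylow q x h]
  exact Nat.card_pos

theorem nS_dvd {G : Type*} [Group G] [Finite G] (q : ℕ) [Fact q.Prime] (x : G) :
    q ∣ nS q x - 1 := by
  rcases Nat.eq_zero_or_pos (nS q x) with h | h
  · rw [h]; exact dvd_zero q
  · have h1 := (nS_pos_iff q x).mp h
    rw [nS_eq_card_sylow q x h1]
    have h2 := card_sylow_modEq_one q (Subgroup.centralizer ({x} : Set G))
    exact (Nat.modEq_iff_dvd' Nat.card_pos).mp h2.symm

theorem nS_mul_center {G : Type*} [Group G] (q : ℕ) (x z : G) (hz : z ∈ Subgroup.center G) :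
    nS q (x * z) = nS q x := by
  unfold nS
  refine Nat.card_congr (Equiv.subtypeEquivRight (fun P => ?_))
  exact Subgroup.mul_mem_cancel_right _ (Subgroup.center_le_centralizer _ hz)

theorem nS_one {G : Type*} [Group G] (q : ℕ) : nS q (1 : G) = Nat.card (Sylow q G) := by
  unfold nS
  exact Nat.card_congr (Equiv.subtypeUnivEquiv (fun P => one_mem _))



theorem card_centralizer_smul_le {G : Type*} [Group G] [Finite G] (q : ℕ) (Q : Sylow q G) (g : G) :
    Nat.card (Subgroup.centralizer (Q : Set G)) ≤
      Nat.card (Subgroup.centralizer ((g • Q : Sylow q G) : Set G)) := by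
  let f : Subgroup.centralizer (Q : Set G) → Subgroup.centralizer ((g • Q : Sylow q G) : Set G) :=
    fun c => ⟨g * c.1 * g⁻¹, by
      rw [Subgroup.mem_centralizer_iff]
      intro h hh
      have hh' : h ∈ MulAut.conj g • (Q : Subgroup G) := hh
      rw [Subgroup.mem_smul_pointwise_iff_exists] at hh'
      obtain ⟨s, hs, rfl⟩ := hh'
      have hc := Subgroup.mem_centralizer_iff.mp c.2 s hs
      rw [MulAut.smul_def, MulAut.conj_apply]
      calc g * s * g⁻¹ * (g * c.1 * g⁻¹) = g * (s * c.1) * g⁻¹ := by group
        _ = g * (c.1 * s) * g⁻¹ := by rw [hc]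
        _ = g * c.1 * g⁻¹ * (g * s * g⁻¹) := by group⟩
  apply Nat.card_le_card_of_injective f
  intro a b hab
  have := congrArg Subtype.val hab
  simp only [f] at this
  exact Subtype.ext (by simpa using this)

theorem card_centralizer_eq {G : Type*} [Group G] [Finite G] (q : ℕ) [Fact q.Prime]
    (Q P : Sylow q G) :
    Nat.card (Subgroup.centralizer (P : Set G)) = Nat.card (Subgroup.centralizer (Q : Set G)) := by
  obtain ⟨g, rfl⟩ := MulAction.exists_smul_eq G Q P
  apply le_antisymm
  · have := card_centralizer_smul_le q (g • Q) g⁻¹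
    rwa [inv_smul_smul] at this
  · exact card_centralizer_smul_le q Q g

theorem sum_nS {G : Type*} [Group G] [Fintype G] (q : ℕ) [Fact q.Prime] (Q : Sylow q G) :
    ∑ x : G, nS q x = Nat.card (Sylow q G) * Nat.card (Subgroup.centralizer (Q : Set G)) := by
  classical
  have : Fintype (Sylow q G) := Fintype.ofFinite _
  have h1 : ∑ x : G, nS q x =
      Nat.card (Σ x : G, {P : Sylow q G // x ∈ Subgroup.centralizer (P : Set G)}) := by
    rw [Nat.card_sigma]
    rfl
  have h2 : Nat.card (Σ x : G, {P : Sylow q G // x ∈ Subgroup.centralizer (P : Set G)}) =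
      Nat.card (Σ P : Sylow q G, {x : G // x ∈ Subgroup.centralizer (P : Set G)}) :=
    Nat.card_congr
      { toFun := fun a => ⟨a.2.1, ⟨a.1, a.2.2⟩⟩
        invFun := fun b => ⟨b.2.1, ⟨b.1, b.2.2⟩⟩
        left_inv := fun a => rfl
        right_inv := fun b => rfl }
  rw [h1, h2, Nat.card_sigma]
  have h3 : ∀ P : Sylow q G, Nat.card {x : G // x ∈ Subgroup.centralizer (P : Set G)} =
      Nat.card (Subgroup.centralizer (Q : Set G)) := fun P => card_centralizer_eq q Q P
  rw [Finset.sum_congr rfl (fun P _ => h3 P), Finset.sum_const, Finset.card_univ, smul_eq_mul,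
    Nat.card_eq_fintype_card (α := Sylow q G)]

theorem sum_dvd {G : Type*} [Group G] [Fintype G] (Z : Subgroup G) (f : G → ℕ) (d : ℕ)
    (hf : ∀ z ∈ Z, ∀ x, f (x * z) = f x) (hd : ∀ x, d ∣ f x) :
    Nat.card Z * d ∣ ∑ x, f x := by
  classical
  rw [← Fintype.sum_fiberwise (fun x : G => (x : G ⧸ Z)) f]
  apply Finset.dvd_sum
  intro c _
  have h1 : ∀ x : {x : G // (x : G ⧸ Z) = c}, f x.1 = f c.out := by
    rintro ⟨x, hx⟩
    have h2 : c.out⁻¹ * x ∈ Z := by
      rw [← QuotientGroup.eq, QuotientGroup.out_eq', hx]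
    have h3 := hf _ h2 c.out
    rw [mul_inv_cancel_left] at h3
    exact h3
  rw [Finset.sum_congr rfl (fun x _ => h1 x), Finset.sum_const, Finset.card_univ, smul_eq_mul]
  have h2 : Fintype.card {x : G // (x : G ⧸ Z) = c} = Nat.card Z := by
    rw [← Nat.card_eq_fintype_card]
    exact Nat.card_congr
      { toFun := fun x => ⟨c.out⁻¹ * x.1, by rw [← QuotientGroup.eq, QuotientGroup.out_eq', x.2]⟩
        invFun := fun z => ⟨c.out * z.1, by
          have : (c.out : G ⧸ Z) = ((c.out * z.1 : G) : G ⧸ Z) := by
            rw [QuotientGroup.eq, inv_mul_cancel_left]; exact z.2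
          rw [← this, QuotientGroup.out_eq']⟩
        left_inv := fun x => by simp
        right_inv := fun z => by simp }
  rw [h2]
  exact mul_dvd_mul_left _ (hd _)

theorem exists_central {G : Type*} [Group G] [Finite G] (q : ℕ) [Fact q.Prime] :
    ∃ Z : Subgroup G, Z ≤ Subgroup.center G ∧ IsPGroup q Z ∧
      Nat.card Z = q ^ (Nat.card (Subgroup.center G)).factorization q := by
  obtain ⟨R⟩ : Nonempty (Sylow q (Subgroup.center G)) := inferInstance
  refine ⟨(R : Subgroup (Subgroup.center G)).map (Subgroup.center G).subtype,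
    Subgroup.map_subtype_le _, R.2.map _, ?_⟩
  rw [Subgroup.card_subtype, Sylow.card_eq_multiplicity]


theorem sylow_normal_of_count {G : Type*} [Group G] [Finite G] (q : ℕ) [Fact q.Prime]
    (hA : Nat.card {x : G // ¬ q ∣ Nat.card (ConjClasses.mk x).carrier} =
      q ^ (Nat.card (Subgroup.center G)).factorization q *
        (Nat.card G / q ^ (Nat.card G).factorization q))
    (Q : Sylow q G) : (Q : Subgroup G).Normal := by
  classical
  cases nonempty_fintype G
  have hq : q.Prime := Fact.out
  set a := (Nat.card (Subgroup.center G)).factorization q with ha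
  set m := Nat.card G / q ^ (Nat.card G).factorization q with hm
  set N := Nat.card (Sylow q G) with hN
  set C := Subgroup.centralizer (Q : Set G) with hC
  set c := Nat.card C with hc
  have k1 : ∑ x : G, nS q x = N * c := sum_nS q Q
  have k2 : ∑ x : G, nS q x = ∑ x : G, (nS q x - 1) + q ^ a * m := by
    have e1 : ∀ x : G, nS q x = (nS q x - 1) + (if 0 < nS q x then 1 else 0) := by
      intro x
      split_ifs with h
      · omega
      · omega
    have e2 : ∑ x : G, (if 0 < nS q x then 1 else 0) = q ^ a * m := by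
      rw [← hA, Finset.sum_boole, Nat.card_eq_fintype_card, Fintype.card_subtype]
      simp only [Nat.cast_id]
      congr 1
      ext x
      simp [nS_pos_iff]
    conv_lhs => rw [Finset.sum_congr rfl (fun x _ => e1 x)]
    rw [Finset.sum_add_distrib, e2]
  obtain ⟨Z, hZc, hZp, hZcard⟩ := exists_central (G := G) q
  have k3 : q ^ a * q ∣ ∑ x : G, (nS q x - 1) := by
    rw [← hZcard]
    apply sum_dvd Z (fun x => nS q x - 1) q
    · intro z hz x
      show nS q (x * z) - 1 = nS q x - 1
      rw [nS_mul_center q x z (hZc hz)]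
    · intro x
      exact nS_dvd q x
  have k4 : q ^ a ∣ c := by
    rw [← hZcard]
    exact Subgroup.card_dvd_of_le (hZc.trans (Subgroup.center_le_centralizer _))
  have k5 : ¬ q ∣ m := Nat.not_dvd_ordCompl hq Nat.card_pos.ne'
  have k6 : ¬ q ^ (a + 1) ∣ c := by
    intro hd
    have h1 : q ^ (a + 1) ∣ N * c := Dvd.dvd.mul_left hd N
    rw [← k1, k2, pow_succ] at h1
    have h2 : q ^ a * q ∣ q ^ a * m := (Nat.dvd_add_right k3).mp h1
    exact k5 (Nat.dvd_of_mul_dvd_mul_left (pow_pos hq.pos a) h2)
  set D : Subgroup G := (Q : Subgroup G) ⊓ C with hD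
  have k7 : Nat.card D ≤ q ^ a := by
    have hDp : IsPGroup q D := Q.2.to_le inf_le_left
    obtain ⟨j, hj⟩ := IsPGroup.iff_card.mp hDp
    have hdc : Nat.card D ∣ c := Subgroup.card_dvd_of_le inf_le_right
    rw [hj] at hdc ⊢
    apply Nat.pow_le_pow_right hq.pos
    by_contra hlt
    push Not at hlt
    exact k6 ((pow_dvd_pow q hlt).trans hdc)
  set Nn := Subgroup.normalizer (Q : Set G) with hNn
  have k8 : c * Nat.card Q ≤ Nat.card D * Nat.card Nn := by
    have e1 : Nat.card D * D.relIndex C = c := by
      have := Subgroup.relIndex_mul_relIndex ⊥ D C bot_le inf_le_right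
      rwa [Subgroup.relIndex_bot_left, Subgroup.relIndex_bot_left] at this
    have e2 : D.relIndex C = (Q : Subgroup G).relIndex C := Subgroup.inf_relIndex_right _ _
    have e3 : (Q : Subgroup G).relIndex C ≤ (Q : Subgroup G).relIndex Nn := by
      apply Subgroup.relIndex_le_of_le_right
      · exact Subgroup.centralizer_le_normalizer _
      · exact Nat.card_pos.ne'
    have e4 : Nat.card Q * (Q : Subgroup G).relIndex Nn = Nat.card Nn := by
      have := Subgroup.relIndex_mul_relIndex ⊥ (Q : Subgroup G) Nn bot_le Subgroup.le_normalizer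
      rwa [Subgroup.relIndex_bot_left, Subgroup.relIndex_bot_left] at this
    calc c * Nat.card Q = Nat.card D * ((Q : Subgroup G).relIndex C * Nat.card Q) := by
          rw [← e1, e2]; ring
      _ ≤ Nat.card D * ((Q : Subgroup G).relIndex Nn * Nat.card Q) := by gcongr
      _ = Nat.card D * Nat.card Nn := by rw [← e4]; ring
  have k9 : N * c ≤ q ^ a * m := by
    have e1 : N * Nat.card Nn = Nat.card G := by
      rw [hN, Sylow.card_eq_index_normalizer Q, mul_comm]
      exact Subgroup.card_mul_index _
    have e2 : Nat.card Q * m = Nat.card G := by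
      rw [Sylow.card_eq_multiplicity]
      exact Nat.ordProj_mul_ordCompl_eq_self _ _
    have hQpos : 0 < Nat.card Q := Nat.card_pos
    have : N * c * Nat.card Q ≤ q ^ a * m * Nat.card Q := by
      calc N * c * Nat.card Q = N * (c * Nat.card Q) := by ring
        _ ≤ N * (Nat.card D * Nat.card Nn) := by gcongr
        _ = Nat.card D * (N * Nat.card Nn) := by ring
        _ ≤ q ^ a * (N * Nat.card Nn) := by gcongr
        _ = q ^ a * m * Nat.card Q := by rw [e1, ← e2]; ring
    exact Nat.le_of_mul_le_mul_right this hQpos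
  have k10 : ∑ x : G, (nS q x - 1) = 0 := by omega
  have h1 : nS q (1 : G) - 1 = 0 := (Finset.sum_eq_zero_iff.mp k10) 1 (Finset.mem_univ _)
  rw [nS_one] at h1
  have h2 : Nat.card (Sylow q G) ≤ 1 := by omega
  have : Subsingleton (Sylow q G) := Finite.card_le_one_iff_subsingleton.mp h2
  exact Sylow.normal_of_subsingleton Q

theorem count_of_nilpotent {H : Type*} [Group H] [Finite H] (hH : Group.IsNilpotent H)
    (q : ℕ) [Fact q.Prime] :
    Nat.card {x : H // ¬ q ∣ Nat.card (ConjClasses.mk x).carrier} =
      q ^ (Nat.card (Subgroup.center H)).factorization q *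
        (Nat.card H / q ^ (Nat.card H).factorization q) := by
  classical
  have hq : q.Prime := Fact.out
  have hnorm : ∀ (p : ℕ) (_hp : Fact p.Prime) (P : Sylow p H), (↑P : Subgroup H).Normal :=
    (Group.isNilpotent_of_finite_tfae (G := H)).out 0 3 |>.mp hH
  obtain ⟨Q⟩ : Nonempty (Sylow q H) := inferInstance
  have hQn : (Q : Subgroup H).Normal := hnorm q inferInstance Q
  have hsub : Subsingleton (Sylow q H) := by
    have := Sylow.unique_of_normal Q hQn
    infer_instance
  set C := Subgroup.centralizer (Q : Set H) with hC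
  -- the counted set is `C`
  have e0 : Nat.card {x : H // ¬ q ∣ Nat.card (ConjClasses.mk x).carrier} = Nat.card C := by
    refine Nat.card_congr (Equiv.subtypeEquivRight (fun x => ?_))
    rw [← nS_pos_iff q x]
    unfold nS
    rw [Nat.card_pos_iff]
    constructor
    · rintro ⟨⟨P, hP⟩, _⟩
      rwa [Subsingleton.elim P Q] at hP
    · intro hx
      exact ⟨⟨⟨Q, hx⟩⟩, inferInstance⟩
  rw [e0]
  -- `Q ⊔ C = ⊤`
  have hsup : C ⊔ (Q : Subgroup H) = ⊤ := by
    rw [← Subgroup.index_eq_one, Nat.eq_one_iff_not_exists_prime_dvd]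
    intro p hp hdvd
    have : Fact p.Prime := ⟨hp⟩
    obtain ⟨P⟩ : Nonempty (Sylow p H) := inferInstance
    have hPle : (P : Subgroup H) ≤ C ⊔ (Q : Subgroup H) := by
      by_cases hpq : p = q
      · subst hpq
        rw [Subsingleton.elim P Q]
        exact le_sup_right
      · refine le_trans ?_ le_sup_left
        intro x hx
        rw [hC, Subgroup.mem_centralizer_iff]
        intro y hy
        have hdis : Disjoint (P : Subgroup H) (Q : Subgroup H) :=
          IsPGroup.disjoint_of_ne p q hpq _ _ P.2 Q.2
        exact (Subgroup.commute_of_normal_of_disjoint _ _ (hnorm p inferInstance P) hQn hdis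
          x y hx hy).symm
    exact P.not_dvd_index (hdvd.trans (Subgroup.index_dvd_of_le hPle))
  set D : Subgroup H := (Q : Subgroup H) ⊓ C with hD
  have hDcen : D ≤ Subgroup.center H := by
    intro z hz
    have h1 : (Q : Subgroup H) ≤ Subgroup.centralizer ({z} : Set H) :=
      (mem_centralizer_sylow_iff Q z).mp hz.2
    have h2 : C ≤ Subgroup.centralizer ({z} : Set H) := by
      intro y hy
      rw [Subgroup.mem_centralizer_iff]
      intro w hw
      rw [Set.mem_singleton_iff] at hw
      subst hw
      exact Subgroup.mem_centralizer_iff.mp hy w hz.1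
    have h3 : Subgroup.centralizer ({z} : Set H) = ⊤ := by
      rw [eq_top_iff, ← hsup]
      exact sup_le h2 h1
    rw [Subgroup.centralizer_eq_top_iff_subset, Set.singleton_subset_iff] at h3
    exact h3
  obtain ⟨Z, hZc, hZp, hZcard⟩ := exists_central (G := H) q
  have hDcard : Nat.card D = q ^ (Nat.card (Subgroup.center H)).factorization q := by
    have hDp : IsPGroup q D := Q.2.to_le inf_le_left
    obtain ⟨j, hj⟩ := IsPGroup.iff_card.mp hDp
    have h1 : q ^ j ∣ Nat.card (Subgroup.center H) := hj ▸ Subgroup.card_dvd_of_le hDcen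
    have h2 : j ≤ (Nat.card (Subgroup.center H)).factorization q :=
      (hq.pow_dvd_iff_le_factorization Nat.card_pos.ne').mp h1
    have hZD : Z ≤ D := by
      obtain ⟨P, hP⟩ := hZp.exists_le_sylow
      rw [Subsingleton.elim P Q] at hP
      exact le_inf hP (hZc.trans (Subgroup.center_le_centralizer _))
    have h3 : q ^ (Nat.card (Subgroup.center H)).factorization q ∣ q ^ j := by
      rw [← hZcard, ← hj]
      exact Subgroup.card_dvd_of_le hZD
    have h4 := (Nat.pow_dvd_pow_iff_le_right hq.one_lt).mp h3
    rw [hj, le_antisymm h2 h4]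
  have e1 : Nat.card D * D.relIndex C = Nat.card C := by
    have := Subgroup.relIndex_mul_relIndex ⊥ D C bot_le inf_le_right
    rwa [Subgroup.relIndex_bot_left, Subgroup.relIndex_bot_left] at this
  have e2 : D.relIndex C = (Q : Subgroup H).index := by
    rw [hD, Subgroup.inf_relIndex_right, ← Subgroup.relIndex_sup_right, hsup,
      Subgroup.relIndex_top_right]
  have e3 : (Q : Subgroup H).index = Nat.card H / q ^ (Nat.card H).factorization q := by
    have h1 := Subgroup.card_mul_index (Q : Subgroup H)
    rw [Sylow.card_eq_multiplicity] at h1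
    exact (Nat.div_eq_of_eq_mul_right (pow_pos hq.pos _) h1.symm).symm
  rw [← e1, hDcard, e2, e3]

theorem result' {G H : Type*} [Group G] [Finite G] [Group H] [Finite H]
    (hH : Group.IsNilpotent H)
    (h : ∀ k : ℕ, Nat.card {C : ConjClasses G // Nat.card C.carrier = k} =
      Nat.card {C : ConjClasses H // Nat.card C.carrier = k}) :
    Group.IsNilpotent G := by
  refine (Group.isNilpotent_of_finite_tfae (G := G)).out 0 3 |>.mpr ?_
  intro q hq Q
  apply sylow_normal_of_count q _ Q
  rw [card_reg_eq_of h q, count_of_nilpotent hH q, card_eq_of h, card_center_eq_of h]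


/-- Let G and H be finite groups such that for every natural number k, G and H have the same number of conjugacy classes of size k. If H is nilpotent then G is nilpotent. -/
theorem result {G H : Type*} [Group G] [Finite G] [Group H] [Finite H]
    (hH : Group.IsNilpotent H)
    (h : ∀ k : ℕ, Nat.card {C : ConjClasses G // Nat.card C.carrier = k} = Nat.card {C : ConjClasses H // Nat.card C.carrier = k}) :
    Group.IsNilpotent G :=
  result' hH h

end Cfsg.Agent.S4139
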