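import Cfsg.Statements.S4143
import Cfsg.Agent.Lib.Helper73.Count
import Mathlib

set_option autoImplicit false
open Cfsg

namespace Cfsg.Agent.S4143

open Cfsg.Agent.Lib.Helper73

universe u

/-- conjugates of `t` under `E` lie in `Z * t` -/
theorem card_le_of_comm_mem {X : Type*} [Group X] [Finite X] (E Z : Subgroup X) (t : X)
    (h : ∀ x ∈ E, x * t * x⁻¹ * t⁻¹ ∈ Z) :
    Nat.card E ≤ Nat.card Z * Nat.card (E ⊓ Subgroup.centralizer ({t} : Set X) : Subgroup X) := by
  let ψ : E → Z := fun x => ⟨(x : X) * t * (x : X)⁻¹ * t⁻¹, h x x.2⟩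
  have h1 := card_range_mul_card_fiber ψ ((Subgroup.centralizer ({t} : Set X)).subgroupOf E) (by
    intro x y
    rw [Subgroup.mem_subgroupOf, Subgroup.mem_centralizer_iff]
    simp only [Set.mem_singleton_iff, forall_eq, Subgroup.coe_mul, Subgroup.coe_inv]
    constructor
    · intro hxy
      have h2 : (x : X) * t * (x : X)⁻¹ * t⁻¹ = (y : X) * t * (y : X)⁻¹ * t⁻¹ :=
        congrArg Subtype.val hxy
      have h3 : (x : X) * t * (x : X)⁻¹ = (y : X) * t * (y : X)⁻¹ := mul_right_cancel h2
      calc t * ((x : X)⁻¹ * (y : X)) = (x : X)⁻¹ * ((x : X) * t * (x : X)⁻¹) * (y : X) := by group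
        _ = (x : X)⁻¹ * ((y : X) * t * (y : X)⁻¹) * (y : X) := by rw [h3]
        _ = (x : X)⁻¹ * (y : X) * t := by group
    · intro h2
      apply Subtype.ext
      show (x : X) * t * (x : X)⁻¹ * t⁻¹ = (y : X) * t * (y : X)⁻¹ * t⁻¹
      calc (x : X) * t * (x : X)⁻¹ * t⁻¹
          = (x : X) * (t * ((x : X)⁻¹ * (y : X))) * (y : X)⁻¹ * t⁻¹ := by group
        _ = (x : X) * ((x : X)⁻¹ * (y : X) * t) * (y : X)⁻¹ * t⁻¹ := by rw [h2]
        _ = (y : X) * t * (y : X)⁻¹ * t⁻¹ := by group)
  have h2 : Nat.card (Set.range ψ) ≤ Nat.card Z :=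
    Nat.card_le_card_of_injective _ Subtype.val_injective
  have h3 : Nat.card ((Subgroup.centralizer ({t} : Set X)).subgroupOf E) =
      Nat.card (E ⊓ Subgroup.centralizer ({t} : Set X) : Subgroup X) := by
    rw [← Subgroup.inf_subgroupOf_left]
    exact Nat.card_congr (Subgroup.subgroupOfEquivOfLe inf_le_left).toEquiv
  rw [← h1, h3]
  exact Nat.mul_le_mul_right _ h2

theorem comm_of_card_pow_le_two {G : Type*} [Group G] [Finite G] {p : ℕ} [hp : Fact p.Prime]
    {m : ℕ} (h : Nat.card G = p ^ m) (hm : m ≤ 2) : ∀ a b : G, a * b = b * a := by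
  interval_cases m
  · rw [pow_zero] at h
    haveI : Subsingleton G := (Nat.card_eq_one_iff_unique.mp h).1
    intro a b; exact Subsingleton.elim _ _
  · rw [pow_one] at h
    haveI := isCyclic_of_prime_card h
    intro a b
    exact mul_comm' a b
  · exact (IsPGroup.isMulCommutative_of_card_eq_prime_sq h).is_comm.comm

theorem card_comap_mk {X : Type*} [Group X] [Finite X] (Z : Subgroup X) [Z.Normal]
    (K : Subgroup (X ⧸ Z)) :
    Nat.card (K.comap (QuotientGroup.mk' Z)) = Nat.card K * Nat.card Z := by
  have h1 := Subgroup.card_mul_index (K.comap (QuotientGroup.mk' Z))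
  have h2 := Subgroup.card_mul_index K
  have h3 : (K.comap (QuotientGroup.mk' Z)).index = K.index :=
    Subgroup.index_comap_of_surjective K (QuotientGroup.mk'_surjective Z)
  have h4 := Subgroup.card_eq_card_quotient_mul_card_subgroup Z
  rw [h3] at h1
  have hidx : 0 < K.index := Nat.pos_of_ne_zero Subgroup.index_ne_zero_of_finite
  have : Nat.card (K.comap (QuotientGroup.mk' Z)) * K.index =
      (Nat.card K * Nat.card Z) * K.index := by
    rw [h1, h4, ← h2]; ring
  exact Nat.eq_of_mul_eq_mul_right hidx this

theorem card_map_mk {X : Type*} [Group X] [Finite X] (Z A : Subgroup X) [Z.Normal] (hZA : Z ≤ A) :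
    Nat.card (A.map (QuotientGroup.mk' Z)) * Nat.card Z = Nat.card A := by
  have h1 : (A.map (QuotientGroup.mk' Z)).comap (QuotientGroup.mk' Z) = A := by
    rw [QuotientGroup.comap_map_mk']; exact sup_eq_right.mpr hZA
  have h2 := card_comap_mk Z (A.map (QuotientGroup.mk' Z))
  rw [h1] at h2; exact h2.symm

theorem comm_mem_of_mem_comap {X : Type*} [Group X] (Z : Subgroup X) [Z.Normal] (S : Subgroup X)
    (x : X)
    (hx : x ∈ (Subgroup.centralizer
      ((S.map (QuotientGroup.mk' Z) : Subgroup (X ⧸ Z)) : Set (X ⧸ Z))).comap
        (QuotientGroup.mk' Z)) (s : X) (hs : s ∈ S) :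
    x * s * x⁻¹ * s⁻¹ ∈ Z := by
  have h1 : QuotientGroup.mk' Z x ∈ Subgroup.centralizer
      ((S.map (QuotientGroup.mk' Z) : Subgroup (X ⧸ Z)) : Set (X ⧸ Z)) := hx
  rw [Subgroup.mem_centralizer_iff] at h1
  have h2 := h1 (QuotientGroup.mk' Z s) (Subgroup.mem_map_of_mem _ hs)
  rw [← QuotientGroup.eq_one_iff]
  have h3 : ((x * s * x⁻¹ * s⁻¹ : X) : X ⧸ Z) = QuotientGroup.mk' Z x * QuotientGroup.mk' Z s *
      (QuotientGroup.mk' Z x)⁻¹ * (QuotientGroup.mk' Z s)⁻¹ := rfl
  rw [h3, ← h2]
  group

theorem suzuki (p : ℕ) [hp : Fact p.Prime] : ∀ (n : ℕ) (X : Type u) [Group X] [Finite X],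
    Nat.card X = p ^ n →
    ∀ A : Subgroup X, Nat.card A = p ^ 2 → Subgroup.centralizer (A : Set X) ≤ A →
    Group.nilpotencyClass X = n - 1 := by
  intro n
  induction n with
  | zero =>
    intro X _ _ hX A hA _
    exfalso
    have h1 : Nat.card A ≤ Nat.card X := Subgroup.card_le_card_group A
    rw [hA, hX, pow_zero] at h1
    have := hp.1.two_le
    nlinarith
  | succ n ih =>
    intro X _ _ hX A hA hCA
    have hp2 := hp.1.two_le
    have hppos : 0 < p := hp.1.pos
    have hXp : IsPGroup p X := IsPGroup.of_card hX
    haveI : Nontrivial X := by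
      rw [← Finite.one_lt_card_iff_nontrivial, hX]
      exact Nat.one_lt_pow (Nat.succ_ne_zero n) hp.1.one_lt
    haveI : Group.IsNilpotent X := hXp.isNilpotent
    have hclass := Group.nilpotencyClass_eq_quotient_center_plus_one (G := X)
    have hAcomm : ∀ a b : A, a * b = b * a := (IsPGroup.isMulCommutative_of_card_eq_prime_sq hA).is_comm.comm
    have hZA : Subgroup.center X ≤ A := (Subgroup.center_le_centralizer _).trans hCA
    have hcardQ := Subgroup.card_eq_card_quotient_mul_card_subgroup (Subgroup.center X)
    by_cases hAtop : A = ⊤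
    · have hn : n + 1 = 2 := by
        have : Nat.card A = Nat.card X := by rw [hAtop]; exact Subgroup.card_top
        rw [hA, hX] at this
        exact (Nat.pow_right_injective hp2 this).symm
      have hcenter : Subgroup.center X = ⊤ := by
        rw [eq_top_iff]
        intro x _
        rw [Subgroup.mem_center_iff]
        intro g
        have hx : x ∈ A := by rw [hAtop]; trivial
        have hg : g ∈ A := by rw [hAtop]; trivial
        exact congrArg Subtype.val (hAcomm ⟨g, hg⟩ ⟨x, hx⟩)
      haveI hsub : Subsingleton (X ⧸ Subgroup.center X) := by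
        rw [hcenter]; exact QuotientGroup.subsingleton_quotient_top
      have h0 : Group.nilpotencyClass (X ⧸ Subgroup.center X) = 0 :=
        Group.nilpotencyClass_zero_iff_subsingleton.mpr hsub
      rw [hclass, h0]; omega
    · have hZne : Subgroup.center X ≠ ⊥ := (IsPGroup.bot_lt_center hXp).ne'
      have hZneA : Subgroup.center X ≠ A := by
        intro h
        apply hAtop
        rw [eq_top_iff]
        refine le_trans ?_ hCA
        rw [← h]
        intro x _
        rw [Subgroup.mem_centralizer_iff]
        intro z hz
        exact (Subgroup.mem_center_iff.mp hz x).symm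
      have hZcard : Nat.card (Subgroup.center X) = p := by
        have hdvd : Nat.card (Subgroup.center X) ∣ p ^ 2 := by
          rw [← hA]; exact Subgroup.card_dvd_of_le hZA
        obtain ⟨m, hm, hmeq⟩ := (Nat.dvd_prime_pow hp.1).mp hdvd
        interval_cases m
        · exfalso; apply hZne; rw [pow_zero] at hmeq; exact Subgroup.card_eq_one.mp hmeq
        · rw [pow_one] at hmeq; exact hmeq
        · exfalso; apply hZneA; exact Subgroup.eq_of_le_of_card_ge hZA (by rw [hA, hmeq])
      have hQcard : Nat.card (X ⧸ Subgroup.center X) = p ^ n := by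
        rw [hX, hZcard, pow_succ] at hcardQ
        exact (Nat.eq_of_mul_eq_mul_right hppos hcardQ).symm
      have hAb : Nat.card (A.map (QuotientGroup.mk' (Subgroup.center X))) = p := by
        have := card_map_mk (Subgroup.center X) A hZA
        rw [hZcard, hA, pow_two] at this
        exact Nat.eq_of_mul_eq_mul_right hppos this
      have hDcard := card_comap_mk (Subgroup.center X) (Subgroup.centralizer
        ((A.map (QuotientGroup.mk' (Subgroup.center X)) :
          Subgroup (X ⧸ Subgroup.center X)) : Set (X ⧸ Subgroup.center X)))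
      rw [hZcard] at hDcard
      have hAD : A ≤ (Subgroup.centralizer
          ((A.map (QuotientGroup.mk' (Subgroup.center X)) :
            Subgroup (X ⧸ Subgroup.center X)) : Set (X ⧸ Subgroup.center X))).comap
              (QuotientGroup.mk' (Subgroup.center X)) := by
        intro x hx
        show QuotientGroup.mk' (Subgroup.center X) x ∈ Subgroup.centralizer _
        rw [Subgroup.mem_centralizer_iff]
        rintro _ ⟨a, ha, rfl⟩
        have := congrArg Subtype.val (hAcomm ⟨a, ha⟩ ⟨x, hx⟩)
        show QuotientGroup.mk' (Subgroup.center X) a * QuotientGroup.mk' (Subgroup.center X) x =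
          QuotientGroup.mk' (Subgroup.center X) x * QuotientGroup.mk' (Subgroup.center X) a
        rw [← map_mul, ← map_mul]; exact congrArg _ this
      obtain ⟨a, haA, haZ⟩ : ∃ a ∈ A, a ∉ Subgroup.center X := by
        by_contra hcon
        push Not at hcon
        exact hZneA (le_antisymm hZA hcon)
      have hW : Subgroup.center X ⊔ Subgroup.zpowers a = A := by
        have hle : Subgroup.center X ⊔ Subgroup.zpowers a ≤ A :=
          sup_le hZA (by rw [Subgroup.zpowers_le]; exact haA)
        apply Subgroup.eq_of_le_of_card_ge hle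
        have hdvd : Nat.card (Subgroup.center X ⊔ Subgroup.zpowers a : Subgroup X) ∣ p ^ 2 := by
          rw [← hA]; exact Subgroup.card_dvd_of_le hle
        obtain ⟨m, hm, hmeq⟩ := (Nat.dvd_prime_pow hp.1).mp hdvd
        have hm2 : m = 2 := by
          by_contra hne
          have hm1 : m ≤ 1 := by omega
          have hle' : Nat.card (Subgroup.center X ⊔ Subgroup.zpowers a : Subgroup X) ≤
              Nat.card (Subgroup.center X) := by
            rw [hmeq, hZcard]
            calc p ^ m ≤ p ^ 1 := Nat.pow_le_pow_right hppos hm1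
              _ = p := pow_one p
          have heq := Subgroup.eq_of_le_of_card_ge
            (le_sup_left : Subgroup.center X ≤ Subgroup.center X ⊔ Subgroup.zpowers a) hle'
          apply haZ
          rw [heq]
          exact (le_sup_right : Subgroup.zpowers a ≤ Subgroup.center X ⊔ Subgroup.zpowers a)
            (Subgroup.mem_zpowers a)
        rw [hA, hmeq, hm2]
      have hDle : Nat.card ((Subgroup.centralizer
          ((A.map (QuotientGroup.mk' (Subgroup.center X)) :
            Subgroup (X ⧸ Subgroup.center X)) : Set (X ⧸ Subgroup.center X))).comap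
              (QuotientGroup.mk' (Subgroup.center X))) ≤ p ^ 3 := by
        have h1 := card_le_of_comm_mem _ (Subgroup.center X) a
          (fun x hx => comm_mem_of_mem_comap (Subgroup.center X) A x hx a haA)
        have h2 : (Subgroup.centralizer
          ((A.map (QuotientGroup.mk' (Subgroup.center X)) :
            Subgroup (X ⧸ Subgroup.center X)) : Set (X ⧸ Subgroup.center X))).comap
              (QuotientGroup.mk' (Subgroup.center X)) ⊓ Subgroup.centralizer ({a} : Set X) ≤ A := by
          intro x hx
          apply hCA
          rw [Subgroup.mem_centralizer_iff]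
          intro y hy
          have h3 : Subgroup.center X ⊔ Subgroup.zpowers a ≤
              Subgroup.centralizer ({x} : Set X) := by
            apply sup_le
            · exact Subgroup.center_le_centralizer _
            · rw [Subgroup.zpowers_le, Subgroup.mem_centralizer_iff]
              intro z hz
              rw [Set.mem_singleton_iff] at hz
              rw [hz]
              have := (Subgroup.mem_inf.mp hx).2
              rw [Subgroup.mem_centralizer_iff] at this
              exact (this a rfl).symm
          rw [hW] at h3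
          have h4 := h3 hy
          rw [Subgroup.mem_centralizer_iff] at h4
          exact (h4 x rfl).symm
        have h3 := Subgroup.card_le_of_le h2
        calc _ ≤ Nat.card (Subgroup.center X) * Nat.card _ := h1
          _ ≤ p * p ^ 2 := by rw [hZcard, ← hA]; exact Nat.mul_le_mul_left _ h3
          _ = p ^ 3 := by ring
      have hA'le : Nat.card (Subgroup.centralizer
          ((A.map (QuotientGroup.mk' (Subgroup.center X)) :
            Subgroup (X ⧸ Subgroup.center X)) : Set (X ⧸ Subgroup.center X))) ≤ p ^ 2 := by
        rw [hDcard] at hDle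
        have : Nat.card (Subgroup.centralizer
          ((A.map (QuotientGroup.mk' (Subgroup.center X)) :
            Subgroup (X ⧸ Subgroup.center X)) : Set (X ⧸ Subgroup.center X))) * p ≤ p ^ 2 * p := by
          rw [← pow_succ]; exact hDle
        exact Nat.le_of_mul_le_mul_right this hppos
      have hAbA' : A.map (QuotientGroup.mk' (Subgroup.center X)) ≤ Subgroup.centralizer
          ((A.map (QuotientGroup.mk' (Subgroup.center X)) :
            Subgroup (X ⧸ Subgroup.center X)) : Set (X ⧸ Subgroup.center X)) := by
        rintro _ ⟨x, hx, rfl⟩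
        exact hAD hx
      have hn1 : 2 ≤ n := by
        by_contra hlt
        apply hAtop
        apply Subgroup.eq_top_of_le_card
        rw [hA, hX]
        exact Nat.pow_le_pow_right hppos (by omega)
      have hQp : IsPGroup p (X ⧸ Subgroup.center X) := IsPGroup.of_card hQcard
      haveI : Nontrivial (X ⧸ Subgroup.center X) := by
        rw [← Finite.one_lt_card_iff_nontrivial, hQcard]
        exact Nat.one_lt_pow (by omega) hp.1.one_lt
      have hA'card : Nat.card (Subgroup.centralizer
          ((A.map (QuotientGroup.mk' (Subgroup.center X)) :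
            Subgroup (X ⧸ Subgroup.center X)) : Set (X ⧸ Subgroup.center X))) = p ^ 2 := by
        have hdvd : Nat.card (Subgroup.centralizer
          ((A.map (QuotientGroup.mk' (Subgroup.center X)) :
            Subgroup (X ⧸ Subgroup.center X)) : Set (X ⧸ Subgroup.center X))) ∣ p ^ n := by
          rw [← hQcard]; exact Subgroup.card_subgroup_dvd_card _
        obtain ⟨m, hm, hmeq⟩ := (Nat.dvd_prime_pow hp.1).mp hdvd
        have hm2 : m ≤ 2 := by
          by_contra hgt
          have h1 : p ^ 3 ≤ p ^ m := Nat.pow_le_pow_right hppos (by omega)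
          have h2 : p ^ 2 < p ^ 3 := Nat.pow_lt_pow_right hp.1.one_lt (by norm_num)
          rw [hmeq] at hA'le
          omega
        have hm1 : 1 ≤ m := by
          by_contra h0
          have : m = 0 := by omega
          subst this
          have := Subgroup.card_le_of_le hAbA'
          rw [hAb, hmeq, pow_zero] at this
          omega
        have hmne : m ≠ 1 := by
          intro h1
          subst h1
          rw [pow_one] at hmeq
          have heq := Subgroup.eq_of_le_of_card_ge hAbA' (by rw [hmeq, hAb])
          have hZQ : Subgroup.center (X ⧸ Subgroup.center X) ≤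
              A.map (QuotientGroup.mk' (Subgroup.center X)) := by
            rw [heq]; exact Subgroup.center_le_centralizer _
          have hZQne : Subgroup.center (X ⧸ Subgroup.center X) ≠ ⊥ :=
            (IsPGroup.bot_lt_center hQp).ne'
          have hZQeq : Subgroup.center (X ⧸ Subgroup.center X) =
              A.map (QuotientGroup.mk' (Subgroup.center X)) := by
            apply Subgroup.eq_of_le_of_card_ge hZQ
            rw [hAb]
            have hd : Nat.card (Subgroup.center (X ⧸ Subgroup.center X)) ∣ p := by
              rw [← hAb]; exact Subgroup.card_dvd_of_le hZQ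
            rcases (Nat.dvd_prime hp.1).mp hd with h | h
            · exact absurd (Subgroup.card_eq_one.mp h) hZQne
            · exact h.ge
          have hA'top : Subgroup.centralizer
              ((A.map (QuotientGroup.mk' (Subgroup.center X)) :
                Subgroup (X ⧸ Subgroup.center X)) : Set (X ⧸ Subgroup.center X)) = ⊤ := by
            rw [Subgroup.centralizer_eq_top_iff_subset, ← hZQeq]
          have h5 : Nat.card (Subgroup.centralizer
              ((A.map (QuotientGroup.mk' (Subgroup.center X)) :
                Subgroup (X ⧸ Subgroup.center X)) : Set (X ⧸ Subgroup.center X))) =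
              Nat.card (X ⧸ Subgroup.center X) := by
            rw [hA'top]; exact Subgroup.card_top
          rw [hmeq, hQcard] at h5
          have h6 : p ^ 1 = p ^ n := by rw [pow_one]; exact h5
          have := Nat.pow_right_injective hp2 h6
          omega
        have : m = 2 := by omega
        rw [hmeq, this]
      have hCA' : Subgroup.centralizer ((Subgroup.centralizer
          ((A.map (QuotientGroup.mk' (Subgroup.center X)) :
            Subgroup (X ⧸ Subgroup.center X)) : Set (X ⧸ Subgroup.center X)) :
              Subgroup (X ⧸ Subgroup.center X)) : Set (X ⧸ Subgroup.center X)) ≤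
          Subgroup.centralizer
          ((A.map (QuotientGroup.mk' (Subgroup.center X)) :
            Subgroup (X ⧸ Subgroup.center X)) : Set (X ⧸ Subgroup.center X)) :=
        Subgroup.centralizer_le hAbA'
      have hih := ih (X ⧸ Subgroup.center X) hQcard _ hA'card hCA'
      rw [hclass, hih]
      omega

/-- Let X be a finite p-group of order p^n containing a non-abelian subgroup B of order p³ with C_X(B) ≤ B. Then X has nilpotency class n − 1 (maximal class). -/
theorem result {X : Type*} [Group X] [Finite X] {p : ℕ} [Fact p.Prime] (n : ℕ) (hX : Nat.card X = p ^ n)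
    (B : Subgroup X) (hB : Nat.card B = p ^ 3) (hBna : ¬ IsMulCommutative B) (hC : Subgroup.centralizer (B : Set X) ≤ B) :
    Group.nilpotencyClass X = n - 1 := by
  have hp : p.Prime := Fact.out
  have hp2 := hp.two_le
  have hppos : 0 < p := hp.pos
  obtain ⟨b₁, hb₁, b₂, hb₂, hne⟩ : ∃ b₁ ∈ B, ∃ b₂ ∈ B, b₁ * b₂ ≠ b₂ * b₁ := by
    by_contra hcon
    push Not at hcon
    exact hBna ⟨⟨fun a b => Subtype.ext (hcon a.1 a.2 b.1 b.2)⟩⟩
  have hn3 : 3 ≤ n := by
    have h1 : Nat.card B ≤ Nat.card X := Subgroup.card_le_card_group B
    rw [hB, hX] at h1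
    exact (Nat.pow_le_pow_iff_right hp.one_lt).mp h1
  have hXp : IsPGroup p X := IsPGroup.of_card hX
  haveI : Nontrivial X := by
    rw [← Finite.one_lt_card_iff_nontrivial, hX]
    exact Nat.one_lt_pow (by omega) hp.one_lt
  haveI : Group.IsNilpotent X := hXp.isNilpotent
  have hclass := Group.nilpotencyClass_eq_quotient_center_plus_one (G := X)
  have hT : Subgroup.closure ({b₁, b₂} : Set X) = B := by
    have hle : Subgroup.closure ({b₁, b₂} : Set X) ≤ B := by
      rw [Subgroup.closure_le]; intro x hx; rcases hx with rfl | rfl; exacts [hb₁, hb₂]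
    apply Subgroup.eq_of_le_of_card_ge hle
    have hdvd : Nat.card (Subgroup.closure ({b₁, b₂} : Set X)) ∣ p ^ 3 := by
      rw [← hB]; exact Subgroup.card_dvd_of_le hle
    obtain ⟨m, hm, hmeq⟩ := (Nat.dvd_prime_pow hp).mp hdvd
    have hm3 : m = 3 := by
      by_contra hne3
      have hcomm := comm_of_card_pow_le_two hmeq (by omega)
      have h1 := hcomm ⟨b₁, Subgroup.subset_closure (by simp)⟩
        ⟨b₂, Subgroup.subset_closure (by simp)⟩
      exact hne (congrArg Subtype.val h1)
    rw [hB, hmeq, hm3]
  have hZC : Subgroup.center X ≤ Subgroup.centralizer (B : Set X) :=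
    Subgroup.center_le_centralizer _
  have hZne : Subgroup.center X ≠ ⊥ := (IsPGroup.bot_lt_center hXp).ne'
  have hb₁C : b₁ ∉ Subgroup.centralizer (B : Set X) := by
    intro h1
    rw [Subgroup.mem_centralizer_iff] at h1
    exact hne (h1 b₂ hb₂).symm
  have hCcard : Nat.card (Subgroup.centralizer (B : Set X)) = p := by
    have hdvd : Nat.card (Subgroup.centralizer (B : Set X)) ∣ p ^ 3 := by
      rw [← hB]; exact Subgroup.card_dvd_of_le hC
    obtain ⟨m, hm, hmeq⟩ := (Nat.dvd_prime_pow hp).mp hdvd
    have hm0 : m ≠ 0 := by
      intro h0; subst h0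
      rw [pow_zero] at hmeq
      have : Subgroup.centralizer (B : Set X) = ⊥ := Subgroup.card_eq_one.mp hmeq
      rw [this] at hZC
      exact hZne (le_bot_iff.mp hZC)
    have hm3 : m ≠ 3 := by
      intro h3; subst h3
      have : Subgroup.centralizer (B : Set X) = B :=
        Subgroup.eq_of_le_of_card_ge hC (by rw [hB, hmeq])
      apply hb₁C
      rw [this]; exact hb₁
    have hm2 : m ≠ 2 := by
      intro h2; subst h2
      have hW : Subgroup.centralizer (B : Set X) ⊔ Subgroup.zpowers b₁ = B := by
        have hle : Subgroup.centralizer (B : Set X) ⊔ Subgroup.zpowers b₁ ≤ B :=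
          sup_le hC (by rw [Subgroup.zpowers_le]; exact hb₁)
        apply Subgroup.eq_of_le_of_card_ge hle
        have hdvd' : Nat.card (Subgroup.centralizer (B : Set X) ⊔ Subgroup.zpowers b₁ :
            Subgroup X) ∣ p ^ 3 := by
          rw [← hB]; exact Subgroup.card_dvd_of_le hle
        obtain ⟨m', hm', hmeq'⟩ := (Nat.dvd_prime_pow hp).mp hdvd'
        have hm'3 : m' = 3 := by
          by_contra hne3
          have hm'2 : m' ≤ 2 := by omega
          have hle' : Nat.card (Subgroup.centralizer (B : Set X) ⊔ Subgroup.zpowers b₁ :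
              Subgroup X) ≤ Nat.card (Subgroup.centralizer (B : Set X)) := by
            rw [hmeq', hmeq]; exact Nat.pow_le_pow_right hppos hm'2
          have heq := Subgroup.eq_of_le_of_card_ge
            (le_sup_left : Subgroup.centralizer (B : Set X) ≤
              Subgroup.centralizer (B : Set X) ⊔ Subgroup.zpowers b₁) hle'
          apply hb₁C
          rw [heq]
          exact (le_sup_right : Subgroup.zpowers b₁ ≤ _) (Subgroup.mem_zpowers b₁)
        rw [hB, hmeq', hm'3]
      apply hb₁C
      rw [Subgroup.mem_centralizer_iff]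
      intro y hy
      have h3 : Subgroup.centralizer (B : Set X) ⊔ Subgroup.zpowers b₁ ≤
          Subgroup.centralizer ({b₁} : Set X) := by
        apply sup_le
        · exact Subgroup.centralizer_le (by simpa using hb₁)
        · rw [Subgroup.zpowers_le, Subgroup.mem_centralizer_iff]
          intro z hz
          rw [Set.mem_singleton_iff] at hz
          rw [hz]
      rw [hW] at h3
      have h4 := h3 hy
      rw [Subgroup.mem_centralizer_iff] at h4
      exact (h4 b₁ rfl).symm
    have : m = 1 := by omega
    rw [hmeq, this, pow_one]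
  have hZeq : Subgroup.center X = Subgroup.centralizer (B : Set X) := by
    apply Subgroup.eq_of_le_of_card_ge hZC
    rw [hCcard]
    have hd : Nat.card (Subgroup.center X) ∣ p := by
      rw [← hCcard]; exact Subgroup.card_dvd_of_le hZC
    rcases (Nat.dvd_prime hp).mp hd with h | h
    · exact absurd (Subgroup.card_eq_one.mp h) hZne
    · exact h.ge
  have hZcard : Nat.card (Subgroup.center X) = p := by rw [hZeq]; exact hCcard
  have hZB : Subgroup.center X ≤ B := hZC.trans hC
  have hcardQ := Subgroup.card_eq_card_quotient_mul_card_subgroup (Subgroup.center X)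
  obtain ⟨n', rfl⟩ : ∃ n', n = n' + 1 := ⟨n - 1, by omega⟩
  have hQcard : Nat.card (X ⧸ Subgroup.center X) = p ^ n' := by
    rw [hX, hZcard, pow_succ] at hcardQ
    exact (Nat.eq_of_mul_eq_mul_right hppos hcardQ).symm
  have hBb : Nat.card (B.map (QuotientGroup.mk' (Subgroup.center X))) = p ^ 2 := by
    have := card_map_mk (Subgroup.center X) B hZB
    rw [hZcard, hB] at this
    have h' : Nat.card (B.map (QuotientGroup.mk' (Subgroup.center X))) * p = p ^ 2 * p := by
      rw [this]; ring
    exact Nat.eq_of_mul_eq_mul_right hppos h'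
  have hBbcomm : ∀ a b : B.map (QuotientGroup.mk' (Subgroup.center X)), a * b = b * a :=
    (IsPGroup.isMulCommutative_of_card_eq_prime_sq hBb).is_comm.comm
  have hBD : B ≤ (Subgroup.centralizer
      ((B.map (QuotientGroup.mk' (Subgroup.center X)) :
        Subgroup (X ⧸ Subgroup.center X)) : Set (X ⧸ Subgroup.center X))).comap
          (QuotientGroup.mk' (Subgroup.center X)) := by
    intro x hx
    show QuotientGroup.mk' (Subgroup.center X) x ∈ Subgroup.centralizer _
    rw [Subgroup.mem_centralizer_iff]
    intro y hy
    have := hBbcomm ⟨y, hy⟩ ⟨QuotientGroup.mk' (Subgroup.center X) x,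
      Subgroup.mem_map_of_mem _ hx⟩
    exact congrArg Subtype.val this
  have hDle : Nat.card ((Subgroup.centralizer
      ((B.map (QuotientGroup.mk' (Subgroup.center X)) :
        Subgroup (X ⧸ Subgroup.center X)) : Set (X ⧸ Subgroup.center X))).comap
          (QuotientGroup.mk' (Subgroup.center X))) ≤ p ^ 3 := by
    have h1 := card_le_of_comm_mem _ (Subgroup.center X) b₁
      (fun x hx => comm_mem_of_mem_comap (Subgroup.center X) B x hx b₁ hb₁)
    have h2 := card_le_of_comm_mem ((Subgroup.centralizer
      ((B.map (QuotientGroup.mk' (Subgroup.center X)) :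
        Subgroup (X ⧸ Subgroup.center X)) : Set (X ⧸ Subgroup.center X))).comap
          (QuotientGroup.mk' (Subgroup.center X)) ⊓ Subgroup.centralizer ({b₁} : Set X))
      (Subgroup.center X) b₂
      (fun x hx => comm_mem_of_mem_comap (Subgroup.center X) B x (Subgroup.mem_inf.mp hx).1 b₂ hb₂)
    have h3 : (Subgroup.centralizer
      ((B.map (QuotientGroup.mk' (Subgroup.center X)) :
        Subgroup (X ⧸ Subgroup.center X)) : Set (X ⧸ Subgroup.center X))).comap
          (QuotientGroup.mk' (Subgroup.center X)) ⊓ Subgroup.centralizer ({b₁} : Set X) ⊓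
            Subgroup.centralizer ({b₂} : Set X) ≤ Subgroup.center X := by
      intro x hx
      rw [hZeq, ← hT, Subgroup.centralizer_closure, Subgroup.mem_centralizer_iff]
      intro y hy
      rcases hy with rfl | rfl
      · have := (Subgroup.mem_inf.mp (Subgroup.mem_inf.mp hx).1).2
        rw [Subgroup.mem_centralizer_iff] at this; exact this _ rfl
      · have := (Subgroup.mem_inf.mp hx).2
        rw [Subgroup.mem_centralizer_iff] at this; exact this _ rfl
    have h4 := Subgroup.card_le_of_le h3
    calc _ ≤ Nat.card (Subgroup.center X) * Nat.card _ := h1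
      _ ≤ Nat.card (Subgroup.center X) * (Nat.card (Subgroup.center X) * Nat.card _) :=
          Nat.mul_le_mul_left _ h2
      _ ≤ Nat.card (Subgroup.center X) *
          (Nat.card (Subgroup.center X) * Nat.card (Subgroup.center X)) :=
          Nat.mul_le_mul_left _ (Nat.mul_le_mul_left _ h4)
      _ = p ^ 3 := by rw [hZcard]; ring
  have hDB := Subgroup.eq_of_le_of_card_ge hBD (by rw [hB]; exact hDle)
  have hCBb : Subgroup.centralizer
      ((B.map (QuotientGroup.mk' (Subgroup.center X)) :
        Subgroup (X ⧸ Subgroup.center X)) : Set (X ⧸ Subgroup.center X)) ≤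
      B.map (QuotientGroup.mk' (Subgroup.center X)) := by
    intro y hy
    obtain ⟨x, rfl⟩ := QuotientGroup.mk'_surjective (Subgroup.center X) y
    have hxD : x ∈ (Subgroup.centralizer
      ((B.map (QuotientGroup.mk' (Subgroup.center X)) :
        Subgroup (X ⧸ Subgroup.center X)) : Set (X ⧸ Subgroup.center X))).comap
          (QuotientGroup.mk' (Subgroup.center X)) := hy
    rw [← hDB] at hxD
    exact Subgroup.mem_map_of_mem _ hxD
  have hs := suzuki p n' (X ⧸ Subgroup.center X) hQcard _ hBb hCBb
  rw [hclass, hs]
  omega

end Cfsg.Agent.S4143
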