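import Cfsg.Statements.S4152
import Cfsg.Agent.Lib.Helper73.Count
import Mathlib

set_option autoImplicit false
open Cfsg

namespace Cfsg.Agent.S4152

open Cfsg.Agent.Lib.Helper73

/-- `g` is a π-element -/
def IsPi {G : Type*} [Group G] (π : Set ℕ) (g : G) : Prop :=
  ∀ q : ℕ, q.Prime → q ∣ orderOf g → q ∈ π

/-- `g` is a π'-element -/
def IsPi' {G : Type*} [Group G] (π : Set ℕ) (g : G) : Prop :=
  ∀ q : ℕ, q.Prime → q ∣ orderOf g → q ∉ π

/-- commuting pairs with conditions on the two coordinates -/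
abbrev CP {G : Type*} [Group G] (Q R : G → Prop) : Type _ :=
  {p : G × G // Q p.1 ∧ R p.2 ∧ p.1 * p.2 = p.2 * p.1}

theorem orderOf_conj' {G : Type*} [Group G] (c x : G) : orderOf (c * x * c⁻¹) = orderOf x :=
  MulEquiv.orderOf_eq (MulAut.conj c) x

theorem orderOf_eq_of_mk_eq {G : Type*} [Group G] {a b : G}
    (h : ConjClasses.mk a = ConjClasses.mk b) : orderOf a = orderOf b := by
  rw [ConjClasses.mk_eq_mk_iff_isConj, isConj_iff] at h
  obtain ⟨c, hc⟩ := h
  rw [← hc, orderOf_conj']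

theorem pc_mk_iff {G : Type*} [Group G] (π : Set ℕ) (g : G) :
    (∀ q : ℕ, q.Prime → (∃ g' : G, ConjClasses.mk g' = ConjClasses.mk g ∧ q ∣ orderOf g') → q ∈ π)
      ↔ IsPi π g := by
  constructor
  · intro h q hq hqg
    exact h q hq ⟨g, rfl, hqg⟩
  · rintro h q hq ⟨g', hg', hqg'⟩
    rw [orderOf_eq_of_mk_eq hg'] at hqg'
    exact h q hq hqg'

theorem exists_pi_split (π : Set ℕ) (k : ℕ) (hk : k ≠ 0) :
    ∃ a b : ℕ, k = a * b ∧ (∀ q : ℕ, q.Prime → q ∣ a → q ∈ π) ∧
      (∀ q : ℕ, q.Prime → q ∣ b → q ∉ π) := by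
  classical
  induction k using Nat.recOnMul with
  | zero => exact absurd rfl hk
  | one =>
    exact ⟨1, 1, rfl, fun q hq h => absurd (Nat.dvd_one.mp h) hq.ne_one,
      fun q hq h => absurd (Nat.dvd_one.mp h) hq.ne_one⟩
  | prime p hp =>
    by_cases hpπ : p ∈ π
    · refine ⟨p, 1, (mul_one p).symm, fun q hq h => ?_,
        fun q hq h => absurd (Nat.dvd_one.mp h) hq.ne_one⟩
      rw [(Nat.prime_dvd_prime_iff_eq hq hp).mp h]; exact hpπ
    · refine ⟨1, p, (one_mul p).symm, fun q hq h => absurd (Nat.dvd_one.mp h) hq.ne_one,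
        fun q hq h => ?_⟩
      rw [(Nat.prime_dvd_prime_iff_eq hq hp).mp h]; exact hpπ
  | mul a b iha ihb =>
    obtain ⟨a1, b1, h1, h2, h3⟩ := iha (left_ne_zero_of_mul hk)
    obtain ⟨a2, b2, h1', h2', h3'⟩ := ihb (right_ne_zero_of_mul hk)
    refine ⟨a1 * a2, b1 * b2, by rw [h1, h1']; ring, fun q hq h => ?_, fun q hq h => ?_⟩
    · rcases (Nat.Prime.dvd_mul hq).mp h with h | h
      exacts [h2 q hq h, h2' q hq h]
    · rcases (Nat.Prime.dvd_mul hq).mp h with h | h
      exacts [h3 q hq h, h3' q hq h]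

theorem exists_pi_decomp {G : Type*} [Group G] [Finite G] (π : Set ℕ) (x : G) :
    ∃ i j : ℤ, x = x ^ i * x ^ j ∧ IsPi π (x ^ i) ∧ IsPi' π (x ^ j) := by
  have hn : orderOf x ≠ 0 := (orderOf_pos x).ne'
  obtain ⟨a, b, hab, ha, hb⟩ := exists_pi_split π (orderOf x) hn
  have hcop : Nat.Coprime a b := Nat.coprime_of_dvd (fun q hq h1 h2 => hb q hq h2 (ha q hq h1))
  have hbz := Nat.gcd_eq_gcd_ab a b
  rw [hcop.gcd_eq_one] at hbz
  have h1 : (x ^ ((b : ℤ) * Nat.gcdB a b)) ^ a = 1 := by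
    rw [← zpow_natCast, ← zpow_mul]
    have : (b : ℤ) * Nat.gcdB a b * (a : ℤ) = ((orderOf x : ℕ) : ℤ) * Nat.gcdB a b := by
      rw [hab]; push_cast; ring
    rw [this, zpow_mul, zpow_natCast, pow_orderOf_eq_one, one_zpow]
  have h2 : (x ^ ((a : ℤ) * Nat.gcdA a b)) ^ b = 1 := by
    rw [← zpow_natCast, ← zpow_mul]
    have : (a : ℤ) * Nat.gcdA a b * (b : ℤ) = ((orderOf x : ℕ) : ℤ) * Nat.gcdA a b := by
      rw [hab]; push_cast; ring
    rw [this, zpow_mul, zpow_natCast, pow_orderOf_eq_one, one_zpow]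
  refine ⟨(b : ℤ) * Nat.gcdB a b, (a : ℤ) * Nat.gcdA a b, ?_, ?_, ?_⟩
  · rw [← zpow_add]
    have : (b : ℤ) * Nat.gcdB a b + (a : ℤ) * Nat.gcdA a b = 1 := by
      rw [add_comm]; exact_mod_cast hbz.symm
    rw [this, zpow_one]
  · intro q hq hqd
    exact ha q hq (hqd.trans (orderOf_dvd_of_pow_eq_one h1))
  · intro q hq hqd
    exact hb q hq (hqd.trans (orderOf_dvd_of_pow_eq_one h2))

theorem pi_unique {G : Type*} [Group G] (π : Set ℕ) {g c g' c' : G} (hg : IsPi π g)
    (hg' : IsPi π g') (hc : IsPi' π c) (hc' : IsPi' π c') (hgc : g * c = c * g)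
    (hgc' : g' * c' = c' * g') (h : g * c = g' * c') : g = g' ∧ c = c' := by
  have key : c = c' := by
    have hA : c ^ (orderOf g * orderOf g') = c' ^ (orderOf g * orderOf g') := by
      have e1 : (g * c) ^ (orderOf g * orderOf g') = c ^ (orderOf g * orderOf g') := by
        rw [(show Commute g c from hgc).mul_pow, pow_mul, pow_orderOf_eq_one, one_pow, one_mul]
      have e2 : (g' * c') ^ (orderOf g * orderOf g') = c' ^ (orderOf g * orderOf g') := by
        rw [(show Commute g' c' from hgc').mul_pow, mul_comm (orderOf g), pow_mul,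
          pow_orderOf_eq_one, one_pow, one_mul]
      rw [← e1, ← e2, h]
    have hcop : Nat.Coprime (orderOf g * orderOf g') (orderOf c * orderOf c') := by
      apply Nat.coprime_of_dvd
      intro q hq h1 h2
      have hin : q ∈ π := by
        rcases (Nat.Prime.dvd_mul hq).mp h1 with h | h
        exacts [hg q hq h, hg' q hq h]
      rcases (Nat.Prime.dvd_mul hq).mp h2 with h | h
      exacts [hc q hq h hin, hc' q hq h hin]
    have hbz := Nat.gcd_eq_gcd_ab (orderOf g * orderOf g') (orderOf c * orderOf c')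
    rw [hcop.gcd_eq_one] at hbz
    have hB : c ^ (orderOf c * orderOf c') = 1 := by
      rw [pow_mul, pow_orderOf_eq_one, one_pow]
    have hB' : c' ^ (orderOf c * orderOf c') = 1 := by
      rw [mul_comm, pow_mul, pow_orderOf_eq_one, one_pow]
    have hz : ∀ d : G, d ^ (orderOf c * orderOf c') = 1 →
        d = (d ^ (orderOf g * orderOf g')) ^
          (Nat.gcdA (orderOf g * orderOf g') (orderOf c * orderOf c')) := by
      intro d hd
      have : d = d ^ (((1 : ℕ) : ℤ)) := by simp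
      rw [hbz, zpow_add, zpow_mul, zpow_mul, zpow_natCast, zpow_natCast, hd, one_zpow,
        mul_one] at this
      exact this
    calc c = (c ^ (orderOf g * orderOf g')) ^
          (Nat.gcdA (orderOf g * orderOf g') (orderOf c * orderOf c')) := hz c hB
      _ = (c' ^ (orderOf g * orderOf g')) ^
          (Nat.gcdA (orderOf g * orderOf g') (orderOf c * orderOf c')) := by rw [hA]
      _ = c' := (hz c' hB').symm
  refine ⟨?_, key⟩
  rw [key] at h
  exact mul_right_cancel h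

theorem card_pairs {G : Type*} [Group G] [Finite G] (PC : ConjClasses G → Prop) :
    Nat.card {p : G × G // PC (ConjClasses.mk p.1) ∧ p.1 * p.2 = p.2 * p.1} =
      Nat.card {C : ConjClasses G // PC C} * Nat.card G := by
  classical
  let f : {p : G × G // PC (ConjClasses.mk p.1) ∧ p.1 * p.2 = p.2 * p.1} →
      {C : ConjClasses G // PC C} := fun p => ⟨ConjClasses.mk p.1.1, p.2.1⟩
  haveI : Fintype {C : ConjClasses G // PC C} := Fintype.ofFinite _
  rw [← Nat.card_congr (Equiv.sigmaFiberEquiv f), Nat.card_sigma]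
  have hfib : ∀ C : {C : ConjClasses G // PC C}, Nat.card {p // f p = C} = Nat.card G := by
    rintro ⟨C, hC⟩
    obtain ⟨g₀, rfl⟩ := ConjClasses.exists_rep C
    have e : {p // f p = ⟨ConjClasses.mk g₀, hC⟩} ≃
        Σ (y : {y : G // ∃ x : G, x * g₀ * x⁻¹ = y}),
          Subgroup.centralizer ({(y : G)} : Set G) :=
      { toFun := fun p => ⟨⟨p.1.1.1, by
            have h1 : ConjClasses.mk p.1.1.1 = ConjClasses.mk g₀ := congrArg Subtype.val p.2
            exact isConj_iff.mp (ConjClasses.mk_eq_mk_iff_isConj.mp h1.symm)⟩,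
          ⟨p.1.1.2, by
            rw [Subgroup.mem_centralizer_iff]
            intro z hz
            rw [Set.mem_singleton_iff] at hz
            rw [hz]
            exact p.1.2.2⟩⟩
        invFun := fun s => ⟨⟨(s.1.1, s.2.1), by
            have h1 : ConjClasses.mk s.1.1 = ConjClasses.mk g₀ :=
              (ConjClasses.mk_eq_mk_iff_isConj.mpr (isConj_iff.mpr s.1.2)).symm
            show PC (ConjClasses.mk s.1.1)
            rw [h1]; exact hC, by
            have := s.2.2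
            rw [Subgroup.mem_centralizer_iff] at this
            exact this s.1.1 rfl⟩, by
            apply Subtype.ext
            exact (ConjClasses.mk_eq_mk_iff_isConj.mpr (isConj_iff.mpr s.1.2)).symm⟩
        left_inv := fun p => rfl
        right_inv := fun s => rfl }
    rw [Nat.card_congr e]
    haveI : Fintype {y : G // ∃ x : G, x * g₀ * x⁻¹ = y} := Fintype.ofFinite _
    rw [Nat.card_sigma]
    have hcent : ∀ y : {y : G // ∃ x : G, x * g₀ * x⁻¹ = y},
        Nat.card (Subgroup.centralizer ({(y : G)} : Set G)) =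
          Nat.card (Subgroup.centralizer ({g₀} : Set G)) := by
      rintro ⟨y, c, rfl⟩
      have h1 := card_conj_mul_card_centralizer (c * g₀ * c⁻¹)
      have h2 := card_conj_mul_card_centralizer g₀
      have h3 : Nat.card {y : G // ∃ x : G, x * (c * g₀ * c⁻¹) * x⁻¹ = y} =
          Nat.card {y : G // ∃ x : G, x * g₀ * x⁻¹ = y} := by
        apply Nat.card_congr
        apply Equiv.subtypeEquivRight
        intro z
        constructor
        · rintro ⟨x, rfl⟩
          exact ⟨x * c, by group⟩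
        · rintro ⟨x, rfl⟩
          exact ⟨x * c⁻¹, by group⟩
      rw [h3, ← h2] at h1
      have hpos : 0 < Nat.card {y : G // ∃ x : G, x * g₀ * x⁻¹ = y} := by
        haveI : Nonempty {y : G // ∃ x : G, x * g₀ * x⁻¹ = y} := ⟨⟨g₀, 1, by group⟩⟩
        exact Nat.card_pos
      exact Nat.eq_of_mul_eq_mul_left hpos h1
    rw [Finset.sum_congr rfl (fun y _ => hcent y)]
    simp only [Finset.sum_const, Finset.card_univ, smul_eq_mul]
    rw [← Nat.card_eq_fintype_card]
    exact card_conj_mul_card_centralizer g₀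
  rw [Finset.sum_congr rfl (fun C _ => hfib C)]
  simp only [Finset.sum_const, Finset.card_univ, smul_eq_mul]
  rw [← Nat.card_eq_fintype_card]

theorem card_pairs' {G : Type*} [Group G] [Finite G] (π : Set ℕ) :
    Nat.card (CP (IsPi π : G → Prop) (fun _ => True)) =
      Nat.card {C : ConjClasses G // ∀ q : ℕ, q.Prime →
        (∃ g : G, ConjClasses.mk g = C ∧ q ∣ orderOf g) → q ∈ π} * Nat.card G := by
  rw [← card_pairs]
  apply Nat.card_congr
  apply Equiv.subtypeEquivRight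
  intro p
  rw [pc_mk_iff]
  simp

theorem cp_swap {G : Type*} [Group G] (Q R : G → Prop) :
    Nat.card (CP Q R) = Nat.card (CP R Q) := by
  apply Nat.card_congr
  exact
    { toFun := fun p => ⟨(p.1.2, p.1.1), p.2.2.1, p.2.1, p.2.2.2.symm⟩
      invFun := fun p => ⟨(p.1.2, p.1.1), p.2.2.1, p.2.1, p.2.2.2.symm⟩
      left_inv := fun p => rfl
      right_inv := fun p => rfl }

/-- coset shift in the second coordinate -/
theorem cp_shift {G : Type*} [Group G] [Finite G] (N : Subgroup G) (v : G) (Q : G → Prop) :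
    Nat.card (CP Q (fun h => v⁻¹ * h ∈ N)) ≤ Nat.card (CP Q (fun h => h ∈ N)) := by
  classical
  let h₀ : G → G := fun g =>
    if hex : ∃ h, v⁻¹ * h ∈ N ∧ g * h = h * g then hex.choose else 1
  have hspec : ∀ g h, v⁻¹ * h ∈ N → g * h = h * g →
      v⁻¹ * h₀ g ∈ N ∧ g * h₀ g = h₀ g * g := by
    intro g h h1 h2
    have hex : ∃ h, v⁻¹ * h ∈ N ∧ g * h = h * g := ⟨h, h1, h2⟩
    simp only [h₀, dif_pos hex]
    exact hex.choose_spec
  refine Nat.card_le_card_of_injective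
    (fun p => ⟨(p.1.1, (h₀ p.1.1)⁻¹ * p.1.2), p.2.1, ?_, ?_⟩) ?_
  · obtain ⟨a, b⟩ := hspec p.1.1 p.1.2 p.2.2.1 p.2.2.2
    have : (h₀ p.1.1)⁻¹ * p.1.2 = (v⁻¹ * h₀ p.1.1)⁻¹ * (v⁻¹ * p.1.2) := by group
    show (h₀ p.1.1)⁻¹ * p.1.2 ∈ N
    rw [this]; exact N.mul_mem (N.inv_mem a) p.2.2.1
  · obtain ⟨a, b⟩ := hspec p.1.1 p.1.2 p.2.2.1 p.2.2.2
    have hc := p.2.2.2
    show p.1.1 * ((h₀ p.1.1)⁻¹ * p.1.2) = (h₀ p.1.1)⁻¹ * p.1.2 * p.1.1
    calc p.1.1 * ((h₀ p.1.1)⁻¹ * p.1.2)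
        = (h₀ p.1.1)⁻¹ * (h₀ p.1.1 * p.1.1) * (h₀ p.1.1)⁻¹ * p.1.2 := by group
      _ = (h₀ p.1.1)⁻¹ * (p.1.1 * h₀ p.1.1) * (h₀ p.1.1)⁻¹ * p.1.2 := by rw [b]
      _ = (h₀ p.1.1)⁻¹ * (p.1.1 * p.1.2) := by group
      _ = (h₀ p.1.1)⁻¹ * (p.1.2 * p.1.1) := by rw [hc]
      _ = (h₀ p.1.1)⁻¹ * p.1.2 * p.1.1 := by group
  · rintro ⟨⟨g, h⟩, hp⟩ ⟨⟨g', h'⟩, hp'⟩ he
    simp only [Subtype.mk.injEq, Prod.mk.injEq] at he
    obtain ⟨rfl, he2⟩ := he
    have := mul_left_cancel he2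
    subst this; rfl

/-- the π-shift -/
theorem cp_pi {G : Type*} [Group G] [Finite G] (π : Set ℕ) (N : Subgroup G) (u : G) :
    Nat.card (CP (fun g => IsPi π g ∧ u⁻¹ * g ∈ N) (fun n => n ∈ N)) ≤
      Nat.card (CP (fun a => u⁻¹ * a ∈ N) (fun b => b ∈ N ∧ IsPi π b)) := by
  classical
  choose i j hij hi hj using exists_pi_decomp (G := G) π
  have hcomm : ∀ (g n : G) (k : ℤ), g * n = n * g → g * n ^ k = n ^ k * g := by
    intro g n k h
    exact ((show Commute g n from h).zpow_right k)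
  refine Nat.card_le_card_of_injective
    (fun p => ⟨(p.1.1 * p.1.2 ^ (j p.1.2), p.1.2 ^ (i p.1.2)), ?_, ⟨?_, ?_⟩, ?_⟩) ?_
  · show u⁻¹ * (p.1.1 * p.1.2 ^ (j p.1.2)) ∈ N
    rw [← mul_assoc]
    exact N.mul_mem p.2.1.2 (N.zpow_mem p.2.2.1 _)
  · exact N.zpow_mem p.2.2.1 _
  · exact hi p.1.2
  · have h1 := hcomm p.1.1 p.1.2 (i p.1.2) p.2.2.2
    have h2 : p.1.2 ^ (j p.1.2) * p.1.2 ^ (i p.1.2) = p.1.2 ^ (i p.1.2) * p.1.2 ^ (j p.1.2) := by
      rw [← zpow_add, ← zpow_add, add_comm]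
    show p.1.1 * p.1.2 ^ (j p.1.2) * p.1.2 ^ (i p.1.2) =
      p.1.2 ^ (i p.1.2) * (p.1.1 * p.1.2 ^ (j p.1.2))
    rw [mul_assoc, h2, ← mul_assoc, h1, mul_assoc]
  · rintro ⟨⟨g, n⟩, hp⟩ ⟨⟨g', n'⟩, hp'⟩ he
    simp only [Subtype.mk.injEq, Prod.mk.injEq] at he
    obtain ⟨he1, he2⟩ := he
    have hu := pi_unique π hp.1.1 hp'.1.1 (hj n) (hj n') (hcomm g n (j n) hp.2.2)
      (hcomm g' n' (j n') hp'.2.2) he1
    have hn : n = n' := by
      rw [hij n, hij n', he2, hu.2]
    apply Subtype.ext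
    exact Prod.ext hu.1 hn

theorem cp_sub {G : Type*} [Group G] [Finite G] (π : Set ℕ) (N : Subgroup G) :
    Nat.card (CP (fun b : G => b ∈ N ∧ IsPi π b) (fun a => a ∈ N)) ≤
      Nat.card (CP (IsPi π : N → Prop) (fun _ => True)) := by
  refine Nat.card_le_card_of_injective
    (fun p => ⟨(⟨p.1.1, p.2.1.1⟩, ⟨p.1.2, p.2.2.1⟩), ?_, trivial, Subtype.ext p.2.2.2⟩) ?_
  · intro q hq hqd
    rw [Subgroup.orderOf_mk] at hqd
    exact p.2.1.2 q hq hqd
  · rintro ⟨⟨g, n⟩, hp⟩ ⟨⟨g', n'⟩, hp'⟩ he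
    simp only [Subtype.mk.injEq, Prod.mk.injEq] at he
    apply Subtype.ext
    exact Prod.ext he.1 he.2

theorem pairs_le {G : Type*} [Group G] [Finite G] (N : Subgroup G) [N.Normal] (π : Set ℕ) :
    Nat.card (CP (IsPi π : G → Prop) (fun _ => True)) ≤
      Nat.card (CP (IsPi π : G ⧸ N → Prop) (fun _ => True)) *
        Nat.card (CP (IsPi π : N → Prop) (fun _ => True)) := by
  classical
  have hproj : ∀ g : G, IsPi π g → IsPi π (g : G ⧸ N) := by
    intro g hg q hq hqd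
    refine hg q hq (hqd.trans ?_)
    apply orderOf_dvd_of_pow_eq_one
    rw [← QuotientGroup.mk_pow, pow_orderOf_eq_one]
    rfl
  let f : CP (IsPi π : G → Prop) (fun _ => True) → CP (IsPi π : G ⧸ N → Prop) (fun _ => True) :=
    fun p => ⟨((p.1.1 : G ⧸ N), (p.1.2 : G ⧸ N)), hproj _ p.2.1, trivial, by
      show (p.1.1 : G ⧸ N) * (p.1.2 : G ⧸ N) = (p.1.2 : G ⧸ N) * (p.1.1 : G ⧸ N)
      rw [← QuotientGroup.mk_mul, ← QuotientGroup.mk_mul, p.2.2.2]⟩
  haveI : Fintype (CP (IsPi π : G ⧸ N → Prop) (fun _ => True)) := Fintype.ofFinite _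
  rw [← Nat.card_congr (Equiv.sigmaFiberEquiv f), Nat.card_sigma]
  have hfib : ∀ y : CP (IsPi π : G ⧸ N → Prop) (fun _ => True),
      Nat.card {p // f p = y} ≤ Nat.card (CP (IsPi π : N → Prop) (fun _ => True)) := by
    rintro ⟨⟨ub, vb⟩, hy⟩
    obtain ⟨u, rfl⟩ := QuotientGroup.mk_surjective ub
    obtain ⟨v, rfl⟩ := QuotientGroup.mk_surjective vb
    have h1 : Nat.card {p // f p = ⟨((u : G ⧸ N), (v : G ⧸ N)), hy⟩} ≤
        Nat.card (CP (fun g => IsPi π g ∧ u⁻¹ * g ∈ N) (fun h => v⁻¹ * h ∈ N)) := by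
      refine Nat.card_le_card_of_injective
        (fun p => ⟨p.1.1, ⟨p.1.2.1, ?_⟩, ?_, p.1.2.2.2⟩) ?_
      · have := congrArg (fun z => z.1.1) p.2
        exact QuotientGroup.eq.mp this.symm
      · have := congrArg (fun z => z.1.2) p.2
        exact QuotientGroup.eq.mp this.symm
      · rintro ⟨⟨p, hp⟩, hp2⟩ ⟨⟨p', hp'⟩, hp2'⟩ he
        simp only [Subtype.mk.injEq] at he
        subst he; rfl
    have h2 := cp_shift N v (fun g => IsPi π g ∧ u⁻¹ * g ∈ N)
    have h3 := cp_pi π N u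
    have h4 := cp_swap (fun a : G => u⁻¹ * a ∈ N) (fun b => b ∈ N ∧ IsPi π b)
    have h5 := cp_shift N u (fun b : G => b ∈ N ∧ IsPi π b)
    have h6 := cp_sub π N
    calc _ ≤ _ := h1
      _ ≤ _ := h2
      _ ≤ _ := h3
      _ = _ := h4
      _ ≤ _ := h5
      _ ≤ _ := h6
  calc ∑ y, Nat.card {p // f p = y}
      ≤ ∑ _y : CP (IsPi π : G ⧸ N → Prop) (fun _ => True),
          Nat.card (CP (IsPi π : N → Prop) (fun _ => True)) :=
        Finset.sum_le_sum (fun y _ => hfib y)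
    _ = _ := by
        simp only [Finset.sum_const, Finset.card_univ, smul_eq_mul]
        rw [← Nat.card_eq_fintype_card]

/-- Let G be a finite group, N a normal subgroup and π a set of primes. Then the number of conjugacy classes of π-elements of G (elements whose order is divisible only by primes in π) is at most the number of conjugacy classes of π-elements of N (under conjugation by N) times the number of conjugacy classes of π-elements of G/N. -/
theorem result {G : Type*} [Group G] [Finite G] (N : Subgroup G) [N.Normal] (π : Set ℕ) :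
    Nat.card {C : ConjClasses G // ∀ q : ℕ, q.Prime → (∃ g : G, ConjClasses.mk g = C ∧ q ∣ orderOf g) → q ∈ π} ≤ Nat.card {C : ConjClasses N // ∀ q : ℕ, q.Prime → (∃ g : N, ConjClasses.mk g = C ∧ q ∣ orderOf g) → q ∈ π} * Nat.card {C : ConjClasses (G ⧸ N) // ∀ q : ℕ, q.Prime → (∃ g : (G ⧸ N), ConjClasses.mk g = C ∧ q ∣ orderOf g) → q ∈ π} := by
  have h := pairs_le N π
  rw [card_pairs' (G := G), card_pairs' (G := G ⧸ N), card_pairs' (G := N)] at h
  have hcard : Nat.card G = Nat.card (G ⧸ N) * Nat.card N :=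
    Subgroup.card_eq_card_quotient_mul_card_subgroup N
  have hpos : 0 < Nat.card G := Nat.card_pos
  apply Nat.le_of_mul_le_mul_right _ hpos
  calc _ ≤ _ := h
    _ = _ := by rw [hcard]; ring

end Cfsg.Agent.S4152
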