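import Cfsg.Statements.S4153
import Mathlib

set_option autoImplicit false
open Cfsg

namespace Cfsg.Agent.S4153

open scoped Pointwise

/-- p-part / p'-part decomposition -/
theorem exists_decomp {G : Type*} [Group G] [Finite G] (p : ℕ) (hp : p.Prime) (x : G) :
    ∃ (i j : ℤ) (a : ℕ), x = x ^ i * x ^ j ∧ (x ^ i) ^ (p ^ a) = 1 ∧ ¬ p ∣ orderOf (x ^ j) := by
  have hn : orderOf x ≠ 0 := (orderOf_pos x).ne'
  obtain ⟨a, n', hpn', hn'⟩ := Nat.exists_eq_pow_mul_and_not_dvd hn p hp.ne_one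
  have hcop : Nat.Coprime (p ^ a) n' :=
    Nat.Coprime.pow_left _ ((Nat.Prime.coprime_iff_not_dvd hp).mpr hpn')
  have hb := Nat.gcd_eq_gcd_ab (p ^ a) n'
  rw [hcop.gcd_eq_one] at hb
  refine ⟨(n' : ℤ) * Nat.gcdB (p ^ a) n', ((p ^ a : ℕ) : ℤ) * Nat.gcdA (p ^ a) n', a, ?_, ?_, ?_⟩
  · rw [← zpow_add]
    have : (n' : ℤ) * Nat.gcdB (p ^ a) n' + ((p ^ a : ℕ) : ℤ) * Nat.gcdA (p ^ a) n' = 1 := by
      rw [add_comm]; exact_mod_cast hb.symm
    rw [this, zpow_one]
  · rw [← zpow_natCast, ← zpow_mul]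
    have : (n' : ℤ) * Nat.gcdB (p ^ a) n' * ((p ^ a : ℕ) : ℤ) =
        ((orderOf x : ℕ) : ℤ) * Nat.gcdB (p ^ a) n' := by
      rw [hn']; push_cast; ring
    rw [this, zpow_mul, zpow_natCast, pow_orderOf_eq_one, one_zpow]
  · intro hpd
    have h1 : (x ^ (((p ^ a : ℕ) : ℤ) * Nat.gcdA (p ^ a) n')) ^ n' = 1 := by
      rw [← zpow_natCast, ← zpow_mul]
      have : ((p ^ a : ℕ) : ℤ) * Nat.gcdA (p ^ a) n' * (n' : ℤ) =
          ((orderOf x : ℕ) : ℤ) * Nat.gcdA (p ^ a) n' := by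
        rw [hn']; push_cast; ring
      rw [this, zpow_mul, zpow_natCast, pow_orderOf_eq_one, one_zpow]
    exact hpn' (hpd.trans (orderOf_dvd_of_pow_eq_one h1))

theorem isPGroup_zpowers {G : Type*} [Group G] (p : ℕ) (u : G) (a : ℕ) (hu : u ^ (p ^ a) = 1) :
    IsPGroup p (Subgroup.zpowers u) := by
  rintro ⟨y, hy⟩
  obtain ⟨k, rfl⟩ := Subgroup.mem_zpowers_iff.mp hy
  refine ⟨a, ?_⟩
  apply Subtype.ext
  show (u ^ k) ^ (p ^ a) = 1
  rw [← zpow_natCast, ← zpow_mul, mul_comm, zpow_mul, zpow_natCast, hu, one_zpow]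

theorem exists_conj_mem_sylow {G : Type*} [Group G] [Finite G] (p : ℕ) [Fact p.Prime]
    (P : Sylow p G) (u : G) (a : ℕ) (hu : u ^ (p ^ a) = 1) : ∃ g : G, g * u * g⁻¹ ∈ P := by
  have hQ : IsPGroup p (Subgroup.zpowers u) := isPGroup_zpowers p u a hu
  obtain ⟨Q, hQ'⟩ := hQ.exists_le_sylow
  obtain ⟨g, hg⟩ := MulAction.exists_smul_eq G Q P
  refine ⟨g, ?_⟩
  rw [← hg]
  have hu' : u ∈ (Q : Subgroup G) := hQ' (Subgroup.mem_zpowers u)
  have := Subgroup.smul_mem_pointwise_smul u (MulAut.conj g) (Q : Subgroup G) hu'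
  exact this

theorem card_inf_normal {G : Type*} [Group G] [Finite G] (p : ℕ) [hp : Fact p.Prime]
    (S : Sylow p G) (N : Subgroup G) [N.Normal] (T₀ : Sylow p N) :
    Nat.card (N ⊓ (S : Subgroup G) : Subgroup G) = Nat.card (T₀ : Subgroup N) := by
  obtain ⟨k, hk⟩ := IsPGroup.iff_card.mp
    (S.isPGroup'.to_le (inf_le_right : N ⊓ (S : Subgroup G) ≤ S))
  obtain ⟨v, hv⟩ := IsPGroup.iff_card.mp T₀.isPGroup'
  apply Nat.dvd_antisymm
  · rw [hk]
    apply T₀.pow_dvd_card_of_pow_dvd_card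
    rw [← hk]
    exact Subgroup.card_dvd_of_le inf_le_left
  · have e1 : Nat.card ((S : Subgroup G) ⊔ N : Subgroup G) =
        Nat.card N * N.relIndex (S : Subgroup G) := by
      rw [← Subgroup.relIndex_sup_right (H := (S : Subgroup G)) (K := N),
        ← Subgroup.relIndex_bot_left,
        ← Subgroup.relIndex_mul_relIndex (H := ⊥) (K := N) (L := (S : Subgroup G) ⊔ N)
          bot_le le_sup_right, Subgroup.relIndex_bot_left]
    have e2 : Nat.card (N ⊓ (S : Subgroup G) : Subgroup G) * N.relIndex (S : Subgroup G) =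
        Nat.card (S : Subgroup G) := by
      have := Subgroup.relIndex_mul_relIndex (H := ⊥) (K := N ⊓ (S : Subgroup G))
        (L := (S : Subgroup G)) bot_le inf_le_right
      rwa [Subgroup.relIndex_bot_left, Subgroup.relIndex_bot_left,
        Subgroup.inf_relIndex_right] at this
    have h1 : Nat.card ((S : Subgroup G) ⊔ N : Subgroup G) *
        Nat.card (N ⊓ (S : Subgroup G) : Subgroup G) = Nat.card N * Nat.card (S : Subgroup G) := by
      rw [e1, ← e2]; ring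
    have h2 : Nat.card (S : Subgroup G) ∣ Nat.card ((S : Subgroup G) ⊔ N : Subgroup G) :=
      Subgroup.card_dvd_of_le le_sup_left
    obtain ⟨j, hj⟩ := h2
    have h3 : j ∣ (S : Subgroup G).index := by
      have h4 := Subgroup.card_mul_index (S : Subgroup G)
      have h5 : Nat.card ((S : Subgroup G) ⊔ N : Subgroup G) ∣ Nat.card G :=
        Subgroup.card_subgroup_dvd_card _
      rw [hj, ← h4] at h5
      exact Nat.dvd_of_mul_dvd_mul_left Nat.card_pos h5
    have hjcop : Nat.Coprime (Nat.card (T₀ : Subgroup N)) j := by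
      rw [hv]
      apply Nat.Coprime.pow_left
      exact Nat.Coprime.coprime_dvd_right h3
        ((Nat.Prime.coprime_iff_not_dvd hp.1).mpr S.not_dvd_index)
    have h6 : Nat.card N = j * Nat.card (N ⊓ (S : Subgroup G) : Subgroup G) := by
      rw [hj] at h1
      have hpos : 0 < Nat.card (S : Subgroup G) := Nat.card_pos
      have : Nat.card (S : Subgroup G) * (j * Nat.card (N ⊓ (S : Subgroup G) : Subgroup G)) =
          Nat.card (S : Subgroup G) * Nat.card N := by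
        rw [← mul_assoc, h1, mul_comm]
      exact (Nat.eq_of_mul_eq_mul_left hpos this).symm
    have h7 : Nat.card (T₀ : Subgroup N) ∣ j * Nat.card (N ⊓ (S : Subgroup G) : Subgroup G) := by
      rw [← h6]; exact Subgroup.card_subgroup_dvd_card _
    exact hjcop.dvd_of_dvd_mul_left h7

theorem central_pel {G : Type*} [Group G] [Finite G] (p : ℕ) [hp : Fact p.Prime] (P : Sylow p G)
    (N : Subgroup G) (hcen : N ≤ Subgroup.center G) (ρ g : G) (k1 k2 : ℕ)
    (h1 : orderOf ρ = p ^ k1) (h2 : orderOf g = p ^ k2) (hn : ρ⁻¹ * g ∈ N) :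
    ρ⁻¹ * g ∈ (P : Subgroup G) := by
  have hc := Subgroup.mem_center_iff.mp (hcen hn)
  have hcomm : Commute ρ g := by
    show ρ * g = g * ρ
    have := hc ρ
    calc ρ * g = ρ * (ρ * (ρ⁻¹ * g)) := by group
      _ = ρ * (ρ⁻¹ * g * ρ) := by rw [this]
      _ = g * ρ := by group
  have hd := hcomm.inv_left.orderOf_mul_dvd_mul_orderOf
  rw [orderOf_inv, h1, h2, ← pow_add] at hd
  have hpow : (ρ⁻¹ * g) ^ (p ^ (k1 + k2)) = 1 := orderOf_dvd_iff_pow_eq_one.mp hd
  obtain ⟨x, hx⟩ := exists_conj_mem_sylow p P (ρ⁻¹ * g) (k1 + k2) hpow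
  have : x * (ρ⁻¹ * g) * x⁻¹ = ρ⁻¹ * g := by
    rw [hc x]; group
  rw [this] at hx
  exact hx

/-- Let G be a finite group, p a prime, N a normal subgroup, P a Sylow p-subgroup of G and P̄ a Sylow p-subgroup of G/N. Count the elements of p-power order, the identity included. Then (number of such elements of G/N)/#P̄ ≤ (number of such elements of G)/#P, stated as a cross-multiplied inequality, with equality when N is central. -/
theorem result {G : Type*} [Group G] [Finite G] (p : ℕ) [Fact p.Prime] (N : Subgroup G) [N.Normal]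
    (P : Sylow p G) (Pbar : Sylow p (G ⧸ N)) :
    Nat.card {g : (G ⧸ N) // ∃ k : ℕ, orderOf g = p ^ k} * Nat.card (P : Subgroup G) ≤ Nat.card {g : G // ∃ k : ℕ, orderOf g = p ^ k} * Nat.card (Pbar : Subgroup (G ⧸ N)) ∧
    (N ≤ Subgroup.center G → Nat.card {g : (G ⧸ N) // ∃ k : ℕ, orderOf g = p ^ k} * Nat.card (P : Subgroup G) = Nat.card {g : G // ∃ k : ℕ, orderOf g = p ^ k} * Nat.card (Pbar : Subgroup (G ⧸ N))) := by
  classical
  have hp : p.Prime := Fact.out
  obtain ⟨T₀⟩ : Nonempty (Sylow p N) := inferInstance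
  have hpel : ∀ (S : Sylow p G) (g : G), g ∈ (S : Subgroup G) → ∃ k : ℕ, orderOf g = p ^ k := by
    intro S g hg
    obtain ⟨k, hk⟩ := S.isPGroup' ⟨g, hg⟩
    have hk' : g ^ (p ^ k) = 1 := by simpa using congrArg Subtype.val hk
    obtain ⟨j, -, hj⟩ := (Nat.dvd_prime_pow hp).mp (orderOf_dvd_of_pow_eq_one hk')
    exact ⟨j, hj⟩
  have hrep : ∀ c : {g : G ⧸ N // ∃ k : ℕ, orderOf g = p ^ k}, ∃ r : G,
      (r : G ⧸ N) = c.1 ∧ ∃ S : Sylow p G, r ∈ (S : Subgroup G) := by
    rintro ⟨c, k, hk⟩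
    obtain ⟨g, rfl⟩ := QuotientGroup.mk_surjective c
    obtain ⟨i, j, a, hdec, hu, hy⟩ := exists_decomp p hp g
    have hjN : g ^ j ∈ N := by
      rw [← QuotientGroup.eq_one_iff]
      have h1 : orderOf ((g ^ j : G) : G ⧸ N) ∣ orderOf (g ^ j) :=
        orderOf_map_dvd (QuotientGroup.mk' N) (g ^ j)
      have h2 : orderOf ((g ^ j : G) : G ⧸ N) ∣ p ^ k := by
        rw [← hk]
        have : ((g ^ j : G) : G ⧸ N) = (g : G ⧸ N) ^ j := QuotientGroup.mk_zpow N g j
        rw [this]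
        exact orderOf_dvd_of_mem_zpowers (Subgroup.zpow_mem_zpowers _ _)
      have hcop : Nat.Coprime (orderOf (g ^ j)) (p ^ k) :=
        Nat.Coprime.pow_right _ ((Nat.Prime.coprime_iff_not_dvd hp).mpr hy).symm
      have : orderOf ((g ^ j : G) : G ⧸ N) ∣ Nat.gcd (orderOf (g ^ j)) (p ^ k) :=
        Nat.dvd_gcd h1 h2
      rw [hcop.gcd_eq_one, Nat.dvd_one] at this
      exact orderOf_eq_one_iff.mp this
    obtain ⟨S, hS⟩ := (isPGroup_zpowers p (g ^ i) a hu).exists_le_sylow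
    refine ⟨g ^ i, ?_, S, hS (Subgroup.mem_zpowers _)⟩
    show ((g ^ i : G) : G ⧸ N) = (g : G ⧸ N)
    conv_rhs => rw [hdec]
    rw [QuotientGroup.mk_mul, (QuotientGroup.eq_one_iff _).mpr hjN, mul_one]
  choose r hr S hS using hrep
  have hcardT : ∀ S' : Sylow p G, Nat.card (N ⊓ (S' : Subgroup G) : Subgroup G) =
      Nat.card (T₀ : Subgroup N) := fun S' => card_inf_normal p S' N T₀
  have hA : Nat.card {g : G ⧸ N // ∃ k : ℕ, orderOf g = p ^ k} * Nat.card (T₀ : Subgroup N) ≤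
      Nat.card {g : G // ∃ k : ℕ, orderOf g = p ^ k} := by
    have he : ∀ c, Nonempty ((T₀ : Subgroup N) ≃ (N ⊓ (S c : Subgroup G) : Subgroup G)) :=
      fun c => Finite.card_eq.mp (hcardT (S c)).symm
    have e := fun c => Classical.choice (he c)
    rw [← Nat.card_prod]
    refine Nat.card_le_card_of_injective (fun x => ⟨r x.1 *
      ((e x.1 x.2 : (N ⊓ (S x.1 : Subgroup G) : Subgroup G)) : G), ?_⟩) ?_
    · apply hpel (S x.1)
      exact (S x.1 : Subgroup G).mul_mem (hS x.1) (Subgroup.mem_inf.mp (e x.1 x.2).2).2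
    · rintro ⟨c, τ⟩ ⟨c', τ'⟩ heq
      have h1 : r c * ((e c τ : (N ⊓ (S c : Subgroup G) : Subgroup G)) : G) =
          r c' * ((e c' τ' : (N ⊓ (S c' : Subgroup G) : Subgroup G)) : G) :=
        congrArg Subtype.val heq
      have hc : c = c' := by
        apply Subtype.ext
        rw [← hr c, ← hr c']
        have h2 := congrArg (fun z : G => (z : G ⧸ N)) h1
        simp only [QuotientGroup.mk_mul] at h2
        rw [(QuotientGroup.eq_one_iff _).mpr (Subgroup.mem_inf.mp (e c τ).2).1,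
          (QuotientGroup.eq_one_iff _).mpr (Subgroup.mem_inf.mp (e c' τ').2).1, mul_one,
          mul_one] at h2
        exact h2
      subst hc
      have h3 := mul_left_cancel h1
      have h4 : e c τ = e c τ' := Subtype.ext h3
      rw [(e c).injective h4]
  have hB : N ≤ Subgroup.center G → Nat.card {g : G // ∃ k : ℕ, orderOf g = p ^ k} ≤
      Nat.card {g : G ⧸ N // ∃ k : ℕ, orderOf g = p ^ k} * Nat.card (T₀ : Subgroup N) := by
    intro hcen
    rw [← hcardT P, ← Nat.card_prod]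
    have hq : ∀ g : {g : G // ∃ k : ℕ, orderOf g = p ^ k},
        ∃ k : ℕ, orderOf ((g : G) : G ⧸ N) = p ^ k := by
      rintro ⟨g, k, hk⟩
      have hd : orderOf ((g : G) : G ⧸ N) ∣ p ^ k := by
        rw [← hk]; exact orderOf_map_dvd (QuotientGroup.mk' N) g
      obtain ⟨j, -, hj⟩ := (Nat.dvd_prime_pow hp).mp hd
      exact ⟨j, hj⟩
    have hmem : ∀ g : {g : G // ∃ k : ℕ, orderOf g = p ^ k},
        (r ⟨((g : G) : G ⧸ N), hq g⟩)⁻¹ * (g : G) ∈ N ⊓ (P : Subgroup G) := by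
      intro g
      have hn : (r ⟨((g : G) : G ⧸ N), hq g⟩)⁻¹ * (g : G) ∈ N :=
        QuotientGroup.eq.mp (hr ⟨((g : G) : G ⧸ N), hq g⟩)
      obtain ⟨k1, hk1⟩ := hpel (S ⟨((g : G) : G ⧸ N), hq g⟩) _ (hS ⟨((g : G) : G ⧸ N), hq g⟩)
      obtain ⟨k2, hk2⟩ := g.2
      exact Subgroup.mem_inf.mpr ⟨hn, central_pel p P N hcen _ _ k1 k2 hk1 hk2 hn⟩
    refine Nat.card_le_card_of_injective (fun g => (⟨((g : G) : G ⧸ N), hq g⟩,
      ⟨(r ⟨((g : G) : G ⧸ N), hq g⟩)⁻¹ * (g : G), hmem g⟩)) ?_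
    intro g g' heq
    have h1 : (⟨((g : G) : G ⧸ N), hq g⟩ : {g : G ⧸ N // ∃ k : ℕ, orderOf g = p ^ k}) =
        ⟨((g' : G) : G ⧸ N), hq g'⟩ := congrArg Prod.fst heq
    have h2 : (r ⟨((g : G) : G ⧸ N), hq g⟩)⁻¹ * (g : G) =
        (r ⟨((g' : G) : G ⧸ N), hq g'⟩)⁻¹ * (g' : G) :=
      congrArg (fun z => ((z.2 : (N ⊓ (P : Subgroup G) : Subgroup G)) : G)) heq
    rw [h1] at h2
    exact Subtype.ext (mul_left_cancel h2)
  have hcards : Nat.card (P : Subgroup G) =
      Nat.card (Pbar : Subgroup (G ⧸ N)) * Nat.card (T₀ : Subgroup N) := by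
    have e1 := P.card_eq_multiplicity
    have e2 := Pbar.card_eq_multiplicity
    have e3 := T₀.card_eq_multiplicity
    have h := Subgroup.card_eq_card_quotient_mul_card_subgroup N
    have e4 : (Nat.card G).factorization p =
        (Nat.card (G ⧸ N)).factorization p + (Nat.card N).factorization p := by
      rw [h, Nat.factorization_mul Nat.card_pos.ne' Nat.card_pos.ne']
      rfl
    calc Nat.card (P : Subgroup G) = p ^ (Nat.card G).factorization p := e1
      _ = p ^ (Nat.card (G ⧸ N)).factorization p * p ^ (Nat.card N).factorization p := by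
          rw [e4, pow_add]
      _ = Nat.card (Pbar : Subgroup (G ⧸ N)) * Nat.card (T₀ : Subgroup N) := by
          rw [← e2, ← e3]
  constructor
  · calc Nat.card {g : (G ⧸ N) // ∃ k : ℕ, orderOf g = p ^ k} * Nat.card (P : Subgroup G)
        = (Nat.card {g : G ⧸ N // ∃ k : ℕ, orderOf g = p ^ k} * Nat.card (T₀ : Subgroup N)) *
          Nat.card (Pbar : Subgroup (G ⧸ N)) := by rw [hcards]; ring
      _ ≤ _ := Nat.mul_le_mul_right _ hA
  · intro hcen
    have := le_antisymm hA (hB hcen)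
    rw [hcards, ← this]; ring

end Cfsg.Agent.S4153
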