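import Cfsg.Statements.S4154
import Mathlib

set_option autoImplicit false
open Cfsg

namespace Cfsg.Agent.S4154

section aux

variable {K : Type*} [Group K] (β : K →* K)

/-- fixed points of an endomorphism -/
def fixSub : Subgroup K := MonoidHom.eqLocus β (MonoidHom.id K)

lemma mem_fixSub {k : K} : k ∈ fixSub β ↔ β k = k := Iff.rfl

def psi (k : K) : K := k * (β k)⁻¹

lemma psi_eq_iff (k k' : K) : psi β k = psi β k' ↔ k⁻¹ * k' ∈ fixSub β := by
  rw [mem_fixSub]
  simp only [psi, map_mul, map_inv]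
  constructor
  · intro h
    have h2 : (β k)⁻¹ * β k' = k⁻¹ * k' := by
      have : k' = k * (β k)⁻¹ * β k' := by rw [h]; group
      calc (β k)⁻¹ * β k' = k⁻¹ * (k * (β k)⁻¹ * β k') := by group
        _ = k⁻¹ * k' := by rw [← this]
    exact h2
  · intro h
    have : β k' = β k * (k⁻¹ * k') := by rw [← h]; group
    rw [this]; group

def psiBar : K ⧸ fixSub β → K :=
  Quotient.lift (psi β) (fun a b hab => by
    have : a⁻¹ * b ∈ fixSub β := QuotientGroup.leftRel_apply.mp hab
    exact (psi_eq_iff β a b).mpr this)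

lemma psiBar_mk (k : K) : psiBar β (k : K ⧸ fixSub β) = psi β k := rfl

lemma psiBar_injective : Function.Injective (psiBar β) := by
  intro q q'
  induction q using QuotientGroup.induction_on with
  | H a =>
    induction q' using QuotientGroup.induction_on with
    | H b =>
      intro h
      rw [psiBar_mk, psiBar_mk, psi_eq_iff] at h
      exact QuotientGroup.eq.mpr h

def Psi (p : fixSub β × K ⧸ fixSub β) : K := (p.1 : K) * psiBar β p.2

lemma card_dom : Nat.card (fixSub β × K ⧸ fixSub β) = Nat.card K := by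
  rw [Nat.card_prod, mul_comm]
  exact (Subgroup.card_eq_card_quotient_mul_card_subgroup (fixSub β)).symm

lemma Psi_inj_iff_surj [Finite K] : Function.Injective (Psi β) ↔ Function.Surjective (Psi β) := by
  constructor
  · intro h
    exact (h.bijective_of_nat_card_le (card_dom β).ge).2
  · intro h
    exact (h.bijective_of_nat_card_le (card_dom β).le).1

lemma surj_of (h : ∀ x : K, ∃ c g : K, β c = c ∧ x = c * (g⁻¹ * β g)) :
    Function.Surjective (Psi β) := by
  intro x
  obtain ⟨c, g, hc, hx⟩ := h x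
  refine ⟨(⟨c, (mem_fixSub β).mpr hc⟩, ((g⁻¹ : K) : K ⧸ fixSub β)), ?_⟩
  simp [Psi, psiBar_mk, psi, hx]

lemma of_surj (h : Function.Surjective (Psi β)) (x : K) :
    ∃ c g : K, β c = c ∧ x = c * (g⁻¹ * β g) := by
  obtain ⟨⟨c, q⟩, hx⟩ := h x
  induction q using QuotientGroup.induction_on with
  | H k =>
    refine ⟨c, k⁻¹, (mem_fixSub β).mp c.2, ?_⟩
    simp [Psi, psiBar_mk, psi] at hx
    simp [hx]

lemma uniq_of_inj (h : Function.Injective (Psi β)) (c₁ c₂ g₁ g₂ : K) (h1 : β c₁ = c₁) (h2 : β c₂ = c₂)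
    (he : c₁ * (g₁⁻¹ * β g₁) = c₂ * (g₂⁻¹ * β g₂)) : c₁ = c₂ := by
  have : Psi β (⟨c₁, (mem_fixSub β).mpr h1⟩, ((g₁⁻¹ : K) : K ⧸ fixSub β)) =
      Psi β (⟨c₂, (mem_fixSub β).mpr h2⟩, ((g₂⁻¹ : K) : K ⧸ fixSub β)) := by
    simp [Psi, psiBar_mk, psi, he]
  have := h this
  simpa using congrArg (fun p => (p.1 : K)) this

lemma inj_of_uniq (h : ∀ c₁ c₂ g₁ g₂ : K, β c₁ = c₁ → β c₂ = c₂ →
    c₁ * (g₁⁻¹ * β g₁) = c₂ * (g₂⁻¹ * β g₂) → c₁ = c₂) : Function.Injective (Psi β) := by
  rintro ⟨c₁, q₁⟩ ⟨c₂, q₂⟩ he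
  induction q₁ using QuotientGroup.induction_on with
  | H k₁ =>
    induction q₂ using QuotientGroup.induction_on with
    | H k₂ =>
      have he' : (c₁ : K) * psi β k₁ = (c₂ : K) * psi β k₂ := he
      have hc : (c₁ : K) = c₂ := by
        apply h c₁ c₂ k₁⁻¹ k₂⁻¹ ((mem_fixSub β).mp c₁.2) ((mem_fixSub β).mp c₂.2)
        simpa [psi] using he'
      have hc' : c₁ = c₂ := Subtype.ext hc
      subst hc'
      have hp : psi β k₁ = psi β k₂ := mul_left_cancel he'
      have : (k₁ : K ⧸ fixSub β) = k₂ := QuotientGroup.eq.mpr ((psi_eq_iff β k₁ k₂).mp hp)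
      rw [this]

end aux

/-- Let G be a finite group and α an automorphism of G such that every element of G is the product of an element fixed by α and an element of the form g⁻¹α(g). If N is a normal α-invariant subgroup, then the automorphism ᾱ induced on G/N has the same property, and every coset fixed by ᾱ contains an element fixed by α (so the fixed points of ᾱ are the images of the fixed points of α). -/
theorem result {G : Type*} [Group G] [Finite G] (α : MulAut G)
    (hccp : ∀ x : G, ∃ c g : G, α c = c ∧ x = c * (g⁻¹ * α g))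
    (N : Subgroup G) [N.Normal] (hN : ∀ n ∈ N, α n ∈ N) :
    (∀ x : G, ∃ c g : G, c⁻¹ * α c ∈ N ∧ x⁻¹ * (c * (g⁻¹ * α g)) ∈ N) ∧
    (∀ x : G, x⁻¹ * α x ∈ N → ∃ c : G, α c = c ∧ c⁻¹ * x ∈ N) := by
  constructor
  · intro x
    obtain ⟨c, g, hc, hx⟩ := hccp x
    refine ⟨c, g, ?_, ?_⟩
    · rw [hc]; simp
    · rw [← hx]; simp
  · -- uniqueness in G
    have hU : ∀ c₁ c₂ g₁ g₂ : G, α c₁ = c₁ → α c₂ = c₂ →
        c₁ * (g₁⁻¹ * α g₁) = c₂ * (g₂⁻¹ * α g₂) → c₁ = c₂ := by
      have hs : Function.Surjective (Psi α.toMonoidHom) := surj_of α.toMonoidHom hccp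
      have hi := (Psi_inj_iff_surj α.toMonoidHom).mpr hs
      exact fun c₁ c₂ g₁ g₂ h1 h2 he => uniq_of_inj α.toMonoidHom hi c₁ c₂ g₁ g₂ h1 h2 he
    -- restriction to N
    let β : N →* N := (α.toMonoidHom.comp N.subtype).codRestrict N (fun n => hN n n.2)
    have hβ : ∀ n : N, ((β n : N) : G) = α n := fun n => rfl
    have hiN : Function.Injective (Psi β) := by
      apply inj_of_uniq
      intro c₁ c₂ g₁ g₂ h1 h2 he
      apply Subtype.ext
      apply hU c₁ c₂ g₁ g₂
      · have := congrArg Subtype.val h1; simpa [hβ] using this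
      · have := congrArg Subtype.val h2; simpa [hβ] using this
      · have := congrArg Subtype.val he; simpa [hβ] using this
    have hsN := (Psi_inj_iff_surj β).mp hiN
    intro x hx
    obtain ⟨c', m, hc', hm⟩ := of_surj β hsN ⟨x⁻¹ * α x, hx⟩
    have hc'G : α (c' : G) = c' := by
      have := congrArg Subtype.val hc'; simpa [hβ] using this
    have hmG : x⁻¹ * α x = (c' : G) * ((m : G)⁻¹ * α m) := by
      have := congrArg Subtype.val hm; simpa [hβ] using this
    have h1 : (1 : G) = c' := by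
      apply hU 1 c' x m (by simp) hc'G
      simpa using hmG
    rw [← h1, one_mul] at hmG
    refine ⟨x * (m : G)⁻¹, ?_, ?_⟩
    · have : α x = x * ((m : G)⁻¹ * α m) := by rw [← hmG]; group
      rw [map_mul, map_inv, this]; group
    · have : (x * (m : G)⁻¹)⁻¹ * x = m := by group
      rw [this]; exact m.2

end Cfsg.Agent.S4154
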