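import Cfsg.Statements.S4155
import Mathlib
import Cfsg.Agent.S4107
import Cfsg.Agent.S0016

set_option autoImplicit false
open Cfsg

namespace Cfsg.Agent.S4155

open scoped Pointwise
open scoped IsMulCommutative

/-- p-part / p'-part decomposition -/
theorem exists_decomp {G : Type*} [Group G] [Finite G] (p : ℕ) (hp : p.Prime) (x : G) :
    ∃ (i j : ℤ) (a : ℕ), x = x ^ i * x ^ j ∧ (x ^ i) ^ (p ^ a) = 1 ∧ ¬ p ∣ orderOf (x ^ j) := by
  have hn : orderOf x ≠ 0 := (orderOf_pos x).ne'
  obtain ⟨a, n', hpn', hn'⟩ := Nat.exists_eq_pow_mul_and_not_dvd hn p hp.ne_one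
  have hcop : Nat.Coprime (p ^ a) n' :=
    Nat.Coprime.pow_left _ ((Nat.Prime.coprime_iff_not_dvd hp).mpr hpn')
  have hb := Nat.gcd_eq_gcd_ab (p ^ a) n'
  rw [hcop.gcd_eq_one] at hb
  refine ⟨(n' : ℤ) * Nat.gcdB (p ^ a) n', ((p ^ a : ℕ) : ℤ) * Nat.gcdA (p ^ a) n', a, ?_, ?_, ?_⟩
  · rw [← zpow_add]
    have : (n' : ℤ) * Nat.gcdB (p ^ a) n' + ((p ^ a : ℕ) : ℤ) * Nat.gcdA (p ^ a) n' = 1 := by
      rw [add_comm]; exact_mod_cast hb.symm
    rw [this, zpow_one]
  · rw [← zpow_natCast, ← zpow_mul]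
    have : (n' : ℤ) * Nat.gcdB (p ^ a) n' * ((p ^ a : ℕ) : ℤ) =
        ((orderOf x : ℕ) : ℤ) * Nat.gcdB (p ^ a) n' := by
      rw [hn']; push_cast; ring
    rw [this, zpow_mul, zpow_natCast, pow_orderOf_eq_one, one_zpow]
  · intro hpd
    have h1 : (x ^ (((p ^ a : ℕ) : ℤ) * Nat.gcdA (p ^ a) n')) ^ n' = 1 := by
      rw [← zpow_natCast, ← zpow_mul]
      have : ((p ^ a : ℕ) : ℤ) * Nat.gcdA (p ^ a) n' * (n' : ℤ) =
          ((orderOf x : ℕ) : ℤ) * Nat.gcdA (p ^ a) n' := by
        rw [hn']; push_cast; ring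
      rw [this, zpow_mul, zpow_natCast, pow_orderOf_eq_one, one_zpow]
    exact hpn' (hpd.trans (orderOf_dvd_of_pow_eq_one h1))

theorem isPGroup_zpowers {G : Type*} [Group G] (p : ℕ) (u : G) (a : ℕ) (hu : u ^ (p ^ a) = 1) :
    IsPGroup p (Subgroup.zpowers u) := by
  rintro ⟨y, hy⟩
  obtain ⟨k, rfl⟩ := Subgroup.mem_zpowers_iff.mp hy
  refine ⟨a, ?_⟩
  apply Subtype.ext
  show (u ^ k) ^ (p ^ a) = 1
  rw [← zpow_natCast, ← zpow_mul, mul_comm, zpow_mul, zpow_natCast, hu, one_zpow]

theorem exists_conj_mem_sylow {G : Type*} [Group G] [Finite G] (p : ℕ) [Fact p.Prime]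
    (P : Sylow p G) (u : G) (a : ℕ) (hu : u ^ (p ^ a) = 1) : ∃ g : G, g * u * g⁻¹ ∈ P := by
  have hQ : IsPGroup p (Subgroup.zpowers u) := isPGroup_zpowers p u a hu
  obtain ⟨Q, hQ'⟩ := hQ.exists_le_sylow
  obtain ⟨g, hg⟩ := MulAction.exists_smul_eq G Q P
  refine ⟨g, ?_⟩
  rw [← hg]
  have hu' : u ∈ (Q : Subgroup G) := hQ' (Subgroup.mem_zpowers u)
  have := Subgroup.smul_mem_pointwise_smul u (MulAut.conj g) (Q : Subgroup G) hu'
  exact this

theorem trace_eq_one {W : Type*} [Group W] [IsMulCommutative W] (g : MulAut W) (n : ℕ)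
    (hg : g ^ n = 1) (hfix : ∀ w : W, g w = w → w = 1) (v : W) :
    ∏ i ∈ Finset.range n, (g ^ i) v = 1 := by
  apply hfix
  rw [map_prod]
  have h1 : ∀ i, g ((g ^ i) v) = (g ^ (i + 1)) v := by
    intro i
    rw [pow_succ']
    rfl
  simp_rw [h1]
  have h2 := Finset.prod_range_succ' (fun i => (g ^ i) v) n
  have h3 := Finset.prod_range_succ (fun i => (g ^ i) v) n
  rw [h3] at h2
  simp only [hg, pow_zero] at h2
  exact (mul_right_cancel h2).symm

theorem prod_range_mul_perm {M : Type*} [CommMonoid M] (F : ℕ → M) (p k : ℕ) (hp : 0 < p)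
    (hper : ∀ i, F (i % p) = F i) (hk : Nat.Coprime k p) :
    ∏ c ∈ Finset.range p, F (c * k) = ∏ i ∈ Finset.range p, F i := by
  have hinj : Set.InjOn (fun c => (c * k) % p) (Finset.range p : Set ℕ) := by
    intro c hc c' hc' h
    have h1 : c * k ≡ c' * k [MOD p] := h
    have h2 : c ≡ c' [MOD p] :=
      Nat.ModEq.cancel_right_of_coprime (by rwa [Nat.coprime_comm] at hk) h1
    exact Nat.ModEq.eq_of_lt_of_lt h2 (Finset.mem_range.1 hc) (Finset.mem_range.1 hc')
  have himg : (Finset.range p).image (fun c => (c * k) % p) = Finset.range p := by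
    apply Finset.eq_of_subset_of_card_le
    · intro x hx
      obtain ⟨c, _, rfl⟩ := Finset.mem_image.1 hx
      exact Finset.mem_range.2 (Nat.mod_lt _ hp)
    · rw [Finset.card_image_of_injOn hinj]
  calc ∏ c ∈ Finset.range p, F (c * k) = ∏ c ∈ Finset.range p, F ((c * k) % p) := by
        simp_rw [hper]
    _ = ∏ i ∈ (Finset.range p).image (fun c => (c * k) % p), F i := by
        rw [Finset.prod_image hinj]
    _ = ∏ i ∈ Finset.range p, F i := by rw [himg]

/-- two commuting automorphisms of order dividing `p` of a commutative group such that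
`a` and all `a ^ c * b` are fixed-point-free force exponent `p` -/
theorem exp_of_rank_two {W : Type*} [Group W] [IsMulCommutative W]
    (a b : MulAut W) (p : ℕ) (hp : p.Prime) (hab : Commute a b) (ha : a ^ p = 1) (hb : b ^ p = 1)
    (hfa : ∀ w : W, a w = w → w = 1)
    (hfab : ∀ c : ℕ, ∀ w : W, (a ^ c * b) w = w → w = 1) (v : W) :
    v ^ p = 1 := by
  have h1 : ∏ c ∈ Finset.range p, ∏ k ∈ Finset.range p, ((a ^ c * b) ^ k) v = 1 := by
    apply Finset.prod_eq_one
    intro c _
    apply trace_eq_one (a ^ c * b) p _ (hfab c) v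
    rw [(hab.pow_left c).mul_pow, ← pow_mul, mul_comm c p, pow_mul, ha, one_pow, hb, one_mul]
  rw [Finset.prod_comm] at h1
  have h2 : ∀ k ∈ Finset.range p, k ≠ 0 →
      ∏ c ∈ Finset.range p, ((a ^ c * b) ^ k) v = 1 := by
    intro k hk hk0
    rw [Finset.mem_range] at hk
    have h3 : ∀ c, ((a ^ c * b) ^ k) v = (a ^ (c * k)) ((b ^ k) v) := by
      intro c
      rw [(hab.pow_left c).mul_pow, ← pow_mul]
      rfl
    simp_rw [h3]
    rw [prod_range_mul_perm (fun i => (a ^ i) ((b ^ k) v)) p k hp.pos _ _]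
    · exact trace_eq_one a p ha hfa _
    · intro i
      show (a ^ (i % p)) _ = (a ^ i) _
      rw [← pow_eq_pow_mod i ha]
    · exact Nat.Coprime.symm ((Nat.Prime.coprime_iff_not_dvd hp).2
        (Nat.not_dvd_of_pos_of_lt (Nat.pos_of_ne_zero hk0) hk))
  rw [Finset.prod_eq_single 0 h2
    (by intro h0; exact absurd (Finset.mem_range.2 hp.pos) h0)] at h1
  simpa using h1

/-- an element all of whose powers of prime-power order lie in `H` lies in `H` -/
theorem mem_of_prime_pow_parts {G : Type*} [Group G] [Finite G] (H : Subgroup G) :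
    ∀ (m : ℕ) (g : G), orderOf g = m →
      (∀ i : ℤ, (∃ r k : ℕ, r.Prime ∧ (g ^ i) ^ (r ^ k) = 1) → g ^ i ∈ H) → g ∈ H := by
  intro m
  induction m using Nat.strong_induction_on with
  | _ m ih =>
    intro g hgm hg
    by_cases hm1 : m = 1
    · rw [hm1, orderOf_eq_one_iff] at hgm
      rw [hgm]; exact H.one_mem
    obtain ⟨r, hr, hrm⟩ := Nat.exists_prime_and_dvd hm1
    obtain ⟨i, j, a, hdec, hu, hy⟩ := exists_decomp r hr g
    have h1 : g ^ i ∈ H := hg i ⟨r, a, hr, hu⟩
    have h2 : g ^ j ∈ H := by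
      apply ih (orderOf (g ^ j)) _ (g ^ j) rfl
      · intro i' hi'
        rw [← zpow_mul] at hi' ⊢
        exact hg _ hi'
      · have hd : orderOf (g ^ j) ∣ m :=
          hgm ▸ orderOf_dvd_of_mem_zpowers (Subgroup.zpow_mem_zpowers g j)
        have hne : orderOf (g ^ j) ≠ m := by
          intro h; rw [h] at hy; exact hy hrm
        exact lt_of_le_of_ne (Nat.le_of_dvd (by rw [← hgm]; exact orderOf_pos g) hd) hne
    rw [hdec]; exact H.mul_mem h1 h2

theorem mem_normal_sylow {M : Type*} [Group M] [Finite M] (p : ℕ) [Fact p.Prime] (P : Sylow p M)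
    (hn : (P : Subgroup M).Normal) (u : M) (k : ℕ) (hu : u ^ (p ^ k) = 1) :
    u ∈ (P : Subgroup M) := by
  obtain ⟨g, hg⟩ := exists_conj_mem_sylow p P u k hu
  have := hn.conj_mem _ hg g⁻¹
  have e : g⁻¹ * (g * u * g⁻¹) * g⁻¹⁻¹ = u := by group
  rwa [e] at this

/-- in a finite nilpotent group elements of coprime prime-power orders commute -/
theorem commute_of_nilpotent {M : Type*} [Group M] [Finite M] [hM : Group.IsNilpotent M]
    (p r : ℕ) [Fact p.Prime] [Fact r.Prime] (hne : p ≠ r) (u y : M) (k l : ℕ)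
    (hu : u ^ (p ^ k) = 1) (hy : y ^ (r ^ l) = 1) : u * y = y * u := by
  obtain ⟨P⟩ : Nonempty (Sylow p M) := inferInstance
  obtain ⟨R⟩ : Nonempty (Sylow r M) := inferInstance
  have hPn : (P : Subgroup M).Normal := inferInstance
  have hRn : (R : Subgroup M).Normal := inferInstance
  have huP : u ∈ (P : Subgroup M) := mem_normal_sylow p P hPn u k hu
  have hyR : y ∈ (R : Subgroup M) := mem_normal_sylow r R hRn y l hy
  have hdis : Disjoint (P : Subgroup M) (R : Subgroup M) :=
    IsPGroup.disjoint_of_ne p r hne _ _ P.isPGroup' R.isPGroup'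
  exact (Subgroup.commute_of_normal_of_disjoint _ _ hPn hRn hdis u y huP hyR).eq

theorem unique_of_no_rank_two {Γ : Type*} [Group Γ] [Finite Γ] (q : ℕ) [hq : Fact q.Prime]
    (hΓ : IsPGroup q Γ)
    (hno : ∀ x y : Γ, x * y = y * x → orderOf x = q → orderOf y = q →
      ¬ (∀ i j : ℕ, x ^ i * y ^ j = 1 → q ∣ i ∧ q ∣ j)) :
    ∀ H K : Subgroup Γ, Nat.card H = q → Nat.card K = q → H = K := by
  intro H K hH hK
  have hΓ1 : Nontrivial Γ := by
    rw [← Finite.one_lt_card_iff_nontrivial]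
    calc 1 < q := hq.1.one_lt
      _ = Nat.card H := hH.symm
      _ ≤ Nat.card Γ := Subgroup.card_le_card_group H
  have hZ : Nontrivial (Subgroup.center Γ) := hΓ.center_nontrivial
  have hZp : IsPGroup q (Subgroup.center Γ) := hΓ.to_subgroup _
  have hdvd : q ∣ Nat.card (Subgroup.center Γ) := by
    rcases hZp.card_eq_or_dvd with h | h
    · exfalso
      have := Finite.one_lt_card_iff_nontrivial.mpr hZ
      omega
    · exact h
  obtain ⟨z, hz⟩ := exists_prime_orderOf_dvd_card' q hdvd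
  have hzo : orderOf (z : Γ) = q := by rw [Subgroup.orderOf_coe]; exact hz
  have hzc : ∀ g : Γ, g * (z : Γ) = (z : Γ) * g := fun g => Subgroup.mem_center_iff.mp z.2 g
  have hZcard : Nat.card (Subgroup.zpowers (z : Γ)) = q := by rw [Nat.card_zpowers, hzo]
  have key : ∀ X : Subgroup Γ, Nat.card X = q → X = Subgroup.zpowers (z : Γ) := by
    intro X hX
    have hXne : X ≠ ⊥ := by
      intro h; rw [h, Subgroup.card_bot] at hX; exact hq.1.one_lt.ne hX
    obtain ⟨⟨x, hxX⟩, hx1'⟩ := (Subgroup.ne_bot_iff_exists_ne_one.mp hXne)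
    have hx1 : x ≠ 1 := fun h => hx1' (Subtype.ext h)
    have hxo : orderOf x = q := by
      have hd : orderOf x ∣ q := by
        rw [← hX]
        have := orderOf_dvd_natCard (⟨x, hxX⟩ : X)
        rwa [Subgroup.orderOf_mk] at this
      rcases (Nat.dvd_prime hq.1).mp hd with h | h
      · exact absurd (orderOf_eq_one_iff.mp h) hx1
      · exact h
    have hXx : Subgroup.zpowers x = X := by
      apply Subgroup.eq_of_le_of_card_ge
      · rw [Subgroup.zpowers_le]; exact hxX
      · rw [Nat.card_zpowers, hxo, hX]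
    by_contra hne
    apply hno x (z : Γ) (hzc x) hxo hzo
    intro i j hij
    have hxi : x ^ i ∈ Subgroup.zpowers (z : Γ) := by
      have : x ^ i = ((z : Γ) ^ j)⁻¹ := eq_inv_of_mul_eq_one_left hij
      rw [this]
      exact Subgroup.inv_mem _ (Subgroup.pow_mem _ (Subgroup.mem_zpowers _) _)
    have hqi : q ∣ i := by
      by_contra hqi
      have hcop : i.Coprime (orderOf x) := by
        rw [hxo]; exact ((Nat.Prime.coprime_iff_not_dvd hq.1).mpr hqi).symm
      obtain ⟨m, hm⟩ := exists_pow_eq_self_of_coprime hcop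
      have hxz : x ∈ Subgroup.zpowers (z : Γ) := by
        rw [← hm]; exact Subgroup.pow_mem _ hxi _
      apply hne
      rw [← hXx]
      apply Subgroup.eq_of_le_of_card_ge
      · rw [Subgroup.zpowers_le]; exact hxz
      · rw [hZcard, Nat.card_zpowers, hxo]
    refine ⟨hqi, ?_⟩
    have hxi1 : x ^ i = 1 := by
      obtain ⟨c, rfl⟩ := hqi
      rw [pow_mul, ← hxo, pow_orderOf_eq_one, one_pow]
    rw [hxi1, one_mul] at hij
    rw [← hzo]; exact orderOf_dvd_of_pow_eq_one hij
  rw [key H hH, key K hK]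

theorem no_rank_two {G : Type*} [Group G] [Finite G] (N : Subgroup G) [hNn : N.Normal]
    (heq : ∀ x : G, x ∉ N → ∀ n ∈ N, orderOf (x * n) = orderOf x)
    (hnil : Group.IsNilpotent N) (p q : ℕ) [hp : Fact p.Prime] [hq : Fact q.Prime] (hpq : p ≠ q)
    (hpN : p ∣ Nat.card N) (a b : G)
    (haq : a ^ q ∈ N) (hbq : b ^ q ∈ N) (hab : a * b * a⁻¹ * b⁻¹ ∈ N)
    (hind : ∀ i j : ℕ, a ^ i * b ^ j ∈ N → q ∣ i ∧ q ∣ j) : False := by
  obtain ⟨V, hVmem⟩ : ∃ V : Subgroup G, ∀ v : G, v ∈ V ↔ (v ∈ N ∧ (∃ k : ℕ, v ^ (p ^ k) = 1) ∧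
      ∀ u ∈ N, (∃ k : ℕ, u ^ (p ^ k) = 1) → v * u = u * v) := by
    refine ⟨{ carrier := {v | v ∈ N ∧ (∃ k : ℕ, v ^ (p ^ k) = 1) ∧
                ∀ u ∈ N, (∃ k : ℕ, u ^ (p ^ k) = 1) → v * u = u * v}
              mul_mem' := ?_
              one_mem' := ?_
              inv_mem' := ?_ }, fun v => Iff.rfl⟩
    · rintro v₁ v₂ ⟨h1N, ⟨k1, h1⟩, h1c⟩ ⟨h2N, ⟨k2, h2⟩, h2c⟩
      refine ⟨N.mul_mem h1N h2N, ⟨k1 + k2, ?_⟩, ?_⟩
      · have hc : Commute v₁ v₂ := h1c v₂ h2N ⟨k2, h2⟩
        rw [hc.mul_pow, pow_add, pow_mul, h1, one_pow, mul_comm (p ^ k1), pow_mul, h2, one_pow,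
          one_mul]
      · intro u hu hup
        rw [mul_assoc, h2c u hu hup, ← mul_assoc, h1c u hu hup, mul_assoc]
    · exact ⟨N.one_mem, ⟨0, one_pow _⟩, fun u _ _ => by rw [one_mul, mul_one]⟩
    · rintro v ⟨hN, ⟨k, hk⟩, hc⟩
      refine ⟨N.inv_mem hN, ⟨k, by rw [inv_pow, hk, inv_one]⟩, ?_⟩
      intro u hu hup
      exact ((show Commute v u from hc u hu hup).inv_left).eq
  have hVN : V ≤ N := fun v hv => ((hVmem v).mp hv).1
  have hVn : V.Normal := by
    constructor
    intro n hn g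
    rw [hVmem] at hn ⊢
    obtain ⟨hN, ⟨k, hk⟩, hc⟩ := hn
    refine ⟨hNn.conj_mem n hN g, ⟨k, by rw [conj_pow, hk]; group⟩, ?_⟩
    intro u hu ⟨l, hl⟩
    have h1 : g⁻¹ * u * g ∈ N := by
      have := hNn.conj_mem u hu g⁻¹
      rwa [inv_inv] at this
    have h2 : (g⁻¹ * u * g) ^ (p ^ l) = 1 := by
      have : g⁻¹ * u * g = g⁻¹ * u * g⁻¹⁻¹ := by rw [inv_inv]
      rw [this, conj_pow, hl]; group
    have h3 := hc _ h1 ⟨l, h2⟩
    calc g * n * g⁻¹ * u = g * (n * (g⁻¹ * u * g)) * g⁻¹ := by group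
      _ = g * ((g⁻¹ * u * g) * n) * g⁻¹ := by rw [h3]
      _ = u * (g * n * g⁻¹) := by group
  have hVc : IsMulCommutative V :=
    ⟨⟨fun x y => Subtype.ext (((hVmem x).mp x.2).2.2 y ((hVmem y).mp y.2).1
      ((hVmem y).mp y.2).2.1)⟩⟩
  -- `N` centralizes `V`
  have hNV : ∀ n ∈ N, ∀ v ∈ V, n * v = v * n := by
    intro n hn v hv
    have hmem : n ∈ Subgroup.centralizer (V : Set G) := by
      apply mem_of_prime_pow_parts _ (orderOf n) n rfl
      rintro i ⟨r, k, hr, hrk⟩
      rw [Subgroup.mem_centralizer_iff]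
      intro v' hv'
      obtain ⟨hv'N, ⟨k', hk'⟩, hv'c⟩ := (hVmem v').mp hv'
      by_cases hrp : r = p
      · subst hrp
        exact hv'c _ (N.zpow_mem hn i) ⟨k, hrk⟩
      · haveI := Fact.mk hr
        have := commute_of_nilpotent (M := N) p r (fun h => hrp h.symm) ⟨v', hv'N⟩
          ⟨n ^ i, N.zpow_mem hn i⟩ k' k (Subtype.ext (by simpa using hk'))
          (Subtype.ext (by simpa using hrk))
        exact congrArg Subtype.val this
    rw [Subgroup.mem_centralizer_iff] at hmem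
    exact (hmem v hv).symm
  -- `V` is non-trivial
  obtain ⟨v₀, hv₀V, hv₀1⟩ : ∃ v₀ ∈ V, v₀ ≠ 1 := by
    obtain ⟨P⟩ : Nonempty (Sylow p N) := inferInstance
    have hPn : (P : Subgroup N).Normal := inferInstance
    have hPne : (P : Subgroup N) ≠ ⊥ := P.ne_bot_of_dvd_card hpN
    haveI : Nontrivial (P : Subgroup N) := (Subgroup.nontrivial_iff_ne_bot _).mpr hPne
    haveI : Nontrivial (Subgroup.center (P : Subgroup N)) := P.isPGroup'.center_nontrivial
    obtain ⟨z, hz⟩ := exists_ne (1 : Subgroup.center (P : Subgroup N))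
    refine ⟨(((z : (P : Subgroup N)) : N) : G), ?_, ?_⟩
    · rw [hVmem]
      refine ⟨(z : (P : Subgroup N)).1.2, ?_, ?_⟩
      · obtain ⟨k, hk⟩ := P.isPGroup' (z : (P : Subgroup N))
        refine ⟨k, ?_⟩
        have := congrArg (fun t : (P : Subgroup N) => ((t : N) : G)) hk
        simpa using this
      · intro u hu ⟨k, hk⟩
        have huP : (⟨u, hu⟩ : N) ∈ (P : Subgroup N) :=
          mem_normal_sylow p P hPn ⟨u, hu⟩ k (Subtype.ext (by simpa using hk))
        have := Subgroup.mem_center_iff.mp z.2 ⟨⟨u, hu⟩, huP⟩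
        have := congrArg (fun t : (P : Subgroup N) => ((t : N) : G)) this
        simpa using this.symm
    · intro h
      apply hz
      apply Subtype.ext
      apply Subtype.ext
      apply Subtype.ext
      simpa using h
  haveI := hVn
  haveI := hVc
  have htriv : ∀ n ∈ N, (MulAut.conjNormal n : MulAut V) = 1 := by
    intro n hn
    apply MulEquiv.ext
    intro v
    apply Subtype.ext
    rw [MulAut.conjNormal_apply]
    show n * (v : G) * n⁻¹ = (v : G)
    rw [hNV n hn v v.2]; group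
  -- fixed-point-freeness
  have hfpf : ∀ g : G, g ∉ N → g ^ q ∈ N →
      ∀ w : V, (MulAut.conjNormal g : MulAut V) w = w → w = 1 := by
    intro g hgN hgq w hw
    by_contra hw1
    have hw1' : (w : G) ≠ 1 := fun h => hw1 (Subtype.ext h)
    have hgw : g * (w : G) * g⁻¹ = (w : G) := by
      rw [← MulAut.conjNormal_apply, hw]
    have hcomm : Commute g (w : G) := by
      show g * (w : G) = (w : G) * g
      calc g * (w : G) = g * (w : G) * g⁻¹ * g := by group
        _ = (w : G) * g := by rw [hgw]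
    obtain ⟨s, t, k, hdec, hu, hy⟩ := exists_decomp q hq.1 g
    have htN : g ^ t ∈ N := by
      rw [← QuotientGroup.eq_one_iff]
      have h1 : ((g ^ t : G) : G ⧸ N) ^ q = 1 := by
        rw [← QuotientGroup.mk_pow, (QuotientGroup.eq_one_iff _)]
        have : (g ^ t) ^ q = (g ^ q) ^ t := by
          rw [← zpow_natCast, ← zpow_mul, mul_comm, zpow_mul, zpow_natCast]
        rw [this]
        exact N.zpow_mem hgq t
      have hd1 : orderOf ((g ^ t : G) : G ⧸ N) ∣ q := orderOf_dvd_of_pow_eq_one h1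
      have hd2 : orderOf ((g ^ t : G) : G ⧸ N) ∣ orderOf (g ^ t) :=
        orderOf_map_dvd (QuotientGroup.mk' N) (g ^ t)
      rcases (Nat.dvd_prime hq.1).mp hd1 with h | h
      · exact orderOf_eq_one_iff.mp h
      · exact absurd (h ▸ hd2) hy
    have hsN : g ^ s ∉ N := by
      intro h
      apply hgN
      rw [hdec]; exact N.mul_mem h htN
    obtain ⟨hwN, ⟨kw, hkw⟩, -⟩ := (hVmem (w : G)).mp w.2
    have hpw : p ∣ orderOf (w : G) := by
      have hd : orderOf (w : G) ∣ p ^ kw := orderOf_dvd_of_pow_eq_one hkw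
      obtain ⟨j, hj, hjeq⟩ := (Nat.dvd_prime_pow hp.1).mp hd
      have hj0 : j ≠ 0 := by
        intro h0; subst h0; rw [pow_zero] at hjeq; exact hw1' (orderOf_eq_one_iff.mp hjeq)
      rw [hjeq]; exact dvd_pow_self p hj0
    have hw'o : orderOf ((w : G) ^ (orderOf (w : G) / p)) = p :=
      orderOf_pow_orderOf_div (orderOf_pos _).ne' hpw
    have hw'N : (w : G) ^ (orderOf (w : G) / p) ∈ N := N.pow_mem hwN _
    have hc' : Commute (g ^ s) ((w : G) ^ (orderOf (w : G) / p)) :=
      (hcomm.zpow_left s).pow_right _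
    have hso : (orderOf (g ^ s)).Coprime (orderOf ((w : G) ^ (orderOf (w : G) / p))) := by
      rw [hw'o]
      have hd : orderOf (g ^ s) ∣ q ^ k := orderOf_dvd_of_pow_eq_one hu
      exact Nat.Coprime.coprime_dvd_left hd
        (Nat.Coprime.pow_left _ ((Nat.coprime_primes hq.1 hp.1).mpr (fun h => hpq h.symm)))
    have h1 := hc'.orderOf_mul_eq_mul_orderOf_of_coprime hso
    rw [heq (g ^ s) hsN _ hw'N, hw'o] at h1
    have hpos := orderOf_pos (g ^ s)
    have : orderOf (g ^ s) * 1 = orderOf (g ^ s) * p := by rw [mul_one]; exact h1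
    exact hp.1.one_lt.ne (Nat.eq_of_mul_eq_mul_left hpos this)
  have haN : a ∉ N := by
    intro h
    have := (hind 1 0 (by simpa using h)).1
    exact hq.1.one_lt.ne' (Nat.dvd_one.mp this)
  have hcomm : Commute (MulAut.conjNormal a : MulAut V) (MulAut.conjNormal b) := by
    have h1 := htriv _ hab
    rw [map_mul, map_mul, map_mul, map_inv, map_inv] at h1
    show (MulAut.conjNormal a : MulAut V) * MulAut.conjNormal b =
      MulAut.conjNormal b * MulAut.conjNormal a
    have h2 := mul_inv_eq_one.mp h1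
    exact mul_inv_eq_iff_eq_mul.mp h2
  have hqV : ∀ v : V, v ^ q = 1 := by
    apply exp_of_rank_two (MulAut.conjNormal a : MulAut V) (MulAut.conjNormal b) q hq.1 hcomm
    · rw [← map_pow]; exact htriv _ haq
    · rw [← map_pow]; exact htriv _ hbq
    · exact hfpf a haN haq
    · intro c
      have e : (MulAut.conjNormal a : MulAut V) ^ c * MulAut.conjNormal b =
          MulAut.conjNormal (a ^ c * b) := by rw [map_mul, map_pow]
      rw [e]
      apply hfpf
      · intro h
        have := (hind c 1 (by simpa using h)).2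
        exact hq.1.one_lt.ne' (Nat.dvd_one.mp this)
      · rw [← QuotientGroup.eq_one_iff, QuotientGroup.mk_pow, QuotientGroup.mk_mul,
          QuotientGroup.mk_pow]
        have hc1 : Commute ((a : G ⧸ N)) ((b : G ⧸ N)) := by
          have h1 : ((a * b * a⁻¹ * b⁻¹ : G) : G ⧸ N) = 1 := (QuotientGroup.eq_one_iff _).mpr hab
          rw [QuotientGroup.mk_mul, QuotientGroup.mk_mul, QuotientGroup.mk_mul,
            QuotientGroup.mk_inv, QuotientGroup.mk_inv] at h1
          show (a : G ⧸ N) * (b : G ⧸ N) = (b : G ⧸ N) * (a : G ⧸ N)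
          exact mul_inv_eq_iff_eq_mul.mp (mul_inv_eq_one.mp h1)
        have ha1 : (a : G ⧸ N) ^ q = 1 := by
          rw [← QuotientGroup.mk_pow]; exact (QuotientGroup.eq_one_iff _).mpr haq
        have hb1 : (b : G ⧸ N) ^ q = 1 := by
          rw [← QuotientGroup.mk_pow]; exact (QuotientGroup.eq_one_iff _).mpr hbq
        rw [(hc1.pow_left c).mul_pow, ← pow_mul, mul_comm c q, pow_mul, ha1, one_pow, hb1,
          one_mul]
  obtain ⟨-, ⟨k₀, hk₀⟩, -⟩ := (hVmem v₀).mp hv₀V
  have h1 : v₀ ^ q = 1 := by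
    have := congrArg Subtype.val (hqV ⟨v₀, hv₀V⟩)
    simpa using this
  have hd1 : orderOf v₀ ∣ q := orderOf_dvd_of_pow_eq_one h1
  have hd2 : orderOf v₀ ∣ p ^ k₀ := orderOf_dvd_of_pow_eq_one hk₀
  have : orderOf v₀ ∣ Nat.gcd q (p ^ k₀) := Nat.dvd_gcd hd1 hd2
  rw [(Nat.Coprime.pow_right k₀ ((Nat.coprime_primes hq.1 hp.1).mpr (fun h => hpq h.symm))).gcd_eq_one,
    Nat.dvd_one] at this
  exact hv₀1 (orderOf_eq_one_iff.mp this)

/-- Let G be a finite group and N a proper non-trivial normal nilpotent subgroup whose order is not a prime power, such that for every x outside N all elements of the coset xN have the same order as x. Then N is the Fitting subgroup of G, and for every prime q every Sylow q-subgroup of G/N is cyclic or generalized quaternion. -/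
theorem result {G : Type*} [Group G] [Finite G] (N : Subgroup G) [N.Normal] (hN1 : N ≠ ⊥) (hN2 : N ≠ ⊤)
    (heq : ∀ x : G, x ∉ N → ∀ n ∈ N, orderOf (x * n) = orderOf x)
    (hnil : Group.IsNilpotent N) (hnpp : ¬ IsPrimePow (Nat.card N)) :
    N = Cfsg.fittingSubgroup G ∧
    ∀ (q : ℕ) [Fact q.Prime] (Q : Sylow q (G ⧸ N)), IsCyclic (Q : Subgroup (G ⧸ N)) ∨ ∃ n : ℕ, Nonempty ((Q : Subgroup (G ⧸ N)) ≃* QuaternionGroup (2 ^ n)) := by
  have hcard1 : Nat.card N ≠ 1 := fun h => hN1 (Subgroup.card_eq_one.mp h)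
  constructor
  · have hle : N ≤ Cfsg.fittingSubgroup G :=
      le_sSup (show N ∈ {M : Subgroup G | M.Normal ∧ Group.IsNilpotent M} from ⟨inferInstance, hnil⟩)
    obtain ⟨-, h2⟩ := Cfsg.Agent.S4107.result N hN1 hN2 heq
    by_contra hne
    have hlt : N < Cfsg.fittingSubgroup G := lt_of_le_of_ne hle hne
    obtain ⟨r, k, hr, hk, hrk⟩ := (isPrimePow_nat_iff _).mp (h2 hlt)
    have hd : Nat.card N ∣ r ^ k := by rw [hrk]; exact Subgroup.card_dvd_of_le hle
    obtain ⟨j, hj, hjeq⟩ := (Nat.dvd_prime_pow hr).mp hd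
    apply hnpp
    rw [isPrimePow_nat_iff]
    refine ⟨r, j, hr, ?_, hjeq.symm⟩
    by_contra hj0
    have : j = 0 := by omega
    rw [this, pow_zero] at hjeq
    exact hcard1 hjeq
  · intro q hq Q
    have huniq : ∀ H K : Subgroup (Q : Subgroup (G ⧸ N)),
        Nat.card H = q → Nat.card K = q → H = K := by
      apply unique_of_no_rank_two q Q.isPGroup'
      intro x y hxy hx hy hind
      obtain ⟨a, ha⟩ := QuotientGroup.mk_surjective (x : G ⧸ N)
      obtain ⟨b, hb⟩ := QuotientGroup.mk_surjective (y : G ⧸ N)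
      obtain ⟨p, hp, hpN, hpq⟩ : ∃ p : ℕ, p.Prime ∧ p ∣ Nat.card N ∧ p ≠ q := by
        by_contra hcon
        push Not at hcon
        have h1 := Nat.eq_prime_pow_of_unique_prime_dvd (n := Nat.card N) (p := q)
          Nat.card_pos.ne' (fun {d} hd hdn => hcon d hd hdn)
        apply hnpp
        rw [isPrimePow_nat_iff]
        refine ⟨q, _, hq.1, ?_, h1.symm⟩
        by_contra h0
        have h0' : (Nat.card N).primeFactorsList.length = 0 := by omega
        rw [h0', pow_zero] at h1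
        exact hcard1 h1
      haveI := Fact.mk hp
      have hxq : (x : G ⧸ N) ^ q = 1 := by
        have h1 : x ^ q = 1 := by
          have := pow_orderOf_eq_one x
          rwa [hx] at this
        have := congrArg Subtype.val h1
        simpa using this
      have hyq : (y : G ⧸ N) ^ q = 1 := by
        have h1 : y ^ q = 1 := by
          have := pow_orderOf_eq_one y
          rwa [hy] at this
        have := congrArg Subtype.val h1
        simpa using this
      have hxy' : (x : G ⧸ N) * (y : G ⧸ N) = (y : G ⧸ N) * (x : G ⧸ N) := by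
        have := congrArg Subtype.val hxy
        simpa using this
      apply no_rank_two N heq hnil p q hpq hpN a b
      · rw [← QuotientGroup.eq_one_iff, QuotientGroup.mk_pow, ha]; exact hxq
      · rw [← QuotientGroup.eq_one_iff, QuotientGroup.mk_pow, hb]; exact hyq
      · rw [← QuotientGroup.eq_one_iff, QuotientGroup.mk_mul, QuotientGroup.mk_mul,
          QuotientGroup.mk_mul, QuotientGroup.mk_inv, QuotientGroup.mk_inv, ha, hb, hxy']
        group
      · intro i j hij
        apply hind i j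
        apply Subtype.ext
        rw [← QuotientGroup.eq_one_iff, QuotientGroup.mk_mul, QuotientGroup.mk_pow,
          QuotientGroup.mk_pow, ha, hb] at hij
        simpa using hij
    rcases Cfsg.Agent.S0016.result q Q.isPGroup' huniq with h | ⟨-, h⟩
    · exact Or.inl h
    · exact Or.inr h

end Cfsg.Agent.S4155
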