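import Cfsg.Statements.S4156
import Mathlib

set_option autoImplicit false
open Cfsg

namespace Cfsg.Agent.S4156

section
variable {n : ℕ} {F : Type*} [Field F]

/-- extend a vector by minus the sum of its coordinates -/
def extA : (Fin n → F) →ₗ[F] (Fin (n + 1) → F) where
  toFun g := Fin.snoc g (- ∑ i, g i)
  map_add' := by
    intro g h
    ext x
    refine Fin.lastCases ?_ (fun i => ?_) x
    · simp [Finset.sum_add_distrib, add_comm]
    · simp
  map_smul' := by
    intro c g
    ext x
    refine Fin.lastCases ?_ (fun i => ?_) x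
    · simp [Finset.mul_sum]
    · simp

theorem extA_castSucc (g : Fin n → F) (i : Fin n) : extA g i.castSucc = g i := by
  simp [extA]

theorem extA_last (g : Fin n → F) : extA g (Fin.last n) = - ∑ i, g i := by
  simp [extA]

theorem sum_extA (g : Fin n → F) : ∑ x, extA g x = 0 := by
  rw [Fin.sum_univ_castSucc]
  simp [extA_castSucc, extA_last]

theorem extA_restrict (f : Fin (n + 1) → F) (hf : ∑ x, f x = 0) :
    extA (fun i : Fin n => f i.castSucc) = f := by
  ext x
  refine Fin.lastCases ?_ (fun i => ?_) x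
  · rw [extA_last]
    rw [Fin.sum_univ_castSucc] at hf
    exact (eq_neg_of_add_eq_zero_right hf).symm
  · rw [extA_castSucc]

/-- the action of a permutation on the deleted permutation module, in coordinates -/
def T (σ : Equiv.Perm (Fin (n + 1))) : (Fin n → F) →ₗ[F] (Fin n → F) :=
  (LinearMap.funLeft F F Fin.castSucc) ∘ₗ (LinearMap.funLeft F F σ.symm) ∘ₗ extA

theorem T_apply (σ : Equiv.Perm (Fin (n + 1))) (g : Fin n → F) (j : Fin n) :
    T σ g j = extA g (σ.symm j.castSucc) := rfl

theorem T_one : T (1 : Equiv.Perm (Fin (n + 1))) = (LinearMap.id : (Fin n → F) →ₗ[F] _) := by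
  refine LinearMap.ext fun g => funext fun j => ?_
  rw [T_apply]
  show extA g j.castSucc = g j
  exact extA_castSucc g j

theorem T_mul (σ τ : Equiv.Perm (Fin (n + 1))) :
    (T (σ * τ) : (Fin n → F) →ₗ[F] _) = T σ ∘ₗ T τ := by
  refine LinearMap.ext fun g => funext fun j => ?_
  rw [LinearMap.comp_apply, T_apply, T_apply]
  have h1 : (T τ g) = fun i : Fin n => (fun x => extA g (τ.symm x)) i.castSucc := rfl
  have h2 : ∑ x, (fun x => extA g (τ.symm x)) x = 0 := by
    rw [Equiv.sum_comp τ.symm (fun x => extA g x)]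
    exact sum_extA g
  rw [h1, extA_restrict _ h2]
  rfl

/-- the matrix representation -/
noncomputable def Mhom : Equiv.Perm (Fin (n + 1)) →* Matrix (Fin n) (Fin n) F where
  toFun σ := LinearMap.toMatrix' (T σ)
  map_one' := by rw [T_one]; exact LinearMap.toMatrix'_id
  map_mul' σ τ := by rw [T_mul, LinearMap.toMatrix'_comp]

theorem Mhom_apply (σ : Equiv.Perm (Fin (n + 1))) (j i : Fin n) :
    (Mhom σ : Matrix (Fin n) (Fin n) F) j i = extA (Pi.single i (1 : F)) (σ.symm j.castSucc) := by
  show LinearMap.toMatrix' (T σ) j i = _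
  rw [LinearMap.toMatrix'_apply, T_apply]

theorem det_Mhom (hn : 5 ≤ n) (σ : alternatingGroup (Fin (n + 1))) :
    (Mhom (σ : Equiv.Perm (Fin (n + 1))) : Matrix (Fin n) (Fin n) F).det = 1 := by
  let detH : alternatingGroup (Fin (n + 1)) →* F :=
    (Matrix.detMonoidHom).comp (Mhom.comp (Subgroup.subtype _))
  have h5 : 5 ≤ Nat.card (Fin (n + 1)) := by
    rw [Nat.card_eq_fintype_card, Fintype.card_fin]; omega
  have h1 := Abelianization.commutator_subset_ker (MonoidHom.toHomUnits detH)
  rw [commutator_alternatingGroup_eq_top h5] at h1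
  have h2 : MonoidHom.toHomUnits detH σ = 1 := MonoidHom.mem_ker.mp (h1 (Subgroup.mem_top σ))
  have h3 := congrArg Units.val h2
  rw [MonoidHom.coe_toHomUnits] at h3
  exact h3

/-- the homomorphism to `SL_n` -/
noncomputable def φ (hn : 5 ≤ n) :
    alternatingGroup (Fin (n + 1)) →* Matrix.SpecialLinearGroup (Fin n) F where
  toFun σ := ⟨Mhom (σ : Equiv.Perm (Fin (n + 1))), det_Mhom hn σ⟩
  map_one' := by
    apply Subtype.ext
    show Mhom ((1 : alternatingGroup (Fin (n + 1))) : Equiv.Perm (Fin (n + 1))) = 1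
    rw [OneMemClass.coe_one, map_one]
  map_mul' σ τ := by
    apply Subtype.ext
    show Mhom ((σ * τ : alternatingGroup (Fin (n + 1))) : Equiv.Perm (Fin (n + 1))) =
      Mhom (σ : Equiv.Perm (Fin (n + 1))) * Mhom (τ : Equiv.Perm (Fin (n + 1)))
    rw [Subgroup.coe_mul, map_mul]

end

/-- Let n ≥ 5 and F a finite field. Then the projective special linear group PSL_n(F) contains a subgroup isomorphic to the alternating group of degree n + 1. -/
theorem result (n : ℕ) (hn : 5 ≤ n) (F : Type*) [Field F] [Finite F] :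
    ∃ f : alternatingGroup (Fin (n + 1)) →* Matrix.ProjectiveSpecialLinearGroup (Fin n) F, Function.Injective f := by
  let ψ : alternatingGroup (Fin (n + 1)) →* Matrix.ProjectiveSpecialLinearGroup (Fin n) F :=
    (QuotientGroup.mk' _).comp (φ (F := F) hn)
  refine ⟨ψ, ?_⟩
  have h5 : 5 ≤ Nat.card (Fin (n + 1)) := by
    rw [Nat.card_eq_fintype_card, Fintype.card_fin]; omega
  haveI : IsSimpleGroup (alternatingGroup (Fin (n + 1))) := alternatingGroup.isSimpleGroup h5
  rw [← MonoidHom.ker_eq_bot_iff]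
  rcases (Subgroup.Normal.eq_bot_or_eq_top (MonoidHom.normal_ker ψ)) with h | h
  · exact h
  · exfalso
    -- the three-cycle
    let a : Fin (n + 1) := Fin.castSucc ⟨0, by omega⟩
    let b : Fin (n + 1) := Fin.castSucc ⟨1, by omega⟩
    let c : Fin (n + 1) := Fin.castSucc ⟨2, by omega⟩
    have hab : a ≠ b := by
      intro h; have := congrArg Fin.val h; simp [a, b] at this
    have hbc : b ≠ c := by
      intro h; have := congrArg Fin.val h; simp [b, c] at this
    have hac : a ≠ c := by
      intro h; have := congrArg Fin.val h; simp [a, c] at this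
    let σ₀ : Equiv.Perm (Fin (n + 1)) := Equiv.swap a b * Equiv.swap b c
    have hσ₀ : σ₀ ∈ alternatingGroup (Fin (n + 1)) := by
      rw [Equiv.Perm.mem_alternatingGroup]
      simp [σ₀, Equiv.Perm.sign_swap hab, Equiv.Perm.sign_swap hbc]
    have hker : (⟨σ₀, hσ₀⟩ : alternatingGroup (Fin (n + 1))) ∈ ψ.ker := by
      rw [h]; exact Subgroup.mem_top _
    rw [MonoidHom.mem_ker] at hker
    have hcen : φ (F := F) hn ⟨σ₀, hσ₀⟩ ∈
        Subgroup.center (Matrix.SpecialLinearGroup (Fin n) F) :=
      (QuotientGroup.eq_one_iff _).mp hker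
    obtain ⟨r, -, hr⟩ := Matrix.SpecialLinearGroup.mem_center_iff.mp hcen
    have hentry : (Mhom σ₀ : Matrix (Fin n) (Fin n) F) ⟨0, by omega⟩ ⟨2, by omega⟩ = 1 := by
      rw [Mhom_apply]
      have h1 : σ₀.symm (Fin.castSucc ⟨0, by omega⟩) = Fin.castSucc ⟨2, by omega⟩ := by
        rw [Equiv.symm_apply_eq]
        show a = σ₀ c
        simp [σ₀, Equiv.swap_apply_right]
      rw [h1, extA_castSucc]
      simp
    have hentry2 : (Mhom σ₀ : Matrix (Fin n) (Fin n) F) ⟨0, by omega⟩ ⟨2, by omega⟩ = 0 := by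
      have h2 : (Mhom σ₀ : Matrix (Fin n) (Fin n) F) = Matrix.scalar (Fin n) r := hr.symm
      rw [h2, Matrix.scalar_apply, Matrix.diagonal_apply_ne]
      intro h; have := congrArg Fin.val h; simp at this
    rw [hentry] at hentry2
    exact one_ne_zero hentry2

end Cfsg.Agent.S4156
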