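import Cfsg.Statements.S4163
import Mathlib

set_option autoImplicit false
open Cfsg
open scoped commutatorElement

namespace Cfsg.Agent.S4163

/-- if the fibres of `f` are the left cosets of `S` then the range of `f` has `S.index` elements -/
theorem card_range_eq_index {H X : Type*} [Group H] (S : Subgroup H) (f : H → X)
    (hf : ∀ h h' : H, f h = f h' ↔ h⁻¹ * h' ∈ S) : Nat.card (Set.range f) = S.index := by
  let F : H ⧸ S → Set.range f :=
    Quotient.lift (fun h => (⟨f h, h, rfl⟩ : Set.range f))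
      (fun a b hab => Subtype.ext ((hf a b).mpr (QuotientGroup.leftRel_apply.mp hab)))
  have hF : Function.Bijective F := by
    constructor
    · intro q q'
      induction q, q' using Quotient.inductionOn₂ with
      | _ a b =>
        intro h
        apply Quotient.sound
        exact QuotientGroup.leftRel_apply.mpr ((hf a b).mp (congrArg Subtype.val h))
    · rintro ⟨_, h, rfl⟩
      exact ⟨QuotientGroup.mk h, rfl⟩
  exact (Nat.card_congr (Equiv.ofBijective F hF)).symm

/-- Isaacs' lemma: commutators of an element of minimal class size with a normal abelian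
subgroup are central. -/
theorem isaacs {G : Type*} [Group G] [Finite G] (K : Subgroup G) [hK : K.Normal]
    (hKab : ∀ a ∈ K, ∀ b ∈ K, a * b = b * a) (x : G)
    (hmin : ∀ g : G, 1 < (Subgroup.centralizer ({g} : Set G)).index →
      (Subgroup.centralizer ({x} : Set G)).index ≤ (Subgroup.centralizer ({g} : Set G)).index)
    (a : G) (ha : a ∈ K) : ⁅a, x⁆ ∈ Subgroup.center G := by
  by_contra hu
  set u : G := ⁅a, x⁆ with hu_def
  set Cx := Subgroup.centralizer ({x} : Set G) with hCx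
  set Cu := Subgroup.centralizer ({u} : Set G) with hCu
  have huK : u ∈ K := by
    rw [hu_def, commutatorElement_def]
    have h1 : x * a⁻¹ * x⁻¹ ∈ K := hK.conj_mem _ (K.inv_mem ha) x
    have h2 : a * x * a⁻¹ * x⁻¹ = a * (x * a⁻¹ * x⁻¹) := by group
    rw [h2]; exact K.mul_mem ha h1
  have hu1 : u ≠ 1 := fun h => hu (h ▸ Subgroup.one_mem _)
  -- index of `Cu` is at least that of `Cx`
  have hCu_ne_top : Cu ≠ ⊤ := by
    intro htop
    apply hu
    rw [Subgroup.mem_center_iff]
    intro g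
    have : g ∈ Cu := htop ▸ Subgroup.mem_top g
    exact (Subgroup.mem_centralizer_iff.mp this u rfl).symm
  have i4 : Cx.index ≤ Cu.index := by
    apply hmin
    show 1 < Cu.index
    have h0 : Cu.index ≠ 0 := Subgroup.index_ne_zero_of_finite
    have h1 : Cu.index ≠ 1 := fun h => hCu_ne_top (Subgroup.index_eq_one.mp h)
    omega
  have hKCu : K ≤ Cu := by
    intro k hk
    rw [Subgroup.mem_centralizer_iff]
    intro h hh
    rw [Set.mem_singleton_iff] at hh
    subst hh
    exact hKab _ huK k hk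
  have i1 : Cu.relIndex Cx * Cx.index = (Cx ⊓ Cu).index := by
    rw [← Subgroup.inf_relIndex_left Cx Cu]
    exact Subgroup.relIndex_mul_index inf_le_left
  have i2 : Cx.relIndex Cu * Cu.index = (Cx ⊓ Cu).index := by
    rw [← Subgroup.inf_relIndex_right Cx Cu]
    exact Subgroup.relIndex_mul_index inf_le_right
  have i3 : Cx.relIndex K ≤ Cx.relIndex Cu :=
    Subgroup.relIndex_le_of_le_right hKCu
      (Nat.pos_of_dvd_of_pos (Subgroup.relIndex_dvd_card Cx Cu) Nat.card_pos).ne'
  -- the two maps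
  let f₁ : K → G := fun k => ⁅(k : G), x⁆
  let f₂ : Cx → G := fun g => (g : G) * u * (g : G)⁻¹
  have hf₁ : ∀ k k' : K, f₁ k = f₁ k' ↔ k⁻¹ * k' ∈ Cx.subgroupOf K := by
    intro k k'
    rw [Subgroup.mem_subgroupOf, hCx, Subgroup.mem_centralizer_iff]
    simp only [f₁, commutatorElement_def, Set.mem_singleton_iff, forall_eq, Subgroup.coe_mul,
      Subgroup.coe_inv]
    constructor
    · intro h
      have h' : (k : G) * x * (k : G)⁻¹ = (k' : G) * x * (k' : G)⁻¹ := mul_right_cancel h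
      calc x * ((k : G)⁻¹ * (k' : G)) = (k : G)⁻¹ * ((k : G) * x * (k : G)⁻¹) * (k' : G) := by
            group
        _ = (k : G)⁻¹ * ((k' : G) * x * (k' : G)⁻¹) * (k' : G) := by rw [h']
        _ = (k : G)⁻¹ * (k' : G) * x := by group
    · intro h
      have h' : (k : G) * x * (k : G)⁻¹ = (k' : G) * x * (k' : G)⁻¹ := by
        calc (k : G) * x * (k : G)⁻¹
            = (k : G) * (x * ((k : G)⁻¹ * (k' : G))) * (k' : G)⁻¹ := by group
          _ = (k : G) * ((k : G)⁻¹ * (k' : G) * x) * (k' : G)⁻¹ := by rw [h]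
          _ = (k' : G) * x * (k' : G)⁻¹ := by group
      rw [h']
  have hf₂ : ∀ g g' : Cx, f₂ g = f₂ g' ↔ g⁻¹ * g' ∈ Cu.subgroupOf Cx := by
    intro g g'
    rw [Subgroup.mem_subgroupOf, hCu, Subgroup.mem_centralizer_iff]
    simp only [f₂, Set.mem_singleton_iff, forall_eq, Subgroup.coe_mul, Subgroup.coe_inv]
    constructor
    · intro h
      calc u * ((g : G)⁻¹ * (g' : G)) = (g : G)⁻¹ * ((g : G) * u * (g : G)⁻¹) * (g' : G) := by
            group
        _ = (g : G)⁻¹ * ((g' : G) * u * (g' : G)⁻¹) * (g' : G) := by rw [h]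
        _ = (g : G)⁻¹ * (g' : G) * u := by group
    · intro h
      calc (g : G) * u * (g : G)⁻¹
          = (g : G) * (u * ((g : G)⁻¹ * (g' : G))) * (g' : G)⁻¹ := by group
        _ = (g : G) * ((g : G)⁻¹ * (g' : G) * u) * (g' : G)⁻¹ := by rw [h]
        _ = (g' : G) * u * (g' : G)⁻¹ := by group
  have c1 : Nat.card (Set.range f₁) = Cx.relIndex K := card_range_eq_index _ f₁ hf₁
  have c2 : Nat.card (Set.range f₂) = Cu.relIndex Cx := card_range_eq_index _ f₂ hf₂
  have hsub : Set.range f₂ ⊆ Set.range f₁ := by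
    rintro _ ⟨g, rfl⟩
    refine ⟨⟨(g : G) * a * (g : G)⁻¹, hK.conj_mem a ha g⟩, ?_⟩
    have hgx : x * (g : G) = (g : G) * x := Subgroup.mem_centralizer_iff.mp g.2 x rfl
    simp only [f₁, f₂, hu_def, commutatorElement_def]
    have hgx' : (g : G)⁻¹ * x⁻¹ = x⁻¹ * (g : G)⁻¹ := by
      rw [← mul_inv_rev, ← mul_inv_rev, hgx]
    calc (g : G) * a * (g : G)⁻¹ * x * ((g : G) * a * (g : G)⁻¹)⁻¹ * x⁻¹
        = (g : G) * a * ((g : G)⁻¹ * (x * (g : G))) * a⁻¹ * ((g : G)⁻¹ * x⁻¹) := by group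
      _ = (g : G) * a * ((g : G)⁻¹ * ((g : G) * x)) * a⁻¹ * (x⁻¹ * (g : G)⁻¹) := by
          rw [hgx, hgx']
      _ = (g : G) * (a * x * a⁻¹ * x⁻¹) * (g : G)⁻¹ := by group
  have h1mem : (1 : G) ∈ Set.range f₁ := ⟨1, by simp [f₁]⟩
  have h1not : (1 : G) ∉ Set.range f₂ := by
    rintro ⟨g, hg⟩
    apply hu1
    have : (g : G) * u * (g : G)⁻¹ = 1 := hg
    calc u = (g : G)⁻¹ * ((g : G) * u * (g : G)⁻¹) * (g : G) := by group
      _ = 1 := by rw [this]; group
  have c : Cu.relIndex Cx < Cx.relIndex K := by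
    rw [← c1, ← c2, Nat.card_coe_set_eq, Nat.card_coe_set_eq]
    apply Set.ncard_lt_ncard _ (Set.toFinite _)
    exact ⟨hsub, fun h => h1not (h h1mem)⟩
  have hpos : 0 < Cx.index := Nat.pos_of_ne_zero Subgroup.index_ne_zero_of_finite
  have : Cu.relIndex Cx * Cx.index < Cu.relIndex Cx * Cx.index := by
    calc Cu.relIndex Cx * Cx.index < Cx.relIndex K * Cx.index :=
          Nat.mul_lt_mul_of_pos_right c hpos
      _ ≤ Cx.relIndex Cu * Cu.index := Nat.mul_le_mul i3 i4
      _ = Cu.relIndex Cx * Cx.index := by rw [i2, i1]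
  exact lt_irrefl _ this

/-- Let G be a finite group with a normal abelian subgroup A satisfying C_G(A) = A. Suppose some conjugacy class of G has size greater than 1, let m be the smallest such size, and let M be the subgroup generated by the elements whose class has size 1 or m. Then M is nilpotent of class at most 3. -/
theorem result {G : Type*} [Group G] [Finite G]
    (A : Subgroup G) [A.Normal] (hA : IsMulCommutative A) (hCA : Subgroup.centralizer (A : Set G) = A)
    (m : ℕ) (hm1 : 1 < m) (hm : ∃ x : G, (Subgroup.centralizer ({x} : Set G)).index = m) (hmin : ∀ x : G, 1 < (Subgroup.centralizer ({x} : Set G)).index → m ≤ (Subgroup.centralizer ({x} : Set G)).index) :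
    Subgroup.upperCentralSeries ↥(Subgroup.closure {x : G | (Subgroup.centralizer ({x} : Set G)).index = 1 ∨ (Subgroup.centralizer ({x} : Set G)).index = m}) 3 = ⊤ := by
  have hAab : ∀ a ∈ A, ∀ b ∈ A, a * b = b * a := by
    intro a ha b hb
    have := mul_comm' (⟨a, ha⟩ : A) ⟨b, hb⟩
    exact congrArg Subtype.val this
  set M := Subgroup.closure {x : G | (Subgroup.centralizer ({x} : Set G)).index = 1 ∨
    (Subgroup.centralizer ({x} : Set G)).index = m} with hM_def
  -- generators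
  have hX : ∀ x : G, ((Subgroup.centralizer ({x} : Set G)).index = 1 ∨
      (Subgroup.centralizer ({x} : Set G)).index = m) → ∀ a ∈ A, ⁅a, x⁆ ∈ Subgroup.center G := by
    intro x hx a ha
    rcases hx with h1 | h2
    · have htop : Subgroup.centralizer ({x} : Set G) = ⊤ := Subgroup.index_eq_one.mp h1
      have hxa : x * a = a * x := by
        have : a ∈ Subgroup.centralizer ({x} : Set G) := htop ▸ Subgroup.mem_top a
        exact Subgroup.mem_centralizer_iff.mp this x rfl
      have : ⁅a, x⁆ = 1 := by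
        rw [commutatorElement_def, ← hxa]; group
      rw [this]; exact Subgroup.one_mem _
    · exact isaacs A hAab x (fun g hg => h2 ▸ hmin g hg) a ha
  have hM : ∀ g ∈ M, ∀ a ∈ A, ⁅a, g⁆ ∈ Subgroup.center G := by
    intro g hg
    induction hg using Subgroup.closure_induction with
    | mem x hx => exact hX x hx
    | one =>
      intro a _
      have : ⁅a, (1 : G)⁆ = 1 := by rw [commutatorElement_def]; group
      rw [this]; exact Subgroup.one_mem _
    | mul g h _ _ ihg ihh =>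
      intro a ha
      have h1 := ihg a ha
      have h2 := ihh a ha
      have h3 : g * ⁅a, h⁆ = ⁅a, h⁆ * g := (Subgroup.mem_center_iff.mp h2 g)
      have : ⁅a, g * h⁆ = ⁅a, g⁆ * ⁅a, h⁆ := by
        calc ⁅a, g * h⁆ = ⁅a, g⁆ * (g * ⁅a, h⁆) * g⁻¹ := by
              simp only [commutatorElement_def]; group
          _ = ⁅a, g⁆ * (⁅a, h⁆ * g) * g⁻¹ := by rw [h3]
          _ = ⁅a, g⁆ * ⁅a, h⁆ := by group
      rw [this]; exact Subgroup.mul_mem _ h1 h2
    | inv g _ ihg =>
      intro a ha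
      have h1 := ihg a ha
      have h3 : g⁻¹ * ⁅a, g⁆⁻¹ = ⁅a, g⁆⁻¹ * g⁻¹ :=
        (Subgroup.mem_center_iff.mp (Subgroup.inv_mem _ h1) g⁻¹)
      have : ⁅a, g⁻¹⁆ = ⁅a, g⁆⁻¹ := by
        calc ⁅a, g⁻¹⁆ = g⁻¹ * ⁅a, g⁆⁻¹ * g := by
              simp only [commutatorElement_def]; group
          _ = ⁅a, g⁆⁻¹ * g⁻¹ * g := by rw [h3]
          _ = ⁅a, g⁆⁻¹ := by group
      rw [this]; exact Subgroup.inv_mem _ h1
  have key : ∀ g ∈ M, ∀ a ∈ A, ∃ z ∈ Subgroup.center G, g * a * g⁻¹ = a * z := by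
    intro g hg a ha
    refine ⟨⁅a⁻¹, g⁆, hM g hg a⁻¹ (A.inv_mem ha), ?_⟩
    rw [commutatorElement_def]; group
  have hcomm' : ∀ g ∈ M, ∀ h ∈ M, g⁻¹ * h⁻¹ * g * h ∈ A := by
    intro g hg h hh
    rw [← hCA, Subgroup.mem_centralizer_iff]
    intro a ha
    obtain ⟨zg, hzg, hg'⟩ := key g hg a ha
    obtain ⟨zh, hzh, hh'⟩ := key h hh a ha
    have e1 : g * h * a * h⁻¹ * g⁻¹ = a * zg * zh := by
      calc g * h * a * h⁻¹ * g⁻¹ = g * (h * a * h⁻¹) * g⁻¹ := by group
        _ = g * (a * zh) * g⁻¹ := by rw [hh']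
        _ = g * a * (zh * g⁻¹) := by group
        _ = g * a * (g⁻¹ * zh) := by rw [Subgroup.mem_center_iff.mp hzh g⁻¹]
        _ = (g * a * g⁻¹) * zh := by group
        _ = a * zg * zh := by rw [hg']
    have e2 : h * g * a * g⁻¹ * h⁻¹ = a * zg * zh := by
      calc h * g * a * g⁻¹ * h⁻¹ = h * (g * a * g⁻¹) * h⁻¹ := by group
        _ = h * (a * zg) * h⁻¹ := by rw [hg']
        _ = h * a * (zg * h⁻¹) := by group
        _ = h * a * (h⁻¹ * zg) := by rw [Subgroup.mem_center_iff.mp hzg h⁻¹]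
        _ = (h * a * h⁻¹) * zg := by group
        _ = a * zh * zg := by rw [hh']
        _ = a * (zh * zg) := by group
        _ = a * (zg * zh) := by rw [Subgroup.mem_center_iff.mp hzh zg]
        _ = a * zg * zh := by group
    have e3 : g * h * a * h⁻¹ * g⁻¹ = h * g * a * g⁻¹ * h⁻¹ := e1.trans e2.symm
    calc a * (g⁻¹ * h⁻¹ * g * h) = g⁻¹ * h⁻¹ * (h * g * a * g⁻¹ * h⁻¹) * g * h := by group
      _ = g⁻¹ * h⁻¹ * (g * h * a * h⁻¹ * g⁻¹) * g * h := by rw [e3]
      _ = g⁻¹ * h⁻¹ * g * h * a := by group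
  have hcomm : ∀ g ∈ M, ∀ h ∈ M, ⁅g, h⁆ ∈ A := by
    intro g hg h hh
    have := hcomm' g⁻¹ (M.inv_mem hg) h⁻¹ (M.inv_mem hh)
    rw [commutatorElement_def]
    simpa using this
  rw [eq_top_iff]
  intro g _
  rw [Subgroup.mem_upperCentralSeries_succ_iff]
  intro y
  rw [Subgroup.mem_upperCentralSeries_succ_iff]
  intro y'
  rw [Subgroup.upperCentralSeries_one, Subgroup.mem_center_iff]
  intro w
  apply Subtype.ext
  have h1 : ⁅(g : G), (y : G)⁆ ∈ A := hcomm g g.2 y y.2
  have h2 : ⁅⁅(g : G), (y : G)⁆, (y' : G)⁆ ∈ Subgroup.center G := hM y' y'.2 _ h1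
  exact Subgroup.mem_center_iff.mp h2 w

end Cfsg.Agent.S4163
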