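import Cfsg.Statements.S4168
import Mathlib

set_option autoImplicit false
open Cfsg

namespace Cfsg.Agent.S4168

open scoped commutatorElement in
/-- Let L be a finite quasisimple group (perfect with L/Z(L) simple). Then every prime dividing the order of the centre Z(L) also divides the order of L/Z(L). -/
theorem result {L : Type*} [Group L] [Finite L] (hL : Cfsg.IsQuasisimple L)
    (p : ℕ) (hp : p.Prime) (hdiv : p ∣ Nat.card (Subgroup.center L)) : p ∣ (Subgroup.center L).index := by
  by_contra hnd
  have : Fact p.Prime := ⟨hp⟩
  obtain ⟨hperf, -⟩ := hL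
  let P : Sylow p L := default
  -- P is central
  have hPZ : (P : Subgroup L) ≤ Subgroup.center L := by
    intro x hx
    obtain ⟨k, hk⟩ := P.isPGroup' ⟨x, hx⟩
    have hk' : x ^ p ^ k = 1 := by
      have := congrArg Subtype.val hk
      simpa using this
    have h1 : orderOf (QuotientGroup.mk' (Subgroup.center L) x) ∣ p ^ k := by
      apply orderOf_dvd_of_pow_eq_one
      rw [← map_pow, hk', map_one]
    have h2 : orderOf (QuotientGroup.mk' (Subgroup.center L) x) ∣ (Subgroup.center L).index := by
      rw [Subgroup.index]
      exact orderOf_dvd_natCard _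
    have hcop : Nat.Coprime (p ^ k) (Subgroup.center L).index :=
      Nat.Coprime.pow_left k ((Nat.Prime.coprime_iff_not_dvd hp).mpr hnd)
    have h3 : orderOf (QuotientGroup.mk' (Subgroup.center L) x) = 1 :=
      Nat.eq_one_of_dvd_coprimes hcop h1 h2
    rw [orderOf_eq_one_iff] at h3
    exact (QuotientGroup.eq_one_iff x).mp h3
  have hP : Subgroup.normalizer ((P : Subgroup L) : Set L) ≤ Subgroup.centralizer (P : Set L) := by
    intro g _
    rw [Subgroup.mem_centralizer_iff]
    intro h hh
    exact (Subgroup.mem_center_iff.mp (hPZ hh) g).symm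
  have hcompl := MonoidHom.ker_transferSylow_isComplement' P hP
  have hker : (MonoidHom.transferSylow P hP).ker = ⊤ := by
    rw [eq_top_iff, ← hperf.commutator_eq_top, commutator_eq_closure, Subgroup.closure_le]
    rintro _ ⟨a, b, rfl⟩
    rw [SetLike.mem_coe, MonoidHom.mem_ker, map_commutatorElement, commutatorElement_eq_one_iff_mul_comm]
    apply Subtype.ext
    have h1 := hPZ (MonoidHom.transferSylow P hP b).2
    rw [Subgroup.coe_mul, Subgroup.coe_mul]
    exact (Subgroup.mem_center_iff.mp h1 _)
  rw [hker, Subgroup.isComplement'_top_left] at hcompl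
  have h1 := P.not_dvd_index
  rw [hcompl, Subgroup.index_bot] at h1
  exact h1 (dvd_trans hdiv (Subgroup.card_subgroup_dvd_card _))

end Cfsg.Agent.S4168
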