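import Cfsg.Statements.S4169
import Cfsg.Agent.S4163
import Mathlib

set_option autoImplicit false
open Cfsg
open scoped commutatorElement

namespace Cfsg.Agent.S4169

/-- existence of a self-centralizing normal abelian subgroup in a nilpotent finite group -/
theorem exists_selfcentralizing {P : Type*} [Group P] [Finite P] [Group.IsNilpotent P] :
    ∃ A : Subgroup P, A.Normal ∧ (∀ a ∈ A, ∀ b ∈ A, a * b = b * a) ∧
      Subgroup.centralizer (A : Set P) = A := by
  let T := {B : Subgroup P // B.Normal ∧ ∀ a ∈ B, ∀ b ∈ B, a * b = b * a}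
  haveI : Nonempty T := ⟨⟨⊥, inferInstance, by
    intro a ha b hb
    rw [Subgroup.mem_bot] at ha hb
    rw [ha, hb]⟩⟩
  obtain ⟨⟨A, hAn, hAab⟩, hmax⟩ := Finite.exists_max (fun B : T => Nat.card B.1)
  refine ⟨A, hAn, hAab, ?_⟩
  haveI := hAn
  set C := Subgroup.centralizer (A : Set P) with hC
  have hCn : C.Normal := inferInstance
  have hAC : A ≤ C := by
    intro a ha
    rw [Subgroup.mem_centralizer_iff]
    intro b hb
    exact hAab b hb a ha
  apply le_antisymm _ hAC
  have hind : ∀ i : ℕ, C ⊓ Subgroup.upperCentralSeries P i ≤ A := by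
    intro i
    induction i with
    | zero =>
      rw [Subgroup.upperCentralSeries_zero, inf_bot_eq]; exact bot_le
    | succ i ih =>
      rintro x ⟨hxC, hxZ⟩
      by_contra hxA
      have hcomm : ∀ g : P, ⁅x, g⁆ ∈ A := by
        intro g
        apply ih
        refine ⟨?_, Subgroup.mem_upperCentralSeries_succ_iff.mp hxZ g⟩
        have h1 : g * x⁻¹ * g⁻¹ ∈ C := hCn.conj_mem _ (C.inv_mem hxC) g
        have h2 : ⁅x, g⁆ = x * (g * x⁻¹ * g⁻¹) := by rw [commutatorElement_def]; group
        rw [h2]; exact C.mul_mem hxC h1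
      let B := Subgroup.closure ((A : Set P) ∪ {x})
      have hBab : ∀ a ∈ B, ∀ b ∈ B, a * b = b * a := by
        have hk : ∀ y ∈ ((A : Set P) ∪ {x}), ∀ z ∈ ((A : Set P) ∪ {x}), y * z = z * y := by
          rintro y (hy | hy) z (hz | hz)
          · exact hAab y hy z hz
          · rw [Set.mem_singleton_iff] at hz; subst hz
            exact (Subgroup.mem_centralizer_iff.mp hxC y hy)
          · rw [Set.mem_singleton_iff] at hy; subst hy
            exact (Subgroup.mem_centralizer_iff.mp hxC z hz).symm
          · rw [Set.mem_singleton_iff] at hy hz; rw [hy, hz]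
        have := Subgroup.isMulCommutative_closure hk
        intro a ha b hb
        exact congrArg Subtype.val (mul_comm' (⟨a, ha⟩ : B) ⟨b, hb⟩)
      have hBn : B.Normal := by
        refine ⟨fun b hb g => ?_⟩
        induction hb using Subgroup.closure_induction with
        | mem y hy =>
          rcases hy with hy | hy
          · exact Subgroup.subset_closure (Or.inl (hAn.conj_mem y hy g))
          · rw [Set.mem_singleton_iff] at hy; subst hy
            have h1 : g * y * g⁻¹ = (⁅y, g⁆)⁻¹ * y := by rw [commutatorElement_def]; group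
            rw [h1]
            exact B.mul_mem (Subgroup.subset_closure (Or.inl (A.inv_mem (hcomm g))))
              (Subgroup.subset_closure (Or.inr rfl))
        | one => simp
        | mul a b _ _ iha ihb =>
          have : g * (a * b) * g⁻¹ = (g * a * g⁻¹) * (g * b * g⁻¹) := by group
          rw [this]; exact B.mul_mem iha ihb
        | inv a _ iha =>
          have : g * a⁻¹ * g⁻¹ = (g * a * g⁻¹)⁻¹ := by group
          rw [this]; exact B.inv_mem iha
      have hAB : A ≤ B := fun a ha => Subgroup.subset_closure (Or.inl ha)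
      have hxB : x ∈ B := Subgroup.subset_closure (Or.inr rfl)
      have hle : Nat.card B ≤ Nat.card A := hmax ⟨B, hBn, hBab⟩
      have hEq : A = B := Subgroup.eq_of_le_of_card_ge hAB hle
      exact hxA (hEq ▸ hxB)
  obtain ⟨n, hn⟩ := Group.IsNilpotent.nilpotent P
  have := hind n
  rw [hn, inf_top_eq] at this
  exact this

/-- Let P be a finite p-group whose conjugacy classes have exactly two sizes (1 and one other value). Then P has nilpotency class at most 3. -/
theorem result {P : Type*} [Group P] [Finite P] {p : ℕ} [Fact p.Prime] (hP : IsPGroup p P)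
    (m : ℕ) (hm : 1 < m) (h : ∀ x : P, (Subgroup.centralizer ({x} : Set P)).index = 1 ∨ (Subgroup.centralizer ({x} : Set P)).index = m) :
    upperCentralSeries P 3 = ⊤ := by
  haveI : Group.IsNilpotent P := hP.isNilpotent
  obtain ⟨A, hAn, hAab, hCA⟩ := exists_selfcentralizing (P := P)
  haveI := hAn
  have hM : ∀ g : P, ∀ a ∈ A, ⁅a, g⁆ ∈ Subgroup.center P := by
    intro x a ha
    rcases h x with h1 | h2
    · have htop : Subgroup.centralizer ({x} : Set P) = ⊤ := Subgroup.index_eq_one.mp h1
      have hxa : x * a = a * x := by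
        have : a ∈ Subgroup.centralizer ({x} : Set P) := htop ▸ Subgroup.mem_top a
        exact Subgroup.mem_centralizer_iff.mp this x rfl
      have : ⁅a, x⁆ = 1 := by
        rw [commutatorElement_def, ← hxa]; group
      rw [this]; exact Subgroup.one_mem _
    · exact Cfsg.Agent.S4163.isaacs A hAab x (fun g hg => by
        rcases h g with h3 | h3
        · omega
        · rw [h2, h3]) a ha
  have key : ∀ g : P, ∀ a ∈ A, ∃ z ∈ Subgroup.center P, g * a * g⁻¹ = a * z := by
    intro g a ha
    refine ⟨⁅a⁻¹, g⁆, hM g a⁻¹ (A.inv_mem ha), ?_⟩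
    rw [commutatorElement_def]; group
  have hcomm' : ∀ g h : P, g⁻¹ * h⁻¹ * g * h ∈ A := by
    intro g h
    rw [← hCA, Subgroup.mem_centralizer_iff]
    intro a ha
    obtain ⟨zg, hzg, hg'⟩ := key g a ha
    obtain ⟨zh, hzh, hh'⟩ := key h a ha
    have e1 : g * h * a * h⁻¹ * g⁻¹ = a * zg * zh := by
      calc g * h * a * h⁻¹ * g⁻¹ = g * (h * a * h⁻¹) * g⁻¹ := by group
        _ = g * (a * zh) * g⁻¹ := by rw [hh']
        _ = g * a * (zh * g⁻¹) := by group
        _ = g * a * (g⁻¹ * zh) := by rw [Subgroup.mem_center_iff.mp hzh g⁻¹]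
        _ = (g * a * g⁻¹) * zh := by group
        _ = a * zg * zh := by rw [hg']
    have e2 : h * g * a * g⁻¹ * h⁻¹ = a * zg * zh := by
      calc h * g * a * g⁻¹ * h⁻¹ = h * (g * a * g⁻¹) * h⁻¹ := by group
        _ = h * (a * zg) * h⁻¹ := by rw [hg']
        _ = h * a * (zg * h⁻¹) := by group
        _ = h * a * (h⁻¹ * zg) := by rw [Subgroup.mem_center_iff.mp hzg h⁻¹]
        _ = (h * a * h⁻¹) * zg := by group
        _ = a * zh * zg := by rw [hh']
        _ = a * (zh * zg) := by group
        _ = a * (zg * zh) := by rw [Subgroup.mem_center_iff.mp hzh zg]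
        _ = a * zg * zh := by group
    have e3 : g * h * a * h⁻¹ * g⁻¹ = h * g * a * g⁻¹ * h⁻¹ := e1.trans e2.symm
    calc a * (g⁻¹ * h⁻¹ * g * h) = g⁻¹ * h⁻¹ * (h * g * a * g⁻¹ * h⁻¹) * g * h := by group
      _ = g⁻¹ * h⁻¹ * (g * h * a * h⁻¹ * g⁻¹) * g * h := by rw [e3]
      _ = g⁻¹ * h⁻¹ * g * h * a := by group
  have hcomm : ∀ g h : P, ⁅g, h⁆ ∈ A := by
    intro g h
    have := hcomm' g⁻¹ h⁻¹
    rw [commutatorElement_def]
    simpa using this
  show Subgroup.upperCentralSeries P 3 = ⊤
  rw [eq_top_iff]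
  intro g _
  rw [Subgroup.mem_upperCentralSeries_succ_iff]
  intro y
  rw [Subgroup.mem_upperCentralSeries_succ_iff]
  intro y'
  rw [Subgroup.upperCentralSeries_one]
  exact hM y' _ (hcomm g y)

end Cfsg.Agent.S4169
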