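import Cfsg.Statements.S4170
import Mathlib

set_option autoImplicit false
open scoped Pointwise
open Cfsg

namespace Cfsg.Agent.S4170

/-- Let p be an odd prime and G a nontrivial group of permutations of a finite set Ω that is generated by its elements of p-power order. Then Ω has two disjoint nonempty subsets Δ₁ and Δ₂ such that the index in G of the subgroup of elements mapping Δ₁ onto Δ₁ and Δ₂ onto Δ₂ (and hence also the complement of their union onto itself) is divisible by p. -/
theorem result {Ω : Type*} [Fintype Ω] (p : ℕ) [Fact p.Prime] (hp : p ≠ 2) (G : Subgroup (Equiv.Perm Ω)) (hG : G ≠ ⊥) (hgen : Subgroup.closure {g : G | ∃ k : ℕ, orderOf g = p ^ k} = ⊤) :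
    ∃ Δ₁ Δ₂ : Set Ω, Δ₁.Nonempty ∧ Δ₂.Nonempty ∧ Disjoint Δ₁ Δ₂ ∧ p ∣ (MulAction.stabilizer G Δ₁ ⊓ MulAction.stabilizer G Δ₂).index := by
  classical
  have hpp : p.Prime := Fact.out
  -- an element of order `p`
  obtain ⟨x, hx⟩ : ∃ x : G, orderOf x = p := by
    have h1 : ∃ g : G, (∃ k : ℕ, orderOf g = p ^ k) ∧ g ≠ 1 := by
      by_contra hcon
      push Not at hcon
      have h2 : Subgroup.closure {g : G | ∃ k : ℕ, orderOf g = p ^ k} ≤ ⊥ := by
        rw [Subgroup.closure_le]
        intro g hg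
        simp only [Subgroup.coe_bot, Set.mem_singleton_iff]
        exact hcon g hg
      rw [hgen] at h2
      apply hG
      rw [Subgroup.eq_bot_iff_forall]
      intro y hy
      have h3 : (⟨y, hy⟩ : G) ∈ (⊥ : Subgroup G) := h2 (Subgroup.mem_top _)
      rw [Subgroup.mem_bot] at h3
      exact congrArg Subtype.val h3
    obtain ⟨g, ⟨k, hk⟩, hg1⟩ := h1
    have hk0 : k ≠ 0 := by
      rintro rfl
      rw [pow_zero, orderOf_eq_one_iff] at hk
      exact hg1 hk
    refine ⟨g ^ (p ^ (k - 1)), ?_⟩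
    have hdvd : p ^ (k - 1) ∣ orderOf g := by
      rw [hk]
      exact pow_dvd_pow p (Nat.sub_le k 1)
    rw [orderOf_pow_of_dvd (pow_pos hpp.pos _).ne' hdvd, hk, Nat.pow_div (Nat.sub_le k 1) hpp.pos]
    have : k - (k - 1) = 1 := by omega
    rw [this, pow_one]
  -- a point moved by `x`
  obtain ⟨α, hα⟩ : ∃ α : Ω, x • α ≠ α := by
    by_contra hcon
    push Not at hcon
    have hx1 : x = 1 := by
      apply Subtype.ext
      apply Equiv.ext
      intro ω
      exact hcon ω
    rw [hx1, orderOf_one] at hx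
    exact hpp.one_lt.ne hx
  set Z : Subgroup G := Subgroup.zpowers x with hZ
  set Δ : Set Ω := MulAction.orbit Z α with hΔ
  have hαΔ : α ∈ Δ := MulAction.mem_orbit_self α
  have hxαΔ : x • α ∈ Δ := ⟨⟨x, Subgroup.mem_zpowers x⟩, rfl⟩
  have hcardΔ : Δ.ncard = p := by
    have h2 : Nat.card Z = p := by rw [hZ, Nat.card_zpowers, hx]
    have h3 : MulAction.stabilizer Z α = ⊥ := by
      haveI : Fact (Nat.card Z).Prime := ⟨h2 ▸ hpp⟩
      rcases Subgroup.eq_bot_or_eq_top_of_prime_card (MulAction.stabilizer Z α) with h | h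
      · exact h
      · exfalso
        have h4 : (⟨x, Subgroup.mem_zpowers x⟩ : Z) ∈ MulAction.stabilizer Z α := by
          rw [h]; trivial
        exact hα h4
    rw [hΔ, ← MulAction.index_stabilizer, h3, Subgroup.index_bot, h2]
  set S : Subgroup G := MulAction.stabilizer G Δ with hS
  have hZS : ∀ z : Z, (z : G) ∈ S := by
    intro z
    have h1 : z • MulAction.orbit Z α = MulAction.orbit Z α := MulAction.smul_orbit z α
    exact h1
  have horb : MulAction.orbit S α = Δ := by
    apply Set.Subset.antisymm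
    · rintro _ ⟨s, rfl⟩
      have h1 : (s : G) • Δ = Δ := s.2
      have h2 : (s : G) • α ∈ (s : G) • Δ := Set.smul_mem_smul_set hαΔ
      rw [h1] at h2
      exact h2
    · rintro _ ⟨z, rfl⟩
      exact ⟨⟨(z : G), hZS z⟩, rfl⟩
  have hindex : (MulAction.stabilizer S α).index = p := by
    rw [MulAction.index_stabilizer, horb, hcardΔ]
  refine ⟨{α}, Δ \ {α}, Set.singleton_nonempty α, ⟨x • α, hxαΔ, hα⟩, Set.disjoint_sdiff_right, ?_⟩
  set H : Subgroup G := MulAction.stabilizer G ({α} : Set Ω) ⊓ MulAction.stabilizer G (Δ \ {α}) with hH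
  have hHS : H ≤ S := by
    intro g hg
    obtain ⟨hg1, hg2⟩ := hg
    have h1 : g • ({α} : Set Ω) = {α} := hg1
    have h2 : g • (Δ \ {α}) = Δ \ {α} := hg2
    have h3 : ({α} : Set Ω) ∪ Δ \ {α} = Δ := Set.union_sdiff_cancel (Set.singleton_subset_iff.mpr hαΔ)
    show g • Δ = Δ
    conv_lhs => rw [← h3]
    rw [Set.smul_set_union, h1, h2, h3]
  have hle : H.subgroupOf S ≤ MulAction.stabilizer S α := by
    intro s hs
    have h1 : (s : G) ∈ H := hs
    have h2 : (s : G) ∈ MulAction.stabilizer G ({α} : Set Ω) := h1.1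
    rw [MulAction.stabilizer_singleton] at h2
    exact h2
  have h1 : p ∣ (H.subgroupOf S).index := by
    rw [← hindex]
    exact Subgroup.index_dvd_of_le hle
  have h2 : H.relIndex S * S.index = H.index := Subgroup.relIndex_mul_index hHS
  rw [← h2]
  exact Dvd.dvd.mul_right h1 _

end Cfsg.Agent.S4170
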