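import Cfsg.Statements.S4172
import Mathlib
import Cfsg.Agent.Lib.Helper43.TwoGenE

set_option autoImplicit false
open Cfsg

namespace Cfsg.Agent.S4172

open Cfsg.Agent.Lib.Helper43.TwoGen Cfsg.Agent.Lib.Helper30

/-- Let p be a prime and G a finite group with a non-commutative Sylow p-subgroup P whose Frattini subgroup has index p² in P (P is generated by two elements). Suppose G has no nontrivial normal subgroup of order prime to p and the Frattini subgroup of P contains no nontrivial normal subgroup of G. Then the generalized Fitting subgroup F*(G) is the unique minimal normal subgroup of G, the image of P in G/F*(G) is cyclic, and if F*(G) is not commutative then P permutes the components of G transitively by conjugation. -/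
theorem result {G : Type*} [Group G] [Finite G] (p : ℕ) [Fact p.Prime] (P : Sylow p G) (hna : ¬ IsMulCommutative (P : Subgroup G)) (hgen : (frattini ↥(P : Subgroup G)).index = p ^ 2) (hcore : Cfsg.pPrimeCore p G = ⊥) (hfrat : ((frattini ↥(P : Subgroup G)).map (P : Subgroup G).subtype).normalCore = ⊥) [hFn : (Cfsg.generalizedFittingSubgroup G).Normal] :
    (Cfsg.generalizedFittingSubgroup G ≠ ⊥ ∧ ∀ K : Subgroup G, K.Normal → K ≠ ⊥ → Cfsg.generalizedFittingSubgroup G ≤ K) ∧
      IsCyclic ↥((P : Subgroup G).map (QuotientGroup.mk' (Cfsg.generalizedFittingSubgroup G))) ∧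
      (¬ IsMulCommutative (Cfsg.generalizedFittingSubgroup G) → ∀ K L : Subgroup G, Cfsg.IsComponent K → Cfsg.IsComponent L → ∃ x ∈ (P : Subgroup G), L = K.map (MulAut.conj x).toMonoidHom) := by
  obtain ⟨N, hNn, hN1, hmin⟩ := exists_min_normal P hna hgen hcore hfrat
  have hFN := genFitting_eq P hna hgen hcore hfrat N hN1 hmin
  have hF1 : Cfsg.generalizedFittingSubgroup G ≠ ⊥ := by rw [hFN]; exact hN1
  refine ⟨⟨hF1, ?_⟩, ?_, ?_⟩
  · intro K hK hK1
    rw [hFN]
    exact hmin K hK hK1
  · obtain ⟨x, hxP, hx⟩ := exists_gen P hgen hcore hfrat (Cfsg.generalizedFittingSubgroup G) hF1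
    exact isCyclic_map_mk' _ _ x hxP hx
  · intro hnc K L hK hL
    have hnc' : ¬ ∀ a ∈ N, ∀ b ∈ N, a * b = b * a := by
      intro h
      apply hnc
      refine ⟨⟨fun a b => Subtype.ext ?_⟩⟩
      have ha : (a : G) ∈ N := hFN ▸ a.2
      have hb : (b : G) ∈ N := hFN ▸ b.2
      exact h a ha b hb
    obtain ⟨h1, h2, -⟩ := noncomm_case hcore N hmin hnc'
    have hNE : N ≤ layer G := by
      have h3 : Cfsg.generalizedFittingSubgroup G = layer G := by
        unfold Cfsg.generalizedFittingSubgroup
        rw [h1, sup_bot_eq]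
      rw [← hFN, h3]
    exact transitive_on_components P hna hgen hcore N h2 hNE K L hK hL

end Cfsg.Agent.S4172
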