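import Cfsg.Statements.S4176
import Mathlib

set_option autoImplicit false
open Cfsg

namespace Cfsg.Agent.S4176

section basics
variable {k V H : Type*} [Field k] [AddCommGroup V] [Module k V] [Group H]

/-- stabilizer of a vector -/
def stab (ρ : Representation k H V) (v : V) : Subgroup H where
  carrier := {h | ρ h v = v}
  mul_mem' := by
    intro x y hx hy
    simp only [Set.mem_ofPred_eq] at *
    rw [map_mul, Module.End.mul_apply, hy, hx]
  one_mem' := by simp
  inv_mem' := by
    intro x hx
    simp only [Set.mem_ofPred_eq] at *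
    calc ρ x⁻¹ v = ρ x⁻¹ (ρ x v) := by rw [hx]
      _ = v := by rw [← Module.End.mul_apply, ← map_mul, inv_mul_cancel, map_one,
                    Module.End.one_apply]

theorem mem_stab (ρ : Representation k H V) (v : V) (h : H) : h ∈ stab ρ v ↔ ρ h v = v := Iff.rfl

/-- orbit of a vector -/
def orb (ρ : Representation k H V) (v : V) : Set V := {u | ∃ h : H, ρ h v = u}

/-- fixed subspace of a subgroup -/
def fixSub (ρ : Representation k H V) (N : Subgroup H) : Submodule k V where
  carrier := {v | ∀ n ∈ N, ρ n v = v}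
  add_mem' := by
    intro x y hx hy n hn
    rw [map_add, hx n hn, hy n hn]
  zero_mem' := by
    intro n _
    rw [map_zero]
  smul_mem' := by
    intro c x hx n hn
    rw [map_smul, hx n hn]

theorem mem_fixSub (ρ : Representation k H V) (N : Subgroup H) (v : V) :
    v ∈ fixSub ρ N ↔ ∀ n ∈ N, ρ n v = v := Iff.rfl

/-- the action of `H` on `V` through `ρ` -/
abbrev repAct (ρ : Representation k H V) : MulAction H V where
  smul := fun h v => ρ h v
  one_smul := fun v => by show ρ 1 v = v; rw [map_one]; rfl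
  mul_smul := fun g h v => by show ρ (g * h) v = ρ g (ρ h v); rw [map_mul]; rfl

theorem card_orb [Finite H] (ρ : Representation k H V) (v : V) :
    Nat.card (orb ρ v) = (stab ρ v).index := by
  letI : MulAction H V := repAct ρ
  have h1 : orb ρ v = MulAction.orbit H v := rfl
  have h2 : stab ρ v = MulAction.stabilizer H v := by
    ext x; rfl
  rw [h1, h2, Nat.card_coe_set_eq, ← MulAction.index_stabilizer]

theorem orb_finite [Finite H] (ρ : Representation k H V) (v : V) : (orb ρ v).Finite :=
  Set.finite_range (fun h : H => ρ h v)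

theorem orb_smul (ρ : Representation k H V) (v : V) (h : H) : orb ρ (ρ h v) = orb ρ v := by
  ext u
  constructor
  · rintro ⟨g, rfl⟩
    exact ⟨g * h, by rw [map_mul]; rfl⟩
  · rintro ⟨g, rfl⟩
    refine ⟨g * h⁻¹, ?_⟩
    rw [← Module.End.mul_apply, ← map_mul, inv_mul_cancel_right]

theorem index_stab_smul [Finite H] (ρ : Representation k H V) (v : V) (h : H) :
    (stab ρ (ρ h v)).index = (stab ρ v).index := by
  rw [← card_orb, ← card_orb, orb_smul]

/-- coprime orbit sizes give transitivity of one stabilizer on the other orbit -/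
theorem trans_of_coprime [Finite H] (ρ : Representation k H V) (x y : V)
    (hcop : ((stab ρ x).index).Coprime ((stab ρ y).index)) (g : H) :
    ∃ g' : H, ρ g' y = y ∧ ρ g' x = ρ g x := by
  classical
  letI : MulAction H V := repAct ρ
  have hsx : stab ρ x = MulAction.stabilizer H x := by ext z; rfl
  have hsy : stab ρ y = MulAction.stabilizer H y := by ext z; rfl
  rw [hsx, hsy] at hcop
  have hfinO : ∀ v : V, (MulAction.orbit H v).Finite := fun v => Set.finite_range _
  have hstab : MulAction.stabilizer H (x, y) =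
      MulAction.stabilizer H x ⊓ MulAction.stabilizer H y := by
    ext z
    simp [MulAction.mem_stabilizer_iff, Prod.ext_iff]
  have hsub : MulAction.orbit H (x, y) ⊆ (MulAction.orbit H x) ×ˢ (MulAction.orbit H y) := by
    rintro _ ⟨h, rfl⟩
    exact ⟨⟨h, rfl⟩, ⟨h, rfl⟩⟩
  have hcard : ((MulAction.orbit H x) ×ˢ (MulAction.orbit H y)).ncard ≤
      (MulAction.orbit H (x, y)).ncard := by
    rw [Set.ncard_prod, ← MulAction.index_stabilizer, ← MulAction.index_stabilizer,
      ← MulAction.index_stabilizer, hstab]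
    apply Nat.le_of_dvd (Nat.pos_of_ne_zero Subgroup.index_ne_zero_of_finite)
    exact hcop.mul_dvd_of_dvd_of_dvd (Subgroup.index_dvd_of_le inf_le_left)
      (Subgroup.index_dvd_of_le inf_le_right)
  have heq := Set.eq_of_subset_of_ncard_le hsub hcard ((hfinO x).prod (hfinO y))
  have : (g • x, y) ∈ MulAction.orbit H (x, y) := by
    rw [heq]; exact ⟨⟨g, rfl⟩, MulAction.mem_orbit_self y⟩
  obtain ⟨g', hg'⟩ := this
  have hx' : (g' • x, g' • y) = (g • x, y) := hg'
  rw [Prod.mk.injEq] at hx'
  exact ⟨g', hx'.2, hx'.1⟩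

/-- for a normal subgroup `K`, `[K : K ⊓ L]` divides `[H : L]` -/
theorem relIndex_dvd_index_normal [Finite H] (L K : Subgroup H) [K.Normal] :
    L.relIndex K ∣ L.index := by
  have h1 : (K ⊓ L).relIndex L * L.relIndex (L ⊔ K) = (K ⊓ L).relIndex (L ⊔ K) :=
    Subgroup.relIndex_mul_relIndex _ _ _ inf_le_right le_sup_left
  have h2 : (K ⊓ L).relIndex K * K.relIndex (L ⊔ K) = (K ⊓ L).relIndex (L ⊔ K) :=
    Subgroup.relIndex_mul_relIndex _ _ _ inf_le_left le_sup_right
  rw [Subgroup.inf_relIndex_right] at h1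
  rw [Subgroup.inf_relIndex_left, Subgroup.relIndex_sup_right] at h2
  have h3 : K.relIndex L * L.relIndex (L ⊔ K) = K.relIndex L * L.relIndex K := by
    rw [h1, ← h2, mul_comm]
  have h4 : L.relIndex (L ⊔ K) = L.relIndex K :=
    Nat.eq_of_mul_eq_mul_left (Nat.pos_of_dvd_of_pos (Subgroup.relIndex_dvd_card K L) Nat.card_pos) h3
  rw [← h4]
  exact Subgroup.relIndex_dvd_index_of_le le_sup_left

end basics

section averaging
variable {k W G : Type*} [Field k] [AddCommGroup W] [Module k W] [Group G]

theorem avg_fixed [Fintype G] (σ : Representation k G W) (w : W) (g : G) :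
    σ g ((∑ x : G, σ x) w) = (∑ x : G, σ x) w := by
  simp only [LinearMap.sum_apply, map_sum]
  rw [← Equiv.sum_comp (Equiv.mulLeft g) (fun x => σ x w)]
  refine Finset.sum_congr rfl (fun x _ => ?_)
  simp [map_mul]

theorem avg_of_fixed [Fintype G] (σ : Representation k G W) (w : W) (hw : ∀ g : G, σ g w = w) :
    (∑ x : G, σ x) w = (Fintype.card G : k) • w := by
  simp only [LinearMap.sum_apply, hw, Finset.sum_const, Finset.card_univ]
  rw [Nat.cast_smul_eq_nsmul]

/-- generalized coprime-orbit lemma -/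
theorem fixed_of_trans [Finite G] (σ : Representation k G W)
    (hnat : ∀ n : ℕ, n ∣ Nat.card G → (n : k) ≠ 0) (A : Set W)
    (hA : Submodule.span k A = ⊤) (b : W)
    (htr : ∀ u ∈ A, ∀ g : G, ∃ x : G, σ x b = b ∧ σ x u = σ g u) :
    ∀ g : G, σ g b = b := by
  classical
  have : Fintype G := Fintype.ofFinite G
  letI : MulAction G W := repAct σ
  have hsmul : ∀ (h : G) (v : W), h • v = σ h v := fun _ _ => rfl
  set Gb : Subgroup G := stab σ b with hGb
  have : Fintype Gb := Fintype.ofFinite Gb
  let Tb : W →ₗ[k] W := ∑ x : Gb, σ (x : G)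
  have hnb : (Fintype.card Gb : k) ≠ 0 := by
    apply hnat
    rw [← Nat.card_eq_fintype_card]
    exact Subgroup.card_subgroup_dvd_card _
  have hTbb : Tb b = (Fintype.card Gb : k) • b := by
    have : ∀ x : Gb, σ (x : G) b = b := fun x => x.2
    simp only [Tb, LinearMap.sum_apply, this, Finset.sum_const, Finset.card_univ]
    rw [Nat.cast_smul_eq_nsmul]
  -- each `Tb u` is fixed
  have hfix : ∀ u ∈ A, ∀ g : G, σ g (Tb u) = Tb u := by
    intro u hu
    have hfinO : (MulAction.orbit G u).Finite := Set.finite_range _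
    have : Finite (MulAction.orbit G u) := hfinO.to_subtype
    have : Fintype (MulAction.orbit G u) := Fintype.ofFinite _
    have hTb1 : ∀ u' ∈ MulAction.orbit G u, Tb u' = Tb u := by
      rintro _ ⟨g, rfl⟩
      obtain ⟨x₀, hx₀, hx₀'⟩ := htr u hu g
      show Tb (σ g u) = Tb u
      rw [← hx₀']
      simp only [Tb, LinearMap.sum_apply]
      rw [← Equiv.sum_comp (Equiv.mulRight (⟨x₀, hx₀⟩ : Gb)) (fun x : Gb => σ (x : G) u)]
      refine Finset.sum_congr rfl (fun g _ => ?_)
      simp [map_mul]
    let S : W := ∑ u' : MulAction.orbit G u, (u' : W)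
    have hS : ∀ g : G, σ g S = S := by
      intro g
      simp only [S, map_sum]
      rw [← Equiv.sum_comp (MulAction.toPerm g : Equiv.Perm (MulAction.orbit G u))
        (fun u' : MulAction.orbit G u => (u' : W))]
      rfl
    have hna : (Fintype.card (MulAction.orbit G u) : k) ≠ 0 := by
      apply hnat
      rw [← Nat.card_eq_fintype_card, Nat.card_coe_set_eq, ← MulAction.index_stabilizer]
      exact Subgroup.index_dvd_card _
    have hd : (Fintype.card (MulAction.orbit G u) : k) • Tb u = (Fintype.card Gb : k) • S := by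
      have h1 : Tb S = (Fintype.card (MulAction.orbit G u) : k) • Tb u := by
        simp only [S, map_sum]
        rw [Finset.sum_congr rfl (fun u' _ => hTb1 u'.1 u'.2), Finset.sum_const,
          Finset.card_univ, Nat.cast_smul_eq_nsmul]
      have h2 : Tb S = (Fintype.card Gb : k) • S := by
        simp only [Tb, LinearMap.sum_apply, hS, Finset.sum_const, Finset.card_univ]
        rw [Nat.cast_smul_eq_nsmul]
      rw [← h1, h2]
    intro g
    apply smul_right_injective W hna
    show (Fintype.card (MulAction.orbit G u) : k) • σ g (Tb u) =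
      (Fintype.card (MulAction.orbit G u) : k) • Tb u
    rw [← map_smul, hd, map_smul, hS]
  have hTbV : ∀ v : W, Tb v ∈ fixSub σ ⊤ := by
    intro v
    have : (⊤ : Submodule k W) ≤ (fixSub σ ⊤).comap Tb := by
      rw [← hA, Submodule.span_le]
      intro u hu
      simp only [Submodule.comap_coe, Set.mem_preimage, SetLike.mem_coe]
      intro g _
      exact hfix u hu g
    exact this Submodule.mem_top
  intro g
  apply smul_right_injective W hnb
  show (Fintype.card Gb : k) • σ g b = (Fintype.card Gb : k) • b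
  rw [← map_smul, ← hTbb]
  exact hTbV b g (Subgroup.mem_top g)

end averaging

section quot
variable {k V H : Type*} [Field k] [AddCommGroup V] [Module k V] [Group H]

theorem fixSub_inv (ρ : Representation k H V) (N : Subgroup H) [hN : N.Normal] (h : H) :
    ∀ v ∈ fixSub ρ N, ρ h v ∈ fixSub ρ N := by
  intro v hv n hn
  have h1 : h⁻¹ * n * h ∈ N := by
    have := hN.conj_mem n hn h⁻¹
    simpa using this
  have h2 : n * h = h * (h⁻¹ * n * h) := by group
  calc ρ n (ρ h v) = ρ (n * h) v := by rw [map_mul]; rfl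
    _ = ρ (h * (h⁻¹ * n * h)) v := by rw [h2]
    _ = ρ h (ρ (h⁻¹ * n * h) v) := by rw [map_mul]; rfl
    _ = ρ h v := by rw [hv _ h1]

/-- restriction of `ρ` to the fixed subspace of a normal subgroup -/
def resRep (ρ : Representation k H V) (N : Subgroup H) [N.Normal] :
    H →* (fixSub ρ N →ₗ[k] fixSub ρ N) where
  toFun h := (ρ h).restrict (fixSub_inv ρ N h)
  map_one' := by
    ext w
    simp
  map_mul' := by
    intro x y
    ext w
    simp [map_mul]

/-- the representation of `H ⧸ N` on the fixed subspace of `N` -/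
def quotRep (ρ : Representation k H V) (N : Subgroup H) [N.Normal] :
    Representation k (H ⧸ N) (fixSub ρ N) :=
  QuotientGroup.lift N (resRep ρ N) (by
    intro n hn
    rw [MonoidHom.mem_ker]
    ext w
    exact w.2 n hn)

theorem quotRep_mk (ρ : Representation k H V) (N : Subgroup H) [N.Normal] (h : H)
    (w : fixSub ρ N) : ((quotRep ρ N (h : H ⧸ N)) w : V) = ρ h (w : V) := rfl

end quot

section steps
variable {k V H : Type*} [Field k] [AddCommGroup V] [Module k V] [Group H]

theorem orb_subset_fixSub (ρ : Representation k H V) (M : Subgroup H) [M.Normal] (a' : V)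
    (h : M ≤ stab ρ a') : orb ρ a' ⊆ fixSub ρ M := by
  rintro _ ⟨g, rfl⟩
  exact fixSub_inv ρ M g a' (fun n hn => h hn)

theorem step_p [Finite H] (p : ℕ) [Fact p.Prime] (ρ : Representation k H V) (N M : Subgroup H)
    [N.Normal] [M.Normal] (m : ℕ) (hidx : N.relIndex M = p ^ m) (P : Sylow p H) (a' : V)
    (hP : (P : Subgroup H) ≤ stab ρ a') (Q2 : N ≤ stab ρ a')
    (Q3 : fixSub ρ N ≤ Submodule.span k (orb ρ a')) :
    M ≤ stab ρ a' ∧ fixSub ρ N ≤ fixSub ρ M := by
  have h1 : (stab ρ a').relIndex M ∣ p ^ m := hidx ▸ Subgroup.relIndex_dvd_of_le_left M Q2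
  have h2 : (stab ρ a').relIndex M ∣ (P : Subgroup H).index :=
    (relIndex_dvd_index_normal (stab ρ a') M).trans (Subgroup.index_dvd_of_le hP)
  have h3 : (stab ρ a').relIndex M = 1 := by
    obtain ⟨j, hj, hj'⟩ := (Nat.dvd_prime_pow (Fact.out)).mp h1
    rcases Nat.eq_zero_or_pos j with rfl | hpos
    · simpa using hj'
    · exfalso
      have : p ∣ (P : Subgroup H).index := (dvd_pow_self p hpos.ne').trans (hj' ▸ h2)
      exact P.not_dvd_index this
  have hM : M ≤ stab ρ a' := Subgroup.relIndex_eq_one.mp h3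
  refine ⟨hM, Q3.trans ?_⟩
  rw [Submodule.span_le]
  exact orb_subset_fixSub ρ M a' hM

theorem step_p' [Finite H] (p : ℕ) [Fact p.Prime] [CharP k p] (ρ : Representation k H V)
    (N M : Subgroup H) [N.Normal] [hMn : M.Normal]
    (hNM : N ≤ M) (hidx : (N.relIndex M).Coprime p) (a a' : V)
    (Q1 : stab ρ a ≤ stab ρ a') (Q2 : N ≤ stab ρ a')
    (Q3 : fixSub ρ N ≤ Submodule.span k (orb ρ a')) :
    ∃ a'' : V, stab ρ a ≤ stab ρ a'' ∧ M ≤ stab ρ a'' ∧
      fixSub ρ M ≤ Submodule.span k (orb ρ a'') ∧
      (∀ b : V, ((stab ρ a).index).Coprime ((stab ρ b).index) →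
        b ∈ fixSub ρ N → b ∈ fixSub ρ M) := by
  classical
  set W := fixSub ρ N with hW
  set ρ' := quotRep ρ N with hρ'
  let π := QuotientGroup.mk' N
  set G : Subgroup (H ⧸ N) := M.map π with hG
  haveI : G.Normal := hMn.map π (QuotientGroup.mk'_surjective N)
  have : Fintype G := Fintype.ofFinite G
  have hGcard : Nat.card G = N.relIndex M := by
    have := Subgroup.relIndex_comap (⊥ : Subgroup (H ⧸ N)) π M
    rw [Subgroup.relIndex_bot_left] at this
    rw [← this, MonoidHom.comap_bot, QuotientGroup.ker_mk']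
  have hnat : ∀ n : ℕ, n ∣ Nat.card G → (n : k) ≠ 0 := by
    intro n hn h0
    rw [CharP.cast_eq_zero_iff k p] at h0
    have h1 : p ∣ N.relIndex M := h0.trans (hGcard ▸ hn)
    have hp1 : p ∣ 1 := by
      have := Nat.dvd_gcd h1 (dvd_refl p)
      rwa [hidx] at this
    exact (Fact.out : p.Prime).one_lt.ne' (Nat.dvd_one.mp hp1)
  let σ : Representation k G W := ρ'.comp G.subtype
  let E : W →ₗ[k] W := ∑ g : G, σ g
  have hGmem : ∀ g : G, ∃ y ∈ M, π y = (g : H ⧸ N) := fun g => Subgroup.mem_map.mp g.2
  have hcomm : ∀ (h : H) (w : W), E (ρ' (π h) w) = ρ' (π h) (E w) := by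
    intro h w
    simp only [E, LinearMap.sum_apply, map_sum]
    rw [← Equiv.sum_comp (MulAut.conjNormal (π h) : G ≃* G).toEquiv
      (fun g : G => σ g (ρ' (π h) w))]
    refine Finset.sum_congr rfl (fun g _ => ?_)
    show ρ' ((MulAut.conjNormal (π h) g : G) : H ⧸ N) (ρ' (π h) w) =
      ρ' (π h) (ρ' (g : H ⧸ N) w)
    rw [MulAut.conjNormal_apply, ← Module.End.mul_apply, ← map_mul, ← Module.End.mul_apply,
      ← map_mul]
    congr 2
    group
  have ha'W : a' ∈ W := fun n hn => Q2 hn
  let aW : W := ⟨a', ha'W⟩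
  let A : Set W := {w | (w : V) ∈ orb ρ a'}
  have hspanA : Submodule.span k A = ⊤ := by
    rw [eq_top_iff]
    rintro ⟨v, hv⟩ -
    have key : ∀ v ∈ Submodule.span k (orb ρ a'),
        ∃ hv : v ∈ W, (⟨v, hv⟩ : W) ∈ Submodule.span k A := by
      intro v hv
      induction hv using Submodule.span_induction with
      | mem u hu =>
        exact ⟨orb_subset_fixSub ρ N a' Q2 hu, Submodule.subset_span hu⟩
      | zero => exact ⟨W.zero_mem, Submodule.zero_mem _⟩
      | add x y _ _ hx hy =>
        obtain ⟨hx1, hx2⟩ := hx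
        obtain ⟨hy1, hy2⟩ := hy
        exact ⟨W.add_mem hx1 hy1, Submodule.add_mem _ hx2 hy2⟩
      | smul c x _ hx =>
        obtain ⟨hx1, hx2⟩ := hx
        exact ⟨W.smul_mem c hx1, Submodule.smul_mem _ c hx2⟩
    obtain ⟨_, h⟩ := key v (Q3 hv)
    exact h
  refine ⟨((E aW : W) : V), ?_, ?_, ?_, ?_⟩
  · -- Q1
    intro h hh
    have hh' : ρ h a' = a' := Q1 hh
    show ρ h ((E aW : W) : V) = ((E aW : W) : V)
    have h1 : ρ' (π h) aW = aW := Subtype.ext hh'
    have h2 := hcomm h aW
    rw [h1] at h2
    exact (congrArg (fun w : W => (w : V)) h2).symm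
  · -- Q2
    intro y hy
    show ρ y ((E aW : W) : V) = ((E aW : W) : V)
    exact congrArg (fun w : W => (w : V))
      (avg_fixed σ aW ⟨π y, Subgroup.mem_map_of_mem π hy⟩)
  · -- Q3
    intro v hv
    have hvN : v ∈ W := fun n hn => hv n (hNM hn)
    let vW : W := ⟨v, hvN⟩
    have hE : E vW = (Fintype.card G : k) • vW := by
      apply avg_of_fixed σ vW
      intro g
      obtain ⟨y, hy, hyg⟩ := hGmem g
      apply Subtype.ext
      have : ((σ g vW : W) : V) = ρ y v := by
        have hg : g = ⟨π y, Subgroup.mem_map_of_mem π hy⟩ := Subtype.ext hyg.symm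
        rw [hg]; rfl
      rw [this]; exact hv y hy
    have hcard0 : (Fintype.card G : k) ≠ 0 := hnat _ (by rw [Nat.card_eq_fintype_card])
    have hv2 : v = (Fintype.card G : k)⁻¹ • ((E vW : W) : V) := by
      rw [hE, Submodule.coe_smul, smul_smul, inv_mul_cancel₀ hcard0, one_smul]
    rw [hv2]
    apply Submodule.smul_mem
    have : (⊤ : Submodule k W) ≤
        (Submodule.span k (orb ρ ((E aW : W) : V))).comap (W.subtype ∘ₗ E) := by
      rw [← hspanA, Submodule.span_le]
      rintro w ⟨h, hh⟩
      simp only [Submodule.comap_coe, Set.mem_preimage, SetLike.mem_coe, LinearMap.comp_apply,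
        Submodule.subtype_apply]
      apply Submodule.subset_span
      refine ⟨h, ?_⟩
      have hw : w = ρ' (π h) aW := Subtype.ext hh.symm
      rw [hw, hcomm]; rfl
    exact this Submodule.mem_top
  · -- Q4
    intro b hcop hbN
    let bW : W := ⟨b, hbN⟩
    have key := fixed_of_trans σ hnat A hspanA bW ?_
    · intro y hy
      have := key ⟨π y, Subgroup.mem_map_of_mem π hy⟩
      exact congrArg (fun w : W => (w : V)) this
    · intro u hu g
      obtain ⟨y, hy, hyg⟩ := hGmem g
      let τ : Representation k M V := ρ.comp M.subtype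
      have hst : ∀ v : V, (stab τ v).index = (stab ρ v).relIndex M := by
        intro v
        have : stab τ v = (stab ρ v).subgroupOf M := by ext z; rfl
        rw [this]; rfl
      have hcop' : ((stab τ (u : V)).index).Coprime ((stab τ b).index) := by
        rw [hst, hst]
        have h1 : (stab ρ (u : V)).relIndex M ∣ (stab ρ a).index := by
          obtain ⟨h, hh⟩ := hu
          refine (relIndex_dvd_index_normal _ M).trans ?_
          rw [← hh, index_stab_smul]
          exact Subgroup.index_dvd_of_le Q1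
        have h2 : (stab ρ b).relIndex M ∣ (stab ρ b).index := relIndex_dvd_index_normal _ M
        exact (hcop.coprime_dvd_left h1).coprime_dvd_right h2
      obtain ⟨y', hy'1, hy'2⟩ := trans_of_coprime τ (u : V) b hcop' ⟨y, hy⟩
      refine ⟨⟨π (y' : H), Subgroup.mem_map_of_mem π y'.2⟩, Subtype.ext hy'1, ?_⟩
      apply Subtype.ext
      have hg : g = ⟨π y, Subgroup.mem_map_of_mem π hy⟩ := Subtype.ext hyg.symm
      rw [hg]
      exact hy'2

end steps

section mainpart
variable {k V H : Type*} [Field k] [AddCommGroup V] [Module k V] [Group H] [Finite H]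

theorem main (p : ℕ) [Fact p.Prime] [CharP k p] (ρ : Representation k H V) (a : V)
    (P : Sylow p H) (hP : (P : Subgroup H) ≤ stab ρ a)
    (hspan : Submodule.span k (orb ρ a) = ⊤)
    (n : ℕ) (Hc : Fin (n + 1) → Subgroup H) (h0 : Hc 0 = ⊥) (hmono : Monotone Hc)
    (hnorm : ∀ i, (Hc i).Normal)
    (hstep : ∀ i : Fin n, (∃ m : ℕ, (Hc i.castSucc).relIndex (Hc i.succ) = p ^ m) ∨
      ((Hc i.castSucc).relIndex (Hc i.succ)).Coprime p) :
    ∀ i : Fin (n + 1), ∃ a' : V, stab ρ a ≤ stab ρ a' ∧ Hc i ≤ stab ρ a' ∧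
      (fixSub ρ (Hc i) ≤ Submodule.span k (orb ρ a')) ∧
      (∀ b : V, ((stab ρ a).index).Coprime ((stab ρ b).index) → b ∈ fixSub ρ (Hc i)) := by
  intro i
  induction i using Fin.induction with
  | zero =>
    refine ⟨a, le_rfl, ?_, ?_, ?_⟩
    · rw [h0]; exact bot_le
    · rw [hspan]; exact le_top
    · intro b _ n hn
      rw [h0, Subgroup.mem_bot] at hn
      rw [hn, map_one]; rfl
  | succ i ih =>
    obtain ⟨a', Q1, Q2, Q3, Q4⟩ := ih
    haveI := hnorm i.castSucc
    haveI := hnorm i.succ
    have hle : Hc i.castSucc ≤ Hc i.succ := hmono (Fin.castSucc_le_succ i)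
    rcases hstep i with ⟨m, hm⟩ | hcop
    · obtain ⟨h1, h2⟩ := step_p p ρ (Hc i.castSucc) (Hc i.succ) m hm P a' (hP.trans Q1) Q2 Q3
      exact ⟨a', Q1, h1, (fun v hv => Q3 (fun n hn => hv n (hle hn))), fun b hb => h2 (Q4 b hb)⟩
    · obtain ⟨a'', R1, R2, R3, R4⟩ :=
        step_p' p ρ (Hc i.castSucc) (Hc i.succ) hle hcop a a' Q1 Q2 Q3
      exact ⟨a'', R1, R2, R3, fun b hb => R4 b hb (Q4 b hb)⟩

end mainpart

/-- Let k be a field of prime characteristic p, H a finite p-soluble group and ρ a k-linear representation of H on V. Let a be a vector that is fixed by some Sylow p-subgroup of H and whose H-orbit spans V. Then the space of H-fixed vectors has dimension at most 1, and every vector b whose H-orbit has size coprime to the size of the orbit of a is fixed by H. -/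
theorem result {k V H : Type*} [Field k] (p : ℕ) [Fact p.Prime] [CharP k p] [AddCommGroup V] [Module k V]
    [Group H] [Finite H] (hsol : Cfsg.IsPSolvable p H) (ρ : Representation k H V) (a : V)
    (hfix : ∃ P : Sylow p H, ∀ x : H, x ∈ (P : Subgroup H) → ρ x a = a)
    (hspan : Submodule.span k {u : V | ∃ h : H, ρ h a = u} = ⊤) :
    Module.finrank k ρ.invariants ≤ 1 ∧
    ∀ b : V, (Nat.card {u : V | ∃ h : H, ρ h a = u}).Coprime (Nat.card {u : V | ∃ h : H, ρ h b = u}) → ∀ h : H, ρ h b = b := by
  obtain ⟨n, Hc, h0, hlast, hmono, hnorm, hstep⟩ := hsol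
  obtain ⟨P, hP⟩ := hfix
  obtain ⟨a', Q1, Q2, Q3, Q4⟩ := main p ρ a P hP hspan n Hc h0 hmono hnorm hstep (Fin.last n)
  rw [hlast] at Q2 Q3 Q4
  have ha' : ∀ h : H, ρ h a' = a' := fun h => Q2 (Subgroup.mem_top h)
  refine ⟨?_, ?_⟩
  · have hle : ρ.invariants ≤ Submodule.span k {a'} := by
      intro v hv
      have h1 : v ∈ fixSub ρ ⊤ := fun n _ => (Representation.mem_invariants ρ v).mp hv n
      have h2 := Q3 h1
      have h3 : Submodule.span k (orb ρ a') ≤ Submodule.span k {a'} := by
        apply Submodule.span_mono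
        rintro _ ⟨h, rfl⟩
        rw [ha' h]; exact Set.mem_singleton _
      exact h3 h2
    calc Module.finrank k ρ.invariants ≤ Module.finrank k (Submodule.span k {a'}) :=
          Submodule.finrank_mono hle
      _ ≤ 1 := by
          by_cases h0 : a' = 0
          · rw [h0, Submodule.span_zero_singleton, finrank_bot]; exact Nat.zero_le 1
          · rw [finrank_span_singleton h0]
  · intro b hcop h
    have hcop' : ((stab ρ a).index).Coprime ((stab ρ b).index) := by
      rw [← card_orb, ← card_orb]; exact hcop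
    exact Q4 b hcop' h (Subgroup.mem_top h)

end Cfsg.Agent.S4176
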