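import Cfsg.Statements.S4177
import Mathlib

set_option autoImplicit false
open Cfsg

namespace Cfsg.Agent.S4177

/-- Let k be a field whose characteristic does not divide the order of the finite group H (for instance a field of characteristic zero), and ρ a k-linear representation of H on V. Let a be a vector whose H-orbit spans V. Then the space of H-fixed vectors has dimension at most 1, and every vector b whose H-orbit has size coprime to the size of the orbit of a is fixed by H. -/
theorem result {k V H : Type*} [Field k] [AddCommGroup V] [Module k V] [Group H] [Finite H]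
    (hchar : ¬ ringChar k ∣ Nat.card H) (ρ : Representation k H V) (a : V)
    (hspan : Submodule.span k {u : V | ∃ h : H, ρ h a = u} = ⊤) :
    Module.finrank k ρ.invariants ≤ 1 ∧
    ∀ b : V, (Nat.card {u : V | ∃ h : H, ρ h a = u}).Coprime (Nat.card {u : V | ∃ h : H, ρ h b = u}) → ∀ h : H, ρ h b = b := by
  classical
  have : Fintype H := Fintype.ofFinite H
  have hnat : ∀ n : ℕ, n ∣ Nat.card H → (n : k) ≠ 0 := by
    intro n hn h0
    exact hchar (((ringChar.spec k n).mp h0).trans hn)
  refine ⟨?_, ?_⟩
  · -- Part 1
    let T : V →ₗ[k] V := ∑ h : H, ρ h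
    have hT1 : ∀ h : H, T (ρ h a) = T a := by
      intro h
      simp only [T, LinearMap.sum_apply]
      rw [← Equiv.sum_comp (Equiv.mulRight h) (fun g => ρ g a)]
      refine Finset.sum_congr rfl (fun g _ => ?_)
      simp [map_mul]
    have hT2 : ∀ v : V, T v ∈ Submodule.span k {T a} := by
      intro v
      have : (⊤ : Submodule k V) ≤ (Submodule.span k {T a}).comap T := by
        rw [← hspan, Submodule.span_le]
        rintro u ⟨h, rfl⟩
        simp only [Submodule.comap_coe, Set.mem_preimage, SetLike.mem_coe]
        rw [hT1]; exact Submodule.mem_span_singleton_self _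
      exact this Submodule.mem_top
    have hle : ρ.invariants ≤ Submodule.span k {T a} := by
      intro v hv
      have hv' : ∀ g : H, ρ g v = v := (Representation.mem_invariants ρ v).mp hv
      have hTv : T v = (Nat.card H : k) • v := by
        simp only [T, LinearMap.sum_apply, hv', Finset.sum_const, Finset.card_univ]
        rw [Nat.card_eq_fintype_card, Nat.cast_smul_eq_nsmul]
      have : v = (Nat.card H : k)⁻¹ • T v := by
        rw [hTv, smul_smul, inv_mul_cancel₀ (hnat _ dvd_rfl), one_smul]
      rw [this]
      exact Submodule.smul_mem _ _ (hT2 v)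
    calc Module.finrank k ρ.invariants ≤ Module.finrank k (Submodule.span k {T a}) :=
          Submodule.finrank_mono hle
      _ ≤ 1 := by
          by_cases h0 : T a = 0
          · rw [h0, Submodule.span_zero_singleton, finrank_bot]; exact Nat.zero_le 1
          · rw [finrank_span_singleton h0]
  · -- Part 2
    intro b hcop
    let _inst : MulAction H V :=
      { smul := fun h v => ρ h v
        one_smul := fun v => by show ρ 1 v = v; rw [map_one]; rfl
        mul_smul := fun g h v => by show ρ (g * h) v = ρ g (ρ h v); simp [map_mul] }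
    have hsmul : ∀ (h : H) (v : V), h • v = ρ h v := fun _ _ => rfl
    have hO : ∀ v : V, {u : V | ∃ h : H, ρ h v = u} = MulAction.orbit H v := fun v => rfl
    rw [hO a, hO b] at hcop
    rw [hO a] at hspan
    rw [Nat.card_coe_set_eq, Nat.card_coe_set_eq, ← MulAction.index_stabilizer,
      ← MulAction.index_stabilizer] at hcop
    set Ha := MulAction.stabilizer H a with hHa
    set Hb := MulAction.stabilizer H b with hHb
    -- transitivity of Hb on the orbit of a
    have hfinO : ∀ v : V, (MulAction.orbit H v).Finite := fun v => Set.finite_range _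
    have hstab : MulAction.stabilizer H (a, b) = Ha ⊓ Hb := by
      ext x
      simp [MulAction.mem_stabilizer_iff, Prod.ext_iff, hHa, hHb]
    have hsub : MulAction.orbit H (a, b) ⊆ (MulAction.orbit H a) ×ˢ (MulAction.orbit H b) := by
      rintro _ ⟨h, rfl⟩
      exact ⟨⟨h, rfl⟩, ⟨h, rfl⟩⟩
    have hcard : ((MulAction.orbit H a) ×ˢ (MulAction.orbit H b)).ncard ≤
        (MulAction.orbit H (a, b)).ncard := by
      rw [Set.ncard_prod, ← MulAction.index_stabilizer, ← MulAction.index_stabilizer,
        ← MulAction.index_stabilizer, hstab]
      apply Nat.le_of_dvd (Nat.pos_of_ne_zero Subgroup.index_ne_zero_of_finite)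
      exact hcop.mul_dvd_of_dvd_of_dvd (Subgroup.index_dvd_of_le inf_le_left)
        (Subgroup.index_dvd_of_le inf_le_right)
    have heq := Set.eq_of_subset_of_ncard_le hsub hcard ((hfinO a).prod (hfinO b))
    have htrans : ∀ u ∈ MulAction.orbit H a, ∃ x ∈ Hb, x • a = u := by
      intro u hu
      have : (u, b) ∈ MulAction.orbit H (a, b) := by
        rw [heq]; exact ⟨hu, MulAction.mem_orbit_self b⟩
      obtain ⟨x, hx⟩ := this
      have hx' : (x • a, x • b) = (u, b) := hx
      rw [Prod.mk.injEq] at hx'
      exact ⟨x, hx'.2, hx'.1⟩
    have : Fintype Hb := Fintype.ofFinite Hb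
    have : Finite (MulAction.orbit H a) := (hfinO a).to_subtype
    have : Fintype (MulAction.orbit H a) := Fintype.ofFinite _
    let Tb : V →ₗ[k] V := ∑ x : Hb, ρ (x : H)
    have hTb1 : ∀ u ∈ MulAction.orbit H a, Tb u = Tb a := by
      intro u hu
      obtain ⟨x₀, hx₀, rfl⟩ := htrans u hu
      simp only [Tb, LinearMap.sum_apply, hsmul]
      rw [← Equiv.sum_comp (Equiv.mulRight (⟨x₀, hx₀⟩ : Hb)) (fun x : Hb => ρ (x : H) a)]
      refine Finset.sum_congr rfl (fun g _ => ?_)
      simp [map_mul]
    let S : V := ∑ u : MulAction.orbit H a, (u : V)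
    have hS : ∀ g : H, ρ g S = S := by
      intro g
      simp only [S, map_sum]
      rw [← Equiv.sum_comp (MulAction.toPerm g : Equiv.Perm (MulAction.orbit H a))
        (fun u : MulAction.orbit H a => (u : V))]
      rfl
    have hna : (Fintype.card (MulAction.orbit H a) : k) ≠ 0 := by
      apply hnat
      rw [← Nat.card_eq_fintype_card, Nat.card_coe_set_eq, ← MulAction.index_stabilizer]
      exact Subgroup.index_dvd_card _
    have hnb : (Fintype.card Hb : k) ≠ 0 := by
      apply hnat
      rw [← Nat.card_eq_fintype_card]
      exact Subgroup.card_subgroup_dvd_card _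
    have hd : (Fintype.card (MulAction.orbit H a) : k) • Tb a = (Fintype.card Hb : k) • S := by
      have h1 : Tb S = (Fintype.card (MulAction.orbit H a) : k) • Tb a := by
        simp only [S, map_sum]
        rw [Finset.sum_congr rfl (fun u _ => hTb1 u.1 u.2), Finset.sum_const, Finset.card_univ,
          Nat.cast_smul_eq_nsmul]
      have h2 : Tb S = (Fintype.card Hb : k) • S := by
        simp only [Tb, LinearMap.sum_apply, hS, Finset.sum_const, Finset.card_univ]
        rw [Nat.cast_smul_eq_nsmul]
      rw [← h1, h2]
    have hTbV : ∀ v : V, Tb v ∈ Submodule.span k {Tb a} := by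
      intro v
      have : (⊤ : Submodule k V) ≤ (Submodule.span k {Tb a}).comap Tb := by
        rw [← hspan, Submodule.span_le]
        intro u hu
        simp only [Submodule.comap_coe, Set.mem_preimage, SetLike.mem_coe]
        rw [hTb1 u hu]; exact Submodule.mem_span_singleton_self _
      exact this Submodule.mem_top
    have hTbb : Tb b = (Fintype.card Hb : k) • b := by
      have : ∀ x : Hb, ρ (x : H) b = b := fun x => x.2
      simp only [Tb, LinearMap.sum_apply, this, Finset.sum_const, Finset.card_univ]
      rw [Nat.cast_smul_eq_nsmul]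
    have hfixa : ∀ g : H, ρ g (Tb a) = Tb a := by
      intro g
      apply smul_right_injective V hna
      show (Fintype.card (MulAction.orbit H a) : k) • ρ g (Tb a) =
        (Fintype.card (MulAction.orbit H a) : k) • Tb a
      rw [← map_smul, hd, map_smul, hS]
    intro g
    obtain ⟨c, hc⟩ := Submodule.mem_span_singleton.mp (hTbV b)
    apply smul_right_injective V hnb
    show (Fintype.card Hb : k) • ρ g b = (Fintype.card Hb : k) • b
    rw [← map_smul, ← hTbb, ← hc, map_smul, hfixa]

end Cfsg.Agent.S4177
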