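import Cfsg.Statements.S4178
import Mathlib

set_option autoImplicit false
open Cfsg

namespace Cfsg.Agent.S4178

theorem orbit_bound {G X : Type*} [Group G] [MulAction G X] (R : Subgroup G) (x : X) (T : Set X)
    (hT : T.Finite) (hstab : MulAction.stabilizer G x ≤ R) (horb : MulAction.orbit G x ⊆ T) :
    R.index ≤ T.ncard := by
  have h1 : R.index ∣ (MulAction.stabilizer G x).index := Subgroup.index_dvd_of_le hstab
  rw [MulAction.index_stabilizer] at h1
  have h2 : 0 < (MulAction.orbit G x).ncard := by
    rw [Set.ncard_pos (hT.subset horb)]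
    exact MulAction.nonempty_orbit x
  exact le_trans (Nat.le_of_dvd h2 h1) (Set.ncard_le_ncard horb hT)

theorem real_bound (q m d n : ℕ) (hq : 1 ≤ q) (hm : 2 * m ≤ d) (hn : n ≤ q ^ m - 1) :
    (n : ℝ) ≤ Real.sqrt ((q : ℝ) ^ d) - 1 := by
  have hq' : (1 : ℝ) ≤ (q : ℝ) := by exact_mod_cast hq
  have h1 : ((q : ℝ) ^ m) ≤ Real.sqrt ((q : ℝ) ^ d) := by
    apply Real.le_sqrt_of_sq_le
    rw [← pow_mul]
    exact pow_le_pow_right₀ hq' (by omega)
  have h3 : 1 ≤ q ^ m := Nat.one_le_pow _ _ hq
  have h2 : (n : ℝ) ≤ ((q : ℝ) ^ m) - 1 := by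
    have h4 : ((n : ℕ) : ℝ) ≤ ((q ^ m - 1 : ℕ) : ℝ) := by exact_mod_cast hn
    rw [Nat.cast_sub h3] at h4
    push_cast at h4
    exact h4
  linarith

section

variable {F V : Type*} [Field F] [Fintype F] [AddCommGroup V] [Module F V] [FiniteDimensional F V]

theorem ncard_sub_zero {V' : Type*} [AddCommGroup V'] [Module F V'] [FiniteDimensional F V']
    (W : Submodule F V') :
    ((W : Set V') \ {0}).ncard = Fintype.card F ^ Module.finrank F W - 1 := by
  have : Finite V' := Module.finite_of_finite F
  have hfin : (W : Set V').Finite := Set.toFinite _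
  rw [Set.ncard_sdiff_singleton_of_mem W.zero_mem]
  congr 1
  rw [← Nat.card_coe_set_eq]
  have := Module.natCard_eq_pow_finrank (K := F) (V := W)
  rw [Nat.card_eq_fintype_card (α := F)] at this
  exact this

/-- the contragredient action on the dual space -/
@[instance_reducible]
def dualAct (H : Subgroup (V ≃ₗ[F] V)) : MulAction H (Module.Dual F V) where
  smul h f := f ∘ₗ (((h⁻¹ : H) : V ≃ₗ[F] V) : V →ₗ[F] V)
  one_smul f := by
    ext v
    show f ((((1 : H)⁻¹ : H) : V ≃ₗ[F] V) v) = f v
    simp
  mul_smul g h f := by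
    ext v
    show f ((((g * h)⁻¹ : H) : V ≃ₗ[F] V) v) = f (((h⁻¹ : H) : V ≃ₗ[F] V) (((g⁻¹ : H) : V ≃ₗ[F] V) v))
    simp [mul_inv_rev]

end

/-- Let F be a finite field with q elements, V a non-zero finite-dimensional F-space of dimension d, H a group of invertible linear maps of V, and R the subgroup of H generated by the elements of H that fix some non-zero vector (have eigenvalue 1). Then the index of R in H is at most q^d − 1; and if H leaves invariant some proper non-zero subspace, the index is at most q^(d/2) − 1. -/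
theorem result {F V : Type*} [Field F] [Fintype F] [AddCommGroup V] [Module F V] [FiniteDimensional F V] [Nontrivial V]
    (H : Subgroup (V ≃ₗ[F] V)) :
    (Subgroup.closure {h : ↥H | ∃ v : V, v ≠ 0 ∧ (h : V ≃ₗ[F] V) v = v}).index ≤ Fintype.card F ^ Module.finrank F V - 1 ∧
    ((∃ W : Submodule F V, W ≠ ⊥ ∧ W ≠ ⊤ ∧ ∀ h ∈ H, ∀ w ∈ W, h w ∈ W) →
      ((Subgroup.closure {h : ↥H | ∃ v : V, v ≠ 0 ∧ (h : V ≃ₗ[F] V) v = v}).index : ℝ) ≤ Real.sqrt ((Fintype.card F : ℝ) ^ Module.finrank F V) - 1) := by
  have hVfin : Finite V := Module.finite_of_finite F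
  have hDfin : Finite (Module.Dual F V) := Module.finite_of_finite F
  have hq : 1 ≤ Fintype.card F := Fintype.card_pos
  set R := Subgroup.closure {h : ↥H | ∃ v : V, v ≠ 0 ∧ (h : V ≃ₗ[F] V) v = v} with hR
  -- generic bound for an invariant subspace
  have bound1 : ∀ W : Submodule F V, W ≠ ⊥ → (∀ h ∈ H, ∀ w ∈ W, h w ∈ W) →
      R.index ≤ Fintype.card F ^ Module.finrank F W - 1 := by
    intro W hW0 hinv
    obtain ⟨w, hwW, hw0⟩ := Submodule.exists_mem_ne_zero_of_ne_bot hW0
    rw [← ncard_sub_zero W]
    apply orbit_bound R w _ (Set.toFinite _)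
    · intro h hh
      rw [MulAction.mem_stabilizer_iff] at hh
      exact Subgroup.subset_closure ⟨w, hw0, hh⟩
    · rintro y ⟨h, rfl⟩
      refine ⟨hinv h h.2 w hwW, ?_⟩
      rw [Set.mem_singleton_iff]
      intro h0
      apply hw0
      have : (h : V ≃ₗ[F] V) w = 0 := h0
      exact (LinearEquiv.map_eq_zero_iff _).mp this
  constructor
  · have := bound1 ⊤ top_ne_bot (fun _ _ _ _ => Submodule.mem_top)
    rwa [finrank_top] at this
  · rintro ⟨W, hW0, hWtop, hinv⟩
    have hsum := Subspace.finrank_add_finrank_dualAnnihilator_eq W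
    by_cases hcase : 2 * Module.finrank F W ≤ Module.finrank F V
    · exact real_bound _ _ _ _ hq hcase (bound1 W hW0 hinv)
    · -- dual argument
      have hlt : Module.finrank F W < Module.finrank F V := Submodule.finrank_lt hWtop
      have hA0 : W.dualAnnihilator ≠ ⊥ := by
        intro h0
        rw [h0, finrank_bot] at hsum
        omega
      obtain ⟨f, hfA, hf0⟩ := Submodule.exists_mem_ne_zero_of_ne_bot hA0
      let _ := dualAct H
      have hb : R.index ≤ Fintype.card F ^ Module.finrank F W.dualAnnihilator - 1 := by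
        rw [← ncard_sub_zero W.dualAnnihilator]
        apply orbit_bound R f _ (Set.toFinite _)
        · intro h hh
          rw [MulAction.mem_stabilizer_iff] at hh
          -- f ∘ h⁻¹ = f, so f ∘ h = f
          have hfh : ∀ v, f ((h : V ≃ₗ[F] V) v) = f v := by
            intro v
            have h1 := LinearMap.congr_fun hh ((h : V ≃ₗ[F] V) v)
            have h2 : (h • f) ((h : V ≃ₗ[F] V) v) = f (((h⁻¹ : H) : V ≃ₗ[F] V) ((h : V ≃ₗ[F] V) v)) := rfl
            rw [h2] at h1
            have h3 : ((h⁻¹ : H) : V ≃ₗ[F] V) ((h : V ≃ₗ[F] V) v) = v := by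
              simp
            rw [h3] at h1
            exact h1.symm
          -- so h - 1 is not surjective, hence not injective
          let T : V →ₗ[F] V := ((h : V ≃ₗ[F] V) : V →ₗ[F] V) - LinearMap.id
          have hTns : ¬ Function.Surjective T := by
            intro hs
            apply hf0
            ext v
            obtain ⟨u, rfl⟩ := hs v
            simp [T, hfh]
          have hTni : ¬ Function.Injective T := fun hi => hTns (LinearMap.injective_iff_surjective.mp hi)
          rw [← LinearMap.ker_eq_bot] at hTni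
          obtain ⟨v, hvk, hv0⟩ := Submodule.exists_mem_ne_zero_of_ne_bot hTni
          apply Subgroup.subset_closure
          refine ⟨v, hv0, ?_⟩
          have : T v = 0 := hvk
          simp only [T, LinearMap.sub_apply, LinearMap.id_coe, id_eq, LinearEquiv.coe_coe] at this
          exact sub_eq_zero.mp this
        · rintro y ⟨h, rfl⟩
          refine ⟨?_, ?_⟩
          · rw [SetLike.mem_coe, Submodule.mem_dualAnnihilator]
            intro w hw
            show f (((h⁻¹ : H) : V ≃ₗ[F] V) w) = 0
            exact (Submodule.mem_dualAnnihilator f).mp hfA _ (hinv _ (h⁻¹).2 w hw)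
          · rw [Set.mem_singleton_iff]
            intro h0
            apply hf0
            ext v
            have h1 := LinearMap.congr_fun h0 ((h : V ≃ₗ[F] V) v)
            have h2 : (h • f) ((h : V ≃ₗ[F] V) v) = f (((h⁻¹ : H) : V ≃ₗ[F] V) ((h : V ≃ₗ[F] V) v)) := rfl
            rw [h2] at h1
            have h3 : ((h⁻¹ : H) : V ≃ₗ[F] V) ((h : V ≃ₗ[F] V) v) = v := by
              simp
            rw [h3] at h1
            simpa using h1
      exact real_bound _ _ _ _ hq (by omega) hb

end Cfsg.Agent.S4178
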