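import Cfsg.Statements.S4182
import Mathlib


set_option autoImplicit false
open Cfsg

namespace Cfsg.Agent.S4182

universe u v

open scoped Pointwise

/-- A `p`-group is not the union of at most `p` proper subgroups. -/
theorem pgroup_case {G : Type u} [Group G] [Finite G] (p : ℕ) [Fact p.Prime] (hG : IsPGroup p G)
    {ι : Type v} [Fintype ι] (hι : Fintype.card ι ≤ p) (K : ι → Subgroup G)
    (hcov : ∀ g : G, ∃ i, g ∈ K i) : ∃ i, K i = ⊤ := by
  classical
  by_contra hne
  push Not at hne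
  have hp := (Fact.out : p.Prime)
  have hNpos : 0 < Nat.card G := Nat.card_pos
  have h1 : ∀ i, p * Nat.card (K i) ≤ Nat.card G := by
    intro i
    obtain ⟨n, hn⟩ := hG.index (K i)
    have hn0 : n ≠ 0 := by
      rintro rfl
      rw [pow_zero, Subgroup.index_eq_one] at hn
      exact hne i hn
    have hdvd : p ∣ (K i).index := by rw [hn]; exact dvd_pow_self p hn0
    obtain ⟨m, hm⟩ := hdvd
    have hmul := (K i).card_mul_index
    rw [hm] at hmul
    have hm0 : 0 < m := by
      rcases Nat.eq_zero_or_pos m with h | h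
      · rw [h] at hmul; simp at hmul; omega
      · exact h
    calc p * Nat.card (K i) ≤ p * Nat.card (K i) * m := Nat.le_mul_of_pos_right _ hm0
      _ = Nat.card G := by rw [← hmul]; ring
  have h5 : ∀ i, ((K i : Set G) \ {1}).ncard = Nat.card (K i) - 1 := by
    intro i
    rw [Set.ncard_sdiff_singleton_of_mem (K i).one_mem]
    rfl
  have h2 : Nat.card G - 1 ≤ ∑ i, (Nat.card (K i) - 1) := by
    have hsub : (Set.univ \ {1} : Set G) ⊆ ⋃ i, ((K i : Set G) \ {1}) := by
      intro g hg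
      obtain ⟨i, hi⟩ := hcov g
      exact Set.mem_iUnion.mpr ⟨i, hi, hg.2⟩
    have h3 : (Set.univ \ {1} : Set G).ncard = Nat.card G - 1 := by
      rw [Set.ncard_sdiff_singleton_of_mem (Set.mem_univ _), Set.ncard_univ]
    have h4 : (⋃ i, ((K i : Set G) \ {1})).ncard ≤ ∑ i, ((K i : Set G) \ {1}).ncard :=
      Set.ncard_iUnion_le_of_fintype _
    rw [← h3]
    refine (Set.ncard_le_ncard hsub (Set.toFinite _)).trans (h4.trans ?_)
    exact le_of_eq (Finset.sum_congr rfl (fun i _ => h5 i))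
  obtain ⟨i₀, -⟩ := hcov 1
  have hpN : p ≤ Nat.card G := by
    have := h1 i₀
    have hc : 0 < Nat.card (K i₀) := Nat.card_pos
    nlinarith
  have h6 : p * ∑ i, (Nat.card (K i) - 1) ≤ p * (Nat.card G - p) := by
    rw [Finset.mul_sum]
    calc ∑ i, p * (Nat.card (K i) - 1) ≤ ∑ _i : ι, (Nat.card G - p) := by
          apply Finset.sum_le_sum
          intro i _
          have := h1 i
          rw [Nat.mul_sub, mul_one]
          omega
      _ = Fintype.card ι * (Nat.card G - p) := by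
          rw [Finset.sum_const, Finset.card_univ, smul_eq_mul]
      _ ≤ p * (Nat.card G - p) := Nat.mul_le_mul_right _ hι
  have h7 : ∑ i, (Nat.card (K i) - 1) ≤ Nat.card G - p := Nat.le_of_mul_le_mul_left h6 hp.pos
  have := hp.two_le
  omega

theorem main (p : ℕ) [Fact p.Prime] {ι : Type v} [Fintype ι] (hι : Fintype.card ι ≤ p) :
    ∀ (n : ℕ) (G : Type u) [Group G] [Finite G], Nat.card G = n →
      Subgroup.closure {g : G | ∃ k : ℕ, orderOf g = p ^ k} = ⊤ →
      ∀ (K : ι → Subgroup G), (∀ g : G, (∃ k : ℕ, orderOf g = p ^ k) → ∃ i, g ∈ K i) →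
        ∃ i, K i = ⊤ := by
  intro n
  induction n using Nat.strong_induction_on with
  | _ n ih =>
  intro G _ _ hn hgen K hcov
  classical
  by_contra hne
  push Not at hne
  have hp := (Fact.out : p.Prime)
  -- Step A
  have stepA : ∀ X : Subgroup G, X ≠ ⊤ →
      X ≤ Subgroup.closure {g : G | g ∈ X ∧ ∃ k : ℕ, orderOf g = p ^ k} → ∃ i, X ≤ K i := by
    intro X hX hPG
    have hlt : Nat.card X < n := by
      rw [← hn]
      exact lt_of_le_of_ne (Subgroup.card_le_card_group X)
        (fun h => hX (Subgroup.eq_top_of_card_eq X h))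
    have hgenX : Subgroup.closure {g : X | ∃ k : ℕ, orderOf g = p ^ k} = ⊤ := by
      rw [eq_top_iff]
      intro x _
      have hx : (x : G) ∈ (Subgroup.closure {g : X | ∃ k : ℕ, orderOf g = p ^ k}).map X.subtype := by
        rw [MonoidHom.map_closure]
        have : X.subtype '' {g : X | ∃ k : ℕ, orderOf g = p ^ k}
            = {g : G | g ∈ X ∧ ∃ k : ℕ, orderOf g = p ^ k} := by
          ext g
          constructor
          · rintro ⟨y, ⟨k, hk⟩, rfl⟩
            exact ⟨y.2, k, by rw [← hk]; exact Subgroup.orderOf_coe y⟩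
          · rintro ⟨hgX, k, hk⟩
            exact ⟨⟨g, hgX⟩, ⟨k, by rw [← hk]; exact Subgroup.orderOf_mk g hgX⟩, rfl⟩
        rw [this]
        exact hPG x.2
      obtain ⟨y, hy, hyx⟩ := hx
      have : y = x := Subtype.ext hyx
      exact this ▸ hy
    obtain ⟨i, hi⟩ := ih (Nat.card X) hlt X rfl hgenX (fun i => (K i).subgroupOf X) (by
      rintro g ⟨k, hk⟩
      obtain ⟨i, hi⟩ := hcov (g : G) ⟨k, by rw [← hk]; exact Subgroup.orderOf_coe g⟩
      exact ⟨i, Subgroup.mem_subgroupOf.mpr hi⟩)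
    exact ⟨i, Subgroup.subgroupOf_eq_top.mp hi⟩
  let O : ι → Subgroup G := fun i =>
    Subgroup.closure {g : G | g ∈ K i ∧ ∃ k : ℕ, orderOf g = p ^ k}
  have hOK : ∀ i, O i ≤ K i := fun i => (Subgroup.closure_le _).mpr (fun g hg => hg.1)
  have hOne : ∀ i, O i ≠ ⊤ := fun i h => hne i (top_le_iff.mp (h ▸ hOK i))
  have hOPG : ∀ i, O i ≤ Subgroup.closure {g : G | g ∈ O i ∧ ∃ k : ℕ, orderOf g = p ^ k} :=
    fun i => Subgroup.closure_mono (fun g hg => ⟨Subgroup.subset_closure hg, hg.2⟩)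
  have hOcov : ∀ g : G, (∃ k : ℕ, orderOf g = p ^ k) → ∃ i, g ∈ O i := by
    intro g hg
    obtain ⟨i, hi⟩ := hcov g hg
    exact ⟨i, Subgroup.subset_closure ⟨hi, hg⟩⟩
  let S : Set (Subgroup G) := Set.range O
  have hSfin : S.Finite := Set.finite_range O
  have stepA2 : ∀ X : Subgroup G, X ≠ ⊤ →
      X ≤ Subgroup.closure {g : G | g ∈ X ∧ ∃ k : ℕ, orderOf g = p ^ k} →
      ∃ M, Maximal (· ∈ S) M ∧ X ≤ M := by
    intro X hX hPG
    obtain ⟨i, hi⟩ := stepA X hX hPG
    have hXO : X ≤ O i := hPG.trans (Subgroup.closure_mono (fun g hg => ⟨hi hg.1, hg.2⟩))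
    obtain ⟨M, hM1, hM2⟩ := hSfin.exists_le_maximal (Set.mem_range_self i)
    exact ⟨M, hM2, hXO.trans hM1⟩
  have hSprop : ∀ M ∈ S, M ≠ ⊤ ∧
      M ≤ Subgroup.closure {g : G | g ∈ M ∧ ∃ k : ℕ, orderOf g = p ^ k} := by
    rintro M ⟨i, rfl⟩
    exact ⟨hOne i, hOPG i⟩
  have hAut : ∀ (a : MulAut G) (X : Subgroup G), X ≠ ⊤ →
      X ≤ Subgroup.closure {g : G | g ∈ X ∧ ∃ k : ℕ, orderOf g = p ^ k} →
      (a • X ≠ ⊤ ∧ a • X ≤ Subgroup.closure {g : G | g ∈ a • X ∧ ∃ k : ℕ, orderOf g = p ^ k}) := by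
    intro a X hX hPG
    constructor
    · intro h
      apply hX
      rw [eq_top_iff]
      intro y _
      have : a • y ∈ a • X := by rw [h]; trivial
      exact (Subgroup.smul_mem_pointwise_smul_iff).mp this
    · intro y hy
      have hy' : a⁻¹ • y ∈ X := Subgroup.mem_pointwise_smul_iff_inv_smul_mem.mp hy
      have h1 := hPG hy'
      have key : ∀ z ∈ Subgroup.closure {g : G | g ∈ X ∧ ∃ k : ℕ, orderOf g = p ^ k},
          a • z ∈ Subgroup.closure {g : G | g ∈ a • X ∧ ∃ k : ℕ, orderOf g = p ^ k} := by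
        intro z hz
        induction hz using Subgroup.closure_induction with
        | mem z hz =>
          refine Subgroup.subset_closure ⟨Subgroup.smul_mem_pointwise_smul _ _ _ hz.1, ?_⟩
          obtain ⟨k, hk⟩ := hz.2
          exact ⟨k, by rw [← hk]; exact MulEquiv.orderOf_eq a z⟩
        | one => rw [smul_one]; exact Subgroup.one_mem _
        | mul z w _ _ hz hw => rw [smul_mul']; exact Subgroup.mul_mem _ hz hw
        | inv z _ hz => rw [smul_inv']; exact Subgroup.inv_mem _ hz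
      have h2 := key _ h1
      rwa [smul_inv_smul] at h2
  have hB : ∀ (a : MulAut G) (M : Subgroup G), Maximal (· ∈ S) M → Maximal (· ∈ S) (a • M) := by
    intro a M hM
    obtain ⟨h1, h2⟩ := hSprop M hM.prop
    obtain ⟨h3, h4⟩ := hAut a M h1 h2
    obtain ⟨M', hM', hle⟩ := stepA2 (a • M) h3 h4
    obtain ⟨h5, h6⟩ := hSprop M' hM'.prop
    obtain ⟨h7, h8⟩ := hAut a⁻¹ M' h5 h6
    obtain ⟨M'', hM'', hle'⟩ := stepA2 (a⁻¹ • M') h7 h8
    have hMM'' : M ≤ M'' := (Subgroup.pointwise_smul_subset_iff.mp hle).trans hle'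
    have h9 : M'' ≤ M := hM.le_of_ge hM''.prop hMM''
    have h10 : a⁻¹ • M' ≤ M := hle'.trans h9
    have h11 : M' ≤ a • M := Subgroup.subset_pointwise_smul_iff.mpr h10
    have h12 : a • M = M' := le_antisymm hle h11
    rw [h12]; exact hM'
  have hMMcard : {M : Subgroup G | Maximal (· ∈ S) M}.ncard ≤ p := by
    refine le_trans ?_ hι
    have h1 : {M : Subgroup G | Maximal (· ∈ S) M} ⊆ S := fun M hM => hM.prop
    refine (Set.ncard_le_ncard h1 hSfin).trans ?_
    have h2 : S = O '' Set.univ := by simp [S]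
    rw [h2]
    refine (Set.ncard_image_le (Set.toFinite _)).trans ?_
    rw [Set.ncard_univ, Nat.card_eq_fintype_card]
  have hfix : ∀ x : G, (∃ k : ℕ, orderOf x = p ^ k) → ∀ M, Maximal (· ∈ S) M →
      MulAut.conj x • M = M := by
    intro x hx M hM
    by_contra hxM
    obtain ⟨i, hi⟩ := hOcov x hx
    obtain ⟨M₀, hM₀le, hM₀⟩ := hSfin.exists_le_maximal (Set.mem_range_self i)
    have hxM₀ : x ∈ M₀ := hM₀le hi
    have hfix₀ : MulAut.conj x • M₀ = M₀ := Subgroup.conj_smul_eq_self_of_mem hxM₀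
    let Z : Subgroup (MulAut G) := Subgroup.zpowers (MulAut.conj x)
    have hZ : IsPGroup p Z := by
      obtain ⟨k, hk⟩ := hx
      have hd : orderOf (MulAut.conj x) ∣ p ^ k := hk ▸ orderOf_map_dvd MulAut.conj x
      obtain ⟨j, -, hj⟩ := (Nat.dvd_prime_pow hp).mp hd
      exact IsPGroup.of_card (n := j) (by rw [Nat.card_zpowers, hj])
    have hZstab : Z ≤ MulAction.stabilizer (MulAut G) M₀ := by
      rw [Subgroup.zpowers_le]; exact hfix₀
    have : Finite (MulAction.orbit Z M) := Set.Finite.to_subtype (Set.toFinite _)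
    obtain ⟨n, hn⟩ := hZ.card_orbit M
    have hsub : MulAction.orbit Z M ⊆ {M : Subgroup G | Maximal (· ∈ S) M} \ {M₀} := by
      rintro _ ⟨z, rfl⟩
      refine ⟨hB z.1 M hM, ?_⟩
      intro h
      have h1 : (z : MulAut G) • M = M₀ := h
      have h2 : (z : MulAut G) • M₀ = M₀ := hZstab z.2
      have h3 : M = M₀ := smul_left_cancel _ (h1.trans h2.symm)
      exact hxM (h3 ▸ hfix₀)
    have hle : (MulAction.orbit Z M).ncard ≤ p - 1 := by
      refine (Set.ncard_le_ncard hsub (Set.toFinite _)).trans ?_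
      rw [Set.ncard_sdiff_singleton_of_mem (show M₀ ∈ {M : Subgroup G | Maximal (· ∈ S) M} from hM₀)]
      omega
    have hcard : (MulAction.orbit Z M).ncard = p ^ n := hn
    rcases Nat.eq_zero_or_pos n with rfl | hnpos
    · rw [pow_zero] at hn
      have hsubs : Subsingleton (MulAction.orbit Z M) :=
        (Finite.card_le_one_iff_subsingleton).mp hn.le
      have h1 : M ∈ MulAction.orbit Z M := MulAction.mem_orbit_self M
      have h2 : MulAut.conj x • M ∈ MulAction.orbit Z M :=
        ⟨⟨MulAut.conj x, Subgroup.mem_zpowers _⟩, rfl⟩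
      have := congrArg Subtype.val (hsubs.elim ⟨_, h2⟩ ⟨_, h1⟩)
      exact hxM this
    · have : p ≤ p ^ n := Nat.le_self_pow hnpos.ne' p
      have := hp.two_le
      omega
  have hnormal : ∀ M, Maximal (· ∈ S) M → M.Normal := by
    intro M hM
    rw [← Subgroup.normalizer_eq_top_iff, eq_top_iff, ← hgen, Subgroup.closure_le]
    intro x hx
    rw [SetLike.mem_coe, Subgroup.mem_normalizer_iff_map_conj_eq]
    exact hfix x hx M hM
  obtain ⟨P⟩ : Nonempty (Sylow p G) := inferInstance
  by_cases hP : (P : Subgroup G) = ⊤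
  · have hG : IsPGroup p G := by
      intro g
      have hg : g ∈ (P : Subgroup G) := by rw [hP]; trivial
      obtain ⟨k, hk⟩ := P.isPGroup' ⟨g, hg⟩
      exact ⟨k, by simpa using congrArg Subtype.val hk⟩
    obtain ⟨i, hi⟩ := pgroup_case p hG hι K (fun g => hcov g (IsPGroup.iff_orderOf.mp hG g))
    exact hne i hi
  · have hPPG : (P : Subgroup G) ≤
        Subgroup.closure {g : G | g ∈ (P : Subgroup G) ∧ ∃ k : ℕ, orderOf g = p ^ k} := by
      intro g hg
      refine Subgroup.subset_closure ⟨hg, ?_⟩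
      obtain ⟨k, hk⟩ := IsPGroup.iff_orderOf.mp P.isPGroup' ⟨g, hg⟩
      exact ⟨k, by rw [← hk]; exact (Subgroup.orderOf_mk g hg).symm⟩
    obtain ⟨M, hM, hPM⟩ := stepA2 _ hP hPPG
    have := hnormal M hM
    apply (hSprop M hM.prop).1
    rw [eq_top_iff, ← hgen, Subgroup.closure_le]
    rintro g ⟨k, hk⟩
    have h1 : orderOf (QuotientGroup.mk' M g) ∣ p ^ k := hk ▸ orderOf_map_dvd _ g
    have h2 : orderOf (QuotientGroup.mk' M g) ∣ M.index := by
      rw [Subgroup.index_eq_card]; exact orderOf_dvd_natCard _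
    have h3 : M.index ∣ (P : Subgroup G).index := Subgroup.index_dvd_of_le hPM
    have h4 : ¬ p ∣ (P : Subgroup G).index := P.not_dvd_index
    have h5 : orderOf (QuotientGroup.mk' M g) = 1 := by
      obtain ⟨j, -, hj⟩ := (Nat.dvd_prime_pow hp).mp h1
      rcases Nat.eq_zero_or_pos j with rfl | hjpos
      · simpa using hj
      · exfalso; apply h4
        exact (dvd_pow_self p hjpos.ne').trans (hj ▸ h2.trans h3)
    rw [orderOf_eq_one_iff] at h5
    exact (QuotientGroup.eq_one_iff g).mp h5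

/-- Let p be a prime and G a finite group generated by its p-elements. If a finite family of proper subgroups of G covers the set of p-elements of G (every element of p-power order lies in one of them), then the family has at least p + 1 members. -/
theorem result {G : Type*} [Group G] [Finite G] (p : ℕ) [Fact p.Prime] (hgen : Subgroup.closure {g : G | ∃ k : ℕ, orderOf g = p ^ k} = ⊤)
    {ι : Type*} [Fintype ι] (K : ι → Subgroup G) (hK : ∀ i, K i ≠ ⊤)
    (hcov : ∀ g : G, (∃ k : ℕ, orderOf g = p ^ k) → ∃ i, g ∈ K i) :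
    p + 1 ≤ Fintype.card ι := by
  by_contra hlt
  push Not at hlt
  obtain ⟨i, hi⟩ := main p (Nat.lt_succ_iff.mp hlt) (Nat.card G) G rfl hgen K hcov
  exact hK i hi

end Cfsg.Agent.S4182
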