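import Cfsg.Statements.S4184
import Mathlib

set_option autoImplicit false
open Cfsg

namespace Cfsg.Agent.S4184

theorem coprime_of_no_common_prime {a b : ℕ} (h : ∀ p, p.Prime → p ∣ a → p ∣ b → False) :
    a.Coprime b := by
  by_contra hc
  obtain ⟨p, hp, hpd⟩ := Nat.exists_prime_and_dvd hc
  exact h p hp (dvd_trans hpd (Nat.gcd_dvd_left a b)) (dvd_trans hpd (Nat.gcd_dvd_right a b))

theorem exists_parts (n : ℕ) (hn : n ≠ 0) (A : Set ℕ) :
    ∃ m₁ m₂ : ℕ, m₁ * m₂ = n ∧ (∀ p, p.Prime → p ∣ m₁ → p ∈ A) ∧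
      (∀ p, p.Prime → p ∣ m₂ → p ∉ A) := by
  classical
  refine ⟨(n.factorization.filter (· ∈ A)).prod (· ^ ·),
    (n.factorization.filter (fun a => ¬ a ∈ A)).prod (· ^ ·), ?_, ?_, ?_⟩
  · rw [Finsupp.prod_filter_mul_prod_filter_not]
    exact Nat.prod_factorization_pow_eq_self hn
  · intro p hp hd
    rw [Finsupp.prod_filter_index] at hd
    obtain ⟨x, hx, hpx⟩ := (Prime.dvd_finsetProd_iff hp.prime _).mp hd
    rw [Finsupp.support_filter, Finset.mem_filter] at hx
    have hxp : x.Prime := Nat.prime_of_mem_primeFactors (by simpa using hx.1)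
    have := hp.dvd_of_dvd_pow hpx
    rw [(Nat.prime_dvd_prime_iff_eq hp hxp).mp this]
    exact hx.2
  · intro p hp hd
    rw [Finsupp.prod_filter_index] at hd
    obtain ⟨x, hx, hpx⟩ := (Prime.dvd_finsetProd_iff hp.prime _).mp hd
    rw [Finsupp.support_filter, Finset.mem_filter] at hx
    have hxp : x.Prime := Nat.prime_of_mem_primeFactors (by simpa using hx.1)
    have := hp.dvd_of_dvd_pow hpx
    rw [(Nat.prime_dvd_prime_iff_eq hp hxp).mp this]
    exact hx.2

section grp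

variable {G : Type*} [Group G]

/-- class size -/
noncomputable abbrev cs (g : G) : ℕ := (Subgroup.centralizer ({g} : Set G)).index

theorem cs_ne_zero [Finite G] (g : G) : cs g ≠ 0 := Subgroup.index_ne_zero_of_finite

theorem cs_mul_card (g : G) : cs g * Nat.card (Subgroup.centralizer ({g} : Set G)) = Nat.card G :=
  Subgroup.index_mul_card _

theorem cent_le_cent_pow (b : G) (j : ℕ) :
    Subgroup.centralizer ({b} : Set G) ≤ Subgroup.centralizer ({b ^ j} : Set G) := by
  intro c hc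
  rw [Subgroup.mem_centralizer_iff] at hc ⊢
  intro a ha
  rw [Set.mem_singleton_iff] at ha
  subst ha
  have h1 : Commute b c := hc b rfl
  exact (h1.pow_left j).eq

theorem cs_pow_dvd (b : G) (j : ℕ) : cs (b ^ j) ∣ cs b :=
  Subgroup.index_dvd_of_le (cent_le_cent_pow b j)

theorem cs_one : cs (1 : G) = 1 := by
  have : Subgroup.centralizer ({1} : Set G) = ⊤ := by
    rw [eq_top_iff]
    intro c _
    rw [Subgroup.mem_centralizer_iff]
    intro a ha
    rw [Set.mem_singleton_iff] at ha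
    subst ha
    simp
  rw [cs, this, Subgroup.index_top]

theorem cs_eq_one_iff (g : G) : cs g = 1 ↔ g ∈ Subgroup.center G := by
  rw [cs, Subgroup.index_eq_one, Subgroup.mem_center_iff, eq_top_iff]
  constructor
  · intro h c
    have := h (Subgroup.mem_top c)
    rw [Subgroup.mem_centralizer_iff] at this
    exact (this g rfl).symm
  · intro h c _
    rw [Subgroup.mem_centralizer_iff]
    intro a ha
    rw [Set.mem_singleton_iff] at ha
    subst ha
    exact (h c).symm

theorem exists_pow_eq_left [Finite G] {a b : G} (hc : Commute a b)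
    (hcop : (orderOf a).Coprime (orderOf b)) : ∃ k : ℕ, (a * b) ^ k = a := by
  obtain ⟨k, hk1, hk2⟩ := Nat.chineseRemainder hcop 1 0
  refine ⟨k, ?_⟩
  rw [hc.mul_pow]
  have h1 : a ^ k = a ^ 1 := pow_eq_pow_iff_modEq.mpr hk1
  have h2 : b ^ k = b ^ 0 := pow_eq_pow_iff_modEq.mpr hk2
  rw [h1, h2]; simp

theorem exists_pow_eq_right [Finite G] {a b : G} (hc : Commute a b)
    (hcop : (orderOf a).Coprime (orderOf b)) : ∃ k : ℕ, (a * b) ^ k = b := by
  obtain ⟨k, hk⟩ := exists_pow_eq_left hc.symm hcop.symm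
  exact ⟨k, by rw [hc.eq]; exact hk⟩

theorem cs_conj (h z : G) : cs (h * z * h⁻¹) = cs z := by
  have key : ∀ x : G, Nat.card {y : G // IsConj x y} = cs x := by
    intro x
    have h1 := MulAction.index_stabilizer (ConjAct G) x
    rw [ConjAct.stabilizer_eq_centralizer] at h1
    have h2 : (MulAction.orbit (ConjAct G) x) = {y | IsConj x y} := by
      ext y
      rw [ConjAct.mem_orbit_conjAct]
      exact isConj_comm
    rw [h2] at h1
    rw [← Set.coe_ofPred, Nat.card_coe_set_eq, ← h1]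
    rfl
  rw [← key, ← key]
  apply Nat.card_congr
  apply Equiv.subtypeEquivRight
  intro y
  have hc : IsConj z (h * z * h⁻¹) := isConj_iff.mpr ⟨h, rfl⟩
  exact ⟨fun h1 => hc.trans h1, fun h1 => hc.symm.trans h1⟩

end grp


section lemK

variable {G : Type*} [Group G] [Finite G] (u v : ℕ)

omit [Finite G] in
theorem P1 (hcop : u.Coprime v) (hi : ∀ g : G, g ≠ 1 → u ∣ cs g ∨ v ∣ cs g)
    (hii : ∀ g : G, ¬ u * v ∣ cs g) {a b : G} (j : ℕ) (hab : b ^ j = a) (ha : a ≠ 1)
    (hu : u ∣ cs b) : u ∣ cs a := by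
  have hd : cs a ∣ cs b := hab ▸ cs_pow_dvd b j
  rcases hi a ha with h | h
  · exact h
  · exact absurd (hcop.mul_dvd_of_dvd_of_dvd hu (dvd_trans h hd)) (hii b)

theorem P2 (hcop : u.Coprime v) (hi : ∀ g : G, g ≠ 1 → u ∣ cs g ∨ v ∣ cs g)
    (hii : ∀ g : G, ¬ u * v ∣ cs g) {a b : G} (hc : Commute a b)
    (hco : (orderOf a).Coprime (orderOf b)) (ha : a ≠ 1) (hu : u ∣ cs b) : u ∣ cs a := by
  obtain ⟨k, hk⟩ := exists_pow_eq_right hc hco
  obtain ⟨k', hk'⟩ := exists_pow_eq_left hc hco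
  have h0 : cs b ∣ cs (a * b) := by
    have := cs_pow_dvd (a * b) k
    rwa [hk] at this
  have h1 : u ∣ cs (a * b) := dvd_trans hu h0
  exact P1 u v hcop hi hii k' hk' ha h1

theorem lemK (hcop : u.Coprime v) (hi : ∀ g : G, g ≠ 1 → u ∣ cs g ∨ v ∣ cs g)
    (hii : ∀ g : G, ¬ u * v ∣ cs g) (hiii : ∀ g : G, cs g ∣ u * v)
    (r : ℕ) (hr : r.Prime) (hrd : r * (u * v) ∣ Nat.card G) (hrv : ¬ r ∣ v)
    (hiv : ∃ g : G, u ∣ cs g) :
    ∃ R : Sylow r G, ∀ z ∈ (R : Subgroup G),
      (∀ y ∈ (R : Subgroup G), y * z = z * y) → z ≠ 1 → u ∣ cs z := by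
  have : Fact r.Prime := ⟨hr⟩
  obtain ⟨g, hg⟩ := hiv
  have hG0 : Nat.card G ≠ 0 := Nat.card_pos.ne'
  obtain ⟨k', hk'⟩ := hrd
  have huv0 : u * v ≠ 0 := by
    intro h; rw [h] at hk'; simp at hk'; exact hG0 hk'
  have hu0 : u ≠ 0 := fun h => huv0 (by rw [h, zero_mul])
  -- Step 1
  have hrC : r ∣ Nat.card (Subgroup.centralizer ({g} : Set G)) := by
    obtain ⟨e, he⟩ := hiii g
    have h1 := cs_mul_card g
    rw [hk', he] at h1
    have h2 : cs g * Nat.card (Subgroup.centralizer ({g} : Set G)) = cs g * (r * e * k') := by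
      rw [h1]; ring
    have h3 := Nat.eq_of_mul_eq_mul_left (Nat.pos_of_ne_zero (cs_ne_zero g)) h2
    rw [h3]
    exact ⟨e * k', by ring⟩
  -- Step 2
  have step2 : ∃ u₀ : G, orderOf u₀ = r ∧ u ∣ cs u₀ := by
    by_cases hro : r ∣ orderOf g
    · refine ⟨g ^ (orderOf g / r), orderOf_pow_orderOf_div (orderOf_pos g).ne' hro, ?_⟩
      refine P1 u v hcop hi hii (orderOf g / r) rfl ?_ hg
      intro h
      have := orderOf_pow_orderOf_div (orderOf_pos g).ne' hro
      rw [h, orderOf_one] at this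
      exact hr.one_lt.ne this
    · obtain ⟨y, hy⟩ := exists_prime_orderOf_dvd_card' r hrC
      refine ⟨(y : G), by rw [Subgroup.orderOf_coe]; exact hy, ?_⟩
      have hyo : orderOf (y : G) = r := by rw [Subgroup.orderOf_coe]; exact hy
      have hc : Commute (y : G) g := by
        have := y.2
        rw [Subgroup.mem_centralizer_iff] at this
        exact (this g rfl).symm
      refine P2 u v hcop hi hii hc ?_ ?_ hg
      · rw [hyo]; exact (Nat.Prime.coprime_iff_not_dvd hr).mpr hro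
      · intro h
        rw [h, orderOf_one] at hyo
        exact hr.one_lt.ne hyo
  obtain ⟨u₀, hu₀o, hu₀⟩ := step2
  have hu₀1 : u₀ ≠ 1 := by
    intro h
    rw [h, orderOf_one] at hu₀o
    exact hr.one_lt.ne hu₀o
  -- Step 3
  obtain ⟨c, hc⟩ := hu₀
  have hcv : c ∣ v := by
    have := hiii u₀
    rw [hc] at this
    exact Nat.dvd_of_mul_dvd_mul_left (Nat.pos_of_ne_zero hu0) this
  obtain ⟨d, hd⟩ := hcv
  have hc0 : c ≠ 0 := by
    intro h; rw [h, mul_zero] at hc; exact cs_ne_zero u₀ hc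
  have hd1 : d ≠ 1 := by
    intro h
    rw [h, mul_one] at hd
    apply hii u₀
    rw [hc, hd]
  obtain ⟨t, ht, htd⟩ := Nat.exists_prime_and_dvd hd1
  have : Fact t.Prime := ⟨ht⟩
  have htv : t ∣ v := by rw [hd]; exact dvd_mul_of_dvd_right htd c
  have htr : t ≠ r := by
    intro h; rw [h] at htv; exact hrv htv
  have htC : t ∣ Nat.card (Subgroup.centralizer ({u₀} : Set G)) := by
    have h1 := cs_mul_card u₀
    rw [hk', hc, hd] at h1
    have h2 : (u * c) * Nat.card (Subgroup.centralizer ({u₀} : Set G)) = (u * c) * (r * d * k') := by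
      rw [h1]; ring
    have h3 := Nat.eq_of_mul_eq_mul_left (Nat.pos_of_ne_zero (mul_ne_zero hu0 hc0)) h2
    rw [h3]
    exact dvd_mul_of_dvd_left (dvd_mul_of_dvd_right htd r) k'
  obtain ⟨w', hw'⟩ := exists_prime_orderOf_dvd_card' t htC
  have hwo : orderOf (w' : G) = t := by rw [Subgroup.orderOf_coe]; exact hw'
  have hw1 : (w' : G) ≠ 1 := by
    intro h
    rw [h, orderOf_one] at hwo
    exact ht.one_lt.ne hwo
  have hcomm : Commute u₀ (w' : G) := by
    have := w'.2
    rw [Subgroup.mem_centralizer_iff] at this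
    exact (this u₀ rfl)
  have hcoprime : (orderOf u₀).Coprime (orderOf (w' : G)) := by
    rw [hu₀o, hwo]; exact (Nat.coprime_primes hr ht).mpr (Ne.symm htr)
  have hu₀' : u ∣ cs u₀ := ⟨c, hc⟩
  have hw : u ∣ cs (w' : G) := P2 u v hcop hi hii hcomm.symm hcoprime.symm hw1 hu₀'
  obtain ⟨k1, hk1⟩ := exists_pow_eq_left hcomm hcoprime
  obtain ⟨k2, hk2⟩ := exists_pow_eq_right hcomm hcoprime
  set x := u₀ * (w' : G) with hxdef
  have hxu : u ∣ cs x := by
    have := cs_pow_dvd x k1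
    rw [hk1] at this
    exact dvd_trans hu₀' this
  have hCx_le_u₀ : Subgroup.centralizer ({x} : Set G) ≤ Subgroup.centralizer ({u₀} : Set G) := by
    have := cent_le_cent_pow x k1
    rwa [hk1] at this
  have hCx_le_w : Subgroup.centralizer ({x} : Set G) ≤ Subgroup.centralizer ({(w' : G)} : Set G) := by
    have := cent_le_cent_pow x k2
    rwa [hk2] at this
  -- Step 4
  obtain ⟨c', hc'⟩ := hxu
  have hc'v : c' ∣ v := by
    have := hiii x
    rw [hc'] at this
    exact Nat.dvd_of_mul_dvd_mul_left (Nat.pos_of_ne_zero hu0) this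
  have hc'0 : c' ≠ 0 := by
    intro h; rw [h, mul_zero] at hc'; exact cs_ne_zero x hc'
  have hrc : ¬ r ∣ c := fun h => hrv (dvd_trans h ⟨d, hd⟩)
  have hrc' : ¬ r ∣ c' := fun h => hrv (dvd_trans h hc'v)
  have hC0 : Nat.card (Subgroup.centralizer ({u₀} : Set G)) ≠ 0 := Nat.card_pos.ne'
  have hCx0 : Nat.card (Subgroup.centralizer ({x} : Set G)) ≠ 0 := Nat.card_pos.ne'
  have hfact : (Nat.card (Subgroup.centralizer ({u₀} : Set G))).factorization r =
      (Nat.card (Subgroup.centralizer ({x} : Set G))).factorization r := by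
    have h1 := cs_mul_card u₀
    have h2 := cs_mul_card x
    rw [hc] at h1
    rw [hc'] at h2
    have h3 : (u * c * Nat.card (Subgroup.centralizer ({u₀} : Set G))).factorization r =
        (u * c' * Nat.card (Subgroup.centralizer ({x} : Set G))).factorization r := by
      rw [h1, h2]
    rw [Nat.factorization_mul (mul_ne_zero hu0 hc0) hC0, Nat.factorization_mul hu0 hc0,
      Nat.factorization_mul (mul_ne_zero hu0 hc'0) hCx0, Nat.factorization_mul hu0 hc'0] at h3
    simp only [Finsupp.coe_add, Pi.add_apply] at h3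
    rw [Nat.factorization_eq_zero_of_not_dvd hrc, Nat.factorization_eq_zero_of_not_dvd hrc'] at h3
    omega
  have hu₀Cx : u₀ ∈ Subgroup.centralizer ({x} : Set G) := by
    rw [Subgroup.mem_centralizer_iff]
    intro a ha
    rw [Set.mem_singleton_iff] at ha
    subst ha
    rw [hxdef, mul_assoc, ← hcomm.eq]
  have hZp : IsPGroup r (Subgroup.zpowers u₀) := by
    rw [IsPGroup.iff_card, Nat.card_zpowers, hu₀o]
    exact ⟨1, (pow_one r).symm⟩
  obtain ⟨Q, hQ⟩ := (hZp.comap_subtype (K := Subgroup.centralizer ({x} : Set G))).exists_le_sylow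
  have hR₂p : IsPGroup r ((Q : Subgroup (Subgroup.centralizer ({x} : Set G))).map
      (Subgroup.centralizer ({x} : Set G)).subtype) := Q.isPGroup'.map _
  have hR₂card : Nat.card ((Q : Subgroup (Subgroup.centralizer ({x} : Set G))).map
      (Subgroup.centralizer ({x} : Set G)).subtype) =
      r ^ (Nat.card (Subgroup.centralizer ({x} : Set G))).factorization r := by
    rw [Subgroup.card_subtype, Sylow.card_eq_multiplicity]
  have hR₂le : (Q : Subgroup (Subgroup.centralizer ({x} : Set G))).map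
      (Subgroup.centralizer ({x} : Set G)).subtype ≤ Subgroup.centralizer ({x} : Set G) :=
    Subgroup.map_subtype_le _
  have hu₀R₂ : u₀ ∈ (Q : Subgroup (Subgroup.centralizer ({x} : Set G))).map
      (Subgroup.centralizer ({x} : Set G)).subtype := by
    rw [Subgroup.mem_map]
    refine ⟨⟨u₀, hu₀Cx⟩, hQ ?_, rfl⟩
    rw [Subgroup.mem_comap]
    exact Subgroup.mem_zpowers u₀
  set R₂ := (Q : Subgroup (Subgroup.centralizer ({x} : Set G))).map
      (Subgroup.centralizer ({x} : Set G)).subtype with hR₂def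
  obtain ⟨R', hR'⟩ := hR₂p.exists_le_sylow
  refine ⟨R', ?_⟩
  intro z hz hzc hz1
  have hzu₀ : z ∈ Subgroup.centralizer ({u₀} : Set G) := by
    rw [Subgroup.mem_centralizer_iff]
    intro a ha
    rw [Set.mem_singleton_iff] at ha
    subst ha
    exact hzc a (hR' hu₀R₂)
  have hSle : R₂ ⊔ Subgroup.zpowers z ≤ (R' : Subgroup G) :=
    sup_le hR' ((Subgroup.zpowers_le).mpr hz)
  have hSp : IsPGroup r ↥(R₂ ⊔ Subgroup.zpowers z) := R'.isPGroup'.to_le hSle
  have hSC : R₂ ⊔ Subgroup.zpowers z ≤ Subgroup.centralizer ({u₀} : Set G) :=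
    sup_le (hR₂le.trans hCx_le_u₀) ((Subgroup.zpowers_le).mpr hzu₀)
  have hScard : Nat.card ↥(R₂ ⊔ Subgroup.zpowers z) ≤ Nat.card R₂ := by
    obtain ⟨n, hn⟩ := IsPGroup.iff_card.mp hSp
    have h1 : r ^ n ∣ Nat.card (Subgroup.centralizer ({u₀} : Set G)) := by
      rw [← hn]; exact Subgroup.card_dvd_of_le hSC
    have h2 := (Nat.Prime.pow_dvd_iff_le_factorization hr hC0).mp h1
    rw [hn, hR₂card, ← hfact]
    exact Nat.pow_le_pow_right hr.pos h2
  have hSeq : R₂ = R₂ ⊔ Subgroup.zpowers z := Subgroup.eq_of_le_of_card_ge le_sup_left hScard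
  have hzR₂ : z ∈ R₂ := by
    rw [hSeq]; exact (le_sup_right : Subgroup.zpowers z ≤ _) (Subgroup.mem_zpowers z)
  have hzw := hCx_le_w (hR₂le hzR₂)
  rw [Subgroup.mem_centralizer_iff] at hzw
  have hzwc : Commute z (w' : G) := (hzw _ rfl).symm
  have hzo : (orderOf z).Coprime (orderOf (w' : G)) := by
    obtain ⟨n, hn⟩ := R'.isPGroup' ⟨z, hz⟩
    have hn' : z ^ r ^ n = 1 := by
      have := congrArg Subtype.val hn
      simpa using this
    obtain ⟨j, _, hj⟩ := (Nat.dvd_prime_pow hr).mp (orderOf_dvd_of_pow_eq_one hn')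
    rw [hj, hwo]
    exact Nat.Coprime.pow_left j ((Nat.coprime_primes hr ht).mpr (Ne.symm htr))
  exact P2 u v hcop hi hii hzwc hzo hz1 hw

end lemK


section lemL

variable {G : Type*} [Group G] [Finite G]

theorem transport (u r : ℕ) [Fact r.Prime] (R R' : Sylow r G)
    (h : ∀ z ∈ (R' : Subgroup G), (∀ y ∈ (R' : Subgroup G), y * z = z * y) → z ≠ 1 → u ∣ cs z) :
    ∀ z ∈ (R : Subgroup G), (∀ y ∈ (R : Subgroup G), y * z = z * y) → z ≠ 1 → u ∣ cs z := by
  obtain ⟨g, hg⟩ := MulAction.exists_smul_eq G R' R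
  have hmem : ∀ x, x ∈ (R : Subgroup G) ↔ g⁻¹ * x * g ∈ (R' : Subgroup G) := by
    intro x
    rw [← hg, Sylow.smul_def, Sylow.pointwise_smul_def,
      Subgroup.mem_pointwise_smul_iff_inv_smul_mem]
    simp [MulAut.smul_def]
  intro z hz hzc hz1
  have h1 : ∀ y ∈ (R' : Subgroup G), y * (g⁻¹ * z * g) = g⁻¹ * z * g * y := by
    intro y hy
    have hy' : g * y * g⁻¹ ∈ (R : Subgroup G) := by
      rw [hmem]
      have : g⁻¹ * (g * y * g⁻¹) * g = y := by group
      rw [this]; exact hy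
    have := hzc _ hy'
    calc y * (g⁻¹ * z * g) = g⁻¹ * (g * y * g⁻¹ * z) * g := by group
      _ = g⁻¹ * (z * (g * y * g⁻¹)) * g := by rw [this]
      _ = g⁻¹ * z * g * y := by group
  have h2 : g⁻¹ * z * g ≠ 1 := by
    intro h1
    apply hz1
    calc z = g * (g⁻¹ * z * g) * g⁻¹ := by group
      _ = 1 := by rw [h1]; group
  have h3 := h (g⁻¹ * z * g) ((hmem z).mp hz) h1 h2
  have e := cs_conj g⁻¹ z
  rw [inv_inv] at e
  rwa [e] at h3

theorem lemL (u v : ℕ) (hcop : u.Coprime v)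
    (hi : ∀ g : G, g ≠ 1 → u ∣ cs g ∨ v ∣ cs g) (hii : ∀ g : G, ¬ u * v ∣ cs g)
    (hiii : ∀ g : G, cs g ∣ u * v) (hivu : ∃ g : G, u ∣ cs g) (hivv : ∃ g : G, v ∣ cs g) :
    Nat.card G = u * v := by
  have hdiv : u * v ∣ Nat.card G := by
    obtain ⟨g, hg⟩ := hivu
    obtain ⟨g', hg'⟩ := hivv
    exact hcop.mul_dvd_of_dvd_of_dvd (dvd_trans hg (Subgroup.index_dvd_card _))
      (dvd_trans hg' (Subgroup.index_dvd_card _))
  by_contra hne
  obtain ⟨k, hk⟩ := hdiv
  have hk1 : k ≠ 1 := by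
    intro h; rw [h, mul_one] at hk; exact hne hk
  obtain ⟨r, hr, hrk⟩ := Nat.exists_prime_and_dvd hk1
  have hrd : r * (u * v) ∣ Nat.card G := by
    rw [hk]
    obtain ⟨e, he⟩ := hrk
    exact ⟨e, by rw [he]; ring⟩
  have : Fact r.Prime := ⟨hr⟩
  let R : Sylow r G := default
  have hRne : ∃ z ∈ (R : Subgroup G), (∀ y ∈ (R : Subgroup G), y * z = z * y) ∧ z ≠ 1 := by
    have hrG : r ∣ Nat.card G := dvd_trans (dvd_mul_right r (u * v)) hrd
    have hRnt : Nontrivial (R : Subgroup G) := by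
      rw [← Finite.one_lt_card_iff_nontrivial, Sylow.card_eq_multiplicity]
      have : 0 < (Nat.card G).factorization r :=
        hr.factorization_pos_of_dvd Nat.card_pos.ne' hrG
      exact Nat.one_lt_pow this.ne' hr.one_lt
    have hc := IsPGroup.center_nontrivial R.isPGroup'
    obtain ⟨z, hz⟩ := exists_ne (1 : Subgroup.center (R : Subgroup G))
    refine ⟨((z : (R : Subgroup G)) : G), (z : (R : Subgroup G)).2, ?_, ?_⟩
    · intro y hy
      have := Subgroup.mem_center_iff.mp z.2 ⟨y, hy⟩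
      exact congrArg Subtype.val this
    · intro h
      apply hz
      apply Subtype.ext
      apply Subtype.ext
      simpa using h
  obtain ⟨z, hzR, hzc, hz1⟩ := hRne
  have hcsz : ¬ r ∣ cs z := by
    have hle : (R : Subgroup G) ≤ Subgroup.centralizer ({z} : Set G) := by
      intro y hy
      rw [Subgroup.mem_centralizer_iff]
      intro a ha
      rw [Set.mem_singleton_iff] at ha
      subst ha
      exact (hzc y hy).symm
    intro h
    exact R.not_dvd_index (dvd_trans h (Subgroup.index_dvd_of_le hle))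
  have hK1 : ¬ r ∣ v → u ∣ cs z := by
    intro hrv
    obtain ⟨R', hR'⟩ := lemK u v hcop hi hii hiii r hr hrd hrv hivu
    exact transport u r R R' hR' z hzR hzc hz1
  have hK2 : ¬ r ∣ u → v ∣ cs z := by
    intro hru
    have hi' : ∀ g : G, g ≠ 1 → v ∣ cs g ∨ u ∣ cs g := fun g hg => (hi g hg).symm
    have hii' : ∀ g : G, ¬ v * u ∣ cs g := fun g => by rw [mul_comm]; exact hii g
    have hiii' : ∀ g : G, cs g ∣ v * u := fun g => by rw [mul_comm]; exact hiii g
    have hrd' : r * (v * u) ∣ Nat.card G := by rw [mul_comm v u]; exact hrd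
    obtain ⟨R', hR'⟩ := lemK v u hcop.symm hi' hii' hiii' r hr hrd' hru hivv
    exact transport v r R R' hR' z hzR hzc hz1
  by_cases h1 : r ∣ u
  · have h2 : ¬ r ∣ v := fun h2 => hr.one_lt.ne' (Nat.eq_one_of_dvd_coprimes hcop h1 h2)
    exact hcsz (dvd_trans h1 (hK1 h2))
  · have hv := hK2 h1
    by_cases h2 : r ∣ v
    · exact hcsz (dvd_trans h2 hv)
    · exact hii z (hcop.mul_dvd_of_dvd_of_dvd (hK1 h2) hv)

end lemL

section Mside

variable {M : Type*} [Group M] [Finite M]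

theorem M_side (A : Set ℕ) (m₁ m₂ : ℕ) (hm : m₁ * m₂ = Nat.card M)
    (h1 : ∀ p, p.Prime → p ∣ m₁ → p ∈ A) (h2 : ∀ p, p.Prime → p ∣ m₂ → p ∉ A)
    (hdisc : ∀ a ∈ A, ∀ b ∉ A, a.Prime → b.Prime → a ∣ Nat.card M → b ∣ Nat.card M →
      ¬ ∃ x : M, orderOf x = a * b) (x : M) (q : ℕ) (hq : q.Prime) (hqd : q ∣ orderOf x) :
    (q ∈ A → m₂ ∣ cs x) ∧ (q ∉ A → m₁ ∣ cs x) := by
  have hqM : q ∣ Nat.card M := dvd_trans hqd (orderOf_dvd_natCard x)
  have hx'o : orderOf (x ^ (orderOf x / q)) = q :=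
    orderOf_pow_orderOf_div (orderOf_pos x).ne' hqd
  have hcard := cs_mul_card x
  have aux : ∀ p, p.Prime → p ∣ Nat.card (Subgroup.centralizer ({x} : Set M)) → p ≠ q →
      ∃ y : M, orderOf y = q * p := by
    intro p hp hpd hpq
    have : Fact p.Prime := ⟨hp⟩
    obtain ⟨y, hy⟩ := exists_prime_orderOf_dvd_card' p hpd
    have hyo : orderOf (y : M) = p := by rw [Subgroup.orderOf_coe]; exact hy
    have hc : Commute (x ^ (orderOf x / q)) (y : M) := by
      have := y.2
      rw [Subgroup.mem_centralizer_iff] at this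
      have h3 : Commute x (y : M) := this x rfl
      exact h3.pow_left _
    refine ⟨x ^ (orderOf x / q) * (y : M), ?_⟩
    rw [hc.orderOf_mul_eq_mul_orderOf_of_coprime, hx'o, hyo]
    rw [hx'o, hyo]
    exact (Nat.coprime_primes hq hp).mpr (Ne.symm hpq)
  constructor
  · intro hqA
    have hcop : m₂.Coprime (Nat.card (Subgroup.centralizer ({x} : Set M))) := by
      apply coprime_of_no_common_prime
      intro p hp hp1 hp2
      have hpA := h2 p hp hp1
      have hpq : p ≠ q := fun h => hpA (h ▸ hqA)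
      exact hdisc q hqA p hpA hq hp hqM
        (dvd_trans hp2 (Subgroup.card_subgroup_dvd_card _)) (aux p hp hp2 hpq)
    apply hcop.dvd_of_dvd_mul_right
    rw [hcard, ← hm]
    exact dvd_mul_left m₂ m₁
  · intro hqA
    have hcop : m₁.Coprime (Nat.card (Subgroup.centralizer ({x} : Set M))) := by
      apply coprime_of_no_common_prime
      intro p hp hp1 hp2
      have hpA := h1 p hp hp1
      have hpq : p ≠ q := fun h => hqA (h ▸ hpA)
      obtain ⟨y, hy⟩ := aux p hp hp2 hpq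
      exact hdisc p hpA q hqA hp hq
        (dvd_trans hp2 (Subgroup.card_subgroup_dvd_card _)) hqM ⟨y, by rw [hy, mul_comm]⟩
    apply hcop.dvd_of_dvd_mul_right
    rw [hcard, ← hm]
    exact dvd_mul_right m₁ m₂

end Mside

/-- Let G and M be finite groups with trivial centres and the same set of conjugacy class sizes, and suppose the prime graph of M is disconnected: the prime divisors of #M split into two non-empty parts such that M has no element of order pq with p in one part and q in the other. Then #G = #M. -/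
theorem result {G M : Type*}
    [Group G] [Finite G] [Group M] [Finite M] (hZG : Subgroup.center G = ⊥) (hZM : Subgroup.center M = ⊥)
    (h : Set.range (fun g : G => (Subgroup.centralizer ({g} : Set G)).index) = Set.range (fun g : M => (Subgroup.centralizer ({g} : Set M)).index))
    (hdisc : ∃ A : Set ℕ, (∃ a ∈ A, a.Prime ∧ a ∣ Nat.card M) ∧ (∃ b ∉ A, b.Prime ∧ b ∣ Nat.card M) ∧
      ∀ a ∈ A, ∀ b ∉ A, a.Prime → b.Prime → a ∣ Nat.card M → b ∣ Nat.card M → ¬ ∃ x : M, orderOf x = a * b) :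
    Nat.card G = Nat.card M := by
  obtain ⟨A, ⟨a, haA, hap, had⟩, ⟨b, hbA, hbp, hbd⟩, hdisc⟩ := hdisc
  have hM0 : Nat.card M ≠ 0 := Nat.card_pos.ne'
  obtain ⟨m₁, m₂, hm, h1, h2⟩ := exists_parts (Nat.card M) hM0 A
  have hcop : m₁.Coprime m₂ :=
    coprime_of_no_common_prime (fun p hp hp1 hp2 => h2 p hp hp2 (h1 p hp hp1))
  have key := M_side (M := M) A m₁ m₂ hm h1 h2 hdisc
  have Mi : ∀ x : M, x ≠ 1 → m₁ ∣ cs x ∨ m₂ ∣ cs x := by
    intro x hx
    have : orderOf x ≠ 1 := by rwa [Ne, orderOf_eq_one_iff]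
    obtain ⟨q, hq, hqd⟩ := Nat.exists_prime_and_dvd this
    by_cases hqA : q ∈ A
    · right; exact (key x q hq hqd).1 hqA
    · left; exact (key x q hq hqd).2 hqA
  have Mii : ∀ x : M, ¬ m₁ * m₂ ∣ cs x := by
    intro x hdvd
    rw [hm] at hdvd
    have h3 := cs_mul_card x
    have h4 : cs x = Nat.card M := Nat.dvd_antisymm (Subgroup.index_dvd_card _) hdvd
    have h5 : Nat.card (Subgroup.centralizer ({x} : Set M)) = 1 := by
      rw [h4] at h3
      exact Nat.eq_of_mul_eq_mul_left (Nat.pos_of_ne_zero hM0) (by rw [h3, mul_one])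
    have hx1 : x = 1 := by
      have hsub := (Nat.card_eq_one_iff_unique.mp h5).1
      have hxm : x ∈ Subgroup.centralizer ({x} : Set M) := by
        rw [Subgroup.mem_centralizer_iff]
        intro c hc
        rw [Set.mem_singleton_iff] at hc
        rw [hc]
      have : (⟨x, hxm⟩ : Subgroup.centralizer ({x} : Set M)) = 1 := Subsingleton.elim _ _
      exact congrArg Subtype.val this
    rw [hx1, cs_one] at h4
    rw [← h4] at had
    exact hap.one_lt.ne' (Nat.dvd_one.mp had)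
  have Miii : ∀ x : M, cs x ∣ m₁ * m₂ := fun x => hm ▸ Subgroup.index_dvd_card _
  have Miv1 : ∃ x : M, m₁ ∣ cs x := by
    have : Fact b.Prime := ⟨hbp⟩
    obtain ⟨x, hx⟩ := exists_prime_orderOf_dvd_card' b hbd
    exact ⟨x, (key x b hbp (by rw [hx])).2 hbA⟩
  have Miv2 : ∃ x : M, m₂ ∣ cs x := by
    have : Fact a.Prime := ⟨hap⟩
    obtain ⟨x, hx⟩ := exists_prime_orderOf_dvd_card' a had
    exact ⟨x, (key x a hap (by rw [hx])).1 haA⟩
  have tr : ∀ g : G, ∃ x : M, cs x = cs g := by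
    intro g
    have : cs g ∈ Set.range (fun g : G => (Subgroup.centralizer ({g} : Set G)).index) := ⟨g, rfl⟩
    rw [h] at this
    obtain ⟨x, hx⟩ := this
    exact ⟨x, hx⟩
  have tr' : ∀ x : M, ∃ g : G, cs g = cs x := by
    intro x
    have : cs x ∈ Set.range (fun g : M => (Subgroup.centralizer ({g} : Set M)).index) := ⟨x, rfl⟩
    rw [← h] at this
    obtain ⟨g, hg⟩ := this
    exact ⟨g, hg⟩
  have Gi : ∀ g : G, g ≠ 1 → m₁ ∣ cs g ∨ m₂ ∣ cs g := by
    intro g hg
    obtain ⟨x, hx⟩ := tr g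
    rw [← hx]
    apply Mi
    intro hx1
    rw [hx1, cs_one] at hx
    have := (cs_eq_one_iff g).mp hx.symm
    rw [hZG, Subgroup.mem_bot] at this
    exact hg this
  have Gii : ∀ g : G, ¬ m₁ * m₂ ∣ cs g := by
    intro g
    obtain ⟨x, hx⟩ := tr g
    rw [← hx]
    exact Mii x
  have Giii : ∀ g : G, cs g ∣ m₁ * m₂ := by
    intro g
    obtain ⟨x, hx⟩ := tr g
    rw [← hx]
    exact Miii x
  have Giv1 : ∃ g : G, m₁ ∣ cs g := by
    obtain ⟨x, hx⟩ := Miv1
    obtain ⟨g, hg⟩ := tr' x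
    exact ⟨g, hg ▸ hx⟩
  have Giv2 : ∃ g : G, m₂ ∣ cs g := by
    obtain ⟨x, hx⟩ := Miv2
    obtain ⟨g, hg⟩ := tr' x
    exact ⟨g, hg ▸ hx⟩
  rw [lemL m₁ m₂ hcop Gi Gii Giii Giv1 Giv2, hm]

end Cfsg.Agent.S4184
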