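import Cfsg.Statements.S4186
import Mathlib

set_option autoImplicit false
open Cfsg

namespace Cfsg.Agent.S4186

/-- Let T and X be subgroups of a group with T a finite 2-group normalizing X but not centralizing it. Then some element of T inverts some non-identity element of X under conjugation. -/
theorem result {G : Type*} [Group G] (T X : Subgroup G) [Finite ↥T] (hT : IsPGroup 2 ↥T) (hTN : T ≤ Subgroup.normalizer (X : Set G)) (hTC : ¬ T ≤ Subgroup.centralizer (X : Set G)) : ∃ t ∈ T, ∃ x ∈ X, x ≠ 1 ∧ t * x * t⁻¹ = x⁻¹ := by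
  classical
  obtain ⟨s, hsT, hsC⟩ := Set.not_subset.mp hTC
  obtain ⟨k, hk⟩ := hT ⟨s, hsT⟩
  have hk' : s ^ 2 ^ k = 1 := by
    have := congrArg Subtype.val hk
    simpa using this
  have hex : ∃ j : ℕ, s ^ 2 ^ j ∈ Subgroup.centralizer (X : Set G) :=
    ⟨k, by rw [hk']; exact Subgroup.one_mem _⟩
  have hj := Nat.find_spec hex
  have hj0 : Nat.find hex ≠ 0 := by
    intro h0
    rw [h0] at hj
    simp at hj
    exact hsC hj
  obtain ⟨i, hi⟩ := Nat.exists_eq_succ_of_ne_zero hj0
  have hi' : s ^ 2 ^ i ∉ Subgroup.centralizer (X : Set G) :=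
    Nat.find_min hex (by omega)
  set t := s ^ 2 ^ i with ht
  have htT : t ∈ T := Subgroup.pow_mem _ hsT _
  have ht2 : t * t ∈ Subgroup.centralizer (X : Set G) := by
    have : t * t = s ^ 2 ^ (Nat.find hex) := by
      rw [hi, ht, ← pow_add, pow_succ]
      ring_nf
    rw [this]; exact hj
  rw [Subgroup.mem_centralizer_iff] at hi'
  push Not at hi'
  obtain ⟨y, hyX, hy⟩ := hi'
  have hyX' : y ∈ X := hyX
  have htN := hTN htT
  rw [Subgroup.mem_normalizer_iff] at htN
  have h1 : t * y * t⁻¹ ∈ X := (htN y).mp hyX'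
  refine ⟨t, htT, y⁻¹ * (t * y * t⁻¹), Subgroup.mul_mem _ (Subgroup.inv_mem _ hyX') h1, ?_, ?_⟩
  · intro h
    apply hy
    have : t * y * t⁻¹ = y := by
      have := congrArg (fun z => y * z) h
      simpa using this
    calc y * t = t * y * t⁻¹ * t := by rw [this]
      _ = t * y := by group
  · have hc := (Subgroup.mem_centralizer_iff.mp ht2) y hyX
    have hc' : t * t * y * t⁻¹ * t⁻¹ = y := by
      rw [← hc]; group
    calc t * (y⁻¹ * (t * y * t⁻¹)) * t⁻¹ = (t * y * t⁻¹)⁻¹ * (t * t * y * t⁻¹ * t⁻¹) := by group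
      _ = (t * y * t⁻¹)⁻¹ * y := by rw [hc']
      _ = (y⁻¹ * (t * y * t⁻¹))⁻¹ := by group

end Cfsg.Agent.S4186
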