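import Cfsg.Statements.S4188
import Cfsg.Agent.Lib.Helper68.FratBoundE

set_option autoImplicit false
open Cfsg

namespace Cfsg.Agent.S4188

open Cfsg.Agent.Lib.Helper68
open scoped Pointwise IsMulCommutative

/-- Let G be a finite group that is the semidirect product of a normal abelian subgroup N of odd order by a 2-subgroup P, and suppose N is the unique minimal normal subgroup of G. Then the index of the Frattini subgroup of P in P is at most #N − 1. -/
theorem result {G : Type*} [Group G] [Finite G] (N P : Subgroup G) (hN : N.Normal) (hNab : IsMulCommutative ↥N) (hNodd : Odd (Nat.card ↥N)) (hP : IsPGroup 2 ↥P) (hdisj : N ⊓ P = ⊥) (hprod : N ⊔ P = ⊤) (hmin : N ≠ ⊥ ∧ ∀ M : Subgroup G, M.Normal → M ≠ ⊥ → N ≤ M) : (frattini ↥P).index ≤ Nat.card ↥N - 1 := by 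
  classical
  haveI := hN
  haveI := hNab
  letI : CommGroup ↥N := inferInstance
  have h1 : 1 < Nat.card ↥N := (Subgroup.one_lt_card_iff_ne_bot N).mpr hmin.1
  -- the centralizer of N in P is a normal subgroup of G
  set C : Subgroup G := P ⊓ Subgroup.centralizer (N : Set G) with hC
  have hCmem : ∀ h : G, h ∈ C ↔ h ∈ P ∧ ∀ a ∈ N, a * h = h * a := by
    intro h
    rw [hC, Subgroup.mem_inf, Subgroup.mem_centralizer_iff]
    rfl
  have hCn : C.Normal := by
    constructor
    intro h hh g
    have hg : g ∈ ((N ⊔ P : Subgroup G) : Set G) := by rw [hprod]; exact Set.mem_univ g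
    rw [Subgroup.normal_mul] at hg
    obtain ⟨n, hn, p, hp, rfl⟩ := Set.mem_mul.mp hg
    have hph : p * h * p⁻¹ ∈ C := by
      rw [hCmem] at hh ⊢
      refine ⟨P.mul_mem (P.mul_mem hp hh.1) (P.inv_mem hp), fun a ha => ?_⟩
      have ha' : p⁻¹ * a * p ∈ N := by
        have := hN.conj_mem a ha p⁻¹
        rwa [inv_inv] at this
      have := hh.2 _ ha'
      calc a * (p * h * p⁻¹) = p * ((p⁻¹ * a * p) * h) * p⁻¹ := by group
        _ = p * (h * (p⁻¹ * a * p)) * p⁻¹ := by rw [this]
        _ = p * h * p⁻¹ * a := by group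
    have hcomm := ((hCmem _).mp hph).2 n hn
    have : n * p * h * (n * p)⁻¹ = p * h * p⁻¹ := by
      calc n * p * h * (n * p)⁻¹ = (n * (p * h * p⁻¹)) * n⁻¹ := by group
        _ = (p * h * p⁻¹ * n) * n⁻¹ := by rw [hcomm]
        _ = p * h * p⁻¹ := by group
    rw [this]
    exact hph
  have hCbot : C = ⊥ := by
    by_contra hne
    have hNC : N ≤ C := hmin.2 C hCn hne
    have hNP : N ≤ N ⊓ P := le_inf le_rfl (hNC.trans inf_le_left)
    rw [hdisj] at hNP
    exact hmin.1 (le_bot_iff.mp hNP)
  set φ : ↥P →* MulAut ↥N := (MulAut.conjNormal (H := N)).comp P.subtype with hφdef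
  have hφ : Function.Injective φ := by
    rw [injective_iff_map_eq_one]
    intro x hx
    have hxC : (x : G) ∈ C := by
      rw [hCmem]
      refine ⟨x.2, fun a ha => ?_⟩
      have h := congrArg (fun f : MulAut ↥N => ((f ⟨a, ha⟩ : ↥N) : G)) hx
      simp only [hφdef, MonoidHom.comp_apply, Subgroup.coe_subtype, MulAut.conjNormal_apply,
        MulAut.one_apply] at h
      calc a * (x : G) = ((x : G) * a * (x : G)⁻¹)  * (x : G) := by rw [h]
        _ = (x : G) * a := by group
    rw [hCbot, Subgroup.mem_bot] at hxC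
    exact Subtype.ext hxC
  exact frat_bound hNodd h1 hP φ hφ

end Cfsg.Agent.S4188
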