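import Cfsg.Statements.S4207
import Mathlib

set_option autoImplicit false
open Cfsg

namespace Cfsg.Agent.S4207

theorem exists_gens {Q : Type*} [Group Q] [Finite Q] (p : ℕ) [Fact p.Prime] :
    ∀ (r : ℕ) (K : Subgroup Q), (∃ j ≤ r, K.index = p ^ j) →
      ∃ y : Fin r → Q, K ⊔ Subgroup.closure (Set.range y) = ⊤ := by
  have hp : p.Prime := Fact.out
  intro r
  induction r with
  | zero =>
    rintro K ⟨j, hj, hK⟩
    have : j = 0 := by omega
    subst this
    rw [pow_zero, Subgroup.index_eq_one] at hK
    exact ⟨fun i => 1, by rw [hK]; simp⟩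
  | succ r ih =>
    rintro K ⟨j, hj, hK⟩
    by_cases hKtop : K = ⊤
    · exact ⟨fun _ => 1, by rw [hKtop]; simp⟩
    · obtain ⟨g, hg⟩ : ∃ g, g ∉ K := by
        by_contra hcon
        push Not at hcon
        exact hKtop (eq_top_iff.mpr fun x _ => hcon x)
      have hnle : ¬ (K ⊔ Subgroup.zpowers g ≤ K) := by
        intro hle
        exact hg (hle ((le_sup_right : Subgroup.zpowers g ≤ _) (Subgroup.mem_zpowers g)))
      have hmul := Subgroup.relIndex_mul_index (le_sup_left : K ≤ K ⊔ Subgroup.zpowers g)
      have hdvd : (K ⊔ Subgroup.zpowers g).index ∣ K.index := Dvd.intro_left _ hmul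
      rw [hK] at hdvd
      obtain ⟨j', hj', hK'⟩ := (Nat.dvd_prime_pow hp).mp hdvd
      have hj'lt : j' < j := by
        rcases Nat.lt_or_ge j' j with h | h
        · exact h
        · exfalso
          have hjj : j' = j := le_antisymm hj' h
          rw [hK, hK', hjj] at hmul
          have h1 : K.relIndex (K ⊔ Subgroup.zpowers g) = 1 := by
            have hpos : 0 < p ^ j := pos_of_ne_zero (pow_ne_zero _ hp.ne_zero)
            exact Nat.eq_of_mul_eq_mul_right hpos (by rw [hmul, one_mul])
          exact hnle (Subgroup.relIndex_eq_one.mp h1)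
      obtain ⟨y', hy'⟩ := ih (K ⊔ Subgroup.zpowers g) ⟨j', by omega, hK'⟩
      refine ⟨Fin.cons g y', ?_⟩
      rw [eq_top_iff, ← hy']
      apply sup_le (sup_le le_sup_left ?_) ?_
      · refine le_trans ?_ le_sup_right
        rw [Subgroup.zpowers_le]
        exact Subgroup.subset_closure ⟨0, by simp⟩
      · refine le_trans ?_ le_sup_right
        apply Subgroup.closure_mono
        rintro _ ⟨i, rfl⟩
        exact ⟨i.succ, by simp⟩

section

variable {P : Type*} [Group P]

/-- tuples congruent to `x` modulo the Frattini subgroup, as a sub-action -/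
def Om (A : Subgroup (MulAut P)) (hA : ∀ α ∈ A, ∀ x : P, α x * x⁻¹ ∈ frattini P)
    {r : ℕ} (x : Fin r → P) : SubMulAction A (Fin r → P) where
  carrier := {φ | ∀ i, φ i * (x i)⁻¹ ∈ frattini P}
  smul_mem' := by
    intro α φ hφ i
    have h1 : (α • φ) i = (α : MulAut P) (φ i) := rfl
    rw [h1]
    have h2 : (α : MulAut P) (φ i) * (x i)⁻¹ =
        ((α : MulAut P) (φ i) * (φ i)⁻¹) * (φ i * (x i)⁻¹) := by group
    rw [h2]
    exact Subgroup.mul_mem _ (hA α α.2 (φ i)) (hφ i)

theorem card_Om (A : Subgroup (MulAut P)) (hA : ∀ α ∈ A, ∀ x : P, α x * x⁻¹ ∈ frattini P)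
    {r : ℕ} (x : Fin r → P) :
    Nat.card (Om A hA x) = Nat.card (frattini P) ^ r := by
  have e : (Om A hA x) ≃ (Fin r → frattini P) :=
    { toFun := fun φ i => ⟨φ.1 i * (x i)⁻¹, φ.2 i⟩
      invFun := fun ψ => ⟨fun i => (ψ i : P) * x i, fun i => by
        have : (ψ i : P) * x i * (x i)⁻¹ = ψ i := by group
        rw [this]; exact (ψ i).2⟩
      left_inv := fun φ => by
        apply Subtype.ext
        funext i
        simp
      right_inv := fun ψ => by
        funext i
        apply Subtype.ext
        simp }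
  rw [Nat.card_congr e, Nat.card_fun, Nat.card_fin]

end

/-- Let `P` be a group of order `p^n` whose Frattini subgroup has index `p^r`. Then any group of automorphisms of `P` each of which induces the identity on the Frattini quotient has order dividing `p^(r(n-r))`; in particular it is a `p`-group. -/
theorem result {P : Type*} [Group P] [Finite P] {p n r : ℕ} [Fact p.Prime] (hP : Nat.card P = p ^ n) (hr : (frattini P).index = p ^ r) (A : Subgroup (MulAut P)) (hA : ∀ α ∈ A, ∀ x : P, α x * x⁻¹ ∈ frattini P) : Nat.card A ∣ p ^ (r * (n - r)) := by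
  have hp : p.Prime := Fact.out
  -- generators
  obtain ⟨y, hy⟩ := exists_gens (Q := P ⧸ frattini P) p r ⊥
    ⟨r, le_rfl, by rw [Subgroup.index_bot]; exact hr⟩
  rw [bot_sup_eq] at hy
  choose x hx using fun i => QuotientGroup.mk'_surjective (frattini P) (y i)
  have hxgen : Subgroup.closure (Set.range x) ⊔ frattini P = ⊤ := by
    have h1 : (Subgroup.closure (Set.range x)).map (QuotientGroup.mk' (frattini P)) = ⊤ := by
      rw [MonoidHom.map_closure, ← Set.range_comp]
      have : (QuotientGroup.mk' (frattini P)) ∘ x = y := funext hx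
      rw [this, hy]
    have h2 := Subgroup.comap_map_eq (QuotientGroup.mk' (frattini P))
      (Subgroup.closure (Set.range x))
    rw [h1, Subgroup.comap_top, QuotientGroup.ker_mk'] at h2
    exact h2.symm
  -- every tuple in Om generates
  have hgen : ∀ φ : Om A hA x, Subgroup.closure (Set.range (φ : Fin r → P)) = ⊤ := by
    intro φ
    apply frattini_nongenerating
    rw [eq_top_iff, ← hxgen]
    apply sup_le _ le_sup_right
    rw [Subgroup.closure_le]
    rintro _ ⟨i, rfl⟩
    have h1 : x i = (φ.1 i * (x i)⁻¹)⁻¹ * φ.1 i := by group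
    rw [SetLike.mem_coe, h1]
    apply Subgroup.mul_mem
    · exact (le_sup_right : frattini P ≤ _) (Subgroup.inv_mem _ (φ.2 i))
    · exact (le_sup_left : Subgroup.closure (Set.range (φ : Fin r → P)) ≤ _)
        (Subgroup.subset_closure ⟨i, rfl⟩)
  -- the action is free
  have hfree : ∀ φ : Om A hA x, MulAction.stabilizer A φ = ⊥ := by
    intro φ
    rw [eq_bot_iff]
    intro α hα
    rw [MulAction.mem_stabilizer_iff] at hα
    rw [Subgroup.mem_bot]
    apply Subtype.ext
    have h1 : ∀ i, (α : MulAut P) (φ.1 i) = φ.1 i := by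
      intro i
      have := congrArg (fun ψ : Om A hA x => ψ.1 i) hα
      exact this
    have h2 : ((α : MulAut P) : P ≃* P).toMonoidHom = (MonoidHom.id P) := by
      apply MonoidHom.eq_of_eqOn_dense (hgen φ)
      rintro _ ⟨i, rfl⟩
      exact h1 i
    ext z
    have := congrArg (fun f : P →* P => f z) h2
    simpa using this
  have hcard : Nat.card (Om A hA x) = Nat.card (Quotient (MulAction.orbitRel A (Om A hA x))) * Nat.card A := by
    rw [← Nat.card_prod]
    exact Nat.card_congr (MulAction.selfEquivOrbitsQuotientProd hfree)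
  have hfr : Nat.card (frattini P) = p ^ (n - r) := by
    have h1 := Subgroup.index_mul_card (frattini P)
    rw [hr, hP] at h1
    have hrn : r ≤ n := by
      have : p ^ r ∣ p ^ n := Dvd.intro _ h1
      exact (Nat.pow_dvd_pow_iff_le_right hp.one_lt).mp this
    have h2 : p ^ r * Nat.card (frattini P) = p ^ r * p ^ (n - r) := by
      rw [h1, ← pow_add]; congr 1; omega
    exact Nat.eq_of_mul_eq_mul_left (pos_of_ne_zero (pow_ne_zero _ hp.ne_zero)) h2
  rw [card_Om, hfr, ← pow_mul, mul_comm (n - r) r] at hcard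
  exact Dvd.intro_left _ hcard.symm

end Cfsg.Agent.S4207
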