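import Cfsg.Statements.S4208
import Mathlib

set_option autoImplicit false
open Cfsg

namespace Cfsg.Agent.S4208


open scoped commutatorElement

section stepE

variable {P : Type*} [Group P] [Finite P]

omit [Finite P] in
theorem mem_frattini_iff (x : P) : x ∈ frattini P ↔ ∀ M : Subgroup P, IsCoatom M → x ∈ M := by
  unfold frattini Order.radical
  simp [Subgroup.mem_iInf]

theorem coatom_props (p : ℕ) [Fact p.Prime] (hP : IsPGroup p P) (M : Subgroup P) (hM : IsCoatom M) :
    (∀ a b : P, ⁅a, b⁆ ∈ M) ∧ ∀ a : P, a ^ p ∈ M := by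
  have hp : p.Prime := Fact.out
  have hnil : Group.IsNilpotent P := hP.isNilpotent
  have hMn : M.Normal :=
    Subgroup.NormalizerCondition.normal_of_coatom M Group.normalizerCondition_of_isNilpotent hM
  -- for c ∉ M, the image of c generates the quotient
  have hgen : ∀ c : P, c ∉ M → ∀ y : P ⧸ M, y ∈ Subgroup.zpowers (QuotientGroup.mk' M c) := by
    intro c hc y
    have h1 : M < (Subgroup.zpowers (QuotientGroup.mk' M c)).comap (QuotientGroup.mk' M) := by
      refine lt_of_le_of_ne ?_ ?_
      · intro m hm
        rw [Subgroup.mem_comap]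
        have : QuotientGroup.mk' M m = 1 := (QuotientGroup.eq_one_iff m).mpr hm
        rw [this]; exact Subgroup.one_mem _
      · intro heq
        apply hc
        rw [heq, Subgroup.mem_comap]
        exact Subgroup.mem_zpowers _
    have h2 := hM.2 _ h1
    obtain ⟨z, rfl⟩ := QuotientGroup.mk'_surjective M y
    have : z ∈ (Subgroup.zpowers (QuotientGroup.mk' M c)).comap (QuotientGroup.mk' M) := by
      rw [h2]; exact Subgroup.mem_top z
    exact this
  constructor
  · intro a b
    by_cases ha : a ∈ M
    · -- ⁅a, b⁆ = a * (b a⁻¹ b⁻¹)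
      have : ⁅a, b⁆ = a * (b * a⁻¹ * b⁻¹) := by simp [commutatorElement_def, mul_assoc]
      rw [this]
      exact Subgroup.mul_mem _ ha (hMn.conj_mem _ (Subgroup.inv_mem _ ha) b)
    · obtain ⟨k, hk⟩ := Subgroup.mem_zpowers_iff.mp (hgen a ha (QuotientGroup.mk' M b))
      rw [← QuotientGroup.eq_one_iff, ← QuotientGroup.mk'_apply, map_commutatorElement, ← hk,
        commutatorElement_eq_one_iff_commute]
      exact (Commute.refl _).zpow_right k
  · intro a
    by_contra hap
    have ha : a ∉ M := fun h => hap (Subgroup.pow_mem _ h p)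
    obtain ⟨k, hk⟩ := Subgroup.mem_zpowers_iff.mp (hgen (a ^ p) hap (QuotientGroup.mk' M a))
    rw [map_pow, ← zpow_natCast, ← zpow_mul] at hk
    have h1 : (QuotientGroup.mk' M a) ^ ((p : ℤ) * k - 1) = 1 := by
      rw [zpow_sub, hk, zpow_one, mul_inv_cancel]
    have h2 := orderOf_dvd_iff_zpow_eq_one.mpr h1
    have hne : QuotientGroup.mk' M a ≠ 1 := fun h => ha ((QuotientGroup.eq_one_iff a).mp h)
    have hQ : IsPGroup p (P ⧸ M) := hP.to_quotient M
    obtain ⟨j, hj⟩ := hQ (QuotientGroup.mk' M a)
    obtain ⟨i, _, hi⟩ := (Nat.dvd_prime_pow hp).mp (orderOf_dvd_of_pow_eq_one hj)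
    have hi0 : i ≠ 0 := by
      intro h0
      rw [h0, pow_zero, orderOf_eq_one_iff] at hi
      exact hne hi
    have h3 : (p : ℤ) ∣ (p : ℤ) * k - 1 := by
      refine dvd_trans ?_ h2
      rw [hi]
      exact_mod_cast dvd_pow_self p hi0
    have h4 : (p : ℤ) ∣ 1 := by
      have := dvd_sub (dvd_mul_right (p : ℤ) k) h3
      simpa using this
    have h5 : p ∣ 1 := by exact_mod_cast h4
    exact hp.one_lt.ne' (Nat.dvd_one.mp h5)

theorem frattini_props (p : ℕ) [Fact p.Prime] (hP : IsPGroup p P) :
    (∀ a b : P, ⁅a, b⁆ ∈ frattini P) ∧ ∀ a : P, a ^ p ∈ frattini P := by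
  constructor
  · intro a b
    rw [mem_frattini_iff]
    intro M hM
    exact (coatom_props p hP M hM).1 a b
  · intro a
    rw [mem_frattini_iff]
    intro M hM
    exact (coatom_props p hP M hM).2 a

end stepE



theorem card_gen_vec (p r : ℕ) [Fact p.Prime] {V : Type*} [AddCommGroup V] [Module (ZMod p) V]
    [Finite V] (hcard : Nat.card V = p ^ r) :
    Nat.card {s : Fin r → V // AddSubgroup.closure (Set.range s) = ⊤} =
      ∏ i ∈ Finset.range r, (p ^ r - p ^ i) := by
  have hp : p.Prime := Fact.out
  have : NeZero p := ⟨hp.ne_zero⟩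
  have hmf : FiniteDimensional (ZMod p) V := Module.Finite.of_finite
  have hfr : Module.finrank (ZMod p) V = r := by
    have h1 : Nat.card V = Nat.card (ZMod p) ^ Module.finrank (ZMod p) V :=
      Module.natCard_eq_pow_finrank
    rw [hcard, Nat.card_zmod] at h1
    exact (Nat.pow_right_injective hp.two_le h1).symm
  have hspan : ∀ S : Set V, Submodule.span (ZMod p) S =
      AddSubgroup.toZModSubmodule p (AddSubgroup.closure S) := by
    intro S
    apply le_antisymm
    · rw [Submodule.span_le]
      intro x hx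
      exact AddSubgroup.subset_closure hx
    · intro x hx
      have hx' : x ∈ AddSubgroup.closure S := hx
      have hle : AddSubgroup.closure S ≤ (Submodule.span (ZMod p) S).toAddSubgroup := by
        rw [AddSubgroup.closure_le]
        intro y hy
        exact Submodule.subset_span hy
      exact hle hx'
  have key : ∀ s : Fin r → V, AddSubgroup.closure (Set.range s) = ⊤ ↔
      LinearIndependent (ZMod p) s := by
    intro s
    constructor
    · intro h
      apply linearIndependent_of_top_le_span_of_card_eq_finrank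
      · rw [hspan, h]
        intro x _
        exact AddSubgroup.mem_top x
      · rw [Fintype.card_fin, hfr]
    · intro h
      have h1 := h.span_eq_top_of_card_eq_finrank' (by rw [Fintype.card_fin, hfr])
      rw [hspan] at h1
      rw [eq_top_iff]
      intro x _
      have : x ∈ AddSubgroup.toZModSubmodule p (AddSubgroup.closure (Set.range s)) := by
        rw [h1]; exact Submodule.mem_top
      exact this
  rw [Nat.card_congr (Equiv.subtypeEquivRight key), card_linearIndependent (by rw [hfr]), hfr,
    ZMod.card, Fin.prod_univ_eq_prod_range (fun i => p ^ r - p ^ i) r]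

theorem card_gen_elem_abelian {Q : Type*} [Group Q] [Finite Q] (p r : ℕ) [Fact p.Prime]
    (hcomm : ∀ a b : Q, a * b = b * a) (hexp : ∀ a : Q, a ^ p = 1) (hcard : Nat.card Q = p ^ r) :
    Nat.card {ψ : Fin r → Q // Subgroup.closure (Set.range ψ) = ⊤} =
      ∏ i ∈ Finset.range r, (p ^ r - p ^ i) := by
  letI : CommGroup Q := { (inferInstance : Group Q) with mul_comm := hcomm }
  have hV : ∀ x : Additive Q, p • x = 0 := fun x => hexp (Additive.toMul x)
  letI : Module (ZMod p) (Additive Q) := AddCommGroup.zmodModule hV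
  have hfinV : Finite (Additive Q) := inferInstanceAs (Finite Q)
  have hcardV : Nat.card (Additive Q) = p ^ r := hcard
  rw [← card_gen_vec p r (V := Additive Q) hcardV]
  apply Nat.card_congr
  refine Equiv.subtypeEquiv (Equiv.arrowCongr (Equiv.refl (Fin r)) Additive.ofMul) ?_
  intro ψ
  have hset : Set.range (((Equiv.refl (Fin r)).arrowCongr Additive.ofMul) ψ) =
      Additive.toMul ⁻¹' (Set.range ψ) := by
    ext x
    constructor
    · rintro ⟨i, rfl⟩
      exact ⟨i, rfl⟩
    · rintro ⟨i, hi⟩
      exact ⟨i, by simpa [Equiv.arrowCongr] using congrArg Additive.ofMul hi⟩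
  rw [hset, ← Subgroup.toAddSubgroup_closure, map_eq_top_iff]


open scoped commutatorElement

section main

variable {P : Type*} [Group P] [Finite P]

omit [Finite P] in
theorem range_smul (r : ℕ) (α : MulAut P) (φ : Fin r → P) :
    Set.range (α • φ) = (α : P →* P) '' Set.range φ := by
  ext x
  constructor
  · rintro ⟨i, rfl⟩
    exact ⟨φ i, ⟨i, rfl⟩, rfl⟩
  · rintro ⟨_, ⟨i, rfl⟩, rfl⟩
    exact ⟨i, rfl⟩

/-- generating tuples as a sub-action -/
def Gen (P : Type*) [Group P] (r : ℕ) : SubMulAction (MulAut P) (Fin r → P) where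
  carrier := {φ | Subgroup.closure (Set.range φ) = ⊤}
  smul_mem' := by
    intro α φ hφ
    have hφ' : Subgroup.closure (Set.range φ) = ⊤ := hφ
    show Subgroup.closure (Set.range (α • φ)) = ⊤
    rw [range_smul, ← MonoidHom.map_closure, hφ', ← MonoidHom.range_eq_map, MonoidHom.range_eq_top]
    exact α.surjective

theorem gen_iff (r : ℕ) (φ : Fin r → P) : Subgroup.closure (Set.range φ) = ⊤ ↔
    Subgroup.closure (Set.range (fun i => (QuotientGroup.mk' (frattini P)) (φ i))) = ⊤ := by
  have hmap : (Subgroup.closure (Set.range φ)).map (QuotientGroup.mk' (frattini P)) =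
      Subgroup.closure (Set.range (fun i => QuotientGroup.mk' (frattini P) (φ i))) := by
    rw [MonoidHom.map_closure, ← Set.range_comp]
    rfl
  constructor
  · intro h
    rw [← hmap, h, ← MonoidHom.range_eq_map, MonoidHom.range_eq_top]
    exact QuotientGroup.mk'_surjective _
  · intro h
    apply frattini_nongenerating
    have h2 := Subgroup.comap_map_eq (QuotientGroup.mk' (frattini P))
      (Subgroup.closure (Set.range φ))
    rw [hmap, h, Subgroup.comap_top, QuotientGroup.ker_mk'] at h2
    exact h2.symm

theorem card_Gen (r : ℕ) : Nat.card (Gen P r) =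
    Nat.card {ψ : Fin r → P ⧸ frattini P // Subgroup.closure (Set.range ψ) = ⊤} *
      Nat.card (frattini P) ^ r := by
  let s : P ⧸ frattini P → P := Function.surjInv (QuotientGroup.mk'_surjective (frattini P))
  have hs : ∀ y, QuotientGroup.mk' (frattini P) (s y) = y := Function.surjInv_eq _
  have hmem : ∀ x : P, x * (s (QuotientGroup.mk' (frattini P) x))⁻¹ ∈ frattini P := by
    intro x
    rw [← QuotientGroup.eq_one_iff, ← QuotientGroup.mk'_apply, map_mul, map_inv, hs,
      mul_inv_cancel]
  have hmk : ∀ (t : frattini P) (y : P ⧸ frattini P),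
      QuotientGroup.mk' (frattini P) ((t : P) * s y) = y := by
    intro t y
    rw [map_mul, hs]
    have : QuotientGroup.mk' (frattini P) (t : P) = 1 := (QuotientGroup.eq_one_iff _).mpr t.2
    rw [this, one_mul]
  have e : Gen P r ≃
      {ψ : Fin r → P ⧸ frattini P // Subgroup.closure (Set.range ψ) = ⊤} × (Fin r → frattini P) :=
    { toFun := fun φ => (⟨fun i => QuotientGroup.mk' (frattini P) (φ.1 i), (gen_iff r φ.1).mp φ.2⟩,
        fun i => ⟨φ.1 i * (s (QuotientGroup.mk' (frattini P) (φ.1 i)))⁻¹, hmem _⟩)
      invFun := fun ψt => ⟨fun i => (ψt.2 i : P) * s (ψt.1.1 i), (gen_iff r _).mpr (by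
        have : (fun i => QuotientGroup.mk' (frattini P) ((ψt.2 i : P) * s (ψt.1.1 i))) = ψt.1.1 := by
          funext i
          exact hmk _ _
        rw [this]
        exact ψt.1.2)⟩
      left_inv := fun φ => by
        apply Subtype.ext
        funext i
        simp
      right_inv := fun ψt => by
        apply Prod.ext
        · apply Subtype.ext
          funext i
          exact hmk _ _
        · funext i
          apply Subtype.ext
          show (ψt.2 i : P) * s (ψt.1.1 i) *
            (s (QuotientGroup.mk' (frattini P) ((ψt.2 i : P) * s (ψt.1.1 i))))⁻¹ = ψt.2 i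
          rw [hmk]
          simp }
  rw [Nat.card_congr e, Nat.card_prod, Nat.card_fun, Nat.card_fin]

omit [Finite P] in
theorem Gen_free (r : ℕ) (φ : Gen P r) : MulAction.stabilizer (MulAut P) φ = ⊥ := by
  rw [eq_bot_iff]
  intro α hα
  rw [MulAction.mem_stabilizer_iff] at hα
  rw [Subgroup.mem_bot]
  have h1 : ∀ i, α (φ.1 i) = φ.1 i := by
    intro i
    have := congrArg (fun ψ : Gen P r => ψ.1 i) hα
    exact this
  have h2 : (α : P ≃* P).toMonoidHom = (MonoidHom.id P) := by
    apply MonoidHom.eq_of_eqOn_dense φ.2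
    rintro _ ⟨i, rfl⟩
    exact h1 i
  ext z
  have := congrArg (fun f : P →* P => f z) h2
  simpa using this

end main

/-- Let `P` be a group of order `p^n` whose Frattini subgroup has index `p^r`. Then the order of the automorphism group of `P` divides `p^(r(n-r)) · (p^r - 1)(p^r - p) ⋯ (p^r - p^(r-1))`. -/
theorem result {P : Type*} [Group P] [Finite P] {p n r : ℕ} [Fact p.Prime] (hP : Nat.card P = p ^ n) (hr : (frattini P).index = p ^ r) : Nat.card (MulAut P) ∣ p ^ (r * (n - r)) * ∏ i ∈ Finset.range r, (p ^ r - p ^ i) := by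
  have hp : p.Prime := Fact.out
  have hPp : IsPGroup p P := IsPGroup.of_card hP
  obtain ⟨hc, he⟩ := frattini_props p hPp
  have hQcomm : ∀ a b : P ⧸ frattini P, a * b = b * a := by
    intro a b
    obtain ⟨a, rfl⟩ := QuotientGroup.mk'_surjective _ a
    obtain ⟨b, rfl⟩ := QuotientGroup.mk'_surjective _ b
    have := (QuotientGroup.eq_one_iff _).mpr (hc a b)
    rw [← QuotientGroup.mk'_apply, map_commutatorElement,
      commutatorElement_eq_one_iff_mul_comm] at this
    exact this
  have hQexp : ∀ a : P ⧸ frattini P, a ^ p = 1 := by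
    intro a
    obtain ⟨a, rfl⟩ := QuotientGroup.mk'_surjective _ a
    rw [← map_pow]
    exact (QuotientGroup.eq_one_iff _).mpr (he a)
  have h1 := card_gen_elem_abelian p r hQcomm hQexp hr
  have hcard : Nat.card (Gen P r) =
      Nat.card (Quotient (MulAction.orbitRel (MulAut P) (Gen P r))) * Nat.card (MulAut P) := by
    rw [← Nat.card_prod]
    exact Nat.card_congr (MulAction.selfEquivOrbitsQuotientProd (Gen_free r))
  have hfr : Nat.card (frattini P) = p ^ (n - r) := by
    have h1 := Subgroup.index_mul_card (frattini P)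
    rw [hr, hP] at h1
    have hrn : r ≤ n := by
      have : p ^ r ∣ p ^ n := Dvd.intro _ h1
      exact (Nat.pow_dvd_pow_iff_le_right hp.one_lt).mp this
    have h2 : p ^ r * Nat.card (frattini P) = p ^ r * p ^ (n - r) := by
      rw [h1, ← pow_add]; congr 1; omega
    exact Nat.eq_of_mul_eq_mul_left (pos_of_ne_zero (pow_ne_zero _ hp.ne_zero)) h2
  rw [card_Gen, h1, hfr, ← pow_mul, mul_comm (n - r) r, mul_comm] at hcard
  exact Dvd.intro_left _ hcard.symm

end Cfsg.Agent.S4208
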