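import Cfsg.Statements.S4189
import Cfsg.Agent.S4207
import Cfsg.Agent.S4208
import Mathlib

set_option autoImplicit false
open Cfsg
open scoped commutatorElement

namespace Cfsg.Agent.S4189


/-- a group of order 4 and exponent 2: every element is 1, a, b or ab. -/
theorem four {Q : Type*} [Group Q] (hc : Nat.card Q = 4) (hsq : ∀ q : Q, q * q = 1) (a b : Q)
    (ha : a ≠ 1) (hb : b ≠ 1) (hab : a ≠ b) (q : Q) : q = 1 ∨ q = a ∨ q = b ∨ q = a * b := by
  classical
  by_contra hcon
  push Not at hcon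
  obtain ⟨h1, h2, h3, h4⟩ := hcon
  have : Finite Q := Nat.finite_of_card_ne_zero (by omega)
  have : Fintype Q := Fintype.ofFinite Q
  have hab1 : a * b ≠ 1 := by
    intro h
    have : a * b = b * b := by rw [h, hsq]
    exact hab (mul_right_cancel this)
  have hcard : ({1, a, b, q, a * b} : Finset Q).card = 5 := by
    rw [Finset.card_insert_of_notMem, Finset.card_insert_of_notMem, Finset.card_insert_of_notMem,
      Finset.card_insert_of_notMem, Finset.card_singleton]
    · simpa using h4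
    · simp only [Finset.mem_insert, Finset.mem_singleton, not_or]
      exact ⟨fun h => h3 h.symm, by simpa using ha⟩
    · simp only [Finset.mem_insert, Finset.mem_singleton, not_or]
      exact ⟨hab, fun h => h2 h.symm, by simpa using hb⟩
    · simp only [Finset.mem_insert, Finset.mem_singleton, not_or]
      exact ⟨fun h => ha h.symm, fun h => hb h.symm, fun h => h1 h.symm, fun h => hab1 h.symm⟩
  have := Finset.card_le_univ ({1, a, b, q, a * b} : Finset Q)
  rw [hcard, ← Nat.card_eq_fintype_card, hc] at this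
  omega

theorem comm_of_gens {K : Type*} [Group K] (S : Set K) (hS : Subgroup.closure S = ⊤) (k : K)
    (h : ∀ s ∈ S, s * k = k * s) : ∀ g : K, g * k = k * g := by
  intro g
  have h1 : Subgroup.closure S ≤ Subgroup.centralizer {k} := by
    rw [Subgroup.closure_le]
    intro s hs
    rw [SetLike.mem_coe, Subgroup.mem_centralizer_iff]
    intro h' hk
    rw [Set.mem_singleton_iff] at hk
    subst hk
    exact (h s hs).symm
  have hg : g ∈ Subgroup.centralizer {k} := h1 (hS ▸ Subgroup.mem_top g)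
  exact (Subgroup.mem_centralizer_iff.mp hg k rfl).symm

theorem gens_quot {P : Type*} [Group P] (x y : P) (hxy : Subgroup.closure {x, y} = ⊤)
    {K : Type*} [Group K] (π : P →* K) (hπ : Function.Surjective π) :
    Subgroup.closure {π x, π y} = ⊤ := by
  have := MonoidHom.map_closure π {x, y}
  rw [hxy, Subgroup.map_top_of_surjective π hπ, Set.image_pair] at this
  exact this.symm

theorem eq_bot_of_le_comm {P : Type*} [Group P] [Group.IsNilpotent P] (H : Subgroup P)
    (h : H ≤ ⁅H, (⊤ : Subgroup P)⁆) : H = ⊥ := by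
  obtain ⟨n, hn⟩ := Subgroup.nilpotent_iff_lowerCentralSeries.mp (inferInstance : Group.IsNilpotent P)
  have : ∀ k, H ≤ (⊤ : Subgroup P).lowerCentralSeries k := by
    intro k
    induction k with
    | zero => simp
    | succ k ih =>
      rw [Subgroup.lowerCentralSeries_succ]
      exact h.trans (Subgroup.commutator_mono ih le_rfl)
  exact le_bot_iff.mp (hn ▸ this n)

variable {P : Type*} [Group P]

theorem char_mem (H : Subgroup P) [hH : H.Characteristic] (β : MulAut P) (g : P) :
    β g ∈ H ↔ g ∈ H := by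
  have h := hH.fixed β
  constructor
  · intro hg
    rw [← h]
    exact hg
  · intro hg
    rw [← h] at hg
    exact hg

/-- the subgroup of elements moved by `β` inside their `D`-coset -/
def Fsub (D : Subgroup P) [D.Normal] [D.Characteristic] (β : MulAut P) : Subgroup P where
  carrier := {g | β g * g⁻¹ ∈ D}
  one_mem' := by simp
  mul_mem' := by
    intro g h hg hh
    have hg' : β g * g⁻¹ ∈ D := hg
    have hh' : β h * h⁻¹ ∈ D := hh
    show β (g * h) * (g * h)⁻¹ ∈ D
    have h1 : β (g * h) * (g * h)⁻¹ = (β g * g⁻¹) * (g * (β h * h⁻¹) * g⁻¹) := by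
      rw [map_mul]; group
    rw [h1]
    exact D.mul_mem hg' (Subgroup.Normal.conj_mem inferInstance _ hh' g)
  inv_mem' := by
    intro g hg
    have hg' : β g * g⁻¹ ∈ D := hg
    show β g⁻¹ * g⁻¹⁻¹ ∈ D
    have h1 : β g⁻¹ * g⁻¹⁻¹ = g⁻¹ * (β g * g⁻¹)⁻¹ * g⁻¹⁻¹ := by
      rw [map_inv]; group
    rw [h1]
    exact Subgroup.Normal.conj_mem inferInstance _ (D.inv_mem hg') g⁻¹

theorem mem_Fsub (D : Subgroup P) [D.Normal] [D.Characteristic] (β : MulAut P) (g : P) :
    g ∈ Fsub D β ↔ β g * g⁻¹ ∈ D := Iff.rfl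

theorem lemL (D : Subgroup P) [D.Normal] [D.Characteristic] (hD4 : D.index = 4)
    (hsq : ∀ g : P, g * g ∈ D) (β : MulAut P) (h1 : ∃ g, β g * g⁻¹ ∉ D)
    (h2 : ∃ g, β (β g) * g⁻¹ ∉ D) : ∀ g, g ∉ D → β g * g⁻¹ ∉ D := by
  have hDF : D ≤ Fsub D β := by
    intro d hd
    rw [mem_Fsub]
    exact D.mul_mem ((char_mem D β d).mpr hd) (D.inv_mem hd)
  have hdvd : (Fsub D β).index ∣ 4 := hD4 ▸ Subgroup.index_dvd_of_le hDF
  have hle : (Fsub D β).index ≤ 4 := Nat.le_of_dvd (by norm_num) hdvd
  have hrel := Subgroup.relIndex_mul_index hDF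
  rw [hD4] at hrel
  have hcases : (Fsub D β).index = 1 ∨ (Fsub D β).index = 2 ∨ (Fsub D β).index = 4 := by
    have h0 : (Fsub D β).index ≠ 0 := by
      intro h0; rw [h0] at hdvd; omega
    have h3 : (Fsub D β).index ≠ 3 := by
      intro h3; rw [h3] at hdvd; omega
    omega
  rcases hcases with h | h | h
  · exfalso
    obtain ⟨g, hg⟩ := h1
    rw [Subgroup.index_eq_one] at h
    exact hg ((mem_Fsub D β g).mp (h ▸ Subgroup.mem_top g))
  · exfalso
    obtain ⟨g, hg⟩ := h2
    apply hg
    by_cases hgF : g ∈ Fsub D β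
    · rw [mem_Fsub] at hgF
      have e : β (β g) * g⁻¹ = β (β g * g⁻¹) * (β g * g⁻¹) := by
        rw [map_mul, map_inv]; group
      rw [e]
      exact D.mul_mem ((char_mem D β _).mpr hgF) hgF
    · have hbg : β g ∉ Fsub D β := by
        intro hb
        rw [mem_Fsub] at hb
        have e : β (β g) * (β g)⁻¹ = β (β g * g⁻¹) := by
          rw [map_mul, map_inv]
        rw [e, char_mem] at hb
        exact hgF hb
      have hu : β g * g⁻¹ ∈ Fsub D β := by
        rw [Subgroup.mul_mem_iff_of_index_two h]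
        constructor
        · intro hh; exact absurd hh hbg
        · intro hh; exact absurd ((Fsub D β).inv_mem_iff.mp hh) hgF
      rw [mem_Fsub] at hu
      have e : β (β g) * g⁻¹ = (β (β g * g⁻¹) * (β g * g⁻¹)⁻¹) * ((β g * g⁻¹) * (β g * g⁻¹)) := by
        rw [map_mul, map_inv]; group
      rw [e]
      exact D.mul_mem hu (hsq _)
  · rw [h] at hrel
    have hrel1 : D.relIndex (Fsub D β) = 1 := by omega
    rw [Subgroup.relIndex_eq_one] at hrel1
    intro g hg hg'
    exact hg (hrel1 ((mem_Fsub D β g).mpr hg'))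

theorem iso_of_data [Finite P] (x y c : P) (hgen : Subgroup.closure {x, y} = ⊤) (hc2 : c * c = 1)
    (hx : x * x = c) (hy : y * y = c) (hcen : ∀ g, c * g = g * c)
    (hcomm : x * y * x⁻¹ * y⁻¹ = c) (hcard : Nat.card P = 8) :
    Nonempty (P ≃* QuaternionGroup 2) := by
  have hx4 : x ^ (2 * 2) = 1 := by
    rw [pow_mul, pow_two, pow_two, hx, hc2]
  have hxy : x * y = y * x⁻¹ := by
    have h1 : x * y = c * y * x := by rw [← hcomm]; group
    have h2 : x⁻¹ = x * x * x := by
      rw [inv_eq_iff_eq_inv, eq_comm, inv_eq_iff_mul_eq_one]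
      calc x * x * x * x = (x * x) * (x * x) := by group
        _ = 1 := by rw [hx, hc2]
    rw [h1, hcen, h2, ← hx]; group
  have hpy : ∀ k : ℕ, x ^ k * y = y * (x ^ k)⁻¹ := by
    intro k
    induction k with
    | zero => simp
    | succ k ih =>
      calc x ^ (k + 1) * y = x * (x ^ k * y) := by rw [pow_succ']; group
        _ = x * y * (x ^ k)⁻¹ := by rw [ih]; group
        _ = y * (x ^ k * x)⁻¹ := by rw [hxy]; group
        _ = y * (x ^ (k + 1))⁻¹ := by rw [pow_succ]
  let e : ZMod (2 * 2) → P := fun i => x ^ i.val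
  have he_add : ∀ i j, e (i + j) = e i * e j := by
    intro i j
    show x ^ (i + j).val = x ^ i.val * x ^ j.val
    rw [ZMod.val_add, ← pow_add, ← pow_eq_pow_mod _ hx4]
  have he_comm : ∀ i j, e i * e j = e j * e i := by
    intro i j
    rw [← he_add, ← he_add, add_comm]
  have he_sub : ∀ i j, e (j - i) = (e i)⁻¹ * e j := by
    intro i j
    have := he_add (j - i) i
    rw [sub_add_cancel] at this
    rw [this, he_comm]; group
  have he_y : ∀ i, e i * y = y * (e i)⁻¹ := fun i => hpy i.val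
  have he2 : e ((2 : ℕ) : ZMod (2 * 2)) = c := by
    show x ^ (((2 : ℕ) : ZMod (2 * 2))).val = c
    rw [ZMod.val_natCast]
    norm_num
    rw [pow_two, hx]
  let f : QuaternionGroup 2 → P := fun q =>
    match q with
    | QuaternionGroup.a i => e i
    | QuaternionGroup.xa i => y * e i
  have hf : ∀ u v, f (u * v) = f u * f v := by
    rintro (i | i) (j | j)
    · show e (i + j) = e i * e j
      exact he_add i j
    · show y * e (j - i) = e i * (y * e j)
      rw [he_sub, ← mul_assoc (e i), he_y]; group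
    · show y * e (i + j) = y * e i * e j
      rw [he_add]; group
    · show e (((2 : ℕ) : ZMod (2 * 2)) + j - i) = y * e i * (y * e j)
      rw [he_sub, he_add, he2]
      have : y * e i * (y * e j) = y * (e i * y) * e j := by group
      rw [this, he_y, ← hy]; 
      have h3 := he_comm i j
      calc (e i)⁻¹ * (y * y * e j) = (y * y) * ((e i)⁻¹ * e j) := by
            rw [hy, ← mul_assoc, ← hcen]; group
        _ = y * (y * (e i)⁻¹) * e j := by group
  let F : QuaternionGroup 2 →* P := MonoidHom.mk' f hf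
  have hsurj : Function.Surjective F := by
    rw [← MonoidHom.range_eq_top, eq_top_iff, ← hgen, Subgroup.closure_le]
    intro g hg
    rcases hg with rfl | hg
    · refine ⟨QuaternionGroup.a 1, ?_⟩
      show g ^ ((1 : ZMod (2 * 2))).val = g
      have : ((1 : ZMod (2 * 2))).val = 1 := rfl
      rw [this, pow_one]
    · rw [Set.mem_singleton_iff] at hg
      subst hg
      refine ⟨QuaternionGroup.xa 0, ?_⟩
      show g * x ^ ((0 : ZMod (2 * 2))).val = g
      have : ((0 : ZMod (2 * 2))).val = 0 := rfl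
      rw [this, pow_zero, mul_one]
  have hc8 : Nat.card (QuaternionGroup 2) = Nat.card P := by
    rw [hcard, Nat.card_eq_fintype_card, QuaternionGroup.card]
  have hbij : Function.Bijective F :=
    (Nat.bijective_iff_surjective_and_card F).mpr ⟨hsurj, hc8⟩
  exact ⟨(MulEquiv.ofBijective F hbij).symm⟩


theorem struct [Finite P] (hP : IsPGroup 2 P) (hna : ¬ IsMulCommutative P)
    (D : Subgroup P) [D.Normal] [D.Characteristic] (hDdef : D = commutator P)
    (h4 : D.index = 4) (hsq : ∀ g : P, g * g ∈ D)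
    (hfr : frattini P = D)
    (β : MulAut P)
    (h1 : ∃ g, β g * g⁻¹ ∉ D) (h2 : ∃ g, β (β g) * g⁻¹ ∉ D)
    (h3 : ∃ g, β (β (β (β g))) * g⁻¹ ∉ D) :
    ∃ x y c : P, Subgroup.closure {x, y} = ⊤ ∧ c * c = 1 ∧ x * x = c ∧ y * y = c ∧
      (∀ g, c * g = g * c) ∧ x * y * x⁻¹ * y⁻¹ = c ∧ Nat.card P = 8 := by
  classical
  have hnil : Group.IsNilpotent P := hP.isNilpotent
  have hDtop : D ≠ ⊤ := by
    intro h; rw [h, Subgroup.index_top] at h4; omega
  obtain ⟨x, hxD⟩ : ∃ x, x ∉ D := by
    by_contra hcon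
    push Not at hcon
    exact hDtop (eq_top_iff.mpr fun g _ => hcon g)
  have L1 := lemL D h4 hsq β h1 h2
  have L2 := lemL D h4 hsq (β * β) h2 h3
  obtain ⟨y, hy⟩ : ∃ y, y = β x := ⟨_, rfl⟩
  obtain ⟨z, hz⟩ : ∃ z, z = β y := ⟨_, rfl⟩
  have hyD : y ∉ D := fun h => hxD ((char_mem D β x).mp (hy ▸ h))
  have hzD : z ∉ D := fun h => hyD ((char_mem D β y).mp (hz ▸ h))
  have hyx : y * x⁻¹ ∉ D := hy ▸ L1 x hxD
  have hzy : z * y⁻¹ ∉ D := hz ▸ L1 y hyD
  have hzx : z * x⁻¹ ∉ D := by
    have := L2 x hxD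
    rw [hz, hy]
    exact this
  -- the four cosets
  have hQ4 : ∀ g : P, g ∈ D ∨ x⁻¹ * g ∈ D ∨ y⁻¹ * g ∈ D ∨ (x * y)⁻¹ * g ∈ D := by
    intro g
    have hcQ : Nat.card (P ⧸ D) = 4 := by
      rw [← Subgroup.index_eq_card]; exact h4
    have hsqQ : ∀ q : P ⧸ D, q * q = 1 := by
      intro q
      induction q using QuotientGroup.induction_on with
      | H g =>
        rw [← QuotientGroup.mk_mul, QuotientGroup.eq_one_iff]
        exact hsq g
    have hxy' : (x : P ⧸ D) ≠ (y : P ⧸ D) := by
      intro h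
      rw [QuotientGroup.eq] at h
      apply hyx
      have e : y * x⁻¹ = x * (x⁻¹ * y) * x⁻¹ := by group
      rw [e]
      exact Subgroup.Normal.conj_mem inferInstance _ h x
    have := four hcQ hsqQ (x : P ⧸ D) (y : P ⧸ D)
      (by rw [ne_eq, QuotientGroup.eq_one_iff]; exact hxD)
      (by rw [ne_eq, QuotientGroup.eq_one_iff]; exact hyD) hxy' (g : P ⧸ D)
    rcases this with h | h | h | h
    · left; exact (QuotientGroup.eq_one_iff g).mp h
    · right; left; exact QuotientGroup.eq.mp h.symm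
    · right; right; left; exact QuotientGroup.eq.mp h.symm
    · right; right; right
      rw [← QuotientGroup.mk_mul] at h
      exact QuotientGroup.eq.mp h.symm
  have hgen : Subgroup.closure {x, y} = ⊤ := by
    apply frattini_nongenerating
    rw [hfr, eq_top_iff]
    intro g _
    have hx' : x ∈ Subgroup.closure {x, y} := Subgroup.subset_closure (by simp)
    have hy' : y ∈ Subgroup.closure {x, y} := Subgroup.subset_closure (by simp)
    rcases hQ4 g with h | h | h | h
    · exact Subgroup.mem_sup_right h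
    · have e : g = x * (x⁻¹ * g) := by group
      rw [e]; exact Subgroup.mul_mem_sup hx' h
    · have e : g = y * (y⁻¹ * g) := by group
      rw [e]; exact Subgroup.mul_mem_sup hy' h
    · have e : g = (x * y) * ((x * y)⁻¹ * g) := by group
      rw [e]; exact Subgroup.mul_mem_sup (mul_mem hx' hy') h
  have hzd : (x * y)⁻¹ * z ∈ D := by
    rcases hQ4 z with h | h | h | h
    · exact absurd h hzD
    · exfalso; apply hzx
      have e : z * x⁻¹ = x * (x⁻¹ * z) * x⁻¹ := by group
      rw [e]; exact Subgroup.Normal.conj_mem inferInstance _ h x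
    · exfalso; apply hzy
      have e : z * y⁻¹ = y * (y⁻¹ * z) * y⁻¹ := by group
      rw [e]; exact Subgroup.Normal.conj_mem inferInstance _ h y
    · exact h
  -- N = [D, P]
  obtain ⟨N, hN⟩ : ∃ N : Subgroup P, N = ⁅D, (⊤ : Subgroup P)⁆ := ⟨_, rfl⟩
  have hNn : N.Normal := hN ▸ Subgroup.commutator_normal D ⊤
  have hNc : N.Characteristic := hN ▸ Subgroup.commutator_characteristic D ⊤
  obtain ⟨π, hπ⟩ : ∃ π : P →* P ⧸ N, π = QuotientGroup.mk' N := ⟨_, rfl⟩
  have hπ1 : ∀ g, π g = 1 ↔ g ∈ N := fun g => by rw [hπ]; exact QuotientGroup.eq_one_iff g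
  have hπeq : ∀ a b, π a = π b ↔ a⁻¹ * b ∈ N := fun a b => by rw [hπ]; exact QuotientGroup.eq
  have hπs : Function.Surjective π := by rw [hπ]; exact QuotientGroup.mk'_surjective N
  obtain ⟨c, hc⟩ : ∃ c, c = x * y * x⁻¹ * y⁻¹ := ⟨_, rfl⟩
  have hcc : c = ⁅x, y⁆ := by rw [hc, commutatorElement_def]
  have hcD : c ∈ D := by
    rw [hcc, hDdef, commutator_def]
    exact Subgroup.commutator_mem_commutator (Subgroup.mem_top x) (Subgroup.mem_top y)
  have hcen : ∀ d ∈ D, ∀ g : P, π d * π g = π g * π d := by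
    intro d hd g
    have : ⁅d, g⁆ ∈ N := by
      rw [hN]; exact Subgroup.commutator_mem_commutator hd (Subgroup.mem_top g)
    rw [← hπ1, map_commutatorElement, commutatorElement_eq_one_iff_mul_comm] at this
    exact this
  have hc2 : π c * π c = 1 := by
    have h1 : ⁅x * x, y⁆ ∈ N := by
      rw [hN]; exact Subgroup.commutator_mem_commutator (hsq x) (Subgroup.mem_top y)
    have h2 : ⁅x * x, y⁆ = x * c * x⁻¹ * c := by rw [commutatorElement_def, hc]; group
    rw [← hπ1, h2, map_mul, map_mul, map_mul, map_inv] at h1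
    have h3 := hcen c hcD x
    calc π c * π c = π c * π x * (π x)⁻¹ * π c := by group
      _ = π x * π c * (π x)⁻¹ * π c := by rw [h3]
      _ = 1 := h1
  have hD2 : ∀ d ∈ D, π d = 1 ∨ π d = π c := by
    have hZn : (Subgroup.zpowers (π c)).Normal := by
      constructor
      intro a ha g
      obtain ⟨k, rfl⟩ := Subgroup.mem_zpowers_iff.mp ha
      obtain ⟨g', rfl⟩ := hπs g
      have hcomm : Commute (π g') (π c) := (hcen c hcD g').symm
      have : π g' * (π c) ^ k * (π g')⁻¹ = (π c) ^ k := by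
        rw [(hcomm.zpow_right k).eq]; group
      rw [this]; exact Subgroup.zpow_mem_zpowers _ k
    obtain ⟨E, hE⟩ : ∃ E : Subgroup P, E = (Subgroup.zpowers (π c)).comap π := ⟨_, rfl⟩
    have hEn : E.Normal := hE ▸ hZn.comap π
    obtain ⟨ρ, hρ⟩ : ∃ ρ : P →* P ⧸ E, ρ = QuotientGroup.mk' E := ⟨_, rfl⟩
    have hρ1 : ∀ g, ρ g = 1 ↔ g ∈ E := fun g => by rw [hρ]; exact QuotientGroup.eq_one_iff g
    have hρs : Function.Surjective ρ := by rw [hρ]; exact QuotientGroup.mk'_surjective E
    have hcE : c ∈ E := by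
      rw [hE, Subgroup.mem_comap]; exact Subgroup.mem_zpowers _
    have hρxy : ρ x * ρ y = ρ y * ρ x := by
      rw [← commutatorElement_eq_one_iff_mul_comm, ← map_commutatorElement, ← hcc, hρ1]
      exact hcE
    have hgenρ := gens_quot x y hgen ρ hρs
    have hxc : ∀ g, g * ρ x = ρ x * g := comm_of_gens _ hgenρ (ρ x) (by
      rintro s (rfl | rfl)
      · rfl
      · exact hρxy.symm)
    have hyc : ∀ g, g * ρ y = ρ y * g := comm_of_gens _ hgenρ (ρ y) (by
      rintro s (rfl | rfl)
      · exact hρxy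
      · rfl)
    have hall : ∀ a b : P ⧸ E, a * b = b * a := by
      intro a b
      exact comm_of_gens _ hgenρ b (by
        rintro s (rfl | rfl)
        · exact (hxc b).symm
        · exact (hyc b).symm) a
    have hDE : D ≤ E := by
      rw [hDdef, commutator_def, Subgroup.commutator_le]
      intro g _ h _
      rw [← hρ1, map_commutatorElement, commutatorElement_eq_one_iff_mul_comm]
      exact hall _ _
    intro d hd
    have hdE := hDE hd
    rw [hE, Subgroup.mem_comap] at hdE
    obtain ⟨k, hk⟩ := Subgroup.mem_zpowers_iff.mp hdE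
    have hc2' : (π c) ^ (2 : ℤ) = 1 := by rw [zpow_two]; exact hc2
    have hk2 : k = 2 * (k / 2) + k % 2 := (Int.mul_ediv_add_emod k 2).symm
    rcases Int.emod_two_eq_zero_or_one k with h | h
    · left
      rw [← hk, hk2, h, add_zero, zpow_mul, hc2', one_zpow]
    · right
      rw [← hk, hk2, h, zpow_add, zpow_mul, hc2', one_zpow, one_mul, zpow_one]
  have hc1 : π c ≠ 1 := by
    intro h
    have hDN : D ≤ ⁅D, (⊤ : Subgroup P)⁆ := by
      intro d hd
      rw [← hN, ← hπ1]
      rcases hD2 d hd with h' | h'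
      · exact h'
      · rw [h', h]
    have hDbot := eq_bot_of_le_comm D hDN
    apply hna
    refine ⟨⟨fun a b => ?_⟩⟩
    have : ⁅a, b⁆ ∈ D := by
      rw [hDdef, commutator_def]
      exact Subgroup.commutator_mem_commutator (Subgroup.mem_top a) (Subgroup.mem_top b)
    rw [hDbot, Subgroup.mem_bot, commutatorElement_eq_one_iff_mul_comm] at this
    exact this
  have hβN : ∀ g, β g ∈ N ↔ g ∈ N := char_mem N β
  have hx2 : π (x * x) = π c := by
    rcases hD2 _ (hsq x) with h | h
    · exfalso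
      have hxN : x * x ∈ N := (hπ1 _).mp h
      have hyN : y * y ∈ N := by
        rw [hy, ← map_mul]; exact (hβN _).mpr hxN
      have hzN : z * z ∈ N := by
        rw [hz, ← map_mul]; exact (hβN _).mpr hyN
      have hX : π x * π x = 1 := by rw [← map_mul]; exact h
      have hY : π y * π y = 1 := by rw [← map_mul]; exact (hπ1 _).mpr hyN
      have hZ : π z * π z = 1 := by rw [← map_mul]; exact (hπ1 _).mpr hzN
      obtain ⟨d, hd⟩ : ∃ d, d = (x * y)⁻¹ * z := ⟨_, rfl⟩
      have hdD : d ∈ D := hd ▸ hzd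
      have hzxy : z = x * y * d := by rw [hd]; group
      have hdd : π d * π d = 1 := by
        rcases hD2 d hdD with h' | h'
        · rw [h', one_mul]
        · rw [h']; exact hc2
      have hdx := hcen d hdD x
      have hdy := hcen d hdD y
      rw [hzxy, map_mul, map_mul] at hZ
      have hXYXY : π x * π y * π x * π y = 1 := by
        calc π x * π y * π x * π y = π x * π y * π x * π y * (π d * π d) := by rw [hdd, mul_one]
          _ = π x * π y * π x * (π y * π d) * π d := by group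
          _ = π x * π y * π x * (π d * π y) * π d := by rw [hdy]
          _ = π x * π y * (π x * π d) * (π y * π d) := by group
          _ = π x * π y * (π d * π x) * (π y * π d) := by rw [hdx]
          _ = π x * π y * π d * (π x * π y * π d) := by group
          _ = 1 := hZ
      apply hc1
      have hXi : (π x)⁻¹ = π x := inv_eq_of_mul_eq_one_left hX
      have hYi : (π y)⁻¹ = π y := inv_eq_of_mul_eq_one_left hY
      rw [hc, map_mul, map_mul, map_mul, map_inv, map_inv, hXi, hYi]
      exact hXYXY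
    · exact h
  have hy2 : π (y * y) = π c := by
    rcases hD2 _ (hsq y) with h | h
    · exfalso
      have hyN : y * y ∈ N := (hπ1 _).mp h
      have hxN : x * x ∈ N := by
        rw [hy, ← map_mul] at hyN; exact (hβN _).mp hyN
      apply hc1
      rw [← hx2]; exact (hπ1 _).mpr hxN
    · exact h
  -- N ≤ [N, P]
  have hNbot : N = ⊥ := by
    apply eq_bot_of_le_comm
    obtain ⟨N₂, hN₂⟩ : ∃ N₂ : Subgroup P, N₂ = ⁅N, (⊤ : Subgroup P)⁆ := ⟨_, rfl⟩
    have hN₂n : N₂.Normal := hN₂ ▸ Subgroup.commutator_normal N ⊤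
    rw [← hN₂]
    obtain ⟨ρ, hρ⟩ : ∃ ρ : P →* P ⧸ N₂, ρ = QuotientGroup.mk' N₂ := ⟨_, rfl⟩
    have hρ1 : ∀ g, ρ g = 1 ↔ g ∈ N₂ := fun g => by rw [hρ]; exact QuotientGroup.eq_one_iff g
    have hρs : Function.Surjective ρ := by rw [hρ]; exact QuotientGroup.mk'_surjective N₂
    have hcenN : ∀ n ∈ N, ∀ g : P, ρ n * ρ g = ρ g * ρ n := by
      intro n hn g
      have : ⁅n, g⁆ ∈ N₂ := by
        rw [hN₂]; exact Subgroup.commutator_mem_commutator hn (Subgroup.mem_top g)
      rw [← hρ1, map_commutatorElement, commutatorElement_eq_one_iff_mul_comm] at this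
      exact this
    have hn1 : c⁻¹ * (x * x) ∈ N := (hπeq _ _).mp hx2.symm
    have hn2 : c⁻¹ * (y * y) ∈ N := (hπeq _ _).mp hy2.symm
    have hcx : ρ x * ρ c = ρ c * ρ x := by
      have e : c = (x * x) * (c⁻¹ * (x * x))⁻¹ := by group
      have h := hcenN _ hn1 x
      have h' : (ρ (c⁻¹ * (x * x)))⁻¹ * ρ x = ρ x * (ρ (c⁻¹ * (x * x)))⁻¹ := by
        rw [inv_mul_eq_iff_eq_mul, ← mul_assoc, h, mul_assoc, mul_inv_cancel, mul_one]
      rw [e, map_mul, map_inv, map_mul (f := ρ) x x]
      calc ρ x * (ρ x * ρ x * (ρ (c⁻¹ * (x * x)))⁻¹)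
          = ρ x * ρ x * (ρ x * (ρ (c⁻¹ * (x * x)))⁻¹) := by group
        _ = ρ x * ρ x * ((ρ (c⁻¹ * (x * x)))⁻¹ * ρ x) := by rw [h']
        _ = ρ x * ρ x * (ρ (c⁻¹ * (x * x)))⁻¹ * ρ x := by group
    have hcy : ρ y * ρ c = ρ c * ρ y := by
      have e : c = (y * y) * (c⁻¹ * (y * y))⁻¹ := by group
      have h := hcenN _ hn2 y
      have h' : (ρ (c⁻¹ * (y * y)))⁻¹ * ρ y = ρ y * (ρ (c⁻¹ * (y * y)))⁻¹ := by
        rw [inv_mul_eq_iff_eq_mul, ← mul_assoc, h, mul_assoc, mul_inv_cancel, mul_one]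
      rw [e, map_mul, map_inv, map_mul (f := ρ) y y]
      calc ρ y * (ρ y * ρ y * (ρ (c⁻¹ * (y * y)))⁻¹)
          = ρ y * ρ y * (ρ y * (ρ (c⁻¹ * (y * y)))⁻¹) := by group
        _ = ρ y * ρ y * ((ρ (c⁻¹ * (y * y)))⁻¹ * ρ y) := by rw [h']
        _ = ρ y * ρ y * (ρ (c⁻¹ * (y * y)))⁻¹ * ρ y := by group
    have hgenρ := gens_quot x y hgen ρ hρs
    have hccen : ∀ g, g * ρ c = ρ c * g := comm_of_gens _ hgenρ (ρ c) (by
      rintro s (rfl | rfl)
      · exact hcx
      · exact hcy)
    rw [hN, Subgroup.commutator_le]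
    intro d hd g _
    rw [← hρ1, map_commutatorElement, commutatorElement_eq_one_iff_mul_comm]
    rcases hD2 d hd with h | h
    · exact hcenN d ((hπ1 d).mp h) g
    · have hdn : c⁻¹ * d ∈ N := (hπeq _ _).mp h.symm
      have e : d = c * (c⁻¹ * d) := by group
      have h5 := hcenN _ hdn g
      have h6 := hccen (ρ g)
      rw [e, map_mul]
      calc ρ c * ρ (c⁻¹ * d) * ρ g = ρ c * (ρ (c⁻¹ * d) * ρ g) := by group
        _ = ρ c * (ρ g * ρ (c⁻¹ * d)) := by rw [h5]
        _ = (ρ c * ρ g) * ρ (c⁻¹ * d) := by group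
        _ = (ρ g * ρ c) * ρ (c⁻¹ * d) := by rw [h6]
        _ = ρ g * (ρ c * ρ (c⁻¹ * d)) := by group
  have hinj : ∀ a b, π a = π b → a = b := by
    intro a b h
    have := (hπeq a b).mp h
    rw [hNbot, Subgroup.mem_bot] at this
    exact inv_mul_eq_one.mp this
  have hcc2 : c * c = 1 := hinj _ _ (by rw [map_mul, map_one]; exact hc2)
  have hcne : c ≠ 1 := fun h => hc1 (by rw [h, map_one])
  have hDc : D = Subgroup.zpowers c := by
    apply le_antisymm
    · intro d hd
      rcases hD2 d hd with h | h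
      · have : d = 1 := hinj _ _ (by rw [h, map_one])
        rw [this]; exact one_mem _
      · have : d = c := hinj _ _ h
        rw [this]; exact Subgroup.mem_zpowers c
    · exact Subgroup.zpowers_le.mpr hcD
  have hcardD : Nat.card D = 2 := by
    rw [hDc, Nat.card_zpowers]
    exact orderOf_eq_prime (by rw [pow_two]; exact hcc2) hcne
  refine ⟨x, y, c, hgen, hcc2, hinj _ _ hx2, hinj _ _ hy2, ?_, hc.symm, ?_⟩
  · intro g
    exact hinj _ _ (by rw [map_mul, map_mul]; exact hcen c hcD g)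
  · rw [← Subgroup.card_mul_index D, hcardD, h4]


/-- Let P be a finite non-abelian 2-group whose commutator subgroup has index 4 and whose automorphism group is not a 2-group (some automorphism has order that is not a power of 2). Then P is isomorphic to the quaternion group of order 8. -/
theorem result {P : Type*} [Group P] [Finite P] (hP : IsPGroup 2 P) (hna : ¬ IsMulCommutative P) (h4 : (commutator P).index = 4) (haut : ¬ IsPGroup 2 (MulAut P)) : Nonempty (P ≃* QuaternionGroup 2) := by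
  classical
  have : Fact (Nat.Prime 2) := ⟨Nat.prime_two⟩
  have hfp := Cfsg.Agent.S4208.frattini_props 2 hP
  have hDΦ : commutator P ≤ frattini P := by
    rw [commutator_def, Subgroup.commutator_le]
    intro a _ b _
    exact hfp.1 a b
  have hΦdvd : (frattini P).index ∣ 4 := h4 ▸ Subgroup.index_dvd_of_le hDΦ
  have hΦ1 : (frattini P).index ≠ 1 := by
    intro h
    rw [Subgroup.index_eq_one] at h
    have hbot : (⊥ : Subgroup P) = ⊤ := frattini_nongenerating (by rw [h]; simp)
    apply hna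
    refine ⟨⟨fun a b => ?_⟩⟩
    have ha : a ∈ (⊥ : Subgroup P) := hbot ▸ Subgroup.mem_top a
    have hb : b ∈ (⊥ : Subgroup P) := hbot ▸ Subgroup.mem_top b
    rw [Subgroup.mem_bot] at ha hb
    rw [ha, hb]
  have hΦ2 : (frattini P).index ≠ 2 := by
    intro h
    have hne : frattini P ≠ ⊤ := by
      intro h'; rw [h', Subgroup.index_top] at h; omega
    obtain ⟨g, hg⟩ : ∃ g, g ∉ frattini P := by
      by_contra hcon
      push Not at hcon
      exact hne (eq_top_iff.mpr fun g _ => hcon g)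
    have hz : Subgroup.zpowers g = ⊤ := by
      apply frattini_nongenerating
      rw [eq_top_iff]
      intro a _
      by_cases ha : a ∈ frattini P
      · exact Subgroup.mem_sup_right ha
      · have : g⁻¹ * a ∈ frattini P := by
          rw [Subgroup.mul_mem_iff_of_index_two h]
          constructor
          · intro h'; exact absurd ((frattini P).inv_mem_iff.mp h') hg
          · intro h'; exact absurd h' ha
        have e : a = g * (g⁻¹ * a) := by group
        rw [e]; exact Subgroup.mul_mem_sup (Subgroup.mem_zpowers g) this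
    apply hna
    refine ⟨⟨fun a b => ?_⟩⟩
    have ha : a ∈ Subgroup.zpowers g := hz ▸ Subgroup.mem_top a
    have hb : b ∈ Subgroup.zpowers g := hz ▸ Subgroup.mem_top b
    obtain ⟨i, rfl⟩ := Subgroup.mem_zpowers_iff.mp ha
    obtain ⟨j, rfl⟩ := Subgroup.mem_zpowers_iff.mp hb
    rw [← zpow_add, ← zpow_add, add_comm]
  have hΦ4 : (frattini P).index = 4 := by
    have hle := Nat.le_of_dvd (by norm_num) hΦdvd
    have h0 : (frattini P).index ≠ 0 := by
      intro h0; rw [h0] at hΦdvd; omega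
    have h3 : (frattini P).index ≠ 3 := by
      intro h3; rw [h3] at hΦdvd; omega
    omega
  have hfr : frattini P = commutator P := by
    have hrel := Subgroup.relIndex_mul_index hDΦ
    rw [hΦ4, h4] at hrel
    have : (commutator P).relIndex (frattini P) = 1 := by omega
    rw [Subgroup.relIndex_eq_one] at this
    exact le_antisymm this hDΦ
  have hsq : ∀ g : P, g * g ∈ commutator P := by
    intro g; rw [← hfr, ← pow_two]; exact hfp.2 g
  obtain ⟨n, hn⟩ := IsPGroup.iff_card.mp hP
  let T : Subgroup (MulAut P) :=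
    { carrier := {β | ∀ g, β g * g⁻¹ ∈ frattini P}
      one_mem' := by intro g; simp
      mul_mem' := by
        intro a b ha hb g
        have e : (a * b) g * g⁻¹ = (a (b g) * (b g)⁻¹) * (b g * g⁻¹) := by
          rw [MulAut.mul_apply]; group
        rw [e]; exact mul_mem (ha (b g)) (hb g)
      inv_mem' := by
        intro a ha g
        have h := ha (a⁻¹ g)
        rw [MulAut.apply_inv_self] at h
        have e : a⁻¹ g * g⁻¹ = (g * (a⁻¹ g)⁻¹)⁻¹ := by group
        rw [e]; exact inv_mem h }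
  have hTcard := Cfsg.Agent.S4207.result (p := 2) (n := n) (r := 2) hn (by rw [hΦ4]; norm_num) T
    (fun α hα x => hα x)
  have haut' : ∃ g : MulAut P, ∀ k : ℕ, g ^ 2 ^ k ≠ 1 := by
    unfold IsPGroup at haut
    push Not at haut
    exact haut
  obtain ⟨g, hg⟩ := haut'
  obtain ⟨k, m, hm, hkm⟩ := Nat.exists_eq_two_pow_mul_odd (orderOf_pos g).ne'
  obtain ⟨β, hβ⟩ : ∃ β, β = g ^ 2 ^ k := ⟨_, rfl⟩
  have hβm : β ^ m = 1 := by rw [hβ, ← pow_mul, ← hkm, pow_orderOf_eq_one]
  have hβ1 : β ≠ 1 := hβ ▸ hg k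
  have hnotT : ∀ i : ℕ, β ^ 2 ^ i ∉ T := by
    intro i hi
    have h1 : orderOf (⟨β ^ 2 ^ i, hi⟩ : T) ∣ 2 ^ (2 * (n - 2)) :=
      (orderOf_dvd_natCard _).trans hTcard
    have h2 : (β ^ 2 ^ i) ^ 2 ^ (2 * (n - 2)) = 1 := by
      have := orderOf_dvd_iff_pow_eq_one.mp h1
      exact congrArg Subtype.val this
    rw [← pow_mul, ← pow_add] at h2
    have h3 : orderOf β ∣ 2 ^ (i + 2 * (n - 2)) := orderOf_dvd_of_pow_eq_one h2
    have h4 : orderOf β ∣ m := orderOf_dvd_of_pow_eq_one hβm
    have hcop : Nat.Coprime (2 ^ (i + 2 * (n - 2))) m :=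
      Nat.Coprime.pow_left _ (Nat.coprime_two_left.mpr hm)
    have : orderOf β = 1 := Nat.eq_one_of_dvd_coprimes hcop h3 h4
    exact hβ1 (orderOf_eq_one_iff.mp this)
  have hex : ∀ γ : MulAut P, γ ∉ T → ∃ g, γ g * g⁻¹ ∉ commutator P := by
    intro γ hγ
    by_contra hcon
    push Not at hcon
    exact hγ (fun g => hfr ▸ hcon g)
  have e1 : ∃ g, β g * g⁻¹ ∉ commutator P := by
    have := hex _ (hnotT 0)
    simpa using this
  have e2 : ∃ g, β (β g) * g⁻¹ ∉ commutator P := by
    obtain ⟨g, hg⟩ := hex _ (hnotT 1)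
    refine ⟨g, ?_⟩
    have e : β ^ 2 ^ 1 = β * β := by rw [pow_one, pow_two]
    rw [e] at hg
    exact hg
  have e3 : ∃ g, β (β (β (β g))) * g⁻¹ ∉ commutator P := by
    obtain ⟨g, hg⟩ := hex _ (hnotT 2)
    refine ⟨g, ?_⟩
    have e : β ^ 2 ^ 2 = β * β * β * β := by
      rw [show (2 : ℕ) ^ 2 = 2 * 2 from rfl, pow_mul, pow_two, pow_two]; group
    rw [e] at hg
    exact hg
  obtain ⟨x, y, c, hgen, hc2, hx, hy, hcen, hcomm, hcard⟩ :=
    struct hP hna (commutator P) rfl h4 hsq hfr β e1 e2 e3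
  exact iso_of_data x y c hgen hc2 hx hy hcen hcomm hcard

end Cfsg.Agent.S4189
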