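import Cfsg.Statements.S4195
import Mathlib

set_option autoImplicit false
open Cfsg

namespace Cfsg.Agent.S4195

theorem card_conj_eq_index {G : Type*} [Group G] (x : G) :
    Nat.card {y : G // IsConj x y} = (Subgroup.centralizer ({x} : Set G)).index := by
  have h1 := MulAction.index_stabilizer (ConjAct G) x
  rw [ConjAct.stabilizer_eq_centralizer] at h1
  have h2 : (MulAction.orbit (ConjAct G) x) = {y | IsConj x y} := by
    ext y
    rw [ConjAct.mem_orbit_conjAct]
    exact isConj_comm
  rw [h2] at h1
  rw [← Set.coe_ofPred, Nat.card_coe_set_eq, ← h1]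
  rfl

theorem real_two_central {G : Type*} [Group G] [Finite G] (x : G) (P : Sylow 2 G)
    (hP : (P : Subgroup G) ≤ Subgroup.centralizer ({x} : Set G)) (hreal : IsConj x x⁻¹) :
    x ^ 2 = 1 := by
  classical
  have hodd : ¬ 2 ∣ (Subgroup.centralizer ({x} : Set G)).index := by
    intro h
    exact P.not_dvd_index (dvd_trans h (Subgroup.index_dvd_of_le hP))
  rw [← card_conj_eq_index] at hodd
  have : Fintype {y : G // IsConj x y} := Fintype.ofFinite _
  rw [Nat.card_eq_fintype_card] at hodd
  let σ : Equiv.Perm {y : G // IsConj x y} :=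
    { toFun := fun y => ⟨(y : G)⁻¹, hreal.trans (isConj_iff.mpr (by
          obtain ⟨c, hc⟩ := isConj_iff.mp y.2
          exact ⟨c, by rw [← hc]; simp [mul_assoc]⟩))⟩
      invFun := fun y => ⟨(y : G)⁻¹, hreal.trans (isConj_iff.mpr (by
          obtain ⟨c, hc⟩ := isConj_iff.mp y.2
          exact ⟨c, by rw [← hc]; simp [mul_assoc]⟩))⟩
      left_inv := fun y => by simp
      right_inv := fun y => by simp }
  have hσ : σ ^ 2 ^ 1 = 1 := by
    ext y
    simp [σ, pow_two]
  obtain ⟨a, ha⟩ := Equiv.Perm.exists_fixed_point_of_prime (p := 2) (n := 1) hodd hσ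
  have ha' : (a : G)⁻¹ = a := by
    have := congrArg Subtype.val ha
    simpa [σ] using this
  obtain ⟨c, hc⟩ := isConj_iff.mp a.2
  have hxx : x⁻¹ = x := by
    have h3 : (c * x * c⁻¹)⁻¹ = c * x * c⁻¹ := by rw [hc]; exact ha'
    have h4 : c * x⁻¹ * c⁻¹ = c * x * c⁻¹ := by rw [← h3]; simp [mul_assoc]
    exact mul_left_cancel (mul_right_cancel h4)
  rw [pow_two]
  nth_rewrite 1 [← hxx]
  simp

/-- Let x be a non-identity element of a finite group G whose centralizer contains a Sylow 2-subgroup of G. If x is conjugate to its inverse, then x has order 2. -/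
theorem result {G : Type*} [Group G] [Finite G] (x : G) (hx : x ≠ 1) (P : Sylow 2 G) (hP : (P : Subgroup G) ≤ Subgroup.centralizer ({x} : Set G)) (hreal : IsConj x x⁻¹) : orderOf x = 2 := by
  exact orderOf_eq_prime (real_two_central x P hP hreal) hx

end Cfsg.Agent.S4195
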