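import Cfsg.Statements.S4196
import Mathlib

set_option autoImplicit false
open Cfsg

namespace Cfsg.Agent.S4196

theorem card_conj_eq_index {G : Type*} [Group G] (x : G) :
    Nat.card {y : G // IsConj x y} = (Subgroup.centralizer ({x} : Set G)).index := by
  have h1 := MulAction.index_stabilizer (ConjAct G) x
  rw [ConjAct.stabilizer_eq_centralizer] at h1
  have h2 : (MulAction.orbit (ConjAct G) x) = {y | IsConj x y} := by
    ext y
    rw [ConjAct.mem_orbit_conjAct]
    exact isConj_comm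
  rw [h2] at h1
  rw [← Set.coe_ofPred, Nat.card_coe_set_eq, ← h1]
  rfl

theorem real_two_central {G : Type*} [Group G] [Finite G] (x : G) (P : Sylow 2 G)
    (hP : (P : Subgroup G) ≤ Subgroup.centralizer ({x} : Set G)) (hreal : IsConj x x⁻¹) :
    x ^ 2 = 1 := by
  classical
  have hodd : ¬ 2 ∣ (Subgroup.centralizer ({x} : Set G)).index := by
    intro h
    exact P.not_dvd_index (dvd_trans h (Subgroup.index_dvd_of_le hP))
  rw [← card_conj_eq_index] at hodd
  have : Fintype {y : G // IsConj x y} := Fintype.ofFinite _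
  rw [Nat.card_eq_fintype_card] at hodd
  let σ : Equiv.Perm {y : G // IsConj x y} :=
    { toFun := fun y => ⟨(y : G)⁻¹, hreal.trans (isConj_iff.mpr (by
          obtain ⟨c, hc⟩ := isConj_iff.mp y.2
          exact ⟨c, by rw [← hc]; simp [mul_assoc]⟩))⟩
      invFun := fun y => ⟨(y : G)⁻¹, hreal.trans (isConj_iff.mpr (by
          obtain ⟨c, hc⟩ := isConj_iff.mp y.2
          exact ⟨c, by rw [← hc]; simp [mul_assoc]⟩))⟩
      left_inv := fun y => by simp
      right_inv := fun y => by simp }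
  have hσ : σ ^ 2 ^ 1 = 1 := by
    ext y
    simp [σ, pow_two]
  obtain ⟨a, ha⟩ := Equiv.Perm.exists_fixed_point_of_prime (p := 2) (n := 1) hodd hσ
  have ha' : (a : G)⁻¹ = a := by
    have := congrArg Subtype.val ha
    simpa [σ] using this
  obtain ⟨c, hc⟩ := isConj_iff.mp a.2
  have hxx : x⁻¹ = x := by
    have h3 : (c * x * c⁻¹)⁻¹ = c * x * c⁻¹ := by rw [hc]; exact ha'
    have h4 : c * x⁻¹ * c⁻¹ = c * x * c⁻¹ := by rw [← h3]; simp [mul_assoc]
    exact mul_left_cancel (mul_right_cancel h4)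
  rw [pow_two]
  nth_rewrite 1 [← hxx]
  simp

theorem sylow_conj_props {G : Type*} [Group G] [Finite G] (P Q : Sylow 2 G)
    (hc : IsMulCommutative (P : Subgroup G)) (he : ∀ x ∈ (P : Subgroup G), x ^ 2 = 1) :
    (∀ x ∈ (Q : Subgroup G), x ^ 2 = 1) ∧
      ∀ x ∈ (Q : Subgroup G), (Q : Subgroup G) ≤ Subgroup.centralizer ({x} : Set G) := by
  obtain ⟨g, hg⟩ := MulAction.exists_smul_eq G P Q
  have hmem : ∀ x ∈ (Q : Subgroup G), ∃ y ∈ (P : Subgroup G), x = g * y * g⁻¹ := by
    intro x hx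
    rw [← hg, Sylow.smul_def, Sylow.pointwise_smul_def, Subgroup.mem_smul_pointwise_iff_exists] at hx
    obtain ⟨y, hy, rfl⟩ := hx
    exact ⟨y, hy, by simp [MulAut.smul_def]⟩
  constructor
  · intro x hx
    obtain ⟨y, hy, rfl⟩ := hmem x hx
    have := he y hy
    rw [pow_two] at this ⊢
    calc g * y * g⁻¹ * (g * y * g⁻¹) = g * (y * y) * g⁻¹ := by group
      _ = 1 := by rw [this]; group
  · intro x hx z hz
    obtain ⟨y, hy, rfl⟩ := hmem x hx
    obtain ⟨w, hw, rfl⟩ := hmem z hz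
    rw [Subgroup.mem_centralizer_iff]
    intro a ha
    rw [Set.mem_singleton_iff] at ha
    subst ha
    have hcomm : w * y = y * w := by
      have := hc.is_comm.comm (⟨w, hw⟩ : (P : Subgroup G)) ⟨y, hy⟩
      exact congrArg Subtype.val this
    calc g * y * g⁻¹ * (g * w * g⁻¹) = g * (y * w) * g⁻¹ := by group
      _ = g * (w * y) * g⁻¹ := by rw [hcomm]
      _ = g * w * g⁻¹ * (g * y * g⁻¹) := by group

/-- A finite group G has elementary abelian Sylow 2-subgroups (commutative with every element squaring to the identity) if and only if every 2-element of G has a Sylow 2-subgroup in its centralizer and is conjugate to its inverse. -/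
theorem result {G : Type*} [Group G] [Finite G] (P : Sylow 2 G) :
    (IsMulCommutative (P : Subgroup G) ∧ ∀ x ∈ (P : Subgroup G), x ^ 2 = 1) ↔
      ∀ x : G, (∃ k : ℕ, orderOf x = 2 ^ k) → (∃ Q : Sylow 2 G, (Q : Subgroup G) ≤ Subgroup.centralizer ({x} : Set G)) ∧ IsConj x x⁻¹ := by
  constructor
  · rintro ⟨hc, he⟩ x ⟨k, hk⟩
    have hpg : IsPGroup 2 (Subgroup.zpowers x) := by
      rw [IsPGroup.iff_card, Nat.card_zpowers, hk]
      exact ⟨k, rfl⟩
    obtain ⟨Q, hQ⟩ := hpg.exists_le_sylow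
    have hxQ : x ∈ (Q : Subgroup G) := hQ (Subgroup.mem_zpowers x)
    obtain ⟨h1, h2⟩ := sylow_conj_props P Q hc he
    refine ⟨⟨Q, h2 x hxQ⟩, ?_⟩
    have hx2 := h1 x hxQ
    have : x⁻¹ = x := by
      rw [inv_eq_iff_mul_eq_one, ← pow_two]; exact hx2
    rw [this]
  · intro h
    have hsq : ∀ x ∈ (P : Subgroup G), x ^ 2 = 1 := by
      intro x hx
      have hord : ∃ k : ℕ, orderOf x = 2 ^ k := by
        obtain ⟨k, hk⟩ := P.isPGroup' ⟨x, hx⟩
        have hk' : x ^ 2 ^ k = 1 := by
          have := congrArg Subtype.val hk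
          simpa using this
        have := orderOf_dvd_of_pow_eq_one hk'
        obtain ⟨j, _, hj⟩ := (Nat.dvd_prime_pow Nat.prime_two).mp this
        exact ⟨j, hj⟩
      obtain ⟨⟨Q, hQ⟩, hreal⟩ := h x hord
      exact real_two_central x Q hQ hreal
    refine ⟨?_, hsq⟩
    refine ⟨⟨fun a b => ?_⟩⟩
    apply Subtype.ext
    have ha := hsq a a.2
    have hb := hsq b b.2
    have hab := hsq (a * b : G) (Subgroup.mul_mem _ a.2 b.2)
    rw [pow_two] at ha hb hab
    show (a : G) * b = b * a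
    have h1 : (a : G) * b = ((a : G) * b)⁻¹ := by
      rw [eq_inv_iff_mul_eq_one]; exact hab
    have h2 : (a : G)⁻¹ = a := by rw [inv_eq_iff_mul_eq_one]; exact ha
    have h3 : (b : G)⁻¹ = b := by rw [inv_eq_iff_mul_eq_one]; exact hb
    rw [h1, mul_inv_rev, h2, h3]

end Cfsg.Agent.S4196
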