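import Cfsg.Statements.S4230
import Mathlib

set_option autoImplicit false
open Cfsg

namespace Cfsg.Agent.S4230

/-- Let p be an odd prime, q a natural number not divisible by p, and e the multiplicative order of q modulo p. For a natural number f, p divides the value at q of the f-th cyclotomic polynomial if and only if f = e·p^j for some j ≥ 0. -/
theorem result (p q f : ℕ) (hp : p.Prime) (hp2 : p ≠ 2) (hpq : ¬ p ∣ q) :
    ((p : ℤ) ∣ (Polynomial.cyclotomic f ℤ).eval (q : ℤ)) ↔ ∃ j : ℕ, f = orderOf (q : ZMod p) * p ^ j := by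
  haveI : Fact p.Prime := ⟨hp⟩
  have hq0 : (q : ZMod p) ≠ 0 := by
    rw [Ne, ZMod.natCast_eq_zero_iff]; exact hpq
  have hqpow : (q : ZMod p) ^ (p - 1) = 1 := ZMod.pow_card_sub_one_eq_one hq0
  have hord_dvd : orderOf (q : ZMod p) ∣ p - 1 := orderOf_dvd_of_pow_eq_one hqpow
  have hord_pos : 0 < orderOf (q : ZMod p) := by
    apply Nat.pos_of_ne_zero
    intro h0
    rw [h0, zero_dvd_iff] at hord_dvd
    have := hp.two_le
    omega
  have hord_cop : (orderOf (q : ZMod p)).Coprime p := by
    rw [Nat.coprime_comm, hp.coprime_iff_not_dvd]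
    intro hdvd
    have h1 : p ∣ p - 1 := hdvd.trans hord_dvd
    have h2 := Nat.le_of_dvd (by have := hp.two_le; omega) h1
    have := hp.two_le
    omega
  have step1 : ((p : ℤ) ∣ (Polynomial.cyclotomic f ℤ).eval (q : ℤ)) ↔
      (Polynomial.cyclotomic f (ZMod p)).IsRoot (q : ZMod p) := by
    rw [← ZMod.intCast_zmod_eq_zero_iff_dvd, Polynomial.IsRoot.def,
      ← Polynomial.map_cyclotomic f (Int.castRingHom (ZMod p))]
    have h := Polynomial.eval_intCast_map (Int.castRingHom (ZMod p)) (Polynomial.cyclotomic f ℤ) (q : ℤ)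
    simp only [Int.cast_natCast, eq_intCast] at h
    rw [h]
  rw [step1]
  rcases Nat.eq_zero_or_pos f with hf | hf
  · subst hf
    simp only [Polynomial.cyclotomic_zero, Polynomial.IsRoot.def, Polynomial.eval_one, one_ne_zero, false_iff]
    rintro ⟨j, hj⟩
    have : 0 < orderOf (q : ZMod p) * p ^ j := Nat.mul_pos hord_pos (pow_pos hp.pos j)
    omega
  · obtain ⟨j, m, hm, hfm⟩ := Nat.exists_eq_pow_mul_and_not_dvd hf.ne' p hp.ne_one
    have hroot : (Polynomial.cyclotomic f (ZMod p)).IsRoot (q : ZMod p) ↔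
        (Polynomial.cyclotomic m (ZMod p)).IsRoot (q : ZMod p) := by
      rcases Nat.eq_zero_or_pos j with hj | hj
      · subst hj; rw [hfm]; simp
      · rw [hfm, Polynomial.cyclotomic_mul_prime_pow_eq (ZMod p) hm hj]
        simp only [Polynomial.IsRoot.def, Polynomial.eval_pow]
        have hne : p ^ j - p ^ (j - 1) ≠ 0 := by
          have : p ^ (j - 1) < p ^ j := Nat.pow_lt_pow_right hp.one_lt (by omega)
          omega
        exact pow_eq_zero_iff hne
    have hmne : NeZero ((m : ℕ) : ZMod p) := ⟨by rw [Ne, ZMod.natCast_eq_zero_iff]; exact hm⟩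
    rw [hroot, Polynomial.isRoot_cyclotomic_iff]
    have hmcop : m.Coprime p := by
      rw [Nat.coprime_comm, hp.coprime_iff_not_dvd]; exact hm
    constructor
    · intro h
      exact ⟨j, by rw [hfm, h.eq_orderOf, mul_comm]⟩
    · rintro ⟨j', hj'⟩
      have h1 : orderOf (q : ZMod p) ∣ m := by
        have : orderOf (q : ZMod p) ∣ p ^ j * m := by rw [← hfm, hj']; exact dvd_mul_right _ _
        exact (Nat.Coprime.pow_right j hord_cop).dvd_of_dvd_mul_left this
      have h2 : m ∣ orderOf (q : ZMod p) := by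
        have : m ∣ orderOf (q : ZMod p) * p ^ j' := by rw [← hj', hfm]; exact dvd_mul_left _ _
        exact (Nat.Coprime.pow_right j' hmcop).dvd_of_dvd_mul_right this
      have h3 : m = orderOf (q : ZMod p) := Nat.dvd_antisymm h2 h1
      rw [h3]
      exact IsPrimitiveRoot.orderOf _

end Cfsg.Agent.S4230
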