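import Cfsg.Statements.S4231
import Cfsg.Agent.S2119

set_option autoImplicit false
open Cfsg

namespace Cfsg.Agent.S4231

open Equiv Equiv.Perm
open Cfsg.Agent.S2119
open scoped Pointwise

variable {n : ℕ}

/-! ### Automorphisms preserving three-cycles are induced by permutations
(adapted from helper44's proof of S2119, with the hypothesis `n ≠ 6` replaced by the
assumption that three-cycles are preserved). -/

theorem main_lemma' (hn : 4 ≤ n) (f : alternatingGroup (Fin n) ≃* alternatingGroup (Fin n))
    (hf : ∀ σ : alternatingGroup (Fin n), IsThreeCycle (σ : Perm (Fin n)) →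
      IsThreeCycle ((f σ : alternatingGroup (Fin n)) : Perm (Fin n)))
    (i : Fin n) :
    ∃ j : Fin n, ∀ g : alternatingGroup (Fin n), (g : Perm (Fin n)) i = i →
      ((f g : alternatingGroup (Fin n)) : Perm (Fin n)) j = j := by
  classical
  let X : Set (alternatingGroup (Fin n)) :=
    {τ | IsThreeCycle (τ : Perm (Fin n)) ∧ (τ : Perm (Fin n)) i = i}
  let K : Subgroup (alternatingGroup (Fin n)) :=
    (MulAction.stabilizer (alternatingGroup (Fin n)) i).map f.toMonoidHom
  let H : Subgroup (Perm (Fin n)) := K.map (alternatingGroup (Fin n)).subtype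
  let T : Set (Perm (Fin n)) := (alternatingGroup (Fin n)).subtype '' (f.toMonoidHom '' X)
  have hH : H = Subgroup.closure T := by
    simp only [H, K, T]
    rw [stab_eq_closure, MonoidHom.map_closure, MonoidHom.map_closure]
  have hT : ∀ τ ∈ T, IsThreeCycle τ := by
    rintro _ ⟨_, ⟨τ, ⟨hτ3, _⟩, rfl⟩, rfl⟩
    exact hf τ hτ3
  have hKH : ∀ k : alternatingGroup (Fin n), k ∈ K ↔ (k : Perm (Fin n)) ∈ H := by
    intro k
    constructor
    · intro hk; exact Subgroup.mem_map_of_mem _ hk
    · rintro ⟨k', hk', hkk'⟩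
      have : k' = k := Subtype.ext hkk'
      rwa [← this]
  have hfH : ∀ g : alternatingGroup (Fin n), (g : Perm (Fin n)) i = i →
      ((f g : alternatingGroup (Fin n)) : Perm (Fin n)) ∈ H := by
    intro g hg
    rw [← hKH]
    exact Subgroup.mem_map_of_mem _ (show g ∈ MulAction.stabilizer (alternatingGroup (Fin n)) i from hg)
  by_cases hfix : ∃ j, ∀ h ∈ H, h j = j
  · obtain ⟨j, hj⟩ := hfix
    exact ⟨j, fun g hg => hj _ (hfH g hg)⟩
  exfalso
  push Not at hfix
  have hKcoatom : IsCoatom K := by
    have h1 : IsCoatom (MulAction.stabilizer (alternatingGroup (Fin n)) ({i} : Set (Fin n))) :=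
      alternatingGroup.isCoatom_stabilizer_singleton (by rw [Nat.card_eq_fintype_card, Fintype.card_fin]; omega)
        (Set.singleton_nonempty i) Set.subsingleton_singleton
    rw [MulAction.stabilizer_singleton] at h1
    exact (OrderIso.isCoatom_iff (MulEquiv.mapSubgroup f) _).mpr h1
  obtain ⟨p, hp⟩ : ∃ p : Fin n, i ≠ p := by
    by_cases h0 : i = ⟨0, by omega⟩
    · refine ⟨⟨1, by omega⟩, ?_⟩
      rw [h0]; intro h; have := congrArg Fin.val h; simp at this
    · exact ⟨⟨0, by omega⟩, h0⟩
  obtain ⟨g0, hg03, hg0i, _⟩ := exists_moving hn i p hp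
  have hτ0 : ((f g0 : alternatingGroup (Fin n)) : Perm (Fin n)) ∈ T :=
    ⟨f g0, ⟨g0, ⟨hg03, hg0i⟩, rfl⟩, rfl⟩
  by_cases htr : ∀ x y : Fin n, ∃ h ∈ H, h x = y
  · have hle := alt_le_of_transitive H T hT hH _ hτ0 htr
    have : K = ⊤ := by
      rw [eq_top_iff]
      intro k _
      exact (hKH k).mpr (hle k.2)
    exact hKcoatom.1 this
  · push Not at htr
    obtain ⟨x, y, hxy⟩ := htr
    let O : Set (Fin n) := {z | ∃ h ∈ H, h x = z}
    have hxO : x ∈ O := ⟨1, H.one_mem, rfl⟩
    have hyO : y ∉ O := fun ⟨h, hh, e⟩ => hxy h hh e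
    have hOmem : ∀ h ∈ H, ∀ z ∈ O, h z ∈ O := by
      rintro h hh z ⟨h', hh', rfl⟩
      exact ⟨h * h', H.mul_mem hh hh', rfl⟩
    have hO : ∀ h ∈ H, h • O = O := by
      intro h hh
      have : h ∈ MulAction.stabilizer (Perm (Fin n)) O := by
        rw [MulAction.mem_stabilizer_set' (Set.toFinite O)]
        intro b hb
        exact hOmem h hh b hb
      exact this
    obtain ⟨h1, hh1, hx1⟩ := hfix x
    obtain ⟨h2, hh2, hy2⟩ := hfix y
    have hbO : h1 x ∈ O := ⟨h1, hh1, rfl⟩
    have hdO : h2 y ∉ O := by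
      rintro ⟨h, hh, e⟩
      apply hxy (h2⁻¹ * h) (H.mul_mem (H.inv_mem hh2) hh)
      rw [Perm.mul_apply, e, perm_inv_apply_self]
    have hnot := swap_mul_swap_not_mem H T hT hH O hO x (h1 x) y (h2 y) hxO hbO (Ne.symm hx1) hyO hdO
    have hKO : K ≤ MulAction.stabilizer (alternatingGroup (Fin n)) O := by
      intro k hk
      rw [MulAction.mem_stabilizer_iff]
      exact hO k ((hKH k).mp hk)
    have hne : MulAction.stabilizer (alternatingGroup (Fin n)) O ≠ ⊤ :=
      alternatingGroup.stabilizer_ne_top ⟨x, hxO⟩ ⟨y, hyO, h2 y, hdO, Ne.symm hy2⟩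
    have hKeq : K = MulAction.stabilizer (alternatingGroup (Fin n)) O :=
      eq_of_le_of_not_lt hKO (fun hlt => hne (hKcoatom.2 _ hlt))
    have hg1 : swap x (h1 x) * swap y (h2 y) ∈ alternatingGroup (Fin n) := by
      rw [mem_alternatingGroup, map_mul, sign_swap (Ne.symm hx1), sign_swap (Ne.symm hy2)]
      decide
    have hg1O : (⟨swap x (h1 x) * swap y (h2 y), hg1⟩ : alternatingGroup (Fin n)) ∈
        MulAction.stabilizer (alternatingGroup (Fin n)) O := by
      rw [MulAction.mem_stabilizer_set' (Set.toFinite O)]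
      intro b hb
      show (swap x (h1 x) * swap y (h2 y)) b ∈ O
      have hby : b ≠ y := fun h => hyO (h ▸ hb)
      have hbd : b ≠ h2 y := fun h => hdO (h ▸ hb)
      rw [Perm.mul_apply, swap_apply_of_ne_of_ne hby hbd]
      by_cases hbx : b = x
      · rw [hbx, swap_apply_left]; exact hbO
      · by_cases hbb : b = h1 x
        · rw [hbb, swap_apply_right]; exact hxO
        · rw [swap_apply_of_ne_of_ne hbx hbb]; exact hb
    rw [← hKeq] at hg1O
    exact hnot ((hKH _).mp hg1O)

theorem conjNormal_injective (hn : 4 ≤ n) :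
    Function.Injective (MulAut.conjNormal : Perm (Fin n) →* MulAut ↥(alternatingGroup (Fin n))) := by
  rw [injective_iff_map_eq_one]
  intro γ hγ
  apply Equiv.Perm.ext
  intro i
  rw [Perm.one_apply]
  by_contra hne
  obtain ⟨g, _, hgi, hgp⟩ := exists_moving hn i (γ i) (Ne.symm hne)
  have h1 : ((MulAut.conjNormal γ g : alternatingGroup (Fin n)) : Perm (Fin n)) = g := by rw [hγ]; rfl
  rw [MulAut.conjNormal_apply] at h1
  have h2 : γ * (g : Perm (Fin n)) = (g : Perm (Fin n)) * γ := by
    rw [mul_inv_eq_iff_eq_mul] at h1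
    exact h1
  have h3 := congrArg (fun τ : Perm (Fin n) => τ i) h2
  simp only [Perm.mul_apply] at h3
  rw [hgi] at h3
  exact hgp h3.symm

theorem surj' (hn : 4 ≤ n) (f : alternatingGroup (Fin n) ≃* alternatingGroup (Fin n))
    (hf : ∀ σ : alternatingGroup (Fin n), IsThreeCycle (σ : Perm (Fin n)) →
      IsThreeCycle ((f σ : alternatingGroup (Fin n)) : Perm (Fin n)))
    (hf' : ∀ σ : alternatingGroup (Fin n), IsThreeCycle (σ : Perm (Fin n)) →
      IsThreeCycle ((f.symm σ : alternatingGroup (Fin n)) : Perm (Fin n))) :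
    ∃ γ : Perm (Fin n), (MulAut.conjNormal γ : MulAut ↥(alternatingGroup (Fin n))) = f := by
  choose γ hγ using main_lemma' hn f hf
  choose δ hδ using main_lemma' hn f.symm hf'
  have hδγ : ∀ i, δ (γ i) = i := by
    intro i
    symm
    apply eq_of_fix_imp hn
    intro g hg
    have h1 := hδ (γ i) (f g) (hγ i g hg)
    simpa using h1
  have hγδ : ∀ j, γ (δ j) = j := by
    intro j
    symm
    apply eq_of_fix_imp hn
    intro g hg
    have h1 := hγ (δ j) (f.symm g) (hδ j g hg)
    simpa using h1
  let γ' : Perm (Fin n) := ⟨γ, δ, hδγ, hγδ⟩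
  refine ⟨γ', ?_⟩
  apply MulEquiv.ext
  intro g
  apply Subtype.ext
  rw [MulAut.conjNormal_apply]
  have key : ∀ i, ((f g : alternatingGroup (Fin n)) : Perm (Fin n)) (γ i) = γ ((g : Perm (Fin n)) i) := by
    intro i
    have hp : γ i = ((f g : alternatingGroup (Fin n)) : Perm (Fin n))⁻¹ (γ ((g : Perm (Fin n)) i)) := by
      apply eq_of_fix_imp hn
      intro h' hh'
      have hi : ((f.symm h' : alternatingGroup (Fin n)) : Perm (Fin n)) i = i := by
        have := hδ (γ i) h' hh'
        rwa [hδγ] at this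
      have hgi : ((g * f.symm h' * g⁻¹ : alternatingGroup (Fin n)) : Perm (Fin n)) ((g : Perm (Fin n)) i)
          = (g : Perm (Fin n)) i := by
        simp only [Subgroup.coe_mul, Subgroup.coe_inv, Perm.mul_apply]
        rw [perm_inv_apply_self, hi]
      have h2 := hγ ((g : Perm (Fin n)) i) _ hgi
      simp only [map_mul, map_inv, MulEquiv.apply_symm_apply, Subgroup.coe_mul, Subgroup.coe_inv,
        Perm.mul_apply] at h2
      have h3 := congrArg (fun z => ((f g : alternatingGroup (Fin n)) : Perm (Fin n))⁻¹ z) h2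
      simpa using h3
    rw [hp, perm_apply_inv_self]
  apply Equiv.Perm.ext
  intro x
  have := key (δ x)
  rw [hγδ] at this
  simp only [Perm.mul_apply]
  show γ ((g : Perm (Fin n)) (γ'⁻¹ x)) = _
  have hinv : γ'⁻¹ x = δ x := rfl
  rw [hinv, ← this]

/-! ### Degree six: automorphisms of odd order preserve three-cycles -/

theorem cycleType_of_orderOf_three_six (g : Perm (Fin 6)) (hg : orderOf g = 3) :
    g.cycleType = {3} ∨ g.cycleType = {3, 3} := by
  obtain ⟨k, hk⟩ := cycleType_prime_order (σ := g) (by rw [hg]; exact Nat.prime_three)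
  rw [hg] at hk
  have hsum : g.cycleType.sum ≤ 6 := by
    rw [sum_cycleType]
    exact (Finset.card_le_univ _).trans (by simp)
  rw [hk, Multiset.sum_replicate, smul_eq_mul] at hsum
  have : k = 0 ∨ k = 1 := by omega
  rcases this with rfl | rfl
  · left; rw [hk]; rfl
  · right; rw [hk]; rfl

theorem card_T3 : (Finset.univ.filter (fun σ : alternatingGroup (Fin 6) =>
    (σ : Perm (Fin 6)).cycleType = {3})).card = 40 := by
  rw [AlternatingGroup.card_of_cycleType, if_pos (by decide)]
  decide

theorem card_T33 : (Finset.univ.filter (fun σ : alternatingGroup (Fin 6) =>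
    (σ : Perm (Fin 6)).cycleType = {3, 3})).card = 40 := by
  rw [AlternatingGroup.card_of_cycleType, if_pos (by decide)]
  decide

theorem map_three_six (f : MulAut (alternatingGroup (Fin 6))) (hodd : Odd (orderOf f))
    (σ : alternatingGroup (Fin 6)) (hσ : IsThreeCycle (σ : Perm (Fin 6))) :
    IsThreeCycle ((f σ : alternatingGroup (Fin 6)) : Perm (Fin 6)) := by
  classical
  -- the set of automorphisms preserving three-cycles
  by_contra hcon
  set T3 := Finset.univ.filter (fun σ : alternatingGroup (Fin 6) =>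
    (σ : Perm (Fin 6)).cycleType = {3}) with hT3
  set T33 := Finset.univ.filter (fun σ : alternatingGroup (Fin 6) =>
    (σ : Perm (Fin 6)).cycleType = {3, 3}) with hT33
  have hmemT3 : ∀ τ : alternatingGroup (Fin 6), τ ∈ T3 ↔ IsThreeCycle (τ : Perm (Fin 6)) := by
    intro τ; simp [hT3, IsThreeCycle]
  have hmemT33 : ∀ τ : alternatingGroup (Fin 6), τ ∈ T33 ↔ (τ : Perm (Fin 6)).cycleType = {3, 3} := by
    intro τ; simp [hT33]
  have hord3 : ∀ τ : alternatingGroup (Fin 6), orderOf τ = 3 →
      orderOf ((f τ : alternatingGroup (Fin 6)) : Perm (Fin 6)) = 3 := by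
    intro τ hτ
    rw [Subgroup.orderOf_coe]
    exact (MulEquiv.orderOf_eq f τ).trans hτ
  -- claim 1: all three-cycles go to double three-cycles
  have h1 : ∀ τ ∈ T3, f τ ∈ T33 := by
    intro τ hτ
    rw [hmemT3] at hτ
    rw [hmemT33]
    have ho : orderOf τ = 3 := by rw [← Subgroup.orderOf_coe]; exact hτ.orderOf
    rcases cycleType_of_orderOf_three_six _ (hord3 τ ho) with h | h
    · exfalso
      apply hcon
      have hc : IsConj τ σ := alternatingGroup.isThreeCycle_isConj (by simp) hτ hσ
      have hc2 : IsConj (f τ) (f σ) := (f : alternatingGroup (Fin 6) →* alternatingGroup (Fin 6)).map_isConj hc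
      have hc3 : IsConj ((f τ : alternatingGroup (Fin 6)) : Perm (Fin 6))
          ((f σ : alternatingGroup (Fin 6)) : Perm (Fin 6)) :=
        (alternatingGroup (Fin 6)).subtype.map_isConj hc2
      have := isConj_iff_cycleType_eq.mp hc3
      unfold IsThreeCycle
      rw [← this, h]
    · exact h
  have himg : T3.image f = T33 := by
    apply Finset.eq_of_subset_of_card_le
    · intro τ hτ
      obtain ⟨τ', hτ', rfl⟩ := Finset.mem_image.mp hτ
      exact h1 τ' hτ'
    · rw [Finset.card_image_of_injective _ f.injective, card_T3, card_T33]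
  -- claim 2: double three-cycles go to three-cycles
  have h2 : ∀ τ ∈ T33, f τ ∈ T3 := by
    intro τ hτ
    have hτ' := (hmemT33 τ).mp hτ
    have ho : orderOf τ = 3 := by
      rw [← Subgroup.orderOf_coe, ← lcm_cycleType, hτ']
      decide
    rcases cycleType_of_orderOf_three_six _ (hord3 τ ho) with h | h
    · rw [hmemT3]; exact h
    · exfalso
      have h3 : f τ ∈ T3.image f := by rw [himg, hmemT33]; exact h
      obtain ⟨τ', hτ'3, he⟩ := Finset.mem_image.mp h3
      have : τ' = τ := f.injective he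
      rw [this, hmemT3] at hτ'3
      unfold IsThreeCycle at hτ'3
      rw [hτ'] at hτ'3
      revert hτ'3
      decide
  -- f ^ 2 preserves three-cycles, hence so does every power of f ^ 2
  have h3 : ∀ k : ℕ, ∀ τ ∈ T3, ((f ^ 2) ^ k) τ ∈ T3 := by
    intro k
    induction k with
    | zero => intro τ hτ; simpa using hτ
    | succ k ih =>
      intro τ hτ
      rw [pow_succ, MulAut.mul_apply]
      apply ih
      rw [pow_two, MulAut.mul_apply]
      exact h2 _ (h1 _ hτ)
  obtain ⟨m, hm⟩ := hodd
  have h4 : (f ^ 2) ^ (m + 1) = f := by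
    rw [← pow_mul]
    have : 2 * (m + 1) = orderOf f + 1 := by omega
    rw [this, pow_succ, pow_orderOf_eq_one, one_mul]
  have h5 := h3 (m + 1) σ ((hmemT3 σ).mpr hσ)
  rw [h4, hmemT3] at h5
  exact hcon h5

/-- every automorphism of odd order of an alternating group of degree at least 5 is induced by
a permutation -/
theorem exists_perm_of_odd (hn : 5 ≤ n) (f : MulAut (alternatingGroup (Fin n)))
    (hodd : Odd (orderOf f)) :
    ∃ γ : Perm (Fin n), (MulAut.conjNormal γ : MulAut ↥(alternatingGroup (Fin n))) = f := by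
  by_cases h6 : n = 6
  · subst h6
    apply surj' (by norm_num) f (map_three_six f hodd)
    have : Odd (orderOf f⁻¹) := by rw [orderOf_inv]; exact hodd
    exact map_three_six f⁻¹ this
  · exact (Cfsg.Agent.S2119.result n (by omega) h6).2 f

/-! ### Small `p`-subgroups of symmetric groups are abelian -/

theorem comm_of_lt_sq {r : ℕ} [hr : Fact r.Prime] (hn : n < r ^ 2) (P : Subgroup (Perm (Fin n)))
    (hP : IsPGroup r P) (a b : Perm (Fin n)) (ha : a ∈ P) (hb : b ∈ P) : a * b = b * a := by
  classical
  apply Equiv.Perm.ext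
  intro x
  let φ : P →* Perm (MulAction.orbit P x) := MulAction.toPermHom P (MulAction.orbit P x)
  obtain ⟨k, hk⟩ := hP.card_orbit x
  have hle : Nat.card (MulAction.orbit P x) ≤ n := by
    have := Nat.card_le_card_of_injective (Subtype.val : MulAction.orbit P x → Fin n)
      Subtype.val_injective
    simpa using this
  have hk1 : k ≤ 1 := by
    by_contra hk2
    push Not at hk2
    have : r ^ 2 ≤ r ^ k := Nat.pow_le_pow_right hr.out.pos hk2
    omega
  have hHp : IsPGroup r φ.range := hP.of_surjective φ.rangeRestrict φ.rangeRestrict_surjective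
  have hdvd : Nat.card φ.range ∣ (Nat.card (MulAction.orbit P x)).factorial := by
    have h1 := Subgroup.card_subgroup_dvd_card φ.range
    rwa [Nat.card_perm] at h1
  have hcomm : ∀ u v : φ.range, u * v = v * u := by
    obtain ⟨j, hj⟩ := IsPGroup.iff_card.mp hHp
    have hj1 : j ≤ 1 := by
      by_contra hj2
      push Not at hj2
      have h2 : r ^ 2 ∣ (Nat.card (MulAction.orbit P x)).factorial :=
        (pow_dvd_pow r hj2).trans (hj ▸ hdvd)
      rw [hk] at h2
      have hr2 := hr.out.two_le
      interval_cases k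
      · rw [pow_zero, Nat.factorial_one] at h2
        have := Nat.le_of_dvd one_pos h2
        nlinarith
      · rw [pow_one] at h2
        obtain ⟨s, hs⟩ : ∃ s, r = s + 1 := ⟨r - 1, by omega⟩
        rw [hs, Nat.factorial_succ, pow_two] at h2
        have h3 : s + 1 ∣ s.factorial := Nat.dvd_of_mul_dvd_mul_left (by omega) h2
        have h4 := (Nat.Prime.dvd_factorial (hs ▸ hr.out)).mp h3
        omega
    interval_cases j
    · have : Subsingleton φ.range := (Nat.card_eq_one_iff_unique.mp (by simpa using hj)).1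
      intro u v; rw [Subsingleton.elim u v]
    · have hc : Nat.card φ.range = r := by simpa using hj
      have hcyc := isCyclic_of_prime_card hc
      intro u v
      exact (IsCyclic.isMulCommutative (α := φ.range)).is_comm.comm u v
  have h1 := hcomm ⟨φ ⟨a, ha⟩, ⟨_, rfl⟩⟩ ⟨φ ⟨b, hb⟩, ⟨_, rfl⟩⟩
  have h3 : φ ⟨a, ha⟩ * φ ⟨b, hb⟩ = φ ⟨b, hb⟩ * φ ⟨a, ha⟩ := congrArg Subtype.val h1
  have h4 := congrArg (fun π : Perm (MulAction.orbit P x) =>
    ((π ⟨x, MulAction.mem_orbit_self x⟩ : MulAction.orbit P x) : Fin n)) h3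
  simpa [φ] using h4

/-! ### Elements of order `p * q` -/

theorem exists_orderOf_mul (p q : ℕ) (hp : p.Prime) (hq : q.Prime) (hpq : p ≠ q) (hp2 : p ≠ 2)
    (hq2 : q ≠ 2) (h : p + q ≤ n) : ∃ σ : alternatingGroup (Fin n), orderOf σ = p * q := by
  classical
  obtain ⟨g, hg⟩ := (exists_with_cycleType_iff (Fin n) (m := {p, q})).mpr (by
    constructor
    · simpa using h
    · intro a ha
      simp only [Multiset.insert_eq_cons, Multiset.mem_cons, Multiset.mem_singleton] at ha
      rcases ha with rfl | rfl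
      · exact hp.two_le
      · exact hq.two_le)
  have hsign : g ∈ alternatingGroup (Fin n) := by
    rw [mem_alternatingGroup, sign_of_cycleType, hg]
    have hpo : Odd p := hp.odd_of_ne_two hp2
    have hqo : Odd q := hq.odd_of_ne_two hq2
    have : Even (Multiset.sum {p, q} + Multiset.card ({p, q} : Multiset ℕ)) := by
      simp only [Multiset.insert_eq_cons, Multiset.sum_cons, Multiset.sum_singleton,
        Multiset.card_cons, Multiset.card_singleton]
      have := hpo.add_odd hqo
      exact this.add (by decide)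
    exact this.neg_one_pow
  refine ⟨⟨g, hsign⟩, ?_⟩
  rw [← Subgroup.orderOf_coe]
  change orderOf g = p * q
  rw [← lcm_cycleType, hg]
  simp only [Multiset.insert_eq_cons, Multiset.lcm_cons, Multiset.lcm_singleton, normalize_eq]
  have hcop : Nat.Coprime p q := (Nat.coprime_primes hp hq).mpr hpq
  exact hcop.lcm_eq_mul

theorem exists_orderOf_two_mul (q : ℕ) (hq : q.Prime) (hq2 : q ≠ 2) (h : q + 4 ≤ n) :
    ∃ σ : alternatingGroup (Fin n), orderOf σ = 2 * q := by
  classical
  obtain ⟨g, hg⟩ := (exists_with_cycleType_iff (Fin n) (m := {2, 2, q})).mpr (by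
    constructor
    · simp only [Multiset.insert_eq_cons, Multiset.sum_cons, Multiset.sum_singleton,
        Fintype.card_fin]
      omega
    · intro a ha
      simp only [Multiset.insert_eq_cons, Multiset.mem_cons, Multiset.mem_singleton] at ha
      rcases ha with rfl | rfl | rfl
      · exact le_rfl
      · exact le_rfl
      · exact hq.two_le)
  have hsign : g ∈ alternatingGroup (Fin n) := by
    rw [mem_alternatingGroup, sign_of_cycleType, hg]
    have hqo : Odd q := hq.odd_of_ne_two hq2
    have : Even (Multiset.sum {2, 2, q} + Multiset.card ({2, 2, q} : Multiset ℕ)) := by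
      simp only [Multiset.insert_eq_cons, Multiset.sum_cons, Multiset.sum_singleton,
        Multiset.card_cons, Multiset.card_singleton]
      obtain ⟨t, ht⟩ := hqo
      exact ⟨t + 4, by omega⟩
    exact this.neg_one_pow
  refine ⟨⟨g, hsign⟩, ?_⟩
  rw [← Subgroup.orderOf_coe]
  change orderOf g = 2 * q
  rw [← lcm_cycleType, hg]
  simp only [Multiset.insert_eq_cons, Multiset.lcm_cons, Multiset.lcm_singleton, normalize_eq]
  have hcop : Nat.Coprime 2 q := (Nat.coprime_primes Nat.prime_two hq).mpr (Ne.symm hq2)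
  have h1 : lcm 2 q = 2 * q := hcop.lcm_eq_mul
  rw [h1]
  exact Nat.lcm_eq_right (dvd_mul_right 2 q)

/-! ### Glue -/

theorem conj_eq_conjNormal (σ : alternatingGroup (Fin n)) :
    (MulAut.conj σ : MulAut (alternatingGroup (Fin n))) = MulAut.conjNormal (σ : Perm (Fin n)) := by
  apply MulEquiv.ext
  intro g
  apply Subtype.ext
  rw [MulAut.conjNormal_apply]
  simp [MulAut.conj_apply]

theorem orderOf_conj (hn : 4 ≤ n) (σ : alternatingGroup (Fin n)) :
    orderOf (MulAut.conj σ : MulAut (alternatingGroup (Fin n))) = orderOf σ := by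
  rw [conj_eq_conjNormal, orderOf_injective _ (conjNormal_injective hn), Subgroup.orderOf_coe]

/-- a non-abelian Sylow `r`-subgroup for an odd prime `r` forces `r ^ 2 ≤ n` -/
theorem sq_le_of_not_comm (hn : 5 ≤ n) (G : Subgroup (MulAut (alternatingGroup (Fin n))))
    (r : ℕ) [hr : Fact r.Prime] (hr2 : r ≠ 2) (R : Sylow r G)
    (hR : ¬ IsMulCommutative (R : Subgroup G)) : r ^ 2 ≤ n := by
  by_contra hlt
  push Not at hlt
  apply hR
  let R' : Subgroup (Perm (Fin n)) :=
    (((R : Subgroup G).map G.subtype)).comap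
      (MulAut.conjNormal : Perm (Fin n) →* MulAut ↥(alternatingGroup (Fin n)))
  have hinj := conjNormal_injective (n := n) (by omega)
  have hR' : IsPGroup r R' := by
    intro γ
    have hγ : (MulAut.conjNormal (γ : Perm (Fin n)) : MulAut ↥(alternatingGroup (Fin n))) ∈
        (R : Subgroup G).map G.subtype := γ.2
    obtain ⟨k, hk⟩ := (R.2.map G.subtype) ⟨_, hγ⟩
    refine ⟨k, ?_⟩
    apply Subtype.ext
    apply hinj
    have := congrArg Subtype.val hk
    simpa using this
  have key : ∀ a b : (R : Subgroup G), a * b = b * a := by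
    intro a b
    have hodd : ∀ c : (R : Subgroup G), Odd (orderOf ((c : G) : MulAut (alternatingGroup (Fin n)))) := by
      intro c
      rw [Subgroup.orderOf_coe, Subgroup.orderOf_coe]
      obtain ⟨k, hk⟩ := (IsPGroup.iff_orderOf.mp R.2) c
      rw [hk]
      exact (hr.out.odd_of_ne_two hr2).pow
    obtain ⟨γa, hγa⟩ := exists_perm_of_odd hn _ (hodd a)
    obtain ⟨γb, hγb⟩ := exists_perm_of_odd hn _ (hodd b)
    have hmem : ∀ (c : (R : Subgroup G)) (γ : Perm (Fin n)),
        (MulAut.conjNormal γ : MulAut ↥(alternatingGroup (Fin n))) = ((c : G) : MulAut _) → γ ∈ R' := by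
      intro c γ hγ
      show (MulAut.conjNormal γ : MulAut ↥(alternatingGroup (Fin n))) ∈ (R : Subgroup G).map G.subtype
      rw [hγ]
      exact ⟨(c : G), c.2, rfl⟩
    have hc := comm_of_lt_sq hlt R' hR' γa γb (hmem a γa hγa) (hmem b γb hγb)
    have hc2 := congrArg (MulAut.conjNormal : Perm (Fin n) →* MulAut ↥(alternatingGroup (Fin n))) hc
    rw [map_mul, map_mul, hγa, hγb] at hc2
    apply Subtype.ext
    apply Subtype.ext
    exact hc2
  exact ⟨⟨key⟩⟩

/-- Let n ≥ 5 and let G be a group of automorphisms of the alternating group of degree n containing all inner automorphisms. If p ≠ q are primes and G has no element of order pq, then every Sylow p-subgroup of G is abelian or every Sylow q-subgroup of G is abelian. -/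
theorem result (n : ℕ) (hn : 5 ≤ n) (G : Subgroup (MulAut (alternatingGroup (Fin n))))
    (hG : (MulAut.conj : alternatingGroup (Fin n) →* MulAut (alternatingGroup (Fin n))).range ≤ G)
    (p q : ℕ) [Fact p.Prime] [Fact q.Prime] (hpq : p ≠ q) (h : ∀ g : G, orderOf g ≠ p * q) :
    (∀ P : Sylow p G, IsMulCommutative (P : Subgroup G)) ∨ (∀ Q : Sylow q G, IsMulCommutative (Q : Subgroup G)) := by
  by_contra hcon
  push Not at hcon
  obtain ⟨⟨P, hP⟩, ⟨Q, hQ⟩⟩ := hcon
  have hp : p.Prime := Fact.out
  have hq : q.Prime := Fact.out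
  -- an element of `A_n` of order `p * q` gives a contradiction
  have hfin : ∀ σ : alternatingGroup (Fin n), orderOf σ ≠ p * q := by
    intro σ hσ
    have hmem : (MulAut.conj σ : MulAut (alternatingGroup (Fin n))) ∈ G := hG ⟨σ, rfl⟩
    apply h ⟨_, hmem⟩
    rw [← Subgroup.orderOf_coe]
    change orderOf (MulAut.conj σ : MulAut (alternatingGroup (Fin n))) = p * q
    rw [orderOf_conj (by omega), hσ]
  by_cases hp2 : p = 2
  · have hq2 : q ≠ 2 := fun hq2 => hpq (hp2.trans hq2.symm)
    have hsq := sq_le_of_not_comm hn G q hq2 Q hQ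
    have hq3 : 3 ≤ q := by
      have := hq.two_le
      omega
    obtain ⟨σ, hσ⟩ := exists_orderOf_two_mul (n := n) q hq hq2 (by nlinarith)
    exact hfin σ (by rw [hσ, hp2])
  · by_cases hq2 : q = 2
    · have hsq := sq_le_of_not_comm hn G p hp2 P hP
      have hp3 : 3 ≤ p := by
        have := hp.two_le
        omega
      obtain ⟨σ, hσ⟩ := exists_orderOf_two_mul (n := n) p hp hp2 (by nlinarith)
      exact hfin σ (by rw [hσ, hq2, mul_comm])
    · have hsp := sq_le_of_not_comm hn G p hp2 P hP
      have hsq := sq_le_of_not_comm hn G q hq2 Q hQ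
      have hp3 : 3 ≤ p := by
        have := hp.two_le
        omega
      have hq3 : 3 ≤ q := by
        have := hq.two_le
        omega
      obtain ⟨σ, hσ⟩ := exists_orderOf_mul (n := n) p q hp hq hpq hp2 hq2 (by
        rcases Nat.lt_or_ge p q with hlt | hge
        · nlinarith
        · nlinarith)
      exact hfin σ hσ

end Cfsg.Agent.S4231
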