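import Cfsg.Statements.S4234
import Mathlib
import Cfsg.Agent.Lib.Helper54.N13d

set_option autoImplicit false
open Cfsg
open Cfsg.Agent.Lib.Helper54 Cfsg.Agent.Lib.Helper19.Dk

namespace Cfsg.Agent.S4234

/-- Let K be isomorphic to PSL(2, 13) or to SL(2, 13) and let S be a finite abelian group of order coprime to the order of K. Then in the direct product K × S every subgroup that is not normal has a normalizer that is a maximal subgroup. -/
theorem result {K S : Type*} [Group K] [CommGroup S] [Finite K] [Finite S]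
    (hK : Nonempty (K ≃* Matrix.ProjectiveSpecialLinearGroup (Fin 2) (ZMod 13)) ∨
      Nonempty (K ≃* Matrix.SpecialLinearGroup (Fin 2) (ZMod 13)))
    (hKS : (Nat.card K).Coprime (Nat.card S)) (H : Subgroup (K × S)) (hH : ¬ H.Normal) :
    IsCoatom (Subgroup.normalizer (H : Set (K × S))) := by
  have : Fact (Nat.Prime 13) := ⟨by norm_num⟩
  have hq : Fintype.card (ZMod 13) = 13 := ZMod.card 13
  refine n13_prod hKS ?_ H hH
  rcases hK with ⟨⟨e⟩⟩ | ⟨⟨e⟩⟩
  · exact n13_transfer e (fun H₀ hH₀ => n13_main_P2 hq H₀ hH₀)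
  · exact n13_transfer e (fun H₀ hH₀ => n13_main_S2 hq H₀ hH₀)

end Cfsg.Agent.S4234
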