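import Cfsg.Statements.S4237
import Mathlib
import Cfsg.Agent.S3975
import Cfsg.Agent.Lib.Helper43.KulA
import Cfsg.Agent.Lib.Helper43.KulB
import Cfsg.Agent.Lib.Helper43.KulC
import Cfsg.Agent.Lib.Helper43.KulD
import Cfsg.Agent.Lib.Helper43.KulE
import Cfsg.Agent.Lib.Helper43.KulF
import Cfsg.Agent.Lib.Helper43.KulG

set_option autoImplicit false
open Cfsg

namespace Cfsg.Agent.S4237

/-- Let G be a finite group, p a prime and a a natural number such that p^(a+1) divides the order of G. Then the number of subgroups of G of order p^a is congruent to 1 or to 1 + p modulo p². -/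
theorem result {G : Type*} [Group G] [Finite G] (p a : ℕ) (hp : p.Prime) (hdvd : p ^ (a + 1) ∣ Nat.card G) :
    Nat.card {H : Subgroup G // Nat.card H = p ^ a} ≡ 1 [MOD p ^ 2] ∨
      Nat.card {H : Subgroup G // Nat.card H = p ^ a} ≡ 1 + p [MOD p ^ 2] := by
  have hfact : Fact p.Prime := ⟨hp⟩
  by_cases h2 : p = 2
  · subst h2
    have h1 := Cfsg.Agent.S3975.result (G := G) 2 a hp
      ((pow_dvd_pow 2 (by omega : a ≤ a + 1)).trans hdvd)
    have h3 : Nat.card {H : Subgroup G // Nat.card H = 2 ^ a} % 2 = 1 := h1
    unfold Nat.ModEq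
    omega
  · obtain ⟨P⟩ : Nonempty (Sylow p G) := inferInstance
    obtain ⟨n, hn⟩ := IsPGroup.iff_card.mp P.isPGroup'
    have han : a + 1 ≤ n := by
      have h1 := P.pow_dvd_card_of_pow_dvd_card hdvd
      rw [hn] at h1
      exact (Nat.pow_dvd_pow_iff_le_right hp.one_lt).mp h1
    have hred := Cfsg.Agent.Lib.Helper43.Kul.card_modEq_sylow p n a P hn han
    rw [← Cfsg.Agent.Lib.Helper43.Kul.card_subgroups_le] at hred
    by_cases hcyc : IsCyclic ↥(P : Subgroup G)
    · left
      have h1 : Nat.card {V : Subgroup ↥(P : Subgroup G) // Nat.card V = p ^ a} = 1 := by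
        rw [Nat.card_eq_one_iff_unique]
        constructor
        · constructor
          intro V W
          exact Subtype.ext (Cfsg.Agent.Lib.Helper43.Kul.cyclic_subgroup_unique V.1 W.1
            (V.2.trans W.2.symm))
        · obtain ⟨K, hK⟩ := Sylow.exists_subgroup_card_pow_prime (G := ↥(P : Subgroup G)) p
            (n := a) (by rw [hn]; exact pow_dvd_pow p (by omega))
          exact ⟨⟨K, hK⟩⟩
      rw [h1] at hred
      exact hred
    · by_cases ha0 : a = 0
      · left
        subst ha0
        have h1 : Nat.card {V : Subgroup ↥(P : Subgroup G) // Nat.card V = p ^ 0} = 1 := by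
          rw [Nat.card_eq_one_iff_unique]
          constructor
          · constructor
            intro V W
            apply Subtype.ext
            rw [Subgroup.eq_bot_of_card_eq V.1 (by simpa using V.2),
              Subgroup.eq_bot_of_card_eq W.1 (by simpa using W.2)]
          · exact ⟨⟨⊥, by simp⟩⟩
        rw [h1] at hred
        exact hred
      · right
        exact hred.trans (Cfsg.Agent.Lib.Helper43.Kul.kulakoff p hp h2 n ↥(P : Subgroup G) hn hcyc
          a (by omega) (by omega))

end Cfsg.Agent.S4237
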