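import Cfsg.Statements.S4238
import Cfsg.Agent.Lib.Helper75.Frobenius

set_option autoImplicit false
open Cfsg
open scoped Pointwise commutatorElement
open Cfsg.Agent.Lib.Helper75

namespace Cfsg.Agent.S4238

lemma exists_orderOf_eq_exponent_of_isPGroup {K : Type*} [Group K] [Finite K] {p : ℕ} [Fact p.Prime]
    (hK : IsPGroup p K) : ∃ k : K, orderOf k = Monoid.exponent K := by
  obtain ⟨g, hg⟩ := Finite.exists_max (fun k : K => orderOf k)
  refine ⟨g, Nat.dvd_antisymm (Monoid.order_dvd_exponent g) ?_⟩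
  rw [Monoid.exponent_dvd_iff_forall_pow_eq_one]
  intro h
  obtain ⟨i, hi⟩ := (IsPGroup.iff_orderOf.mp hK) h
  obtain ⟨j, hj⟩ := (IsPGroup.iff_orderOf.mp hK) g
  have hle := hg h
  rw [hi, hj] at hle
  have hij : i ≤ j := (Nat.pow_le_pow_iff_right (Fact.out : p.Prime).one_lt).mp hle
  apply orderOf_dvd_iff_pow_eq_one.mp
  rw [hi, hj]
  exact pow_dvd_pow p hij

lemma frob_type {K : Type*} [Group K] [Finite K] {p : ℕ} [Fact p.Prime] (A : Subgroup K) [hAn : A.Normal]
    (hAp : IsPGroup p A) (hA1 : A ≠ ⊥) (hAtop : A ≠ ⊤) (hidx : (A.index).Coprime p)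
    (hfpf : ∀ k : K, k ∉ A → ∀ a ∈ A, a * k = k * a → a = 1) :
    Cfsg.pPrimeCore p K = ⊥ ∧ ¬ ∃ k : K, orderOf k = Monoid.exponent K := by
  have hp : p.Prime := Fact.out
  obtain ⟨n, hn⟩ := IsPGroup.iff_card.mp hAp
  obtain ⟨a₀, ha₀1⟩ := (Subgroup.ne_bot_iff_exists_ne_one.mp hA1)
  constructor
  · unfold Cfsg.pPrimeCore
    rw [sSup_eq_bot]
    rintro L ⟨hLn, hLc⟩
    have hAL : A ⊓ L = ⊥ := by
      apply disjoint_iff.mp
      apply Subgroup.disjoint_of_coprime_natCard
      rw [hn]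
      exact Nat.Coprime.pow_left n hLc.symm
    rw [eq_bot_iff]
    intro l hl
    rw [Subgroup.mem_bot]
    have hlA : l ∈ A := by
      by_contra hlA
      have h1 : (a₀ : K) * l * (a₀ : K)⁻¹ * l⁻¹ ∈ A ⊓ L := by
        refine Subgroup.mem_inf.mpr ⟨?_, ?_⟩
        · have : (a₀ : K) * l * (a₀ : K)⁻¹ * l⁻¹ = (a₀ : K) * (l * (a₀ : K)⁻¹ * l⁻¹) := by group
          rw [this]
          exact mul_mem a₀.2 (hAn.conj_mem _ (A.inv_mem a₀.2) l)
        · exact L.mul_mem (hLn.conj_mem _ hl _) (L.inv_mem hl)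
      rw [hAL, Subgroup.mem_bot] at h1
      have h2 : (a₀ : K) * l = l * (a₀ : K) := by
        have : (a₀ : K) * l = ((a₀ : K) * l * (a₀ : K)⁻¹ * l⁻¹) * (l * a₀) := by group
        rw [this, h1, one_mul]
      have := hfpf l hlA a₀ a₀.2 h2
      exact ha₀1 (Subtype.ext this)
    have : l ∈ A ⊓ L := Subgroup.mem_inf.mpr ⟨hlA, hl⟩
    rwa [hAL, Subgroup.mem_bot] at this
  · rintro ⟨k, hk⟩
    have hEpos : orderOf k ≠ 0 := (orderOf_pos k).ne'
    -- p divides the exponent
    have hpE : p ∣ orderOf k := by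
      rw [hk]
      have h1 : orderOf (a₀ : K) ∣ Monoid.exponent K := Monoid.order_dvd_exponent _
      have h2 : orderOf (a₀ : K) ≠ 1 := by
        rw [Ne, orderOf_eq_one_iff]
        intro h; exact ha₀1 (Subtype.ext h)
      have h3 : orderOf (a₀ : K) ∣ p ^ n := by
        rw [← hn, Subgroup.orderOf_coe]; exact orderOf_dvd_natCard a₀
      obtain ⟨i, -, hi⟩ := (Nat.dvd_prime_pow hp).mp h3
      have hi0 : i ≠ 0 := by
        intro h0; rw [h0, pow_zero] at hi; exact h2 hi
      exact (dvd_pow_self p hi0).trans (hi ▸ h1)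
    -- another prime
    have hidx1 : A.index ≠ 1 := by rw [Ne, Subgroup.index_eq_one]; exact hAtop
    obtain ⟨r, hr, hrdvd⟩ := Nat.exists_prime_and_dvd hidx1
    have hrp : r ≠ p := by
      rintro rfl
      have := Nat.Coprime.coprime_dvd_left hrdvd hidx
      rw [Nat.coprime_self] at this
      exact hr.ne_one this
    have : Fact r.Prime := ⟨hr⟩
    obtain ⟨g, hg⟩ := exists_prime_orderOf_dvd_card' (G := K) r (hrdvd.trans (Subgroup.index_dvd_card A))
    have hrE : r ∣ orderOf k := by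
      rw [hk, ← hg]; exact Monoid.order_dvd_exponent g
    set u := k ^ (orderOf k / p) with hu
    set w := k ^ (orderOf k / r) with hw
    have huo : orderOf u = p := orderOf_pow_orderOf_div hEpos hpE
    have hwo : orderOf w = r := orderOf_pow_orderOf_div hEpos hrE
    have huA : u ∈ A := by
      have h1 : orderOf (QuotientGroup.mk (s := A) u) ∣ p := by
        apply orderOf_dvd_of_pow_eq_one
        rw [← QuotientGroup.mk_pow, ← huo, pow_orderOf_eq_one]; rfl
      have h2 : orderOf (QuotientGroup.mk (s := A) u) ∣ A.index := by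
        rw [Subgroup.index_eq_card]; exact orderOf_dvd_natCard _
      have h3 : orderOf (QuotientGroup.mk (s := A) u) = 1 :=
        Nat.eq_one_of_dvd_coprimes hidx h2 h1
      rw [orderOf_eq_one_iff] at h3
      exact (QuotientGroup.eq_one_iff _).mp h3
    have hwA : w ∉ A := by
      intro hwA
      have h1 : r ∣ p ^ n := by
        rw [← hn, ← hwo]
        have := orderOf_dvd_natCard (⟨w, hwA⟩ : A)
        rwa [Subgroup.orderOf_mk] at this
      exact hrp ((Nat.prime_dvd_prime_iff_eq hr hp).mp (hr.dvd_of_dvd_pow h1))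
    have hcomm : u * w = w * u := by
      rw [hu, hw, ← pow_add, ← pow_add, add_comm]
    have := hfpf w hwA u huA hcomm
    rw [this, orderOf_one] at huo
    exact hp.one_lt.ne huo


lemma exists_min_pair {G : Type*} [Group G] [Finite G] {p : ℕ} (hF : ¬ FrobCond p G) :
    ∃ (B : Subgroup G) (z : G), IsPGroup p B ∧ z ∈ Subgroup.normalizer (B : Set G) ∧
      (orderOf z).Coprime p ∧ z ∉ Subgroup.centralizer (B : Set G) ∧
      ∀ B₁ : Subgroup G, B₁ < B → z ∈ Subgroup.normalizer (B₁ : Set G) →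
        z ∈ Subgroup.centralizer (B₁ : Set G) := by
  classical
  have hex : ∃ n : ℕ, ∃ (B : Subgroup G) (z : G), Nat.card B = n ∧ IsPGroup p B ∧
      z ∈ Subgroup.normalizer (B : Set G) ∧ (orderOf z).Coprime p ∧
      z ∉ Subgroup.centralizer (B : Set G) := by
    unfold FrobCond at hF
    push Not at hF
    obtain ⟨B, hB, z, hz, hzo, hzc⟩ := hF
    exact ⟨Nat.card B, B, z, rfl, hB, hz, hzo, hzc⟩
  obtain ⟨B, z, hcard, hB, hz, hzo, hzc⟩ := Nat.find_spec hex
  refine ⟨B, z, hB, hz, hzo, hzc, ?_⟩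
  intro B₁ hlt hz₁
  by_contra hcon
  have hlt' : Nat.card B₁ < Nat.find hex := by
    rw [← hcard]; exact card_lt_of_lt hlt
  exact Nat.find_min hex hlt' ⟨B₁, z, rfl, hB.to_le hlt.le, hz₁, hzo, hcon⟩


lemma exists_bad_section {G : Type*} [Group G] [Finite G] {p : ℕ} [Fact p.Prime]
    (hF : ¬ FrobCond p G) :
    ∃ (H : Subgroup G) (N : Subgroup H) (_ : N.Normal), Cfsg.pPrimeCore p (H ⧸ N) = ⊥ ∧
      ¬ ∃ k : H ⧸ N, orderOf k = Monoid.exponent (H ⧸ N) := by
  have hp : p.Prime := Fact.out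
  obtain ⟨B, z, hBp, hz, hzo, hzc, hmin⟩ := exists_min_pair hF
  obtain ⟨n, hn⟩ := IsPGroup.iff_card.mp hBp
  -- notation
  set Z : Subgroup G := Subgroup.zpowers z with hZ
  set D : Subgroup G := B ⊓ Subgroup.centralizer ({z} : Set G) with hD
  set C : Subgroup G := Z ⊓ Subgroup.centralizer (B : Set G) with hC
  have hzZ : z ∈ Z := Subgroup.mem_zpowers z
  have F1 : Z ≤ Subgroup.normalizer (B : Set G) := (Subgroup.zpowers_le).mpr hz
  have hZcard : Nat.card Z = orderOf z := Nat.card_zpowers z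
  have F3 : B ⊓ Z = ⊥ := by
    apply disjoint_iff.mp
    apply Subgroup.disjoint_of_coprime_natCard
    rw [hn, hZcard]
    exact Nat.Coprime.pow_left n hzo.symm
  have hZcomm : ∀ y ∈ Z, ∀ y' ∈ Z, y * y' = y' * y := by
    intro y hy y' hy'
    obtain ⟨i, rfl⟩ := Subgroup.mem_zpowers_iff.mp hy
    obtain ⟨j, rfl⟩ := Subgroup.mem_zpowers_iff.mp hy'
    rw [← zpow_add, ← zpow_add, add_comm]
  -- commutator of B lies in D
  have hBbot : B ≠ ⊥ := by
    intro h
    apply hzc
    rw [h, Subgroup.mem_centralizer_iff]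
    intro b hb
    rw [SetLike.mem_coe, Subgroup.mem_bot] at hb
    rw [hb]; simp
  have hcommlt : ⁅B, B⁆ < B := by
    have hnt : Nontrivial B := (Subgroup.nontrivial_iff_ne_bot _).mpr hBbot
    have hnil : Group.IsNilpotent B := hBp.isNilpotent
    have h1 : commutator B < ⊤ := Group.IsSolvable.commutator_lt_top_of_nontrivial B
    rw [← Subgroup.map_subtype_commutator]
    have h2 : (commutator B).map B.subtype < (⊤ : Subgroup B).map B.subtype :=
      (Subgroup.map_lt_map_iff_of_injective B.subtype_injective).mpr h1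
    rwa [← MonoidHom.range_eq_map, Subgroup.range_subtype] at h2
  have hzcomm : z ∈ Subgroup.normalizer ((⁅B, B⁆ : Subgroup G) : Set G) := by
    rw [Subgroup.mem_normalizer_iff_map_conj_eq] at hz ⊢
    rw [Subgroup.map_commutator, hz]
  have mem_cent_z : ∀ B₁ : Subgroup G, z ∈ Subgroup.centralizer (B₁ : Set G) →
      B₁ ≤ Subgroup.centralizer ({z} : Set G) := by
    intro B₁ h b hb
    rw [Subgroup.mem_centralizer_iff] at h ⊢
    intro w hw
    rw [Set.mem_singleton_iff] at hw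
    rw [hw]
    exact (h b hb).symm
  have F5 : ⁅B, B⁆ ≤ D := le_inf hcommlt.le (mem_cent_z _ (hmin _ hcommlt hzcomm))
  have hDB : D ≤ B := inf_le_left
  have hDz : ∀ d ∈ D, z * d = d * z := by
    intro d hd
    exact (Subgroup.mem_centralizer_iff.mp hd.2) z rfl
  have F8 : ∀ y ∈ Z, ∀ d ∈ D, y * d = d * y := by
    intro y hy d hd
    obtain ⟨i, rfl⟩ := Subgroup.mem_zpowers_iff.mp hy
    exact ((Commute.zpow_left (hDz d hd) i)).eq
  have hDne : ¬ B ≤ D := by
    intro h
    apply hzc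
    rw [Subgroup.mem_centralizer_iff]
    intro b hb
    exact (hDz b (h hb)).symm
  obtain ⟨b₀, hb₀B, hb₀D⟩ := SetLike.not_le_iff_exists.mp hDne
  -- F7
  have F7 : ∀ y ∈ Z, y ∉ Subgroup.centralizer (B : Set G) →
      B ⊓ Subgroup.centralizer ({y} : Set G) ≤ D := by
    intro y hy hyc
    have hlt : B ⊓ Subgroup.centralizer ({y} : Set G) < B := by
      refine lt_of_le_of_ne inf_le_left ?_
      intro h
      apply hyc
      rw [Subgroup.mem_centralizer_iff]
      intro b hb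
      have : b ∈ B ⊓ Subgroup.centralizer ({y} : Set G) := by rw [h]; exact hb
      exact ((Subgroup.mem_centralizer_iff.mp this.2) y rfl).symm
    have hzn : z ∈ Subgroup.normalizer ((B ⊓ Subgroup.centralizer ({y} : Set G) : Subgroup G) : Set G) := by
      apply Subgroup.inf_normalizer_le_normalizer_inf
      refine Subgroup.mem_inf.mpr ⟨hz, ?_⟩
      rw [Subgroup.mem_normalizer_iff]
      intro x
      have hyz : Commute y z := (hZcomm z hzZ y hy).symm
      simp only [Subgroup.mem_centralizer_iff, Set.mem_singleton_iff, forall_eq]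
      constructor
      · intro hx
        have hc : Commute y x := hx
        exact ((hyz.mul_right hc).mul_right hyz.inv_right).eq
      · intro hx
        have hc : Commute y (z * x * z⁻¹) := hx
        have h2 := ((hyz.inv_right.mul_right hc).mul_right hyz)
        have h3 : z⁻¹ * (z * x * z⁻¹) * z = x := by group
        rw [h3] at h2
        exact h2.eq
    exact le_inf inf_le_left (mem_cent_z _ (hmin _ hlt hzn))
  -- F10
  have F10 : ∀ b₁ ∈ B, ∀ y ∈ Z, y ∉ Subgroup.centralizer (B : Set G) →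
      b₁⁻¹ * y⁻¹ * b₁ * y ∈ D → b₁ ∈ D := by
    intro b₁ hb₁ y hy hyc hδ
    set δ := b₁⁻¹ * y⁻¹ * b₁ * y with hδdef
    have hyδ : y * δ = δ * y := F8 y hy δ hδ
    have hpow : ∀ j : ℕ, (y⁻¹) ^ j * b₁ * y ^ j = b₁ * δ ^ j := by
      intro j
      induction j with
      | zero => simp
      | succ j ih =>
        have hyδj : y * δ ^ j = δ ^ j * y := (Commute.pow_right hyδ j).eq
        calc (y⁻¹) ^ (j + 1) * b₁ * y ^ (j + 1)
            = y⁻¹ * ((y⁻¹) ^ j * b₁ * y ^ j) * y := by rw [pow_succ', pow_succ]; group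
          _ = y⁻¹ * (b₁ * δ ^ j) * y := by rw [ih]
          _ = (y⁻¹ * b₁ * y) * (y⁻¹ * (δ ^ j * y)) := by group
          _ = (y⁻¹ * b₁ * y) * (y⁻¹ * (y * δ ^ j)) := by rw [hyδj]
          _ = b₁ * (b₁⁻¹ * y⁻¹ * b₁ * y) * δ ^ j := by group
          _ = b₁ * δ ^ (j + 1) := by rw [← hδdef, pow_succ', mul_assoc]
    have h1 := hpow (orderOf y)
    rw [inv_pow, pow_orderOf_eq_one] at h1
    have h2 : δ ^ orderOf y = 1 := by
      have : b₁ = b₁ * δ ^ orderOf y := by simpa using h1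
      exact (mul_eq_left (a := b₁)).mp this.symm
    have h3 : orderOf δ ∣ orderOf y := orderOf_dvd_of_pow_eq_one h2
    have h4 : orderOf δ ∣ p ^ n := by
      rw [← hn]
      have := orderOf_dvd_natCard (⟨δ, hDB hδ⟩ : B)
      rwa [Subgroup.orderOf_mk] at this
    have h5 : orderOf y ∣ orderOf z := orderOf_dvd_of_mem_zpowers hy
    have h6 : orderOf δ = 1 :=
      Nat.eq_one_of_dvd_coprimes (Nat.Coprime.pow_right n hzo) (h3.trans h5) h4
    rw [orderOf_eq_one_iff] at h6
    have h7 : y * b₁ = b₁ * y := by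
      have : b₁ * y = y * b₁ * δ := by rw [hδdef]; group
      rw [this, h6, mul_one]
    apply F7 y hy hyc
    refine Subgroup.mem_inf.mpr ⟨hb₁, ?_⟩
    rw [Subgroup.mem_centralizer_iff]
    intro w hw
    rw [Set.mem_singleton_iff] at hw
    rw [hw]; exact h7
  -- the section
  set H : Subgroup G := B ⊔ Z with hH
  set N : Subgroup G := D ⊔ C with hN
  have hBH : B ≤ H := le_sup_left
  have hZH : Z ≤ H := le_sup_right
  have hHmem : ∀ h ∈ H, ∃ b ∈ B, ∃ y ∈ Z, h = b * y := by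
    intro h hh
    have h1 : h ∈ ((B ⊔ Z : Subgroup G) : Set G) := hh
    rw [Subgroup.coe_mul_of_right_le_normalizer_left B Z F1] at h1
    obtain ⟨b, hb, y, hy, rfl⟩ := h1
    exact ⟨b, hb, y, hy, rfl⟩
  have hCZ : C ≤ Z := inf_le_left
  have hZcentD : Z ≤ Subgroup.centralizer (D : Set G) := by
    intro y hy
    rw [Subgroup.mem_centralizer_iff]
    intro d hd
    exact (F8 y hy d hd).symm
  have hNmem : ∀ x ∈ N, ∃ d ∈ D, ∃ c ∈ C, x = d * c := by
    intro x hx
    have h1 : x ∈ ((D ⊔ C : Subgroup G) : Set G) := hx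
    rw [Subgroup.coe_mul_of_right_le_normalizer_left D C
      (hCZ.trans (hZcentD.trans (Subgroup.centralizer_le_normalizer _)))] at h1
    obtain ⟨d, hd, c, hc, rfl⟩ := h1
    exact ⟨d, hd, c, hc, rfl⟩
  have F11 : ∀ x ∈ N, x ∈ B → x ∈ D := by
    intro x hx hxB
    obtain ⟨d, hd, c, hc, rfl⟩ := hNmem x hx
    have h1 : c ∈ B ⊓ Z := by
      refine Subgroup.mem_inf.mpr ⟨?_, hCZ hc⟩
      have : c = d⁻¹ * (d * c) := by group
      rw [this]; exact mul_mem (inv_mem (hDB hd)) hxB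
    rw [F3, Subgroup.mem_bot] at h1
    rw [h1, mul_one]; exact hd
  have hNH : N ≤ H := sup_le (hDB.trans hBH) (hCZ.trans hZH)
  have hBcentC : B ≤ Subgroup.centralizer (C : Set G) := by
    intro b hb
    rw [Subgroup.mem_centralizer_iff]
    intro c hc
    exact ((Subgroup.mem_centralizer_iff.mp (Subgroup.mem_inf.mp hc).2) b hb).symm
  have hZcentC : Z ≤ Subgroup.centralizer (C : Set G) := by
    intro y hy
    rw [Subgroup.mem_centralizer_iff]
    intro c hc
    exact hZcomm c (hCZ hc) y hy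
  have hBnormD : B ≤ Subgroup.normalizer (D : Set G) := by
    rw [Subgroup.le_normalizer_iff_commutator_le_left]
    exact (Subgroup.commutator_mono hDB le_rfl).trans F5
  have hHN : H ≤ Subgroup.normalizer (N : Set G) := by
    refine le_trans ?_ (Subgroup.normalizer_inf_normalizer_le_normalizer_sup D C)
    exact sup_le (le_inf hBnormD (hBcentC.trans (Subgroup.centralizer_le_normalizer _)))
      (le_inf (hZcentD.trans (Subgroup.centralizer_le_normalizer _))
        (hZcentC.trans (Subgroup.centralizer_le_normalizer _)))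
  have hNn : (N.subgroupOf H).Normal := (Subgroup.normal_subgroupOf_iff_le_normalizer hNH).mpr hHN
  have hBn : (B.subgroupOf H).Normal :=
    (Subgroup.normal_subgroupOf_iff_le_normalizer hBH).mpr (sup_le Subgroup.le_normalizer F1)
  refine ⟨H, N.subgroupOf H, hNn, ?_⟩
  have hπsurj : Function.Surjective (QuotientGroup.mk' (N.subgroupOf H)) :=
    QuotientGroup.mk'_surjective _
  have hπ1 : ∀ h : H, QuotientGroup.mk' (N.subgroupOf H) h = 1 ↔ (h : G) ∈ N := by
    intro h
    rw [QuotientGroup.mk'_apply, QuotientGroup.eq_one_iff, Subgroup.mem_subgroupOf]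
  generalize hπ : QuotientGroup.mk' (N.subgroupOf H) = π at hπsurj hπ1
  set A : Subgroup (H ⧸ N.subgroupOf H) := (B.subgroupOf H).map π with hA
  have hAn : A.Normal := hBn.map π hπsurj
  have hAp : IsPGroup p A := (hBp.comap_subtype (K := H)).map π
  have hA1 : A ≠ ⊥ := by
    intro h
    have h1 : π ⟨b₀, hBH hb₀B⟩ ∈ A := ⟨⟨b₀, hBH hb₀B⟩, hb₀B, rfl⟩
    rw [h, Subgroup.mem_bot, hπ1] at h1
    exact hb₀D (F11 b₀ h1 hb₀B)
  have hAtop : A ≠ ⊤ := by
    intro h
    have h0 : π ⟨z, hZH hzZ⟩ ∈ A := by rw [h]; trivial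
    obtain ⟨b, hb, hbz⟩ := h0
    have h1 : π (b⁻¹ * ⟨z, hZH hzZ⟩) = 1 := by rw [map_mul, map_inv, hbz, inv_mul_cancel]
    rw [hπ1] at h1
    obtain ⟨d, hd, c, hc, hdc⟩ := hNmem _ h1
    have hbB : (b : G) ∈ B := hb
    have h2 : z * c⁻¹ ∈ B ⊓ Z := by
      refine Subgroup.mem_inf.mpr ⟨?_, mul_mem hzZ (inv_mem (hCZ hc))⟩
      have : z * c⁻¹ = (b : G) * d := by
        have h3 : (b : G)⁻¹ * z = d * c := by simpa using hdc
        calc z * c⁻¹ = (b : G) * ((b : G)⁻¹ * z) * c⁻¹ := by group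
          _ = (b : G) * (d * c) * c⁻¹ := by rw [h3]
          _ = (b : G) * d := by group
      rw [this]; exact mul_mem hbB (hDB hd)
    rw [F3, Subgroup.mem_bot] at h2
    have h4 : z = c := by
      calc z = z * c⁻¹ * c := by group
        _ = c := by rw [h2, one_mul]
    exact hzc (h4 ▸ (Subgroup.mem_inf.mp hc).2)
  have hidx : (A.index).Coprime p := by
    let ψ : Z →* (H ⧸ N.subgroupOf H) ⧸ A :=
      (QuotientGroup.mk' A).comp (π.comp (Subgroup.inclusion hZH))
    have hψ : Function.Surjective ψ := by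
      intro q
      obtain ⟨k, rfl⟩ := QuotientGroup.mk'_surjective A q
      obtain ⟨h, rfl⟩ := hπsurj k
      obtain ⟨b, hb, y, hy, hby⟩ := hHmem h h.2
      refine ⟨⟨y, hy⟩, ?_⟩
      have h1 : h = ⟨b, hBH hb⟩ * ⟨y, hZH hy⟩ := Subtype.ext hby
      rw [h1, map_mul, map_mul]
      have h2 : (QuotientGroup.mk' A) (π ⟨b, hBH hb⟩) = 1 := by
        rw [QuotientGroup.mk'_apply, QuotientGroup.eq_one_iff]
        exact ⟨⟨b, hBH hb⟩, hb, rfl⟩
      rw [h2, one_mul]; rfl
    have h1 := Subgroup.card_dvd_of_surjective ψ hψ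
    rw [hZcard] at h1
    rw [Subgroup.index_eq_card]
    exact Nat.Coprime.coprime_dvd_left h1 hzo
  have hfpf : ∀ k, k ∉ A → ∀ a ∈ A, a * k = k * a → a = 1 := by
    intro k hk a ha hcomm
    obtain ⟨h, rfl⟩ := hπsurj k
    obtain ⟨b₂, hb₂, y, hy, hby⟩ := hHmem h h.2
    obtain ⟨b₁, hb₁', rfl⟩ := ha
    have hb₁ : (b₁ : G) ∈ B := hb₁'
    have hyc : y ∉ Subgroup.centralizer (B : Set G) := by
      intro hyc
      apply hk
      refine ⟨⟨b₂, hBH hb₂⟩, hb₂, ?_⟩
      have h1 : π ((⟨b₂, hBH hb₂⟩ : H)⁻¹ * h) = 1 := by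
        rw [hπ1]
        have : (((⟨b₂, hBH hb₂⟩ : H)⁻¹ * h : H) : G) = y := by
          simp [hby]
        rw [this]
        exact Subgroup.mem_sup_right (Subgroup.mem_inf.mpr ⟨hy, hyc⟩)
      rw [map_mul, map_inv, inv_mul_eq_one] at h1
      exact h1
    have hcomm' : π (b₁⁻¹ * h⁻¹ * b₁ * h) = 1 := by
      simp only [map_mul, map_inv]
      rw [mul_assoc _ (π b₁) (π h), hcomm]; group
    rw [hπ1] at hcomm'
    have hinB : ((b₁⁻¹ * h⁻¹ * b₁ * h : H) : G) ∈ B := by
      have h1 := hBn.conj_mem b₁ hb₁' h⁻¹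
      have h2 : b₁⁻¹ * h⁻¹ * b₁ * h = b₁⁻¹ * (h⁻¹ * b₁ * h⁻¹⁻¹) := by group
      rw [h2]
      exact (B.subgroupOf H).mul_mem ((B.subgroupOf H).inv_mem hb₁') h1
    have hD1 := F11 _ hcomm' hinB
    have key : (b₁ : G)⁻¹ * y⁻¹ * b₁ * y ∈ D := by
      have he : (b₁ : G)⁻¹ * b₂⁻¹ * b₁ * b₂ ∈ D := by
        apply F5
        have : (b₁ : G)⁻¹ * b₂⁻¹ * b₁ * b₂ = ⁅(b₁ : G)⁻¹, b₂⁻¹⁆ := by
          simp [commutatorElement_def]
        rw [this]
        exact Subgroup.commutator_mem_commutator (inv_mem hb₁) (inv_mem hb₂)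
      have hye : y * ((b₁ : G)⁻¹ * b₂⁻¹ * b₁ * b₂) = ((b₁ : G)⁻¹ * b₂⁻¹ * b₁ * b₂) * y := F8 y hy _ he
      have h3 : (b₁ : G)⁻¹ * y⁻¹ * b₁ * y =
          ((b₁ : G)⁻¹ * (b₂ * y)⁻¹ * b₁ * (b₂ * y)) * ((b₁ : G)⁻¹ * b₂⁻¹ * b₁ * b₂)⁻¹ := by
        calc (b₁ : G)⁻¹ * y⁻¹ * b₁ * y
            = (b₁ : G)⁻¹ * y⁻¹ * b₁ * (y * ((b₁ : G)⁻¹ * b₂⁻¹ * b₁ * b₂)) * ((b₁ : G)⁻¹ * b₂⁻¹ * b₁ * b₂)⁻¹ := by group
          _ = (b₁ : G)⁻¹ * y⁻¹ * b₁ * (((b₁ : G)⁻¹ * b₂⁻¹ * b₁ * b₂) * y) * ((b₁ : G)⁻¹ * b₂⁻¹ * b₁ * b₂)⁻¹ := by rw [hye]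
          _ = ((b₁ : G)⁻¹ * (b₂ * y)⁻¹ * b₁ * (b₂ * y)) * ((b₁ : G)⁻¹ * b₂⁻¹ * b₁ * b₂)⁻¹ := by group
      rw [h3]
      refine mul_mem ?_ (inv_mem he)
      have : ((b₁⁻¹ * h⁻¹ * b₁ * h : H) : G) = (b₁ : G)⁻¹ * (b₂ * y)⁻¹ * b₁ * (b₂ * y) := by
        simp [hby]
      rw [← this]; exact hD1
    have hb₁D := F10 _ hb₁ y hy hyc key
    rw [hπ1]
    exact Subgroup.mem_sup_left hb₁D
  exact frob_type A hAp hA1 hAtop hidx hfpf


/-- Let G be a finite group and p a prime. Then G has a normal p-complement if and only if every section K = H/N of G (N a normal subgroup of a subgroup H) whose largest normal subgroup of order prime to p is trivial contains an element whose order equals the exponent of K. -/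
theorem result {G : Type*} [Group G] [Finite G] (p : ℕ) [Fact p.Prime] :
    Cfsg.HasNormalPComplement p G ↔
      ∀ (H : Subgroup G) (N : Subgroup H) [N.Normal], Cfsg.pPrimeCore p (H ⧸ N) = ⊥ →
        ∃ k : H ⧸ N, orderOf k = Monoid.exponent (H ⧸ N) := by
  have hp : p.Prime := Fact.out
  constructor
  · rintro ⟨P, M, hMn, hMP⟩ H N _ hcore
    apply exists_orderOf_eq_exponent_of_isPGroup (p := p)
    have hcard := hMP.card_mul_card
    have hPcard := P.card_eq_multiplicity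
    have hMcop : (Nat.card M).Coprime p := by
      rw [Nat.coprime_comm, hp.coprime_iff_not_dvd]
      intro hdvd
      have h1 : p ^ ((Nat.card G).factorization p + 1) ∣ Nat.card G := by
        have h0 : p ^ ((Nat.card G).factorization p + 1) ∣ Nat.card M * Nat.card (P : Subgroup G) := by
          rw [hPcard, pow_succ, mul_comm]
          exact mul_dvd_mul hdvd dvd_rfl
        rwa [hcard] at h0
      exact Nat.pow_succ_factorization_not_dvd Nat.card_pos.ne' hp h1
    have hMidx : M.index = p ^ (Nat.card G).factorization p := by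
      rw [← hPcard]; exact hMP.symm.index_eq_card
    have hmem : ∀ g : G, (orderOf g).Coprime p → g ∈ M := by
      intro g hg
      have h1 : orderOf (QuotientGroup.mk (s := M) g) ∣ orderOf g := by
        apply orderOf_dvd_of_pow_eq_one
        rw [← QuotientGroup.mk_pow, pow_orderOf_eq_one]; rfl
      have h2 : orderOf (QuotientGroup.mk (s := M) g) ∣ p ^ (Nat.card G).factorization p := by
        rw [← hMidx, Subgroup.index_eq_card]; exact orderOf_dvd_natCard _
      have h3 : orderOf (QuotientGroup.mk (s := M) g) = 1 :=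
        Nat.eq_one_of_dvd_coprimes (Nat.Coprime.pow_right _ hg) h1 h2
      rw [orderOf_eq_one_iff] at h3
      exact (QuotientGroup.eq_one_iff _).mp h3
    have hLn : ((M.subgroupOf H).map (QuotientGroup.mk' N)).Normal :=
      (Subgroup.normal_subgroupOf (H := H) (N := M)).map _ (QuotientGroup.mk'_surjective N)
    have hLc : (Nat.card ((M.subgroupOf H).map (QuotientGroup.mk' N))).Coprime p := by
      have h1 : Nat.card ((M.subgroupOf H).map (QuotientGroup.mk' N)) ∣ Nat.card (M.subgroupOf H) :=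
        Subgroup.card_map_dvd _ _
      have h2 : Nat.card (M.subgroupOf H) ∣ Nat.card M := by
        rw [← Subgroup.inf_subgroupOf_right,
          Nat.card_congr (Subgroup.subgroupOfEquivOfLe (inf_le_right : M ⊓ H ≤ H)).toEquiv]
        exact Subgroup.card_dvd_of_le inf_le_left
      exact Nat.Coprime.coprime_dvd_left (h1.trans h2) hMcop
    have hLbot : (M.subgroupOf H).map (QuotientGroup.mk' N) = ⊥ := by
      rw [eq_bot_iff, ← hcore]
      exact le_sSup ⟨hLn, hLc⟩
    intro q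
    induction q using QuotientGroup.induction_on with
    | H h =>
    obtain ⟨a, m, hm, hho⟩ := Nat.exists_eq_pow_mul_and_not_dvd (orderOf_pos h).ne' p hp.ne_one
    refine ⟨a, ?_⟩
    have hmcop : m.Coprime p := by
      rw [Nat.coprime_comm, hp.coprime_iff_not_dvd]; exact hm
    have hdvd : orderOf ((h ^ p ^ a : H) : G) ∣ m := by
      rw [Subgroup.orderOf_coe]
      apply orderOf_dvd_of_pow_eq_one
      rw [← pow_mul, ← hho, pow_orderOf_eq_one]
    have hgM : ((h ^ p ^ a : H) : G) ∈ M := hmem _ (Nat.Coprime.coprime_dvd_left hdvd hmcop)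
    have h1 : QuotientGroup.mk' N (h ^ p ^ a) ∈ (M.subgroupOf H).map (QuotientGroup.mk' N) :=
      ⟨h ^ p ^ a, hgM, rfl⟩
    rw [hLbot, Subgroup.mem_bot] at h1
    rw [← QuotientGroup.mk_pow]
    exact h1
  · intro hyp
    by_contra hcon
    have hF : ¬ FrobCond p G := by
      intro hF
      obtain ⟨P⟩ : Nonempty (Sylow p G) := inferInstance
      obtain ⟨N, hN, hc⟩ := (npc_of_frobCond hF).exists_isComplement' P
      exact hcon ⟨P, N, hN, hc⟩
    obtain ⟨H, N, hNn, h1, h2⟩ := exists_bad_section hF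
    exact h2 (@hyp H N hNn h1)

end Cfsg.Agent.S4238
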