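import Cfsg.Statements.S4244
import Mathlib

set_option autoImplicit false
open Cfsg

namespace Cfsg.Agent.S4244

lemma relIndex_mul_card' {G : Type*} [Group G] (H K : Subgroup G) :
    H.relIndex K * Nat.card (H ⊓ K : Subgroup G) = Nat.card K := by
  rw [← Subgroup.inf_relIndex_right]
  have h1 : ((H ⊓ K).subgroupOf K).index * Nat.card ((H ⊓ K).subgroupOf K) = Nat.card K :=
    Subgroup.index_mul_card _
  have h2 : Nat.card ((H ⊓ K).subgroupOf K) = Nat.card (H ⊓ K : Subgroup G) :=
    Nat.card_congr (Subgroup.subgroupOfEquivOfLe inf_le_right).toEquiv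
  rw [← h2]; exact h1

lemma relIndex_dvd_index_of_normal' {G : Type*} [Group G] [Finite G] (H K : Subgroup G) [H.Normal] :
    K.relIndex H ∣ K.index := by
  have h1 : K.relIndex (H ⊔ K) ∣ K.index := Subgroup.relIndex_dvd_index_of_le le_sup_right
  have h2 : K.relIndex (H ⊔ K) = K.relIndex H := by
    have e1 := relIndex_mul_card' K (H ⊔ K)
    have e2 := relIndex_mul_card' H (H ⊔ K)
    have e3 : H.relIndex (H ⊔ K) = H.relIndex K := Subgroup.relIndex_sup_left K H
    have e4 := relIndex_mul_card' H K
    have e5 := relIndex_mul_card' K H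
    rw [inf_of_le_left (le_sup_right : K ≤ H ⊔ K)] at e1
    rw [inf_of_le_left (le_sup_left : H ≤ H ⊔ K)] at e2
    rw [inf_comm] at e5
    have hpos : 0 < Nat.card (H ⊓ K : Subgroup G) := Nat.card_pos
    have hposK : 0 < Nat.card K := Nat.card_pos
    have : K.relIndex (H ⊔ K) * Nat.card K = K.relIndex H * Nat.card K := by
      rw [e1, ← e2, e3, ← e5, ← e4]; ring
    exact Nat.eq_of_mul_eq_mul_right hposK this
  rw [← h2]; exact h1

/-- Let H be a subnormal subgroup of a finite group G. Then for every subgroup K of G the index of H ∩ K in H divides the index of K in G. -/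
theorem result {G : Type*} [Group G] [Finite G] (H : Subgroup G) (hH : H.IsSubnormal) (K : Subgroup G) :
    (H ⊓ K).relIndex H ∣ K.index := by
  rw [Subgroup.inf_relIndex_left]
  induction hH generalizing K with
  | top => rw [Subgroup.relIndex_top_right]
  | step H L h_le hSubn hN ih =>
    have h1 : (K.subgroupOf L).relIndex (H.subgroupOf L) ∣ (K.subgroupOf L).index :=
      relIndex_dvd_index_of_normal' (H.subgroupOf L) (K.subgroupOf L)
    rw [Subgroup.relIndex_subgroupOf h_le] at h1
    exact h1.trans (ih K)

end Cfsg.Agent.S4244
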