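import Mathlib
import Cfsg.Statements.S4245
import Cfsg.Agent.Lib.Helper72.Kazarin

set_option autoImplicit false
set_option linter.style.haveILetI false
open Cfsg

namespace Cfsg.Agent.S4245

open Cfsg.Agent.Lib.Helper72

universe u

/-- With trivial solvable radical, an element with prime power class size is trivial. -/
theorem elt_trivial {X : Type u} [Group X] [Finite X]
    (hrad : ∀ N : Subgroup X, N.Normal → Group.IsSolvable N → N = ⊥)
    {q : ℕ} (hq : q.Prime) (x : X) (k : ℕ)
    (hx : (Subgroup.centralizer ({x} : Set X)).index = q ^ k) : x = 1 := by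
  have hmem := kazarin_rad hq _ X rfl x k hx
  obtain ⟨hn, hs⟩ := kazRad_spec (G := X)
  rw [hrad _ hn hs] at hmem
  exact Subgroup.mem_bot.mp hmem

/-- A cyclic Sylow `2`-subgroup has a normal complement. -/
theorem exists_two_complement {X : Type u} [Group X] [Finite X] (P : Sylow 2 X)
    (hP : IsCyclic P) : ∃ K : Subgroup X, K.Normal ∧ K.IsComplement' P := by
  by_cases h2 : 2 ∣ Nat.card X
  · have hmin : (Nat.card X).minFac = 2 := (Nat.minFac_eq_two_iff _).mpr h2
    exact ⟨_, inferInstance, hP.isComplement' hmin⟩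
  · have hP1 : (P : Subgroup X) = ⊥ := by
      obtain ⟨n, hn⟩ := P.2.exists_card_eq
      apply Subgroup.eq_bot_of_card_eq
      rcases Nat.eq_zero_or_pos n with rfl | hpos
      · simpa using hn
      · exfalso
        apply h2
        have h3 : (2 : ℕ) ∣ Nat.card (P : Subgroup X) := by
          rw [hn]; exact dvd_pow_self 2 hpos.ne'
        exact h3.trans (Subgroup.card_subgroup_dvd_card _)
    refine ⟨⊤, inferInstance, ?_⟩
    rw [hP1]
    exact Subgroup.isComplement'_top_bot

/-- In a cyclic group two elements of order `2` coincide. -/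
theorem cyclic_unique_invol {C : Type u} [Group C] [Finite C] [IsCyclic C] (z w : C)
    (hz : orderOf z = 2) (hw : orderOf w = 2) : w = z := by
  classical
  haveI : Fintype C := Fintype.ofFinite C
  by_contra hne
  have hle := IsCyclic.card_pow_eq_one_le (α := C) (n := 2) (by norm_num)
  have hz2 : z ^ 2 = 1 := by rw [← hz]; exact pow_orderOf_eq_one z
  have hw2 : w ^ 2 = 1 := by rw [← hw]; exact pow_orderOf_eq_one w
  have hz1 : z ≠ 1 := by
    intro h; rw [h, orderOf_one] at hz; omega
  have hw1 : w ≠ 1 := by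
    intro h; rw [h, orderOf_one] at hw; omega
  have h3 : 2 < (Finset.univ.filter fun a : C => a ^ 2 = 1).card := by
    rw [Finset.two_lt_card_iff]
    exact ⟨1, z, w, by simp, by simp [hz2], by simp [hw2], fun h => hz1 h.symm,
      fun h => hw1 h.symm, fun h => hne h.symm⟩
  omega

/-- A group with trivial solvable radical containing a subgroup of prime power index that is
cyclic-by-(cyclic `2`-group) is solvable. -/
theorem core {X : Type u} [Group X] [Finite X]
    (hrad : ∀ N : Subgroup X, N.Normal → Group.IsSolvable N → N = ⊥)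
    (A : Subgroup X) (p s : ℕ) (hp : p.Prime) (hA : A.index = p ^ s)
    (B : Subgroup A) [hBn : B.Normal] (hB : IsCyclic B) (hAB : IsCyclic (A ⧸ B)) (r : ℕ)
    (hr : Nat.card (A ⧸ B) = 2 ^ r) : Group.IsSolvable X := by
  classical
  have hBidx : B.index = 2 ^ r := by rw [Subgroup.index_eq_card]; exact hr
  set B' : Subgroup X := B.map A.subtype with hB'
  have hB'idx : B'.index = 2 ^ r * p ^ s := by
    rw [hB', Subgroup.index_map_subtype, hBidx, hA]
  have hcardB' : Nat.card B' = Nat.card B :=
    Subgroup.card_map_of_injective A.subtype_injective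
  have hcardA : Nat.card B * 2 ^ r = Nat.card A := by
    rw [← hBidx]; exact Subgroup.card_mul_index B
  have hcardX : Nat.card B * 2 ^ r * p ^ s = Nat.card X := by
    rw [hcardA, ← hA]; exact Subgroup.card_mul_index A
  have hmpos : 0 < Nat.card B := Nat.card_pos
  -- `B'` is abelian
  have hcomm : ∀ x ∈ B', B' ≤ Subgroup.centralizer ({x} : Set X) := by
    rintro x ⟨b, hb, rfl⟩ y ⟨c, hc, rfl⟩
    rw [mem_centralizer_singleton_iff']
    have h1 := (IsCyclic.isMulCommutative (α := B)).is_comm.comm ⟨b, hb⟩ ⟨c, hc⟩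
    have h2 : b * c = c * b := congrArg Subtype.val h1
    have h3 := congrArg Subtype.val h2
    simpa using h3
  -- elements with prime power class size are trivial
  have key : ∀ (q : ℕ), q.Prime → ∀ (x : X) (k : ℕ),
      (Subgroup.centralizer ({x} : Set X)).index ∣ q ^ k → x = 1 := by
    intro q hq x k hdvd
    obtain ⟨j, -, hj⟩ := (Nat.dvd_prime_pow hq).1 hdvd
    exact elt_trivial hrad hq x j hj
  -- it suffices to show that `B'` is trivial
  have fin : B' = ⊥ → Group.IsSolvable X := by
    intro hbot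
    have h1 : Nat.card B = 1 := by
      rw [← hcardB', hbot]; exact Subgroup.card_bot
    rw [h1, one_mul] at hcardX
    exact Cfsg.Agent.Lib.Helper4.burnside 2 p r s Nat.prime_two hp hcardX.symm
  apply fin
  rw [eq_bot_iff]
  intro x hx
  rw [Subgroup.mem_bot]
  by_cases hp2 : p = 2
  · subst hp2
    apply key 2 Nat.prime_two x (r + s)
    rw [pow_add, ← hB'idx]
    exact Subgroup.index_dvd_of_le (hcomm x hx)
  -- `p` is odd
  have hpodd : ¬ 2 ∣ p := fun h => hp2 ((Nat.prime_dvd_prime_iff_eq Nat.prime_two hp).mp h).symm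
  haveI : Fact (Nat.Prime 2) := ⟨Nat.prime_two⟩
  -- central elements of `B'` are trivial
  have hcent : ∀ y : X, A ≤ Subgroup.centralizer ({y} : Set X) → y = 1 := by
    intro y hy
    apply key p hp y s
    rw [← hA]
    exact Subgroup.index_dvd_of_le hy
  -- `B` has odd order
  have hodd : ¬ 2 ∣ Nat.card B := by
    intro h2
    obtain ⟨z, hz⟩ := exists_prime_orderOf_dvd_card' 2 h2
    have hzc : ∀ a : A, a * (z : A) * a⁻¹ = (z : A) := by
      intro a
      have hmem : a * (z : A) * a⁻¹ ∈ B := hBn.conj_mem _ z.2 a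
      have ho : orderOf (⟨a * (z : A) * a⁻¹, hmem⟩ : B) = 2 := by
        rw [← Subgroup.orderOf_coe]
        show orderOf (a * (z : A) * a⁻¹) = 2
        rw [orderOf_conj_eq, Subgroup.orderOf_coe, hz]
      have h := cyclic_unique_invol z ⟨_, hmem⟩ hz ho
      exact congrArg Subtype.val h
    have hz1 : ((z : A) : X) = 1 := by
      apply hcent
      intro a ha
      rw [mem_centralizer_singleton_iff']
      have h := congrArg Subtype.val (hzc ⟨a, ha⟩)
      simp only [Subgroup.coe_mul, Subgroup.coe_inv] at h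
      calc ((z : A) : X) * a = (a * ((z : A) : X) * a⁻¹) * a := by rw [h]
        _ = a * ((z : A) : X) := by group
    have hz' : z = 1 := by
      apply Subtype.ext
      apply Subtype.ext
      simpa using hz1
    rw [hz', orderOf_one] at hz
    omega
  set m := Nat.card B with hm
  have hmodd : Nat.Coprime (2 ^ r) m :=
    Nat.Coprime.pow_left r ((Nat.Prime.coprime_iff_not_dvd Nat.prime_two).mpr hodd)
  -- a cyclic `2`-subgroup of order `2 ^ r`
  obtain ⟨g, hg⟩ := hAB.exists_generator
  obtain ⟨a, rfl⟩ := QuotientGroup.mk_surjective g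
  have hog : orderOf (QuotientGroup.mk a : A ⧸ B) = 2 ^ r := by
    rw [orderOf_eq_card_of_forall_mem_zpowers hg, hr]
  have ha'1 : (a ^ m) ^ (2 ^ r) = 1 := by
    have h1 : a ^ (2 ^ r) ∈ B := by
      rw [← QuotientGroup.eq_one_iff, QuotientGroup.mk_pow, ← hr]
      exact pow_card_eq_one'
    have h2 : (⟨a ^ (2 ^ r), h1⟩ : B) ^ m = 1 := pow_card_eq_one'
    have h3 : (a ^ (2 ^ r)) ^ m = 1 := by simpa using congrArg Subtype.val h2
    rw [← pow_mul, mul_comm, pow_mul]
    exact h3
  have hoa' : orderOf (a ^ m) = 2 ^ r := by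
    apply Nat.dvd_antisymm (orderOf_dvd_of_pow_eq_one ha'1)
    have h1 : orderOf (QuotientGroup.mk (a ^ m) : A ⧸ B) = 2 ^ r := by
      rw [QuotientGroup.mk_pow, Nat.Coprime.orderOf_pow (by rw [hog]; exact hmodd), hog]
    rw [← h1]
    exact orderOf_map_dvd (QuotientGroup.mk' B) (a ^ m)
  set c : X := ((a ^ m : A) : X) with hc
  have hoc : orderOf c = 2 ^ r := by rw [hc, Subgroup.orderOf_coe]; exact hoa'
  have hQ : IsPGroup 2 (Subgroup.zpowers c) :=
    IsPGroup.of_card (n := r) (by rw [Nat.card_zpowers, hoc])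
  obtain ⟨P, hQP⟩ := hQ.exists_le_sylow
  have hcardP : Nat.card P = 2 ^ r := by
    obtain ⟨t, ht⟩ := P.2.exists_card_eq
    have h1 : 2 ^ r ∣ 2 ^ t := by
      rw [← ht, ← hoc, ← Nat.card_zpowers]
      exact Subgroup.card_dvd_of_le hQP
    have h2 : 2 ^ t ∣ 2 ^ r := by
      have h3 : 2 ^ t ∣ Nat.card X := by
        rw [← ht]; exact Subgroup.card_subgroup_dvd_card _
      rw [← hcardX] at h3
      have hc1 : Nat.Coprime (2 ^ t) m :=
        Nat.Coprime.pow_left t ((Nat.Prime.coprime_iff_not_dvd Nat.prime_two).mpr hodd)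
      have hc2 : Nat.Coprime (2 ^ t) (p ^ s) :=
        Nat.Coprime.pow _ _ ((Nat.Prime.coprime_iff_not_dvd Nat.prime_two).mpr hpodd)
      have h4 : 2 ^ t ∣ m * 2 ^ r := hc2.dvd_of_dvd_mul_right h3
      exact hc1.dvd_of_dvd_mul_left h4
    rw [ht]
    exact Nat.dvd_antisymm h2 h1
  have hPeq : Subgroup.zpowers c = (P : Subgroup X) := by
    apply Subgroup.eq_of_le_of_card_ge hQP
    rw [hcardP, Nat.card_zpowers, hoc]
  have hPcyc : IsCyclic (P : Subgroup X) := by rw [← hPeq]; infer_instance
  obtain ⟨K, hKn, hKP⟩ := exists_two_complement P hPcyc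
  haveI := hKn
  have hKidx : K.index = 2 ^ r := by rw [hKP.symm.index_eq_card, hcardP]
  have hcardK : Nat.card K = m * p ^ s := by
    have h1 := hKP.card_mul_card
    rw [hcardP, ← hcardX] at h1
    have h2 : Nat.card K * 2 ^ r = (m * p ^ s) * 2 ^ r := by rw [h1]; ring
    exact Nat.eq_of_mul_eq_mul_right (by positivity) h2
  -- `B' ≤ K`
  have hB'K : B' ≤ K := by
    intro y hy
    have hoy : orderOf y ∣ m := by
      rw [← hcardB']; exact Subgroup.orderOf_dvd_natCard B' hy
    have hcop : Nat.Coprime (2 ^ r) (orderOf y) := Nat.Coprime.coprime_dvd_right hoy hmodd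
    obtain ⟨u, hu⟩ := exists_pow_eq_self_of_coprime hcop
    rw [← hu]
    apply pow_mem
    rw [← hKidx]
    exact K.pow_index_mem y
  have hxK : x ∈ K := hB'K hx
  have hidx : (Subgroup.centralizer ({(⟨x, hxK⟩ : K)} : Set K)).index ∣ p ^ s := by
    have hle : B'.subgroupOf K ≤ Subgroup.centralizer ({(⟨x, hxK⟩ : K)} : Set K) := by
      intro y hy
      rw [mem_centralizer_singleton_iff']
      have h1 := hcomm x hx (Subgroup.mem_subgroupOf.mp hy)
      rw [mem_centralizer_singleton_iff'] at h1
      exact Subtype.ext h1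
    have hi : (B'.subgroupOf K).index = p ^ s := by
      have h1 := Subgroup.card_mul_index (B'.subgroupOf K)
      rw [Nat.card_congr (Subgroup.subgroupOfEquivOfLe hB'K).toEquiv, hcardB', hcardK] at h1
      exact Nat.eq_of_mul_eq_mul_left hmpos h1
    rw [← hi]
    exact Subgroup.index_dvd_of_le hle
  obtain ⟨j, -, hj⟩ := (Nat.dvd_prime_pow hp).1 hidx
  have hmem := kazarin_rad hp _ K rfl ⟨x, hxK⟩ j hj
  have hmem2 : x ∈ kazRad X := kazRad_normal_le K ⟨⟨x, hxK⟩, hmem, rfl⟩
  obtain ⟨hn, hs⟩ := kazRad_spec (G := X)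
  rw [hrad _ hn hs] at hmem2
  exact Subgroup.mem_bot.mp hmem2

/-- Let G be a finite group with a subgroup A of prime-power index. Suppose A has a normal cyclic subgroup B such that A/B is cyclic of order a power of 2. Then G is solvable. -/
theorem result {G : Type*} [Group G] [Finite G] (A : Subgroup G) (p s : ℕ) (hp : p.Prime) (hA : A.index = p ^ s)
    (B : Subgroup A) [B.Normal] (hB : IsCyclic B) (hAB : IsCyclic (A ⧸ B)) (r : ℕ) (hr : Nat.card (A ⧸ B) = 2 ^ r) :
    Group.IsSolvable G := by
  obtain ⟨hRn, hRs⟩ := kazRad_spec (G := G)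
  haveI := hRn
  haveI := hRs
  set R := kazRad G with hR
  let π := QuotientGroup.mk' R
  have hπ : Function.Surjective π := QuotientGroup.mk'_surjective R
  -- the radical of the quotient is trivial
  have hrad : ∀ N : Subgroup (G ⧸ R), N.Normal → Group.IsSolvable N → N = ⊥ := by
    intro N hN hNs
    haveI := hN
    haveI := hNs
    have hsol : Group.IsSolvable (N.comap π) := by
      have hRle : R ≤ N.comap π := by
        intro x hx
        rw [Subgroup.mem_comap]
        have h1 : π x = 1 := (QuotientGroup.eq_one_iff x).mpr hx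
        rw [h1]
        exact one_mem N
      refine Group.isSolvable_of_ker_le_range (Subgroup.inclusion hRle) (π.subgroupComap N) ?_
      intro k hk
      rw [MonoidHom.mem_ker] at hk
      have hk1 : π (k : G) = 1 := congrArg Subtype.val hk
      have hkR : (k : G) ∈ R := (QuotientGroup.eq_one_iff _).mp hk1
      exact ⟨⟨k, hkR⟩, Subtype.ext rfl⟩
    have hle : N.comap π ≤ R := kaz_le_rad _ (hN.comap π) hsol
    rw [eq_bot_iff]
    intro y hy
    obtain ⟨x, rfl⟩ := hπ y
    rw [Subgroup.mem_bot]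
    exact (QuotientGroup.eq_one_iff x).mpr (hle hy)
  -- images in the quotient
  obtain ⟨s', hs'⟩ : ∃ s', (A.map π).index = p ^ s' := by
    have hdvd : (A.map π).index ∣ p ^ s := by
      rw [← hA]; exact Subgroup.index_map_dvd A hπ
    obtain ⟨j, -, hj⟩ := (Nat.dvd_prime_pow hp).1 hdvd
    exact ⟨j, hj⟩
  let φ : A →* A.map π := π.subgroupMap A
  have hφ : Function.Surjective φ := π.subgroupMap_surjective A
  haveI : (B.map φ).Normal := Subgroup.Normal.map inferInstance φ hφ
  have hB₁ : IsCyclic (B.map φ) := by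
    haveI := hB
    exact isCyclic_of_surjective (φ.subgroupMap B) (φ.subgroupMap_surjective B)
  let ψ : A ⧸ B →* (A.map π) ⧸ (B.map φ) :=
    QuotientGroup.map B (B.map φ) φ (Subgroup.le_comap_map φ B)
  have hψ : Function.Surjective ψ := by
    intro y
    obtain ⟨y', rfl⟩ := QuotientGroup.mk_surjective y
    obtain ⟨x, rfl⟩ := hφ y'
    exact ⟨QuotientGroup.mk x, rfl⟩
  have hAB₁ : IsCyclic ((A.map π) ⧸ (B.map φ)) := by
    haveI := hAB
    exact isCyclic_of_surjective ψ hψ
  obtain ⟨r', hr'⟩ : ∃ r', Nat.card ((A.map π) ⧸ (B.map φ)) = 2 ^ r' := by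
    have hdvd : Nat.card ((A.map π) ⧸ (B.map φ)) ∣ 2 ^ r := by
      rw [← hr]; exact Subgroup.card_dvd_of_surjective ψ hψ
    obtain ⟨j, -, hj⟩ := (Nat.dvd_prime_pow Nat.prime_two).1 hdvd
    exact ⟨j, hj⟩
  haveI : Group.IsSolvable (G ⧸ R) := core hrad (A.map π) p s' hp hs' (B.map φ) hB₁ hAB₁ r' hr'
  refine Group.isSolvable_of_ker_le_range R.subtype π ?_
  rw [QuotientGroup.ker_mk']
  intro k hk
  exact ⟨⟨k, hk⟩, rfl⟩

end Cfsg.Agent.S4245
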