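import Cfsg.Statements.S4261
import Mathlib

set_option autoImplicit false
open Cfsg

namespace Cfsg.Agent.S4261

lemma relIndex_mul_card' {G : Type*} [Group G] (H K : Subgroup G) :
    H.relIndex K * Nat.card (H ⊓ K : Subgroup G) = Nat.card K := by
  rw [← Subgroup.inf_relIndex_right]
  have h1 : ((H ⊓ K).subgroupOf K).index * Nat.card ((H ⊓ K).subgroupOf K) = Nat.card K :=
    Subgroup.index_mul_card _
  have h2 : Nat.card ((H ⊓ K).subgroupOf K) = Nat.card (H ⊓ K : Subgroup G) :=
    Nat.card_congr (Subgroup.subgroupOfEquivOfLe inf_le_right).toEquiv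
  rw [← h2]; exact h1

lemma relIndex_sup_eq {G : Type*} [Group G] [Finite G] (H K : Subgroup G) [H.Normal] :
    K.relIndex (H ⊔ K) = K.relIndex H := by
  have e1 := relIndex_mul_card' K (H ⊔ K)
  have e2 := relIndex_mul_card' H (H ⊔ K)
  have e3 : H.relIndex (H ⊔ K) = H.relIndex K := Subgroup.relIndex_sup_left K H
  have e4 := relIndex_mul_card' H K
  have e5 := relIndex_mul_card' K H
  rw [inf_of_le_left (le_sup_right : K ≤ H ⊔ K)] at e1
  rw [inf_of_le_left (le_sup_left : H ≤ H ⊔ K)] at e2
  rw [inf_comm] at e5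
  have hposK : 0 < Nat.card K := Nat.card_pos
  have : K.relIndex (H ⊔ K) * Nat.card K = K.relIndex H * Nat.card K := by
    rw [e1, ← e2, e3, ← e5, ← e4]; ring
  exact Nat.eq_of_mul_eq_mul_right hposK this

lemma prime_pow_of_normal {G : Type*} [Group G] [Finite G] (M : Subgroup G) (hM : IsCoatom M)
    (A : Subgroup G) [hAn : A.Normal] (hA : ¬ A ≤ M) (hA' : ⁅A, A⁆ ≤ M) :
    ∃ p k : ℕ, p.Prime ∧ M.index = p ^ k := by
  classical
  have hrel : M.relIndex A ≠ 1 := by
    rw [Ne, Subgroup.relIndex_eq_one]; exact hA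
  obtain ⟨p, hp, hpdvd⟩ := Nat.exists_prime_and_dvd hrel
  have : Fact p.Prime := ⟨hp⟩
  obtain ⟨P⟩ : Nonempty (Sylow p A) := inferInstance
  set P' : Subgroup G := (P : Subgroup A).map A.subtype with hP'
  have hP'A : P' ≤ A := by
    rintro _ ⟨y, _, rfl⟩; exact y.2
  have hP'card : Nat.card P' = p ^ (Nat.card A).factorization p := by
    rw [← P.card_eq_multiplicity]
    exact Nat.card_congr ((P : Subgroup A).equivMapOfInjective A.subtype A.subtype_injective).toEquiv.symm
  have hfrat : Subgroup.normalizer (P' : Set G) ⊔ A = ⊤ := Sylow.normalizer_sup_eq_top P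
  set N : Subgroup G := ⁅A, A⁆ ⊔ P' with hN
  have hNA : N ≤ A := sup_le (Subgroup.commutator_le_left A A) hP'A
  have hcomN : ⁅A, A⁆ ≤ N := le_sup_left
  have hNnormal : N.Normal := by
    rw [← Subgroup.normalizer_eq_top_iff, eq_top_iff, ← hfrat]
    apply sup_le
    · intro g hg
      rw [Subgroup.mem_normalizer_iff_map_conj_eq] at hg ⊢
      rw [hN, Subgroup.map_sup, hg, Subgroup.Normal.map_conj_eq]
    · rw [Subgroup.le_normalizer_iff_commutator_le_right]
      exact (Subgroup.commutator_mono le_rfl hNA).trans hcomN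
  have hNM : ¬ N ≤ M := by
    intro hle
    have h1 : P' ≤ M ⊓ A := le_inf (le_sup_right.trans hle) hP'A
    have h2 : Nat.card P' ∣ Nat.card (M ⊓ A : Subgroup G) := Subgroup.card_dvd_of_le h1
    have h3 := relIndex_mul_card' M A
    have h4 : p ^ ((Nat.card A).factorization p + 1) ∣ Nat.card A := by
      rw [hP'card] at h2
      have h5 : p ^ ((Nat.card A).factorization p + 1) ∣ M.relIndex A * Nat.card (M ⊓ A : Subgroup G) := by
        rw [pow_succ, mul_comm]
        exact mul_dvd_mul hpdvd h2
      rw [h3] at h5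
      exact h5
    exact Nat.pow_succ_factorization_not_dvd (Nat.card_pos (α := A)).ne' hp h4
  have hsup : N ⊔ M = ⊤ := by
    apply hM.2
    rw [lt_iff_le_and_ne]
    refine ⟨le_sup_right, ?_⟩
    intro h
    exact hNM (h ▸ le_sup_left)
  have hidx : M.index = M.relIndex N := by
    rw [← relIndex_sup_eq N M, hsup, Subgroup.relIndex_top_right]
  have h5 : M.relIndex N ∣ (⁅A, A⁆ : Subgroup G).relIndex N := Subgroup.relIndex_dvd_of_le_left N hA'
  have h6 : (⁅A, A⁆ : Subgroup G).relIndex N = (⁅A, A⁆ : Subgroup G).relIndex P' :=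
    Subgroup.relIndex_sup_left _ _
  have h7 : (⁅A, A⁆ : Subgroup G).relIndex P' ∣ Nat.card P' := Subgroup.relIndex_dvd_card _ _
  have h8 : M.index ∣ p ^ (Nat.card A).factorization p := by
    rw [hidx, ← hP'card]; exact h5.trans (h6 ▸ h7)
  obtain ⟨k, _, hk⟩ := (Nat.dvd_prime_pow hp).mp h8
  exact ⟨p, k, hp, hk⟩

lemma index_eq_prime_pow {G : Type*} [Group G] [Finite G] (hG : Group.IsSolvable G) (M : Subgroup G)
    (hM : IsCoatom M) : ∃ p k : ℕ, p.Prime ∧ M.index = p ^ k := by
  classical
  obtain ⟨N, hN⟩ := (Group.isSolvable_def G).mp hG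
  have hex : ∃ k, derivedSeries G k ≤ M := ⟨N, by rw [hN]; exact bot_le⟩
  have hk : derivedSeries G (Nat.find hex) ≤ M := Nat.find_spec hex
  have hk0 : Nat.find hex ≠ 0 := by
    intro h0
    rw [h0, derivedSeries_zero] at hk
    exact hM.1 (top_le_iff.mp hk)
  obtain ⟨i, hi⟩ := Nat.exists_eq_succ_of_ne_zero hk0
  have hiM : ¬ derivedSeries G i ≤ M := Nat.find_min hex (by omega)
  rw [hi, derivedSeries_succ] at hk
  exact prime_pow_of_normal M hM (derivedSeries G i) hiM hk

/-- Let M be a maximal subgroup of a finite solvable group G such that x^[G : M] lies in M for every x in G. Then M is normal in G. -/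
theorem result {G : Type*} [Group G] [Finite G] (hG : Group.IsSolvable G) (M : Subgroup G) (hM : IsCoatom M)
    (hexp : ∀ x : G, x ^ M.index ∈ M) : M.Normal := by
  obtain ⟨p, k, hp, hidx⟩ := index_eq_prime_pow hG M hM
  have : Fact p.Prime := ⟨hp⟩
  have hS : ∀ x : G, (orderOf x).Coprime p → x ∈ M := by
    intro x hx
    have hcop : (M.index).Coprime (orderOf x) := by
      rw [hidx]; exact (Nat.Coprime.pow_right k hx).symm
    obtain ⟨m, hm⟩ := exists_pow_eq_self_of_coprime hcop
    rw [← hm]
    exact M.pow_mem (hexp _) m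
  set R : Subgroup G := Subgroup.normalClosure {x : G | (orderOf x).Coprime p} with hR
  have hRM : R ≤ M := by
    rw [hR, Subgroup.normalClosure, Subgroup.closure_le]
    intro y hy
    rw [Group.mem_conjugatesOfSet_iff] at hy
    obtain ⟨x, hx, hxy⟩ := hy
    rw [isConj_iff] at hxy
    obtain ⟨c, hc⟩ := hxy
    apply hS
    have h1 : orderOf y = orderOf x := by
      have : y = MulAut.conj c x := by simp [hc]
      rw [this, MulEquiv.orderOf_eq]
    rw [h1]; exact hx
  have hpG : IsPGroup p (G ⧸ R) := by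
    intro g
    induction g using QuotientGroup.induction_on with
    | H x =>
    obtain ⟨a, m, hm, hxo⟩ := Nat.exists_eq_pow_mul_and_not_dvd (orderOf_pos x).ne' p hp.ne_one
    refine ⟨a, ?_⟩
    rw [← QuotientGroup.mk_pow, QuotientGroup.eq_one_iff]
    apply Subgroup.subset_normalClosure
    show (orderOf (x ^ p ^ a)).Coprime p
    have hdvd : orderOf (x ^ p ^ a) ∣ m := by
      apply orderOf_dvd_of_pow_eq_one
      rw [← pow_mul, ← hxo, pow_orderOf_eq_one]
    have hmcop : m.Coprime p := by
      rw [Nat.coprime_comm, hp.coprime_iff_not_dvd]; exact hm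
    exact Nat.Coprime.coprime_dvd_left hdvd hmcop
  have : Group.IsNilpotent (G ⧸ R) := hpG.isNilpotent
  have hnc : NormalizerCondition (G ⧸ R) := Group.normalizerCondition_of_isNilpotent
  have hker : (QuotientGroup.mk' R).ker ≤ M := by rw [QuotientGroup.ker_mk']; exact hRM
  have hcomap : (M.map (QuotientGroup.mk' R)).comap (QuotientGroup.mk' R) = M :=
    Subgroup.comap_map_eq_self hker
  have hsurj : Function.Surjective (QuotientGroup.mk' R) := QuotientGroup.mk'_surjective R
  have hcoatom : IsCoatom (M.map (QuotientGroup.mk' R)) := by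
    constructor
    · intro htop
      apply hM.1
      rw [← hcomap, htop, Subgroup.comap_top]
    · intro K' hK'
      have h1 : M ≤ K'.comap (QuotientGroup.mk' R) := by
        rw [← hcomap]; exact Subgroup.comap_mono hK'.le
      have h2 : M ≠ K'.comap (QuotientGroup.mk' R) := by
        intro h
        have : M.map (QuotientGroup.mk' R) = K' := by
          rw [h, Subgroup.map_comap_eq_self_of_surjective hsurj]
        exact hK'.ne this
      have h3 : K'.comap (QuotientGroup.mk' R) = ⊤ := hM.2 _ (lt_of_le_of_ne h1 h2)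
      rw [← Subgroup.map_comap_eq_self_of_surjective hsurj K', h3,
        Subgroup.map_top_of_surjective _ hsurj]
  have hnormal : (M.map (QuotientGroup.mk' R)).Normal := Subgroup.NormalizerCondition.normal_of_coatom _ hnc hcoatom
  rw [← hcomap]
  exact hnormal.comap _

end Cfsg.Agent.S4261
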