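import Cfsg.Statements.S4263
import Cfsg.Agent.S4244
import Mathlib

set_option autoImplicit false
open Cfsg
open scoped Pointwise

namespace Cfsg.Agent.S4263

variable {G : Type*} [Group G]

theorem pow_mem_dvd (K : Subgroup G) (x : G) (d : ℕ) (hd : 0 < d) (hx : x ^ d ∈ K)
    (hmin : ∀ n, 0 < n → x ^ n ∈ K → d ≤ n) (n : ℕ) (hn : x ^ n ∈ K) : d ∣ n := by
  by_contra h
  have h1 : 0 < n % d := Nat.pos_of_ne_zero (fun h0 => h (Nat.dvd_of_mod_eq_zero h0))
  have h2 : x ^ (n % d) ∈ K := by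
    have h4 : x ^ n = x ^ (n % d) * (x ^ d) ^ (n / d) := by
      rw [← pow_mul, ← pow_add, Nat.mod_add_div]
    have h3 : x ^ (n % d) = x ^ n * ((x ^ d) ^ (n / d))⁻¹ := by rw [h4]; group
    rw [h3]
    exact K.mul_mem hn (K.inv_mem (K.pow_mem hx _))
  have h5 := hmin _ h1 h2
  have h6 := Nat.mod_lt n hd
  omega

theorem exists_min_pow [Finite G] (K : Subgroup G) (x : G) :
    ∃ d, 0 < d ∧ x ^ d ∈ K ∧ ∀ n, x ^ n ∈ K → d ∣ n := by
  classical
  have hex : ∃ n, 0 < n ∧ x ^ n ∈ K :=
    ⟨orderOf x, orderOf_pos x, by rw [pow_orderOf_eq_one]; exact K.one_mem⟩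
  refine ⟨Nat.find hex, (Nat.find_spec hex).1, (Nat.find_spec hex).2, fun n hn => ?_⟩
  exact pow_mem_dvd K x _ (Nat.find_spec hex).1 (Nat.find_spec hex).2
    (fun m hm hxm => Nat.find_min' hex ⟨hm, hxm⟩) n hn

theorem pCore_normal (p : ℕ) : (pCore p G).Normal :=
  Subgroup.sSup_normal _ (fun _ h => h.1)

theorem pCore_isPGroup (p : ℕ) [Fact p.Prime] [Finite G] : IsPGroup p ↥(pCore p G) :=
  Sylow.sSup_of_normal _ (fun _ h => h.2) (fun _ h => h.1)

theorem mem_fitting_of [Finite G] (x : G) (h : ∀ H : Subgroup G, x ^ H.index ∈ H) :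
    x ∈ fittingSubgroup G := by
  obtain ⟨d, hd, hxd, hmin⟩ := exists_min_pow (fittingSubgroup G) x
  by_cases hd1 : d = 1
  · subst hd1; simpa using hxd
  exfalso
  obtain ⟨q, hq, hqd⟩ := Nat.exists_prime_and_dvd hd1
  have : Fact q.Prime := ⟨hq⟩
  obtain ⟨P⟩ : Nonempty (Sylow q G) := inferInstance
  have h1 : x ^ (P : Subgroup G).index ∈ (P : Subgroup G).normalCore := by
    intro b
    have h2 := h (MulAut.conj b⁻¹ • (P : Subgroup G))
    have hidx : (MulAut.conj b⁻¹ • (P : Subgroup G)).index = (P : Subgroup G).index :=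
      Subgroup.index_map_equiv _ (MulAut.conj b⁻¹)
    rw [hidx] at h2
    rw [Subgroup.mem_pointwise_smul_iff_inv_smul_mem] at h2
    simpa [MulAut.smul_def] using h2
  have h2 : (P : Subgroup G).normalCore ≤ fittingSubgroup G := by
    apply le_sSup
    refine ⟨Subgroup.normalCore_normal _, ?_⟩
    have h3 : IsPGroup q (P : Subgroup G).normalCore := P.2.to_le (Subgroup.normalCore_le _)
    exact h3.isNilpotent
  have h3 := hmin _ (h2 h1)
  exact P.not_dvd_index (hqd.trans h3)

theorem card_sup_dvd [Finite G] (A B : Subgroup G) [B.Normal] :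
    Nat.card ↥(A ⊔ B) ∣ Nat.card ↥A * Nat.card ↥B := by
  have h1 : Nat.card ↥B * B.relIndex (A ⊔ B) = Nat.card ↥(A ⊔ B) := by
    have := Subgroup.relIndex_mul_relIndex ⊥ B (A ⊔ B) bot_le le_sup_right
    rwa [Subgroup.relIndex_bot_left, Subgroup.relIndex_bot_left] at this
  rw [Subgroup.relIndex_sup_right] at h1
  rw [← h1, mul_comm]
  exact Nat.mul_dvd_mul (Subgroup.relIndex_dvd_card B A) dvd_rfl

theorem sSup_induction_finite [Finite G] {P : Subgroup G → Prop} (S : Set (Subgroup G))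
    (hbot : P ⊥) (hsup : ∀ A B, P A → P B → P (A ⊔ B)) (hS : ∀ A ∈ S, P A) : P (sSup S) := by
  have hfin : S.Finite := Set.toFinite S
  have h1 : hfin.toFinset.sup id = sSup S := by
    rw [Finset.sup_id_eq_sSup, Set.Finite.coe_toFinset]
  rw [← h1]
  exact Finset.sup_induction hbot (fun a ha b hb => hsup a b ha hb)
    (fun b hb => hS b (hfin.mem_toFinset.mp hb))

/-- The image of a normal nilpotent subgroup modulo `O_p(G)` has order prime to `p`. -/
theorem card_map_coprime_of_nilpotent [Finite G] (p : ℕ) [hp : Fact p.Prime] (N : Subgroup G)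
    (hN : N.Normal) (hnil : Group.IsNilpotent N) :
    haveI := pCore_normal (G := G) p
    (Nat.card (N.map (QuotientGroup.mk' (pCore p G)))).Coprime p := by
  have := pCore_normal (G := G) p
  obtain ⟨S⟩ : Nonempty (Sylow p N) := inferInstance
  have hSn : (S : Subgroup N).Normal :=
    Sylow.normal_of_normalizerCondition Group.normalizerCondition_of_isNilpotent S
  have hSc : (S : Subgroup N).Characteristic := Sylow.characteristic_of_normal S hSn
  have h1 : ((S : Subgroup N).map N.subtype).Normal := inferInstance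
  have h2 : IsPGroup p ((S : Subgroup N).map N.subtype) := S.2.map N.subtype
  have h3 : (S : Subgroup N).map N.subtype ≤ pCore p G := le_sSup ⟨h1, h2⟩
  rw [← Subgroup.relIndex_ker, QuotientGroup.ker_mk']
  have h4 : (pCore p G).relIndex N ∣ ((S : Subgroup N).map N.subtype).relIndex N :=
    Subgroup.relIndex_dvd_of_le_left N h3
  have h5 : ((S : Subgroup N).map N.subtype).relIndex N = (S : Subgroup N).index := by
    unfold Subgroup.relIndex Subgroup.subgroupOf
    rw [Subgroup.comap_map_eq_self_of_injective N.subtype_injective]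
  rw [h5] at h4
  rw [Nat.coprime_comm, Nat.Prime.coprime_iff_not_dvd hp.out]
  exact fun h6 => S.not_dvd_index (h6.trans h4)

theorem card_map_fitting_coprime [Finite G] (p : ℕ) [hp : Fact p.Prime] :
    haveI := pCore_normal (G := G) p
    (Nat.card ((fittingSubgroup G).map (QuotientGroup.mk' (pCore p G)))).Coprime p := by
  have := pCore_normal (G := G) p
  have key : (fittingSubgroup G).Normal ∧
      (Nat.card ((fittingSubgroup G).map (QuotientGroup.mk' (pCore p G)))).Coprime p := by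
    unfold fittingSubgroup
    refine sSup_induction_finite (P := fun N => N.Normal ∧
      (Nat.card (N.map (QuotientGroup.mk' (pCore p G)))).Coprime p) _ ?_ ?_ ?_
    · exact ⟨inferInstance, by simp⟩
    · rintro A B ⟨hA1, hA2⟩ ⟨hB1, hB2⟩
      refine ⟨inferInstance, ?_⟩
      rw [Subgroup.map_sup]
      have : (B.map (QuotientGroup.mk' (pCore p G))).Normal :=
        hB1.map _ (QuotientGroup.mk'_surjective _)
      exact Nat.Coprime.coprime_dvd_left (card_sup_dvd _ _) (Nat.Coprime.mul_left hA2 hB2)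
    · rintro A ⟨hA1, hA2⟩
      exact ⟨hA1, card_map_coprime_of_nilpotent p A hA1 hA2⟩
  exact key.2

theorem pow_index_mem_pCore [Finite G] (p : ℕ) [hp : Fact p.Prime] (P : Sylow p G) (x : G)
    (hx : x ∈ fittingSubgroup G) : x ^ (P : Subgroup G).index ∈ pCore p G := by
  have := pCore_normal (G := G) p
  set Q := pCore p G with hQ
  set π := QuotientGroup.mk' Q with hπ
  set R := (fittingSubgroup G).map π with hR
  have hRc : (Nat.card R).Coprime p := card_map_fitting_coprime p
  have hQP : Q ≤ (P : Subgroup G) := by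
    apply sSup_le
    rintro N ⟨hN, hNp⟩
    obtain ⟨Q', hQ'⟩ := hNp.exists_le_sylow
    obtain ⟨g, rfl⟩ := MulAction.exists_smul_eq G Q' P
    intro n hn
    rw [Sylow.coe_subgroup_smul, Subgroup.mem_pointwise_smul_iff_inv_smul_mem]
    apply hQ'
    have := hN.conj_mem n hn g⁻¹
    simpa [MulAut.smul_def] using this
  -- |R| divides [G:P]
  have h1 : Nat.card R ∣ Q.index := by
    have := Subgroup.card_subgroup_dvd_card R
    rwa [← Subgroup.index_eq_card] at this
  have h2 : Q.relIndex (P : Subgroup G) * (P : Subgroup G).index = Q.index :=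
    Subgroup.relIndex_mul_index hQP
  have h3 : (Nat.card R).Coprime (Q.relIndex (P : Subgroup G)) := by
    have h4 : Q.relIndex (P : Subgroup G) ∣ Nat.card (P : Subgroup G) :=
      Subgroup.relIndex_dvd_card _ _
    obtain ⟨n, hn⟩ := IsPGroup.iff_card.mp P.2
    rw [hn] at h4
    obtain ⟨m, -, hm⟩ := (Nat.dvd_prime_pow hp.out).mp h4
    rw [hm]
    exact Nat.Coprime.pow_right _ hRc
  have h5 : Nat.card R ∣ (P : Subgroup G).index := by
    rw [← h2] at h1
    exact h3.dvd_of_dvd_mul_left h1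
  have h6 : π x ∈ R := Subgroup.mem_map_of_mem _ hx
  have h7 : (π x) ^ (P : Subgroup G).index = 1 := by
    have h8 : (⟨π x, h6⟩ : R) ^ Nat.card R = 1 := pow_card_eq_one'
    have h9 : (π x) ^ Nat.card R = 1 := by
      have := congrArg Subtype.val h8
      rwa [Subgroup.coe_pow, Subgroup.coe_one] at this
    obtain ⟨c, hc⟩ := h5
    rw [hc, pow_mul, h9, one_pow]
  rw [← map_pow] at h7
  exact (QuotientGroup.eq_one_iff _).mp h7

theorem pow_relIndex_mem_of_isPGroup [Finite G] (p : ℕ) [hp : Fact p.Prime] (Q H : Subgroup G)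
    (hQ : IsPGroup p Q) (y : G) (hy : y ∈ Q) : y ^ (H.relIndex Q) ∈ H := by
  set C := Subgroup.zpowers y with hC
  have hCQ : C ≤ Q := by
    rw [hC, Subgroup.zpowers_le]; exact hy
  have hyC : y ∈ C := Subgroup.mem_zpowers y
  -- y ^ [C : C ∩ H] ∈ H
  have h1 : y ^ (H.relIndex C) ∈ H := by
    have : (H.subgroupOf C).Normal := inferInstance
    have h2 := Subgroup.pow_index_mem (H.subgroupOf C) (⟨y, hyC⟩ : C)
    rw [Subgroup.mem_subgroupOf] at h2
    have h2' : y ^ (H.subgroupOf C).index ∈ H := by simpa using h2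
    exact h2'
  have h3 : H.relIndex C ≤ H.relIndex Q :=
    Subgroup.relIndex_le_of_le_right hCQ
      (Subgroup.index_ne_zero_of_finite : (H.subgroupOf Q).index ≠ 0)
  have hCp : IsPGroup p C := hQ.to_le hCQ
  obtain ⟨a, ha⟩ : ∃ a, H.relIndex C = p ^ a := by
    have h4 : H.relIndex C ∣ Nat.card C := Subgroup.relIndex_dvd_card _ _
    obtain ⟨n, hn⟩ := IsPGroup.iff_card.mp hCp
    rw [hn] at h4
    obtain ⟨m, -, hm⟩ := (Nat.dvd_prime_pow hp.out).mp h4
    exact ⟨m, hm⟩
  obtain ⟨b, hb⟩ : ∃ b, H.relIndex Q = p ^ b := by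
    have h4 : H.relIndex Q ∣ Nat.card Q := Subgroup.relIndex_dvd_card _ _
    obtain ⟨n, hn⟩ := IsPGroup.iff_card.mp hQ
    rw [hn] at h4
    obtain ⟨m, -, hm⟩ := (Nat.dvd_prime_pow hp.out).mp h4
    exact ⟨m, hm⟩
  rw [ha, hb] at h3
  have hab : a ≤ b := (Nat.pow_le_pow_iff_right hp.out.one_lt).mp h3
  obtain ⟨c, hc⟩ := pow_dvd_pow p hab
  rw [hb, hc, ← ha, pow_mul]
  exact H.pow_mem h1 _

/-- Let G be a finite group. An element x lies in the Fitting subgroup F(G) if and only if, for every subgroup H of G, the power x^[G : H] lies in H. -/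
theorem result {G : Type*} [Group G] [Finite G] (x : G) :
    x ∈ Cfsg.fittingSubgroup G ↔ ∀ H : Subgroup G, x ^ H.index ∈ H := by
  refine ⟨fun hx H => ?_, mem_fitting_of x⟩
  obtain ⟨e, he, hxe, hmin⟩ := exists_min_pow H x
  suffices hdvd : e ∣ H.index by
    obtain ⟨c, hc⟩ := hdvd
    rw [hc, pow_mul]
    exact H.pow_mem hxe _
  rw [Nat.dvd_iff_prime_pow_dvd_dvd]
  intro p k hp hpk
  have : Fact p.Prime := ⟨hp⟩
  have := pCore_normal (G := G) p
  obtain ⟨P⟩ : Nonempty (Sylow p G) := inferInstance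
  have h1 : x ^ (P : Subgroup G).index ∈ pCore p G := pow_index_mem_pCore p P x hx
  have h2 := pow_relIndex_mem_of_isPGroup p (pCore p G) H (pCore_isPGroup p) _ h1
  rw [← pow_mul] at h2
  have h3 := hmin _ h2
  have h4 : p ^ k ∣ (P : Subgroup G).index * H.relIndex (pCore p G) := hpk.trans h3
  have h5 : (p ^ k).Coprime (P : Subgroup G).index := by
    apply Nat.Coprime.pow_left
    rw [Nat.Prime.coprime_iff_not_dvd hp]
    exact P.not_dvd_index
  have h6 : p ^ k ∣ H.relIndex (pCore p G) := h5.dvd_of_dvd_mul_left h4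
  exact h6.trans (Cfsg.Agent.S4244.relIndex_dvd_index_of_normal' (pCore p G) H)

end Cfsg.Agent.S4263
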