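import Cfsg.Statements.S4269
import Mathlib

set_option autoImplicit false
open Cfsg
open scoped Pointwise commutatorElement

namespace Cfsg.Agent.S4269

variable {G : Type*} [Group G]

/-- conjugate subgroup `g H g⁻¹`, in the form used by the statement -/
abbrev cj (g : G) (H : Subgroup G) : Subgroup G := H.map (MulAut.conj g).toMonoidHom

theorem mem_cj {g y : G} {H : Subgroup G} : y ∈ cj g H ↔ g⁻¹ * y * g ∈ H := by
  constructor
  · rintro ⟨x, hx, rfl⟩
    simpa [mul_assoc] using hx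
  · intro h
    exact ⟨g⁻¹ * y * g, h, by simp [mul_assoc]⟩

theorem cj_mul (a b : G) (H : Subgroup G) : cj (a * b) H = cj a (cj b H) := by
  ext y
  simp only [mem_cj]
  simp [mul_assoc]

theorem cj_one (H : Subgroup G) : cj 1 H = H := by
  ext y
  rw [mem_cj]
  simp

theorem cj_of_mem {h : G} {H : Subgroup G} (hh : h ∈ H) : cj h H = H := by
  ext y
  rw [mem_cj]
  constructor
  · intro hy
    have := H.mul_mem (H.mul_mem hh hy) (H.inv_mem hh)
    simpa [mul_assoc] using this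
  · intro hy
    exact H.mul_mem (H.mul_mem (H.inv_mem hh) hy) hh

theorem cj_of_mem_normalizer {n : G} {H : Subgroup G}
    (hn : n ∈ Subgroup.normalizer (H : Set G)) : cj n H = H := by
  ext y
  rw [mem_cj]
  exact ((Subgroup.mem_normalizer_iff''.mp hn) y).symm

theorem mem_normalizer_of_cj {n : G} {H : Subgroup G} (h : cj n H = H) :
    n ∈ Subgroup.normalizer (H : Set G) := by
  rw [Subgroup.mem_normalizer_iff'']
  intro y
  rw [← mem_cj, h]

theorem dir1 (V : Subgroup G) (H : Subgroup G)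
    (hP : IsPronormal H) (U : Subgroup G) (_hUV : U ≤ V) (hU : ∀ h ∈ H, cj h U = U) :
    U = (U ⊓ Subgroup.normalizer (H : Set G)) ⊔ ⁅H, U⁆ := by
  have hW : ⁅H, U⁆ ≤ U := by
    rw [Subgroup.commutator_le]
    intro h hh u hu
    have h1 : h * u * h⁻¹ ∈ U := by
      have h2 : h * u * h⁻¹ ∈ cj h U := ⟨u, hu, rfl⟩
      rwa [hU h hh] at h2
    exact U.mul_mem h1 (U.inv_mem hu)
  apply le_antisymm
  · intro u hu
    obtain ⟨x, hx, hxe⟩ := hP u
    have hHW : H ≤ Subgroup.normalizer ((⁅H, U⁆ : Subgroup G) : Set G) := by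
      intro h hh
      apply mem_normalizer_of_cj
      show (⁅H, U⁆).map _ = _
      rw [Subgroup.map_commutator]
      have e1 : H.map (MulAut.conj h).toMonoidHom = H := cj_of_mem hh
      have e2 : U.map (MulAut.conj h).toMonoidHom = U := hU h hh
      rw [e1, e2]
    have hsub : H ⊔ cj u H ≤ ⁅H, U⁆ ⊔ H := by
      apply sup_le le_sup_right
      intro y hy
      rw [mem_cj] at hy
      have h1 : ⁅u⁻¹ * y * u, u⁆ ∈ ⁅H, U⁆ := Subgroup.commutator_mem_commutator hy hu
      have h2 : y = (⁅u⁻¹ * y * u, u⁆)⁻¹ * (u⁻¹ * y * u) := by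
        simp only [commutatorElement_def]; group
      rw [h2]
      exact Subgroup.mul_mem _ (Subgroup.mem_sup_left (Subgroup.inv_mem _ h1))
        (Subgroup.mem_sup_right hy)
    have hx' := hsub hx
    have hcoe := Subgroup.coe_mul_of_right_le_normalizer_left ⁅H, U⁆ H hHW
    have hx'' : x ∈ ((⁅H, U⁆ : Subgroup G) : Set G) * (H : Set G) := by
      rw [← hcoe]; exact hx'
    obtain ⟨w, hw, h, hh, rfl⟩ := Set.mem_mul.mp hx''
    have h3 : cj u H = cj w H := by
      have : cj u H = cj (w * h) H := hxe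
      rw [this, cj_mul, cj_of_mem hh]
    have h4 : w⁻¹ * u ∈ Subgroup.normalizer (H : Set G) := by
      apply mem_normalizer_of_cj
      rw [cj_mul, h3, ← cj_mul, inv_mul_cancel, cj_one]
    have h5 : w⁻¹ * u ∈ U := U.mul_mem (U.inv_mem (hW hw)) hu
    have h6 : u = w * (w⁻¹ * u) := by group
    rw [h6]
    exact Subgroup.mul_mem _ (Subgroup.mem_sup_right hw) (Subgroup.mem_sup_left ⟨h5, h4⟩)
  · exact sup_le inf_le_left hW

theorem comm_of_mem {V : Subgroup G} (hV : IsMulCommutative ↥V) {a b : G} (ha : a ∈ V)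
    (hb : b ∈ V) : a * b = b * a := by
  have := (isMulCommutative_iff.mp hV) ⟨a, ha⟩ ⟨b, hb⟩
  exact congrArg Subtype.val this

theorem dir2 (V : Subgroup G) [V.Normal] (hV : IsMulCommutative ↥V) (H : Subgroup G)
    (hHV : H ⊔ V = ⊤)
    (h2 : ∀ U : Subgroup G, U ≤ V → (∀ h ∈ H, cj h U = U) →
        U = (U ⊓ Subgroup.normalizer (H : Set G)) ⊔ ⁅H, U⁆) : IsPronormal H := by
  intro g
  have hg : g ∈ ((V ⊔ H : Subgroup G) : Set G) := by rw [sup_comm, hHV]; trivial
  rw [Subgroup.normal_mul] at hg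
  obtain ⟨v, hv, h, hh, rfl⟩ := Set.mem_mul.mp hg
  have e1 : cj (v * h) H = cj v H := by rw [cj_mul, cj_of_mem hh]
  show ∃ x ∈ H ⊔ cj (v * h) H, cj (v * h) H = cj x H
  rw [e1]
  set K := H ⊔ cj v H with hK
  have hHK : H ≤ K := le_sup_left
  have hcV : ∀ a ∈ V, ∀ c : G, c * a * c⁻¹ ∈ V := fun a ha c =>
    Subgroup.Normal.conj_mem inferInstance a ha c
  let U : Subgroup G :=
    { carrier := {u | u ∈ V ∧ ∀ h ∈ H, ⁅h, u⁆ ∈ K}
      one_mem' := ⟨V.one_mem, fun h _ => by
        simp only [commutatorElement_def]; simp⟩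
      mul_mem' := by
        rintro a b ⟨ha, ha'⟩ ⟨hb, hb'⟩
        refine ⟨V.mul_mem ha hb, fun h hh => ?_⟩
        have e : ⁅h, a * b⁆ = ⁅h, a⁆ * ⁅h, b⁆ := by
          simp only [commutatorElement_def]
          have c1 : (h * b * h⁻¹ * b⁻¹) * a⁻¹ = a⁻¹ * (h * b * h⁻¹ * b⁻¹) :=
            comm_of_mem hV (V.mul_mem (hcV b hb h) (V.inv_mem hb)) (V.inv_mem ha)
          calc h * (a * b) * h⁻¹ * (a * b)⁻¹
              = h * a * h⁻¹ * ((h * b * h⁻¹ * b⁻¹) * a⁻¹) := by group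
            _ = h * a * h⁻¹ * (a⁻¹ * (h * b * h⁻¹ * b⁻¹)) := by rw [c1]
            _ = h * a * h⁻¹ * a⁻¹ * (h * b * h⁻¹ * b⁻¹) := by group
        rw [e]
        exact K.mul_mem (ha' h hh) (hb' h hh)
      inv_mem' := by
        rintro a ⟨ha, ha'⟩
        refine ⟨V.inv_mem ha, fun h hh => ?_⟩
        have e : ⁅h, a⁻¹⁆ = (⁅h, a⁆)⁻¹ := by
          simp only [commutatorElement_def]
          have c1 : (h * a⁻¹ * h⁻¹) * a = a * (h * a⁻¹ * h⁻¹) :=
            comm_of_mem hV (hcV _ (V.inv_mem ha) h) ha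
          calc h * a⁻¹ * h⁻¹ * a⁻¹⁻¹ = (h * a⁻¹ * h⁻¹) * a := by group
            _ = a * (h * a⁻¹ * h⁻¹) := c1
            _ = (h * a * h⁻¹ * a⁻¹)⁻¹ := by group
        rw [e]
        exact K.inv_mem (ha' h hh) }
  have hUV : U ≤ V := fun u hu => hu.1
  have hUinv : ∀ h ∈ H, cj h U = U := by
    have key : ∀ h ∈ H, cj h U ≤ U := by
      intro h hh y hy
      rw [mem_cj] at hy
      obtain ⟨hy1, hy2⟩ := hy
      refine ⟨?_, fun h' hh' => ?_⟩
      · have := hcV _ hy1 h
        simpa [mul_assoc] using this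
      · have h3 := hy2 (h⁻¹ * h' * h) (H.mul_mem (H.mul_mem (H.inv_mem hh) hh') hh)
        have e : ⁅h', y⁆ = h * ⁅h⁻¹ * h' * h, h⁻¹ * y * h⁆ * h⁻¹ := by
          simp only [commutatorElement_def]; group
        rw [e]
        exact K.mul_mem (K.mul_mem (hHK hh) h3) (K.inv_mem (hHK hh))
    intro h hh
    apply le_antisymm (key h hh)
    intro y hy
    rw [mem_cj]
    have := key h⁻¹ (H.inv_mem hh) (show h⁻¹ * y * h ∈ cj h⁻¹ U from by
      rw [mem_cj]; simpa [mul_assoc] using hy)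
    exact this
  have hvU : v ∈ U := by
    refine ⟨hv, fun h hh => ?_⟩
    have e : ⁅h, v⁆ = h * (v * h⁻¹ * v⁻¹) := by
      simp only [commutatorElement_def]; group
    rw [e]
    refine K.mul_mem (hHK hh) (Subgroup.mem_sup_right ?_)
    rw [mem_cj]
    have : v⁻¹ * (v * h⁻¹ * v⁻¹) * v = h⁻¹ := by group
    rw [this]
    exact H.inv_mem hh
  have hUeq := h2 U hUV hUinv
  have hWK : ⁅H, U⁆ ≤ K := by
    rw [Subgroup.commutator_le]
    intro h hh u hu
    exact hu.2 h hh
  have hWV : ⁅H, U⁆ ≤ V := by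
    rw [Subgroup.commutator_le]
    intro h hh u hu
    have := V.mul_mem (hcV u hu.1 h) (V.inv_mem hu.1)
    simpa [commutatorElement_def] using this
  -- decompose v
  have hN : (U ⊓ Subgroup.normalizer (H : Set G)) ≤
      Subgroup.normalizer ((⁅H, U⁆ : Subgroup G) : Set G) := by
    intro n hn
    have hnV : n ∈ V := hUV hn.1
    have key : ∀ w ∈ V, n * w * n⁻¹ = w := fun w hw => by
      rw [comm_of_mem hV hnV hw]; group
    rw [Subgroup.mem_normalizer_iff]
    intro w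
    constructor
    · intro hw
      rwa [key w (hWV hw)]
    · intro hw
      have h3 : n⁻¹ * (n * w * n⁻¹) * n⁻¹⁻¹ = n * w * n⁻¹ := by
        have hn' : n⁻¹ ∈ V := V.inv_mem hnV
        rw [comm_of_mem hV hn' (hWV hw)]; group
      have h4 : n⁻¹ * (n * w * n⁻¹) * n⁻¹⁻¹ = w := by group
      rw [h4] at h3
      rw [h3]; exact hw
  have hcoe := Subgroup.coe_mul_of_left_le_normalizer_right
    (U ⊓ Subgroup.normalizer (H : Set G)) ⁅H, U⁆ hN
  have hv' : v ∈ ((U ⊓ Subgroup.normalizer (H : Set G) : Subgroup G) : Set G) *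
      ((⁅H, U⁆ : Subgroup G) : Set G) := by
    rw [← hcoe, ← hUeq]; exact hvU
  obtain ⟨n, hn, w, hw, hnw⟩ := Set.mem_mul.mp hv'
  have hnw' : v = w * n := by
    rw [← hnw]
    exact comm_of_mem hV (hUV hn.1) (hWV hw)
  refine ⟨w, hWK hw, ?_⟩
  rw [hnw', cj_mul, cj_of_mem_normalizer hn.2]

/-- Let G be a finite group, V an abelian normal subgroup and H a subgroup with HV = G. Then H is pronormal in G (H and gHg⁻¹ are conjugate inside the subgroup they generate, for every g) if and only if every H-invariant subgroup U of V satisfies U = N_U(H)·[H, U], that is, U is the join of U ∩ N_G(H) and the commutator subgroup [H, U]. -/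
theorem result {G : Type*} [Group G] [Finite G]
    (V : Subgroup G) [V.Normal] (hV : IsMulCommutative ↥V) (H : Subgroup G) (hHV : H ⊔ V = ⊤) :
    Cfsg.IsPronormal H ↔
      ∀ U : Subgroup G, U ≤ V → (∀ h ∈ H, U.map (MulAut.conj h).toMonoidHom = U) →
        U = (U ⊓ Subgroup.normalizer (H : Set G)) ⊔ ⁅H, U⁆ := by
  exact ⟨fun hP U hUV hU => dir1 V H hP U hUV hU, fun h2 => dir2 V hV H hHV h2⟩

end Cfsg.Agent.S4269
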