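import Cfsg.Statements.S4303
import Cfsg.Agent.S4341
import Cfsg.Agent.S4342
import Mathlib

set_option autoImplicit false
open Cfsg

universe u

namespace Cfsg.Agent.S4303

open Subgroup

/-- Conjugation action of a subgroup `P` normalizing `Q` on `Q`. -/
def conjMulAction {G : Type*} [Group G] (P Q : Subgroup G) (h : P ≤ normalizer (Q : Set G)) :
    MulAction P Q where
  smul x y := ⟨x * y * (x : G)⁻¹, (Subgroup.mem_normalizer_iff.mp (h x.2) y).mp y.2⟩
  one_smul y := Subtype.ext (by
    show ((1 : P) : G) * y * ((1 : P) : G)⁻¹ = y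
    simp)
  mul_smul x x' y := Subtype.ext (by
    show ((x * x' : P) : G) * y * ((x * x' : P) : G)⁻¹ = (x : G) * ((x' : G) * y * (x' : G)⁻¹) * (x : G)⁻¹
    simp [mul_assoc])

theorem card_modEq_card_inf_centralizer {G : Type*} [Group G] [Finite G] (p : ℕ) [Fact p.Prime]
    (P Q : Subgroup G) (hP : IsPGroup p P) (h : P ≤ normalizer (Q : Set G)) :
    Nat.card Q ≡ Nat.card (Q ⊓ centralizer (P : Set G) : Subgroup G) [MOD p] := by
  letI := conjMulAction P Q h
  have h1 := hP.card_modEq_card_fixedPoints (↥Q)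
  have h2 : Nat.card (MulAction.fixedPoints P Q) =
      Nat.card (Q ⊓ centralizer (P : Set G) : Subgroup G) := by
    rw [Nat.card_coe_set_eq, ← Set.ncard_image_of_injective _ Subtype.val_injective]
    have e : Nat.card (Q ⊓ centralizer (P : Set G) : Subgroup G) =
        Set.ncard ((Q ⊓ centralizer (P : Set G) : Subgroup G) : Set G) :=
      (Nat.card_coe_set_eq ((Q ⊓ centralizer (P : Set G) : Subgroup G) : Set G))
    rw [e]
    congr 1
    ext y
    constructor
    · rintro ⟨y', hy', rfl⟩
      refine Subgroup.mem_inf.mpr ⟨y'.2, ?_⟩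
      rw [mem_centralizer_iff]
      intro x hx
      have h3 : x * (y' : G) * x⁻¹ = y' := congrArg Subtype.val (hy' ⟨x, hx⟩)
      calc x * (y' : G) = x * y' * x⁻¹ * x := by group
        _ = y' * x := by rw [h3]
    · intro hy
      obtain ⟨hyQ, hyC⟩ := Subgroup.mem_inf.mp hy
      refine ⟨⟨y, hyQ⟩, ?_, rfl⟩
      intro x
      apply Subtype.ext
      show (x : G) * y * (x : G)⁻¹ = y
      rw [mem_centralizer_iff.mp hyC x x.2]
      group
  rwa [h2] at h1

theorem index_eq_card_of_compl {G : Type*} [Group G] (P K : Subgroup G) [K.Normal]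
    (hinf : P ⊓ K = ⊥) (hsup : P ⊔ K = ⊤) : K.index = Nat.card P := by
  rw [← relIndex_top_right, ← hsup, relIndex_sup_right, ← inf_relIndex_left, hinf,
    relIndex_bot_left]

theorem not_dvd_index_of_compl {G : Type*} [Group G] [Finite G] (p q : ℕ) [Fact p.Prime]
    [hq : Fact q.Prime] (P : Sylow p G) (K : Subgroup G) [K.Normal]
    (hinf : (P : Subgroup G) ⊓ K = ⊥) (hsup : (P : Subgroup G) ⊔ K = ⊤) (hqp : q ≠ p) :
    ¬ q ∣ K.index := by
  rw [index_eq_card_of_compl _ K hinf hsup]
  obtain ⟨j, hj⟩ := IsPGroup.iff_card.mp P.2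
  rw [hj]
  intro h
  exact hqp ((Nat.prime_dvd_prime_iff_eq hq.out (Fact.out : p.Prime)).mp
    (hq.out.dvd_of_dvd_pow h))

theorem not_dvd_card_of_compl {G : Type*} [Group G] [Finite G] (p : ℕ) [Fact p.Prime]
    (P : Sylow p G) (K : Subgroup G) [K.Normal]
    (hinf : (P : Subgroup G) ⊓ K = ⊥) (hsup : (P : Subgroup G) ⊔ K = ⊤) :
    ¬ p ∣ Nat.card K := by
  have h1 := index_eq_card_of_compl _ K hinf hsup
  have h2 := K.card_mul_index
  have h3 := (P : Subgroup G).card_mul_index
  rw [h1, ← h3, mul_comm] at h2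
  have h4 : Nat.card K = (P : Subgroup G).index :=
    Nat.eq_of_mul_eq_mul_left Nat.card_pos h2
  rw [h4]
  exact P.not_dvd_index

/-- A maximal `P`-invariant `q`-subgroup containing `R` is a Sylow `q`-subgroup. -/
theorem exists_invariant_sylow {G : Type*} [Group G] [Finite G] (p q : ℕ) [Fact p.Prime]
    [Fact q.Prime] (P : Sylow p G) (K : Subgroup G) [K.Normal]
    (hinf : (P : Subgroup G) ⊓ K = ⊥) (hsup : (P : Subgroup G) ⊔ K = ⊤) (hqp : q ≠ p)
    (R : Subgroup G) (hR : IsPGroup q R) (hRP : (P : Subgroup G) ≤ normalizer (R : Set G)) :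
    ∃ Q : Subgroup G, IsPGroup q Q ∧ R ≤ Q ∧ (P : Subgroup G) ≤ normalizer (Q : Set G) ∧
      ¬ q ∣ Q.index := by
  have hfin : {Q : Subgroup G | IsPGroup q Q ∧ R ≤ Q ∧
      (P : Subgroup G) ≤ normalizer (Q : Set G)}.Finite := Set.toFinite _
  obtain ⟨Q, ⟨hQq, hRQ, hPQ⟩, hmax⟩ := hfin.exists_maximal ⟨R, hR, le_rfl, hRP⟩
  refine ⟨Q, hQq, hRQ, hPQ, ?_⟩
  intro hdvd
  obtain ⟨k, hk⟩ := IsPGroup.iff_card.mp hQq
  have hdvd' : q ^ (k + 1) ∣ Nat.card G := by
    rw [← Q.card_mul_index, hk, pow_succ]
    exact Nat.mul_dvd_mul_left _ hdvd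
  have hq1 := Sylow.prime_dvd_card_quotient_normalizer hdvd' hk
  have hpK := not_dvd_card_of_compl p P K hinf hsup
  have hq_idx : ¬ q ∣ (K.subgroupOf (normalizer (Q : Set G))).index := by
    intro h
    exact not_dvd_index_of_compl p q P K hinf hsup hqp
      (h.trans (Subgroup.relIndex_dvd_index_of_normal K _))
  have hcard_eq := Cfsg.Agent.S4342.card_sylow_subgroup_eq q
    (K.subgroupOf (normalizer (Q : Set G))) hq_idx
  have hp_nq : ¬ p ∣ Nat.card (Sylow q (normalizer (Q : Set G))) := by
    rw [← hcard_eq]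
    intro h
    obtain ⟨S⟩ : Nonempty (Sylow q (K.subgroupOf (normalizer (Q : Set G)))) := inferInstance
    have h2 : Nat.card (Sylow q (K.subgroupOf (normalizer (Q : Set G)))) ∣
        Nat.card (K.subgroupOf (normalizer (Q : Set G))) :=
      (Sylow.card_dvd_index S).trans (Subgroup.index_dvd_card _)
    have h3 : Nat.card (K.subgroupOf (normalizer (Q : Set G))) ∣ Nat.card K := by
      rw [← Subgroup.card_map_of_injective (Subgroup.subtype_injective (normalizer (Q : Set G)))
        (K := K.subgroupOf (normalizer (Q : Set G))), Subgroup.subgroupOf_map_subtype]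
      exact Subgroup.card_dvd_of_le inf_le_left
    exact hpK (h.trans (h2.trans h3))
  have hP' : IsPGroup p ((P : Subgroup G).subgroupOf (normalizer (Q : Set G))) :=
    IsPGroup.comap_subtype P.2
  obtain ⟨Q₁', hQ₁'⟩ := hP'.nonempty_fixed_point_of_prime_not_dvd_card
    (Sylow q (normalizer (Q : Set G))) hp_nq
  rw [Subgroup.sylow_mem_fixedPoints_iff] at hQ₁'
  have hQsub : Q.subgroupOf (normalizer (Q : Set G)) ≤ Q₁' := by
    haveI : (Q.subgroupOf (normalizer (Q : Set G))).Normal := Subgroup.normal_in_normalizer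
    exact IsPGroup.le_sylow_of_normal (N := Q.subgroupOf (normalizer (Q : Set G)))
      (IsPGroup.comap_subtype hQq) Q₁'
  have hQQ₁ : Q ≤ (Q₁' : Subgroup (normalizer (Q : Set G))).map (normalizer (Q : Set G)).subtype := by
    calc Q = (Q.subgroupOf (normalizer (Q : Set G))).map (normalizer (Q : Set G)).subtype :=
          (Subgroup.map_subgroupOf_eq_of_le le_normalizer).symm
      _ ≤ _ := Subgroup.map_mono hQsub
  have hmem : (Q₁' : Subgroup (normalizer (Q : Set G))).map (normalizer (Q : Set G)).subtype ∈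
      {Q : Subgroup G | IsPGroup q Q ∧ R ≤ Q ∧ (P : Subgroup G) ≤ normalizer (Q : Set G)} := by
    refine ⟨Q₁'.2.map _, hRQ.trans hQQ₁, ?_⟩
    calc (P : Subgroup G)
        = ((P : Subgroup G).subgroupOf (normalizer (Q : Set G))).map
            (normalizer (Q : Set G)).subtype := (Subgroup.map_subgroupOf_eq_of_le hPQ).symm
      _ ≤ (normalizer ((Q₁' : Subgroup (normalizer (Q : Set G))) :
            Set (normalizer (Q : Set G)))).map (normalizer (Q : Set G)).subtype :=
          Subgroup.map_mono hQ₁'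
      _ ≤ _ := Subgroup.le_normalizer_map _
  have hQ₁Q := hmax hmem hQQ₁
  have heq : Q.subgroupOf (normalizer (Q : Set G)) = Q₁' := by
    apply le_antisymm hQsub
    intro x hx
    rw [Subgroup.mem_subgroupOf]
    exact hQ₁Q ⟨x, hx, rfl⟩
  have hidx : q ∣ (Q₁' : Subgroup (normalizer (Q : Set G))).index := by
    rw [← heq]
    exact hq1
  exact Q₁'.not_dvd_index hidx

/-- In `G = K ⋊ P` with `K` a normal `p`-complement, every prime-power part of `n_p(G)`
is `≡ 1 (mod p)`. -/
theorem key {G : Type*} [Group G] [Finite G] (p q : ℕ) [hp : Fact p.Prime] [hq : Fact q.Prime]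
    (P : Sylow p G) (K : Subgroup G) [hKn : K.Normal]
    (hinf : (P : Subgroup G) ⊓ K = ⊥) (hsup : (P : Subgroup G) ⊔ K = ⊤) (hqp : q ≠ p) :
    q ^ ((Nat.card (Sylow p G)).factorization q) % p = 1 := by
  obtain ⟨R₀⟩ : Nonempty (Sylow q (normalizer ((P : Subgroup G) : Set G))) := inferInstance
  have hRq : IsPGroup q ((R₀ : Subgroup (normalizer ((P : Subgroup G) : Set G))).map
      (normalizer ((P : Subgroup G) : Set G)).subtype) := R₀.2.map _
  have hRNP : (R₀ : Subgroup (normalizer ((P : Subgroup G) : Set G))).map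
      (normalizer ((P : Subgroup G) : Set G)).subtype ≤ normalizer ((P : Subgroup G) : Set G) :=
    Subgroup.map_subtype_le _
  have hRK : (R₀ : Subgroup (normalizer ((P : Subgroup G) : Set G))).map
      (normalizer ((P : Subgroup G) : Set G)).subtype ≤ K := by
    obtain ⟨S, hS⟩ := hRq.exists_le_sylow
    exact hS.trans (Cfsg.Agent.S4342.sylow_le_of_normal_of_not_dvd_index q K
      (not_dvd_index_of_compl p q P K hinf hsup hqp) S)
  have hRC : (R₀ : Subgroup (normalizer ((P : Subgroup G) : Set G))).map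
      (normalizer ((P : Subgroup G) : Set G)).subtype ≤
      centralizer ((P : Subgroup G) : Set G) := by
    intro r hr
    rw [mem_centralizer_iff]
    intro x hx
    have h1 : r * x * r⁻¹ ∈ (P : Subgroup G) := (mem_normalizer_iff.mp (hRNP hr) x).mp hx
    have h2 : r * x * r⁻¹ * x⁻¹ ∈ (P : Subgroup G) := mul_mem h1 (inv_mem hx)
    have h3 : r * x * r⁻¹ * x⁻¹ ∈ K := by
      have h0 : x * r⁻¹ * x⁻¹ ∈ K := hKn.conj_mem _ (inv_mem (hRK hr)) x
      have h4 : r * x * r⁻¹ * x⁻¹ = r * (x * r⁻¹ * x⁻¹) := by group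
      rw [h4]
      exact mul_mem (hRK hr) h0
    have h5 : r * x * r⁻¹ * x⁻¹ ∈ (P : Subgroup G) ⊓ K := ⟨h2, h3⟩
    rw [hinf, mem_bot] at h5
    calc x * r = (r * x * r⁻¹ * x⁻¹)⁻¹ * (r * x) := by group
      _ = r * x := by rw [h5]; simp
  have hPR : (P : Subgroup G) ≤ normalizer (((R₀ : Subgroup (normalizer ((P : Subgroup G) : Set G))).map
      (normalizer ((P : Subgroup G) : Set G)).subtype : Subgroup G) : Set G) :=
    (le_centralizer_iff.mp hRC).trans (centralizer_le_normalizer _)
  obtain ⟨Q, hQq, hRQ, hPQ, hQidx⟩ := exists_invariant_sylow p q P K hinf hsup hqp _ hRq hPR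
  have hE : Q ⊓ centralizer ((P : Subgroup G) : Set G) =
      (R₀ : Subgroup (normalizer ((P : Subgroup G) : Set G))).map
      (normalizer ((P : Subgroup G) : Set G)).subtype := by
    apply le_antisymm
    · have h1 : IsPGroup q ((Q ⊓ centralizer ((P : Subgroup G) : Set G)).subgroupOf
          (normalizer ((P : Subgroup G) : Set G))) :=
        IsPGroup.comap_subtype (hQq.to_le inf_le_left)
      have h2 : (R₀ : Subgroup (normalizer ((P : Subgroup G) : Set G))) ≤
          (Q ⊓ centralizer ((P : Subgroup G) : Set G)).subgroupOf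
          (normalizer ((P : Subgroup G) : Set G)) := by
        intro r hr
        rw [mem_subgroupOf]
        have h0 : (r : G) ∈ (R₀ : Subgroup (normalizer ((P : Subgroup G) : Set G))).map
            (normalizer ((P : Subgroup G) : Set G)).subtype := ⟨r, hr, rfl⟩
        exact ⟨hRQ h0, hRC h0⟩
      have h3 := R₀.is_maximal' h1 h2
      rw [← h3, Subgroup.map_subgroupOf_eq_of_le
        (inf_le_right.trans (centralizer_le_normalizer _))]
    · exact le_inf hRQ hRC
  have hcong := card_modEq_card_inf_centralizer p (P : Subgroup G) Q P.2 hPQ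
  rw [hE] at hcong
  have hcQ : Nat.card Q = q ^ (Nat.card G).factorization q := by
    have h0 := Sylow.card_eq_multiplicity (hQq.toSylow hQidx)
    exact h0
  have hcR : Nat.card ((R₀ : Subgroup (normalizer ((P : Subgroup G) : Set G))).map
      (normalizer ((P : Subgroup G) : Set G)).subtype) =
      q ^ (Nat.card (normalizer ((P : Subgroup G) : Set G))).factorization q := by
    rw [card_map_of_injective (subtype_injective _)]
    exact Sylow.card_eq_multiplicity R₀
  have hmul := Subgroup.card_mul_index (normalizer ((P : Subgroup G) : Set G))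
  have hidx : (normalizer ((P : Subgroup G) : Set G)).index = Nat.card (Sylow p G) :=
    (Sylow.card_eq_index_normalizer P).symm
  rw [hidx] at hmul
  have hfac : (Nat.card G).factorization q =
      (Nat.card (normalizer ((P : Subgroup G) : Set G))).factorization q +
      (Nat.card (Sylow p G)).factorization q := by
    rw [← hmul, Nat.factorization_mul (Nat.card_pos.ne') (Nat.card_pos.ne')]
    rfl
  rw [hcQ, hcR, hfac, pow_add] at hcong
  have hcop : Nat.gcd p (q ^ (Nat.card (normalizer ((P : Subgroup G) : Set G))).factorization q) = 1 :=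
    Nat.Coprime.pow_right _ ((Nat.coprime_primes hp.out hq.out).mpr hqp.symm)
  have h1 : q ^ (Nat.card (normalizer ((P : Subgroup G) : Set G))).factorization q *
      q ^ (Nat.card (Sylow p G)).factorization q ≡
      q ^ (Nat.card (normalizer ((P : Subgroup G) : Set G))).factorization q * 1 [MOD p] := by
    rwa [mul_one]
  have h2 := Nat.ModEq.cancel_left_of_coprime hcop h1
  rw [Nat.ModEq] at h2
  rw [h2, Nat.mod_eq_of_lt hp.out.one_lt]

/-- The property to be proved, as a predicate on the Sylow number. -/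
def Good (p : ℕ) (n : ℕ) : Prop :=
  ∃ l : List ℕ, l.prod = n ∧ ∀ m ∈ l, (IsPrimePow m ∧ m % p = 1) ∨
    ∃ (S : Type u) (_ : Group S) (_ : Finite S), IsSimpleGroup S ∧ m = Nat.card (Sylow p S)

theorem good_one (p : ℕ) : Good.{u} p 1 := ⟨[], rfl, by simp⟩

theorem good_mul (p : ℕ) {a b : ℕ} (ha : Good.{u} p a) (hb : Good.{u} p b) : Good.{u} p (a * b) := by
  obtain ⟨l₁, h1, h1'⟩ := ha
  obtain ⟨l₂, h2, h2'⟩ := hb
  refine ⟨l₁ ++ l₂, by rw [List.prod_append, h1, h2], ?_⟩
  intro m hm
  rcases List.mem_append.mp hm with h | h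
  · exact h1' m h
  · exact h2' m h

theorem good_simple (p : ℕ) (S : Type u) [Group S] [Finite S] [IsSimpleGroup S] :
    Good.{u} p (Nat.card (Sylow p S)) :=
  ⟨[Nat.card (Sylow p S)], by simp, by
    intro m hm
    rw [List.mem_singleton] at hm
    exact Or.inr ⟨S, inferInstance, inferInstance, inferInstance, hm⟩⟩

theorem good_of_compl {G : Type u} [Group G] [Finite G] (p : ℕ) [hp : Fact p.Prime]
    (P : Sylow p G) (K : Subgroup G) [K.Normal]
    (hinf : (P : Subgroup G) ⊓ K = ⊥) (hsup : (P : Subgroup G) ⊔ K = ⊤) :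
    Good.{u} p (Nat.card (Sylow p G)) := by
  have hn0 : Nat.card (Sylow p G) ≠ 0 := Nat.card_pos.ne'
  refine ⟨(Nat.card (Sylow p G)).primeFactors.toList.map
    (fun q => q ^ (Nat.card (Sylow p G)).factorization q), ?_, ?_⟩
  · rw [Finset.prod_map_toList]
    have := Nat.prod_factorization_pow_eq_self hn0
    rw [Finsupp.prod, Nat.support_factorization] at this
    exact this
  · intro m hm
    rw [List.mem_map] at hm
    obtain ⟨q, hq, rfl⟩ := hm
    rw [Finset.mem_toList, Nat.mem_primeFactors] at hq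
    obtain ⟨hqp, hqn, -⟩ := hq
    haveI : Fact q.Prime := ⟨hqp⟩
    have hne : q ≠ p := by
      rintro rfl
      have h1 : Nat.card (Sylow q G) % q = 1 % q := card_sylow_modEq_one q G
      rw [Nat.mod_eq_zero_of_dvd hqn, Nat.mod_eq_of_lt hqp.one_lt] at h1
      exact absurd h1 (by norm_num)
    refine Or.inl ⟨?_, key p q P K hinf hsup hne⟩
    exact (hqp.isPrimePow).pow (hqp.factorization_pos_of_dvd hn0 hqn).ne'

theorem main (p : ℕ) [Fact p.Prime] : ∀ n : ℕ, ∀ (G : Type u) [Group G] [Finite G],
    Nat.card G = n → Good.{u} p (Nat.card (Sylow p G)) := by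
  intro n
  induction n using Nat.strong_induction_on with
  | _ n ih =>
    intro G _ _ hn
    by_cases hs : IsSimpleGroup G
    · exact good_simple p G
    by_cases hnt : Nontrivial G
    swap
    · rw [not_nontrivial_iff_subsingleton] at hnt
      have h1 : Nat.card (Sylow p G) ≤ 1 :=
        Finite.card_le_one_iff_subsingleton.mpr ⟨fun P Q => Sylow.ext (Subsingleton.elim _ _)⟩
      have h2 : 0 < Nat.card (Sylow p G) := Nat.card_pos
      have h3 : Nat.card (Sylow p G) = 1 := by omega
      rw [h3]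
      exact good_one p
    obtain ⟨K, hKn, hKbot, hKtop⟩ : ∃ K : Subgroup G, K.Normal ∧ K ≠ ⊥ ∧ K ≠ ⊤ := by
      by_contra hcon
      push Not at hcon
      apply hs
      refine ⟨fun H hH => ?_⟩
      by_cases hb : H = ⊥
      · exact Or.inl hb
      · exact Or.inr (hcon H hH hb)
    haveI := hKn
    obtain ⟨P⟩ : Nonempty (Sylow p G) := inferInstance
    by_cases hcop : (P : Subgroup G) ⊓ K = ⊥ ∧ (P : Subgroup G) ⊔ K = ⊤
    · exact good_of_compl p P K hcop.1 hcop.2
    · haveI hnorm : (((P : Subgroup G) ⊓ K).subgroupOf (((P : Subgroup G) ⊔ K) ⊓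
          Subgroup.normalizer (((P : Subgroup G) ⊓ K : Subgroup G) : Set G))).Normal :=
        normal_subgroupOf_of_le_normalizer inf_le_right
      have hformula := Cfsg.Agent.S4341.result p K P _ rfl
      rw [hformula]
      have hGK : Nat.card (G ⧸ K) < n := by
        rw [← hn, Subgroup.card_eq_card_quotient_mul_card_subgroup K]
        have h1 : 1 < Nat.card K := by
          rw [Subgroup.one_lt_card_iff_ne_bot]; exact hKbot
        have h2 : 0 < Nat.card (G ⧸ K) := Nat.card_pos
        nlinarith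
      have hK : Nat.card K < n := by
        rw [← hn]
        exact lt_of_le_of_ne (Subgroup.card_le_card_group K)
          (fun h => hKtop ((Subgroup.card_eq_iff_eq_top K).mp h))
      have hND : Nat.card ((((P : Subgroup G) ⊔ K) ⊓
          Subgroup.normalizer (((P : Subgroup G) ⊓ K : Subgroup G) : Set G) : Subgroup G) ⧸
          ((P : Subgroup G) ⊓ K).subgroupOf (((P : Subgroup G) ⊔ K) ⊓
          Subgroup.normalizer (((P : Subgroup G) ⊓ K : Subgroup G) : Set G))) < n := by
        rw [← hn]
        have e1 := Subgroup.card_eq_card_quotient_mul_card_subgroup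
          (((P : Subgroup G) ⊓ K).subgroupOf (((P : Subgroup G) ⊔ K) ⊓
          Subgroup.normalizer (((P : Subgroup G) ⊓ K : Subgroup G) : Set G)))
        have e2 := Subgroup.card_le_card_group (((P : Subgroup G) ⊔ K) ⊓
          Subgroup.normalizer (((P : Subgroup G) ⊓ K : Subgroup G) : Set G))
        have e3 : 0 < Nat.card ((((P : Subgroup G) ⊔ K) ⊓
          Subgroup.normalizer (((P : Subgroup G) ⊓ K : Subgroup G) : Set G) : Subgroup G) ⧸
          ((P : Subgroup G) ⊓ K).subgroupOf (((P : Subgroup G) ⊔ K) ⊓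
          Subgroup.normalizer (((P : Subgroup G) ⊓ K : Subgroup G) : Set G))) := Nat.card_pos
        by_cases hD : ((P : Subgroup G) ⊓ K).subgroupOf (((P : Subgroup G) ⊔ K) ⊓
            Subgroup.normalizer (((P : Subgroup G) ⊓ K : Subgroup G) : Set G)) = ⊥
        · have hdisj := Subgroup.subgroupOf_eq_bot.mp hD
          have hle : (P : Subgroup G) ⊓ K ≤ ((P : Subgroup G) ⊔ K) ⊓
              Subgroup.normalizer (((P : Subgroup G) ⊓ K : Subgroup G) : Set G) :=
            le_inf (inf_le_left.trans le_sup_left) le_normalizer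
          have hinf : (P : Subgroup G) ⊓ K = ⊥ := hdisj.eq_bot_of_le hle
          have hsup : (P : Subgroup G) ⊔ K ≠ ⊤ := fun h => hcop ⟨hinf, h⟩
          have hNtop : ((P : Subgroup G) ⊔ K) ⊓
              Subgroup.normalizer (((P : Subgroup G) ⊓ K : Subgroup G) : Set G) ≠ ⊤ := by
            intro h
            apply hsup
            rw [eq_top_iff, ← h]
            exact inf_le_left
          have e4 : Nat.card (((P : Subgroup G) ⊔ K) ⊓
              Subgroup.normalizer (((P : Subgroup G) ⊓ K : Subgroup G) : Set G) : Subgroup G) <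
              Nat.card G :=
            lt_of_le_of_ne e2 (fun h => hNtop ((Subgroup.card_eq_iff_eq_top _).mp h))
          have e5 : 0 < Nat.card (((P : Subgroup G) ⊓ K).subgroupOf (((P : Subgroup G) ⊔ K) ⊓
            Subgroup.normalizer (((P : Subgroup G) ⊓ K : Subgroup G) : Set G))) := Nat.card_pos
          nlinarith
        · have e5 : 1 < Nat.card (((P : Subgroup G) ⊓ K).subgroupOf (((P : Subgroup G) ⊔ K) ⊓
              Subgroup.normalizer (((P : Subgroup G) ⊓ K : Subgroup G) : Set G))) := by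
            rw [Subgroup.one_lt_card_iff_ne_bot]; exact hD
          nlinarith
      exact good_mul p (good_mul p (ih _ hGK (G ⧸ K) rfl) (ih _ hK K rfl)) (ih _ hND _ rfl)

/-- For a finite group `G` and a prime `p`, the number of Sylow `p`-subgroups of `G` is a product of natural numbers each of which is either a prime power congruent to 1 modulo `p` or the number of Sylow `p`-subgroups of some finite simple group. -/
theorem result {G : Type u} [Group G] [Finite G]
    (p : ℕ) [Fact p.Prime] :
    ∃ l : List ℕ, l.prod = Nat.card (Sylow p G) ∧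
      ∀ m ∈ l, (IsPrimePow m ∧ m % p = 1) ∨
        ∃ (S : Type u) (_ : Group S) (_ : Finite S), IsSimpleGroup S ∧ m = Nat.card (Sylow p S) :=
  main p _ G rfl

end Cfsg.Agent.S4303
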