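-- S4330 (helper13): solvable odd-p subnormality criterion; proof assembled from job-board pieces (see Lib/Helper13/FumPieces.lean).
import Cfsg.Statements.S4330
import Cfsg.Agent.S3762
import Cfsg.Agent.Lib.Helper13.FumTop
import Cfsg.Agent.Lib.Helper13.FumCore

set_option autoImplicit false
open Pointwise
open Cfsg

namespace Cfsg.Agent.S4330

open Cfsg.Agent.Lib.Helper13.Fum in
/-- Let G be a finite solvable group, p an odd prime and A a p-subgroup of G such that every conjugacy class of G contains an element g for which A is subnormal in the subgroup generated by A and its conjugate by g. Then A is contained in O_p(G). (The hypothesis that p is odd is needed.) -/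
theorem result {G : Type*} [Group G] [Finite G]
    (hG : Group.IsSolvable G) (p : ℕ) [Fact p.Prime] (hp : p ≠ 2) (A : Subgroup G) (hA : IsPGroup p A)
    (h : ∀ c : G, ∃ g : G, IsConj c g ∧ (A.subgroupOf (A ⊔ MulAut.conj g • A)).IsSubnormal) :
    A ≤ Cfsg.pCore p G := by
  refine top_aux p ?_ (Nat.card G) G rfl hG A hA h
  intro G' _ _ N _ hN hNab hNp hmin M _ hM a ha hna
  refine core_group p (core_all p hp ?_) N hN hNab hNp hmin M hM a ha hna
  intro P _ _ hP hsymp
  exact Cfsg.Agent.S3762.result hP hsymp

end Cfsg.Agent.S4330
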