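import Cfsg.Statements.S4331
import Cfsg.Agent.S0064
import Mathlib

set_option autoImplicit false
open Cfsg

namespace Cfsg.Agent.S4331

/-- the field with nine elements -/
abbrev F : Type := GaloisField 3 2

instance fact_three : Fact (Nat.Prime 3) := ⟨Nat.prime_three⟩

theorem card_F : Nat.card F = 9 := by
  have := GaloisField.card 3 2 (by norm_num)
  simpa using this

theorem pow_nine (x : F) : x ^ 9 = x := by
  haveI : Fintype F := Fintype.ofFinite F
  have h := FiniteField.pow_card x
  rwa [← Nat.card_eq_fintype_card, card_F] at h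

theorem three_eq_zero : (3 : F) = 0 := by
  have := CharP.cast_eq_zero F 3
  exact_mod_cast this

theorem add_cube (x y : F) : (x + y) ^ 3 = x ^ 3 + y ^ 3 := add_pow_char x y 3

theorem sub_cube (x y : F) : (x - y) ^ 3 = x ^ 3 - y ^ 3 := sub_pow_char x y

theorem two_ne_zero' : (2 : F) ≠ 0 := by
  intro h
  have h3 := three_eq_zero
  have : (1 : F) = 0 := by linear_combination h3 - h
  exact one_ne_zero this

theorem pow_eight {a : F} (ha : a ≠ 0) : a ^ 8 = 1 := by
  have h := pow_nine a
  have h2 : a ^ 8 * a = 1 * a := by rw [one_mul, ← pow_succ]; exact h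
  exact mul_right_cancel₀ ha h2

theorem exists_cube_ne : ∃ u : F, u ^ 3 ≠ u := by
  by_contra hcon
  push Not at hcon
  classical
  haveI : Fintype F := Fintype.ofFinite F
  have hsub : (Finset.univ : Finset F) ⊆ {0, 1, -1} := by
    intro u _
    have h := hcon u
    have h2 : u * (u - 1) * (u + 1) = 0 := by linear_combination h
    simp only [Finset.mem_insert, Finset.mem_singleton]
    rcases mul_eq_zero.mp h2 with h3 | h3
    · rcases mul_eq_zero.mp h3 with h4 | h4
      · exact Or.inl h4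
      · exact Or.inr (Or.inl (sub_eq_zero.mp h4))
    · exact Or.inr (Or.inr (eq_neg_of_add_eq_zero_left h3))
  have hle := Finset.card_le_card hsub
  rw [Finset.card_univ, ← Nat.card_eq_fintype_card, card_F] at hle
  have h3 : ({0, 1, -1} : Finset F).card ≤ 3 := Finset.card_le_three
  omega

/-- the group `AΓL(1,9)` of semi-affine maps of the field with nine elements -/
def Gsub : Subgroup (Equiv.Perm F) where
  carrier := {σ | ∃ a b : F, a ≠ 0 ∧ ((∀ x, σ x = a * x + b) ∨ (∀ x, σ x = a * x ^ 3 + b))}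
  one_mem' := ⟨1, 0, one_ne_zero, Or.inl (fun x => by simp)⟩
  mul_mem' := by
    rintro σ τ ⟨a, b, ha, h1⟩ ⟨c, d, hc, h2⟩
    rcases h1 with h1 | h1 <;> rcases h2 with h2 | h2
    · refine ⟨a * c, a * d + b, mul_ne_zero ha hc, Or.inl fun x => ?_⟩
      rw [Equiv.Perm.mul_apply, h2, h1]; ring
    · refine ⟨a * c, a * d + b, mul_ne_zero ha hc, Or.inr fun x => ?_⟩
      rw [Equiv.Perm.mul_apply, h2, h1]; ring
    · refine ⟨a * c ^ 3, a * d ^ 3 + b, mul_ne_zero ha (pow_ne_zero _ hc), Or.inr fun x => ?_⟩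
      rw [Equiv.Perm.mul_apply, h2, h1, add_cube]; ring
    · refine ⟨a * c ^ 3, a * d ^ 3 + b, mul_ne_zero ha (pow_ne_zero _ hc), Or.inl fun x => ?_⟩
      rw [Equiv.Perm.mul_apply, h2, h1, add_cube, mul_pow, ← pow_mul, pow_nine]; ring
  inv_mem' := by
    rintro σ ⟨a, b, ha, h1⟩
    rcases h1 with h1 | h1
    · refine ⟨a⁻¹, -(a⁻¹ * b), inv_ne_zero ha, Or.inl fun x => ?_⟩
      rw [Equiv.Perm.inv_eq_iff_eq, h1]
      field_simp
      ring
    · refine ⟨a⁻¹ ^ 3, -(a⁻¹ ^ 3 * b ^ 3), pow_ne_zero _ (inv_ne_zero ha), Or.inr fun x => ?_⟩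
      rw [Equiv.Perm.inv_eq_iff_eq, h1]
      have h2 : a⁻¹ ^ 3 * x ^ 3 + -(a⁻¹ ^ 3 * b ^ 3) = (a⁻¹ * (x - b)) ^ 3 := by
        rw [mul_pow, sub_cube]; ring
      rw [h2, ← pow_mul, pow_nine]
      field_simp
      ring

/-- the group as a type -/
abbrev G : Type := Gsub

theorem G_ext {g h : G} (H : ∀ x, g.1 x = h.1 x) : g = h := Subtype.ext (Equiv.ext H)

theorem mul_apply' (g h : G) (x : F) : (g * h).1 x = g.1 (h.1 x) := rfl

theorem one_apply' (x : F) : (1 : G).1 x = x := rfl

/-- the Frobenius map -/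
noncomputable def frob : Equiv.Perm F where
  toFun x := x ^ 3
  invFun x := x ^ 3
  left_inv x := by
    show (x ^ 3) ^ 3 = x
    rw [← pow_mul]; exact pow_nine x
  right_inv x := by
    show (x ^ 3) ^ 3 = x
    rw [← pow_mul]; exact pow_nine x

theorem frob_apply (x : F) : frob x = x ^ 3 := rfl

noncomputable def frobG : G := ⟨frob, 1, 0, one_ne_zero, Or.inr fun x => by rw [frob_apply]; ring⟩

noncomputable def transG (u : F) : G := ⟨Equiv.addRight u, 1, u, one_ne_zero, Or.inl fun x => by simp⟩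

noncomputable def mulG (a : F) (ha : a ≠ 0) : G := ⟨Equiv.mulLeft₀ a ha, a, 0, ha, Or.inl fun x => by simp⟩

theorem frobG_apply (x : F) : (frobG : G).1 x = x ^ 3 := rfl

theorem transG_apply (u x : F) : (transG u : G).1 x = x + u := rfl

theorem mulG_apply (a : F) (ha : a ≠ 0) (x : F) : (mulG a ha : G).1 x = a * x := rfl

theorem apply_add (g : G) (z u : F) : g.1 (z + u) = g.1 z + (g.1 u - g.1 0) := by
  obtain ⟨a, b, -, h | h⟩ := g.2
  · rw [h, h, h, h]; ring
  · rw [h, h, h, h, add_cube]; ring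

theorem pow_lin (σ : Equiv.Perm F) (a b : F) (h : ∀ x, σ x = a * x + b) (n : ℕ) :
    ∃ b', ∀ x, (σ ^ n) x = a ^ n * x + b' := by
  induction n with
  | zero => exact ⟨0, fun x => by simp⟩
  | succ n ih =>
    obtain ⟨b', hb'⟩ := ih
    refine ⟨a ^ n * b + b', fun x => ?_⟩
    rw [pow_succ, Equiv.Perm.mul_apply, h, hb']; ring

theorem sq_lin (g : G) : ∃ a b : F, a ≠ 0 ∧ ∀ x, (g.1 * g.1) x = a * x + b := by
  obtain ⟨a, b, ha, h | h⟩ := g.2
  · refine ⟨a * a, a * b + b, mul_ne_zero ha ha, fun x => ?_⟩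
    rw [Equiv.Perm.mul_apply, h, h]; ring
  · refine ⟨a * a ^ 3, a * b ^ 3 + b, mul_ne_zero ha (pow_ne_zero _ ha), fun x => ?_⟩
    rw [Equiv.Perm.mul_apply, h, h, add_cube, mul_pow, ← pow_mul, pow_nine]; ring

theorem pow_sixteen (g : G) : ∃ b, ∀ x, (g.1 ^ 16) x = x + b := by
  obtain ⟨a, b, ha, h⟩ := sq_lin g
  obtain ⟨b', hb'⟩ := pow_lin (g.1 * g.1) a b h 8
  refine ⟨b', fun x => ?_⟩
  have h16 : g.1 ^ 16 = (g.1 * g.1) ^ 8 := by rw [← pow_two, ← pow_mul]
  rw [h16, hb', pow_eight ha, one_mul]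

/-- the translation subgroup -/
def V : Subgroup G where
  carrier := {g | ∃ b, ∀ x, g.1 x = x + b}
  one_mem' := ⟨0, fun x => by rw [one_apply', add_zero]⟩
  mul_mem' := by
    rintro g h ⟨b, hb⟩ ⟨c, hc⟩
    exact ⟨c + b, fun x => by rw [mul_apply', hc, hb]; ring⟩
  inv_mem' := by
    rintro g ⟨b, hb⟩
    refine ⟨-b, fun x => ?_⟩
    show (g.1)⁻¹ x = x + -b
    rw [Equiv.Perm.inv_eq_iff_eq, hb]; ring

instance V_normal : V.Normal := by
  refine ⟨fun n hn g => ?_⟩
  obtain ⟨b, hb⟩ := hn
  refine ⟨g.1 b - g.1 0, fun x => ?_⟩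
  rw [mul_apply', mul_apply', hb, apply_add]
  show g.1 (g.1.symm x) + (g.1 b - g.1 0) = x + (g.1 b - g.1 0)
  rw [Equiv.apply_symm_apply]

theorem solvable : Group.IsSolvable G := by
  haveI : Group.IsSolvable V := by
    apply Group.isSolvable_of_comm
    rintro ⟨g, b, hb⟩ ⟨h, c, hc⟩
    apply Subtype.ext
    apply G_ext
    intro x
    show (g * h).1 x = (h * g).1 x
    rw [mul_apply', mul_apply', hb, hc, hb, hc]; ring
  haveI : Group.IsSolvable (G ⧸ V) := by
    have hp : IsPGroup 2 (G ⧸ V) := by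
      intro q
      obtain ⟨g, rfl⟩ := QuotientGroup.mk_surjective q
      refine ⟨4, ?_⟩
      rw [← QuotientGroup.mk_pow, QuotientGroup.eq_one_iff]
      obtain ⟨b, hb⟩ := pow_sixteen g
      exact ⟨b, fun x => hb x⟩
    haveI : Fact (Nat.Prime 2) := ⟨Nat.prime_two⟩
    haveI := hp.isNilpotent
    infer_instance
  exact Group.isSolvable_of_ker_le_range V.subtype (QuotientGroup.mk' V)
    (by rw [QuotientGroup.ker_mk', Subgroup.range_subtype])

theorem frobG_sq : frobG ^ 2 = 1 := by
  apply G_ext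
  intro x
  rw [pow_two, mul_apply', frobG_apply, frobG_apply, one_apply', ← pow_mul]
  exact pow_nine x

theorem frobG_ne_one : frobG ≠ 1 := by
  intro h
  obtain ⟨u, hu⟩ := exists_cube_ne
  apply hu
  have := congrArg (fun g : G => g.1 u) h
  simpa [frobG_apply, one_apply'] using this

theorem card_A : Nat.card (Subgroup.zpowers frobG) = 2 := by
  rw [Nat.card_zpowers]
  exact orderOf_eq_prime frobG_sq frobG_ne_one

/-- the stabilizer of `0` -/
def T : Subgroup G where
  carrier := {g | g.1 0 = 0}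
  one_mem' := rfl
  mul_mem' := by
    intro g h hg hh
    show (g * h).1 0 = 0
    rw [mul_apply', hh, hg]
  inv_mem' := by
    intro g hg
    show (g.1)⁻¹ 0 = 0
    rw [Equiv.Perm.inv_eq_iff_eq]
    exact hg.symm

theorem T_pgroup : IsPGroup 2 T := by
  rintro ⟨g, hg⟩
  refine ⟨4, Subtype.ext (G_ext fun x => ?_)⟩
  obtain ⟨b, hb⟩ := pow_sixteen g
  have h0 : (g.1 ^ 16) 0 = 0 := Equiv.Perm.pow_apply_eq_self_of_apply_eq_self hg 16
  have hb0 : b = 0 := by
    have := hb 0
    rw [h0, zero_add] at this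
    exact this.symm
  show (g.1 ^ 16) x = x
  rw [hb, hb0, add_zero]

theorem subnormal_of_commute (g : G) (h : g * frobG = frobG * g) :
    ((Subgroup.zpowers frobG).subgroupOf
      (Subgroup.zpowers frobG ⊔ Subgroup.zpowers g)).IsSubnormal := by
  apply Subgroup.Normal.isSubnormal
  apply Subgroup.normal_subgroupOf_of_le_normalizer
  apply sup_le Subgroup.le_normalizer
  rw [Subgroup.zpowers_le]
  apply Subgroup.centralizer_le_normalizer
  rw [Subgroup.mem_centralizer_iff]
  intro z hz
  obtain ⟨k, rfl⟩ := Subgroup.mem_zpowers_iff.mp hz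
  exact (Commute.zpow_left (show Commute frobG g from h.symm) k).eq

theorem subnormal_of_fix (g : G) (h : g.1 0 = 0) :
    ((Subgroup.zpowers frobG).subgroupOf
      (Subgroup.zpowers frobG ⊔ Subgroup.zpowers g)).IsSubnormal := by
  have hf : frobG ∈ T := by
    show (frobG : G).1 0 = 0
    rw [frobG_apply]; ring
  have hle : Subgroup.zpowers frobG ⊔ Subgroup.zpowers g ≤ T :=
    sup_le (Subgroup.zpowers_le.mpr hf) (Subgroup.zpowers_le.mpr h)
  have hp : IsPGroup 2 (Subgroup.zpowers frobG ⊔ Subgroup.zpowers g : Subgroup G) :=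
    T_pgroup.to_le hle
  haveI : Fact (Nat.Prime 2) := ⟨Nat.prime_two⟩
  haveI := hp.isNilpotent
  exact (S0064.result.mp inferInstance) _

theorem classes (c : G) : ∃ g : G, IsConj c g ∧ (g * frobG = frobG * g ∨ g.1 0 = 0) := by
  obtain ⟨a, b, ha, h | h⟩ := c.2
  · by_cases ha1 : a = 1
    · by_cases hb : b = 0
      · exact ⟨c, IsConj.refl c, Or.inr (by rw [h, hb]; ring)⟩
      · refine ⟨transG 1, ?_, Or.inl ?_⟩
        · apply isConj_iff.mpr
          refine ⟨mulG b⁻¹ (inv_ne_zero hb), ?_⟩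
          rw [mul_inv_eq_iff_eq_mul]
          apply G_ext; intro x
          rw [mul_apply', mul_apply', mulG_apply, h, transG_apply, mulG_apply, ha1]
          field_simp
        · apply G_ext; intro x
          rw [mul_apply', mul_apply', transG_apply, frobG_apply, frobG_apply, transG_apply,
            add_cube]
          ring
    · refine ⟨mulG a ha, ?_, Or.inr (by rw [mulG_apply, mul_zero])⟩
      apply isConj_iff.mpr
      refine ⟨transG (b / (a - 1)), ?_⟩
      rw [mul_inv_eq_iff_eq_mul]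
      apply G_ext; intro x
      rw [mul_apply', mul_apply', transG_apply, h, mulG_apply, transG_apply]
      have : a - 1 ≠ 0 := sub_ne_zero.mpr ha1
      field_simp
      ring
  · by_cases hfix : ∃ y : F, y ≠ 0 ∧ a * y ^ 3 = y
    · obtain ⟨y, hy0, hy⟩ := hfix
      obtain ⟨u, hu⟩ : ∃ u : F, u = y⁻¹ * b := ⟨_, rfl⟩
      have h3u : u + u + u = 0 := by linear_combination u * three_eq_zero
      refine ⟨transG (-(u + u ^ 3)) * frobG, ?_, Or.inl ?_⟩
      · apply isConj_iff.mpr
        refine ⟨transG u * mulG y⁻¹ (inv_ne_zero hy0), ?_⟩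
        rw [mul_inv_eq_iff_eq_mul]
        apply G_ext; intro x
        simp only [mul_apply', transG_apply, mulG_apply, frobG_apply, h]
        rw [add_cube, mul_pow]
        have hya : y⁻¹ * a = y⁻¹ ^ 3 := by
          have h1 : y⁻¹ ^ 3 * (a * y ^ 3) = y⁻¹ ^ 3 * y := by rw [hy]
          have h2 : y⁻¹ * y = 1 := inv_mul_cancel₀ hy0
          calc y⁻¹ * a = y⁻¹ * a * (y⁻¹ * y) ^ 3 := by rw [h2]; ring
            _ = y⁻¹ * (y⁻¹ ^ 3 * (a * y ^ 3)) := by ring
            _ = y⁻¹ * (y⁻¹ ^ 3 * y) := by rw [h1]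
            _ = y⁻¹ ^ 3 * (y⁻¹ * y) := by ring
            _ = y⁻¹ ^ 3 := by rw [h2, mul_one]
        linear_combination x ^ 3 * hya + h3u - hu
      · apply G_ext; intro x
        simp only [mul_apply', transG_apply, frobG_apply]
        have he : (-(u + u ^ 3)) ^ 3 = -(u + u ^ 3) := by
          rw [neg_pow, add_cube, ← pow_mul, pow_nine]
          ring
        rw [add_cube, he]
    · push Not at hfix
      have hinj : Function.Injective (fun u : F => a * u ^ 3 - u) := by
        intro u u' huu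
        have huu' : a * u ^ 3 - u = a * u' ^ 3 - u' := huu
        have h1 : a * (u - u') ^ 3 = u - u' := by rw [sub_cube]; linear_combination huu'
        by_contra hne
        exact hfix (u - u') (sub_ne_zero.mpr hne) h1
      obtain ⟨u, hu⟩ := (Finite.surjective_of_injective hinj) b
      have hu' : a * u ^ 3 - u = b := hu
      refine ⟨mulG a ha * frobG, ?_, Or.inr ?_⟩
      · apply isConj_iff.mpr
        refine ⟨transG u, ?_⟩
        rw [mul_inv_eq_iff_eq_mul]
        apply G_ext; intro x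
        simp only [mul_apply', transG_apply, mulG_apply, frobG_apply, h]
        rw [add_cube]
        linear_combination -hu'
      · rw [mul_apply', frobG_apply, mulG_apply]; ring

theorem trans_pow (w : F) (n : ℕ) (x : F) : ((transG w) ^ n).1 x = x + n * w := by
  induction n generalizing x with
  | zero => simp
  | succ n ih =>
    rw [pow_succ, mul_apply', transG_apply, ih]
    push_cast
    ring

theorem eq_zero_of_trans_mem (N : Subgroup G) (hN : IsPGroup 2 N) (w : F) (h : transG w ∈ N) :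
    w = 0 := by
  obtain ⟨k, hk⟩ := hN ⟨transG w, h⟩
  have h1 : (transG w) ^ 2 ^ k = 1 := congrArg Subtype.val hk
  have h2 := trans_pow w (2 ^ k) 0
  rw [h1, one_apply', zero_add] at h2
  rcases mul_eq_zero.mp h2.symm with h4 | h4
  · exfalso
    push_cast at h4
    exact pow_ne_zero k two_ne_zero' h4
  · exact h4

theorem normal_two_eq_bot (N : Subgroup G) (hn : N.Normal) (hN : IsPGroup 2 N) : N = ⊥ := by
  rw [eq_bot_iff]
  intro n hn'
  rw [Subgroup.mem_bot]
  have key : ∀ u : F, n.1 u - n.1 0 - u = 0 := by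
    intro u
    apply eq_zero_of_trans_mem N hN
    have hmem : n * (transG u * n⁻¹ * (transG u)⁻¹) ∈ N :=
      N.mul_mem hn' (hn.conj_mem _ (N.inv_mem hn') _)
    have heq : n * (transG u * n⁻¹ * (transG u)⁻¹) = transG (n.1 u - n.1 0 - u) := by
      rw [← mul_assoc, ← mul_assoc, mul_inv_eq_iff_eq_mul, mul_inv_eq_iff_eq_mul]
      apply G_ext; intro x
      simp only [mul_apply', transG_apply]
      rw [apply_add]; ring
    rwa [heq] at hmem
  have hn0 : n = transG (n.1 0) := by
    apply G_ext; intro x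
    rw [transG_apply]; linear_combination key x
  have h0 : n.1 0 = 0 := eq_zero_of_trans_mem N hN _ (hn0 ▸ hn')
  rw [hn0, h0]
  apply G_ext; intro x
  rw [transG_apply, add_zero, one_apply']

theorem not_le_pCore : ¬ Subgroup.zpowers frobG ≤ Cfsg.pCore 2 G := by
  have hbot : Cfsg.pCore 2 G = ⊥ := by
    rw [eq_bot_iff]
    apply sSup_le
    rintro N ⟨hn, hp⟩
    exact (normal_two_eq_bot N hn hp).le
  rw [hbot]
  intro h
  have : frobG = 1 := Subgroup.mem_bot.mp (h (Subgroup.mem_zpowers _))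
  exact frobG_ne_one this

/-- There is a finite solvable group G with a subgroup A of order 2 such that every conjugacy class of G contains an element g for which A is subnormal in the subgroup generated by A and g, and yet A is not contained in O_2(G). (So the corresponding criteria for odd primes fail at the prime 2, even for solvable groups.) -/
theorem result :
    ∃ (G : Type) (_ : Group G) (_ : Finite G) (A : Subgroup G), Group.IsSolvable G ∧ Nat.card A = 2 ∧
      (∀ c : G, ∃ g : G, IsConj c g ∧ (A.subgroupOf (A ⊔ Subgroup.zpowers g)).IsSubnormal) ∧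
      ¬ A ≤ Cfsg.pCore 2 G := by
  refine ⟨G, inferInstance, inferInstance, Subgroup.zpowers frobG, solvable, card_A, ?_,
    not_le_pCore⟩
  intro c
  obtain ⟨g, hg, h | h⟩ := classes c
  · exact ⟨g, hg, subnormal_of_commute g h⟩
  · exact ⟨g, hg, subnormal_of_fix g h⟩

end Cfsg.Agent.S4331
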