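import Cfsg.Statements.S4344

set_option autoImplicit false
open Cfsg

namespace Cfsg.Agent.S4344

/-- Let S be a finite non-abelian simple group, M a maximal subgroup of S and C a cyclic normal subgroup of M. If a Sylow p-subgroup P of S (for a prime p dividing the order of S) is contained in C, then the number of Sylow p-subgroups of S equals the index of M. -/
theorem result {S : Type*} [Group S] [Finite S]
    [IsSimpleGroup S] (hS : ¬ IsMulCommutative S) (p : ℕ) [Fact p.Prime] (hp : p ∣ Nat.card S)
    (M : Subgroup S) (hM : IsCoatom M) (C : Subgroup S) (hCM : C ≤ M) (hCn : (C.subgroupOf M).Normal)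
    (hC : IsCyclic C) (P : Sylow p S) (hP : (P : Subgroup S) ≤ C) :
    Nat.card (Sylow p S) = M.index := by
  classical
  rw [Sylow.card_eq_index_normalizer P]
  have hcomm : ∀ x y : C, x * y = y * x := fun x y =>
    (IsCyclic.isMulCommutative (α := C)).is_comm.comm x y
  have hsub : Subsingleton (Sylow p C) := by
    have hn : ((P.subtype hP : Sylow p C) : Subgroup C).Normal :=
      ⟨fun n hn c => by
        have : c * n * c⁻¹ = n := by rw [hcomm c n, mul_inv_cancel_right]
        rw [this]; exact hn⟩
    have := Sylow.unique_of_normal (P.subtype hP) hn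
    infer_instance
  have hMN : M ≤ Subgroup.normalizer (P : Set S) := by
    intro g hg
    rw [← Sylow.smul_eq_iff_mem_normalizer]
    have hQ : ((g • P : Sylow p S) : Subgroup S) ≤ C := by
      intro x hx
      rw [← SetLike.mem_coe, Sylow.coe_coe, Sylow.coe_smul] at hx
      obtain ⟨y, hy, rfl⟩ := hx
      have hyC : y ∈ C := hP hy
      have := hCn.conj_mem ⟨y, hCM hyC⟩ (by simpa [Subgroup.mem_subgroupOf] using hyC) ⟨g, hg⟩
      simpa [Subgroup.mem_subgroupOf] using this
    exact Sylow.subtype_injective (hP := hQ) (hQ := hP) (Subsingleton.elim _ _)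
  have hN : Subgroup.normalizer (P : Set S) = M := by
    by_contra hne
    have htop : Subgroup.normalizer (P : Set S) = ⊤ :=
      hM.2 _ (lt_of_le_of_ne hMN (Ne.symm hne))
    have hnormal : (P : Subgroup S).Normal := Subgroup.normalizer_eq_top_iff.mp (by rw [P.coe_coe]; exact htop)
    rcases hnormal.eq_bot_or_eq_top with h | h
    · exact P.ne_bot_of_dvd_card hp h
    · apply hS
      refine ⟨⟨fun a b => ?_⟩⟩
      have ha : a ∈ C := hP (h ▸ Subgroup.mem_top a)
      have hb : b ∈ C := hP (h ▸ Subgroup.mem_top b)
      have := hcomm ⟨a, ha⟩ ⟨b, hb⟩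
      exact congrArg Subtype.val this
  exact congrArg Subgroup.index hN

end Cfsg.Agent.S4344
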