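import Cfsg.Statements.S4345

set_option autoImplicit false
open Cfsg

namespace Cfsg.Agent.S4345

theorem mem_smul_sylow {G : Type*} [Group G] {p : ℕ} (g x : G) (P : Sylow p G) :
    x ∈ (g • P : Sylow p G) ↔ g⁻¹ * x * g ∈ P := by
  rw [← SetLike.mem_coe, Sylow.coe_smul, Set.mem_smul_set_iff_inv_smul_mem]
  simp [MulAut.smul_def]

theorem sylow_eq_of_le {G : Type*} [Group G] {p : ℕ} (P Q : Sylow p G)
    (h : (P : Subgroup G) ≤ Q) : P = Q :=
  Sylow.ext (P.is_maximal' Q.2 h).symm

/-- A nontrivial finite solvable group has a nontrivial normal `q`-subgroup for some prime `q`. -/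
theorem exists_normal_pgroup {G : Type*} [Group G] [Finite G] [Nontrivial G]
    (hG : Group.IsSolvable G) :
    ∃ (q : ℕ) (N : Subgroup G), q.Prime ∧ N.Normal ∧ IsPGroup q N ∧ N ≠ ⊥ := by
  classical
  have hex : ∃ n, derivedSeries G n = ⊥ := hG.solvable
  have hm0 : Nat.find hex ≠ 0 := by
    intro h0
    have := Nat.find_spec hex
    rw [h0, derivedSeries_zero] at this
    exact top_ne_bot this
  obtain ⟨k, hk⟩ := Nat.exists_eq_succ_of_ne_zero hm0
  have hAne : derivedSeries G k ≠ ⊥ := fun h =>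
    Nat.find_min hex (show k < Nat.find hex by rw [hk]; exact Nat.lt_succ_self k) h
  have hAcomm : ⁅derivedSeries G k, derivedSeries G k⁆ = ⊥ := by
    have := Nat.find_spec hex
    rw [hk, derivedSeries_succ] at this
    exact this
  have hAab : ∀ x y : derivedSeries G k, x * y = y * x := by
    have hle := (Subgroup.commutator_eq_bot_iff_le_centralizer).mp hAcomm
    intro x y
    have := hle x.2 y y.2
    exact Subtype.ext this.symm
  have hAnt : Nontrivial (derivedSeries G k) := (Subgroup.nontrivial_iff_ne_bot _).mpr hAne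
  obtain ⟨q, hq, hqA⟩ := Nat.exists_prime_and_dvd
    (show Nat.card (derivedSeries G k) ≠ 1 from Finite.one_lt_card.ne')
  have : Fact q.Prime := ⟨hq⟩
  obtain ⟨Q⟩ := (inferInstance : Nonempty (Sylow q (derivedSeries G k)))
  have hQn : (Q : Subgroup (derivedSeries G k)).Normal := ⟨fun n hn c => by
    have : c * n * c⁻¹ = n := by rw [hAab c n, mul_inv_cancel_right]
    rw [this]; exact hn⟩
  have hchar := Sylow.characteristic_of_normal Q hQn
  have hAn : (derivedSeries G k).Normal := derivedSeries_normal G k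
  refine ⟨q, (Q : Subgroup (derivedSeries G k)).map (derivedSeries G k).subtype, hq,
    inferInstance, Q.2.map _, ?_⟩
  intro h
  rw [Subgroup.map_eq_bot_iff_of_injective _ (derivedSeries G k).subtype_injective] at h
  exact Q.ne_bot_of_dvd_card hqA h

theorem relIndex_sup_dvd_card {G : Type*} [Group G] [Finite G] (N M : Subgroup G) [N.Normal] :
    M.relIndex (M ⊔ N) ∣ Nat.card N := by
  have e1 : N.relIndex (M ⊔ N) = N.relIndex M := Subgroup.relIndex_sup_right M N
  have c1 : Nat.card (N.subgroupOf (M ⊔ N)) = Nat.card N :=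
    Nat.card_congr (Subgroup.subgroupOfEquivOfLe (le_sup_right : N ≤ M ⊔ N)).toEquiv
  have c2 : Nat.card (M.subgroupOf (M ⊔ N)) = Nat.card M :=
    Nat.card_congr (Subgroup.subgroupOfEquivOfLe (le_sup_left : M ≤ M ⊔ N)).toEquiv
  have h1 : Nat.card N * N.relIndex M = Nat.card (M ⊔ N : Subgroup G) := by
    rw [← e1, ← c1]; exact Subgroup.card_mul_index (N.subgroupOf (M ⊔ N))
  have h2 : Nat.card (N.subgroupOf M) * N.relIndex M = Nat.card M :=
    Subgroup.card_mul_index (N.subgroupOf M)
  have h3 : Nat.card M * M.relIndex (M ⊔ N) = Nat.card (M ⊔ N : Subgroup G) := by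
    rw [← c2]; exact Subgroup.card_mul_index (M.subgroupOf (M ⊔ N))
  have hpos : 0 < N.relIndex M := by
    rcases Nat.eq_zero_or_pos (N.relIndex M) with h | h
    · rw [h, mul_zero] at h2
      have : 0 < Nat.card M := Nat.card_pos
      omega
    · exact h
  refine ⟨Nat.card (N.subgroupOf M), ?_⟩
  have : Nat.card N * N.relIndex M
      = (M.relIndex (M ⊔ N) * Nat.card (N.subgroupOf M)) * N.relIndex M := by
    rw [h1, ← h3, ← h2]; ring
  exact Nat.eq_of_mul_eq_mul_right hpos this

theorem sylow_card_quotient {G : Type*} [Group G] [Finite G] (N : Subgroup G) [N.Normal]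
    (p : ℕ) [Fact p.Prime] :
    ∃ r : ℕ, r ∣ Nat.card N ∧ Nat.card (Sylow p G) = r * Nat.card (Sylow p (G ⧸ N)) := by
  classical
  obtain ⟨P⟩ := (inferInstance : Nonempty (Sylow p G))
  have hπ : Function.Surjective (QuotientGroup.mk' N) := QuotientGroup.mk'_surjective N
  have hPbar : ∀ y : G ⧸ N, y ∈ P.mapSurjective hπ ↔ ∃ x ∈ P, (QuotientGroup.mk' N) x = y := by
    intro y
    show y ∈ ((P.mapSurjective hπ : Sylow p (G ⧸ N)) : Subgroup (G ⧸ N)) ↔ _
    rw [Sylow.coe_mapSurjective, Subgroup.mem_map]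
    rfl
  have hMK : Subgroup.normalizer (P : Set G) ≤
      (Subgroup.normalizer ((P.mapSurjective hπ : Sylow p (G ⧸ N)) : Set (G ⧸ N))).comap
        (QuotientGroup.mk' N) := by
    intro g hg
    rw [Subgroup.mem_comap, ← Sylow.smul_eq_iff_mem_normalizer]
    symm
    apply sylow_eq_of_le
    intro y hy
    show y ∈ ((QuotientGroup.mk' N) g • P.mapSurjective hπ : Sylow p (G ⧸ N))
    rw [mem_smul_sylow]
    have hy' : y ∈ P.mapSurjective hπ := hy
    rw [hPbar] at hy' ⊢
    obtain ⟨x, hx, rfl⟩ := hy'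
    refine ⟨g⁻¹ * x * g, ?_, by simp⟩
    have hg' : g⁻¹ ∈ Subgroup.normalizer (P : Set G) := inv_mem hg
    have := (Subgroup.mem_set_normalizer_iff.mp hg' x).mp hx
    simpa using this
  have hKle : (Subgroup.normalizer ((P.mapSurjective hπ : Sylow p (G ⧸ N)) : Set (G ⧸ N))).comap
        (QuotientGroup.mk' N) ≤ Subgroup.normalizer (P : Set G) ⊔ N := by
    intro g hg
    rw [Subgroup.mem_comap, ← Sylow.smul_eq_iff_mem_normalizer] at hg
    have hP : (P : Subgroup G) ≤ N ⊔ (P : Subgroup G) := le_sup_right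
    have hQ : ((g • P : Sylow p G) : Subgroup G) ≤ N ⊔ (P : Subgroup G) := by
      intro y hy
      have hy1 : y ∈ (g • P : Sylow p G) := hy
      rw [mem_smul_sylow] at hy1
      have hy2 : (QuotientGroup.mk' N) y ∈
          ((QuotientGroup.mk' N) g • P.mapSurjective hπ : Sylow p (G ⧸ N)) := by
        rw [mem_smul_sylow, hPbar]
        exact ⟨g⁻¹ * y * g, hy1, by simp⟩
      rw [hg, hPbar] at hy2
      obtain ⟨x', hx', hxy⟩ := hy2
      have hn : y * x'⁻¹ ∈ N := by
        have h1 : (QuotientGroup.mk' N) (y * x'⁻¹) = 1 := by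
          rw [map_mul, map_inv, hxy, mul_inv_cancel]
        exact (QuotientGroup.eq_one_iff _).mp h1
      have : y = y * x'⁻¹ * x' := by group
      rw [this]
      exact Subgroup.mul_mem_sup hn hx'
    obtain ⟨h, hh⟩ := MulAction.exists_smul_eq (N ⊔ (P : Subgroup G) : Subgroup G)
      (P.subtype hP) ((g • P : Sylow p G).subtype hQ)
    rw [Sylow.smul_subtype] at hh
    have hh' : (h : G) • P = g • P := Sylow.subtype_injective hh
    have hmem : (h : G) ∈ ((N ⊔ (P : Subgroup G) : Subgroup G) : Set G) := h.2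
    rw [Subgroup.normal_mul] at hmem
    obtain ⟨n, hn, x, hx, hnx⟩ := Set.mem_mul.mp hmem
    have hxP : x • P = P :=
      Sylow.smul_eq_iff_mem_normalizer.mpr (Subgroup.le_normalizer hx)
    have hnP : n • P = g • P := by
      rw [← hh', ← hnx, mul_smul, hxP]
    have hng : (n⁻¹ * g) • P = P := by
      rw [mul_smul, ← hnP, inv_smul_smul]
    have hngM : n⁻¹ * g ∈ Subgroup.normalizer (P : Set G) :=
      Sylow.smul_eq_iff_mem_normalizer.mp hng
    have : g = n * (n⁻¹ * g) := by group
    rw [this, sup_comm]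
    exact Subgroup.mul_mem_sup hn hngM
  have h1 : Nat.card (Sylow p G) = (Subgroup.normalizer (P : Set G)).index :=
    Sylow.card_eq_index_normalizer P
  have h2 : Nat.card (Sylow p (G ⧸ N)) =
      ((Subgroup.normalizer ((P.mapSurjective hπ : Sylow p (G ⧸ N)) : Set (G ⧸ N))).comap
        (QuotientGroup.mk' N)).index := by
    rw [Sylow.card_eq_index_normalizer (P.mapSurjective hπ)]
    exact (Subgroup.index_comap_of_surjective _ hπ).symm
  refine ⟨(Subgroup.normalizer (P : Set G)).relIndex
    ((Subgroup.normalizer ((P.mapSurjective hπ : Sylow p (G ⧸ N)) : Set (G ⧸ N))).comap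
        (QuotientGroup.mk' N)), ?_, ?_⟩
  · have hd1 := Subgroup.relIndex_mul_relIndex _ _ _ hMK hKle
    exact (Dvd.intro _ hd1).trans (relIndex_sup_dvd_card N _)
  · rw [h1, h2, Subgroup.relIndex_mul_index hMK]

theorem aux (p : ℕ) [Fact p.Prime] (ℓ : ℕ) (hℓ : ℓ.Prime) :
    ∀ (n : ℕ) (G : Type*) [Group G] [Finite G], Nat.card G = n → Group.IsSolvable G →
      ℓ ^ (Nat.card (Sylow p G)).factorization ℓ ≡ 1 [MOD p] := by
  intro n
  induction n using Nat.strong_induction_on with
  | _ n ih =>
    intro G _ _ hn hG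
    rcases subsingleton_or_nontrivial G with hsub | hnt
    · have h1 : Nat.card (Sylow p G) = 1 := by
        have : Subsingleton (Sylow p G) :=
          ⟨fun P Q => Sylow.ext (Subsingleton.elim (P : Subgroup G) Q)⟩
        exact Nat.card_unique
      rw [h1]
      simp [Nat.ModEq]
    · obtain ⟨q, N, hq, hNn, hNq, hNne⟩ := exists_normal_pgroup hG
      have : Fact q.Prime := ⟨hq⟩
      obtain ⟨r, hr, hcard⟩ := sylow_card_quotient N p
      have hNnt : Nontrivial N := (Subgroup.nontrivial_iff_ne_bot N).mpr hNne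
      have hlt : Nat.card (G ⧸ N) < n := by
        rw [← hn, ← Subgroup.index_eq_card, ← Subgroup.card_mul_index N]
        have h1 : 1 < Nat.card N := Finite.one_lt_card
        have h2 : 0 < N.index := Nat.pos_of_ne_zero (Subgroup.index_ne_zero_of_finite)
        nlinarith
      have hIH := ih _ hlt (G ⧸ N) rfl inferInstance
      obtain ⟨c, hc⟩ := IsPGroup.iff_card.mp hNq
      rw [hc] at hr
      obtain ⟨b, -, hb⟩ := (Nat.dvd_prime_pow hq).mp hr
      have hG1 : Nat.card (Sylow p G) ≡ 1 [MOD p] := card_sylow_modEq_one p G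
      have hQ1 : Nat.card (Sylow p (G ⧸ N)) ≡ 1 [MOD p] := card_sylow_modEq_one p (G ⧸ N)
      have hr1 : r ≡ 1 [MOD p] := by
        have h3 : r * Nat.card (Sylow p (G ⧸ N)) ≡ r * 1 [MOD p] := Nat.ModEq.mul_left r hQ1
        rw [mul_one, ← hcard] at h3
        exact h3.symm.trans hG1
      have hm0 : Nat.card (Sylow p (G ⧸ N)) ≠ 0 := Nat.card_pos.ne'
      have hr0 : r ≠ 0 := by rw [hb]; exact pow_ne_zero _ hq.ne_zero
      rw [hcard, Nat.factorization_mul hr0 hm0, Finsupp.add_apply, pow_add]
      have hrl : ℓ ^ r.factorization ℓ ≡ 1 [MOD p] := by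
        by_cases hlq : ℓ = q
        · subst hlq
          rw [hb, Nat.factorization_pow, Finsupp.smul_apply, Nat.Prime.factorization_self hℓ,
            smul_eq_mul, mul_one, ← hb]
          exact hr1
        · have : r.factorization ℓ = 0 := by
            rw [hb, Nat.factorization_pow, Finsupp.smul_apply, smul_eq_mul,
              Nat.factorization_eq_zero_of_not_dvd, mul_zero]
            intro hdvd
            exact hlq ((Nat.prime_dvd_prime_iff_eq hℓ hq).mp hdvd)
          rw [this, pow_zero]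
      have := Nat.ModEq.mul hrl hIH
      simpa using this

/-- Let G be a finite solvable group and p, ℓ primes. Then the largest power of ℓ dividing the number of Sylow p-subgroups of G is congruent to 1 modulo p. -/
theorem result {G : Type*} [Group G] [Finite G]
    (hG : Group.IsSolvable G) (p ℓ : ℕ) [Fact p.Prime] (hℓ : ℓ.Prime) :
    ℓ ^ (Nat.card (Sylow p G)).factorization ℓ ≡ 1 [MOD p] :=
  aux p ℓ hℓ (Nat.card G) G rfl hG

end Cfsg.Agent.S4345
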