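-- Statement S4346: no finite group has exactly 22 Sylow 3-subgroups.
import Cfsg.Statements.S4346
import Cfsg.Agent.S4304
import Cfsg.Agent.Lib.Helper23.Syl
import Cfsg.Agent.Lib.Helper76.N22Local

set_option autoImplicit false
set_option linter.unusedSectionVars false
set_option linter.style.haveILetI false
open Cfsg

namespace Cfsg.Agent.S4346

open Subgroup Cfsg.Agent.Lib.Helper76.N22

universe u

section main
variable {G : Type u} [Group G] [Finite G]

theorem card_centralizer_cases (hG : MinCex G) (P : Sylow 3 G) :
    Nat.card (centralizer ((P : Subgroup G) : Set G)) = 3 ∨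
    Nat.card (centralizer ((P : Subgroup G) : Set G)) = 15 ∨
    Nat.card (centralizer ((P : Subgroup G) : Set G)) = 21 := by
  have h105 := card_centralizer_dvd hG P
  obtain ⟨j, hj⟩ := three_dvd_card_centralizer hG P
  have h57 := not_five_seven hG P
  rw [hj] at h105 h57 ⊢
  have hj35 : j ∣ 35 := by
    have : 3 * j ∣ 3 * 35 := h105
    exact (Nat.mul_dvd_mul_iff_left (by norm_num)).mp this
  have hle := Nat.le_of_dvd (by norm_num) hj35
  interval_cases j <;> first | omega | (exfalso; exact h57 (by norm_num) (by norm_num))

/-- a minimal counterexample does not exist -/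
theorem main_false (hG : MinCex G) : False := by
  haveI : Fact (Nat.Prime 11) := ⟨by norm_num⟩
  haveI : Fact (Nat.Prime 5) := ⟨by norm_num⟩
  obtain ⟨P⟩ : Nonempty (Sylow 3 G) := inferInstance
  have hN := card_mul_eq hG P
  have hNC := card_normalizer_eq hG P
  have hC := card_centralizer_cases hG P
  obtain ⟨S⟩ : Nonempty (Sylow 11 G) := inferInstance
  obtain ⟨c, hc⟩ : ∃ c : ℕ, c = Nat.card (centralizer ((P : Subgroup G) : Set G)) := ⟨_, rfl⟩
  rw [← hc] at hNC hC
  have hG11 : Nat.card G = 11 ^ 1 * (4 * c) := by omega
  have hc11 : ¬ 11 ∣ 4 * c := by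
    rcases hC with h | h | h <;> rw [h] <;> norm_num
  have hS : Nat.card (S : Subgroup G) = 11 := by
    have := Cfsg.Agent.Lib.Helper23.sylow_card_of_eq hG11 hc11 S
    simpa using this
  have hn11 := Cfsg.Agent.Lib.Helper23.card_sylow_dvd_of_eq (G := G) hG11 hc11
  have hmod : Nat.card (Sylow 11 G) % 11 = 1 := card_sylow_modEq_one 11 G
  have hNS := Cfsg.Agent.Lib.Helper23.card_normalizer_sylow_mul S
  have hcases : Nat.card (Sylow 11 G) = 1 ∨ Nat.card (Sylow 11 G) = 12 := by
    generalize Nat.card (Sylow 11 G) = n at *
    have hle : n ≤ 84 := by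
      have := Nat.le_of_dvd (by omega) hn11
      omega
    rcases hC with h | h | h <;> rw [h] at hn11 <;> interval_cases n <;> omega
  have hS11 : ∀ s ∈ (S : Subgroup G), s ^ 11 = 1 := by
    intro s hs
    have h1 : (⟨s, hs⟩ : (S : Subgroup G)) ^ Nat.card (S : Subgroup G) = 1 := pow_card_eq_one'
    rw [hS] at h1
    exact congrArg Subtype.val h1
  rcases hcases with h1 | h12
  · -- the Sylow 11-subgroup is normal
    rw [h1, mul_one] at hNS
    have htop : normalizer ((S : Subgroup G) : Set G) = ⊤ :=
      (Subgroup.card_eq_iff_eq_top _).mp hNS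
    haveI : (S : Subgroup G).Normal := Subgroup.normalizer_eq_top_iff.mp htop
    have hSne : (S : Subgroup G) ≠ ⊥ := by
      rw [← Subgroup.one_lt_card_iff_ne_bot, hS]; norm_num
    have hsup := sup_eq_top_of_normal hG (S : Subgroup G) hSne P
    have hrel := Subgroup.relIndex_sup_right (P : Subgroup G) (S : Subgroup G)
    rw [hsup, Subgroup.relIndex_top_right] at hrel
    have hdvd := Subgroup.relIndex_dvd_card (S : Subgroup G) (P : Subgroup G)
    rw [← hrel, card_sylow_three hG P] at hdvd
    have hmul := Subgroup.card_mul_index (S : Subgroup G)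
    rw [hS] at hmul
    have hle := Nat.le_of_dvd (by norm_num) hdvd
    rcases hC with h | h | h <;> omega
  · rw [h12] at hNS
    by_cases h5 : 5 ∣ Nat.card (normalizer ((S : Subgroup G) : Set G))
    · -- an element of order 5 normalizing S
      obtain ⟨u', hu'⟩ := exists_prime_orderOf_dvd_card' 5 h5
      have hu1 : (u' : G) ≠ 1 := by
        intro h
        have : u' = 1 := Subtype.ext h
        rw [this, orderOf_one] at hu'
        omega
      have hu5 : (u' : G) ^ 5 = 1 := by
        have := pow_orderOf_eq_one u'
        rw [hu'] at this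
        exact_mod_cast congrArg Subtype.val this
      have hF7 := fix_five hG (u' : G) hu1 hu5
      have hT := card_mul_le_of_translates (Ω := Sylow 3 G) (S : Subgroup G)
        (MulAction.fixedBy (Sylow 3 G) (u' : G)) ?_
      · rw [hS, hF7, hG.h22] at hT
        omega
      · intro h hh hh1 δ hδ hhδ
        have hδ' : (u' : G) • δ = δ := hδ
        have hhδ' : (u' : G) • (h • δ) = h • δ := hhδ
        have hfix : ((u' : G)⁻¹ * h⁻¹ * u' * h) • δ = δ := by
          rw [mul_smul, mul_smul, mul_smul, hhδ', inv_smul_smul, inv_smul_eq_iff, hδ']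
        have hmem : (u' : G)⁻¹ * h⁻¹ * u' * h ∈ (S : Subgroup G) := by
          refine mul_mem ?_ hh
          have h1 := (Subgroup.mem_normalizer_iff.mp (inv_mem u'.2) h⁻¹).mp (inv_mem hh)
          rwa [inv_inv] at h1
        by_cases hone : (u' : G)⁻¹ * h⁻¹ * u' * h = 1
        · have hcomm : (u' : G) * h = h * u' := by
            calc (u' : G) * h = h * ((u' : G) * ((u' : G)⁻¹ * h⁻¹ * u' * h)) := by group
              _ = h * u' := by rw [hone, mul_one]
          have hinv : ∀ δ ∈ MulAction.fixedBy (Sylow 3 G) (u' : G),
              h • δ ∈ MulAction.fixedBy (Sylow 3 G) (u' : G) := by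
            intro δ hδ
            show (u' : G) • (h • δ) = h • δ
            have hδ' : (u' : G) • δ = δ := hδ
            rw [← mul_smul, hcomm, mul_smul, hδ']
          have hm := card_modEq_fixedBy (Ω := Sylow 3 G) 11 h 1
            (by rw [pow_one]; exact hS11 h hh) _ hinv
          have h0 := fix_eleven hG h hh1 (hS11 h hh)
          have hle : (MulAction.fixedBy (Sylow 3 G) (u' : G) ∩
              MulAction.fixedBy (Sylow 3 G) h).ncard ≤ 0 := by
            rw [← h0]
            exact Set.ncard_le_ncard Set.inter_subset_right (Set.toFinite _)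
          rw [hF7] at hm
          unfold Nat.ModEq at hm
          omega
        · have h0 := fix_eleven hG _ hone (hS11 _ hmem)
          have hmem' : δ ∈ MulAction.fixedBy (Sylow 3 G) ((u' : G)⁻¹ * h⁻¹ * u' * h) := hfix
          rw [Set.ncard_eq_zero] at h0
          rw [h0] at hmem'
          exact hmem'
    · -- otherwise the normalizer of S centralizes S: Burnside's transfer theorem
      have hrel := Cfsg.Agent.Lib.Helper23.relIndex_centralizer_normalizer_dvd_pred (p := 11)
        (S : Subgroup G) hS
      have hrel2 := Subgroup.relIndex_dvd_card (centralizer ((S : Subgroup G) : Set G))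
        (normalizer ((S : Subgroup G) : Set G))
      have hm : Nat.card (normalizer ((S : Subgroup G) : Set G)) = 11 ∨
          Nat.card (normalizer ((S : Subgroup G) : Set G)) = 77 := by
        rcases hC with h | h | h <;> omega
      have hr1 : (centralizer ((S : Subgroup G) : Set G)).relIndex
          (normalizer ((S : Subgroup G) : Set G)) = 1 := by
        generalize (centralizer ((S : Subgroup G) : Set G)).relIndex
          (normalizer ((S : Subgroup G) : Set G)) = r at hrel hrel2 ⊢
        have hr10 : r ≤ 10 := Nat.le_of_dvd (by norm_num) hrel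
        have hr0 : 0 < r := by
          rw [Nat.pos_iff_ne_zero]
          rintro rfl
          omega
        rcases hm with hm | hm <;> rw [hm] at hrel2 <;> interval_cases r <;> omega
      have hle : normalizer ((S : Subgroup G) : Set G) ≤ centralizer ((S : Subgroup G) : Set G) :=
        Subgroup.relIndex_eq_one.mp hr1
      have hK := MonoidHom.ker_transferSylow_isComplement' S hle
      have hKcard := hK.card_mul_card
      rw [hS] at hKcard
      have hKne : (MonoidHom.transferSylow S hle).ker ≠ ⊥ := by
        rw [← Subgroup.one_lt_card_iff_ne_bot]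
        rcases hC with h | h | h <;> omega
      have hsup := sup_eq_top_of_normal hG _ hKne P
      have hPK : (P : Subgroup G) ≤ (MonoidHom.transferSylow S hle).ker := by
        intro x hx
        rw [MonoidHom.mem_ker]
        have h3 : (MonoidHom.transferSylow S hle x) ^ 3 = 1 := by
          rw [← map_pow, pow_three_eq_one hG P x hx, map_one]
        have h11 : (MonoidHom.transferSylow S hle x) ^ 11 = 1 := by
          have := pow_card_eq_one' (G := (S : Subgroup G)) (x := MonoidHom.transferSylow S hle x)
          rwa [hS] at this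
        calc MonoidHom.transferSylow S hle x
            = (MonoidHom.transferSylow S hle x) ^ 12 *
                ((MonoidHom.transferSylow S hle x) ^ 11)⁻¹ := by group
          _ = 1 := by
            rw [h11, show (12 : ℕ) = 3 * 4 from rfl, pow_mul, h3]
            simp
      rw [sup_eq_right.mpr hPK] at hsup
      rw [hsup, Subgroup.card_top] at hKcard
      have hpos : 0 < Nat.card G := Nat.card_pos
      omega

end main

/-- No finite group has exactly 22 Sylow 3-subgroups. -/
theorem result {G : Type*} [Group G] [Finite G] : Nat.card (Sylow 3 G) ≠ 22 := by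
  suffices h : ∀ n : ℕ, ∀ (H : Type _) [Group H] [Finite H], Nat.card H = n →
      Nat.card (Sylow 3 H) ≠ 22 from h _ G rfl
  intro n
  induction n using Nat.strong_induction_on with
  | _ n ih =>
    intro H _ _ hn h22
    exact main_false ⟨h22, fun K _ _ hK => ih _ (hn ▸ hK) K rfl⟩

end Cfsg.Agent.S4346
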