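import Cfsg.Statements.S4365

set_option autoImplicit false
open Cfsg

namespace Cfsg.Agent.S4365

open Finset

section ring

variable {R : Type*} [Ring R]

theorem sum_pow_mul_reindex (p : ℕ) (hp : p.Prime) (α : R) (hα : α ^ p = 1) (j : ℕ)
    (hj0 : 0 < j) (hjp : j < p) :
    ∑ m ∈ range p, α ^ (m * j) = ∑ i ∈ range p, α ^ i := by
  have hmod : ∀ n : ℕ, α ^ n = α ^ (n % p) := fun n => by
    conv_lhs => rw [← Nat.mod_add_div n p, pow_add, pow_mul, hα, one_pow, mul_one]
  have hinj : Set.InjOn (fun m => m * j % p) (range p : Set ℕ) := by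
    intro m hm m' hm' h
    simp only [coe_range, Set.mem_Iio] at hm hm'
    have hcop : Nat.gcd p j = 1 :=
      (Nat.Prime.coprime_iff_not_dvd hp).mpr (Nat.not_dvd_of_pos_of_lt hj0 hjp)
    have : m ≡ m' [MOD p] := Nat.ModEq.cancel_right_of_coprime hcop h
    exact Nat.ModEq.eq_of_lt_of_lt this hm hm'
  have himg : (range p).image (fun m => m * j % p) = range p := by
    apply eq_of_subset_of_card_le
    · intro x hx
      obtain ⟨m, -, rfl⟩ := mem_image.mp hx
      exact mem_range.mpr (Nat.mod_lt _ hp.pos)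
    · rw [card_image_of_injOn hinj]
  calc ∑ m ∈ range p, α ^ (m * j) = ∑ m ∈ range p, α ^ (m * j % p) :=
        sum_congr rfl (fun m _ => hmod _)
    _ = ∑ i ∈ (range p).image (fun m => m * j % p), α ^ i := (sum_image hinj).symm
    _ = ∑ i ∈ range p, α ^ i := by rw [himg]

theorem norm_identity (p : ℕ) (hp : p.Prime) (α β : R) (hc : Commute α β) (hα : α ^ p = 1) :
    ∑ m ∈ range p, ∑ j ∈ range p, (α ^ m * β) ^ j + ∑ i ∈ range p, α ^ i
      = (p : R) + (∑ i ∈ range p, α ^ i) * ∑ j ∈ range p, β ^ j := by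
  have h1 : ∀ m j : ℕ, (α ^ m * β) ^ j = α ^ (m * j) * β ^ j := fun m j => by
    rw [(hc.pow_left m).mul_pow, ← pow_mul]
  simp_rw [h1]
  rw [sum_comm]
  simp_rw [← sum_mul]
  have key : ∀ j ∈ range p, (∑ m ∈ range p, α ^ (m * j)) * β ^ j
      = (∑ i ∈ range p, α ^ i) * β ^ j + (if j = 0 then (p : R) - ∑ i ∈ range p, α ^ i else 0) := by
    intro j hj
    by_cases h0 : j = 0
    · subst h0
      simp
    · rw [sum_pow_mul_reindex p hp α hα j (Nat.pos_of_ne_zero h0) (mem_range.mp hj)]
      simp [h0]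
  rw [sum_congr rfl key, sum_add_distrib, ← mul_sum, sum_ite_eq' (range p) 0,
    if_pos (mem_range.mpr hp.pos)]
  abel

end ring

theorem key_additive {A : Type*} [AddCommGroup A] (Z' : AddSubgroup A) (p : ℕ) (hp : p.Prime)
    (α β : AddMonoid.End A) (hc : Commute α β) (hα : α ^ p = 1)
    (h1 : ∀ v : A, (∑ i ∈ range p, α ^ i) v ∈ Z')
    (h2 : ∀ m ∈ range p, ∀ v : A, (∑ j ∈ range p, (α ^ m * β) ^ j) v ∈ Z') (v : A) :
    p • v ∈ Z' := by
  have hid := norm_identity p hp α β hc hα
  have hmul : ∀ (f g : AddMonoid.End A) (v : A), (f * g) v = f (g v) := fun _ _ _ => rfl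
  have hadd : ∀ (f g : AddMonoid.End A) (v : A), (f + g) v = f v + g v := fun _ _ _ => rfl
  have hsum : ∀ (s : Finset ℕ) (f : ℕ → AddMonoid.End A) (v : A),
      (∑ i ∈ s, f i) v = ∑ i ∈ s, f i v := fun s f v =>
    map_sum (AddMonoidHom.eval v : (A →+ A) →+ A) f s
  have hv := congrArg (fun f : AddMonoid.End A => f v) hid
  simp only [hadd, hmul, hsum, AddMonoid.End.natCast_apply] at hv
  have : p • v = (∑ m ∈ range p, (∑ j ∈ range p, (α ^ m * β) ^ j) v)
      + (∑ i ∈ range p, α ^ i) v - (∑ i ∈ range p, α ^ i) ((∑ j ∈ range p, β ^ j) v) := by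
    simp only [hsum]
    rw [hv]
    abel
  rw [this]
  exact Z'.sub_mem (Z'.add_mem (Z'.sum_mem fun m hm => h2 m hm v) (h1 v)) (h1 _)

open scoped IsMulCommutative in
theorem norm_case {P : Type*} [Group P] (C : Subgroup P) [hCn : C.Normal] [IsMulCommutative C]
    (p : ℕ) (hp : p.Prime) (g h : P) (hgh : g * h = h * g)
    (hA : ∀ k : P, k ∉ C → k ^ p ∈ Subgroup.center P)
    (hD : ∀ k : P, k ∉ C → ∀ u ∈ C, u * k = k * u → u ∈ Subgroup.center P)
    (hg : g ∉ C) (hm : ∀ m : ℕ, g ^ m * h ∉ C) :
    ∀ u ∈ C, u ^ p ∈ Subgroup.center P := by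
  let ρ : P →* AddMonoid.End (Additive C) :=
    { toFun := fun k => MonoidHom.toAdditive ((MulAut.conjNormal k : MulAut C).toMonoidHom)
      map_one' := by
        apply AddMonoidHom.ext; intro v
        apply Additive.toMul.injective; apply Subtype.ext
        show (1 : P) * (v.toMul : P) * (1 : P)⁻¹ = (v.toMul : P)
        group
      map_mul' := fun k k' => by
        apply AddMonoidHom.ext; intro v
        apply Additive.toMul.injective; apply Subtype.ext
        show (k * k') * (v.toMul : P) * (k * k')⁻¹ = k * (k' * (v.toMul : P) * k'⁻¹) * k⁻¹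
        group }
  have hρ : ∀ (k : P) (v : Additive C), ((ρ k v).toMul : P) = k * (v.toMul : P) * k⁻¹ :=
    fun k v => rfl
  let Z' : AddSubgroup (Additive C) := Subgroup.toAddSubgroup ((Subgroup.center P).subgroupOf C)
  have hZ' : ∀ v : Additive C, v ∈ Z' ↔ (v.toMul : P) ∈ Subgroup.center P := fun v => Iff.rfl
  have hρpow : ∀ k : P, k ^ p ∈ Subgroup.center P → (ρ k) ^ p = 1 := by
    intro k hk
    rw [← map_pow]
    apply AddMonoidHom.ext; intro v
    apply Additive.toMul.injective; apply Subtype.ext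
    show k ^ p * (v.toMul : P) * (k ^ p)⁻¹ = (v.toMul : P)
    rw [← Subgroup.mem_center_iff.mp hk (v.toMul : P), mul_inv_cancel_right]
  have hN : ∀ k : P, k ∉ C → ∀ v : Additive C, (∑ i ∈ range p, (ρ k) ^ i) v ∈ Z' := by
    intro k hk v
    have hkp := hρpow k (hA k hk)
    have hfix : ρ k * ∑ i ∈ range p, (ρ k) ^ i = ∑ i ∈ range p, (ρ k) ^ i := by
      have := mul_geom_sum (ρ k) p
      rw [hkp, sub_self, sub_mul, one_mul, sub_eq_zero] at this
      exact this
    have hfixv := congrArg (fun f : AddMonoid.End (Additive C) => ((f v).toMul : P)) hfix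
    set n := (∑ i ∈ range p, (ρ k) ^ i) v with hn
    have e : k * (n.toMul : P) * k⁻¹ = (n.toMul : P) := hfixv
    rw [hZ']
    apply hD k hk _ n.toMul.2
    calc (n.toMul : P) * k = k * (n.toMul : P) * k⁻¹ * k := by rw [e]
      _ = k * (n.toMul : P) := by group
  intro u hu
  have hα := hρpow g (hA g hg)
  have hc : Commute (ρ g) (ρ h) := by
    show ρ g * ρ h = ρ h * ρ g
    rw [← map_mul, ← map_mul, hgh]
  have := key_additive Z' p hp (ρ g) (ρ h) hc hα (hN g hg) (fun m _ v => by
    have := hN (g ^ m * h) (hm m) v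
    rwa [map_mul, map_pow] at this) (Additive.ofMul ⟨u, hu⟩)
  rw [hZ'] at this
  exact this

theorem count_case {P : Type*} [Group P] [Finite P] (p : ℕ) (hp : p.Prime) (hP : IsPGroup p P)
    (C D : Subgroup P) (hZC : Subgroup.center P ≤ C) (hcard : Nat.card C = Nat.card D) (g : P)
    (hgp : g ^ p ∈ Subgroup.center P)
    (hcov : ∀ h ∈ D, ∃ m : ℕ, g ^ m * h ∈ Subgroup.center P) :
    ∀ u ∈ C, u ^ p ∈ Subgroup.center P := by
  classical
  have : Fact p.Prime := ⟨hp⟩
  have hex : ∀ h : D, ∃ iz : Fin p × Subgroup.center P,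
      ((g ^ (iz.1 : ℕ))⁻¹ * (iz.2 : P)) = (h : P) := by
    intro h
    obtain ⟨m, hm⟩ := hcov h h.2
    have hpow : g ^ (p * (m / p)) ∈ Subgroup.center P := by
      rw [pow_mul]; exact pow_mem hgp _
    refine ⟨(⟨m % p, Nat.mod_lt _ hp.pos⟩,
      ⟨(g ^ (p * (m / p)))⁻¹ * (g ^ m * (h : P)), mul_mem (inv_mem hpow) hm⟩), ?_⟩
    show (g ^ (m % p))⁻¹ * ((g ^ (p * (m / p)))⁻¹ * (g ^ m * (h : P))) = (h : P)
    have : g ^ m = g ^ (p * (m / p)) * g ^ (m % p) := by
      rw [← pow_add, add_comm, Nat.mod_add_div]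
    rw [this]; group
  choose f hf using hex
  have hinj : Function.Injective f := fun h₁ h₂ e => Subtype.ext (by rw [← hf h₁, ← hf h₂, e])
  have hle : Nat.card D ≤ p * Nat.card (Subgroup.center P) := by
    have := Nat.card_le_card_of_injective f hinj
    rwa [Nat.card_prod, Nat.card_fin] at this
  set ZC := (Subgroup.center P).subgroupOf C with hZCdef
  have hcardZC : Nat.card ZC = Nat.card (Subgroup.center P) :=
    Nat.card_congr (Subgroup.subgroupOfEquivOfLe hZC).toEquiv
  have hmulidx := Subgroup.card_mul_index ZC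
  have hidxle : ZC.index ≤ p := by
    have hpos : 0 < Nat.card (Subgroup.center P) := Nat.card_pos
    have : Nat.card (Subgroup.center P) * ZC.index ≤ Nat.card (Subgroup.center P) * p := by
      rw [← hcardZC, hmulidx, hcard, hcardZC, mul_comm]; exact hle
    exact Nat.le_of_mul_le_mul_left this hpos
  obtain ⟨N, hN⟩ := IsPGroup.iff_card.mp (hP.to_subgroup C)
  have hdvd : ZC.index ∣ p ^ N := by rw [← hN, ← hmulidx]; exact dvd_mul_left _ _
  obtain ⟨j, -, hj⟩ := (Nat.dvd_prime_pow hp).mp hdvd
  have hj1 : j ≤ 1 := by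
    by_contra hlt
    push Not at hlt
    have h1 : p ^ 2 ≤ p ^ j := Nat.pow_le_pow_right hp.pos hlt
    have h2 : p < p ^ 2 := by have := hp.one_lt; nlinarith
    omega
  intro u hu
  have hmem : (⟨u, hu⟩ : C) ^ ZC.index ∈ ZC := Subgroup.pow_index_mem ZC _
  rw [hj] at hmem
  have hmem' : u ^ (p ^ j) ∈ Subgroup.center P := by
    simpa [hZCdef, Subgroup.mem_subgroupOf] using hmem
  interval_cases j
  · simp at hmem'; exact pow_mem hmem' p
  · simpa using hmem'

/-- Let P be a finite p-group whose conjugacy class sizes are exactly 1 and pᵃ for some a ≥ 1. Then every element of P has its p-th power in the center of P (P/Z(P) has exponent p). -/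
theorem result {P : Type*} [Group P] [Finite P] (p : ℕ) [Fact p.Prime]
    (hP : IsPGroup p P) (a : ℕ) (ha : 1 ≤ a)
    (hcs : {k : ℕ | ∃ x : P, (Subgroup.centralizer ({x} : Set P)).index = k} = {1, p ^ a}) (x : P) :
    x ^ p ∈ Subgroup.center P := by
  classical
  have hp : p.Prime := Fact.out
  by_contra hx₀
  have mem_cz : ∀ x g : P, g ∈ Subgroup.centralizer ({x} : Set P) ↔ x * g = g * x := by
    intro x g; simp [Subgroup.mem_centralizer_iff]
  have hidx : ∀ y : P, (Subgroup.centralizer ({y} : Set P)).index = 1 ∨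
      (Subgroup.centralizer ({y} : Set P)).index = p ^ a := by
    intro y
    have : (Subgroup.centralizer ({y} : Set P)).index ∈ ({1, p ^ a} : Set ℕ) := by
      rw [← hcs]; exact ⟨y, rfl⟩
    simpa using this
  have hcen : ∀ y : P, y ∈ Subgroup.center P ↔ Subgroup.centralizer ({y} : Set P) = ⊤ := by
    intro y; rw [Subgroup.centralizer_eq_top_iff_subset]; simp
  have hnc : ∀ y : P, y ∉ Subgroup.center P →
      (Subgroup.centralizer ({y} : Set P)).index = p ^ a := by
    intro y hy
    rcases hidx y with h | h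
    · exact absurd ((hcen y).mpr (Subgroup.index_eq_one.mp h)) hy
    · exact h
  have hcardeq : ∀ y z : P, y ∉ Subgroup.center P → z ∉ Subgroup.center P →
      Nat.card (Subgroup.centralizer ({y} : Set P)) = Nat.card (Subgroup.centralizer ({z} : Set P)) := by
    intro y z hy hz
    have h1 := Subgroup.card_mul_index (Subgroup.centralizer ({y} : Set P))
    have h2 := Subgroup.card_mul_index (Subgroup.centralizer ({z} : Set P))
    rw [hnc y hy] at h1; rw [hnc z hz] at h2
    have hpos : 0 < p ^ a := pow_pos hp.pos a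
    exact Nat.eq_of_mul_eq_mul_right hpos (h1.trans h2.symm)
  have F2 : ∀ y z : P, y ∉ Subgroup.center P → z ∉ Subgroup.center P →
      Subgroup.centralizer ({y} : Set P) ≤ Subgroup.centralizer ({z} : Set P) →
      Subgroup.centralizer ({y} : Set P) = Subgroup.centralizer ({z} : Set P) := by
    intro y z hy hz hle
    exact Subgroup.eq_of_le_of_card_ge hle (le_of_eq (hcardeq y z hy hz).symm)
  have star : ∀ (h : P) (k : ℕ), h ^ k ∉ Subgroup.center P →
      Subgroup.centralizer ({h ^ k} : Set P) = Subgroup.centralizer ({h} : Set P) := by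
    intro h k hk
    have hh : h ∉ Subgroup.center P := fun hh => hk (pow_mem hh k)
    refine (F2 h (h ^ k) hh hk ?_).symm
    intro g hg
    rw [mem_cz] at hg ⊢
    exact ((Commute.pow_left (show Commute h g from hg) k)).eq
  have czmul : ∀ (u z : P), z ∈ Subgroup.center P →
      Subgroup.centralizer ({u * z} : Set P) = Subgroup.centralizer ({u} : Set P) := by
    intro u z hz
    ext g
    rw [mem_cz, mem_cz]
    have hzg : z * g = g * z := (Subgroup.mem_center_iff.mp hz g).symm
    constructor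
    · intro h
      have : u * g * z = g * u * z := by rw [mul_assoc, ← hzg, ← mul_assoc, h, mul_assoc]
      exact mul_right_cancel this
    · intro h
      rw [mul_assoc, hzg, ← mul_assoc, h, mul_assoc]
  -- the element w
  have hZne : Subgroup.center P ≠ ⊤ := fun h => hx₀ (h ▸ Subgroup.mem_top _)
  have hQnt : Nontrivial (P ⧸ Subgroup.center P) := QuotientGroup.nontrivial_iff.mpr hZne
  have hQp : IsPGroup p (P ⧸ Subgroup.center P) := hP.to_quotient _
  have hZQ : Nontrivial (Subgroup.center (P ⧸ Subgroup.center P)) := hQp.center_nontrivial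
  have hZQp : IsPGroup p (Subgroup.center (P ⧸ Subgroup.center P)) := hQp.to_subgroup _
  obtain ⟨n, hn⟩ := IsPGroup.iff_card.mp hZQp
  have hn0 : n ≠ 0 := by
    rintro rfl
    have := Finite.one_lt_card (α := Subgroup.center (P ⧸ Subgroup.center P))
    rw [hn] at this
    simp at this
  have hdvd : p ∣ Nat.card (Subgroup.center (P ⧸ Subgroup.center P)) := by
    rw [hn]; exact dvd_pow_self p hn0
  obtain ⟨c, hc⟩ := exists_prime_orderOf_dvd_card' p hdvd
  obtain ⟨w, hw⟩ := QuotientGroup.mk_surjective (c : P ⧸ Subgroup.center P)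
  have hcp : (c : P ⧸ Subgroup.center P) ^ p = 1 := by
    have := pow_orderOf_eq_one c
    rw [hc] at this
    exact_mod_cast congrArg Subtype.val this
  have hc1 : (c : P ⧸ Subgroup.center P) ≠ 1 := by
    intro h
    have : c = 1 := Subtype.ext h
    rw [this, orderOf_one] at hc
    exact hp.one_lt.ne hc
  have hccomm : ∀ q : P ⧸ Subgroup.center P, q * c = c * q :=
    fun q => Subgroup.mem_center_iff.mp c.2 q
  have hwZ : w ∉ Subgroup.center P := by
    intro h; apply hc1; rw [← hw]; exact (QuotientGroup.eq_one_iff w).mpr h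
  have hgw : ∀ g : P, (g ^ p)⁻¹ * (g * w) ^ p ∈ Subgroup.center P := by
    intro g
    rw [← QuotientGroup.eq_one_iff]
    simp only [QuotientGroup.mk_mul, QuotientGroup.mk_inv, QuotientGroup.mk_pow, hw]
    rw [(show Commute (g : P ⧸ Subgroup.center P) c from hccomm g).mul_pow, hcp, mul_one,
      inv_mul_cancel]
  have hconj : ∀ g : P, w⁻¹ * (g * w * g⁻¹) ∈ Subgroup.center P := by
    intro g
    rw [← QuotientGroup.eq_one_iff]
    simp only [QuotientGroup.mk_mul, QuotientGroup.mk_inv, hw]
    rw [hccomm g, mul_inv_cancel_right, inv_mul_cancel]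
  set C := Subgroup.centralizer ({w} : Set P) with hCdef
  have hCnorm : C.Normal := by
    refine ⟨fun n hn g => ?_⟩
    rw [hCdef, mem_cz] at hn ⊢
    have hz := hconj g⁻¹
    rw [inv_inv] at hz
    set z := w⁻¹ * (g⁻¹ * w * g) with hzdef
    have hzc : ∀ y : P, y * z = z * y := fun y => Subgroup.mem_center_iff.mp hz y
    have e1 : g⁻¹ * w * g = w * z := by rw [hzdef]; group
    calc w * (g * n * g⁻¹) = g * (g⁻¹ * w * g) * n * g⁻¹ := by group
      _ = g * (w * z) * n * g⁻¹ := by rw [e1]
      _ = g * (w * n) * z * g⁻¹ := by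
        rw [mul_assoc g (w * z) n, mul_assoc w z n, ← hzc n, ← mul_assoc w n z, ← mul_assoc g]
      _ = g * (n * w) * z * g⁻¹ := by rw [hn]
      _ = g * n * (w * z) * g⁻¹ := by group
      _ = g * n * (g⁻¹ * w * g) * g⁻¹ := by rw [e1]
      _ = g * n * g⁻¹ * w := by group
  have hA : ∀ g : P, g ∉ C → g ^ p ∈ Subgroup.center P := by
    intro g hgC
    by_contra hgp
    apply hgC
    have h1 := star g p hgp
    have hz := hgw g
    set z := (g ^ p)⁻¹ * (g * w) ^ p with hzdef
    have e : (g * w) ^ p = g ^ p * z := by rw [hzdef]; group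
    have h2 : (g * w) ^ p ∉ Subgroup.center P := by
      intro h
      apply hgp
      have : g ^ p = (g * w) ^ p * z⁻¹ := by rw [e]; group
      rw [this]; exact mul_mem h (inv_mem hz)
    have h3 := star (g * w) p h2
    have h4 : Subgroup.centralizer ({g * w} : Set P) = Subgroup.centralizer ({g} : Set P) := by
      rw [← h3, e, czmul _ _ hz, h1]
    have h5 : g ∈ Subgroup.centralizer ({g * w} : Set P) := by rw [h4, mem_cz]
    rw [mem_cz] at h5
    rw [hCdef, mem_cz]
    exact mul_left_cancel (by rw [← mul_assoc, h5])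
  have hB : ∀ y : P, y ^ p ∉ Subgroup.center P → Subgroup.centralizer ({y} : Set P) = C := by
    intro y hy
    have hyZ : y ∉ Subgroup.center P := fun h => hy (pow_mem h p)
    have hyC : y ∈ C := by by_contra h; exact hy (hA y h)
    apply F2 y w hyZ hwZ
    intro g hg
    by_contra hgC
    have hgp := hA g hgC
    rw [mem_cz] at hg
    have hgy : (g * y) ^ p ∉ Subgroup.center P := by
      rw [(show Commute g y from hg.symm).mul_pow]
      intro h
      apply hy
      have : y ^ p = (g ^ p)⁻¹ * (g ^ p * y ^ p) := by group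
      rw [this]; exact mul_mem (inv_mem hgp) h
    have hgyC : g * y ∈ C := by by_contra h; exact hgy (hA _ h)
    apply hgC
    have : g = g * y * y⁻¹ := by group
    rw [this]; exact mul_mem hgyC (inv_mem hyC)
  have hCx : Subgroup.centralizer ({x} : Set P) = C := hB x hx₀
  have hxC : x ∈ C := by rw [← hCx, mem_cz]
  have hCab : ∀ u ∈ C, ∀ v ∈ C, u * v = v * u := by
    intro u hu v hv
    have hxu : x * u = u * x := by have := hu; rw [← hCx, mem_cz] at this; exact this
    have hxv : x * v = v * x := by have := hv; rw [← hCx, mem_cz] at this; exact this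
    by_cases h : u ^ p ∈ Subgroup.center P
    · have hux : (u * x) ^ p ∉ Subgroup.center P := by
        rw [(show Commute u x from hxu.symm).mul_pow]
        intro h'
        apply hx₀
        have : x ^ p = (u ^ p)⁻¹ * (u ^ p * x ^ p) := by group
        rw [this]; exact mul_mem (inv_mem h) h'
      have h1 := hB _ hux
      have h2 : v ∈ Subgroup.centralizer ({u * x} : Set P) := by rw [h1]; exact hv
      rw [mem_cz] at h2
      have : u * v * x = v * u * x := by rw [mul_assoc u v x, ← hxv, ← mul_assoc, h2, mul_assoc]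
      exact mul_right_cancel this
    · have h1 := hB u h
      have h2 : v ∈ Subgroup.centralizer ({u} : Set P) := by rw [h1]; exact hv
      rw [mem_cz] at h2
      exact h2
  have hD : ∀ g : P, g ∉ C → ∀ u ∈ C, u * g = g * u → u ∈ Subgroup.center P := by
    intro g hg u hu hug
    by_contra huZ
    have hle : C ≤ Subgroup.centralizer ({u} : Set P) := by
      intro v hv; rw [mem_cz]; exact hCab u hu v hv
    have h1 : C = Subgroup.centralizer ({u} : Set P) := F2 w u hwZ huZ hle
    apply hg
    rw [h1, mem_cz]; exact hug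
  obtain ⟨g, hgC⟩ : ∃ g : P, g ∉ C := by
    by_contra h
    push Not at h
    exact hwZ ((hcen w).mpr (eq_top_iff.mpr fun y _ => h y))
  have hgZ : g ∉ Subgroup.center P := fun h =>
    hgC (by rw [hCdef, mem_cz]; exact (Subgroup.mem_center_iff.mp h w))
  have hgp : g ^ p ∈ Subgroup.center P := hA g hgC
  suffices hkey : ∀ u ∈ C, u ^ p ∈ Subgroup.center P from hx₀ (hkey x hxC)
  by_cases hcase : ∃ h ∈ Subgroup.centralizer ({g} : Set P), ∀ m : ℕ, g ^ m * h ∉ C
  · obtain ⟨h, hh, hm⟩ := hcase
    rw [mem_cz] at hh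
    have hCcomm : IsMulCommutative C := ⟨⟨fun u v => Subtype.ext (hCab u u.2 v v.2)⟩⟩
    exact norm_case C p hp g h hh hA hD hgC hm
  · push Not at hcase
    refine count_case p hp hP C (Subgroup.centralizer ({g} : Set P)) ?_ (hcardeq w g hwZ hgZ) g hgp ?_
    · exact Subgroup.center_le_centralizer _
    · intro h hh
      obtain ⟨m, hm⟩ := hcase h hh
      refine ⟨m, hD g hgC _ hm ?_⟩
      rw [mem_cz] at hh
      rw [mul_assoc, ← hh, ← mul_assoc, ← pow_succ, pow_succ', mul_assoc]

end Cfsg.Agent.S4365
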