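import Cfsg.Statements.S4370
import Cfsg.Agent.S0016
import Cfsg.Agent.Lib.Helper34.Nilp

set_option autoImplicit false
open Cfsg

namespace Cfsg.Agent.S4370

/-- Chinese remainder in a product: if `a` is a power of `q₀`, `b` is a power of `b₀` and the
orders are coprime, then `(a, b)` is a power of `(q₀, b₀)`. -/
theorem prod_mem_zpowers {A B : Type*} [Group A] [Group B] (q₀ : A) (b₀ : B)
    (hcop : (orderOf q₀).Coprime (orderOf b₀)) (s t : ℕ) :
    (q₀ ^ s, b₀ ^ t) ∈ Subgroup.zpowers ((q₀, b₀) : A × B) := by
  obtain ⟨r, hr1, hr2⟩ := Nat.chineseRemainder hcop s t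
  have h1 : q₀ ^ r = q₀ ^ s := pow_eq_pow_iff_modEq.mpr hr1
  have h2 : b₀ ^ r = b₀ ^ t := pow_eq_pow_iff_modEq.mpr hr2
  rw [Subgroup.mem_zpowers_iff]
  refine ⟨(r : ℤ), ?_⟩
  rw [zpow_natCast]
  apply Prod.ext
  · simp [h1]
  · simp [h2]

/-- In a cyclic subgroup, an element killed by `p` lies in the subgroup generated by any element
of order `p`. -/
theorem mem_zpowers_of_cyclic {G : Type*} [Group G] [Finite G] (C : Subgroup G) (hC : IsCyclic C)
    (p : ℕ) (hp : 0 < p) (z u : G) (hz : z ∈ C) (hu : u ∈ C) (hzp : orderOf z = p)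
    (hup : u ^ p = 1) : u ∈ Subgroup.zpowers z := by
  classical
  have : Fintype C := Fintype.ofFinite C
  have hle := IsCyclic.card_pow_eq_one_le (α := C) hp
  -- the `p` powers of `z` all satisfy `x ^ p = 1`
  let z' : C := ⟨z, hz⟩
  let u' : C := ⟨u, hu⟩
  have hz' : orderOf z' = p := by
    rw [← hzp]; exact Subgroup.orderOf_mk z hz
  let T : Finset C := (Finset.range p).image (fun i => z' ^ i)
  have hTcard : T.card = p := by
    rw [Finset.card_image_of_injOn, Finset.card_range]
    intro i hi j hj hij
    simp only [Finset.coe_range, Set.mem_Iio] at hi hj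
    have := pow_injOn_Iio_orderOf (x := z') (by rw [hz']; exact hi) (by rw [hz']; exact hj) hij
    exact this
  have hTsub : T ⊆ Finset.univ.filter (fun a : C => a ^ p = 1) := by
    intro a ha
    obtain ⟨i, _, rfl⟩ := Finset.mem_image.mp ha
    simp only [Finset.mem_filter, Finset.mem_univ, true_and]
    rw [← pow_mul, mul_comm, pow_mul, ← hz', pow_orderOf_eq_one, one_pow]
  have hTeq : T = Finset.univ.filter (fun a : C => a ^ p = 1) :=
    Finset.eq_of_subset_of_card_le hTsub (by rw [hTcard]; exact hle)
  have hu' : u' ∈ T := by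
    rw [hTeq]
    simp only [Finset.mem_filter, Finset.mem_univ, true_and]
    exact Subtype.ext (by simpa using hup)
  obtain ⟨i, _, hi⟩ := Finset.mem_image.mp hu'
  rw [Subgroup.mem_zpowers_iff]
  refine ⟨(i : ℤ), ?_⟩
  rw [zpow_natCast]
  have := congrArg Subtype.val hi
  simpa using this

/-- In the generalized quaternion group, the centralizer of a non-central element is contained
in a cyclic subgroup. -/
theorem quat_centralizer {n : ℕ} [NeZero n] (q : QuaternionGroup n)
    (hq : ∃ q' : QuaternionGroup n, q * q' ≠ q' * q) :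
    ∃ q₀ : QuaternionGroup n, ∀ y : QuaternionGroup n, y * q = q * y → y ∈ Subgroup.zpowers q₀ := by
  obtain ⟨q', hq'⟩ := hq
  cases q with
  | a i =>
    -- the centralizer is the cyclic subgroup of the `a j`
    have hi : i ≠ -i := by
      intro h
      apply hq'
      cases q' with
      | a j => simp [add_comm]
      | xa j =>
        simp only [QuaternionGroup.a_mul_xa, QuaternionGroup.xa_mul_a]
        congr 1
        rw [sub_eq_add_neg, ← h]
    refine ⟨QuaternionGroup.a 1, ?_⟩
    intro y hy
    cases y with
    | a j =>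
      rw [Subgroup.mem_zpowers_iff]
      refine ⟨(j.val : ℤ), ?_⟩
      rw [zpow_natCast, QuaternionGroup.a_one_pow, ZMod.natCast_zmod_val]
    | xa j =>
      exfalso
      simp only [QuaternionGroup.a_mul_xa, QuaternionGroup.xa_mul_a] at hy
      have h1 : j + i = j - i := by
        injection hy
      apply hi
      have h2 : i = -i := by
        have := add_left_cancel (a := j) (b := i) (c := -i) (by rw [h1, sub_eq_add_neg])
        exact this
      exact h2
  | xa i =>
    refine ⟨QuaternionGroup.xa i, ?_⟩
    intro y hy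
    have hsq : (QuaternionGroup.xa i : QuaternionGroup n) ^ 2 = QuaternionGroup.a (n : ZMod (2 * n)) := by
      rw [pow_two, QuaternionGroup.xa_mul_xa]
      congr 1
      ring
    have hnn : ((n : ZMod (2 * n)) + (n : ZMod (2 * n))) = 0 := by
      have : ((2 * n : ℕ) : ZMod (2 * n)) = 0 := ZMod.natCast_self (2 * n)
      rw [← this]; push_cast; ring
    cases y with
    | a j =>
      simp only [QuaternionGroup.a_mul_xa, QuaternionGroup.xa_mul_a] at hy
      have h1 : i + j = i - j := by injection hy.symm
      have h2 : j = -j := by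
        have := add_left_cancel (a := i) (b := j) (c := -j) (by rw [h1, sub_eq_add_neg])
        exact this
      -- so `2 j = 0`, i.e. `j = 0` or `j = n`
      have h3 : j + j = 0 := by
        nth_rewrite 2 [h2]; exact add_neg_cancel j
      have h4 : j = 0 ∨ j = (n : ZMod (2 * n)) := by
        have hv : (j.val + j.val) % (2 * n) = 0 := by
          have := congrArg ZMod.val h3
          rw [ZMod.val_add, ZMod.val_zero] at this
          exact this
        have hlt : j.val < 2 * n := ZMod.val_lt j
        have hdvd : 2 * n ∣ j.val + j.val := Nat.dvd_of_mod_eq_zero hv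
        obtain ⟨c, hc⟩ := hdvd
        have hc2 : c = 0 ∨ c = 1 := by
          have : c < 2 := by
            by_contra hcon
            push Not at hcon
            have : 2 * n * 2 ≤ 2 * n * c := Nat.mul_le_mul_left _ hcon
            omega
          omega
        rcases hc2 with rfl | rfl
        · left
          have : j.val = 0 := by omega
          exact (ZMod.val_eq_zero j).mp this
        · right
          have hjv : j.val = n := by omega
          calc j = ((j.val : ℕ) : ZMod (2 * n)) := (ZMod.natCast_zmod_val j).symm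
            _ = (n : ZMod (2 * n)) := by rw [hjv]
      rcases h4 with rfl | rfl
      · rw [Subgroup.mem_zpowers_iff]
        exact ⟨0, by simp⟩
      · rw [← hsq]
        exact Subgroup.pow_mem _ (Subgroup.mem_zpowers _) 2
    | xa j =>
      simp only [QuaternionGroup.xa_mul_xa] at hy
      have h1 : (n : ZMod (2 * n)) + i - j = (n : ZMod (2 * n)) + j - i := by injection hy
      have h2 : (j - i) + (j - i) = 0 := by
        have : (n : ZMod (2 * n)) + j - i - ((n : ZMod (2 * n)) + i - j) = 0 := by rw [h1]; ring
        rw [← this]; ring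
      -- `j - i = 0` or `j - i = n`
      have h4 : j - i = 0 ∨ j - i = (n : ZMod (2 * n)) := by
        set d := j - i with hd
        have hv : (d.val + d.val) % (2 * n) = 0 := by
          have := congrArg ZMod.val h2
          rw [ZMod.val_add, ZMod.val_zero] at this
          exact this
        have hlt : d.val < 2 * n := ZMod.val_lt d
        have hdvd : 2 * n ∣ d.val + d.val := Nat.dvd_of_mod_eq_zero hv
        obtain ⟨c, hc⟩ := hdvd
        have hc2 : c = 0 ∨ c = 1 := by
          have : c < 2 := by
            by_contra hcon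
            push Not at hcon
            have : 2 * n * 2 ≤ 2 * n * c := Nat.mul_le_mul_left _ hcon
            omega
          omega
        rcases hc2 with rfl | rfl
        · left
          have : d.val = 0 := by omega
          exact (ZMod.val_eq_zero d).mp this
        · right
          have hjv : d.val = n := by omega
          calc d = ((d.val : ℕ) : ZMod (2 * n)) := (ZMod.natCast_zmod_val d).symm
            _ = (n : ZMod (2 * n)) := by rw [hjv]
      rcases h4 with h | h
      · have : j = i := sub_eq_zero.mp h
        rw [this]; exact Subgroup.mem_zpowers _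
      · -- `xa j = (xa i)^3`
        have hj : j = i + (n : ZMod (2 * n)) := by
          rw [← h]; ring
        have h3 : (QuaternionGroup.xa i : QuaternionGroup n) ^ 3 = QuaternionGroup.xa j := by
          rw [pow_succ, hsq, QuaternionGroup.a_mul_xa, hj]
          congr 1
          have : i - (n : ZMod (2 * n)) = i + (n : ZMod (2 * n)) - ((n : ZMod (2 * n)) + (n : ZMod (2 * n))) := by ring
          rw [this, hnn, sub_zero]
        rw [← h3]
        exact Subgroup.pow_mem _ (Subgroup.mem_zpowers _) 3

/-- The easy direction: in `Q_{2^(k+2)} × C_m`, `m` odd, centralizers of noncentral elements are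
cyclic. -/
theorem backward {G : Type*} [Group G] [Finite G] (k m : ℕ) (hm : Odd m)
    (e : G ≃* QuaternionGroup (2 ^ k) × Multiplicative (ZMod m)) (x : G)
    (hx : x ∉ Subgroup.center G) :
    IsCyclic (Subgroup.centralizer ({x} : Set G)) := by
  have : NeZero (2 ^ k) := ⟨by positivity⟩
  have hm0 : m ≠ 0 := by
    rintro rfl
    simp at hm
  have : NeZero m := ⟨hm0⟩
  -- the quaternion component of `x` is not central
  have hq : ∃ q' : QuaternionGroup (2 ^ k), (e x).1 * q' ≠ q' * (e x).1 := by
    by_contra hcon
    push Not at hcon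
    apply hx
    rw [Subgroup.mem_center_iff]
    intro g
    apply e.injective
    rw [map_mul, map_mul]
    apply Prod.ext
    · simp only [Prod.fst_mul]; exact (hcon (e g).1).symm
    · simp only [Prod.snd_mul]; exact mul_comm _ _
  obtain ⟨q₀, hq₀⟩ := quat_centralizer (e x).1 hq
  let b₀ : Multiplicative (ZMod m) := Multiplicative.ofAdd 1
  have hb : ∀ b : Multiplicative (ZMod m), ∃ t : ℕ, b₀ ^ t = b := by
    intro b
    refine ⟨(Multiplicative.toAdd b).val, ?_⟩
    show Multiplicative.ofAdd (1 : ZMod m) ^ (Multiplicative.toAdd b).val = b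
    rw [← ofAdd_nsmul, nsmul_eq_mul, mul_one, ZMod.natCast_zmod_val, ofAdd_toAdd]
  have hcop : (orderOf q₀).Coprime (orderOf b₀) := by
    have h1 : orderOf q₀ ∣ 4 * 2 ^ k := by
      have := orderOf_dvd_card (x := q₀)
      rwa [QuaternionGroup.card] at this
    have h2 : orderOf b₀ ∣ m := by
      have := orderOf_dvd_natCard b₀
      have hc : Nat.card (Multiplicative (ZMod m)) = m := by
        show Nat.card (ZMod m) = m
        rw [Nat.card_eq_fintype_card]
        exact ZMod.card m
      rwa [hc] at this
    have h3 : Nat.Coprime (4 * 2 ^ k) m := by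
      have h4 : Nat.Coprime 2 m := Nat.coprime_two_left.mpr hm
      have h5 : Nat.Coprime (2 ^ (k + 2)) m := Nat.Coprime.pow_left _ h4
      rwa [show 2 ^ (k + 2) = 4 * 2 ^ k by ring] at h5
    exact Nat.Coprime.coprime_dvd_left h1 (Nat.Coprime.coprime_dvd_right h2 h3)
  let g₀ : G := e.symm (q₀, b₀)
  have hle : Subgroup.centralizer ({x} : Set G) ≤ Subgroup.zpowers g₀ := by
    intro y hy
    rw [Subgroup.mem_centralizer_iff] at hy
    have hy' : y * x = x * y := (hy x (Set.mem_singleton x)).symm
    have h1 : (e y).1 * (e x).1 = (e x).1 * (e y).1 := by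
      have := congrArg (fun z => (e z).1) hy'
      simpa using this
    have h2 := hq₀ (e y).1 h1
    obtain ⟨s, hs⟩ : ∃ s : ℕ, q₀ ^ s = (e y).1 := by
      have := (mem_powers_iff_mem_zpowers).mpr h2
      exact (Submonoid.mem_powers_iff _ _).mp this
    obtain ⟨t, ht⟩ := hb (e y).2
    have h3 := prod_mem_zpowers q₀ b₀ hcop s t
    rw [hs, ht] at h3
    rw [Subgroup.mem_zpowers_iff] at h3 ⊢
    obtain ⟨r, hr⟩ := h3
    refine ⟨r, ?_⟩
    apply e.injective
    rw [map_zpow, MulEquiv.apply_symm_apply, hr]
  exact Subgroup.isCyclic_of_le hle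

/-- The main direction. -/
theorem forward {G : Type*} [Group G] [Finite G] (hG : Group.IsNilpotent G)
    (hna : ¬ IsMulCommutative G)
    (hcyc : ∀ x : G, x ∉ Subgroup.center G → IsCyclic (Subgroup.centralizer ({x} : Set G))) :
    ∃ (k m : ℕ), 1 ≤ k ∧ Odd m ∧
      Nonempty (G ≃* QuaternionGroup (2 ^ k) × Multiplicative (ZMod m)) := by
  classical
  have h1 : ∃ p : ℕ, p.Prime ∧ ∃ P : Sylow p G, ∃ a ∈ (P : Subgroup G), ∃ b ∈ (P : Subgroup G),
      a * b ≠ b * a := by
    by_contra hcon
    push Not at hcon
    apply hna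
    obtain ⟨e⟩ := ((Group.isNilpotent_of_finite_tfae (G := G)).out 0 4).mp hG
    refine ⟨⟨fun a b => ?_⟩⟩
    have key : ∀ u v : (∀ p : (Nat.card G).primeFactors, ∀ P : Sylow p G, (↑P : Subgroup G)),
        u * v = v * u := by
      intro u v
      funext p P
      apply Subtype.ext
      exact hcon p (Nat.prime_of_mem_primeFactors p.2) P _ (u p P).2 _ (v p P).2
    have h2 := congrArg e (key (e.symm a) (e.symm b))
    simpa using h2
  obtain ⟨p, hp, P, a, haP, b, hbP, hab⟩ := h1
  haveI : Fact p.Prime := ⟨hp⟩
  haveI hPn : (P : Subgroup G).Normal := inferInstance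
  obtain ⟨H, hH⟩ := Subgroup.exists_right_complement'_of_coprime (Sylow.card_coprime_index P)
  have hHcard : Nat.card H = (P : Subgroup G).index := by
    have h1 := hH.card_mul_card
    have h2 := Subgroup.card_mul_index (P : Subgroup G)
    rw [← h2] at h1
    exact Nat.eq_of_mul_eq_mul_left Nat.card_pos h1
  have hcop : (Nat.card H).Coprime p := by
    rw [hHcard]
    exact ((Nat.Prime.coprime_iff_not_dvd hp).mpr (Sylow.not_dvd_index P)).symm
  have hcomm : ∀ x ∈ (P : Subgroup G), ∀ h ∈ H, x * h = h * x := by
    intro x hx h hh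
    apply Cfsg.Agent.Lib.Helper34.commute_of_coprime_orderOf
    obtain ⟨k, hk⟩ := (IsPGroup.iff_orderOf.mp P.isPGroup') ⟨x, hx⟩
    rw [Subgroup.orderOf_mk] at hk
    rw [hk]
    apply Nat.Coprime.pow_left
    exact (Nat.Coprime.coprime_dvd_left (Subgroup.orderOf_dvd_natCard H hh) hcop).symm
  -- `a` is non-central in `G`
  have haZ : a ∉ Subgroup.center G := by
    intro h
    exact hab ((Subgroup.mem_center_iff.mp h b).symm)
  have hCa := hcyc a haZ
  -- `H` is cyclic
  have hHle : H ≤ Subgroup.centralizer ({a} : Set G) := by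
    intro h hh
    rw [Subgroup.mem_centralizer_singleton_iff]
    exact (hcomm a haP h hh).symm
  have hHcyc : IsCyclic H := Subgroup.isCyclic_of_le hHle
  -- a central element of order `p` in `P`
  have hPnt : Nontrivial (P : Subgroup G) := by
    refine ⟨⟨⟨a, haP⟩, 1, ?_⟩⟩
    intro h
    apply hab
    have : a = 1 := congrArg Subtype.val h
    rw [this]; simp
  have hz : ∃ z ∈ (P : Subgroup G), orderOf z = p ∧ ∀ y ∈ (P : Subgroup G), y * z = z * y := by
    have hcn := P.isPGroup'.center_nontrivial
    have hdvd : p ∣ Nat.card (Subgroup.center (P : Subgroup G)) := by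
      have hpg : IsPGroup p (Subgroup.center (P : Subgroup G)) := P.isPGroup'.to_subgroup _
      obtain ⟨n, hn⟩ := IsPGroup.iff_card.mp hpg
      rw [hn]
      have hn0 : n ≠ 0 := by
        rintro rfl
        rw [pow_zero] at hn
        have := Finite.one_lt_card_iff_nontrivial.mpr hcn
        omega
      exact dvd_pow_self p hn0
    obtain ⟨z, hz⟩ := exists_prime_orderOf_dvd_card' p hdvd
    refine ⟨((z : (P : Subgroup G)) : G), (z : (P : Subgroup G)).2, ?_, ?_⟩
    · rw [Subgroup.orderOf_coe, Subgroup.orderOf_coe]; exact hz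
    · intro y hy
      have := Subgroup.mem_center_iff.mp z.2 ⟨y, hy⟩
      exact congrArg Subtype.val this
  obtain ⟨z, hzP, hzp, hzc⟩ := hz
  -- every `u ∈ P` with `u ^ p = 1` lies in `zpowers z`
  have hkey : ∀ u ∈ (P : Subgroup G), u ^ p = 1 → u ∈ Subgroup.zpowers z := by
    intro u hu hup
    by_cases hua : u * a = a * u
    · apply mem_zpowers_of_cyclic _ hCa p hp.pos z u _ _ hzp hup
      · rw [Subgroup.mem_centralizer_singleton_iff]; exact (hzc a haP).symm
      · rw [Subgroup.mem_centralizer_singleton_iff]; exact hua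
    · have huZ : u ∉ Subgroup.center G :=
        fun h => hua ((Subgroup.mem_center_iff.mp h a).symm)
      apply mem_zpowers_of_cyclic _ (hcyc u huZ) p hp.pos z u _ _ hzp hup
      · rw [Subgroup.mem_centralizer_singleton_iff]; exact (hzc u hu).symm
      · rw [Subgroup.mem_centralizer_singleton_iff]
  -- uniqueness of the subgroup of order `p` in `P`
  have huniq : ∀ K₁ K₂ : Subgroup (P : Subgroup G), Nat.card K₁ = p → Nat.card K₂ = p →
      K₁ = K₂ := by
    let Z' : Subgroup (P : Subgroup G) := Subgroup.zpowers ⟨z, hzP⟩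
    have hZ'card : Nat.card Z' = p := by
      rw [Nat.card_zpowers, Subgroup.orderOf_mk]; exact hzp
    have hsub : ∀ K : Subgroup (P : Subgroup G), Nat.card K = p → K = Z' := by
      intro K hK
      apply Subgroup.eq_of_le_of_card_ge
      · intro k hk
        have hkp : k ^ p = 1 := by
          have h0 : (⟨k, hk⟩ : K) ^ Nat.card K = 1 := pow_card_eq_one'
          rw [hK] at h0
          have := congrArg Subtype.val h0
          simpa using this
        have h1 : ((k : G)) ^ p = 1 := by
          have := congrArg Subtype.val hkp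
          simpa using this
        have h2 := hkey (k : G) k.2 h1
        rw [Subgroup.mem_zpowers_iff] at h2 ⊢
        obtain ⟨r, hr⟩ := h2
        refine ⟨r, ?_⟩
        apply Subtype.ext
        simpa using hr
      · rw [hK, hZ'card]
    intro K₁ K₂ h1 h2
    rw [hsub K₁ h1, hsub K₂ h2]
  have h16 := Cfsg.Agent.S0016.result (G := (P : Subgroup G)) p P.isPGroup' huniq
  have hPnc : ¬ (∀ u v : (P : Subgroup G), u * v = v * u) := by
    intro h
    apply hab
    have := h ⟨a, haP⟩ ⟨b, hbP⟩
    exact congrArg Subtype.val this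
  rcases h16 with hc | ⟨hp2, n, ⟨e₁⟩⟩
  · exfalso
    apply hPnc
    intro u v
    have hcm : IsMulCommutative (P : Subgroup G) := IsCyclic.isMulCommutative
    exact hcm.is_comm.comm u v
  · subst hp2
    have hn : 1 ≤ n := by
      by_contra hcon
      have hn0 : n = 0 := by omega
      subst hn0
      apply hPnc
      have hcard : Nat.card (P : Subgroup G) = 2 ^ 2 := by
        rw [Nat.card_congr e₁.toEquiv, Nat.card_eq_fintype_card, QuaternionGroup.card]
        norm_num
      exact fun u v => (IsPGroup.isMulCommutative_of_card_eq_prime_sq hcard).is_comm.comm u v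
    have hmodd : Odd (Nat.card H) := Nat.Coprime.odd_of_right hcop
    have e₂ : Multiplicative (ZMod (Nat.card H)) ≃* H := zmodCyclicMulEquiv hHcyc
    let f : ↥(P : Subgroup G) × ↥H →* G :=
      MonoidHom.noncommCoprod (P : Subgroup G).subtype H.subtype
        (fun x h => hcomm x x.2 h h.2)
    have hf : Function.Bijective f := hH
    exact ⟨n, Nat.card H, hn, hmodd,
      ⟨(MulEquiv.ofBijective f hf).symm.trans (MulEquiv.prodCongr e₁ e₂.symm)⟩⟩

/-- Let G be a finite non-abelian nilpotent group. Then the centralizer of every non-central element of G is cyclic if and only if G is isomorphic to the direct product of a generalized quaternion group and a cyclic group of odd order. -/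
theorem result {G : Type*} [Group G] [Finite G] (hG : Group.IsNilpotent G)
    (hna : ¬ IsMulCommutative G) :
    (∀ x : G, x ∉ Subgroup.center G → IsCyclic (Subgroup.centralizer ({x} : Set G))) ↔
      ∃ (k m : ℕ), 1 ≤ k ∧ Odd m ∧ Nonempty (G ≃* QuaternionGroup (2 ^ k) × Multiplicative (ZMod m)) := by
  constructor
  · intro h
    exact forward hG hna h
  · rintro ⟨k, m, _, hm, ⟨e⟩⟩ x hx
    exact backward k m hm e x hx

end Cfsg.Agent.S4370
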