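import Cfsg.Statements.S4377
import Mathlib

set_option autoImplicit false
open Cfsg

namespace Cfsg.Agent.S4377

theorem card_pow_eq_one_eq_sum {G : Type*} [Group G] [Finite G] {n : ℕ} (hn : n ≠ 0) :
    Nat.card {g : G // g ^ n = 1} = ∑ d ∈ n.divisors, Nat.card {g : G // orderOf g = d} := by
  classical
  have := Fintype.ofFinite G
  have h1 : Nat.card {g : G // g ^ n = 1} = (Finset.univ.filter (fun g : G => g ^ n = 1)).card := by
    rw [Nat.card_eq_fintype_card, Fintype.card_subtype]
  have h2 : ∀ d : ℕ, Nat.card {g : G // orderOf g = d}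
      = (Finset.univ.filter (fun g : G => orderOf g = d)).card := by
    intro d
    rw [Nat.card_eq_fintype_card, Fintype.card_subtype]
  rw [h1]
  simp_rw [h2]
  rw [Finset.card_eq_sum_card_fiberwise (f := fun g : G => orderOf g) (t := n.divisors)]
  · apply Finset.sum_congr rfl
    intro d hd
    congr 1
    ext g
    simp only [Finset.mem_filter, Finset.mem_univ, true_and]
    constructor
    · rintro ⟨_, h⟩; exact h
    · intro h
      refine ⟨?_, h⟩
      rw [← orderOf_dvd_iff_pow_eq_one, h]
      exact Nat.dvd_of_mem_divisors hd
  · intro g hg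
    simp only [Finset.coe_filter, Finset.mem_univ, true_and, Set.mem_ofPred_eq] at hg
    simp only [Finset.mem_coe, Nat.mem_divisors]
    exact ⟨orderOf_dvd_of_pow_eq_one hg, hn⟩

theorem card_orderOf_zero {G : Type*} [Group G] [Finite G] :
    Nat.card {g : G // orderOf g = 0} = 0 := by
  have : IsEmpty {g : G // orderOf g = 0} := by
    constructor
    rintro ⟨g, hg⟩
    exact (orderOf_pos g).ne' hg
  exact Nat.card_of_isEmpty

theorem card_pow_zero {G : Type*} [Group G] [Finite G] :
    Nat.card {g : G // g ^ 0 = 1} = Nat.card G := by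
  apply Nat.card_congr
  exact Equiv.subtypeUnivEquiv (fun g => pow_zero g)

theorem card_pow_card {G : Type*} [Group G] [Finite G] (m : ℕ) :
    Nat.card {g : G // g ^ (Nat.card G * m) = 1} = Nat.card G := by
  apply Nat.card_congr
  exact Equiv.subtypeUnivEquiv (fun g => by rw [pow_mul, pow_card_eq_one', one_pow])

theorem result {G H : Type*} [Group G] [Finite G] [Group H] [Finite H] :
    (∀ n : ℕ, Nat.card {g : G // orderOf g = n} = Nat.card {h : H // orderOf h = n}) ↔
      ∀ n : ℕ, Nat.card {g : G // g ^ n = 1} = Nat.card {h : H // h ^ n = 1} := by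
  constructor
  · intro h n
    have key : ∀ m : ℕ, m ≠ 0 →
        Nat.card {g : G // g ^ m = 1} = Nat.card {h : H // h ^ m = 1} := by
      intro m hm
      rw [card_pow_eq_one_eq_sum hm, card_pow_eq_one_eq_sum hm]
      exact Finset.sum_congr rfl (fun d _ => h d)
    rcases Nat.eq_zero_or_pos n with hn | hn
    · subst hn
      rw [card_pow_zero, card_pow_zero]
      have hG : 0 < Nat.card G := Nat.card_pos
      have hH : 0 < Nat.card H := Nat.card_pos
      have := key (Nat.card G * Nat.card H) (Nat.mul_pos hG hH).ne'
      rw [card_pow_card] at this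
      rw [mul_comm, card_pow_card] at this
      exact this
    · exact key n hn.ne'
  · intro h n
    induction n using Nat.strong_induction_on with
    | _ n ih =>
      rcases Nat.eq_zero_or_pos n with hn | hn
      · subst hn
        rw [card_orderOf_zero, card_orderOf_zero]
      · have hG := card_pow_eq_one_eq_sum (G := G) hn.ne'
        have hH := card_pow_eq_one_eq_sum (G := H) hn.ne'
        rw [← Nat.cons_self_properDivisors hn.ne', Finset.sum_cons] at hG hH
        have hs : ∑ d ∈ n.properDivisors, Nat.card {g : G // orderOf g = d}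
            = ∑ d ∈ n.properDivisors, Nat.card {g : H // orderOf g = d} :=
          Finset.sum_congr rfl (fun d hd => ih d (Nat.mem_properDivisors.mp hd).2)
        have := h n
        omega

end Cfsg.Agent.S4377
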