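import Cfsg.Statements.S4378
import Cfsg.Agent.Lib.Helper77.MaxPrimeIdx

set_option autoImplicit false
open Cfsg

namespace Cfsg.Agent.S4378

open Cfsg.Agent.Lib.Helper30 Cfsg.Agent.Lib.Helper77

/-- Let G be a finite solvable group in which every maximal subgroup either has a normal 2-complement or has prime index. Then G has a chain of normal subgroups 1 ≤ A ≤ B ≤ C ≤ G in which A and C/B have odd order and B/A and G/C are 2-groups (so the 2-length of G is at most 2). -/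
theorem result {G : Type*} [Group G] [Finite G]
    (hG : Group.IsSolvable G)
    (hmax : ∀ M : Subgroup G, IsCoatom M → (∃ K : Subgroup ↥M, K.Normal ∧ ¬ 2 ∣ Nat.card K ∧ ∃ k : ℕ, K.index = 2 ^ k) ∨ (M.index).Prime) :
    ∃ A B C : Subgroup G, A.Normal ∧ B.Normal ∧ C.Normal ∧ A ≤ B ∧ B ≤ C ∧ Odd (Nat.card A) ∧
      (∃ k : ℕ, A.relIndex B = 2 ^ k) ∧ Odd (B.relIndex C) ∧ ∃ k : ℕ, C.index = 2 ^ k := by
  haveI : Fact (Nat.Prime 2) := ⟨Nat.prime_two⟩
  haveI hAn : (pPrimeCore 2 G).Normal := pPrimeCore_normal 2 G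
  have hmax₁ := hmax_quotient 2 (pPrimeCore 2 G) hmax
  have hO₁ : pPrimeCore 2 (G ⧸ pPrimeCore 2 G) = ⊥ := pPrimeCore_quotient_eq_bot 2
  haveI hTn : (pCore 2 (G ⧸ pPrimeCore 2 G)).Normal := pCore_normal 2 _
  have hcent := centralizer_pCore_le_of_isSolvable 2 hO₁
  have hquot : Nontrivial ((G ⧸ pPrimeCore 2 G) ⧸ pCore 2 (G ⧸ pPrimeCore 2 G)) →
      pPrimeCore 2 ((G ⧸ pPrimeCore 2 G) ⧸ pCore 2 (G ⧸ pPrimeCore 2 G)) ≠ ⊥ := by
    intro hnt
    exact pPrimeCore_ne_bot_of_centralizer 2 (pCore_quotient_pCore_eq_bot 2)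
      (fun h => centralizer_pCore_le_of_isSolvable 2 h)
  obtain ⟨C₁, D₁, hCn, hDn, hTC, hCD, hcop, ⟨k, hk⟩, hD⟩ :=
    exists_chain_of_max 2 hcent hquot hmax₁
  have hD1 : D₁.index = 1 := by
    by_contra hne
    obtain ⟨r, hr, hrd⟩ := Nat.exists_prime_and_dvd hne
    have h1 := hD r hr hrd
    have h2 := hr.two_le
    omega
  have hDtop : D₁ = ⊤ := Subgroup.index_eq_one.mp hD1
  rw [hDtop, Subgroup.relIndex_top_right] at hk
  have hsurj := QuotientGroup.mk'_surjective (pPrimeCore 2 G)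
  refine ⟨pPrimeCore 2 G, (pCore 2 (G ⧸ pPrimeCore 2 G)).comap (QuotientGroup.mk' _),
    C₁.comap (QuotientGroup.mk' _), hAn, hTn.comap _, hCn.comap _, le_comap_mk' _ _,
    Subgroup.comap_mono hTC, ?_, ?_, ?_, ⟨k, ?_⟩⟩
  · exact Nat.Coprime.odd_of_right (pPrimeCore_coprime (G := G) 2)
  · obtain ⟨j, hj⟩ := IsPGroup.iff_card.mp (pCore_isPGroup 2 (G := G ⧸ pPrimeCore 2 G))
    refine ⟨j, ?_⟩
    have h1 := Subgroup.relIndex_ker
      (K := (pCore 2 (G ⧸ pPrimeCore 2 G)).comap (QuotientGroup.mk' (pPrimeCore 2 G)))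
      (QuotientGroup.mk' (pPrimeCore 2 G))
    rw [QuotientGroup.ker_mk'] at h1
    rw [h1, Subgroup.map_comap_eq_self_of_surjective hsurj, hj]
  · rw [Subgroup.relIndex_comap, Subgroup.map_comap_eq_self_of_surjective hsurj]
    exact Nat.Coprime.odd_of_right hcop
  · rw [Subgroup.index_comap_of_surjective _ hsurj, hk]

end Cfsg.Agent.S4378
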