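import Cfsg.Statements.S4379
import Cfsg.Agent.Lib.Helper77.MaxPrimeIdx
import Cfsg.Agent.Lib.Helper40.HallHigman
import Cfsg.Agent.Lib.Helper75.FrattiniAct

set_option autoImplicit false
open Cfsg

namespace Cfsg.Agent.S4379

open Cfsg.Agent.Lib.Helper30 Cfsg.Agent.Lib.Helper77

/-- Let p be an odd prime and G a finite p-solvable group in which every maximal subgroup either has a normal p-complement or has prime index. Then G has a chain of normal subgroups 1 ≤ A ≤ B ≤ C ≤ D ≤ G in which A, C/B and G/D have order prime to p and B/A and D/C are p-groups (so the p-length of G is at most 2). -/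
theorem result {G : Type*} [Group G] [Finite G]
    (p : ℕ) [Fact p.Prime] (hp : p ≠ 2) (hG : Cfsg.IsPSolvable p G)
    (hmax : ∀ M : Subgroup G, IsCoatom M → (∃ K : Subgroup ↥M, K.Normal ∧ ¬ p ∣ Nat.card K ∧ ∃ k : ℕ, K.index = p ^ k) ∨ (M.index).Prime) :
    ∃ A B C D : Subgroup G, A.Normal ∧ B.Normal ∧ C.Normal ∧ D.Normal ∧ A ≤ B ∧ B ≤ C ∧ C ≤ D ∧ ¬ p ∣ Nat.card A ∧
      (∃ k : ℕ, A.relIndex B = p ^ k) ∧ ¬ p ∣ B.relIndex C ∧ (∃ k : ℕ, C.relIndex D = p ^ k) ∧ ¬ p ∣ D.index := by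
  have hpp : p.Prime := Fact.out
  haveI hAn : (pPrimeCore p G).Normal := pPrimeCore_normal p G
  have hmax₁ := hmax_quotient p (pPrimeCore p G) hmax
  have hO₁ : pPrimeCore p (G ⧸ pPrimeCore p G) = ⊥ := pPrimeCore_quotient_eq_bot p
  have hS₁ : IsPSolvable p (G ⧸ pPrimeCore p G) :=
    Cfsg.Agent.Lib.Helper75.Fratt.isPSolvable_quotient _ hG
  haveI hTn : (pCore p (G ⧸ pPrimeCore p G)).Normal := pCore_normal p _
  have hcent := Cfsg.Agent.Lib.Helper40.centralizer_pCore_le hS₁ hO₁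
  have hS₂ : IsPSolvable p ((G ⧸ pPrimeCore p G) ⧸ pCore p (G ⧸ pPrimeCore p G)) :=
    Cfsg.Agent.Lib.Helper75.Fratt.isPSolvable_quotient _ hS₁
  have hquot : Nontrivial ((G ⧸ pPrimeCore p G) ⧸ pCore p (G ⧸ pPrimeCore p G)) →
      pPrimeCore p ((G ⧸ pPrimeCore p G) ⧸ pCore p (G ⧸ pPrimeCore p G)) ≠ ⊥ := by
    intro hnt
    exact pPrimeCore_ne_bot_of_centralizer p (pCore_quotient_pCore_eq_bot p)
      (fun h => Cfsg.Agent.Lib.Helper40.centralizer_pCore_le hS₂ h)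
  obtain ⟨C₁, D₁, hCn, hDn, hTC, hCD, hcop, ⟨k, hk⟩, hD⟩ :=
    exists_chain_of_max p hcent hquot hmax₁
  have hsurj := QuotientGroup.mk'_surjective (pPrimeCore p G)
  refine ⟨pPrimeCore p G, (pCore p (G ⧸ pPrimeCore p G)).comap (QuotientGroup.mk' _),
    C₁.comap (QuotientGroup.mk' _), D₁.comap (QuotientGroup.mk' _), hAn, hTn.comap _,
    hCn.comap _, hDn.comap _, le_comap_mk' _ _, Subgroup.comap_mono hTC,
    Subgroup.comap_mono hCD, ?_, ?_, ?_, ⟨k, ?_⟩, ?_⟩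
  · exact hpp.coprime_iff_not_dvd.mp (Nat.Coprime.symm (pPrimeCore_coprime (G := G) p))
  · obtain ⟨j, hj⟩ := IsPGroup.iff_card.mp (pCore_isPGroup p (G := G ⧸ pPrimeCore p G))
    refine ⟨j, ?_⟩
    have h1 := Subgroup.relIndex_ker
      (K := (pCore p (G ⧸ pPrimeCore p G)).comap (QuotientGroup.mk' (pPrimeCore p G)))
      (QuotientGroup.mk' (pPrimeCore p G))
    rw [QuotientGroup.ker_mk'] at h1
    rw [h1, Subgroup.map_comap_eq_self_of_surjective hsurj, hj]
  · rw [Subgroup.relIndex_comap, Subgroup.map_comap_eq_self_of_surjective hsurj]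
    exact hpp.coprime_iff_not_dvd.mp (Nat.Coprime.symm hcop)
  · rw [Subgroup.relIndex_comap, Subgroup.map_comap_eq_self_of_surjective hsurj, hk]
  · rw [Subgroup.index_comap_of_surjective _ hsurj]
    intro hd
    exact lt_irrefl p (hD p hpp hd)

end Cfsg.Agent.S4379
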