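import Cfsg.Statements.S4387

set_option autoImplicit false
open Pointwise
open Cfsg

namespace Cfsg.Agent.S4387

/-- A finite group is not the union of the conjugates of a proper subgroup. -/
theorem exists_not_mem_conj {G : Type*} [Group G] [Finite G] (H : Subgroup G) (hH : H ≠ ⊤) :
    ∃ x : G, ∀ g : G, g⁻¹ * x * g ∉ H := by
  classical
  by_contra hcon
  push Not at hcon
  let F : (G ⧸ H) × H → G := fun qh => qh.1.out * (qh.2 : G) * (qh.1.out)⁻¹
  have hsurj : Function.Surjective F := by
    intro x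
    obtain ⟨g, hg⟩ := hcon x
    obtain ⟨h', hh'⟩ := QuotientGroup.mk_out_eq_mul H g
    refine ⟨(QuotientGroup.mk g, ⟨(h' : G)⁻¹ * (g⁻¹ * x * g) * h', ?_⟩), ?_⟩
    · exact mul_mem (mul_mem (inv_mem h'.2) hg) h'.2
    · simp only [F]
      rw [hh']
      group
  have hbij := hsurj.bijective_of_nat_card_le
    (by rw [Nat.card_prod, ← Subgroup.card_eq_card_quotient_mul_card_subgroup])
  obtain ⟨y, hy⟩ : ∃ y : G, y ∉ H := by
    by_contra h
    push Not at h
    exact hH (eq_top_iff.mpr fun x _ => h x)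
  have h1 : ((QuotientGroup.mk y : G ⧸ H), (1 : H)) = ((QuotientGroup.mk 1 : G ⧸ H), (1 : H)) :=
    hbij.1 (by simp [F])
  have h2 := (Prod.ext_iff.mp h1).1
  rw [QuotientGroup.eq] at h2
  exact hy (by simpa using h2)

/-- Let G be a non-trivial finite group in which any two maximal subgroups are conjugate. Then G is cyclic of prime-power order. -/
theorem result {G : Type*} [Group G] [Finite G] [Nontrivial G]
    (h : ∀ M N : Subgroup G, IsCoatom M → IsCoatom N → ∃ g : G, N = MulAut.conj g • M) :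
    IsCyclic G ∧ IsPrimePow (Nat.card G) := by
  classical
  obtain ⟨M, hM, -⟩ := (eq_top_or_exists_le_coatom (⊥ : Subgroup G)).resolve_left bot_ne_top
  obtain ⟨x, hx⟩ := exists_not_mem_conj M hM.1
  have hxtop : Subgroup.zpowers x = ⊤ := by
    by_contra hne
    obtain ⟨N, hN, hxN⟩ := (eq_top_or_exists_le_coatom (Subgroup.zpowers x)).resolve_left hne
    obtain ⟨g, rfl⟩ := h M N hM hN
    have hxm := hxN (Subgroup.mem_zpowers x)
    rw [Subgroup.mem_pointwise_smul_iff_inv_smul_mem] at hxm
    apply hx g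
    simpa [MulAut.smul_def] using hxm
  have hcyc : IsCyclic G := isCyclic_iff_exists_zpowers_eq_top.mpr ⟨x, hxtop⟩
  refine ⟨hcyc, ?_⟩
  have hcomm : ∀ a b : G, a * b = b * a := fun a b =>
    (IsCyclic.isMulCommutative (α := G)).is_comm.comm a b
  have hMidx : M.index ≠ 1 := fun h1 => hM.1 (Subgroup.index_eq_one.mp h1)
  obtain ⟨p, hp, hpM⟩ := Nat.exists_prime_and_dvd hMidx
  have : Fact p.Prime := ⟨hp⟩
  obtain ⟨P⟩ := (inferInstance : Nonempty (Sylow p G))
  by_cases hPtop : (P : Subgroup G) = ⊤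
  · obtain ⟨n, hn⟩ := IsPGroup.iff_card.mp P.2
    have hcard : Nat.card G = p ^ n := by
      rw [← hn, hPtop, Subgroup.card_top]
    rw [hcard]
    have hn0 : n ≠ 0 := by
      rintro rfl
      have := Finite.one_lt_card (α := G)
      rw [hcard, pow_zero] at this
      omega
    exact (Nat.prime_iff.mp hp).isPrimePow.pow hn0
  · exfalso
    obtain ⟨N, hN, hPN⟩ := (eq_top_or_exists_le_coatom (P : Subgroup G)).resolve_left hPtop
    obtain ⟨g, rfl⟩ := h M N hM hN
    have hPM : (P : Subgroup G) ≤ M := by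
      intro y hy
      have hym := hPN hy
      rw [Subgroup.mem_pointwise_smul_iff_inv_smul_mem] at hym
      have : g⁻¹ * y * g = y := by rw [hcomm g⁻¹ y, inv_mul_cancel_right]
      simpa [MulAut.smul_def, this] using hym
    exact P.not_dvd_index (hpM.trans (Subgroup.index_dvd_of_le hPM))

end Cfsg.Agent.S4387
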