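import Cfsg.Statements.S4396
import Cfsg.Agent.Lib.Helper77.FrobFreeG

set_option autoImplicit false
open Cfsg

namespace Cfsg.Agent.S4396

/-- Let the finite group A act faithfully and linearly on a finite-dimensional vector space V over a field k, and suppose A is a Frobenius group with nilpotent kernel F (every Frobenius kernel is nilpotent) and complement H such that F fixes no nonzero vector. Then V is free as a module for H: there is a subspace W with V the direct sum of the translates hW, h ∈ H. (No assumption on the characteristic of k.) -/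
theorem result {k V A : Type*} [Field k] [AddCommGroup V] [Module k V] [FiniteDimensional k V] [Group A] [Finite A] [DecidableEq A]
    (ρ : Representation k A V) (hρ : Function.Injective ρ)
    (Fk Hc : Subgroup A) [Fk.Normal] (hHc : Cfsg.IsFrobeniusComplement Hc) (hker : Cfsg.frobeniusKernel Hc = (Fk : Set A)) (hnil : Group.IsNilpotent ↥Fk)
    (hCF : ∀ v : V, (∀ f ∈ Fk, ρ f v = v) → v = 0) :
    ∃ W : Submodule k V, DirectSum.IsInternal (fun h : ↥Hc => W.map (ρ (h : A))) := by
  haveI : Fintype ↥Hc := Fintype.ofFinite _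
  let φ : ↥Fk →* Module.End k V := ρ.comp Fk.subtype
  let ψ : ↥Hc →* Module.End k V := ρ.comp Hc.subtype
  have hN : ∀ (h : ↥Hc) (f : ↥Fk), ∃ f' : ↥Fk, ψ h * φ f = φ f' * ψ h := by
    intro h f
    refine ⟨⟨(h : A) * f * (h : A)⁻¹, ‹Fk.Normal›.conj_mem f f.2 h⟩, ?_⟩
    show ρ h * ρ f = ρ ((h : A) * f * (h : A)⁻¹) * ρ h
    rw [← map_mul, ← map_mul, inv_mul_cancel_right]
  have hGP : ∀ h : ↥Hc, h ≠ 1 → ∀ f : ↥Fk, ψ h * φ f = φ f * ψ h → φ f = 1 := by
    intro h hh f hcomm
    have h1 : (h : A) * f = f * h := by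
      apply hρ
      rw [map_mul, map_mul]
      exact hcomm
    have hf1 : (f : A) = 1 := by
      by_contra hf
      have hmem : (f : A) ∈ Cfsg.frobeniusKernel Hc := by
        rw [hker]
        exact f.2
      rcases hmem with h2 | h2
      · exact hf h2
      · have hfH : (f : A) ∉ Hc := by
          intro hfH
          have := h2 1
          rw [map_one, one_smul] at this
          exact this hfH
        have h3 := hHc.2.2 (f : A) hfH
        have h5 := Subgroup.smul_mem_pointwise_smul (h : A) (MulAut.conj (f : A)) Hc h.2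
        have h6 : MulAut.conj (f : A) • (h : A) = h := by
          rw [MulAut.smul_def, MulAut.conj_apply, ← h1, mul_inv_cancel_right]
        rw [h6] at h5
        have h4 : (h : A) ∈ (⊥ : Subgroup A) := by
          rw [← h3]
          exact ⟨h.2, h5⟩
        rw [Subgroup.mem_bot] at h4
        exact hh (Subtype.ext h4)
    show ρ f = 1
    rw [hf1, map_one]
  have hC : ∀ v : V, (∀ f : ↥Fk, φ f v = v) → v = 0 :=
    fun v hv => hCF v (fun f hf => hv ⟨f, hf⟩)
  obtain ⟨W, hW⟩ := Cfsg.Agent.Lib.Helper77.FrobFree.thmT hnil _ V φ ψ hN hGP hC rfl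
  exact ⟨W, Cfsg.Agent.Lib.Helper77.FrobFree.isInternal_of_fd ψ W hW⟩

end Cfsg.Agent.S4396
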