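import Cfsg.Statements.S4397
import Cfsg.Agent.Lib.Helper66.PAct

set_option autoImplicit false
open Cfsg
open scoped commutatorElement

namespace Cfsg.Agent.S4397

universe u

/-- A group of exponent two is commutative. -/
theorem comm_of_sq {E : Type*} [Group E] (h : ∀ a : E, a ^ 2 = 1) (a b : E) : a * b = b * a := by
  have ha : a⁻¹ = a := inv_eq_of_mul_eq_one_left (by rw [← pow_two]; exact h a)
  have hb : b⁻¹ = b := inv_eq_of_mul_eq_one_left (by rw [← pow_two]; exact h b)
  have hab : (a * b)⁻¹ = a * b := inv_eq_of_mul_eq_one_left (by rw [← pow_two]; exact h _)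
  rw [mul_inv_rev, ha, hb] at hab
  exact hab.symm

/-- Section form of "sectional 2-rank at most 2": a section of exponent two has order at
most four. -/
def R2 (G : Type*) [Group G] : Prop :=
  ∀ T N : Subgroup G, N ≤ T → (∀ t ∈ T, ∀ n ∈ N, t * n * t⁻¹ ∈ N) → (∀ t ∈ T, t ^ 2 ∈ N) →
    N.relIndex T ≤ 4

theorem r2_of_sectional {G : Type*} [Group G] (hr : SectionalPRankLE 2 2 G) : R2 G := by
  intro T N hNT hnorm hsq
  have hNn : (N.subgroupOf T).Normal := by
    constructor
    intro n hn t
    rw [Subgroup.mem_subgroupOf] at hn ⊢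
    exact hnorm t.1 t.2 n.1 hn
  have hsqE : ∀ a : ↥T ⧸ N.subgroupOf T, a ^ 2 = 1 := by
    intro a
    induction a using QuotientGroup.induction_on with
    | H t =>
      rw [← QuotientGroup.mk_pow, QuotientGroup.eq_one_iff, Subgroup.mem_subgroupOf]
      exact hsq t.1 t.2
  have h := hr T (N.subgroupOf T) (⊤ : Subgroup (↥T ⧸ N.subgroupOf T))
    ⟨⟨fun a b => Subtype.ext (comm_of_sq hsqE a.1 b.1)⟩⟩ (fun a _ => hsqE a)
  rw [Subgroup.card_top] at h
  have h4 : (2 : ℕ) ^ 2 = 4 := by norm_num
  rw [h4] at h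
  exact h

theorem r2_quotient {G : Type*} [Group G] (hR : R2 G) (M : Subgroup G) [M.Normal] :
    R2 (G ⧸ M) := by
  intro T N hNT hnorm hsq
  have h := hR (T.comap (QuotientGroup.mk' M)) (N.comap (QuotientGroup.mk' M))
    (Subgroup.comap_mono hNT)
    (by
      intro t ht n hn
      rw [Subgroup.mem_comap] at ht hn ⊢
      rw [map_mul, map_mul, map_inv]
      exact hnorm _ ht _ hn)
    (by
      intro t ht
      rw [Subgroup.mem_comap] at ht ⊢
      rw [map_pow]; exact hsq _ ht)
  rw [Subgroup.relIndex_comap] at h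
  rwa [Subgroup.map_comap_eq_self_of_surjective (QuotientGroup.mk'_surjective M)] at h

section pairs

variable {G : Type*} [Group G]

theorem cc {c : G} (hc : c ∈ Subgroup.center G) (g : G) : Commute c g :=
  (Subgroup.mem_center_iff.mp hc g).symm

/-- A generating pair with commutator `c`. -/
structure Pr (c x y : G) : Prop where
  gen : Subgroup.closure ({x, y} : Set G) = ⊤
  rel : x * y = y * x * c

theorem Pr.symm {c x y : G} (hc2 : c ^ 2 = 1) (h : Pr c x y) : Pr c y x := by
  refine ⟨by rw [Set.pair_comm]; exact h.gen, ?_⟩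
  rw [h.rel, mul_assoc, ← pow_two, hc2, mul_one]

theorem Pr.conjA {c x y : G} (h : Pr c x y) : y⁻¹ * x * y = x * c := by
  rw [mul_assoc, h.rel]; group

theorem Pr.conjB {c x y : G} (hc : c ∈ Subgroup.center G) (h : Pr c x y) :
    x * y * x⁻¹ = y * c := by
  rw [h.rel, mul_assoc, (cc hc x⁻¹).eq]; group

theorem conj_pow_central {a b z : G} (hz : z ∈ Subgroup.center G) (h : b⁻¹ * a * b = a * z)
    (n : ℕ) : b⁻¹ * a ^ n * b = a ^ n * z ^ n := by
  have h1 : (b⁻¹ * a * b) ^ n = b⁻¹ * a ^ n * b := by
    have := @conj_pow G _ n b⁻¹ a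
    rwa [inv_inv] at this
  rw [← h1, h, (cc hz a).symm.mul_pow]

theorem Pr.sq_comm {c x y : G} (hc : c ∈ Subgroup.center G) (hc2 : c ^ 2 = 1) (h : Pr c x y) :
    Commute (x ^ 2) y := by
  have h1 := conj_pow_central hc h.conjA 2
  rw [hc2, mul_one] at h1
  show x ^ 2 * y = y * x ^ 2
  calc x ^ 2 * y = y * (y⁻¹ * x ^ 2 * y) := by group
    _ = y * x ^ 2 := by rw [h1]

theorem Pr.mem_center {c x y : G} (h : Pr c x y) (z : G) (hx : Commute z x) (hy : Commute z y) :
    z ∈ Subgroup.center G := by
  have hle : Subgroup.closure ({x, y} : Set G) ≤ Subgroup.centralizer {z} := by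
    rw [Subgroup.closure_le]
    rintro w (rfl | rfl)
    · rw [SetLike.mem_coe, Subgroup.mem_centralizer_iff]
      rintro _ rfl
      exact hx.eq
    · rw [SetLike.mem_coe, Subgroup.mem_centralizer_iff]
      rintro _ rfl
      exact hy.eq
  rw [h.gen] at hle
  rw [Subgroup.mem_center_iff]
  intro g
  have hg := hle (Subgroup.mem_top g)
  rw [Subgroup.mem_centralizer_iff] at hg
  exact (hg z rfl).symm

theorem Pr.sq_left {c x y : G} (hc : c ∈ Subgroup.center G) (hc2 : c ^ 2 = 1) (h : Pr c x y) :
    x ^ 2 ∈ Subgroup.center G :=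
  h.mem_center (x ^ 2) ((Commute.refl x).pow_left 2) (h.sq_comm hc hc2)

theorem Pr.sq_right {c x y : G} (hc : c ∈ Subgroup.center G) (hc2 : c ^ 2 = 1) (h : Pr c x y) :
    y ^ 2 ∈ Subgroup.center G :=
  (h.symm hc2).sq_left hc hc2

theorem Pr.sq_mul {c x y : G} (hc : c ∈ Subgroup.center G) (h : Pr c x y) :
    (y * x) ^ 2 = y ^ 2 * x ^ 2 * c := by
  have hB := h.conjB hc
  calc (y * x) ^ 2 = y * (x * y * x⁻¹) * x * x := by rw [pow_two]; group
    _ = y * (y * c) * x * x := by rw [hB]
    _ = y * y * (c * (x * x)) := by group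
    _ = y * y * ((x * x) * c) := by rw [(cc hc (x * x)).eq]
    _ = y ^ 2 * x ^ 2 * c := by rw [pow_two, pow_two]; group

theorem Pr.pow_two_mul {c x y : G} (hc : c ∈ Subgroup.center G) (hc2 : c ^ 2 = 1)
    (h : Pr c x y) (k : ℕ) : (y * x) ^ (2 * k) = y ^ (2 * k) * x ^ (2 * k) * c ^ k := by
  have hx2 := h.sq_left hc hc2
  have hy2 := h.sq_right hc hc2
  rw [pow_mul, h.sq_mul hc, pow_mul, pow_mul]
  have h1 : Commute (y ^ 2) (x ^ 2) := cc hy2 _
  have h2 : Commute (y ^ 2 * x ^ 2) c := (cc hc _).symm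
  rw [h2.mul_pow, h1.mul_pow]

/-- Modify the second generator by a power of the first. -/
theorem Pr.mul_pow_right {c x y : G} (hc : c ∈ Subgroup.center G) (h : Pr c x y) (j : ℕ) :
    Pr c x (y * x ^ j) := by
  refine ⟨?_, ?_⟩
  · rw [eq_top_iff, ← h.gen, Subgroup.closure_le]
    rintro w (rfl | rfl)
    · exact Subgroup.subset_closure (Set.mem_insert _ _)
    · have h1 : w * x ^ j ∈ Subgroup.closure ({x, w * x ^ j} : Set G) :=
        Subgroup.subset_closure (Set.mem_insert_of_mem _ rfl)
      have h2 : x ∈ Subgroup.closure ({x, w * x ^ j} : Set G) :=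
        Subgroup.subset_closure (Set.mem_insert _ _)
      have h3 := Subgroup.mul_mem _ h1 (Subgroup.inv_mem _ (Subgroup.pow_mem _ h2 j))
      rwa [mul_inv_cancel_right] at h3
  · calc x * (y * x ^ j) = (x * y) * x ^ j := by group
      _ = y * x * c * x ^ j := by rw [h.rel]
      _ = y * x * (c * x ^ j) := by group
      _ = y * x * (x ^ j * c) := by rw [(cc hc (x ^ j)).eq]
      _ = y * (x * x ^ j) * c := by group
      _ = y * (x ^ j * x) * c := by rw [(Commute.refl x).pow_right j |>.eq]
      _ = y * x ^ j * x * c := by group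

theorem Pr.mul_left {c x y : G} (hc : c ∈ Subgroup.center G) (h : Pr c x y) :
    Pr c (x * y) y := by
  refine ⟨?_, ?_⟩
  · rw [eq_top_iff, ← h.gen, Subgroup.closure_le]
    rintro w (rfl | rfl)
    · have h1 : w * y ∈ Subgroup.closure ({w * y, y} : Set G) :=
        Subgroup.subset_closure (Set.mem_insert _ _)
      have h2 : y ∈ Subgroup.closure ({w * y, y} : Set G) :=
        Subgroup.subset_closure (Set.mem_insert_of_mem _ rfl)
      have h3 := Subgroup.mul_mem _ h1 (Subgroup.inv_mem _ h2)
      rwa [mul_inv_cancel_right] at h3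
    · exact Subgroup.subset_closure (Set.mem_insert_of_mem _ rfl)
  · calc x * y * y = y * x * c * y := by rw [h.rel]
      _ = y * x * (c * y) := by group
      _ = y * x * (y * c) := by rw [(cc hc y).eq]
      _ = y * (x * y) * c := by group

theorem Pr.left_ne_one {c x y : G} (hc1 : c ≠ 1) (h : Pr c x y) : x ≠ 1 := by
  rintro rfl
  have := h.rel
  rw [one_mul, mul_one] at this
  exact hc1 (by simpa using this.symm)

end pairs

section gen

variable {G : Type*} [Group G]

/-- If a generating set commutes pairwise modulo a normal subgroup `K`, then `G' ≤ K`. -/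
theorem comm_le_of_gen (K : Subgroup G) [K.Normal] (S : Set G) (hS : Subgroup.closure S = ⊤)
    (h : ∀ s ∈ S, ∀ t ∈ S, s⁻¹ * t⁻¹ * s * t ∈ K) : commutator G ≤ K := by
  have hgen : Subgroup.closure ((QuotientGroup.mk' K) '' S) = ⊤ := by
    rw [← MonoidHom.map_closure, hS, ← MonoidHom.range_eq_map, MonoidHom.range_eq_top]
    exact QuotientGroup.mk'_surjective K
  have hcomm : ∀ s ∈ S, ∀ t ∈ S,
      (QuotientGroup.mk' K) s * (QuotientGroup.mk' K) t
        = (QuotientGroup.mk' K) t * (QuotientGroup.mk' K) s := by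
    intro s hs t ht
    have h1 := h s hs t ht
    have h2 : (QuotientGroup.mk' K) (s⁻¹ * t⁻¹ * s * t) = 1 := (QuotientGroup.eq_one_iff _).mpr h1
    rw [map_mul, map_mul, map_mul, map_inv, map_inv] at h2
    calc (QuotientGroup.mk' K) s * (QuotientGroup.mk' K) t
        = (QuotientGroup.mk' K) t * (QuotientGroup.mk' K) s *
          (((QuotientGroup.mk' K) s)⁻¹ * ((QuotientGroup.mk' K) t)⁻¹ * (QuotientGroup.mk' K) s
            * (QuotientGroup.mk' K) t) := by group
      _ = (QuotientGroup.mk' K) t * (QuotientGroup.mk' K) s := by rw [h2, mul_one]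
  have hcen : ∀ s ∈ S, (QuotientGroup.mk' K) s ∈ Subgroup.center (G ⧸ K) := by
    intro s hs
    have hle : Subgroup.closure ((QuotientGroup.mk' K) '' S)
        ≤ Subgroup.centralizer {(QuotientGroup.mk' K) s} := by
      rw [Subgroup.closure_le]
      rintro _ ⟨t, ht, rfl⟩
      rw [SetLike.mem_coe, Subgroup.mem_centralizer_iff]
      rintro _ rfl
      exact hcomm s hs t ht
    rw [hgen] at hle
    rw [Subgroup.mem_center_iff]
    intro q
    have hq := hle (Subgroup.mem_top q)
    rw [Subgroup.mem_centralizer_iff] at hq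
    exact (hq _ rfl).symm
  have hctop : Subgroup.center (G ⧸ K) = ⊤ := by
    rw [eq_top_iff, ← hgen, Subgroup.closure_le]
    rintro _ ⟨s, hs, rfl⟩
    exact hcen s hs
  rw [_root_.commutator_def, Subgroup.commutator_le]
  intro g₁ _ g₂ _
  have hg1 : (QuotientGroup.mk' K) g₁ ∈ Subgroup.center (G ⧸ K) := hctop ▸ Subgroup.mem_top _
  have h3 := Subgroup.mem_center_iff.mp hg1 ((QuotientGroup.mk' K) g₂)
  have h4 : (QuotientGroup.mk' K) ⁅g₁, g₂⁆ = 1 := by
    rw [commutatorElement_def, map_mul, map_mul, map_mul, map_inv, map_inv, ← h3]; group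
  exact (QuotientGroup.eq_one_iff _).mp h4

theorem comm_central {m : G} (hm : m ∈ Subgroup.center G) (g : G) :
    g⁻¹ * m⁻¹ * g * m = 1 ∧ m⁻¹ * g⁻¹ * m * g = 1 := by
  have h := (cc hm g).eq
  constructor
  · calc g⁻¹ * m⁻¹ * g * m = g⁻¹ * m⁻¹ * (g * m) := by group
      _ = g⁻¹ * m⁻¹ * (m * g) := by rw [h]
      _ = 1 := by group
  · calc m⁻¹ * g⁻¹ * m * g = m⁻¹ * g⁻¹ * (m * g) := by group
      _ = m⁻¹ * g⁻¹ * (g * m) := by rw [h]
      _ = 1 := by group

theorem comm_le_three (K : Subgroup G) [K.Normal] (a b m : G)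
    (hgen : Subgroup.closure ({a, b, m} : Set G) = ⊤) (hm : m ∈ Subgroup.center G)
    (hab : a⁻¹ * b⁻¹ * a * b ∈ K) : commutator G ≤ K := by
  apply comm_le_of_gen K {a, b, m} hgen
  intro s hs t ht
  simp only [Set.mem_insert_iff, Set.mem_singleton_iff] at hs ht
  have h1 : ∀ g : G, g⁻¹ * g⁻¹ * g * g ∈ K := fun g => by
    rw [show g⁻¹ * g⁻¹ * g * g = 1 by group]; exact K.one_mem
  rcases hs with hs | hs | hs <;> rcases ht with ht | ht | ht <;> rw [hs, ht]
  · exact h1 a
  · exact hab
  · rw [(comm_central hm a).1]; exact K.one_mem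
  · rw [show b⁻¹ * a⁻¹ * b * a = (a⁻¹ * b⁻¹ * a * b)⁻¹ by group]; exact K.inv_mem hab
  · exact h1 b
  · rw [(comm_central hm b).1]; exact K.one_mem
  · rw [(comm_central hm a).2]; exact K.one_mem
  · rw [(comm_central hm b).2]; exact K.one_mem
  · exact h1 m

theorem normal_of_gen [Finite G] (K : Subgroup G) (S : Set G) (hS : Subgroup.closure S = ⊤)
    (h : ∀ s ∈ S, ∀ k ∈ K, s⁻¹ * k * s ∈ K) : K.Normal := by
  rw [← Subgroup.normalizer_eq_top_iff, eq_top_iff, ← hS, Subgroup.closure_le]
  intro s hs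
  rw [SetLike.mem_coe, Subgroup.mem_normalizer_iff'']
  intro k
  refine ⟨fun hk => h s hs k hk, fun hk => ?_⟩
  let φ : K → K := fun k => ⟨s⁻¹ * k.1 * s, h s hs k.1 k.2⟩
  have hinj : Function.Injective φ := by
    intro a b hab
    have h1 : s⁻¹ * a.1 * s = s⁻¹ * b.1 * s := congrArg Subtype.val hab
    exact Subtype.ext (mul_left_cancel (mul_right_cancel h1))
  have hsurj := Finite.surjective_of_injective hinj
  obtain ⟨k', hk'⟩ := hsurj ⟨s⁻¹ * k * s, hk⟩
  have h1 : s⁻¹ * k'.1 * s = s⁻¹ * k * s := congrArg Subtype.val hk'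
  have hk'' : k'.1 = k := mul_left_cancel (mul_right_cancel h1)
  rw [← hk'']; exact k'.2

theorem conj_zpow_inv (s c : G) (i : ℤ) : s⁻¹ * c ^ i * s = (s⁻¹ * c * s) ^ i := by
  have := @conj_zpow G _ i s⁻¹ c
  rw [inv_inv] at this
  exact this.symm

theorem zpowers_normal_three [Finite G] (c a b m : G)
    (hgen : Subgroup.closure ({a, b, m} : Set G) = ⊤) (hm : m ∈ Subgroup.center G)
    (ha : a⁻¹ * c * a ∈ Subgroup.zpowers c) (hb : b⁻¹ * c * b ∈ Subgroup.zpowers c) :
    (Subgroup.zpowers c).Normal := by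
  apply normal_of_gen _ {a, b, m} hgen
  intro s hs k hk
  simp only [Set.mem_insert_iff, Set.mem_singleton_iff] at hs
  rcases hs with hs | hs | hs <;> rw [hs]
  · obtain ⟨i, rfl⟩ := Subgroup.mem_zpowers_iff.mp hk
    rw [conj_zpow_inv]; exact Subgroup.zpow_mem _ ha i
  · obtain ⟨i, rfl⟩ := Subgroup.mem_zpowers_iff.mp hk
    rw [conj_zpow_inv]; exact Subgroup.zpow_mem _ hb i
  · have : m⁻¹ * k * m = k := by
      rw [mul_assoc, ← (cc hm k).eq]; group
    rw [this]; exact hk

/-- The quotient by a normal subgroup containing all generators but one is cyclic. -/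
theorem quot_cyclic (N : Subgroup G) [N.Normal] (k : G) (S : Set G)
    (hgen : Subgroup.closure (insert k S) = ⊤) (hS : ∀ s ∈ S, s ∈ N) : IsCyclic (G ⧸ N) := by
  refine isCyclic_iff_exists_zpowers_eq_top.mpr ⟨(QuotientGroup.mk' N) k, eq_top_iff.mpr ?_⟩
  have h1 : (⊤ : Subgroup (G ⧸ N)) = (Subgroup.closure (insert k S)).map (QuotientGroup.mk' N) := by
    rw [hgen, ← MonoidHom.range_eq_map, MonoidHom.range_eq_top.mpr (QuotientGroup.mk'_surjective N)]
  rw [h1, Subgroup.map_le_iff_le_comap, Subgroup.closure_le]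
  rintro w (rfl | hw)
  · exact Subgroup.mem_zpowers _
  · show (QuotientGroup.mk' N) w ∈ Subgroup.zpowers _
    have h2 : (QuotientGroup.mk' N) w = 1 := (QuotientGroup.eq_one_iff w).mpr (hS w hw)
    rw [h2]; exact Subgroup.one_mem _

end gen

section key

variable {G : Type*} [Group G] [Finite G]

/-- Three independent commuting involutions contradict `R2`. -/
theorem no_three (hR : R2 G) (a b d : G) (hab : Commute a b) (had : Commute a d)
    (hbd : Commute b d) (ha : a ^ 2 = 1) (hb : b ^ 2 = 1) (hd : d ^ 2 = 1)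
    (h1 : a ≠ 1) (h2 : b ≠ 1) (h3 : d ≠ 1) (h4 : a ≠ b) (h5 : a ≠ d) (h6 : b ≠ d)
    (h7 : a * b ≠ d) : False := by
  have hgen : ∀ s ∈ ({a, b, d} : Set G), ∀ t ∈ ({a, b, d} : Set G), s * t = t * s := by
    intro s hs t ht
    simp only [Set.mem_insert_iff, Set.mem_singleton_iff] at hs ht
    rcases hs with hs | hs | hs <;> rcases ht with ht | ht | ht <;> rw [hs, ht]
    · exact hab.eq
    · exact had.eq
    · exact hab.eq.symm
    · exact hbd.eq
    · exact had.eq.symm
    · exact hbd.eq.symm
  have hcomm : ∀ s ∈ Subgroup.closure ({a, b, d} : Set G),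
      ∀ t ∈ Subgroup.closure ({a, b, d} : Set G), s * t = t * s := by
    intro s hs t ht
    have := (Subgroup.closureCommGroupOfComm hgen).mul_comm ⟨s, hs⟩ ⟨t, ht⟩
    exact congrArg Subtype.val this
  have hexp : ∀ t ∈ Subgroup.closure ({a, b, d} : Set G), t ^ 2 = 1 := by
    intro t ht
    induction ht using Subgroup.closure_induction with
    | mem x hx =>
      simp only [Set.mem_insert_iff, Set.mem_singleton_iff] at hx
      rcases hx with rfl | rfl | rfl
      · exact ha
      · exact hb
      · exact hd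
    | one => exact one_pow 2
    | mul x y hx hy ihx ihy =>
      rw [(show Commute x y from hcomm x hx y hy).mul_pow, ihx, ihy, one_mul]
    | inv x hx ihx => rw [inv_pow, ihx, inv_one]
  have hle := hR (Subgroup.closure ({a, b, d} : Set G)) ⊥ bot_le (by
    intro t _ n hn
    rw [Subgroup.mem_bot] at hn ⊢
    rw [hn]; group) (by
    intro t ht
    rw [Subgroup.mem_bot]; exact hexp t ht)
  rw [Subgroup.relIndex_bot_left] at hle
  have hak : a ∈ Subgroup.closure ({a, b, d} : Set G) := Subgroup.subset_closure (by simp)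
  have hbk : b ∈ Subgroup.closure ({a, b, d} : Set G) := Subgroup.subset_closure (by simp)
  have hdk : d ∈ Subgroup.closure ({a, b, d} : Set G) := Subgroup.subset_closure (by simp)
  have hsub : ({1, a, b, d, a * b} : Set G) ⊆ (Subgroup.closure ({a, b, d} : Set G) : Set G) := by
    intro w hw
    simp only [Set.mem_insert_iff, Set.mem_singleton_iff] at hw
    rcases hw with rfl | rfl | rfl | rfl | rfl
    · exact Subgroup.one_mem _
    · exact hak
    · exact hbk
    · exact hdk
    · exact Subgroup.mul_mem _ hak hbk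
  have hb' : b⁻¹ = b := inv_eq_of_mul_eq_one_left (by rw [← pow_two]; exact hb)
  have n1 : ({a * b} : Set G).ncard = 1 := Set.ncard_singleton _
  have n2 : ({d, a * b} : Set G).ncard = 2 := by
    rw [Set.ncard_insert_of_notMem (by
      rw [Set.mem_singleton_iff]; exact fun h => h7 h.symm), n1]
  have n3 : ({b, d, a * b} : Set G).ncard = 3 := by
    rw [Set.ncard_insert_of_notMem (by
      simp only [Set.mem_insert_iff, Set.mem_singleton_iff, not_or]
      exact ⟨h6, fun h => h1 (by simpa using h.symm)⟩), n2]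
  have n4 : ({a, b, d, a * b} : Set G).ncard = 4 := by
    rw [Set.ncard_insert_of_notMem (by
      simp only [Set.mem_insert_iff, Set.mem_singleton_iff, not_or]
      exact ⟨h4, h5, fun h => h2 (by simpa using h.symm)⟩), n3]
  have n5 : ({1, a, b, d, a * b} : Set G).ncard = 5 := by
    rw [Set.ncard_insert_of_notMem (by
      simp only [Set.mem_insert_iff, Set.mem_singleton_iff, not_or]
      refine ⟨fun h => h1 h.symm, fun h => h2 h.symm, fun h => h3 h.symm, fun h => h4 ?_⟩
      have := eq_inv_of_mul_eq_one_left h.symm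
      rw [hb'] at this; exact this), n4]
  have hcard := Set.ncard_le_ncard hsub (Set.toFinite _)
  rw [n5] at hcard
  have hKc : Nat.card (Subgroup.closure ({a, b, d} : Set G))
      = (Subgroup.closure ({a, b, d} : Set G) : Set G).ncard :=
    Nat.card_coe_set_eq _
  omega

theorem two_pow_le {a b : ℕ} (h : 2 ^ a ≤ 2 ^ b) : a ≤ b :=
  (Nat.pow_le_pow_iff_right (by norm_num)).mp h

theorem key (hG : IsPGroup 2 G) (hR : R2 G) {c : G} (hc : c ∈ Subgroup.center G) (hc1 : c ≠ 1)
    (hc2 : c ^ 2 = 1) (x y : G) (h : Pr c x y)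
    (hmin : ∀ x' y', Pr c x' y' → orderOf x + orderOf y ≤ orderOf x' + orderOf y')
    (hle : orderOf y ≤ orderOf x) :
    ∃ g k, Pr c g k ∧ c ∈ Subgroup.zpowers g := by
  haveI : Fact (Nat.Prime 2) := ⟨Nat.prime_two⟩
  obtain ⟨α, hα⟩ := (IsPGroup.iff_orderOf.mp hG) x
  obtain ⟨β, hβ⟩ := (IsPGroup.iff_orderOf.mp hG) y
  have hx1 : x ≠ 1 := h.left_ne_one hc1
  have hy1 : y ≠ 1 := (h.symm hc2).left_ne_one hc1
  have hα1 : 1 ≤ α := by
    rcases Nat.eq_zero_or_pos α with h0 | h0
    · rw [h0, pow_zero, orderOf_eq_one_iff] at hα; exact absurd hα hx1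
    · exact h0
  have hβ1 : 1 ≤ β := by
    rcases Nat.eq_zero_or_pos β with h0 | h0
    · rw [h0, pow_zero, orderOf_eq_one_iff] at hβ; exact absurd hβ hy1
    · exact h0
  have hβα : β ≤ α := by
    rw [hα, hβ] at hle
    exact two_pow_le hle
  have hxα : x ^ 2 ^ α = 1 := hα ▸ pow_orderOf_eq_one x
  have hyβ : y ^ 2 ^ β = 1 := hβ ▸ pow_orderOf_eq_one y
  obtain ⟨u, hu⟩ : ∃ u, u = x ^ 2 ^ (α - 1) := ⟨_, rfl⟩
  obtain ⟨v, hv⟩ : ∃ v, v = y ^ 2 ^ (β - 1) := ⟨_, rfl⟩
  have hu2 : u ^ 2 = 1 := by
    rw [hu, ← pow_mul, ← pow_succ, Nat.sub_add_cancel hα1]; exact hxα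
  have hv2 : v ^ 2 = 1 := by
    rw [hv, ← pow_mul, ← pow_succ, Nat.sub_add_cancel hβ1]; exact hyβ
  have hu1 : u ≠ 1 := by
    intro h1
    rw [hu] at h1
    have h2 := orderOf_dvd_of_pow_eq_one h1
    rw [hα] at h2
    have h3 := two_pow_le (Nat.le_of_dvd (by positivity) h2)
    omega
  have hv1 : v ≠ 1 := by
    intro h1
    rw [hv] at h1
    have h2 := orderOf_dvd_of_pow_eq_one h1
    rw [hβ] at h2
    have h3 := two_pow_le (Nat.le_of_dvd (by positivity) h2)
    omega
  by_cases hα2 : α = 1
  · -- both generators are involutions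
    have hβ' : β = 1 := by omega
    have hx2 : x ^ 2 = 1 := by rw [hα2] at hxα; simpa using hxα
    have hy2 : y ^ 2 = 1 := by rw [hβ'] at hyβ; simpa using hyβ
    refine ⟨y * x, x, (h.symm hc2).mul_left hc, ?_⟩
    have h1 := h.sq_mul hc
    rw [hx2, hy2, one_mul, one_mul] at h1
    rw [← h1]; exact Subgroup.pow_mem _ (Subgroup.mem_zpowers _) 2
  · have hα2' : 2 ≤ α := by omega
    have hucen : u ∈ Subgroup.center G := by
      have h1 : u = (x ^ 2) ^ 2 ^ (α - 2) := by
        rw [hu, ← pow_mul, ← pow_succ']; congr 2; omega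
      rw [h1]; exact Subgroup.pow_mem _ (h.sq_left hc hc2) _
    by_cases huc : u = c
    · exact ⟨x, y, h, by rw [← huc, hu]; exact Subgroup.pow_mem _ (Subgroup.mem_zpowers _) _⟩
    · by_cases hβ2 : β = 1
      · exfalso
        have hy2 : y ^ 2 = 1 := by rw [hβ2] at hyβ; simpa using hyβ
        have hyc : y ∉ Subgroup.center G := by
          intro hyc
          have h1 := (cc hyc x).eq
          rw [h.rel] at h1
          exact hc1 (by simpa using h1.symm)
        refine no_three hR u y c (cc hucen y) (cc hucen c) (cc hc y).symm hu2 hy2 hc2 hu1 hy1 hc1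
          ?_ huc ?_ ?_
        · intro huy; exact hyc (huy ▸ hucen)
        · intro hyc'; exact hyc (hyc' ▸ hc)
        · intro huy
          apply hyc
          have h1 : y = u⁻¹ * c := by rw [← huy]; group
          rw [h1]; exact Subgroup.mul_mem _ (Subgroup.inv_mem _ hucen) hc
      · have hβ2' : 2 ≤ β := by omega
        have hvcen : v ∈ Subgroup.center G := by
          have h1 : v = (y ^ 2) ^ 2 ^ (β - 2) := by
            rw [hv, ← pow_mul, ← pow_succ']; congr 2; omega
          rw [h1]; exact Subgroup.pow_mem _ (h.sq_right hc hc2) _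
        by_cases hvc : v = c
        · exact ⟨y, x, h.symm hc2, by
            rw [← hvc, hv]; exact Subgroup.pow_mem _ (Subgroup.mem_zpowers _) _⟩
        · by_cases huv : u = v ∨ u * v = c
          · have hw : u * v = 1 ∨ u * v = c := by
              rcases huv with h1 | h1
              · left; rw [← h1, ← pow_two]; exact hu2
              · right; exact h1
            have hP' : Pr c x (y * x ^ 2 ^ (α - β)) := h.mul_pow_right hc _
            have hpow : (y * x ^ 2 ^ (α - β)) ^ 2 ^ (β - 1) = u * v ∨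
                (β = 2 ∧ (y * x ^ 2 ^ (α - β)) ^ 2 = u * v * c) := by
              by_cases hαβ : β < α
              · left
                have hxj : x ^ 2 ^ (α - β) ∈ Subgroup.center G := by
                  have h1 : x ^ 2 ^ (α - β) = (x ^ 2) ^ 2 ^ (α - β - 1) := by
                    rw [← pow_mul, ← pow_succ']; congr 2; omega
                  rw [h1]; exact Subgroup.pow_mem _ (h.sq_left hc hc2) _
                rw [(cc hxj y).symm.mul_pow, ← pow_mul, ← pow_add]
                have h1 : α - β + (β - 1) = α - 1 := by omega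
                rw [h1, ← hu, ← hv]
                exact (cc hucen v).eq.symm
              · have hαβ' : α = β := by omega
                have hj1 : 2 ^ (α - β) = 1 := by rw [hαβ', Nat.sub_self, pow_zero]
                rw [hj1, pow_one]
                by_cases hβ3 : 3 ≤ β
                · left
                  have e1 : 2 ^ (β - 1) = 2 * 2 ^ (β - 2) := by
                    rw [← pow_succ']; congr 1; omega
                  have e2 : c ^ 2 ^ (β - 2) = 1 := by
                    have h1 : 2 ^ (β - 2) = 2 * 2 ^ (β - 3) := by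
                      rw [← pow_succ']; congr 1; omega
                    rw [h1, pow_mul, hc2, one_pow]
                  rw [e1, h.pow_two_mul hc hc2, ← e1, e2, mul_one, ← hv]
                  have h2 : x ^ 2 ^ (β - 1) = u := by rw [hu, hαβ']
                  rw [h2]
                  exact (cc hucen v).eq.symm
                · right
                  have hβ2'' : β = 2 := by omega
                  refine ⟨hβ2'', ?_⟩
                  rw [h.sq_mul hc]
                  have h2 : x ^ 2 = u := by rw [hu, hαβ', hβ2'']; norm_num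
                  have h3 : y ^ 2 = v := by rw [hv, hβ2'']; norm_num
                  rw [h2, h3, (cc hucen v).eq.symm]
            rcases hpow with hp | ⟨hβ2'', hp⟩
            · rcases hw with hw1 | hwc
              · exfalso
                have hy'1 : (y * x ^ 2 ^ (α - β)) ^ 2 ^ (β - 1) = 1 := hp.trans hw1
                have hord : orderOf (y * x ^ 2 ^ (α - β)) ≤ 2 ^ (β - 1) :=
                  orderOf_le_of_pow_eq_one (by positivity) hy'1
                have h1 := hmin x _ hP'
                rw [hβ] at h1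
                have h2 : 2 ^ β ≤ 2 ^ (β - 1) := by omega
                have h3 := two_pow_le h2
                omega
              · exact ⟨y * x ^ 2 ^ (α - β), x, hP'.symm hc2, by
                  rw [← hwc, ← hp]; exact Subgroup.pow_mem _ (Subgroup.mem_zpowers _) _⟩
            · rcases hw with hw1 | hwc
              · exact ⟨y * x ^ 2 ^ (α - β), x, hP'.symm hc2, by
                  have h1 : (y * x ^ 2 ^ (α - β)) ^ 2 = c := by rw [hp, hw1, one_mul]
                  rw [← h1]; exact Subgroup.pow_mem _ (Subgroup.mem_zpowers _) _⟩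
              · exfalso
                have hy'1 : (y * x ^ 2 ^ (α - β)) ^ 2 = 1 := by rw [hp, hwc, ← pow_two, hc2]
                have hord : orderOf (y * x ^ 2 ^ (α - β)) ≤ 2 :=
                  orderOf_le_of_pow_eq_one (by norm_num) hy'1
                have h1 := hmin x _ hP'
                have hy4 : orderOf y = 4 := by rw [hβ, hβ2'']; norm_num
                omega
          · exfalso
            push_neg at huv
            exact no_three hR u v c (cc hucen v) (cc hucen c) (cc hvcen c) hu2 hv2 hc2 hu1 hv1 hc1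
              huv.1 huc hvc huv.2

theorem exists_good (hG : IsPGroup 2 G) (hR : R2 G) {c : G} (hc : c ∈ Subgroup.center G)
    (hc1 : c ≠ 1) (hc2 : c ^ 2 = 1) (x y : G) (h : Pr c x y) :
    ∃ g k, Pr c g k ∧ c ∈ Subgroup.zpowers g := by
  have hne : ({n | ∃ x' y', Pr c x' y' ∧ orderOf x' + orderOf y' = n} : Set ℕ).Nonempty :=
    ⟨_, x, y, h, rfl⟩
  obtain ⟨x₀, y₀, h₀, hn⟩ := Nat.sInf_mem hne
  have hmin : ∀ x' y', Pr c x' y' → orderOf x₀ + orderOf y₀ ≤ orderOf x' + orderOf y' := by
    intro x' y' h'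
    rw [hn]; exact Nat.sInf_le ⟨x', y', h', rfl⟩
  rcases le_total (orderOf y₀) (orderOf x₀) with hle | hle
  · exact key hG hR hc hc1 hc2 x₀ y₀ h₀ hmin hle
  · exact key hG hR hc hc1 hc2 y₀ x₀ (h₀.symm hc2)
      (fun x' y' h' => by rw [add_comm]; exact hmin x' y' h') hle

theorem metacyclic_of_pair (hG : IsPGroup 2 G) (hR : R2 G) {c : G}
    (hc : c ∈ Subgroup.center G) (hc1 : c ≠ 1) (hc2 : c ^ 2 = 1) (x y : G) (h : Pr c x y) :
    IsMetacyclic G := by
  obtain ⟨g, k, hgk, hcg⟩ := exists_good hG hR hc hc1 hc2 x y h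
  haveI hCn : (Subgroup.zpowers c).Normal := by
    constructor
    intro n hn t
    have hncen : n ∈ Subgroup.center G := (Subgroup.zpowers_le.mpr hc) hn
    have h1 : t * n * t⁻¹ = n := by
      rw [← (cc hncen t).eq]; group
    rw [h1]; exact hn
  have hcomm : commutator G ≤ Subgroup.zpowers c := by
    apply comm_le_of_gen _ {g, k} hgk.gen
    intro s hs t ht
    simp only [Set.mem_insert_iff, Set.mem_singleton_iff] at hs ht
    have h1 : ∀ w : G, w⁻¹ * w⁻¹ * w * w ∈ Subgroup.zpowers c := fun w => by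
      rw [show w⁻¹ * w⁻¹ * w * w = 1 by group]; exact Subgroup.one_mem _
    have h2 : g⁻¹ * k⁻¹ * g * k = c := by
      calc g⁻¹ * k⁻¹ * g * k = g⁻¹ * k⁻¹ * (g * k) := by group
        _ = g⁻¹ * k⁻¹ * (k * g * c) := by rw [hgk.rel]
        _ = c := by group
    rcases hs with hs | hs <;> rcases ht with ht | ht <;> rw [hs, ht]
    · exact h1 g
    · rw [h2]; exact Subgroup.mem_zpowers c
    · rw [show k⁻¹ * g⁻¹ * k * g = (g⁻¹ * k⁻¹ * g * k)⁻¹ by group, h2]
      exact Subgroup.inv_mem _ (Subgroup.mem_zpowers c)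
    · exact h1 k
  have hN : (Subgroup.zpowers g).Normal :=
    Subgroup.Normal.of_commutator_le G (hcomm.trans (Subgroup.zpowers_le.mpr hcg))
  refine ⟨Subgroup.zpowers g, hN, inferInstance, ?_⟩
  apply quot_cyclic (Subgroup.zpowers g) k {g}
  · rw [Set.pair_comm]; exact hgk.gen
  · rintro s rfl; exact Subgroup.mem_zpowers _

end key

section final

theorem frattini_sq {A : Type*} [Group A] [Finite A] (hA : IsPGroup 2 A)
    (hcomm : ∀ a b : A, a * b = b * a) (H : Subgroup A)
    (h : ∀ a : A, ∃ h ∈ H, ∃ b : A, a = h * b ^ 2) : H = ⊤ := by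
  haveI hHn : H.Normal := ⟨fun n hn g => by rw [hcomm g n, mul_inv_cancel_right]; exact hn⟩
  have hsurj : Function.Surjective (fun q : A ⧸ H => q ^ 2) := by
    intro q
    induction q using QuotientGroup.induction_on with
    | H a =>
      obtain ⟨h', hh', b, rfl⟩ := h a
      refine ⟨(b : A ⧸ H), ?_⟩
      show ((b : A ⧸ H)) ^ 2 = ((h' * b ^ 2 : A) : A ⧸ H)
      rw [QuotientGroup.mk_mul, QuotientGroup.mk_pow, (QuotientGroup.eq_one_iff h').mpr hh',
        one_mul]
  have hinj : Function.Injective (fun q : A ⧸ H => q ^ 2) :=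
    Finite.injective_iff_surjective.mpr hsurj
  have hone : ∀ (k : ℕ) (q : A ⧸ H), q ^ 2 ^ k = 1 → q = 1 := by
    intro k
    induction k with
    | zero => intro q hq; simpa using hq
    | succ k ih =>
      intro q hq
      apply ih
      apply hinj
      show (q ^ 2 ^ k) ^ 2 = 1 ^ 2
      rw [← pow_mul, ← pow_succ, hq, one_pow]
  rw [eq_top_iff]
  intro a _
  have hQ : IsPGroup 2 (A ⧸ H) := hA.to_quotient H
  obtain ⟨k, hk⟩ := hQ (a : A ⧸ H)
  exact (QuotientGroup.eq_one_iff a).mp (hone k _ hk)

theorem abelian_case {G : Type*} [Group G] [Finite G] (hG : IsPGroup 2 G) (hR : R2 G)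
    (hcomm : ∀ a b : G, a * b = b * a) : IsMetacyclic G := by
  let sq : G →* G :=
    { toFun := fun g => g ^ 2
      map_one' := one_pow 2
      map_mul' := fun a b => (show Commute a b from hcomm a b).mul_pow 2 }
  have hnormal : ∀ K : Subgroup G, K.Normal := fun K =>
    ⟨fun n hn g => by rw [hcomm g n, mul_inv_cancel_right]; exact hn⟩
  haveI hNn : sq.range.Normal := hnormal _
  have hidx : sq.range.index ≤ 4 := by
    have h := hR ⊤ sq.range le_top
      (fun t _ n hn => by rw [hcomm t n, mul_inv_cancel_right]; exact hn)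
      (fun t _ => ⟨t, rfl⟩)
    rwa [Subgroup.relIndex_top_right] at h
  have hcardQ : Nat.card (G ⧸ sq.range) ≤ 4 := by
    rw [← Subgroup.index_eq_card]; exact hidx
  -- two generators of the quotient
  have hgenQ : ∃ q₁ q₂ : G ⧸ sq.range,
      Subgroup.closure ({q₁, q₂} : Set (G ⧸ sq.range)) = ⊤ := by
    by_cases h1 : ∀ q : G ⧸ sq.range, q = 1
    · refine ⟨1, 1, eq_top_iff.mpr fun q _ => ?_⟩
      rw [h1 q]; exact Subgroup.one_mem _
    · push Not at h1
      obtain ⟨q₁, hq₁⟩ := h1
      by_cases h2 : ∀ q : G ⧸ sq.range, q ∈ Subgroup.zpowers q₁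
      · refine ⟨q₁, 1, eq_top_iff.mpr fun q _ => ?_⟩
        have : Subgroup.zpowers q₁ ≤ Subgroup.closure ({q₁, 1} : Set (G ⧸ sq.range)) :=
          Subgroup.zpowers_le.mpr (Subgroup.subset_closure (Set.mem_insert _ _))
        exact this (h2 q)
      · push Not at h2
        obtain ⟨q₂, hq₂⟩ := h2
        refine ⟨q₁, q₂, ?_⟩
        have hle : Subgroup.zpowers q₁ ≤ Subgroup.closure ({q₁, q₂} : Set (G ⧸ sq.range)) :=
          Subgroup.zpowers_le.mpr (Subgroup.subset_closure (Set.mem_insert _ _))
        have hq₂K : q₂ ∈ Subgroup.closure ({q₁, q₂} : Set (G ⧸ sq.range)) :=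
          Subgroup.subset_closure (Set.mem_insert_of_mem _ rfl)
        have hdvd := Subgroup.card_dvd_of_le hle
        have hZ : 2 ≤ Nat.card (Subgroup.zpowers q₁) := by
          rw [Nat.card_zpowers]
          have h0 : 0 < orderOf q₁ := orderOf_pos q₁
          have h1 : orderOf q₁ ≠ 1 := fun h => hq₁ (orderOf_eq_one_iff.mp h)
          omega
        have hne : Nat.card (Subgroup.zpowers q₁)
            ≠ Nat.card (Subgroup.closure ({q₁, q₂} : Set (G ⧸ sq.range))) := by
          intro heq
          have := Subgroup.eq_of_le_of_card_ge hle (le_of_eq heq.symm)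
          exact hq₂ (this ▸ hq₂K)
        have hKle : Nat.card (Subgroup.closure ({q₁, q₂} : Set (G ⧸ sq.range)))
            ≤ Nat.card (G ⧸ sq.range) := Subgroup.card_le_card_group _
        obtain ⟨d, hd⟩ := hdvd
        have hKpos : 0 < Nat.card (Subgroup.closure ({q₁, q₂} : Set (G ⧸ sq.range))) :=
          Nat.card_pos
        have hd2 : 2 ≤ d := by
          rcases d with _ | _ | d
          · omega
          · omega
          · omega
        have h4 : 4 ≤ Nat.card (Subgroup.closure ({q₁, q₂} : Set (G ⧸ sq.range))) := by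
          rw [hd]; nlinarith
        exact Subgroup.eq_top_of_card_eq _ (by omega)
  obtain ⟨q₁, q₂, hq⟩ := hgenQ
  obtain ⟨x, rfl⟩ := QuotientGroup.mk_surjective q₁
  obtain ⟨y, rfl⟩ := QuotientGroup.mk_surjective q₂
  have htop : Subgroup.closure ({x, y} : Set G) = ⊤ := by
    apply frattini_sq hG hcomm
    intro g
    have hmap : (Subgroup.closure ({x, y} : Set G)).map (QuotientGroup.mk' sq.range) = ⊤ := by
      rw [MonoidHom.map_closure, Set.image_pair]; exact hq
    have hg : (QuotientGroup.mk' sq.range) g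
        ∈ (Subgroup.closure ({x, y} : Set G)).map (QuotientGroup.mk' sq.range) := by
      rw [hmap]; exact Subgroup.mem_top _
    obtain ⟨h, hh, hhg⟩ := Subgroup.mem_map.mp hg
    have hmem : h⁻¹ * g ∈ sq.range := QuotientGroup.eq.mp hhg
    obtain ⟨b, hb⟩ := hmem
    exact ⟨h, hh, b, by rw [show b ^ 2 = h⁻¹ * g from hb, mul_inv_cancel_left]⟩
  haveI := hnormal (Subgroup.zpowers x)
  refine ⟨Subgroup.zpowers x, hnormal _, inferInstance, ?_⟩
  apply quot_cyclic (Subgroup.zpowers x) y {x}
  · rw [Set.pair_comm]; exact htop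
  · rintro s rfl; exact Subgroup.mem_zpowers _

theorem zpow_two_cases {G : Type*} [Group G] {m : G} (hm2 : m ^ 2 = 1) (e : ℤ) :
    m ^ e = 1 ∨ m ^ e = m := by
  obtain ⟨k, rfl | rfl⟩ := Int.even_or_odd' e
  · left
    rw [zpow_mul, zpow_ofNat, hm2, one_zpow]
  · right
    rw [zpow_add, zpow_mul, zpow_ofNat, hm2, one_zpow, one_mul, zpow_one]

theorem exists_central_invol {G : Type*} [Group G] [Finite G] (hG : IsPGroup 2 G)
    (hab : ¬ ∀ a b : G, a * b = b * a) :
    ∃ m : G, m ∈ Subgroup.center G ∧ m ∈ commutator G ∧ m ≠ 1 ∧ m ^ 2 = 1 := by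
  haveI : Fact (Nat.Prime 2) := ⟨Nat.prime_two⟩
  have hne : commutator G ≠ ⊥ := by
    intro h0
    apply hab
    intro a b
    have h1 : ⁅a, b⁆ ∈ commutator G := by
      rw [_root_.commutator_def]
      exact Subgroup.commutator_mem_commutator (Subgroup.mem_top a) (Subgroup.mem_top b)
    rw [h0, Subgroup.mem_bot, commutatorElement_eq_one_iff_mul_comm] at h1
    exact h1
  have hne2 := Cfsg.Agent.Lib.Helper66.normal_inf_center_ne_bot hG (N := commutator G) hne
  obtain ⟨z, hz1⟩ := (Subgroup.ne_bot_iff_exists_ne_one).mp hne2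
  obtain ⟨⟨hzc, hzz⟩, hz1'⟩ : (z.1 ∈ commutator G ∧ z.1 ∈ Subgroup.center G) ∧ z.1 ≠ 1 :=
    ⟨Subgroup.mem_inf.mp z.2, fun h => hz1 (Subtype.ext h)⟩
  obtain ⟨k, hk⟩ := (IsPGroup.iff_orderOf.mp hG) z.1
  have hk1 : 1 ≤ k := by
    rcases Nat.eq_zero_or_pos k with h0 | h0
    · exfalso; rw [h0, pow_zero] at hk; exact hz1' (orderOf_eq_one_iff.mp hk)
    · exact h0
  refine ⟨z.1 ^ 2 ^ (k - 1), Subgroup.pow_mem _ hzz _, Subgroup.pow_mem _ hzc _, ?_, ?_⟩
  · intro h1
    have h2 := orderOf_dvd_of_pow_eq_one h1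
    rw [hk] at h2
    have h3 := Nat.le_of_dvd (by positivity) h2
    have h4 := two_pow_le h3
    omega
  · rw [← pow_mul, ← pow_succ, show k - 1 + 1 = k by omega, ← hk, pow_orderOf_eq_one]

theorem main (n : ℕ) : ∀ (G : Type u) [Group G] [Finite G], Nat.card G = n → IsPGroup 2 G →
    R2 G → IsMetacyclic G := by
  induction n using Nat.strong_induction_on with
  | _ n ih =>
    intro G _ _ hn hG hR
    haveI : Fact (Nat.Prime 2) := ⟨Nat.prime_two⟩
    by_cases hab : ∀ a b : G, a * b = b * a
    · exact abelian_case hG hR hab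
    · obtain ⟨m, hmcen, hmcomm, hm1, hm2⟩ := exists_central_invol hG hab
      have hMn : (Subgroup.zpowers m).Normal := ⟨fun n hn t => by
        have hncen : n ∈ Subgroup.center G := (Subgroup.zpowers_le.mpr hmcen) hn
        have h1 : t * n * t⁻¹ = n := by rw [← (cc hncen t).eq]; group
        rw [h1]; exact hn⟩
      haveI := hMn
      have hMcard : Nat.card (Subgroup.zpowers m) = 2 := by
        rw [Nat.card_zpowers]
        exact orderOf_eq_prime hm2 hm1
      have hcard : Nat.card G = Nat.card (G ⧸ Subgroup.zpowers m) * 2 := by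
        rw [← hMcard]; exact Subgroup.card_eq_card_quotient_mul_card_subgroup _
      have hpos : 0 < Nat.card (G ⧸ Subgroup.zpowers m) := Nat.card_pos
      obtain ⟨L, hLn, hLc, hQc⟩ := ih (Nat.card (G ⧸ Subgroup.zpowers m)) (by omega)
        (G ⧸ Subgroup.zpowers m) rfl (hG.to_quotient _) (r2_quotient hR _)
      haveI := hLn
      haveI := hLc
      haveI := hQc
      obtain ⟨⟨a0, ha0L⟩, hgenL⟩ := IsCyclic.exists_generator (α := L)
      obtain ⟨β, hβ⟩ := IsCyclic.exists_generator (α := (G ⧸ Subgroup.zpowers m) ⧸ L)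
      obtain ⟨b0, rfl⟩ := QuotientGroup.mk_surjective β
      obtain ⟨a, rfl⟩ := QuotientGroup.mk_surjective a0
      obtain ⟨b, rfl⟩ := QuotientGroup.mk_surjective b0
      have hL : ∀ l ∈ L, ∃ j : ℤ, ((a : G ⧸ Subgroup.zpowers m)) ^ j = l := by
        intro l hl
        obtain ⟨j, hj⟩ := Subgroup.mem_zpowers_iff.mp (hgenL ⟨l, hl⟩)
        exact ⟨j, by simpa using congrArg Subtype.val hj⟩
      have D1 : ∀ g : G, ∃ i j e : ℤ, g = b ^ i * a ^ j * m ^ e := by
        intro g
        obtain ⟨i, hi⟩ := Subgroup.mem_zpowers_iff.mp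
          (hβ (((g : G ⧸ Subgroup.zpowers m)) : (G ⧸ Subgroup.zpowers m) ⧸ L))
        have h1 : (((b : G ⧸ Subgroup.zpowers m) ^ i)⁻¹ * (g : G ⧸ Subgroup.zpowers m)) ∈ L := by
          rw [← QuotientGroup.eq, QuotientGroup.mk_zpow]; exact hi
        obtain ⟨j, hj⟩ := hL _ h1
        have h2 : (b ^ i * a ^ j)⁻¹ * g ∈ Subgroup.zpowers m := by
          rw [← QuotientGroup.eq, QuotientGroup.mk_mul, QuotientGroup.mk_zpow,
            QuotientGroup.mk_zpow, hj]
          group
        obtain ⟨e, he⟩ := Subgroup.mem_zpowers_iff.mp h2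
        exact ⟨i, j, e, by rw [he]; group⟩
      have hgen : Subgroup.closure ({a, b, m} : Set G) = ⊤ := by
        rw [eq_top_iff]
        intro g _
        obtain ⟨i, j, e, rfl⟩ := D1 g
        have ha' : a ∈ Subgroup.closure ({a, b, m} : Set G) := Subgroup.subset_closure (by simp)
        have hb' : b ∈ Subgroup.closure ({a, b, m} : Set G) := Subgroup.subset_closure (by simp)
        have hm' : m ∈ Subgroup.closure ({a, b, m} : Set G) := Subgroup.subset_closure (by simp)
        exact Subgroup.mul_mem _ (Subgroup.mul_mem _ (Subgroup.zpow_mem _ hb' i)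
          (Subgroup.zpow_mem _ ha' j)) (Subgroup.zpow_mem _ hm' e)
      have D3 : ∃ t : ℤ, b⁻¹ * a * b = a ^ t ∨ b⁻¹ * a * b = a ^ t * m := by
        have h1 : ((b : G ⧸ Subgroup.zpowers m))⁻¹ * (a : G ⧸ Subgroup.zpowers m)
            * (b : G ⧸ Subgroup.zpowers m) ∈ L := by
          have := hLn.conj_mem _ ha0L ((b : G ⧸ Subgroup.zpowers m))⁻¹
          rwa [inv_inv] at this
        obtain ⟨t, ht⟩ := hL _ h1
        have h2 : (a ^ t)⁻¹ * (b⁻¹ * a * b) ∈ Subgroup.zpowers m := by
          rw [← QuotientGroup.eq, QuotientGroup.mk_zpow, ht]; rfl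
        obtain ⟨e, he⟩ := Subgroup.mem_zpowers_iff.mp h2
        refine ⟨t, ?_⟩
        rcases zpow_two_cases hm2 e with h3 | h3
        · left
          rw [h3] at he
          calc b⁻¹ * a * b = a ^ t * ((a ^ t)⁻¹ * (b⁻¹ * a * b)) := by group
            _ = a ^ t := by rw [← he, mul_one]
        · right
          rw [h3] at he
          calc b⁻¹ * a * b = a ^ t * ((a ^ t)⁻¹ * (b⁻¹ * a * b)) := by group
            _ = a ^ t * m := by rw [← he]
      obtain ⟨t, ht⟩ := D3
      have haa : a⁻¹ * a * a ∈ Subgroup.zpowers a := by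
        rw [inv_mul_cancel, one_mul]; exact Subgroup.mem_zpowers a
      by_cases hma : m ∈ Subgroup.zpowers a
      · -- Sub-case A
        have hba : b⁻¹ * a * b ∈ Subgroup.zpowers a := by
          rcases ht with ht | ht <;> rw [ht]
          · exact Subgroup.zpow_mem _ (Subgroup.mem_zpowers a) t
          · exact Subgroup.mul_mem _ (Subgroup.zpow_mem _ (Subgroup.mem_zpowers a) t) hma
        have hN := zpowers_normal_three a a b m hgen hmcen haa hba
        haveI := hN
        refine ⟨Subgroup.zpowers a, hN, inferInstance, ?_⟩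
        apply quot_cyclic (Subgroup.zpowers a) b {a, m}
        · rw [Set.insert_comm]; exact hgen
        · intro s hs
          simp only [Set.mem_insert_iff, Set.mem_singleton_iff] at hs
          rcases hs with hs | hs <;> rw [hs]
          · exact Subgroup.mem_zpowers a
          · exact hma
      · -- Sub-case B
        have hdisj : ∀ i : ℤ, a ^ i ∈ Subgroup.zpowers m → a ^ i = 1 := by
          intro i hi
          obtain ⟨e, he⟩ := Subgroup.mem_zpowers_iff.mp hi
          rcases zpow_two_cases hm2 e with h3 | h3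
          · rw [← he, h3]
          · exfalso; apply hma
            rw [← h3, he]; exact Subgroup.zpow_mem _ (Subgroup.mem_zpowers a) i
        rcases ht with ht | ht
        · exfalso
          have hba : b⁻¹ * a * b ∈ Subgroup.zpowers a := by
            rw [ht]; exact Subgroup.zpow_mem _ (Subgroup.mem_zpowers a) t
          haveI := zpowers_normal_three a a b m hgen hmcen haa hba
          have hc := comm_le_three (Subgroup.zpowers a) a b m hgen hmcen (by
            rw [show a⁻¹ * b⁻¹ * a * b = a⁻¹ * (b⁻¹ * a * b) by group, ht]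
            exact Subgroup.mul_mem _ (Subgroup.inv_mem _ (Subgroup.mem_zpowers a))
              (Subgroup.zpow_mem _ (Subgroup.mem_zpowers a) t))
          exact hma (hc hmcomm)
        · -- b⁻¹ a b = a^t m
          obtain ⟨r, hr⟩ : ∃ r : G, r = a ^ (t - 1) := ⟨_, rfl⟩
          obtain ⟨c, hc⟩ : ∃ c : G, c = r * m := ⟨_, rfl⟩
          have hrm : Commute r m := (cc hmcen r).symm
          have hra : Commute r a := by rw [hr]; exact (Commute.refl a).zpow_left (t - 1)
          have hca : Commute c a := by rw [hc]; exact hra.mul_left (cc hmcen a)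
          have hcomm_eq : a⁻¹ * b⁻¹ * a * b = c := by
            rw [show a⁻¹ * b⁻¹ * a * b = a⁻¹ * (b⁻¹ * a * b) by group, ht, hc, hr, ← mul_assoc]
            congr 1
            rw [show t - 1 = -1 + t by ring, zpow_add, zpow_neg_one]
          have h1 : a⁻¹ * c * a ∈ Subgroup.zpowers c := by
            rw [mul_assoc, hca.eq, inv_mul_cancel_left]; exact Subgroup.mem_zpowers c
          have h2 : b⁻¹ * c * b ∈ Subgroup.zpowers c := by
            have h3 : b⁻¹ * c * b = c ^ t := by
              have e1 : b⁻¹ * c * b = (b⁻¹ * a * b) ^ (t - 1) * m := by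
                rw [hc, hr, ← conj_zpow_inv]
                have := (cc hmcen b).eq
                calc b⁻¹ * (a ^ (t - 1) * m) * b = b⁻¹ * a ^ (t - 1) * (m * b) := by group
                  _ = b⁻¹ * a ^ (t - 1) * (b * m) := by rw [this]
                  _ = b⁻¹ * a ^ (t - 1) * b * m := by group
              rw [e1, ht]
              have c1 : Commute (a ^ t) m := (cc hmcen _).symm
              rw [c1.mul_zpow, hc, hrm.mul_zpow, hr, ← zpow_mul, ← zpow_mul, mul_assoc,
                ← zpow_add_one, sub_add_cancel, mul_comm t (t - 1)]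
            rw [h3]; exact Subgroup.zpow_mem _ (Subgroup.mem_zpowers c) t
          haveI := zpowers_normal_three c a b m hgen hmcen h1 h2
          have hcle := comm_le_three (Subgroup.zpowers c) a b m hgen hmcen
            (by rw [hcomm_eq]; exact Subgroup.mem_zpowers c)
          obtain ⟨j, hj⟩ := Subgroup.mem_zpowers_iff.mp (hcle hmcomm)
          rw [hc, hrm.mul_zpow] at hj
          have hrj : r ^ j = 1 := by
            have e1 : r ^ j = a ^ ((t - 1) * j) := by rw [hr, ← zpow_mul]
            have e2 : r ^ j = m * (m ^ j)⁻¹ := by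
              calc r ^ j = r ^ j * m ^ j * (m ^ j)⁻¹ := by group
                _ = m * (m ^ j)⁻¹ := by rw [hj]
            rw [e1]
            apply hdisj
            rw [← e1, e2]
            exact Subgroup.mul_mem _ (Subgroup.mem_zpowers m)
              (Subgroup.inv_mem _ (Subgroup.zpow_mem _ (Subgroup.mem_zpowers m) j))
          rw [hrj, one_mul] at hj
          have hjodd : ¬ (2 : ℤ) ∣ j := by
            rintro ⟨k, rfl⟩
            rw [zpow_mul, zpow_ofNat, hm2, one_zpow] at hj
            exact hm1 hj.symm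
          have hr1 : r = 1 := by
            obtain ⟨s, hs⟩ := (IsPGroup.iff_orderOf.mp hG) r
            have hdvd : (orderOf r : ℤ) ∣ j := orderOf_dvd_iff_zpow_eq_one.mpr hrj
            rcases Nat.eq_zero_or_pos s with h0 | h0
            · rw [h0, pow_zero] at hs; exact orderOf_eq_one_iff.mp hs
            · exfalso; apply hjodd
              refine dvd_trans ?_ hdvd
              rw [hs]
              exact_mod_cast dvd_pow_self 2 (by omega : s ≠ 0)
          have hm_eq : a⁻¹ * b⁻¹ * a * b = m := by rw [hcomm_eq, hc, hr1, one_mul]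
          have hgen2 : Subgroup.closure ({a, b} : Set G) = ⊤ := by
            rw [eq_top_iff, ← hgen, Subgroup.closure_le]
            have ha' : a ∈ Subgroup.closure ({a, b} : Set G) := Subgroup.subset_closure (by simp)
            have hb' : b ∈ Subgroup.closure ({a, b} : Set G) := Subgroup.subset_closure (by simp)
            intro s hs
            simp only [Set.mem_insert_iff, Set.mem_singleton_iff] at hs
            rcases hs with hs | hs | hs <;> rw [hs]
            · exact ha'
            · exact hb'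
            · rw [← hm_eq]
              exact Subgroup.mul_mem _ (Subgroup.mul_mem _ (Subgroup.mul_mem _
                (Subgroup.inv_mem _ ha') (Subgroup.inv_mem _ hb')) ha') hb'
          exact metacyclic_of_pair hG hR hmcen hm1 hm2 a b ⟨hgen2, by rw [← hm_eq]; group⟩

end final

/-- A finite 2-group of sectional 2-rank at most 2 (every section has no elementary abelian subgroup of order 8) is metacyclic: it has a cyclic normal subgroup with cyclic quotient. -/
theorem result {S : Type*} [Group S] [Finite S] (h2 : IsPGroup 2 S) (hr : Cfsg.SectionalPRankLE 2 2 S) : Cfsg.IsMetacyclic S :=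
  main (Nat.card S) S rfl h2 (r2_of_sectional hr)

end Cfsg.Agent.S4397
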