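import Cfsg.Statements.S4399
import Cfsg.Agent.S0646
import Cfsg.Agent.S0114
import Cfsg.Agent.Lib.Helper7.Quat

set_option autoImplicit false
open Cfsg

namespace Cfsg.Agent.S4399

open Cfsg.Agent.Lib.Helper3

/-- Let S be a finite 2-group whose commutator quotient S/[S,S] is a Klein four-group (order 4 and exponent 2). Then S itself has order 4, or S is dihedral of order at least 8, semidihedral of order at least 16 (order 2^(k+4) with an element a of order 2^(k+3) and an involution b with b a b⁻¹ = a^(2^(k+2)−1)), or generalized quaternion of order at least 8. -/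
theorem result {S : Type*} [Group S] [Finite S] (h2 : IsPGroup 2 S) (hab : Nat.card (Abelianization S) = 4)
    (hexp : ∀ x : Abelianization S, x ^ 2 = 1) :
    Nat.card S = 4 ∨
    ((∃ k : ℕ, Nonempty (S ≃* DihedralGroup (2 ^ (k + 2)))) ∨
      (∃ k : ℕ, Nat.card S = 2 ^ (k + 4) ∧ ∃ a b : S, orderOf a = 2 ^ (k + 3) ∧ orderOf b = 2 ∧ b * a * b⁻¹ = a ^ (2 ^ (k + 2) - 1)) ∨
      (∃ k : ℕ, Nonempty (S ≃* QuaternionGroup (2 ^ (k + 1))))) := by
  obtain ⟨n, hn⟩ := IsPGroup.iff_card.mp h2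
  have hidx : (commutator S).index = 4 := hab
  by_cases h4 : Nat.card S = 4
  · left; exact h4
  right
  have h1 := (commutator S).card_mul_index
  rw [hidx, hn] at h1
  have hn3 : 3 ≤ n := by
    by_contra hlt
    have hle : n ≤ 2 := by omega
    interval_cases n
    · omega
    · omega
    · exact h4 (by rw [hn]; norm_num)
  obtain ⟨h, hH2⟩ := theoremT n hn3 S hn hidx
  have hcard' : Nat.card S = 2 ^ (n - 3 + 3) := by rw [hn]; congr 1; omega
  have hnc := not_comm_of_index (n - 3) hcard' hidx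
  have hna : ∃ x y : S, x * y ≠ y * x := by
    by_contra hall
    push Not at hall
    exact hnc hall
  obtain ⟨a, b, ha, hb, hrel⟩ := Cfsg.Agent.S0646.result n hn3 hn (Subgroup.zpowers h)
    inferInstance hH2 hna
  -- index of ⟨a⟩
  have hA2 : (Subgroup.zpowers a).index = 2 := by
    have h3 := (Subgroup.zpowers a).card_mul_index
    rw [Nat.card_zpowers, ha, hn] at h3
    have h5 : 2 ^ n = 2 ^ (n - 1) * 2 := by
      obtain ⟨k, rfl⟩ : ∃ k, n = k + 1 := ⟨n - 1, by omega⟩
      rw [Nat.add_sub_cancel, pow_succ]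
    rw [h5] at h3
    exact Nat.eq_of_mul_eq_mul_left (by positivity) h3
  have hapow : a ^ (2 ^ (n - 1)) = 1 := by rw [← ha]; exact pow_orderOf_eq_one a
  have hHc : ∀ x ∈ Subgroup.zpowers a, ∀ y ∈ Subgroup.zpowers a, x * y = y * x := by
    intro x hx y hy
    obtain ⟨i, rfl⟩ := Subgroup.mem_zpowers_iff.mp hx
    obtain ⟨j, rfl⟩ := Subgroup.mem_zpowers_iff.mp hy
    rw [← zpow_add, ← zpow_add, add_comm]
  rcases hrel with ⟨hb2, hconj⟩ | ⟨hb2, hconj⟩ | ⟨hn4, hb2, hconj⟩ | ⟨hn4, hb2, hconj⟩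
  · -- dihedral
    left
    refine ⟨n - 3, ?_⟩
    have e : n - 3 + 2 = n - 1 := by omega
    rw [e]
    have R2 : b * b = 1 := by rw [← sq]; exact hb2
    have hmul := Cfsg.Agent.S0114.dmap_mul (2 ^ (n - 1)) a b hapow R2 hconj
    let f : DihedralGroup (2 ^ (n - 1)) →* S :=
      MonoidHom.mk' (Cfsg.Agent.S0114.dmap (2 ^ (n - 1)) a b) hmul
    have hsurj : Function.Surjective f := by
      intro x
      rcases cases_index2 _ hA2 b hb x with hx | hx
      · obtain ⟨k, rfl⟩ := Subgroup.mem_zpowers_iff.mp hx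
        refine ⟨DihedralGroup.r (k : ZMod _), ?_⟩
        show a ^ (ZMod.cast ((k : ℤ) : ZMod (2 ^ (n - 1))) : ℤ) = _
        rw [Cfsg.Agent.S0114.dmap_key _ _ hapow k _ rfl]
      · obtain ⟨k, hk⟩ := Subgroup.mem_zpowers_iff.mp hx
        refine ⟨DihedralGroup.sr ((-k : ℤ) : ZMod _), ?_⟩
        show b * a ^ (ZMod.cast ((-k : ℤ) : ZMod (2 ^ (n - 1))) : ℤ) = _
        rw [Cfsg.Agent.S0114.dmap_key _ _ hapow (-k) _ rfl]
        have hxe : x = a ^ k * b := by rw [hk]; group
        rw [hxe, zpow_neg, ← Cfsg.Agent.S0114.dmap_swap _ _ hconj k]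
    have hbij : Function.Bijective f :=
      hsurj.bijective_of_nat_card_le (by
        rw [DihedralGroup.nat_card, hn]
        obtain ⟨k, rfl⟩ : ∃ k, n = k + 1 := ⟨n - 1, by omega⟩
        rw [Nat.add_sub_cancel, pow_succ]; omega)
    exact ⟨(MulEquiv.ofBijective f hbij).symm⟩
  · -- generalized quaternion
    right; right
    refine ⟨n - 3, ?_⟩
    have e : n - 3 + 1 = n - 2 := by omega
    rw [e]
    have hm2 : 2 ≤ 2 ^ (n - 2) := by
      calc 2 = 2 ^ 1 := by norm_num
        _ ≤ 2 ^ (n - 2) := Nat.pow_le_pow_right (by norm_num) (by omega)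
    have hA : orderOf a = 2 * 2 ^ (n - 2) := by
      rw [ha]
      obtain ⟨k, rfl⟩ : ∃ k, n = k + 2 := ⟨n - 2, by omega⟩
      have e1 : k + 2 - 1 = k + 1 := by omega
      have e2 : k + 2 - 2 = k := by omega
      rw [e1, e2, pow_succ]; ring
    have hX : b * b = a ^ (2 ^ (n - 2)) := by rw [← sq]; exact hb2
    have hAX : a * b = b * a⁻¹ := by
      have h5 : b * a⁻¹ * b⁻¹ = a := by
        have h6 : b * a⁻¹ * b⁻¹ = (b * a * b⁻¹)⁻¹ := by group
        rw [h6, hconj, inv_inv]
      calc a * b = (b * a⁻¹ * b⁻¹) * b := by rw [h5]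
        _ = b * a⁻¹ := by group
    have hinj := Cfsg.Agent.Lib.Helper7.quatHom_injective hm2 a b hA hX hAX
    have hQc : Nat.card (QuaternionGroup (2 ^ (n - 2))) = 4 * 2 ^ (n - 2) := by
      haveI : NeZero (2 ^ (n - 2)) := ⟨by positivity⟩
      rw [Nat.card_eq_fintype_card, QuaternionGroup.card]
    have hbij := hinj.bijective_of_nat_card_le (by
      rw [hQc, hn]
      obtain ⟨k, rfl⟩ : ∃ k, n = k + 2 := ⟨n - 2, by omega⟩
      have e2 : k + 2 - 2 = k := by omega
      rw [e2, pow_succ, pow_succ]; omega)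
    exact ⟨(MulEquiv.ofBijective _ hbij).symm⟩
  · -- modular: impossible
    exfalso
    obtain ⟨hZcard, -, -⟩ := center_data (n - 3) hcard' hidx h hH2
    have hconj2 : b * a ^ 2 * b⁻¹ = a ^ 2 := by
      rw [← conj_pow, hconj, ← pow_mul]
      have e : (1 + 2 ^ (n - 2)) * 2 = 2 + 2 ^ (n - 1) := by
        obtain ⟨k, rfl⟩ : ∃ k, n = k + 2 := ⟨n - 2, by omega⟩
        have e1 : k + 2 - 1 = k + 1 := by omega
        have e2 : k + 2 - 2 = k := by omega
        rw [e1, e2, pow_succ]; ring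
      rw [e, pow_add, hapow, mul_one]
    have hcomm : a ^ 2 * b = b * a ^ 2 := by
      calc a ^ 2 * b = (b * a ^ 2 * b⁻¹) * b := by rw [hconj2]
        _ = b * a ^ 2 := by group
    have hmem : a ^ 2 ∈ Subgroup.center S :=
      mem_center_of_index2 _ hHc hA2 b hb (a ^ 2)
        (Subgroup.pow_mem _ (Subgroup.mem_zpowers a) 2) hcomm
    have hord : orderOf (a ^ 2) = 2 ^ (n - 2) := by
      rw [orderOf_pow' a (by norm_num), ha]
      obtain ⟨k, rfl⟩ : ∃ k, n = k + 2 := ⟨n - 2, by omega⟩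
      have e1 : k + 2 - 1 = k + 1 := by omega
      have e2 : k + 2 - 2 = k := by omega
      rw [e1, e2, pow_succ, Nat.gcd_eq_right (Dvd.intro_left _ rfl)]
      simp
    have hdvd : orderOf (a ^ 2) ∣ 2 := by
      have h6 := Subgroup.orderOf_dvd_natCard (Subgroup.center S) hmem
      rwa [hZcard] at h6
    rw [hord] at hdvd
    have hle := Nat.le_of_dvd (by norm_num) hdvd
    have h8 : 2 ^ 2 ≤ 2 ^ (n - 2) := Nat.pow_le_pow_right (by norm_num) (by omega)
    omega
  · -- semidihedral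
    right; left
    refine ⟨n - 4, ?_, a, b, ?_, ?_, ?_⟩
    · rw [hn]; congr 1; omega
    · rw [ha]; congr 1; omega
    · have hb1 : b ≠ 1 := by
        rintro rfl
        exact hb (Subgroup.one_mem _)
      exact orderOf_eq_prime hb2 hb1
    · rw [hconj]
      have e : n - 4 + 2 = n - 2 := by omega
      rw [e]

end Cfsg.Agent.S4399
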