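import Cfsg.Statements.S4398
import Cfsg.Agent.S4397
import Cfsg.Agent.S4399

set_option autoImplicit false
open Cfsg
open scoped commutatorElement

namespace Cfsg.Agent.S4398

open Cfsg.Agent.S4397 (zpow_two_cases comm_le_of_gen normal_of_gen conj_zpow_inv)

/-- A copy of `D₈` or `Q₈` is a nonabelian subgroup of order eight. -/
theorem sub_facts {S : Type*} [Group S] (H : Subgroup S)
    (h : Nonempty (↥H ≃* DihedralGroup 4) ∨ Nonempty (↥H ≃* QuaternionGroup 2)) :
    Nat.card H = 8 ∧ ∃ x ∈ H, ∃ y ∈ H, x * y ≠ y * x := by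
  rcases h with h | h
  · obtain ⟨e⟩ := h
    refine ⟨?_, ?_⟩
    · rw [Nat.card_congr e.toEquiv, Nat.card_eq_fintype_card, DihedralGroup.card]
    · refine ⟨(e.symm (DihedralGroup.r 1)).1, (e.symm (DihedralGroup.r 1)).2,
        (e.symm (DihedralGroup.sr 0)).1, (e.symm (DihedralGroup.sr 0)).2, ?_⟩
      intro hxy
      have h1 : e.symm (DihedralGroup.r 1) * e.symm (DihedralGroup.sr 0)
          = e.symm (DihedralGroup.sr 0) * e.symm (DihedralGroup.r 1) := Subtype.ext hxy
      rw [← map_mul, ← map_mul] at h1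
      exact absurd (e.symm.injective h1) (by decide)
  · obtain ⟨e⟩ := h
    refine ⟨?_, ?_⟩
    · rw [Nat.card_congr e.toEquiv, Nat.card_eq_fintype_card, QuaternionGroup.card]
    · refine ⟨(e.symm (QuaternionGroup.a 1)).1, (e.symm (QuaternionGroup.a 1)).2,
        (e.symm (QuaternionGroup.xa 0)).1, (e.symm (QuaternionGroup.xa 0)).2, ?_⟩
      intro hxy
      have h1 : e.symm (QuaternionGroup.a 1) * e.symm (QuaternionGroup.xa 0)
          = e.symm (QuaternionGroup.xa 0) * e.symm (QuaternionGroup.a 1) := Subtype.ext hxy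
      rw [← map_mul, ← map_mul] at h1
      exact absurd (e.symm.injective h1) (by decide)

theorem core {S : Type*} [Group S] [Finite S] (h2 : IsPGroup 2 S)
    (N : Subgroup S) [hNn : N.Normal] (hNc : IsCyclic N) (hQc : IsCyclic (S ⧸ N))
    (H : Subgroup S) (hH8 : Nat.card H = 8) (hHnc : ∃ x ∈ H, ∃ y ∈ H, x * y ≠ y * x) :
    Nat.card (Abelianization S) = 4 ∧ ∀ x : Abelianization S, x ^ 2 = 1 := by
  obtain ⟨a, ha⟩ := (Subgroup.isCyclic_iff_exists_zpowers_eq_top N).mp hNc
  -- the element `t`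
  obtain ⟨τ, hτ⟩ := (Subgroup.isCyclic_iff_exists_zpowers_eq_top
    (H.map (QuotientGroup.mk' N))).mp inferInstance
  have hτmem : τ ∈ H.map (QuotientGroup.mk' N) := hτ ▸ Subgroup.mem_zpowers τ
  obtain ⟨t, htH, rfl⟩ := Subgroup.mem_map.mp hτmem
  -- the intersection
  have hKle : H ⊓ N ≤ N := inf_le_right
  haveI : IsCyclic (H ⊓ N : Subgroup S) := Subgroup.isCyclic_of_le hKle
  obtain ⟨h, hh⟩ := (Subgroup.isCyclic_iff_exists_zpowers_eq_top (H ⊓ N)).mp inferInstance
  have hhK : h ∈ H ⊓ N := hh ▸ Subgroup.mem_zpowers h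
  have hhH : h ∈ H := (Subgroup.mem_inf.mp hhK).1
  have hhN : h ∈ N := (Subgroup.mem_inf.mp hhK).2
  -- decomposition of `H`
  have hdec : ∀ x ∈ H, ∃ i j : ℤ, x = t ^ i * h ^ j := by
    intro x hx
    have hx' : (QuotientGroup.mk' N) x ∈ Subgroup.zpowers ((QuotientGroup.mk' N) t) := by
      rw [hτ]; exact Subgroup.mem_map_of_mem _ hx
    obtain ⟨i, hi⟩ := Subgroup.mem_zpowers_iff.mp hx'
    have h0 : (QuotientGroup.mk' N) ((t ^ i)⁻¹ * x) = 1 := by
      rw [map_mul, map_inv, map_zpow, hi, inv_mul_cancel]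
    have h1 : (t ^ i)⁻¹ * x ∈ N := (QuotientGroup.eq_one_iff _).mp h0
    have h2 : (t ^ i)⁻¹ * x ∈ H ⊓ N :=
      Subgroup.mem_inf.mpr ⟨H.mul_mem (H.inv_mem (H.zpow_mem htH i)) hx, h1⟩
    rw [← hh] at h2
    obtain ⟨j, hj⟩ := Subgroup.mem_zpowers_iff.mp h2
    exact ⟨i, j, by rw [hj]; group⟩
  -- `t` and `h` do not commute
  have hnc : ¬ Commute t h := by
    intro hc
    obtain ⟨x, hx, y, hy, hxy⟩ := hHnc
    obtain ⟨i, j, rfl⟩ := hdec x hx
    obtain ⟨i', j', rfl⟩ := hdec y hy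
    apply hxy
    have c1 : Commute (t ^ i * h ^ j) (t ^ i' * h ^ j') := by
      apply Commute.mul_left <;> apply Commute.mul_right
      · exact (Commute.refl t).zpow_zpow i i'
      · exact hc.zpow_zpow i j'
      · exact (hc.symm).zpow_zpow j i'
      · exact (Commute.refl h).zpow_zpow j j'
    exact c1.eq
  have htK : t ∉ Subgroup.zpowers h := by
    intro ht
    obtain ⟨i, hi⟩ := Subgroup.mem_zpowers_iff.mp ht
    apply hnc; rw [← hi]; exact (Commute.refl h).zpow_left i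
  have hKH : H ⊓ N ≤ H := inf_le_left
  have hcardK : Nat.card (H ⊓ N : Subgroup S) = orderOf h := by rw [← hh, Nat.card_zpowers]
  have hdvd8 : orderOf h ∣ 8 := by rw [← hcardK, ← hH8]; exact Subgroup.card_dvd_of_le hKH
  have hne8 : orderOf h ≠ 8 := by
    intro h8
    have : H ⊓ N = H := Subgroup.eq_of_le_of_card_ge hKH (by rw [hcardK, h8, hH8])
    apply htK; rw [hh, this]; exact htH
  have hconjK : t⁻¹ * h * t ∈ Subgroup.zpowers h := by
    rw [hh]; refine Subgroup.mem_inf.mpr ⟨H.mul_mem (H.mul_mem (H.inv_mem htH) hhH) htH, ?_⟩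
    have := hNn.conj_mem h hhN t⁻¹
    rwa [inv_inv] at this
  obtain ⟨e, he⟩ := Subgroup.mem_zpowers_iff.mp hconjK
  have hnot2 : h ^ 2 ≠ 1 := by
    intro h2'
    rcases zpow_two_cases h2' e with h3 | h3
    · rw [h3] at he
      apply hnc
      have h1 : h = 1 := by
        calc h = t * (t⁻¹ * h * t) * t⁻¹ := by group
          _ = 1 := by rw [← he]; group
      rw [h1]; exact Commute.one_right t
    · rw [h3] at he
      apply hnc
      show t * h = h * t
      calc t * h = t * (t⁻¹ * h * t) := by rw [← he]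
        _ = h * t := by group
  have hord4 : orderOf h = 4 := by
    have hmem : orderOf h ∈ Nat.divisors 8 := Nat.mem_divisors.mpr ⟨hdvd8, by norm_num⟩
    have hd : Nat.divisors 8 = {1, 2, 4, 8} := by decide
    rw [hd] at hmem
    simp only [Finset.mem_insert, Finset.mem_singleton] at hmem
    rcases hmem with h1 | h1 | h1 | h1
    · exfalso; apply hnot2; rw [orderOf_eq_one_iff.mp h1, one_pow]
    · exfalso; apply hnot2; rw [← h1, pow_orderOf_eq_one]
    · exact h1
    · exact absurd h1 hne8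
  have hh4 : h ^ 4 = 1 := by rw [← hord4, pow_orderOf_eq_one]
  have hh4z : h ^ (4 : ℤ) = 1 := by
    rw [show (4 : ℤ) = ((4 : ℕ) : ℤ) by norm_num, zpow_natCast]; exact hh4
  obtain ⟨m, hm⟩ : ∃ m : ℤ, a ^ m = h := Subgroup.mem_zpowers_iff.mp (ha ▸ hhN)
  have hconj_a : ∀ x : S, ∃ r : ℤ, x⁻¹ * a * x = a ^ r := by
    intro x
    have h1 : x⁻¹ * a * x ∈ N := by
      have := hNn.conj_mem a (ha ▸ Subgroup.mem_zpowers a) x⁻¹
      rwa [inv_inv] at this
    rw [← ha] at h1
    obtain ⟨r, hr⟩ := Subgroup.mem_zpowers_iff.mp h1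
    exact ⟨r, hr.symm⟩
  have hconj_h : ∀ (x : S) (r : ℤ), x⁻¹ * a * x = a ^ r → x⁻¹ * h * x = h ^ r := by
    intro x r hr
    rw [← hm, conj_zpow_inv, hr, ← zpow_mul, ← zpow_mul, mul_comm]
  have F1 : ∀ x : S, x⁻¹ * h * x = h ∨ x⁻¹ * h * x = h⁻¹ := by
    intro x
    obtain ⟨r, hr⟩ := hconj_a x
    have h1 := hconj_h x r hr
    have hsq : (x⁻¹ * h * x) ^ 2 ≠ 1 := by
      intro h0
      apply hnot2
      have e1 : (x⁻¹ * h * x) ^ 2 = x⁻¹ * h ^ 2 * x := by rw [pow_two, pow_two]; group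
      rw [e1] at h0
      calc h ^ 2 = x * (x⁻¹ * h ^ 2 * x) * x⁻¹ := by group
        _ = 1 := by rw [h0]; group
    rw [h1] at hsq ⊢
    have hmod : h ^ r = h ^ (r % 4) := by
      have := zpow_mod_orderOf h r
      rw [hord4] at this
      exact this.symm
    obtain ⟨k, hk⟩ : ∃ k : ℤ, k = r % 4 := ⟨_, rfl⟩
    have hk0 : 0 ≤ k := by rw [hk]; exact Int.emod_nonneg r (by norm_num)
    have hk4 : k < 4 := by rw [hk]; exact Int.emod_lt_of_pos r (by norm_num)
    rw [hmod, ← hk] at hsq ⊢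
    interval_cases k
    · exfalso; apply hsq; simp
    · left; simp
    · exfalso; apply hsq
      rw [← zpow_natCast, ← zpow_mul]
      exact hh4z
    · right
      rw [eq_inv_iff_mul_eq_one, ← zpow_add_one]
      exact hh4z
  have F2 : ∀ x : S, Commute (x * x) h := by
    intro x
    show x * x * h = h * (x * x)
    rcases F1 x with h1 | h1
    · have hc : x * h = h * x := by
        calc x * h = x * (x⁻¹ * h * x) := by rw [h1]
          _ = h * x := by group
      rw [mul_assoc, hc, ← mul_assoc, hc, mul_assoc]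
    · have hc : h * x = x * h⁻¹ := by
        calc h * x = x * (x⁻¹ * h * x) := by group
          _ = x * h⁻¹ := by rw [h1]
      have hc' : h⁻¹ * x = x * h := by
        calc h⁻¹ * x = x * (x⁻¹ * h * x)⁻¹ := by group
          _ = x * h := by rw [h1, inv_inv]
      calc x * x * h = x * (x * h) := mul_assoc _ _ _
        _ = x * (h⁻¹ * x) := by rw [hc']
        _ = x * h⁻¹ * x := (mul_assoc _ _ _).symm
        _ = h * x * x := by rw [hc]
        _ = h * (x * x) := mul_assoc _ _ _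
  have htinv : t⁻¹ * h * t = h⁻¹ := by
    rcases F1 t with h1 | h1
    · exfalso; apply hnc
      show t * h = h * t
      calc t * h = t * (t⁻¹ * h * t) := by rw [h1]
        _ = h * t := by group
    · exact h1
  have htt : t * t ∈ H ⊓ N := by
    have hcard' : Nat.card ((H ⊓ N).subgroupOf H) = 4 := by
      rw [Nat.card_congr (Subgroup.subgroupOfEquivOfLe hKH).toEquiv, hcardK, hord4]
    have hidx : ((H ⊓ N).subgroupOf H).index = 2 := by
      have := Subgroup.card_mul_index ((H ⊓ N).subgroupOf H)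
      rw [hcard', hH8] at this
      omega
    have := Subgroup.mul_self_mem_of_index_two hidx (⟨t, htH⟩ : H)
    exact Subgroup.mem_subgroupOf.mp this
  have httN : t * t ∈ N := (Subgroup.mem_inf.mp htt).2
  have hNh : ∀ n ∈ N, Commute n h := by
    intro n hn
    rw [← ha] at hn
    obtain ⟨i, rfl⟩ := Subgroup.mem_zpowers_iff.mp hn
    rw [← hm]
    exact (Commute.refl a).zpow_zpow i m
  have htN : t ∉ N := fun ht => hnc (hNh t ht)
  -- a generator of the quotient
  obtain ⟨β', hβ'⟩ := IsCyclic.exists_generator (α := S ⧸ N)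
  obtain ⟨β, rfl⟩ := QuotientGroup.mk_surjective β'
  obtain ⟨j, hj⟩ := Subgroup.mem_zpowers_iff.mp (hβ' (t : S ⧸ N))
  have hjodd : ¬ (2 : ℤ) ∣ j := by
    rintro ⟨j', rfl⟩
    have h1 : (β ^ (2 * j'))⁻¹ * t ∈ N := by
      rw [← QuotientGroup.eq, QuotientGroup.mk_zpow]; exact hj
    apply hnc
    have c1 : Commute (β ^ (2 * j')) h := by
      rw [zpow_mul, zpow_two]
      exact (F2 β).zpow_left j'
    have c2 := hNh _ h1
    have e1 : t = β ^ (2 * j') * ((β ^ (2 * j'))⁻¹ * t) := by group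
    rw [e1]; exact c1.mul_left c2
  have hQ2 : IsPGroup 2 (S ⧸ N) := h2.to_quotient N
  obtain ⟨k, hk⟩ := hQ2 (β : S ⧸ N)
  have hcop : IsCoprime j ((2 : ℤ) ^ k) := by
    apply IsCoprime.pow_right
    obtain ⟨j', hj' | hj'⟩ := Int.even_or_odd' j
    · exact absurd ⟨j', hj'⟩ hjodd
    · exact ⟨1, -j', by rw [hj']; ring⟩
  obtain ⟨u, v, huv⟩ := hcop
  have hβt : (β : S ⧸ N) = (t : S ⧸ N) ^ u := by
    have h1 : (β : S ⧸ N) ^ ((2 : ℤ) ^ k) = 1 := by
      rw [← hk]; norm_cast
    calc (β : S ⧸ N) = (β : S ⧸ N) ^ (u * j + v * 2 ^ k) := by rw [huv, zpow_one]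
      _ = ((β : S ⧸ N) ^ j) ^ u * ((β : S ⧸ N) ^ ((2 : ℤ) ^ k)) ^ v := by
          rw [zpow_add, mul_comm u j, zpow_mul, mul_comm v, zpow_mul]
      _ = (t : S ⧸ N) ^ u := by rw [hj, h1, one_zpow, mul_one]
  have htsq : (t : S ⧸ N) ^ 2 = 1 := by
    rw [← QuotientGroup.mk_pow, QuotientGroup.eq_one_iff, pow_two]; exact httN
  have hcos : ∀ x : S, x ∈ N ∨ x * t⁻¹ ∈ N := by
    intro x
    obtain ⟨i, hi⟩ := Subgroup.mem_zpowers_iff.mp (hβ' (x : S ⧸ N))
    rw [hβt, ← zpow_mul] at hi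
    rcases zpow_two_cases htsq (u * i) with h3 | h3
    · left; rw [h3] at hi; exact (QuotientGroup.eq_one_iff x).mp hi.symm
    · right; rw [h3] at hi
      rw [← QuotientGroup.eq_one_iff, QuotientGroup.mk_mul, QuotientGroup.mk_inv, ← hi,
        mul_inv_cancel]
  have hidxN : N.index = 2 := by
    rw [Subgroup.index_eq_two_iff]
    refine ⟨t⁻¹, fun b => ?_⟩
    rcases hcos b with hb | hb
    · right; refine ⟨hb, fun hb' => htN ?_⟩
      have h1 : t⁻¹ ∈ N := by
        have := N.mul_mem (N.inv_mem hb) hb'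
        rwa [inv_mul_cancel_left] at this
      simpa using N.inv_mem h1
    · left; refine ⟨hb, fun hb' => htN ?_⟩
      have h1 : t⁻¹ ∈ N := by
        have := N.mul_mem (N.inv_mem hb') hb
        rwa [inv_mul_cancel_left] at this
      simpa using N.inv_mem h1
  have hgen : Subgroup.closure ({a, t} : Set S) = ⊤ := by
    rw [eq_top_iff]
    intro x _
    have ha' : a ∈ Subgroup.closure ({a, t} : Set S) := Subgroup.subset_closure (by simp)
    have ht' : t ∈ Subgroup.closure ({a, t} : Set S) := Subgroup.subset_closure (by simp)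
    have hN' : N ≤ Subgroup.closure ({a, t} : Set S) := by
      rw [← ha]; exact Subgroup.zpowers_le.mpr ha'
    rcases hcos x with hx | hx
    · exact hN' hx
    · have := Subgroup.mul_mem _ (hN' hx) ht'
      rwa [inv_mul_cancel_right] at this
  obtain ⟨r, hr⟩ := hconj_a t
  have hhr : h ^ (r + 1) = 1 := by
    rw [zpow_add_one, ← hconj_h t r hr, htinv, inv_mul_cancel]
  have h4r : (4 : ℤ) ∣ r + 1 := by
    have := orderOf_dvd_iff_zpow_eq_one.mpr hhr
    rw [hord4] at this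
    exact_mod_cast this
  obtain ⟨q, hq⟩ := h4r
  have hr' : r = 4 * q - 1 := by omega
  have ha2 : a ^ (2 : ℤ) = a ^ 2 := by
    rw [show (2 : ℤ) = ((2 : ℕ) : ℤ) by norm_num, zpow_natCast]
  have hN2n : (Subgroup.zpowers (a ^ 2)).Normal := by
    apply normal_of_gen _ {a, t} hgen
    intro s hs k hk
    obtain ⟨i, rfl⟩ := Subgroup.mem_zpowers_iff.mp hk
    simp only [Set.mem_insert_iff, Set.mem_singleton_iff] at hs
    rcases hs with hs | hs <;> rw [hs]
    · have e1 : a⁻¹ * (a ^ 2) ^ i * a = (a ^ 2) ^ i := by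
        have c : Commute ((a ^ 2) ^ i) a := ((Commute.refl a).pow_left 2).zpow_left i
        rw [mul_assoc, c.eq, inv_mul_cancel_left]
      rw [e1]; exact Subgroup.zpow_mem _ (Subgroup.mem_zpowers _) i
    · have e1 : t⁻¹ * (a ^ 2) ^ i * t = ((a ^ 2) ^ r) ^ i := by
        rw [conj_zpow_inv]
        congr 1
        rw [← ha2, conj_zpow_inv, hr, ← zpow_mul, ← zpow_mul, mul_comm]
      rw [e1]; exact Subgroup.zpow_mem _ (Subgroup.zpow_mem _ (Subgroup.mem_zpowers _) r) i
  haveI := hN2n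
  have hcomm_at : a⁻¹ * t⁻¹ * a * t = (a ^ 2) ^ (2 * q - 1) := by
    rw [show a⁻¹ * t⁻¹ * a * t = a⁻¹ * (t⁻¹ * a * t) by group, hr, hr', ← ha2, ← zpow_mul]
    rw [show (2 : ℤ) * (2 * q - 1) = -1 + (4 * q - 1) by ring, zpow_add, zpow_neg_one]
  have hle1 : commutator S ≤ Subgroup.zpowers (a ^ 2) := by
    apply comm_le_of_gen _ {a, t} hgen
    intro s hs s' hs'
    simp only [Set.mem_insert_iff, Set.mem_singleton_iff] at hs hs'
    have h1 : ∀ w : S, w⁻¹ * w⁻¹ * w * w ∈ Subgroup.zpowers (a ^ 2) := fun w => by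
      rw [show w⁻¹ * w⁻¹ * w * w = 1 by group]; exact Subgroup.one_mem _
    rcases hs with hs | hs <;> rcases hs' with hs' | hs' <;> rw [hs, hs']
    · exact h1 a
    · rw [hcomm_at]; exact Subgroup.zpow_mem _ (Subgroup.mem_zpowers _) _
    · rw [show t⁻¹ * a⁻¹ * t * a = (a⁻¹ * t⁻¹ * a * t)⁻¹ by group, hcomm_at]
      exact Subgroup.inv_mem _ (Subgroup.zpow_mem _ (Subgroup.mem_zpowers _) _)
    · exact h1 t
  have hle2 : Subgroup.zpowers (a ^ 2) ≤ commutator S := by
    rw [Subgroup.zpowers_le]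
    have hmem : (a ^ 2) ^ (2 * q - 1) ∈ commutator S := by
      rw [← hcomm_at, _root_.commutator_def]
      have := Subgroup.commutator_mem_commutator (Subgroup.mem_top a⁻¹) (Subgroup.mem_top t⁻¹)
      rw [commutatorElement_def, inv_inv, inv_inv] at this
      exact this
    obtain ⟨k2, hk2⟩ := h2 (a ^ 2)
    have hcop2 : IsCoprime (2 * q - 1) ((2 : ℤ) ^ k2) := IsCoprime.pow_right ⟨1, 1 - q, by ring⟩
    obtain ⟨u2, v2, huv2⟩ := hcop2
    have e1 : a ^ 2 = ((a ^ 2) ^ (2 * q - 1)) ^ u2 := by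
      have h1 : (a ^ 2) ^ ((2 : ℤ) ^ k2) = 1 := by rw [← hk2]; norm_cast
      calc a ^ 2 = (a ^ 2) ^ (u2 * (2 * q - 1) + v2 * 2 ^ k2) := by rw [huv2, zpow_one]
        _ = ((a ^ 2) ^ (2 * q - 1)) ^ u2 * ((a ^ 2) ^ ((2 : ℤ) ^ k2)) ^ v2 := by
            rw [zpow_add, mul_comm u2, zpow_mul, mul_comm v2, zpow_mul]
        _ = ((a ^ 2) ^ (2 * q - 1)) ^ u2 := by rw [h1, one_zpow, mul_one]
    rw [e1]; exact Subgroup.zpow_mem _ hmem u2
  have hcommeq : commutator S = Subgroup.zpowers (a ^ 2) := le_antisymm hle1 hle2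
  have hh2mem : h ^ 2 ∈ Subgroup.zpowers (a ^ 2) := by
    rw [← hm]
    have e1 : (a ^ m) ^ 2 = (a ^ 2) ^ m := by
      rw [← zpow_natCast (a ^ m) 2, ← zpow_mul, ← zpow_natCast a 2, ← zpow_mul, mul_comm]
    rw [e1]; exact Subgroup.zpow_mem _ (Subgroup.mem_zpowers _) m
  have httmem : t * t ∈ Subgroup.zpowers (a ^ 2) := by
    have h1 : t * t ∈ Subgroup.zpowers h := by rw [hh]; exact htt
    obtain ⟨i, hi⟩ := Subgroup.mem_zpowers_iff.mp h1
    obtain ⟨i', hi' | hi'⟩ := Int.even_or_odd' i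
    · rw [← hi, hi', zpow_mul, zpow_two, ← pow_two]
      exact Subgroup.zpow_mem _ hh2mem i'
    · exfalso; apply hnc
      have hpow : h = (t * t) ^ (2 * i' + 1) := by
        rw [← hi, hi', ← zpow_mul]
        have e1 : (2 * i' + 1) * (2 * i' + 1) = 4 * (i' * i' + i') + 1 := by ring
        rw [e1, zpow_add, zpow_mul, zpow_one, hh4z, one_zpow, one_mul]
      rw [hpow]
      exact ((Commute.refl t).mul_right (Commute.refl t)).zpow_right _
  have hsq : ∀ x : S, x ^ 2 ∈ Subgroup.zpowers (a ^ 2) := by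
    intro x
    rcases hcos x with hx | hx
    · rw [← ha] at hx
      obtain ⟨i, rfl⟩ := Subgroup.mem_zpowers_iff.mp hx
      have e1 : (a ^ i) ^ 2 = (a ^ 2) ^ i := by
        rw [← zpow_natCast (a ^ i) 2, ← zpow_mul, ← zpow_natCast a 2, ← zpow_mul, mul_comm]
      rw [e1]; exact Subgroup.zpow_mem _ (Subgroup.mem_zpowers _) i
    · rw [← ha] at hx
      obtain ⟨i, hi⟩ := Subgroup.mem_zpowers_iff.mp hx
      have hx' : x = a ^ i * t := by rw [hi]; group
      have e1 : x ^ 2 = a ^ i * (t * t) * (t⁻¹ * a ^ i * t) := by rw [hx', pow_two]; group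
      rw [e1, conj_zpow_inv, hr, ← zpow_mul]
      have c : Commute (a ^ i) (t * t) := by
        have h1 : t * t ∈ Subgroup.zpowers a := by rw [ha]; exact httN
        obtain ⟨l, hl⟩ := Subgroup.mem_zpowers_iff.mp h1
        rw [← hl]; exact (Commute.refl a).zpow_zpow i l
      rw [c.eq, mul_assoc, ← zpow_add]
      refine Subgroup.mul_mem _ httmem ?_
      have e2 : i + r * i = 2 * (2 * q * i) := by rw [hr']; ring
      rw [e2, zpow_mul, ha2]
      exact Subgroup.zpow_mem _ (Subgroup.mem_zpowers _) _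
  constructor
  · have h1 : Nat.card (Abelianization S) = (commutator S).index := by
      rw [Subgroup.index_eq_card]; rfl
    rw [h1, hcommeq]
    have hcS := Subgroup.card_mul_index N
    rw [hidxN, ← ha, Nat.card_zpowers] at hcS
    have hcN2 := Subgroup.card_mul_index (Subgroup.zpowers (a ^ 2))
    rw [Nat.card_zpowers] at hcN2
    have h2dvd : 2 ∣ orderOf a := by
      have h3 : orderOf h ∣ orderOf a := by
        have := Subgroup.orderOf_dvd_natCard N hhN
        rwa [← ha, Nat.card_zpowers] at this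
      rw [hord4] at h3
      exact dvd_trans (by norm_num) h3
    have ho : orderOf (a ^ 2) = orderOf a / 2 := orderOf_pow_of_dvd (by norm_num) h2dvd
    obtain ⟨w, hw⟩ := h2dvd
    rw [ho, hw, Nat.mul_div_cancel_left _ (by norm_num)] at hcN2
    have hwpos : 0 < w := by have := orderOf_pos a; omega
    have e1 : w * (Subgroup.zpowers (a ^ 2)).index = w * 4 := by rw [hcN2, ← hcS, hw]; ring
    exact Nat.eq_of_mul_eq_mul_left hwpos e1
  · have key : ∀ x : S ⧸ commutator S, x ^ 2 = 1 := by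
      intro x
      obtain ⟨x, rfl⟩ := QuotientGroup.mk_surjective x
      rw [← QuotientGroup.mk_pow, QuotientGroup.eq_one_iff, hcommeq]
      exact hsq x
    exact key

/-- Let S be a finite 2-group of sectional 2-rank at most 2 that contains a subgroup isomorphic to the dihedral group of order 8 or to the quaternion group of order 8. Then S is dihedral of order at least 8, semidihedral of order at least 16 (order 2^(k+4) with an element a of order 2^(k+3) and an involution b with b a b⁻¹ = a^(2^(k+2)−1)), or generalized quaternion of order at least 8. -/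
theorem result {S : Type*} [Group S] [Finite S] (h2 : IsPGroup 2 S) (hr : Cfsg.SectionalPRankLE 2 2 S)
    (hsub : ∃ H : Subgroup S, Nonempty (↥H ≃* DihedralGroup 4) ∨ Nonempty (↥H ≃* QuaternionGroup 2)) :
    ((∃ k : ℕ, Nonempty (S ≃* DihedralGroup (2 ^ (k + 2)))) ∨
      (∃ k : ℕ, Nat.card S = 2 ^ (k + 4) ∧ ∃ a b : S, orderOf a = 2 ^ (k + 3) ∧ orderOf b = 2 ∧ b * a * b⁻¹ = a ^ (2 ^ (k + 2) - 1)) ∨
      (∃ k : ℕ, Nonempty (S ≃* QuaternionGroup (2 ^ (k + 1))))) := by
  obtain ⟨H, hH⟩ := hsub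
  obtain ⟨hH8, hHnc⟩ := sub_facts H hH
  obtain ⟨N, hNn, hNc, hQc⟩ := Cfsg.Agent.S4397.result h2 hr
  haveI := hNn
  obtain ⟨hab, hexp⟩ := core h2 N hNc hQc H hH8 hHnc
  rcases Cfsg.Agent.S4399.result h2 hab hexp with h4 | h
  · exfalso
    have := Subgroup.card_le_card_group H
    omega
  · exact h

end Cfsg.Agent.S4398
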