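import Cfsg.Statements.S4400
import Cfsg.Agent.Lib.Helper94.LargeExtra

set_option autoImplicit false
open Cfsg

namespace Cfsg.Agent.S4400

/-- A group of exponent two is commutative. -/
theorem comm_of_sq {E : Type*} [Group E] (h : ∀ a : E, a ^ 2 = 1) (a b : E) : a * b = b * a := by
  have ha : a⁻¹ = a := inv_eq_of_mul_eq_one_left (by rw [← pow_two]; exact h a)
  have hb : b⁻¹ = b := inv_eq_of_mul_eq_one_left (by rw [← pow_two]; exact h b)
  have hab : (a * b)⁻¹ = a * b := inv_eq_of_mul_eq_one_left (by rw [← pow_two]; exact h _)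
  rw [mul_inv_rev, ha, hb] at hab
  exact hab.symm

/-- The sectional rank bound applied to an elementary abelian image of a subgroup. -/
theorem rank_bound {S : Type*} [Group S] (hr : Cfsg.SectionalPRankLE 2 4 S) (T : Subgroup S)
    {E : Type*} [Group E] (ψ : ↥T →* E) (hψ : Function.Surjective ψ) (hexp : ∀ a : E, a ^ 2 = 1) :
    Nat.card E ≤ 16 := by
  have e : ↥T ⧸ ψ.ker ≃* E := QuotientGroup.quotientKerEquivOfSurjective ψ hψ
  have hsq : ∀ a : ↥T ⧸ ψ.ker, a ^ 2 = 1 := by
    intro a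
    apply e.injective
    rw [map_pow, map_one]; exact hexp _
  have h := hr T ψ.ker (⊤ : Subgroup (↥T ⧸ ψ.ker))
    ⟨⟨fun a b => Subtype.ext (comm_of_sq hsq a.1 b.1)⟩⟩ (fun a _ => hsq a)
  rw [Subgroup.card_top, Nat.card_congr e.toEquiv] at h
  exact h

/-- In a nonabelian finite 2-group with centre of order two, the centre lies in the Frattini
subgroup. -/
theorem center_le_frattini {P : Type*} [Group P] [Finite P] (hP : IsPGroup 2 P)
    (hna : ¬ IsMulCommutative P) (hZ : Nat.card (Subgroup.center P) = 2) :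
    Subgroup.center P ≤ frattini P := by
  have : Fact (Nat.Prime 2) := ⟨Nat.prime_two⟩
  obtain ⟨z', hz', huniq⟩ := (Nat.card_eq_two_iff' (1 : Subgroup.center P)).mp hZ
  intro z hz
  unfold frattini Order.radical
  simp only [Subgroup.mem_iInf]
  intro M hM
  by_contra hzM
  have hz1 : z ≠ 1 := fun h => hzM (h ▸ M.one_mem)
  have hcen : ∀ w ∈ Subgroup.center P, w = 1 ∨ w = z := by
    intro w hw
    by_cases hw1 : w = 1
    · exact Or.inl hw1
    · right
      have h1 : (⟨w, hw⟩ : Subgroup.center P) = z' :=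
        huniq _ (fun h => hw1 (congrArg Subtype.val h))
      have h2 : (⟨z, hz⟩ : Subgroup.center P) = z' :=
        huniq _ (fun h => hz1 (congrArg Subtype.val h))
      exact congrArg Subtype.val (h1.trans h2.symm)
  have htop : M ⊔ Subgroup.zpowers z = ⊤ := by
    apply hM.2
    refine lt_of_le_of_ne le_sup_left ?_
    intro h
    apply hzM
    have : Subgroup.zpowers z ≤ M := by rw [h]; exact le_sup_right
    exact this (Subgroup.mem_zpowers _)
  have hMtriv : M = ⊥ := by
    by_contra hMne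
    have hnt : Nontrivial M := (Subgroup.nontrivial_iff_ne_bot M).mpr hMne
    have hcn := (hP.to_subgroup M).center_nontrivial
    obtain ⟨w', hw'⟩ := exists_ne (1 : Subgroup.center M)
    have hwc : ((w' : M) : P) ∈ Subgroup.center P := by
      have hle : M ⊔ Subgroup.zpowers z ≤ Subgroup.centralizer ({((w' : M) : P)} : Set P) := by
        apply sup_le
        · intro m hm
          rw [Subgroup.mem_centralizer_singleton_iff]
          have := Subgroup.mem_center_iff.mp w'.2 ⟨m, hm⟩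
          exact congrArg Subtype.val this
        · rw [Subgroup.zpowers_le, Subgroup.mem_centralizer_singleton_iff]
          exact (Subgroup.mem_center_iff.mp hz _).symm
      rw [htop] at hle
      rw [Subgroup.mem_center_iff]
      intro g
      have := hle (Subgroup.mem_top g)
      rw [Subgroup.mem_centralizer_singleton_iff] at this
      exact this
    rcases hcen _ hwc with h | h
    · apply hw'
      apply Subtype.ext; apply Subtype.ext; simpa using h
    · apply hzM; rw [← h]; exact (w' : M).2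
  rw [hMtriv, bot_sup_eq] at htop
  apply hna
  refine ⟨⟨fun a b => ?_⟩⟩
  have ha : a ∈ Subgroup.zpowers z := by rw [htop]; exact Subgroup.mem_top a
  have hb : b ∈ Subgroup.zpowers z := by rw [htop]; exact Subgroup.mem_top b
  obtain ⟨i, rfl⟩ := Subgroup.mem_zpowers_iff.mp ha
  obtain ⟨j, rfl⟩ := Subgroup.mem_zpowers_iff.mp hb
  exact zpow_mul_comm z i j

/-- The Frattini quotient of a nonabelian finite group has order at least four. -/
theorem four_le_card_quot_frattini {P : Type*} [Group P] [Finite P]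
    (hna : ¬ IsMulCommutative P) : 4 ≤ Nat.card (P ⧸ frattini P) := by
  by_contra hlt
  push Not at hlt
  have hcyc : IsCyclic (P ⧸ frattini P) := by
    have hpos : 0 < Nat.card (P ⧸ frattini P) := Nat.card_pos
    have h3 : Nat.card (P ⧸ frattini P) = 1 ∨ Nat.card (P ⧸ frattini P) = 2 ∨
        Nat.card (P ⧸ frattini P) = 3 := by omega
    rcases h3 with h | h | h
    · have : Subsingleton (P ⧸ frattini P) := (Nat.card_eq_one_iff_unique.mp h).1
      exact isCyclic_of_subsingleton
    · have : Fact (Nat.Prime 2) := ⟨Nat.prime_two⟩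
      exact isCyclic_of_prime_card h
    · have : Fact (Nat.Prime 3) := ⟨Nat.prime_three⟩
      exact isCyclic_of_prime_card h
  obtain ⟨g', hg'⟩ := hcyc.exists_generator
  obtain ⟨g, rfl⟩ := QuotientGroup.mk_surjective g'
  have htop : Subgroup.zpowers g ⊔ frattini P = ⊤ := by
    rw [eq_top_iff]
    intro y _
    obtain ⟨k, hk⟩ := Subgroup.mem_zpowers_iff.mp (hg' (QuotientGroup.mk y))
    have h1 : (g ^ k)⁻¹ * y ∈ frattini P := by
      rw [← QuotientGroup.eq, QuotientGroup.mk_zpow]; exact hk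
    have : y = g ^ k * ((g ^ k)⁻¹ * y) := by group
    rw [this]
    exact Subgroup.mul_mem_sup (Subgroup.zpow_mem _ (Subgroup.mem_zpowers g) k) h1
  have h2 := frattini_nongenerating htop
  apply hna
  refine ⟨⟨fun a b => ?_⟩⟩
  have ha : a ∈ Subgroup.zpowers g := by rw [h2]; exact Subgroup.mem_top a
  have hb : b ∈ Subgroup.zpowers g := by rw [h2]; exact Subgroup.mem_top b
  obtain ⟨i, rfl⟩ := Subgroup.mem_zpowers_iff.mp ha
  obtain ⟨j, rfl⟩ := Subgroup.mem_zpowers_iff.mp hb
  exact zpow_mul_comm g i j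

/-- The nonidentity central element of a normal subgroup whose centre has order two; it is
central in the whole group. -/
theorem central_elt {S : Type*} [Group S] (P : Subgroup S) [hPn : P.Normal]
    (hZP : Nat.card ↥(Subgroup.center ↥P) = 2) :
    ∃ z ∈ P, z ≠ 1 ∧ (∀ x ∈ P, x * z = z * x) ∧
      (∀ w ∈ P, (∀ x ∈ P, x * w = w * x) → w = 1 ∨ w = z) ∧ z ∈ Subgroup.center S := by
  obtain ⟨z', hz', huniq⟩ := (Nat.card_eq_two_iff' (1 : Subgroup.center ↥P)).mp hZP
  set z : S := ((z' : ↥P) : S) with hzdef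
  have hzP : z ∈ P := (z' : ↥P).2
  have hzc : ∀ x ∈ P, x * z = z * x := by
    intro x hx
    have := Subgroup.mem_center_iff.mp z'.2 ⟨x, hx⟩
    exact congrArg Subtype.val this
  have hz1 : z ≠ 1 := by
    intro h
    apply hz'
    have h5 : ((z' : ↥P) : S) = ((1 : ↥P) : S) := h
    exact Subtype.ext (Subtype.ext h5)
  have hu : ∀ w ∈ P, (∀ x ∈ P, x * w = w * x) → w = 1 ∨ w = z := by
    intro w hw hwc
    by_cases hw1 : w = 1
    · exact Or.inl hw1
    · right
      have hmem : (⟨w, hw⟩ : ↥P) ∈ Subgroup.center ↥P := by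
        rw [Subgroup.mem_center_iff]
        intro g
        exact Subtype.ext (hwc g.1 g.2)
      have h1 := huniq ⟨⟨w, hw⟩, hmem⟩ (fun h => hw1 (by
        have := congrArg (fun t : Subgroup.center ↥P => ((t : ↥P) : S)) h
        simpa using this))
      have h2 := congrArg (fun t : Subgroup.center ↥P => ((t : ↥P) : S)) h1
      simpa using h2
  refine ⟨z, hzP, hz1, hzc, hu, ?_⟩
  rw [Subgroup.mem_center_iff]
  intro s
  have hconj : s * z * s⁻¹ ∈ P := hPn.conj_mem _ hzP s
  have hcc : ∀ x ∈ P, x * (s * z * s⁻¹) = (s * z * s⁻¹) * x := by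
    intro x hx
    have hx' : s⁻¹ * x * s ∈ P := by
      have := hPn.conj_mem x hx s⁻¹
      simpa using this
    have h3 := hzc _ hx'
    calc x * (s * z * s⁻¹) = s * ((s⁻¹ * x * s) * z) * s⁻¹ := by group
      _ = s * (z * (s⁻¹ * x * s)) * s⁻¹ := by rw [h3]
      _ = (s * z * s⁻¹) * x := by group
  rcases hu _ hconj hcc with h | h
  · exfalso; apply hz1
    have h4 : z = s⁻¹ * (s * z * s⁻¹) * s := by group
    rw [h4, h]; group
  · calc s * z = (s * z * s⁻¹) * s := by group
      _ = z * s := by rw [h]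

/-- Let S be a finite 2-group of sectional 2-rank at most 4, and let P and Q be normal non-abelian subgroups of S whose centres have order 2 and are different. Then P and Q commute elementwise and intersect trivially, and PQ contains its own centralizer in S. -/
theorem result {S : Type*} [Group S] [Finite S] (h2 : IsPGroup 2 S) (hr : Cfsg.SectionalPRankLE 2 4 S)
    (P Q : Subgroup S) [P.Normal] [Q.Normal] (hP : ¬ IsMulCommutative ↥P) (hQ : ¬ IsMulCommutative ↥Q)
    (hZP : Nat.card ↥(Subgroup.center ↥P) = 2) (hZQ : Nat.card ↥(Subgroup.center ↥Q) = 2)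
    (hne : (Subgroup.center ↥P).map P.subtype ≠ (Subgroup.center ↥Q).map Q.subtype) :
    ⁅P, Q⁆ = ⊥ ∧ P ⊓ Q = ⊥ ∧ Subgroup.centralizer ((P ⊔ Q : Subgroup S) : Set S) ≤ P ⊔ Q := by
  have hf2 : Fact (Nat.Prime 2) := ⟨Nat.prime_two⟩
  obtain ⟨zP, hzPP, hzP1, hzPc, hzPu, hzPS⟩ := central_elt P hZP
  obtain ⟨zQ, hzQQ, hzQ1, hzQc, hzQu, hzQS⟩ := central_elt Q hZQ
  have hmapP : ∀ x, x ∈ (Subgroup.center ↥P).map P.subtype ↔ (x = 1 ∨ x = zP) := by
    intro x
    constructor
    · rintro ⟨y, hy, rfl⟩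
      apply hzPu _ y.2
      intro g hg
      have := Subgroup.mem_center_iff.mp hy ⟨g, hg⟩
      exact congrArg Subtype.val this
    · rintro (h | h)
      · rw [h]; exact Subgroup.one_mem _
      · rw [h]
        refine ⟨⟨zP, hzPP⟩, ?_, rfl⟩
        rw [SetLike.mem_coe, Subgroup.mem_center_iff]
        intro g
        exact Subtype.ext (hzPc g.1 g.2)
  have hmapQ : ∀ x, x ∈ (Subgroup.center ↥Q).map Q.subtype ↔ (x = 1 ∨ x = zQ) := by
    intro x
    constructor
    · rintro ⟨y, hy, rfl⟩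
      apply hzQu _ y.2
      intro g hg
      have := Subgroup.mem_center_iff.mp hy ⟨g, hg⟩
      exact congrArg Subtype.val this
    · rintro (h | h)
      · rw [h]; exact Subgroup.one_mem _
      · rw [h]
        refine ⟨⟨zQ, hzQQ⟩, ?_, rfl⟩
        rw [SetLike.mem_coe, Subgroup.mem_center_iff]
        intro g
        exact Subtype.ext (hzQc g.1 g.2)
  have hzne : zP ≠ zQ := by
    intro h
    apply hne
    ext x
    rw [hmapP, hmapQ, h]
  -- `P ⊓ Q = ⊥`
  have hPQ : P ⊓ Q = ⊥ := by
    by_contra hN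
    have h2' : IsPGroup 2 (ConjAct S) := h2.of_equiv ConjAct.toConjAct
    have hdvd : 2 ∣ Nat.card ↥(P ⊓ Q) := by
      have hpg : IsPGroup 2 ↥(P ⊓ Q) := h2.to_subgroup _
      obtain ⟨n, hn⟩ := IsPGroup.iff_card.mp hpg
      rw [hn]
      have hn0 : n ≠ 0 := by
        rintro rfl
        rw [pow_zero] at hn
        exact hN ((Subgroup.card_eq_one).mp hn)
      exact dvd_pow_self 2 hn0
    have hfix : (1 : ↥(P ⊓ Q)) ∈ MulAction.fixedPoints (ConjAct S) ↥(P ⊓ Q) := by
      intro g
      exact smul_one g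
    obtain ⟨b, hb, hb1⟩ := h2'.exists_fixed_point_of_prime_dvd_card_of_fixed_point _ hdvd hfix
    have hbc : ∀ s : S, s * (b : S) = (b : S) * s := by
      intro s
      have h3 := congrArg Subtype.val (hb (ConjAct.toConjAct s))
      rw [ConjAct.Subgroup.val_conj_smul, ConjAct.smul_def] at h3
      simp only [ConjAct.ofConjAct_toConjAct] at h3
      calc s * (b : S) = (s * (b : S) * s⁻¹) * s := by group
        _ = (b : S) * s := by rw [h3]
    have hbne : (b : S) ≠ 1 := fun h => hb1 (Subtype.ext h.symm)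
    have hbP : (b : S) ∈ P := b.2.1
    have hbQ : (b : S) ∈ Q := b.2.2
    have e1 : (b : S) = zP := by
      rcases hzPu _ hbP (fun x _ => hbc x) with h | h
      · exact absurd h hbne
      · exact h
    have e2 : (b : S) = zQ := by
      rcases hzQu _ hbQ (fun x _ => hbc x) with h | h
      · exact absurd h hbne
      · exact h
    exact hzne (e1.symm.trans e2)
  have hcomm : ∀ p ∈ P, ∀ q ∈ Q, p * q = q * p := by
    intro p hp q hq
    exact Subgroup.commute_of_normal_of_disjoint P Q inferInstance inferInstance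
      (disjoint_iff.mpr hPQ) p q hp hq
  have hcommutator : ⁅P, Q⁆ = ⊥ := by
    rw [eq_bot_iff, ← hPQ]; exact Subgroup.commutator_le_inf P Q
  refine ⟨hcommutator, hPQ, ?_⟩
  -- the centralizer
  intro c hc
  by_contra hcD
  have hCP : ∀ c ∈ Subgroup.centralizer ((P ⊔ Q : Subgroup S) : Set S), ∀ p ∈ P, c * p = p * c := by
    intro c hc p hp
    exact (Subgroup.mem_centralizer_iff.mp hc p
      (SetLike.mem_coe.mpr (Subgroup.mem_sup_left hp))).symm
  have hCQ : ∀ c ∈ Subgroup.centralizer ((P ⊔ Q : Subgroup S) : Set S), ∀ q ∈ Q, c * q = q * c := by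
    intro c hc q hq
    exact (Subgroup.mem_centralizer_iff.mp hc q
      (SetLike.mem_coe.mpr (Subgroup.mem_sup_right hq))).symm
  have hP2 : IsPGroup 2 ↥P := h2.to_subgroup P
  have hQ2 : IsPGroup 2 ↥Q := h2.to_subgroup Q
  have hC2 : IsPGroup 2 ↥(Subgroup.centralizer ((P ⊔ Q : Subgroup S) : Set S)) := h2.to_subgroup _
  have hDC : (P ⊔ Q).subgroupOf (Subgroup.centralizer ((P ⊔ Q : Subgroup S) : Set S)) ≠ ⊤ := by
    intro h
    apply hcD
    have : (⟨c, hc⟩ : ↥(Subgroup.centralizer ((P ⊔ Q : Subgroup S) : Set S))) ∈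
        (P ⊔ Q).subgroupOf (Subgroup.centralizer ((P ⊔ Q : Subgroup S) : Set S)) := by
      rw [h]; exact Subgroup.mem_top _
    exact Subgroup.mem_subgroupOf.mp this
  obtain ⟨M, hM, hDM⟩ := (eq_top_or_exists_le_coatom _).resolve_left hDC
  have hnilC : Group.IsNilpotent ↥(Subgroup.centralizer ((P ⊔ Q : Subgroup S) : Set S)) :=
    hC2.isNilpotent
  have hMn : M.Normal :=
    Subgroup.NormalizerCondition.normal_of_coatom M Group.normalizerCondition_of_isNilpotent hM
  -- the multiplication map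
  let μ₂ : ↥Q × ↥(Subgroup.centralizer ((P ⊔ Q : Subgroup S) : Set S)) →* S :=
    MonoidHom.noncommCoprod Q.subtype (Subgroup.centralizer ((P ⊔ Q : Subgroup S) : Set S)).subtype
      (fun q c => (hCQ c.1 c.2 q.1 q.2).symm)
  let μ : ↥P × ↥Q × ↥(Subgroup.centralizer ((P ⊔ Q : Subgroup S) : Set S)) →* S :=
    MonoidHom.noncommCoprod P.subtype μ₂ (fun p qc => by
      show Commute (p : S) ((qc.1 : S) * (qc.2 : S))
      exact Commute.mul_right (hcomm p.1 p.2 qc.1.1 qc.1.2) (hCP qc.2.1 qc.2.2 p.1 p.2).symm)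
  have hμ : ∀ x : ↥P × ↥Q × ↥(Subgroup.centralizer ((P ⊔ Q : Subgroup S) : Set S)),
      μ x = (x.1 : S) * ((x.2.1 : S) * (x.2.2 : S)) := fun x => rfl
  let π : ↥P × ↥Q × ↥(Subgroup.centralizer ((P ⊔ Q : Subgroup S) : Set S)) →*
      (↥P ⧸ frattini ↥P) × (↥Q ⧸ frattini ↥Q) ×
        (↥(Subgroup.centralizer ((P ⊔ Q : Subgroup S) : Set S)) ⧸ M) :=
    MonoidHom.prodMap (QuotientGroup.mk' (frattini ↥P))
      (MonoidHom.prodMap (QuotientGroup.mk' (frattini ↥Q)) (QuotientGroup.mk' M))
  have hπsurj : Function.Surjective π := by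
    rintro ⟨a, b, d⟩
    obtain ⟨a', rfl⟩ := QuotientGroup.mk_surjective a
    obtain ⟨b', rfl⟩ := QuotientGroup.mk_surjective b
    obtain ⟨d', rfl⟩ := QuotientGroup.mk_surjective d
    exact ⟨(a', b', d'), rfl⟩
  have hker : μ.rangeRestrict.ker ≤ π.ker := by
    rintro ⟨p, q, d⟩ hx
    rw [MonoidHom.mem_ker] at hx ⊢
    have h1 : (p : S) * ((q : S) * (d : S)) = 1 := by
      have := congrArg Subtype.val hx
      simpa [hμ] using this
    have hpq : (p : S) * (q : S) = (q : S) * (p : S) := hcomm p.1 p.2 q.1 q.2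
    have hdp : (d : S) * (p : S) = (p : S) * (d : S) := hCP d.1 d.2 p.1 p.2
    have hdq : (d : S) * (q : S) = (q : S) * (d : S) := hCQ d.1 d.2 q.1 q.2
    -- `p` is central in `P`
    have hpc : p ∈ Subgroup.center ↥P := by
      rw [Subgroup.mem_center_iff]
      intro g
      apply Subtype.ext
      have hp : (p : S) = ((q : S) * (d : S))⁻¹ := eq_inv_of_mul_eq_one_left h1
      have hg : Commute (g : S) ((q : S) * (d : S)) :=
        Commute.mul_right (hcomm g.1 g.2 q.1 q.2) (hCP d.1 d.2 g.1 g.2).symm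
      show (g : S) * (p : S) = (p : S) * (g : S)
      rw [hp]
      exact hg.inv_right
    have hqc : q ∈ Subgroup.center ↥Q := by
      rw [Subgroup.mem_center_iff]
      intro g
      apply Subtype.ext
      have h1' : (q : S) * ((d : S) * (p : S)) = 1 := by
        rw [← h1, hdp, ← mul_assoc, ← mul_assoc, hpq]
      have hq : (q : S) = ((d : S) * (p : S))⁻¹ := eq_inv_of_mul_eq_one_left h1'
      have hg : Commute (g : S) ((d : S) * (p : S)) :=
        Commute.mul_right (hCQ d.1 d.2 g.1 g.2).symm (hcomm p.1 p.2 g.1 g.2).symm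
      show (g : S) * (q : S) = (q : S) * (g : S)
      rw [hq]
      exact hg.inv_right
    have hdM : d ∈ M := by
      apply hDM
      rw [Subgroup.mem_subgroupOf]
      have hd : (d : S) = ((p : S) * (q : S))⁻¹ := by
        apply eq_inv_of_mul_eq_one_right
        rw [mul_assoc]; exact h1
      rw [hd]
      exact Subgroup.inv_mem _ (Subgroup.mul_mem_sup p.2 q.2)
    have hpF : p ∈ frattini ↥P := center_le_frattini hP2 hP hZP hpc
    have hqF : q ∈ frattini ↥Q := center_le_frattini hQ2 hQ hZQ hqc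
    apply Prod.ext
    · exact (QuotientGroup.eq_one_iff p).mpr hpF
    · apply Prod.ext
      · exact (QuotientGroup.eq_one_iff q).mpr hqF
      · exact (QuotientGroup.eq_one_iff d).mpr hdM
  let ψ := (μ.rangeRestrict).liftOfSurjective μ.rangeRestrict_surjective ⟨π, hker⟩
  have hψ : ∀ x, ψ (μ.rangeRestrict x) = π x := fun x =>
    MonoidHom.liftOfRightInverse_comp_apply _ _ _ ⟨π, hker⟩ x
  have hψsurj : Function.Surjective ψ := by
    intro e
    obtain ⟨x, rfl⟩ := hπsurj e
    exact ⟨μ.rangeRestrict x, hψ x⟩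
  have hexp : ∀ a : (↥P ⧸ frattini ↥P) × (↥Q ⧸ frattini ↥Q) ×
        (↥(Subgroup.centralizer ((P ⊔ Q : Subgroup S) : Set S)) ⧸ M), a ^ 2 = 1 := by
    rintro ⟨a, b, d⟩
    obtain ⟨a', rfl⟩ := QuotientGroup.mk_surjective a
    obtain ⟨b', rfl⟩ := QuotientGroup.mk_surjective b
    obtain ⟨d', rfl⟩ := QuotientGroup.mk_surjective d
    apply Prod.ext
    · show ((a' : ↥P ⧸ frattini ↥P)) ^ 2 = 1
      rw [← QuotientGroup.mk_pow, QuotientGroup.eq_one_iff, pow_two]
      exact Cfsg.Agent.Lib.Helper94.sq_mem_frattini hP2 a'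
    · apply Prod.ext
      · show ((b' : ↥Q ⧸ frattini ↥Q)) ^ 2 = 1
        rw [← QuotientGroup.mk_pow, QuotientGroup.eq_one_iff, pow_two]
        exact Cfsg.Agent.Lib.Helper94.sq_mem_frattini hQ2 b'
      · show ((d' : ↥(Subgroup.centralizer ((P ⊔ Q : Subgroup S) : Set S)) ⧸ M)) ^ 2 = 1
        rw [← QuotientGroup.mk_pow, QuotientGroup.eq_one_iff, pow_two]
        exact Cfsg.Agent.Lib.Helper94.sq_mem_coatom hC2 hM d'
  have hbound := rank_bound hr μ.range ψ hψsurj hexp
  have hc1 : 4 ≤ Nat.card (↥P ⧸ frattini ↥P) := four_le_card_quot_frattini hP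
  have hc2 : 4 ≤ Nat.card (↥Q ⧸ frattini ↥Q) := four_le_card_quot_frattini hQ
  have hc3 : 2 ≤ Nat.card (↥(Subgroup.centralizer ((P ⊔ Q : Subgroup S) : Set S)) ⧸ M) := by
    have h1 : M.index ≠ 1 := fun h => hM.1 (Subgroup.index_eq_one.mp h)
    have h0 : M.index ≠ 0 := Subgroup.index_ne_zero_of_finite
    have : Nat.card (↥(Subgroup.centralizer ((P ⊔ Q : Subgroup S) : Set S)) ⧸ M) = M.index := rfl
    omega
  rw [Nat.card_prod, Nat.card_prod] at hbound
  have : 4 * (4 * 2) ≤ Nat.card (↥P ⧸ frattini ↥P) * (Nat.card (↥Q ⧸ frattini ↥Q) *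
      Nat.card (↥(Subgroup.centralizer ((P ⊔ Q : Subgroup S) : Set S)) ⧸ M)) :=
    Nat.mul_le_mul hc1 (Nat.mul_le_mul hc2 hc3)
  omega

end Cfsg.Agent.S4400
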