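import Cfsg.Statements.S4401
import Cfsg.Agent.S4400

set_option autoImplicit false
open Cfsg

namespace Cfsg.Agent.S4401

/-- Sectional rank bounds pass to subgroups. -/
theorem sectional_subgroup {S : Type*} [Group S] {p k : ℕ} (hr : SectionalPRankLE p k S)
    (K : Subgroup S) : SectionalPRankLE p k ↥K := by
  intro H N hN A hAc hAe
  let e : ↥H ≃* ↥(H.map K.subtype) := H.equivMapOfInjective K.subtype K.subtype_injective
  let N' : Subgroup ↥(H.map K.subtype) := N.map e.toMonoidHom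
  haveI hN' : N'.Normal := hN.map e.toMonoidHom e.surjective
  let q : ↥H ⧸ N ≃* ↥(H.map K.subtype) ⧸ N' := QuotientGroup.congr N N' e rfl
  let A' : Subgroup (↥(H.map K.subtype) ⧸ N') := A.map q.toMonoidHom
  have hcard : Nat.card A' = Nat.card A := Subgroup.card_map_of_injective q.injective
  haveI := hAc
  have h := hr (H.map K.subtype) N' A' inferInstance (by
    rintro _ ⟨a, ha, rfl⟩
    rw [← map_pow, hAe a ha, map_one])
  rw [hcard] at h
  exact h


/-- `S4400` for subgroups `P`, `Q` normalised by a subgroup `S₀` containing them. -/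
theorem s4400_sub {S : Type*} [Group S] [Finite S] (h2 : IsPGroup 2 S)
    (hr : SectionalPRankLE 2 4 S) (S₀ P Q : Subgroup S) (hP₀ : P ≤ S₀) (hQ₀ : Q ≤ S₀)
    (hPn : ∀ s ∈ S₀, ∀ x ∈ P, s * x * s⁻¹ ∈ P) (hQn : ∀ s ∈ S₀, ∀ x ∈ Q, s * x * s⁻¹ ∈ Q)
    (hP : ¬ IsMulCommutative ↥P) (hQ : ¬ IsMulCommutative ↥Q)
    (hZP : Nat.card ↥(Subgroup.center ↥P) = 2) (hZQ : Nat.card ↥(Subgroup.center ↥Q) = 2)
    (hne : (Subgroup.center ↥P).map P.subtype ≠ (Subgroup.center ↥Q).map Q.subtype) :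
    (∀ a ∈ P, ∀ b ∈ Q, a * b = b * a) ∧ P ⊓ Q = ⊥ ∧
    (∀ c ∈ S₀, (∀ a ∈ P, c * a = a * c) → (∀ b ∈ Q, c * b = b * c) →
      ∃ a ∈ P, ∃ b ∈ Q, c = a * b) := by
  haveI hPn' : (P.subgroupOf S₀).Normal := ⟨fun n hn g => by
    rw [Subgroup.mem_subgroupOf] at hn ⊢
    exact hPn g g.2 n hn⟩
  haveI hQn' : (Q.subgroupOf S₀).Normal := ⟨fun n hn g => by
    rw [Subgroup.mem_subgroupOf] at hn ⊢
    exact hQn g g.2 n hn⟩
  have transport : ∀ (R : Subgroup S) (hR : R ≤ S₀), ¬ IsMulCommutative ↥R →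
      Nat.card ↥(Subgroup.center ↥R) = 2 →
      (¬ IsMulCommutative ↥(R.subgroupOf S₀)) ∧
      Nat.card ↥(Subgroup.center ↥(R.subgroupOf S₀)) = 2 ∧
      (Subgroup.center ↥R).map R.subtype =
        ((Subgroup.center ↥(R.subgroupOf S₀)).map (R.subgroupOf S₀).subtype).map S₀.subtype := by
    intro R hR hRc hRZ
    let eR : ↥(R.subgroupOf S₀) ≃* ↥R := Subgroup.subgroupOfEquivOfLe hR
    refine ⟨fun h => hRc ⟨⟨fun a b => ?_⟩⟩, ?_, ?_⟩
    · have h1 := h.is_comm.comm (eR.symm a) (eR.symm b)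
      have h3 := congrArg eR h1
      rw [map_mul, map_mul] at h3
      simpa using h3
    · rw [Nat.card_congr (Subgroup.centerCongr eR).toEquiv]; exact hRZ
    · ext g
      constructor
      · rintro ⟨c, hc, rfl⟩
        have hc' : c ∈ Subgroup.center ↥R := hc
        have hmemR : (⟨c.1, hR c.2⟩ : ↥S₀) ∈ R.subgroupOf S₀ := Subgroup.mem_subgroupOf.mpr c.2
        have hcen : (⟨⟨c.1, hR c.2⟩, hmemR⟩ : ↥(R.subgroupOf S₀)) ∈
            Subgroup.center ↥(R.subgroupOf S₀) := by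
          rw [Subgroup.mem_center_iff]
          intro g'
          have := Subgroup.mem_center_iff.mp hc' ⟨g'.1.1, Subgroup.mem_subgroupOf.mp g'.2⟩
          have h5 := congrArg Subtype.val this
          exact Subtype.ext (Subtype.ext h5)
        exact ⟨⟨c.1, hR c.2⟩, ⟨⟨⟨c.1, hR c.2⟩, hmemR⟩, hcen, rfl⟩, rfl⟩
      · rintro ⟨c', ⟨c, hc, rfl⟩, rfl⟩
        have hc' : c ∈ Subgroup.center ↥(R.subgroupOf S₀) := hc
        have hmemR : (c.1 : S) ∈ R := Subgroup.mem_subgroupOf.mp c.2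
        have hcen : (⟨c.1.1, hmemR⟩ : ↥R) ∈ Subgroup.center ↥R := by
          rw [Subgroup.mem_center_iff]
          intro g'
          have := Subgroup.mem_center_iff.mp hc'
            ⟨⟨g'.1, hR g'.2⟩, Subgroup.mem_subgroupOf.mpr g'.2⟩
          have h5 := congrArg (fun t : ↥(R.subgroupOf S₀) => ((t : ↥S₀) : S)) this
          exact Subtype.ext h5
        exact ⟨⟨c.1.1, hmemR⟩, hcen, rfl⟩
  obtain ⟨hP', hZP', hmapP⟩ := transport P hP₀ hP hZP
  obtain ⟨hQ', hZQ', hmapQ⟩ := transport Q hQ₀ hQ hZQ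
  have hne' : (Subgroup.center ↥(P.subgroupOf S₀)).map (P.subgroupOf S₀).subtype ≠
      (Subgroup.center ↥(Q.subgroupOf S₀)).map (Q.subgroupOf S₀).subtype := by
    intro h
    apply hne
    rw [hmapP, hmapQ, h]
  obtain ⟨h1, h2', h3⟩ := Cfsg.Agent.S4400.result (h2.to_subgroup S₀) (sectional_subgroup hr S₀)
    (P.subgroupOf S₀) (Q.subgroupOf S₀) hP' hQ' hZP' hZQ' hne'
  refine ⟨?_, ?_, ?_⟩
  · intro a ha b hb
    have h4 := Subgroup.commutator_mem_commutator (H₁ := P.subgroupOf S₀)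
      (H₂ := Q.subgroupOf S₀) (g₁ := ⟨a, hP₀ ha⟩) (g₂ := ⟨b, hQ₀ hb⟩)
      (Subgroup.mem_subgroupOf.mpr ha) (Subgroup.mem_subgroupOf.mpr hb)
    rw [h1, Subgroup.mem_bot] at h4
    have h5 := commutatorElement_eq_one_iff_mul_comm.mp h4
    exact congrArg Subtype.val h5
  · rw [eq_bot_iff]
    rintro g ⟨hgP, hgQ⟩
    have h4 : (⟨g, hP₀ hgP⟩ : ↥S₀) ∈ P.subgroupOf S₀ ⊓ Q.subgroupOf S₀ :=
      ⟨Subgroup.mem_subgroupOf.mpr hgP, Subgroup.mem_subgroupOf.mpr hgQ⟩
    rw [h2', Subgroup.mem_bot] at h4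
    rw [Subgroup.mem_bot]
    exact congrArg Subtype.val h4
  · intro c hc hcP hcQ
    have hle : P.subgroupOf S₀ ⊔ Q.subgroupOf S₀ ≤
        Subgroup.centralizer ({(⟨c, hc⟩ : ↥S₀)} : Set ↥S₀) := by
      apply sup_le
      · intro g hg
        rw [Subgroup.mem_centralizer_singleton_iff]
        exact Subtype.ext (hcP g.1 (Subgroup.mem_subgroupOf.mp hg)).symm
      · intro g hg
        rw [Subgroup.mem_centralizer_singleton_iff]
        exact Subtype.ext (hcQ g.1 (Subgroup.mem_subgroupOf.mp hg)).symm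
    have hmem : (⟨c, hc⟩ : ↥S₀) ∈ Subgroup.centralizer
        ((P.subgroupOf S₀ ⊔ Q.subgroupOf S₀ : Subgroup ↥S₀) : Set ↥S₀) := by
      rw [Subgroup.mem_centralizer_iff]
      intro g hg
      have := hle hg
      rw [Subgroup.mem_centralizer_singleton_iff] at this
      exact this
    have h4 := h3 hmem
    rw [← SetLike.mem_coe, Subgroup.mul_normal] at h4
    obtain ⟨a', ha', b', hb', hab⟩ := Set.mem_mul.mp h4
    exact ⟨a'.1, Subgroup.mem_subgroupOf.mp ha', b'.1, Subgroup.mem_subgroupOf.mp hb',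
      (congrArg Subtype.val hab).symm⟩

/-- Two commuting, disjoint embedded copies of `X` square the rank. -/
theorem rank_sq {S : Type*} [Group S] (hr : SectionalPRankLE 2 4 S) {X E : Type*} [Group X]
    [Group E] (ι₁ ι₂ : X →* S) (h2 : Function.Injective ι₂)
    (hcomm : ∀ a b, Commute (ι₁ a) (ι₂ b)) (hdisj : ∀ a b, ι₁ a = ι₂ b → a = 1)
    (π : X →* E) (hπ : Function.Surjective π) (hexp : ∀ e : E, e ^ 2 = 1) : Nat.card E ≤ 4 := by
  let Φ : X × X →* S := MonoidHom.noncommCoprod ι₁ ι₂ hcomm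
  have hΦ : Function.Injective Φ := by
    rw [injective_iff_map_eq_one]
    rintro ⟨a, b⟩ hab
    have h : ι₁ a * ι₂ b = 1 := hab
    have h3 : ι₁ a = ι₂ b⁻¹ := by rw [map_inv]; exact eq_inv_of_mul_eq_one_left h
    have ha := hdisj a b⁻¹ h3
    subst ha
    rw [map_one, one_mul] at h
    have hb : b = 1 := (injective_iff_map_eq_one ι₂).mp h2 b h
    rw [hb]; rfl
  let e : X × X ≃* ↥Φ.range := MonoidHom.ofInjective hΦ
  let ψ : ↥Φ.range →* E × E := (π.prodMap π).comp e.symm.toMonoidHom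
  have hψ : Function.Surjective ψ := by
    rintro ⟨u, v⟩
    obtain ⟨a, rfl⟩ := hπ u
    obtain ⟨b, rfl⟩ := hπ v
    refine ⟨e (a, b), ?_⟩
    show (π.prodMap π) (e.symm (e (a, b))) = _
    rw [MulEquiv.symm_apply_apply]
    rfl
  have hb := Cfsg.Agent.S4400.rank_bound hr Φ.range ψ hψ (by
    rintro ⟨u, v⟩
    show (u ^ 2, v ^ 2) = 1
    rw [hexp, hexp]; rfl)
  rw [Nat.card_prod] at hb
  nlinarith

/-- If `P` and a conjugate commute elementwise and meet trivially then `P` has sectional rank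
at most `2`. -/
theorem rank_P {S : Type*} [Group S] (hr : SectionalPRankLE 2 4 S) (P : Subgroup S) (x : S)
    (hcomm : ∀ a ∈ P, ∀ b ∈ P, a * (x * b * x⁻¹) = (x * b * x⁻¹) * a)
    (hdisj : ∀ a ∈ P, ∀ b ∈ P, a = x * b * x⁻¹ → a = 1) : SectionalPRankLE 2 2 ↥P := by
  intro H N hN A hAc hAe
  let ι₁ : ↥(A.comap (QuotientGroup.mk' N)) →* S :=
    (P.subtype.comp H.subtype).comp (A.comap (QuotientGroup.mk' N)).subtype
  let ι₂ : ↥(A.comap (QuotientGroup.mk' N)) →* S := (MulAut.conj x).toMonoidHom.comp ι₁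
  have hι₁ : Function.Injective ι₁ := by
    intro a b hab
    exact Subtype.ext (Subtype.ext (Subtype.ext hab))
  have hι₂ : Function.Injective ι₂ := fun a b hab => hι₁ ((MulAut.conj x).injective hab)
  let π : ↥(A.comap (QuotientGroup.mk' N)) →* ↥A := (QuotientGroup.mk' N).subgroupComap A
  have hπ : Function.Surjective π :=
    MonoidHom.subgroupComap_surjective_of_surjective _ _ (QuotientGroup.mk'_surjective N)
  have h := rank_sq hr ι₁ ι₂ hι₂
    (fun a b => hcomm _ a.1.1.2 _ b.1.1.2)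
    (fun a b hab => by
      have h1 := hdisj _ a.1.1.2 _ b.1.1.2 hab
      exact Subtype.ext (Subtype.ext (Subtype.ext h1)))
    π hπ (fun e => Subtype.ext (hAe e.1 e.2))
  norm_num
  exact h

/-- The nonidentity central element of a subgroup whose centre has order two. -/
theorem center_elt {S : Type*} [Group S] (P : Subgroup S)
    (hZP : Nat.card ↥(Subgroup.center ↥P) = 2) :
    ∃ z ∈ P, z ≠ 1 ∧ (∀ x ∈ P, x * z = z * x) ∧
      (∀ w ∈ P, (∀ x ∈ P, x * w = w * x) → w = 1 ∨ w = z) := by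
  obtain ⟨z', hz', huniq⟩ := (Nat.card_eq_two_iff' (1 : Subgroup.center ↥P)).mp hZP
  refine ⟨((z' : ↥P) : S), (z' : ↥P).2, ?_, ?_, ?_⟩
  · intro h
    apply hz'
    have h5 : ((z' : ↥P) : S) = ((1 : ↥P) : S) := h
    exact Subtype.ext (Subtype.ext h5)
  · intro x hx
    have := Subgroup.mem_center_iff.mp z'.2 ⟨x, hx⟩
    exact congrArg Subtype.val this
  · intro w hw hwc
    by_cases hw1 : w = 1
    · exact Or.inl hw1
    · right
      have hmem : (⟨w, hw⟩ : ↥P) ∈ Subgroup.center ↥P := by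
        rw [Subgroup.mem_center_iff]
        intro g
        exact Subtype.ext (hwc g.1 g.2)
      have h1 := huniq ⟨⟨w, hw⟩, hmem⟩ (fun h => hw1 (by
        have := congrArg (fun t : Subgroup.center ↥P => ((t : ↥P) : S)) h
        simpa using this))
      have h2 := congrArg (fun t : Subgroup.center ↥P => ((t : ↥P) : S)) h1
      simpa using h2

/-- Element-wise facts about a subgroup of index two in another. -/
theorem index_two_facts {G : Type*} [Group G] [Finite G] (H K : Subgroup G) (hHK : H ≤ K)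
    (hc : Nat.card K = 2 * Nat.card H) :
    (∀ s ∈ K, ∀ t ∈ H, s * t * s⁻¹ ∈ H) ∧ (∀ a ∈ K, ∀ b ∈ K, a ∉ H → b ∉ H → a * b ∈ H) ∧
      (∃ x ∈ K, x ∉ H) ∧ H.relIndex K = 2 := by
  have hidx : (H.subgroupOf K).index = 2 := by
    have h1 := (H.subgroupOf K).card_mul_index
    rw [Nat.card_congr (Subgroup.subgroupOfEquivOfLe hHK).toEquiv, hc] at h1
    have hpos : 0 < Nat.card H := Nat.card_pos
    nlinarith
  have hn : (H.subgroupOf K).Normal := Subgroup.normal_of_index_eq_two hidx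
  refine ⟨?_, ?_, ?_, hidx⟩
  · intro s hs t ht
    have := hn.conj_mem ⟨t, hHK ht⟩ (Subgroup.mem_subgroupOf.mpr ht) ⟨s, hs⟩
    exact Subgroup.mem_subgroupOf.mp this
  · intro a ha b hb haH hbH
    have := (Subgroup.mul_mem_iff_of_index_two hidx (a := ⟨a, ha⟩) (b := ⟨b, hb⟩)).mpr
      ⟨fun h => absurd (Subgroup.mem_subgroupOf.mp h) haH,
        fun h => absurd (Subgroup.mem_subgroupOf.mp h) hbH⟩
    exact Subgroup.mem_subgroupOf.mp this
  · by_contra hcon
    push Not at hcon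
    have : H.subgroupOf K = ⊤ := by
      rw [eq_top_iff]; intro k _; exact Subgroup.mem_subgroupOf.mpr (hcon k.1 k.2)
    rw [this, Subgroup.index_top] at hidx
    omega

/-- In a nonabelian finite 2-group with centre of order two, a subgroup whose complement is
closed under "products land inside" contains the centre. -/
theorem center_le_of_half {P : Type*} [Group P] [Finite P] (hP : IsPGroup 2 P)
    (hna : ¬ IsMulCommutative P) (hZ : Nat.card (Subgroup.center P) = 2)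
    (K : Subgroup P) (hK : ∀ a b : P, a ∉ K → b ∉ K → a * b ∈ K) :
    Subgroup.center P ≤ K := by
  by_cases hKt : K = ⊤
  · rw [hKt]; exact le_top
  have hco : IsCoatom K := by
    refine ⟨hKt, fun L hL => ?_⟩
    obtain ⟨l, hlL, hlK⟩ := SetLike.exists_of_lt hL
    rw [eq_top_iff]
    intro g _
    by_cases hg : g ∈ K
    · exact hL.le hg
    · have h1 : l⁻¹ ∉ K := fun h => hlK (by simpa using K.inv_mem h)
      have h2 := hK g l⁻¹ hg h1
      have : g = (g * l⁻¹) * l := by group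
      rw [this]
      exact L.mul_mem (hL.le h2) hlL
  exact (Cfsg.Agent.S4400.center_le_frattini hP hna hZ).trans (frattini_le_coatom hco)


theorem result {S : Type*} [Group S] [Finite S] (h2 : IsPGroup 2 S) (hr : Cfsg.SectionalPRankLE 2 4 S)
    (P : Subgroup S) (hPlt : P ≠ ⊤) (hP : ¬ IsMulCommutative ↥P) (hZP : Nat.card ↥(Subgroup.center ↥P) = 2)
    (S₀ : Subgroup S) (hS₀ : S₀ = Subgroup.centralizer (((Subgroup.center ↥P).map P.subtype : Subgroup S) : Set S))
    (hPn : ∀ s ∈ S₀, ∀ x ∈ P, s * x * s⁻¹ ∈ P) :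
    S₀ = ⊤ ∨ (Cfsg.SectionalPRankLE 2 2 ↥P ∧ S₀.index = 2) := by
  classical
  haveI : Fact (Nat.Prime 2) := ⟨Nat.prime_two⟩
  by_cases hS₀top : S₀ = ⊤
  · exact Or.inl hS₀top
  right
  obtain ⟨z, hzP, hz1, hzc, hzu⟩ := center_elt P hZP
  have hmem : ∀ s, s ∈ S₀ ↔ s * z = z * s := by
    intro s
    rw [hS₀, Subgroup.mem_centralizer_iff]
    constructor
    · intro h
      exact (h z ⟨⟨z, hzP⟩, Subgroup.mem_center_iff.mpr (fun g => Subtype.ext (hzc g.1 g.2)),
        rfl⟩).symm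
    · rintro h _ ⟨c, hc, rfl⟩
      have hc' : c ∈ Subgroup.center ↥P := hc
      rcases hzu c.1 c.2 (fun g hg =>
        congrArg Subtype.val (Subgroup.mem_center_iff.mp hc' ⟨g, hg⟩)) with h1 | h1
      · rw [show P.subtype c = (c : S) from rfl, h1, one_mul, mul_one]
      · rw [show P.subtype c = (c : S) from rfl, h1]; exact h.symm
  have hPS₀ : P ≤ S₀ := fun a ha => (hmem a).mpr (hzc a ha)
  have hzS₀ : z ∈ S₀ := hPS₀ hzP
  have hzz : z * z = 1 := by
    rcases hzu (z * z) (P.mul_mem hzP hzP) (fun a ha => by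
      rw [← mul_assoc, hzc a ha, mul_assoc, hzc a ha, mul_assoc]) with h | h
    · exact h
    · exfalso; apply hz1
      exact mul_left_cancel (a := z) (by rw [h, mul_one])
  have hzinv : z⁻¹ = z := inv_eq_of_mul_eq_one_left hzz
  obtain ⟨n, hn⟩ := IsPGroup.iff_card.mp h2
  obtain ⟨m, hm⟩ := IsPGroup.iff_card.mp (h2.to_subgroup S₀)
  have hmn : m < n := by
    by_contra hcon
    push Not at hcon
    apply hS₀top
    apply Subgroup.eq_top_of_card_eq
    have h1 : Nat.card S₀ ≤ Nat.card S := Subgroup.card_le_card_group S₀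
    rw [hm, hn] at h1 ⊢
    exact le_antisymm h1 (Nat.pow_le_pow_right (by norm_num) hcon)
  obtain ⟨S₁, hS₁c, hS₀₁⟩ := Sylow.exists_subgroup_card_pow_succ (p := 2) (n := m)
    (by rw [hn]; exact pow_dvd_pow 2 (by omega)) hm
  obtain ⟨hC1, hC2, ⟨x, hxS₁, hxS₀⟩, hrel⟩ :=
    index_two_facts S₀ S₁ hS₀₁ (by rw [hS₁c, hm, pow_succ]; ring)
  have hxinv₁ : x⁻¹ ∈ S₁ := S₁.inv_mem hxS₁
  have hxinv₀ : x⁻¹ ∉ S₀ := fun h => hxS₀ (by simpa using S₀.inv_mem h)
  have hxx : x * x ∈ S₀ := hC2 x hxS₁ x hxS₁ hxS₀ hxS₀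
  obtain ⟨z', hz'def⟩ : ∃ z', z' = x * z * x⁻¹ := ⟨_, rfl⟩
  have hz'S₀ : z' ∈ S₀ := by rw [hz'def]; exact hC1 x hxS₁ z hzS₀
  have hz'ne : z' ≠ z := by
    intro h
    apply hxS₀
    rw [hmem]
    calc x * z = (x * z * x⁻¹) * x := by group
      _ = z * x := by rw [← hz'def, h]
  have hz'1 : z' ≠ 1 := by
    intro h
    apply hz1
    have : z = x⁻¹ * z' * x := by rw [hz'def]; group
    rw [this, h]; group
  have hz'c : ∀ s ∈ S₀, s * z' = z' * s := by
    intro s hs
    have h1 : x⁻¹ * s * x ∈ S₀ := by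
      have := hC1 x⁻¹ hxinv₁ s hs
      simpa using this
    have h3 := (hmem _).mp h1
    rw [hz'def]
    calc s * (x * z * x⁻¹) = x * ((x⁻¹ * s * x) * z) * x⁻¹ := by group
      _ = x * (z * (x⁻¹ * s * x)) * x⁻¹ := by rw [h3]
      _ = x * z * x⁻¹ * s := by group
  have hzz'comm : z * z' = z' * z := hz'c z hzS₀
  have hxz' : x * z' * x⁻¹ = z := by
    have h1 := (hmem _).mp hxx
    rw [hz'def]
    calc x * (x * z * x⁻¹) * x⁻¹ = ((x * x) * z) * (x * x)⁻¹ := by group
      _ = (z * (x * x)) * (x * x)⁻¹ := by rw [h1]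
      _ = z := by group
  have hPx_mem : ∀ b, b ∈ P.map (MulAut.conj x).toMonoidHom ↔ x⁻¹ * b * x ∈ P := by
    intro b
    rw [Subgroup.mem_map]
    constructor
    · rintro ⟨a, ha, rfl⟩
      have : x⁻¹ * (MulAut.conj x).toMonoidHom a * x = a := by
        show x⁻¹ * (x * a * x⁻¹) * x = a
        group
      rw [this]; exact ha
    · intro h
      refine ⟨_, h, ?_⟩
      show x * (x⁻¹ * b * x) * x⁻¹ = b
      group
  have hPxS₀ : P.map (MulAut.conj x).toMonoidHom ≤ S₀ := by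
    intro b hb
    rw [hPx_mem] at hb
    have := hC1 x hxS₁ _ (hPS₀ hb)
    have e : x * (x⁻¹ * b * x) * x⁻¹ = b := by group
    rwa [e] at this
  have hPxn : ∀ s ∈ S₀, ∀ b ∈ P.map (MulAut.conj x).toMonoidHom,
      s * b * s⁻¹ ∈ P.map (MulAut.conj x).toMonoidHom := by
    intro s hs b hb
    rw [hPx_mem] at hb ⊢
    have h1 : x⁻¹ * s * x ∈ S₀ := by
      have := hC1 x⁻¹ hxinv₁ s hs
      simpa using this
    have := hPn _ h1 _ hb
    have e : x⁻¹ * s * x * (x⁻¹ * b * x) * (x⁻¹ * s * x)⁻¹ = x⁻¹ * (s * b * s⁻¹) * x := by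
      group
    rwa [e] at this
  let eX : ↥P ≃* ↥(P.map (MulAut.conj x).toMonoidHom) :=
    P.equivMapOfInjective _ (MulAut.conj x).injective
  have hPx : ¬ IsMulCommutative ↥(P.map (MulAut.conj x).toMonoidHom) := fun h =>
    hP ⟨⟨fun a b => by
      have := h.is_comm.comm (eX a) (eX b)
      rw [← map_mul, ← map_mul] at this
      exact eX.injective this⟩⟩
  have hZPx : Nat.card ↥(Subgroup.center ↥(P.map (MulAut.conj x).toMonoidHom)) = 2 := by
    rw [← Nat.card_congr (Subgroup.centerCongr eX).toEquiv]; exact hZP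
  have hz'Px : z' ∈ P.map (MulAut.conj x).toMonoidHom := (hPx_mem _).mpr (by
    have : x⁻¹ * z' * x = z := by rw [hz'def]; group
    rw [this]; exact hzP)
  have hne : (Subgroup.center ↥P).map P.subtype ≠
      (Subgroup.center ↥(P.map (MulAut.conj x).toMonoidHom)).map
        (P.map (MulAut.conj x).toMonoidHom).subtype := by
    intro h
    have h1 : z' ∈ (Subgroup.center ↥(P.map (MulAut.conj x).toMonoidHom)).map
        (P.map (MulAut.conj x).toMonoidHom).subtype :=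
      ⟨⟨z', hz'Px⟩, Subgroup.mem_center_iff.mpr
        (fun g => Subtype.ext (hz'c g.1 (hPxS₀ g.2))), rfl⟩
    rw [← h] at h1
    obtain ⟨c, hc, hcz⟩ := h1
    have hc' : c ∈ Subgroup.center ↥P := hc
    have hcz' : (c : S) = z' := hcz
    rcases hzu c.1 c.2 (fun g hg =>
      congrArg Subtype.val (Subgroup.mem_center_iff.mp hc' ⟨g, hg⟩)) with h3 | h3
    · exact hz'1 (by rw [← hcz']; exact h3)
    · exact hz'ne (by rw [← hcz']; exact h3)
  obtain ⟨hcomm, hdisj, hself⟩ := s4400_sub h2 hr S₀ P (P.map (MulAut.conj x).toMonoidHom)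
    hPS₀ hPxS₀ hPn hPxn hP hPx hZP hZPx hne
  have hconjmem : ∀ b ∈ P, x * b * x⁻¹ ∈ P.map (MulAut.conj x).toMonoidHom := by
    intro b hb
    rw [hPx_mem]
    have : x⁻¹ * (x * b * x⁻¹) * x = b := by group
    rw [this]; exact hb
  have hrank : SectionalPRankLE 2 2 ↥P := rank_P hr P x
    (fun a ha b hb => hcomm a ha _ (hconjmem b hb))
    (fun a ha b hb h => by
      have h3 : a ∈ P ⊓ P.map (MulAut.conj x).toMonoidHom := ⟨ha, by rw [h]; exact hconjmem b hb⟩
      rw [hdisj, Subgroup.mem_bot] at h3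
      exact h3)
  refine ⟨hrank, ?_⟩
  have hcent4 : ∀ c ∈ S₀, (∀ a ∈ P, c * a = a * c) →
      (∀ b ∈ P.map (MulAut.conj x).toMonoidHom, c * b = b * c) →
      c = 1 ∨ c = z ∨ c = z' ∨ c = z * z' := by
    intro c hc hcP hcPx
    obtain ⟨a, ha, b, hb, rfl⟩ := hself c hc hcP hcPx
    have hacen : ∀ a₁ ∈ P, a₁ * a = a * a₁ := by
      intro a₁ ha₁
      have h1 := hcP a₁ ha₁
      have h3 := hcomm a₁ ha₁ b hb
      calc a₁ * a = (a₁ * (a * b)) * b⁻¹ := by group
        _ = (a * b * a₁) * b⁻¹ := by rw [h1]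
        _ = a * (b * a₁) * b⁻¹ := by group
        _ = a * (a₁ * b) * b⁻¹ := by rw [h3]
        _ = a * a₁ := by group
    have hbcen : ∀ b₁ ∈ P.map (MulAut.conj x).toMonoidHom, b₁ * b = b * b₁ := by
      intro b₁ hb₁
      have h1 := hcPx b₁ hb₁
      have h3 := hcomm a ha b₁ hb₁
      calc b₁ * b = a⁻¹ * (a * b₁) * b := by group
        _ = a⁻¹ * (b₁ * a) * b := by rw [h3]
        _ = a⁻¹ * (b₁ * (a * b)) := by group
        _ = a⁻¹ * (a * b * b₁) := by rw [h1]
        _ = b * b₁ := by group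
    have ha' : a = 1 ∨ a = z := hzu a ha hacen
    have hb' : b = 1 ∨ b = z' := by
      have hbP := (hPx_mem b).mp hb
      have : x⁻¹ * b * x = 1 ∨ x⁻¹ * b * x = z := by
        apply hzu _ hbP
        intro a₁ ha₁
        have h3 := hbcen (x * a₁ * x⁻¹) (hconjmem a₁ ha₁)
        calc a₁ * (x⁻¹ * b * x) = x⁻¹ * ((x * a₁ * x⁻¹) * b) * x := by group
          _ = x⁻¹ * (b * (x * a₁ * x⁻¹)) * x := by rw [h3]
          _ = x⁻¹ * b * x * a₁ := by group
      rcases this with h | h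
      · left
        have : b = x * (x⁻¹ * b * x) * x⁻¹ := by group
        rw [this, h]; group
      · right
        have : b = x * (x⁻¹ * b * x) * x⁻¹ := by group
        rw [this, h, hz'def]
    rcases ha' with rfl | rfl <;> rcases hb' with rfl | rfl
    · left; rw [one_mul]
    · right; right; left; rw [one_mul]
    · right; left; rw [mul_one]
    · right; right; right; rfl
  have hB : ∀ q ∈ S₁, q ∉ S₀ → q * z * q⁻¹ = z' := by
    intro q hq hq₀
    have h1 : q * x⁻¹ ∈ S₀ := hC2 q hq x⁻¹ hxinv₁ hq₀ hxinv₀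
    have h3 := hz'c _ h1
    calc q * z * q⁻¹ = (q * x⁻¹) * (x * z * x⁻¹) * (q * x⁻¹)⁻¹ := by group
      _ = (z' * (q * x⁻¹)) * (q * x⁻¹)⁻¹ := by rw [← hz'def, h3]
      _ = z' := by group
  have hB' : ∀ q ∈ S₁, q ∉ S₀ → q * z' * q⁻¹ = z := by
    intro q hq hq₀
    have h1 : q * x⁻¹ ∈ S₀ := hC2 q hq x⁻¹ hxinv₁ hq₀ hxinv₀
    have h3 := (hmem _).mp h1
    calc q * z' * q⁻¹ = (q * x⁻¹) * (x * z' * x⁻¹) * (q * x⁻¹)⁻¹ := by group
      _ = (z * (q * x⁻¹)) * (q * x⁻¹)⁻¹ := by rw [hxz', h3]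
      _ = z := by group
  have hzz'S₁ : ∀ s ∈ S₁, s * (z * z') * s⁻¹ = z * z' := by
    intro s hs
    by_cases hs₀ : s ∈ S₀
    · have h1 := (hmem s).mp hs₀
      have h3 := hz'c s hs₀
      calc s * (z * z') * s⁻¹ = (s * z) * z' * s⁻¹ := by group
        _ = z * (s * z') * s⁻¹ := by rw [h1]; group
        _ = z * (z' * s) * s⁻¹ := by rw [h3]
        _ = z * z' := by group
    · calc s * (z * z') * s⁻¹ = (s * z * s⁻¹) * (s * z' * s⁻¹) := by group
        _ = z' * z := by rw [hB s hs hs₀, hB' s hs hs₀]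
        _ = z * z' := hzz'comm.symm
  have hS₁top : S₁ = ⊤ := by
    by_contra hS₁
    haveI := h2.isNilpotent
    have hnc := Group.normalizerCondition_of_isNilpotent (G := S) S₁ (lt_top_iff_ne_top.mpr hS₁)
    obtain ⟨y, hyN, hyS₁⟩ := SetLike.exists_of_lt hnc
    have hyn : ∀ h ∈ S₁, y * h * y⁻¹ ∈ S₁ :=
      fun h hh => (Subgroup.mem_normalizer_iff.mp hyN h).mp hh
    have hyn' : ∀ h ∈ S₁, y⁻¹ * h * y ∈ S₁ :=
      fun h hh => (Subgroup.mem_normalizer_iff''.mp hyN h).mp hh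
    have hyS₀ : y ∉ S₀ := fun h => hyS₁ (hS₀₁ h)
    have hzz'1 : z * z' ≠ 1 := by
      intro h
      apply hz'ne
      have : z' = z⁻¹ := eq_inv_of_mul_eq_one_right h
      rw [this, hzinv]
    have hA : y * (z * z') * y⁻¹ = z * z' := by
      obtain ⟨u, hu⟩ : ∃ u, u = y * (z * z') * y⁻¹ := ⟨_, rfl⟩
      rw [← hu]
      have huS₁ : u ∈ S₁ := by rw [hu]; exact hyn _ (hS₀₁ (S₀.mul_mem hzS₀ hz'S₀))
      have hucen : ∀ s ∈ S₁, s * u * s⁻¹ = u := by
        intro s hs
        have h1 := hzz'S₁ _ (hyn' s hs)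
        rw [hu]
        calc s * (y * (z * z') * y⁻¹) * s⁻¹
            = y * ((y⁻¹ * s * y) * (z * z') * (y⁻¹ * s * y)⁻¹) * y⁻¹ := by group
          _ = y * (z * z') * y⁻¹ := by rw [h1]
      have hcomm_of : ∀ s ∈ S₁, u * s = s * u := by
        intro s hs
        have := hucen s hs
        calc u * s = (s * u * s⁻¹) * s := by rw [this]
          _ = s * u := by group
      have huS₀ : u ∈ S₀ := by
        rw [hmem]
        exact hcomm_of z (hS₀₁ hzS₀)
      rcases hcent4 u huS₀ (fun a ha => hcomm_of a (hS₀₁ (hPS₀ ha)))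
        (fun b hb => hcomm_of b (hS₀₁ (hPxS₀ hb))) with h | h | h | h
      · exfalso; apply hzz'1
        have : z * z' = y⁻¹ * u * y := by rw [hu]; group
        rw [this, h]; group
      · exfalso
        have := hucen x hxS₁
        rw [h, ← hz'def] at this
        exact hz'ne this
      · exfalso
        have := hucen x hxS₁
        rw [h, hxz'] at this
        exact hz'ne this.symm
      · exact h
    have hA' : y⁻¹ * (z * z') * y = z * z' := by
      calc y⁻¹ * (z * z') * y = y⁻¹ * (y * (z * z') * y⁻¹) * y := by rw [hA]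
        _ = z * z' := by group
    have hhalf : ∀ t : S, (∀ h ∈ S₁, t * h * t⁻¹ ∈ S₁) → t * z * t⁻¹ ∈ S₀ := by
      intro t ht
      let K : Subgroup ↥P := (S₀.comap (MulAut.conj t).toMonoidHom).subgroupOf P
      have hKmem : ∀ a : ↥P, a ∈ K ↔ t * (a : S) * t⁻¹ ∈ S₀ := fun a => Iff.rfl
      have hK : ∀ a b : ↥P, a ∉ K → b ∉ K → a * b ∈ K := by
        intro a b ha hb
        rw [hKmem] at ha hb ⊢
        have h1 := hC2 _ (ht _ (hS₀₁ (hPS₀ a.2))) _ (ht _ (hS₀₁ (hPS₀ b.2))) ha hb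
        have e : t * ((a * b : ↥P) : S) * t⁻¹ = t * (a : S) * t⁻¹ * (t * (b : S) * t⁻¹) := by
          rw [Subgroup.coe_mul]; group
        rw [e]; exact h1
      have hle := center_le_of_half (h2.to_subgroup P) hP hZP K hK
      have hzc' : (⟨z, hzP⟩ : ↥P) ∈ Subgroup.center ↥P :=
        Subgroup.mem_center_iff.mpr (fun g => Subtype.ext (hzc g.1 g.2))
      exact (hKmem _).mp (hle hzc')
    have hvS₀ : y⁻¹ * z * y ∈ S₀ := by
      have := hhalf y⁻¹ (fun h hh => by simpa using hyn' h hh)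
      simpa using this
    by_cases hcase : ∀ p ∈ P, y * p * y⁻¹ ∈ S₀
    · have hvP : ∀ a ∈ P, (y⁻¹ * z * y) * a = a * (y⁻¹ * z * y) := by
        intro a ha
        have h1 := (hmem _).mp (hcase a ha)
        calc y⁻¹ * z * y * a = y⁻¹ * (z * (y * a * y⁻¹)) * y := by group
          _ = y⁻¹ * ((y * a * y⁻¹) * z) * y := by rw [h1]
          _ = a * (y⁻¹ * z * y) := by group
      have hvPx : ∀ b ∈ P.map (MulAut.conj x).toMonoidHom,
          (y⁻¹ * z * y) * b = b * (y⁻¹ * z * y) := by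
        intro b hb
        have hb' := (hPx_mem b).mp hb
        have h0 : y * b * y⁻¹ ∈ S₀ := by
          have h3 := hC1 _ (hyn x hxS₁) _ (hcase _ hb')
          have e : y * x * y⁻¹ * (y * (x⁻¹ * b * x) * y⁻¹) * (y * x * y⁻¹)⁻¹ = y * b * y⁻¹ := by
            group
          rwa [e] at h3
        have h1 := (hmem _).mp h0
        calc y⁻¹ * z * y * b = y⁻¹ * (z * (y * b * y⁻¹)) * y := by group
          _ = y⁻¹ * ((y * b * y⁻¹) * z) * y := by rw [h1]
          _ = b * (y⁻¹ * z * y) := by group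
      rcases hcent4 _ hvS₀ hvP hvPx with h | h | h | h
      · apply hz1
        have : z = y * (y⁻¹ * z * y) * y⁻¹ := by group
        rw [this, h]; group
      · apply hyS₀
        rw [hmem]
        calc y * z = y * (y⁻¹ * z * y) := by rw [h]
          _ = z * y := by group
      · apply hyS₁
        have hyx : y * x ∈ S₀ := by
          rw [hmem]
          have h' : y⁻¹ * z * y = x * z * x⁻¹ := by rw [h, hz'def]
          calc y * x * z = y * (x * z * x⁻¹) * x := by group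
            _ = y * (y⁻¹ * z * y) * x := by rw [h']
            _ = z * (y * x) := by group
        have : y = (y * x) * x⁻¹ := by group
        rw [this]
        exact S₁.mul_mem (hS₀₁ hyx) hxinv₁
      · apply hz'1
        have h' : y⁻¹ * z * y = y⁻¹ * (z * z') * y := by rw [hA']; exact h
        have h5 : z = z * z' := by
          calc z = y * (y⁻¹ * z * y) * y⁻¹ := by group
            _ = y * (y⁻¹ * (z * z') * y) * y⁻¹ := by rw [h']
            _ = z * z' := by group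
        exact mul_eq_left.mp h5.symm
    · push Not at hcase
      obtain ⟨p, hp, hq⟩ := hcase
      have hqS₁ : y * p * y⁻¹ ∈ S₁ := hyn p (hS₀₁ (hPS₀ hp))
      have h1 := hB _ hqS₁ hq
      have h3 : p * (y⁻¹ * z * y) * p⁻¹ = y⁻¹ * z' * y := by
        calc p * (y⁻¹ * z * y) * p⁻¹
            = y⁻¹ * ((y * p * y⁻¹) * z * (y * p * y⁻¹)⁻¹) * y := by group
          _ = y⁻¹ * z' * y := by rw [h1]
      have h4 : p * (y⁻¹ * z * y) * p⁻¹ * (y⁻¹ * z * y)⁻¹ = z * z' := by
        rw [h3]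
        calc y⁻¹ * z' * y * (y⁻¹ * z * y)⁻¹ = y⁻¹ * (z' * z⁻¹) * y := by group
          _ = y⁻¹ * (z * z') * y := by rw [hzinv, hzz'comm]
          _ = z * z' := hA'
      have h5 : z * z' ∈ P := by
        rw [← h4]
        have h6 := hPn _ hvS₀ p⁻¹ (P.inv_mem hp)
        have e : p * (y⁻¹ * z * y) * p⁻¹ * (y⁻¹ * z * y)⁻¹
            = p * ((y⁻¹ * z * y) * p⁻¹ * (y⁻¹ * z * y)⁻¹) := by group
        rw [e]
        exact P.mul_mem hp h6
      have h7 : z' ∈ P := by
        have : z' = z * (z * z') := by rw [← mul_assoc, hzz, one_mul]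
        rw [this]; exact P.mul_mem hzP h5
      have h8 : z' ∈ P ⊓ P.map (MulAut.conj x).toMonoidHom := ⟨h7, hz'Px⟩
      rw [hdisj, Subgroup.mem_bot] at h8
      exact hz'1 h8
  rw [← Subgroup.relIndex_top_right, ← hS₁top]
  exact hrel

end Cfsg.Agent.S4401
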