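import Cfsg.Statements.S4404
import Cfsg.Agent.Lib.Helper73.QMData
import Cfsg.Agent.Lib.Helper73.QMThree
import Cfsg.Agent.Lib.Helper73.QMHall
import Cfsg.Agent.Lib.Helper73.QMPCase

set_option autoImplicit false
open Cfsg

namespace Cfsg.Agent.S4404

open Cfsg.Agent.Lib.Helper73.QM in
/-- Let S be a finite solvable group and M a normal elementary abelian 2-subgroup of S. Suppose S contains an elementary abelian subgroup of order p³ for some odd prime p, and a cyclic 3-subgroup Q such that the cubes of the elements of Q centralize M and the commutator subgroup [Q, M] has order 4 (a four-group inside M). Then S contains an elementary abelian subgroup F of order r³, for some odd prime r, whose centralizer of [Q, M] in F — the subgroup C_F([Q, M]) — is not cyclic. -/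
theorem result {S : Type*} [Group S] [Finite S]
    [Group.IsSolvable S] (M : Subgroup S) [M.Normal] (hM : Cfsg.IsElementaryAbelian 2 M)
    (p : ℕ) (hp : p.Prime) (hp2 : p ≠ 2) (E : Subgroup S) (hE : Cfsg.IsElementaryAbelian p E) (hE3 : Nat.card ↥E = p ^ 3)
    (Q : Subgroup S) (hQc : IsCyclic ↥Q) (hQ3 : IsPGroup 3 ↥Q)
    (hQ1 : ∀ x ∈ Q, x ^ 3 ∈ Subgroup.centralizer (M : Set S)) (hQM : Nat.card ↥⁅Q, M⁆ = 4) :
    ∃ (r : ℕ) (F : Subgroup S), r.Prime ∧ r ≠ 2 ∧ Cfsg.IsElementaryAbelian r F ∧ Nat.card ↥F = r ^ 3 ∧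
      ¬ IsCyclic ↥(F ⊓ Subgroup.centralizer ((⁅Q, M⁆ : Subgroup S) : Set S)) := by
  classical
  obtain ⟨x, hxQ, hD⟩ := qm_data M hM Q hQc hQ1 hQM
  by_cases h27 : ∃ E₀ : Subgroup S, Cfsg.IsElementaryAbelian 3 E₀ ∧ Nat.card ↥E₀ = 27
  · obtain ⟨E₀, hE₀, hc⟩ := h27
    obtain ⟨F, hF, hF27, hnc⟩ := qm_three M hM Q hQ3 x hxQ _ hD E₀ hE₀ hc
    exact ⟨3, F, Nat.prime_three, by norm_num, hF, by rw [hF27]; norm_num, hnc⟩
  · have h3 : ∀ A : Subgroup S, Cfsg.IsElementaryAbelian 3 A → Nat.card ↥A ≠ 27 :=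
      fun A hA hc => h27 ⟨A, hA, hc⟩
    have hp3 : p ≠ 3 := by
      rintro rfl
      exact h3 E hE (by rw [hE3]; norm_num)
    have hp5 : 5 ≤ p := by
      have h2 := hp.two_le
      by_contra hlt
      have hlt' : p < 5 := not_le.mp hlt
      interval_cases p
      all_goals first | exact hp2 rfl | exact hp3 rfl | exact absurd hp (by decide)
    obtain ⟨P₀, F, hP₀, hQP, hFP, hF, hF3⟩ := qm_hall p hp hp5 h3 Q hQ3 E hE hE3
    have hnc := qm_pcase M hM x _ hD p hp hp5 P₀ hP₀ (hQP x hxQ) F hF hF3 hFP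
    exact ⟨p, F, hp, hp2, hF, hF3, hnc⟩

end Cfsg.Agent.S4404
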