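import Cfsg.Statements.S4405
import Cfsg.Agent.Lib.Helper77.MaxPrimeIdx
import Cfsg.Agent.Lib.Helper3.MaxClass

set_option autoImplicit false
open Cfsg

namespace Cfsg.Agent.S4405

open Cfsg.Agent.Lib.Helper30 Cfsg.Agent.Lib.Helper77

section act

variable {G : Type*} [Group G] (H : Subgroup G) [H.Normal]

/-- conjugation by `g` induced on `H / Z(H)` -/
noncomputable def actQ (g : G) : (↥H ⧸ Subgroup.center ↥H) →* (↥H ⧸ Subgroup.center ↥H) :=
  QuotientGroup.map _ _ ((MulAut.conjNormal g : MulAut ↥H)).toMonoidHom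
    (Subgroup.characteristic_iff_le_comap.mp inferInstance (MulAut.conjNormal g))

theorem actQ_mk (g : G) (h : ↥H) :
    actQ H g (QuotientGroup.mk h) = QuotientGroup.mk ((MulAut.conjNormal g : MulAut ↥H) h) := rfl

theorem actQ_mul (g₁ g₂ : G) (v : ↥H ⧸ Subgroup.center ↥H) :
    actQ H (g₁ * g₂) v = actQ H g₁ (actQ H g₂ v) := by
  induction v using QuotientGroup.induction_on with
  | H h => rw [actQ_mk, actQ_mk, actQ_mk, map_mul]; rfl

theorem actQ_one (v : ↥H ⧸ Subgroup.center ↥H) : actQ H 1 v = v := by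
  induction v using QuotientGroup.induction_on with
  | H h => rw [actQ_mk, map_one]; rfl

end act

/-- In a group of order 10, an involution generating a non-normal subgroup inverts the elements
of order 5. -/
theorem rel_of_card_ten {Q : Type*} [Group Q] [Finite Q] (hQ : Nat.card Q = 10) (a b : Q)
    (ha : orderOf a = 5) (hb : orderOf b = 2) (hno : ¬ (Subgroup.zpowers b).Normal) :
    b * a * b⁻¹ = a⁻¹ := by
  have ha5 : a ^ 5 = 1 := by rw [← ha]; exact pow_orderOf_eq_one a
  have hb2 : b ^ 2 = 1 := by rw [← hb]; exact pow_orderOf_eq_one b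
  have hA2 : (Subgroup.zpowers a).index = 2 := by
    have h3 := (Subgroup.zpowers a).card_mul_index
    rw [Nat.card_zpowers, ha, hQ] at h3
    omega
  have hAn : (Subgroup.zpowers a).Normal := Subgroup.normal_of_index_eq_two hA2
  have hbA : b ∉ Subgroup.zpowers a := by
    intro h
    have h1 := Subgroup.orderOf_dvd_natCard _ h
    rw [Nat.card_zpowers, ha, hb] at h1
    omega
  have hconj : b * a * b⁻¹ ∈ Subgroup.zpowers a := hAn.conj_mem a (Subgroup.mem_zpowers a) b
  obtain ⟨i, hi⟩ := Subgroup.mem_zpowers_iff.mp hconj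
  obtain ⟨k, hk5, hk⟩ : ∃ k : ℕ, k < 5 ∧ a ^ k = b * a * b⁻¹ := by
    refine ⟨(i % 5).toNat, ?_, ?_⟩
    · have := Int.emod_lt_of_pos i (show (0 : ℤ) < 5 by norm_num)
      have := Int.emod_nonneg i (show (5 : ℤ) ≠ 0 by norm_num)
      omega
    · rw [← hi, ← zpow_natCast, Int.toNat_of_nonneg (Int.emod_nonneg i (by norm_num))]
      have := zpow_mod_orderOf a i
      rw [ha] at this
      exact this
  have hkk : a ^ (k * k) = a ^ 1 := by
    have h1 : b * (b * a * b⁻¹) * b⁻¹ = a := by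
      have hbb : b * b = 1 := by rw [← sq]; exact hb2
      have hbi : b⁻¹ = b := inv_eq_of_mul_eq_one_left hbb
      rw [hbi]
      calc b * (b * a * b) * b = (b * b) * a * (b * b) := by group
        _ = a := by rw [hbb, one_mul, mul_one]
    rw [← hk, ← conj_pow, ← hk, ← pow_mul] at h1
    rw [pow_one]; exact h1
  have hmod : k * k ≡ 1 [MOD 5] := by
    have := pow_eq_pow_iff_modEq.mp hkk
    rwa [ha] at this
  have hk14 : k = 1 ∨ k = 4 := by
    interval_cases k
    · exact absurd hmod (by decide)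
    · exact Or.inl rfl
    · exact absurd hmod (by decide)
    · exact absurd hmod (by decide)
    · exact Or.inr rfl
  rcases hk14 with rfl | rfl
  · exfalso
    apply hno
    rw [pow_one] at hk
    have hab : Commute a b := by
      show a * b = b * a
      calc a * b = (b * a * b⁻¹) * b := by rw [← hk]
        _ = b * a := by group
    have hfix : ∀ q : Q, q * b * q⁻¹ = b := by
      intro q
      rcases Cfsg.Agent.Lib.Helper3.cases_index2 _ hA2 b hbA q with hq | hq
      · obtain ⟨j, rfl⟩ := Subgroup.mem_zpowers_iff.mp hq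
        have := (hab.zpow_left j).eq
        rw [this]; group
      · obtain ⟨j, hj⟩ := Subgroup.mem_zpowers_iff.mp hq
        have hq' : q = a ^ j * b := by rw [hj]; group
        have := (hab.zpow_left j).eq
        rw [hq']
        calc a ^ j * b * b * (a ^ j * b)⁻¹ = (a ^ j * b) * (a ^ j)⁻¹ := by group
          _ = (b * a ^ j) * (a ^ j)⁻¹ := by rw [this]
          _ = b := by group
    constructor
    intro n hn q
    obtain ⟨j, rfl⟩ := Subgroup.mem_zpowers_iff.mp hn
    rw [← conj_zpow, hfix q]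
    exact Subgroup.zpow_mem _ (Subgroup.mem_zpowers b) j
  · rw [← hk]
    exact eq_inv_of_mul_eq_one_left (by rw [← pow_succ]; exact ha5)

/-- An automorphism fixes each element of the centre when the centre has order 2. -/
theorem aut_fix_center {X : Type*} [Group X] (hZ : Nat.card (Subgroup.center X) = 2)
    (ψ : MulAut X) (ζ : X) (hζ : ζ ∈ Subgroup.center X) : ψ ζ = ζ := by
  have hmem : ψ ζ ∈ Subgroup.center X := by
    have := Subgroup.characteristic_iff_map_le.mp
      (inferInstance : (Subgroup.center X).Characteristic) ψ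
    exact this ⟨ζ, hζ, rfl⟩
  by_cases h1 : ζ = 1
  · rw [h1, map_one]
  · obtain ⟨y, -, hy⟩ := (Nat.card_eq_two_iff' (1 : Subgroup.center X)).mp hZ
    have e1 : (⟨ζ, hζ⟩ : Subgroup.center X) = y :=
      hy _ (fun h => h1 (congrArg Subtype.val h))
    have e2 : (⟨ψ ζ, hmem⟩ : Subgroup.center X) = y := hy _ (fun h => h1 (by
      have h3 : ψ ζ = 1 := congrArg Subtype.val h
      exact (MulEquiv.map_eq_one_iff ψ).mp h3))
    exact congrArg Subtype.val (e2.trans e1.symm)

/-- fixed points of an endomorphism of order dividing 5 on a group of order 16 -/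
theorem fix_of_order_five {X : Type*} [Group X] [Finite X] (hX : Nat.card X = 16) (φ : X →* X)
    (h5 : ∀ v, φ (φ (φ (φ (φ v)))) = v) : (∀ v, φ v = v → v = 1) ∨ (∀ v, φ v = v) := by
  classical
  haveI : Fintype X := Fintype.ofFinite X
  have : Fact (Nat.Prime 5) := ⟨by norm_num⟩
  let Fix : Subgroup X :=
    { carrier := {v | φ v = v}
      mul_mem' := fun {a b} ha hb => by
        simp only [Set.mem_ofPred_eq] at *
        rw [map_mul, ha, hb]
      one_mem' := map_one φ
      inv_mem' := fun {a} ha => by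
        simp only [Set.mem_ofPred_eq] at *
        rw [map_inv, ha] }
  let g : Function.End X := (φ : X → X)
  have hf : g ^ 5 ^ 1 = 1 := by
    have h1 : g ^ 5 ^ 1 = g * g * g * g * g := by
      simp only [pow_succ, pow_zero, one_mul]
    rw [h1]
    exact funext (fun v => h5 v)
  have hmod := Equiv.Perm.card_fixedPoints_modEq (f := g) hf
  have hcardFix : Nat.card Fix = Fintype.card (Function.fixedPoints (φ : X → X)) := by
    rw [← Nat.card_eq_fintype_card]
    exact Nat.card_congr (Equiv.subtypeEquivRight (fun v => Iff.rfl))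
  rw [← Nat.card_eq_fintype_card, hX] at hmod
  have hdvd : Nat.card Fix ∣ 2 ^ 4 := by
    have := Subgroup.card_subgroup_dvd_card Fix
    rw [hX] at this
    exact this
  obtain ⟨j, hj4, hj⟩ := (Nat.dvd_prime_pow Nat.prime_two).mp hdvd
  have hmod' : 16 ≡ 2 ^ j [MOD 5] := by
    rw [← hj, hcardFix]; exact hmod
  have hj04 : j = 0 ∨ j = 4 := by
    interval_cases j
    · exact Or.inl rfl
    · exact absurd hmod' (by decide)
    · exact absurd hmod' (by decide)
    · exact absurd hmod' (by decide)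
    · exact Or.inr rfl
  rcases hj04 with rfl | rfl
  · left
    intro v hv
    have h1 : Fix = ⊥ := Subgroup.card_eq_one.mp (by rw [hj]; norm_num)
    have h2 : v ∈ Fix := hv
    rw [h1, Subgroup.mem_bot] at h2
    exact h2
  · right
    intro v
    have h1 : Fix = ⊤ := Subgroup.eq_top_of_card_eq Fix (by rw [hj, hX]; norm_num)
    have h2 : v ∈ Fix := by rw [h1]; exact Subgroup.mem_top v
    exact h2

/-- The key counting statement on `H/Z(H)`. -/
theorem key_abstract {X : Type*} [Group X] [Finite X] (hX : Nat.card X = 16)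
    (hcomm : ∀ u v : X, u * v = v * u) (hsq : ∀ v : X, v * v = 1) (φ τ : X →* X)
    (hτ : ∀ v, τ (τ v) = v) (hrel : ∀ v, τ (φ (τ (φ v))) = v)
    (hφ5 : ∀ v, φ (φ (φ (φ (φ v)))) = v)
    (hfix : ∀ v, φ v = v → v = 1) :
    ∀ v, τ v = v → ∃ w, v = w * τ w := by
  have hinv : ∀ v : X, v⁻¹ = v := fun v => inv_eq_of_mul_eq_one_left (hsq v)
  let C : Subgroup X :=
    { carrier := {v | τ v = v}
      mul_mem' := fun {a b} ha hb => by
        simp only [Set.mem_ofPred_eq] at *
        rw [map_mul, ha, hb]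
      one_mem' := map_one τ
      inv_mem' := fun {a} ha => by
        simp only [Set.mem_ofPred_eq] at *
        rw [map_inv, ha] }
  let κ : X →* X := MonoidHom.mk' (fun v => v * τ v) (by
    intro a b
    show a * b * τ (a * b) = a * τ a * (b * τ b)
    rw [map_mul, mul_assoc a b, ← mul_assoc b, hcomm b (τ a), mul_assoc (τ a), ← mul_assoc a])
  have hker : κ.ker = C := by
    ext v
    rw [MonoidHom.mem_ker]
    show v * τ v = 1 ↔ τ v = v
    constructor
    · intro h
      have h1 := eq_inv_of_mul_eq_one_right h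
      rw [hinv] at h1
      exact h1
    · intro h
      rw [h]; exact hsq v
  have hrange : κ.range ≤ C := by
    rintro _ ⟨w, rfl⟩
    show τ (w * τ w) = w * τ w
    rw [map_mul, hτ, hcomm]
  have hCφ : ∀ w, τ w = w → τ (φ w) = φ w → w = 1 := by
    intro w hw hv
    apply hfix
    have h1 := hrel w
    rw [hv] at h1
    have h2 : φ (φ w) = w := by
      have := congrArg τ h1
      rw [hτ, hw] at this
      exact this
    have h3 := hφ5 w
    rw [h2, h2] at h3
    exact h3
  have hcardC : Nat.card C * Nat.card C ≤ 16 := by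
    rw [← hX, ← Nat.card_prod]
    apply Nat.card_le_card_of_injective (fun p : C × C => (p.1 : X) * φ (p.2 : X))
    rintro ⟨⟨a, ha⟩, ⟨b, hb⟩⟩ ⟨⟨a', ha'⟩, ⟨b', hb'⟩⟩ h
    have h' : a * φ b = a' * φ b' := h
    have hb0 : τ b = b := hb
    have hb0' : τ b' = b' := hb'
    have ha0 : τ a = a := ha
    have ha0' : τ a' = a' := ha'
    have hw : τ (b * b') = b * b' := by rw [map_mul, hb0, hb0']
    have hφw : φ (b * b') = a * a' := by
      rw [map_mul]
      calc φ b * φ b' = (a * a) * (φ b * φ b') := by rw [hsq a, one_mul]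
        _ = a * (a * φ b) * φ b' := by group
        _ = a * (a' * φ b') * φ b' := by rw [h']
        _ = a * a' * (φ b' * φ b') := by group
        _ = a * a' := by rw [hsq, mul_one]
    have hτφ : τ (φ (b * b')) = φ (b * b') := by rw [hφw, map_mul, ha0, ha0']
    have hw1 := hCφ _ hw hτφ
    have hbb : b = b' := by
      rw [← hinv b']; exact eq_inv_of_mul_eq_one_left hw1
    subst hbb
    have haa : a = a' := mul_right_cancel h'
    subst haa
    rfl
  have hcount : Nat.card κ.ker * Nat.card κ.range = 16 := by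
    rw [← hX, ← Subgroup.index_ker, Subgroup.card_mul_index]
  rw [hker] at hcount
  have hrc : Nat.card κ.range ≤ Nat.card C := Subgroup.card_le_of_le hrange
  have hC4 : Nat.card C ≤ Nat.card κ.range := by
    have hc4 : Nat.card C ≤ 4 := by nlinarith
    have hr4 : Nat.card κ.range ≤ 4 := by omega
    generalize Nat.card C = c at *
    generalize Nat.card κ.range = r at *
    interval_cases c <;> interval_cases r <;> omega
  have hreq : κ.range = C := Subgroup.eq_of_le_of_card_ge hrange hC4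
  intro v hv
  have hvC : v ∈ C := hv
  rw [← hreq] at hvC
  obtain ⟨w, hw⟩ := hvC
  exact ⟨w, hw.symm⟩


theorem isSolvable_of_prime_card {X : Type*} [Group X] {p : ℕ} [Fact p.Prime]
    (h : Nat.card X = p) : Group.IsSolvable X := by
  haveI := isCyclic_of_prime_card h
  exact Group.isSolvable_of_comm (fun a b => (IsCyclic.isMulCommutative (α := X)).is_comm.comm a b)

theorem solvable_aux {G : Type*} [Group G] [Finite G] (H : Subgroup G) [H.Normal]
    (hp : IsPGroup 2 ↥H) (hidx : H.index = 10) : Group.IsSolvable G := by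
  classical
  haveI : Fact (Nat.Prime 2) := ⟨Nat.prime_two⟩
  haveI : Fact (Nat.Prime 5) := ⟨by norm_num⟩
  have hQ : Nat.card (G ⧸ H) = 10 := hidx
  haveI hsQ : Group.IsSolvable (G ⧸ H) := by
    obtain ⟨a, ha⟩ := exists_prime_orderOf_dvd_card' (G := G ⧸ H) 5 (by rw [hQ]; norm_num)
    have hA2 : (Subgroup.zpowers a).index = 2 := by
      have h3 := (Subgroup.zpowers a).card_mul_index
      rw [Nat.card_zpowers, ha, hQ] at h3
      omega
    haveI hAn : (Subgroup.zpowers a).Normal := Subgroup.normal_of_index_eq_two hA2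
    haveI h1 : Group.IsSolvable ↥(Subgroup.zpowers a) :=
      isSolvable_of_prime_card (p := 5) (by rw [Nat.card_zpowers, ha])
    haveI h2 : Group.IsSolvable ((G ⧸ H) ⧸ Subgroup.zpowers a) :=
      isSolvable_of_prime_card (p := 2) hA2
    exact Group.isSolvable_of_ker_le_range (Subgroup.zpowers a).subtype
      (QuotientGroup.mk' (Subgroup.zpowers a)) (by simp)
  haveI hsH : Group.IsSolvable ↥H := isSolvable_of_isPGroup hp
  exact Group.isSolvable_of_ker_le_range H.subtype (QuotientGroup.mk' H) (by simp)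

theorem sq_of_centralizer {G : Type*} [Group G] [Finite G] (H : Subgroup G) [H.Normal]
    (hG : Nat.card G = 320) (h32 : Nat.card ↥H = 32)
    (hp : IsPGroup 2 ↥H) (hfrat : frattini ↥H = Subgroup.center ↥H)
    (hcomm : commutator ↥H = Subgroup.center ↥H) (hZ2 : Nat.card (Subgroup.center ↥H) = 2)
    (hmax : ∀ K : Subgroup G, K.Normal → IsPGroup 2 K → K ≤ H)
    (hcent : Subgroup.centralizer (H : Set G) ≤ H)
    (T : G) (hT : orderOf T = 2) (hTH : T ∉ H) (d : G) (hd : d ∈ H) (hdT : T * d = d * T) :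
    d * d = 1 := by
  classical
  haveI : Fact (Nat.Prime 2) := ⟨Nat.prime_two⟩
  haveI : Fact (Nat.Prime 5) := ⟨by norm_num⟩
  have hTT : T * T = 1 := by rw [← sq, ← hT]; exact pow_orderOf_eq_one T
  have hX16 : Nat.card (↥H ⧸ Subgroup.center ↥H) = 16 := by
    have h1 := (Subgroup.center ↥H).card_mul_index
    rw [hZ2, h32] at h1
    have h2 : (Subgroup.center ↥H).index = Nat.card (↥H ⧸ Subgroup.center ↥H) := rfl
    omega
  have hcm : ∀ a b : ↥H, a⁻¹ * b⁻¹ * a * b ∈ Subgroup.center ↥H := by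
    intro a b
    rw [← hcomm, commutator_def]
    have := Subgroup.commutator_mem_commutator (Subgroup.mem_top a⁻¹) (Subgroup.mem_top b⁻¹)
    rw [commutatorElement_def, inv_inv, inv_inv] at this
    exact this
  have hXcomm : ∀ u v : ↥H ⧸ Subgroup.center ↥H, u * v = v * u := by
    intro u v
    obtain ⟨a, rfl⟩ := QuotientGroup.mk_surjective u
    obtain ⟨b, rfl⟩ := QuotientGroup.mk_surjective v
    rw [← QuotientGroup.mk_mul, ← QuotientGroup.mk_mul, QuotientGroup.eq]
    have := hcm b a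
    have e : (a * b)⁻¹ * (b * a) = b⁻¹ * a⁻¹ * b * a := by group
    rw [e]; exact this
  have hXsq : ∀ v : ↥H ⧸ Subgroup.center ↥H, v * v = 1 := by
    intro v
    obtain ⟨a, rfl⟩ := QuotientGroup.mk_surjective v
    rw [← QuotientGroup.mk_mul, QuotientGroup.eq_one_iff, ← hfrat]
    unfold frattini Order.radical
    simp only [Subgroup.mem_iInf]
    intro M hM
    obtain ⟨hMn, hMi⟩ := Cfsg.Agent.Lib.Helper3.coatom_normal_index hp M hM
    haveI := hMn
    have := Subgroup.pow_index_mem M a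
    rw [hMi, sq] at this
    exact this
  have hactH : ∀ h ∈ H, ∀ v, actQ H h v = v := by
    intro h hh v
    obtain ⟨y, rfl⟩ := QuotientGroup.mk_surjective v
    rw [actQ_mk, QuotientGroup.eq]
    have e : ((MulAut.conjNormal h : MulAut ↥H) y) = ⟨h, hh⟩ * y * ⟨h, hh⟩⁻¹ := by
      apply Subtype.ext
      rw [MulAut.conjNormal_apply]
      rfl
    rw [e]
    have h1 := hcm (⟨h, hh⟩ : ↥H)⁻¹ y
    have e2 : ((⟨h, hh⟩ : ↥H) * y * ⟨h, hh⟩⁻¹)⁻¹ * y
        = ((⟨h, hh⟩ : ↥H)⁻¹)⁻¹ * y⁻¹ * (⟨h, hh⟩ : ↥H)⁻¹ * y := by group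
    rw [e2]; exact h1
  obtain ⟨f, hf5⟩ := exists_prime_orderOf_dvd_card' (G := G) 5 (by rw [hG]; norm_num)
  have hf5' : f ^ 5 = 1 := by rw [← hf5]; exact pow_orderOf_eq_one f
  have hf5m : f * f * f * f * f = 1 := by
    rw [← hf5']; simp only [pow_succ, pow_zero, one_mul]
  have hfH : f ∉ H := by
    intro hfH
    obtain ⟨k, hk⟩ := hp ⟨f, hfH⟩
    have h1 : f ^ 2 ^ k = 1 := by
      have := congrArg Subtype.val hk
      simpa using this
    have h2 := orderOf_dvd_of_pow_eq_one h1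
    rw [hf5] at h2
    have h3 := (Nat.Prime.dvd_of_dvd_pow (by norm_num : Nat.Prime 5) h2)
    exact absurd h3 (by decide)
  have hQ : Nat.card (G ⧸ H) = 10 := by
    have h1 := H.card_mul_index
    rw [h32, hG] at h1
    have h2 : H.index = Nat.card (G ⧸ H) := rfl
    omega
  have hof : orderOf (QuotientGroup.mk f : G ⧸ H) = 5 := by
    have h1 : (QuotientGroup.mk f : G ⧸ H) ^ 5 = 1 := by
      rw [← QuotientGroup.mk_pow, hf5']; rfl
    have h2 := orderOf_dvd_of_pow_eq_one h1
    rcases (Nat.dvd_prime (by norm_num : Nat.Prime 5)).mp h2 with h | h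
    · exfalso
      rw [orderOf_eq_one_iff, QuotientGroup.eq_one_iff] at h
      exact hfH h
    · exact h
  have hoT : orderOf (QuotientGroup.mk T : G ⧸ H) = 2 := by
    have h1 : (QuotientGroup.mk T : G ⧸ H) ^ 2 = 1 := by
      rw [← QuotientGroup.mk_pow, sq, hTT]; rfl
    have h2 := orderOf_dvd_of_pow_eq_one h1
    rcases (Nat.dvd_prime Nat.prime_two).mp h2 with h | h
    · exfalso
      rw [orderOf_eq_one_iff, QuotientGroup.eq_one_iff] at h
      exact hTH h
    · exact h
  have hno : ¬ (Subgroup.zpowers (QuotientGroup.mk T : G ⧸ H)).Normal := by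
    intro hn
    have hKn : ((Subgroup.zpowers (QuotientGroup.mk T : G ⧸ H)).comap
        (QuotientGroup.mk' H)).Normal := hn.comap _
    have hKc := card_comap_mk' H (Subgroup.zpowers (QuotientGroup.mk T : G ⧸ H))
    rw [Nat.card_zpowers, hoT, h32] at hKc
    have hKp : IsPGroup 2 ↥((Subgroup.zpowers (QuotientGroup.mk T : G ⧸ H)).comap
        (QuotientGroup.mk' H)) := IsPGroup.of_card (n := 6) (by rw [hKc]; norm_num)
    have := hmax _ hKn hKp
    exact hTH (this (by
      rw [Subgroup.mem_comap]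
      exact Subgroup.mem_zpowers _))
  have hrelQ := rel_of_card_ten hQ _ _ hof hoT hno
  have hrelH : T * f * T⁻¹ * f ∈ H := by
    rw [← QuotientGroup.eq_one_iff, QuotientGroup.mk_mul, QuotientGroup.mk_mul,
      QuotientGroup.mk_mul, QuotientGroup.mk_inv, hrelQ, inv_mul_cancel]
  have hτ : ∀ v, actQ H T (actQ H T v) = v := by
    intro v
    rw [← actQ_mul, hTT, actQ_one]
  have hφ5 : ∀ v, actQ H f (actQ H f (actQ H f (actQ H f (actQ H f v)))) = v := by
    intro v
    rw [← actQ_mul, ← actQ_mul, ← actQ_mul, ← actQ_mul, hf5m, actQ_one]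
  have hrel : ∀ v, actQ H T (actQ H f (actQ H T (actQ H f v))) = v := by
    intro v
    rw [← actQ_mul, ← actQ_mul, ← actQ_mul]
    apply hactH
    have : T * f * T * f = T * f * T⁻¹ * f := by
      rw [inv_eq_of_mul_eq_one_left hTT]
    rw [this]; exact hrelH
  have hfix : ∀ v, actQ H f v = v → v = 1 := by
    rcases fix_of_order_five hX16 (actQ H f) hφ5 with h | h
    · exact h
    · exfalso
      have hff : f * f ∈ Subgroup.centralizer (H : Set G) := by
        rw [Subgroup.mem_centralizer_iff]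
        intro y hy
        have h1 := h (QuotientGroup.mk ⟨y, hy⟩)
        rw [actQ_mk, QuotientGroup.eq] at h1
        have hψc := aut_fix_center hZ2 (MulAut.conjNormal f : MulAut ↥H) _ h1
        have hc2 : (⟨_, h1⟩ : Subgroup.center ↥H) ^ 2 = 1 := by
          rw [← hZ2]; exact pow_card_eq_one'
        have hcc := congrArg Subtype.val (congrArg Subtype.val hc2)
        have hfc := congrArg Subtype.val hψc
        simp only [MulAut.conjNormal_apply, Subgroup.coe_mul, InvMemClass.coe_inv,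
          Subgroup.coe_one, sq] at hcc hfc
        have e1 : f * y * f⁻¹ = y * ((f * y * f⁻¹)⁻¹ * y)⁻¹ := by group
        have e3 : f * (f * y * f⁻¹) * f⁻¹ = y := by
          calc f * (f * y * f⁻¹) * f⁻¹ = f * (y * ((f * y * f⁻¹)⁻¹ * y)⁻¹) * f⁻¹ := by rw [← e1]
            _ = (f * y * f⁻¹) * (f * ((f * y * f⁻¹)⁻¹ * y) * f⁻¹)⁻¹ := by group
            _ = (f * y * f⁻¹) * ((f * y * f⁻¹)⁻¹ * y)⁻¹ := by rw [hfc]
            _ = y * (((f * y * f⁻¹)⁻¹ * y) * ((f * y * f⁻¹)⁻¹ * y))⁻¹ := by group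
            _ = y := by rw [hcc, inv_one, mul_one]
        calc y * (f * f) = (f * (f * y * f⁻¹) * f⁻¹) * (f * f) := by rw [e3]
          _ = f * f * y := by group
      have hffH : f * f ∈ H := hcent hff
      have h2 : f⁻¹ = (f * f) * (f * f) := by
        apply inv_eq_of_mul_eq_one_right
        rw [← hf5m]; group
      apply hfH
      rw [← inv_mem_iff, h2]
      exact H.mul_mem hffH hffH
  have key := key_abstract hX16 hXcomm hXsq (actQ H f) (actQ H T) hτ hrel hφ5 hfix
  have hψd : (MulAut.conjNormal T : MulAut ↥H) ⟨d, hd⟩ = ⟨d, hd⟩ := by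
    apply Subtype.ext
    rw [MulAut.conjNormal_apply]
    show T * d * T⁻¹ = d
    rw [hdT]; group
  have hτd : actQ H T (QuotientGroup.mk ⟨d, hd⟩) = QuotientGroup.mk ⟨d, hd⟩ := by
    rw [actQ_mk, hψd]
  obtain ⟨w, hw⟩ := key _ hτd
  obtain ⟨a, rfl⟩ := QuotientGroup.mk_surjective w
  have hψψ : ∀ y : ↥H, (MulAut.conjNormal T : MulAut ↥H)
      ((MulAut.conjNormal T : MulAut ↥H) y) = y := by
    intro y
    rw [← MulAut.mul_apply, ← map_mul, hTT, map_one]; rfl
  have hw' : (QuotientGroup.mk ⟨d, hd⟩ : ↥H ⧸ Subgroup.center ↥H)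
      = QuotientGroup.mk (a⁻¹ * (MulAut.conjNormal T : MulAut ↥H) a) := by
    rw [hw, actQ_mk, QuotientGroup.mk_mul, QuotientGroup.mk_inv]
    congr 1
    exact (inv_eq_of_mul_eq_one_left (hXsq _)).symm
  rw [QuotientGroup.eq] at hw'
  generalize hcdef : a⁻¹ * (MulAut.conjNormal T : MulAut ↥H) a = c at hw'
  have hψc : (MulAut.conjNormal T : MulAut ↥H) c = c⁻¹ := by
    rw [← hcdef, map_mul, map_inv, hψψ, mul_inv_rev, inv_inv]
  have hψζ := aut_fix_center hZ2 (MulAut.conjNormal T : MulAut ↥H) _ hw'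
  rw [map_mul, map_inv, hψd, hψc] at hψζ
  have hci : c⁻¹ = c := mul_left_cancel hψζ
  have hcc : c * c = 1 := by
    have := inv_mul_cancel c
    rw [hci] at this
    exact this
  have hζ2 : ((⟨d, hd⟩ : ↥H)⁻¹ * c) * ((⟨d, hd⟩ : ↥H)⁻¹ * c) = 1 := by
    have hc2 : (⟨_, hw'⟩ : Subgroup.center ↥H) ^ 2 = 1 := by
      rw [← hZ2]; exact pow_card_eq_one'
    have := congrArg Subtype.val hc2
    simpa [sq] using this
  have hcomm' : c * ((⟨d, hd⟩ : ↥H)⁻¹ * c) = ((⟨d, hd⟩ : ↥H)⁻¹ * c) * c :=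
    Subgroup.mem_center_iff.mp hw' c
  have hdd : (⟨d, hd⟩ : ↥H)⁻¹ * (⟨d, hd⟩ : ↥H)⁻¹ = 1 := by
    have e1 : (⟨d, hd⟩ : ↥H)⁻¹ = ((⟨d, hd⟩ : ↥H)⁻¹ * c) * c := by
      rw [mul_assoc, hcc, mul_one]
    have e2 : (⟨d, hd⟩ : ↥H)⁻¹ = c * ((⟨d, hd⟩ : ↥H)⁻¹ * c) := by
      rw [hcomm']; exact e1
    calc (⟨d, hd⟩ : ↥H)⁻¹ * (⟨d, hd⟩ : ↥H)⁻¹
        = (((⟨d, hd⟩ : ↥H)⁻¹ * c) * c) * (c * ((⟨d, hd⟩ : ↥H)⁻¹ * c)) := by rw [← e1, ← e2]
      _ = ((⟨d, hd⟩ : ↥H)⁻¹ * c) * (c * c) * ((⟨d, hd⟩ : ↥H)⁻¹ * c) := by group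
      _ = 1 := by rw [hcc, mul_one, hζ2]
  have hdd' : d⁻¹ * d⁻¹ = 1 := by
    have := congrArg Subtype.val hdd
    simpa using this
  have : (d * d)⁻¹ = 1 := by rw [mul_inv_rev]; exact hdd'
  exact inv_eq_one.mp this

theorem result {G : Type*} [Group G] [Finite G]
    (hG : Nat.card G = 320) (hHF : Cfsg.pCore 2 G = Cfsg.fittingSubgroup G)
    (hex : Cfsg.IsExtraspecial 2 ↥(Cfsg.pCore 2 G)) (h32 : Nat.card ↥(Cfsg.pCore 2 G) = 32)
    (hminus : ∀ A : Subgroup G, A ≤ Cfsg.pCore 2 G → Cfsg.IsElementaryAbelian 2 A → Nat.card ↥A ≤ 4)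
    (T : G) (hT : orderOf T = 2) (hTH : T ∉ Cfsg.pCore 2 G)
    (V : Subgroup G) (hV : V ≤ Cfsg.pCore 2 G ⊓ Subgroup.centralizer ({T} : Set G)) (hV4 : Nat.card ↥V = 4) (hVe : Cfsg.IsElementaryAbelian 2 V) :
    Nat.card ↥(Cfsg.pCore 2 G ⊓ Subgroup.centralizer ({T} : Set G)) = 4 ∧
      Cfsg.IsElementaryAbelian 2 (Cfsg.pCore 2 G ⊓ Subgroup.centralizer ({T} : Set G)) := by
  classical
  haveI : Fact (Nat.Prime 2) := ⟨Nat.prime_two⟩
  haveI hHn : (Cfsg.pCore 2 G).Normal := pCore_normal 2 G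
  obtain ⟨⟨hp, hfrat, hcomm⟩, hZ2⟩ := hex
  have hidx : (Cfsg.pCore 2 G).index = 10 := by
    have h1 := (Cfsg.pCore 2 G).card_mul_index
    rw [h32, hG] at h1
    omega
  haveI hsolv : Group.IsSolvable G := solvable_aux (Cfsg.pCore 2 G) hp hidx
  have hcent : Subgroup.centralizer (Cfsg.pCore 2 G : Set G) ≤ Cfsg.pCore 2 G := by
    have h2 := centralizer_genFitting_le (G := G)
    have h3 : generalizedFittingSubgroup G = Cfsg.pCore 2 G := by
      unfold generalizedFittingSubgroup
      rw [layer_eq_bot_of_isSolvable, bot_sup_eq, hHF]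
    rwa [h3] at h2
  have hsq : ∀ d ∈ Cfsg.pCore 2 G ⊓ Subgroup.centralizer ({T} : Set G), d * d = 1 := by
    intro d hd
    have hdT : T * d = d * T :=
      Subgroup.mem_centralizer_iff.mp hd.2 T (Set.mem_singleton T)
    exact sq_of_centralizer (Cfsg.pCore 2 G) hG h32 hp hfrat hcomm hZ2
      (fun K hKn hKp => le_pCore_of_normal hKn hKp) hcent T hT hTH d hd.1 hdT
  have hCe : Cfsg.IsElementaryAbelian 2
      (Cfsg.pCore 2 G ⊓ Subgroup.centralizer ({T} : Set G)) := by
    refine ⟨⟨⟨?_⟩⟩, fun a ha => by rw [sq]; exact hsq a ha⟩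
    rintro ⟨a, ha⟩ ⟨b, hb⟩
    apply Subtype.ext
    show a * b = b * a
    have h1 := hsq a ha
    have h2 := hsq b hb
    have h3 := hsq (a * b) (Subgroup.mul_mem _ ha hb)
    have ha' : a⁻¹ = a := inv_eq_of_mul_eq_one_left h1
    have hb' : b⁻¹ = b := inv_eq_of_mul_eq_one_left h2
    have hab' : (a * b)⁻¹ = a * b := inv_eq_of_mul_eq_one_left h3
    calc a * b = (a * b)⁻¹ := hab'.symm
      _ = b⁻¹ * a⁻¹ := mul_inv_rev a b
      _ = b * a := by rw [ha', hb']
  refine ⟨?_, hCe⟩
  have h1 := hminus _ inf_le_left hCe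
  have h2 := Subgroup.card_le_of_le hV
  omega

end Cfsg.Agent.S4405
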