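import Cfsg.Statements.S4406

set_option autoImplicit false
open Cfsg

namespace Cfsg.Agent.S4406

/-- Local name for the alternating group of degree four. -/
abbrev A4t := ↥(alternatingGroup (Fin 4))

theorem F0 : ∀ u : A4t, u ^ 2 = 1 ∨ u ^ 3 = 1 := by decide

set_option maxRecDepth 100000 in
set_option synthInstance.maxSize 100000 in
set_option synthInstance.maxHeartbeats 2000000 in
theorem F1 : ∀ a u u' : A4t, a ≠ 1 → a ^ 3 = 1 → u ≠ 1 → u ^ 2 = 1 → u' ≠ 1 → u' ^ 2 = 1 → u' ≠ u →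
    u' = a * u * a⁻¹ ∨ u' = a⁻¹ * u * a := by decide +kernel

set_option maxRecDepth 100000 in
theorem F2 : ∀ a u : A4t, a ≠ 1 → a ^ 3 = 1 → u ^ 2 = 1 →
    a * (a * u * a⁻¹) * a⁻¹ = u * (a * u * a⁻¹) := by decide +kernel

set_option maxRecDepth 100000 in
set_option synthInstance.maxSize 100000 in
set_option synthInstance.maxHeartbeats 2000000 in
theorem F3 : ∀ u u' x : A4t, u ≠ 1 → u ^ 2 = 1 → u' ≠ 1 → u' ^ 2 = 1 → u' ≠ u → x ^ 2 = 1 →
    x = 1 ∨ x = u ∨ x = u' ∨ x = u * u' := by decide +kernel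

theorem F4 : Nat.card A4t = 12 := by
  rw [Nat.card_eq_fintype_card]; decide

set_option maxRecDepth 100000 in
theorem F5 : ∀ a u : A4t, a ≠ 1 → a ^ 3 = 1 → u ≠ 1 → u ^ 2 = 1 → a * u * a⁻¹ ≠ u := by
  decide +kernel

theorem sq_of_two_pow (u : A4t) (k : ℕ) (h : u ^ (2 ^ k) = 1) : u ^ 2 = 1 := by
  rcases F0 u with h2 | h3
  · exact h2
  · have h1 : orderOf u ∣ 2 ^ k := orderOf_dvd_of_pow_eq_one h
    have h3' : orderOf u ∣ 3 := orderOf_dvd_of_pow_eq_one h3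
    have hd : orderOf u ∣ Nat.gcd (2 ^ k) 3 := Nat.dvd_gcd h1 h3'
    have hc : Nat.gcd (2 ^ k) 3 = 1 := Nat.Coprime.pow_left k (by decide)
    rw [hc] at hd
    have hu : u = 1 := orderOf_eq_one_iff.mp (Nat.dvd_one.mp hd)
    rw [hu]; simp

theorem cube_of_three_pow (u : A4t) (k : ℕ) (h : u ^ (3 ^ k) = 1) : u ^ 3 = 1 := by
  rcases F0 u with h2 | h3
  · have h1 : orderOf u ∣ 3 ^ k := orderOf_dvd_of_pow_eq_one h
    have h2' : orderOf u ∣ 2 := orderOf_dvd_of_pow_eq_one h2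
    have hd : orderOf u ∣ Nat.gcd (3 ^ k) 2 := Nat.dvd_gcd h1 h2'
    have hc : Nat.gcd (3 ^ k) 2 = 1 := Nat.Coprime.pow_left k (by decide)
    rw [hc] at hd
    have hu : u = 1 := orderOf_eq_one_iff.mp (Nat.dvd_one.mp hd)
    rw [hu]; simp
  · exact h3

/-- The key computation: a diagonal element of order three normalizes a "graph" four-group. -/
theorem key (B : Subgroup (A4t × A4t))
    (hsq : ∀ x ∈ B, x.1 ^ 2 = 1 ∧ x.2 ^ 2 = 1)
    (hinj1 : ∀ x ∈ B, x.1 = 1 → x = 1)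
    (g h : A4t × A4t) (hg : g ∈ B) (hh : h ∈ B) (hg1 : g ≠ 1)
    (a b : A4t) (ha : a ≠ 1) (ha3 : a ^ 3 = 1) (hb : b ≠ 1) (hb3 : b ^ 3 = 1)
    (hh1 : h.1 = a * g.1 * a⁻¹) (hh2 : h.2 = b * g.2 * b⁻¹) :
    (a, b) ∈ Subgroup.normalizer (B : Set (A4t × A4t)) := by
  -- injectivity of the first projection on `B`
  have hinj : ∀ x ∈ B, ∀ y ∈ B, x.1 = y.1 → x = y := by
    intro x hx y hy hxy
    have h1 : x * y⁻¹ = 1 := by
      apply hinj1 _ (B.mul_mem hx (B.inv_mem hy))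
      simp [hxy]
    exact mul_inv_eq_one.mp h1
  have hu1 : g.1 ≠ 1 := fun h0 => hg1 (hinj1 g hg h0)
  have hu2 : g.1 ^ 2 = 1 := (hsq g hg).1
  have hv2 : g.2 ^ 2 = 1 := (hsq g hg).2
  have hu'1 : h.1 ≠ 1 := by
    rw [hh1]
    intro h0
    apply hu1
    have : a * g.1 = a := by
      have := mul_inv_eq_one.mp h0
      exact this
    exact mul_eq_left.mp this
  have hu'2 : h.1 ^ 2 = 1 := (hsq h hh).1
  have hu'u : h.1 ≠ g.1 := by
    rw [hh1]; exact F5 a g.1 ha ha3 hu1 hu2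
  have hconj : ∀ x ∈ B, (a, b) * x * (a, b)⁻¹ ∈ B := by
    intro x hx
    have hx2 : x.1 ^ 2 = 1 := (hsq x hx).1
    have e1 : (a, b) * g * (a, b)⁻¹ = h := by
      apply Prod.ext
      · simp [hh1]
      · simp [hh2]
    have e2 : (a, b) * h * (a, b)⁻¹ = g * h := by
      apply Prod.ext
      · simp only [Prod.fst_mul, Prod.fst_inv, hh1]
        exact F2 a g.1 ha ha3 hu2
      · simp only [Prod.snd_mul, Prod.snd_inv, hh2]
        exact F2 b g.2 hb hb3 hv2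
    rcases F3 g.1 h.1 x.1 hu1 hu2 hu'1 hu'2 hu'u hx2 with h0 | h0 | h0 | h0
    · have : x = 1 := hinj1 x hx h0
      rw [this, mul_one, mul_inv_cancel]; exact B.one_mem
    · have : x = g := hinj x hx g hg h0
      rw [this, e1]; exact hh
    · have : x = h := hinj x hx h hh h0
      rw [this, e2]; exact B.mul_mem hg hh
    · have : x = g * h := hinj x hx (g * h) (B.mul_mem hg hh) (by simp [h0])
      rw [this]
      have e3 : (a, b) * (g * h) * (a, b)⁻¹ = ((a, b) * g * (a, b)⁻¹) * ((a, b) * h * (a, b)⁻¹) := by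
        group
      rw [e3, e1, e2]
      exact B.mul_mem hh (B.mul_mem hg hh)
  have hr3 : (a, b) ^ 3 = (1 : A4t × A4t) := by
    apply Prod.ext
    · simp [ha3]
    · simp [hb3]
  rw [Subgroup.mem_set_normalizer_iff]
  intro x
  constructor
  · intro hx
    exact hconj x hx
  · intro hx
    have h1 := hconj _ (hconj _ hx)
    have e : (a, b) * ((a, b) * ((a, b) * x * (a, b)⁻¹) * (a, b)⁻¹) * (a, b)⁻¹
        = (a, b) ^ 3 * x * ((a, b) ^ 3)⁻¹ := by
      simp only [pow_succ, pow_zero, one_mul, mul_inv_rev, mul_assoc]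
    rw [e, hr3] at h1
    simpa using h1

/-- In the direct product P = A₄ × A₄, let X be the Sylow 2-subgroup, X₁ and X₂ its intersections with the two direct factors, Q a Sylow 3-subgroup and Q₁, Q₂ its intersections with the two factors. Then every subgroup B of X of order 4 either meets X₁ or X₂ nontrivially, or is normalized by one of the two subgroups of Q of order 3 other than Q₁ and Q₂. -/
theorem result
    (X : Sylow 2 (↥(alternatingGroup (Fin 4)) × ↥(alternatingGroup (Fin 4))))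
    (Q : Sylow 3 (↥(alternatingGroup (Fin 4)) × ↥(alternatingGroup (Fin 4))))
    (B : Subgroup (↥(alternatingGroup (Fin 4)) × ↥(alternatingGroup (Fin 4)))) (hBX : B ≤ (X : Subgroup _)) (hB4 : Nat.card ↥B = 4) :
    B ⊓ ((X : Subgroup _) ⊓ Subgroup.prod ⊤ ⊥) ≠ ⊥ ∨ B ⊓ ((X : Subgroup _) ⊓ Subgroup.prod ⊥ ⊤) ≠ ⊥ ∨
      ∃ R : Subgroup (↥(alternatingGroup (Fin 4)) × ↥(alternatingGroup (Fin 4))), R ≤ (Q : Subgroup _) ∧ Nat.card ↥R = 3 ∧
        R ≠ (Q : Subgroup _) ⊓ Subgroup.prod ⊤ ⊥ ∧ R ≠ (Q : Subgroup _) ⊓ Subgroup.prod ⊥ ⊤ ∧ R ≤ Subgroup.normalizer (B : Set _) := by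
  by_cases h1 : B ⊓ ((X : Subgroup _) ⊓ Subgroup.prod ⊤ ⊥) = ⊥
  swap
  · exact Or.inl h1
  by_cases h2 : B ⊓ ((X : Subgroup _) ⊓ Subgroup.prod ⊥ ⊤) = ⊥
  swap
  · exact Or.inr (Or.inl h2)
  right; right
  haveI : Fact (Nat.Prime 3) := ⟨Nat.prime_three⟩
  haveI : Fact (Nat.Prime 2) := ⟨Nat.prime_two⟩
  -- elements of `B` are involutions componentwise
  have hsq : ∀ x ∈ B, x.1 ^ 2 = 1 ∧ x.2 ^ 2 = 1 := by
    intro x hx
    obtain ⟨k, hk⟩ := X.isPGroup' ⟨x, hBX hx⟩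
    have hk' : x ^ (2 ^ k) = 1 := by
      have := congrArg Subtype.val hk
      simpa using this
    constructor
    · apply sq_of_two_pow _ k
      have := congrArg Prod.fst hk'
      simpa using this
    · apply sq_of_two_pow _ k
      have := congrArg Prod.snd hk'
      simpa using this
  have hinj2 : ∀ x ∈ B, x.2 = 1 → x = 1 := by
    intro x hx hx2
    have : x ∈ B ⊓ ((X : Subgroup _) ⊓ Subgroup.prod ⊤ ⊥) := by
      refine ⟨hx, hBX hx, ?_⟩
      show x ∈ Subgroup.prod ⊤ ⊥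
      rw [Subgroup.mem_prod]
      exact ⟨Subgroup.mem_top _, by rw [Subgroup.mem_bot]; exact hx2⟩
    rw [h1] at this
    exact Subgroup.mem_bot.mp this
  have hinj1 : ∀ x ∈ B, x.1 = 1 → x = 1 := by
    intro x hx hx2
    have : x ∈ B ⊓ ((X : Subgroup _) ⊓ Subgroup.prod ⊥ ⊤) := by
      refine ⟨hx, hBX hx, ?_⟩
      show x ∈ Subgroup.prod ⊥ ⊤
      rw [Subgroup.mem_prod]
      exact ⟨by rw [Subgroup.mem_bot]; exact hx2, Subgroup.mem_top _⟩
    rw [h2] at this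
    exact Subgroup.mem_bot.mp this
  -- two distinct nonidentity elements of `B`
  have hg : ∃ g ∈ B, g ≠ 1 := by
    by_contra hcon
    push Not at hcon
    have : B = ⊥ := by
      rw [Subgroup.eq_bot_iff_forall]; exact hcon
    rw [this, Subgroup.card_bot] at hB4
    omega
  obtain ⟨g, hgB, hg1⟩ := hg
  have hh : ∃ h ∈ B, h ≠ 1 ∧ h ≠ g := by
    by_contra hcon
    push Not at hcon
    have hle : B ≤ Subgroup.zpowers g := by
      intro x hx
      by_cases hx1 : x = 1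
      · rw [hx1]; exact Subgroup.one_mem _
      · rw [hcon x hx hx1]; exact Subgroup.mem_zpowers g
    have hc := Subgroup.card_le_of_le hle
    rw [hB4, Nat.card_zpowers] at hc
    have hg2 : g ^ 2 = 1 := by
      apply Prod.ext
      · simpa using (hsq g hgB).1
      · simpa using (hsq g hgB).2
    have := Nat.le_of_dvd (by norm_num) (orderOf_dvd_of_pow_eq_one hg2)
    omega
  obtain ⟨h, hhB, hh1, hhg⟩ := hh
  -- the Sylow 3-subgroup
  have hcardG : Nat.card (A4t × A4t) = 144 := by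
    rw [Nat.card_prod, F4]
  have h9 : 9 ∣ Nat.card (Q : Subgroup (A4t × A4t)) := by
    have := Q.pow_dvd_card_of_pow_dvd_card (n := 2) (by rw [hcardG]; norm_num)
    simpa using this
  have hQcube : ∀ x ∈ (Q : Subgroup (A4t × A4t)), x.1 ^ 3 = 1 ∧ x.2 ^ 3 = 1 := by
    intro x hx
    obtain ⟨k, hk⟩ := Q.isPGroup' ⟨x, hx⟩
    have hk' : x ^ (3 ^ k) = 1 := by
      have := congrArg Subtype.val hk
      simpa using this
    constructor
    · apply cube_of_three_pow _ k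
      have := congrArg Prod.fst hk'
      simpa using this
    · apply cube_of_three_pow _ k
      have := congrArg Prod.snd hk'
      simpa using this
  have hx : ∃ x ∈ (Q : Subgroup (A4t × A4t)), x.2 = 1 ∧ x ≠ 1 := by
    by_contra hcon
    push Not at hcon
    let f : ↥(Q : Subgroup (A4t × A4t)) →* A4t :=
      (MonoidHom.snd A4t A4t).comp (Q : Subgroup (A4t × A4t)).subtype
    have hf : Function.Injective f := by
      rw [injective_iff_map_eq_one]
      intro x hx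
      have := hcon x.1 x.2 hx
      exact Subtype.ext this
    have hd := Subgroup.card_dvd_of_injective f hf
    rw [F4] at hd
    have := Nat.dvd_trans h9 hd
    omega
  have hy : ∃ y ∈ (Q : Subgroup (A4t × A4t)), y.1 = 1 ∧ y ≠ 1 := by
    by_contra hcon
    push Not at hcon
    let f : ↥(Q : Subgroup (A4t × A4t)) →* A4t :=
      (MonoidHom.fst A4t A4t).comp (Q : Subgroup (A4t × A4t)).subtype
    have hf : Function.Injective f := by
      rw [injective_iff_map_eq_one]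
      intro x hx
      have := hcon x.1 x.2 hx
      exact Subtype.ext this
    have hd := Subgroup.card_dvd_of_injective f hf
    rw [F4] at hd
    have := Nat.dvd_trans h9 hd
    omega
  obtain ⟨x, hxQ, hx2, hx1⟩ := hx
  obtain ⟨y, hyQ, hy1, hyne⟩ := hy
  have ha : x.1 ≠ 1 := fun h0 => hx1 (Prod.ext h0 hx2)
  have hb : y.2 ≠ 1 := fun h0 => hyne (Prod.ext hy1 h0)
  have ha3 : x.1 ^ 3 = 1 := (hQcube x hxQ).1
  have hb3 : y.2 ^ 3 = 1 := (hQcube y hyQ).2
  have hxe : x = (x.1, 1) := Prod.ext rfl hx2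
  have hye : y = (1, y.2) := Prod.ext hy1 rfl
  -- facts on `g`, `h`
  have hinj : ∀ x ∈ B, ∀ y ∈ B, x.1 = y.1 → x = y := by
    intro x hx y hy hxy
    have h1 : x * y⁻¹ = 1 := by
      apply hinj1 _ (B.mul_mem hx (B.inv_mem hy))
      simp [hxy]
    exact mul_inv_eq_one.mp h1
  have hinj' : ∀ x ∈ B, ∀ y ∈ B, x.2 = y.2 → x = y := by
    intro x hx y hy hxy
    have h1 : x * y⁻¹ = 1 := by
      apply hinj2 _ (B.mul_mem hx (B.inv_mem hy))
      simp [hxy]
    exact mul_inv_eq_one.mp h1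
  have hu1 : g.1 ≠ 1 := fun h0 => hg1 (hinj1 g hgB h0)
  have hv1 : g.2 ≠ 1 := fun h0 => hg1 (hinj2 g hgB h0)
  have hu'1 : h.1 ≠ 1 := fun h0 => hh1 (hinj1 h hhB h0)
  have hv'1 : h.2 ≠ 1 := fun h0 => hh1 (hinj2 h hhB h0)
  have hu'u : h.1 ≠ g.1 := fun h0 => hhg (hinj h hhB g hgB h0)
  have hv'v : h.2 ≠ g.2 := fun h0 => hhg (hinj' h hhB g hgB h0)
  -- choose the right diagonal element
  have hchoice : ∃ a b : A4t, a ≠ 1 ∧ a ^ 3 = 1 ∧ b ≠ 1 ∧ b ^ 3 = 1 ∧
      (a, b) ∈ (Q : Subgroup (A4t × A4t)) ∧ h.1 = a * g.1 * a⁻¹ ∧ h.2 = b * g.2 * b⁻¹ := by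
    have hainv : (x.1)⁻¹ ≠ 1 := fun h0 => ha (inv_eq_one.mp h0)
    have hbinv : (y.2)⁻¹ ≠ 1 := fun h0 => hb (inv_eq_one.mp h0)
    have hainv3 : (x.1)⁻¹ ^ 3 = 1 := by rw [inv_pow, ha3, inv_one]
    have hbinv3 : (y.2)⁻¹ ^ 3 = 1 := by rw [inv_pow, hb3, inv_one]
    have m1 : (x.1, y.2) ∈ (Q : Subgroup (A4t × A4t)) := by
      have := (Q : Subgroup (A4t × A4t)).mul_mem hxQ hyQ
      rw [hxe, hye] at this
      simpa using this
    have m2 : (x.1, (y.2)⁻¹) ∈ (Q : Subgroup (A4t × A4t)) := by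
      have := (Q : Subgroup (A4t × A4t)).mul_mem hxQ ((Q : Subgroup (A4t × A4t)).inv_mem hyQ)
      rw [hxe, hye] at this
      simpa using this
    have m3 : ((x.1)⁻¹, y.2) ∈ (Q : Subgroup (A4t × A4t)) := by
      have := (Q : Subgroup (A4t × A4t)).mul_mem ((Q : Subgroup (A4t × A4t)).inv_mem hxQ) hyQ
      rw [hxe, hye] at this
      simpa using this
    have m4 : ((x.1)⁻¹, (y.2)⁻¹) ∈ (Q : Subgroup (A4t × A4t)) := by
      have := (Q : Subgroup (A4t × A4t)).inv_mem ((Q : Subgroup (A4t × A4t)).mul_mem hxQ hyQ)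
      rw [hxe, hye] at this
      simpa using this
    rcases F1 x.1 g.1 h.1 ha ha3 hu1 (hsq g hgB).1 hu'1 (hsq h hhB).1 hu'u with e1 | e1 <;>
    rcases F1 y.2 g.2 h.2 hb hb3 hv1 (hsq g hgB).2 hv'1 (hsq h hhB).2 hv'v with e2 | e2
    · exact ⟨x.1, y.2, ha, ha3, hb, hb3, m1, e1, e2⟩
    · exact ⟨x.1, (y.2)⁻¹, ha, ha3, hbinv, hbinv3, m2, e1, by rw [inv_inv]; exact e2⟩
    · exact ⟨(x.1)⁻¹, y.2, hainv, hainv3, hb, hb3, m3, by rw [inv_inv]; exact e1, e2⟩
    · exact ⟨(x.1)⁻¹, (y.2)⁻¹, hainv, hainv3, hbinv, hbinv3, m4, by rw [inv_inv]; exact e1,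
        by rw [inv_inv]; exact e2⟩
  obtain ⟨a, b, ha1, ha3', hb1, hb3', hrQ, e1, e2⟩ := hchoice
  have hnorm := key B hsq hinj1 g h hgB hhB hg1 a b ha1 ha3' hb1 hb3' e1 e2
  refine ⟨Subgroup.zpowers (a, b), ?_, ?_, ?_, ?_, ?_⟩
  · exact Subgroup.zpowers_le.mpr hrQ
  · rw [Nat.card_zpowers]
    apply orderOf_eq_prime
    · apply Prod.ext
      · simp [ha3']
      · simp [hb3']
    · intro h0
      exact ha1 (congrArg Prod.fst h0)
  · intro heq
    have : (a, b) ∈ (Q : Subgroup (A4t × A4t)) ⊓ Subgroup.prod ⊤ ⊥ := by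
      rw [← heq]; exact Subgroup.mem_zpowers _
    have h3 : (a, b) ∈ Subgroup.prod (⊤ : Subgroup A4t) (⊥ : Subgroup A4t) := this.2
    rw [Subgroup.mem_prod] at h3
    exact hb1 (Subgroup.mem_bot.mp h3.2)
  · intro heq
    have : (a, b) ∈ (Q : Subgroup (A4t × A4t)) ⊓ Subgroup.prod ⊥ ⊤ := by
      rw [← heq]; exact Subgroup.mem_zpowers _
    have h3 : (a, b) ∈ Subgroup.prod (⊥ : Subgroup A4t) (⊤ : Subgroup A4t) := this.2
    rw [Subgroup.mem_prod] at h3
    exact ha1 (Subgroup.mem_bot.mp h3.1)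
  · exact Subgroup.zpowers_le.mpr hnorm

end Cfsg.Agent.S4406
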