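import Mathlib
import Cfsg.Statements.S4409
import Cfsg.Agent.Lib.Helper73.QSMain
import Cfsg.Agent.Lib.Helper73.QSP1S
import Cfsg.Agent.Lib.Helper73.QSHall
import Cfsg.Agent.Lib.Helper73.QSMin
import Cfsg.Agent.Lib.Helper73.QSQ8Rec
import Cfsg.Agent.Lib.Helper73.QSSpec

set_option autoImplicit false
open Cfsg

namespace Cfsg.Agent.S4409

/-- Let S be a finite solvable group with O_{2'}(S) = 1 that contains a non-cyclic abelian subgroup of order 8, while no proper subgroup of S of 2-power index contains one. Then a Sylow 2-subgroup X of S is normal in S, and one of the following holds: X is abelian; X is extraspecial of order at least 32; X has a generalized quaternion subgroup X₀ of index 2 with X = X₀·C_X(X₀); or X is special with centre of order 4. -/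
theorem result {S : Type*} [Group S] [Finite S]
    [Group.IsSolvable S] (hO : Cfsg.pPrimeCore 2 S = ⊥)
    (h8 : ∃ A : Subgroup S, IsMulCommutative ↥A ∧ ¬ IsCyclic ↥A ∧ Nat.card ↥A = 8)
    (hmin : ∀ R : Subgroup S, R ≠ ⊤ → (∃ k : ℕ, R.index = 2 ^ k) →
      ¬ ∃ A : Subgroup S, A ≤ R ∧ IsMulCommutative ↥A ∧ ¬ IsCyclic ↥A ∧ Nat.card ↥A = 8)
    (X : Sylow 2 S) :
    (X : Subgroup S).Normal ∧
      (IsMulCommutative ↥X ∨
        (Cfsg.IsExtraspecial 2 ↥X ∧ 32 ≤ Nat.card ↥X) ∨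
        (∃ (X₀ : Subgroup S) (k : ℕ), X₀ ≤ (X : Subgroup S) ∧ X₀.relIndex (X : Subgroup S) = 2 ∧
          Nonempty (↥X₀ ≃* QuaternionGroup (2 ^ (k + 1))) ∧ X₀ ⊔ ((X : Subgroup S) ⊓ Subgroup.centralizer (X₀ : Set S)) = (X : Subgroup S)) ∨
        (Cfsg.IsSpecial 2 ↥X ∧ Nat.card ↥(Subgroup.center ↥X) = 4)) := by
  classical
  haveI : Fact (Nat.Prime 2) := ⟨Nat.prime_two⟩
  have hns := Cfsg.Agent.Lib.Helper73.QS.pcore_not_small hO h8
  have hXQ := Cfsg.Agent.Lib.Helper73.QS.sylow_eq_pcore hns hmin X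
  have hnorm : (X : Subgroup S).Normal := by
    rw [hXQ]; exact Subgroup.sSup_normal _ (fun _ hK => hK.1)
  refine ⟨hnorm, ?_⟩
  haveI := hnorm
  have hcop : (Nat.card (X : Subgroup S)).Coprime (X : Subgroup S).index :=
    X.card_coprime_index
  obtain ⟨H, hH⟩ := Subgroup.exists_right_complement'_of_coprime hcop
  have hHcard : (X : Subgroup S).index = Nat.card H := hH.symm.index_eq_card
  have hHodd : Odd (Nat.card H) := by
    rw [← hHcard, ← Nat.not_even_iff_odd, even_iff_two_dvd]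
    exact X.not_dvd_index
  have hXH : (X : Subgroup S) ⊔ H = ⊤ := hH.sup_eq_top
  have hXp : IsPGroup 2 (X : Subgroup S) := X.isPGroup'
  have hminR := Cfsg.Agent.Lib.Helper73.QS.small_of_min (X : Subgroup S) H hXp hHodd hXH hmin
  have hbig : ¬ Cfsg.Agent.Lib.Helper73.QS.Small (X : Subgroup S) := by rw [hXQ]; exact hns
  have hNH : H ≤ Subgroup.normalizer ((X : Subgroup S) : Set S) := by
    rw [Subgroup.normalizer_eq_top]; exact le_top
  rcases Cfsg.Agent.Lib.Helper73.QS.structure_main hXp hHodd hNH hbig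
      (fun R hR hRH => hminR R hR hRH) with
    hab | ⟨X₀, hX₀, hidx, hQ8, hsup⟩ | ⟨h1, h2, h3⟩
  · left
    exact ⟨⟨fun a b => Subtype.ext (hab a a.2 b b.2)⟩⟩
  · right; right; left
    exact ⟨X₀, 0, hX₀, hidx, Cfsg.Agent.Lib.Helper73.QS.q8_iso hQ8, hsup⟩
  · obtain ⟨hsp, hcard⟩ := Cfsg.Agent.Lib.Helper73.QS.to_special (X : Subgroup S) hXp h1 h2
    rcases h3 with ⟨hc2, h32⟩ | hc4
    · right; left
      exact ⟨⟨hsp, hcard.trans hc2⟩, h32⟩
    · right; right; right
      exact ⟨hsp, hcard.trans hc4⟩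

end Cfsg.Agent.S4409
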