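import Cfsg.Statements.S4414
import Cfsg.Agent.Lib.Helper73.GMDefs
import Cfsg.Agent.Lib.Helper73.GMFld
import Cfsg.Agent.Lib.Helper73.GMBC
import Cfsg.Agent.Lib.Helper73.GMOrth
import Cfsg.Agent.Lib.Helper73.GMProj
import Cfsg.Agent.Lib.Helper73.GMTriv
import Cfsg.Agent.Lib.Helper73.GMFree
import Cfsg.Agent.Lib.Helper73.GMCore

set_option autoImplicit false
open Cfsg

namespace Cfsg.Agent.S4414

open Cfsg.Agent.Lib.Helper73.GM

/-- Let S be a finite solvable group whose order is divisible only by the primes 2, p, q (p, q distinct odd primes), with a Sylow system S₂, S_p, S_q (pairwise permutable Sylow subgroups) such that: S_p is a minimal normal subgroup of S of order p or p²; S_q has order q and [S_p, S_q] = S_p; and O₂(S) = 1. Let E be an irreducible module for S over the field with two elements on which S_p acts faithfully, and E₀ the subspace of fixed points of S₂. Then either E₀ has at least 8 elements, or E₀ has exactly 4 elements and S_q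 does not leave E₀ invariant. -/
theorem result {S : Type*} [Group S] [Finite S]
    [Group.IsSolvable S] (p q : ℕ) (hp : p.Prime) (hq : q.Prime) (hp2 : p ≠ 2) (hq2 : q ≠ 2) (hpq : p ≠ q)
    (hπ : ∀ r : ℕ, r.Prime → r ∣ Nat.card S → r = 2 ∨ r = p ∨ r = q)
    (S₂ : Sylow 2 S) (Sp : Sylow p S) (Sq : Sylow q S)
    (h2q : Nat.card ↥((S₂ : Subgroup S) ⊔ (Sq : Subgroup S)) = Nat.card ↥S₂ * Nat.card ↥Sq)
    (h2p : Nat.card ↥((S₂ : Subgroup S) ⊔ (Sp : Subgroup S)) = Nat.card ↥S₂ * Nat.card ↥Sp)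
    (hpq' : Nat.card ↥((Sp : Subgroup S) ⊔ (Sq : Subgroup S)) = Nat.card ↥Sp * Nat.card ↥Sq)
    (hSpN : (Sp : Subgroup S).Normal) (hSpmin : ∀ N : Subgroup S, N.Normal → N ≤ (Sp : Subgroup S) → N = ⊥ ∨ N = (Sp : Subgroup S))
    (hSpcard : Nat.card ↥Sp = p ∨ Nat.card ↥Sp = p ^ 2)
    (hSq : Nat.card ↥Sq = q) (hcomm : ⁅(Sp : Subgroup S), (Sq : Subgroup S)⁆ = (Sp : Subgroup S))
    (hO2 : Cfsg.pCore 2 S = ⊥)
    {E : Type*} [AddCommGroup E] [Module (ZMod 2) E] [Finite E] (ρ : Representation (ZMod 2) S E) (hE : Nontrivial E)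
    (hirr : ∀ N : Submodule (ZMod 2) E, (∀ s : S, ∀ m ∈ N, ρ s m ∈ N) → N = ⊥ ∨ N = ⊤)
    (hfaith : ∀ x ∈ (Sp : Subgroup S), ρ x = 1 → x = 1) :
    8 ≤ Nat.card {v : E // ∀ s ∈ (S₂ : Subgroup S), ρ s v = v} ∨
      (Nat.card {v : E // ∀ s ∈ (S₂ : Subgroup S), ρ s v = v} = 4 ∧
        ∃ x ∈ (Sq : Subgroup S), ∃ v : E, (∀ s ∈ (S₂ : Subgroup S), ρ s v = v) ∧ ¬ ∀ s ∈ (S₂ : Subgroup S), ρ s (ρ x v) = ρ x v) := by
  classical
  have hSpcard' : Nat.card ↥(Sp : Subgroup S) = p ∨ Nat.card ↥(Sp : Subgroup S) = p ^ 2 :=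
    hSpcard
  have hSq' : Nat.card ↥(Sq : Subgroup S) = q := hSq
  clear hSpcard hSq
  have hSp_ne : (Sp : Subgroup S) ≠ ⊥ := by
    intro h
    have h1 : Nat.card ↥(Sp : Subgroup S) = 1 := by rw [h]; exact Subgroup.card_bot
    have hp1 := hp.one_lt
    rcases hSpcard' with h' | h'
    · rw [h'] at h1; omega
    · rw [h'] at h1
      have : 1 < p ^ 2 := Nat.one_lt_pow (by norm_num) hp1
      omega
  have hpodd : Odd p := hp.odd_of_ne_two hp2
  have hodd : Odd (Nat.card ↥(Sp : Subgroup S)) := by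
    rcases hSpcard' with h' | h'
    · rw [h']; exact hpodd
    · rw [h']; exact hpodd.pow
  have hNc : ∀ a b : ↥(Sp : Subgroup S), a * b = b * a := by
    haveI : Fact p.Prime := ⟨hp⟩
    rcases hSpcard' with h' | h'
    · haveI := isCyclic_of_prime_card h'
      intro a b
      exact (IsCyclic.commGroup (α := ↥(Sp : Subgroup S))).mul_comm a b
    · intro a b
      exact (IsPGroup.isMulCommutative_of_card_eq_prime_sq h').is_comm.comm a b
  obtain ⟨F, instF, instFin, instChar, hF⟩ := exists_field (Nat.card ↥(Sp : Subgroup S)) hodd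
  letI : Algebra (ZMod 2) F := ZMod.algebra F 2
  haveI : Finite (Ext F E) := ext_finite F E
  haveI : Nontrivial (Ext F E) := ext_nontrivial F E
  haveI : (Sp : Subgroup S).Normal := hSpN
  obtain ⟨π, hπmem, hπsum, hπsame, hπne, hπeq⟩ :=
    exists_proj (F := F) (Sp : Subgroup S) hNc hF (extRep F ρ)
  letI : MulAction S (↥(Sp : Subgroup S) →* Fˣ) := charAction F (Sp : Subgroup S)
  haveI : Finite (↥(Sp : Subgroup S) →* Fˣ) := finite_char
  let D : WData F S (Ext F E) (↥(Sp : Subgroup S) →* Fˣ) :=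
    { ρ := extRep F ρ
      π := π
      sum := hπsum
      idem := fun χ z => hπsame χ _ (hπmem χ z)
      orth := fun χ ψ z h => hπne χ ψ _ h (hπmem ψ z)
      equiv := hπeq }
  have hfixE := fixed_eq_zero ρ (Sp : Subgroup S) hSp_ne hirr hfaith
  have hfixW : ∀ z : Ext F E, (∀ n ∈ (Sp : Subgroup S), extRep F ρ n z = z) → z = 0 := by
    intro z hz
    apply Ext.ext; intro t
    rw [Ext.zero_apply]
    exact hfixE (z t) (fun n hn => (ext_fixed_iff ρ (Sp : Subgroup S) z).1 hz t n hn)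
  obtain ⟨x, hxQ, hx1⟩ : ∃ x ∈ (Sq : Subgroup S), x ≠ 1 := by
    by_contra hcon
    push Not at hcon
    have hbot : (Sq : Subgroup S) = ⊥ := (Subgroup.eq_bot_iff_forall _).2 hcon
    have h1 : Nat.card ↥(Sq : Subgroup S) = 1 := by rw [hbot]; exact Subgroup.card_bot
    rw [hSq'] at h1
    exact hq.one_lt.ne' h1
  have hxord : orderOf x = q := by
    have hdvd : orderOf x ∣ q := by
      have := orderOf_dvd_natCard (⟨x, hxQ⟩ : ↥(Sq : Subgroup S))
      rw [hSq'] at this
      rwa [Subgroup.orderOf_mk] at this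
    rcases (Nat.dvd_prime hq).1 hdvd with h | h
    · exact absurd (orderOf_eq_one_iff.1 h) hx1
    · exact h
  have hfree : ∀ χ : ↥(Sp : Subgroup S) →* Fˣ, D.π χ ≠ 0 →
      ∀ k : ℕ, x ^ k • χ = χ → x ^ k = 1 := by
    intro χ hχ k hk
    have hwt : wt (extRep F ρ) (Sp : Subgroup S) χ ≠ ⊥ := by
      intro hbot
      apply hχ
      apply LinearMap.ext; intro z
      have := hπmem χ z
      rw [hbot, Submodule.mem_bot] at this
      simpa using this
    exact free_of_comm (extRep F ρ) (Sp : Subgroup S) (Sq : Subgroup S) q hq hSq' hcomm hfixW χ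
      hwt (x ^ k) (pow_mem hxQ k) hk
  have h2 : ∀ z : Ext F E, z + z = 0 := by
    intro z
    apply Ext.ext; intro t
    rw [Ext.add_apply, Ext.zero_apply]
    have h0 : (2 : ZMod 2) • (z t) = 0 := by
      rw [show (2 : ZMod 2) = 0 from rfl, zero_smul]
    rwa [two_smul] at h0
  have key := core D h2 (S₂ : Subgroup S) S₂.isPGroup' x q hq hq2 hxord hfree
  have hcardW := card_ext_fixed F ρ (S₂ : Subgroup S)
  have hcardF := card_field F
  have hm := finrank_pos F
  obtain ⟨k, hk⟩ := card_fixed_pow ρ (S₂ : Subgroup S)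
  rcases key with h3 | ⟨h2', himp⟩
  · left
    change (Nat.card F) ^ 3 ≤
      Nat.card {φ : Ext F E // ∀ s ∈ (S₂ : Subgroup S), extRep F ρ s φ = φ} at h3
    rw [hcardW, hcardF] at h3
    have h8 : 8 ^ Module.finrank (ZMod 2) F ≤
        Nat.card {v : E // ∀ s ∈ (S₂ : Subgroup S), ρ s v = v} ^ Module.finrank (ZMod 2) F := by
      calc 8 ^ Module.finrank (ZMod 2) F = (2 ^ Module.finrank (ZMod 2) F) ^ 3 := by
            rw [← pow_mul, mul_comm, pow_mul]; norm_num
        _ ≤ _ := h3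
    exact (Nat.pow_le_pow_iff_left hm.ne').1 h8
  · by_cases h8 : 8 ≤ Nat.card {v : E // ∀ s ∈ (S₂ : Subgroup S), ρ s v = v}
    · left; exact h8
    right
    change (Nat.card F) ^ 2 ≤
      Nat.card {φ : Ext F E // ∀ s ∈ (S₂ : Subgroup S), extRep F ρ s φ = φ} at h2'
    rw [hcardW, hcardF] at h2'
    have h4 : 4 ≤ Nat.card {v : E // ∀ s ∈ (S₂ : Subgroup S), ρ s v = v} := by
      have h4' : 4 ^ Module.finrank (ZMod 2) F ≤
          Nat.card {v : E // ∀ s ∈ (S₂ : Subgroup S), ρ s v = v} ^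
            Module.finrank (ZMod 2) F := by
        calc 4 ^ Module.finrank (ZMod 2) F = (2 ^ Module.finrank (ZMod 2) F) ^ 2 := by
              rw [← pow_mul, mul_comm, pow_mul]; norm_num
          _ ≤ _ := h2'
      exact (Nat.pow_le_pow_iff_left hm.ne').1 h4'
    have hc4 : Nat.card {v : E // ∀ s ∈ (S₂ : Subgroup S), ρ s v = v} = 4 := by
      rw [hk] at h4 h8 ⊢
      have hk2 : 2 ≤ k := by
        by_contra hlt
        push Not at hlt
        have : 2 ^ k ≤ 2 ^ 1 := Nat.pow_le_pow_right (by norm_num) (by omega)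
        omega
      have hk3 : k < 3 := by
        by_contra hge
        push Not at hge
        have : 2 ^ 3 ≤ 2 ^ k := Nat.pow_le_pow_right (by norm_num) hge
        omega
      have hk' : k = 2 := by omega
      rw [hk']
      norm_num
    refine ⟨hc4, ?_⟩
    have heq : Nat.card {φ : Ext F E // ∀ s ∈ (S₂ : Subgroup S), extRep F ρ s φ = φ} =
        Nat.card F ^ 2 := by
      rw [hcardW, hcardF, hc4, ← pow_mul, mul_comm, pow_mul]; norm_num
    obtain ⟨z, hz, hnz⟩ := himp heq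
    have hz' := (ext_fixed_iff ρ (S₂ : Subgroup S) z).1 hz
    have hnz' : ¬ ∀ t : F, ∀ s ∈ (S₂ : Subgroup S),
        ρ s ((extRep F ρ x z) t) = (extRep F ρ x z) t := by
      intro h
      exact hnz ((ext_fixed_iff ρ (S₂ : Subgroup S) (extRep F ρ x z)).2 h)
    push Not at hnz'
    obtain ⟨t, s, hs, hne⟩ := hnz'
    refine ⟨x, hxQ, z t, hz' t, ?_⟩
    intro hall
    exact hne (hall s hs)

end Cfsg.Agent.S4414
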