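import Cfsg.Statements.S4415
import Cfsg.Agent.Lib.Helper73.HJDefs
import Cfsg.Agent.Lib.Helper73.HJDecomp
import Cfsg.Agent.Lib.Helper73.HJF0F1
import Cfsg.Agent.Lib.Helper73.HJFrame
import Cfsg.Agent.Lib.Helper73.HJStruct
import Cfsg.Agent.Lib.Helper73.HJEnd3
import Cfsg.Agent.Lib.Helper73.HJMon4
import Cfsg.Agent.Lib.Helper73.HJCard4A
import Cfsg.Agent.Lib.Helper73.HJCard4
import Cfsg.Agent.Lib.Helper73.HJExtra4
import Cfsg.Agent.Lib.Helper73.HJIrred4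
import Cfsg.Agent.Lib.Helper73.HJL1
import Cfsg.Agent.Lib.Helper73.HJL2
import Cfsg.Agent.Lib.Helper73.HJDim4
import Cfsg.Agent.Lib.Helper73.HJTwoGrp
import Cfsg.Agent.Lib.Helper73.HJExt
import Cfsg.Agent.Lib.Helper73.HJDataA
import Cfsg.Agent.Lib.Helper73.HJDataB
import Cfsg.Agent.Lib.Helper73.HJDataC1
import Cfsg.Agent.Lib.Helper73.HJDataC2
import Cfsg.Agent.Lib.Helper73.HJDataQ

set_option autoImplicit false
open Cfsg

namespace Cfsg.Agent.S4415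

open Cfsg.Agent.Lib.Helper73.HJ in
/-- Let S be a finite solvable group acting faithfully on a finite-dimensional space E over the field with three elements, with O₃(S) = 1. Let B ≤ S have order 3 and suppose: E = E₀ ⊕ E₁ with B fixing E₁ pointwise, E₀ B-invariant of order 27 and indecomposable under B (a generator of B has a single Jordan block on E₀); B normalizes but does not centralize some subgroup Q of S that is elementary abelian of order 4; and B is the centre of a Sylow 3-subgroup of S. Put R = [O_{3'}(S), B]. Then R is elementary abelian of order 4 or extraspecial of order 32 containing an elementary abelian subgroup of order 8 (a central product of two quaternion groups), and E is the direct sum of a subspace fixed pointwise by R and an RB-invariant subspace on which the subgroup RB acts faithfully and irreducibly. -/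
theorem result {S : Type*} [Group S] [Finite S]
    [Group.IsSolvable S] {E : Type*} [AddCommGroup E] [Module (ZMod 3) E] [Finite E] (ρ : Representation (ZMod 3) S E)
    (hfaith : Function.Injective ρ) (hO3 : Cfsg.pCore 3 S = ⊥)
    (B : Subgroup S) (hB : Nat.card ↥B = 3) (b : S) (hb : Subgroup.zpowers b = B)
    (E₀ E₁ : Submodule (ZMod 3) E) (hE01 : E₀ ⊓ E₁ = ⊥) (hE01' : E₀ ⊔ E₁ = ⊤)
    (hE1 : ∀ v ∈ E₁, ρ b v = v) (hE0inv : ∀ v ∈ E₀, ρ b v ∈ E₀) (hE0 : Nat.card ↥E₀ = 27)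
    (hind : ∃ v ∈ E₀, ρ b (ρ b v - v) - (ρ b v - v) ≠ 0)
    (Q : Subgroup S) (hQ : Cfsg.IsElementaryAbelian 2 Q) (hQ4 : Nat.card ↥Q = 4)
    (hBQ : B ≤ Subgroup.normalizer (Q : Set S)) (hBQ' : ¬ B ≤ Subgroup.centralizer (Q : Set S))
    (P : Sylow 3 S) (hBZ : (Subgroup.center ↥(P : Subgroup S)).map (P : Subgroup S).subtype = B) :
    ((Cfsg.IsElementaryAbelian 2 ⁅Cfsg.pPrimeCore 3 S, B⁆ ∧ Nat.card ↥⁅Cfsg.pPrimeCore 3 S, B⁆ = 4) ∨
      (Cfsg.IsExtraspecial 2 ↥⁅Cfsg.pPrimeCore 3 S, B⁆ ∧ Nat.card ↥⁅Cfsg.pPrimeCore 3 S, B⁆ = 32 ∧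
        ∃ A : Subgroup S, A ≤ ⁅Cfsg.pPrimeCore 3 S, B⁆ ∧ Cfsg.IsElementaryAbelian 2 A ∧ Nat.card ↥A = 8)) ∧
    ∃ F₀ F₁ : Submodule (ZMod 3) E, F₀ ⊓ F₁ = ⊥ ∧ F₀ ⊔ F₁ = ⊤ ∧
      (∀ r ∈ ⁅Cfsg.pPrimeCore 3 S, B⁆, ∀ v ∈ F₁, ρ r v = v) ∧ (∀ r ∈ ⁅Cfsg.pPrimeCore 3 S, B⁆ ⊔ B, ∀ v ∈ F₀, ρ r v ∈ F₀) ∧
      (∀ r ∈ ⁅Cfsg.pPrimeCore 3 S, B⁆ ⊔ B, (∀ v ∈ F₀, ρ r v = v) → r = 1) ∧
      (∀ N : Submodule (ZMod 3) E, N ≤ F₀ → (∀ r ∈ ⁅Cfsg.pPrimeCore 3 S, B⁆ ⊔ B, ∀ v ∈ N, ρ r v ∈ N) → N = ⊥ ∨ N = F₀) := by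
  classical
  obtain ⟨hb3, hcop, hnR, hRK⟩ := hj_data_c1 B hB b hb
  have hgen := hj_data_c2 B hB b hb
  obtain ⟨hrank, hsq⟩ := hj_data_b ρ b hb3 E₀ E₁ hE01 hE01' hE1 hE0inv hE0 hind
  obtain ⟨hQT, hQB⟩ := hj_data_q B hB b hb Q hQ hQ4 hBQ hBQ'
  have hQK : Q ≤ Cfsg.pPrimeCore 3 S := hj_data_a B hB b hb Q hQ hQ4 hBQ hBQ' P hBZ
  have hQR : Q ≤ ⁅Cfsg.pPrimeCore 3 S, B⁆ := hQB.trans (Subgroup.commutator_mono hQK le_rfl)
  have hsolR : Group.IsSolvable ↥⁅Cfsg.pPrimeCore 3 S, B⁆ := inferInstance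
  have hbB : b ∈ B := hb ▸ Subgroup.mem_zpowers b
  clear hRK hQK hQB hBZ hO3
  generalize ⁅Cfsg.pPrimeCore 3 S, B⁆ = R at *
  have hBase : Base ρ R b := ⟨hfaith, hb3, hrank, hsq, hcop, hsolR, hnR, hgen⟩
  have hQc : ∀ q ∈ Q, ∀ q' ∈ Q, q * q' = q' * q := by
    intro q hq q' hq'
    have e1 : q⁻¹ = q := inv_eq_of_mul_eq_one_left (hQT.exp q hq)
    have e2 : q'⁻¹ = q' := inv_eq_of_mul_eq_one_left (hQT.exp q' hq')
    have e3 : (q * q')⁻¹ = q * q' := inv_eq_of_mul_eq_one_left (hQT.exp _ (Q.mul_mem hq hq'))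
    rw [mul_inv_rev, e1, e2] at e3
    exact e3.symm
  have hConcl : Concl ρ R b := by
    by_cases hcase : ∃ Q' : Subgroup S, Q' ≤ R ∧ QType Q' b ∧ Comm R Q'
    · obtain ⟨Q', hQ'R, hQ'T, hC⟩ := hcase
      obtain ⟨q₁, q₂, q₃, e₁, e₂, e₃, hF⟩ := hj_frame ρ Q' b hfaith hb3 hrank hQ'T
      rcases hj_struct ρ R Q' b hBase hQ'R hQ'T hC q₁ q₂ q₃ e₁ e₂ e₃ hF with
        h3 | ⟨e₄, he4, he4f, hsh, hr4⟩
      · exact hj_end3 ρ R Q' b hBase hQ'R hQ'T q₁ q₂ q₃ e₁ e₂ e₃ hF h3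
      · have hM := hj_mon4 ρ R Q' b hBase hQ'R hQ'T q₁ q₂ q₃ e₁ e₂ e₃ hF e₄ he4 he4f hsh hr4
        have h32 := hj_card4 ρ R e₁ e₂ e₃ e₄ hM
        obtain ⟨A, hAR, hAel, hA8, -⟩ := hj_card4a ρ R e₁ e₂ e₃ e₄ hM
        refine ⟨Or.inr ⟨hj_extra4 ρ R e₁ e₂ e₃ e₄ hM h32, h32, A, hAR, hAel, hA8⟩, ?_⟩
        intro N hN hNR _
        exact hj_irred4 ρ R e₁ e₂ e₃ e₄ hM N hN hNR
    · exfalso
      obtain ⟨z, hz⟩ := hj_l1 ρ R Q b hBase hQR hQT hcase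
      have hRne : R ≠ Subgroup.zpowers z := by
        intro h
        have h1 : Nat.card Q ≤ Nat.card (Subgroup.zpowers z) :=
          Subgroup.card_le_of_le (h ▸ hQR)
        rw [Nat.card_zpowers, hQT.card] at h1
        have h2 : orderOf z ∣ 2 := orderOf_dvd_of_pow_eq_one (by rw [pow_two]; exact hz.sq)
        have h3 := Nat.le_of_dvd (by norm_num) h2
        omega
      obtain ⟨A, -, hA, hnab, -⟩ := hj_l2 ρ R Q b hBase hQR hQT hcase z hz R le_rfl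
        (fun r hr c hc => R.mul_mem (R.mul_mem hr hc) (R.inv_mem hr)) hBase.nR hz.mem hRne
      have h81 := hj_dim4 ρ R Q b hBase hQR hQT z hz A hA hnab
      have h2 := hj_twogrp ρ R Q b hBase hQR hQT z hz A hA hnab h81
      have hext := hj_ext ρ R Q b hBase hQR hQT hcase z hz h2
      apply hcase
      refine ⟨Q, hQR, hQT, ?_⟩
      intro r hr q hq q' hq'
      rcases hext r hr q (hQR hq) with h | h
      · have e : r * q * r⁻¹ = q := by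
          have := congrArg (· * q) h
          simpa using this
        rw [e]
        exact hQc q hq q' hq'
      · have e : r * q * r⁻¹ = z * q := by
          have := congrArg (· * q) h
          simpa using this
        rw [e, mul_assoc, hQc q hq q' hq', ← mul_assoc, ← mul_assoc, hz.cen q' (hQR hq')]
  obtain ⟨hf1, hf2, hf3⟩ := hj_f0f1 ρ R Q b hBase hQR hQT
  obtain ⟨hdec1, hdec2⟩ := hj_decomp ρ R hcop
  refine ⟨hConcl.1, hjComm ρ R, hjFix ρ R, ?_, ?_, ?_, ?_, ?_, ?_⟩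
  · rw [inf_comm]; exact hdec1
  · rw [sup_comm]; exact hdec2
  · intro r hr v hv
    exact hv r hr
  · intro r hr v hv
    exact hf2 r (hb ▸ hr) v hv
  · intro r hr h
    exact hf3 r (hb ▸ hr) h
  · intro N hN hinv
    exact hConcl.2 N hN (fun r hr v hv => hinv r (Subgroup.mem_sup_left hr) v hv)
      (fun v hv => hinv b (Subgroup.mem_sup_right hbB) v hv)

end Cfsg.Agent.S4415
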