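-- Statement S4417: derived length of cross-characteristic p-subgroups of GL_n(q).
import Cfsg.Statements.S4417
import Cfsg.Agent.Lib.Helper74.CrossChar

set_option autoImplicit false
open Cfsg

namespace Cfsg.Agent.S4417

open Cfsg.Agent.Lib.Helper74.LinDL Cfsg.Agent.Lib.Helper74.CrossChar

/-- Let F be a field with q elements, p a prime not dividing q, and e the multiplicative order of q modulo p; assume e ≤ n. Then every p-subgroup of GL_n(F) has derived length at most ⌊log₂(n/e)⌋ + 1: that term of its derived series is trivial (n/e is the integer quotient). -/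
theorem result {F : Type*} [Field F] [Fintype F] (q : ℕ) (hF : Fintype.card F = q) (p : ℕ) [Fact p.Prime] (hpq : ¬ p ∣ q) (n e : ℕ) (he : e = orderOf (q : ZMod p)) (hen : e ≤ n) (P : Subgroup (GL (Fin n) F)) (hP : IsPGroup p P) : derivedSeries ↥P (Nat.log 2 (n / e) + 1) = ⊥ := by
  subst hF
  subst he
  have hp : p.Prime := Fact.out
  obtain ⟨K, hK⟩ : ∃ K : Type _, K = AlgebraicClosure F := ⟨_, rfl⟩
  subst hK
  have hpK : (p : AlgebraicClosure F) ≠ 0 := by
    intro h0
    have h1 : (p : F) = 0 := by
      apply (algebraMap F (AlgebraicClosure F)).injective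
      rw [map_natCast, map_zero]; exact h0
    obtain ⟨ℓ, hℓ⟩ := CharP.exists F
    obtain ⟨r, hprime, hcard⟩ := FiniteField.card F ℓ
    have h2 : ℓ ∣ p := (CharP.cast_eq_zero_iff F ℓ p).1 h1
    have h3 : ℓ = p := (Nat.prime_dvd_prime_iff_eq hprime hp).1 h2
    apply hpq
    rw [hcard, h3]
    exact dvd_pow_self p r.ne_zero
  have hker : MonoidHom.ker (matRep (AlgebraicClosure F) P.subtype) = ⊥ := by
    rw [matRep_ker]
    exact (MonoidHom.ker_eq_bot_iff _).2 P.subtype_injective
  have hgood := good_span p hpK n hP (matRep (AlgebraicClosure F) P.subtype)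
    (by rw [Module.finrank_fin_fun])
  rw [eq_bot_iff, ← hker]
  intro d hd
  rw [MonoidHom.mem_ker]
  have key : ∀ W : Submodule (AlgebraicClosure F) (Fin n → AlgebraicClosure F),
      Good (matRep (AlgebraicClosure F) P.subtype) W →
      W ≤ LinearMap.eqLocus (matRep (AlgebraicClosure F) P.subtype d) 1 := by
    intro W hW w hw
    rw [LinearMap.mem_eqLocus, Module.End.one_apply]
    obtain ⟨hWinv, hW2⟩ := hW
    rcases hW2 with h | ⟨g, ζ, hζ, h⟩
    · exact h d w hw
    · obtain ⟨k, hk⟩ := hP g
      have hk' : (g : GL (Fin n) F) ^ p ^ k = 1 := by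
        have := congrArg Subtype.val hk
        simpa using this
      have hb := eig_bound (K := AlgebraicClosure F) p hpq (g : GL (Fin n) F) k hk' ζ hζ
      have hle : W ≤ Module.End.eigenspace
          (Matrix.toLin' ((g : GL (Fin n) F).1.map (algebraMap F (AlgebraicClosure F)))) ζ := by
        intro u hu
        rw [Module.End.mem_eigenspace_iff]
        exact h u hu
      have hfin : Module.finrank (AlgebraicClosure F) W ≤ n / orderOf ((Fintype.card F : ℕ) : ZMod p) := by
        have h1 := Submodule.finrank_mono hle
        have hpos : 0 < orderOf ((Fintype.card F : ℕ) : ZMod p) := by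
          have hq0 : ((Fintype.card F : ℕ) : ZMod p) ≠ 0 := by
            rw [Ne, ZMod.natCast_eq_zero_iff]; exact hpq
          have h2 : orderOf (Units.mk0 _ hq0) = orderOf ((Fintype.card F : ℕ) : ZMod p) := by
            rw [← orderOf_units]; rfl
          rw [← h2]
          exact orderOf_pos _
        rw [Nat.le_div_iff_mul_le hpos]
        calc Module.finrank (AlgebraicClosure F) W * orderOf ((Fintype.card F : ℕ) : ZMod p)
            ≤ Module.finrank (AlgebraicClosure F) _ * orderOf ((Fintype.card F : ℕ) : ZMod p) :=
              Nat.mul_le_mul_right _ h1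
          _ ≤ n := by rw [mul_comm]; exact hb
      have hWinv' : ∀ g, W ≤ W.comap (matRep (AlgebraicClosure F) P.subtype g) :=
        fun g u hu => hWinv g u hu
      have h1 := rep_claim p hP
        ((matRep (AlgebraicClosure F) P.subtype).subrepresentation W hWinv') _ hfin hd
      rw [MonoidHom.mem_ker] at h1
      have h2 := congrArg (fun f : Module.End (AlgebraicClosure F) W => (f ⟨w, hw⟩ : Fin n → AlgebraicClosure F)) h1
      simpa using h2
  have htop : (⊤ : Submodule (AlgebraicClosure F) (Fin n → AlgebraicClosure F)) ≤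
      LinearMap.eqLocus (matRep (AlgebraicClosure F) P.subtype d) 1 := by
    rw [← hgood]
    exact iSup₂_le key
  exact LinearMap.ext fun v => by
    have := htop (Submodule.mem_top (x := v))
    rw [LinearMap.mem_eqLocus] at this
    exact this

end Cfsg.Agent.S4417
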