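import Cfsg.Statements.S4420
import Mathlib

set_option autoImplicit false
open Cfsg

namespace Cfsg.Agent.S4420

theorem case_elem {H : Type*} [Group H] [Finite H] (A : Subgroup H) (hA : A ≠ ⊤)
    (hall : ∀ x : H, x ^ 2 = 1) :
    ∃ B : Subgroup H, B.Normal ∧ IsMulCommutative ↥B ∧ B.index = 2 ∧
      (∀ x : H, x ∉ B → x ^ 2 = 1 ∧ ∀ b ∈ B, x * b * x⁻¹ = b⁻¹) := by
  have hcomm : ∀ a b : H, a * b = b * a := by
    intro a b
    have h1 := hall (a * b)
    have ha := hall a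
    have hb := hall b
    have ha' : a⁻¹ = a := by
      rw [inv_eq_iff_mul_eq_one, ← pow_two, ha]
    have hb' : b⁻¹ = b := by
      rw [inv_eq_iff_mul_eq_one, ← pow_two, hb]
    have h2 : (a * b)⁻¹ = a * b := by
      rw [inv_eq_iff_mul_eq_one, ← pow_two, h1]
    rw [mul_inv_rev, ha', hb'] at h2
    exact h2.symm
  have hP : IsPGroup 2 H := fun g => ⟨1, by rw [pow_one]; exact hall g⟩
  have : Fact (Nat.Prime 2) := ⟨Nat.prime_two⟩
  obtain ⟨k, hk⟩ := IsPGroup.iff_card.1 hP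
  have hk0 : k ≠ 0 := by
    rintro rfl
    rw [pow_zero] at hk
    apply hA
    have : Subsingleton H := (Nat.card_eq_one_iff_unique.1 hk).1
    exact Subsingleton.elim _ _
  obtain ⟨k', rfl⟩ := Nat.exists_eq_succ_of_ne_zero hk0
  obtain ⟨B, hB⟩ := Sylow.exists_subgroup_card_pow_prime 2 (n := k') (G := H)
    (by rw [hk]; exact pow_dvd_pow 2 (Nat.le_succ k'))
  refine ⟨B, ⟨fun n hn g => ?_⟩, ⟨⟨fun a b => ?_⟩⟩, ?_, fun x _ => ⟨hall x, fun b _ => ?_⟩⟩
  · rw [hcomm g n, mul_inv_cancel_right]; exact hn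
  · exact Subtype.ext (hcomm a b)
  · have h1 := B.card_mul_index
    rw [hB, hk, pow_succ] at h1
    exact Nat.eq_of_mul_eq_mul_left (by positivity) h1
  · rw [hcomm x b, mul_inv_cancel_right, eq_comm, inv_eq_iff_mul_eq_one, ← pow_two, hall b]

theorem case_gen {H : Type*} [Group H] [Finite H] (A : Subgroup H) (hA : A ≠ ⊤)
    (hD : ∀ x : H, x ∉ A → x ^ 2 = 1) (x₀ : H) (hx₀ : x₀ ^ 2 ≠ 1) :
    ∃ B : Subgroup H, B.Normal ∧ IsMulCommutative ↥B ∧ B.index = 2 ∧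
      (∀ x : H, x ∉ B → x ^ 2 = 1 ∧ ∀ b ∈ B, x * b * x⁻¹ = b⁻¹) ∧
      (∀ B' : Subgroup H, B'.index = 2 →
          (∀ x : H, x ∉ B' → x ^ 2 = 1) → B' = B) := by
  set B : Subgroup H := Subgroup.closure {x : H | x ^ 2 ≠ 1} with hBdef
  have hBA : B ≤ A := by
    rw [hBdef, Subgroup.closure_le]
    intro x hx
    by_contra hxA
    exact hx (hD x hxA)
  have hsq : ∀ t : H, t ∉ B → t ^ 2 = 1 := by
    intro t ht
    by_contra h
    exact ht (Subgroup.subset_closure h)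
  have hx₀B : x₀ ∈ B := Subgroup.subset_closure hx₀
  have hinv : ∀ t : H, t ∉ B → ∀ b ∈ B, t * b * t⁻¹ = b⁻¹ := by
    intro t ht b hb
    have htb : t * b ∉ B := fun h => ht (by simpa using B.mul_mem h (B.inv_mem hb))
    have h1 := hsq _ htb
    have h2 := hsq _ ht
    have ht' : t⁻¹ = t := by
      rw [inv_eq_iff_mul_eq_one, ← pow_two, h2]
    rw [ht', eq_inv_iff_mul_eq_one]
    rw [pow_two, ← mul_assoc] at h1
    exact h1
  obtain ⟨t, htA⟩ : ∃ t : H, t ∉ A := by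
    by_contra h
    push Not at h
    exact hA (eq_top_iff.2 fun x _ => h x)
  have htB : t ∉ B := fun h => htA (hBA h)
  have hidx : B.index = 2 := by
    rw [Subgroup.index_eq_two_iff_exists_notMem_and]
    refine ⟨t, htB, fun b => ?_⟩
    by_contra hcon
    push Not at hcon
    obtain ⟨h1, h2⟩ := hcon
    have e1 := hinv _ h1 x₀ hx₀B
    have e2 := hinv _ h2 x₀ hx₀B
    have e3 := hinv _ htB x₀ hx₀B
    have e4 : b * t * x₀ * (b * t)⁻¹ = b * (t * x₀ * t⁻¹) * b⁻¹ := by group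
    rw [e4, e3] at e1
    have e5 : b * x₀⁻¹ * b⁻¹ = (b * x₀ * b⁻¹)⁻¹ := by group
    rw [e5, e2, inv_inv] at e1
    apply hx₀
    rw [pow_two]
    nth_rewrite 1 [e1]
    exact inv_mul_cancel x₀
  refine ⟨B, ⟨fun n hn g => ?_⟩, ⟨⟨fun a b => ?_⟩⟩, hidx, fun x hx => ⟨hsq x hx, hinv x hx⟩, ?_⟩
  · by_cases hg : g ∈ B
    · exact B.mul_mem (B.mul_mem hg hn) (B.inv_mem hg)
    · rw [hinv g hg n hn]; exact B.inv_mem hn
  · apply Subtype.ext
    have e1 := hinv t htB _ a.2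
    have e2 := hinv t htB _ b.2
    have e3 := hinv t htB _ (B.mul_mem a.2 b.2)
    have e4 : t * ((a : H) * b) * t⁻¹ = (t * a * t⁻¹) * (t * b * t⁻¹) := by group
    rw [e4, e1, e2, mul_inv_rev] at e3
    have := congrArg Inv.inv e3
    simpa using this.symm
  · intro B' hB'idx hB'sq
    have hle : B ≤ B' := by
      rw [hBdef, Subgroup.closure_le]
      intro x hx
      by_contra hxB'
      exact hx (hB'sq x hxB')
    have h1 := Subgroup.relIndex_mul_index hle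
    rw [hidx, hB'idx] at h1
    have h2 : B.relIndex B' = 1 := by omega
    exact le_antisymm (Subgroup.relIndex_eq_one.1 h2) hle

theorem result {H : Type*} [Group H] [Finite H] (A : Subgroup H) (hA : A ≠ ⊤) (hD : ∀ x : H, x ∉ A → x ^ 2 = 1) :
    ∃ B : Subgroup H, B.Normal ∧ IsMulCommutative ↥B ∧ B.index = 2 ∧
      (∀ x : H, x ∉ B → x ^ 2 = 1 ∧ ∀ b ∈ B, x * b * x⁻¹ = b⁻¹) ∧
      (¬ (IsMulCommutative H ∧ ∀ x : H, x ^ 2 = 1) →
        ∀ B' : Subgroup H, B'.Normal → IsMulCommutative ↥B' → B'.index = 2 →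
          (∀ x : H, x ∉ B' → x ^ 2 = 1 ∧ ∀ b ∈ B', x * b * x⁻¹ = b⁻¹) → B' = B) := by
  by_cases hall : ∀ x : H, x ^ 2 = 1
  · obtain ⟨B, h1, h2, h3, h4⟩ := case_elem A hA hall
    refine ⟨B, h1, h2, h3, h4, fun hne => absurd ⟨⟨⟨fun a b => ?_⟩⟩, hall⟩ hne⟩
    have h1 := hall (a * b)
    have ha := hall a
    have hb := hall b
    have ha' : a⁻¹ = a := by
      rw [inv_eq_iff_mul_eq_one, ← pow_two, ha]
    have hb' : b⁻¹ = b := by
      rw [inv_eq_iff_mul_eq_one, ← pow_two, hb]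
    have h2 : (a * b)⁻¹ = a * b := by
      rw [inv_eq_iff_mul_eq_one, ← pow_two, h1]
    rw [mul_inv_rev, ha', hb'] at h2
    exact h2.symm
  · push Not at hall
    obtain ⟨x₀, hx₀⟩ := hall
    obtain ⟨B, h1, h2, h3, h4, h5⟩ := case_gen A hA hD x₀ hx₀
    exact ⟨B, h1, h2, h3, h4, fun _ B' _ _ hi hB' => h5 B' hi (fun x hx => (hB' x hx).1)⟩

end Cfsg.Agent.S4420
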