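import Cfsg.Statements.S4491
import Cfsg.Agent.Lib.Helper4.Contrib3

set_option autoImplicit false
open Cfsg

namespace Cfsg.Agent.S4491

open Cfsg.Agent.Lib.Helper4 in
/-- a member of minimal `p`-part of the degree -/
theorem exists_min {G : Type*} [Group G] [Finite G] (p : ℕ) [Fact p.Prime]
    (M : Ideal Cfsg.AlgInt) (hM : Cfsg.IsPModular p M) (B : Set (Cfsg.IrrCharacter G))
    (hB : Cfsg.IsPBlock M B) :
    ∃ χ₀ ∈ B, (∀ ψ ∈ B, (Cfsg.charDegree (χ₀ : G → ℂ)).factorization p ≤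
        (Cfsg.charDegree (ψ : G → ℂ)).factorization p) ∧
      Cfsg.blockDefect p B = (Nat.card G).factorization p -
        (Cfsg.charDegree (χ₀ : G → ℂ)).factorization p := by
  obtain ⟨χ₁, hχ₁⟩ := hB
  have hχ₁B : χ₁ ∈ B := by
    rw [hχ₁]; exact Cfsg.Agent.Lib.Helper79.mem_blockOf_self hM χ₁
  set S : Set ℕ := (fun ψ : Cfsg.IrrCharacter G =>
    (Cfsg.charDegree (ψ : G → ℂ)).factorization p) '' B with hS
  have hSne : S.Nonempty := ⟨_, ⟨χ₁, hχ₁B, rfl⟩⟩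
  obtain ⟨χ₀, hχ₀B, hχ₀⟩ := Nat.sInf_mem hSne
  have h5 : (Cfsg.charDegree (χ₀ : G → ℂ)).factorization p = sInf S := hχ₀
  refine ⟨χ₀, hχ₀B, fun ψ hψ => ?_, ?_⟩
  · rw [h5]
    exact Nat.sInf_le ⟨ψ, hψ, rfl⟩
  · rw [h5]
    rfl

/-- Let B be a p-block of defect d of the finite group G (relative to a maximal ideal M of the algebraic integers containing p), and let p^a be the p-part of the order of G. Then the exact power of p dividing the sum of the squares of the degrees of the irreducible characters in B is p^(2a − d). -/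
theorem result {G : Type*} [Group G] [Finite G] (p : ℕ) [Fact p.Prime] (M : Ideal Cfsg.AlgInt) (hM : Cfsg.IsPModular p M) (B : Set (Cfsg.IrrCharacter G)) (hB : Cfsg.IsPBlock M B) : (∑ᶠ χ ∈ B, Cfsg.charDegree (χ : G → ℂ) ^ 2).factorization p = 2 * (Nat.card G).factorization p - Cfsg.blockDefect p B := by
  classical
  let _ : Fintype G := Fintype.ofFinite G
  have := Cfsg.Agent.Lib.Helper4.irr_finite (G := G)
  let _ : Fintype (Cfsg.IrrCharacter G) := Fintype.ofFinite _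
  have hp : p.Prime := Fact.out
  obtain ⟨χ₀, hχ₀B, hmin, hdef⟩ := exists_min p M hM B hB
  rw [hdef]
  have hea := Cfsg.Agent.Lib.Helper4.nu_le_card p χ₀
  set e := (Cfsg.charDegree (χ₀ : G → ℂ)).factorization p with he
  set a := (Nat.card G).factorization p with ha
  rw [Cfsg.Agent.Lib.Helper79.finsum_mem_eq_sum_filter_univ]
  set Bf := Finset.univ.filter (fun θ : Cfsg.IrrCharacter G => θ ∈ B) with hBf
  have hBfB : ∀ θ ∈ Bf, θ ∈ B := by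
    intro θ hθ
    rw [hBf, Finset.mem_filter] at hθ
    exact hθ.2
  have hχ₀Bf : χ₀ ∈ Bf := by
    rw [hBf, Finset.mem_filter]; exact ⟨Finset.mem_univ _, hχ₀B⟩
  -- normalized degrees
  let hh : Cfsg.IrrCharacter G → ℕ := fun ψ => Cfsg.charDegree (ψ : G → ℂ) / p ^ e
  have hhspec : ∀ ψ ∈ B, Cfsg.charDegree (ψ : G → ℂ) = p ^ e * hh ψ := by
    intro ψ hψ
    have h1 : p ^ e ∣ Cfsg.charDegree (ψ : G → ℂ) := by
      obtain ⟨hpos, -⟩ := Cfsg.Agent.Lib.Helper83.irr_degree ψ.2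
      exact (hp.pow_dvd_iff_le_factorization hpos.ne').mpr (hmin ψ hψ)
    exact (Nat.mul_div_cancel' h1).symm
  let m : Cfsg.IrrCharacter G → ℤ := fun ψ => Cfsg.Agent.Lib.Helper4.nctr p χ₀ ψ
  have hmspec : ∀ ψ, Cfsg.Agent.Lib.Helper4.ctr p χ₀ ψ = ((p ^ e : ℕ) : ℤ) * m ψ :=
    fun ψ => Cfsg.Agent.Lib.Helper4.nctr_spec p χ₀ ψ
  have hpe : ((p ^ e : ℕ) : ℤ) ≠ 0 := by exact_mod_cast (pow_pos hp.pos e).ne'
  have hpec : ((p ^ e : ℕ) : ℂ) ≠ 0 := by exact_mod_cast (pow_pos hp.pos e).ne'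
  have hpc : (p : ℂ) ≠ 0 := by exact_mod_cast hp.ne_zero
  have hsplit : ((p ^ a : ℕ) : ℤ) = ((p ^ e : ℕ) : ℤ) * ((p ^ (a - e) : ℕ) : ℤ) := by
    rw [← Nat.cast_mul, ← pow_add, Nat.add_sub_cancel' hea]
  -- (I1)
  have hI1 : ∑ ψ ∈ Bf, m ψ * (hh ψ : ℤ) = ((p ^ (a - e) : ℕ) : ℤ) * (hh χ₀ : ℤ) := by
    have h1 := Cfsg.Agent.Lib.Helper4.ctr_deg_sum p χ₀
    have h2 : ∑ θ : Cfsg.IrrCharacter G, Cfsg.Agent.Lib.Helper4.ctr p χ₀ θ *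
        (Cfsg.charDegree (θ : G → ℂ) : ℤ) =
        ∑ θ ∈ Bf, Cfsg.Agent.Lib.Helper4.ctr p χ₀ θ * (Cfsg.charDegree (θ : G → ℂ) : ℤ) := by
      rw [hBf, Finset.sum_filter]
      apply Finset.sum_congr rfl
      intro θ _
      by_cases hθ : θ ∈ B
      · rw [if_pos hθ]
      · rw [if_neg hθ, Cfsg.Agent.Lib.Helper4.ctr_eq_zero p M hM B hB χ₀ hχ₀B θ hθ, zero_mul]
    rw [h2] at h1
    have h3 : ∑ θ ∈ Bf, Cfsg.Agent.Lib.Helper4.ctr p χ₀ θ *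
        (Cfsg.charDegree (θ : G → ℂ) : ℤ) =
        ((p ^ e : ℕ) : ℤ) ^ 2 * ∑ ψ ∈ Bf, m ψ * (hh ψ : ℤ) := by
      rw [Finset.mul_sum]
      apply Finset.sum_congr rfl
      intro θ hθ
      rw [hmspec θ, hhspec θ (hBfB θ hθ)]
      push_cast
      ring
    rw [h3, hhspec χ₀ hχ₀B, ← ha, hsplit] at h1
    have h4 : ((p ^ e : ℕ) : ℤ) ^ 2 * ∑ ψ ∈ Bf, m ψ * (hh ψ : ℤ) =
        ((p ^ e : ℕ) : ℤ) ^ 2 * (((p ^ (a - e) : ℕ) : ℤ) * (hh χ₀ : ℤ)) := by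
      rw [h1]; push_cast; ring
    exact mul_left_cancel₀ (pow_ne_zero 2 hpe) h4
  -- (C1)
  have hC1 : ∀ ψ ∈ B, (p : ℤ) ∣ m ψ * (hh χ₀ : ℤ) - m χ₀ * (hh ψ : ℤ) := by
    intro ψ hψ
    have hsb : Cfsg.SameBlock M (ψ : G → ℂ) (χ₀ : G → ℂ) := by
      have h1 : χ₀ ∈ Cfsg.blockOf M (ψ : G → ℂ) := by
        rw [← Cfsg.Agent.Lib.Helper79.blockOf_eq_of_mem hM hB hψ]; exact hχ₀B
      exact h1
    exact Cfsg.Agent.Lib.Helper4.ctr_cross_dvd p M hM χ₀ ψ χ₀ hsb (p ^ e) (m ψ) (m χ₀)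
      (hh ψ) (hh χ₀) (hmspec ψ) (hhspec ψ hψ) (hmspec χ₀) (hhspec χ₀ hχ₀B)
  let n : Cfsg.IrrCharacter G → ℤ :=
    fun ψ => (m ψ * (hh χ₀ : ℤ) - m χ₀ * (hh ψ : ℤ)) / (p : ℤ)
  have hnspec : ∀ ψ ∈ B, (p : ℤ) * n ψ = m ψ * (hh χ₀ : ℤ) - m χ₀ * (hh ψ : ℤ) :=
    fun ψ hψ => Int.mul_ediv_cancel' (hC1 ψ hψ)
  -- Θ
  set Θ : G → ℂ := ∑ ψ ∈ Bf, (n ψ) • (ψ : G → ℂ) with hΘ
  have hΘgen : Cfsg.IsGeneralizedCharacter G Θ :=
    Cfsg.Agent.Lib.Helper36.isGenChar_sum _ _ (fun ψ _ =>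
      Cfsg.Agent.Lib.Helper36.isGenChar_zsmul (Cfsg.Agent.Lib.Helper36.isGenChar_of_irr ψ.2) _)
  have hΘval : ∀ g : G, Θ g = ∑ ψ ∈ Bf, (n ψ : ℂ) * (ψ : G → ℂ) g := by
    intro g
    rw [hΘ]
    simp only [Finset.sum_apply, Pi.smul_apply]
    simp only [zsmul_eq_mul]
  have hΘvan : ∀ g : G, p ∣ orderOf g → Θ g = 0 := by
    intro g hg
    have hV1 : ∑ ψ ∈ Bf, (m ψ : ℂ) * (ψ : G → ℂ) g = 0 := by
      have h1 := Cfsg.Agent.Lib.Helper4.ptil_expansion p χ₀ g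
      have h2 : Cfsg.Agent.Lib.Helper84.ptil p (χ₀ : G → ℂ) g = 0 := if_pos hg
      rw [h2] at h1
      have h3 : ∑ θ : Cfsg.IrrCharacter G, (Cfsg.Agent.Lib.Helper4.ctr p χ₀ θ : ℂ) *
          (θ : G → ℂ) g = ((p ^ e : ℕ) : ℂ) * ∑ ψ ∈ Bf, (m ψ : ℂ) * (ψ : G → ℂ) g := by
        rw [Finset.mul_sum, hBf, Finset.sum_filter]
        apply Finset.sum_congr rfl
        intro θ _
        by_cases hθ : θ ∈ B
        · rw [if_pos hθ, hmspec θ]; push_cast; ring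
        · rw [if_neg hθ, Cfsg.Agent.Lib.Helper4.ctr_eq_zero p M hM B hB χ₀ hχ₀B θ hθ]; simp
      rw [h3] at h1
      rcases mul_eq_zero.mp h1.symm with h4 | h4
      · exact absurd h4 hpec
      · exact h4
    have hV2 : ∑ ψ ∈ Bf, (hh ψ : ℂ) * (ψ : G → ℂ) g = 0 := by
      have h1 := Cfsg.Agent.Lib.Helper4.block_deg_sum_singular p M hM B hB g hg
      have h3 : ∑ ψ ∈ Finset.univ.filter (· ∈ B), (Cfsg.charDegree (ψ : G → ℂ) : ℂ) *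
          (ψ : G → ℂ) g = ((p ^ e : ℕ) : ℂ) * ∑ ψ ∈ Bf, (hh ψ : ℂ) * (ψ : G → ℂ) g := by
        rw [Finset.mul_sum]
        apply Finset.sum_congr rfl
        intro θ hθ
        rw [hhspec θ (hBfB θ hθ)]; push_cast; ring
      rw [h3] at h1
      rcases mul_eq_zero.mp h1 with h4 | h4
      · exact absurd h4 hpec
      · exact h4
    have h5 : (p : ℂ) * Θ g = (hh χ₀ : ℂ) * ∑ ψ ∈ Bf, (m ψ : ℂ) * (ψ : G → ℂ) g -
        (m χ₀ : ℂ) * ∑ ψ ∈ Bf, (hh ψ : ℂ) * (ψ : G → ℂ) g := by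
      rw [hΘval, Finset.mul_sum, Finset.mul_sum, Finset.mul_sum, ← Finset.sum_sub_distrib]
      apply Finset.sum_congr rfl
      intro ψ hψ
      have h6 := hnspec ψ (hBfB ψ hψ)
      have h7 : (p : ℂ) * (n ψ : ℂ) = (m ψ : ℂ) * (hh χ₀ : ℂ) - (m χ₀ : ℂ) * (hh ψ : ℂ) := by
        exact_mod_cast congrArg (Int.cast : ℤ → ℂ) h6
      calc (p : ℂ) * ((n ψ : ℂ) * (ψ : G → ℂ) g) = ((p : ℂ) * (n ψ : ℂ)) * (ψ : G → ℂ) g := by
            ring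
        _ = ((m ψ : ℂ) * (hh χ₀ : ℂ) - (m χ₀ : ℂ) * (hh ψ : ℂ)) * (ψ : G → ℂ) g := by rw [h7]
        _ = _ := by ring
    rw [hV1, hV2, mul_zero, mul_zero, sub_zero] at h5
    rcases mul_eq_zero.mp h5 with h | h
    · exact absurd h hpc
    · exact h
  -- (D)
  obtain ⟨t, ht⟩ := Cfsg.Agent.Lib.Helper4.genChar_vanish_dvd p Θ hΘgen hΘvan
  have hD : ∑ ψ ∈ Bf, n ψ * (hh ψ : ℤ) = ((p ^ (a - e) : ℕ) : ℤ) * t := by
    rw [hΘval 1] at ht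
    have h1 : ∑ ψ ∈ Bf, (n ψ : ℂ) * (ψ : G → ℂ) 1 =
        ((((p ^ e : ℕ) : ℤ) * ∑ ψ ∈ Bf, n ψ * (hh ψ : ℤ) : ℤ) : ℂ) := by
      push_cast
      rw [Finset.mul_sum]
      apply Finset.sum_congr rfl
      intro ψ hψ
      rw [(Cfsg.Agent.Lib.Helper83.irr_degree ψ.2).2, hhspec ψ (hBfB ψ hψ)]
      push_cast; ring
    rw [h1] at ht
    have h2 : ((p ^ e : ℕ) : ℤ) * ∑ ψ ∈ Bf, n ψ * (hh ψ : ℤ) = ((p ^ a : ℕ) : ℤ) * t := by
      exact_mod_cast ht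
    rw [hsplit, mul_assoc] at h2
    exact mul_left_cancel₀ hpe h2
  -- (E)
  set H : ℕ := ∑ ψ ∈ Bf, (hh ψ) ^ 2 with hH
  have hE : m χ₀ * (H : ℤ) =
      ((p ^ (a - e) : ℕ) : ℤ) * ((hh χ₀ : ℤ) ^ 2 - (p : ℤ) * t) := by
    have h1 : (p : ℤ) * ∑ ψ ∈ Bf, n ψ * (hh ψ : ℤ) =
        (hh χ₀ : ℤ) * ∑ ψ ∈ Bf, m ψ * (hh ψ : ℤ) - m χ₀ * ∑ ψ ∈ Bf, ((hh ψ : ℤ)) ^ 2 := by
      rw [Finset.mul_sum, Finset.mul_sum, Finset.mul_sum, ← Finset.sum_sub_distrib]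
      apply Finset.sum_congr rfl
      intro ψ hψ
      have h6 := hnspec ψ (hBfB ψ hψ)
      calc (p : ℤ) * (n ψ * (hh ψ : ℤ)) = ((p : ℤ) * n ψ) * (hh ψ : ℤ) := by ring
        _ = (m ψ * (hh χ₀ : ℤ) - m χ₀ * (hh ψ : ℤ)) * (hh ψ : ℤ) := by rw [h6]
        _ = _ := by ring
    rw [hD, hI1] at h1
    have h2 : ((H : ℕ) : ℤ) = ∑ ψ ∈ Bf, ((hh ψ : ℤ)) ^ 2 := by rw [hH]; push_cast; rfl
    rw [h2]
    linear_combination h1
  -- (F)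
  have hm0 : ¬ (p : ℤ) ∣ m χ₀ := by
    intro hdvd
    apply Cfsg.Agent.Lib.Helper4.min_ctr_not_dvd p M hM B hB χ₀ hχ₀B hmin χ₀ hχ₀B
    rw [hmspec χ₀, ← he, pow_succ]
    push_cast
    exact mul_dvd_mul_left _ hdvd
  have hh0 : ¬ p ∣ hh χ₀ := by
    obtain ⟨hpos, -⟩ := Cfsg.Agent.Lib.Helper83.irr_degree χ₀.2
    exact Nat.not_dvd_ordCompl hp hpos.ne'
  have hD0 : ¬ (p : ℤ) ∣ (hh χ₀ : ℤ) ^ 2 - (p : ℤ) * t := by
    intro hdvd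
    have h1 : (p : ℤ) ∣ (hh χ₀ : ℤ) ^ 2 := by
      have := dvd_add hdvd (dvd_mul_right (p : ℤ) t)
      rwa [sub_add_cancel] at this
    have h2 := (Nat.prime_iff_prime_int.mp hp).dvd_of_dvd_pow h1
    exact hh0 (Int.natCast_dvd_natCast.mp h2)
  have hDne : (hh χ₀ : ℤ) ^ 2 - (p : ℤ) * t ≠ 0 := fun h => hD0 (h ▸ dvd_zero _)
  have hm0ne : m χ₀ ≠ 0 := fun h => hm0 (h ▸ dvd_zero _)
  have hPne : ((p ^ (a - e) : ℕ) : ℤ) ≠ 0 := by exact_mod_cast (pow_pos hp.pos _).ne'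
  have hHne : (H : ℤ) ≠ 0 := by
    intro h
    rw [h, mul_zero] at hE
    exact (mul_ne_zero hPne hDne) hE.symm
  have hval : padicValNat p H = a - e := by
    have h1 := congrArg (padicValInt p) hE
    rw [padicValInt.mul hm0ne hHne, padicValInt.mul hPne hDne, padicValInt.of_nat,
      padicValInt.of_nat, padicValNat.prime_pow] at h1
    have h2 : padicValInt p (m χ₀) = 0 := padicValInt.eq_zero_of_not_dvd hm0
    have h3 : padicValInt p ((hh χ₀ : ℤ) ^ 2 - (p : ℤ) * t) = 0 :=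
      padicValInt.eq_zero_of_not_dvd hD0
    omega
  have hHn : H ≠ 0 := by exact_mod_cast hHne
  have hsum : ∑ ψ ∈ Bf, Cfsg.charDegree (ψ : G → ℂ) ^ 2 = p ^ (2 * e) * H := by
    rw [hH, Finset.mul_sum]
    apply Finset.sum_congr rfl
    intro ψ hψ
    rw [hhspec ψ (hBfB ψ hψ)]
    ring
  rw [hsum, Nat.factorization_def _ hp,
    padicValNat.mul (pow_pos hp.pos _).ne' hHn, padicValNat.prime_pow, hval]
  omega

end Cfsg.Agent.S4491
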