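import Cfsg.Statements.S4518
import Cfsg.Agent.Lib.Helper80.Galois
import Cfsg.Agent.Lib.Helper20.Clifford

set_option autoImplicit false
open Cfsg

namespace Cfsg.Agent.S4518

open Cfsg.Agent.Lib.Helper4 Cfsg.Agent.Lib.Helper80 Cfsg.Agent.Lib.Helper20
open scoped ComplexConjugate

/-- Let N be a normal subgroup of the finite group G whose index is not divisible by the prime p, and let k be coprime to the order of G with k ^ (p ^ e) ≡ 1 modulo the order of G for some e (so g ↦ g ^ k induces a field automorphism of p-power order on character values). If an irreducible character χ of G satisfies χ (g ^ k) = χ g for all g, then every irreducible constituent θ of the restriction of χ to N satisfies θ (n ^ k) = θ n for all n. -/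
theorem result {G : Type*} [Group G] [Fintype G] (p : ℕ) [Fact p.Prime] (N : Subgroup G) [N.Normal] [Fintype N] (hidx : ¬ p ∣ N.index) (k e : ℕ) (hk : Nat.Coprime k (Nat.card G)) (hke : k ^ (p ^ e) ≡ 1 [MOD Nat.card G]) (χ : Cfsg.IrrCharacter G) (hχ : ∀ g : G, (χ : G → ℂ) (g ^ k) = (χ : G → ℂ) g) (θ : Cfsg.IrrCharacter N) (hθ : Cfsg.classInner (fun n : N => (χ : G → ℂ) n) (θ : N → ℂ) ≠ 0) : ∀ n : N, (θ : N → ℂ) (n ^ k) = (θ : N → ℂ) n := by
  classical
  have hNn : N.Normal := inferInstance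
  have hχcf : IsClassFunction G (χ : G → ℂ) := isClassFunction_irr χ
  have hkN : Nat.Coprime k (Nat.card N) :=
    Nat.Coprime.coprime_dvd_right (Subgroup.card_subgroup_dvd_card N) hk
  have : Finite (IrrCharacter N) := irr_finite
  let _ : Fintype (IrrCharacter N) := Fintype.ofFinite _
  have hσinner : ∀ μ : IrrCharacter N,
      classInner (fun n : N => (χ : G → ℂ) n) (galConj k hkN μ : N → ℂ) =
        classInner (fun n : N => (χ : G → ℂ) n) (μ : N → ℂ) := by
    intro μ
    unfold classInner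
    congr 1
    rw [← Equiv.sum_comp (powCoprime hkN.symm)
      (fun n : N => (χ : G → ℂ) n * conj ((μ : N → ℂ) n))]
    refine Finset.sum_congr rfl fun n _ => ?_
    show (χ : G → ℂ) n * conj ((μ : N → ℂ) (n ^ k)) =
      (χ : G → ℂ) ((n ^ k : N) : G) * conj ((μ : N → ℂ) (n ^ k))
    rw [Subgroup.coe_pow, hχ]
  let f : {μ : IrrCharacter N // classInner (fun n : N => (χ : G → ℂ) n) (μ : N → ℂ) ≠ 0} →
      {μ : IrrCharacter N // classInner (fun n : N => (χ : G → ℂ) n) (μ : N → ℂ) ≠ 0} :=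
    fun μ => ⟨galConj k hkN μ.1, by rw [hσinner]; exact μ.2⟩
  have hiter : ∀ (j : ℕ)
      (μ : {μ : IrrCharacter N // classInner (fun n : N => (χ : G → ℂ) n) (μ : N → ℂ) ≠ 0})
      (n : N), ((f^[j] μ).1 : N → ℂ) n = (μ.1 : N → ℂ) (n ^ (k ^ j)) := by
    intro j
    induction j with
    | zero =>
      intro μ n
      simp
    | succ j ih =>
      intro μ n
      rw [Function.iterate_succ_apply']
      show ((f^[j] μ).1 : N → ℂ) (n ^ k) = _
      rw [ih, ← pow_mul, pow_succ']
  have hfpow : ∀ μ, f^[p ^ e] μ = μ := by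
    intro μ
    apply Subtype.ext
    apply Subtype.ext
    funext n
    rw [hiter]
    have h1 : k ^ (p ^ e) ≡ 1 [MOD Nat.card N] :=
      hke.of_dvd (Subgroup.card_subgroup_dvd_card N)
    have h2 : n ^ (k ^ (p ^ e)) = n ^ 1 := by
      rw [pow_eq_pow_iff_modEq]
      exact h1.of_dvd (orderOf_dvd_natCard n)
    rw [h2, pow_one]
  have hpe : 0 < p ^ e := pow_pos (Fact.out : p.Prime).pos e
  have hfbij : Function.Bijective f := by
    constructor
    · intro a b hab
      have h1 : f^[p ^ e - 1] (f a) = f^[p ^ e - 1] (f b) := by rw [hab]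
      rw [← Function.iterate_succ_apply, ← Function.iterate_succ_apply,
        Nat.succ_eq_add_one, Nat.sub_add_cancel hpe, hfpow, hfpow] at h1
      exact h1
    · intro b
      refine ⟨f^[p ^ e - 1] b, ?_⟩
      have h := Function.iterate_succ_apply' f (p ^ e - 1) b
      rw [Nat.succ_eq_add_one, Nat.sub_add_cancel hpe, hfpow] at h
      exact h.symm
  have hσpow : (Equiv.ofBijective f hfbij) ^ p ^ e = 1 := by
    ext1 μ
    rw [← Equiv.Perm.iterate_eq_pow]
    exact hfpow μ
  -- the inertia group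
  let T : Subgroup G :=
    { carrier := {g | conjFun N (θ : N → ℂ) g = θ}
      mul_mem' := by
        intro a b ha hb
        show conjFun N (θ : N → ℂ) (a * b) = θ
        rw [← conjFun_conjFun]
        rw [show conjFun N (θ : N → ℂ) a = θ from ha]
        exact hb
      one_mem' := conjFun_one N _
      inv_mem' := by
        intro a ha
        show conjFun N (θ : N → ℂ) a⁻¹ = θ
        have h1 : conjFun N (conjFun N (θ : N → ℂ) a) a⁻¹ = conjFun N θ a⁻¹ := by
          rw [show conjFun N (θ : N → ℂ) a = θ from ha]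
        rw [← h1, conjFun_conjFun, mul_inv_cancel, conjFun_one] }
  have hT : ∀ g : G, g ∈ T ↔ conjFun N (θ : N → ℂ) g = θ := fun g => Iff.rfl
  have hNT : N ≤ T := by
    intro x hx
    show conjFun N (θ : N → ℂ) x = θ
    funext n
    rw [conjFun_apply]
    exact isClassFunction_irr θ n ⟨x, hx⟩
  let F : G → {μ : IrrCharacter N // classInner (fun n : N => (χ : G → ℂ) n) (μ : N → ℂ) ≠ 0} :=
    fun x => ⟨⟨conjFun N (θ : N → ℂ) x, conjFun_irr N θ.2 x⟩, by
      show classInner (fun n : N => (χ : G → ℂ) n) (conjFun N (θ : N → ℂ) x) ≠ 0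
      rw [classInner_res_conjFun N hχcf]
      exact hθ⟩
  have hFsurj : Function.Surjective F := by
    rintro ⟨μ, hμ⟩
    obtain ⟨x, hx⟩ := clifford_conj N θ.2 χ.2 hθ μ.2 hμ
    exact ⟨x, Subtype.ext (Subtype.ext hx.symm)⟩
  have hcard : Nat.card G =
      Nat.card {μ : IrrCharacter N // classInner (fun n : N => (χ : G → ℂ) n) (μ : N → ℂ) ≠ 0} *
        Nat.card T := by
    rw [Nat.card_congr (Equiv.sigmaFiberEquiv F).symm, Nat.card_sigma]
    have hfib : ∀ y, Nat.card {x : G // F x = y} = Nat.card T := by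
      intro y
      obtain ⟨x₀, rfl⟩ := hFsurj y
      rw [← card_conjFun_eq N (θ : N → ℂ) T hT x₀]
      apply Nat.card_congr
      apply Equiv.subtypeEquivRight
      intro x
      constructor
      · intro h
        exact congrArg (fun μ : {μ : IrrCharacter N //
          classInner (fun n : N => (χ : G → ℂ) n) (μ : N → ℂ) ≠ 0} => (μ.1 : N → ℂ)) h
      · intro h
        exact Subtype.ext (Subtype.ext h)
    rw [Finset.sum_congr rfl (fun y _ => hfib y), Finset.sum_const, smul_eq_mul, Finset.card_univ]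
    simp only [Nat.card_eq_fintype_card]
  have hpΩ : ¬ p ∣ Fintype.card
      {μ : IrrCharacter N // classInner (fun n : N => (χ : G → ℂ) n) (μ : N → ℂ) ≠ 0} := by
    intro hdvd
    apply hidx
    have h1 : T.index = Nat.card
        {μ : IrrCharacter N // classInner (fun n : N => (χ : G → ℂ) n) (μ : N → ℂ) ≠ 0} := by
      have h2 := Subgroup.card_mul_index T
      rw [hcard] at h2
      exact Nat.eq_of_mul_eq_mul_left (Nat.card_pos (α := T)) (by rw [h2, mul_comm])
    have h3 : T.index ∣ N.index := Subgroup.index_dvd_of_le hNT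
    rw [h1, Nat.card_eq_fintype_card] at h3
    exact hdvd.trans h3
  obtain ⟨μ₀, hμ₀⟩ := Equiv.Perm.exists_fixed_point_of_prime hpΩ hσpow
  obtain ⟨x, hx⟩ := hFsurj μ₀
  have h5 : ∀ n : N, (μ₀.1 : N → ℂ) (n ^ k) = (μ₀.1 : N → ℂ) n := fun n =>
    congrFun (congrArg (fun μ : {μ : IrrCharacter N //
      classInner (fun n : N => (χ : G → ℂ) n) (μ : N → ℂ) ≠ 0} => (μ.1 : N → ℂ)) hμ₀) n
  have h6 : (μ₀.1 : N → ℂ) = conjFun N (θ : N → ℂ) x := by rw [← hx]
  have h7 : ∀ (n' : N) (hm' : x⁻¹ * (n' : G) * x ∈ N),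
      (θ : N → ℂ) n' = (μ₀.1 : N → ℂ) ⟨x⁻¹ * n' * x, hm'⟩ := by
    intro n' hm'
    rw [h6, conjFun_apply]
    refine congrArg (θ : N → ℂ) (Subtype.ext ?_)
    show (n' : G) = x * (x⁻¹ * (n' : G) * x) * x⁻¹
    group
  intro n
  have hm : x⁻¹ * (n : G) * x ∈ N := by
    have h8 := hNn.conj_mem n n.2 x⁻¹
    rwa [inv_inv] at h8
  have hmk : x⁻¹ * ((n ^ k : N) : G) * x ∈ N := by
    have h8 := hNn.conj_mem (n ^ k : N) (n ^ k : N).2 x⁻¹
    rwa [inv_inv] at h8
  rw [h7 (n ^ k) hmk, h7 n hm, ← h5 ⟨x⁻¹ * n * x, hm⟩]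
  refine congrArg (μ₀.1 : N → ℂ) (Subtype.ext ?_)
  show x⁻¹ * ((n ^ k : N) : G) * x = (x⁻¹ * (n : G) * x) ^ k
  have h9 := conj_pow (a := x⁻¹) (b := (n : G)) (i := k)
  rw [inv_inv] at h9
  rw [h9, Subgroup.coe_pow]

end Cfsg.Agent.S4518
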