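import Cfsg.Statements.S4519
import Mathlib
import Cfsg.Agent.Lib.Helper4.CharOdd
import Cfsg.Agent.Lib.Helper20.Clifford
import Cfsg.Agent.Lib.Helper20.ExtPrime
import Cfsg.Agent.Lib.Helper20.Gallagher
import Cfsg.Agent.Lib.Helper80.Galois
import Cfsg.Agent.Lib.Helper83.Rg1
import Cfsg.Agent.Lib.Helper83.ProjExt
import Cfsg.Agent.Lib.Helper84.CliffInd
-- import your own Cfsg.Agent.* helpers here

set_option autoImplicit false
open Cfsg

namespace Cfsg.Agent.S4519

open Cfsg.Agent.Lib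
open scoped ComplexConjugate

universe u

/-- the hypotheses on the exponent `k` -/
structure SigHyp (G : Type*) [Group G] (k : ℕ) : Prop where
  cop : Nat.Coprime k (Nat.card G)
  inv : ∀ g : G, Odd (orderOf g) → g ^ k = g⁻¹
  pw : ∃ e : ℕ, k ^ (2 ^ e) ≡ 1 [MOD Nat.card G]

theorem SigHyp.sub {G : Type*} [Group G] [Finite G] {k : ℕ} (h : SigHyp G k) (P : Subgroup G) :
    SigHyp P k where
  cop := Nat.Coprime.coprime_dvd_right (Subgroup.card_subgroup_dvd_card P) h.cop
  inv := by
    intro g hg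
    apply Subtype.ext
    rw [Subgroup.coe_pow, Subgroup.coe_inv]
    apply h.inv
    rwa [Subgroup.orderOf_coe]
  pw := by
    obtain ⟨e, he⟩ := h.pw
    exact ⟨e, Nat.ModEq.of_dvd (Subgroup.card_subgroup_dvd_card P) he⟩

theorem pow_succ_mem {G : Type*} [Group G] [Finite G] {k : ℕ} (h : SigHyp G k)
    (N : Subgroup G) [N.Normal] (hidx : Odd N.index) (g : G) : g ^ (k + 1) ∈ N := by
  obtain ⟨s, r', hr', hr⟩ := Nat.exists_eq_two_pow_mul_odd (orderOf_pos g).ne'
  have h1 : Odd (orderOf (g ^ (2 ^ s))) := by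
    have hd : orderOf (g ^ (2 ^ s)) ∣ r' := by
      apply orderOf_dvd_of_pow_eq_one
      rw [← pow_mul, ← hr, pow_orderOf_eq_one]
    exact Odd.of_dvd_nat hr' hd
  have h2 := h.inv _ h1
  have h3 : g ^ (2 ^ s * (k + 1)) = 1 := by
    rw [pow_mul, pow_succ, h2, inv_mul_cancel]
  have hx1 : ((g : G ⧸ N)) ^ (2 ^ s * (k + 1)) = 1 := by
    rw [← QuotientGroup.mk_pow, h3, QuotientGroup.mk_one]
  have hx2 : ((g : G ⧸ N)) ^ N.index = 1 := by
    rw [Subgroup.index_eq_card]
    exact pow_card_eq_one'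
  have hd1 := orderOf_dvd_of_pow_eq_one hx1
  have hd2 := orderOf_dvd_of_pow_eq_one hx2
  have hodd : Odd (orderOf (g : G ⧸ N)) := Odd.of_dvd_nat hidx hd2
  have hc : Nat.Coprime (orderOf (g : G ⧸ N)) (2 ^ s) :=
    Nat.Coprime.pow_right s hodd.coprime_two_right
  have hd3 : orderOf (g : G ⧸ N) ∣ k + 1 := hc.dvd_of_dvd_mul_left hd1
  have hx3 : ((g : G ⧸ N)) ^ (k + 1) = 1 := orderOf_dvd_iff_pow_eq_one.mp hd3
  rw [← QuotientGroup.mk_pow] at hx3
  exact (QuotientGroup.eq_one_iff _).mp hx3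

theorem mk_pow_eq_inv {G : Type*} [Group G] [Finite G] {k : ℕ} (h : SigHyp G k)
    (N : Subgroup G) [N.Normal] (hidx : Odd N.index) (g : G) :
    ((g ^ k : G) : G ⧸ N) = ((g : G) : G ⧸ N)⁻¹ := by
  have h1 := (QuotientGroup.eq_one_iff _).mpr (pow_succ_mem h N hidx g)
  rw [pow_succ, QuotientGroup.mk_mul] at h1
  exact eq_inv_of_mul_eq_one_left h1

theorem irr_inv {Q : Type*} [Group Q] [Finite Q] (β : IrrCharacter Q) (q : Q) :
    (β : Q → ℂ) q⁻¹ = conj ((β : Q → ℂ) q) := by
  obtain ⟨n, ρ, hρ, hβ⟩ := β.2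
  rw [← hβ]
  exact Helper4.char_inv ρ q

/-- parity of the inner product of the restrictions of two `σ`-fixed characters -/
theorem parity_res {G : Type*} [Group G] [Fintype G] (N : Subgroup G) [N.Normal] [Fintype N]
    (hidx : Odd N.index) {k : ℕ} (h : SigHyp G k)
    {χ χ' : G → ℂ} (hχ : IsCharacter G χ) (hχ' : IsCharacter G χ')
    (hσ : ∀ g, χ (g ^ k) = χ g) (hσ' : ∀ g, χ' (g ^ k) = χ' g) :
    ∃ a b : ℕ, classInner χ χ' = a ∧
      classInner (fun n : N => χ n) (fun n : N => χ' n) = b ∧ Even (a + b) := by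
  classical
  let _ : Fintype (G ⧸ N) := Fintype.ofFinite _
  have := Helper4.irr_finite (G := G ⧸ N)
  let _ : Fintype (IrrCharacter (G ⧸ N)) := Fintype.ofFinite _
  have hoddQ : Odd (Nat.card (G ⧸ N)) := by rw [← Subgroup.index_eq_card]; exact hidx
  have hinfl : ∀ β : IrrCharacter (G ⧸ N),
      IsCharacter G (fun g : G => (β : G ⧸ N → ℂ) (g : G ⧸ N)) :=
    fun β => Helper35.isChar_of_irr (Helper83.irr_inflate N β.2)
  have hm : ∀ β : IrrCharacter (G ⧸ N), ∃ a : ℕ,
      classInner χ (χ' * fun g : G => (β : G ⧸ N → ℂ) (g : G ⧸ N)) = a :=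
    fun β => Helper35.classInner_char_nat hχ (Helper35.isCharacter_mul hχ' (hinfl β))
  choose m hm using hm
  have hcol : ∀ q : G ⧸ N, ∑ β : IrrCharacter (G ⧸ N),
      (Helper4.irrDeg β : ℂ) * conj ((β : G ⧸ N → ℂ) q) =
        if q = 1 then (Nat.card (G ⧸ N) : ℂ) else 0 := by
    intro q
    have h1 := Helper83.column_orthogonality (G := G ⧸ N) 1 q
    simp only [Helper4.irrDeg_spec] at h1
    rw [h1]
    by_cases hq : q = 1
    · rw [if_pos hq, if_pos (by rw [hq]), hq, Helper4.card_centralizer_one]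
    · rw [if_neg hq, if_neg (fun h => hq (isConj_one_right.mp h.symm))]
  have hexp : ∑ β : IrrCharacter (G ⧸ N), (Helper4.irrDeg β : ℂ) * (m β : ℂ) =
      (Nat.card N : ℂ)⁻¹ * ∑ n : N, χ n * conj (χ' n) := by
    simp only [← hm]
    unfold classInner
    simp only [Finset.mul_sum]
    rw [Finset.sum_comm]
    have h1 : ∀ g : G, ∑ β : IrrCharacter (G ⧸ N), (Helper4.irrDeg β : ℂ) *
        ((Nat.card G : ℂ)⁻¹ * (χ g *
          conj ((χ' * fun g : G => (β : G ⧸ N → ℂ) (g : G ⧸ N)) g))) =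
        (Nat.card G : ℂ)⁻¹ * ((if (g : G ⧸ N) = 1 then (Nat.card (G ⧸ N) : ℂ) else 0) *
          (χ g * conj (χ' g))) := by
      intro g
      rw [← hcol, Finset.sum_mul, Finset.mul_sum]
      apply Finset.sum_congr rfl
      intro β _
      simp only [Pi.mul_apply, map_mul]
      ring
    rw [Finset.sum_congr rfl (fun g _ => h1 g)]
    rw [Helper20.sum_eq_sum_subgroup N _ (by
      intro g hg
      rw [if_neg, zero_mul, mul_zero]
      intro h
      exact hg ((QuotientGroup.eq_one_iff g).mp h))]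
    apply Finset.sum_congr rfl
    intro n _
    rw [if_pos ((QuotientGroup.eq_one_iff (n : G)).mpr n.2),
      Subgroup.card_eq_card_quotient_mul_card_subgroup N]
    push_cast
    have hN0 : (Nat.card N : ℂ) ≠ 0 := by exact_mod_cast (Nat.card_pos (α := N)).ne'
    have hQ0 : (Nat.card (G ⧸ N) : ℂ) ≠ 0 := by
      exact_mod_cast (Nat.card_pos (α := G ⧸ N)).ne'
    field_simp
  have hpair : ∀ β : IrrCharacter (G ⧸ N), m (Helper4.irrConj β) = m β := by
    intro β
    have h1 : classInner χ (χ' * fun g : G => (Helper4.irrConj β : G ⧸ N → ℂ) (g : G ⧸ N)) =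
        classInner χ (χ' * fun g : G => (β : G ⧸ N → ℂ) (g : G ⧸ N)) := by
      unfold classInner
      congr 1
      rw [← Equiv.sum_comp (powCoprime h.cop.symm)
        (fun g => χ g * conj ((χ' * fun g : G => (β : G ⧸ N → ℂ) (g : G ⧸ N)) g))]
      apply Finset.sum_congr rfl
      intro g _
      show χ g * conj (χ' g * conj ((β : G ⧸ N → ℂ) (g : G ⧸ N))) =
        χ (g ^ k) * conj (χ' (g ^ k) * (β : G ⧸ N → ℂ) ((g ^ k : G) : G ⧸ N))
      rw [hσ, hσ', mk_pow_eq_inv h N hidx g, irr_inv]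
    rw [hm, hm] at h1
    exact_mod_cast h1
  obtain ⟨a, ha⟩ := Helper35.classInner_char_nat hχ hχ'
  obtain ⟨b, hb⟩ := Helper35.classInner_char_nat (Helper35.isCharacter_res N hχ)
    (Helper35.isCharacter_res N hχ')
  have hb' : classInner (fun n : N => χ n) (fun n : N => χ' n) = b := hb
  have hm1 : m Helper4.trivIrr = a := by
    have h1 := hm Helper4.trivIrr
    have h2 : (χ' * fun g : G =>
        ((Helper4.trivIrr : IrrCharacter (G ⧸ N)) : G ⧸ N → ℂ) (g : G ⧸ N)) = χ' := by
      funext g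
      show χ' g * 1 = χ' g
      rw [mul_one]
    rw [h2, ha] at h1
    exact_mod_cast h1.symm
  have hsumN : b = ∑ β : IrrCharacter (G ⧸ N), Helper4.irrDeg β * m β := by
    have h1 : (b : ℂ) = ∑ β : IrrCharacter (G ⧸ N), (Helper4.irrDeg β : ℂ) * (m β : ℂ) := by
      rw [← hb', hexp]
      rfl
    exact_mod_cast h1
  have hsplit := (Finset.add_sum_erase Finset.univ
    (fun β : IrrCharacter (G ⧸ N) => Helper4.irrDeg β * m β)
    (Finset.mem_univ Helper4.trivIrr)).symm
  obtain ⟨t, -, ht⟩ := Helper4.sum_eq_add_of_involution (Helper4.irrConj (G := G ⧸ N))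
    Helper4.irrConj_irrConj (Finset.univ.erase Helper4.trivIrr) (by
      intro β hβ
      have hne : β ≠ Helper4.trivIrr := Finset.ne_of_mem_erase hβ
      refine ⟨Finset.mem_erase.mpr ⟨?_, Finset.mem_univ _⟩, ?_⟩
      · intro h1
        apply hne
        rw [← Helper4.irrConj_irrConj β, h1, Helper4.irrConj_triv]
      · intro h1
        exact hne (Helper4.real_irr_eq_triv hoddQ β ((Helper4.irrConj_eq_self_iff β).mp h1)))
    (fun β => Helper4.irrDeg β * m β) (by
      intro β _
      show Helper4.irrDeg (Helper4.irrConj β) * m (Helper4.irrConj β) = Helper4.irrDeg β * m β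
      rw [Helper4.irrDeg_conj, hpair])
  refine ⟨a, b, ha, hb', ?_⟩
  rw [hsumN, hsplit, ht, Helper4.irrDeg_triv, one_mul, hm1]
  exact ⟨a + ∑ β ∈ t, Helper4.irrDeg β * m β, by ring⟩

/-- uniqueness of the `σ`-fixed character over `θ` -/
theorem unique_fixed {G : Type*} [Group G] [Fintype G] (N : Subgroup G) [hN : N.Normal]
    [Fintype N] (hidx : Odd N.index) {k : ℕ} (h : SigHyp G k) {θ : N → ℂ}
    (hθ : IsIrrCharacter N θ) {χ χ' : G → ℂ} (hχ : IsIrrCharacter G χ)
    (hχ' : IsIrrCharacter G χ')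
    (hc : classInner (fun n : N => χ n) θ ≠ 0) (hc' : classInner (fun n : N => χ' n) θ ≠ 0)
    (hσ : ∀ g, χ (g ^ k) = χ g) (hσ' : ∀ g, χ' (g ^ k) = χ' g) : χ = χ' := by
  classical
  set T := Helper83.inertia N θ with hT
  have hTmem : ∀ g : G, g ∈ T ↔ Helper20.conjFun N θ g = θ :=
    fun g => Helper83.mem_inertia N θ g
  have hNT : N ≤ T := Helper83.le_inertia N hθ
  have htodd : Odd T.index := Odd.of_dvd_nat hidx (Subgroup.index_dvd_of_le hNT)
  have hχc := Helper35.isChar_of_irr hχ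
  have hχc' := Helper35.isChar_of_irr hχ'
  obtain ⟨e, he⟩ := Helper35.classInner_char_nat (Helper35.isCharacter_res N hχc)
    (Helper35.isChar_of_irr hθ)
  obtain ⟨e', he'⟩ := Helper35.classInner_char_nat (Helper35.isCharacter_res N hχc')
    (Helper35.isChar_of_irr hθ)
  have he0 : e ≠ 0 := by
    intro h0
    apply hc
    show classInner (Helper35.res N χ) θ = 0
    rw [he, h0, Nat.cast_zero]
  have he0' : e' ≠ 0 := by
    intro h0
    apply hc'
    show classInner (Helper35.res N χ') θ = 0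
    rw [he', h0, Nat.cast_zero]
  have hTne : (Nat.card T : ℂ) ≠ 0 := by exact_mod_cast (Nat.card_pos (α := T)).ne'
  have hform : ∀ {ψ ψ' : G → ℂ}, IsIrrCharacter G ψ → IsIrrCharacter G ψ' → ∀ (f f' : ℕ),
      classInner (fun n : N => ψ n) θ = f → classInner (fun n : N => ψ' n) θ = f' → f' ≠ 0 →
      classInner (fun n : N => ψ n) (fun n : N => ψ' n) = ((f * f' * T.index : ℕ) : ℂ) := by
    intro ψ ψ' hψ hψ' f f' hf hf' hf0
    have hcon : classInner (fun n : N => ψ' n) θ ≠ 0 := by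
      rw [hf']
      exact_mod_cast hf0
    have hres := Helper20.clifford_res N hθ hψ' hcon T hTmem
    have hres' : ∀ n : N, ψ' n =
        (f' : ℂ) / (Nat.card T : ℂ) * ∑ x : G, Helper20.conjFun N θ x n := by
      intro n
      rw [hres n, hf']
    have hcfψ : IsClassFunction G ψ :=
      Helper35.isClassFunction_of_isCharacter (Helper35.isChar_of_irr hψ)
    have h1 : ∀ x : G, classInner (fun n : N => ψ n) (Helper20.conjFun N θ x) = f := by
      intro x
      rw [Helper20.classInner_res_conjFun N hcfψ θ x, hf]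
    have hconj : conj ((f' : ℂ) / (Nat.card T : ℂ)) = (f' : ℂ) / (Nat.card T : ℂ) := by
      rw [map_div₀, Complex.conj_natCast, Complex.conj_natCast]
    have h2 : classInner (fun n : N => ψ n) (fun n : N => ψ' n) =
        (f' : ℂ) / (Nat.card T : ℂ) *
          ∑ x : G, classInner (fun n : N => ψ n) (Helper20.conjFun N θ x) := by
      simp only [classInner]
      have h3 : ∀ n : N, ψ n * conj (ψ' n) = (f' : ℂ) / (Nat.card T : ℂ) *
          ∑ x : G, ψ n * conj (Helper20.conjFun N θ x n) := by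
        intro n
        rw [hres' n, map_mul, hconj, map_sum, Finset.mul_sum, Finset.mul_sum, Finset.mul_sum]
        apply Finset.sum_congr rfl
        intro x _
        ring
      rw [Finset.sum_congr rfl (fun n _ => h3 n), ← Finset.mul_sum, Finset.sum_comm,
        ← Finset.mul_sum]
      ring
    rw [h2, Finset.sum_congr rfl (fun x _ => h1 x), Finset.sum_const, Finset.card_univ,
      nsmul_eq_mul]
    have hcard : (Fintype.card G : ℂ) = (Nat.card T : ℂ) * (T.index : ℂ) := by
      rw [← Nat.card_eq_fintype_card, ← Subgroup.card_mul_index T]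
      push_cast
      ring
    rw [hcard]
    push_cast
    field_simp
  have hee := hform hχ hχ' e e' he he' he0'
  have hee1 := hform hχ hχ e e he he he0
  have hee2 := hform hχ' hχ' e' e' he' he' he0'
  obtain ⟨a, b, ha, hb, hev⟩ := parity_res N hidx h hχc hχc' hσ hσ'
  obtain ⟨a1, b1, ha1, hb1, hev1⟩ := parity_res N hidx h hχc hχc hσ hσ
  obtain ⟨a2, b2, ha2, hb2, hev2⟩ := parity_res N hidx h hχc' hχc' hσ' hσ'
  have ha1' : a1 = 1 := by
    have h1 := Helper35.classInner_irr' hχ hχ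
    rw [if_pos rfl, ha1] at h1
    exact_mod_cast h1
  have ha2' : a2 = 1 := by
    have h1 := Helper35.classInner_irr' hχ' hχ'
    rw [if_pos rfl, ha2] at h1
    exact_mod_cast h1
  have hb1' : b1 = e * e * T.index := by
    rw [hb1] at hee1
    exact_mod_cast hee1
  have hb2' : b2 = e' * e' * T.index := by
    rw [hb2] at hee2
    exact_mod_cast hee2
  have hbb : b = e * e' * T.index := by
    rw [hb] at hee
    exact_mod_cast hee
  have ho1 : Odd (e * e * T.index) := by
    rw [ha1', hb1'] at hev1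
    rcases Nat.even_or_odd (e * e * T.index) with hE | hO
    · exfalso
      rw [Nat.even_add] at hev1
      exact (Nat.not_even_one) (hev1.mpr hE)
    · exact hO
  have ho2 : Odd (e' * e' * T.index) := by
    rw [ha2', hb2'] at hev2
    rcases Nat.even_or_odd (e' * e' * T.index) with hE | hO
    · exfalso
      rw [Nat.even_add] at hev2
      exact (Nat.not_even_one) (hev2.mpr hE)
    · exact hO
  have hoe : Odd e := (Nat.odd_mul.mp (Nat.odd_mul.mp ho1).1).1
  have hoe' : Odd e' := (Nat.odd_mul.mp (Nat.odd_mul.mp ho2).1).1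
  have ho : Odd (e * e' * T.index) := Nat.odd_mul.mpr ⟨Nat.odd_mul.mpr ⟨hoe, hoe'⟩, htodd⟩
  have hao : a ≠ 0 := by
    intro h0
    rw [h0, hbb, zero_add] at hev
    exact (Nat.not_even_iff_odd.mpr ho) hev
  have h5 := Helper35.classInner_irr' hχ hχ'
  by_contra hne
  rw [if_neg hne, ha] at h5
  exact hao (by exact_mod_cast h5)

theorem sum_fix_zmod {α : Type*} [Fintype α] [DecidableEq α] (e : ℕ) :
    ∀ (π : Equiv.Perm α), π ^ (2 ^ e) = 1 → ∀ F : α → ZMod 2, (∀ a, F (π a) = F a) →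
      ∑ a, F a = ∑ a ∈ Finset.univ.filter (fun a => π a = a), F a := by
  induction e with
  | zero =>
    intro π hπ F _
    rw [pow_zero, pow_one] at hπ
    subst hπ
    simp
  | succ e ih =>
    intro π hπ F hF
    have h2 : (π ^ 2) ^ (2 ^ e) = 1 := by rw [← pow_mul, ← pow_succ']; exact hπ
    have hF2 : ∀ a, F ((π ^ 2) a) = F a := by
      intro a
      rw [pow_two, Equiv.Perm.mul_apply, hF, hF]
    rw [ih (π ^ 2) h2 F hF2]
    rw [← Finset.sum_filter_add_sum_filter_not (Finset.univ.filter (fun a => (π ^ 2) a = a))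
      (fun a => π a = a)]
    have hA : (Finset.univ.filter (fun a => (π ^ 2) a = a)).filter (fun a => π a = a) =
        Finset.univ.filter (fun a => π a = a) := by
      ext a
      simp only [Finset.mem_filter, Finset.mem_univ, true_and]
      constructor
      · exact fun h => h.2
      · intro h
        exact ⟨by rw [pow_two, Equiv.Perm.mul_apply, h, h], h⟩
    rw [hA]
    have hB : ∑ a ∈ (Finset.univ.filter (fun a => (π ^ 2) a = a)).filter
        (fun a => ¬ π a = a), F a = 0 := by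
      apply Finset.sum_involution (fun a _ => π a)
      · intro a _
        rw [hF]
        exact CharTwo.add_self_eq_zero (F a)
      · intro a ha _
        exact (Finset.mem_filter.mp ha).2
      · intro a ha
        have h1 := (Finset.mem_filter.mp (Finset.mem_filter.mp ha).1).2
        have h3 := (Finset.mem_filter.mp ha).2
        rw [pow_two, Equiv.Perm.mul_apply] at h1
        refine Finset.mem_filter.mpr ⟨Finset.mem_filter.mpr ⟨Finset.mem_univ _, ?_⟩, ?_⟩
        · rw [pow_two, Equiv.Perm.mul_apply, h1]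
        · intro h4
          exact h3 (π.injective h4)
      · intro a ha
        have h1 := (Finset.mem_filter.mp (Finset.mem_filter.mp ha).1).2
        rw [pow_two, Equiv.Perm.mul_apply] at h1
        exact h1
    rw [hB, add_zero]

/-- Galois conjugation as a permutation of the irreducible characters -/
theorem galPerm_exists {G : Type*} [Group G] [Fintype G] {k : ℕ} (h : SigHyp G k) :
    ∃ π : Equiv.Perm (IrrCharacter G), (∀ χ g, (π χ : G → ℂ) g = (χ : G → ℂ) (g ^ k)) ∧
      ∃ e : ℕ, π ^ (2 ^ e) = 1 := by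
  classical
  have := Helper4.irr_finite (G := G)
  have hinj : Function.Injective
      (Helper80.galConj k h.cop : IrrCharacter G → IrrCharacter G) := by
    intro χ χ' hχ
    apply Subtype.ext
    funext g
    obtain ⟨g', rfl⟩ := (powCoprime h.cop.symm).surjective g
    have := congrFun (congrArg Subtype.val hχ) g'
    exact this
  let π : Equiv.Perm (IrrCharacter G) :=
    Equiv.ofBijective _ (Finite.injective_iff_bijective.mp hinj)
  have hπ : ∀ χ g, (π χ : G → ℂ) g = (χ : G → ℂ) (g ^ k) := fun χ g => rfl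
  refine ⟨π, hπ, ?_⟩
  obtain ⟨e, he⟩ := h.pw
  refine ⟨e, ?_⟩
  have hiter : ∀ (n : ℕ) (χ : IrrCharacter G) (g : G),
      ((π ^ n) χ : G → ℂ) g = (χ : G → ℂ) (g ^ (k ^ n)) := by
    intro n
    induction n with
    | zero => intro χ g; simp
    | succ n ih =>
      intro χ g
      rw [pow_succ, Equiv.Perm.mul_apply, ih, hπ, ← pow_mul, ← pow_succ]
  apply Equiv.ext
  intro χ
  apply Subtype.ext
  funext g
  rw [hiter, Equiv.Perm.one_apply]
  have h1 : g ^ (k ^ (2 ^ e)) = g ^ 1 := by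
    rw [pow_eq_pow_iff_modEq]
    exact Nat.ModEq.of_dvd (orderOf_dvd_natCard g) he
  rw [h1, pow_one]

/-- existence of a `σ`-fixed character over `θ` -/
theorem exists_fixed {G : Type*} [Group G] [Fintype G] (N : Subgroup G) [hN : N.Normal]
    [Fintype N] (hidx : Odd N.index) {k : ℕ} (h : SigHyp G k) {θ : N → ℂ}
    (hθ : IsIrrCharacter N θ) (hθσ : ∀ n : N, θ (n ^ k) = θ n) :
    ∃ χ : IrrCharacter G, classInner (fun n : N => (χ : G → ℂ) n) θ ≠ 0 ∧
      ∀ g, (χ : G → ℂ) (g ^ k) = (χ : G → ℂ) g := by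
  classical
  have := Helper4.irr_finite (G := G)
  let _ : Fintype (IrrCharacter G) := Fintype.ofFinite _
  set Ψ := indFun N θ with hΨdef
  have hΨ : IsCharacter G Ψ := Helper35.isCharacter_indFun N (Helper35.isChar_of_irr hθ)
  have hΨcf : IsClassFunction G Ψ := Helper35.isClassFunction_of_isCharacter hΨ
  obtain ⟨b, hb⟩ := Helper4.exists_decomp_of_isCharacter Ψ hΨ
  have hbχ : ∀ χ : IrrCharacter G, classInner Ψ (χ : G → ℂ) = (b χ : ℂ) := by
    intro χ
    conv_lhs => rw [hb]
    exact Helper4.classInner_sum_irr (fun ξ => (b ξ : ℂ)) χ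
  have hmemk : ∀ y : G, y ^ k ∈ N → y ∈ N := by
    intro y hy
    have h1 := pow_succ_mem h N hidx y
    have h2 : y = y ^ (k + 1) * (y ^ k)⁻¹ := by rw [pow_succ]; group
    rw [h2]
    exact N.mul_mem h1 (N.inv_mem hy)
  have hext : ∀ y : G, extendByZero N θ (y ^ k) = extendByZero N θ y := by
    intro y
    by_cases hy : y ∈ N
    · rw [Helper35.ext_mem N θ _ hy, Helper35.ext_mem N θ _ (N.pow_mem hy k)]
      have := hθσ ⟨y, hy⟩
      rw [← this]
      rfl
    · rw [Helper35.ext_not_mem N θ _ hy,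
        Helper35.ext_not_mem N θ _ (fun hyk => hy (hmemk y hyk))]
  have hΨσ : ∀ g, Ψ (g ^ k) = Ψ g := by
    intro g
    show indFun N θ (g ^ k) = indFun N θ g
    unfold indFun
    congr 1
    apply Finset.sum_congr rfl
    intro x _
    have h1 : x⁻¹ * g ^ k * x = (x⁻¹ * g * x) ^ k := by
      have h2 := conj_pow (a := x⁻¹) (b := g) (i := k)
      rw [inv_inv] at h2
      exact h2.symm
    rw [h1, hext]
  obtain ⟨π, hπ, e, hπe⟩ := galPerm_exists h
  have hbπ : ∀ χ : IrrCharacter G, b (π χ) = b χ := by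
    intro χ
    have h1 : classInner Ψ (π χ : G → ℂ) = classInner Ψ (χ : G → ℂ) := by
      unfold classInner
      congr 1
      rw [← Equiv.sum_comp (powCoprime h.cop.symm) (fun g => Ψ g * conj ((χ : G → ℂ) g))]
      apply Finset.sum_congr rfl
      intro g _
      show Ψ g * conj ((π χ : G → ℂ) g) = Ψ (g ^ k) * conj ((χ : G → ℂ) (g ^ k))
      rw [hπ, hΨσ]
    rw [hbχ, hbχ] at h1
    exact_mod_cast h1
  have hnorm : classInner Ψ Ψ = ∑ χ : IrrCharacter G, ((b χ ^ 2 : ℕ) : ℂ) := by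
    conv_lhs => rw [hb]
    rw [Helper4.classInner_sum_sum_irr]
    apply Finset.sum_congr rfl
    intro χ _
    rw [Complex.conj_natCast]
    push_cast
    ring
  set T := Helper83.inertia N θ with hT
  have hNT : N ≤ T := Helper83.le_inertia N hθ
  have hcardT : (Finset.univ.filter (fun x : G => x ∈ T)).card = Nat.card T := by
    rw [Nat.card_eq_fintype_card, Fintype.card_subtype]
  have hnorm2 : classInner Ψ Ψ = (Nat.card N : ℂ)⁻¹ * (Nat.card T : ℂ) := by
    rw [Helper4.frobenius_reciprocity N θ Ψ hΨcf]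
    have h1 : ∀ n : N, Ψ n = (Nat.card N : ℂ)⁻¹ * ∑ x : G, Helper20.conjFun N θ x n :=
      fun n => Helper20.indFun_normal_apply N θ n
    have h2 : classInner θ (fun n : N => Ψ n) =
        (Nat.card N : ℂ)⁻¹ * ∑ x : G, classInner θ (Helper20.conjFun N θ x) := by
      simp only [classInner]
      have h3 : ∀ n : N, θ n * conj (Ψ n) = (Nat.card N : ℂ)⁻¹ *
          ∑ x : G, θ n * conj (Helper20.conjFun N θ x n) := by
        intro n
        rw [h1 n, map_mul, map_inv₀, Complex.conj_natCast, map_sum, Finset.mul_sum,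
          Finset.mul_sum, Finset.mul_sum]
        apply Finset.sum_congr rfl
        intro x _
        ring
      rw [Finset.sum_congr rfl (fun n _ => h3 n), ← Finset.mul_sum, Finset.sum_comm,
        ← Finset.mul_sum]
    rw [h2]
    congr 1
    have h4 : ∀ x : G, classInner θ (Helper20.conjFun N θ x) = if x ∈ T then 1 else 0 := by
      intro x
      rw [Helper35.classInner_irr' hθ (Helper20.conjFun_irr N hθ x)]
      by_cases hx : x ∈ T
      · rw [if_pos hx, if_pos ((Helper83.mem_inertia N θ x).mp hx).symm]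
      · rw [if_neg hx, if_neg (fun h' => hx ((Helper83.mem_inertia N θ x).mpr h'.symm))]
    rw [Finset.sum_congr rfl (fun x _ => h4 x), Finset.sum_boole, hcardT]
  obtain ⟨r, hr⟩ := Subgroup.card_dvd_of_le hNT
  have hrodd : Odd r := by
    have h1 := Subgroup.card_mul_index N
    have h2 := Subgroup.card_mul_index T
    rw [hr] at h2
    have h3 : N.index = r * T.index := by
      have hN0 : 0 < Nat.card N := Nat.card_pos
      apply Nat.eq_of_mul_eq_mul_left hN0
      rw [h1, ← h2]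
      ring
    exact Odd.of_dvd_nat hidx ⟨T.index, h3⟩
  have hsum : ∑ χ : IrrCharacter G, b χ ^ 2 = r := by
    have h1 : (∑ χ : IrrCharacter G, ((b χ ^ 2 : ℕ) : ℂ)) = (r : ℂ) := by
      rw [← hnorm, hnorm2, hr]
      push_cast
      have hN0 : (Nat.card N : ℂ) ≠ 0 := by exact_mod_cast (Nat.card_pos (α := N)).ne'
      field_simp
    exact_mod_cast h1
  have hz : ∑ χ : IrrCharacter G, ((b χ ^ 2 : ℕ) : ZMod 2) = 1 := by
    rw [← Nat.cast_sum, hsum]
    obtain ⟨j, hj⟩ := hrodd
    rw [hj]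
    push_cast
    have h2 : (2 : ZMod 2) = 0 := by decide
    rw [h2, zero_mul, zero_add]
  rw [sum_fix_zmod e π hπe (fun χ => ((b χ ^ 2 : ℕ) : ZMod 2)) (fun χ => by rw [hbπ])] at hz
  obtain ⟨χ, hχmem, hχne⟩ := Finset.exists_ne_zero_of_sum_ne_zero
    (by rw [hz]; exact one_ne_zero)
  have hfix : π χ = χ := (Finset.mem_filter.mp hχmem).2
  refine ⟨χ, ?_, fun g => ?_⟩
  · intro h0
    apply hχne
    have hcf : IsClassFunction G (χ : G → ℂ) :=
      Helper35.isClassFunction_of_isCharacter (Helper35.isChar_of_irr χ.2)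
    have h1 : (b χ : ℂ) = 0 := by
      rw [← hbχ, Helper4.frobenius_reciprocity N θ (χ : G → ℂ) hcf,
        Helper4.classInner_conj_symm, h0, map_zero]
    have h2 : b χ = 0 := by exact_mod_cast h1
    rw [h2]
    simp
  · have h1 := hπ χ g
    rw [hfix] at h1
    exact h1.symm

/-- a `σ`-fixed extension from an arbitrary extension -/
theorem fixed_extension {G : Type*} [Group G] [Fintype G] (N : Subgroup G) [hN : N.Normal]
    [Fintype N] (hidx : Odd N.index) {k : ℕ} (h : SigHyp G k) {θ : N → ℂ}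
    (hθ : IsIrrCharacter N θ) (hθσ : ∀ n : N, θ (n ^ k) = θ n)
    {η : G → ℂ} (hη : IsIrrCharacter G η) (hηN : ∀ n : N, η n = θ n) :
    ∃ χ : G → ℂ, IsIrrCharacter G χ ∧ (∀ n : N, χ n = θ n) ∧ ∀ g, χ (g ^ k) = χ g := by
  have hη' : IsIrrCharacter G (fun g => η (g ^ k)) :=
    Helper80.isIrrCharacter_pow_coprime k h.cop ⟨η, hη⟩
  have hη'N : ∀ n : N, (fun g => η (g ^ k)) n = θ n := by
    intro n
    show η ((n : G) ^ k) = θ n
    have h1 := hηN (n ^ k)
    rw [Subgroup.coe_pow] at h1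
    rw [h1, hθσ]
  obtain ⟨β, hβN, hβ⟩ := Helper20.exists_linear_of_extensions N hθ hη hη' hηN hη'N
  have hβk : ∀ g, η (g ^ k) = ((β g : ℂˣ) : ℂ) * η g := fun g => congrFun hβ g
  obtain ⟨j, hj⟩ := hidx
  have hβm : ∀ g : G, β g ^ N.index = 1 := by
    intro g
    rw [← map_pow]
    have h1 : ((g : G ⧸ N)) ^ N.index = 1 := by
      rw [Subgroup.index_eq_card]
      exact pow_card_eq_one'
    rw [← QuotientGroup.mk_pow] at h1
    exact hβN ⟨_, (QuotientGroup.eq_one_iff _).mp h1⟩
  have hβk1 : ∀ g : G, β g ^ (k + 1) = 1 := by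
    intro g
    rw [← map_pow]
    exact hβN ⟨_, pow_succ_mem h N ⟨j, hj⟩ g⟩
  refine ⟨η * fun g => (((β ^ (j + 1)) g : ℂˣ) : ℂ),
    Helper84.irr_mul_linear hη (Helper83.isIrr_of_hom (β ^ (j + 1))) (by simp), ?_, ?_⟩
  · intro n
    show η n * (((β ^ (j + 1)) (n : G) : ℂˣ) : ℂ) = θ n
    have h1 : (β ^ (j + 1)) (n : G) = 1 := by
      rw [MonoidHom.pow_apply, hβN n, one_pow]
    rw [h1, hηN, Units.val_one, mul_one]
  · intro g
    show η (g ^ k) * (((β ^ (j + 1)) (g ^ k) : ℂˣ) : ℂ) = η g * (((β ^ (j + 1)) g : ℂˣ) : ℂ)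
    rw [hβk]
    have hu : β g * (β ^ (j + 1)) (g ^ k) = (β ^ (j + 1)) g := by
      rw [MonoidHom.pow_apply, MonoidHom.pow_apply, map_pow, ← pow_mul, ← pow_succ']
      have e1 : β g ^ (k * (j + 1) + 1) * β g ^ N.index =
          β g ^ (j + 1) * (β g ^ (k + 1)) ^ (j + 1) := by
        rw [← pow_add, ← pow_mul, ← pow_add, hj]
        congr 1
        ring
      rw [hβm, hβk1, one_pow, mul_one, mul_one] at e1
      exact e1
    have hu' : ((β g : ℂˣ) : ℂ) * (((β ^ (j + 1)) (g ^ k) : ℂˣ) : ℂ) =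
        (((β ^ (j + 1)) g : ℂˣ) : ℂ) := by
      rw [← Units.val_mul, hu]
    rw [← hu']
    ring


/-- transport of a function on `N` to `N.subgroupOf P` -/
def subFun {G : Type*} [Group G] (N P : Subgroup G) (θ : N → ℂ) : N.subgroupOf P → ℂ :=
  fun x => θ ⟨((x : P) : G), Subgroup.mem_subgroupOf.mp x.2⟩

theorem subFun_irr {G : Type*} [Group G] (N P : Subgroup G) (hNP : N ≤ P) {θ : N → ℂ}
    (hθ : IsIrrCharacter N θ) : IsIrrCharacter (N.subgroupOf P) (subFun N P θ) :=
  Helper20.irr_comp_surjective (Subgroup.subgroupOfEquivOfLe hNP).toMonoidHom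
    (Subgroup.subgroupOfEquivOfLe hNP).surjective hθ

theorem subFun_pow {G : Type*} [Group G] (N P : Subgroup G) {θ : N → ℂ} {k : ℕ}
    (hθσ : ∀ n : N, θ (n ^ k) = θ n) (x : N.subgroupOf P) :
    subFun N P θ (x ^ k) = subFun N P θ x := by
  have h := hθσ ⟨((x : P) : G), Subgroup.mem_subgroupOf.mp x.2⟩
  have e : (⟨(((x ^ k : N.subgroupOf P) : P) : G), Subgroup.mem_subgroupOf.mp (x ^ k).2⟩ : N) =
      (⟨((x : P) : G), Subgroup.mem_subgroupOf.mp x.2⟩ : N) ^ k := by
    apply Subtype.ext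
    simp
  unfold subFun
  rw [e, h]

theorem subFun_inv {G : Type*} [Group G] (N P : Subgroup G) [N.Normal] {θ : N → ℂ}
    (hinv : ∀ g : G, Helper20.conjFun N θ g = θ) (p : P) :
    Helper20.conjFun (N.subgroupOf P) (subFun N P θ) p = subFun N P θ := by
  funext x
  have h := congrFun (hinv (p : G)) ⟨((x : P) : G), Subgroup.mem_subgroupOf.mp x.2⟩
  exact h

/-- extension of an invariant `σ`-fixed character to a `σ`-fixed character when the quotient
is solvable of odd order -/
theorem ext_solv : ∀ (n : ℕ) (H : Type u) [Group H] [Fintype H] (L : Subgroup H) [L.Normal]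
    [Fintype L] {k : ℕ}, L.index = n → Odd L.index → Group.IsSolvable (H ⧸ L) → SigHyp H k →
    ∀ (θ : L → ℂ), IsIrrCharacter L θ → (∀ x : L, θ (x ^ k) = θ x) →
    (∀ g : H, Helper20.conjFun L θ g = θ) →
    ∃ χ : H → ℂ, IsIrrCharacter H χ ∧ (∀ x : L, χ x = θ x) ∧ ∀ g, χ (g ^ k) = χ g := by
  intro n
  induction n using Nat.strong_induction_on with
  | _ n ih =>
    intro H _ _ L hLn _ k hn hodd hsolv hsig θ hθ hθσ hinv
    classical
    by_cases hLtop : L = ⊤
    · have hmem : ∀ h : H, h ∈ L := fun h => by rw [hLtop]; exact Subgroup.mem_top h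
      let f : H →* L :=
        { toFun := fun h => ⟨h, hmem h⟩
          map_one' := rfl
          map_mul' := fun _ _ => rfl }
      have hf : Function.Surjective f := fun x => ⟨x.1, Subtype.ext rfl⟩
      refine ⟨fun h => θ (f h), Helper20.irr_comp_surjective f hf hθ, fun x => ?_, fun g => ?_⟩
      · show θ (f (x : H)) = θ x
        congr 1
      · show θ (f (g ^ k)) = θ (f g)
        rw [map_pow, hθσ]
    · obtain ⟨M, p, hMn, hLM, hp, hMidx, hcomm⟩ :=
        Helper20.exists_normal_prime_index L hLtop hsolv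
      haveI := hMn
      let _ : Fintype M := Fintype.ofFinite _
      let _ : Fintype (L.subgroupOf M) := Fintype.ofFinite _
      have hrel : (L.subgroupOf M).index * M.index = L.index := Subgroup.relIndex_mul_index hLM
      have hpos : 0 < (L.subgroupOf M).index :=
        Nat.pos_of_ne_zero Subgroup.index_ne_zero_of_finite
      have hlt : (L.subgroupOf M).index < n := by
        rw [← hn, ← hrel, hMidx]
        exact lt_mul_of_one_lt_right hpos hp.one_lt
      have hodd' : Odd (L.subgroupOf M).index :=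
        Odd.of_dvd_nat hodd (Subgroup.relIndex_dvd_index_of_normal L M)
      have hsolv' : Group.IsSolvable (M ⧸ L.subgroupOf M) :=
        @Helper20.solvable_quotient_subgroupOf H _ L M _ hsolv
      have hθ' : IsIrrCharacter (L.subgroupOf M) (subFun L M θ) := subFun_irr L M hLM hθ
      obtain ⟨θ₁, hθ₁, hθ₁L, hθ₁σ⟩ := ih _ hlt (↥M) (L.subgroupOf M) rfl hodd' hsolv'
        (hsig.sub M) (subFun L M θ) hθ' (subFun_pow L M hθσ) (subFun_inv L M hinv)
      have hresθ₁ : ∀ g : H,
          (fun x : L.subgroupOf M => Helper20.conjFun M θ₁ g x) = subFun L M θ := by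
        intro g
        funext x
        have hxL : ((x : M) : H) ∈ L := Subgroup.mem_subgroupOf.mp x.2
        have hgL : g * ((x : M) : H) * g⁻¹ ∈ L := hLn.conj_mem _ hxL g
        have h1 := hθ₁L ⟨⟨g * ((x : M) : H) * g⁻¹, hMn.conj_mem _ (x : M).2 g⟩,
          Subgroup.mem_subgroupOf.mpr hgL⟩
        have h2 := congrFun (hinv g) ⟨((x : M) : H), hxL⟩
        exact h1.trans h2
      have hsub1 : classInner (subFun L M θ) (subFun L M θ) = 1 := by
        rw [Helper35.classInner_irr' hθ' hθ', if_pos rfl]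
      have hθ₁inv : ∀ g : H, Helper20.conjFun M θ₁ g = θ₁ := by
        intro g
        apply unique_fixed (L.subgroupOf M) hodd' (hsig.sub M) hθ'
          (Helper20.conjFun_irr M hθ₁ g) hθ₁
        · rw [hresθ₁ g, hsub1]
          exact one_ne_zero
        · have h3 : (fun x : L.subgroupOf M => θ₁ x) = subFun L M θ := funext hθ₁L
          rw [h3, hsub1]
          exact one_ne_zero
        · intro m
          have e : (⟨g * ((m ^ k : M) : H) * g⁻¹, hMn.conj_mem _ (m ^ k).2 g⟩ : M) =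
              (⟨g * (m : H) * g⁻¹, hMn.conj_mem _ m.2 g⟩ : M) ^ k := by
            apply Subtype.ext
            show g * ((m ^ k : M) : H) * g⁻¹ =
              (((⟨g * (m : H) * g⁻¹, hMn.conj_mem _ m.2 g⟩ : M) ^ k : M) : H)
            rw [Subgroup.coe_pow, Subgroup.coe_pow]
            show g * (m : H) ^ k * g⁻¹ = (g * (m : H) * g⁻¹) ^ k
            rw [conj_pow]
          show θ₁ ⟨g * ((m ^ k : M) : H) * g⁻¹, hMn.conj_mem _ (m ^ k).2 g⟩ =
            θ₁ ⟨g * (m : H) * g⁻¹, hMn.conj_mem _ m.2 g⟩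
          rw [e, hθ₁σ]
        · exact hθ₁σ
      obtain ⟨χ₁, hχ₁, hχ₁M⟩ := Helper20.extends_of_prime_index M p hp hMidx hcomm θ₁ hθ₁
        (fun g m => congrFun (hθ₁inv g) m)
      have hoddM : Odd M.index := Odd.of_dvd_nat hodd (Subgroup.index_dvd_of_le hLM)
      obtain ⟨χ, hχ, hχM, hχσ⟩ := fixed_extension M hoddM hsig hθ₁ hθ₁σ hχ₁ hχ₁M
      refine ⟨χ, hχ, fun x => ?_, hχσ⟩
      have h1 := hχM ⟨(x : H), hLM x.2⟩
      have h2 := hθ₁L ⟨⟨(x : H), hLM x.2⟩, Subgroup.mem_subgroupOf.mpr x.2⟩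
      exact h1.trans h2

/-- a subgroup of index prime to `p` above `N` with a `p`-group quotient -/
theorem sylow_sub {G : Type u} [Group G] [Fintype G] (N : Subgroup G) [hN : N.Normal] (p : ℕ)
    (hp : p.Prime) :
    ∃ P : Subgroup G, N ≤ P ∧ Nat.Coprime P.index p ∧
      Group.IsSolvable (P ⧸ N.subgroupOf P) := by
  haveI : Fact p.Prime := ⟨hp⟩
  obtain ⟨S⟩ := (inferInstance : Nonempty (Sylow p (G ⧸ N)))
  refine ⟨(S : Subgroup (G ⧸ N)).comap (QuotientGroup.mk' N), ?_, ?_, ?_⟩
  · intro n hn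
    rw [Subgroup.mem_comap]
    have h1 : (QuotientGroup.mk' N) n = 1 := (QuotientGroup.eq_one_iff n).mpr hn
    rw [h1]
    exact Subgroup.one_mem _
  · rw [Subgroup.index_comap_of_surjective _ (QuotientGroup.mk'_surjective N)]
    exact ((Nat.Prime.coprime_iff_not_dvd hp).mpr S.not_dvd_index).symm
  · have hpg : IsPGroup p (((S : Subgroup (G ⧸ N)).comap (QuotientGroup.mk' N)) ⧸
        N.subgroupOf ((S : Subgroup (G ⧸ N)).comap (QuotientGroup.mk' N))) := by
      intro q
      obtain ⟨m, rfl⟩ := QuotientGroup.mk_surjective q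
      have hm : (QuotientGroup.mk' N) (m : G) ∈ (S : Subgroup (G ⧸ N)) :=
        Subgroup.mem_comap.mp m.2
      obtain ⟨j, hj⟩ := S.isPGroup' ⟨_, hm⟩
      refine ⟨j, ?_⟩
      have h1 : ((QuotientGroup.mk' N) (m : G)) ^ (p ^ j) = 1 := by
        have h0 := congrArg Subtype.val hj
        simpa using h0
      rw [← map_pow] at h1
      have h2 : (m : G) ^ (p ^ j) ∈ N := (QuotientGroup.eq_one_iff _).mp h1
      rw [← QuotientGroup.mk_pow]
      apply (QuotientGroup.eq_one_iff _).mpr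
      apply Subgroup.mem_subgroupOf.mpr
      rw [Subgroup.coe_pow]
      exact h2
    haveI := hpg.isNilpotent
    infer_instance

/-- an invariant `σ`-fixed irreducible character of a normal subgroup of odd index has a
`σ`-fixed extension -/
theorem ext_gen {G : Type u} [Group G] [Fintype G] (N : Subgroup G) [hN : N.Normal]
    [Fintype N] (hidx : Odd N.index) {k : ℕ} (hsig : SigHyp G k) {θ : N → ℂ}
    (hθ : IsIrrCharacter N θ) (hθσ : ∀ n : N, θ (n ^ k) = θ n)
    (hinv : ∀ g : G, Helper20.conjFun N θ g = θ) :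
    ∃ χ : G → ℂ, IsIrrCharacter G χ ∧ (∀ n : N, χ n = θ n) ∧ ∀ g, χ (g ^ k) = χ g := by
  classical
  have hθ' := hθ
  obtain ⟨d, σ, hσirr, hσchar⟩ := hθ'
  have hsyl : ∀ p : ℕ, p.Prime → ∃ (P : Subgroup G) (hNP : N ≤ P)
      (τ : Representation ℂ P (Fin d → ℂ)), Nat.Coprime P.index p ∧
        ∀ n : N, τ ⟨n, hNP n.2⟩ = σ n := by
    intro p hp
    obtain ⟨P, hNP, hcop, hsolvP⟩ := sylow_sub N p hp
    let _ : Fintype P := Fintype.ofFinite _
    let _ : Fintype (N.subgroupOf P) := Fintype.ofFinite _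
    have hoddP : Odd (N.subgroupOf P).index :=
      Odd.of_dvd_nat hidx (Subgroup.relIndex_dvd_index_of_normal N P)
    obtain ⟨η, hη, hηN, -⟩ := ext_solv _ (↥P) (N.subgroupOf P) rfl hoddP hsolvP (hsig.sub P)
      (subFun N P θ) (subFun_irr N P hNP hθ) (subFun_pow N P hθσ) (subFun_inv N P hinv)
    obtain ⟨τ, hτ⟩ := Helper83.exists_rep_of_char N σ hNP η (Helper35.isChar_of_irr hη)
      (fun n => by
        rw [hσchar]
        exact hηN ⟨⟨n, hNP n.2⟩, Subgroup.mem_subgroupOf.mpr n.2⟩)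
    exact ⟨P, hNP, τ, hcop, hτ⟩
  have hinv' : ∀ (g : G) (n m : N), (m : G) = g * n * g⁻¹ →
      σ.character m = σ.character n := by
    intro g n m hm
    rw [hσchar]
    have h := congrFun (hinv g) n
    rw [← h]
    show θ m = θ ⟨g * n * g⁻¹, hN.conj_mem n n.2 g⟩
    congr 1
    exact Subtype.ext hm
  obtain ⟨ρ, hρ⟩ := Helper83.exists_rep_extension_of_sylow N σ hσirr hinv' hsyl
  have hρirr : ρ.IsIrreducible := Helper83.irreducible_of_equiv σ ρ (LinearEquiv.refl ℂ _)
    (fun n => ⟨(n : G), fun v => by rw [hρ n]; rfl⟩) hσirr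
  have hη : IsIrrCharacter G ρ.character := ⟨d, ρ, hρirr, rfl⟩
  have hηN : ∀ n : N, ρ.character n = θ n := by
    intro n
    rw [← hσchar]
    exact congrArg (LinearMap.trace ℂ (Fin d → ℂ)) (hρ n)
  exact fixed_extension N hidx hsig hθ hθσ hη hηN

/-- Let N be a normal subgroup of odd index in the finite group G, and let k be coprime to the order of G with k ^ (2 ^ e) ≡ 1 modulo the order of G for some e and g ^ k = g⁻¹ for every element g of odd order (so g ↦ g ^ k induces a field automorphism of 2-power order inverting the roots of unity of odd order). If an irreducible character θ of N satisfies θ (n ^ k) = θ n for all n, then there is exactly one irreducible character χ of G with θ a constituent of its restriction to N and χ (g ^ k) = χ g for all g; moreover, if θ is invariant under conjugation by G, that χ restricts to θ. -/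
theorem result {G : Type*} [Group G] [Fintype G] (N : Subgroup G) [hN : N.Normal] [Fintype N] (hidx : Odd N.index) (k e : ℕ) (hk : Nat.Coprime k (Nat.card G)) (hke : k ^ (2 ^ e) ≡ 1 [MOD Nat.card G]) (hk₂ : ∀ g : G, Odd (orderOf g) → g ^ k = g⁻¹) (θ : Cfsg.IrrCharacter N) (hθ : ∀ n : N, (θ : N → ℂ) (n ^ k) = (θ : N → ℂ) n) : ∃ χ : Cfsg.IrrCharacter G, (Cfsg.classInner (fun n : N => (χ : G → ℂ) n) (θ : N → ℂ) ≠ 0 ∧ (∀ g : G, (χ : G → ℂ) (g ^ k) = (χ : G → ℂ) g) ∧ ((∀ g : G, ∀ n : N, (θ : N → ℂ) ⟨g * n * g⁻¹, hN.conj_mem n n.2 g⟩ = (θ : N → ℂ) n) → ∀ n : N, (χ : G → ℂ) n = (θ : N → ℂ) n)) ∧ ∀ χ' : Cfsg.IrrCharacter G, Cfsg.classInner (fun n : N => (χ' : G → ℂ) n) (θ : N → ℂ) ≠ 0 → (∀ g : G, (χ' : G → ℂ) (g ^ k) = (χ' : G → ℂ) g) → χ' = χ := by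
  have hsig : SigHyp G k := ⟨hk, hk₂, ⟨e, hke⟩⟩
  obtain ⟨χ, hχc, hχσ⟩ := exists_fixed N hidx hsig θ.2 hθ
  refine ⟨χ, ⟨hχc, hχσ, ?_⟩, ?_⟩
  · intro hinv
    have hinv' : ∀ g : G, Helper20.conjFun N (θ : N → ℂ) g = (θ : N → ℂ) :=
      fun g => funext (fun n => hinv g n)
    obtain ⟨χ₀, hχ₀, hχ₀N, hχ₀σ⟩ := ext_gen N hidx hsig θ.2 hθ hinv'
    have h1 : classInner (fun n : N => χ₀ n) (θ : N → ℂ) ≠ 0 := by
      have h3 : (fun n : N => χ₀ n) = (θ : N → ℂ) := funext hχ₀N
      rw [h3, Helper35.classInner_irr' θ.2 θ.2, if_pos rfl]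
      exact one_ne_zero
    have h2 : χ₀ = (χ : G → ℂ) := unique_fixed N hidx hsig θ.2 hχ₀ χ.2 h1 hχc hχ₀σ hχσ
    intro n
    rw [← h2]
    exact hχ₀N n
  · intro χ' hc' hσ'
    apply Subtype.ext
    exact unique_fixed N hidx hsig θ.2 χ'.2 χ.2 hc' hχc hσ' hχσ

end Cfsg.Agent.S4519
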