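import Cfsg.Statements.S4520
import Cfsg.Agent.Lib.Helper80.Twist
import Cfsg.Agent.Lib.Helper84.RealOver
import Cfsg.Agent.S0964
import Cfsg.Agent.S0965

set_option autoImplicit false
open Cfsg

namespace Cfsg.Agent.S4520

open Cfsg.Agent.S4517 Cfsg.Agent.Lib.Helper80
open Cfsg.Agent.Lib.Helper4 Cfsg.Agent.Lib.Helper21 Cfsg.Agent.Lib.Helper22
open scoped ComplexConjugate

open scoped Classical in
/-- Let `N` be a normal subgroup of odd index.  A `2`-block of `G` stable under the twist by `k`
(inverting the elements of odd order), one of whose members has central character congruent to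
that of the principal character on the classes contained in `N`, contains the principal
character. -/
theorem twist_block_over_principal {G : Type*} [Group G] [Fintype G] {M : Ideal AlgInt}
    (hM : IsPModular 2 M) (N : Subgroup G) [N.Normal] (hidx : Odd N.index)
    (B : Set (IrrCharacter G)) (hB : IsPBlock M B)
    (k : ℕ) (hk : Nat.Coprime k (Nat.card G)) (hk₂ : ∀ g : G, Odd (orderOf g) → g ^ k = g⁻¹)
    (hst : ∀ χ, tw k hk χ ∈ B ↔ χ ∈ B) (χ₀ : IrrCharacter G) (hχ₀ : χ₀ ∈ B)
    (hN : ∀ n : G, n ∈ N → MemLocalIdeal M (centralChar (χ₀ : G → ℂ) n -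
      centralChar (Cfsg.Agent.Lib.Helper83.trivIrr G : G → ℂ) n)) :
    Cfsg.Agent.Lib.Helper83.trivIrr G ∈ B := by
  by_contra hτ
  have h1 := Cfsg.Agent.Lib.Helper79.block_class_sum B χ₀
  rw [if_pos hχ₀] at h1
  have h0 := Cfsg.Agent.Lib.Helper79.block_class_sum B (Cfsg.Agent.Lib.Helper83.trivIrr G)
  rw [if_neg hτ] at h0
  have hinv : ∀ g : G, blockCoeff B g⁻¹ = blockCoeff B g := by
    intro g
    by_cases hs : 2 ∣ orderOf g
    · have e1 : blockCoeff B g = 0 := by
        by_contra hne
        exact pRegular_of_blockCoeff_ne_zero hM B hB _ hne hs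
      have e2 : blockCoeff B g⁻¹ = 0 := by
        by_contra hne
        exact pRegular_of_blockCoeff_ne_zero hM B hB _ hne (by rwa [orderOf_inv])
      rw [e1, e2]
    · have hodd : Odd (orderOf g) := by
        rw [← Nat.not_even_iff_odd, even_iff_two_dvd]
        exact hs
      rw [← hk₂ g hodd]
      exact blockCoeff_pow k hk B hst g
  have hsame : ∀ g : G, Odd (orderOf g) → MemLocalIdeal M
      (centralChar (χ₀ : G → ℂ) g⁻¹ - centralChar (χ₀ : G → ℂ) g) := by
    intro g hodd
    have h2 : tw k hk χ₀ ∈ blockOf M (χ₀ : G → ℂ) := by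
      rw [← Cfsg.Agent.Lib.Helper79.blockOf_eq_of_mem hM hB hχ₀]
      exact (hst χ₀).2 hχ₀
    have h3 : centralChar (tw k hk χ₀ : G → ℂ) g = centralChar (χ₀ : G → ℂ) g⁻¹ := by
      unfold centralChar
      rw [Cfsg.Agent.Lib.Helper79.centralizer_singleton_inv, tw_apply, tw_apply, one_pow,
        hk₂ g hodd]
    have h4 := locIdeal_neg (h2 g)
    rwa [neg_sub, h3] at h4
  have hτinv : ∀ g : G, centralChar (Cfsg.Agent.Lib.Helper83.trivIrr G : G → ℂ) g⁻¹
      = centralChar (Cfsg.Agent.Lib.Helper83.trivIrr G : G → ℂ) g := by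
    intro g
    unfold centralChar
    rw [Cfsg.Agent.Lib.Helper79.centralizer_singleton_inv]
    simp only [Cfsg.Agent.Lib.Helper83.trivIrr_apply]
  have hτcf : IsClassFunction G (Cfsg.Agent.Lib.Helper83.trivIrr G : G → ℂ) :=
    isClassFunction_irr _
  have hχcf : IsClassFunction G (χ₀ : G → ℂ) := isClassFunction_irr _
  have hsum : ∑ c : ConjClasses G, blockCoeff B (Quotient.out c) *
      (centralChar (χ₀ : G → ℂ) (Quotient.out c) -
        centralChar (Cfsg.Agent.Lib.Helper83.trivIrr G : G → ℂ) (Quotient.out c)) = 1 := by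
    simp only [mul_sub, Finset.sum_sub_distrib, h1, h0, sub_zero]
  have hout : ∀ x : G, IsConj (Quotient.out (ConjClasses.mk x)) x := by
    intro x
    rw [← ConjClasses.mk_eq_mk_iff_isConj, ← ConjClasses.quotient_mk_eq_mk]
    exact Quotient.out_eq _
  have hmk : ∀ c : ConjClasses G, ConjClasses.mk (Quotient.out c) = c := by
    intro c
    rw [← ConjClasses.quotient_mk_eq_mk]
    exact Quotient.out_eq c
  have hmem : MemLocalIdeal M (∑ c : ConjClasses G, blockCoeff B (Quotient.out c) *
      (centralChar (χ₀ : G → ℂ) (Quotient.out c) -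
        centralChar (Cfsg.Agent.Lib.Helper83.trivIrr G : G → ℂ) (Quotient.out c))) := by
    rw [← Cfsg.Agent.Lib.Helper79.mem_locIdealAddSubgroup hM]
    apply Cfsg.Agent.Lib.Helper79.sum_mem_of_involution
      (Cfsg.Agent.Lib.Helper79.locIdealAddSubgroup hM) Finset.univ _
      (fun c : ConjClasses G => ConjClasses.mk (Quotient.out c)⁻¹)
    · intro a _
      exact Finset.mem_univ _
    · intro c _
      have h2 : IsConj (Quotient.out (ConjClasses.mk (Quotient.out c)⁻¹))⁻¹ (Quotient.out c) := by
        have h3 := Cfsg.Agent.Lib.Helper79.isConj_inv_of_isConj (hout (Quotient.out c)⁻¹)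
        rwa [inv_inv] at h3
      show ConjClasses.mk (Quotient.out (ConjClasses.mk (Quotient.out c)⁻¹))⁻¹ = c
      rw [ConjClasses.mk_eq_mk_iff_isConj.2 h2]
      exact hmk c
    · intro c _
      rw [Cfsg.Agent.Lib.Helper79.mem_locIdealAddSubgroup]
      have hc := hout (Quotient.out c)⁻¹
      rw [Cfsg.Agent.Lib.Helper79.classFunction_eq_of_isConj (blockCoeff_isClassFunction B) hc,
        hinv, Cfsg.Agent.Lib.Helper79.centralChar_eq_of_isConj _ hχcf hc,
        Cfsg.Agent.Lib.Helper79.centralChar_eq_of_isConj _ hτcf hc, hτinv]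
      by_cases hs : 2 ∣ orderOf (Quotient.out c)
      · have e1 : blockCoeff B (Quotient.out c) = 0 := by
          by_contra hne
          exact pRegular_of_blockCoeff_ne_zero hM B hB _ hne hs
        rw [e1, zero_mul, zero_mul, add_zero]
        exact locIdeal_zero hM
      · have hodd : Odd (orderOf (Quotient.out c)) := by
          rw [← Nat.not_even_iff_odd, even_iff_two_dvd]
          exact hs
        have h4 : blockCoeff B (Quotient.out c) *
            (centralChar (χ₀ : G → ℂ) (Quotient.out c) -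
              centralChar (Cfsg.Agent.Lib.Helper83.trivIrr G : G → ℂ) (Quotient.out c)) +
            blockCoeff B (Quotient.out c) *
            (centralChar (χ₀ : G → ℂ) (Quotient.out c)⁻¹ -
              centralChar (Cfsg.Agent.Lib.Helper83.trivIrr G : G → ℂ) (Quotient.out c))
            = blockCoeff B (Quotient.out c) *
              (((2 : ℕ) : ℂ) * (centralChar (χ₀ : G → ℂ) (Quotient.out c) -
                centralChar (Cfsg.Agent.Lib.Helper83.trivIrr G : G → ℂ) (Quotient.out c)) +
              (centralChar (χ₀ : G → ℂ) (Quotient.out c)⁻¹ -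
                centralChar (χ₀ : G → ℂ) (Quotient.out c))) := by
          push_cast
          ring
        rw [h4]
        apply locIdeal_mul_left hM (osima hM B hB _)
        apply locIdeal_add hM _ (hsame _ hodd)
        apply locIdeal_mul_right hM ((locIdeal_natCast_iff hM 2).2 dvd_rfl)
        exact locRing_sub hM (centralChar_locRing hM χ₀ _) (centralChar_locRing hM _ _)
    · intro c _ hfix
      rw [Cfsg.Agent.Lib.Helper79.mem_locIdealAddSubgroup]
      have hrealc : IsConj (Quotient.out c) (Quotient.out c)⁻¹ := by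
        rw [← ConjClasses.mk_eq_mk_iff_isConj, hfix, hmk]
      obtain ⟨t, ht⟩ := isConj_iff.1 hrealc
      have hmemN : Quotient.out c ∈ N :=
        Cfsg.Agent.Lib.Helper84.mem_of_inverted N hidx (Quotient.out c) t ht
      exact locIdeal_mul_left hM (osima hM B hB _) (hN _ hmemN)
  rw [hsum] at hmem
  exact locIdeal_one_not hM hmem

/-- Let N be a normal subgroup of odd index in the finite group G, M a maximal ideal of the algebraic integers containing 2, and k coprime to the order of G with k ^ (2 ^ e) ≡ 1 modulo the order of G for some e and g ^ k = g⁻¹ for every element g of odd order. Let θ be an irreducible character of N and χ an irreducible character of G over θ, both unchanged by composing with g ↦ g ^ k. Then χ lies in the principal 2-block of G if and only if θ lies in the principal 2-block of N. -/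
theorem result {G : Type*} [Group G] [Fintype G] (M : Ideal Cfsg.AlgInt) (hM : Cfsg.IsPModular 2 M) (N : Subgroup G) [N.Normal] [Fintype N] (hidx : Odd N.index) (k e : ℕ) (hk : Nat.Coprime k (Nat.card G)) (hke : k ^ (2 ^ e) ≡ 1 [MOD Nat.card G]) (hk₂ : ∀ g : G, Odd (orderOf g) → g ^ k = g⁻¹) (θ : Cfsg.IrrCharacter N) (hθ : ∀ n : N, (θ : N → ℂ) (n ^ k) = (θ : N → ℂ) n) (χ : Cfsg.IrrCharacter G) (hχ : ∀ g : G, (χ : G → ℂ) (g ^ k) = (χ : G → ℂ) g) (hover : Cfsg.classInner (fun n : N => (χ : G → ℂ) n) (θ : N → ℂ) ≠ 0) : χ ∈ Cfsg.principalBlock M G ↔ θ ∈ Cfsg.principalBlock M N := by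
  classical
  have : Fact (Nat.Prime 2) := ⟨Nat.prime_two⟩
  have hBG : IsPBlock M (principalBlock M G) := Cfsg.Agent.Lib.Helper79.isPBlock_principalBlock
  have hBN : IsPBlock M (principalBlock M N) := Cfsg.Agent.Lib.Helper79.isPBlock_principalBlock
  have htG : Cfsg.Agent.Lib.Helper83.trivIrr G ∈ principalBlock M G :=
    Cfsg.Agent.Lib.Helper79.trivIrr_mem_principalBlock hM
  have htN : Cfsg.Agent.Lib.Helper83.trivIrr N ∈ principalBlock M N :=
    Cfsg.Agent.Lib.Helper79.trivIrr_mem_principalBlock hM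
  have hcon1 : classInner (fun n : N => (Cfsg.Agent.Lib.Helper83.trivIrr G : G → ℂ) n)
      (Cfsg.Agent.Lib.Helper83.trivIrr N : N → ℂ) ≠ 0 := by
    have h1 : (fun n : N => (Cfsg.Agent.Lib.Helper83.trivIrr G : G → ℂ) n) =
        (Cfsg.Agent.Lib.Helper83.trivIrr N : N → ℂ) := by
      funext n
      simp only [Cfsg.Agent.Lib.Helper83.trivIrr_apply]
    rw [h1, classInner_irr, if_pos rfl]
    exact one_ne_zero
  constructor
  · intro hχB
    obtain ⟨g, θ', hθ', hψ⟩ := Cfsg.Agent.S0964.result 2 M hM N (principalBlock M G) hBG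
      (principalBlock M N) hBN (Cfsg.Agent.Lib.Helper83.trivIrr G) htG
      (Cfsg.Agent.Lib.Helper83.trivIrr N) htN hcon1 χ hχB θ hover
    have h1 : SameBlock M (Cfsg.Agent.Lib.Helper20.conjFun N (fun _ : N => (1 : ℂ)) g)
        (Cfsg.Agent.Lib.Helper20.conjFun N (θ' : N → ℂ) g) := sameBlock_conjFun N hθ' g
    have h2 : (θ : N → ℂ) = Cfsg.Agent.Lib.Helper20.conjFun N (θ' : N → ℂ) g := by
      funext n
      exact hψ n
    show SameBlock M (fun _ : N => (1 : ℂ)) (θ : N → ℂ)
    rw [h2]
    exact h1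
  · intro hθB
    have hNcong : ∀ n : G, n ∈ N → MemLocalIdeal M (centralChar (χ : G → ℂ) n -
        centralChar (Cfsg.Agent.Lib.Helper83.trivIrr G : G → ℂ) n) := by
      intro n hn
      have e1 := (Cfsg.Agent.S0963.result N χ θ).mp hover ⟨n, hn⟩
      have e2 := (Cfsg.Agent.S0965.result 2 M hM N (principalBlock M G) hBG
        (principalBlock M N) hBN).mp
        ⟨Cfsg.Agent.Lib.Helper83.trivIrr G, htG, Cfsg.Agent.Lib.Helper83.trivIrr N, htN, hcon1⟩
        (Cfsg.Agent.Lib.Helper83.trivIrr G) htG θ hθB ⟨n, hn⟩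
      have e3 : centralChar (χ : G → ℂ) n = inducedCentralChar N (θ : N → ℂ) n := e1
      rw [e3]
      have e4 := locIdeal_neg e2
      rw [neg_sub] at e4
      exact e4
    have : Finite (IrrCharacter G) := irr_finite
    have hfix : tw k hk χ = χ := (tw_eq_self_iff k hk χ).2 hχ
    have hfwd : ∀ ψ ∈ blockOf M (χ : G → ℂ), tw k hk ψ ∈ blockOf M (χ : G → ℂ) := by
      intro ψ hψ
      have h1 := sameBlock_tw k hk χ ψ hψ
      rw [hfix] at h1
      exact h1
    have hst : ∀ ψ, tw k hk ψ ∈ blockOf M (χ : G → ℂ) ↔ ψ ∈ blockOf M (χ : G → ℂ) :=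
      fun ψ => mem_iff_of_inj (tw k hk) (tw_injective k hk) _ hfwd ψ
    have hτ := twist_block_over_principal hM N hidx (blockOf M (χ : G → ℂ)) ⟨χ, rfl⟩ k hk hk₂ hst
      χ (Cfsg.Agent.Lib.Helper79.mem_blockOf_self hM χ) hNcong
    exact Cfsg.Agent.Lib.Helper79.sameBlock_symm' hM hτ

end Cfsg.Agent.S4520
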