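import Cfsg.Statements.S4541
import Cfsg.Agent.Lib.Helper80.Major2

set_option autoImplicit false
open Cfsg

namespace Cfsg.Agent.S4541

/-- Pure arithmetic behind the bounds: from an odd `a` with `k ≤ P a` and `k a ≤ P l`. -/
theorem arith (k P l a : ℕ) (ha : Odd a) (h1 : k ≤ P * a) (h2 : k * a ≤ P * l) :
    (Odd (Nat.sqrt l) → k ≤ Nat.sqrt l * P) ∧
    (¬ Odd (Nat.sqrt l) → (Nat.sqrt l + 1) * k ≤ l * P) ∧ (l ≤ 3 → k ≤ P) := by
  have hs1 : Nat.sqrt l * Nat.sqrt l ≤ l := Nat.sqrt_le l
  have hs2 : l < (Nat.sqrt l + 1) * (Nat.sqrt l + 1) := Nat.lt_succ_sqrt l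
  set s := Nat.sqrt l with hs
  have hodd1 : Odd s → k ≤ s * P := by
    intro hso
    by_cases has : a ≤ s
    · calc k ≤ P * a := h1
        _ ≤ P * s := Nat.mul_le_mul_left P has
        _ = s * P := mul_comm _ _
    · have has2 : s + 2 ≤ a := by
        obtain ⟨x, hx⟩ := ha
        obtain ⟨y, hy⟩ := hso
        omega
      have hl : l ≤ s * (s + 2) := by nlinarith
      have h3 : k * (s + 2) ≤ (s * P) * (s + 2) := by
        calc k * (s + 2) ≤ k * a := Nat.mul_le_mul_left k has2
          _ ≤ P * l := h2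
          _ ≤ P * (s * (s + 2)) := Nat.mul_le_mul_left P hl
          _ = (s * P) * (s + 2) := by ring
      exact Nat.le_of_mul_le_mul_right h3 (by omega)
  refine ⟨hodd1, ?_, ?_⟩
  · intro hso
    by_cases has : a ≤ s
    · have has2 : a + 1 ≤ s := by
        rcases Nat.lt_or_ge a s with h | h
        · exact h
        · have : a = s := le_antisymm has h
          rw [this] at ha
          exact absurd ha hso
      calc (s + 1) * k ≤ (s + 1) * (P * a) := Nat.mul_le_mul_left _ h1
        _ = P * ((s + 1) * a) := by ring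
        _ ≤ P * (s * s) := by
            apply Nat.mul_le_mul_left
            nlinarith
        _ ≤ P * l := Nat.mul_le_mul_left P hs1
        _ = l * P := mul_comm _ _
    · have has2 : s + 1 ≤ a := by omega
      calc (s + 1) * k ≤ a * k := Nat.mul_le_mul_right k has2
        _ = k * a := mul_comm _ _
        _ ≤ P * l := h2
        _ = l * P := mul_comm _ _
  · intro hl3
    have ha1 : 1 ≤ a := by
      obtain ⟨x, hx⟩ := ha
      omega
    rcases Nat.eq_zero_or_pos l with hl0 | hlpos
    · rw [hl0, mul_zero] at h2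
      have h3 : k * 1 ≤ k * a := Nat.mul_le_mul_left k ha1
      omega
    · have hs_le : s ≤ 1 := by
        by_contra hc
        have : 2 ≤ s := by omega
        nlinarith
      have hs_ge : 1 ≤ s := by
        by_contra hc
        have : s = 0 := by omega
        rw [this] at hs2
        omega
      have hs_eq : s = 1 := le_antisymm hs_le hs_ge
      have h4 := hodd1 (by rw [hs_eq]; exact odd_one)
      rw [hs_eq, one_mul] at h4
      exact h4

/-- Let B be a 2-block of the finite group G (relative to a maximal ideal M of the algebraic integers containing 2), u a 2-element, and b a block of the centralizer of u inducing B (a subsection (u, b)), of defect q and 2-regular rank l; write s for the integer square root of l and k₀(B) for the number of members of B of height zero. If s is odd then k₀(B) ≤ s·2 ^ q, and otherwise (s + 1)·k₀(B) ≤ l·2 ^ q; in particular k₀(B) ≤ 2 ^ q when l ≤ 3. -/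
theorem result {G : Type*} [Group G] [Finite G] (M : Ideal Cfsg.AlgInt) (hM : Cfsg.IsPModular 2 M) (B : Set (Cfsg.IrrCharacter G)) (hB : Cfsg.IsPBlock M B) (u : G) (hu : ∃ j : ℕ, orderOf u = 2 ^ j) (b : Set (Cfsg.IrrCharacter ↥(Subgroup.centralizer ({u} : Set G)))) (hb : Cfsg.IsInducedBlock M (Subgroup.centralizer ({u} : Set G)) b B) : (Odd (Nat.sqrt (Cfsg.blockRank 2 b)) → Nat.card {χ : Cfsg.IrrCharacter G // χ ∈ B ∧ Cfsg.blockHeight 2 B (χ : G → ℂ) = 0} ≤ Nat.sqrt (Cfsg.blockRank 2 b) * 2 ^ Cfsg.blockDefect 2 b) ∧ (¬ Odd (Nat.sqrt (Cfsg.blockRank 2 b)) → (Nat.sqrt (Cfsg.blockRank 2 b) + 1) * Nat.card {χ : Cfsg.IrrCharacter G // χ ∈ B ∧ Cfsg.blockHeight 2 B (χ : G → ℂ) = 0} ≤ Cfsg.blockRank 2 b * 2 ^ Cfsg.blockDefect 2 b) ∧ (Cfsg.blockRank 2 b ≤ 3 → Nat.card {χ : Cfsg.IrrCharacter G // χ ∈ B ∧ Cfsg.blockHeight 2 B (χ : G → ℂ) = 0} ≤ 2 ^ Cfsg.blockDefect 2 b) := by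
  classical
  let _ : Fintype G := Fintype.ofFinite G
  let _ : Fintype (Subgroup.centralizer ({u} : Set G)) := Fintype.ofFinite _
  have h1 := Cfsg.Agent.Lib.Helper4.irr_finite (G := G)
  have h2 := Cfsg.Agent.Lib.Helper4.irr_finite (G := Subgroup.centralizer ({u} : Set G))
  let _ : Fintype (Cfsg.IrrCharacter G) := Fintype.ofFinite _
  let _ : Fintype (Cfsg.IrrCharacter (Subgroup.centralizer ({u} : Set G))) := Fintype.ofFinite _
  obtain ⟨n, hn⟩ := hu
  have huC : u ∈ Subgroup.centralizer ({u} : Set G) := by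
    rw [Subgroup.mem_centralizer_iff]
    intro h hh
    rw [Set.mem_singleton_iff.mp hh]
  have hcen : (⟨u, huC⟩ : Subgroup.centralizer ({u} : Set G)) ∈
      Subgroup.center (Subgroup.centralizer ({u} : Set G)) := by
    rw [Subgroup.mem_center_iff]
    intro c
    apply Subtype.ext
    have hc2 : (c : G) ∈ Subgroup.centralizer ({u} : Set G) := c.2
    have h3 := Subgroup.mem_centralizer_iff.mp hc2 u rfl
    exact h3.symm
  have key := Cfsg.Agent.Lib.Helper80.Major.k0_bound (Subgroup.centralizer ({u} : Set G)) hM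
    ⟨u, huC⟩ hcen n hn (le_refl _) b B hb
  have hcard : Nat.card {χ : Cfsg.IrrCharacter G // χ ∈ B ∧
      Cfsg.blockHeight 2 B (χ : G → ℂ) = 0} =
      (Finset.univ.filter
        (fun χ : Cfsg.IrrCharacter G => χ ∈ B ∧ Cfsg.blockHeight 2 B χ.1 = 0)).card := by
    rw [Nat.card_eq_fintype_card, Fintype.card_subtype]
  rw [hcard]
  rcases key with h0 | ⟨a, ha, hk1, hk2⟩
  · rw [h0]
    refine ⟨fun _ => Nat.zero_le _, fun _ => ?_, fun _ => Nat.zero_le _⟩
    rw [mul_zero]
    exact Nat.zero_le _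
  · exact arith _ _ _ a ha hk1 hk2

end Cfsg.Agent.S4541
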