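import Cfsg.Statements.S4558
import Mathlib
import Cfsg.Agent.Lib.Helper80.EV

set_option autoImplicit false
open Cfsg

namespace Cfsg.Agent.S4558

/-- Let χ be a character of the finite group G and g an element of p-power order for the prime p. If χ g = 0, then p divides the degree of χ. -/
theorem result {G : Type*} [Group G] [Finite G] (p : ℕ) [Fact p.Prime] (χ : G → ℂ) (hχ : Cfsg.IsCharacter G χ) (g : G) (hg : ∃ j : ℕ, orderOf g = p ^ j) (h0 : χ g = 0) : p ∣ Cfsg.charDegree χ := by
  classical
  obtain ⟨n, ρ, rfl⟩ := hχ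
  obtain ⟨j, hj⟩ := hg
  have hone : ρ.character 1 = (n : ℂ) := by
    rw [Representation.char_one]; simp
  have hdeg : Cfsg.charDegree ρ.character = n := by
    unfold Cfsg.charDegree
    rw [hone]; simp
  rw [hdeg]
  rcases Nat.eq_zero_or_pos j with hj0 | hjpos
  · subst hj0
    rw [pow_zero, orderOf_eq_one_iff] at hj
    subst hj
    rw [hone] at h0
    have : n = 0 := by exact_mod_cast h0
    rw [this]; exact dvd_zero p
  · have hp : p.Prime := Fact.out
    set N : ℕ := p ^ j with hNdef
    have hN : 0 < N := pow_pos hp.pos j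
    have hgN : g ^ N = 1 := by rw [← hj]; exact pow_orderOf_eq_one g
    set ζ : ℂ := Complex.exp (2 * Real.pi * Complex.I / N) with hζdef
    have hζ : IsPrimitiveRoot ζ N := Complex.isPrimitiveRoot_exp N hN.ne'
    obtain ⟨m, hm⟩ := Cfsg.Agent.Lib.Helper80.character_pow_eq ρ g N hN hgN ζ hζ
    have h1 := hm 1
    rw [pow_one, h0] at h1
    have h2 := hm 0
    rw [pow_zero, hone] at h2
    let F : Polynomial ℤ := ∑ i ∈ Finset.range N, Polynomial.C (m i : ℤ) * Polynomial.X ^ i
    have hF : Polynomial.aeval ζ F = 0 := by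
      rw [h1]
      simp only [F, map_sum, map_mul, Polynomial.aeval_C, map_pow, Polynomial.aeval_X]
      refine Finset.sum_congr rfl (fun i _ => ?_)
      simp
    have hdvd : Polynomial.cyclotomic N ℤ ∣ F := by
      rw [Polynomial.cyclotomic_eq_minpoly hζ hN]
      exact minpoly.isIntegrallyClosed_dvd (hζ.isIntegral hN) hF
    have hev : Polynomial.eval 1 (Polynomial.cyclotomic N ℤ) ∣ Polynomial.eval 1 F :=
      Polynomial.eval_dvd hdvd
    have hcyc : Polynomial.eval 1 (Polynomial.cyclotomic N ℤ) = (p : ℤ) := by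
      have : N = p ^ ((j - 1) + 1) := by rw [hNdef, Nat.sub_add_cancel hjpos]
      rw [this, Polynomial.eval_one_cyclotomic_prime_pow]
    have hFone : Polynomial.eval 1 F = (n : ℤ) := by
      simp only [F, Polynomial.eval_finsetSum, Polynomial.eval_mul, Polynomial.eval_C,
        Polynomial.eval_pow, Polynomial.eval_X, one_pow, mul_one]
      have h3 : (n : ℂ) = ((∑ i ∈ Finset.range N, (m i : ℤ) : ℤ) : ℂ) := by
        rw [h2]; push_cast; simp
      exact_mod_cast h3.symm
    rw [hcyc, hFone] at hev
    exact_mod_cast hev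

end Cfsg.Agent.S4558
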