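import Cfsg.Statements.S4560
import Cfsg.Agent.Lib.Helper13.SCIrr
import Cfsg.Agent.Lib.Helper13.SCFix
import Cfsg.Agent.Lib.Helper13.SCFix3
import Cfsg.Agent.Lib.Helper13.SCEl2
import Cfsg.Agent.Lib.Helper13.SCEl3

set_option autoImplicit false
open Cfsg

namespace Cfsg.Agent.S4560

open Cfsg.Agent.Lib.Helper13.SC

/-- four distinct points of `Fin n`, `n ≥ 7` -/
theorem four_fin (n : ℕ) (hn : 7 ≤ n) : Four (Fin n) := by
  refine ⟨⟨0, by omega⟩, ⟨1, by omega⟩, ⟨2, by omega⟩, ⟨3, by omega⟩, ?_, ?_, ?_, ?_, ?_, ?_⟩ <;>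
    simp [Fin.ext_iff]

/-- the symmetric group is 4-transitive -/
theorem perm_four (n : ℕ) : MulAction.IsMultiplyPretransitive (Equiv.Perm (Fin n)) (Fin n) 4 :=
  Equiv.Perm.isMultiplyPretransitive (Fin n) 4

/-- the alternating group of degree at least 7 is 4-transitive -/
theorem alt_four (n : ℕ) (hn : 7 ≤ n) :
    MulAction.IsMultiplyPretransitive (alternatingGroup (Fin n)) (Fin n) 4 := by
  haveI := alternatingGroup.isMultiplyPretransitive (Fin n)
  have hc : Nat.card (Fin n) = n := by simp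
  exact MulAction.isMultiplyPretransitive_of_le (G := alternatingGroup (Fin n)) (α := Fin n)
    (m := 4) (n := Nat.card (Fin n) - 2) (by rw [hc]; omega) (by rw [hc]; omega)

/-- the three characters of the alternating group are restrictions -/
theorem res1 (n : ℕ) (x : alternatingGroup (Fin n)) :
    chi1 (Equiv.Perm (Fin n)) (Fin n) (x : Equiv.Perm (Fin n)) =
      chi1 (alternatingGroup (Fin n)) (Fin n) x := rfl

theorem res2 (n : ℕ) (x : alternatingGroup (Fin n)) :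
    chi2 (Equiv.Perm (Fin n)) (Fin n) (x : Equiv.Perm (Fin n)) =
      chi2 (alternatingGroup (Fin n)) (Fin n) x := rfl

theorem res3 (n : ℕ) (x : alternatingGroup (Fin n)) :
    chi3 (Equiv.Perm (Fin n)) (Fin n) (x : Equiv.Perm (Fin n)) =
      chi3 (alternatingGroup (Fin n)) (Fin n) x := rfl

/-- For n ≥ 7 the alternating group on n letters has an irreducible character that vanishes at some 2-element and is the restriction of an irreducible character of the symmetric group, and an irreducible character that vanishes at some element of order 3 and is the restriction of an irreducible character of the symmetric group. -/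
theorem result (n : ℕ) (hn : 7 ≤ n) : (∃ χ : Cfsg.IrrCharacter (alternatingGroup (Fin n)), (∃ x : alternatingGroup (Fin n), (∃ j : ℕ, orderOf x = 2 ^ j) ∧ (χ : alternatingGroup (Fin n) → ℂ) x = 0) ∧ ∃ ψ : Cfsg.IrrCharacter (Equiv.Perm (Fin n)), ∀ x : alternatingGroup (Fin n), (ψ : Equiv.Perm (Fin n) → ℂ) x = (χ : alternatingGroup (Fin n) → ℂ) x) ∧ (∃ χ : Cfsg.IrrCharacter (alternatingGroup (Fin n)), (∃ y : alternatingGroup (Fin n), orderOf y = 3 ∧ (χ : alternatingGroup (Fin n) → ℂ) y = 0) ∧ ∃ ψ : Cfsg.IrrCharacter (Equiv.Perm (Fin n)), ∀ x : alternatingGroup (Fin n), (ψ : Equiv.Perm (Fin n) → ℂ) x = (χ : alternatingGroup (Fin n) → ℂ) x) := by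
  have hF := four_fin n hn
  have hS := perm_four n
  have hA := alt_four n hn
  have c1 : ∀ x : alternatingGroup (Fin n), P1 (Fin n) x →
      ∃ χ : Cfsg.IrrCharacter (alternatingGroup (Fin n)),
        (χ : alternatingGroup (Fin n) → ℂ) x = 0 ∧
        ∃ ψ : Cfsg.IrrCharacter (Equiv.Perm (Fin n)), ∀ z : alternatingGroup (Fin n),
          (ψ : Equiv.Perm (Fin n) → ℂ) z = (χ : alternatingGroup (Fin n) → ℂ) z :=
    fun x hx => ⟨⟨chi1 (alternatingGroup (Fin n)) (Fin n), irr1 hA hF⟩, fix1 x hx,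
      ⟨chi1 (Equiv.Perm (Fin n)) (Fin n), irr1 hS hF⟩, fun z => res1 n z⟩
  have c2 : ∀ x : alternatingGroup (Fin n), P2 (Fin n) x →
      ∃ χ : Cfsg.IrrCharacter (alternatingGroup (Fin n)),
        (χ : alternatingGroup (Fin n) → ℂ) x = 0 ∧
        ∃ ψ : Cfsg.IrrCharacter (Equiv.Perm (Fin n)), ∀ z : alternatingGroup (Fin n),
          (ψ : Equiv.Perm (Fin n) → ℂ) z = (χ : alternatingGroup (Fin n) → ℂ) z :=
    fun x hx => ⟨⟨chi2 (alternatingGroup (Fin n)) (Fin n), irr2 hA hF⟩, fix2 x hx,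
      ⟨chi2 (Equiv.Perm (Fin n)) (Fin n), irr2 hS hF⟩, fun z => res2 n z⟩
  have c3 : ∀ x : alternatingGroup (Fin n), P3 (Fin n) x →
      ∃ χ : Cfsg.IrrCharacter (alternatingGroup (Fin n)),
        (χ : alternatingGroup (Fin n) → ℂ) x = 0 ∧
        ∃ ψ : Cfsg.IrrCharacter (Equiv.Perm (Fin n)), ∀ z : alternatingGroup (Fin n),
          (ψ : Equiv.Perm (Fin n) → ℂ) z = (χ : alternatingGroup (Fin n) → ℂ) z :=
    fun x hx => ⟨⟨chi3 (alternatingGroup (Fin n)) (Fin n), irr3 hA hF⟩, fix3 x hx,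
      ⟨chi3 (Equiv.Perm (Fin n)) (Fin n), irr3 hS hF⟩, fun z => res3 n z⟩
  constructor
  · -- a 2-element
    have hcases : n % 2 = 1 ∨ n % 4 = 0 ∨ n % 4 = 2 := by omega
    rcases hcases with h | h | h
    · obtain ⟨x, hx2, hxP⟩ := el2_odd n hn h
      obtain ⟨χ, hχ, ψ, hψ⟩ := c1 x hxP
      exact ⟨χ, ⟨x, hx2, hχ⟩, ψ, hψ⟩
    · obtain ⟨x, hx2, hxP⟩ := el2_zero n hn h
      obtain ⟨χ, hχ, ψ, hψ⟩ := c2 x hxP
      exact ⟨χ, ⟨x, hx2, hχ⟩, ψ, hψ⟩
    · obtain ⟨x, hx2, hxP⟩ := el2_two n hn h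
      obtain ⟨χ, hχ, ψ, hψ⟩ := c3 x hxP
      exact ⟨χ, ⟨x, hx2, hχ⟩, ψ, hψ⟩
  · -- an element of order 3
    have hcases : n % 3 = 1 ∨ n % 3 = 0 ∨ n % 3 = 2 := by omega
    rcases hcases with h | h | h
    · obtain ⟨y, hy3, hyP⟩ := el3_one n hn h
      obtain ⟨χ, hχ, ψ, hψ⟩ := c1 y hyP
      exact ⟨χ, ⟨y, hy3, hχ⟩, ψ, hψ⟩
    · obtain ⟨y, hy3, hyP⟩ := el3_zero n hn h
      obtain ⟨χ, hχ, ψ, hψ⟩ := c2 y hyP
      exact ⟨χ, ⟨y, hy3, hχ⟩, ψ, hψ⟩
    · obtain ⟨y, hy3, hyP⟩ := el3_two n hn h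
      obtain ⟨χ, hχ, ψ, hψ⟩ := c3 y hyP
      exact ⟨χ, ⟨y, hy3, hχ⟩, ψ, hψ⟩

end Cfsg.Agent.S4560
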