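import Cfsg.Statements.S4563
import Cfsg.Agent.Lib.Helper80.FullRam
import Cfsg.Agent.S0006

set_option autoImplicit false
open Cfsg

namespace Cfsg.Agent.S4563

/-- Let χ be an irreducible character of the finite group H that is fully ramified over the normal subgroup Z: the restriction of χ to Z is e times an irreducible character of Z with e ^ 2 equal to the index of Z. If K is a proper normal subgroup of H containing Z and χ is induced from a character of K, then H/K is solvable; in particular, if K is solvable then so is H. -/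
theorem result {H : Type*} [Group H] [Fintype H] (Z : Subgroup H) [Z.Normal] (χ : Cfsg.IrrCharacter H) (hfr : ∃ (θ : Cfsg.IrrCharacter ↥Z) (e : ℕ), e ^ 2 = Z.index ∧ ∀ z : ↥Z, (χ : H → ℂ) z = (e : ℂ) * (θ : ↥Z → ℂ) z) (K : Subgroup H) [K.Normal] [Fintype K] (hZK : Z ≤ K) (hK : K ≠ ⊤) (φ : ↥K → ℂ) (hφ : Cfsg.IsCharacter ↥K φ) (hind : Cfsg.indFun K φ = (χ : H → ℂ)) : Group.IsSolvable (H ⧸ K) ∧ (Group.IsSolvable ↥K → Group.IsSolvable H) := by
  classical
  obtain ⟨θ, e, he, hres⟩ := hfr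
  have hsolv : Group.IsSolvable (H ⧸ K) := by
    apply Cfsg.Agent.S0006.solvable_of_hasComplements
    intro p hp
    have hpf : Fact p.Prime := ⟨hp⟩
    obtain ⟨S, D, hZD, hDS, hDK, hSK, hSN, hfrat, ⟨b, hb⟩, hpS, hpD⟩ :=
      Cfsg.Agent.Lib.Helper80.FullRam.sylow_data Z K hZK p
    let _ : Fintype Z := Fintype.ofFinite Z
    let _ : Fintype D := Fintype.ofFinite D
    have hd := Cfsg.Agent.Lib.Helper80.FullRam.mk_data p hp Z D S χ χ.2 θ θ.2 e he hres hZD
      hDS hSN b hb hpS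
    have hc := Cfsg.Agent.Lib.Helper80.FullRam.ind_inner Z K D χ χ.2 hd.hvan θ (e : ℂ) hres
      hZD hDK φ hind
    obtain ⟨δ, hδ, a, ha, hpa⟩ := Cfsg.Agent.Lib.Helper80.FullRam.exists_constituent_not_dvd
      (fun d : D => (χ : H → ℂ) d) (fun d : D => φ ⟨d, hDK d.2⟩)
      (Cfsg.Agent.Lib.Helper35.isCharacter_res D hd.hχ)
      (Cfsg.Agent.Lib.Helper20.isCharacter_comp (Subgroup.inclusion hDK) hφ) p _ hc hpD
    have ha0 : a ≠ 0 := by
      rintro rfl
      exact hpa (dvd_zero p)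
    have hst := hd.stab_le_of_not_dvd δ hδ a ha hpa
    obtain ⟨M, hM1, hM2⟩ := hd.exists_compl K hDK hfrat δ hδ a ha ha0 hst
    refine ⟨M, Nat.Coprime.coprime_dvd_left hM2 hd.hm, ?_⟩
    have h1 : M.index ∣ p ^ b := hM1.trans (hb ▸ Subgroup.relIndex_dvd_of_le_left S hZD)
    obtain ⟨j, -, hj⟩ := (Nat.dvd_prime_pow hp).mp h1
    exact ⟨j, hj⟩
  refine ⟨hsolv, fun hKs => ?_⟩
  exact Group.isSolvable_of_ker_le_range K.subtype (QuotientGroup.mk' K)
    (by rw [QuotientGroup.ker_mk', Subgroup.range_subtype])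

end Cfsg.Agent.S4563
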