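import Cfsg.Statements.S4564
import Cfsg.Agent.Lib.Helper80.FullRam

set_option autoImplicit false
open Cfsg

namespace Cfsg.Agent.S4564

/-- Let χ be an irreducible character of the finite group H that is fully ramified over the normal subgroup Z: the restriction of χ to Z is e times an irreducible character of Z with e ^ 2 equal to the index of Z. Let K be a normal subgroup of H containing Z and P a cyclic Sylow p-subgroup of H/K. Then P has a complement in H/K: a subgroup meeting P trivially whose product with P is the whole group. -/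
theorem result {H : Type*} [Group H] [Finite H] (Z : Subgroup H) [Z.Normal] (χ : Cfsg.IrrCharacter H) (hfr : ∃ (θ : Cfsg.IrrCharacter ↥Z) (e : ℕ), e ^ 2 = Z.index ∧ ∀ z : ↥Z, (χ : H → ℂ) z = (e : ℂ) * (θ : ↥Z → ℂ) z) (K : Subgroup H) [K.Normal] (hZK : Z ≤ K) (p : ℕ) [Fact p.Prime] (P : Sylow p (H ⧸ K)) (hcyc : IsCyclic P) : ∃ M : Subgroup (H ⧸ K), M.IsComplement' (P : Subgroup (H ⧸ K)) := by
  classical
  have hp : p.Prime := Fact.out
  obtain ⟨θ, e, he, hres⟩ := hfr
  obtain ⟨S, D, hZD, hDS, hDK, hSK, hSN, hfrat, ⟨b, hb⟩, hpS, -⟩ :=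
    Cfsg.Agent.Lib.Helper80.FullRam.sylow_data Z K hZK p
  let _ : Fintype Z := Fintype.ofFinite Z
  let _ : Fintype D := Fintype.ofFinite D
  have hd := Cfsg.Agent.Lib.Helper80.FullRam.mk_data p hp Z D S χ χ.2 θ θ.2 e he hres hZD hDS
    hSN b hb hpS
  have hcyc' := Cfsg.Agent.Lib.Helper80.FullRam.cyc_data K p P hcyc Z D S hZK hSK hZD b hb
  obtain ⟨nD, hnD, hnD2⟩ := hd.normD
  have hnD0 : ¬ (0 : ℕ) ∣ nD := by
    rw [Nat.zero_dvd]
    rintro rfl
    rw [mul_zero] at hnD2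
    have h1 : 0 < S.index * Nat.card S := Nat.mul_pos (Nat.pos_of_ne_zero
      Subgroup.index_ne_zero_of_finite) Nat.card_pos
    omega
  obtain ⟨δ, hδ, a, ha, ha0'⟩ := Cfsg.Agent.Lib.Helper80.FullRam.exists_constituent_not_dvd
    (fun d : D => (χ : H → ℂ) d) (fun d : D => (χ : H → ℂ) d)
    (Cfsg.Agent.Lib.Helper35.isCharacter_res D hd.hχ)
    (Cfsg.Agent.Lib.Helper35.isCharacter_res D hd.hχ) 0 nD hnD hnD0
  have ha0 : a ≠ 0 := fun h => ha0' (h ▸ dvd_rfl)
  have hst := hd.stab_le_of_cyclic hcyc' δ hδ a ha ha0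
  obtain ⟨M, hM1, hM2⟩ := hd.exists_compl K hDK hfrat δ hδ a ha ha0 hst
  have h1 : M.index ∣ p ^ b := hM1.trans (hb ▸ Subgroup.relIndex_dvd_of_le_left S hZD)
  obtain ⟨j, -, hj⟩ := (Nat.dvd_prime_pow hp).mp h1
  have hcop : (Nat.card M).Coprime p := Nat.Coprime.coprime_dvd_left hM2 hd.hm
  have hcard : Nat.card M * p ^ j = Nat.card (H ⧸ K) := by rw [← hj]; exact M.card_mul_index
  have hn0 : Nat.card (H ⧸ K) ≠ 0 := Nat.card_pos.ne'
  have hP : Nat.card (P : Subgroup (H ⧸ K)) = p ^ j := by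
    rw [Sylow.card_eq_multiplicity]
    apply Nat.dvd_antisymm
    · have h2 : p ^ (Nat.card (H ⧸ K)).factorization p ∣ Nat.card M * p ^ j := by
        rw [hcard]; exact Nat.ordProj_dvd _ _
      exact (Nat.Coprime.pow_left _ hcop.symm).dvd_of_dvd_mul_left h2
    · exact pow_dvd_pow p ((Nat.Prime.pow_dvd_iff_le_factorization hp hn0).mp
        (Dvd.intro_left _ hcard))
  refine ⟨M, Subgroup.isComplement'_of_coprime ?_ ?_⟩
  · rw [hP]; exact hcard
  · rw [hP]; exact Nat.Coprime.pow_right _ hcop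

end Cfsg.Agent.S4564
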