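import Cfsg.Statements.S4566
import Mathlib
import Cfsg.Agent.Lib.Helper80.Schur

set_option autoImplicit false
open Cfsg

namespace Cfsg.Agent.S4566

/-- Let N be a central subgroup of the finite group G, ψ a faithful irreducible (hence degree-one) character of N, and χ an irreducible character of G whose restriction to N contains ψ. If g ∈ G and some x ∈ G has commutator x⁻¹ g⁻¹ x g in N but different from 1, then χ g = 0. -/
theorem result {G : Type*} [Group G] [Fintype G] (N : Subgroup G) [Fintype N] (hN : N ≤ Subgroup.center G) (ψ : Cfsg.IrrCharacter ↥N) (hfaith : ∀ n : ↥N, (ψ : ↥N → ℂ) n = (ψ : ↥N → ℂ) 1 → n = 1) (χ : Cfsg.IrrCharacter G) (hover : Cfsg.classInner (fun n : ↥N => (χ : G → ℂ) n) (ψ : ↥N → ℂ) ≠ 0) (g x : G) (hcomm : x⁻¹ * g⁻¹ * x * g ∈ N) (hne : x⁻¹ * g⁻¹ * x * g ≠ 1) : (χ : G → ℂ) g = 0 := by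
  classical
  obtain ⟨χf, n, ρ, hρ, hχ⟩ := χ
  obtain ⟨ψf, m, σ, hσ, hψ⟩ := ψ
  simp only at hfaith hover ⊢
  subst hχ
  subst hψ
  have := hρ
  have := hσ
  -- scalars for the central elements of G lying in N
  have hω : ∀ z : N, ∃ c : ℂ, (∀ g : G, ρ.character (g * (z : G)) = c * ρ.character g) :=
    fun z => (Cfsg.Agent.Lib.Helper80.central_character ρ (z : G) (hN z.2)).imp (fun c hc => hc.1)
  choose ω hω using hω
  -- scalars for the elements of the abelian group N
  have hcenter : ∀ z : N, z ∈ Subgroup.center N := by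
    intro z
    rw [Subgroup.mem_center_iff]
    intro w
    apply Subtype.ext
    have := Subgroup.mem_center_iff.1 (hN z.2) (w : G)
    simpa using this
  have hs : ∀ z : N, ∃ c : ℂ, (∀ w : N, σ.character (w * z) = c * σ.character w) :=
    fun z => (Cfsg.Agent.Lib.Helper80.central_character σ z (hcenter z)).imp (fun c hc => hc.1)
  choose s hs using hs
  -- the sum is nonzero
  have hS : ∑ z : N, ρ.character (z : G) * (starRingEnd ℂ) (σ.character z) ≠ 0 := by
    intro h
    apply hover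
    unfold Cfsg.classInner
    rw [h, mul_zero]
  -- the key relation
  have hkey : ∀ z₀ : N, ω z₀ * (starRingEnd ℂ) (s z₀) = 1 := by
    intro z₀
    have h1 : ∑ z : N, ρ.character (z : G) * (starRingEnd ℂ) (σ.character z) =
        ∑ z : N, ρ.character ((z * z₀ : N) : G) * (starRingEnd ℂ) (σ.character (z * z₀)) :=
      (Equiv.sum_comp (Equiv.mulRight z₀)
        (fun z : N => ρ.character (z : G) * (starRingEnd ℂ) (σ.character z))).symm
    have h2 : ∑ z : N, ρ.character ((z * z₀ : N) : G) * (starRingEnd ℂ) (σ.character (z * z₀)) =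
        (ω z₀ * (starRingEnd ℂ) (s z₀)) *
          ∑ z : N, ρ.character (z : G) * (starRingEnd ℂ) (σ.character z) := by
      rw [Finset.mul_sum]
      refine Finset.sum_congr rfl (fun z _ => ?_)
      rw [Subgroup.coe_mul, hω z₀ (z : G), hs z₀ z, map_mul]
      ring
    rw [h2] at h1
    have h3 : (1 - ω z₀ * (starRingEnd ℂ) (s z₀)) *
        ∑ z : N, ρ.character (z : G) * (starRingEnd ℂ) (σ.character z) = 0 := by
      rw [sub_mul, one_mul, ← h1, sub_self]
    rcases mul_eq_zero.1 h3 with h4 | h4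
    · exact (sub_eq_zero.1 h4).symm
    · exact absurd h4 hS
  -- the commutator
  set c : G := x⁻¹ * g⁻¹ * x * g with hc
  have hc' : c⁻¹ ∈ N := N.inv_mem hcomm
  have hωc : ω ⟨c⁻¹, hc'⟩ ≠ 1 := by
    intro h
    have h1 := hkey ⟨c⁻¹, hc'⟩
    rw [h, one_mul] at h1
    have h2 : s ⟨c⁻¹, hc'⟩ = 1 := by
      have := congrArg (starRingEnd ℂ) h1
      simpa using this
    have h3 : σ.character (⟨c⁻¹, hc'⟩ : N) = σ.character 1 := by
      have := hs ⟨c⁻¹, hc'⟩ 1
      rw [one_mul, h2, one_mul] at this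
      exact this
    have h4 := hfaith _ h3
    have h5 : c⁻¹ = 1 := congrArg Subtype.val h4
    exact hne (inv_eq_one.1 h5)
  have h1 : ρ.character (g * c⁻¹) = ρ.character g := by
    have : g * c⁻¹ = x⁻¹ * g * x⁻¹⁻¹ := by rw [hc]; group
    rw [this, Representation.char_conj]
  have h2 := hω ⟨c⁻¹, hc'⟩ g
  simp only at h2
  rw [h1] at h2
  have h3 : (1 - ω ⟨c⁻¹, hc'⟩) * ρ.character g = 0 := by
    rw [sub_mul, one_mul, ← h2, sub_self]
  rcases mul_eq_zero.1 h3 with h4 | h4
  · exact absurd (sub_eq_zero.1 h4).symm hωc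
  · exact h4

end Cfsg.Agent.S4566
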