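import Cfsg.Statements.S4567
import Cfsg.Agent.Lib.Helper80.Twisted
import Cfsg.Agent.Lib.Helper80.PGrp

set_option autoImplicit false
open Cfsg

namespace Cfsg.Agent.S4567

open Cfsg.Agent.Lib.Helper4 Cfsg.Agent.Lib.Helper80
open scoped ComplexConjugate

section

variable {G : Type*} [Group G] (N : Subgroup G)

/-- `g` is good: elements commuting with `g` modulo `N` commute with `g`. -/
def good (g : G) : Prop := ∀ x : G, x⁻¹ * g⁻¹ * x * g ∈ N → x * g = g * x

theorem good_conj [hn : N.Normal] (g y : G) (h : good N g) : good N (y * g * y⁻¹) := by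
  intro x hx
  have h1 : (y⁻¹ * x * y)⁻¹ * g⁻¹ * (y⁻¹ * x * y) * g =
      y⁻¹ * (x⁻¹ * (y * g * y⁻¹)⁻¹ * x * (y * g * y⁻¹)) * y⁻¹⁻¹ := by group
  have h2 : (y⁻¹ * x * y)⁻¹ * g⁻¹ * (y⁻¹ * x * y) * g ∈ N := by
    rw [h1]
    exact hn.conj_mem _ hx y⁻¹
  have h3 := h _ h2
  calc x * (y * g * y⁻¹) = y * (y⁻¹ * x * y * g) * y⁻¹ := by group
    _ = y * (g * (y⁻¹ * x * y)) * y⁻¹ := by rw [h3]
    _ = y * g * y⁻¹ * x := by group

theorem good_mul_central (hN : N ≤ Subgroup.center G) (g : G) {z : G} (hz : z ∈ N) :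
    good N (g * z) ↔ good N g := by
  have hzc := Subgroup.mem_center_iff.1 (hN hz)
  have key : ∀ x : G, x⁻¹ * (g * z)⁻¹ * x * (g * z) = x⁻¹ * g⁻¹ * x * g := by
    intro x
    have e1 : x⁻¹ * (g * z)⁻¹ * x * (g * z) = (x⁻¹ * z⁻¹ * g⁻¹ * x * g) * z := by group
    rw [e1, hzc (x⁻¹ * z⁻¹ * g⁻¹ * x * g)]
    have e2 : z * (x⁻¹ * z⁻¹ * g⁻¹ * x * g) = (z * x⁻¹) * z⁻¹ * g⁻¹ * x * g := by group
    rw [e2, ← hzc x⁻¹]
    group
  have key2 : ∀ x : G, x * (g * z) = g * z * x ↔ x * g = g * x := by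
    intro x
    rw [mul_assoc g z x, ← hzc x, ← mul_assoc, ← mul_assoc]
    exact mul_left_inj z
  unfold good
  simp only [key, key2]

theorem sum_conj_psi [Fintype N] (hN : N ≤ Subgroup.center G) (ψ : IrrCharacter N)
    (hfaith : ∀ n : N, (ψ : N → ℂ) n = (ψ : N → ℂ) 1 → n = 1) (g : G)
    [∀ z : N, Decidable (IsConj g (g * z))] [Decidable (good N g)] :
    ∑ z : N, (if IsConj g (g * z) then (ψ : N → ℂ) z else 0) = if good N g then 1 else 0 := by
  have hψ1 : (ψ : N → ℂ) 1 = 1 :=
    irr_one_of_comm (fun a b => Subtype.ext (Subgroup.mem_center_iff.1 (hN b.2) a)) ψ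
  by_cases hg : good N g
  · rw [if_pos hg]
    rw [Finset.sum_eq_single (1 : N)]
    · have h0 : IsConj g (g * ((1 : N) : G)) := by
        rw [Subgroup.coe_one, mul_one]
      rw [if_pos h0, hψ1]
    · intro z _ hz
      rw [if_neg]
      intro hc
      apply hz
      obtain ⟨x, hx⟩ := isConj_iff.mp hc
      have h1 : (x⁻¹)⁻¹ * g⁻¹ * x⁻¹ * g = (z : G)⁻¹ := by
        have : (z : G) = g⁻¹ * (x * g * x⁻¹) := by rw [hx]; group
        rw [this]
        group
      have h2 := hg x⁻¹ (by rw [h1]; exact N.inv_mem z.2)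
      have h3 : x * g * x⁻¹ = g := by
        calc x * g * x⁻¹ = x * (g * x⁻¹) := by group
          _ = x * (x⁻¹ * g) := by rw [h2]
          _ = g := by group
      rw [h3] at hx
      apply Subtype.ext
      have h4 : g * 1 = g * (z : G) := by rw [mul_one]; exact hx
      exact (mul_left_cancel h4).symm
    · intro h
      exact absurd (Finset.mem_univ _) h
  · rw [if_neg hg]
    unfold good at hg
    push Not at hg
    obtain ⟨x, hx1, hx2⟩ := hg
    obtain ⟨w, hw⟩ : ∃ w : N, (w : G) = x⁻¹ * g⁻¹ * x * g := ⟨⟨_, hx1⟩, rfl⟩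
    have hwc := Subgroup.mem_center_iff.1 (hN w.2)
    have hw1 : w ≠ 1 := by
      intro h
      have h5 : x⁻¹ * g⁻¹ * x * g = 1 := by rw [← hw, h]; rfl
      apply hx2
      calc x * g = g * x * (x⁻¹ * g⁻¹ * x * g) := by group
        _ = g * x := by rw [h5, mul_one]
    have hψw : (ψ : N → ℂ) w ≠ 1 := fun h => hw1 (hfaith w (h.trans hψ1.symm))
    have hxg : x * g * x⁻¹ = g * (w : G) := by
      have e1 : g * x * (w : G) = x * g := by rw [hw]; group
      have e2 : x * (w : G) = (w : G) * x := hwc x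
      calc x * g * x⁻¹ = g * x * (w : G) * x⁻¹ := by rw [e1]
        _ = g * (x * (w : G)) * x⁻¹ := by group
        _ = g * ((w : G) * x) * x⁻¹ := by rw [e2]
        _ = g * (w : G) := by group
    obtain ⟨T, hT⟩ : ∃ T : ℂ, T = ∑ z : N, (if IsConj g (g * z) then (ψ : N → ℂ) z else 0) :=
      ⟨_, rfl⟩
    rw [← hT]
    have hT2 : T = (ψ : N → ℂ) w * T := by
      conv_lhs => rw [hT]
      rw [hT, Finset.mul_sum, ← Equiv.sum_comp (Equiv.mulRight w)]
      refine Finset.sum_congr rfl fun z _ => ?_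
      have hiff : IsConj g (g * ((z * w : N) : G)) ↔ IsConj g (g * (z : G)) := by
        have e : g * ((z * w : N) : G) = x * (g * (z : G)) * x⁻¹ := by
          have hzc := Subgroup.mem_center_iff.1 (hN z.2)
          calc g * ((z * w : N) : G) = g * ((z : G) * (w : G)) := rfl
            _ = g * ((w : G) * (z : G)) := by rw [hwc (z : G)]
            _ = (x * g * x⁻¹) * z := by rw [hxg, mul_assoc]
            _ = x * g * (x⁻¹ * z) := by group
            _ = x * g * (z * x⁻¹) := by rw [hzc x⁻¹]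
            _ = x * (g * z) * x⁻¹ := by group
        rw [e]
        have hc : IsConj (g * (z : G)) (x * (g * (z : G)) * x⁻¹) := isConj_iff.mpr ⟨x, rfl⟩
        exact ⟨fun h => h.trans hc.symm, fun h => h.trans hc⟩
      show (if IsConj g (g * ((z * w : N) : G)) then (ψ : N → ℂ) (z * w) else 0) =
        (ψ : N → ℂ) w * (if IsConj g (g * (z : G)) then (ψ : N → ℂ) z else 0)
      by_cases hc : IsConj g (g * (z : G))
      · rw [if_pos hc, if_pos (hiff.2 hc), irr_mul_of_one ψ hψ1, mul_comm]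
      · rw [if_neg hc, if_neg (fun h => hc (hiff.1 h)), mul_zero]
    have h6 : (1 - (ψ : N → ℂ) w) * T = 0 := by rw [sub_mul, one_mul, ← hT2, sub_self]
    rcases mul_eq_zero.1 h6 with h | h
    · exact absurd (sub_eq_zero.1 h).symm hψw
    · exact h

open scoped Classical in
theorem twisted_orth [Fintype G] [Fintype (IrrCharacter G)] [Fintype N]
    (hN : N ≤ Subgroup.center G) (ψ : IrrCharacter N)
    (hfaith : ∀ n : N, (ψ : N → ℂ) n = (ψ : N → ℂ) 1 → n = 1) (g : G) :
    (Nat.card N : ℂ) * ∑ χ : IrrCharacter G,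
        (if lam N hN χ = ψ then (χ : G → ℂ) g * conj ((χ : G → ℂ) g) else 0) =
      if good N g then (Nat.card (Subgroup.centralizer ({g} : Set G)) : ℂ) else 0 := by
  have h1 : ∑ z : N, (ψ : N → ℂ) z *
      ∑ χ : IrrCharacter G, (χ : G → ℂ) g * conj ((χ : G → ℂ) (g * z)) =
      (Nat.card (Subgroup.centralizer ({g} : Set G)) : ℂ) *
        ∑ z : N, (if IsConj g (g * z) then (ψ : N → ℂ) z else 0) := by
    rw [Finset.mul_sum]
    refine Finset.sum_congr rfl fun z _ => ?_
    rw [col_orth g (g * z)]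
    split_ifs <;> ring
  have h2 : ∑ z : N, (ψ : N → ℂ) z *
      ∑ χ : IrrCharacter G, (χ : G → ℂ) g * conj ((χ : G → ℂ) (g * z)) =
      (Nat.card N : ℂ) * ∑ χ : IrrCharacter G,
        (if lam N hN χ = ψ then (χ : G → ℂ) g * conj ((χ : G → ℂ) g) else 0) := by
    have e1 : ∀ z : N, (ψ : N → ℂ) z *
        ∑ χ : IrrCharacter G, (χ : G → ℂ) g * conj ((χ : G → ℂ) (g * z)) =
        ∑ χ : IrrCharacter G, ((χ : G → ℂ) g * conj ((χ : G → ℂ) g)) *
          ((ψ : N → ℂ) z * conj ((lam N hN χ : N → ℂ) z)) := by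
      intro z
      rw [Finset.mul_sum]
      refine Finset.sum_congr rfl fun χ _ => ?_
      rw [irr_mul_central χ (hN z.2) g, lam_apply, map_mul]
      ring
    rw [Finset.sum_congr rfl (fun z _ => e1 z), Finset.sum_comm, Finset.mul_sum]
    refine Finset.sum_congr rfl fun χ _ => ?_
    rw [← Finset.mul_sum]
    have e2 : ∑ z : N, (ψ : N → ℂ) z * conj ((lam N hN χ : N → ℂ) z) =
        (Nat.card N : ℂ) * (if ψ = lam N hN χ then 1 else 0) := by
      rw [← classInner_irr ψ (lam N hN χ)]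
      unfold classInner
      rw [← mul_assoc, mul_inv_cancel₀ card_ne_zero_complex, one_mul]
    rw [e2]
    by_cases h : lam N hN χ = ψ
    · rw [if_pos h, if_pos h.symm]
      ring
    · rw [if_neg h, if_neg (fun h' => h h'.symm)]
      ring
  rw [← h2, h1, sum_conj_psi N hN ψ hfaith g]
  split_ifs <;> ring

end

section Counting

variable {G : Type*} [Group G] [Fintype G] (N : Subgroup G) [N.Normal]

theorem sum_quot [Fintype N] [Fintype (G ⧸ N)] (F : G ⧸ N → ℂ) :
    ∑ g : G, F (g : G ⧸ N) = (Nat.card N : ℂ) * ∑ q : G ⧸ N, F q := by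
  classical
  rw [← Finset.sum_fiberwise (s := Finset.univ) (g := fun g : G => (g : G ⧸ N))
    (f := fun g : G => F (g : G ⧸ N)), Finset.mul_sum]
  refine Finset.sum_congr rfl fun q _ => ?_
  have h1 : ∀ g ∈ Finset.univ.filter (fun g : G => (g : G ⧸ N) = q), F (g : G ⧸ N) = F q := by
    intro g hg
    rw [(Finset.mem_filter.1 hg).2]
  rw [Finset.sum_congr rfl h1, Finset.sum_const, nsmul_eq_mul]
  congr 1
  obtain ⟨g₀, rfl⟩ := QuotientGroup.mk_surjective q
  have h2 : Finset.univ.filter (fun g : G => (g : G ⧸ N) = (g₀ : G ⧸ N)) =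
      (Finset.univ : Finset N).image (fun n : N => g₀ * n) := by
    ext g
    simp only [Finset.mem_filter, Finset.mem_univ, true_and, Finset.mem_image]
    constructor
    · intro h
      exact ⟨⟨g₀⁻¹ * g, QuotientGroup.eq.1 h.symm⟩, by simp⟩
    · rintro ⟨n, rfl⟩
      rw [QuotientGroup.eq]
      simp
  rw [h2, Finset.card_image_of_injective _ (fun a b h => Subtype.ext (mul_left_cancel h)),
    Finset.card_univ, Nat.card_eq_fintype_card]

theorem card_centralizer_quot (g : G) (hg : good N g) :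
    Nat.card (Subgroup.centralizer ({g} : Set G)) =
      Nat.card N * Nat.card (Subgroup.centralizer ({(g : G ⧸ N)} : Set (G ⧸ N))) := by
  have hcomap : (Subgroup.centralizer ({(g : G ⧸ N)} : Set (G ⧸ N))).comap (QuotientGroup.mk' N) =
      Subgroup.centralizer ({g} : Set G) := by
    ext x
    rw [Subgroup.mem_comap, mem_centralizer_singleton_iff', mem_centralizer_singleton_iff']
    constructor
    · intro h
      apply hg
      have h2 : ((g * x : G) : G ⧸ N) = ((x * g : G) : G ⧸ N) := h.symm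
      have h3 := QuotientGroup.eq.1 h2
      have e : (g * x)⁻¹ * (x * g) = x⁻¹ * g⁻¹ * x * g := by group
      rwa [e] at h3
    · intro h
      show ((x * g : G) : G ⧸ N) = ((g * x : G) : G ⧸ N)
      rw [h]
  have hidx : (Subgroup.centralizer ({(g : G ⧸ N)} : Set (G ⧸ N))).index =
      (Subgroup.centralizer ({g} : Set G)).index := by
    rw [← hcomap, Subgroup.index_comap_of_surjective _ (QuotientGroup.mk'_surjective N)]
  have h1 := Subgroup.card_mul_index (Subgroup.centralizer ({g} : Set G))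
  have h2 := Subgroup.card_mul_index (Subgroup.centralizer ({(g : G ⧸ N)} : Set (G ⧸ N)))
  have h3 : Nat.card G = Nat.card (G ⧸ N) * Nat.card N :=
    Subgroup.card_eq_card_quotient_mul_card_subgroup N
  rw [hidx] at h2
  have hpos : 0 < (Subgroup.centralizer ({g} : Set G)).index :=
    Nat.pos_of_ne_zero Subgroup.index_ne_zero_of_finite
  apply Nat.eq_of_mul_eq_mul_right hpos
  rw [h1, h3, ← h2]
  ring

open scoped Classical in
/-- Indicator of the good cosets. -/
noncomputable def Hq (q : G ⧸ N) : ℂ := if ∃ g : G, (g : G ⧸ N) = q ∧ good N g then 1 else 0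

open scoped Classical in
theorem Hq_mk (hN : N ≤ Subgroup.center G) (g : G) :
    Hq N (g : G ⧸ N) = if good N g then 1 else 0 := by
  unfold Hq
  have hiff : (∃ g' : G, (g' : G ⧸ N) = (g : G ⧸ N) ∧ good N g') ↔ good N g := by
    constructor
    · rintro ⟨g', h1, h2⟩
      have h3 : g⁻¹ * g' ∈ N := QuotientGroup.eq.1 h1.symm
      have h4 : g' = g * (g⁻¹ * g') := by group
      rw [h4] at h2
      exact (good_mul_central N hN g h3).1 h2
    · intro h
      exact ⟨g, rfl, h⟩
  by_cases h : good N g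
  · rw [if_pos h, if_pos (hiff.2 h)]
  · rw [if_neg h, if_neg (fun h' => h (hiff.1 h'))]

theorem Hq_classFn (hN : N ≤ Subgroup.center G) : IsClassFunction (G ⧸ N) (Hq N) := by
  classical
  intro q k
  obtain ⟨g, rfl⟩ := QuotientGroup.mk_surjective q
  obtain ⟨y, rfl⟩ := QuotientGroup.mk_surjective k
  have h0 : ((y : G ⧸ N) * (g : G ⧸ N) * (y : G ⧸ N)⁻¹) = ((y * g * y⁻¹ : G) : G ⧸ N) := rfl
  rw [h0, Hq_mk N hN, Hq_mk N hN]
  have hiff : good N (y * g * y⁻¹) ↔ good N g := by
    constructor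
    · intro h
      have h1 := good_conj N (y * g * y⁻¹) y⁻¹ h
      have e : y⁻¹ * (y * g * y⁻¹) * y⁻¹⁻¹ = g := by group
      rwa [e] at h1
    · exact good_conj N g y
  by_cases h : good N g
  · rw [if_pos h, if_pos (hiff.2 h)]
  · rw [if_neg h, if_neg (fun h' => h (hiff.1 h'))]

theorem card_R [Fintype (ConjClasses (G ⧸ N))] :
    (Nat.card {C : ConjClasses (G ⧸ N) //
      ∃ g : G, ConjClasses.mk (g : G ⧸ N) = C ∧ good N g} : ℂ) =
      ∑ C : ConjClasses (G ⧸ N), Hq N (Quotient.out C) := by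
  classical
  rw [Nat.card_eq_fintype_card, Fintype.card_subtype, Finset.card_filter]
  push_cast
  refine Finset.sum_congr rfl fun C _ => ?_
  unfold Hq
  have hiff : (∃ g : G, ConjClasses.mk (g : G ⧸ N) = C ∧ good N g) ↔
      (∃ g : G, (g : G ⧸ N) = Quotient.out C ∧ good N g) := by
    constructor
    · rintro ⟨g, h1, h2⟩
      have hc : IsConj (g : G ⧸ N) (Quotient.out C) := by
        rw [← ConjClasses.mk_eq_mk_iff_isConj, h1]
        exact (Quotient.out_eq C).symm
      obtain ⟨k, hk⟩ := isConj_iff.mp hc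
      obtain ⟨y, rfl⟩ := QuotientGroup.mk_surjective k
      exact ⟨y * g * y⁻¹, hk, good_conj N g y h2⟩
    · rintro ⟨g, h1, h2⟩
      refine ⟨g, ?_, h2⟩
      rw [h1]
      exact Quotient.out_eq C
  by_cases h : ∃ g : G, ConjClasses.mk (g : G ⧸ N) = C ∧ good N g
  · rw [if_pos h, if_pos (hiff.1 h)]
  · rw [if_neg h, if_neg (fun h' => h (hiff.2 h'))]

end Counting

/-- Let N be a central subgroup of the finite group G and ψ a faithful irreducible (hence degree-one) character of N. Call a coset g N special when every x ∈ G whose commutator x⁻¹ g⁻¹ x g lies in N actually commutes with g (this depends only on the coset). Then the number of irreducible characters of G whose restriction to N contains ψ equals the number of conjugacy classes of G/N consisting of special cosets. -/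
theorem result {G : Type*} [Group G] [Fintype G] (N : Subgroup G) [N.Normal] [Fintype N] (hN : N ≤ Subgroup.center G) (ψ : Cfsg.IrrCharacter ↥N) (hfaith : ∀ n : ↥N, (ψ : ↥N → ℂ) n = (ψ : ↥N → ℂ) 1 → n = 1) : Nat.card {χ : Cfsg.IrrCharacter G // Cfsg.classInner (fun n : ↥N => (χ : G → ℂ) n) (ψ : ↥N → ℂ) ≠ 0} = Nat.card {C : ConjClasses (G ⧸ N) // ∃ g : G, ConjClasses.mk (g : G ⧸ N) = C ∧ ∀ x : G, x⁻¹ * g⁻¹ * x * g ∈ N → x * g = g * x} := by
  classical
  have : Finite (IrrCharacter G) := irr_finite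
  let _ : Fintype (IrrCharacter G) := Fintype.ofFinite _
  let _ : Fintype (G ⧸ N) := Fintype.ofFinite _
  let _ : Fintype (ConjClasses (G ⧸ N)) := Fintype.ofFinite _
  have hL : (Nat.card {χ : IrrCharacter G //
      classInner (fun n : ↥N => (χ : G → ℂ) n) (ψ : ↥N → ℂ) ≠ 0} : ℂ) =
      ∑ χ : IrrCharacter G, (if lam N hN χ = ψ then 1 else 0) := by
    rw [Nat.card_eq_fintype_card, Fintype.card_subtype, Finset.card_filter]
    push_cast
    refine Finset.sum_congr rfl fun χ _ => ?_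
    have hiff : classInner (fun n : ↥N => (χ : G → ℂ) n) (ψ : ↥N → ℂ) ≠ 0 ↔ lam N hN χ = ψ := by
      rw [inner_res N hN χ ψ]
      by_cases h : lam N hN χ = ψ
      · simp [h, irr_one_ne_zero χ]
      · simp [h]
    by_cases h : lam N hN χ = ψ
    · rw [if_pos h, if_pos (hiff.2 h)]
    · rw [if_neg h, if_neg (fun h' => h (hiff.1 h'))]
  have hL2 : ∑ χ : IrrCharacter G, (if lam N hN χ = ψ then (1 : ℂ) else 0) =
      (Nat.card G : ℂ)⁻¹ * ∑ g : G, ∑ χ : IrrCharacter G,
        (if lam N hN χ = ψ then (χ : G → ℂ) g * conj ((χ : G → ℂ) g) else 0) := by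
    rw [Finset.sum_comm, Finset.mul_sum]
    refine Finset.sum_congr rfl fun χ _ => ?_
    by_cases h : lam N hN χ = ψ
    · simp only [if_pos h]
      have h1 := classInner_irr χ χ
      rw [if_pos rfl] at h1
      rw [← h1]
      rfl
    · simp [h]
  have hL3 : ∀ g : G, ∑ χ : IrrCharacter G,
      (if lam N hN χ = ψ then (χ : G → ℂ) g * conj ((χ : G → ℂ) g) else 0) =
      (Nat.card N : ℂ)⁻¹ *
        (if good N g then (Nat.card (Subgroup.centralizer ({g} : Set G)) : ℂ) else 0) := by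
    intro g
    rw [← twisted_orth N hN ψ hfaith g, ← mul_assoc, inv_mul_cancel₀ card_ne_zero_complex,
      one_mul]
  have hR := card_R N
  have hR2 := sum_class_div (Hq N) (Hq_classFn N hN)
  have hR3 : ∀ q : G ⧸ N, (((Finset.univ.filter (fun x : G ⧸ N => IsConj x q)).card : ℂ))⁻¹ =
      (Nat.card (Subgroup.centralizer ({q} : Set (G ⧸ N))) : ℂ) / (Nat.card (G ⧸ N) : ℂ) := by
    intro q
    have h1 := card_conj_class_mul q
    have h2 : (Nat.card (Subgroup.centralizer ({q} : Set (G ⧸ N))) : ℂ) ≠ 0 :=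
      card_centralizer_ne_zero q
    have h3 : (((Finset.univ.filter (fun x : G ⧸ N => IsConj x q)).card : ℂ)) ≠ 0 := by
      intro h
      rw [h, zero_mul] at h1
      exact card_ne_zero_complex h1.symm
    rw [← h1]
    field_simp
  have hR4 : ∑ C : ConjClasses (G ⧸ N), Hq N (Quotient.out C) =
      (Nat.card N : ℂ)⁻¹ * ∑ g : G, (if good N g then
        (Nat.card (Subgroup.centralizer ({g} : Set G)) : ℂ) / (Nat.card N : ℂ) /
          (Nat.card (G ⧸ N) : ℂ) else 0) := by
    rw [← hR2]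
    have h1 := sum_quot N (fun q : G ⧸ N => Hq N q *
      ((Nat.card (Subgroup.centralizer ({q} : Set (G ⧸ N))) : ℂ) / (Nat.card (G ⧸ N) : ℂ)))
    have h2 : ∑ q : G ⧸ N, Hq N q *
        (((Finset.univ.filter (fun x : G ⧸ N => IsConj x q)).card : ℂ))⁻¹ =
        ∑ q : G ⧸ N, Hq N q *
          ((Nat.card (Subgroup.centralizer ({q} : Set (G ⧸ N))) : ℂ) / (Nat.card (G ⧸ N) : ℂ)) :=
      Finset.sum_congr rfl fun q _ => by rw [hR3 q]
    rw [h2]
    have h3 : ∑ q : G ⧸ N, Hq N q *
          ((Nat.card (Subgroup.centralizer ({q} : Set (G ⧸ N))) : ℂ) / (Nat.card (G ⧸ N) : ℂ)) =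
        (Nat.card N : ℂ)⁻¹ * ∑ g : G, Hq N (g : G ⧸ N) *
          ((Nat.card (Subgroup.centralizer ({(g : G ⧸ N)} : Set (G ⧸ N))) : ℂ) /
            (Nat.card (G ⧸ N) : ℂ)) := by
      rw [h1, ← mul_assoc, inv_mul_cancel₀ card_ne_zero_complex, one_mul]
    rw [h3]
    congr 1
    refine Finset.sum_congr rfl fun g _ => ?_
    rw [Hq_mk N hN]
    by_cases hg : good N g
    · rw [if_pos hg, if_pos hg, one_mul, card_centralizer_quot N g hg]
      push_cast
      have hne : (Nat.card N : ℂ) ≠ 0 := card_ne_zero_complex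
      field_simp
    · rw [if_neg hg, if_neg hg, zero_mul]
  have hcard : (Nat.card G : ℂ) = (Nat.card (G ⧸ N) : ℂ) * (Nat.card N : ℂ) := by
    exact_mod_cast Subgroup.card_eq_card_quotient_mul_card_subgroup N
  have hfinal : (Nat.card {χ : IrrCharacter G //
      classInner (fun n : ↥N => (χ : G → ℂ) n) (ψ : ↥N → ℂ) ≠ 0} : ℂ) =
      (Nat.card {C : ConjClasses (G ⧸ N) //
        ∃ g : G, ConjClasses.mk (g : G ⧸ N) = C ∧ good N g} : ℂ) := by
    rw [hL, hL2, hR, hR4, Finset.sum_congr rfl (fun g _ => hL3 g)]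
    rw [Finset.mul_sum, Finset.mul_sum]
    refine Finset.sum_congr rfl fun g _ => ?_
    by_cases hg : good N g
    · rw [if_pos hg, if_pos hg, hcard]
      have hne : (Nat.card N : ℂ) ≠ 0 := card_ne_zero_complex
      have hne2 : (Nat.card (G ⧸ N) : ℂ) ≠ 0 := card_ne_zero_complex
      field_simp
    · rw [if_neg hg, if_neg hg]
      simp
  exact_mod_cast hfinal

end Cfsg.Agent.S4567
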