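import Cfsg.Statements.S4574
import Mathlib
import Cfsg.Agent.Lib.Helper85.Burnside

set_option autoImplicit false
open Cfsg

namespace Cfsg.Agent.S4574

theorem exists_pow_inv {G : Type*} [Group G] [Finite G] (g : G) (k : ℕ)
    (hk : (Nat.card G).Coprime k) : ∃ m : ℕ, (g ^ k) ^ m = g := by
  have h1 : (g ^ k) ^ ((Nat.card G).gcdB k) = g := (powCoprime hk).left_inv g
  have h2 : g ∈ Subgroup.zpowers (g ^ k) := ⟨_, h1⟩
  rw [← mem_powers_iff_mem_zpowers] at h2
  obtain ⟨m, hm⟩ := h2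
  exact ⟨m, hm⟩

open Cfsg.Agent.Lib.Helper85 in
/-- the analytic core: the inequality and the equality case, over the reals -/
theorem core {G : Type*} [Group G] [Fintype G] [DecidableEq G] (n : ℕ)
    (ρ : Representation ℂ G (Fin n → ℂ)) (hρ : ρ.IsIrreducible)
    (Z Z₀ D : Finset G)
    (hZ : ∀ g, g ∈ Z ↔ ‖ρ.character g‖ = (n : ℝ))
    (hZ₀ : ∀ g, g ∈ Z₀ ↔ ρ.character g = 0)
    (hD : ∀ g, g ∈ D ↔ (ρ.character g ≠ 0 ∧ ‖ρ.character g‖ ≠ (n : ℝ))) :
    1 ≤ n ∧ ((n : ℝ) ^ 2 - 1) * Z.card ≤ Z₀.card ∧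
    ((∀ g : G, ‖ρ.character g‖ = 0 ∨ ‖ρ.character g‖ = 1 ∨ ‖ρ.character g‖ = (n : ℝ)) →
      ((n : ℝ) ^ 2 - 1) * Z.card = Z₀.card) := by
  classical
  have := hρ
  have hfin : Module.finrank ℂ (Fin n → ℂ) = n := by simp
  -- orthogonality
  have hcardpos : 0 < Fintype.card G := Fintype.card_pos
  have hcardne : (Nat.card G : ℂ) ≠ 0 := by
    rw [Nat.card_eq_fintype_card]; exact_mod_cast hcardpos.ne'
  have : Invertible (Nat.card G : ℂ) := invertibleOfNonzero hcardne
  have horth := Representation.char_orthonormal ρ ρ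
  rw [if_pos ⟨Representation.Equiv.refl ρ⟩] at horth
  have hsum : ∑ g : G, ‖ρ.character g‖ ^ 2 = (Fintype.card G : ℝ) := by
    have h1 : ∑ g : G, ρ.character g * ρ.character g⁻¹ = (Nat.card G : ℂ) := by
      have := congrArg (fun z => (Nat.card G : ℂ) * z) horth
      simp only [← mul_assoc, mul_inv_cancel₀ hcardne, one_mul] at this
      simpa using this
    have h2 : ∀ g : G, ρ.character g * ρ.character g⁻¹ = ((‖ρ.character g‖ ^ 2 : ℝ) : ℂ) := by
      intro g
      rw [Cfsg.Agent.Lib.Helper4.char_inv, Complex.mul_conj, Complex.normSq_eq_norm_sq]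
    rw [Finset.sum_congr rfl (fun g _ => h2 g), ← Complex.ofReal_sum, Nat.card_eq_fintype_card] at h1
    exact_mod_cast h1
  -- n ≥ 1
  have hn : 1 ≤ n := by
    by_contra hlt
    have hn0 : n = 0 := by omega
    have h0 : ∀ g : G, ‖ρ.character g‖ ^ 2 = 0 := by
      intro g
      have := Cfsg.Agent.Lib.Helper4.norm_char_le ρ g
      have hn0' : (n : ℝ) = 0 := by exact_mod_cast hn0
      rw [hfin, hn0'] at this
      have h3 : ‖ρ.character g‖ = 0 := le_antisymm this (norm_nonneg _)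
      rw [h3]; simp
    rw [Finset.sum_congr rfl (fun g _ => h0 g), Finset.sum_const_zero] at hsum
    have : (Fintype.card G : ℝ) ≠ 0 := by exact_mod_cast hcardpos.ne'
    exact this hsum.symm
  have hnR : (1 : ℝ) ≤ n := by exact_mod_cast hn
  -- the Burnside-type inequality on D
  have hDclosed : ∀ g ∈ D, ∀ k ∈ expSet (Nat.card G), g ^ k ∈ D := by
    intro g hg k hk
    rw [hD] at hg ⊢
    have hp := prod_norm_char ρ g hg.1
    constructor
    · intro h0
      have : ∏ k ∈ expSet (Nat.card G), ‖ρ.character (g ^ k)‖ = 0 :=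
        Finset.prod_eq_zero hk (by rw [h0, norm_zero])
      rw [this] at hp
      linarith
    · intro hnorm
      apply hg.2
      have hnorm' : ‖ρ.character (g ^ k)‖ = (Module.finrank ℂ (Fin n → ℂ) : ℝ) := by
        rw [hfin]; exact hnorm
      rw [Cfsg.Agent.Lib.Helper4.norm_char_eq_iff] at hnorm'
      obtain ⟨ω, hω⟩ := hnorm'
      have hcop : (Nat.card G).Coprime k := (mem_expSet.1 hk).2
      obtain ⟨m, hm⟩ := exists_pow_inv g k hcop
      have h5 : ‖ρ.character g‖ = (Module.finrank ℂ (Fin n → ℂ) : ℝ) := by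
        rw [Cfsg.Agent.Lib.Helper4.norm_char_eq_iff]
        refine ⟨ω ^ m, ?_⟩
        have h6 : ρ g = (ρ (g ^ k)) ^ m := by rw [← map_pow, hm]
        rw [h6, hω, smul_pow]
        simp
      rw [hfin] at h5
      exact h5
  have hprod : ∀ g ∈ D, 1 ≤ ∏ k ∈ expSet (Nat.card G), ‖ρ.character (g ^ k)‖ ^ 2 := by
    intro g hg
    rw [hD] at hg
    have hp := prod_norm_char ρ g hg.1
    rw [Finset.prod_pow]
    exact one_le_pow₀ hp
  have hDsum : (D.card : ℝ) ≤ ∑ g ∈ D, ‖ρ.character g‖ ^ 2 :=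
    card_le_sum_of_prod D (fun g => ‖ρ.character g‖ ^ 2) (fun g => sq_nonneg _) hDclosed hprod
  -- partition
  have hdisj1 : Disjoint Z Z₀ := by
    rw [Finset.disjoint_left]
    intro g hgZ hgZ₀
    rw [hZ] at hgZ
    rw [hZ₀] at hgZ₀
    rw [hgZ₀, norm_zero] at hgZ
    linarith
  have hdisj2 : Disjoint (Z ∪ Z₀) D := by
    rw [Finset.disjoint_left]
    intro g hg hgD
    rw [hD] at hgD
    rcases Finset.mem_union.1 hg with h | h
    · exact hgD.2 ((hZ g).1 h)
    · exact hgD.1 ((hZ₀ g).1 h)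
  have huniv : (Finset.univ : Finset G) = (Z ∪ Z₀) ∪ D := by
    ext g
    simp only [Finset.mem_univ, Finset.mem_union, true_iff]
    by_cases h1 : ρ.character g = 0
    · exact Or.inl (Or.inr ((hZ₀ g).2 h1))
    · by_cases h2 : ‖ρ.character g‖ = (n : ℝ)
      · exact Or.inl (Or.inl ((hZ g).2 h2))
      · exact Or.inr ((hD g).2 ⟨h1, h2⟩)
  have hcard : (Fintype.card G : ℝ) = Z.card + Z₀.card + D.card := by
    have : Fintype.card G = (Z ∪ Z₀ ∪ D).card := by rw [← huniv, Finset.card_univ]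
    rw [this, Finset.card_union_of_disjoint hdisj2, Finset.card_union_of_disjoint hdisj1]
    push_cast; ring
  have hsum2 : ∑ g : G, ‖ρ.character g‖ ^ 2 =
      (n : ℝ) ^ 2 * Z.card + ∑ g ∈ D, ‖ρ.character g‖ ^ 2 := by
    rw [huniv, Finset.sum_union hdisj2, Finset.sum_union hdisj1]
    have h1 : ∑ g ∈ Z, ‖ρ.character g‖ ^ 2 = (n : ℝ) ^ 2 * Z.card := by
      rw [Finset.sum_congr rfl (fun g hg => by rw [(hZ g).1 hg]), Finset.sum_const, nsmul_eq_mul,
        mul_comm]
    have h2 : ∑ g ∈ Z₀, ‖ρ.character g‖ ^ 2 = 0 := by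
      apply Finset.sum_eq_zero
      intro g hg
      rw [(hZ₀ g).1 hg, norm_zero]; simp
    rw [h1, h2, add_zero]
  refine ⟨hn, ?_, ?_⟩
  · nlinarith [hDsum, hsum, hsum2, hcard]
  · intro hall
    have hD1 : ∑ g ∈ D, ‖ρ.character g‖ ^ 2 = D.card := by
      rw [Finset.sum_congr rfl (fun g hg => ?_), Finset.sum_const, nsmul_eq_mul, mul_one]
      have hg' := (hD g).1 hg
      rcases hall g with h | h | h
      · exact absurd (norm_eq_zero.1 h) hg'.1
      · rw [h]; simp
      · exact absurd h hg'.2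
    nlinarith [hD1, hsum, hsum2, hcard]

/-- Let χ be an irreducible character of the finite group G, of degree d, and let Z(χ) be the set of elements g with |χ g| = d (the centre of χ). Then χ vanishes on at least (d ^ 2 - 1) · |Z(χ)| elements of G, with equality when every value |χ g| is 0, 1 or d. -/
theorem result {G : Type*} [Group G] [Fintype G] [DecidableEq G] (χ : G → ℂ) (hχ : Cfsg.IsIrrCharacter G χ) : (Cfsg.charDegree χ ^ 2 - 1) * (Finset.univ.filter (fun g : G => ‖χ g‖ = (Cfsg.charDegree χ : ℝ))).card ≤ (Finset.univ.filter (fun g : G => χ g = 0)).card ∧ ((∀ g : G, ‖χ g‖ = 0 ∨ ‖χ g‖ = 1 ∨ ‖χ g‖ = (Cfsg.charDegree χ : ℝ)) → (Cfsg.charDegree χ ^ 2 - 1) * (Finset.univ.filter (fun g : G => ‖χ g‖ = (Cfsg.charDegree χ : ℝ))).card = (Finset.univ.filter (fun g : G => χ g = 0)).card) := by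
  classical
  obtain ⟨n, ρ, hρ, rfl⟩ := hχ
  have hone : ρ.character 1 = (n : ℂ) := by
    rw [Representation.char_one]; simp
  have hdeg : Cfsg.charDegree ρ.character = n := by
    unfold Cfsg.charDegree
    rw [hone]; simp
  rw [hdeg]
  obtain ⟨hn, h1, h2⟩ := core n ρ hρ
    (Finset.univ.filter (fun g : G => ‖ρ.character g‖ = (n : ℝ)))
    (Finset.univ.filter (fun g : G => ρ.character g = 0))
    (Finset.univ.filter (fun g : G => ρ.character g ≠ 0 ∧ ‖ρ.character g‖ ≠ (n : ℝ)))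
    (fun g => by simp) (fun g => by simp) (fun g => by simp)
  have hcast : (((n ^ 2 - 1 : ℕ) : ℝ)) = (n : ℝ) ^ 2 - 1 := by
    have : 1 ≤ n ^ 2 := Nat.one_le_pow _ _ hn
    push_cast [Nat.cast_sub this]
    ring
  constructor
  · have : (((n ^ 2 - 1) * (Finset.univ.filter (fun g : G => ‖ρ.character g‖ = (n : ℝ))).card : ℕ) : ℝ)
        ≤ ((Finset.univ.filter (fun g : G => ρ.character g = 0)).card : ℝ) := by
      rw [Nat.cast_mul, hcast]; exact h1
    exact_mod_cast this
  · intro hall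
    have : (((n ^ 2 - 1) * (Finset.univ.filter (fun g : G => ‖ρ.character g‖ = (n : ℝ))).card : ℕ) : ℝ)
        = ((Finset.univ.filter (fun g : G => ρ.character g = 0)).card : ℝ) := by
      rw [Nat.cast_mul, hcast]; exact h2 hall
    exact_mod_cast this

end Cfsg.Agent.S4574
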