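import Cfsg.Statements.S4575
import Cfsg.Agent.Lib.Helper33.SamB
import Cfsg.Agent.Lib.Helper82.Major
import Cfsg.Agent.Lib.Helper22.FMT
import Cfsg.Agent.S4733

set_option autoImplicit false
open Cfsg

namespace Cfsg.Agent.S4575

/-- Let B be a 2-block of the finite group G (relative to a maximal ideal M of the algebraic integers containing 2) of defect d with defect group D. Let z be an element of D commuting with every element of D, and let b be a block of the centralizer of z with defect group D that induces B (a major subsection (z, b)). If the number of irreducible characters in B exceeds the 2-regular rank of b by at most three, then B contains at most 2 ^ d irreducible characters. -/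
theorem result {G : Type*} [Group G] [Finite G] (M : Ideal Cfsg.AlgInt) (hM : Cfsg.IsPModular 2 M) (B : Set (Cfsg.IrrCharacter G)) (hB : Cfsg.IsPBlock M B) (D : Subgroup G) (hD : Cfsg.IsDefectGroup 2 M B D) (z : G) (hzD : z ∈ D) (hzc : ∀ d ∈ D, d * z = z * d) (b : Set (Cfsg.IrrCharacter ↥(Subgroup.centralizer ({z} : Set G)))) (hb : Cfsg.IsInducedBlock M (Subgroup.centralizer ({z} : Set G)) b B) (hbD : Cfsg.IsDefectGroup 2 M b (D.subgroupOf (Subgroup.centralizer ({z} : Set G)))) (h : Nat.card B ≤ Cfsg.blockRank 2 b + 3) : Nat.card B ≤ 2 ^ Cfsg.blockDefect 2 B := by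
  classical
  have : Fact (Nat.Prime 2) := ⟨Nat.prime_two⟩
  have hp : (2 : ℕ).Prime := Nat.prime_two
  let _ : Fintype G := Fintype.ofFinite G
  let _ : Fintype (Subgroup.centralizer ({z} : Set G)) := Fintype.ofFinite _
  have h1 := Cfsg.Agent.Lib.Helper4.irr_finite (G := G)
  have h2 := Cfsg.Agent.Lib.Helper4.irr_finite (G := Subgroup.centralizer ({z} : Set G))
  let _ : Fintype (Cfsg.IrrCharacter G) := Fintype.ofFinite _
  let _ : Fintype (Cfsg.IrrCharacter (Subgroup.centralizer ({z} : Set G))) := Fintype.ofFinite _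
  -- `z` is a `2`-element
  have hDp : IsPGroup 2 D := Cfsg.Agent.Lib.Helper22.isDefectGroup_isPGroup B D hD
  obtain ⟨n, hn⟩ : ∃ n : ℕ, orderOf z = 2 ^ n := by
    obtain ⟨k, hk⟩ := hDp ⟨z, hzD⟩
    have hk' : z ^ (2 ^ k) = 1 := by
      have := congrArg Subtype.val hk
      simpa using this
    obtain ⟨n, -, hn⟩ := (Nat.dvd_prime_pow hp).mp (orderOf_dvd_of_pow_eq_one hk')
    exact ⟨n, hn⟩
  have hzC : z ∈ Subgroup.centralizer ({z} : Set G) := by
    rw [Subgroup.mem_centralizer_iff]
    intro h hh
    rw [Set.mem_singleton_iff.mp hh]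
  have hcen : (⟨z, hzC⟩ : Subgroup.centralizer ({z} : Set G)) ∈
      Subgroup.center (Subgroup.centralizer ({z} : Set G)) := by
    rw [Subgroup.mem_center_iff]
    intro c
    apply Subtype.ext
    have hc2 : (c : G) ∈ Subgroup.centralizer ({z} : Set G) := c.2
    have h3 := Subgroup.mem_centralizer_iff.mp hc2 z rfl
    exact h3.symm
  -- the defects agree
  have hDle : D ≤ Subgroup.centralizer ({z} : Set G) := by
    intro d hd
    rw [Subgroup.mem_centralizer_iff]
    intro h hh
    rw [Set.mem_singleton_iff.mp hh]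
    exact (hzc d hd).symm
  have hc1 : Nat.card D = 2 ^ Cfsg.blockDefect 2 B :=
    Cfsg.Agent.Lib.Helper82.card_defectGroup hM B hB D hD
  have hc2 : Nat.card (D.subgroupOf (Subgroup.centralizer ({z} : Set G))) =
      2 ^ Cfsg.blockDefect 2 b :=
    Cfsg.Agent.Lib.Helper82.card_defectGroup hM b hb.1 _ hbD
  have hc3 : Nat.card (D.subgroupOf (Subgroup.centralizer ({z} : Set G))) = Nat.card D :=
    Nat.card_congr (Subgroup.subgroupOfEquivOfLe hDle).toEquiv
  have hdef : Cfsg.blockDefect 2 b = Cfsg.blockDefect 2 B := by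
    apply Nat.pow_right_injective hp.two_le
    show 2 ^ Cfsg.blockDefect 2 b = 2 ^ Cfsg.blockDefect 2 B
    rw [← hc1, ← hc2, hc3]
  have hcard : Nat.card B =
      (Finset.univ.filter (fun χ : Cfsg.IrrCharacter G => χ ∈ B)).card := by
    show Nat.card {χ : Cfsg.IrrCharacter G // χ ∈ B} = _
    rw [Nat.card_eq_fintype_card, Fintype.card_subtype]
  rcases Nat.eq_zero_or_pos (Cfsg.blockDefect 2 B) with h0 | hpos
  · have h3 := ((Cfsg.Agent.S4733.result 2 M hM B hB).2.1.mp h0).1
    rw [h3, h0, pow_zero]
  · have key := Cfsg.Agent.Lib.Helper33.Sam.sam_bound_two (Subgroup.centralizer ({z} : Set G)) hM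
      ⟨z, hzC⟩ hcen n hn (le_refl _) b B hb hdef (by rw [hdef]; exact hpos)
      (by rw [← hcard]; exact h)
    rw [hcard, ← hdef]
    exact key

end Cfsg.Agent.S4575
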