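import Cfsg.Statements.S4580
import Cfsg.Agent.Lib.Helper79.Blk6
import Cfsg.Agent.Lib.Helper20.Gallagher

set_option autoImplicit false
open Cfsg

namespace Cfsg.Agent.S4580

open Cfsg.Agent.Lib.Helper4 Cfsg.Agent.Lib.Helper21 Cfsg.Agent.Lib.Helper22
open scoped ComplexConjugate

/-- An irreducible character of odd degree lying in the same `2`-block as its complex conjugate
lies in the principal `2`-block. -/
theorem mem_principal_of_conj_mem {G : Type*} [Group G] [Fintype G] {M : Ideal AlgInt}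
    (hM : IsPModular 2 M) (η : IrrCharacter G) (hodd : Odd (charDegree (η : G → ℂ)))
    (hconj : SameBlock M (η : G → ℂ) (irrConj η : G → ℂ)) : η ∈ principalBlock M G := by
  classical
  have hB : IsPBlock M (blockOf M (η : G → ℂ)) := ⟨η, rfl⟩
  have hηB : η ∈ blockOf M (η : G → ℂ) := Cfsg.Agent.Lib.Helper79.mem_blockOf_self hM η
  have hfwd : ∀ χ : IrrCharacter G, χ ∈ blockOf M (η : G → ℂ) →
      irrConj χ ∈ blockOf M (η : G → ℂ) := by
    intro χ hχ
    have h1 : SameBlock M (irrConj η : G → ℂ) (irrConj χ : G → ℂ) := by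
      intro g
      rw [← Cfsg.Agent.Lib.Helper79.centralChar_inv, ← Cfsg.Agent.Lib.Helper79.centralChar_inv]
      exact hχ g⁻¹
    exact Cfsg.Agent.Lib.Helper79.sameBlock_trans' hM hconj h1
  have hreal : ∀ χ : IrrCharacter G, irrConj χ ∈ blockOf M (η : G → ℂ) ↔
      χ ∈ blockOf M (η : G → ℂ) := by
    intro χ
    constructor
    · intro h
      have h2 := hfwd _ h
      rwa [irrConj_irrConj] at h2
    · exact hfwd χ
  have hdef : blockDefect 2 (blockOf M (η : G → ℂ)) = (Nat.card G).factorization 2 := by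
    unfold blockDefect
    have hmem : (charDegree (η : G → ℂ)).factorization 2 ∈
        (fun χ : IrrCharacter G => (charDegree (χ : G → ℂ)).factorization 2) ''
          (blockOf M (η : G → ℂ)) := ⟨η, hηB, rfl⟩
    have hz : (charDegree (η : G → ℂ)).factorization 2 = 0 :=
      Nat.factorization_eq_zero_of_not_dvd
        (fun h => (Nat.not_even_iff_odd.2 hodd) (even_iff_two_dvd.2 h))
    have h3 := Nat.sInf_le hmem
    omega
  have hτ := Cfsg.Agent.Lib.Helper79.real_two_block_full_defect hM _ hB hdef hreal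
  exact Cfsg.Agent.Lib.Helper79.sameBlock_symm' hM hτ

/-- Let N be a normal subgroup of the finite group G, M a maximal ideal of the algebraic integers containing 2, and θ a real-valued irreducible character of N of odd degree that extends to G (some irreducible character of G restricts to θ). Then θ has an extension to G lying in the principal 2-block of G. -/
theorem result {G : Type*} [Group G] [Finite G] (N : Subgroup G) [N.Normal] (M : Ideal Cfsg.AlgInt) (hM : Cfsg.IsPModular 2 M) (θ : Cfsg.IrrCharacter N) (hreal : ∀ n : N, ((θ : N → ℂ) n).im = 0) (hodd : Odd (Cfsg.charDegree (θ : N → ℂ))) (hext : ∃ η : Cfsg.IrrCharacter G, ∀ n : N, (η : G → ℂ) n = (θ : N → ℂ) n) :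
    ∃ η : Cfsg.IrrCharacter G, (∀ n : N, (η : G → ℂ) n = (θ : N → ℂ) n) ∧ η ∈ Cfsg.principalBlock M G := by
  classical
  let _ : Fintype G := Fintype.ofFinite G
  obtain ⟨η₀, hη₀⟩ := hext
  have hθreal : ∀ n : N, conj ((θ : N → ℂ) n) = (θ : N → ℂ) n :=
    fun n => Complex.conj_eq_iff_im.2 (hreal n)
  obtain ⟨β, hβN, hβ⟩ := Cfsg.Agent.Lib.Helper20.exists_linear_of_extensions N θ.2 η₀.2
    (irrConj η₀).2 hη₀ (by intro n; rw [irrConj_apply, hη₀, hθreal])
  have hβ' : ∀ g : G, conj ((η₀ : G → ℂ) g) = ((β g : ℂˣ) : ℂ) * (η₀ : G → ℂ) g := by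
    intro g
    have h1 := congrFun hβ g
    rw [irrConj_apply] at h1
    exact h1
  have hG0 : Nat.card G ≠ 0 := (Nat.card_pos (α := G)).ne'
  obtain ⟨a, c, hc, hac⟩ := Nat.exists_eq_two_pow_mul_odd hG0
  obtain ⟨t, ht⟩ := hc
  have hβpow : ∀ g : G, ((β g : ℂˣ) : ℂ) ^ (Nat.card G) = 1 := by
    intro g
    have h1 : (β g) ^ (Nat.card G) = 1 := by rw [← map_pow, pow_card_eq_one', map_one]
    have h2 := congrArg (fun u : ℂˣ => (u : ℂ)) h1
    simpa using h2
  have hγirr : IsIrrCharacter G (fun g => (((β ^ (t + 1)) g : ℂˣ) : ℂ)) :=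
    Cfsg.Agent.Lib.Helper83.isIrr_of_hom (β ^ (t + 1))
  have hη₁irr : IsIrrCharacter G ((fun g => (((β ^ (t + 1)) g : ℂˣ) : ℂ)) * (η₀ : G → ℂ)) :=
    Cfsg.Agent.Lib.Helper20.irr_linear_mul_irr hγirr (by simp) η₀.2
  have hval : ∀ g : G, ((fun g => (((β ^ (t + 1)) g : ℂˣ) : ℂ)) * (η₀ : G → ℂ)) g =
      ((β g : ℂˣ) : ℂ) ^ (t + 1) * (η₀ : G → ℂ) g := by
    intro g
    simp [Pi.mul_apply, MonoidHom.pow_apply]
  refine ⟨⟨_, hη₁irr⟩, ?_, ?_⟩
  · intro n
    show ((fun g => (((β ^ (t + 1)) g : ℂˣ) : ℂ)) * (η₀ : G → ℂ)) (n : G) = _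
    rw [hval, hβN, hη₀]
    simp
  · apply mem_principal_of_conj_mem hM
    · have h1 : ((fun g => (((β ^ (t + 1)) g : ℂˣ) : ℂ)) * (η₀ : G → ℂ)) 1 = (θ : N → ℂ) 1 := by
        rw [hval, map_one]
        simp only [Units.val_one, one_pow, one_mul]
        exact hη₀ 1
      unfold charDegree at hodd ⊢
      show Odd ⌊(((fun g => (((β ^ (t + 1)) g : ℂˣ) : ℂ)) * (η₀ : G → ℂ)) 1).re⌋₊
      rw [h1]
      exact hodd
    · intro g
      set b : ℂ := ((β g : ℂˣ) : ℂ) with hb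
      have hb0 : b ≠ 0 := Units.ne_zero _
      have hbn : ‖b‖ = 1 := Complex.norm_eq_one_of_pow_eq_one (hβpow g) hG0
      have hbc : conj b = b⁻¹ := (Complex.inv_eq_conj hbn).symm
      have hu : ((b⁻¹) ^ (2 * t + 1)) ^ (2 ^ a) = 1 := by
        rw [← pow_mul, mul_comm, ← ht, ← hac, inv_pow, hβpow g, inv_one]
      have hconjv : conj (((fun g => (((β ^ (t + 1)) g : ℂˣ) : ℂ)) * (η₀ : G → ℂ)) g) =
          (b⁻¹) ^ (2 * t + 1) *
            ((fun g => (((β ^ (t + 1)) g : ℂˣ) : ℂ)) * (η₀ : G → ℂ)) g := by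
        rw [hval, map_mul, map_pow, hβ' g, ← hb, hbc]
        have e1 : (b⁻¹) ^ (2 * t + 1) * b ^ (t + 1) = (b⁻¹) ^ (t + 1) * b := by
          have e2 : b⁻¹ * b = 1 := inv_mul_cancel₀ hb0
          calc (b⁻¹) ^ (2 * t + 1) * b ^ (t + 1)
              = (b⁻¹) ^ (t + 1) * ((b⁻¹ * b) ^ t * b) := by ring
            _ = (b⁻¹) ^ (t + 1) * b := by rw [e2, one_pow, one_mul]
        calc (b⁻¹) ^ (t + 1) * (b * (η₀ : G → ℂ) g)
            = ((b⁻¹) ^ (t + 1) * b) * (η₀ : G → ℂ) g := by ring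
          _ = ((b⁻¹) ^ (2 * t + 1) * b ^ (t + 1)) * (η₀ : G → ℂ) g := by rw [e1]
          _ = (b⁻¹) ^ (2 * t + 1) * (b ^ (t + 1) * (η₀ : G → ℂ) g) := by ring
      have hcc : centralChar (irrConj ⟨_, hη₁irr⟩ : G → ℂ) g =
          (b⁻¹) ^ (2 * t + 1) * centralChar
            ((fun g => (((β ^ (t + 1)) g : ℂˣ) : ℂ)) * (η₀ : G → ℂ)) g := by
        unfold centralChar
        rw [irrConj_apply, irrConj_apply, irr_one_conj]
        show _ * conj (((fun g => (((β ^ (t + 1)) g : ℂˣ) : ℂ)) * (η₀ : G → ℂ)) g) / _ = _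
        rw [hconjv]
        ring
      rw [hcc]
      have h5 : centralChar ((fun g => (((β ^ (t + 1)) g : ℂˣ) : ℂ)) * (η₀ : G → ℂ)) g -
          (b⁻¹) ^ (2 * t + 1) *
            centralChar ((fun g => (((β ^ (t + 1)) g : ℂˣ) : ℂ)) * (η₀ : G → ℂ)) g =
          - (centralChar ((fun g => (((β ^ (t + 1)) g : ℂˣ) : ℂ)) * (η₀ : G → ℂ)) g *
            ((b⁻¹) ^ (2 * t + 1) - 1)) := by ring
      rw [h5]
      apply locIdeal_neg
      exact locIdeal_mul_left hM (centralChar_locRing hM ⟨_, hη₁irr⟩ g)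
        (locIdeal_ppow_root hM _ a hu)

end Cfsg.Agent.S4580
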