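import Cfsg.Statements.S4582
import Mathlib
-- import your own Cfsg.Agent.* helpers here

set_option autoImplicit false
open Cfsg

namespace Cfsg.Agent.S4582

/-- membership of the derived subgroup, seen through the abelianization map -/
theorem of_eq_one_of_mem {G : Type*} [Group G] (P : Subgroup G) (y : P)
    (hy : (y : G) ∈ ⁅P, P⁆) : Abelianization.of y = 1 := by
  have h1 : (commutator P).map P.subtype = ⁅P, P⁆ := by
    rw [commutator_def, Subgroup.map_commutator, ← MonoidHom.range_eq_map, Subgroup.range_subtype]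
  rw [← h1] at hy
  have h2 : y ∈ commutator P := by
    have : P.subtype y ∈ (commutator P).map P.subtype := hy
    exact (Subgroup.mem_map_iff_mem P.subtype_injective).1 this
  have h3 : y ∈ (Abelianization.of : P →* Abelianization P).ker := by
    rw [Abelianization.ker_of]; exact h2
  exact MonoidHom.mem_ker.1 h3

theorem mem_of_of_eq_one {G : Type*} [Group G] (P : Subgroup G) (y : P)
    (hy : Abelianization.of y = 1) : (y : G) ∈ ⁅P, P⁆ := by
  have h1 : (commutator P).map P.subtype = ⁅P, P⁆ := by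
    rw [commutator_def, Subgroup.map_commutator, ← MonoidHom.range_eq_map, Subgroup.range_subtype]
  rw [← h1]
  have h2 : y ∈ commutator P := by
    rw [← Abelianization.ker_of]
    exact hy
  exact Subgroup.mem_map_of_mem P.subtype h2

/-- The abstract transfer argument, in a group `G = N P`. -/
theorem key {G : Type*} [Group G] (N P : Subgroup G) [N.Normal] [P.FiniteIndex]
    (hNP : ∀ g : G, ∃ n ∈ N, ∃ p ∈ P, g = n * p)
    (h2 : IsPGroup 2 P) (hidx : Odd P.index)
    (hP : ∀ x ∈ P, ∃ n ∈ N, ∃ d ∈ ⁅P, P⁆, x ^ 2 = n * d)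
    (hQ : ∀ x ∈ P ⊓ N, x ^ 2 ∈ ⁅P, P⁆)
    (hodd : Odd (Nat.card (Abelianization N))) :
    ∀ x ∈ P, x ^ 2 ∈ ⁅P, P⁆ := by
  classical
  set ϕ : P →* Abelianization P := Abelianization.of with hϕ
  set V : G →* Abelianization P := MonoidHom.transfer ϕ with hV
  -- every element of the abelianization has 2-power order
  have hA : ∀ a : Abelianization P, ∃ k : ℕ, a ^ 2 ^ k = 1 := by
    intro a
    obtain ⟨y, rfl⟩ : ∃ y : P, Abelianization.of y = a :=
      QuotientGroup.induction_on a (fun y => ⟨y, rfl⟩)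
    obtain ⟨k, hk⟩ := h2 y
    exact ⟨k, by rw [← map_pow, hk, map_one]⟩
  -- Step 1: V kills N
  have hVN : ∀ n ∈ N, V n = 1 := by
    intro n hn
    have hfin : Finite (Abelianization N) := by
      by_contra hinf
      rw [not_finite_iff_infinite] at hinf
      rw [Nat.card_eq_zero_of_infinite] at hodd
      exact absurd hodd (by decide)
    set f : N →* Abelianization P := V.comp N.subtype with hf
    have h1 : V n = Abelianization.lift f (Abelianization.of ⟨n, hn⟩) := by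
      simp [hf]
    have h3 : (V n) ^ Nat.card (Abelianization N) = 1 := by
      rw [h1, ← map_pow, pow_card_eq_one', map_one]
    obtain ⟨k, hk⟩ := hA (V n)
    have h4 : orderOf (V n) ∣ Nat.card (Abelianization N) := orderOf_dvd_of_pow_eq_one h3
    have h5 : orderOf (V n) ∣ 2 ^ k := orderOf_dvd_of_pow_eq_one hk
    have h6 : Nat.Coprime (Nat.card (Abelianization N)) (2 ^ k) :=
      Nat.Coprime.pow_right k (Nat.Coprime.symm (Nat.coprime_two_left.2 hodd))
    have h7 : orderOf (V n) = 1 := Nat.eq_one_of_dvd_coprimes h6 h4 h5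
    exact orderOf_eq_one_iff.1 h7
  -- V kills the derived subgroup of P
  have hVc : ∀ d ∈ ⁅P, P⁆, V d = 1 := by
    intro d hd
    have : ⁅P, P⁆ ≤ commutator G := by
      rw [commutator_def]; exact Subgroup.commutator_mono le_top le_top
    have := Abelianization.commutator_subset_ker V (this hd)
    simpa using this
  intro x hx
  -- Step 2
  have hVx2 : V x ^ 2 = 1 := by
    obtain ⟨n, hn, d, hd, hxe⟩ := hP x hx
    rw [← map_pow, hxe, map_mul, hVN n hn, hVc d hd, one_mul]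
  -- Step 3
  have hfin : Finite (G ⧸ P) := Subgroup.finite_quotient_of_finiteIndex
  let _ : Fintype (Quotient (MulAction.orbitRel (Subgroup.zpowers x) (G ⧸ P))) := Fintype.ofFinite _
  have hfac : ∀ q : Quotient (MulAction.orbitRel (Subgroup.zpowers x) (G ⧸ P)),
      ∃ b : Abelianization P, b ^ 2 = 1 ∧
        ϕ ⟨q.out.out⁻¹ * x ^ Function.minimalPeriod (x • ·) q.out * q.out.out,
            QuotientGroup.out_conj_pow_minimalPeriod_mem P x q.out⟩ =
          ϕ ⟨x, hx⟩ ^ Function.minimalPeriod (x • ·) q.out * b := by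
    intro q
    set m := Function.minimalPeriod (x • ·) q.out with hm
    set g₀ := q.out.out with hg₀
    have hmem : g₀⁻¹ * x ^ m * g₀ ∈ P := QuotientGroup.out_conj_pow_minimalPeriod_mem P x q.out
    obtain ⟨n, hn, p, hp, hg⟩ := hNP g₀
    -- c = x^{-m} n⁻¹ x^m n
    set c : G := (x ^ m)⁻¹ * (n⁻¹ * x ^ m * n) with hc
    have hxm : x ^ m ∈ P := P.pow_mem hx m
    have hconj : n⁻¹ * x ^ m * n ∈ P := by
      have : n⁻¹ * x ^ m * n = p * (g₀⁻¹ * x ^ m * g₀) * p⁻¹ := by
        rw [hg]; group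
      rw [this]
      exact P.mul_mem (P.mul_mem hp hmem) (P.inv_mem hp)
    have hcP : c ∈ P := P.mul_mem (P.inv_mem hxm) hconj
    have hcN : c ∈ N := by
      have : c = ((x ^ m)⁻¹ * n⁻¹ * ((x ^ m)⁻¹)⁻¹) * n := by rw [hc]; group
      rw [this]
      exact N.mul_mem (Subgroup.Normal.conj_mem inferInstance _ (N.inv_mem hn) _) hn
    refine ⟨ϕ ⟨c, hcP⟩, ?_, ?_⟩
    · rw [← map_pow]
      exact of_eq_one_of_mem P _ (by simpa using hQ c ⟨hcP, hcN⟩)
    · have e1 : (⟨g₀⁻¹ * x ^ m * g₀, hmem⟩ : P) =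
          (⟨p, hp⟩ : P)⁻¹ * ((⟨x, hx⟩ : P) ^ m * ⟨c, hcP⟩) * ⟨p, hp⟩ := by
        apply Subtype.ext
        simp only [Subgroup.coe_mul, Subgroup.coe_inv, Subgroup.coe_pow, hc]
        rw [hg]; group
      rw [e1, map_mul, map_mul, map_mul, map_inv, map_pow]
      rw [mul_comm (ϕ ⟨p, hp⟩)⁻¹, mul_assoc, inv_mul_cancel, mul_one]
  choose b hb1 hb2 using hfac
  have hVx : V x = ϕ ⟨x, hx⟩ ^ P.index * ∏ q, b q := by
    rw [hV, MonoidHom.transfer_eq_prod_quotient_orbitRel_zpowers_quot]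
    rw [Subgroup.index_eq_sum_minimalPeriod P x, ← Finset.prod_pow_eq_pow_sum,
      ← Finset.prod_mul_distrib]
    exact Finset.prod_congr rfl (fun q _ => hb2 q)
  -- Step 4
  have hb : (∏ q, b q) ^ 2 = 1 := by
    rw [← Finset.prod_pow]
    exact Finset.prod_eq_one (fun q _ => hb1 q)
  have h8 : ϕ ⟨x, hx⟩ ^ (P.index * 2) = 1 := by
    have := hVx2
    rw [hVx, mul_pow, hb, mul_one, ← pow_mul] at this
    exact this
  obtain ⟨k, hk⟩ := hA (ϕ ⟨x, hx⟩)
  have h9 : orderOf (ϕ ⟨x, hx⟩) ∣ P.index * 2 := orderOf_dvd_of_pow_eq_one h8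
  have h10 : orderOf (ϕ ⟨x, hx⟩) ∣ 2 ^ k := orderOf_dvd_of_pow_eq_one hk
  have h11 : Nat.Coprime (orderOf (ϕ ⟨x, hx⟩)) P.index :=
    Nat.Coprime.coprime_dvd_left h10
      (Nat.Coprime.pow_left k (Nat.coprime_two_left.2 hidx))
  have h12 : orderOf (ϕ ⟨x, hx⟩) ∣ 2 := h11.dvd_of_dvd_mul_left h9
  have h13 : ϕ ⟨x, hx⟩ ^ 2 = 1 := orderOf_dvd_iff_pow_eq_one.1 h12
  have h14 : ϕ (⟨x, hx⟩ ^ 2) = 1 := by rw [map_pow]; exact h13
  simpa using mem_of_of_eq_one P _ h14

/-- Let N be a normal subgroup of the finite group G, P a Sylow 2-subgroup of G and Q = P ∩ N. Suppose that P/QP' and Q/Q' are elementary abelian (every square of an element of P lies in the subgroup generated by Q and the derived subgroup of P, and every square of an element of Q lies in the derived subgroup of Q), and that the commutator factor group N/N' has odd order. Then P/P' is elementary abelian. -/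
theorem result {G : Type*} [Group G] [Finite G] (N : Subgroup G) [N.Normal] (P : Sylow 2 G)
    (hP : ∀ x ∈ (P : Subgroup G), x ^ 2 ∈ ((P : Subgroup G) ⊓ N) ⊔ ⁅(P : Subgroup G), (P : Subgroup G)⁆)
    (hQ : ∀ x ∈ (P : Subgroup G) ⊓ N, x ^ 2 ∈ ⁅(P : Subgroup G) ⊓ N, (P : Subgroup G) ⊓ N⁆)
    (hodd : Odd (Nat.card (Abelianization N))) :
    ∀ x ∈ (P : Subgroup G), x ^ 2 ∈ ⁅(P : Subgroup G), (P : Subgroup G)⁆ := by
  classical
  set K : Subgroup G := N ⊔ (P : Subgroup G) with hK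
  have hNK : N ≤ K := le_sup_left
  have hPK : (P : Subgroup G) ≤ K := le_sup_right
  set N₀ : Subgroup K := N.subgroupOf K with hN₀
  set P₀ : Subgroup K := (P : Subgroup G).subgroupOf K with hP₀
  have hcPP : ⁅(P : Subgroup G), (P : Subgroup G)⁆ ≤ (P : Subgroup G) := by
    rw [Subgroup.commutator_le]
    intro a ha b hb
    rw [commutatorElement_def]
    exact Subgroup.mul_mem _ (Subgroup.mul_mem _ (Subgroup.mul_mem _ ha hb) (Subgroup.inv_mem _ ha))
      (Subgroup.inv_mem _ hb)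
  have hmap : (⁅P₀, P₀⁆).map K.subtype = ⁅(P : Subgroup G), (P : Subgroup G)⁆ := by
    rw [Subgroup.map_commutator, hP₀, Subgroup.subgroupOf_map_subtype, inf_of_le_left hPK]
  have hNP : ∀ g : K, ∃ n ∈ N₀, ∃ p ∈ P₀, g = n * p := by
    intro g
    have hg : (g : G) ∈ N ⊔ (P : Subgroup G) := g.2
    rw [Subgroup.mem_sup_of_normal_left] at hg
    obtain ⟨y, hy, z, hz, hyz⟩ := hg
    refine ⟨⟨y, hNK hy⟩, ?_, ⟨z, hPK hz⟩, ?_, ?_⟩
    · exact Subgroup.mem_subgroupOf.2 hy
    · exact Subgroup.mem_subgroupOf.2 hz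
    · exact Subtype.ext hyz.symm
  have h2 : IsPGroup 2 P₀ := P.isPGroup'.comap_subtype
  have hidx : Odd P₀.index := by
    have h1 : P₀.index ∣ (P : Subgroup G).index := Subgroup.relIndex_dvd_index_of_le hPK
    have h3 : ¬ 2 ∣ (P : Subgroup G).index := P.not_dvd_index
    rw [← Nat.not_even_iff_odd, even_iff_two_dvd]
    exact fun h => h3 (h.trans h1)
  have hP' : ∀ x ∈ P₀, ∃ n ∈ N₀, ∃ d ∈ ⁅P₀, P₀⁆, x ^ 2 = n * d := by
    intro x hx
    have hx' : (x : G) ∈ (P : Subgroup G) := Subgroup.mem_subgroupOf.1 hx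
    have hle : ((P : Subgroup G) ⊓ N) ⊔ ⁅(P : Subgroup G), (P : Subgroup G)⁆ ≤
        N ⊔ ⁅(P : Subgroup G), (P : Subgroup G)⁆ :=
      sup_le (le_trans inf_le_right le_sup_left) le_sup_right
    have h1 : (x : G) ^ 2 ∈ N ⊔ ⁅(P : Subgroup G), (P : Subgroup G)⁆ := hle (hP x hx')
    rw [Subgroup.mem_sup_of_normal_left] at h1
    obtain ⟨y, hy, z, hz, hyz⟩ := h1
    rw [← hmap] at hz
    obtain ⟨z₀, hz₀, rfl⟩ := hz
    refine ⟨⟨y, hNK hy⟩, Subgroup.mem_subgroupOf.2 hy, z₀, hz₀, ?_⟩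
    apply Subtype.ext
    simpa using hyz.symm
  have hQ' : ∀ x ∈ P₀ ⊓ N₀, x ^ 2 ∈ ⁅P₀, P₀⁆ := by
    intro x hx
    have hxP : (x : G) ∈ (P : Subgroup G) := Subgroup.mem_subgroupOf.1 hx.1
    have hxN : (x : G) ∈ N := Subgroup.mem_subgroupOf.1 hx.2
    have h1 : (x : G) ^ 2 ∈ ⁅(P : Subgroup G), (P : Subgroup G)⁆ :=
      (Subgroup.commutator_mono inf_le_left inf_le_left) (hQ x ⟨hxP, hxN⟩)
    rw [← hmap] at h1
    obtain ⟨z₀, hz₀, hz⟩ := h1
    have : z₀ = x ^ 2 := Subtype.ext (by simpa using hz)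
    rwa [← this]
  have hodd' : Odd (Nat.card (Abelianization N₀)) := by
    have e : Abelianization N₀ ≃* Abelianization N :=
      (Subgroup.subgroupOfEquivOfLe hNK).abelianizationCongr
    rw [Nat.card_congr e.toEquiv]
    exact hodd
  intro x hx
  have h := key N₀ P₀ hNP h2 hidx hP' hQ' hodd' ⟨x, hPK hx⟩ (Subgroup.mem_subgroupOf.2 hx)
  rw [← hmap]
  exact ⟨_, h, by simp⟩

end Cfsg.Agent.S4582
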