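import Cfsg.Statements.S4583
import Cfsg.Agent.Lib.Helper4.Contrib3
import Cfsg.Agent.Lib.Helper35.Ind
import Cfsg.Agent.Lib.Helper4.CharLinear

set_option autoImplicit false
open Cfsg

namespace Cfsg.Agent.S4583

open scoped ComplexConjugate
open Cfsg.Agent.Lib.Helper4 Cfsg.Agent.Lib.Helper84

/-- restriction along a homomorphism of a character is a character -/
theorem isCharacter_comp {A B : Type*} [Group A] [Group B] (f : A →* B) {χ : B → ℂ}
    (hχ : IsCharacter B χ) : IsCharacter A (fun a => χ (f a)) := by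
  obtain ⟨n, ρ, rfl⟩ := hχ
  exact ⟨n, ρ.comp f, rfl⟩

/-- Let N be a normal subgroup of the finite group G, p a prime, M a maximal ideal of the algebraic integers containing p, and P a Sylow p-subgroup of G. Let θ be an irreducible character of N of degree prime to p lying in the principal p-block of N, and suppose θ extends to the subgroup NP (some irreducible character of NP restricts to θ). Then some irreducible character χ of G of degree prime to p in the principal p-block of G lies over θ (θ is a constituent of the restriction of χ to N). -/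
theorem result {G : Type*} [Group G] [Finite G] (N : Subgroup G) [N.Normal] (p : ℕ) [Fact p.Prime] (M : Ideal Cfsg.AlgInt) (hM : Cfsg.IsPModular p M) (P : Sylow p G)
    (θ : Cfsg.IrrCharacter N) (hθ : θ ∈ Cfsg.principalBlock M N) (hdeg : ¬ p ∣ Cfsg.charDegree (θ : N → ℂ))
    (hext : ∃ η : Cfsg.IrrCharacter ↥(N ⊔ (P : Subgroup G)), ∀ n : N, (η : ↥(N ⊔ (P : Subgroup G)) → ℂ) (Subgroup.inclusion le_sup_left n) = (θ : N → ℂ) n) :
    ∃ χ : Cfsg.IrrCharacter G, χ ∈ Cfsg.principalBlock M G ∧ ¬ p ∣ Cfsg.charDegree (χ : G → ℂ) ∧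
      haveI := Fintype.ofFinite N; Cfsg.classInner (fun n : N => (χ : G → ℂ) n) (θ : N → ℂ) ≠ 0 := by
  classical
  have hp := (Fact.out : p.Prime)
  let _ : Fintype G := Fintype.ofFinite G
  let _ : Fintype N := Fintype.ofFinite N
  let _ : Fintype ↥(N ⊔ (P : Subgroup G)) := Fintype.ofFinite _
  have hfin : Finite (IrrCharacter G) := irr_finite
  let _ : Fintype (IrrCharacter G) := Fintype.ofFinite _
  have hfinH : Finite (IrrCharacter ↥(N ⊔ (P : Subgroup G))) := irr_finite
  let _ : Fintype (IrrCharacter ↥(N ⊔ (P : Subgroup G))) := Fintype.ofFinite _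
  obtain ⟨η, hη⟩ := hext
  set τ := Cfsg.Agent.Lib.Helper83.trivIrr G with hτ
  set τN := Cfsg.Agent.Lib.Helper83.trivIrr N with hτN
  have hB : IsPBlock M (principalBlock M G) := Cfsg.Agent.Lib.Helper79.isPBlock_principalBlock
  have hτB : τ ∈ principalBlock M G := Cfsg.Agent.Lib.Helper79.trivIrr_mem_principalBlock hM
  have hBN : IsPBlock M (principalBlock M N) := Cfsg.Agent.Lib.Helper79.isPBlock_principalBlock
  have hτNB : τN ∈ principalBlock M N := Cfsg.Agent.Lib.Helper79.trivIrr_mem_principalBlock hM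
  have hτNdeg : charDegree (τN : N → ℂ) = 1 := by
    have h := (Cfsg.Agent.Lib.Helper83.irr_degree τN.2).2
    have h1 : (τN : N → ℂ) 1 = 1 := rfl
    rw [h1] at h
    exact_mod_cast h.symm
  have hc : ¬ (p : ℤ) ∣ ctr p τN θ := by
    have h1 := min_ctr_not_dvd p M hM (principalBlock M N) hBN τN hτNB
      (fun ψ _ => by rw [hτNdeg, Nat.factorization_one]; exact Nat.zero_le _) θ hθ
    have h2 : (charDegree (θ : N → ℂ)).factorization p = 0 :=
      Nat.factorization_eq_zero_of_not_dvd hdeg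
    rw [h2] at h1
    simpa using h1
  have hn : ∀ χ : IrrCharacter G, ∃ j : ℕ,
      classInner (Cfsg.Agent.Lib.Helper35.res (N ⊔ (P : Subgroup G)) (χ : G → ℂ)) η.1 = j :=
    fun χ => Cfsg.Agent.Lib.Helper35.classInner_char_nat
      (Cfsg.Agent.Lib.Helper35.isCharacter_res _ (Cfsg.Agent.Lib.Helper35.isChar_of_irr χ.2))
      (Cfsg.Agent.Lib.Helper35.isChar_of_irr η.2)
  choose n hn using hn
  -- p-regular elements of NP lie in N
  have hreg : ∀ h : G, h ∈ N ⊔ (P : Subgroup G) → ¬ p ∣ orderOf h → h ∈ N := by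
    intro h hh hph
    have h1 : QuotientGroup.mk' N h ∈ (N ⊔ (P : Subgroup G)).map (QuotientGroup.mk' N) :=
      Subgroup.mem_map_of_mem _ hh
    rw [Subgroup.map_sup, QuotientGroup.map_mk'_self, bot_sup_eq] at h1
    obtain ⟨x, hx, hxe⟩ := h1
    obtain ⟨k, hk⟩ := (IsPGroup.iff_orderOf.mp P.isPGroup') ⟨x, hx⟩
    have hk' : orderOf x = p ^ k := by
      rw [← hk]
      exact Subgroup.orderOf_coe (⟨x, hx⟩ : (P : Subgroup G))
    have h2 : orderOf (QuotientGroup.mk' N h) ∣ p ^ k := by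
      rw [← hxe, ← hk']
      exact orderOf_map_dvd _ x
    have h3 : orderOf (QuotientGroup.mk' N h) ∣ orderOf h := orderOf_map_dvd _ h
    have hcop : Nat.Coprime (p ^ k) (orderOf h) :=
      Nat.Coprime.pow_left _ ((Nat.Prime.coprime_iff_not_dvd hp).mpr hph)
    have h4 : orderOf (QuotientGroup.mk' N h) = 1 := by
      have h5 := Nat.dvd_gcd h2 h3
      rw [Nat.Coprime.gcd_eq_one hcop] at h5
      exact Nat.dvd_one.mp h5
    rw [orderOf_eq_one_iff] at h4
    exact (QuotientGroup.eq_one_iff h).mp h4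
  set a := (Nat.card G).factorization p with ha
  -- (I)
  have hI : ∑ h : ↥(N ⊔ (P : Subgroup G)), ptil p (τ : G → ℂ) (h : G) * conj ((η : _ → ℂ) h) =
      ((p ^ a : ℕ) : ℂ) * ((ctr p τN θ : ℂ) *
        ((Nat.card N / p ^ (Nat.card N).factorization p : ℕ) : ℂ)) := by
    rw [ctr_mul p τN θ, Finset.mul_sum]
    symm
    apply Finset.sum_of_injOn (fun m : N => Subgroup.inclusion (le_sup_left : N ≤ N ⊔ (P : Subgroup G)) m)
    · intro x _ y _ hxy
      exact Subgroup.inclusion_injective _ hxy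
    · intro x _
      exact Finset.mem_coe.mpr (Finset.mem_univ _)
    · intro h _ hnot
      have hhN : (h : G) ∉ N := by
        intro hin
        apply hnot
        exact ⟨⟨(h : G), hin⟩, Finset.mem_coe.mpr (Finset.mem_univ _), Subtype.ext rfl⟩
      have hdv : p ∣ orderOf (h : G) := by
        by_contra hnd
        exact hhN (hreg (h : G) h.2 hnd)
      unfold ptil
      rw [if_pos hdv, zero_mul]
    · intro m _
      have ho : orderOf ((Subgroup.inclusion (le_sup_left : N ≤ N ⊔ (P : Subgroup G)) m :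
          ↥(N ⊔ (P : Subgroup G))) : G) = orderOf m := by
        show orderOf ((m : N) : G) = orderOf m
        exact Subgroup.orderOf_coe m
      rw [hη m]
      unfold ptil
      rw [ho]
      by_cases hm : p ∣ orderOf m
      · rw [if_pos hm, if_pos hm, mul_zero, zero_mul]
      · rw [if_neg hm, if_neg hm]
        show ((p ^ a : ℕ) : ℂ) * ((1 : ℂ) * conj ((θ : N → ℂ) m)) =
          ((p ^ (Nat.card G).factorization p : ℕ) : ℂ) * (1 : ℂ) * conj ((θ : N → ℂ) m)
        ring
  -- (II)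
  have hH0 : (Nat.card ↥(N ⊔ (P : Subgroup G)) : ℂ) ≠ 0 := card_ne_zero_complex
  have hII : ∑ h : ↥(N ⊔ (P : Subgroup G)), ptil p (τ : G → ℂ) (h : G) * conj ((η : _ → ℂ) h) =
      ∑ χ : IrrCharacter G, (ctr p τ χ : ℂ) *
        ((Nat.card ↥(N ⊔ (P : Subgroup G)) : ℂ) * (n χ : ℂ)) := by
    have hx : ∀ h : ↥(N ⊔ (P : Subgroup G)),
        ptil p (τ : G → ℂ) (h : G) * conj ((η : _ → ℂ) h) =
        ∑ χ : IrrCharacter G, (ctr p τ χ : ℂ) *
          ((χ : G → ℂ) (h : G) * conj ((η : _ → ℂ) h)) := by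
      intro h
      rw [ptil_expansion, Finset.sum_mul]
      apply Finset.sum_congr rfl
      intro χ _
      ring
    rw [Finset.sum_congr rfl (fun h _ => hx h), Finset.sum_comm]
    apply Finset.sum_congr rfl
    intro χ _
    rw [← Finset.mul_sum]
    congr 1
    have h3 := hn χ
    unfold classInner at h3
    rw [← h3, ← mul_assoc, mul_inv_cancel₀ hH0, one_mul]
    rfl
  -- p ^ a divides |NP|
  obtain ⟨t, ht⟩ : ∃ t : ℕ, Nat.card ↥(N ⊔ (P : Subgroup G)) = p ^ a * t := by
    have h1 : Nat.card (P : Subgroup G) ∣ Nat.card ↥(N ⊔ (P : Subgroup G)) :=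
      Subgroup.card_dvd_of_le le_sup_right
    rw [P.card_eq_multiplicity] at h1
    exact h1
  -- integer identity
  have hint : (t : ℤ) * ∑ χ : IrrCharacter G, ctr p τ χ * (n χ : ℤ) =
      ctr p τN θ * ((Nat.card N / p ^ (Nat.card N).factorization p : ℕ) : ℤ) := by
    have h1 : ((p ^ a : ℕ) : ℂ) * (((t : ℤ) * ∑ χ : IrrCharacter G, ctr p τ χ * (n χ : ℤ) : ℤ) : ℂ) =
        ((p ^ a : ℕ) : ℂ) * ((ctr p τN θ * ((Nat.card N / p ^ (Nat.card N).factorization p : ℕ) : ℤ) : ℤ) : ℂ) := by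
      have h2 : ((ctr p τN θ * ((Nat.card N / p ^ (Nat.card N).factorization p : ℕ) : ℤ) : ℤ) : ℂ) =
          (ctr p τN θ : ℂ) * ((Nat.card N / p ^ (Nat.card N).factorization p : ℕ) : ℂ) := by
        push_cast
        rfl
      rw [h2, ← hI, hII, ht]
      push_cast
      rw [Finset.mul_sum, Finset.mul_sum]
      apply Finset.sum_congr rfl
      intro χ _
      ring
    have h3 : ((p ^ a : ℕ) : ℂ) ≠ 0 := by exact_mod_cast (pow_pos hp.pos a).ne'
    have h4 := mul_left_cancel₀ h3 h1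
    exact_mod_cast h4
  have hmN : ¬ (p : ℤ) ∣ ((Nat.card N / p ^ (Nat.card N).factorization p : ℕ) : ℤ) := by
    intro h
    have h1 : p ∣ Nat.card N / p ^ (Nat.card N).factorization p := by exact_mod_cast h
    exact (Nat.not_dvd_ordCompl hp Nat.card_pos.ne') h1
  have hex : ∃ χ : IrrCharacter G, ¬ (p : ℤ) ∣ ctr p τ χ * (n χ : ℤ) := by
    by_contra hcon
    push Not at hcon
    have h1 : (p : ℤ) ∣ ctr p τN θ * ((Nat.card N / p ^ (Nat.card N).factorization p : ℕ) : ℤ) := by
      rw [← hint]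
      exact Dvd.dvd.mul_left (Finset.dvd_sum fun χ _ => hcon χ) _
    have hpz : Prime (p : ℤ) := Nat.prime_iff_prime_int.mp hp
    rcases hpz.dvd_or_dvd h1 with h2 | h2
    · exact hc h2
    · exact hmN h2
  obtain ⟨χ, hχ⟩ := hex
  have hc0 : ctr p τ χ ≠ 0 := fun h => hχ (by rw [h, zero_mul]; exact dvd_zero _)
  have hn0 : n χ ≠ 0 := fun h => hχ (by rw [h]; simp)
  have hχB : χ ∈ principalBlock M G := by
    by_contra hnot
    exact hc0 (ctr_eq_zero p M hM _ hB τ hτB χ hnot)
  have hpd : ¬ p ∣ charDegree (χ : G → ℂ) := by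
    intro hd
    apply hχ
    have hpos := (Cfsg.Agent.Lib.Helper83.irr_degree χ.2).1
    have h1' : 1 ≤ (charDegree (χ : G → ℂ)).factorization p :=
      (hp.dvd_iff_one_le_factorization hpos.ne').mp hd
    have h2' := ctr_dvd_right p τ χ
    have h3' : (p : ℤ) ∣ ((p ^ (charDegree (χ : G → ℂ)).factorization p : ℕ) : ℤ) := by
      exact_mod_cast dvd_pow_self p (by omega : (charDegree (χ : G → ℂ)).factorization p ≠ 0)
    exact Dvd.dvd.mul_right (h3'.trans h2') _
  refine ⟨χ, hχB, hpd, ?_⟩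
  -- (III) the multiplicity of θ in χ_N is at least n χ
  obtain ⟨k, hk⟩ := exists_decomp_of_isCharacter _
    (Cfsg.Agent.Lib.Helper35.isCharacter_res (N ⊔ (P : Subgroup G))
      (Cfsg.Agent.Lib.Helper35.isChar_of_irr χ.2))
  have hkη : k η = n χ := by
    have h1 := hn χ
    rw [hk, classInner_sum_irr] at h1
    exact_mod_cast h1
  have hj : ∀ ξ : IrrCharacter ↥(N ⊔ (P : Subgroup G)), ∃ j : ℕ,
      classInner (fun m : N => (ξ : _ → ℂ)
        (Subgroup.inclusion (le_sup_left : N ≤ N ⊔ (P : Subgroup G)) m)) (θ : N → ℂ) = j :=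
    fun ξ => Cfsg.Agent.Lib.Helper35.classInner_char_nat
      (isCharacter_comp (Subgroup.inclusion (le_sup_left : N ≤ N ⊔ (P : Subgroup G)))
        (Cfsg.Agent.Lib.Helper35.isChar_of_irr ξ.2))
      (Cfsg.Agent.Lib.Helper35.isChar_of_irr θ.2)
  choose j hj using hj
  have hjη : j η = 1 := by
    have h1 := hj η
    have h2 : (fun m : N => (η : _ → ℂ)
        (Subgroup.inclusion (le_sup_left : N ≤ N ⊔ (P : Subgroup G)) m)) = (θ : N → ℂ) := by
      funext m
      exact hη m
    rw [h2, classInner_irr, if_pos rfl] at h1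
    exact_mod_cast h1.symm
  have hfinal : classInner (fun m : N => (χ : G → ℂ) m) (θ : N → ℂ) =
      ((∑ ξ : IrrCharacter ↥(N ⊔ (P : Subgroup G)), k ξ * j ξ : ℕ) : ℂ) := by
    have h1 : ∀ m : N, (χ : G → ℂ) m = ∑ ξ : IrrCharacter ↥(N ⊔ (P : Subgroup G)),
        (k ξ : ℂ) * (ξ : _ → ℂ) (Subgroup.inclusion (le_sup_left : N ≤ N ⊔ (P : Subgroup G)) m) := by
      intro m
      have h2 := congrFun hk (Subgroup.inclusion (le_sup_left : N ≤ N ⊔ (P : Subgroup G)) m)
      rw [Finset.sum_apply] at h2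
      simp only [Pi.smul_apply, smul_eq_mul] at h2
      rw [← h2]
      rfl
    unfold classInner
    push_cast
    rw [Finset.sum_congr rfl (fun m _ => by rw [h1 m, Finset.sum_mul]), Finset.sum_comm,
      Finset.mul_sum]
    apply Finset.sum_congr rfl
    intro ξ _
    have h3 := hj ξ
    unfold classInner at h3
    rw [← h3, Finset.mul_sum, Finset.mul_sum, Finset.mul_sum]
    apply Finset.sum_congr rfl
    intro m _
    ring
  rw [hfinal]
  have hpos : 0 < ∑ ξ : IrrCharacter ↥(N ⊔ (P : Subgroup G)), k ξ * j ξ := by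
    apply Finset.sum_pos'
    · intro ξ _
      exact Nat.zero_le _
    · refine ⟨η, Finset.mem_univ _, ?_⟩
      rw [hkη, hjη, mul_one]
      exact Nat.pos_of_ne_zero hn0
  exact_mod_cast hpos.ne'

end Cfsg.Agent.S4583
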