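import Cfsg.Statements.S4584
import Cfsg.Agent.Lib.Helper80.PGrp

set_option autoImplicit false
open Cfsg

namespace Cfsg.Agent.S4584

open Cfsg.Agent.Lib.Helper80

/-- Let p be a prime and P a group of order p^4. Then the derived subgroup P' has order p if and only if the centre Z(P) has index p^2 in P. -/
theorem result {P : Type*} [Group P] [Finite P] (p : ℕ) [Fact p.Prime] (hP : Nat.card P = p ^ 4) :
    Nat.card (commutator P) = p ↔ (Subgroup.center P).index = p ^ 2 := by
  have hp := (Fact.out : p.Prime)
  constructor
  · intro hc
    have hPG : IsPGroup p P := IsPGroup.of_card hP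
    have : Group.IsNilpotent P := hPG.isNilpotent
    have hPZ : commutator P ≤ Subgroup.center P := by
      have h1 : ⁅commutator P, (⊤ : Subgroup P)⁆ = ⊥ := by
        have hle : ⁅commutator P, (⊤ : Subgroup P)⁆ ≤ commutator P :=
          Subgroup.commutator_le_left _ _
        have hd : Nat.card (⁅commutator P, (⊤ : Subgroup P)⁆ : Subgroup P) ∣ p :=
          hc ▸ Subgroup.card_dvd_of_le hle
        rcases (Nat.dvd_prime hp).1 hd with h | h
        · exact Subgroup.card_eq_one.1 h
        · exfalso
          have heq : ⁅commutator P, (⊤ : Subgroup P)⁆ = commutator P :=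
            Subgroup.eq_of_le_of_card_ge hle (by rw [h, hc])
          have := eq_bot_of_le_commutator_top (H := commutator P) heq.ge
          rw [this] at hc
          simp at hc
          exact hp.one_lt.ne hc
      rw [Subgroup.commutator_eq_bot_iff_le_centralizer] at h1
      simpa [Subgroup.centralizer_univ] using h1
    have hidx : ∀ x : P, x ∉ Subgroup.center P → (Subgroup.centralizer {x}).index = p := by
      intro x hx
      have h1 : Nat.card (commHom hPZ x).range ∣ p :=
        hc ▸ Subgroup.card_dvd_of_le (commHom_range_le hPZ x)
      rw [card_commHom_range] at h1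
      rcases (Nat.dvd_prime hp).1 h1 with h | h
      · exfalso
        rw [Subgroup.index_eq_one] at h
        apply hx
        rw [Subgroup.mem_center_iff]
        intro g
        have : g ∈ Subgroup.centralizer {x} := h ▸ Subgroup.mem_top g
        exact (mem_centralizer_singleton_iff' x g).1 this
      · exact h
    have hZne : Subgroup.center P ≠ ⊤ := by
      intro h
      have h2 : commutator P = ⊥ := (commutator_eq_bot_iff_center_eq_top P).2 h
      rw [h2] at hc
      simp at hc
      exact hp.one_lt.ne hc
    obtain ⟨a, ha⟩ : ∃ a : P, a ∉ Subgroup.center P := by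
      by_contra hcon
      push Not at hcon
      exact hZne (eq_top_iff.2 fun x _ => hcon x)
    have hCa : Subgroup.centralizer {a} ≠ ⊤ := by
      intro h
      have := hidx a ha
      rw [h, Subgroup.index_top] at this
      exact hp.one_lt.ne this
    obtain ⟨b, hb⟩ : ∃ b : P, b ∉ Subgroup.centralizer {a} := by
      by_contra hcon
      push Not at hcon
      exact hCa (eq_top_iff.2 fun x _ => hcon x)
    have hbZ : b ∉ Subgroup.center P := fun h => hb (Subgroup.center_le_centralizer _ h)
    have hab : a ∉ Subgroup.centralizer {b} := by
      intro h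
      apply hb
      rw [mem_centralizer_singleton_iff'] at h ⊢
      exact h.symm
    have hA : (Subgroup.centralizer {a}).index = p := hidx a ha
    have hB : (Subgroup.centralizer {b}).index = p := hidx b hbZ
    have haA : a ∈ Subgroup.centralizer {a} := (mem_centralizer_singleton_iff' a a).2 rfl
    have hbB : b ∈ Subgroup.centralizer {b} := (mem_centralizer_singleton_iff' b b).2 rfl
    obtain ⟨D, hDdef⟩ : ∃ D : Subgroup P, D = Subgroup.centralizer {a} ⊓ Subgroup.centralizer {b} :=
      ⟨_, rfl⟩
    have hDA : D ≤ Subgroup.centralizer {a} := hDdef ▸ inf_le_left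
    have hDB : D ≤ Subgroup.centralizer {b} := hDdef ▸ inf_le_right
    have hD : D.index = p ^ 2 := by
      have h1 : D.index ≤ p * p := by
        have := Subgroup.index_inf_le (H := Subgroup.centralizer {a})
          (K := Subgroup.centralizer {b})
        rwa [hA, hB, ← hDdef] at this
      have h2 : D.index ∣ p ^ 4 := hP ▸ Subgroup.index_dvd_card D
      obtain ⟨k, hk, hk2⟩ := (Nat.dvd_prime_pow hp).1 h2
      have hk' : k ≤ 2 := by
        by_contra hcon
        push Not at hcon
        have h3 : p ^ 3 ≤ p ^ k := Nat.pow_le_pow_right hp.pos hcon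
        have h4 : p ^ 2 < p ^ 3 := Nat.pow_lt_pow_right hp.one_lt (by norm_num)
        rw [hk2] at h1
        nlinarith
      interval_cases k
      · exfalso
        rw [pow_zero, Subgroup.index_eq_one] at hk2
        exact hCa (top_le_iff.1 (hk2 ▸ hDA))
      · exfalso
        rcases eq_or_eq_top_of_index_prime hDA (by rw [hk2, pow_one]; exact hp) with h | h
        · exact hab (hDB (h ▸ haA))
        · exact hCa h
      · exact hk2
    have hDcard : Nat.card D = p ^ 2 := by
      have := Subgroup.card_mul_index D
      rw [hD, hP] at this
      have hpos : 0 < p ^ 2 := pow_pos hp.pos 2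
      exact Nat.eq_of_mul_eq_mul_right hpos (by rw [this]; ring)
    have hDcomm := isMulCommutative_iff.1 (IsPGroup.isMulCommutative_of_card_eq_prime_sq hDcard)
    have hDZ : D ≤ Subgroup.center P := by
      intro d hd
      have hDC : D ≤ Subgroup.centralizer {d} := by
        intro e he
        rw [mem_centralizer_singleton_iff']
        exact congrArg Subtype.val (hDcomm ⟨e, he⟩ ⟨d, hd⟩)
      have haC : a ∈ Subgroup.centralizer {d} := by
        rw [mem_centralizer_singleton_iff']
        exact ((mem_centralizer_singleton_iff' a d).1 (hDA hd)).symm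
      have hbC : b ∈ Subgroup.centralizer {d} := by
        rw [mem_centralizer_singleton_iff']
        exact ((mem_centralizer_singleton_iff' b d).1 (hDB hd)).symm
      have hMA : Subgroup.centralizer {d} ⊓ Subgroup.centralizer {a} = Subgroup.centralizer {a} := by
        have h1 : D ≤ Subgroup.centralizer {d} ⊓ Subgroup.centralizer {a} := le_inf hDC hDA
        have h2 : (Subgroup.centralizer {d} ⊓ Subgroup.centralizer {a}).index ∣ p ^ 2 :=
          hD ▸ Subgroup.index_dvd_of_le h1
        have h3 : p ∣ (Subgroup.centralizer {d} ⊓ Subgroup.centralizer {a}).index :=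
          hA ▸ Subgroup.index_dvd_of_le inf_le_right
        obtain ⟨k, hk, hk2⟩ := (Nat.dvd_prime_pow hp).1 h2
        interval_cases k
        · exfalso
          rw [hk2] at h3
          simp at h3
          exact hp.one_lt.ne' h3
        · exact eq_of_le_of_index_eq' inf_le_right (by rw [hk2, hA, pow_one])
            (by rw [hA]; exact hp.ne_zero)
        · exfalso
          have h5 := eq_of_le_of_index_eq' h1 (by rw [hD, hk2])
            (by rw [hk2]; exact (pow_pos hp.pos 2).ne')
          have haD : a ∈ D := h5 ▸ ⟨haC, haA⟩
          exact hab (hDB haD)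
      have hAC : Subgroup.centralizer {a} ≤ Subgroup.centralizer {d} := hMA ▸ inf_le_left
      rcases eq_or_eq_top_of_index_prime hAC (hA ▸ hp) with h | h
      · exact absurd (h ▸ hbC) hb
      · rw [Subgroup.mem_center_iff]
        intro g
        have : g ∈ Subgroup.centralizer {d} := h ▸ Subgroup.mem_top g
        exact (mem_centralizer_singleton_iff' d g).1 this
    have h1 : (Subgroup.center P).index ∣ p ^ 2 := hD ▸ Subgroup.index_dvd_of_le hDZ
    obtain ⟨k, hk, hk2⟩ := (Nat.dvd_prime_pow hp).1 h1
    interval_cases k
    · exfalso
      rw [pow_zero, Subgroup.index_eq_one] at hk2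
      exact hZne hk2
    · exfalso
      rcases eq_or_eq_top_of_index_prime (Subgroup.center_le_centralizer {a})
        (by rw [hk2, pow_one]; exact hp) with h | h
      · exact ha (h ▸ haA)
      · exact hCa h
    · exact hk2
  · exact card_commutator_of_index_center_eq_sq p

end Cfsg.Agent.S4584
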