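import Cfsg.Statements.S4585
import Cfsg.Agent.Lib.Helper80.PGrp

set_option autoImplicit false
open Cfsg

namespace Cfsg.Agent.S4585

open Cfsg.Agent.Lib.Helper80
open scoped commutatorElement

/-- If `P/P'` is cyclic then `P' ≤ ⁅P', ⊤⁆`. -/
theorem commutator_le_of_cyclic {P : Type*} [Group P] [IsCyclic (P ⧸ commutator P)] :
    commutator P ≤ ⁅commutator P, (⊤ : Subgroup P)⁆ := by
  obtain ⟨M, hM⟩ : ∃ M : Subgroup P, M = ⁅commutator P, (⊤ : Subgroup P)⁆ := ⟨_, rfl⟩
  rw [← hM]
  have hMn : M.Normal := by rw [hM]; infer_instance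
  have hMle : M ≤ commutator P := hM ▸ Subgroup.commutator_le_left _ _
  let f : P ⧸ M →* P ⧸ commutator P :=
    QuotientGroup.map M (commutator P) (MonoidHom.id P) (by simpa using hMle)
  have hker : f.ker ≤ Subgroup.center (P ⧸ M) := by
    intro q hq
    induction q using QuotientGroup.induction_on with
    | H y =>
      rw [MonoidHom.mem_ker] at hq
      have hy : y ∈ commutator P := by
        have h1 : f (y : P ⧸ M) = ((y : P) : P ⧸ commutator P) := rfl
        rw [h1] at hq
        exact (QuotientGroup.eq_one_iff _).1 hq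
      rw [Subgroup.mem_center_iff]
      intro q'
      induction q' using QuotientGroup.induction_on with
      | H z =>
        rw [← QuotientGroup.mk_mul, ← QuotientGroup.mk_mul, QuotientGroup.eq]
        have h2 : (z * y)⁻¹ * (y * z) = ⁅y⁻¹, z⁻¹⁆ := by
          simp [commutatorElement_def, mul_assoc]
        rw [h2, hM]
        exact Subgroup.commutator_mem_commutator (Subgroup.inv_mem _ hy) (Subgroup.mem_top _)
  have hcomm := isMulCommutative_iff.1 (f.isMulCommutative_of_isCyclic_of_ker_le_center hker)
  let _ : CommGroup (P ⧸ M) := { (inferInstance : Group (P ⧸ M)) with mul_comm := hcomm }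
  have := Abelianization.commutator_subset_ker (QuotientGroup.mk' M)
  rwa [QuotientGroup.ker_mk'] at this

/-- Let p be a prime and P a group of order p^4. Then P' has index p^2 in P if and only if P has maximal nilpotency class, that is, nilpotency class exactly 3. -/
theorem result {P : Type*} [Group P] [Finite P] (p : ℕ) [Fact p.Prime] (hP : Nat.card P = p ^ 4) :
    (commutator P).index = p ^ 2 ↔ Group.nilpotencyClass P = 3 := by
  have hp := (Fact.out : p.Prime)
  have hPG : IsPGroup p P := IsPGroup.of_card hP
  have hnil : Group.IsNilpotent P := hPG.isNilpotent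
  have hstrict : ∀ n : ℕ, Subgroup.lowerCentralSeries (⊤ : Subgroup P) (n + 1) =
      Subgroup.lowerCentralSeries (⊤ : Subgroup P) n →
      Subgroup.lowerCentralSeries (⊤ : Subgroup P) n = ⊥ := by
    intro n h
    apply eq_bot_of_le_commutator_top
    rw [← Subgroup.lowerCentralSeries_succ]
    exact h.ge
  have hL0 : Subgroup.lowerCentralSeries (⊤ : Subgroup P) 0 = ⊤ := rfl
  have hL1 : Subgroup.lowerCentralSeries (⊤ : Subgroup P) 1 = commutator P :=
    Subgroup.top_lowerCentralSeries_one
  have hL2 : Subgroup.lowerCentralSeries (⊤ : Subgroup P) 2 =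
      ⁅commutator P, (⊤ : Subgroup P)⁆ := by
    rw [Subgroup.lowerCentralSeries_succ, hL1]
  have hcls : Group.nilpotencyClass P = 3 ↔
      (Subgroup.lowerCentralSeries (⊤ : Subgroup P) 3 = ⊥ ∧
        Subgroup.lowerCentralSeries (⊤ : Subgroup P) 2 ≠ ⊥) := by
    rw [Subgroup.lowerCentralSeries_eq_bot_iff_nilpotencyClass_le, ne_eq,
      Subgroup.lowerCentralSeries_eq_bot_iff_nilpotencyClass_le]
    omega
  rw [hcls]
  have hanti := Subgroup.lowerCentralSeries_antitone (⊤ : Subgroup P)
  generalize Subgroup.lowerCentralSeries (⊤ : Subgroup P) = L at *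
  have hcm := Subgroup.card_mul_index (commutator P)
  rw [hP] at hcm
  have hL21 : L 2 ≤ commutator P := hL1 ▸ hanti (by norm_num : 1 ≤ 2)
  have hL32 : L 3 ≤ L 2 := hanti (by norm_num)
  constructor
  · intro hidx
    have hc : Nat.card (commutator P) = p ^ 2 := by
      rw [hidx] at hcm
      exact Nat.eq_of_mul_eq_mul_right (pow_pos hp.pos 2) (by rw [hcm]; ring)
    have hL2ne : L 2 ≠ ⊥ := by
      intro h
      rw [hL2, Subgroup.commutator_eq_bot_iff_le_centralizer] at h
      have hPZ : commutator P ≤ Subgroup.center P := by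
        simpa [Subgroup.centralizer_univ] using h
      have h1 : (Subgroup.center P).index ∣ p ^ 2 := hidx ▸ Subgroup.index_dvd_of_le hPZ
      obtain ⟨k, hk, hk2⟩ := (Nat.dvd_prime_pow hp).1 h1
      have hZne : Subgroup.center P ≠ ⊤ := by
        intro h
        have h2 : commutator P = ⊥ := (commutator_eq_bot_iff_center_eq_top P).2 h
        rw [h2] at hc
        simp at hc
        have := hp.one_lt
        nlinarith
      interval_cases k
      · rw [pow_zero, Subgroup.index_eq_one] at hk2
        exact hZne hk2
      · obtain ⟨a, ha⟩ : ∃ a : P, a ∉ Subgroup.center P := by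
          by_contra hcon
          push Not at hcon
          exact hZne (eq_top_iff.2 fun x _ => hcon x)
        rcases eq_or_eq_top_of_index_prime (Subgroup.center_le_centralizer {a})
          (by rw [hk2, pow_one]; exact hp) with h | h
        · exact ha (h ▸ (mem_centralizer_singleton_iff' a a).2 rfl)
        · apply ha
          rw [Subgroup.mem_center_iff]
          intro g
          have : g ∈ Subgroup.centralizer {a} := h ▸ Subgroup.mem_top g
          exact (mem_centralizer_singleton_iff' a g).1 this
      · have := card_commutator_of_index_center_eq_sq p hk2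
        rw [hc] at this
        have := hp.one_lt
        nlinarith
    refine ⟨?_, hL2ne⟩
    have hL2c : Nat.card (L 2) ∣ p := by
      have hd : Nat.card (L 2) ∣ p ^ 2 := hc ▸ Subgroup.card_dvd_of_le hL21
      obtain ⟨k, hk, hk2⟩ := (Nat.dvd_prime_pow hp).1 hd
      interval_cases k
      · rw [hk2]; simp
      · rw [hk2]; simp
      · exfalso
        have h5 : L 2 = L 1 := hL1 ▸ Subgroup.eq_of_le_of_card_ge hL21 (by rw [hk2, hc])
        have h6 := hstrict 1 h5
        rw [hL1] at h6
        rw [h6] at hc
        simp at hc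
        nlinarith [hp.one_lt]
    have hd3 : Nat.card (L 3) ∣ p := (Subgroup.card_dvd_of_le hL32).trans hL2c
    rcases (Nat.dvd_prime hp).1 hd3 with h | h
    · exact Subgroup.card_eq_one.1 h
    · exfalso
      have h2 : Nat.card (L 2) = p := Nat.dvd_antisymm hL2c (h ▸ Subgroup.card_dvd_of_le hL32)
      exact hL2ne (hstrict 2 (Subgroup.eq_of_le_of_card_ge hL32 (by rw [h, h2])))
  · rintro ⟨h3, h2⟩
    have hd : (commutator P).index ∣ p ^ 4 := hP ▸ Subgroup.index_dvd_card _
    obtain ⟨k, hk, hk2⟩ := (Nat.dvd_prime_pow hp).1 hd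
    have hP'ne : commutator P ≠ ⊥ := by
      intro h
      apply h2
      rw [hL2, h]
      simp
    interval_cases k
    · exfalso
      rw [pow_zero, Subgroup.index_eq_one] at hk2
      have h5 := hstrict 0 (by rw [hL1, hk2, hL0])
      exact h2 (le_bot_iff.1 (h5 ▸ hanti (by norm_num : 0 ≤ 2)))
    · exfalso
      have hcq : Nat.card (P ⧸ commutator P) = p := by
        rw [pow_one] at hk2
        exact hk2
      have : IsCyclic (P ⧸ commutator P) := isCyclic_of_prime_card hcq
      exact hP'ne (eq_bot_of_le_commutator_top (commutator_le_of_cyclic (P := P)))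
    · exact hk2
    · exfalso
      have hc : Nat.card (commutator P) = p := by
        rw [hk2] at hcm
        exact Nat.eq_of_mul_eq_mul_right (pow_pos hp.pos 3) (by rw [hcm]; ring)
      have hd2 : Nat.card (L 2) ∣ p := hc ▸ Subgroup.card_dvd_of_le hL21
      rcases (Nat.dvd_prime hp).1 hd2 with h | h
      · exact h2 (Subgroup.card_eq_one.1 h)
      · have h5 : L 2 = L 1 := hL1 ▸ Subgroup.eq_of_le_of_card_ge hL21 (by rw [h, hc])
        exact hP'ne (hL1 ▸ hstrict 1 h5)
    · exfalso
      have hc : Nat.card (commutator P) = 1 := by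
        rw [hk2] at hcm
        exact Nat.eq_of_mul_eq_mul_right (pow_pos hp.pos 4) (by rw [hcm]; ring)
      exact hP'ne (Subgroup.card_eq_one.1 hc)

end Cfsg.Agent.S4585
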