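import Cfsg.Statements.S4586
import Cfsg.Agent.Lib.Helper80.PGrp

set_option autoImplicit false
open Cfsg

namespace Cfsg.Agent.S4586

open Cfsg.Agent.Lib.Helper80
open scoped commutatorElement

section
variable {P : Type*} [Group P] (N : Subgroup P) [N.Normal]

/-- `ψ_x : N → N^ab`, `n ↦ of(x n x⁻¹) · of(n)⁻¹`. -/
noncomputable def psi (x : P) : N →* Abelianization N :=
  (Abelianization.of.comp (MulAut.conjNormal x : N ≃* N).toMonoidHom) * (Abelianization.of)⁻¹

theorem psi_apply (x : P) (n : N) :
    psi N x n = Abelianization.of (MulAut.conjNormal x n) * (Abelianization.of n)⁻¹ := rfl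

theorem mem_ker_psi (x : P) (n : N) :
    n ∈ (psi N x).ker ↔ x * n * x⁻¹ * (n : P)⁻¹ ∈ (commutator N).map N.subtype := by
  rw [MonoidHom.mem_ker, psi_apply, ← map_inv, ← map_mul, ← MonoidHom.mem_ker,
    Abelianization.ker_of]
  constructor
  · intro h
    exact ⟨_, h, by simp [MulAut.conjNormal_apply]⟩
  · rintro ⟨m, hm, hm2⟩
    have : m = MulAut.conjNormal x n * n⁻¹ :=
      Subtype.ext (by simpa [MulAut.conjNormal_apply] using hm2)
    rwa [← this]

theorem commutator_le_of_index_prime (p : ℕ) [Fact p.Prime] (hN : N.index = p) :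
    commutator P ≤ N := by
  have : IsCyclic (P ⧸ N) := isCyclic_of_prime_card hN
  let _ : CommGroup (P ⧸ N) := IsCyclic.commGroup
  have := Abelianization.commutator_subset_ker (QuotientGroup.mk' N)
  rwa [QuotientGroup.ker_mk'] at this

theorem of_conj_comm (hPN : commutator P ≤ N) (x y : P) (n : N) :
    Abelianization.of (MulAut.conjNormal y (MulAut.conjNormal x n)) =
      Abelianization.of (MulAut.conjNormal x (MulAut.conjNormal y n)) := by
  have hm : ⁅x, y⁆ ∈ N :=
    hPN (Subgroup.commutator_mem_commutator (Subgroup.mem_top _) (Subgroup.mem_top _))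
  have h1 : MulAut.conjNormal x (MulAut.conjNormal y n) =
      ⟨⁅x, y⁆, hm⟩ * MulAut.conjNormal y (MulAut.conjNormal x n) * ⟨⁅x, y⁆, hm⟩⁻¹ := by
    apply Subtype.ext
    simp only [MulAut.conjNormal_apply, commutatorElement_def, Subgroup.coe_mul,
      Subgroup.coe_inv]
    group
  rw [h1, map_mul, map_mul, map_inv, mul_comm, inv_mul_cancel_left]

theorem normal_K (hPN : commutator P ≤ N) (x : P) :
    (((psi N x).range.comap Abelianization.of).map N.subtype).Normal := by
  constructor
  rintro _ ⟨g, hg, rfl⟩ y
  obtain ⟨n, hn⟩ := hg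
  refine ⟨MulAut.conjNormal y g, ?_, by simp [MulAut.conjNormal_apply]⟩
  refine ⟨MulAut.conjNormal y n, ?_⟩
  have h2 : Abelianization.of (MulAut.conjNormal y g) =
      Abelianization.map (MulAut.conjNormal y : N ≃* N).toMonoidHom (Abelianization.of g) :=
    (Abelianization.map_of (MulAut.conjNormal y : N ≃* N).toMonoidHom g).symm
  rw [h2, ← hn, psi_apply, psi_apply, map_mul, map_inv, Abelianization.map_of,
    Abelianization.map_of, ← of_conj_comm N hPN x y n]
  rfl

theorem K_le_commutator (x : P) :
    ((psi N x).range.comap Abelianization.of).map N.subtype ≤ commutator P := by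
  rintro _ ⟨g, ⟨n, hn⟩, rfl⟩
  have h1 : g * (MulAut.conjNormal x n * n⁻¹)⁻¹ ∈ commutator N := by
    rw [← Abelianization.ker_of, MonoidHom.mem_ker, map_mul, map_inv, map_mul, map_inv,
      ← psi_apply, hn]
    simp
  have h2 : ((g * (MulAut.conjNormal x n * n⁻¹)⁻¹ : N) : P) ∈ commutator P := by
    have : (commutator N).map N.subtype ≤ commutator P := by
      rw [Subgroup.map_subtype_commutator]
      exact Subgroup.commutator_mono le_top le_top
    exact this ⟨_, h1, rfl⟩
  have h3 : ((MulAut.conjNormal x n * n⁻¹ : N) : P) ∈ commutator P := by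
    have : ((MulAut.conjNormal x n * n⁻¹ : N) : P) = ⁅x, (n : P)⁆ := by
      simp [MulAut.conjNormal_apply, commutatorElement_def]
    rw [this]
    exact Subgroup.commutator_mem_commutator (Subgroup.mem_top _) (Subgroup.mem_top _)
  have h4 : ((g * (MulAut.conjNormal x n * n⁻¹)⁻¹ : N) : P) *
      ((MulAut.conjNormal x n * n⁻¹ : N) : P) = (g : P) := by
    rw [← Subgroup.coe_mul]
    congr 1
    group
  show (g : P) ∈ commutator P
  rw [← h4]
  exact Subgroup.mul_mem _ h2 h3

theorem commutator_le_K (p : ℕ) [Fact p.Prime] (hN : N.index = p) (x : P) (hx : x ∉ N) :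
    commutator P ≤ ((psi N x).range.comap Abelianization.of).map N.subtype := by
  have hPN := commutator_le_of_index_prime N p hN
  obtain ⟨K, hK⟩ : ∃ K : Subgroup P,
      K = ((psi N x).range.comap Abelianization.of).map N.subtype := ⟨_, rfl⟩
  rw [← hK]
  have hKn : K.Normal := hK ▸ normal_K N hPN x
  have hKN : K ≤ N := by
    rw [hK]
    rintro _ ⟨g, -, rfl⟩
    exact g.2
  have hmem : ∀ g : N, Abelianization.of g ∈ (psi N x).range → (g : P) ∈ K := by
    intro g h
    rw [hK]
    exact ⟨g, h, rfl⟩
  obtain ⟨T, hT⟩ : ∃ T : Subgroup P, T = (Subgroup.centralizer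
      ((N.map (QuotientGroup.mk' K) : Subgroup (P ⧸ K)) : Set (P ⧸ K))).comap
        (QuotientGroup.mk' K) := ⟨_, rfl⟩
  have hmemT : ∀ y : P, (∀ n : N, ⁅y, (n : P)⁆ ∈ K) → y ∈ T := by
    intro y h
    rw [hT, Subgroup.mem_comap, Subgroup.mem_centralizer_iff]
    rintro _ ⟨n, hn, rfl⟩
    have h1 := h ⟨n, hn⟩
    rw [← QuotientGroup.eq_one_iff, commutatorElement_def] at h1
    have h2 : QuotientGroup.mk' K y * QuotientGroup.mk' K n * (QuotientGroup.mk' K y)⁻¹ *
        (QuotientGroup.mk' K n)⁻¹ = 1 := by
      simpa using h1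
    calc QuotientGroup.mk' K n * QuotientGroup.mk' K y
        = (QuotientGroup.mk' K y * QuotientGroup.mk' K n * (QuotientGroup.mk' K y)⁻¹ *
            (QuotientGroup.mk' K n)⁻¹)⁻¹ * (QuotientGroup.mk' K y * QuotientGroup.mk' K n) := by
          group
      _ = QuotientGroup.mk' K y * QuotientGroup.mk' K n := by rw [h2]; simp
  have hNT : N ≤ T := by
    intro n hn
    apply hmemT
    intro n'
    have h0 : (⁅(⟨n, hn⟩ : N), n'⁆ : N) ∈ commutator N :=
      Subgroup.commutator_mem_commutator (Subgroup.mem_top _) (Subgroup.mem_top _)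
    have h1 : Abelianization.of ⁅(⟨n, hn⟩ : N), n'⁆ = 1 := by
      rw [← MonoidHom.mem_ker, Abelianization.ker_of]
      exact h0
    exact hmem ⁅(⟨n, hn⟩ : N), n'⁆ (h1 ▸ Subgroup.one_mem _)
  have hxT : x ∈ T := by
    apply hmemT
    intro n
    have h2 := hmem (MulAut.conjNormal x n * n⁻¹) ⟨n, by rw [psi_apply, map_mul, map_inv]⟩
    simpa [MulAut.conjNormal_apply, commutatorElement_def] using h2
  have hTtop : T = ⊤ := by
    rcases eq_or_eq_top_of_index_prime hNT (hN ▸ (Fact.out : p.Prime)) with h | h
    · exact absurd (h ▸ hxT) hx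
    · exact h
  have : IsCyclic (P ⧸ N) := isCyclic_of_prime_card hN
  let f : P ⧸ K →* P ⧸ N := QuotientGroup.map K N (MonoidHom.id P) (by simpa using hKN)
  have hker : f.ker ≤ Subgroup.center (P ⧸ K) := by
    intro q hq
    induction q using QuotientGroup.induction_on with
    | H n =>
      rw [MonoidHom.mem_ker] at hq
      have hn : n ∈ N := by
        have h1 : f (n : P ⧸ K) = ((n : P) : P ⧸ N) := rfl
        rw [h1] at hq
        exact (QuotientGroup.eq_one_iff _).1 hq
      rw [Subgroup.mem_center_iff]
      intro q'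
      induction q' using QuotientGroup.induction_on with
      | H y =>
        have hy : y ∈ T := hTtop ▸ Subgroup.mem_top y
        rw [hT, Subgroup.mem_comap, Subgroup.mem_centralizer_iff] at hy
        exact (hy (QuotientGroup.mk' K n) ⟨n, hn, rfl⟩).symm
  have hcomm := isMulCommutative_iff.1 (f.isMulCommutative_of_isCyclic_of_ker_le_center hker)
  let _ : CommGroup (P ⧸ K) := { (inferInstance : Group (P ⧸ K)) with mul_comm := hcomm }
  have := Abelianization.commutator_subset_ker (QuotientGroup.mk' K)
  rwa [QuotientGroup.ker_mk'] at this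

theorem key_formula [Finite P] (p : ℕ) [Fact p.Prime] (hN : N.index = p) (x : P) (hx : x ∉ N) :
    (commutator P).index * Nat.card (commutator N) =
      p * Nat.card {n : N // x * n * x⁻¹ * (n : P)⁻¹ ∈ (commutator N).map N.subtype} := by
  have hK : commutator P = ((psi N x).range.comap Abelianization.of).map N.subtype :=
    le_antisymm (commutator_le_K N p hN x hx) (K_le_commutator N x)
  have hsurj : Function.Surjective (Abelianization.of : N →* Abelianization N) :=
    fun a => QuotientGroup.mk_surjective a
  have h1 : (commutator P).index = (psi N x).range.index * p := by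
    rw [hK, Subgroup.index_map_subtype, Subgroup.index_comap_of_surjective _ hsurj, hN]
  have h2 : Nat.card {n : N // x * n * x⁻¹ * (n : P)⁻¹ ∈ (commutator N).map N.subtype} =
      Nat.card (psi N x).ker :=
    Nat.card_congr (Equiv.subtypeEquivRight fun n => (mem_ker_psi N x n).symm)
  have h3 : Nat.card (psi N x).ker * Nat.card (psi N x).range = Nat.card N := by
    rw [← Subgroup.index_ker]
    exact Subgroup.card_mul_index _
  have h4 : Nat.card (psi N x).range * (psi N x).range.index = Nat.card (Abelianization N) :=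
    Subgroup.card_mul_index _
  have h5 : Nat.card (commutator N) * Nat.card (Abelianization N) = Nat.card N :=
    Subgroup.card_mul_index (commutator N)
  have hpos : 0 < Nat.card (psi N x).range := Nat.card_pos
  rw [h1, h2]
  have h6 : Nat.card (psi N x).ker * Nat.card (psi N x).range =
      Nat.card (commutator N) * (psi N x).range.index * Nat.card (psi N x).range := by
    rw [h3, ← h5, ← h4]
    ring
  have h7 := Nat.eq_of_mul_eq_mul_right hpos h6
  rw [h7]
  ring

end

/-- Let p be a prime, P a finite p-group and N a normal subgroup of P of index p. For x ∈ P write c(x) for the number of elements n of N whose commutator x n x⁻¹ n⁻¹ lies in the derived subgroup N' (so c(x)/#N' is the order of the centralizer of x acting on N/N'). Then [P : P'] = p² if and only if c(x) = p·#N' for every x ∈ P outside N, and also if and only if c(x) = p·#N' for some x ∈ P outside N. -/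
theorem result {P : Type*} [Group P] [Finite P] (p : ℕ) [Fact p.Prime] (hP : IsPGroup p P) (N : Subgroup P) [N.Normal] (hN : N.index = p) :
    ((commutator P).index = p ^ 2 ↔ ∀ x : P, x ∉ N →
        Nat.card {n : N // x * n * x⁻¹ * (n : P)⁻¹ ∈ (commutator N).map N.subtype} = p * Nat.card (commutator N)) ∧
    ((commutator P).index = p ^ 2 ↔ ∃ x : P, x ∉ N ∧
        Nat.card {n : N // x * n * x⁻¹ * (n : P)⁻¹ ∈ (commutator N).map N.subtype} = p * Nat.card (commutator N)) := by
  have _ := hP
  have hp := (Fact.out : p.Prime)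
  have hpos : 0 < Nat.card (commutator N) := Nat.card_pos
  have hNne : ∃ x : P, x ∉ N := by
    by_contra hcon
    push Not at hcon
    have : N = ⊤ := eq_top_iff.2 fun x _ => hcon x
    rw [this, Subgroup.index_top] at hN
    exact hp.one_lt.ne hN
  have hiff : ∀ x : P, x ∉ N → ((commutator P).index = p ^ 2 ↔
      Nat.card {n : N // x * n * x⁻¹ * (n : P)⁻¹ ∈ (commutator N).map N.subtype} =
        p * Nat.card (commutator N)) := by
    intro x hx
    have h := key_formula N p hN x hx
    constructor
    · intro h1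
      rw [h1] at h
      have : p * (p * Nat.card (commutator N)) = p * Nat.card {n : N //
          x * n * x⁻¹ * (n : P)⁻¹ ∈ (commutator N).map N.subtype} := by
        rw [← h]
        ring
      exact (Nat.eq_of_mul_eq_mul_left hp.pos this).symm
    · intro h1
      rw [h1] at h
      exact Nat.eq_of_mul_eq_mul_right hpos (by rw [h]; ring)
  refine ⟨⟨fun h x hx => (hiff x hx).1 h, fun h => ?_⟩,
    ⟨fun h => ?_, fun ⟨x, hx, h⟩ => (hiff x hx).2 h⟩⟩
  · obtain ⟨x, hx⟩ := hNne
    exact (hiff x hx).2 (h x hx)
  · obtain ⟨x, hx⟩ := hNne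
    exact ⟨x, hx, (hiff x hx).1 h⟩

end Cfsg.Agent.S4586
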