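import Cfsg.Statements.S4591
import Cfsg.Agent.Lib.Helper86.PKer
import Cfsg.Agent.Lib.Helper75.FrattiniAct
import Cfsg.Agent.S0081

set_option autoImplicit false
open Cfsg

namespace Cfsg.Agent.S4591

/-- Let G be a finite group, p a prime and P a Sylow p-subgroup, and let N be the largest normal subgroup of G in which P has trivial centralizer (N is normal with C_N(P) = 1 and contains every normal subgroup with that property). Then the intersection of the kernels of the irreducible characters of G of degree prime to p is the normal core in G of the subgroup N·P' (P' the derived subgroup of P). In particular, when G has no nontrivial normal subgroup of order prime to p, that intersection is the normal core of P'. -/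
theorem result {G : Type*} [Group G] [Finite G] (p : ℕ) [Fact p.Prime] (P : Sylow p G) (N : Subgroup G) [N.Normal]
    (hN : N ⊓ Subgroup.centralizer ((P : Subgroup G) : Set G) = ⊥)
    (hmax : ∀ L : Subgroup G, L.Normal → L ⊓ Subgroup.centralizer ((P : Subgroup G) : Set G) = ⊥ → L ≤ N) :
    {g : G | ∀ χ : Cfsg.IrrCharacter G, ¬ p ∣ Cfsg.charDegree (χ : G → ℂ) → (χ : G → ℂ) g = (χ : G → ℂ) 1} =
      ((N ⊔ ⁅(P : Subgroup G), (P : Subgroup G)⁆).normalCore : Set G) := by
  classical
  haveI := Fintype.ofFinite G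
  ext g
  constructor
  · intro hg
    obtain ⟨Kp, hKp⟩ : ∃ Kp : Subgroup G,
        Kp = ⨅ χ : {χ : Cfsg.IrrCharacter G // ¬ p ∣ Cfsg.charDegree (χ : G → ℂ)},
          Lib.Helper83.irrKer χ.1 := ⟨_, rfl⟩
    haveI hKpn : Kp.Normal := by
      rw [hKp]
      exact Subgroup.normal_iInf_normal (fun χ => inferInstance)
    have hmemKp : ∀ x, x ∈ Kp ↔ ∀ χ : Cfsg.IrrCharacter G,
        ¬ p ∣ Cfsg.charDegree (χ : G → ℂ) → (χ : G → ℂ) x = (χ : G → ℂ) 1 := by
      intro x
      rw [hKp]
      simp only [Subgroup.mem_iInf, Lib.Helper83.mem_irrKer, Subtype.forall]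
    have hcomm : ∀ y, y ∈ Kp ⊓ (P : Subgroup G) → ∃ hyP : y ∈ (P : Subgroup G),
        (⟨y, hyP⟩ : (P : Subgroup G)) ∈ commutator (P : Subgroup G) := by
      intro y hy
      obtain ⟨hyK, hyP⟩ := Subgroup.mem_inf.mp hy
      refine ⟨hyP, ?_⟩
      apply Lib.Helper86.mem_commutator_of_linear
      intro l hl
      exact Lib.Helper86.linear_eq_one_of_mem_ker p P y hyP ((hmemKp y).mp hyK) l hl
    have hfr : Kp ⊓ (P : Subgroup G) ≤ (frattini P).map (P : Subgroup G).subtype := by
      intro y hy
      obtain ⟨hyP, hyc⟩ := hcomm y hy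
      exact ⟨⟨y, hyP⟩, Lib.Helper75.Fratt.commutator_le_frattini P.isPGroup' hyc, rfl⟩
    have hcomp := Cfsg.Agent.S0081.result P Kp hfr
    obtain ⟨L, hLn, hLK, hLp, hKL⟩ := Lib.Helper86.exists_normal_compl p P Kp hcomp
    haveI := hLn
    have hLC : L ⊓ Subgroup.centralizer ((P : Subgroup G) : Set G) = ⊥ :=
      Lib.Helper86.centralizer_inf_eq_bot_of_le_ker p P L hLp
        (fun χ hχ x hx => (hmemKp x).mp (hLK hx) χ hχ)
    have hLN : L ≤ N := hmax L hLn hLC
    have hKNP : Kp ≤ N ⊔ ⁅(P : Subgroup G), (P : Subgroup G)⁆ := by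
      refine hKL.trans (sup_le (hLN.trans le_sup_left) ?_)
      intro y hy
      obtain ⟨hyP, hyc⟩ := hcomm y hy
      apply Subgroup.mem_sup_right
      rw [← Subgroup.map_subtype_commutator]
      exact ⟨⟨y, hyP⟩, hyc, rfl⟩
    have hgK : g ∈ Kp := (hmemKp g).mpr hg
    exact (Subgroup.normal_le_normalCore.mpr hKNP) hgK
  · intro hg χ hχ
    exact Lib.Helper86.mem_ker_of_mem_core p (P : Subgroup G) P.isPGroup' N hN χ hχ g hg

end Cfsg.Agent.S4591
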