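import Cfsg.Statements.S4601
import Mathlib
import Cfsg.Agent.Lib.Helper81.PSolv

set_option autoImplicit false
open Cfsg

namespace Cfsg.Agent.S4601

/-- Let p and q be primes and G a finite group that is p-solvable or q-solvable, in which no q-element has conjugacy class size divisible by p. Then some Sylow p-subgroup of G normalizes some Sylow q-subgroup of G. -/
theorem result {G : Type*} [Group G] [Finite G] (p q : ℕ) [Fact p.Prime] [Fact q.Prime] (hsolv : Cfsg.IsPSolvable p G ∨ Cfsg.IsPSolvable q G)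
    (h : ∀ y : G, (∃ k : ℕ, orderOf y = q ^ k) → ¬ p ∣ (Subgroup.centralizer ({y} : Set G)).index) :
    ∃ (P : Sylow p G) (Q : Sylow q G), (P : Subgroup G) ≤ Subgroup.normalizer ((Q : Subgroup G) : Set G) := by
  have hH : ∀ Q : Sylow q G, ∀ y ∈ Q, ∃ P : Sylow p G,
      (P : Subgroup G) ≤ Subgroup.centralizer {y} := by
    intro Q y hy
    have hord : ∃ k : ℕ, orderOf y = q ^ k := by
      obtain ⟨k, hk⟩ := (IsPGroup.iff_orderOf.mp Q.2) ⟨y, hy⟩
      exact ⟨k, by rw [← hk, Subgroup.orderOf_mk]⟩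
    exact Cfsg.Agent.Lib.Helper81.exists_sylow_le_of_not_dvd_index p _ (h y hord)
  have hcard : ¬ p ∣ Nat.card (Sylow q G) := by
    rcases hsolv with hs | hs
    · exact Cfsg.Agent.Lib.Helper81.not_dvd_card_sylow_of_isPSolvable_left p q G hs hH
    · exact Cfsg.Agent.Lib.Helper81.not_dvd_card_sylow_of_isPSolvable_right p q G hs hH
  obtain ⟨Q⟩ : Nonempty (Sylow q G) := inferInstance
  rw [Sylow.card_eq_index_normalizer Q] at hcard
  obtain ⟨P, hP⟩ := Cfsg.Agent.Lib.Helper81.exists_sylow_le_of_not_dvd_index p _ hcard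
  exact ⟨P, Q, hP⟩

end Cfsg.Agent.S4601
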