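import Cfsg.Statements.S4602
import Mathlib
import Cfsg.Agent.Lib.Helper81.PSolv2

set_option autoImplicit false
open Cfsg

namespace Cfsg.Agent.S4602

/-- Let G be a finite p-solvable group and q a prime different from p. Some Sylow p-subgroup of G normalizes some Sylow q-subgroup of G if and only if q does not divide the order of G/O_{p'}(G), the quotient by the largest normal subgroup of order prime to p. -/
theorem result {G : Type*} [Group G] [Finite G] (p q : ℕ) [Fact p.Prime] [Fact q.Prime] (hpq : p ≠ q) (hsolv : Cfsg.IsPSolvable p G) :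
    (∃ (P : Sylow p G) (Q : Sylow q G), (P : Subgroup G) ≤ Subgroup.normalizer ((Q : Subgroup G) : Set G)) ↔ ¬ q ∣ (Cfsg.pPrimeCore p G).index := by
  constructor
  · rintro ⟨P, Q, hPQ⟩
    obtain ⟨L, hLn, hLc, hQL⟩ :=
      Cfsg.Agent.Lib.Helper81.exists_normal_pprime_of_normalizes p q hpq G hsolv P Q hPQ
    have h1 : (Q : Subgroup G) ≤ Cfsg.pPrimeCore p G :=
      hQL.trans (Cfsg.Agent.Lib.Helper81.le_pPrimeCore p L hLn hLc)
    intro h
    exact Q.not_dvd_index (h.trans (Subgroup.index_dvd_of_le h1))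
  · intro h
    have hKn : (Cfsg.pPrimeCore p G).Normal := Cfsg.Agent.Lib.Helper81.pPrimeCore_normal p
    have hKc : (Nat.card (Cfsg.pPrimeCore p G)).Coprime p :=
      Cfsg.Agent.Lib.Helper81.pPrimeCore_coprime p
    set K := Cfsg.pPrimeCore p G with hK
    obtain ⟨Q⟩ : Nonempty (Sylow q G) := inferInstance
    have hq : q.Prime := Fact.out
    have hp : p.Prime := Fact.out
    have hQK : (Q : Subgroup G) ≤ K := by
      rw [← Subgroup.relIndex_eq_one]
      have h1 : K.relIndex (Q : Subgroup G) ∣ K.index := Subgroup.relIndex_dvd_index_of_normal K _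
      have h2 : K.relIndex (Q : Subgroup G) ∣ Nat.card (Q : Subgroup G) :=
        Subgroup.relIndex_dvd_card _ _
      obtain ⟨k, hk⟩ := IsPGroup.iff_card.mp Q.2
      rw [hk] at h2
      obtain ⟨j, -, hj⟩ := (Nat.dvd_prime_pow hq).mp h2
      rcases j with _ | j
      · simpa using hj
      · exfalso
        apply h
        refine dvd_trans ?_ h1
        rw [hj]; exact dvd_pow_self q (Nat.succ_ne_zero j)
    have hfr : Subgroup.normalizer ((Q : Subgroup G) : Set G) ⊔ K = ⊤ :=
      Sylow.normalizer_sup_eq_top' Q hQK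
    have hidx : ¬ p ∣ (Subgroup.normalizer ((Q : Subgroup G) : Set G)).index := by
      rw [Cfsg.Agent.Lib.Helper81.index_eq_relIndex_of_sup_eq_top _ K hfr]
      intro h1
      have h2 := h1.trans (Subgroup.relIndex_dvd_card _ _)
      exact hp.one_lt.ne' (Nat.Coprime.eq_one_of_dvd hKc.symm h2)
    obtain ⟨P, hP⟩ := Cfsg.Agent.Lib.Helper81.exists_sylow_le_of_not_dvd_index p _ hidx
    exact ⟨P, Q, hP⟩

end Cfsg.Agent.S4602
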