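import Cfsg.Statements.S4604
import Mathlib
import Cfsg.Agent.Lib.Helper4.NilPow
-- import your own Cfsg.Agent.* helpers here

set_option autoImplicit false
open Cfsg

namespace Cfsg.Agent.S4604

open Cfsg.Agent.Lib.Helper4
open scoped ComplexConjugate

section

variable {G : Type*} [Group G] [Fintype G]

/-- Frobenius congruence: `χ(g)^(p^a) - χ(g^(p^a)) ∈ p·AlgInt`. -/
theorem frob_cong (p : ℕ) [hp : Fact p.Prime] (a : ℕ) (χ : G → ℂ) (hχ : IsCharacter G χ) (g : G) :
    ∃ γ : ℂ, IsIntegral ℤ γ ∧ χ g ^ (p ^ a) - χ (g ^ (p ^ a)) = (p : ℂ) * γ := by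
  classical
  obtain ⟨m, ρ, rfl⟩ := hχ
  obtain ⟨ι, _, _, v, μ, h1, h2, -, -⟩ := exists_eigenbasis_rep (ρ := ρ) g
  set n := Nat.card G with hn
  have hn0 : n ≠ 0 := Nat.card_pos.ne'
  have hμmem : ∀ i, μ i ∈ cycRing n := by
    intro i
    apply mem_cycRing_of_pow_eq_one hn0
    obtain ⟨d, hd⟩ := orderOf_dvd_natCard g
    rw [hn, hd, pow_mul, h2, one_pow]
  have e1 : ρ.character g = ∑ i, μ i := trace_eq_sum_of_eigenbasis v (ρ g) μ h1
  have hpow : ∀ (j : ℕ) (i : ι), ρ (g ^ j) (v i) = μ i ^ j • v i := by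
    intro j i
    induction j with
    | zero => simp
    | succ j ih =>
      rw [pow_succ, map_mul, Module.End.mul_apply, h1, map_smul, ih, smul_smul, pow_succ, mul_comm]
  have e2 : ρ.character (g ^ (p ^ a)) = ∑ i, μ i ^ (p ^ a) :=
    trace_eq_sum_of_eigenbasis v (ρ (g ^ (p ^ a))) (fun i => μ i ^ (p ^ a)) (hpow (p ^ a))
  let μ' : ι → cycRing n := fun i => ⟨μ i, hμmem i⟩
  have : CharP (cycRing n ⧸ Ideal.span {(p : cycRing n)}) p :=
    CharP.quotient (cycRing n) p (natCast_mem_nonunits_cycRing hn0 hp.out)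
  have key : Ideal.Quotient.mk (Ideal.span {(p : cycRing n)}) ((∑ i, μ' i) ^ (p ^ a)) =
      Ideal.Quotient.mk (Ideal.span {(p : cycRing n)}) (∑ i, μ' i ^ (p ^ a)) := by
    rw [map_pow, map_sum, map_sum, sum_pow_char_pow]
    refine Finset.sum_congr rfl (fun i _ => ?_)
    rw [map_pow]
  rw [Ideal.Quotient.eq, Ideal.mem_span_singleton'] at key
  obtain ⟨b, hb⟩ := key
  refine ⟨(b : ℂ), isIntegral_of_mem_cycRing hn0 b.2, ?_⟩
  have h3 := congrArg Subtype.val hb
  rw [e1, e2]
  simp only [μ'] at h3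
  push_cast at h3
  rw [mul_comm, h3]

theorem isInt_int (z : ℤ) : IsIntegral ℤ (z : ℂ) := by
  have h := isIntegral_algebraMap (R := ℤ) (A := ℂ) (x := z)
  rwa [eq_intCast] at h

theorem isInt_nat (k : ℕ) : IsIntegral ℤ (k : ℂ) := by
  simpa using isInt_int (k : ℤ)

/-- the congruence predicate at two points -/
def Good (p : ℕ) (u v : G) (f : G → ℂ) : Prop :=
  ∃ γ : ℂ, IsIntegral ℤ γ ∧ f u - f v = (p : ℂ) * γ

omit [Group G] [Fintype G] in
theorem good_zero (p : ℕ) (u v : G) : Good p u v (0 : G → ℂ) :=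
  ⟨0, isIntegral_zero, by simp⟩

omit [Group G] [Fintype G] in
theorem good_add {p : ℕ} {u v : G} {f f' : G → ℂ} (h : Good p u v f) (h' : Good p u v f') :
    Good p u v (f + f') := by
  obtain ⟨γ, hγ, e⟩ := h
  obtain ⟨γ', hγ', e'⟩ := h'
  refine ⟨γ + γ', hγ.add hγ', ?_⟩
  simp only [Pi.add_apply]
  linear_combination e + e'

omit [Group G] [Fintype G] in
theorem good_smul {p : ℕ} {u v : G} {f : G → ℂ} (c : ℂ) (hc : IsIntegral ℤ c)
    (h : Good p u v f) : Good p u v (c • f) := by
  obtain ⟨γ, hγ, e⟩ := h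
  refine ⟨c * γ, hc.mul hγ, ?_⟩
  simp only [Pi.smul_apply, smul_eq_mul]
  linear_combination c * e

omit [Group G] [Fintype G] in
theorem good_sum {ι : Type*} {p : ℕ} {u v : G} (s : Finset ι) (f : ι → G → ℂ)
    (h : ∀ i ∈ s, Good p u v (f i)) : Good p u v (∑ i ∈ s, f i) := by
  classical
  induction s using Finset.induction_on with
  | empty => simpa using good_zero p u v
  | insert i s hi ih =>
    rw [Finset.sum_insert hi]
    exact good_add (h i (Finset.mem_insert_self i s))
      (ih fun j hj => h j (Finset.mem_insert_of_mem hj))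

theorem good_char {p : ℕ} {u v : G} (hirr : ∀ χ : IrrCharacter G, Good p u v (χ : G → ℂ))
    (φ : G → ℂ) (hφ : IsCharacter G φ) : Good p u v φ := by
  classical
  have : Finite (IrrCharacter G) := irr_finite
  let _ : Fintype (IrrCharacter G) := Fintype.ofFinite _
  obtain ⟨m, rfl⟩ := exists_decomp_of_isCharacter φ hφ
  exact good_sum _ _ fun χ _ => good_smul _ (isInt_nat (m χ)) (hirr χ)

open Classical in
/-- `θ(g) = n` if `g^c` is conjugate to `u`, else `0`. -/
noncomputable def secFun (n c : ℕ) (u : G) : G → ℂ :=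
  fun g => if IsConj (g ^ c) u then (n : ℂ) else 0

theorem secFun_classFunction (n c : ℕ) (u : G) : IsClassFunction G (secFun n c u) := by
  classical
  intro g h
  have : IsConj ((h * g * h⁻¹) ^ c) u ↔ IsConj (g ^ c) u := by
    rw [conj_pow]
    constructor
    · intro hc
      exact (isConj_iff.mpr ⟨h, rfl⟩ : IsConj (g ^ c) (h * g ^ c * h⁻¹)).trans hc
    · intro hc
      exact ((isConj_iff.mpr ⟨h, rfl⟩ : IsConj (g ^ c) (h * g ^ c * h⁻¹)).symm).trans hc
  unfold secFun
  exact if_congr this rfl rfl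

theorem secFun_mul_good {p m n c : ℕ} (hmn : Nat.card G = m * n) (hcop : Nat.Coprime m n)
    (ham : c ≡ 0 [MOD m]) (han : c ≡ 1 [MOD n]) (u : G) {u₁ v₁ : G}
    (hirr : ∀ χ : IrrCharacter G, Good p u₁ v₁ (χ : G → ℂ))
    (f : G → ℂ) (hf : f ∈ Submodule.span ℤ (elemIndAll G)) :
    Good p u₁ v₁ (secFun n c u * f) := by
  classical
  induction hf using Submodule.span_induction with
  | mem f hf =>
    obtain ⟨q, hq, E, ψ, hE, hψ, rfl⟩ := hf
    rw [← indFun_mul_cf E ψ _ (secFun_classFunction n c u)]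
    have hnil : Group.IsNilpotent E := isNilpotent_of_isElementary hq hE
    set τ := powHom hmn hcop ham han E with hτ
    let F : τ.range → ℂ := fun d => secFun n c u ((d : E) : G)
    have hF : IsClassFunction τ.range F := by
      intro d h
      exact secFun_classFunction n c u _ _
    have : Finite (IrrCharacter τ.range) := irr_finite
    let _ : Fintype (IrrCharacter τ.range) := Fintype.ofFinite _
    let _ : Fintype τ.range := Fintype.ofFinite _
    have hexp := classFunction_expansion F hF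
    have h1 : (fun h : E => secFun n c u h * ψ h) =
        ∑ β : IrrCharacter τ.range, classInner F β •
          (fun h : E => (β : τ.range → ℂ) (τ.rangeRestrict h) * ψ h) := by
      funext h
      have h2 : secFun n c u (h : G) = F (τ.rangeRestrict h) := by
        show _ = secFun n c u (((τ h : E)) : G)
        rw [hτ, powHom_apply]
        unfold secFun
        rw [Subgroup.coe_pow, pow_pow_self_of_modEq hmn ham han (h : G)]
      rw [h2]
      conv_lhs => rw [hexp]
      simp only [Finset.sum_apply, Pi.smul_apply, smul_eq_mul, Finset.sum_mul, mul_assoc]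
    rw [h1, indFun_sum]
    apply good_sum
    intro β _
    rw [indFun_smul]
    refine good_smul _ ?_ (good_char hirr _ (isCharacter_indFun E _
      (isCharacter_mul _ _ (isCharacter_comp τ.rangeRestrict β (isCharacter_of_irr β)) hψ)))
    obtain ⟨k, hk⟩ := card_range_powHom_dvd hmn hcop ham han E
    rw [← hτ] at hk
    have hD0 : (Nat.card τ.range : ℂ) ≠ 0 := by exact_mod_cast Nat.card_pos.ne'
    have h3 : classInner F β = (k : ℂ) * ∑ d : τ.range,
        (if IsConj (((d : E) : G) ^ c) u then conj ((β : τ.range → ℂ) d) else 0) := by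
      unfold classInner
      rw [Finset.mul_sum, Finset.mul_sum]
      refine Finset.sum_congr rfl fun d _ => ?_
      simp only [F, secFun]
      split_ifs with hd
      · rw [hk]
        push_cast
        field_simp
      · simp
    rw [h3]
    refine (isInt_nat k).mul (IsIntegral.sum _ fun d _ => ?_)
    split_ifs
    · obtain ⟨m', ρ, hρ⟩ := isCharacter_of_irr β
      rw [← hρ, ← char_inv]
      exact char_isIntegral ρ d⁻¹
    · exact isIntegral_zero
  | zero => simpa using good_zero p u₁ v₁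
  | add f f' _ _ ihf ihf' => rw [mul_add]; exact good_add ihf ihf'
  | smul z f _ ih =>
    have h5 : secFun n c u * (z • f) = (z : ℂ) • (secFun n c u * f) := by
      ext x
      show secFun n c u x * (z • f x) = (z : ℂ) * (secFun n c u x * f x)
      rw [zsmul_eq_mul]
      ring
    rw [h5]
    exact good_smul _ (isInt_int z) ih

end

/-- Let G be a finite group, p a prime and p^a the p-part of the order of G. Let x, y ∈ G and let x′, y′ be their p-regular parts: x′ has order prime to p, commutes with x·x′⁻¹, and x·x′⁻¹ has p-power order (likewise for y). Then x′ and y′ are conjugate in G if and only if for every irreducible character χ of G the algebraic integer χ(x)^(p^a) − χ(y)^(p^a) is p times an algebraic integer. -/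
theorem result {G : Type*} [Group G] [Finite G] (p : ℕ) [Fact p.Prime] (x y x' y' : G)
    (hx : (∃ k : ℕ, orderOf (x * x'⁻¹) = p ^ k) ∧ Commute (x * x'⁻¹) x' ∧ ¬ p ∣ orderOf x')
    (hy : (∃ k : ℕ, orderOf (y * y'⁻¹) = p ^ k) ∧ Commute (y * y'⁻¹) y' ∧ ¬ p ∣ orderOf y') :
    IsConj x' y' ↔ ∀ χ : Cfsg.IrrCharacter G, ∃ γ : Cfsg.AlgInt,
      (χ : G → ℂ) x ^ (p ^ (Nat.card G).factorization p) - (χ : G → ℂ) y ^ (p ^ (Nat.card G).factorization p) = (p : ℂ) * (γ : ℂ) := by
  classical
  let _ : Fintype G := Fintype.ofFinite G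
  have hp : p.Prime := Fact.out
  set N := Nat.card G with hN
  have hN0 : N ≠ 0 := Nat.card_pos.ne'
  set a := N.factorization p with ha
  set q := p ^ a with hq
  set n := N / q with hn
  have hmn : Nat.card G = q * n := (Nat.ordProj_mul_ordCompl_eq_self N p).symm
  have hcop : Nat.Coprime q n := (Nat.coprime_ordCompl hp hN0).pow_left a
  obtain ⟨c, ham, han⟩ := Nat.chineseRemainder hcop 0 1
  -- parts
  have hpart : ∀ z z' : G, ((∃ k : ℕ, orderOf (z * z'⁻¹) = p ^ k) ∧ Commute (z * z'⁻¹) z' ∧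
      ¬ p ∣ orderOf z') → z ^ c = z' ∧ z ^ q = z' ^ q ∧ orderOf z' ∣ n := by
    rintro z z' ⟨⟨k, hk⟩, hcomm, hndvd⟩
    have hs : orderOf (z * z'⁻¹) ∣ q := by
      rw [hk, hq]
      apply pow_dvd_pow
      apply (Nat.Prime.pow_dvd_iff_le_factorization hp hN0).mp
      rw [← hk]
      exact orderOf_dvd_natCard _
    have hz' : orderOf z' ∣ n := by
      have h1 : orderOf z' ∣ q * n := hmn ▸ orderOf_dvd_natCard z'
      have h2 : Nat.Coprime (orderOf z') q :=
        (((Nat.Prime.coprime_iff_not_dvd hp).mpr hndvd).symm).pow_right a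
      exact h2.dvd_of_dvd_mul_left h1
    have hz : z = (z * z'⁻¹) * z' := by group
    refine ⟨?_, ?_, hz'⟩
    · conv_lhs => rw [hz]
      rw [hcomm.mul_pow, pow_eq_one_of_modEq hs ham, one_mul, pow_eq_self_of_modEq hz' han]
    · conv_lhs => rw [hz]
      rw [hcomm.mul_pow, orderOf_dvd_iff_pow_eq_one.mp hs, one_mul]
  obtain ⟨hxc, hxq, hxn⟩ := hpart x x' hx
  obtain ⟨hyc, hyq, hyn⟩ := hpart y y' hy
  have hcong : ∀ (χ : IrrCharacter G) (z : G), ∃ γ : ℂ, IsIntegral ℤ γ ∧
      (χ : G → ℂ) z ^ q - (χ : G → ℂ) (z ^ c) ^ q = (p : ℂ) * γ := by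
    intro χ z
    have hc' : p ^ a * c ≡ p ^ a [MOD orderOf z] := by
      have h1 : q * c ≡ q * 1 [MOD q * n] := Nat.ModEq.mul_left' q han
      rw [mul_one, ← hmn] at h1
      exact h1.of_dvd (orderOf_dvd_natCard z)
    obtain ⟨u, v, hu, hv, huv⟩ := pCong_char (n := N) hN0 a z c (orderOf_dvd_natCard z) hc'
      (χ : G → ℂ) (isCharacter_of_irr χ)
    rw [Ideal.Quotient.eq, Ideal.mem_span_singleton'] at huv
    obtain ⟨b, hb⟩ := huv
    refine ⟨(b : ℂ), isIntegral_of_mem_cycRing hN0 b.2, ?_⟩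
    have h3 := congrArg Subtype.val hb
    push_cast at h3
    rw [← hu, ← hv, mul_comm, h3]
  constructor
  · intro hconj χ
    obtain ⟨γ₁, hγ₁, e₁⟩ := hcong χ x
    obtain ⟨γ₂, hγ₂, e₂⟩ := hcong χ y
    rw [hxc] at e₁
    rw [hyc] at e₂
    have h4 : (χ : G → ℂ) x' = (χ : G → ℂ) y' := by
      obtain ⟨g, hg⟩ := isConj_iff.mp hconj
      rw [← hg, isClassFunction_irr χ]
    refine ⟨⟨γ₁ - γ₂, hγ₁.sub hγ₂⟩, ?_⟩
    show _ = (p : ℂ) * (γ₁ - γ₂)
    rw [h4] at e₁
    linear_combination e₁ - e₂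
  · intro h
    -- u₁ = x^q, v₁ = y^q
    have hirr : ∀ χ : IrrCharacter G, Good p (x ^ q) (y ^ q) (χ : G → ℂ) := by
      intro χ
      obtain ⟨γ, e⟩ := h χ
      obtain ⟨γ₁, hγ₁, e₁⟩ := frob_cong p a (χ : G → ℂ) (isCharacter_of_irr χ) x
      obtain ⟨γ₂, hγ₂, e₂⟩ := frob_cong p a (χ : G → ℂ) (isCharacter_of_irr χ) y
      refine ⟨(γ : ℂ) - γ₁ + γ₂, (γ.2.sub hγ₁).add hγ₂, ?_⟩
      linear_combination e - e₁ + e₂
    have hgood := secFun_mul_good hmn hcop ham han (x ^ q) hirr _ (one_mem_span_elemIndAll (G := G))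
    have hord : ∀ z : G, orderOf (z ^ q) ∣ n := by
      intro z
      apply orderOf_dvd_of_pow_eq_one
      rw [← pow_mul, ← hmn]
      exact pow_card_eq_one'
    have hu : (x ^ q) ^ c = x ^ q := pow_eq_self_of_modEq (hord x) han
    have hv : (y ^ q) ^ c = y ^ q := pow_eq_self_of_modEq (hord y) han
    have hconj : IsConj (y ^ q) (x ^ q) := by
      by_contra hnc
      obtain ⟨γ, hγ, e⟩ := hgood
      simp only [Pi.mul_apply, secFun, hu, hv, IsConj.refl, if_true, if_neg hnc, mul_one,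
        sub_zero] at e
      have hdvd := int_dvd_of_eq_mul_isIntegral p hp.ne_zero (n : ℤ) γ hγ (by exact_mod_cast e)
      have hpn : p ∣ n := by exact_mod_cast hdvd
      have h5 : Nat.Coprime p n := Nat.coprime_ordCompl hp hN0
      exact hp.one_lt.ne' (Nat.dvd_one.mp (h5 ▸ Nat.dvd_gcd dvd_rfl hpn))
    -- transfer to x', y'
    have hn0 : 0 < n := by
      rcases Nat.eq_zero_or_pos n with h0 | h0
      · rw [h0, mul_zero] at hmn
        exact absurd hmn hN0
      · exact h0
    have htot : q ^ Nat.totient n ≡ 1 [MOD n] := Nat.ModEq.pow_totient hcop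
    have hJ : ∀ z' : G, orderOf z' ∣ n → (z' ^ q) ^ (q ^ (Nat.totient n - 1)) = z' := by
      intro z' hz'
      rw [← pow_mul, ← pow_succ', Nat.sub_add_cancel (Nat.totient_pos.mpr hn0)]
      exact pow_eq_self_of_modEq hz' htot
    obtain ⟨g, hg⟩ := isConj_iff.mp hconj
    rw [isConj_comm, isConj_iff]
    refine ⟨g, ?_⟩
    rw [← hJ x' hxn, ← hJ y' hyn, ← hxq, ← hyq, ← hg, conj_pow]

end Cfsg.Agent.S4604
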