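-- Statement S4607 (Brandt: a block has exactly two irreducible characters iff its defect group
-- has order two).  helper1; pieces by helper94 (ALG1), helper85 (ALG2), helper13 (RANK),
-- helper7 (CLS), helper75 (BLK).
import Cfsg.Statements.S4607
import Cfsg.Agent.Lib.Helper1.BrandtChar
import Cfsg.Agent.Lib.Helper1.BrandtDim
import Cfsg.Agent.Lib.Helper82.Major

set_option autoImplicit false
open Cfsg

namespace Cfsg.Agent.S4607

/-- coprime `x₁, x₂ ≥ 1` with `x₁² + x₂²` a power of two are both `1` -/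
theorem two_pow_aux (x1 x2 m : ℕ) (h1 : 0 < x1) (h2 : 0 < x2) (hcop : Nat.Coprime x1 x2)
    (hx : x1 ^ 2 + x2 ^ 2 = 2 ^ m) : x1 = 1 ∧ x2 = 1 := by
  have hm : m = 1 := by
    rcases m with _ | _ | m
    · exfalso
      have : 1 ≤ x1 ^ 2 := Nat.one_le_pow _ _ h1
      have : 1 ≤ x2 ^ 2 := Nat.one_le_pow _ _ h2
      rw [pow_zero] at hx
      omega
    · rfl
    · exfalso
      obtain ⟨t, ht⟩ : ∃ t, 2 ^ (m + 1 + 1) = 4 * t := ⟨2 ^ m, by ring⟩
      rw [ht] at hx
      rcases Nat.even_or_odd' x1 with ⟨a, rfl | rfl⟩ <;>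
        rcases Nat.even_or_odd' x2 with ⟨b, rfl | rfl⟩
      · have := Nat.dvd_gcd (dvd_mul_right 2 a) (dvd_mul_right 2 b)
        rw [Nat.Coprime] at hcop
        rw [hcop] at this
        omega
      · have e : (2 * a) ^ 2 + (2 * b + 1) ^ 2 = 4 * (a ^ 2 + b ^ 2 + b) + 1 := by ring
        rw [e] at hx
        generalize a ^ 2 + b ^ 2 + b = u at hx
        omega
      · have e : (2 * a + 1) ^ 2 + (2 * b) ^ 2 = 4 * (a ^ 2 + a + b ^ 2) + 1 := by ring
        rw [e] at hx
        generalize a ^ 2 + a + b ^ 2 = u at hx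
        omega
      · have e : (2 * a + 1) ^ 2 + (2 * b + 1) ^ 2 = 4 * (a ^ 2 + a + b ^ 2 + b) + 2 := by ring
        rw [e] at hx
        generalize a ^ 2 + a + b ^ 2 + b = u at hx
        omega
  rw [hm, pow_one] at hx
  have hx1 : x1 ≤ 1 := by
    by_contra h
    have : 2 ≤ x1 := by omega
    have : 4 ≤ x1 ^ 2 := by nlinarith
    omega
  have hx2 : x2 ≤ 1 := by
    by_contra h
    have : 2 ≤ x2 := by omega
    have : 4 ≤ x2 ^ 2 := by nlinarith
    omega
  omega

/-- `g² p^m = 2 n²` is impossible for an odd prime `p` -/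
theorem parity_aux (g n p m : ℕ) (hp : p.Prime) (hp2 : p ≠ 2) (hg : 0 < g)
    (h : g ^ 2 * p ^ m = 2 * n ^ 2) : False := by
  have hn : n ≠ 0 := by
    rintro rfl
    have h0 : 0 < g ^ 2 * p ^ m := Nat.mul_pos (pow_pos hg 2) (pow_pos hp.pos m)
    rw [h] at h0
    simp at h0
  have h1 : (g ^ 2 * p ^ m).factorization 2 = (2 * n ^ 2).factorization 2 := by rw [h]
  rw [Nat.factorization_mul (pow_ne_zero _ hg.ne') (pow_ne_zero _ hp.ne_zero),
    Nat.factorization_pow, Nat.factorization_pow,
    Nat.factorization_mul two_ne_zero (pow_ne_zero _ hn), Nat.factorization_pow] at h1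
  simp only [Finsupp.add_apply, Finsupp.smul_apply, smul_eq_mul] at h1
  have h2 : p.factorization 2 = 0 := by
    rw [hp.factorization, Finsupp.single_apply, if_neg hp2]
  have h3 : (2 : ℕ).factorization 2 = 1 := by
    rw [Nat.prime_two.factorization, Finsupp.single_apply, if_pos rfl]
  rw [h2, h3] at h1
  omega

/-- Let G be a finite group, p a prime, M a maximal ideal of the algebraic integers containing p, and B a p-block of G with defect group D. Then B contains exactly two irreducible characters if and only if D has order 2. -/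
theorem result {G : Type*} [Group G] [Finite G] (p : ℕ) [Fact p.Prime] (M : Ideal Cfsg.AlgInt) (hM : Cfsg.IsPModular p M) (B : Set (Cfsg.IrrCharacter G)) (hB : Cfsg.IsPBlock M B) (D : Subgroup G) (hD : Cfsg.IsDefectGroup p M B D) : Nat.card B = 2 ↔ Nat.card D = 2 := by
  classical
  let _ : Fintype G := Fintype.ofFinite G
  have := Cfsg.Agent.Lib.Helper4.irr_finite (G := G)
  have hp : p.Prime := Fact.out
  have hDcard : Nat.card D = p ^ blockDefect p B :=
    Cfsg.Agent.Lib.Helper82.card_defectGroup hM B hB D hD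
  have h91 := Cfsg.Agent.S4491.result p M hM B hB
  have h94 := Cfsg.Agent.S4494.result p M hM B hB
  constructor
  · intro hcard
    obtain ⟨χ1, χ2, g, x1, x2, m, hne, hBeq, hd1, hd2, hx, hg, hcop, hdpos⟩ :=
      Cfsg.Agent.Lib.Helper1.brandt_char p M hM B hB hcard
    obtain ⟨n, hn⟩ := Cfsg.Agent.Lib.Helper1.brandt_dim p M hM B hB hcard
    have hsum : ∑ᶠ χ ∈ B, charDegree (χ : G → ℂ) ^ 2 =
        charDegree (χ1 : G → ℂ) ^ 2 + charDegree (χ2 : G → ℂ) ^ 2 := by
      rw [hBeq]
      exact finsum_mem_pair hne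
    have e1 : g ^ 2 * p ^ m = 2 * n ^ 2 := by
      rw [← hn, hsum, hd1, hd2, ← hx]; ring
    have hp2 : p = 2 := by
      by_contra hp2
      exact parity_aux g n p m hp hp2 hg e1
    have hx1pos : 0 < x1 := by
      have := (Cfsg.Agent.Lib.Helper83.irr_degree χ1.2).1
      rw [hd1] at this
      exact Nat.pos_of_mul_pos_left this |> fun h => by
        rcases Nat.eq_zero_or_pos x1 with h0 | h0
        · rw [h0, mul_zero] at this; omega
        · exact h0
    have hx2pos : 0 < x2 := by
      have := (Cfsg.Agent.Lib.Helper83.irr_degree χ2.2).1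
      rw [hd2] at this
      rcases Nat.eq_zero_or_pos x2 with h0 | h0
      · rw [h0, mul_zero] at this; omega
      · exact h0
    rw [hp2] at hx
    obtain ⟨hx1, hx2⟩ := two_pow_aux x1 x2 m hx1pos hx2pos hcop hx
    rw [hx1, mul_one] at hd1
    rw [hx2, mul_one] at hd2
    -- the defect
    have hdef : blockDefect p B = (Nat.card G).factorization p - g.factorization p := by
      unfold blockDefect
      congr 1
      rw [hBeq, Set.image_pair, hd1, hd2, Set.pair_eq_singleton, csInf_singleton]
    have hgle : g.factorization p ≤ (Nat.card G).factorization p := by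
      have hdvd : g ∣ Nat.card G := by
        rw [← hd1]; exact Cfsg.Agent.Lib.Helper83.irr_degree_dvd_card χ1
      exact (Nat.factorization_le_iff_dvd hg.ne' Nat.card_pos.ne').mpr hdvd p
    rw [hsum, hd1, hd2] at h91
    have e2 : g ^ 2 + g ^ 2 = 2 * g ^ 2 := by ring
    rw [e2, Nat.factorization_mul two_ne_zero (pow_ne_zero _ hg.ne'), Nat.factorization_pow] at h91
    simp only [Finsupp.add_apply, Finsupp.smul_apply, smul_eq_mul] at h91
    have h3 : (2 : ℕ).factorization p = 1 := by
      rw [hp2, Nat.prime_two.factorization, Finsupp.single_apply, if_pos rfl]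
    rw [h3] at h91
    have hd1' : blockDefect p B = 1 := by omega
    rw [hDcard, hd1', hp2, pow_one]
  · intro hD2
    rw [hDcard] at hD2
    have hd0 : blockDefect p B ≠ 0 := by
      intro h0
      rw [h0, pow_zero] at hD2
      omega
    have hp2 : p = 2 := by
      have hdvd : p ∣ 2 := by
        rw [← hD2]; exact dvd_pow_self p hd0
      exact (Nat.prime_dvd_prime_iff_eq hp Nat.prime_two).mp hdvd
    have hd1 : blockDefect p B = 1 := by
      conv at hD2 => lhs; arg 1; rw [hp2]
      have h2 : (2 : ℕ) ^ blockDefect p B = 2 ^ 1 := by rw [hD2, pow_one]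
      exact Nat.pow_right_injective (le_refl 2) h2
    rw [hd1, hp2] at h94
    have hle : Nat.card B ≤ 2 := by omega
    obtain ⟨χ₀, hχ₀⟩ := hB
    have hχ₀B : χ₀ ∈ B := by
      rw [hχ₀]; exact Cfsg.Agent.Lib.Helper79.mem_blockOf_self hM χ₀
    have : Nonempty B := ⟨⟨χ₀, hχ₀B⟩⟩
    have hpos : 0 < Nat.card B := Nat.card_pos
    by_contra hne2
    have hone : Nat.card B = 1 := by omega
    obtain ⟨hsub, -⟩ := Nat.card_eq_one_iff_unique.mp hone
    have hBeq : B = {χ₀} := by
      ext θ
      constructor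
      · intro hθ
        have := congrArg Subtype.val (hsub.elim ⟨θ, hθ⟩ ⟨χ₀, hχ₀B⟩)
        exact this
      · intro hθ
        rw [Set.mem_singleton_iff] at hθ
        rw [hθ]; exact hχ₀B
    have hB' : IsPBlock M B := ⟨χ₀, hχ₀⟩
    have h91' := Cfsg.Agent.S4491.result p M hM B hB'
    rw [hBeq, finsum_mem_singleton, Nat.factorization_pow] at h91'
    simp only [Finsupp.smul_apply, smul_eq_mul] at h91'
    rw [← hBeq, hd1] at h91'
    have hdle : blockDefect p B ≤ (Nat.card G).factorization p := by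
      unfold blockDefect
      exact Nat.sub_le _ _
    omega

end Cfsg.Agent.S4607
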