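import Cfsg.Statements.S4611
import Cfsg.Agent.Lib.Helper4.PSolvB0
import Cfsg.Agent.Lib.Helper75.PSolvOfSolv
import Cfsg.Agent.Lib.Helper84.Gagola
import Cfsg.Agent.Lib.Helper83.Quot

set_option autoImplicit false
open Cfsg

namespace Cfsg.Agent.S4611

open Cfsg.Agent.Lib.Helper4 Cfsg.Agent.Lib.Helper83

/-- Let G be a finite solvable group and π a nonempty set of primes, each dividing the order of G; fix for each p in π a maximal ideal M p of the algebraic integers containing p. Then the only irreducible character lying in the principal p-block for every p in π is the principal character if and only if G is generated by the subgroups O_{p'}(G), p in π (the largest normal subgroups of order prime to p). -/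
theorem result {G : Type*} [Group G] [Finite G] [Group.IsSolvable G] (π : Set ℕ) (hπ : ∀ p ∈ π, p.Prime ∧ p ∣ Nat.card G) (hne : π.Nonempty) (M : ℕ → Ideal Cfsg.AlgInt) (hM : ∀ p ∈ π, Cfsg.IsPModular p (M p)) :
    (∀ χ : Cfsg.IrrCharacter G, (∀ p ∈ π, χ ∈ Cfsg.principalBlock (M p) G) → (χ : G → ℂ) = fun _ => 1) ↔
      ⨆ p ∈ π, Cfsg.pPrimeCore p G = ⊤ := by
  classical
  have hmem : ∀ p ∈ π, ∀ χ : IrrCharacter G, χ ∈ principalBlock (M p) G ↔
      ∀ n ∈ pPrimeCore p G, (χ : G → ℂ) n = (χ : G → ℂ) 1 := by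
    intro p hp χ
    have : Fact p.Prime := ⟨(hπ p hp).1⟩
    exact mem_principal_iff_of_pSolvable p (M p) (hM p hp)
      (Cfsg.Agent.Lib.Helper75.PSS.isPSolvable_of_isSolvable p (hπ p hp).1 G) χ
  constructor
  · intro h
    by_contra hne'
    have hKn : (⨆ p ∈ π, pPrimeCore p G).Normal := by
      have h1 : (⨆ p ∈ π, pPrimeCore p G) =
          sSup {N : Subgroup G | ∃ p ∈ π, N = pPrimeCore p G} := by
        apply le_antisymm
        · exact iSup₂_le (fun p hp => le_sSup ⟨p, hp, rfl⟩)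
        · apply sSup_le
          rintro N ⟨p, hp, rfl⟩
          exact le_iSup₂ (f := fun p (_ : p ∈ π) => pPrimeCore p G) p hp
      rw [h1]
      apply Subgroup.sSup_normal
      rintro N ⟨p, hp, rfl⟩
      exact Cfsg.Agent.Lib.Helper81.pPrimeCore_normal p
    obtain ⟨g, hg⟩ : ∃ g : G, g ∉ (⨆ p ∈ π, pPrimeCore p G) := by
      by_contra hc
      push Not at hc
      exact hne' (eq_top_iff.mpr fun x _ => hc x)
    have hg1 : (QuotientGroup.mk' (⨆ p ∈ π, pPrimeCore p G) g) ≠ 1 := fun h1 =>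
      hg ((QuotientGroup.eq_one_iff g).mp h1)
    obtain ⟨ψ, hψ⟩ := Cfsg.Agent.Lib.Helper84.exists_irr_ne _ hg1
    have h2 := h (inflate (⨆ p ∈ π, pPrimeCore p G) ψ) (fun p hp => (hmem p hp _).mpr
      (fun n hn => inflate_ker _ ψ n
        ((le_iSup₂ (f := fun p (_ : p ∈ π) => pPrimeCore p G) p hp) hn)))
    apply hψ
    have e1 := congrFun h2 g
    have e2 := congrFun h2 1
    rw [inflate_apply] at e1 e2
    have e3 : (ψ : G ⧸ (⨆ p ∈ π, pPrimeCore p G) → ℂ)
        (QuotientGroup.mk' (⨆ p ∈ π, pPrimeCore p G) g) = 1 := e1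
    have e4 : (ψ : G ⧸ (⨆ p ∈ π, pPrimeCore p G) → ℂ) 1 = 1 := e2
    rw [e3, e4]
  · intro htop χ hχ
    apply irr_eq_one_of_const
    have hle : ⨆ p ∈ π, pPrimeCore p G ≤ irrKer χ :=
      iSup₂_le (fun p hp n hn => (mem_irrKer χ n).mpr ((hmem p hp χ).mp (hχ p hp) n hn))
    intro n
    exact (mem_irrKer χ n).mp (hle (htop ▸ Subgroup.mem_top n))

end Cfsg.Agent.S4611
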