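import Cfsg.Statements.S4619
import Mathlib

set_option autoImplicit false
open scoped Pointwise
open Cfsg

namespace Cfsg.Agent.S4619

/-- Let P be a Sylow p-subgroup of the finite group G that is a trivial-intersection set: P meets each conjugate g P g⁻¹ with g outside N_G(P) trivially. Then for every nontrivial subgroup Q of P the normalizer of Q lies in the normalizer of P, and any g ∈ G conjugating Q into P lies in N_G(P). -/
theorem result {G : Type*} [Group G] [Finite G] (p : ℕ) [Fact p.Prime] (P : Sylow p G) (hTI : (∀ g : G, g ∉ Subgroup.normalizer ((P : Subgroup G) : Set G) → (P : Subgroup G) ⊓ (MulAut.conj g • (P : Subgroup G)) = ⊥)) (Q : Subgroup G) (hQ : Q ≤ (P : Subgroup G)) (hQ1 : Q ≠ ⊥) :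
    Subgroup.normalizer (Q : Set G) ≤ Subgroup.normalizer ((P : Subgroup G) : Set G) ∧
      ∀ g : G, MulAut.conj g • Q ≤ (P : Subgroup G) → g ∈ Subgroup.normalizer ((P : Subgroup G) : Set G) := by
  have key : ∀ g : G, MulAut.conj g • Q ≤ (P : Subgroup G) →
      g ∈ Subgroup.normalizer ((P : Subgroup G) : Set G) := by
    intro g hg
    by_contra hgn
    have hginv : g⁻¹ ∉ Subgroup.normalizer ((P : Subgroup G) : Set G) := by
      intro h
      exact hgn (by simpa using inv_mem h)
    have h1 := hTI g⁻¹ hginv
    apply hQ1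
    rw [eq_bot_iff, ← h1]
    refine le_inf hQ ?_
    intro x hx
    rw [Subgroup.mem_pointwise_smul_iff_inv_smul_mem]
    apply hg
    rw [map_inv, inv_inv]
    exact Subgroup.smul_mem_pointwise_smul x (MulAut.conj g) Q hx
  refine ⟨?_, key⟩
  intro g hg
  apply key
  have : MulAut.conj g • Q = Q := by
    ext x
    rw [Subgroup.mem_pointwise_smul_iff_inv_smul_mem]
    rw [Subgroup.mem_normalizer_iff] at hg
    have := hg (g⁻¹ * x * g)
    simp only [MulAut.smul_def, MulAut.inv_apply, MulAut.conj_symm_apply]
    rw [this]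
    group
  rw [this]
  exact hQ

end Cfsg.Agent.S4619
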