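import Cfsg.Statements.S4620
import Mathlib
import Cfsg.Agent.Lib.Helper81.PSolv2

set_option autoImplicit false
open scoped Pointwise
open Cfsg

namespace Cfsg.Agent.S4620

open Subgroup in
/-- Elementwise trivial-intersection property of a subgroup. -/
def TIe {G : Type*} [Group G] (P : Subgroup G) : Prop :=
  ∀ g y : G, y ∈ P → y ≠ 1 → g * y * g⁻¹ ∈ P → g ∈ Subgroup.normalizer (P : Set G)

theorem tie_of_ti {G : Type*} [Group G] (P : Subgroup G)
    (hTI : ∀ g : G, g ∉ Subgroup.normalizer (P : Set G) → P ⊓ (MulAut.conj g • P) = ⊥) : TIe P := by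
  intro g y hy hy1 hgy
  by_contra hg
  have h := hTI g hg
  have hmem : g * y * g⁻¹ ∈ P ⊓ (MulAut.conj g • P) := by
    rw [Subgroup.mem_inf]
    refine ⟨hgy, ?_⟩
    have := Subgroup.smul_mem_pointwise_smul y (MulAut.conj g) P hy
    simpa [MulAut.smul_def] using this
  rw [h, Subgroup.mem_bot] at hmem
  apply hy1
  have : y = g⁻¹ * (g * y * g⁻¹) * g := by group
  rw [this, hmem]; group

theorem ti_of_tie {G : Type*} [Group G] (P : Subgroup G) (h : TIe P) :
    ∀ g : G, g ∉ Subgroup.normalizer (P : Set G) → P ⊓ (MulAut.conj g • P) = ⊥ := by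
  intro g hg
  rw [eq_bot_iff]
  intro z hz
  rw [Subgroup.mem_bot]
  by_contra hz1
  apply hg
  have hz2 : z ∈ MulAut.conj g • P := (Subgroup.mem_inf.mp hz).2
  rw [Subgroup.mem_pointwise_smul_iff_inv_smul_mem] at hz2
  have hz3 : g⁻¹ * z * g ∈ P := by simpa [MulAut.smul_def] using hz2
  apply h g (g⁻¹ * z * g) hz3
  · intro h1
    apply hz1
    have : z = g * (g⁻¹ * z * g) * g⁻¹ := by group
    rw [this, h1]; group
  · have : g * (g⁻¹ * z * g) * g⁻¹ = z := by group
    rw [this]; exact (Subgroup.mem_inf.mp hz).1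

theorem tie_smul {G : Type*} [Group G] [Finite G] (p : ℕ) [Fact p.Prime] (P : Sylow p G)
    (h : TIe (P : Subgroup G)) (g : G) : TIe ((g • P : Sylow p G) : Subgroup G) := by
  intro x y hy hy1 hxy
  have hmem : ∀ z : G, z ∈ ((g • P : Sylow p G) : Subgroup G) ↔ g⁻¹ * z * g ∈ (P : Subgroup G) := by
    intro z
    rw [Sylow.smul_def, Sylow.pointwise_smul_def, Subgroup.mem_pointwise_smul_iff_inv_smul_mem]
    simp [MulAut.smul_def]
  rw [hmem] at hy hxy
  have h1 : g⁻¹ * x * g ∈ Subgroup.normalizer ((P : Subgroup G) : Set G) := by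
    apply h (g⁻¹ * x * g) (g⁻¹ * y * g) hy
    · intro h2
      apply hy1
      have : y = g * (g⁻¹ * y * g) * g⁻¹ := by group
      rw [this, h2]; group
    · have : g⁻¹ * x * g * (g⁻¹ * y * g) * (g⁻¹ * x * g)⁻¹ = g⁻¹ * (x * y * x⁻¹) * g := by group
      rw [this]; exact hxy
  have h2 : (g⁻¹ * x * g) • P = P := Sylow.smul_eq_iff_mem_normalizer.mpr h1
  have h3 : x • (g • P) = g • P := by
    have : x • (g • P) = g • ((g⁻¹ * x * g) • P) := by
      rw [smul_smul, smul_smul]; congr 1; group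
    rw [this, h2]
  exact Sylow.smul_eq_iff_mem_normalizer.mp h3

/-- The core structural lemma: trivial cores and trivial-intersection Sylow subgroups force a
unique minimal normal subgroup with trivial centralizer. -/
theorem main_lemma {G : Type*} [Group G] [Finite G] [Nontrivial G] (p : ℕ) [Fact p.Prime]
    (hOp : Cfsg.pCore p G = ⊥) (hOp' : Cfsg.pPrimeCore p G = ⊥)
    (hTI : ∀ P : Sylow p G, TIe (P : Subgroup G)) :
    ∃ N : Subgroup G, N.Normal ∧ N ≠ ⊥ ∧ (∀ K : Subgroup G, K.Normal → K ≠ ⊥ → N ≤ K) ∧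
      Subgroup.centralizer (N : Set G) = ⊥ := by
  have hp : p.Prime := Fact.out
  -- F2
  have F2 : ∀ K : Subgroup G, K.Normal → K ≠ ⊥ →
      ∃ (P₁ : Sylow p G) (x : G), x ∈ P₁ ∧ x ∈ K ∧ x ≠ 1 := by
    intro K hK hK1
    have hdvd : p ∣ Nat.card K := by
      by_contra hnd
      apply hK1
      rw [eq_bot_iff, ← hOp']
      exact Cfsg.Agent.Lib.Helper81.le_pPrimeCore p K hK ((Nat.Prime.coprime_iff_not_dvd hp).mpr hnd).symm
    obtain ⟨x, hx⟩ := exists_prime_orderOf_dvd_card' (G := K) p hdvd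
    have hxo : orderOf (x : G) = p := by rw [Subgroup.orderOf_coe, hx]
    have hpg : IsPGroup p (Subgroup.zpowers (x : G)) := by
      apply IsPGroup.of_card (n := 1)
      rw [Nat.card_zpowers, hxo, pow_one]
    obtain ⟨P₁, hP₁⟩ := hpg.exists_le_sylow
    refine ⟨P₁, x, hP₁ (Subgroup.mem_zpowers _), x.2, ?_⟩
    intro h1
    rw [h1, orderOf_one] at hxo
    exact hp.one_lt.ne hxo
  -- F3
  have F3 : ∀ (P₁ : Sylow p G) (x g : G), x ∈ P₁ → x ≠ 1 → g * x = x * g →
      g ∈ Subgroup.normalizer ((P₁ : Subgroup G) : Set G) := by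
    intro P₁ x g hx hx1 hgx
    apply hTI P₁ g x hx hx1
    rw [hgx, mul_inv_cancel_right]; exact hx
  -- F4
  have F4 : ∀ K : Subgroup G, K.Normal → K ≠ ⊥ → ∀ P₁ : Sylow p G,
      ¬ K ≤ Subgroup.normalizer ((P₁ : Subgroup G) : Set G) := by
    intro K hK hK1 P₁ hle
    have hpel : ∀ y ∈ K, (∃ k : ℕ, orderOf y = p ^ k) → y ∈ P₁ := by
      intro y hy ⟨k, hk⟩
      have hpg : IsPGroup p (Subgroup.zpowers y) := by
        apply IsPGroup.of_card (n := k)
        rw [Nat.card_zpowers, hk]
      have hle' : Subgroup.zpowers y ≤ Subgroup.normalizer ((P₁ : Subgroup G) : Set G) := by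
        rw [Subgroup.zpowers_le]; exact hle hy
      have hsup := hpg.to_sup_of_normal_right' P₁.2 hle'
      have := P₁.is_maximal' hsup le_sup_right
      have h2 : Subgroup.zpowers y ≤ (P₁ : Subgroup G) := by
        rw [← this]; exact le_sup_left
      exact h2 (Subgroup.mem_zpowers y)
    obtain ⟨P₂, x, hxP₂, hxK, hx1⟩ := F2 K hK hK1
    obtain ⟨k, hk⟩ := (IsPGroup.iff_orderOf.mp P₂.2) ⟨x, hxP₂⟩
    rw [Subgroup.orderOf_mk] at hk
    have hC : Subgroup.normalClosure ({x} : Set G) ≤ (P₁ : Subgroup G) := by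
      rw [Subgroup.normalClosure, Subgroup.closure_le]
      intro z hz
      rw [Group.mem_conjugatesOfSet_iff] at hz
      obtain ⟨a, ha, hconj⟩ := hz
      rw [Set.mem_singleton_iff] at ha
      subst ha
      obtain ⟨c, hc⟩ := isConj_iff.mp hconj
      apply hpel
      · rw [← hc]; exact hK.conj_mem a hxK c
      · refine ⟨k, ?_⟩
        rw [← hc, ← hk]
        have := orderOf_injective (MulAut.conj c).toMonoidHom (MulAut.conj c).injective a
        simpa using this
    have hCp : IsPGroup p (Subgroup.normalClosure ({x} : Set G)) := P₁.2.to_le hC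
    have hCbot : Subgroup.normalClosure ({x} : Set G) ≤ ⊥ := by
      rw [← hOp]
      exact le_sSup ⟨Subgroup.normalClosure_normal, hCp⟩
    apply hx1
    have := hCbot (Subgroup.subset_normalClosure (Set.mem_singleton x))
    rwa [Subgroup.mem_bot] at this
  -- the minimal normal subgroup
  let S : Set (Subgroup G) := {K : Subgroup G | K.Normal ∧ K ≠ ⊥}
  have htop : (⊤ : Subgroup G) ∈ S := ⟨inferInstance, top_ne_bot⟩
  have : Nonempty S := ⟨⟨⊤, htop⟩⟩
  obtain ⟨⟨N, hN⟩, hmin⟩ := Finite.exists_min (fun K : S => Nat.card (K : Subgroup G))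
  have hNn : N.Normal := hN.1
  have hA : ∀ K : Subgroup G, K.Normal → K ≠ ⊥ → N ≤ K := by
    intro K hK hK1
    by_cases hNK : N ⊓ K = ⊥
    · exfalso
      obtain ⟨P₁, x, hxP₁, hxN, hx1⟩ := F2 N hN.1 hN.2
      apply F4 K hK hK1 P₁
      intro k hk
      apply F3 P₁ x k hxP₁ hx1
      have hdis : Disjoint N K := disjoint_iff.mpr hNK
      exact (Subgroup.commute_of_normal_of_disjoint N K hN.1 hK hdis x k hxN hk).eq.symm
    · have hmem : (N ⊓ K) ∈ S := ⟨inferInstance, hNK⟩
      have h1 := hmin ⟨N ⊓ K, hmem⟩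
      have h2 : N ⊓ K = N := Subgroup.eq_of_le_of_card_ge inf_le_left h1
      rw [← h2]; exact inf_le_right
  refine ⟨N, hN.1, hN.2, hA, ?_⟩
  by_contra hC
  have hCn : (Subgroup.centralizer (N : Set G)).Normal := inferInstance
  have hNC := hA _ hCn hC
  obtain ⟨P₁, x, hxP₁, hxN, hx1⟩ := F2 N hN.1 hN.2
  apply F4 N hN.1 hN.2 P₁
  intro n hn
  apply F3 P₁ x n hxP₁ hx1
  have := Subgroup.mem_centralizer_iff.mp (hNC hn) x hxN
  exact this.symm

theorem map_subtype_normal_of_conj {H : Type*} [Group H] (N : Subgroup H) [N.Normal]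
    (K : Subgroup N)
    (hK : ∀ h : H, K.map (MulAut.conjNormal h : MulAut N).toMonoidHom ≤ K) :
    (K.map N.subtype).Normal := by
  refine ⟨fun x hx h => ?_⟩
  obtain ⟨k, hk, rfl⟩ := hx
  refine ⟨MulAut.conjNormal h k, hK h ⟨k, hk, rfl⟩, ?_⟩
  simp [MulAut.conjNormal_apply]

theorem pCore_subgroup_eq_bot {H : Type*} [Group H] [Finite H] (p : ℕ) [Fact p.Prime]
    (N : Subgroup H) [N.Normal] (hOp : Cfsg.pCore p H = ⊥) : Cfsg.pCore p N = ⊥ := by
  set K := Cfsg.pCore p N with hKdef
  have hKn : K.Normal := Subgroup.sSup_normal _ fun _ hM => hM.1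
  have hKp : IsPGroup p K := Sylow.sSup_of_normal _ (fun _ hM => hM.2) (fun _ hM => hM.1)
  have hconj : ∀ h : H, K.map (MulAut.conjNormal h : MulAut N).toMonoidHom ≤ K := by
    intro h
    apply le_sSup
    exact ⟨hKn.map _ (MulAut.conjNormal h : MulAut N).surjective, hKp.map _⟩
  have hn := map_subtype_normal_of_conj N K hconj
  have hle : K.map N.subtype ≤ ⊥ := by
    rw [← hOp]; exact le_sSup ⟨hn, hKp.map _⟩
  rw [le_bot_iff, Subgroup.map_eq_bot_iff_of_injective _ N.subtype_injective] at hle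
  exact hle

theorem pPrimeCore_subgroup_eq_bot {H : Type*} [Group H] [Finite H] (p : ℕ) [Fact p.Prime]
    (N : Subgroup H) [N.Normal] (hOp' : Cfsg.pPrimeCore p H = ⊥) : Cfsg.pPrimeCore p N = ⊥ := by
  set K := Cfsg.pPrimeCore p N with hKdef
  have hKn : K.Normal := Cfsg.Agent.Lib.Helper81.pPrimeCore_normal p
  have hKc : (Nat.card K).Coprime p := Cfsg.Agent.Lib.Helper81.pPrimeCore_coprime p
  have hconj : ∀ h : H, K.map (MulAut.conjNormal h : MulAut N).toMonoidHom ≤ K := by
    intro h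
    apply le_sSup
    refine ⟨hKn.map _ (MulAut.conjNormal h : MulAut N).surjective, ?_⟩
    rw [Subgroup.card_map_of_injective (f := (MulAut.conjNormal h : MulAut N).toMonoidHom)
      (MulAut.conjNormal h : MulAut N).injective]
    exact hKc
  have hn := map_subtype_normal_of_conj N K hconj
  have hle : K.map N.subtype ≤ ⊥ := by
    rw [← hOp']
    refine le_sSup ⟨hn, ?_⟩
    rw [Subgroup.card_map_of_injective N.subtype_injective]
    exact hKc
  rw [le_bot_iff, Subgroup.map_eq_bot_iff_of_injective _ N.subtype_injective] at hle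
  exact hle

theorem tie_subgroupOf {H : Type*} [Group H] (N P' : Subgroup H) (h : TIe P') :
    TIe (P'.subgroupOf N) := by
  intro n y hy hy1 hny
  rw [Subgroup.mem_subgroupOf] at hy hny
  have h1 : (n : H) ∈ Subgroup.normalizer (P' : Set H) := by
    apply h n y hy
    · intro h2; apply hy1; exact Subtype.ext h2
    · simpa using hny
  rw [Subgroup.mem_normalizer_iff] at h1 ⊢
  intro z
  rw [Subgroup.mem_subgroupOf, Subgroup.mem_subgroupOf]
  have := h1 z
  simpa using this

/-- Let H be a finite group with no nontrivial normal p-subgroup and no nontrivial normal subgroup of order prime to p, whose Sylow p-subgroup P is nontrivial and a trivial-intersection set (P meets its conjugates by elements outside N_H(P) trivially). Then H has a unique minimal normal subgroup N; N is non-abelian simple with trivial centralizer in H (so H embeds in Aut(N)), and a Sylow p-subgroup of N is again a nontrivial trivial-intersection set in N. -/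
theorem result {H : Type*} [Group H] [Finite H] (p : ℕ) [Fact p.Prime] (hOp : Cfsg.pCore p H = ⊥) (hOp' : Cfsg.pPrimeCore p H = ⊥) (P : Sylow p H) (hP1 : (P : Subgroup H) ≠ ⊥)
    (hTI : ∀ g : H, g ∉ Subgroup.normalizer ((P : Subgroup H) : Set H) → (P : Subgroup H) ⊓ (MulAut.conj g • (P : Subgroup H)) = ⊥) :
    ∃ N : Subgroup H, N.Normal ∧ N ≠ ⊥ ∧ (∀ K : Subgroup H, K.Normal → K ≠ ⊥ → N ≤ K) ∧
      IsSimpleGroup N ∧ ¬ IsMulCommutative N ∧ Subgroup.centralizer (N : Set H) = ⊥ ∧
      ∀ Q : Sylow p N, (Q : Subgroup N) ≠ ⊥ ∧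
        ∀ n : N, n ∉ Subgroup.normalizer ((Q : Subgroup N) : Set N) → (Q : Subgroup N) ⊓ (MulAut.conj n • (Q : Subgroup N)) = ⊥ := by
  have hp : p.Prime := Fact.out
  have hTIe : ∀ P' : Sylow p H, TIe (P' : Subgroup H) := by
    intro P'
    obtain ⟨g, rfl⟩ := MulAction.exists_smul_eq H P P'
    exact tie_smul p P (tie_of_ti _ hTI) g
  have hnt : Nontrivial H := by
    by_contra hnt
    rw [not_nontrivial_iff_subsingleton] at hnt
    exact hP1 (Subsingleton.elim _ _)
  obtain ⟨N, hNn, hN1, hNmin, hNcent⟩ := main_lemma p hOp hOp' hTIe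
  have hncomm : ¬ IsMulCommutative N := by
    intro hc
    apply hN1
    rw [eq_bot_iff, ← hNcent]
    intro n hn
    rw [Subgroup.mem_centralizer_iff]
    intro h hh
    have := hc.is_comm.comm (⟨h, hh⟩ : N) ⟨n, hn⟩
    exact congrArg Subtype.val this
  have hOpN := pCore_subgroup_eq_bot p N hOp
  have hOp'N := pPrimeCore_subgroup_eq_bot p N hOp'
  have hTIeN : ∀ Q : Sylow p N, TIe (Q : Subgroup N) := by
    intro Q
    obtain ⟨P', hP'⟩ := Q.exists_comap_subtype_eq
    rw [← hP']
    exact tie_subgroupOf N P' (hTIe P')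
  have hntN : Nontrivial N := (Subgroup.nontrivial_iff_ne_bot N).mpr hN1
  obtain ⟨M, hMn, hM1, hMmin, -⟩ := main_lemma p hOpN hOp'N hTIeN
  have hMconj : ∀ h : H, M.map (MulAut.conjNormal h : MulAut N).toMonoidHom ≤ M := by
    intro h
    have h1 : M ≤ M.map (MulAut.conjNormal h⁻¹ : MulAut N).toMonoidHom := by
      apply hMmin
      · exact hMn.map _ (MulAut.conjNormal h⁻¹ : MulAut N).surjective
      · rw [Ne, Subgroup.map_eq_bot_iff_of_injective (f := (MulAut.conjNormal h⁻¹ : MulAut N).toMonoidHom) _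
          (MulAut.conjNormal h⁻¹ : MulAut N).injective]
        exact hM1
    have hcard : Nat.card (M.map (MulAut.conjNormal h⁻¹ : MulAut N).toMonoidHom) = Nat.card M :=
      Subgroup.card_map_of_injective (f := (MulAut.conjNormal h⁻¹ : MulAut N).toMonoidHom)
        (MulAut.conjNormal h⁻¹ : MulAut N).injective
    have h2 : M = M.map (MulAut.conjNormal h⁻¹ : MulAut N).toMonoidHom :=
      Subgroup.eq_of_le_of_card_ge h1 hcard.le
    intro x hx
    obtain ⟨m, hm, rfl⟩ := hx
    rw [h2] at hm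
    obtain ⟨m', hm', rfl⟩ := hm
    have : (MulAut.conjNormal h : MulAut N).toMonoidHom
        ((MulAut.conjNormal h⁻¹ : MulAut N).toMonoidHom m') = m' := by
      apply Subtype.ext
      simp
    rw [this]; exact hm'
  have hM0n := map_subtype_normal_of_conj N M hMconj
  have hM0 : N ≤ M.map N.subtype := by
    apply hNmin _ hM0n
    rw [Ne, Subgroup.map_eq_bot_iff_of_injective _ N.subtype_injective]
    exact hM1
  have hMtop : M = ⊤ := by
    rw [eq_top_iff]
    intro n _
    obtain ⟨m, hm, hmn⟩ := hM0 n.2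
    have : m = n := Subtype.ext hmn
    rw [← this]; exact hm
  have hsimple : IsSimpleGroup N :=
    { exists_pair_ne := exists_pair_ne N
      eq_bot_or_eq_top_of_normal := fun K hK => by
        by_cases hK1 : K = ⊥
        · left; exact hK1
        · right
          rw [eq_top_iff, ← hMtop]
          exact hMmin K hK hK1 }
  refine ⟨N, hNn, hN1, hNmin, hsimple, hncomm, hNcent, ?_⟩
  intro Q
  constructor
  · apply Sylow.ne_bot_of_dvd_card
    by_contra hnd
    apply hN1
    rw [eq_bot_iff, ← hOp']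
    exact Cfsg.Agent.Lib.Helper81.le_pPrimeCore p N hNn
      ((Nat.Prime.coprime_iff_not_dvd hp).mpr hnd).symm
  · exact ti_of_tie _ (hTIeN Q)

end Cfsg.Agent.S4620
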