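import Cfsg.Statements.S4623
import Mathlib

set_option autoImplicit false
open Cfsg

namespace Cfsg.Agent.S4623

/-- generated by elements of order dividing `p`. -/
def GenP (p : ℕ) {G : Type*} [Group G] (H : Subgroup G) : Prop :=
  ∃ S : Set G, (∀ s ∈ S, s ^ p = 1) ∧ H = Subgroup.closure S

theorem GenP.map {p : ℕ} {G G' : Type*} [Group G] [Group G'] {H : Subgroup G}
    (h : GenP p H) (f : G →* G') : GenP p (H.map f) := by
  obtain ⟨S, hS, rfl⟩ := h
  refine ⟨f '' S, ?_, MonoidHom.map_closure f S⟩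
  rintro _ ⟨s, hs, rfl⟩
  rw [← map_pow, hS s hs, map_one]

theorem GenP.sup {p : ℕ} {G : Type*} [Group G] {H K : Subgroup G}
    (h1 : GenP p H) (h2 : GenP p K) : GenP p (H ⊔ K) := by
  obtain ⟨S, hS, rfl⟩ := h1
  obtain ⟨T, hT, rfl⟩ := h2
  refine ⟨S ∪ T, ?_, (Subgroup.closure_union S T).symm⟩
  rintro s (hs | hs)
  · exact hS s hs
  · exact hT s hs

theorem GenP.of_exp {p : ℕ} {G : Type*} [Group G] {H : Subgroup G}
    (h : ∀ x ∈ H, x ^ p = 1) : GenP p H :=
  ⟨H, h, (Subgroup.closure_eq H).symm⟩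

theorem GenP.elemAb {p : ℕ} {G : Type*} [Group G] {H : Subgroup G}
    (h : GenP p H) : ∀ x : H, x ^ p ∈ commutator H := by
  obtain ⟨S, hS, rfl⟩ := h
  intro x
  let ψ : Subgroup.closure S →* Abelianization (Subgroup.closure S) :=
    (powMonoidHom p).comp Abelianization.of
  have hk : (⊤ : Subgroup (Subgroup.closure S)) ≤ ψ.ker := by
    rw [← Subgroup.closure_closure_coe_preimage, Subgroup.closure_le]
    intro t ht
    have ht' : (t : G) ∈ S := ht
    have h1 : t ^ p = 1 := Subtype.ext (by simpa using hS _ ht')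
    show ψ t = 1
    show (Abelianization.of t) ^ p = 1
    rw [← map_pow, h1, map_one]
  have hx : ψ x = 1 := hk (Subgroup.mem_top x)
  have hx' : Abelianization.of (x ^ p) = 1 := by
    rw [map_pow]; exact hx
  rw [← Abelianization.ker_of]
  exact hx'

/-- transfer of the conclusion along an isomorphism. -/
theorem elemAb_equiv {p : ℕ} {H H' : Type*} [Group H] [Group H'] (e : H ≃* H')
    (h : ∀ x : H, x ^ p ∈ commutator H) : ∀ x : H', x ^ p ∈ commutator H' := by
  intro x
  have h1 := h (e.symm x)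
  have h2 : e ((e.symm x) ^ p) ∈ (commutator H).map e.toMonoidHom := Subgroup.mem_map_of_mem _ h1
  rw [map_pow, MulEquiv.apply_symm_apply] at h2
  rw [commutator_def, Subgroup.map_commutator] at h2
  rw [commutator_def]
  exact Subgroup.commutator_mono le_top le_top h2


section constr
variable (p : ℕ) [Fact p.Prime] (m : ℕ)

/-- base translations. -/
def bet : Multiplicative (Fin m → ZMod p) →* Equiv.Perm (ZMod p × Fin m) where
  toFun f := Equiv.prodCongrLeft (fun j => Equiv.addRight (Multiplicative.toAdd f j))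
  map_one' := by
    ext ⟨i, j⟩ <;> simp
  map_mul' f g := by
    apply Equiv.ext
    rintro ⟨i, j⟩
    apply Prod.ext
    · simp
      abel
    · simp

theorem bet_apply (f : Multiplicative (Fin m → ZMod p)) (i : ZMod p) (j : Fin m) :
    bet p m f (i, j) = (i + Multiplicative.toAdd f j, j) := rfl

theorem bet_injective : Function.Injective (bet p m) := by
  intro f g h
  apply Multiplicative.toAdd.injective
  funext j
  have := congrArg (fun σ : Equiv.Perm (ZMod p × Fin m) => (σ (0, j)).1) h
  simpa [bet_apply] using this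

theorem bet_pow (f : Multiplicative (Fin m → ZMod p)) : (bet p m f) ^ p = 1 := by
  rw [← map_pow]
  have : f ^ p = 1 := by
    apply Multiplicative.toAdd.injective
    funext j
    simp
  rw [this, map_one]

/-- top action. -/
def lam : Equiv.Perm (Fin m) →* Equiv.Perm (ZMod p × Fin m) where
  toFun g := Equiv.prodCongrRight (fun _ => g)
  map_one' := by
    ext ⟨i, j⟩ <;> simp
  map_mul' g h := by
    ext ⟨i, j⟩ <;> simp

omit [Fact p.Prime] in
theorem lam_apply (g : Equiv.Perm (Fin m)) (i : ZMod p) (j : Fin m) :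
    lam p m g (i, j) = (i, g j) := rfl

theorem lam_injective : Function.Injective (lam p m) := by
  intro g h e
  apply Equiv.ext
  intro j
  have := congrArg (fun σ : Equiv.Perm (ZMod p × Fin m) => (σ (0, j)).2) e
  simpa [lam_apply] using this

theorem lam_conj (g : Equiv.Perm (Fin m)) (f : Multiplicative (Fin m → ZMod p)) :
    lam p m g * bet p m f * (lam p m g)⁻¹ =
      bet p m (Multiplicative.ofAdd (fun j => Multiplicative.toAdd f (g⁻¹ j))) := by
  rw [← map_inv]
  apply Equiv.ext
  rintro ⟨i, j⟩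
  rw [Equiv.Perm.mul_apply, Equiv.Perm.mul_apply, lam_apply, bet_apply, lam_apply, bet_apply]
  simp

theorem sign_lam (g : Equiv.Perm (Fin m)) :
    Equiv.Perm.sign (lam p m g) = (Equiv.Perm.sign g) ^ p := by
  show Equiv.Perm.sign (Equiv.prodCongrRight (fun _ : ZMod p => g)) = _
  rw [Equiv.Perm.sign_prodCongrRight]
  simp

end constr

section constr2
variable (p : ℕ) [Fact p.Prime] (m : ℕ)

theorem step (k : ℕ) (K : Subgroup (Equiv.Perm (Fin m))) (hK : GenP p K)
    (hc : Nat.card K = p ^ k) :
    ∃ W : Subgroup (Equiv.Perm (ZMod p × Fin m)), GenP p W ∧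
      (p = 2 → GenP p (W ⊓ alternatingGroup (ZMod p × Fin m))) ∧ IsPGroup p W ∧
      p ^ (m + k) ≤ Nat.card W := by
  classical
  set B : Subgroup (Equiv.Perm (ZMod p × Fin m)) := (bet p m).range with hBdef
  set L : Subgroup (Equiv.Perm (ZMod p × Fin m)) := K.map (lam p m) with hLdef
  have hBexp : ∀ x ∈ B, x ^ p = 1 := by
    rintro _ ⟨f, rfl⟩
    exact bet_pow p m f
  have hBcard : Nat.card B = p ^ m := by
    rw [hBdef, Nat.card_congr (MonoidHom.ofInjective (bet_injective p m)).toEquiv.symm]
    show Nat.card (Fin m → ZMod p) = p ^ m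
    simp [Nat.card_eq_fintype_card]
  have hLcard : Nat.card L = p ^ k := by
    rw [hLdef, Subgroup.card_map_of_injective (lam_injective p m), hc]
  have hBp : IsPGroup p B := IsPGroup.of_card hBcard
  have hLp : IsPGroup p L := IsPGroup.of_card hLcard
  have hN : L ≤ Subgroup.normalizer B := by
    rintro _ ⟨g, hg, rfl⟩
    rw [Subgroup.mem_normalizer_iff]
    intro b
    constructor
    · rintro ⟨f, rfl⟩
      rw [lam_conj]
      exact ⟨_, rfl⟩
    · rintro ⟨f, hf⟩
      have h1 : b = lam p m g⁻¹ * bet p m f * (lam p m g⁻¹)⁻¹ := by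
        rw [hf, map_inv]; group
      rw [h1, lam_conj]
      exact ⟨_, rfl⟩
  have hdisj : Disjoint B L := by
    rw [Subgroup.disjoint_def]
    rintro x ⟨f, rfl⟩ ⟨g, hg, hfg⟩
    have hf : f = 1 := by
      apply Multiplicative.toAdd.injective
      funext j
      have := congrArg (fun σ : Equiv.Perm (ZMod p × Fin m) => (σ (0, j)).1) hfg
      simpa [lam_apply, bet_apply] using this.symm
    rw [hf, map_one]
  refine ⟨B ⊔ L, (GenP.of_exp hBexp).sup (hK.map _), ?_,
    IsPGroup.to_sup_of_normal_left' hBp hLp hN, ?_⟩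
  · intro h2
    have hLA : L ≤ alternatingGroup (ZMod p × Fin m) := by
      rintro _ ⟨g, hg, rfl⟩
      rw [Equiv.Perm.mem_alternatingGroup, sign_lam, h2]
      exact Int.units_sq _
    have hW : (B ⊔ L) ⊓ alternatingGroup (ZMod p × Fin m) =
        (B ⊓ alternatingGroup (ZMod p × Fin m)) ⊔ L := by
      apply le_antisymm
      · intro w hw0
        obtain ⟨hw1, hw2⟩ := Subgroup.mem_inf.mp hw0
        have hw : w ∈ ((B ⊔ L : Subgroup _) : Set _) := hw1
        rw [Subgroup.coe_mul_of_right_le_normalizer_left B L hN] at hw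
        obtain ⟨b, hb, l, hl, rfl⟩ := hw
        have hbA : b ∈ alternatingGroup (ZMod p × Fin m) := by
          have := mul_mem hw2 (inv_mem (hLA hl))
          simpa using this
        exact mul_mem (Subgroup.mem_sup_left (Subgroup.mem_inf.mpr ⟨hb, hbA⟩))
          (Subgroup.mem_sup_right hl)
      · exact sup_le (inf_le_inf_right _ le_sup_left) (le_inf le_sup_right hLA)
    rw [hW]
    have hB0 : GenP p (B ⊓ alternatingGroup (ZMod p × Fin m)) :=
      GenP.of_exp (fun x hx => hBexp x (Subgroup.mem_inf.mp hx).1)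
    exact hB0.sup (hK.map _)
  · have hinj := Subgroup.mul_injective_of_disjoint hdisj
    have h1 : Nat.card (B × L) ≤ Nat.card (B ⊔ L : Subgroup _) := by
      apply Nat.card_le_card_of_injective (fun x : B × L =>
        (⟨(x.1 : Equiv.Perm (ZMod p × Fin m)) * x.2,
          mul_mem (Subgroup.mem_sup_left x.1.2) (Subgroup.mem_sup_right x.2.2)⟩ :
            (B ⊔ L : Subgroup _)))
      intro x y hxy
      exact hinj (congrArg Subtype.val hxy)
    rw [Nat.card_prod, hBcard, hLcard, ← pow_add] at h1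
    exact h1

end constr2

theorem step' (p : ℕ) [Fact p.Prime] (n : ℕ) (K : Subgroup (Equiv.Perm (Fin (n / p))))
    (hK : GenP p K) (hc : Nat.card K = p ^ padicValNat p (n / p).factorial) :
    ∃ H : Subgroup (Equiv.Perm (Fin n)), GenP p H ∧
      (p = 2 → GenP p (H ⊓ alternatingGroup (Fin n))) ∧
      Nat.card H = p ^ padicValNat p n.factorial := by
  classical
  have hp := (Fact.out : p.Prime)
  obtain ⟨W, hW1, hW2, hW3, hW4⟩ := step p (n / p) _ K hK hc
  have hcard : Fintype.card (ZMod p × Fin (n / p)) ≤ Fintype.card (Fin n) := by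
    rw [Fintype.card_prod, ZMod.card, Fintype.card_fin, Fintype.card_fin]
    exact Nat.mul_div_le n p
  obtain ⟨ι⟩ := Function.Embedding.nonempty_of_card_le hcard
  let f : (ZMod p × Fin (n / p)) ≃ Subtype (fun x => x ∈ Set.range ι) :=
    Equiv.ofInjective ι ι.injective
  let φ : Equiv.Perm (ZMod p × Fin (n / p)) →* Equiv.Perm (Fin n) :=
    Equiv.Perm.extendDomainHom f
  have hφ : Function.Injective φ := Equiv.Perm.extendDomainHom_injective f
  have hsign : ∀ w, Equiv.Perm.sign (φ w) = Equiv.Perm.sign w :=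
    fun w => Equiv.Perm.sign_extendDomain w f
  have hv : padicValNat p n.factorial = n / p + padicValNat p (n / p).factorial := by
    rw [← padicValNat_mul_div_factorial n, padicValNat_factorial_mul, add_comm]
  refine ⟨W.map φ, hW1.map φ, ?_, ?_⟩
  · intro h2
    have hEq : W.map φ ⊓ alternatingGroup (Fin n) = (W ⊓ alternatingGroup _).map φ := by
      ext x
      simp only [Subgroup.mem_inf, Subgroup.mem_map, Equiv.Perm.mem_alternatingGroup]
      constructor
      · rintro ⟨⟨w, hw, rfl⟩, hx⟩
        exact ⟨w, ⟨hw, by rw [← hsign]; exact hx⟩, rfl⟩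
      · rintro ⟨w, ⟨hw, hw2⟩, rfl⟩
        exact ⟨⟨w, hw, rfl⟩, by rw [hsign]; exact hw2⟩
    rw [hEq]
    exact (hW2 h2).map φ
  · have hWφ : IsPGroup p (W.map φ) := hW3.map φ
    obtain ⟨j, hj⟩ := IsPGroup.iff_card.mp hWφ
    have hj1 : p ^ j ∣ n.factorial := by
      rw [← hj]
      have := Subgroup.card_subgroup_dvd_card (W.map φ)
      rwa [Nat.card_perm, Nat.card_fin] at this
    have hj2 : j ≤ padicValNat p n.factorial :=
      (padicValNat_dvd_iff_le (Nat.factorial_ne_zero n)).mp hj1
    have hj3 : p ^ (n / p + padicValNat p (n / p).factorial) ≤ p ^ j := by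
      rw [← hj, Subgroup.card_map_of_injective hφ]; exact hW4
    have hj4 := (Nat.pow_le_pow_iff_right hp.one_lt).mp hj3
    rw [hj]
    congr 1
    omega

theorem exists_gen (p : ℕ) [Fact p.Prime] : ∀ n : ℕ, ∃ H : Subgroup (Equiv.Perm (Fin n)),
    GenP p H ∧ (p = 2 → GenP p (H ⊓ alternatingGroup (Fin n))) ∧
      Nat.card H = p ^ padicValNat p n.factorial := by
  intro n
  induction n using Nat.strong_induction_on with
  | _ n ih =>
    rcases Nat.eq_zero_or_pos n with rfl | hn
    · refine ⟨⊥, GenP.of_exp ?_, fun _ => GenP.of_exp ?_, ?_⟩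
      · intro x hx; rw [Subgroup.mem_bot.mp hx, one_pow]
      · intro x hx; rw [Subgroup.mem_bot.mp (Subgroup.mem_inf.mp hx).1, one_pow]
      · simp
    · have hp := (Fact.out : p.Prime)
      obtain ⟨K, hK1, _, hK3⟩ := ih (n / p) (Nat.div_lt_self hn hp.one_lt)
      exact step' p n K hK1 hK3

theorem sign_conj' {α : Type*} [DecidableEq α] [Fintype α] (g h : Equiv.Perm α) :
    Equiv.Perm.sign ((MulAut.conj g).toMonoidHom h) = Equiv.Perm.sign h := by
  show Equiv.Perm.sign (g * h * g⁻¹) = Equiv.Perm.sign h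
  rw [map_mul, map_mul, map_inv, mul_comm, ← mul_assoc, inv_mul_cancel, one_mul]

theorem sylow_gen (p : ℕ) [Fact p.Prime] (n : ℕ) (P : Sylow p (Equiv.Perm (Fin n))) :
    GenP p (P : Subgroup (Equiv.Perm (Fin n))) ∧
    GenP p ((P : Subgroup (Equiv.Perm (Fin n))) ⊓ alternatingGroup (Fin n)) := by
  classical
  have hp := (Fact.out : p.Prime)
  obtain ⟨H, hH1, hH2, hH3⟩ := exists_gen p n
  have hHp : IsPGroup p H := IsPGroup.of_card hH3
  obtain ⟨P₀, hP₀⟩ := hHp.exists_le_sylow
  have hcard : Nat.card P₀ = p ^ padicValNat p n.factorial := by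
    rw [Sylow.card_eq_multiplicity, Nat.card_perm, Nat.card_fin, Nat.factorization_def _ hp]
  have hHP : H = (P₀ : Subgroup _) := Subgroup.eq_of_le_of_card_ge hP₀ (by rw [hcard, hH3])
  obtain ⟨g, hg⟩ := MulAction.exists_smul_eq (Equiv.Perm (Fin n)) P₀ P
  have hPH : (P : Subgroup (Equiv.Perm (Fin n))) = H.map (MulAut.conj g).toMonoidHom := by
    rw [← hg, hHP]; rfl
  have h1 : GenP p (P : Subgroup (Equiv.Perm (Fin n))) := by
    rw [hPH]; exact hH1.map _
  refine ⟨h1, ?_⟩
  by_cases h2 : p = 2
  · have hEq : (P : Subgroup _) ⊓ alternatingGroup (Fin n) =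
        (H ⊓ alternatingGroup (Fin n)).map (MulAut.conj g).toMonoidHom := by
      rw [hPH]
      ext x
      simp only [Subgroup.mem_inf, Subgroup.mem_map, Equiv.Perm.mem_alternatingGroup]
      constructor
      · rintro ⟨⟨h, hh, rfl⟩, hx⟩
        refine ⟨h, ⟨hh, ?_⟩, rfl⟩
        rw [← sign_conj' g h]; exact hx
      · rintro ⟨h, ⟨hh, hh2⟩, rfl⟩
        exact ⟨⟨h, hh, rfl⟩, by rw [sign_conj' g h]; exact hh2⟩
    rw [hEq]; exact (hH2 h2).map _
  · have hodd : Odd p := hp.eq_two_or_odd'.resolve_left h2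
    have hle : (P : Subgroup _) ≤ alternatingGroup (Fin n) := by
      intro x hx
      rw [Equiv.Perm.mem_alternatingGroup]
      obtain ⟨k, hk⟩ := P.isPGroup' ⟨x, hx⟩
      have hk' : x ^ p ^ k = 1 := by
        have := congrArg Subtype.val hk
        simpa using this
      have hs : (Equiv.Perm.sign x) ^ p ^ k = 1 := by
        rw [← map_pow, hk', map_one]
      rcases Int.units_eq_one_or (Equiv.Perm.sign x) with h | h
      · exact h
      · rw [h, Odd.neg_one_pow (hodd.pow)] at hs
        exact absurd hs (by decide)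
    rw [inf_eq_left.mpr hle]
    exact h1

/-- For every prime p and every n, a Sylow p-subgroup P of the symmetric group on n letters has P/P' elementary abelian (the p-th power of every element of P lies in the derived subgroup of P), and the same holds for a Sylow p-subgroup of the alternating group on n letters. -/
theorem result (p : ℕ) [Fact p.Prime] (n : ℕ) (P : Sylow p (Equiv.Perm (Fin n))) (Q : Sylow p (alternatingGroup (Fin n))) :
    (∀ x : (P : Subgroup (Equiv.Perm (Fin n))), x ^ p ∈ commutator (P : Subgroup (Equiv.Perm (Fin n)))) ∧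
    (∀ x : (Q : Subgroup (alternatingGroup (Fin n))), x ^ p ∈ commutator (Q : Subgroup (alternatingGroup (Fin n)))) := by
  classical
  constructor
  · exact (sylow_gen p n P).1.elemAb
  · let A : Subgroup (Equiv.Perm (Fin n)) := alternatingGroup (Fin n)
    let Q' : Subgroup (Equiv.Perm (Fin n)) := (Q : Subgroup A).map A.subtype
    have hQ'p : IsPGroup p Q' := Q.isPGroup'.map _
    obtain ⟨P, hP⟩ := hQ'p.exists_le_sylow
    have hR : IsPGroup p (((P : Subgroup (Equiv.Perm (Fin n))) ⊓ A).subgroupOf A) :=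
      (P.isPGroup'.to_le inf_le_left).comap_subtype
    have hQR : (Q : Subgroup A) ≤ ((P : Subgroup (Equiv.Perm (Fin n))) ⊓ A).subgroupOf A := by
      intro x hx
      rw [Subgroup.mem_subgroupOf]
      exact Subgroup.mem_inf.mpr ⟨hP (Subgroup.mem_map_of_mem _ hx), x.2⟩
    have hEq : ((P : Subgroup (Equiv.Perm (Fin n))) ⊓ A).subgroupOf A = Q := Q.is_maximal' hR hQR
    have hQ' : Q' = (P : Subgroup (Equiv.Perm (Fin n))) ⊓ A := by
      apply le_antisymm
      · exact le_inf hP (Subgroup.map_subtype_le _)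
      · intro x hx
        have hxA : x ∈ A := (Subgroup.mem_inf.mp hx).2
        have h1 : (⟨x, hxA⟩ : A) ∈ (Q : Subgroup A) := by
          rw [← hEq, Subgroup.mem_subgroupOf]
          exact hx
        exact ⟨⟨x, hxA⟩, h1, rfl⟩
    have hgen : GenP p Q' := by
      rw [hQ']
      exact (sylow_gen p n P).2
    have e : (Q : Subgroup A) ≃* Q' :=
      (Q : Subgroup A).equivMapOfInjective A.subtype A.subtype_injective
    exact elemAb_equiv e.symm hgen.elemAb

end Cfsg.Agent.S4623
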