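import Cfsg.Statements.S4624
import Cfsg.Agent.S0245
import Cfsg.Agent.Lib.Helper81.Sl2Base
import Cfsg.Agent.Lib.Helper81.ValTwo

set_option autoImplicit false
open Cfsg

namespace Cfsg.Agent.S4624

/-- Let F be a finite field of odd order and n ≥ 1. A Sylow 2-subgroup P of the symplectic group Sp_{2n}(F) has P/P' elementary abelian: the square of every element of P lies in the derived subgroup of P. -/
theorem result {F : Type*} [Field F] [Fintype F] (hF : Odd (Fintype.card F)) (n : ℕ) (hn : 1 ≤ n) (P : Sylow 2 (Matrix.symplecticGroup (Fin n) F)) :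
    ∀ x : (P : Subgroup (Matrix.symplecticGroup (Fin n) F)), x ^ 2 ∈ commutator (P : Subgroup (Matrix.symplecticGroup (Fin n) F)) := by
  classical
  have hfact : Fact (Nat.Prime 2) := ⟨Nat.prime_two⟩
  obtain ⟨T, _, _, φ, hT, hdvd, hsq, hφ⟩ :=
    (Cfsg.Agent.Lib.Helper81.SpSyl.hasSyl_all
      (Cfsg.Agent.Lib.Helper81.Sl2Base.hasSyl_base hF) n hn).exists_hom
  have hcard := Cfsg.Agent.S0245.result (F := F) (q := Fintype.card F) rfl n
  have hfin : Finite (Matrix.symplecticGroup (Fin n) F) :=
    Finite.of_injective Subtype.val Subtype.val_injective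
  have hq1 : 1 < Fintype.card F := Fintype.one_lt_card
  have hval : (Nat.card (Matrix.symplecticGroup (Fin n) F)).factorization 2 =
      n * padicValNat 2 (Fintype.card F ^ 2 - 1) + padicValNat 2 n.factorial := by
    rw [Nat.factorization_def _ Nat.prime_two, hcard,
      Cfsg.Agent.Lib.Helper81.ValTwo.val_card_sp hq1 hF n]
  exact Cfsg.Agent.Lib.Helper81.SpSyl.sqDer_sylow_of_hom φ hφ hT (by rw [hval]; exact hdvd) hsq P

end Cfsg.Agent.S4624
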