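-- Statement S4632 (helper81): Sylow 2-subgroups of G₂(F), |F| odd, have elementary abelianization.
import Cfsg.Statements.S4632
import Cfsg.Agent.Lib.Helper81.G2K
import Cfsg.Agent.Lib.Helper81.G2Ord
import Cfsg.Agent.Lib.Helper81.SpSyl

set_option autoImplicit false
open Cfsg

namespace Cfsg.Agent.S4632

/-- Let F be a finite field of odd order and G₂(F) the automorphism group of the split octonion algebra over F (realized on F⁸ with the Zorn vector-matrix multiplication). A Sylow 2-subgroup P of G₂(F) has P/P' elementary abelian: the square of every element of P lies in the derived subgroup of P. -/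
theorem result {F : Type*} [Field F] [Fintype F] (hF : Odd (Fintype.card F)) (P : Sylow 2 (Cfsg.Lie.G2 F)) : ∀ x : (P : Subgroup (Cfsg.Lie.G2 F)), x ^ 2 ∈ commutator (P : Subgroup (Cfsg.Lie.G2 F)) := by
  obtain ⟨K, hK, hKcard, hKsq⟩ := Cfsg.Agent.Lib.Helper81.G2K.exists_K hF
  have hle := Cfsg.Agent.Lib.Helper81.G2Ord.val_card_le hF
  exact Cfsg.Agent.Lib.Helper81.SpSyl.sqDer_sylow_of_hom K.subtype (Subgroup.subtype_injective K) hK
    (dvd_trans (pow_dvd_pow 2 hle) hKcard) hKsq P

end Cfsg.Agent.S4632
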