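import Cfsg.Statements.S4645
import Cfsg.Agent.Lib.Helper81.BrCyc
import Cfsg.Agent.Lib.Helper81.BrIn
import Cfsg.Agent.Lib.Helper81.BrMax2
import Cfsg.Agent.S0908

set_option autoImplicit false
open Cfsg

namespace Cfsg.Agent.S4645

/-- Let B be a block of the finite group G relative to a maximal ideal M of the algebraic integers containing the prime p, with a nontrivial cyclic defect group P; let c be a block of C_G(P) inducing B and T the stabilizer of c in N_G(P). Let Q be a nontrivial subgroup of P (so C_G(P) ≤ C_G(Q)), f the block of C_G(Q) induced by c inside C_G(Q), and T' the stabilizer of f in N_G(Q). Then T' = T·C_G(Q), the index of C_G(Q) in T' equals the index of C_G(P) in T, f has p-regular rank 1, and f is a nilpotent block of C_G(Q). -/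
theorem result {G : Type*} [Group G] [Finite G] (p : ℕ) [Fact p.Prime] (M : Ideal Cfsg.AlgInt) (hM : Cfsg.IsPModular p M) (B : Set (Cfsg.IrrCharacter G)) (hB : Cfsg.IsPBlock M B) (P : Subgroup G) (hPD : Cfsg.IsDefectGroup p M B P) (hP1 : P ≠ ⊥) (hcyc : IsCyclic P) (c : Set (Cfsg.IrrCharacter (Subgroup.centralizer (P : Set G)))) (hc : Cfsg.IsInducedBlock M (Subgroup.centralizer (P : Set G)) c B) (T : Subgroup G) (hT : ∀ g : G, g ∈ T ↔ (g ∈ Subgroup.normalizer (P : Set G) ∧ Cfsg.StabilizesBlock (Subgroup.centralizer (P : Set G)) c g)) (Q : Subgroup G) (hQP : Q ≤ P) (hQ1 : Q ≠ ⊥) (f : Set (Cfsg.IrrCharacter (Subgroup.centralizer (Q : Set G)))) (hf : Cfsg.IsInducedBlockIn M (Subgroup.centralizer (Q : Set G)) (Subgroup.centralizer (P : Set G)) c f) (T' : Subgroup G) (hT' : ∀ g : G, g ∈ T' ↔ (g ∈ Subgroup.normalizer (Q : Set G) ∧ Cfsg.StabilizesBlock (Subgroup.centralizer (Q : Set G)) f g)) : T' = T ⊔ Subgroup.centralizer (Q : Set G) ∧ (Subgroup.centralizer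 (Q : Set G)).relIndex T' = (Subgroup.centralizer (P : Set G)).relIndex T ∧ Cfsg.blockRank p f = 1 ∧ Cfsg.IsNilpotentBlock p M f := by
  classical
  letI : Fintype G := Fintype.ofFinite G
  have hP : IsPGroup p P := Cfsg.Agent.Lib.Helper22.isDefectGroup_isPGroup B P hPD
  have hpair : IsBrauerPairOf p M B P c :=
    (Cfsg.Agent.Lib.Helper81.isBrauerPairOf_iff_isInducedBlock hM P hP c B).mpr hc
  obtain ⟨R, g, hmaxR, hle⟩ := Cfsg.Agent.Lib.Helper81.exists_maximal_above B P c hpair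
  have hR : IsDefectGroup p M B R := Cfsg.Agent.Lib.Helper81.isDefectGroup_of_maximal hM B R g hmaxR
  have hcard : Nat.card R ≤ Nat.card P := by
    rw [Cfsg.Agent.S0908.result p M hM B hB R hR, Cfsg.Agent.S0908.result p M hM B hB P hPD]
  have hmax : IsMaximalBrauerPair p M B P c :=
    Cfsg.Agent.Lib.Helper81.isMaximal_of_card hM B R g hmaxR ⟨P, c⟩ hpair hcard
  have hPab := Cfsg.Agent.Lib.Helper81.mul_comm_of_isCyclic P hcyc
  have hF : ∀ g : G, g ∈ Subgroup.normalizer (P : Set G) →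
      StabilizesBlock (Subgroup.centralizer (P : Set G)) c g →
      g ∈ Subgroup.centralizer (Q : Set G) → g ∈ Subgroup.centralizer (P : Set G) :=
    fun g hgN hgs hgQ =>
      Cfsg.Agent.Lib.Helper81.stab_cent_of_cyclic hM B P c hmax hcyc Q hQP hQ1 g hgN hgs hgQ
  have hnil : IsNilpotentBlock p M f :=
    (Cfsg.Agent.Lib.Helper81.nilpotent_iff_of_abelian hM B P c hmax hPab Q hQP f hf).mpr hF
  have hPQ : P ≤ Subgroup.centralizer (Q : Set G) := by
    intro x hx
    rw [Subgroup.mem_centralizer_iff]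
    intro q hq
    exact hPab q (hQP hq) x hx
  have hCle : Subgroup.centralizer (P : Set G) ≤ Subgroup.centralizer (Q : Set G) :=
    Subgroup.centralizer_le (SetLike.coe_subset_coe.mpr hQP)
  have hHN : Subgroup.centralizer (Q : Set G) ≤ Subgroup.normalizer (Q : Set G) :=
    Subgroup.centralizer_le_normalizer _
  have hQ : IsPGroup p Q := hP.to_le hQP
  have hns : IsNormalSubpair p M Q f P c :=
    ⟨⟨hQ, hf.2.1⟩, hmax.1.1, hQP, hPQ.trans hHN,
      fun x hx => Cfsg.Agent.Lib.Helper81.stabilizesBlock_of_mem _ f (hPQ hx),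
      fun ξ hξ => Cfsg.Agent.Lib.Helper81.brauerOmega_of_isInducedBlockIn hM Q P hCle c f hf ξ hξ⟩
  have hsle : SubpairLE p M Q f P c := Relation.ReflTransGen.single hns
  have hrank : blockRank p f = 1 := by
    obtain ⟨u, hu⟩ := Cfsg.Agent.Lib.Helper81.maximal_down_of_abelian hM B P c hmax hPab Q f hsle
    letI : Fintype (Subgroup.centralizer (Q : Set G)) := Fintype.ofFinite _
    have hD := Cfsg.Agent.Lib.Helper81.isDefectGroup_of_maximal hM f _ u hu
    refine Cfsg.Agent.Lib.Helper81.rank_one_of_nilpotent_abelian hM f hnil _ hD ?_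
    intro x hx y hy
    apply Subtype.ext
    exact hPab _ (Subgroup.mem_subgroupOf.mp hx) _ (Subgroup.mem_subgroupOf.mp hy)
  have hTT' : T ≤ T' := by
    intro g hg
    obtain ⟨hgN, hgs⟩ := (hT g).mp hg
    have hgNQ : g ∈ Subgroup.normalizer (Q : Set G) :=
      Cfsg.Agent.Lib.Helper81.normalizer_le_of_le_cyclic P hcyc Q hQP hgN
    refine (hT' g).mpr ⟨hgNQ, ?_⟩
    have h1 : Cfsg.Agent.Lib.Helper81.conjPair g
        (⟨P, c⟩ : BrauerPairIdx G) = ⟨P, c⟩ :=
      (Cfsg.Agent.Lib.Helper81.conjPair_eq_self_iff P c g).mpr ⟨hgN, hgs⟩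
    have h2 := Cfsg.Agent.Lib.Helper81.conjPair_eq_self_of_le hM Q P f c hmax.1.1 hf.2.1 hsle g h1
      hgNQ
    exact ((Cfsg.Agent.Lib.Helper81.conjPair_eq_self_iff Q f g).mp h2).2
  have hCT' : Subgroup.centralizer (Q : Set G) ≤ T' := fun g hg =>
    (hT' g).mpr ⟨hHN hg, Cfsg.Agent.Lib.Helper81.stabilizesBlock_of_mem _ f hg⟩
  have hT'eq : T' = T ⊔ Subgroup.centralizer (Q : Set G) := by
    apply le_antisymm
    · intro g hg
      obtain ⟨hgN, hgs⟩ := (hT' g).mp hg
      obtain ⟨y, hy, c', hc', rfl⟩ := Cfsg.Agent.Lib.Helper81.stab_factor_of_abelian hM B P c hmax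
        hPab Q f hf.2.1 hsle g hgN hgs
      have hyT : y ∈ T := (hT y).mpr ((Cfsg.Agent.Lib.Helper81.conjPair_eq_self_iff P c y).mp hy)
      exact Subgroup.mul_mem _ (Subgroup.mem_sup_left hyT) (Subgroup.mem_sup_right hc')
    · exact sup_le hTT' hCT'
  have hTN : T ≤ Subgroup.normalizer ((Subgroup.centralizer (Q : Set G) : Subgroup G) : Set G) :=
    fun g hg => Cfsg.Agent.Lib.Helper81.normalizer_le_normalizer_centralizer Q
      ((hT' g).mp (hTT' hg)).1
  have hinf : Subgroup.centralizer (Q : Set G) ⊓ T = Subgroup.centralizer (P : Set G) ⊓ T := by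
    apply le_antisymm
    · intro g hg
      obtain ⟨hgN, hgs⟩ := (hT g).mp hg.2
      exact ⟨hF g hgN hgs hg.1, hg.2⟩
    · exact inf_le_inf_right _ hCle
  refine ⟨hT'eq, ?_, hrank, hnil⟩
  rw [hT'eq, Cfsg.Agent.Lib.Helper81.relIndex_sup_of_le_normalizer T _ hTN,
    ← Subgroup.inf_relIndex_right, hinf, Subgroup.inf_relIndex_right]

end Cfsg.Agent.S4645
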