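-- Statement S4648 (a block of rank one with at most four irreducible characters is nilpotent, and
-- its defect groups have as many elements as the block has characters).  helper1 (route, assembly);
-- pieces by helper86 (KU-S), helper68 (KU-M), helper85 (KU-C), helper66 (KU-K1), helper19 (KU-K2),
-- helper82 (KU-RESF), helper35 (KU-SPAN), helper16 (KU-FA), helper30 (KU-FB), helper84 (KU-FUNC),
-- helper57 (KU-DEG), helper4 (KU-CHAR), helper81 (NIL); paper proof by lead and helper81.
import Cfsg.Statements.S4648
import Cfsg.Agent.Lib.Helper1.KulsMain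
import Cfsg.Agent.Lib.Helper81.NilSmall
import Cfsg.Agent.Lib.Helper82.Major

set_option autoImplicit false
open Cfsg

namespace Cfsg.Agent.S4648

/-- Let B be a block of the finite group G relative to a maximal ideal M of the algebraic integers containing the prime p, with a nontrivial defect group D. If B has p-regular rank 1 and at most four irreducible characters, then B is nilpotent, D has exactly as many elements as B has irreducible characters, and p is 2 or 3. -/
theorem result {G : Type*} [Group G] [Finite G] (p : ℕ) [Fact p.Prime] (M : Ideal Cfsg.AlgInt) (hM : Cfsg.IsPModular p M) (B : Set (Cfsg.IrrCharacter G)) (hB : Cfsg.IsPBlock M B) (D : Subgroup G) (hD : Cfsg.IsDefectGroup p M B D) (hD1 : D ≠ ⊥) (hl : Cfsg.blockRank p B = 1) (hk : Nat.card B ≤ 4) : Cfsg.IsNilpotentBlock p M B ∧ Nat.card D = Nat.card B ∧ (p = 2 ∨ p = 3) := by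
  classical
  let _ : Fintype G := Fintype.ofFinite G
  have hc := Cfsg.Agent.Lib.Helper1.kuls_card p M hM B hB D hD hl hk
  have hpow := Cfsg.Agent.Lib.Helper82.card_defectGroup hM B hB D hD
  refine ⟨Cfsg.Agent.Lib.Helper81.nil_small p M hM B hB D hD hl hc.symm (hc ▸ hk), hc, ?_⟩
  have hd : blockDefect p B ≠ 0 := by
    intro h0
    rw [h0, pow_zero] at hpow
    exact hD1 (Subgroup.card_eq_one.mp hpow)
  have hp := (Fact.out : p.Prime)
  have hle : p ≤ 4 := by
    calc p = p ^ 1 := (pow_one p).symm
      _ ≤ p ^ blockDefect p B := Nat.pow_le_pow_right hp.pos (Nat.one_le_iff_ne_zero.mpr hd)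
      _ = Nat.card D := hpow.symm
      _ = Nat.card B := hc
      _ ≤ 4 := hk
  have h2 := hp.two_le
  interval_cases p
  · left; rfl
  · right; rfl
  · exact absurd hp (by norm_num)

end Cfsg.Agent.S4648
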