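import Cfsg.Statements.S4888
import Cfsg.Agent.Lib.Helper4.Contrib3
import Cfsg.Agent.Lib.Helper4.BrMono5
import Cfsg.Agent.Lib.Helper2.Tate
import Cfsg.Agent.Lib.Helper3.MaxClass
import Cfsg.Agent.Lib.Helper81.BlockNormal
import Cfsg.Agent.Lib.Helper83.Quot
import Cfsg.Agent.Lib.Helper83.Codeg
import Cfsg.Agent.Lib.Helper35.Ind
import Cfsg.Agent.Lib.Helper79.Blk2

set_option autoImplicit false
open Cfsg

namespace Cfsg.Agent.S4888

open scoped ComplexConjugate
open Cfsg.Agent.Lib.Helper4 Cfsg.Agent.Lib.Helper84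

theorem charDegree_irr {G : Type*} [Group G] (χ : IrrCharacter G) :
    (χ : G → ℂ) 1 = (Cfsg.charDegree (χ : G → ℂ) : ℂ) := by
  obtain ⟨n, hn, h1⟩ := irr_one_nat χ
  unfold Cfsg.charDegree
  rw [h1]
  simp

/-- Under the degree hypothesis every linear character of a Sylow `p`-subgroup extends. -/
theorem exists_extension' {G : Type*} [Group G] [Finite G] (p : ℕ) [Fact p.Prime]
    (M : Ideal AlgInt) (hM : IsPModular p M)
    (hdeg : ∀ χ : IrrCharacter G, χ ∈ principalBlock M G →
      ¬ p ∣ charDegree (χ : G → ℂ) → charDegree (χ : G → ℂ) = 1)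
    (P : Sylow p G) (l : (P : Subgroup G) →* ℂˣ) :
    ∃ χ : G →* ℂˣ, ∀ x : (P : Subgroup G), χ (x : G) = l x := by
  classical
  let _ : Fintype G := Fintype.ofFinite G
  let _ : Fintype (P : Subgroup G) := Fintype.ofFinite _
  have hfin : Finite (IrrCharacter G) := irr_finite
  let _ : Fintype (IrrCharacter G) := Fintype.ofFinite _
  have hp := (Fact.out : p.Prime)
  set τ := Cfsg.Agent.Lib.Helper83.trivIrr G with hτ
  have hB : IsPBlock M (principalBlock M G) := Cfsg.Agent.Lib.Helper79.isPBlock_principalBlock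
  have hτB : τ ∈ principalBlock M G := Cfsg.Agent.Lib.Helper79.trivIrr_mem_principalBlock hM
  let lam : IrrCharacter (P : Subgroup G) := ⟨fun x => (l x : ℂ), isIrrCharacter_lin l⟩
  have hn : ∀ θ : IrrCharacter G, ∃ k : ℕ,
      classInner (Cfsg.Agent.Lib.Helper35.res (P : Subgroup G) (θ : G → ℂ)) lam.1 = k :=
    fun θ => Cfsg.Agent.Lib.Helper35.classInner_char_nat
      (Cfsg.Agent.Lib.Helper35.isCharacter_res _ (Cfsg.Agent.Lib.Helper35.isChar_of_irr θ.2))
      (Cfsg.Agent.Lib.Helper35.isChar_of_irr lam.2)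
  choose n hn using hn
  have hcardP : Nat.card (P : Subgroup G) = p ^ (Nat.card G).factorization p :=
    P.card_eq_multiplicity
  have hP0 : (Nat.card (P : Subgroup G) : ℂ) ≠ 0 := card_ne_zero_complex
  have h1 : ∑ x : (P : Subgroup G), ptil p (τ : G → ℂ) (x : G) * conj ((l x : ℂˣ) : ℂ) =
      (Nat.card (P : Subgroup G) : ℂ) := by
    rw [Finset.sum_eq_single (1 : (P : Subgroup G))]
    · have h0 : ¬ p ∣ orderOf (((1 : (P : Subgroup G)) : G)) := by
        rw [OneMemClass.coe_one, orderOf_one]; exact hp.not_dvd_one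
      unfold ptil
      rw [if_neg h0, hcardP, map_one]
      show ((p ^ (Nat.card G).factorization p : ℕ) : ℂ) * (1 : ℂ) * conj ((1 : ℂˣ) : ℂ) = _
      simp
    · intro x _ hx
      have hx1 : (x : G) ≠ 1 := by
        intro h
        apply hx
        exact Subtype.ext h
      have hdv : p ∣ orderOf (x : G) := by
        obtain ⟨k, hk⟩ := P.isPGroup' x
        have hk' : (x : G) ^ p ^ k = 1 := by
          have := congrArg Subtype.val hk
          simpa using this
        obtain ⟨j, -, hj⟩ := (Nat.dvd_prime_pow hp).mp (orderOf_dvd_of_pow_eq_one hk')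
        rcases Nat.eq_zero_or_pos j with h0 | h0
        · exfalso
          apply hx1
          rw [h0, pow_zero] at hj
          exact orderOf_eq_one_iff.mp hj
        · rw [hj]
          exact dvd_pow_self p (by omega)
      unfold ptil
      rw [if_pos hdv, zero_mul]
    · intro h
      exact absurd (Finset.mem_univ _) h
  have h2 : ∑ x : (P : Subgroup G), ptil p (τ : G → ℂ) (x : G) * conj ((l x : ℂˣ) : ℂ) =
      ∑ θ : IrrCharacter G, (ctr p τ θ : ℂ) *
        ((Nat.card (P : Subgroup G) : ℂ) * (n θ : ℂ)) := by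
    have hx : ∀ x : (P : Subgroup G), ptil p (τ : G → ℂ) (x : G) * conj ((l x : ℂˣ) : ℂ) =
        ∑ θ : IrrCharacter G, (ctr p τ θ : ℂ) *
          ((θ : G → ℂ) (x : G) * conj ((l x : ℂˣ) : ℂ)) := by
      intro x
      rw [ptil_expansion, Finset.sum_mul]
      apply Finset.sum_congr rfl
      intro θ _
      ring
    rw [Finset.sum_congr rfl (fun x _ => hx x), Finset.sum_comm]
    apply Finset.sum_congr rfl
    intro θ _
    rw [← Finset.mul_sum]
    congr 1
    have h3 := hn θ
    unfold classInner at h3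
    rw [← h3, ← mul_assoc, mul_inv_cancel₀ hP0, one_mul]
    rfl
  have h3 : (1 : ℤ) = ∑ θ : IrrCharacter G, ctr p τ θ * (n θ : ℤ) := by
    have h4 : (Nat.card (P : Subgroup G) : ℂ) * 1 = (Nat.card (P : Subgroup G) : ℂ) *
        ((∑ θ : IrrCharacter G, ctr p τ θ * (n θ : ℤ) : ℤ) : ℂ) := by
      conv_lhs => rw [mul_one, ← h1, h2]
      push_cast
      rw [Finset.mul_sum]
      apply Finset.sum_congr rfl
      intro θ _
      ring
    have h5 := mul_left_cancel₀ hP0 h4
    exact_mod_cast h5
  have hex : ∃ θ : IrrCharacter G, ¬ (p : ℤ) ∣ ctr p τ θ * (n θ : ℤ) := by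
    by_contra hcon
    push Not at hcon
    have h4 : (p : ℤ) ∣ 1 := by
      rw [h3]
      exact Finset.dvd_sum fun θ _ => hcon θ
    have h5 : p ∣ 1 := by exact_mod_cast h4
    exact hp.not_dvd_one h5
  obtain ⟨θ, hθ⟩ := hex
  have hc0 : ctr p τ θ ≠ 0 := fun h => hθ (by rw [h, zero_mul]; exact dvd_zero _)
  have hn0 : n θ ≠ 0 := fun h => hθ (by rw [h]; simp)
  have hθB : θ ∈ principalBlock M G := by
    by_contra hnot
    exact hc0 (ctr_eq_zero p M hM _ hB τ hτB θ hnot)
  have hpd : ¬ p ∣ charDegree (θ : G → ℂ) := by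
    intro hd
    apply hθ
    have hpos := (Cfsg.Agent.Lib.Helper83.irr_degree θ.2).1
    have h1' : 1 ≤ (charDegree (θ : G → ℂ)).factorization p :=
      (hp.dvd_iff_one_le_factorization hpos.ne').mp hd
    have h2' := ctr_dvd_right p τ θ
    have h3' : (p : ℤ) ∣ ((p ^ (charDegree (θ : G → ℂ)).factorization p : ℕ) : ℤ) := by
      exact_mod_cast dvd_pow_self p (by omega : (charDegree (θ : G → ℂ)).factorization p ≠ 0)
    exact Dvd.dvd.mul_right (h3'.trans h2') _
  have hd1 := hdeg θ hθB hpd
  have hχ1 : (θ : G → ℂ) 1 = 1 := by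
    rw [charDegree_irr θ, hd1]
    simp
  obtain ⟨c, hc⟩ := linToIrr_bijective.2 ⟨θ, hχ1⟩
  have hχc : (θ : G → ℂ) = fun g => (c g : ℂ) := by
    have := congrArg (fun z : {χ : IrrCharacter G // (χ : G → ℂ) 1 = 1} => (z.1 : G → ℂ)) hc
    exact this.symm
  refine ⟨c, ?_⟩
  let rs : IrrCharacter (P : Subgroup G) :=
    ⟨fun x => ((c.comp (P : Subgroup G).subtype) x : ℂ), isIrrCharacter_lin _⟩
  have h6 : Cfsg.Agent.Lib.Helper35.res (P : Subgroup G) (θ : G → ℂ) = rs.1 := by
    funext h
    rw [hχc]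
    rfl
  have h5 := hn θ
  rw [h6, classInner_irr] at h5
  have h7 : rs = lam := by
    by_contra hne
    rw [if_neg hne] at h5
    exact hn0 (by exact_mod_cast h5.symm)
  intro x
  have h8 := congrArg (fun z : IrrCharacter (P : Subgroup G) => z.1 x) h7
  exact Units.ext h8

/-- Under the degree hypothesis, `P ∩ G' ≤ P'`. -/
theorem mem_commutator_sylow' {G : Type*} [Group G] [Finite G] (p : ℕ) [Fact p.Prime]
    (M : Ideal AlgInt) (hM : IsPModular p M)
    (hdeg : ∀ χ : IrrCharacter G, χ ∈ principalBlock M G →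
      ¬ p ∣ charDegree (χ : G → ℂ) → charDegree (χ : G → ℂ) = 1)
    (P : Sylow p G) (x : (P : Subgroup G))
    (hx : (x : G) ∈ commutator G) : x ∈ commutator (P : Subgroup G) := by
  by_contra hcon
  have h1 : Abelianization.of x ≠ 1 := by
    intro h
    apply hcon
    rw [← Abelianization.ker_of]
    exact h
  obtain ⟨φ, hφ⟩ := CommGroup.exists_apply_ne_one_of_hasEnoughRootsOfUnity
    (Abelianization (P : Subgroup G)) ℂ h1
  obtain ⟨χ, hχ⟩ := exists_extension' p M hM hdeg P (φ.comp Abelianization.of)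
  have h2 : χ (x : G) = 1 := by
    have := Abelianization.commutator_subset_ker χ hx
    exact this
  rw [hχ x] at h2
  exact hφ h2

theorem height_zero_iff {G : Type*} [Group G] [Finite G] (p : ℕ) [Fact p.Prime]
    (M : Ideal AlgInt) (hM : IsPModular p M) (χ : IrrCharacter G) :
    blockHeight p (principalBlock M G) (χ : G → ℂ) = 0 ↔ ¬ p ∣ charDegree (χ : G → ℂ) := by
  have hp := (Fact.out : p.Prime)
  set τ := Cfsg.Agent.Lib.Helper83.trivIrr G with hτ
  have hτB : τ ∈ principalBlock M G := Cfsg.Agent.Lib.Helper79.trivIrr_mem_principalBlock hM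
  have hτdeg : charDegree (τ : G → ℂ) = 1 := by
    have h := (Cfsg.Agent.Lib.Helper83.irr_degree τ.2).2
    have h1 : (τ : G → ℂ) 1 = 1 := rfl
    rw [h1] at h
    exact_mod_cast h.symm
  have hinf : sInf ((fun ψ : IrrCharacter G => (charDegree (ψ : G → ℂ)).factorization p) ''
      (principalBlock M G)) = 0 := by
    have hmem : (0 : ℕ) ∈ ((fun ψ : IrrCharacter G => (charDegree (ψ : G → ℂ)).factorization p) ''
        (principalBlock M G)) := by
      refine ⟨τ, hτB, ?_⟩
      show (charDegree (τ : G → ℂ)).factorization p = 0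
      rw [hτdeg, Nat.factorization_one]
      rfl
    exact Nat.eq_zero_of_le_zero (Nat.sInf_le hmem)
  unfold blockHeight
  rw [hinf, Nat.sub_zero]
  have hpos := (Cfsg.Agent.Lib.Helper83.irr_degree χ.2).1
  rw [Nat.factorization_eq_zero_iff]
  constructor
  · rintro (h | h | h)
    · exact absurd hp h
    · exact h
    · omega
  · intro h
    exact Or.inr (Or.inl h)

/-- Let G be a finite group, p a prime and M a maximal ideal of the algebraic integers containing p. Then all height-zero irreducible characters of the principal p-block of G (equivalently, all its characters of degree prime to p) have the same degree if and only if G has a normal p-complement. -/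
theorem result {G : Type*} [Group G] [Finite G] (p : ℕ) [Fact p.Prime] (M : Ideal Cfsg.AlgInt) (hM : Cfsg.IsPModular p M) : (∃ d : ℕ, ∀ χ : Cfsg.IrrCharacter G, χ ∈ (Cfsg.principalBlock M G) → Cfsg.blockHeight p (Cfsg.principalBlock M G) (χ : G → ℂ) = 0 → Cfsg.charDegree (χ : G → ℂ) = d) ↔ Cfsg.HasNormalPComplement p G := by
  have hp := (Fact.out : p.Prime)
  constructor
  · rintro ⟨d, hd⟩
    set τ := Cfsg.Agent.Lib.Helper83.trivIrr G with hτ
    have hτB : τ ∈ principalBlock M G := Cfsg.Agent.Lib.Helper79.trivIrr_mem_principalBlock hM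
    have hτdeg : charDegree (τ : G → ℂ) = 1 := by
      have h := (Cfsg.Agent.Lib.Helper83.irr_degree τ.2).2
      have h1 : (τ : G → ℂ) 1 = 1 := rfl
      rw [h1] at h
      exact_mod_cast h.symm
    have hd1 : d = 1 := by
      rw [← hτdeg]
      refine (hd τ hτB ?_).symm
      rw [height_zero_iff p M hM, hτdeg]
      exact hp.not_dvd_one
    have hdeg : ∀ χ : IrrCharacter G, χ ∈ principalBlock M G →
        ¬ p ∣ charDegree (χ : G → ℂ) → charDegree (χ : G → ℂ) = 1 := by
      intro χ hχ hnd
      rw [← hd1]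
      exact hd χ hχ ((height_zero_iff p M hM χ).mpr hnd)
    let P : Sylow p G := default
    have hfr : ∀ x : (P : Subgroup G), (x : G) ∈ Cfsg.pResidual p G →
        x ∈ frattini (P : Subgroup G) := by
      intro x hx
      obtain ⟨k, hk⟩ := P.isPGroup' x
      have hk' : (x : G) ^ p ^ k = 1 := by
        have := congrArg Subtype.val hk
        simpa using this
      exact Cfsg.Agent.Lib.Helper3.comm_le_frattini P.isPGroup'
        (mem_commutator_sylow' p M hM hdeg P x
          (Cfsg.Agent.Lib.Helper2.mem_commutator_of_mem_pResidual (x : G) hx k hk'))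
    have hbot := Cfsg.Agent.Lib.Helper2.tate_frattini P hfr
    have hN : (Cfsg.pResidual p G).Normal := Cfsg.Agent.Lib.Helper2.pResidual_normal p
    refine ⟨P, Cfsg.pResidual p G, hN, ?_⟩
    apply Subgroup.isComplement'_of_disjoint_and_mul_eq_univ
    · rw [disjoint_iff, inf_comm]
      exact hbot
    · have h1 := Cfsg.Agent.Lib.Helper2.sylow_sup_pResidual P
      rw [sup_comm] at h1
      rw [← Subgroup.normal_mul, h1]
      rfl
  · rintro ⟨P, N, hN, hc⟩
    refine ⟨1, ?_⟩
    intro χ hχ hht
    classical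
    let _ : Fintype G := Fintype.ofFinite G
    rw [height_zero_iff p M hM] at hht
    have hcard : Nat.card N * Nat.card (P : Subgroup G) = Nat.card G := hc.card_mul_card
    have hNidx : Nat.card N = (P : Subgroup G).index := by
      have h1 := Subgroup.card_mul_index (P : Subgroup G)
      rw [← hcard] at h1
      have h1' : Nat.card (P : Subgroup G) * (P : Subgroup G).index =
          Nat.card (P : Subgroup G) * Nat.card N := by
        rw [h1, mul_comm]
      exact (Nat.eq_of_mul_eq_mul_left Nat.card_pos h1').symm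
    have hNp : ¬ p ∣ Nat.card N := by
      rw [hNidx]
      exact P.not_dvd_index
    set τ := Cfsg.Agent.Lib.Helper83.trivIrr G with hτ
    have hsame : SameBlock M (χ : G → ℂ) (τ : G → ℂ) :=
      Cfsg.Agent.Lib.Helper79.sameBlock_symm' hM hχ
    have htriv := Cfsg.Agent.Lib.Helper81.ker_of_sameBlock hM N hNp χ τ hsame (fun n _ => rfl)
    obtain ⟨ψ, hψ⟩ := Cfsg.Agent.Lib.Helper83.exists_inflate_eq N χ htriv
    have hdeg : charDegree (χ : G → ℂ) = charDegree (ψ : G ⧸ N → ℂ) := by
      rw [← hψ]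
      exact Cfsg.Agent.Lib.Helper83.charDegree_inflate N ψ
    have hdvd : charDegree (ψ : G ⧸ N → ℂ) ∣ Nat.card (G ⧸ N) :=
      Cfsg.Agent.Lib.Helper83.irr_degree_dvd_card ψ
    have hq : Nat.card (G ⧸ N) = Nat.card (P : Subgroup G) := by
      have h1 := Subgroup.card_mul_index N
      rw [← hcard] at h1
      have h2 := Nat.eq_of_mul_eq_mul_left Nat.card_pos h1
      rw [← h2]
      rfl
    rw [hq, P.card_eq_multiplicity, ← hdeg] at hdvd
    obtain ⟨j, -, hj⟩ := (Nat.dvd_prime_pow hp).mp hdvd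
    rcases Nat.eq_zero_or_pos j with h0 | h0
    · rw [hj, h0, pow_zero]
    · exfalso
      apply hht
      rw [hj]
      exact dvd_pow_self p (by omega)

end Cfsg.Agent.S4888
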