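import Cfsg.Statements.S4736
import Cfsg.Agent.S4888
import Cfsg.Agent.S0915
import Cfsg.Agent.S4713
import Cfsg.Agent.Lib.Helper82.PrimeQuot
import Cfsg.Agent.Lib.Helper75.FrattiniAct
import Cfsg.Agent.Lib.Helper31.PComp
import Cfsg.Agent.Lib.Helper55.Basic
import Cfsg.Agent.Lib.Helper40.HallHigman

set_option autoImplicit false
open Cfsg

namespace Cfsg.Agent.S4736

/-- Let p be a prime, M a maximal ideal of the algebraic integers containing p, and G a finite p-solvable group with Sylow p-subgroup P. Then P is abelian if and only if every irreducible character in the principal p-block of G has height zero. -/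
theorem result {G : Type*} [Group G] [Finite G] (p : ℕ) [Fact p.Prime] (M : Ideal Cfsg.AlgInt) (hM : Cfsg.IsPModular p M) (hsolv : Cfsg.IsPSolvable p G) (P : Sylow p G) : IsMulCommutative P ↔ ∀ χ ∈ Cfsg.principalBlock M G, Cfsg.blockHeight p (Cfsg.principalBlock M G) (χ : G → ℂ) = 0 := by
  classical
  have hp := (Fact.out : p.Prime)
  let _ : Fintype G := Fintype.ofFinite G
  have hNn : (pPrimeCore p G).Normal := Cfsg.Agent.Lib.Helper81.pPrimeCore_normal p
  have hNc : (Nat.card (pPrimeCore p G)).Coprime p := Cfsg.Agent.Lib.Helper81.pPrimeCore_coprime p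
  let _ : Fintype (G ⧸ pPrimeCore p G) := Fintype.ofFinite _
  have hsolvQ : IsPSolvable p (G ⧸ pPrimeCore p G) :=
    Cfsg.Agent.Lib.Helper75.Fratt.isPSolvable_quotient (pPrimeCore p G) hsolv
  have hcoreQ : pPrimeCore p (G ⧸ pPrimeCore p G) = ⊥ :=
    Cfsg.Agent.Lib.Helper31.pPrimeCore_quotient_eq_bot p
  have hall : ∀ ψ : IrrCharacter (G ⧸ pPrimeCore p G),
      ψ ∈ principalBlock M (G ⧸ pPrimeCore p G) := fun ψ =>
    Cfsg.Agent.S0915.result p M hM hsolvQ hcoreQ
      (Cfsg.Agent.Lib.Helper83.trivIrr (G ⧸ pPrimeCore p G)) ψ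
  have hbij := Cfsg.Agent.Lib.Helper82.principal_bijOn_inflate hM (pPrimeCore p G) hNc
  let Pq : Sylow p (G ⧸ pPrimeCore p G) :=
    P.mapSurjective (QuotientGroup.mk'_surjective (pPrimeCore p G))
  have hPq : (Pq : Subgroup (G ⧸ pPrimeCore p G)) =
      (P : Subgroup G).map (QuotientGroup.mk' (pPrimeCore p G)) := rfl
  have hkey := Cfsg.Agent.S4713.result p hsolvQ Pq
  have hR : (∀ χ ∈ principalBlock M G,
      blockHeight p (principalBlock M G) (χ : G → ℂ) = 0) ↔
      ∀ ψ : IrrCharacter (G ⧸ pPrimeCore p G),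
        ¬ p ∣ charDegree (ψ : G ⧸ pPrimeCore p G → ℂ) := by
    constructor
    · intro h ψ
      have h1 := hbij.mapsTo (hall ψ)
      have h2 := h _ h1
      rw [Cfsg.Agent.S4888.height_zero_iff p M hM,
        Cfsg.Agent.Lib.Helper83.charDegree_inflate] at h2
      exact h2
    · intro h χ hχ
      obtain ⟨ψ, -, rfl⟩ := hbij.surjOn hχ
      rw [Cfsg.Agent.S4888.height_zero_iff p M hM,
        Cfsg.Agent.Lib.Helper83.charDegree_inflate]
      exact h ψ
  rw [hR, ← hkey]
  constructor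
  · intro hcomm
    have hPqc : IsMulCommutative (Pq : Subgroup (G ⧸ pPrimeCore p G)) := by
      rw [hPq]
      exact Subgroup.map_isMulCommutative _ _
    refine ⟨?_, hPqc⟩
    have hHH := Cfsg.Agent.Lib.Helper40.centralizer_pCore_le hsolvQ hcoreQ
    have hle : pCore p (G ⧸ pPrimeCore p G) ≤ Pq := Cfsg.Agent.Lib.Helper55.pCore_le_sylow Pq
    have hPle : (Pq : Subgroup (G ⧸ pPrimeCore p G)) ≤ pCore p (G ⧸ pPrimeCore p G) := by
      refine le_trans ?_ hHH
      intro x hx
      rw [Subgroup.mem_centralizer_iff]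
      intro y hy
      exact Subgroup.mul_comm_of_mem_isMulCommutative (H := (Pq : Subgroup (G ⧸ pPrimeCore p G)))
        (hle hy) hx
    have heq : (Pq : Subgroup (G ⧸ pPrimeCore p G)) = pCore p (G ⧸ pPrimeCore p G) :=
      le_antisymm hPle hle
    rw [heq]
    exact Cfsg.Agent.Lib.Helper40.pCore_normal' p
  · rintro ⟨-, hPqc⟩
    have hinf : (P : Subgroup G) ⊓ pPrimeCore p G = ⊥ := by
      apply Subgroup.inf_eq_bot_of_coprime
      rw [P.card_eq_multiplicity]
      exact Nat.Coprime.pow_left _ hNc.symm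
    apply IsMulCommutative.of_comm
    intro x y
    have hx : QuotientGroup.mk' (pPrimeCore p G) (x : G) ∈ (Pq : Subgroup (G ⧸ pPrimeCore p G)) := by
      rw [hPq]
      exact Subgroup.mem_map_of_mem _ x.2
    have hy : QuotientGroup.mk' (pPrimeCore p G) (y : G) ∈ (Pq : Subgroup (G ⧸ pPrimeCore p G)) := by
      rw [hPq]
      exact Subgroup.mem_map_of_mem _ y.2
    have h1 := Subgroup.mul_comm_of_mem_isMulCommutative
      (H := (Pq : Subgroup (G ⧸ pPrimeCore p G))) hx hy
    rw [← map_mul, ← map_mul] at h1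
    have h2 : ((y : G) * (x : G))⁻¹ * ((x : G) * (y : G)) ∈ pPrimeCore p G := by
      rw [← QuotientGroup.eq]
      exact h1.symm
    have h3 : ((y : G) * (x : G))⁻¹ * ((x : G) * (y : G)) ∈ (P : Subgroup G) :=
      (P : Subgroup G).mul_mem ((P : Subgroup G).inv_mem ((P : Subgroup G).mul_mem y.2 x.2))
        ((P : Subgroup G).mul_mem x.2 y.2)
    have h4 : ((y : G) * (x : G))⁻¹ * ((x : G) * (y : G)) ∈ (P : Subgroup G) ⊓ pPrimeCore p G :=
      ⟨h3, h2⟩
    rw [hinf, Subgroup.mem_bot] at h4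
    apply Subtype.ext
    exact (inv_mul_eq_one.mp h4).symm

end Cfsg.Agent.S4736
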