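import Mathlib
import Cfsg.Statements.S4743
import Cfsg.Agent.S4742

set_option autoImplicit false
open Cfsg

namespace Cfsg.Agent.S4743

theorem normal_dvd {G : Type*} [Group G] [Finite G] (p q : ℕ) [Fact p.Prime] [Fact q.Prime]
    (h : ∀ z : G, z ≠ 1 → (∃ k : ℕ, orderOf z = q ^ k) → ∃ g h : G, IsConj z g ∧ IsConj z h ∧
      g * h⁻¹ ≠ 1 ∧ ∃ k : ℕ, orderOf (g * h⁻¹) = p ^ k)
    (N : Subgroup G) (hN : N.Normal) (hq : q ∣ Nat.card N) : p ∣ Nat.card N := by
  have hqp : q.Prime := Fact.out
  obtain ⟨z, hz⟩ := exists_prime_orderOf_dvd_card' (G := N) q hq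
  have hz1 : (z : G) ≠ 1 := by
    intro h1
    have : z = 1 := Subtype.ext h1
    rw [this, orderOf_one] at hz
    exact hqp.one_lt.ne hz
  have hzo : orderOf (z : G) = q := by rw [Subgroup.orderOf_coe]; exact hz
  obtain ⟨g, h', hg, hh, hne, k, hk⟩ := h (z : G) hz1 ⟨1, by rw [hzo, pow_one]⟩
  have hmem : ∀ g : G, IsConj (z : G) g → g ∈ N := by
    intro g hg
    obtain ⟨c, hc⟩ := isConj_iff.mp hg
    rw [← hc]
    exact hN.conj_mem _ z.2 c
  have hgh : g * h'⁻¹ ∈ N := N.mul_mem (hmem g hg) (N.inv_mem (hmem h' hh))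
  have hk0 : k ≠ 0 := by
    rintro rfl
    rw [pow_zero, orderOf_eq_one_iff] at hk
    exact hne hk
  have h1 : p ∣ orderOf (g * h'⁻¹) := by rw [hk]; exact dvd_pow_self p hk0
  have h2 : orderOf (g * h'⁻¹) ∣ Nat.card N := by
    have := orderOf_dvd_natCard (⟨g * h'⁻¹, hgh⟩ : N)
    rwa [← Subgroup.orderOf_coe] at this
  exact h1.trans h2

theorem chain_contra {G : Type*} [Group G] [Finite G] (p q : ℕ) [Fact p.Prime] [Fact q.Prime]
    (hppq : p ≠ q) (hpG : p ∣ Nat.card G)
    (hpq : ∀ N : Subgroup G, N.Normal → (p ∣ Nat.card N ↔ q ∣ Nat.card N))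
    (hsolv : Cfsg.IsPSolvable p G ∨ Cfsg.IsPSolvable q G) : False := by
  have hp : p.Prime := Fact.out
  have hq : q.Prime := Fact.out
  have main : ∀ (n : ℕ) (H : Fin (n + 1) → Subgroup G), H 0 = ⊥ → H (Fin.last n) = ⊤ →
      Monotone H → (∀ i, (H i).Normal) →
      (∀ i : Fin n, ¬ (p ∣ (H i.castSucc).relIndex (H i.succ) ∧
        q ∣ (H i.castSucc).relIndex (H i.succ))) → False := by
    intro n H h0 hlast hmono hnorm hstep
    have key : ∀ i : Fin (n + 1), ¬ p ∣ Nat.card (H i) := by
      intro i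
      induction i using Fin.induction with
      | zero =>
        rw [h0, Subgroup.card_bot]
        exact hp.one_lt.ne' ∘ Nat.dvd_one.mp
      | succ i ih =>
        intro hdvd
        have hle : H i.castSucc ≤ H i.succ := hmono (Fin.castSucc_lt_succ (i := i)).le
        have hcard : (H i.castSucc).relIndex (H i.succ) * Nat.card (H i.castSucc)
            = Nat.card (H i.succ) := by
          have h1 := Subgroup.card_mul_index ((H i.castSucc).subgroupOf (H i.succ))
          have h2 : Nat.card ((H i.castSucc).subgroupOf (H i.succ)) = Nat.card (H i.castSucc) :=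
            Nat.card_congr (Subgroup.subgroupOfEquivOfLe hle).toEquiv
          rw [h2] at h1
          rw [← h1, mul_comm]
          rfl
        have hq1 : ¬ q ∣ Nat.card (H i.castSucc) := fun h => ih ((hpq _ (hnorm _)).mpr h)
        have hq2 : q ∣ Nat.card (H i.succ) := (hpq _ (hnorm _)).mp hdvd
        apply hstep i
        constructor
        · rw [← hcard] at hdvd
          exact (hp.dvd_mul.mp hdvd).resolve_right ih
        · rw [← hcard] at hq2
          exact (hq.dvd_mul.mp hq2).resolve_right hq1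
    apply key (Fin.last n)
    rw [hlast, Subgroup.card_top]
    exact hpG
  rcases hsolv with ⟨n, H, h0, hlast, hmono, hnorm, hstep⟩ | ⟨n, H, h0, hlast, hmono, hnorm, hstep⟩
  · apply main n H h0 hlast hmono hnorm
    rintro i ⟨h1, h2⟩
    rcases hstep i with ⟨m, hm⟩ | hcop
    · rw [hm] at h2
      exact hppq ((Nat.prime_dvd_prime_iff_eq hq hp).mp (hq.dvd_of_dvd_pow h2)).symm
    · exact hp.one_lt.ne' (hcop.symm.eq_one_of_dvd h1)
  · apply main n H h0 hlast hmono hnorm
    rintro i ⟨h1, h2⟩
    rcases hstep i with ⟨m, hm⟩ | hcop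
    · rw [hm] at h1
      exact hppq ((Nat.prime_dvd_prime_iff_eq hp hq).mp (hp.dvd_of_dvd_pow h1))
    · exact hq.one_lt.ne' (hcop.symm.eq_one_of_dvd h2)

/-- Let p ≠ q be primes dividing the order of the finite group G, suppose the centralizer of every non-identity p-element has order prime to q, and suppose G is p-solvable or q-solvable. Then G has an irreducible character of p-defect zero or an irreducible character of q-defect zero. -/
theorem result {G : Type*} [Group G] [Finite G] (p q : ℕ) [Fact p.Prime] [Fact q.Prime] (hppq : p ≠ q) (hpG : p ∣ Nat.card G) (hqG : q ∣ Nat.card G) (hC : ∀ g : G, g ≠ 1 → (∃ k : ℕ, orderOf g = p ^ k) → ¬ q ∣ Nat.card ↥(Subgroup.centralizer ({g} : Set G))) (hsolv : Cfsg.IsPSolvable p G ∨ Cfsg.IsPSolvable q G) : (∃ χ : Cfsg.IrrCharacter G, (Cfsg.charDegree (χ : G → ℂ)).factorization p = (Nat.card G).factorization p) ∨ (∃ χ : Cfsg.IrrCharacter G, (Cfsg.charDegree (χ : G → ℂ)).factorization q = (Nat.card G).factorization q) := by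
  have hp : p.Prime := Fact.out
  have hq : q.Prime := Fact.out
  by_contra hcon
  rw [not_or] at hcon
  obtain ⟨hcp, hcq⟩ := hcon
  -- the symmetric centralizer hypothesis
  have hC' : ∀ g : G, g ≠ 1 → (∃ k : ℕ, orderOf g = q ^ k) →
      ¬ p ∣ Nat.card ↥(Subgroup.centralizer ({g} : Set G)) := by
    intro z hz1 ⟨k, hk⟩ hdvd
    obtain ⟨y, hy⟩ := exists_prime_orderOf_dvd_card' (G := Subgroup.centralizer ({z} : Set G)) p hdvd
    have hy1 : (y : G) ≠ 1 := by
      intro h
      have : y = 1 := Subtype.ext h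
      rw [this, orderOf_one] at hy
      exact hp.one_lt.ne hy
    have hyo : orderOf (y : G) = p := by rw [Subgroup.orderOf_coe]; exact hy
    have hzy : z ∈ Subgroup.centralizer ({(y : G)} : Set G) := by
      rw [Subgroup.mem_centralizer_iff]
      intro h hh
      rw [Set.mem_singleton_iff] at hh
      subst hh
      have := Subgroup.mem_centralizer_iff.mp y.2 z (Set.mem_singleton z)
      exact this.symm
    apply hC (y : G) hy1 ⟨1, by rw [hyo, pow_one]⟩
    have hk0 : k ≠ 0 := by
      rintro rfl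
      rw [pow_zero, orderOf_eq_one_iff] at hk
      exact hz1 hk
    have h1 : q ∣ orderOf z := by rw [hk]; exact dvd_pow_self q hk0
    have h2 : orderOf z ∣ Nat.card (Subgroup.centralizer ({(y : G)} : Set G)) := by
      have := orderOf_dvd_natCard (⟨z, hzy⟩ : Subgroup.centralizer ({(y : G)} : Set G))
      rwa [← Subgroup.orderOf_coe] at this
    exact h1.trans h2
  have h1 := (Cfsg.Agent.S4742.result p q hppq hpG hqG hC).resolve_left hcp
  have h2 := (Cfsg.Agent.S4742.result q p hppq.symm hqG hpG hC').resolve_left hcq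
  apply chain_contra p q hppq hpG _ hsolv
  intro N hN
  exact ⟨fun h => normal_dvd q p h2 N hN h, fun h => normal_dvd p q h1 N hN h⟩

end Cfsg.Agent.S4743
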