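import Cfsg.Statements.S4746
-- import your own Cfsg.Agent.* helpers here
import Cfsg.Agent.S4744
import Cfsg.Agent.Lib.Helper22.Local
import Cfsg.Agent.Lib.Helper4.CharExp2
import Cfsg.Agent.Lib.Helper4.CharSimple
import Cfsg.Agent.Lib.Helper82.PQ
import Cfsg.Agent.Lib.Helper83.IrrBasic

set_option autoImplicit false
open Cfsg

namespace Cfsg.Agent.S4746

open Cfsg.Agent.Lib
open scoped ComplexConjugate

/-- A finite group with a real element `x ≠ 1` whose centralizer has odd order has an irreducible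
character of even degree. -/
theorem even_degree_of_real {G : Type*} [Group G] [Finite G] (x t : G) (hx1 : x ≠ 1)
    (hreal : t * x * t⁻¹ = x⁻¹)
    (hodd : Odd (Nat.card (Subgroup.centralizer ({x} : Set G)))) :
    ∃ χ : IrrCharacter G, Even (charDegree (χ : G → ℂ)) := by
  classical
  cases nonempty_fintype G
  haveI := Helper4.irr_finite (G := G)
  letI := Fintype.ofFinite (IrrCharacter G)
  by_contra hcon
  push_neg at hcon
  obtain ⟨M, hM⟩ := Helper82.exists_isPModular 2
  haveI : M.IsPrime := Helper22.isPrime_of_isPModular hM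
  have hre : ∀ χ : IrrCharacter G, conj ((χ : G → ℂ) x) = (χ : G → ℂ) x := by
    intro χ
    rw [← Helper4.irr_inv χ x, ← hreal, Helper4.isClassFunction_irr χ x t]
  have h1 : ∑ χ : IrrCharacter G, (χ : G → ℂ) x * (χ : G → ℂ) x =
      (Nat.card (Subgroup.centralizer ({x} : Set G)) : ℂ) := by
    have h := Helper4.col_orth x x
    rw [if_pos (IsConj.refl x)] at h
    rw [← h]
    exact Finset.sum_congr rfl fun χ _ => by rw [hre χ]
  have h2 : ∑ χ : IrrCharacter G, (χ : G → ℂ) x * (χ : G → ℂ) 1 = 0 := by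
    rw [Helper4.col_orth_one x, if_neg hx1]
  have h2M : MemLocalIdeal M (2 : ℂ) := by
    have := Helper22.memLocalIdeal_prime hM
    simpa using this
  have hA : MemLocalIdeal M (∑ χ : IrrCharacter G, (χ : G → ℂ) x) := by
    have h3 : ∑ χ : IrrCharacter G, (χ : G → ℂ) x =
        - ∑ χ : IrrCharacter G, (χ : G → ℂ) x * ((χ : G → ℂ) 1 - 1) := by
      have h3' : ∑ χ : IrrCharacter G, (χ : G → ℂ) x * ((χ : G → ℂ) 1 - 1) =
          ∑ χ : IrrCharacter G, (χ : G → ℂ) x * (χ : G → ℂ) 1 -
            ∑ χ : IrrCharacter G, (χ : G → ℂ) x := by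
        rw [← Finset.sum_sub_distrib]
        exact Finset.sum_congr rfl fun χ _ => by ring
      rw [h3', h2]; ring
    rw [h3]
    apply Helper22.memLocalIdeal_neg
    apply Helper22.memLocalIdeal_sum
    intro χ _
    apply Helper22.memLocalIdeal_mul_left
      (Helper22.memLocalRing_of_isIntegral (Helper4.irr_isIntegral χ x))
    obtain ⟨hd0, hd⟩ := Helper83.irr_degree χ.2
    rw [hd]
    obtain ⟨m, hm⟩ := Nat.not_even_iff_odd.mp (hcon χ)
    have h4 : ((charDegree (χ : G → ℂ) : ℕ) : ℂ) - 1 = ((2 * m : ℕ) : ℂ) := by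
      rw [hm]; push_cast; ring
    rw [h4]
    exact (Helper22.memLocalIdeal_natCast_iff hM _).mpr ⟨m, rfl⟩
  have hsq : ∀ s : Finset (IrrCharacter G), MemLocalIdeal M
      ((∑ χ ∈ s, (χ : G → ℂ) x) * (∑ χ ∈ s, (χ : G → ℂ) x) -
        ∑ χ ∈ s, (χ : G → ℂ) x * (χ : G → ℂ) x) := by
    intro s
    induction s using Finset.induction_on with
    | empty => simpa using Helper22.memLocalIdeal_zero (M := M)
    | insert a s ha ih =>
      rw [Finset.sum_insert ha, Finset.sum_insert ha]
      have h5 : ((a : G → ℂ) x + ∑ χ ∈ s, (χ : G → ℂ) x) *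
            ((a : G → ℂ) x + ∑ χ ∈ s, (χ : G → ℂ) x) -
            ((a : G → ℂ) x * (a : G → ℂ) x + ∑ χ ∈ s, (χ : G → ℂ) x * (χ : G → ℂ) x) =
          ((∑ χ ∈ s, (χ : G → ℂ) x) * (∑ χ ∈ s, (χ : G → ℂ) x) -
            ∑ χ ∈ s, (χ : G → ℂ) x * (χ : G → ℂ) x) +
          (2 : ℂ) * ((a : G → ℂ) x * ∑ χ ∈ s, (χ : G → ℂ) x) := by ring
      rw [h5]
      apply Helper22.memLocalIdeal_add ih
      apply Helper22.memLocalIdeal_mul_right h2M
      exact Helper22.memLocalRing_mul
        (Helper22.memLocalRing_of_isIntegral (Helper4.irr_isIntegral a x))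
        (Helper22.memLocalRing_sum _ _ fun χ _ =>
          Helper22.memLocalRing_of_isIntegral (Helper4.irr_isIntegral χ x))
  have h6 := hsq Finset.univ
  rw [h1] at h6
  have h7 : MemLocalIdeal M ((Nat.card (Subgroup.centralizer ({x} : Set G)) : ℂ)) := by
    have h8 := Helper22.memLocalIdeal_sub
      (Helper22.memLocalIdeal_mul_right hA (Helper22.MemLocalIdeal.memLocalRing hA)) h6
    have h9 : (∑ χ : IrrCharacter G, (χ : G → ℂ) x) * (∑ χ : IrrCharacter G, (χ : G → ℂ) x) -
        ((∑ χ : IrrCharacter G, (χ : G → ℂ) x) * (∑ χ : IrrCharacter G, (χ : G → ℂ) x) -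
          (Nat.card (Subgroup.centralizer ({x} : Set G)) : ℂ)) =
        (Nat.card (Subgroup.centralizer ({x} : Set G)) : ℂ) := by ring
    rwa [h9] at h8
  have h10 := (Helper22.memLocalIdeal_natCast_iff hM _).mp h7
  exact (Nat.not_even_iff_odd.mpr hodd) (even_iff_two_dvd.mpr h10)

/-- Let p be an odd prime and G a finite group of even order divisible by p in which the centralizer of every non-identity p-element has odd order. Then G has an irreducible character of p-defect zero or an irreducible character of even degree. -/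
theorem result {G : Type*} [Group G] [Finite G] (p : ℕ) [Fact p.Prime] (hp2 : p ≠ 2) (hpG : p ∣ Nat.card G) (h2G : 2 ∣ Nat.card G) (hC : ∀ g : G, g ≠ 1 → (∃ k : ℕ, orderOf g = p ^ k) → Odd (Nat.card ↥(Subgroup.centralizer ({g} : Set G)))) : (∃ χ : Cfsg.IrrCharacter G, (Cfsg.charDegree (χ : G → ℂ)).factorization p = (Nat.card G).factorization p) ∨ ∃ χ : Cfsg.IrrCharacter G, Even (Cfsg.charDegree (χ : G → ℂ)) := by
  classical
  have hp : p.Prime := Fact.out
  by_cases hdz : ∃ χ : Cfsg.IrrCharacter G,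
      (Cfsg.charDegree (χ : G → ℂ)).factorization p = (Nat.card G).factorization p
  · exact Or.inl hdz
  · right
    have h44 := (Cfsg.Agent.S4744.result p hp2 hpG h2G hC).resolve_left hdz
    obtain ⟨P⟩ : Nonempty (Sylow p G) := inferInstance
    obtain ⟨hev, -⟩ := h44 P
    haveI : Fact (Nat.Prime 2) := ⟨Nat.prime_two⟩
    obtain ⟨t, ht⟩ := exists_prime_orderOf_dvd_card' 2 (even_iff_two_dvd.mp hev)
    have htG : orderOf (t : G) = 2 := by rw [Subgroup.orderOf_coe]; exact ht
    have ht2 : (t : G) * (t : G) = 1 := by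
      have := pow_orderOf_eq_one (t : G)
      rwa [htG, pow_two] at this
    have hP1 : (P : Subgroup G) ≠ ⊥ := P.ne_bot_of_dvd_card hpG
    obtain ⟨a, ha1⟩ := (Subgroup.ne_bot_iff_exists_ne_one).mp hP1
    have hy1 : (a : G) ≠ 1 := fun h => ha1 (Subtype.ext h)
    have hpel : ∀ z : G, z ∈ (P : Subgroup G) → ∃ k : ℕ, orderOf z = p ^ k := by
      intro z hz
      obtain ⟨k, hk⟩ := (IsPGroup.iff_orderOf.mp P.isPGroup') ⟨z, hz⟩
      exact ⟨k, by rw [← hk]; exact Subgroup.orderOf_coe (⟨z, hz⟩ : (P : Subgroup G))⟩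
    -- `t` does not commute with `a`
    have hnc : (t : G) * (a : G) * (t : G)⁻¹ ≠ (a : G) := by
      intro hcomm
      have hmem : (t : G) ∈ Subgroup.centralizer ({(a : G)} : Set G) := by
        rw [Subgroup.mem_centralizer_iff]
        intro u hu
        rw [Set.mem_singleton_iff] at hu
        rw [hu]
        have := congrArg (fun z => z * (t : G)) hcomm
        simpa [mul_assoc] using this.symm
      have hdvd := Subgroup.orderOf_dvd_natCard _ hmem
      rw [htG] at hdvd
      exact (Nat.not_even_iff_odd.mpr (hC (a : G) hy1 (hpel _ a.2))) (even_iff_two_dvd.mpr hdvd)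
    have hconjP : (t : G) * (a : G) * (t : G)⁻¹ ∈ (P : Subgroup G) :=
      (Subgroup.mem_normalizer_iff.mp t.2 (a : G)).mp a.2
    have hxP : (a : G)⁻¹ * ((t : G) * (a : G) * (t : G)⁻¹) ∈ (P : Subgroup G) :=
      Subgroup.mul_mem _ (Subgroup.inv_mem _ a.2) hconjP
    have hx1 : (a : G)⁻¹ * ((t : G) * (a : G) * (t : G)⁻¹) ≠ 1 := by
      intro h
      apply hnc
      have := congrArg (fun z => (a : G) * z) h
      simpa [mul_assoc] using this
    have hreal : (t : G) * ((a : G)⁻¹ * ((t : G) * (a : G) * (t : G)⁻¹)) * (t : G)⁻¹ =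
        ((a : G)⁻¹ * ((t : G) * (a : G) * (t : G)⁻¹))⁻¹ := by
      have e1 : (t : G)⁻¹ = (t : G) := inv_eq_of_mul_eq_one_left ht2
      rw [e1]
      have e2 : ((a : G)⁻¹ * ((t : G) * (a : G) * (t : G)))⁻¹ =
          (t : G) * (a : G)⁻¹ * (t : G) * (a : G) := by
        rw [mul_inv_rev, mul_inv_rev, mul_inv_rev, inv_inv, e1]
        simp only [mul_assoc]
      rw [e2]
      calc (t : G) * ((a : G)⁻¹ * ((t : G) * (a : G) * (t : G))) * (t : G)
          = (t : G) * (a : G)⁻¹ * (t : G) * (a : G) * ((t : G) * (t : G)) := by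
            simp only [mul_assoc]
        _ = (t : G) * (a : G)⁻¹ * (t : G) * (a : G) := by rw [ht2, mul_one]
    exact even_degree_of_real _ (t : G) hx1 hreal (hC _ hx1 (hpel _ hxP))

end Cfsg.Agent.S4746
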