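import Cfsg.Statements.S4754
import Mathlib
import Cfsg.Agent.Lib.Helper83.Schur

set_option autoImplicit false
open Cfsg

namespace Cfsg.Agent.S4754

open Cfsg.Agent.Lib.Helper83

/-- For elements x, y of a finite group G, the conjugacy class of x y equals the set of all products of a conjugate of x with a conjugate of y if and only if χ(1) χ(a x a⁻¹ b y b⁻¹) = χ(x) χ(y) for all a, b ∈ G and every irreducible character χ. -/
theorem result {G : Type*} [Group G] [Finite G] (x y : G) : (∀ z : G, IsConj (x * y) z ↔ ∃ a b : G, z = a * x * a⁻¹ * (b * y * b⁻¹)) ↔ ∀ (a b : G) (χ : Cfsg.IrrCharacter G), (χ : G → ℂ) 1 * (χ : G → ℂ) (a * x * a⁻¹ * (b * y * b⁻¹)) = (χ : G → ℂ) x * (χ : G → ℂ) y := by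
  classical
  have := Fintype.ofFinite G
  have hGne : (Nat.card G : ℂ) ≠ 0 := by
    have : 0 < Nat.card G := Nat.card_pos
    exact_mod_cast this.ne'
  constructor
  · intro H a b χ
    have hz : IsConj (x * y) (a * x * a⁻¹ * (b * y * b⁻¹)) := (H _).mpr ⟨a, b, rfl⟩
    rw [← irr_isConj χ.2 hz]
    have havg := irr_avg_conj χ.2 x y
    have hconst : ∀ g : G, (χ : G → ℂ) (x * (g * y * g⁻¹)) = (χ : G → ℂ) (x * y) := by
      intro g
      have : IsConj (x * y) (x * (g * y * g⁻¹)) := (H _).mpr ⟨1, g, by group⟩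
      exact (irr_isConj χ.2 this).symm
    simp only [hconst, Finset.sum_const, Finset.card_univ, nsmul_eq_mul,
      ← Nat.card_eq_fintype_card] at havg
    have h2 : (Nat.card G : ℂ) * ((χ : G → ℂ) 1 * (χ : G → ℂ) (x * y)) =
        (Nat.card G : ℂ) * ((χ : G → ℂ) x * (χ : G → ℂ) y) := by
      rw [← mul_assoc _ ((χ : G → ℂ) x), ← havg]; ring
    exact mul_left_cancel₀ hGne h2
  · intro K z
    constructor
    · intro hz
      obtain ⟨c, hc⟩ := isConj_iff.mp hz
      exact ⟨c, c, by rw [← hc]; group⟩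
    · rintro ⟨a, b, rfl⟩
      apply irr_separates
      intro χ
      have h1 := K a b χ
      have h2 := K 1 1 χ
      simp only [one_mul, inv_one, mul_one] at h2
      have h3 : (χ : G → ℂ) 1 * (χ : G → ℂ) (x * y) =
          (χ : G → ℂ) 1 * (χ : G → ℂ) (a * x * a⁻¹ * (b * y * b⁻¹)) := by
        rw [h1, h2]
      exact mul_left_cancel₀ (irr_one_ne_zero χ.2) h3

end Cfsg.Agent.S4754
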