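import Cfsg.Statements.S4755
import Mathlib
import Cfsg.Agent.Lib.Helper83.LinearCount

set_option autoImplicit false
open Cfsg

namespace Cfsg.Agent.S4755

open Cfsg.Agent.Lib.Helper83
open scoped ComplexConjugate

/-- Let x, y be non-identity elements of the finite group G such that χ(x' y') = χ(x') χ(y') for all conjugates x' of x, y' of y and every irreducible character χ. Then the conjugacy class of x y is the set of all products of a conjugate of x with a conjugate of y; every irreducible character of degree greater than 1 vanishes at x y; and the conjugacy class of x y is the coset of the commutator subgroup containing x y. -/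
theorem result {G : Type*} [Group G] [Finite G] (x y : G) (hx : x ≠ 1) (hy : y ≠ 1) (h : ∀ (a b : G) (χ : Cfsg.IrrCharacter G), (χ : G → ℂ) (a * x * a⁻¹ * (b * y * b⁻¹)) = (χ : G → ℂ) (a * x * a⁻¹) * (χ : G → ℂ) (b * y * b⁻¹)) : (∀ z : G, IsConj (x * y) z ↔ ∃ a b : G, z = a * x * a⁻¹ * (b * y * b⁻¹)) ∧ (∀ χ : Cfsg.IrrCharacter G, (χ : G → ℂ) 1 ≠ 1 → (χ : G → ℂ) (x * y) = 0) ∧ (∀ z : G, IsConj (x * y) z ↔ (x * y)⁻¹ * z ∈ commutator G) := by
  classical
  have := Fintype.ofFinite G
  have := Fintype.ofFinite (IrrCharacter G)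
  have hGne : (Nat.card G : ℂ) ≠ 0 := by
    have : 0 < Nat.card G := Nat.card_pos
    exact_mod_cast this.ne'
  -- Step 0
  have h0 : ∀ (a b : G) (χ : IrrCharacter G),
      (χ : G → ℂ) (a * x * a⁻¹ * (b * y * b⁻¹)) = (χ : G → ℂ) x * (χ : G → ℂ) y := by
    intro a b χ
    rw [h a b χ, irr_classFunction χ.2, irr_classFunction χ.2]
  have hxy : ∀ χ : IrrCharacter G, (χ : G → ℂ) (x * y) = (χ : G → ℂ) x * (χ : G → ℂ) y := by
    intro χ
    have := h0 1 1 χ
    simpa using this
  -- Step 1
  have h1 : ∀ χ : IrrCharacter G, (χ : G → ℂ) 1 ≠ 1 → (χ : G → ℂ) x * (χ : G → ℂ) y = 0 := by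
    intro χ hχ
    have havg := irr_avg_conj χ.2 x y
    have hconst : ∀ g : G, (χ : G → ℂ) (x * (g * y * g⁻¹)) = (χ : G → ℂ) x * (χ : G → ℂ) y := by
      intro g
      have := h0 1 g χ
      simpa using this
    simp only [hconst, Finset.sum_const, Finset.card_univ, nsmul_eq_mul,
      ← Nat.card_eq_fintype_card] at havg
    have h2 : (Nat.card G : ℂ) * ((χ : G → ℂ) x * (χ : G → ℂ) y) * ((χ : G → ℂ) 1 - 1) = 0 := by
      linear_combination havg
    rcases mul_eq_zero.mp h2 with h3 | h3
    · rcases mul_eq_zero.mp h3 with h4 | h4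
      · exact absurd h4 hGne
      · exact h4
    · exact absurd (sub_eq_zero.mp h3) hχ
  have h2 : ∀ χ : IrrCharacter G, (χ : G → ℂ) 1 ≠ 1 → (χ : G → ℂ) (x * y) = 0 := by
    intro χ hχ
    rw [hxy, h1 χ hχ]
  -- forward direction of the third claim
  have hfwd : ∀ z : G, IsConj (x * y) z → (x * y)⁻¹ * z ∈ commutator G := by
    intro z hz
    obtain ⟨c, hc⟩ := isConj_iff.mp hz
    rw [← hc, commutator_def]
    have := Subgroup.commutator_mem_commutator (Subgroup.mem_top ((x * y)⁻¹))
      (Subgroup.mem_top c)
    rw [commutatorElement_def] at this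
    simpa [mul_assoc] using this
  -- counting
  have hcard1 := card_conj_mul_card_centralizer (x * y)
  have hcol := column_orthogonality_conj (G := G) (IsConj.refl (x * y))
  have hterm : ∀ χ : IrrCharacter G, (χ : G → ℂ) (x * y) * conj ((χ : G → ℂ) (x * y)) =
      if (χ : G → ℂ) 1 = 1 then 1 else 0 := by
    intro χ
    split_ifs with hχ
    · rw [Complex.mul_conj, Complex.normSq_eq_norm_sq, irr_linear_norm χ.2 hχ]
      simp
    · rw [h2 χ hχ]; simp
  simp only [hterm] at hcol
  rw [← Finset.sum_filter, Finset.sum_const, nsmul_eq_mul, mul_one] at hcol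
  have hlin : (Finset.univ.filter (fun χ : IrrCharacter G => (χ : G → ℂ) 1 = 1)).card =
      (commutator G).index := by
    rw [← card_linear, Nat.card_eq_fintype_card, Fintype.card_subtype]
  have hcent : Nat.card (Subgroup.centralizer ({x * y} : Set G)) = (commutator G).index := by
    rw [← hlin]
    exact_mod_cast hcol.symm
  rw [hcent] at hcard1
  have hcard2 := Subgroup.card_mul_index (commutator G)
  have hidx : 0 < (commutator G).index := by
    rcases Nat.eq_zero_or_pos (commutator G).index with h | h
    · rw [h, mul_zero] at hcard2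
      have : 0 < Nat.card G := Nat.card_pos
      omega
    · exact h
  have hcl : Nat.card {z : G // IsConj (x * y) z} = Nat.card (commutator G) := by
    have : Nat.card {z : G // IsConj (x * y) z} * (commutator G).index =
        Nat.card (commutator G) * (commutator G).index := by
      rw [hcard1, hcard2]
    exact Nat.eq_of_mul_eq_mul_right hidx this
  have hT : Nat.card {z : G // (x * y)⁻¹ * z ∈ commutator G} = Nat.card (commutator G) := by
    apply Nat.card_congr
    exact
      { toFun := fun z => ⟨(x * y)⁻¹ * z.1, z.2⟩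
        invFun := fun c => ⟨(x * y) * c.1, by rw [inv_mul_cancel_left]; exact c.2⟩
        left_inv := by intro z; ext; exact mul_inv_cancel_left _ _
        right_inv := by intro c; ext; exact inv_mul_cancel_left _ _ }
  have hset : {z : G | IsConj (x * y) z} = {z : G | (x * y)⁻¹ * z ∈ commutator G} := by
    apply Set.eq_of_subset_of_ncard_le
    · intro z hz
      exact hfwd z hz
    · rw [← Nat.card_coe_set_eq, ← Nat.card_coe_set_eq]
      exact le_of_eq (hT.trans hcl.symm)
    · exact Set.toFinite _
  refine ⟨fun z => ⟨fun hz => ?_, ?_⟩, h2, fun z => ⟨hfwd z, fun hz => ?_⟩⟩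
  · obtain ⟨c, hc⟩ := isConj_iff.mp hz
    exact ⟨c, c, by rw [← hc]; group⟩
  · rintro ⟨a, b, rfl⟩
    apply irr_separates
    intro χ
    rw [hxy, h0]
  · have : z ∈ {z : G | (x * y)⁻¹ * z ∈ commutator G} := hz
    rw [← hset] at this
    exact this

end Cfsg.Agent.S4755
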