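import Cfsg.Statements.S4757
import Cfsg.Agent.Lib.Helper83.LinearCount
import Cfsg.Agent.Lib.Helper31.Basic

set_option autoImplicit false
open Cfsg
open Cfsg.Agent.Lib.Helper83

namespace Cfsg.Agent.S4757

open scoped ComplexConjugate

section

variable {G : Type*} [Group G] [Finite G]

omit [Finite G] in
/-- `χ = 1` as a function forces `χ = trivIrr G`. -/
theorem eq_triv_of_fun (χ : IrrCharacter G) (h : (χ : G → ℂ) = (fun _ => (1 : ℂ))) :
    χ = trivIrr G := Subtype.ext h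

/-- The key equation `c * Σ_X d = 1 + Σ_X d²`. -/
theorem key_eq [Fintype (IrrCharacter G)] [DecidableEq (IrrCharacter G)]
    (u : G) (hu : u ≠ 1) (c : ℂ)
    (hyp : ∀ χ : IrrCharacter G, χ ≠ trivIrr G →
      ((χ : G → ℂ) 1 - (χ : G → ℂ) u = c ∨ (χ : G → ℂ) u = 0))
    (X : Finset (IrrCharacter G))
    (hX : ∀ χ, χ ∈ X ↔ χ ≠ trivIrr G ∧ (χ : G → ℂ) u ≠ 0) :
    c * ((∑ χ ∈ X, charDegree (χ : G → ℂ) : ℕ) : ℂ) =
      1 + ((∑ χ ∈ X, charDegree (χ : G → ℂ) ^ 2 : ℕ) : ℂ) := by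
  classical
  have := Fintype.ofFinite G
  have h0 : ∑ χ : IrrCharacter G, (χ : G → ℂ) 1 * conj ((χ : G → ℂ) u) = 0 :=
    column_orthogonality_not_conj (by rwa [isConj_one_left])
  have h1 : ∀ χ : IrrCharacter G, (χ : G → ℂ) 1 * conj ((χ : G → ℂ) u) =
      (if χ = trivIrr G then (1 : ℂ) else 0) +
      (if χ ∈ X then (charDegree (χ : G → ℂ) : ℂ) ^ 2 - conj c * (charDegree (χ : G → ℂ) : ℂ)
        else 0) := by
    intro χ
    by_cases hT : χ = trivIrr G
    · subst hT
      have : trivIrr G ∉ X := fun h => ((hX _).1 h).1 rfl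
      simp [this, trivIrr_apply]
    · rw [if_neg hT, zero_add]
      by_cases h0 : (χ : G → ℂ) u = 0
      · have : χ ∉ X := fun h => ((hX _).1 h).2 h0
        rw [if_neg this, h0, map_zero, mul_zero]
      · have hm : χ ∈ X := (hX _).2 ⟨hT, h0⟩
        rw [if_pos hm]
        rcases hyp χ hT with h | h
        · have hd := (irr_degree χ.2).2
          have hu' : (χ : G → ℂ) u = (charDegree (χ : G → ℂ) : ℂ) - c := by
            rw [← hd, ← h]; ring
          rw [hu', hd, map_sub, Complex.conj_natCast]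
          ring
        · exact absurd h h0
  simp only [h1] at h0
  rw [Finset.sum_add_distrib, Finset.sum_ite_eq' Finset.univ (trivIrr G)] at h0
  simp only [Finset.mem_univ, if_true] at h0
  rw [← Finset.sum_filter] at h0
  have hfil : Finset.filter (fun χ => χ ∈ X) Finset.univ = X := by
    ext χ; simp
  rw [hfil, Finset.sum_sub_distrib, ← Finset.mul_sum] at h0
  have h2 : conj c * ((∑ χ ∈ X, charDegree (χ : G → ℂ) : ℕ) : ℂ) =
      1 + ((∑ χ ∈ X, charDegree (χ : G → ℂ) ^ 2 : ℕ) : ℂ) := by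
    push_cast
    linear_combination -h0
  have h3 := congrArg conj h2
  simpa [Complex.conj_natCast] using h3


theorem exists_nontriv_linear (h : commutator G ≠ ⊤) :
    ∃ χ : IrrCharacter G, (χ : G → ℂ) 1 = 1 ∧ χ ≠ trivIrr G := by
  by_contra hcon
  push Not at hcon
  have h1 : Nat.card {χ : IrrCharacter G // (χ : G → ℂ) 1 = 1} = 1 := by
    rw [Nat.card_eq_one_iff_unique]
    refine ⟨⟨fun a b => ?_⟩, ⟨⟨trivIrr G, rfl⟩⟩⟩
    exact Subtype.ext ((hcon a.1 a.2).trans (hcon b.1 b.2).symm)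
  rw [card_linear, Subgroup.index_eq_one] at h1
  exact h h1

theorem c_eq_two_of_linear (u : G) (c : ℂ) (S1 S2 : ℕ) (hkey : c * (S1 : ℂ) = 1 + (S2 : ℂ))
    (χ : IrrCharacter G) (h1 : (χ : G → ℂ) 1 = 1)
    (hχ : (χ : G → ℂ) 1 - (χ : G → ℂ) u = c) : c = 2 := by
  have hS1 : (S1 : ℂ) ≠ 0 := by
    intro h0
    rw [h0, mul_zero] at hkey
    have h2 : ((1 + S2 : ℕ) : ℂ) = 0 := by push_cast; exact hkey.symm
    have h3 := Nat.cast_eq_zero.mp h2
    omega
  have hS1' : 0 < S1 := Nat.pos_of_ne_zero (by rintro rfl; exact hS1 (by simp))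
  set r : ℝ := (1 + (S2 : ℝ)) / (S1 : ℝ) with hr
  have hc : c = (r : ℂ) := by
    rw [hr]; push_cast
    field_simp
    exact hkey
  have hrpos : 0 < r := by positivity
  have hn := irr_linear_norm χ.2 h1 u
  have hu : (χ : G → ℂ) u = ((1 - r : ℝ) : ℂ) := by
    push_cast; rw [← hc, ← hχ, h1]; ring
  rw [hu, Complex.norm_real, Real.norm_eq_abs] at hn
  rcases (abs_eq (by norm_num : (0:ℝ) ≤ 1)).mp hn with h | h
  · linarith
  · have h2 : r = 2 := by linarith
    rw [hc, h2]; norm_num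

omit [Finite G] in
theorem exists_deg_one (X : Finset (IrrCharacter G))
    (hkey : 2 * (∑ χ ∈ X, charDegree (χ : G → ℂ)) = 1 + ∑ χ ∈ X, charDegree (χ : G → ℂ) ^ 2) :
    ∃ χ ∈ X, charDegree (χ : G → ℂ) = 1 := by
  by_contra hcon
  push Not at hcon
  have h : ∑ χ ∈ X, 2 * charDegree (χ : G → ℂ) ≤ ∑ χ ∈ X, charDegree (χ : G → ℂ) ^ 2 := by
    apply Finset.sum_le_sum
    intro χ hχ
    have h1 := (irr_degree χ.2).1
    have h2 := hcon χ hχ
    have h3 : 2 ≤ charDegree (χ : G → ℂ) := by omega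
    nlinarith
  rw [← Finset.mul_sum] at h
  omega

omit [Finite G] in
theorem commutator_ne_top_of_linear (χ : IrrCharacter G) (h1 : (χ : G → ℂ) 1 = 1)
    (hT : χ ≠ trivIrr G) : commutator G ≠ ⊤ := by
  intro htop
  apply hT
  apply Subtype.ext
  funext g
  rw [trivIrr_apply]
  exact irr_linear_commutator χ.2 h1 (by rw [htop]; trivial)

omit [Finite G] in
theorem linear_unique (u : G)
    (hneg : ∀ χ : IrrCharacter G, (χ : G → ℂ) 1 = 1 → χ ≠ trivIrr G → (χ : G → ℂ) u = -1)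
    (χ ψ : IrrCharacter G) (hχ1 : (χ : G → ℂ) 1 = 1) (hχT : χ ≠ trivIrr G)
    (hψ1 : (ψ : G → ℂ) 1 = 1) (hψT : ψ ≠ trivIrr G) : χ = ψ := by
  set a : G →* ℂˣ := (linHom χ.2 hχ1).toHomUnits with ha_def
  set b : G →* ℂˣ := (linHom ψ.2 hψ1).toHomUnits with hb_def
  have ha : ∀ g, ((a g : ℂˣ) : ℂ) = (χ : G → ℂ) g := fun g => MonoidHom.coe_toHomUnits _ _
  have hb : ∀ g, ((b g : ℂˣ) : ℂ) = (ψ : G → ℂ) g := fun g => MonoidHom.coe_toHomUnits _ _
  set Φ : IrrCharacter G := ⟨_, isIrr_of_hom (a * b⁻¹)⟩ with hΦ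
  have hΦval : ∀ g, (Φ : G → ℂ) g = (χ : G → ℂ) g * ((ψ : G → ℂ) g)⁻¹ := by
    intro g
    show (((a * b⁻¹) g : ℂˣ) : ℂ) = _
    rw [MonoidHom.mul_apply, MonoidHom.inv_apply, Units.val_mul, Units.val_inv_eq_inv_val, ha, hb]
  have hΦT : Φ = trivIrr G := by
    by_contra hne
    have h1 : (Φ : G → ℂ) 1 = 1 := by rw [hΦval, hχ1, hψ1]; norm_num
    have h2 := hneg Φ h1 hne
    rw [hΦval, hneg χ hχ1 hχT, hneg ψ hψ1 hψT] at h2
    norm_num at h2
  apply Subtype.ext
  funext g
  have h3 : (Φ : G → ℂ) g = 1 := by rw [hΦT, trivIrr_apply]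
  rw [hΦval] at h3
  have hψne : (ψ : G → ℂ) g ≠ 0 := by
    rw [← hb]; exact Units.ne_zero _
  field_simp at h3
  exact h3

theorem card_centralizer_eq_two [Fintype (IrrCharacter G)] [DecidableEq (IrrCharacter G)]
    (u : G) (lam : IrrCharacter G) (hlT : lam ≠ trivIrr G)
    (hlu : (lam : G → ℂ) u = -1)
    (hz : ∀ χ : IrrCharacter G, χ ≠ trivIrr G → χ ≠ lam → (χ : G → ℂ) u = 0) :
    Nat.card (Subgroup.centralizer ({u} : Set G)) = 2 := by
  classical
  have := Fintype.ofFinite G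
  have h0 := column_orthogonality_conj (G := G) (IsConj.refl u)
  have h1 : ∀ χ : IrrCharacter G, (χ : G → ℂ) u * conj ((χ : G → ℂ) u) =
      (if χ = trivIrr G then (1 : ℂ) else 0) + (if χ = lam then (1 : ℂ) else 0) := by
    intro χ
    by_cases hT : χ = trivIrr G
    · subst hT
      rw [if_pos rfl, if_neg (Ne.symm hlT), trivIrr_apply]; simp
    · by_cases hl : χ = lam
      · subst hl
        rw [if_neg hT, if_pos rfl, hlu]; simp
      · rw [if_neg hT, if_neg hl, hz χ hT hl]; simp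
  simp only [h1] at h0
  rw [Finset.sum_add_distrib, Finset.sum_ite_eq' Finset.univ (trivIrr G),
    Finset.sum_ite_eq' Finset.univ lam] at h0
  simp only [Finset.mem_univ, if_true] at h0
  have h2 : ((2 : ℕ) : ℂ) = (Nat.card (Subgroup.centralizer ({u} : Set G)) : ℂ) := by
    rw [← h0]; norm_num
  exact (Nat.cast_injective h2).symm

theorem order_two_of_card_centralizer (u : G) (hu : u ≠ 1)
    (hC : Nat.card (Subgroup.centralizer ({u} : Set G)) = 2) :
    orderOf u = 2 ∧ Subgroup.centralizer ({u} : Set G) = Subgroup.zpowers u := by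
  have hle : Subgroup.zpowers u ≤ Subgroup.centralizer ({u} : Set G) := by
    rw [Subgroup.zpowers_le]
    exact Subgroup.mem_centralizer_singleton_iff.mpr rfl
  have h1 : Nat.card (Subgroup.zpowers u) ≤ 2 := hC ▸ Subgroup.card_le_of_le hle
  rw [Nat.card_zpowers] at h1
  have h2 : orderOf u ≠ 1 := fun h => hu (orderOf_eq_one_iff.mp h)
  have h3 : 0 < orderOf u := orderOf_pos u
  have h4 : orderOf u = 2 := by omega
  refine ⟨h4, (Subgroup.eq_of_le_of_card_ge hle ?_).symm⟩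
  rw [Nat.card_zpowers, h4, hC]

theorem not_four_dvd (u : G) (ho : orderOf u = 2)
    (hC : Subgroup.centralizer ({u} : Set G) = Subgroup.zpowers u) : ¬ 4 ∣ Nat.card G := by
  intro h4
  have : Fact (Nat.Prime 2) := ⟨Nat.prime_two⟩
  have hp : IsPGroup 2 (Subgroup.zpowers u) := by
    apply IsPGroup.of_card (n := 1)
    rw [Nat.card_zpowers, ho]; rfl
  obtain ⟨S, hS⟩ := hp.exists_le_sylow
  have huS : u ∈ (S : Subgroup G) := hS (Subgroup.mem_zpowers u)
  have h4S : 2 ^ 2 ∣ Nat.card S := S.pow_dvd_card_of_pow_dvd_card (by simpa using h4)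
  have hu1 : u ≠ 1 := by
    rintro rfl; simp at ho
  have : Nontrivial S := ⟨⟨⟨u, huS⟩, 1, fun h => hu1 (congrArg Subtype.val h)⟩⟩
  have hcen := IsPGroup.center_nontrivial S.isPGroup'
  obtain ⟨z, hz⟩ := exists_ne (1 : Subgroup.center S)
  have hzc : ((z : S) : G) ∈ Subgroup.centralizer ({u} : Set G) := by
    rw [Subgroup.mem_centralizer_singleton_iff]
    have h1 := Subgroup.mem_center_iff.mp z.2 ⟨u, huS⟩
    have h2 := congrArg Subtype.val h1
    simpa using h2.symm
  rw [hC] at hzc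
  have hzu : Subgroup.zpowers ((z : S) : G) = Subgroup.zpowers u := by
    apply Subgroup.eq_of_le_of_card_ge (Subgroup.zpowers_le.mpr hzc)
    rw [Nat.card_zpowers, Nat.card_zpowers, ho]
    have h1 : orderOf ((z : S) : G) ≠ 1 := by
      intro h
      apply hz
      apply Subtype.ext; apply Subtype.ext
      simpa using orderOf_eq_one_iff.mp h
    have h2 := orderOf_pos ((z : S) : G)
    omega
  have huz : u ∈ Subgroup.zpowers ((z : S) : G) := hzu ▸ Subgroup.mem_zpowers u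
  have hSle : (S : Subgroup G) ≤ Subgroup.centralizer ({u} : Set G) := by
    intro s hs
    rw [Subgroup.mem_centralizer_singleton_iff]
    obtain ⟨k, hk⟩ := Subgroup.mem_zpowers_iff.mp huz
    have hzk : (z : S) ^ k ∈ Subgroup.center S := Subgroup.zpow_mem _ z.2 k
    have h1 := Subgroup.mem_center_iff.mp hzk ⟨s, hs⟩
    have h2 := congrArg Subtype.val h1
    rw [← hk]
    simpa using h2
  have h5 := Subgroup.card_le_of_le hSle
  rw [hC, Nat.card_zpowers, ho] at h5
  have h6 := Nat.le_of_dvd Nat.card_pos h4S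
  omega

theorem a_imp_b (u : G) (ho : orderOf u = 2) (htop : Subgroup.zpowers u ⊔ oddCore G = ⊤) :
    commutator G ≠ ⊤ := by
  intro hG
  have hle : commutator G ≤ oddCore G := by
    apply Subgroup.Normal.commutator_le_of_self_sup_commutative_eq_top (H := Subgroup.zpowers u)
    · rw [sup_comm]; exact htop
    · infer_instance
  rw [hG, top_le_iff] at hle
  have hcop := Cfsg.Agent.Lib.Helper31.pPrimeCore_coprime (G := G) 2
  have hcard : Nat.card (oddCore G) = Nat.card G := by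
    rw [hle]
    exact Subgroup.card_top
  have h2 : 2 ∣ Nat.card G := ho ▸ orderOf_dvd_natCard u
  rw [show pPrimeCore 2 G = oddCore G from rfl, hcard] at hcop
  have h3 := Nat.Coprime.eq_one_of_dvd hcop.symm h2
  omega

theorem b_imp_a (u : G) (hu : u ≠ 1)
    (hyp : ∀ χ : IrrCharacter G, χ ≠ trivIrr G →
      ((χ : G → ℂ) 1 - (χ : G → ℂ) u = 2 ∨ (χ : G → ℂ) u = 0))
    (hG : commutator G ≠ ⊤) :
    orderOf u = 2 ∧ Subgroup.zpowers u ⊔ oddCore G = ⊤ ∧
      Subgroup.centralizer ({u} : Set G) = Subgroup.zpowers u := by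
  classical
  have := Fintype.ofFinite G
  have := Fintype.ofFinite (IrrCharacter G)
  obtain ⟨lam, hl1, hlT⟩ := exists_nontriv_linear hG
  have hneg : ∀ χ : IrrCharacter G, (χ : G → ℂ) 1 = 1 → χ ≠ trivIrr G →
      (χ : G → ℂ) u = -1 := by
    intro χ h1 hT
    rcases hyp χ hT with h | h
    · rw [h1] at h; linear_combination -h
    · have hn := irr_linear_norm χ.2 h1 u
      rw [h, norm_zero] at hn
      exact absurd hn (by norm_num)
  have huniq := linear_unique u hneg
  set X : Finset (IrrCharacter G) :=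
    Finset.univ.filter (fun χ => χ ≠ trivIrr G ∧ (χ : G → ℂ) u ≠ 0) with hXdef
  have hX : ∀ χ, χ ∈ X ↔ χ ≠ trivIrr G ∧ (χ : G → ℂ) u ≠ 0 := by
    intro χ; simp [hXdef]
  have hkey := key_eq u hu 2 hyp X hX
  have hkeyN : 2 * (∑ χ ∈ X, charDegree (χ : G → ℂ)) =
      1 + ∑ χ ∈ X, charDegree (χ : G → ℂ) ^ 2 := by
    exact_mod_cast hkey
  have hlX : lam ∈ X := (hX _).2 ⟨hlT, by rw [hneg lam hl1 hlT]; norm_num⟩
  have hdl : charDegree (lam : G → ℂ) = 1 := (irr_charDegree_eq_one_iff lam.2).2 hl1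
  have hge : ∀ χ ∈ X.erase lam, 3 ≤ charDegree (χ : G → ℂ) := by
    intro χ hχ
    rw [Finset.mem_erase] at hχ
    obtain ⟨hne, hχX⟩ := hχ
    obtain ⟨hT, hu0⟩ := (hX _).1 hχX
    have hpos := (irr_degree χ.2).1
    have hd := (irr_degree χ.2).2
    have h1 : charDegree (χ : G → ℂ) ≠ 1 := by
      intro h
      exact hne (huniq χ lam ((irr_charDegree_eq_one_iff χ.2).1 h) hT hl1 hlT)
    have h2 : charDegree (χ : G → ℂ) ≠ 2 := by
      intro h
      rcases hyp χ hT with h' | h'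
      · rw [hd, h] at h'
        apply hu0
        push_cast at h'
        linear_combination -h'
      · exact hu0 h'
    omega
  have hempty : X.erase lam = ∅ := by
    by_contra hne
    obtain ⟨χ0, hχ0⟩ := Finset.nonempty_iff_ne_empty.mpr hne
    rw [← Finset.add_sum_erase X _ hlX, ← Finset.add_sum_erase X _ hlX, hdl] at hkeyN
    have h1 : ∑ χ ∈ X.erase lam, 3 * charDegree (χ : G → ℂ) ≤
        ∑ χ ∈ X.erase lam, charDegree (χ : G → ℂ) ^ 2 := by
      apply Finset.sum_le_sum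
      intro χ hχ
      have := hge χ hχ
      nlinarith
    rw [← Finset.mul_sum] at h1
    have h2 : 3 ≤ ∑ χ ∈ X.erase lam, charDegree (χ : G → ℂ) :=
      (hge χ0 hχ0).trans
        (Finset.single_le_sum (f := fun χ : IrrCharacter G => charDegree (χ : G → ℂ))
          (fun _ _ => Nat.zero_le _) hχ0)
    omega
  have hz : ∀ χ : IrrCharacter G, χ ≠ trivIrr G → χ ≠ lam → (χ : G → ℂ) u = 0 := by
    intro χ hT hl
    by_contra h0
    have hmem : χ ∈ X.erase lam := Finset.mem_erase.mpr ⟨hl, (hX _).2 ⟨hT, h0⟩⟩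
    rw [hempty] at hmem
    exact absurd hmem (Finset.notMem_empty _)
  have hC := card_centralizer_eq_two u lam hlT (hneg lam hl1 hlT) hz
  obtain ⟨ho, hCz⟩ := order_two_of_card_centralizer u hu hC
  refine ⟨ho, ?_, hCz⟩
  have h4 := not_four_dvd u ho hCz
  have hidx : (commutator G).index = 2 := by
    rw [← card_linear, Nat.card_eq_two_iff]
    refine ⟨⟨trivIrr G, rfl⟩, ⟨lam, hl1⟩, ?_, ?_⟩
    · intro h; exact hlT (congrArg Subtype.val h).symm
    · ext ⟨χ, hχ⟩
      simp only [Set.mem_insert_iff, Set.mem_singleton_iff, Set.mem_univ, iff_true]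
      by_cases hT : χ = trivIrr G
      · left; exact Subtype.ext hT
      · right; exact Subtype.ext (huniq χ lam hχ hT hl1 hlT)
  have hcard : Nat.card (commutator G) * 2 = Nat.card G := by
    rw [← hidx]; exact Subgroup.card_mul_index _
  have hodd : (Nat.card (commutator G)).Coprime 2 := by
    rw [Nat.coprime_two_right]
    by_contra hnodd
    rw [Nat.not_odd_iff_even] at hnodd
    obtain ⟨k, hk⟩ := hnodd
    apply h4
    rw [← hcard, hk]
    exact ⟨k, by ring⟩
  have hle : commutator G ≤ oddCore G :=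
    Cfsg.Agent.Lib.Helper31.le_pPrimeCore inferInstance hodd
  have htop : Subgroup.zpowers u ⊔ commutator G = ⊤ := by
    apply Subgroup.eq_top_of_card_eq
    have h1 : 2 ∣ Nat.card (Subgroup.zpowers u ⊔ commutator G : Subgroup G) := by
      have h := Subgroup.card_dvd_of_le
        (le_sup_left : Subgroup.zpowers u ≤ Subgroup.zpowers u ⊔ commutator G)
      rwa [Nat.card_zpowers, ho] at h
    have h2 : Nat.card (commutator G) ∣
        Nat.card (Subgroup.zpowers u ⊔ commutator G : Subgroup G) :=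
      Subgroup.card_dvd_of_le le_sup_right
    have h3 : Nat.card (commutator G) * 2 ∣
        Nat.card (Subgroup.zpowers u ⊔ commutator G : Subgroup G) :=
      Nat.Coprime.mul_dvd_of_dvd_of_dvd hodd h2 h1
    rw [hcard] at h3
    exact Nat.dvd_antisymm (Subgroup.card_subgroup_dvd_card _) h3
  rw [eq_top_iff, ← htop]
  exact sup_le_sup_left hle _

end

theorem result {G : Type*} [Group G] [Finite G] (u : G) (hu : u ≠ 1) (c : ℂ) (hyp : ∀ χ : Cfsg.IrrCharacter G, (χ : G → ℂ) ≠ (fun _ => (1 : ℂ)) → ((χ : G → ℂ) 1 - (χ : G → ℂ) u = c ∨ (χ : G → ℂ) u = 0)) : ((orderOf u = 2 ∧ Subgroup.zpowers u ⊔ Cfsg.oddCore G = ⊤ ∧ Subgroup.centralizer ({u} : Set G) = Subgroup.zpowers u) ↔ commutator G ≠ ⊤) ∧ (commutator G ≠ ⊤ ↔ c = 2) := by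
  classical
  have := Fintype.ofFinite G
  have := Fintype.ofFinite (IrrCharacter G)
  have hyp' : ∀ χ : IrrCharacter G, χ ≠ trivIrr G →
      ((χ : G → ℂ) 1 - (χ : G → ℂ) u = c ∨ (χ : G → ℂ) u = 0) := by
    intro χ hT
    exact hyp χ (fun h => hT (eq_triv_of_fun χ h))
  set X : Finset (IrrCharacter G) :=
    Finset.univ.filter (fun χ => χ ≠ trivIrr G ∧ (χ : G → ℂ) u ≠ 0) with hXdef
  have hX : ∀ χ, χ ∈ X ↔ χ ≠ trivIrr G ∧ (χ : G → ℂ) u ≠ 0 := by
    intro χ; simp [hXdef]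
  have hkey := key_eq u hu c hyp' X hX
  have hbc : commutator G ≠ ⊤ ↔ c = 2 := by
    constructor
    · intro hG
      obtain ⟨lam, hl1, hlT⟩ := exists_nontriv_linear hG
      rcases hyp' lam hlT with h | h
      · exact c_eq_two_of_linear u c _ _ hkey lam hl1 h
      · have hn := irr_linear_norm lam.2 hl1 u
        rw [h, norm_zero] at hn
        exact absurd hn (by norm_num)
    · intro hc
      subst hc
      have hkeyN : 2 * (∑ χ ∈ X, charDegree (χ : G → ℂ)) =
          1 + ∑ χ ∈ X, charDegree (χ : G → ℂ) ^ 2 := by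
        exact_mod_cast hkey
      obtain ⟨χ, hχX, hχ1⟩ := exists_deg_one X hkeyN
      exact commutator_ne_top_of_linear χ ((irr_charDegree_eq_one_iff χ.2).1 hχ1)
        ((hX χ).1 hχX).1
  refine ⟨⟨fun ⟨ho, htop, _⟩ => a_imp_b u ho htop, fun hG => ?_⟩, hbc⟩
  have hc := hbc.1 hG
  subst hc
  exact b_imp_a u hu hyp' hG

end Cfsg.Agent.S4757
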