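import Cfsg.Statements.S4762
import Cfsg.Agent.Lib.Helper83.Twist
import Cfsg.Agent.Lib.Helper72.Frattini
import Cfsg.Agent.Lib.Helper34.Nilp

set_option autoImplicit false
open Cfsg
open Cfsg.Agent.Lib
open Cfsg.Agent.Lib.Helper83

namespace Cfsg.Agent.S4762

open scoped ComplexConjugate
open scoped commutatorElement

/-- In a subgroup of order two, two non-identity elements are equal. -/
theorem eq_of_card_two {G : Type*} [Group G] (Z : Subgroup G) (hZ : Nat.card Z = 2) {a b : G}
    (ha : a ∈ Z) (hb : b ∈ Z) (ha1 : a ≠ 1) (hb1 : b ≠ 1) : a = b := by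
  obtain ⟨y, -, hy⟩ := (Nat.card_eq_two_iff' (1 : Z)).mp hZ
  have h1 := hy ⟨a, ha⟩ (fun h => ha1 (congrArg Subtype.val h))
  have h2 := hy ⟨b, hb⟩ (fun h => hb1 (congrArg Subtype.val h))
  exact congrArg Subtype.val (h1.trans h2.symm)

theorem comm_mem_commutator {G : Type*} [Group G] (x y : G) :
    x * y * x⁻¹ * y⁻¹ ∈ commutator G := by
  rw [commutator_eq_closure]
  apply Subgroup.subset_closure
  exact ⟨x, y, rfl⟩

/-- In a group with `G' = Z(G)` of order two, nonlinear characters vanish off the centre. -/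
theorem extraspecial_vanish {G : Type*} [Group G] [Finite G]
    (hc : commutator G = Subgroup.center G) (hZ : Nat.card (Subgroup.center G) = 2)
    (χ : IrrCharacter G) (hχ : charDegree (χ : G → ℂ) ≠ 1) (g : G)
    (hg : g ∉ Subgroup.center G) : (χ : G → ℂ) g = 0 := by
  have h1 : ∃ z ∈ commutator G, (χ : G → ℂ) z ≠ (χ : G → ℂ) 1 := by
    by_contra hcon
    push Not at hcon
    exact hχ ((irr_charDegree_eq_one_iff χ.2).2 (irr_linear_of_commutator_le_ker χ hcon))
  obtain ⟨z, hz, hzχ⟩ := h1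
  rw [hc] at hz
  have hz1 : z ≠ 1 := by rintro rfl; exact hzχ rfl
  have h2 : ∃ x : G, x * g ≠ g * x := by
    by_contra hcon
    push Not at hcon
    exact hg (Subgroup.mem_center_iff.mpr hcon)
  obtain ⟨x, hx⟩ := h2
  set c := x * g * x⁻¹ * g⁻¹ with hcdef
  have hcZ : c ∈ Subgroup.center G := by
    rw [← hc]; exact comm_mem_commutator x g
  have hc1 : c ≠ 1 := by
    intro h
    apply hx
    have h3 : x * g = c * (g * x) := by rw [hcdef]; group
    rw [h3, h, one_mul]
  have hcz : c = z := eq_of_card_two _ hZ hcZ hz hc1 hz1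
  have h3 : (χ : G → ℂ) (z * g) = (χ : G → ℂ) g := by
    rw [← hcz]
    have h4 : c * g = x * g * x⁻¹ := by rw [hcdef]; group
    rw [h4]
    exact irr_classFunction χ.2 g x
  have h4 := irr_central_mul χ z hz g
  rw [h3] at h4
  have h5 : (χ : G → ℂ) g * ((χ : G → ℂ) 1 - (χ : G → ℂ) z) = 0 := by linear_combination h4
  rcases mul_eq_zero.mp h5 with h | h
  · exact h
  · exact absurd (sub_eq_zero.mp h).symm hzχ

theorem card_of_extraspecial {G : Type*} [Group G] [Finite G] (hE : IsExtraspecial 2 G) :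
    Nat.card {χ : IrrCharacter G // 2 ∣ charDegree (χ : G → ℂ)} = 1 := by
  classical
  have := Fintype.ofFinite (IrrCharacter G)
  obtain ⟨⟨hP, -, hc⟩, hZ⟩ := hE
  set M := (commutator G).index with hM
  have hG : Nat.card G = 2 * M := by
    have hc2 : Nat.card (commutator G) = 2 := by rw [hc]; exact hZ
    rw [← Subgroup.card_mul_index (commutator G), hc2]
  have hMpos : 0 < M := Nat.pos_of_ne_zero Subgroup.FiniteIndex.index_ne_zero
  have hdeg : ∀ χ : IrrCharacter G, charDegree (χ : G → ℂ) ≠ 1 →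
      charDegree (χ : G → ℂ) ^ 2 = M := by
    intro χ hχ
    have h1 := degree_sq_mul_card_center χ (extraspecial_vanish hc hZ χ hχ)
    rw [hZ, hG] at h1
    omega
  have heven : ∀ χ : IrrCharacter G, 2 ∣ charDegree (χ : G → ℂ) ↔
      ¬ charDegree (χ : G → ℂ) = 1 := by
    intro χ
    constructor
    · intro h h1; rw [h1] at h; omega
    · intro h1
      obtain ⟨n, hn⟩ := IsPGroup.iff_card.mp hP
      have h2 : charDegree (χ : G → ℂ) ∣ 2 ^ n := by rw [← hn]; exact irr_degree_dvd_card χ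
      obtain ⟨j, -, hj⟩ := (Nat.dvd_prime_pow Nat.prime_two).mp h2
      rcases Nat.eq_zero_or_pos j with h0 | h0
      · rw [h0, pow_zero] at hj; exact absurd hj h1
      · rw [hj]; exact dvd_pow_self 2 h0.ne'
  rw [Nat.card_congr (Equiv.subtypeEquivRight heven)]
  have hsum := sum_charDegree_sq (G := G)
  rw [← Finset.sum_filter_add_sum_filter_not Finset.univ
    (fun χ : IrrCharacter G => charDegree (χ : G → ℂ) = 1)] at hsum
  have h1 : ∑ χ ∈ Finset.univ.filter (fun χ : IrrCharacter G => charDegree (χ : G → ℂ) = 1),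
      charDegree (χ : G → ℂ) ^ 2 = M := by
    rw [Finset.sum_congr rfl (fun χ hχ => by rw [(Finset.mem_filter.mp hχ).2, one_pow])]
    rw [Finset.sum_const, smul_eq_mul, mul_one, hM, ← card_linear', Nat.card_eq_fintype_card,
      Fintype.card_subtype]
  have h2 : ∑ χ ∈ Finset.univ.filter (fun χ : IrrCharacter G => ¬ charDegree (χ : G → ℂ) = 1),
      charDegree (χ : G → ℂ) ^ 2 =
      (Finset.univ.filter (fun χ : IrrCharacter G => ¬ charDegree (χ : G → ℂ) = 1)).card * M := by
    rw [Finset.sum_congr rfl (fun χ hχ => hdeg χ (Finset.mem_filter.mp hχ).2)]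
    rw [Finset.sum_const, smul_eq_mul]
  rw [h1, h2, hG] at hsum
  have h3 : (Finset.univ.filter
      (fun χ : IrrCharacter G => ¬ charDegree (χ : G → ℂ) = 1)).card = 1 := by
    have h4 : (Finset.univ.filter
        (fun χ : IrrCharacter G => ¬ charDegree (χ : G → ℂ) = 1)).card * M = 1 * M := by omega
    exact Nat.eq_of_mul_eq_mul_right hMpos h4
  rw [Nat.card_eq_fintype_card, Fintype.card_subtype]
  exact h3

/-- A finite nilpotent group is the (internal) direct product of its Sylow `p`-subgroup and a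
normal `p`-complement. -/
theorem nilpotent_complement {G : Type*} [Group G] [Finite G] [Group.IsNilpotent G] (p : ℕ)
    [hpf : Fact p.Prime] :
    ∃ P H : Subgroup G, P.Normal ∧ H.Normal ∧ IsPGroup p P ∧ (Nat.card H).Coprime p ∧
      P.IsComplement' H ∧ (∀ x ∈ P, ∀ h ∈ H, x * h = h * x) := by
  have hp := hpf.out
  obtain ⟨P⟩ := (inferInstance : Nonempty (Sylow p G))
  have hPn : (P : Subgroup G).Normal :=
    Sylow.normal_of_normalizerCondition Group.normalizerCondition_of_isNilpotent P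
  obtain ⟨H, hH⟩ := Subgroup.exists_right_complement'_of_coprime (Sylow.card_coprime_index P)
  have hHcard : Nat.card H = (P : Subgroup G).index := by
    have h1 := hH.card_mul_card
    have h2 := Subgroup.card_mul_index (P : Subgroup G)
    rw [← h2] at h1
    exact Nat.eq_of_mul_eq_mul_left Nat.card_pos h1
  have hcop : (Nat.card H).Coprime p := by
    rw [hHcard]
    exact ((Nat.Prime.coprime_iff_not_dvd hp).mpr (Sylow.not_dvd_index P)).symm
  have hcomm : ∀ x ∈ (P : Subgroup G), ∀ h ∈ H, x * h = h * x := by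
    intro x hx h hh
    apply Helper34.commute_of_coprime_orderOf
    obtain ⟨k, hk⟩ := (IsPGroup.iff_orderOf.mp P.isPGroup') ⟨x, hx⟩
    rw [Subgroup.orderOf_mk] at hk
    rw [hk]
    apply Nat.Coprime.pow_left
    exact (Nat.Coprime.coprime_dvd_left (Subgroup.orderOf_dvd_natCard H hh) hcop).symm
  refine ⟨P, H, hPn, ?_, P.isPGroup', hcop, hH, hcomm⟩
  constructor
  intro n hn g
  obtain ⟨⟨x, h⟩, hxh⟩ := hH.2 g
  have hg : g = (x : G) * (h : G) := hxh.symm
  rw [hg]
  have h1 : (x : G) * (h : G) * n * ((x : G) * (h : G))⁻¹ =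
      (x : G) * ((h : G) * n * (h : G)⁻¹) * (x : G)⁻¹ := by group
  rw [h1]
  have h2 : (h : G) * n * (h : G)⁻¹ ∈ H := H.mul_mem (H.mul_mem h.2 hn) (H.inv_mem h.2)
  rw [hcomm x x.2 _ h2, mul_assoc, mul_inv_cancel, mul_one]
  exact h2

/-- If a central subgroup `P` has a complement `H` of order prime to `p`, no irreducible
character has degree divisible by `p`. -/
theorem not_dvd_of_central_complement {G : Type*} [Group G] [Finite G] (p : ℕ) (hp : p.Prime)
    (P H : Subgroup G) (hPZ : P ≤ Subgroup.center G) (hc : P.IsComplement' H)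
    (hcop : (Nat.card H).Coprime p) (χ : IrrCharacter G) :
    ¬ p ∣ charDegree (χ : G → ℂ) := by
  classical
  have := Fintype.ofFinite G
  have := Fintype.ofFinite (IrrCharacter H)
  have hnorm : ∀ (x : P) (h : H), ‖(χ : G → ℂ) ((x : G) * (h : G))‖ = ‖(χ : G → ℂ) h‖ := by
    intro x h
    have h1 := irr_central_mul χ x (hPZ x.2) h
    have h2 := congrArg norm h1
    rw [norm_mul, norm_mul, irr_central_norm χ x (hPZ x.2), (irr_degree χ.2).2] at h2
    have hd : (0 : ℝ) < charDegree (χ : G → ℂ) := by exact_mod_cast (irr_degree χ.2).1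
    simp only [Complex.norm_natCast] at h2
    exact mul_right_cancel₀ hd.ne' (by rw [h2, mul_comm])
  have hsum : ∑ g : G, ‖(χ : G → ℂ) g‖ ^ 2 =
      (Nat.card P : ℝ) * ∑ h : H, ‖(χ : G → ℂ) h‖ ^ 2 := by
    rw [← Fintype.sum_equiv (Equiv.ofBijective _ hc)
      (fun y : P × H => ‖(χ : G → ℂ) ((y.1 : G) * (y.2 : G))‖ ^ 2)
      (fun g => ‖(χ : G → ℂ) g‖ ^ 2) (fun y => rfl)]
    rw [Fintype.sum_prod_type]
    simp only [hnorm]
    rw [Finset.sum_const, Finset.card_univ, nsmul_eq_mul, ← Nat.card_eq_fintype_card]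
    rfl
  rw [sum_normsq_eq χ, ← hc.card_mul_card] at hsum
  push_cast at hsum
  have hPpos : (0 : ℝ) < Nat.card P := by exact_mod_cast Nat.card_pos
  have hH : ∑ h : H, ‖(χ : G → ℂ) h‖ ^ 2 = (Nat.card H : ℝ) :=
    (mul_left_cancel₀ hPpos.ne' hsum).symm
  have hirr : IsIrrCharacter H (fun h : H => (χ : G → ℂ) h) := by
    apply Helper4.isIrrCharacter_of_norm_one _
      (Helper4.isCharacter_restrict H _ (Helper4.isCharacter_of_irr χ))
    unfold classInner
    have h3 : ∀ h : H, (χ : G → ℂ) h * conj ((χ : G → ℂ) h) =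
        ((‖(χ : G → ℂ) h‖ ^ 2 : ℝ) : ℂ) := by
      intro h; rw [Complex.mul_conj, Complex.normSq_eq_norm_sq]
    simp only [h3]
    rw [← Complex.ofReal_sum, hH]
    have hne : (Nat.card H : ℂ) ≠ 0 := by exact_mod_cast Nat.card_pos.ne'
    push_cast
    field_simp
  have hdvd := irr_degree_dvd_card (⟨_, hirr⟩ : IrrCharacter H)
  have hdeg : charDegree (fun h : H => (χ : G → ℂ) h) = charDegree (χ : G → ℂ) := rfl
  intro hpd
  have hdvd' : charDegree (χ : G → ℂ) ∣ Nat.card H := by rw [← hdeg]; exact hdvd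
  exact hp.one_lt.ne' (Nat.Coprime.eq_one_of_dvd hcop.symm (hpd.trans hdvd'))

/-- A nilpotent group with a unique irreducible character of degree divisible by `p` is a
`p`-group. -/
theorem isPGroup_of_one {G : Type*} [Group G] [Finite G] [Group.IsNilpotent G] (p : ℕ)
    [hpf : Fact p.Prime] (χ0 : IrrCharacter G) (hχ0 : p ∣ charDegree (χ0 : G → ℂ))
    (huniq : ∀ χ : IrrCharacter G, p ∣ charDegree (χ : G → ℂ) → χ = χ0) : IsPGroup p G := by
  classical
  have hp := hpf.out
  obtain ⟨P, H, hPn, hHn, hPp, hcop, hc, hcomm⟩ := nilpotent_complement (G := G) p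
  have hinf : ∀ x : G, x ∈ P → x ∈ H → x = 1 := by
    intro x hxP hxH
    have h1 : x ∈ P ⊓ H := ⟨hxP, hxH⟩
    rw [disjoint_iff.mp hc.disjoint] at h1
    exact Subgroup.mem_bot.mp h1
  have hPnab : ∃ x ∈ P, ∃ y ∈ P, x * y ≠ y * x := by
    by_contra hcon
    push Not at hcon
    have hPZ : P ≤ Subgroup.center G := by
      intro x hx
      rw [Subgroup.mem_center_iff]
      intro g
      obtain ⟨⟨y, h⟩, hyh⟩ := hc.2 g
      have hg : g = (y : G) * (h : G) := hyh.symm
      rw [hg]
      calc (y : G) * (h : G) * x = (y : G) * (x * (h : G)) := by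
            rw [mul_assoc, hcomm x hx h h.2]
        _ = ((y : G) * x) * h := by rw [mul_assoc]
        _ = (x * (y : G)) * h := by rw [hcon y y.2 x hx]
        _ = x * ((y : G) * (h : G)) := by rw [mul_assoc]
    exact not_dvd_of_central_complement p hp P H hPZ hc hcop χ0 hχ0
  obtain ⟨x, hx, y, hy, hxy⟩ := hPnab
  have hq : commutator (G ⧸ H) ≠ ⊥ := by
    intro hbot
    have h1 : (x : G ⧸ H) * (y : G ⧸ H) * (x : G ⧸ H)⁻¹ * (y : G ⧸ H)⁻¹ ∈ commutator (G ⧸ H) :=
      comm_mem_commutator _ _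
    rw [hbot, Subgroup.mem_bot] at h1
    have h2 : x * y * x⁻¹ * y⁻¹ ∈ H := by
      rw [← QuotientGroup.eq_one_iff]
      exact h1
    have h3 : x * y * x⁻¹ * y⁻¹ ∈ P :=
      P.mul_mem (P.mul_mem (P.mul_mem hx hy) (P.inv_mem hx)) (P.inv_mem hy)
    have h4 := hinf _ h3 h2
    apply hxy
    calc x * y = (x * y * x⁻¹ * y⁻¹) * (y * x) := by group
      _ = y * x := by rw [h4, one_mul]
  obtain ⟨ψ, hψ⟩ := exists_nonlinear hq
  have hqcard : Nat.card (G ⧸ H) = Nat.card P := by
    have h1 := hc.card_mul_card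
    have h2 := Subgroup.card_mul_index H
    rw [← h2, mul_comm] at h1
    exact (Nat.eq_of_mul_eq_mul_left Nat.card_pos h1).symm
  have hψp : p ∣ charDegree (ψ : G ⧸ H → ℂ) := by
    obtain ⟨n, hn⟩ := IsPGroup.iff_card.mp hPp
    have h1 : charDegree (ψ : G ⧸ H → ℂ) ∣ p ^ n := by
      rw [← hn, ← hqcard]; exact irr_degree_dvd_card ψ
    obtain ⟨j, -, hj⟩ := (Nat.dvd_prime_pow hp).mp h1
    rcases Nat.eq_zero_or_pos j with h0 | h0
    · rw [h0, pow_zero] at hj; exact absurd hj hψ
    · rw [hj]; exact dvd_pow_self p h0.ne'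
  have hinfl : inflate H ψ = χ0 := huniq _ (by rw [charDegree_inflate]; exact hψp)
  have hker : ∀ h ∈ H, (χ0 : G → ℂ) h = (χ0 : G → ℂ) 1 := by
    intro h hh
    rw [← hinfl]
    exact inflate_ker H ψ h hh
  have hHbot : H = ⊥ := by
    by_contra hne
    have hnt : Nontrivial (G ⧸ P) := by
      rw [← Finite.one_lt_card_iff_nontrivial]
      have h1 : Nat.card (G ⧸ P) = Nat.card H := by
        have h1 := hc.card_mul_card
        have h2 := Subgroup.card_mul_index P
        rw [← h2] at h1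
        exact (Nat.eq_of_mul_eq_mul_left Nat.card_pos h1).symm
      rw [h1]
      have h2 : Nat.card H ≠ 1 := fun h => hne (Subgroup.card_eq_one.mp h)
      have h3 : 0 < Nat.card H := Nat.card_pos
      omega
    have hcomm' : commutator (G ⧸ P) ≠ ⊤ :=
      (Group.IsSolvable.commutator_lt_top_of_nontrivial (G ⧸ P)).ne
    obtain ⟨μ, hμ1, hμT⟩ := exists_nontriv_linear hcomm'
    have h1 : ∃ q : G ⧸ P, (μ : G ⧸ P → ℂ) q ≠ 1 := by
      by_contra hcon
      push Not at hcon
      exact hμT (Subtype.ext (funext fun q => by rw [hcon q, trivIrr_apply]))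
    obtain ⟨q, hq'⟩ := h1
    obtain ⟨g, rfl⟩ := QuotientGroup.mk_surjective q
    obtain ⟨⟨x', h'⟩, hxh⟩ := hc.2 g
    have hxh' : (x' : G) * (h' : G) = g := hxh
    set l := inflate P μ with hl
    have hl1 : (l : G → ℂ) 1 = 1 := by rw [hl, inflate_one, hμ1]
    have hlg : (l : G → ℂ) g = (μ : G ⧸ P → ℂ) (g : G ⧸ P) := inflate_apply P μ g
    have hlx : (l : G → ℂ) (x' : G) = 1 := by
      rw [hl, inflate_ker P μ x' x'.2, inflate_one, hμ1]
    have hlh : (l : G → ℂ) (h' : G) ≠ 1 := by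
      intro h
      apply hq'
      rw [← hlg, ← hxh', irr_linear_mul l.2 hl1, hlx, h, one_mul]
    have h2 : twist l χ0 hl1 = χ0 := huniq _ (by rw [charDegree_twist]; exact hχ0)
    have h3 := congrFun (congrArg Subtype.val h2) (h' : G)
    rw [twist_apply, hker h' h'.2] at h3
    have h4 : (χ0 : G → ℂ) 1 ≠ 0 := irr_one_ne_zero χ0.2
    apply hlh
    exact mul_right_cancel₀ h4 (by rw [h3, one_mul])
  rw [hHbot, Subgroup.isComplement'_bot_right] at hc
  rw [hc] at hPp
  exact hPp.of_equiv Subgroup.topEquiv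

theorem pow_add_pow_eq {p b c n : ℕ} (hp : p.Prime) (h : p ^ b + p ^ c = p ^ n) :
    p = 2 ∧ b = c := by
  have key : ∀ b c : ℕ, b < c → p ^ b + p ^ c ≠ p ^ n := by
    intro b c hbc h
    have h1 : p ^ c = p ^ b * p ^ (c - b) := by rw [← pow_add]; congr 1; omega
    rw [h1] at h
    have h2 : p ^ b * (1 + p ^ (c - b)) = p ^ n := by rw [← h]; ring
    have h3 : (1 + p ^ (c - b)) ∣ p ^ n := Dvd.intro_left _ h2
    obtain ⟨e, -, he⟩ := (Nat.dvd_prime_pow hp).mp h3
    have hpos : 0 < p ^ (c - b) := pow_pos hp.pos _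
    have h4 : e ≠ 0 := by
      rintro rfl
      rw [pow_zero] at he
      omega
    have h5 : p ∣ 1 + p ^ (c - b) := by rw [he]; exact dvd_pow_self p h4
    have h6 : p ∣ p ^ (c - b) := dvd_pow_self p (by omega)
    have h7 : p ∣ 1 := (Nat.dvd_add_left h6).mp h5
    exact hp.one_lt.ne' (Nat.dvd_one.mp h7)
  rcases Nat.lt_trichotomy b c with hbc | hbc | hbc
  · exact absurd h (key b c hbc)
  · subst hbc
    refine ⟨?_, rfl⟩
    have h1 : 2 ∣ p ^ n := ⟨p ^ b, by rw [← h]; ring⟩
    have h2 := Nat.Prime.dvd_of_dvd_pow Nat.prime_two h1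
    exact ((Nat.prime_dvd_prime_iff_eq Nat.prime_two hp).mp h2).symm
  · rw [add_comm] at h; exact absurd h (key c b hbc)

/-- A `p`-group with a unique irreducible character of degree divisible by `p` is an
extraspecial `2`-group. -/
theorem extraspecial_of_pgroup {G : Type*} [Group G] [Finite G] (p : ℕ) [hpf : Fact p.Prime]
    (hG : IsPGroup p G) (χ0 : IrrCharacter G) (hχ0 : p ∣ charDegree (χ0 : G → ℂ))
    (huniq : ∀ χ : IrrCharacter G, p ∣ charDegree (χ : G → ℂ) → χ = χ0) :
    p = 2 ∧ IsExtraspecial 2 G := by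
  classical
  have hp := hpf.out
  have := Fintype.ofFinite (IrrCharacter G)
  obtain ⟨n, hn⟩ := IsPGroup.iff_card.mp hG
  have hlin : ∀ χ : IrrCharacter G, χ ≠ χ0 → charDegree (χ : G → ℂ) = 1 := by
    intro χ hχ
    have h2 : charDegree (χ : G → ℂ) ∣ p ^ n := by rw [← hn]; exact irr_degree_dvd_card χ
    obtain ⟨j, -, hj⟩ := (Nat.dvd_prime_pow hp).mp h2
    rcases Nat.eq_zero_or_pos j with h0 | h0
    · rw [hj, h0, pow_zero]
    · exact absurd (huniq χ (by rw [hj]; exact dvd_pow_self p h0.ne')) hχ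
  set d0 := charDegree (χ0 : G → ℂ) with hd0
  have hd0ne : d0 ≠ 1 := by
    intro h; rw [h] at hχ0; exact hp.one_lt.ne' (Nat.dvd_one.mp hχ0)
  obtain ⟨j0, -, hj0⟩ : ∃ j, j ≤ n ∧ d0 = p ^ j :=
    (Nat.dvd_prime_pow hp).mp (by rw [← hn]; exact irr_degree_dvd_card χ0)
  set I := (commutator G).index with hI
  obtain ⟨b, -, hb⟩ : ∃ b, b ≤ n ∧ I = p ^ b :=
    (Nat.dvd_prime_pow hp).mp (by rw [← hn]; exact Subgroup.index_dvd_card _)
  have hsum := sum_charDegree_sq (G := G)
  rw [← Finset.add_sum_erase Finset.univ _ (Finset.mem_univ χ0)] at hsum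
  have h1 : ∑ χ ∈ Finset.univ.erase χ0, charDegree (χ : G → ℂ) ^ 2 = I := by
    rw [Finset.sum_congr rfl
      (fun χ hχ => by rw [hlin χ (Finset.mem_erase.mp hχ).1, one_pow])]
    rw [Finset.sum_const, smul_eq_mul, mul_one, hI, ← card_linear', Nat.card_eq_fintype_card,
      Fintype.card_subtype]
    congr 1
    ext χ
    simp only [Finset.mem_erase, Finset.mem_univ, and_true, Finset.mem_filter, true_and]
    constructor
    · intro h; exact hlin χ h
    · intro h hχ; rw [hχ] at h; exact hd0ne h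
  rw [h1, ← hd0] at hsum
  have hsum' : p ^ (j0 * 2) + p ^ b = p ^ n := by
    rw [pow_mul, ← hj0, ← hb, ← hn]; exact hsum
  obtain ⟨hp2, hbj⟩ := pow_add_pow_eq hp hsum'
  subst hp2
  refine ⟨rfl, ?_⟩
  have hId : I = d0 ^ 2 := by rw [hb, hj0, ← pow_mul, hbj]
  have hGI : Nat.card G = 2 * I := by rw [← hsum, hId]; ring
  have hc2 : Nat.card (commutator G) = 2 := by
    have h2 := Subgroup.card_mul_index (commutator G)
    rw [hGI, ← hI] at h2
    have hIpos : 0 < I := Nat.pos_of_ne_zero Subgroup.FiniteIndex.index_ne_zero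
    exact Nat.eq_of_mul_eq_mul_right hIpos h2
  have hcZ : commutator G ≤ Subgroup.center G := by
    intro c hc
    rw [Subgroup.mem_center_iff]
    intro g
    by_cases hc1 : c = 1
    · rw [hc1, mul_one, one_mul]
    · have hn' : (commutator G).Normal := inferInstance
      have h2 : g * c * g⁻¹ ∈ commutator G := hn'.conj_mem c hc g
      have h3 : g * c * g⁻¹ ≠ 1 := by
        intro h
        apply hc1
        calc c = g⁻¹ * (g * c * g⁻¹) * g := by group
          _ = 1 := by rw [h]; group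
      have h4 := eq_of_card_two _ hc2 h2 hc h3 hc1
      calc g * c = (g * c * g⁻¹) * g := by group
        _ = c * g := by rw [h4]
  have hZ2 : Nat.card (Subgroup.center G) ≤ 2 := by
    have h2 := degree_sq_mul_card_le χ0 (Subgroup.center G) le_rfl
    rw [hGI, hId, ← hd0] at h2
    have hd0pos : 0 < d0 ^ 2 := pow_pos (irr_degree χ0.2).1 2
    have h3 : d0 ^ 2 * Nat.card (Subgroup.center G) ≤ d0 ^ 2 * 2 := by rw [mul_comm (d0 ^ 2) 2]; exact h2
    exact Nat.le_of_mul_le_mul_left h3 hd0pos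
  have hceq : commutator G = Subgroup.center G :=
    Subgroup.eq_of_le_of_card_ge hcZ (by rw [hc2]; exact hZ2)
  have hZcard : Nat.card (Subgroup.center G) = 2 := by rw [← hceq]; exact hc2
  have hfr1 : frattini G ≤ Subgroup.center G := by
    apply Helper72.frattini_le_of_forall_pow_mem Nat.prime_two (Subgroup.center G)
    · intro x
      rw [Subgroup.mem_center_iff]
      intro y
      set c := x * y * x⁻¹ * y⁻¹ with hcdef
      have hcmem : c ∈ Subgroup.center G := by rw [← hceq]; exact comm_mem_commutator x y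
      have hcc : c * c = 1 := by
        have h2 : (⟨c, hcmem⟩ : Subgroup.center G) ^ Nat.card (Subgroup.center G) = 1 :=
          pow_card_eq_one'
        rw [hZcard] at h2
        have h3 := congrArg Subtype.val h2
        simpa [sq] using h3
      have hxy : x * y = c * (y * x) := by rw [hcdef]; group
      have hcx : x * c = c * x := Subgroup.mem_center_iff.mp hcmem x
      rw [sq]
      symm
      calc x * x * y = x * (x * y) := by group
        _ = x * (c * (y * x)) := by rw [hxy]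
        _ = (x * c) * (y * x) := by group
        _ = (c * x) * (y * x) := by rw [hcx]
        _ = c * ((x * y) * x) := by group
        _ = c * ((c * (y * x)) * x) := by rw [hxy]
        _ = (c * c) * (y * (x * x)) := by group
        _ = y * (x * x) := by rw [hcc, one_mul]
    · intro x y
      rw [← hceq]; exact comm_mem_commutator x y
  have hfr2 : Subgroup.center G ≤ frattini G := by
    rw [← hceq, commutator_eq_closure, Subgroup.closure_le]
    rintro _ ⟨x, y, rfl⟩
    rw [SetLike.mem_coe, commutatorElement_def]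
    exact Helper72.comm_mem_frattini hG x y
  exact ⟨⟨hG, le_antisymm hfr1 hfr2, hceq⟩, hZcard⟩

theorem result {G : Type*} [Group G] [Finite G] [Group.IsNilpotent G] (p : ℕ) [Fact p.Prime] : Nat.card {χ : Cfsg.IrrCharacter G // p ∣ Cfsg.charDegree (χ : G → ℂ)} = 1 ↔ (p = 2 ∧ Cfsg.IsExtraspecial 2 G) := by
  constructor
  · intro hone
    obtain ⟨hsub, ⟨χ0, hχ0⟩⟩ := Nat.card_eq_one_iff_unique.mp hone
    have huniq : ∀ χ : IrrCharacter G, p ∣ charDegree (χ : G → ℂ) → χ = χ0 :=
      fun χ h => congrArg Subtype.val (hsub.elim ⟨χ, h⟩ ⟨χ0, hχ0⟩)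
    have hG := isPGroup_of_one p χ0 hχ0 huniq
    exact extraspecial_of_pgroup p hG χ0 hχ0 huniq
  · rintro ⟨rfl, hE⟩
    exact card_of_extraspecial hE

end Cfsg.Agent.S4762
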