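import Cfsg.Statements.S4763
-- import your own Cfsg.Agent.* helpers here
import Cfsg.Agent.Lib.Helper83.Pc4

set_option autoImplicit false
open Cfsg

namespace Cfsg.Agent.S4763

/-- Let p be a prime and G a finite group that is not nilpotent and has a normal p-complement (a normal subgroup of order prime to p and index a power of p). If G has exactly one irreducible complex character of degree divisible by p, then G has exactly one conjugacy class whose size is divisible by p. -/
theorem result {G : Type*} [Group G] [Finite G] (p : ℕ) [Fact p.Prime] (hnil : ¬ Group.IsNilpotent G) (N : Subgroup G) [N.Normal] (hN : (Nat.card N).Coprime p) (hidx : ∃ k : ℕ, N.index = p ^ k) (hone : Nat.card {χ : Cfsg.IrrCharacter G // p ∣ Cfsg.charDegree (χ : G → ℂ)} = 1) : Nat.card {C : ConjClasses G // p ∣ Nat.card C.carrier} = 1 := by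
  classical
  let _ : Fintype G := Fintype.ofFinite _
  let _ : Fintype N := Fintype.ofFinite _
  obtain ⟨k, hk⟩ := hidx
  have hcomm := Lib.Helper83.pc_quot_comm p N hnil hN hk hone
  have hab : ∀ a b : G, a * b * a⁻¹ * b⁻¹ ∈ N := by
    intro a b
    rw [← QuotientGroup.eq_one_iff]
    simp only [QuotientGroup.mk_mul, QuotientGroup.mk_inv]
    rw [hcomm (a : G ⧸ N) (b : G ⧸ N)]
    group
  obtain ⟨P⟩ : Nonempty (Sylow p G) := inferInstance
  have h1 := Lib.Helper83.pc_good_count p N hN hk hcomm
  have h2 := Lib.Helper83.pc_inv_count p N P hN hk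
  have h3 := Lib.Helper83.pc_good_classes p N P hN hk hab
  have h4 := Lib.Helper83.pc_card_sylow p N P hN hk
  have h5 := Lib.Helper83.card_irr_eq_card_conjClasses (G := G)
  have := Lib.Helper4.irr_finite (G := G)
  have h6 : Nat.card (IrrCharacter G) =
      Nat.card {χ : IrrCharacter G // p ∣ charDegree (χ : G → ℂ)} +
        Nat.card {χ : IrrCharacter G // ¬ p ∣ charDegree (χ : G → ℂ)} := by
    rw [← Nat.card_sum]
    exact (Nat.card_congr (Equiv.sumCompl _)).symm
  have h7 : Nat.card (ConjClasses G) =
      Nat.card {C : ConjClasses G // p ∣ Nat.card C.carrier} +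
        Nat.card {C : ConjClasses G // ¬ p ∣ Nat.card C.carrier} := by
    rw [← Nat.card_sum]
    exact (Nat.card_congr (Equiv.sumCompl _)).symm
  rw [h1, h2, hone] at h6
  rw [h3, h4] at h7
  omega

end Cfsg.Agent.S4763
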