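import Cfsg.Statements.S4765
import Cfsg.Agent.Lib.Helper46.PSL2a

set_option autoImplicit false
open Cfsg

namespace Cfsg.Agent.S4765

open Cfsg.Agent.Lib.Helper46

/-- Let F be a finite field of characteristic p with at least 4 elements. Then PSL(2,F) has exactly one irreducible complex character of degree divisible by p, and its degree is the order of F. -/
theorem result (p : ℕ) [Fact p.Prime] (F : Type*) [Field F] [Fintype F] [CharP F p] (hF : 4 ≤ Fintype.card F) : Nat.card {χ : Cfsg.IrrCharacter (Matrix.ProjectiveSpecialLinearGroup (Fin 2) F) // p ∣ Cfsg.charDegree (χ : Matrix.ProjectiveSpecialLinearGroup (Fin 2) F → ℂ)} = 1 ∧ ∀ χ : Cfsg.IrrCharacter (Matrix.ProjectiveSpecialLinearGroup (Fin 2) F), p ∣ Cfsg.charDegree (χ : Matrix.ProjectiveSpecialLinearGroup (Fin 2) F → ℂ) → Cfsg.charDegree (χ : Matrix.ProjectiveSpecialLinearGroup (Fin 2) F → ℂ) = Fintype.card F := by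
  classical
  obtain ⟨n, hn⟩ := FiniteField.card F p
  have hp : p.Prime := Fact.out
  have hpq : p ∣ Fintype.card F := by rw [hn.2]; exact dvd_pow_self p n.ne_zero
  have hp1 : ¬ p ∣ 1 := fun h => hp.one_lt.ne' (Nat.dvd_one.mp h)
  have key : ∀ χ : Cfsg.IrrCharacter (Matrix.ProjectiveSpecialLinearGroup (Fin 2) F),
      p ∣ Cfsg.charDegree (χ : Matrix.ProjectiveSpecialLinearGroup (Fin 2) F → ℂ) →
      Cfsg.charDegree (χ : Matrix.ProjectiveSpecialLinearGroup (Fin 2) F → ℂ) = Fintype.card F := by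
    intro χ hχ
    have hmem : Cfsg.charDegree (χ : Matrix.ProjectiveSpecialLinearGroup (Fin 2) F → ℂ) ∈
        charDegrees (Matrix.ProjectiveSpecialLinearGroup (Fin 2) F) := ⟨χ, rfl⟩
    rcases sl2_charDegrees_sub (psl2_charDegrees_sub hmem) with h | h | h | h | ⟨-, h⟩ | ⟨-, h⟩
    · rw [h] at hχ
      exact absurd hχ hp1
    · exact h
    · exfalso
      rw [h] at hχ
      exact hp1 ((Nat.dvd_add_right hpq).mp hχ)
    · exfalso
      have h1 : p ∣ Cfsg.charDegree (χ : Matrix.ProjectiveSpecialLinearGroup (Fin 2) F → ℂ) + 1 := by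
        rw [h]; exact hpq
      exact hp1 ((Nat.dvd_add_right hχ).mp h1)
    · exfalso
      have h1 : p ∣ Fintype.card F + 1 := by
        rw [← h]; exact Dvd.dvd.mul_left hχ 2
      exact hp1 ((Nat.dvd_add_right hpq).mp h1)
    · exfalso
      have h1 : p ∣ 2 * Cfsg.charDegree (χ : Matrix.ProjectiveSpecialLinearGroup (Fin 2) F → ℂ) + 1 := by
        rw [h]; exact hpq
      exact hp1 ((Nat.dvd_add_right (Dvd.dvd.mul_left hχ 2)).mp h1)
  refine ⟨?_, key⟩
  rw [Nat.card_eq_one_iff_unique]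
  constructor
  · constructor
    rintro ⟨χ₁, h₁⟩ ⟨χ₂, h₂⟩
    apply Subtype.ext
    show χ₁ = χ₂
    apply Cfsg.Agent.Lib.Helper83.inflate_injective
      (Subgroup.center (Matrix.SpecialLinearGroup (Fin 2) F))
    rw [sl2_eq_stS_of_deg hF (Cfsg.Agent.Lib.Helper83.inflate _ χ₁)
        (by rw [deg_inflate, ← charDegree_eq_deg]; exact key χ₁ h₁),
      sl2_eq_stS_of_deg hF (Cfsg.Agent.Lib.Helper83.inflate _ χ₂)
        (by rw [deg_inflate, ← charDegree_eq_deg]; exact key χ₂ h₂)]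
  · obtain ⟨χ, hχ⟩ := card_mem_charDegrees_psl2 (F := F)
    exact ⟨⟨χ, by rw [hχ]; exact hpq⟩⟩

end Cfsg.Agent.S4765
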