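import Cfsg.Statements.S4774
import Cfsg.Agent.Lib.Helper46.PSL2b

set_option autoImplicit false
open Cfsg

namespace Cfsg.Agent.S4774

open Cfsg.Agent.Lib.Helper46

/-- Let F be a finite field of odd characteristic t with q > 5 elements and let S be isomorphic to PSL(2,F) or to SL(2,F). Then the vertices of the character degree graph of S are the primes dividing q(q²−1); the prime t is adjacent to no vertex; two distinct primes dividing q² − 1 are adjacent exactly when one of them is 2, or both divide q + 1, or both divide q − 1. -/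
theorem result (F : Type*) [Field F] [Fintype F] (t : ℕ) [Fact t.Prime] [CharP F t] (ht : t ≠ 2) (q : ℕ) (hq : Fintype.card F = q) (h5 : 5 < q) {S : Type*} [Group S] [Finite S] (hS : Nonempty (S ≃* Matrix.ProjectiveSpecialLinearGroup (Fin 2) F) ∨ Nonempty (S ≃* Matrix.SpecialLinearGroup (Fin 2) F)) : Cfsg.degreePrimes S = {r : ℕ | r.Prime ∧ r ∣ q * (q ^ 2 - 1)} ∧ ∀ r s : ℕ, (Cfsg.degreeGraph S).Adj r s ↔ (r ≠ s ∧ r.Prime ∧ s.Prime ∧ r ∣ q ^ 2 - 1 ∧ s ∣ q ^ 2 - 1 ∧ (r = 2 ∨ s = 2 ∨ (r ∣ q + 1 ∧ s ∣ q + 1) ∨ (r ∣ q - 1 ∧ s ∣ q - 1))) := by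
  classical
  obtain ⟨n, -, hn⟩ := FiniteField.card F t
  have htp : t.Prime := Fact.out
  have hodd : Odd q := by
    rw [← hq, hn]
    exact (htp.eq_two_or_odd'.resolve_left ht).pow
  obtain ⟨k, hk⟩ := hodd
  have hk' : Fintype.card F = 2 * k + 1 := by omega
  obtain ⟨p1, p2⟩ := psl2_odd_degrees (F := F) k hk' (by omega)
  have p0 := card_mem_charDegrees_psl2 (F := F)
  have e1 : 2 * k + 2 = q + 1 := by omega
  have e2 : 2 * k = q - 1 := by omega
  rw [e1] at p1
  rw [e2] at p2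
  rw [hq] at p0
  have hsub : charDegrees S ⊆ charDegrees (Matrix.SpecialLinearGroup (Fin 2) F) := by
    rcases hS with ⟨⟨e⟩⟩ | ⟨⟨e⟩⟩
    · rw [charDegrees_congr e]; exact psl2_charDegrees_sub
    · rw [charDegrees_congr e]
  have hsup : charDegrees (Matrix.ProjectiveSpecialLinearGroup (Fin 2) F) ⊆ charDegrees S := by
    rcases hS with ⟨⟨e⟩⟩ | ⟨⟨e⟩⟩
    · rw [charDegrees_congr e]
    · rw [charDegrees_congr e]; exact psl2_charDegrees_sub
  apply degreeGraph_odd (S := S) q t n htp (by rw [← hq, hn]) ⟨k, hk⟩ (by omega)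
  · intro d hd
    rcases sl2_charDegrees_sub (hsub hd) with h | h | h | h | ⟨-, h⟩ | ⟨-, h⟩ <;> omega
  · exact hsup p0
  · exact hsup p1
  · exact hsup p2

end Cfsg.Agent.S4774
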