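import Cfsg.Statements.S4784
import Cfsg.Agent.Lib.Helper83.Quot
import Cfsg.Agent.Lib.Helper4.CharEquiv

set_option autoImplicit false
open Cfsg

namespace Cfsg.Agent.S4784

open scoped ComplexConjugate
open Cfsg.Agent.Lib

section

variable {G : Type*} [Group G] [Fintype G]

/-- The permutation character on the cosets of `H`. -/
noncomputable abbrev perm (H : Subgroup G) : G → ℂ := indFun H (fun _ : H => (1 : ℂ))

theorem isCharacter_perm (H : Subgroup G) : IsCharacter G (perm H) := by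
  apply Helper4.isCharacter_indFun
  exact Helper4.isCharacter_of_irr (Helper83.trivIrr H)

theorem inner_perm (H : Subgroup G) [Fintype H] (χ : IrrCharacter G) :
    classInner (perm H) (χ : G → ℂ) =
      (Nat.card H : ℂ)⁻¹ * ∑ h : H, conj ((χ : G → ℂ) h) := by
  rw [perm, Helper4.frobenius_reciprocity H _ _
    (fun g h => Helper83.irr_classFunction χ.2 g h)]
  unfold classInner
  simp

theorem inner_perm_triv (H : Subgroup G) :
    classInner (perm H) (Helper83.trivIrr G : G → ℂ) = 1 := by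
  classical
  rw [inner_perm]
  simp only [Helper83.trivIrr_apply, map_one, Finset.sum_const, Finset.card_univ, nsmul_eq_mul,
    mul_one]
  rw [Nat.card_eq_fintype_card, inv_mul_cancel₀]
  exact_mod_cast Fintype.card_ne_zero

theorem ker_of_inner_ne_zero (H : Subgroup G) (χ : IrrCharacter G)
    (h : classInner (perm H) (χ : G → ℂ) ≠ 0) :
    ∀ x ∈ H.normalCore, (χ : G → ℂ) x = (χ : G → ℂ) 1 := by
  classical
  by_contra hcon
  push Not at hcon
  obtain ⟨x, hxN, hx1⟩ := hcon
  apply h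
  rw [inner_perm]
  have hz : ∀ g : G, ∑ n : H.normalCore, (χ : G → ℂ) (g * (n : G)) = 0 :=
    Helper83.irr_sum_normal_eq_zero H.normalCore χ.2 x hxN hx1
  have hle : H.normalCore ≤ H := Subgroup.normalCore_le H
  have key : ∀ n : H.normalCore, ∑ h : H, (χ : G → ℂ) h =
      ∑ h : H, (χ : G → ℂ) ((h : G) * (n : G)) := by
    intro n
    exact (Fintype.sum_equiv (Equiv.mulRight (⟨n, hle n.2⟩ : H))
      (fun h : H => (χ : G → ℂ) ((h : G) * (n : G))) (fun h : H => (χ : G → ℂ) h)
      (fun h => rfl)).symm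
  have h2 : (Nat.card H.normalCore : ℂ) * ∑ h : H, (χ : G → ℂ) h = 0 := by
    have h3 : ∑ n : H.normalCore, ∑ h : H, (χ : G → ℂ) ((h : G) * (n : G)) = 0 := by
      rw [Finset.sum_comm]
      exact Finset.sum_eq_zero (fun h _ => hz h)
    have h4 : ∑ n : H.normalCore, ∑ h : H, (χ : G → ℂ) ((h : G) * (n : G)) =
        ∑ n : H.normalCore, ∑ h : H, (χ : G → ℂ) h :=
      Finset.sum_congr rfl (fun n _ => (key n).symm)
    rw [h4, Finset.sum_const, Finset.card_univ, nsmul_eq_mul] at h3
    rw [Nat.card_eq_fintype_card]; exact h3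
  have h3 : ∑ h : H, (χ : G → ℂ) h = 0 := by
    rcases mul_eq_zero.mp h2 with h0 | h0
    · exact absurd h0 (by exact_mod_cast Nat.card_pos.ne')
    · exact h0
  rw [← map_sum, h3, map_zero, mul_zero]

theorem eq_triv_of_odd (H : Subgroup G) (hodd : Odd H.normalCore.index) (χ : IrrCharacter G)
    (h : classInner (perm H) (χ : G → ℂ) ≠ 0)
    (hreal : ∀ g : G, conj ((χ : G → ℂ) g) = (χ : G → ℂ) g) :
    χ = Helper83.trivIrr G := by
  classical
  have hker := ker_of_inner_ne_zero H χ h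
  obtain ⟨ψ, hψ⟩ := Helper83.exists_inflate_eq H.normalCore χ hker
  have hψr : ∀ q : G ⧸ H.normalCore, ((ψ : G ⧸ H.normalCore → ℂ) q).im = 0 := by
    intro q
    obtain ⟨g, rfl⟩ := QuotientGroup.mk_surjective q
    have h1 : (ψ : G ⧸ H.normalCore → ℂ) (g : G ⧸ H.normalCore) = (χ : G → ℂ) g := by
      rw [← hψ, Helper83.inflate_apply]
    rw [h1]
    exact Complex.conj_eq_iff_im.mp (hreal g)
  have := Fintype.ofFinite (G ⧸ H.normalCore)
  have hψt := Helper4.real_irr_eq_triv (by rwa [Subgroup.index] at hodd) ψ hψr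
  apply Subtype.ext
  funext g
  rw [← hψ, Helper83.inflate_apply, hψt, Helper4.trivIrr_apply, Helper83.trivIrr_apply]

theorem fs_int (χ : IrrCharacter G) :
    ∃ k : ℤ, (k = 0 ∨ k = 1 ∨ k = -1) ∧
      (Nat.card G : ℂ)⁻¹ * ∑ g : G, (χ : G → ℂ) (g * g) = (k : ℂ) ∧
      (k ≠ 0 → ∀ g : G, conj ((χ : G → ℂ) g) = (χ : G → ℂ) g) := by
  obtain ⟨n, ρ, hρ, hχ⟩ := χ.2
  have := hρ
  obtain ⟨h1, h2⟩ := Helper4.frobenius_schur ρ
  rw [hχ] at h1 h2
  rcases h1 with h | h | h
  · exact ⟨0, Or.inl rfl, by simpa using h, fun h0 => absurd rfl h0⟩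
  · refine ⟨1, Or.inr (Or.inl rfl), by simpa using h, fun _ g => ?_⟩
    rw [Complex.conj_eq_iff_im]
    by_contra him
    have h3 := h2.mpr ⟨g, him⟩
    rw [h] at h3
    exact one_ne_zero h3
  · refine ⟨-1, Or.inr (Or.inr rfl), by simpa using h, fun _ g => ?_⟩
    rw [Complex.conj_eq_iff_im]
    by_contra him
    have h3 := h2.mpr ⟨g, him⟩
    rw [h] at h3
    norm_num at h3

omit [Fintype G] in
theorem ext_one (H : Subgroup G) [DecidablePred (· ∈ H)] (y : G) :
    extendByZero H (fun _ : H => (1 : ℂ)) y = if y ∈ H then 1 else 0 := by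
  split_ifs with hy
  · rw [Helper4.extendByZero_apply_mem' H _ hy]
  · rw [Helper4.extendByZero_apply_not_mem H _ hy]

theorem sum_perm_sq (H : Subgroup G) [DecidablePred (· ∈ H)] :
    ∑ g : G, perm H (g * g) * (Nat.card H : ℂ) =
      (Nat.card G : ℂ) * ((Finset.univ.filter (fun g : G => g * g ∈ H)).card : ℂ) := by
  have hH : (Nat.card H : ℂ) ≠ 0 := by exact_mod_cast Nat.card_pos.ne'
  have h1 : ∀ g : G, perm H (g * g) * (Nat.card H : ℂ) =
      ∑ x : G, extendByZero H (fun _ : H => (1 : ℂ)) (x⁻¹ * (g * g) * x) := by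
    intro g
    rw [perm, Helper4.indFun_apply]
    field_simp
  simp only [h1]
  rw [Finset.sum_comm]
  have h2 : ∀ x : G, ∑ g : G, extendByZero H (fun _ : H => (1 : ℂ)) (x⁻¹ * (g * g) * x) =
      ((Finset.univ.filter (fun g : G => g * g ∈ H)).card : ℂ) := by
    intro x
    rw [Finset.card_filter, Nat.cast_sum]
    refine Fintype.sum_equiv (MulAut.conj x⁻¹).toEquiv _ _ (fun g => ?_)
    rw [ext_one]
    have h3 : (MulAut.conj x⁻¹).toEquiv g * (MulAut.conj x⁻¹).toEquiv g = x⁻¹ * (g * g) * x := by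
      simp only [MulEquiv.toEquiv_eq_coe, MulEquiv.coe_toEquiv, MulAut.conj_apply, inv_inv]
      group
    rw [h3]
    split_ifs <;> simp
  simp only [h2]
  rw [Finset.sum_const, Finset.card_univ, nsmul_eq_mul, Nat.card_eq_fintype_card]

theorem odd_of_unique (H : Subgroup G)
    (huniq : ∀ χ : IrrCharacter G, classInner (perm H) (χ : G → ℂ) ≠ 0 →
      (∀ g : G, conj ((χ : G → ℂ) g) = (χ : G → ℂ) g) →
      (Nat.card G : ℂ)⁻¹ * ∑ g : G, (χ : G → ℂ) (g * g) = 1 → χ = Helper83.trivIrr G) :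
    Odd H.normalCore.index := by
  classical
  have := Fintype.ofFinite (IrrCharacter G)
  by_contra hodd
  rw [Nat.not_odd_iff_even] at hodd
  have h2 : 2 ∣ Nat.card (G ⧸ H.normalCore) := hodd.two_dvd
  have : Fact (Nat.Prime 2) := ⟨Nat.prime_two⟩
  obtain ⟨q, hq⟩ := exists_prime_orderOf_dvd_card' 2 h2
  obtain ⟨x, rfl⟩ := QuotientGroup.mk_surjective q
  have hxN : x ∉ H.normalCore := by
    intro hx
    have h3 : ((x : G) : G ⧸ H.normalCore) = 1 := (QuotientGroup.eq_one_iff x).mpr hx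
    rw [h3, orderOf_one] at hq
    omega
  have hxx : x * x ∈ H.normalCore := by
    rw [← QuotientGroup.eq_one_iff, QuotientGroup.mk_mul, ← sq, ← hq, pow_orderOf_eq_one]
  obtain ⟨b, hb⟩ : ∃ b : G, b * x * b⁻¹ ∉ H := by
    by_contra hcon
    push Not at hcon
    exact hxN hcon
  set y := b * x * b⁻¹ with hy
  have hyy : y * y ∈ H := by
    have h3 : y * y = b * (x * x) * b⁻¹ := by rw [hy]; group
    rw [h3]
    exact Subgroup.normalCore_le H (H.normalCore_normal.conj_mem _ hxx b)
  obtain ⟨m, hm⟩ := Helper4.exists_decomp_of_isCharacter (perm H) (isCharacter_perm H)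
  have hinner : ∀ χ : IrrCharacter G, classInner (perm H) (χ : G → ℂ) = (m χ : ℂ) := by
    intro χ
    rw [hm]
    exact Helper4.classInner_sum_irr (fun χ => (m χ : ℂ)) χ
  choose ν hν0 hν1 hν2 using fs_int (G := G)
  set K := (Finset.univ.filter (fun g : G => g * g ∈ H)).card with hK
  have hsum : ((∑ χ : IrrCharacter G, (m χ : ℤ) * ν χ : ℤ) : ℂ) * (Nat.card H : ℂ) = (K : ℂ) := by
    have h4 := sum_perm_sq H
    have hG : (Nat.card G : ℂ) ≠ 0 := by exact_mod_cast Nat.card_pos.ne'
    have h5 : ∑ g : G, perm H (g * g) =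
        (Nat.card G : ℂ) * ((∑ χ : IrrCharacter G, (m χ : ℤ) * ν χ : ℤ) : ℂ) := by
      have h6 : ∀ g : G, perm H (g * g) =
          ∑ χ : IrrCharacter G, (m χ : ℂ) * (χ : G → ℂ) (g * g) := by
        intro g
        have h7 := congrFun hm (g * g)
        rw [h7]
        simp [Finset.sum_apply]
      simp only [h6]
      rw [Finset.sum_comm]
      push_cast
      rw [Finset.mul_sum]
      apply Finset.sum_congr rfl
      intro χ _
      rw [← Finset.mul_sum, ← hν1 χ]
      field_simp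
    rw [← Finset.sum_mul, h5] at h4
    exact mul_left_cancel₀ hG (by rw [← mul_assoc]; exact h4)
  have hsumZ : (∑ χ : IrrCharacter G, (m χ : ℤ) * ν χ) * (Nat.card H : ℤ) = (K : ℤ) := by
    exact_mod_cast hsum
  have hKge : Nat.card H + 1 ≤ K := by
    have hsub : insert y (Finset.univ.filter (fun g : G => g ∈ H)) ⊆
        Finset.univ.filter (fun g : G => g * g ∈ H) := by
      intro g hg
      rw [Finset.mem_insert] at hg
      rw [Finset.mem_filter]
      refine ⟨Finset.mem_univ _, ?_⟩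
      rcases hg with rfl | hg
      · exact hyy
      · exact H.mul_mem (Finset.mem_filter.mp hg).2 (Finset.mem_filter.mp hg).2
    have hcard := Finset.card_le_card hsub
    rw [Finset.card_insert_of_notMem (by simp [hb])] at hcard
    have hH : (Finset.univ.filter (fun g : G => g ∈ H)).card = Nat.card H := by
      rw [Nat.card_eq_fintype_card, Fintype.card_subtype]
    rw [hH] at hcard
    exact hcard
  have hT : (m (Helper83.trivIrr G) : ℤ) * ν (Helper83.trivIrr G) = 1 := by
    have h7 : m (Helper83.trivIrr G) = 1 := by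
      have h := hinner (Helper83.trivIrr G)
      rw [inner_perm_triv] at h
      exact_mod_cast h.symm
    have h8 : ν (Helper83.trivIrr G) = 1 := by
      have h := hν1 (Helper83.trivIrr G)
      simp only [Helper83.trivIrr_apply, Finset.sum_const, Finset.card_univ, nsmul_eq_mul,
        mul_one] at h
      rw [Nat.card_eq_fintype_card,
        inv_mul_cancel₀ (by exact_mod_cast Fintype.card_ne_zero)] at h
      exact_mod_cast h.symm
    rw [h7, h8]; norm_num
  have hle : ∑ χ : IrrCharacter G, (m χ : ℤ) * ν χ ≤ 1 := by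
    rw [← Finset.add_sum_erase Finset.univ _ (Finset.mem_univ (Helper83.trivIrr G)), hT]
    have h9 : ∑ χ ∈ Finset.univ.erase (Helper83.trivIrr G), (m χ : ℤ) * ν χ ≤ 0 := by
      apply Finset.sum_nonpos
      intro χ hχ
      have hne : χ ≠ Helper83.trivIrr G := (Finset.mem_erase.mp hχ).1
      by_cases hm0 : m χ = 0
      · rw [hm0]; simp
      · have hν : ν χ ≠ 1 := by
          intro h1
          apply hne
          apply huniq χ
          · rw [hinner]; exact_mod_cast hm0
          · exact hν2 χ (by rw [h1]; norm_num)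
          · rw [hν1 χ, h1]; norm_num
        have hνle : ν χ ≤ 0 := by
          rcases hν0 χ with h | h | h
          · rw [h]
          · exact absurd h hν
          · rw [h]; norm_num
        exact mul_nonpos_of_nonneg_of_nonpos (by positivity) hνle
    linarith
  have hHpos : (0 : ℤ) < (Nat.card H : ℤ) := by exact_mod_cast Nat.card_pos
  have hKle : (K : ℤ) ≤ (Nat.card H : ℤ) := by
    rw [← hsumZ]
    nlinarith
  have hKle' : K ≤ Nat.card H := by exact_mod_cast hKle
  omega

end

theorem result {G : Type*} [Group G] [Fintype G] (H : Subgroup G) : Nat.card {χ : Cfsg.IrrCharacter G // Cfsg.classInner (Cfsg.indFun H (fun _ : H => (1 : ℂ))) (χ : G → ℂ) ≠ 0 ∧ (∀ g : G, (starRingEnd ℂ) ((χ : G → ℂ) g) = (χ : G → ℂ) g) ∧ (Nat.card G : ℂ)⁻¹ * ∑ g : G, (χ : G → ℂ) (g * g) = 1} = 1 ↔ Odd H.normalCore.index := by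
  classical
  have hTmem : Cfsg.classInner (Cfsg.indFun H (fun _ : H => (1 : ℂ))) (Helper83.trivIrr G : G → ℂ) ≠ 0 ∧ (∀ g : G, (starRingEnd ℂ) ((Helper83.trivIrr G : G → ℂ) g) = (Helper83.trivIrr G : G → ℂ) g) ∧ (Nat.card G : ℂ)⁻¹ * ∑ g : G, (Helper83.trivIrr G : G → ℂ) (g * g) = 1 := by
    refine ⟨?_, ?_, ?_⟩
    · rw [inner_perm_triv]; exact one_ne_zero
    · intro g; simp [Helper83.trivIrr_apply]
    · simp only [Helper83.trivIrr_apply, Finset.sum_const, Finset.card_univ, nsmul_eq_mul,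
        mul_one]
      rw [Nat.card_eq_fintype_card, inv_mul_cancel₀]
      exact_mod_cast Fintype.card_ne_zero
  constructor
  · intro hcard
    apply odd_of_unique H
    intro χ h1 h2 h3
    rw [Nat.card_eq_one_iff_unique] at hcard
    obtain ⟨hsub, _⟩ := hcard
    have h4 := hsub.elim ⟨χ, h1, h2, h3⟩ ⟨Helper83.trivIrr G, hTmem⟩
    exact congrArg Subtype.val h4
  · intro hodd
    rw [Nat.card_eq_one_iff_unique]
    refine ⟨⟨fun a b => ?_⟩, ⟨⟨Helper83.trivIrr G, hTmem⟩⟩⟩
    exact Subtype.ext ((eq_triv_of_odd H hodd a.1 a.2.1 a.2.2.1).trans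
      (eq_triv_of_odd H hodd b.1 b.2.1 b.2.2.1).symm)

end Cfsg.Agent.S4784
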