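import Cfsg.Statements.S4796
import Cfsg.Agent.Lib.Helper83.Central

set_option autoImplicit false
open Cfsg
open Cfsg.Agent.Lib.Helper83

namespace Cfsg.Agent.S4796

theorem charDegree_trivIrr' (S : Type*) [Group S] : charDegree (trivIrr S : S → ℂ) = 1 := by
  unfold charDegree
  rw [trivIrr_apply]
  simp

/-- If `|G| = p · ψ(1)` then `ψ(1) < p` and the Sylow `p`-subgroup is normal of order `p`. -/
theorem sylow_facts {G : Type*} [Group G] [Finite G] (ψ : IrrCharacter G)
    (p : ℕ) [hpf : Fact p.Prime] (hcard : Nat.card G = p * charDegree (ψ : G → ℂ)) :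
    charDegree (ψ : G → ℂ) < p ∧
      ∃ P : Sylow p G, Nat.card P = p ∧ (P : Subgroup G).Normal ∧
        (P : Subgroup G).index = charDegree (ψ : G → ℂ) := by
  classical
  have := Fintype.ofFinite (IrrCharacter G)
  have hp : p.Prime := hpf.out
  set d := charDegree (ψ : G → ℂ) with hd
  have hdpos : 0 < d := (irr_degree ψ.2).1
  have hdp : d < p := by
    by_cases ht : ψ = trivIrr G
    · rw [hd, ht, charDegree_trivIrr']
      exact hp.one_lt
    · have hsum := sum_charDegree_sq (G := G)
      have hle : ∑ χ ∈ ({ψ, trivIrr G} : Finset (IrrCharacter G)), charDegree (χ : G → ℂ) ^ 2 ≤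
          ∑ χ : IrrCharacter G, charDegree (χ : G → ℂ) ^ 2 :=
        Finset.sum_le_sum_of_subset (Finset.subset_univ _)
      rw [Finset.sum_pair ht, charDegree_trivIrr', hsum, hcard, ← hd] at hle
      by_contra hge
      push Not at hge
      nlinarith
  have hpd : ¬ p ∣ d := fun h => by
    have := Nat.le_of_dvd hdpos h
    omega
  obtain ⟨P⟩ := (inferInstance : Nonempty (Sylow p G))
  have hPcard : Nat.card P = p := by
    rw [Sylow.card_eq_multiplicity, hcard, Nat.factorization_mul hp.ne_zero hdpos.ne']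
    simp [Nat.Prime.factorization_self hp, Nat.factorization_eq_zero_of_not_dvd hpd]
  have hPidx : (P : Subgroup G).index = d := by
    have h := Subgroup.card_mul_index (P : Subgroup G)
    rw [hPcard, hcard] at h
    exact Nat.eq_of_mul_eq_mul_left hp.pos h
  have hn1 : Nat.card (Sylow p G) = 1 := by
    have h1 := card_sylow_modEq_one p G
    have h2 := Sylow.card_dvd_index P
    rw [hPidx] at h2
    have h3 : Nat.card (Sylow p G) ≤ d := Nat.le_of_dvd hdpos h2
    have h4 : Nat.card (Sylow p G) < p := by omega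
    unfold Nat.ModEq at h1
    rw [Nat.mod_eq_of_lt h4, Nat.mod_eq_of_lt hp.one_lt] at h1
    exact h1
  have : Subsingleton (Sylow p G) := (Nat.card_eq_one_iff_unique.mp hn1).1
  have hPn : (P : Subgroup G).Normal := Sylow.normal_of_subsingleton P
  exact ⟨hdp, P, hPcard, hPn, hPidx⟩

/-- A normal self-centralizing subgroup of prime order with a nontrivial complement `H` is the
Frobenius kernel of the Frobenius complement `H`. -/
theorem frobenius_of_selfcent {G : Type*} [Group G] [Finite G] (p : ℕ) (hp : p.Prime)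
    (P : Subgroup G) [hPn : P.Normal] (hPcard : Nat.card P = p)
    (hcent : Subgroup.centralizer (P : Set G) = P)
    (H : Subgroup G) (hc : P.IsComplement' H) (hH1 : H ≠ ⊥) :
    IsFrobeniusComplement H ∧ frobeniusKernel H = (P : Set G) := by
  have hinf : ∀ x : G, x ∈ P → x ∈ H → x = 1 := by
    intro x hxP hxH
    have h1 : x ∈ P ⊓ H := ⟨hxP, hxH⟩
    rw [disjoint_iff.mp hc.disjoint] at h1
    exact Subgroup.mem_bot.mp h1
  have hsurj : ∀ g : G, ∃ n ∈ P, ∃ h ∈ H, n * h = g := by
    intro g
    obtain ⟨⟨n, h⟩, hnh⟩ := hc.2 g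
    exact ⟨n, n.2, h, h.2, hnh⟩
  -- an element commuting with a nontrivial element of `P` lies in `P`
  have hcomm : ∀ n : G, n ∈ P → n ≠ 1 → ∀ y : G, y * n = n * y → y ∈ P := by
    intro n hn hn1 y hy
    have hz : Subgroup.zpowers n = P := by
      apply Subgroup.eq_of_le_of_card_ge (Subgroup.zpowers_le.mpr hn)
      rw [Nat.card_zpowers, hPcard]
      have h1 : orderOf n ∣ p := by
        have h2 := orderOf_dvd_natCard (⟨n, hn⟩ : P)
        rw [hPcard] at h2
        rwa [← Subgroup.orderOf_mk n hn]
      rcases (Nat.dvd_prime hp).mp h1 with h2 | h2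
      · exact absurd (orderOf_eq_one_iff.mp h2) hn1
      · exact h2.ge
    rw [← hcent, Subgroup.mem_centralizer_iff]
    intro z hz'
    rw [SetLike.mem_coe, ← hz] at hz'
    obtain ⟨k, rfl⟩ := Subgroup.mem_zpowers_iff.mp hz'
    have h3 : Commute y n := hy
    exact (h3.zpow_right k).symm.eq
  refine ⟨⟨hH1, ?_, ?_⟩, ?_⟩
  · rintro rfl
    have h1 : P = ⊥ := by
      have h2 := disjoint_iff.mp hc.disjoint
      rwa [inf_top_eq] at h2
    rw [h1, Subgroup.card_bot] at hPcard
    exact hp.one_lt.ne' hPcard.symm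
  · intro g hg
    rw [eq_bot_iff]
    intro x hx
    obtain ⟨hxH, hxc⟩ := Subgroup.mem_inf.mp hx
    rw [Subgroup.mem_bot]
    rw [Subgroup.mem_smul_pointwise_iff_exists] at hxc
    obtain ⟨y, hyH, hyx⟩ := hxc
    rw [MulAut.smul_def, MulAut.conj_apply] at hyx
    obtain ⟨n, hnP, h, hhH, rfl⟩ := hsurj g
    have hn1 : n ≠ 1 := by
      rintro rfl
      rw [one_mul] at hg
      exact hg hhH
    set y' := h * y * h⁻¹ with hy'
    have hy'H : y' ∈ H := H.mul_mem (H.mul_mem hhH hyH) (H.inv_mem hhH)
    have hx : x = n * y' * n⁻¹ := by rw [← hyx, hy']; group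
    have h1 : x * y'⁻¹ ∈ P := by
      have h2 : x * y'⁻¹ = n * (y' * n⁻¹ * y'⁻¹) := by rw [hx]; group
      rw [h2]
      exact P.mul_mem hnP (hPn.conj_mem _ (P.inv_mem hnP) y')
    have h2 : x * y'⁻¹ ∈ H := H.mul_mem hxH (H.inv_mem hy'H)
    have h3 : x = y' := by
      have h4 := hinf _ h1 h2
      exact mul_inv_eq_one.mp h4
    have h4 : y' * n = n * y' := by
      have h5 : n * y' * n⁻¹ = y' := by rw [← hx, h3]
      calc y' * n = (n * y' * n⁻¹) * n := by rw [h5]
        _ = n * y' := by group
    have h5 : y' ∈ P := hcomm n hnP hn1 y' h4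
    rw [h3]
    exact hinf _ h5 hy'H
  · ext x
    constructor
    · rintro (rfl | hx)
      · exact P.one_mem
      · by_contra hxP
        obtain ⟨n, hnP, h, hhH, rfl⟩ := hsurj x
        have hh1 : h ≠ 1 := by
          rintro rfl
          rw [mul_one] at hxP
          exact hxP hnP
        let φ : P → P := fun m => ⟨(m : G) * (h * (m : G)⁻¹ * h⁻¹),
          P.mul_mem m.2 (hPn.conj_mem _ (P.inv_mem m.2) h)⟩
        have hφ : Function.Injective φ := by
          intro m m' hmm
          have h1 : (m : G) * (h * (m : G)⁻¹ * h⁻¹) = (m' : G) * (h * (m' : G)⁻¹ * h⁻¹) :=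
            congrArg Subtype.val hmm
          by_contra hne
          set w : G := (m' : G)⁻¹ * (m : G) with hw
          have hwP : w ∈ P := P.mul_mem (P.inv_mem m'.2) m.2
          have hw1 : w ≠ 1 := by
            intro h2
            apply hne
            apply Subtype.ext
            have h3 : (m : G) = (m' : G) * w := by rw [hw]; group
            rw [h3, h2, mul_one]
          have h2 : h * w = w * h := by
            have h3 : w * h = (m' : G)⁻¹ * ((m : G) * (h * (m : G)⁻¹ * h⁻¹)) * h * (m : G) := by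
              rw [hw]; group
            rw [h3, h1]
            rw [hw]; group
          have h3 : h ∈ P := hcomm w hwP hw1 h h2
          exact hh1 (hinf h h3 hhH)
        obtain ⟨m, hm⟩ := (Finite.injective_iff_surjective.mp hφ) ⟨n, hnP⟩
        have hm' : (m : G) * (h * (m : G)⁻¹ * h⁻¹) = n := congrArg Subtype.val hm
        apply hx (m : G)
        rw [Subgroup.mem_smul_pointwise_iff_exists]
        refine ⟨h, hhH, ?_⟩
        rw [MulAut.smul_def, MulAut.conj_apply, ← hm']
        group
    · intro hxP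
      by_cases hx1 : x = 1
      · exact Or.inl hx1
      · right
        intro g hxg
        rw [Subgroup.mem_smul_pointwise_iff_exists] at hxg
        obtain ⟨y, hyH, hyx⟩ := hxg
        rw [MulAut.smul_def, MulAut.conj_apply] at hyx
        have hyP : y ∈ P := by
          have h1 : y = g⁻¹ * x * g⁻¹⁻¹ := by rw [← hyx]; group
          rw [h1]
          exact hPn.conj_mem x hxP g⁻¹
        have hy1 := hinf y hyP hyH
        rw [hy1] at hyx
        apply hx1
        rw [← hyx]; group

theorem result {G : Type*} [Group G] [Finite G] (χ : Cfsg.IrrCharacter G) (hfaith : ∀ g : G, (χ : G → ℂ) g = (χ : G → ℂ) 1 → g = 1) (p : ℕ) (hp : p.Prime) (hcod : Nat.card G = p * Cfsg.charDegree (χ : G → ℂ)) : (IsCyclic G ∧ Nat.card G = p) ∨ ∃ H : Subgroup G, Cfsg.IsFrobeniusComplement H ∧ Nat.card ↥(Cfsg.frobeniusKernel H) = p := by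
  classical
  have hpf : Fact p.Prime := ⟨hp⟩
  obtain ⟨hdp, P, hPcard, hPn, hPidx⟩ := sylow_facts χ p hcod
  have hdpos := (irr_degree χ.2).1
  by_cases hd1 : charDegree (χ : G → ℂ) = 1
  · left
    have hG : Nat.card G = p := by rw [hcod, hd1, mul_one]
    exact ⟨isCyclic_of_prime_card hG, hG⟩
  · right
    have hcyc : IsCyclic (P : Subgroup G) := isCyclic_of_prime_card hPcard
    have hPab : (P : Subgroup G) ≤ Subgroup.centralizer ((P : Subgroup G) : Set G) := by
      intro x hx
      rw [Subgroup.mem_centralizer_iff]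
      intro y hy
      have h1 := (IsCyclic.isMulCommutative (α := (P : Subgroup G))).is_comm.comm ⟨y, hy⟩ ⟨x, hx⟩
      exact congrArg Subtype.val h1
    have hcent := centralizer_eq_of_degree_eq_index χ (P : Subgroup G) hPab
      (by rw [hPcard]; exact hcod)
    have hcop : Nat.Coprime (Nat.card (P : Subgroup G)) (P : Subgroup G).index := by
      rw [hPcard, hPidx]
      exact (Nat.Prime.coprime_iff_not_dvd hp).mpr
        (fun h => absurd (Nat.le_of_dvd hdpos h) (by omega))
    obtain ⟨H, hH⟩ := Subgroup.exists_right_complement'_of_coprime hcop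
    have hHcard : Nat.card H = charDegree (χ : G → ℂ) := by
      have h1 := hH.card_mul_card
      rw [hPcard, hcod] at h1
      exact Nat.eq_of_mul_eq_mul_left hp.pos h1
    have hH1 : H ≠ ⊥ := by
      rintro rfl
      rw [Subgroup.card_bot] at hHcard
      exact hd1 hHcard.symm
    obtain ⟨h1, h2⟩ := frobenius_of_selfcent p hp (P : Subgroup G) hPcard hcent H hH hH1
    refine ⟨H, h1, ?_⟩
    rw [h2]
    exact hPcard

end Cfsg.Agent.S4796
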