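import Cfsg.Statements.S4797
import Mathlib
import Cfsg.Agent.Lib.Helper83.Codeg

set_option autoImplicit false
open Cfsg

namespace Cfsg.Agent.S4797

open Cfsg.Agent.Lib.Helper83
open scoped ComplexConjugate commutatorElement

theorem commutator_le_ker_of_comm {G A : Type*} [Group G] [Group A] (f : G →* A)
    (hA : ∀ a b : A, a * b = b * a) : commutator G ≤ f.ker := by
  rw [commutator_eq_closure, Subgroup.closure_le]
  rintro _ ⟨g, h, rfl⟩
  simp only [SetLike.mem_coe, MonoidHom.mem_ker, commutatorElement_def, map_mul, map_inv]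
  rw [hA (f g) (f h)]
  group

theorem charDegree_trivIrr (S : Type*) [Group S] : charDegree (trivIrr S : S → ℂ) = 1 := by
  unfold charDegree
  rw [trivIrr_apply]
  simp

/-- A group with a faithful irreducible character of degree `|G| / p` is not perfect. -/
theorem not_perfect_of_prime_codeg {G : Type*} [Group G] [Finite G] (ψ : IrrCharacter G)
    (p : ℕ) (hp : p.Prime) (hcard : Nat.card G = p * charDegree (ψ : G → ℂ)) :
    commutator G ≠ ⊤ := by
  classical
  have := Fintype.ofFinite (IrrCharacter G)
  have : Fact p.Prime := ⟨hp⟩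
  set d := charDegree (ψ : G → ℂ) with hd
  have hdpos : 0 < d := (irr_degree ψ.2).1
  -- Step 1
  have hdp : d < p := by
    by_cases ht : ψ = trivIrr G
    · rw [hd, ht, charDegree_trivIrr]
      exact hp.one_lt
    · have hsum := sum_charDegree_sq (G := G)
      have hle : ∑ χ ∈ ({ψ, trivIrr G} : Finset (IrrCharacter G)), charDegree (χ : G → ℂ) ^ 2 ≤
          ∑ χ : IrrCharacter G, charDegree (χ : G → ℂ) ^ 2 :=
        Finset.sum_le_sum_of_subset (Finset.subset_univ _)
      rw [Finset.sum_pair ht, charDegree_trivIrr, hsum, hcard, ← hd] at hle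
      by_contra hge
      push Not at hge
      nlinarith
  have hpd : ¬ p ∣ d := fun h => by
    have := Nat.le_of_dvd hdpos h
    omega
  -- Step 2
  obtain ⟨P⟩ := (inferInstance : Nonempty (Sylow p G))
  have hPcard : Nat.card P = p := by
    rw [Sylow.card_eq_multiplicity, hcard, Nat.factorization_mul hp.ne_zero hdpos.ne']
    simp [Nat.Prime.factorization_self hp, Nat.factorization_eq_zero_of_not_dvd hpd]
  have hPidx : (P : Subgroup G).index = d := by
    have h := Subgroup.card_mul_index (P : Subgroup G)
    rw [hPcard, hcard] at h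
    exact Nat.eq_of_mul_eq_mul_left hp.pos h
  -- Step 3
  have hn1 : Nat.card (Sylow p G) = 1 := by
    have h1 := card_sylow_modEq_one p G
    have h2 := Sylow.card_dvd_index P
    rw [hPidx] at h2
    have h3 : Nat.card (Sylow p G) ≤ d := Nat.le_of_dvd hdpos h2
    have h4 : Nat.card (Sylow p G) < p := by omega
    unfold Nat.ModEq at h1
    rw [Nat.mod_eq_of_lt h4, Nat.mod_eq_of_lt hp.one_lt] at h1
    exact h1
  have : Subsingleton (Sylow p G) := (Nat.card_eq_one_iff_unique.mp hn1).1
  have hPn : (P : Subgroup G).Normal := Sylow.normal_of_subsingleton P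
  -- Step 4
  intro hperf
  have : IsCyclic (P : Subgroup G) := isCyclic_of_prime_card hPcard
  have hcomm : ∀ a b : MulAut (P : Subgroup G), a * b = b * a := by
    intro a b
    apply (IsCyclic.mulAutMulEquiv (P : Subgroup G)).injective
    rw [map_mul, map_mul, mul_comm]
  have hker := commutator_le_ker_of_comm (MulAut.conjNormal (H := (P : Subgroup G))) hcomm
  rw [hperf] at hker
  have hcent : Subgroup.normalizer ((P : Subgroup G) : Set G) ≤
      Subgroup.centralizer ((P : Subgroup G) : Set G) := by
    intro g _
    rw [Subgroup.mem_centralizer_iff]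
    intro x hx
    have h1 : MulAut.conjNormal (H := (P : Subgroup G)) g = 1 := hker (Subgroup.mem_top g)
    have h2 := congrArg (fun a : MulAut (P : Subgroup G) => ((a ⟨x, hx⟩ : (P : Subgroup G)) : G)) h1
    simp only [MulAut.conjNormal_apply, MulAut.one_apply] at h2
    calc x * g = (g * x * g⁻¹) * g := by rw [h2]
      _ = g * x := by group
  -- Step 5
  have hPcomm : ∀ a b : (P : Subgroup G), a * b = b * a := by
    intro a b
    exact Subtype.ext (hcent (Subgroup.le_normalizer b.2) a a.2)
  have hker2 := commutator_le_ker_of_comm (MonoidHom.transferSylow P hcent) hPcomm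
  rw [hperf, top_le_iff] at hker2
  have hcompl := MonoidHom.ker_transferSylow_isComplement' P hcent
  have hmul := hcompl.card_mul_card
  rw [hker2, Subgroup.card_top, hPcard] at hmul
  have hGpos : 0 < Nat.card G := Nat.card_pos
  have : p = 1 := by
    have : Nat.card G * p = Nat.card G * 1 := by rw [hmul, mul_one]
    exact Nat.eq_of_mul_eq_mul_left hGpos this
  exact hp.one_lt.ne' this

theorem normal_of_commutator_le {G : Type*} [Group G] (M : Subgroup G) (h : commutator G ≤ M) :
    M.Normal := by
  constructor
  intro n hn g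
  have h1 : ⁅g, n⁆ ∈ commutator G := by
    rw [commutator_def]
    exact Subgroup.commutator_mem_commutator (Subgroup.mem_top g) (Subgroup.mem_top n)
  have h2 : g * n * g⁻¹ = ⁅g, n⁆ * n := by
    rw [commutatorElement_def]; group
  rw [h2]
  exact M.mul_mem (h h1) hn

/-- If `G` is not perfect, some irreducible character has prime codegree. -/
theorem exists_prime_codeg {G : Type*} [Group G] [Finite G] (hnp : commutator G ≠ ⊤) :
    ∃ χ : IrrCharacter G, (codeg χ).Prime := by
  classical
  obtain ⟨M, hM, hle⟩ := (eq_top_or_exists_le_coatom (commutator G)).resolve_left hnp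
  have hMn : M.Normal := normal_of_commutator_le M hle
  have hcomm : ∀ a b : G ⧸ M, a * b = b * a := by
    intro a b
    obtain ⟨x, rfl⟩ := QuotientGroup.mk_surjective a
    obtain ⟨y, rfl⟩ := QuotientGroup.mk_surjective b
    rw [← QuotientGroup.mk_mul, ← QuotientGroup.mk_mul, QuotientGroup.eq]
    apply hle
    have h1 : ⁅y⁻¹, x⁻¹⁆ ∈ commutator G := by
      rw [commutator_def]
      exact Subgroup.commutator_mem_commutator (Subgroup.mem_top _) (Subgroup.mem_top _)
    have h2 : (x * y)⁻¹ * (y * x) = ⁅y⁻¹, x⁻¹⁆ := by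
      rw [commutatorElement_def]; group
    rw [h2]
    exact h1
  let : CommGroup (G ⧸ M) := { (inferInstance : Group (G ⧸ M)) with mul_comm := hcomm }
  have : IsMulCommutative (G ⧸ M) := ⟨⟨hcomm⟩⟩
  have hnt : Nontrivial (G ⧸ M) := by
    rw [QuotientGroup.nontrivial_iff]
    exact hM.1
  have hsimple : IsSimpleGroup (G ⧸ M) := by
    refine { exists_pair_ne := hnt.exists_pair_ne, eq_bot_or_eq_top_of_normal := ?_ }
    intro H _
    have h1 : M ≤ H.comap (QuotientGroup.mk' M) := by
      intro x hx
      rw [Subgroup.mem_comap]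
      have : (QuotientGroup.mk' M) x = 1 := (QuotientGroup.eq_one_iff x).mpr hx
      rw [this]
      exact H.one_mem
    rcases (hM.le_iff).mp h1 with h | h
    · right
      apply Subgroup.comap_injective (QuotientGroup.mk'_surjective M)
      rw [h, Subgroup.comap_top]
    · left
      apply Subgroup.comap_injective (QuotientGroup.mk'_surjective M)
      rw [h, MonoidHom.comap_bot, QuotientGroup.ker_mk']
  have hprime : (Nat.card (G ⧸ M)).Prime := IsSimpleGroup.prime_card
  have hcardirr : Nat.card (IrrCharacter (G ⧸ M)) = Nat.card (G ⧸ M) := card_irr_comm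
  have hex : ∃ ψ : IrrCharacter (G ⧸ M), ψ ≠ trivIrr (G ⧸ M) := by
    by_contra hcon
    push Not at hcon
    have : Subsingleton (IrrCharacter (G ⧸ M)) := ⟨fun a b => by rw [hcon a, hcon b]⟩
    have h1 : Nat.card (IrrCharacter (G ⧸ M)) ≤ 1 := Finite.card_le_one_iff_subsingleton.mpr this
    rw [hcardirr] at h1
    have := hprime.one_lt
    omega
  obtain ⟨ψ, hψ⟩ := hex
  have hkerψ : irrKer ψ = ⊥ := by
    rcases hsimple.eq_bot_or_eq_top_of_normal (irrKer ψ) inferInstance with h | h
    · exact h
    · exact absurd ((irrKer_eq_top_iff ψ).mp h) hψ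
  have h1 := codeg_of_ker_bot ψ hkerψ
  have h2 : charDegree (ψ : G ⧸ M → ℂ) = 1 :=
    (irr_charDegree_eq_one_iff ψ.2).mpr (irr_comm_degree ψ.2)
  rw [h2, mul_one] at h1
  refine ⟨inflate M ψ, ?_⟩
  rw [codeg_inflate, h1]
  exact hprime

/-- The codegree of an irreducible complex character χ of a finite group G is [G : ker χ] / χ(1), where ker χ is the set of elements at which χ takes the value χ(1). A non-trivial finite group is perfect if and only if no irreducible complex character of it has prime codegree. -/
theorem result {G : Type*} [Group G] [Finite G] [Nontrivial G] : commutator G = ⊤ ↔ ∀ χ : Cfsg.IrrCharacter G, ¬ ((Nat.card G / (Nat.card {g : G // (χ : G → ℂ) g = (χ : G → ℂ) 1} * Cfsg.charDegree (χ : G → ℂ)))).Prime := by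
  constructor
  · intro hperf χ hprime
    have hprime' : (codeg χ).Prime := hprime
    obtain ⟨ψ, hψ⟩ := exists_inflate_eq (irrKer χ) χ (fun x hx => (mem_irrKer χ x).mp hx)
    have hkerψ : irrKer ψ = ⊥ := by
      apply Subgroup.comap_injective (QuotientGroup.mk'_surjective (irrKer χ))
      rw [← irrKer_inflate, hψ, MonoidHom.comap_bot, QuotientGroup.ker_mk']
    have hcod : codeg ψ = codeg χ := by
      have h0 := codeg_inflate (irrKer χ) ψ
      rw [hψ] at h0
      exact h0.symm
    have hcard := codeg_of_ker_bot ψ hkerψ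
    rw [hcod] at hcard
    have hperf' : commutator (G ⧸ irrKer χ) = ⊤ := by
      rw [commutator_def]
      have h1 := Subgroup.map_commutator (⊤ : Subgroup G) ⊤ (QuotientGroup.mk' (irrKer χ))
      rw [← commutator_def, hperf,
        Subgroup.map_top_of_surjective _ (QuotientGroup.mk'_surjective (irrKer χ))] at h1
      exact h1.symm
    exact not_perfect_of_prime_codeg ψ (codeg χ) hprime' hcard.symm hperf'
  · intro h
    by_contra hnp
    obtain ⟨χ, hχ⟩ := exists_prime_codeg hnp
    exact h χ hχ

end Cfsg.Agent.S4797
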