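import Cfsg.Statements.S4798
import Cfsg.Agent.Lib.Helper83.Induce

set_option autoImplicit false
open Cfsg
open Cfsg.Agent.Lib
open Cfsg.Agent.Lib.Helper83

namespace Cfsg.Agent.S4798

open scoped ComplexConjugate

/-- If `|G| / χ(1)` is a power of `p`, then `χ` is induced from an irreducible character of any
Sylow `p`-subgroup. -/
theorem induced_of_ppow_codeg {G : Type*} [Group G] [Fintype G] (p : ℕ) [hpf : Fact p.Prime]
    (χ : IrrCharacter G) (k : ℕ) (hk : Nat.card G = p ^ k * charDegree (χ : G → ℂ))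
    (P : Sylow p G) :
    ∃ θ : IrrCharacter (P : Subgroup G), (χ : G → ℂ) = indFun (P : Subgroup G) (θ : ↥(P : Subgroup G) → ℂ) := by
  classical
  have hp : p.Prime := hpf.out
  have := Fintype.ofFinite (IrrCharacter (P : Subgroup G))
  obtain ⟨m, hval, -, hdeg⟩ := restrict_decomp χ (P : Subgroup G)
  set a := (Nat.card G).factorization p with ha
  have hPcard : Nat.card (P : Subgroup G) = p ^ a := Sylow.card_eq_multiplicity P
  have hidx := Subgroup.card_mul_index (P : Subgroup G)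
  have hndvd : ¬ p ∣ (P : Subgroup G).index := Sylow.not_dvd_index P
  have hipos : 0 < (P : Subgroup G).index := Nat.pos_of_ne_zero Subgroup.FiniteIndex.index_ne_zero
  set d := charDegree (χ : G → ℂ) with hd
  set I := (P : Subgroup G).index with hI
  rw [hPcard] at hidx
  -- `k ≤ a`
  have hka : k ≤ a := by
    by_contra hlt
    push Not at hlt
    have hpow : p ^ k = p ^ a * p ^ (k - a) := by
      rw [← pow_add]; congr 1; omega
    have h1 : p ^ a * I = p ^ a * (p ^ (k - a) * d) := by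
      rw [hidx, hk, hpow, mul_assoc]
    have h2 := Nat.eq_of_mul_eq_mul_left (pow_pos hp.pos a) h1
    apply hndvd
    rw [h2]
    exact Dvd.dvd.mul_right (dvd_pow_self p (by omega)) d
  have hpow : p ^ a = p ^ k * p ^ (a - k) := by
    rw [← pow_add]; congr 1; omega
  have hdI : d = I * p ^ (a - k) := by
    have h1 : p ^ k * d = p ^ k * (I * p ^ (a - k)) := by
      rw [← hk, ← hidx, hpow]; ring
    exact Nat.eq_of_mul_eq_mul_left (pow_pos hp.pos k) h1
  have hfun : (fun h : (P : Subgroup G) => (χ : G → ℂ) h) =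
      ∑ θ : IrrCharacter (P : Subgroup G), (m θ : ℂ) • (θ : ↥(P : Subgroup G) → ℂ) := by
    funext h
    rw [hval h]
    simp [Finset.sum_apply]
  have hne : ∀ θ : IrrCharacter (P : Subgroup G), m θ ≠ 0 →
      classInner (indFun (P : Subgroup G) (θ : ↥(P : Subgroup G) → ℂ)) (χ : G → ℂ) ≠ 0 := by
    intro θ hθ
    rw [inner_ind_irr, hfun, Helper4.classInner_sum_irr]
    simpa using hθ
  have hchar : ∀ θ : IrrCharacter (P : Subgroup G),
      IsCharacter G (indFun (P : Subgroup G) (θ : ↥(P : Subgroup G) → ℂ)) :=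
    fun θ => Helper4.isCharacter_indFun _ _ (Helper4.isCharacter_of_irr θ)
  have hge : ∀ θ : IrrCharacter (P : Subgroup G), m θ ≠ 0 →
      p ^ (a - k) ≤ charDegree (θ : ↥(P : Subgroup G) → ℂ) := by
    intro θ hθ
    have h1 : d ≤ I * charDegree (θ : ↥(P : Subgroup G) → ℂ) := by
      apply constituent_degree_le _ (hchar θ) χ (hne θ hθ)
      rw [indFun_one, (irr_degree θ.2).2]
      push_cast
      ring
    rw [hdI] at h1
    exact Nat.le_of_mul_le_mul_left h1 hipos
  have hex : ∃ θ : IrrCharacter (P : Subgroup G), m θ ≠ 0 ∧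
      charDegree (θ : ↥(P : Subgroup G) → ℂ) = p ^ (a - k) := by
    by_contra hcon
    push Not at hcon
    have hdiv : ∀ θ : IrrCharacter (P : Subgroup G),
        p ^ (a - k + 1) ∣ m θ * charDegree (θ : ↥(P : Subgroup G) → ℂ) := by
      intro θ
      by_cases hm0 : m θ = 0
      · rw [hm0, zero_mul]; exact dvd_zero _
      · have h2 := hge θ hm0
        have h3 : charDegree (θ : ↥(P : Subgroup G) → ℂ) ∣ p ^ a := by
          rw [← hPcard]; exact irr_degree_dvd_card θ
        obtain ⟨j, hj, hj'⟩ := (Nat.dvd_prime_pow hp).mp h3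
        have h4 : j ≠ a - k := by
          intro h; exact hcon θ hm0 (by rw [hj', h])
        have h5 : a - k ≤ j := by
          rw [hj'] at h2; exact (Nat.pow_le_pow_iff_right hp.one_lt).mp h2
        rw [hj']
        exact Dvd.dvd.mul_left (pow_dvd_pow p (by omega)) _
    have h6 : p ^ (a - k + 1) ∣ d := by
      rw [hdeg]; exact Finset.dvd_sum (fun θ _ => hdiv θ)
    rw [hdI, pow_succ] at h6
    have h7 : p ^ (a - k) * p ∣ p ^ (a - k) * I := by rwa [mul_comm I] at h6
    exact hndvd (Nat.dvd_of_mul_dvd_mul_left (pow_pos hp.pos _) h7)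
  obtain ⟨θ, hθ0, hθd⟩ := hex
  refine ⟨θ, ?_⟩
  symm
  apply char_eq_irr_of_degree _ (hchar θ) χ (hne θ hθ0)
  rw [indFun_one, (irr_degree θ.2).2, hθd, (irr_degree χ.2).2, ← hd, hdI]
  push_cast
  ring

/-- If `χ` is induced from a character of a Sylow `p`-subgroup, then `|G| / χ(1)` is a power of
`p`. -/
theorem ppow_codeg_of_induced {G : Type*} [Group G] [Fintype G] (p : ℕ) [hpf : Fact p.Prime]
    (χ : IrrCharacter G) (P : Sylow p G) (θ : ↥(P : Subgroup G) → ℂ)
    (hθ : IsCharacter (P : Subgroup G) θ) (hχ : (χ : G → ℂ) = indFun (P : Subgroup G) θ) :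
    ∃ k : ℕ, Nat.card G = p ^ k * charDegree (χ : G → ℂ) := by
  classical
  have hp : p.Prime := hpf.out
  obtain ⟨n, ρ, rfl⟩ := hθ
  have hipos : 0 < (P : Subgroup G).index := Nat.pos_of_ne_zero Subgroup.FiniteIndex.index_ne_zero
  have h1 : (χ : G → ℂ) 1 = (((P : Subgroup G).index * n : ℕ) : ℂ) := by
    rw [hχ, indFun_one, Representation.char_one]
    simp
  have hd : charDegree (χ : G → ℂ) = (P : Subgroup G).index * n := by
    have h2 := (irr_degree χ.2).2
    rw [h1] at h2
    exact_mod_cast h2.symm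
  have hdvd := irr_degree_dvd_card χ
  rw [hd, ← Subgroup.card_mul_index (P : Subgroup G), mul_comm (Nat.card (P : Subgroup G))] at hdvd
  have hn : n ∣ Nat.card (P : Subgroup G) := Nat.dvd_of_mul_dvd_mul_left hipos hdvd
  rw [Sylow.card_eq_multiplicity] at hn
  obtain ⟨j, hj, rfl⟩ := (Nat.dvd_prime_pow hp).mp hn
  refine ⟨(Nat.card G).factorization p - j, ?_⟩
  rw [hd]
  conv_lhs => rw [← Subgroup.card_mul_index (P : Subgroup G), Sylow.card_eq_multiplicity]
  have hpow : p ^ (Nat.card G).factorization p = p ^ ((Nat.card G).factorization p - j) * p ^ j := by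
    rw [← pow_add]; congr 1; omega
  rw [hpow]
  ring

theorem result {G : Type*} [Group G] [Fintype G] (p : ℕ) [Fact p.Prime] (χ : Cfsg.IrrCharacter G) (hfaith : ∀ g : G, (χ : G → ℂ) g = (χ : G → ℂ) 1 → g = 1) : (∃ k : ℕ, Nat.card G = p ^ k * Cfsg.charDegree (χ : G → ℂ)) ↔ ∃ (P : Sylow p G) (θ : ↥(P : Subgroup G) → ℂ), Cfsg.IsCharacter ↥(P : Subgroup G) θ ∧ (χ : G → ℂ) = Cfsg.indFun (P : Subgroup G) θ := by
  constructor
  · rintro ⟨k, hk⟩
    obtain ⟨P⟩ := (inferInstance : Nonempty (Sylow p G))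
    obtain ⟨θ, hθ⟩ := induced_of_ppow_codeg p χ k hk P
    exact ⟨P, θ, Helper4.isCharacter_of_irr θ, hθ⟩
  · rintro ⟨P, θ, hθ, hχ⟩
    exact ppow_codeg_of_induced p χ P θ hθ hχ

end Cfsg.Agent.S4798
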