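import Cfsg.Statements.S4801
import Mathlib
import Cfsg.Agent.Lib.Helper83.Codeg

set_option autoImplicit false
open Cfsg

namespace Cfsg.Agent.S4801

open Cfsg.Agent.Lib.Helper83
open scoped ComplexConjugate

theorem charDegree_trivIrr (S : Type*) [Group S] : charDegree (trivIrr S : S → ℂ) = 1 := by
  unfold charDegree
  rw [trivIrr_apply]
  simp

theorem exists_nontriv_coprime {S : Type*} [Group S] [Finite S] (r : ℕ) (hr : r.Prime)
    (hrS : r ∣ Nat.card S) :
    ∃ χ : IrrCharacter S, χ ≠ trivIrr S ∧ ¬ r ∣ charDegree (χ : S → ℂ) := by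
  classical
  have := Fintype.ofFinite (IrrCharacter S)
  by_contra hcon
  push Not at hcon
  have hsum := sum_charDegree_sq (G := S)
  rw [← Finset.add_sum_erase Finset.univ _ (Finset.mem_univ (trivIrr S)), charDegree_trivIrr,
    one_pow] at hsum
  have h2 : r ∣ ∑ χ ∈ Finset.univ.erase (trivIrr S), charDegree (χ : S → ℂ) ^ 2 := by
    apply Finset.dvd_sum
    intro χ hχ
    have hne : χ ≠ trivIrr S := Finset.ne_of_mem_erase hχ
    exact (hcon χ hne).trans (Dvd.intro_left _ (sq _).symm)
  have h3 : r ∣ 1 := by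
    have h4 : r ∣ 1 + ∑ χ ∈ Finset.univ.erase (trivIrr S), charDegree (χ : S → ℂ) ^ 2 := by
      rw [hsum]; exact hrS
    exact (Nat.dvd_add_left h2).mp h4
  exact hr.one_lt.ne' (Nat.dvd_one.mp h3)

/-- The codegree of an irreducible complex character χ of a finite group G is [G : ker χ] / χ(1), where ker χ is the set of elements at which χ takes the value χ(1). Let S be a finite simple group and G a finite group such that every codegree of an irreducible character of S is a codegree of an irreducible character of G. Then the order of S divides the order of G. -/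
theorem result {S : Type*} [Group S] [Finite S] (hS : IsSimpleGroup S) {G : Type*} [Group G] [Finite G] (hsub : ∀ χ : Cfsg.IrrCharacter S, ∃ ψ : Cfsg.IrrCharacter G, (Nat.card S / (Nat.card {g : S // (χ : S → ℂ) g = (χ : S → ℂ) 1} * Cfsg.charDegree (χ : S → ℂ))) = (Nat.card G / (Nat.card {g : G // (ψ : G → ℂ) g = (ψ : G → ℂ) 1} * Cfsg.charDegree (ψ : G → ℂ)))) : Nat.card S ∣ Nat.card G := by
  rw [Nat.dvd_iff_prime_pow_dvd_dvd]
  intro r k hr hrk
  rcases Nat.eq_zero_or_pos k with hk | hk
  · subst hk; simp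
  have hrS : r ∣ Nat.card S := (dvd_pow_self r hk.ne').trans hrk
  obtain ⟨χ, hne, hcop⟩ := exists_nontriv_coprime r hr hrS
  have hker : irrKer χ = ⊥ := by
    rcases Subgroup.Normal.eq_bot_or_eq_top (inferInstance : (irrKer χ).Normal) with h | h
    · exact h
    · exact absurd ((irrKer_eq_top_iff χ).mp h) hne
  have h1 := codeg_of_ker_bot χ hker
  rw [← h1] at hrk
  have hcop' : Nat.Coprime (r ^ k) (charDegree (χ : S → ℂ)) :=
    Nat.Coprime.pow_left k ((Nat.Prime.coprime_iff_not_dvd hr).mpr hcop)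
  have h2 : r ^ k ∣ codeg χ := hcop'.dvd_of_dvd_mul_right hrk
  obtain ⟨ψ, hψ⟩ := hsub χ
  have h3 : codeg χ = codeg ψ := hψ
  rw [h3] at h2
  exact h2.trans (codeg_dvd_card ψ)

end Cfsg.Agent.S4801
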