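import Cfsg.Statements.S4802
import Mathlib
import Cfsg.Agent.Lib.Helper83.Quot

set_option autoImplicit false
open Cfsg

namespace Cfsg.Agent.S4802

open Cfsg.Agent.Lib.Helper83
open scoped ComplexConjugate

/-- Let N < M be normal subgroups of the finite group G and g ∈ M ∖ N. Then the conjugacy class of g is exactly M ∖ N if and only if every irreducible complex character of G whose kernel contains N takes the same value at all elements of M ∖ N, and every irreducible complex character of G whose kernel does not contain N vanishes at g. -/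
theorem result {G : Type*} [Group G] [Finite G] (N M : Subgroup G) [N.Normal] [M.Normal] (hNM : N < M) (g : G) (hgM : g ∈ M) (hgN : g ∉ N) : {h : G | IsConj g h} = (M : Set G) \ (N : Set G) ↔ ((∀ χ : Cfsg.IrrCharacter G, (∀ x ∈ N, (χ : G → ℂ) x = (χ : G → ℂ) 1) → ∀ x ∈ M, x ∉ N → ∀ y ∈ M, y ∉ N → (χ : G → ℂ) x = (χ : G → ℂ) y) ∧ (∀ χ : Cfsg.IrrCharacter G, (∃ x ∈ N, (χ : G → ℂ) x ≠ (χ : G → ℂ) 1) → (χ : G → ℂ) g = 0)) := by
  classical
  have := Fintype.ofFinite G
  have := Fintype.ofFinite (IrrCharacter G)
  have := Fintype.ofFinite N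
  constructor
  · intro H
    have hconj : ∀ x ∈ M, x ∉ N → IsConj g x := by
      intro x hxM hxN
      have : x ∈ (M : Set G) \ (N : Set G) := ⟨hxM, hxN⟩
      rw [← H] at this
      exact this
    refine ⟨fun χ _ x hxM hxN y hyM hyN => ?_, fun χ hχ => ?_⟩
    · rw [← irr_isConj χ.2 (hconj x hxM hxN), ← irr_isConj χ.2 (hconj y hyM hyN)]
    · obtain ⟨x, hx, hx1⟩ := hχ
      have hsum := irr_sum_normal_eq_zero N χ.2 x hx hx1 g
      have hconst : ∀ n : N, (χ : G → ℂ) (g * (n : G)) = (χ : G → ℂ) g := by
        intro n
        have h1 : g * (n : G) ∈ M := M.mul_mem hgM (hNM.le n.2)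
        have h2 : g * (n : G) ∉ N := by
          intro h
          apply hgN
          have := N.mul_mem h (N.inv_mem n.2)
          simpa using this
        exact (irr_isConj χ.2 (hconj _ h1 h2)).symm
      simp only [hconst, Finset.sum_const, Finset.card_univ, nsmul_eq_mul] at hsum
      rcases mul_eq_zero.mp hsum with h | h
      · exfalso
        have : (0 : ℕ) < Fintype.card N := Fintype.card_pos
        have h' : Fintype.card N = 0 := by exact_mod_cast h
        omega
      · exact h
  · rintro ⟨HA, HB⟩
    ext h
    simp only [Set.mem_ofPred_eq, Set.mem_sdiff, SetLike.mem_coe]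
    constructor
    · intro hc
      obtain ⟨c, hc⟩ := isConj_iff.mp hc
      rw [← hc]
      refine ⟨Subgroup.Normal.conj_mem inferInstance g hgM c, fun hn => ?_⟩
      apply hgN
      have := Subgroup.Normal.conj_mem (inferInstance : N.Normal) _ hn c⁻¹
      simpa [mul_assoc] using this
    · rintro ⟨hM, hN⟩
      by_contra hc
      have hzero := column_orthogonality_not_conj (G := G) (g := h) (h := g) hc
      have hterm : ∀ χ : IrrCharacter G, (χ : G → ℂ) h * conj ((χ : G → ℂ) g) =
          ((Complex.normSq ((χ : G → ℂ) g) : ℝ) : ℂ) := by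
        intro χ
        by_cases hk : ∀ x ∈ N, (χ : G → ℂ) x = (χ : G → ℂ) 1
        · rw [HA χ hk h hM hN g hgM hgN, Complex.mul_conj]
        · push Not at hk
          rw [HB χ hk]
          simp
      simp only [hterm] at hzero
      have hzero' : ∑ χ : IrrCharacter G, Complex.normSq ((χ : G → ℂ) g) = 0 := by
        exact_mod_cast hzero
      have hall := (Finset.sum_eq_zero_iff_of_nonneg
        (fun (χ : IrrCharacter G) _ => Complex.normSq_nonneg ((χ : G → ℂ) g))).mp hzero'
        (trivIrr G) (Finset.mem_univ _)
      rw [trivIrr_apply] at hall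
      simp at hall

end Cfsg.Agent.S4802
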