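import Cfsg.Statements.S4808
import Mathlib
import Cfsg.Agent.Lib.Helper83.Codeg

set_option autoImplicit false
open Cfsg

namespace Cfsg.Agent.S4808

open Cfsg.Agent.Lib.Helper83
open scoped ComplexConjugate

universe u

theorem index_inf_dvd {G : Type*} [Group G] (K N : Subgroup G) [N.Normal] :
    (K ⊓ N).index ∣ N.index * K.index := by
  rw [← Subgroup.relIndex_mul_index (inf_le_left : K ⊓ N ≤ K), Subgroup.inf_relIndex_left]
  exact Nat.mul_dvd_mul_right (Subgroup.relIndex_dvd_index_of_normal N K) _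

theorem exists_codeg (p : ℕ) (hp : p.Prime) : ∀ (n : ℕ) (G : Type u) [Group G] [Finite G],
    Nat.card G = n → p ∣ Nat.card G → ∃ χ : IrrCharacter G, p ∣ codeg χ := by
  intro n
  induction n using Nat.strong_induction_on with
  | _ n ih =>
  intro G _ _ hn hpG
  classical
  have := Fintype.ofFinite (IrrCharacter G)
  by_cases hA : ∃ N : Subgroup G, N.Normal ∧ N ≠ ⊥ ∧ p ∣ N.index
  · obtain ⟨N, hNn, hN1, hpN⟩ := hA
    have hlt : Nat.card (G ⧸ N) < n := by
      rw [← hn, ← Subgroup.card_mul_index N]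
      have h1 : 1 < Nat.card N := by
        rw [Subgroup.one_lt_card_iff_ne_bot]; exact hN1
      have h2 : 0 < N.index := by
        have := Subgroup.card_mul_index N
        rcases Nat.eq_zero_or_pos N.index with h | h
        · rw [h, mul_zero] at this
          have : 0 < Nat.card G := Nat.card_pos
          omega
        · exact h
      show N.index < Nat.card N * N.index
      nlinarith
    obtain ⟨ψ, hψ⟩ := ih (Nat.card (G ⧸ N)) hlt (G ⧸ N) rfl hpN
    exact ⟨inflate N ψ, by rw [codeg_inflate]; exact hψ⟩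
  · push Not at hA
    by_contra hcon
    push Not at hcon
    have hGnt : (⊤ : Subgroup G) ≠ ⊥ := by
      intro h
      have h1 : Nat.card (⊤ : Subgroup G) = 1 := by rw [h]; simp
      rw [Subgroup.card_top] at h1
      rw [h1] at hpG
      exact hp.one_lt.ne' (Nat.dvd_one.mp hpG)
    obtain ⟨N₀, ⟨hN₀n, hN₀1⟩, hmin⟩ := exists_minimal_of_wellFoundedLT
      (fun N : Subgroup G => N.Normal ∧ N ≠ ⊥) ⟨⊤, inferInstance, hGnt⟩
    have := hN₀n
    have hker : ∀ χ : IrrCharacter G, irrKer χ ≠ ⊥ → N₀ ≤ irrKer χ := by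
      intro χ hK
      have hinf : irrKer χ ⊓ N₀ ≠ ⊥ := by
        intro h0
        have h1 := index_inf_dvd (irrKer χ) N₀
        rw [h0, Subgroup.index_bot] at h1
        rcases (Nat.Prime.dvd_mul hp).mp (hpG.trans h1) with h | h
        · exact hA N₀ hN₀n hN₀1 h
        · exact hA (irrKer χ) inferInstance hK h
      have h2 : N₀ ≤ irrKer χ ⊓ N₀ := hmin ⟨inferInstance, hinf⟩ inf_le_right
      exact h2.trans inf_le_left
    have hsum := sum_charDegree_sq (G := G)
    rw [← Finset.sum_filter_add_sum_filter_not Finset.univ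
      (fun χ : IrrCharacter G => ∀ x ∈ N₀, (χ : G → ℂ) x = (χ : G → ℂ) 1)] at hsum
    have h1 : ∑ χ ∈ Finset.univ.filter
        (fun χ : IrrCharacter G => ∀ x ∈ N₀, (χ : G → ℂ) x = (χ : G → ℂ) 1),
        charDegree (χ : G → ℂ) ^ 2 = N₀.index := by
      have := Fintype.ofFinite (IrrCharacter (G ⧸ N₀))
      rw [Finset.sum_subtype (p := fun χ : IrrCharacter G =>
        ∀ x ∈ N₀, (χ : G → ℂ) x = (χ : G → ℂ) 1) _ (by simp)
        (fun χ : IrrCharacter G => charDegree (χ : G → ℂ) ^ 2)]
      rw [← Equiv.sum_comp (inflateEquiv N₀)]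
      have h2 : ∀ ψ : IrrCharacter (G ⧸ N₀),
          charDegree (((inflateEquiv N₀) ψ : IrrCharacter G) : G → ℂ) ^ 2 =
          charDegree (ψ : G ⧸ N₀ → ℂ) ^ 2 := by
        intro ψ
        rw [← charDegree_inflate N₀ ψ]
        rfl
      simp only [h2]
      rw [sum_charDegree_sq]
      rfl
    have h2 : p ∣ ∑ χ ∈ Finset.univ.filter
        (fun χ : IrrCharacter G => ¬ ∀ x ∈ N₀, (χ : G → ℂ) x = (χ : G → ℂ) 1),
        charDegree (χ : G → ℂ) ^ 2 := by
      apply Finset.dvd_sum
      intro χ hχ
      rw [Finset.mem_filter] at hχ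
      have hbot : irrKer χ = ⊥ := by
        by_contra hK
        apply hχ.2
        intro x hx
        exact (mem_irrKer χ x).mp (hker χ hK hx)
      have h3 := codeg_of_ker_bot χ hbot
      rw [← h3] at hpG
      rcases (Nat.Prime.dvd_mul hp).mp hpG with h | h
      · exact absurd h (hcon χ)
      · exact h.trans (Dvd.intro_left _ (sq _).symm)
    rw [h1] at hsum
    have h3 : p ∣ N₀.index := by
      have h4 : p ∣ N₀.index + ∑ χ ∈ Finset.univ.filter
          (fun χ : IrrCharacter G => ¬ ∀ x ∈ N₀, (χ : G → ℂ) x = (χ : G → ℂ) 1),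
          charDegree (χ : G → ℂ) ^ 2 := by rw [hsum]; exact hpG
      exact (Nat.dvd_add_left h2).mp h4
    exact hA N₀ hN₀n hN₀1 h3

/-- The codegree of an irreducible complex character χ of a finite group G is [G : ker χ] / χ(1), where ker χ is the set of elements at which χ takes the value χ(1). A prime divides the order of G if and only if it divides the codegree of some irreducible complex character of G. -/
theorem result {G : Type*} [Group G] [Finite G] (p : ℕ) (hp : p.Prime) : p ∣ Nat.card G ↔ ∃ χ : Cfsg.IrrCharacter G, p ∣ (Nat.card G / (Nat.card {g : G // (χ : G → ℂ) g = (χ : G → ℂ) 1} * Cfsg.charDegree (χ : G → ℂ))) := by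
  constructor
  · intro h
    exact exists_codeg p hp (Nat.card G) G rfl h
  · rintro ⟨χ, hχ⟩
    exact hχ.trans (codeg_dvd_card χ)

end Cfsg.Agent.S4808
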