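import Cfsg.Statements.S4814
import Mathlib
import Cfsg.Agent.Lib.Helper83.Linear

set_option autoImplicit false
open Cfsg

namespace Cfsg.Agent.S4814

open Cfsg.Agent.Lib.Helper83
open scoped ComplexConjugate
open Module

theorem comm_sum {G : Type*} [Group G] [Fintype G] {V : Type*} [AddCommGroup V] [Module ℂ V]
    [FiniteDimensional ℂ V] (ρ : Representation ℂ G V) (hρ : ρ.IsIrreducible) :
    ∃ c : ℂ, ∑ a : G, ∑ b : G, ρ (a * b * a⁻¹ * b⁻¹) = c • LinearMap.id ∧
      c * (ρ.character 1) ^ 2 = (Nat.card G : ℂ) ^ 2 := by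
  have hirr : IsIrrCharacter G ρ.character := isIrrCharacter_of_irreducible ρ hρ
  have h1ne : ρ.character 1 ≠ 0 := irr_one_ne_zero hirr
  have hGne : (Nat.card G : ℂ) ≠ 0 := by
    have : 0 < Nat.card G := Nat.card_pos
    exact_mod_cast this.ne'
  choose c hc hc1 using fun a : G => rep_avg_conj ρ hρ a⁻¹
  have hcf : ∀ a x : G, c (x * a * x⁻¹) = c a := by
    intro a x
    have h1 := hc1 (x * a * x⁻¹)
    have h2 := hc1 a
    have h3 : ρ.character (x * a * x⁻¹)⁻¹ = ρ.character a⁻¹ := by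
      have : (x * a * x⁻¹)⁻¹ = x * a⁻¹ * x⁻¹ := by group
      rw [this, Representation.char_conj]
    rw [h3, ← h2] at h1
    exact mul_right_cancel₀ h1ne h1
  obtain ⟨c', hc', hc'1⟩ := schur_class_sum ρ hρ c hcf
  refine ⟨c', ?_, ?_⟩
  · rw [← hc']
    apply Finset.sum_congr rfl
    intro a _
    have : ∀ b : G, ρ (a * b * a⁻¹ * b⁻¹) = ρ a * ρ (b * a⁻¹ * b⁻¹) := by
      intro b
      rw [← map_mul]
      congr 1
      group
    simp only [this]
    rw [← Finset.mul_sum, hc a, mul_smul_comm]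
    congr 1
  · have : Invertible (Nat.card G : ℂ) := invertibleOfNonzero hGne
    have := hρ
    have horth := Representation.char_orthonormal ρ ρ
    rw [if_pos ⟨Representation.Equiv.refl ρ⟩] at horth
    have hsum : ∑ g : G, ρ.character g * ρ.character g⁻¹ = (Nat.card G : ℂ) := by
      have := congrArg (fun z => (Nat.card G : ℂ) * z) horth
      simp only [← mul_assoc, mul_inv_cancel₀ hGne, one_mul, mul_one] at this
      exact this
    have h4 : (∑ a : G, c a * ρ.character a) * ρ.character 1 = (Nat.card G : ℂ) ^ 2 := by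
      rw [Finset.sum_mul]
      have : ∀ a : G, c a * ρ.character a * ρ.character 1 =
          (Nat.card G : ℂ) * (ρ.character a * ρ.character a⁻¹) := by
        intro a
        calc c a * ρ.character a * ρ.character 1 = (c a * ρ.character 1) * ρ.character a := by ring
          _ = (Nat.card G : ℂ) * (ρ.character a * ρ.character a⁻¹) := by rw [hc1 a]; ring
      simp only [this]
      rw [← Finset.mul_sum, hsum, sq]
    rw [← h4, ← hc'1]
    ring

theorem comm4_sum {G : Type*} [Group G] [Fintype G] {χ : G → ℂ} (hχ : IsIrrCharacter G χ) :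
    (∑ a : G, ∑ b : G, ∑ c : G, ∑ d : G, χ ((a * b * a⁻¹ * b⁻¹) * (c * d * c⁻¹ * d⁻¹))) *
      (χ 1) ^ 3 = (Nat.card G : ℂ) ^ 4 := by
  obtain ⟨n, ρ, hρ, rfl⟩ := hχ
  obtain ⟨c, hc, hc1⟩ := comm_sum ρ hρ
  have h1 : ∑ a : G, ∑ b : G, ∑ c : G, ∑ d : G,
      ρ.character ((a * b * a⁻¹ * b⁻¹) * (c * d * c⁻¹ * d⁻¹)) =
      LinearMap.trace ℂ _ ((∑ a : G, ∑ b : G, ρ (a * b * a⁻¹ * b⁻¹)) *
        (∑ c : G, ∑ d : G, ρ (c * d * c⁻¹ * d⁻¹))) := by
    rw [Finset.sum_mul, map_sum]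
    apply Finset.sum_congr rfl
    intro a _
    rw [Finset.sum_mul, map_sum]
    apply Finset.sum_congr rfl
    intro b _
    rw [Finset.mul_sum, map_sum]
    apply Finset.sum_congr rfl
    intro c _
    rw [Finset.mul_sum, map_sum]
    apply Finset.sum_congr rfl
    intro d _
    rw [← map_mul]
    rfl
  rw [h1, hc, smul_mul_smul_comm, map_smul, smul_eq_mul]
  have h2 : LinearMap.trace ℂ (Fin n → ℂ) (LinearMap.id * LinearMap.id) = ρ.character 1 := by
    rw [Representation.char_one]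
    have : (LinearMap.id : (Fin n → ℂ) →ₗ[ℂ] (Fin n → ℂ)) * LinearMap.id = LinearMap.id := rfl
    rw [this]
    exact LinearMap.trace_id ℂ _
  rw [h2]
  calc c * c * ρ.character 1 * ρ.character 1 ^ 3 = (c * ρ.character 1 ^ 2) ^ 2 := by ring
    _ = (Nat.card G : ℂ) ^ 4 := by rw [hc1]; ring

/-- Let G be a finite group such that the sum, over the irreducible complex characters χ of G, of 1/χ(1)² is less than 2. Then every element of G is a product of two commutators. -/
theorem result {G : Type*} [Group G] [Finite G]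
    (h : ∑ᶠ χ : Cfsg.IrrCharacter G, 1 / ‖(χ : G → ℂ) 1‖ ^ 2 < (2 : ℝ)) (g : G) :
    ∃ a b c d : G, (a * b * a⁻¹ * b⁻¹) * (c * d * c⁻¹ * d⁻¹) = g := by
  classical
  have := Fintype.ofFinite G
  have := Fintype.ofFinite (IrrCharacter G)
  by_contra hcon
  push Not at hcon
  have hGne : (Nat.card G : ℂ) ≠ 0 := by
    have : 0 < Nat.card G := Nat.card_pos
    exact_mod_cast this.ne'
  have hnc : ∀ a b c d : G, ¬ IsConj g ((a * b * a⁻¹ * b⁻¹) * (c * d * c⁻¹ * d⁻¹)) := by
    intro a b c d hc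
    obtain ⟨x, hx⟩ := isConj_iff.mp hc
    apply hcon (x⁻¹ * a * x) (x⁻¹ * b * x) (x⁻¹ * c * x) (x⁻¹ * d * x)
    have : g = x⁻¹ * ((a * b * a⁻¹ * b⁻¹) * (c * d * c⁻¹ * d⁻¹)) * x := by
      rw [← hx]; group
    rw [this]
    group
  have hzero : ∑ χ : IrrCharacter G,
      (∑ a : G, ∑ b : G, ∑ c : G, ∑ d : G,
        (χ : G → ℂ) ((a * b * a⁻¹ * b⁻¹) * (c * d * c⁻¹ * d⁻¹))) * conj ((χ : G → ℂ) g) = 0 := by
    simp only [Finset.sum_mul]
    rw [Finset.sum_comm]
    apply Finset.sum_eq_zero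
    intro a _
    rw [Finset.sum_comm]
    apply Finset.sum_eq_zero
    intro b _
    rw [Finset.sum_comm]
    apply Finset.sum_eq_zero
    intro c _
    rw [Finset.sum_comm]
    apply Finset.sum_eq_zero
    intro d _
    exact column_orthogonality_not_conj (hnc a b c d)
  have hzero2 : ∑ χ : IrrCharacter G, conj ((χ : G → ℂ) g) / ((χ : G → ℂ) 1) ^ 3 = 0 := by
    have h4 : (Nat.card G : ℂ) ^ 4 ≠ 0 := pow_ne_zero 4 hGne
    have : (Nat.card G : ℂ) ^ 4 *
        ∑ χ : IrrCharacter G, conj ((χ : G → ℂ) g) / ((χ : G → ℂ) 1) ^ 3 = 0 := by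
      rw [← hzero, Finset.mul_sum]
      apply Finset.sum_congr rfl
      intro χ _
      have h1ne := irr_one_ne_zero χ.2
      rw [← comm4_sum χ.2]
      field_simp
    rcases mul_eq_zero.mp this with h | h
    · exact absurd h h4
    · exact h
  have hsplit := Finset.add_sum_erase Finset.univ
    (fun χ : IrrCharacter G => conj ((χ : G → ℂ) g) / ((χ : G → ℂ) 1) ^ 3) (Finset.mem_univ (trivIrr G))
  rw [hzero2] at hsplit
  simp only [trivIrr_apply, map_one, one_pow, div_one] at hsplit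
  have hrest : ∑ χ ∈ Finset.univ.erase (trivIrr G),
      conj ((χ : G → ℂ) g) / ((χ : G → ℂ) 1) ^ 3 = -1 := by
    linear_combination hsplit
  have hnorm : ‖∑ χ ∈ Finset.univ.erase (trivIrr G),
      conj ((χ : G → ℂ) g) / ((χ : G → ℂ) 1) ^ 3‖ = 1 := by
    rw [hrest]; simp
  have hbound : ‖∑ χ ∈ Finset.univ.erase (trivIrr G),
      conj ((χ : G → ℂ) g) / ((χ : G → ℂ) 1) ^ 3‖ ≤
      ∑ χ ∈ Finset.univ.erase (trivIrr G), 1 / ‖(χ : G → ℂ) 1‖ ^ 2 := by
    refine (norm_sum_le _ _).trans (Finset.sum_le_sum ?_)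
    intro χ _
    obtain ⟨hpos, h1⟩ := irr_degree χ.2
    have hle := irr_norm_le χ.2 g
    have hd : ‖(χ : G → ℂ) 1‖ = (charDegree (χ : G → ℂ) : ℝ) := by
      rw [h1]; simp
    have hdpos : (0 : ℝ) < (charDegree (χ : G → ℂ) : ℝ) := by exact_mod_cast hpos
    rw [norm_div, norm_pow, hd, RCLike.norm_conj]
    rw [div_le_div_iff₀ (by positivity) (by positivity)]
    calc ‖(χ : G → ℂ) g‖ * (charDegree (χ : G → ℂ) : ℝ) ^ 2
        ≤ (charDegree (χ : G → ℂ) : ℝ) * (charDegree (χ : G → ℂ) : ℝ) ^ 2 := by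
          apply mul_le_mul_of_nonneg_right hle (by positivity)
      _ = 1 * (charDegree (χ : G → ℂ) : ℝ) ^ 3 := by ring
  rw [finsum_eq_sum_of_fintype] at h
  have hsplit2 := Finset.add_sum_erase Finset.univ
    (fun χ : IrrCharacter G => 1 / ‖(χ : G → ℂ) 1‖ ^ 2) (Finset.mem_univ (trivIrr G))
  simp only [trivIrr_apply, norm_one, one_pow, div_one] at hsplit2
  linarith

end Cfsg.Agent.S4814
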