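import Cfsg.Statements.S4825
import Cfsg.Agent.Lib.Helper82.StrongOrth
import Cfsg.Agent.Lib.Helper20.Clifford
import Cfsg.Agent.Lib.Helper22.Defect2
import Cfsg.Agent.Lib.Helper79.Blk2
import Cfsg.Agent.Lib.Helper4.CharExp2

set_option autoImplicit false
open Cfsg

namespace Cfsg.Agent.S4825

open scoped ComplexConjugate
open Cfsg.Agent.Lib.Helper4 Cfsg.Agent.Lib.Helper21 Cfsg.Agent.Lib.Helper20

theorem sq_eq_one_small (p : ℕ) (hp : p.Prime) (h3 : p ≤ 3) (x : ZMod p) (hx : x ≠ 0) :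
    x ^ 2 = 1 := by
  have h2 := hp.two_le
  interval_cases p
  · revert x; decide
  · revert x; decide

theorem key {G : Type*} [Group G] [Fintype G] (p : ℕ) [Fact p.Prime] (P : Sylow p G)
    (M : Ideal AlgInt) (hM : IsPModular p M) (B : Set (IrrCharacter G)) (hB : IsPBlock M B)
    (N : Subgroup G) [hNn : N.Normal] [Fintype N] (hPN : ¬ (P : Subgroup G) ≤ N)
    (θ : IrrCharacter N) [Fintype (IrrCharacter G)] [DecidableEq (IrrCharacter G)]
    (S₀ : Finset (IrrCharacter G))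
    (hS₀ : ∀ χ, χ ∈ S₀ ↔ (χ ∈ B ∧ ¬ p ∣ charDegree (χ : G → ℂ) ∧
      classInner (fun n : N => (χ : G → ℂ) n) (θ : N → ℂ) ≠ 0)) :
    (S₀.card = 0 ∨ 2 ≤ S₀.card) ∧ (p ≤ 3 → p ∣ S₀.card) := by
  classical
  have hp := (Fact.out : p.Prime)
  obtain ⟨g, hgP, hgN⟩ : ∃ g, g ∈ (P : Subgroup G) ∧ g ∉ N := by
    by_contra hcon
    push Not at hcon
    exact hPN (fun x hx => hcon x hx)
  obtain ⟨k, hk⟩ := (IsPGroup.iff_orderOf.mp P.isPGroup') ⟨g, hgP⟩
  have hgk : orderOf g = p ^ k := by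
    rw [← hk]
    exact Subgroup.orderOf_coe (⟨g, hgP⟩ : (P : Subgroup G))
  have hgpow : g ^ p ^ k = 1 := by
    rw [← hgk]
    exact pow_orderOf_eq_one g
  have hdeg : ∀ χ : IrrCharacter G, (χ : G → ℂ) 1 = (charDegree (χ : G → ℂ) : ℂ) :=
    fun χ => (Cfsg.Agent.Lib.Helper83.irr_degree χ.2).2
  have he : ∀ χ : IrrCharacter G, ∃ j : ℕ,
      classInner (fun n : N => (χ : G → ℂ) n) (θ : N → ℂ) = j :=
    fun χ => Cfsg.Agent.Lib.Helper35.classInner_char_nat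
      (Cfsg.Agent.Lib.Helper35.isCharacter_res N (Cfsg.Agent.Lib.Helper35.isChar_of_irr χ.2))
      (Cfsg.Agent.Lib.Helper35.isChar_of_irr θ.2)
  choose e he using he
  set Bf := Finset.univ.filter (fun χ : IrrCharacter G => χ ∈ B) with hBf
  have hmemBf : ∀ χ : IrrCharacter G, χ ∈ Bf ↔ χ ∈ B := fun χ => by
    rw [hBf, Finset.mem_filter]
    simp
  -- orthogonality
  have h1 : ∀ n : N, ∑ χ ∈ Bf, (χ : G → ℂ) n * conj ((χ : G → ℂ) g) = 0 := by
    intro n
    have h2 := Cfsg.Agent.Lib.Helper82.strong_block_orth hM B hB (n : G) g (by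
      intro c h hc heq
      have h3 : g ^ c ∈ N := by
        rw [heq]
        have h4 := hNn.conj_mem ((n : G) ^ c) (N.pow_mem n.2 c) h⁻¹
        rwa [inv_inv] at h4
      have hcop : Nat.Coprime c (orderOf g) := by
        rw [hgk]
        exact Nat.Coprime.pow_right _ ((Nat.Prime.coprime_iff_not_dvd hp).mpr hc).symm
      obtain ⟨m, hm⟩ := exists_pow_eq_self_of_coprime hcop
      apply hgN
      rw [← hm]
      exact N.pow_mem h3 m)
    rw [Cfsg.Agent.Lib.Helper79.finsum_mem_eq_sum_filter_univ] at h2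
    exact h2
  have horth : ∑ χ ∈ Bf, (e χ : ℂ) * (χ : G → ℂ) g⁻¹ = 0 := by
    have h3 : ∀ χ ∈ Bf, (e χ : ℂ) * (χ : G → ℂ) g⁻¹ = (Nat.card N : ℂ)⁻¹ *
        ∑ n : N, conj ((θ : N → ℂ) n) * ((χ : G → ℂ) n * conj ((χ : G → ℂ) g)) := by
      intro χ _
      rw [← he χ, irr_inv]
      unfold classInner
      rw [mul_assoc, Finset.sum_mul]
      congr 1
      apply Finset.sum_congr rfl
      intro n _
      ring
    rw [Finset.sum_congr rfl h3, ← Finset.mul_sum, Finset.sum_comm]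
    rw [Finset.sum_eq_zero (fun n _ => by rw [← Finset.mul_sum, h1 n, mul_zero]), mul_zero]
  have hcong : p ∣ ∑ χ ∈ Bf, e χ * charDegree (χ : G → ℂ) := by
    rw [← locIdeal_natCast_iff hM]
    have h2 : ((∑ χ ∈ Bf, e χ * charDegree (χ : G → ℂ) : ℕ) : ℂ) =
        ∑ χ ∈ Bf, (e χ : ℂ) * ((χ : G → ℂ) 1 - (χ : G → ℂ) g⁻¹) := by
      have h3 : ∑ χ ∈ Bf, (e χ : ℂ) * ((χ : G → ℂ) 1 - (χ : G → ℂ) g⁻¹) =
          ∑ χ ∈ Bf, (e χ : ℂ) * (χ : G → ℂ) 1 - ∑ χ ∈ Bf, (e χ : ℂ) * (χ : G → ℂ) g⁻¹ := by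
        rw [← Finset.sum_sub_distrib]
        apply Finset.sum_congr rfl
        intro χ _
        ring
      rw [h3, horth, sub_zero]
      push_cast
      apply Finset.sum_congr rfl
      intro χ _
      rw [hdeg χ]
    rw [h2]
    apply locIdeal_sum hM
    intro χ _
    apply locIdeal_mul_left hM (locRing_natCast hM _)
    have h4 := Cfsg.Agent.Lib.Helper22.char_ppart_mul_congr hM χ g⁻¹ 1 (Commute.one_right _) k
      (by rw [inv_pow, hgpow, inv_one]) (by rw [orderOf_one]; exact hp.not_dvd_one)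
    rw [mul_one] at h4
    have h5 := locIdeal_neg h4
    rwa [neg_sub] at h5
  -- Clifford
  let T : Subgroup G :=
    { carrier := {x | conjFun N (θ : N → ℂ) x = (θ : N → ℂ)}
      mul_mem' := by
        intro a b ha hb
        show conjFun N (θ : N → ℂ) (a * b) = (θ : N → ℂ)
        rw [← conjFun_conjFun, show conjFun N (θ : N → ℂ) a = (θ : N → ℂ) from ha]
        exact hb
      one_mem' := conjFun_one N (θ : N → ℂ)
      inv_mem' := by
        intro a ha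
        show conjFun N (θ : N → ℂ) a⁻¹ = (θ : N → ℂ)
        have h : conjFun N (conjFun N (θ : N → ℂ) a) a⁻¹ = (θ : N → ℂ) := by
          rw [conjFun_conjFun, mul_inv_cancel, conjFun_one]
        rwa [show conjFun N (θ : N → ℂ) a = (θ : N → ℂ) from ha] at h }
  have hT : ∀ x : G, x ∈ T ↔ conjFun N (θ : N → ℂ) x = (θ : N → ℂ) := fun x => Iff.rfl
  set c := T.index * charDegree (θ : N → ℂ) with hc
  have hcl : ∀ χ : IrrCharacter G, e χ ≠ 0 → charDegree (χ : G → ℂ) = e χ * c := by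
    intro χ hχe
    have hcon : classInner (fun n : N => (χ : G → ℂ) n) (θ : N → ℂ) ≠ 0 := by
      rw [he χ]
      exact_mod_cast hχe
    have h2 := clifford_degree N θ.2 χ.2 hcon T hT
    rw [hdeg χ, he χ, (Cfsg.Agent.Lib.Helper83.irr_degree θ.2).2] at h2
    rw [hc]
    have h3 : ((charDegree (χ : G → ℂ) : ℕ) : ℂ) =
        ((e χ * (T.index * charDegree (θ : N → ℂ)) : ℕ) : ℂ) := by
      rw [h2]
      push_cast
      ring
    exact_mod_cast h3
  have hsum : ∑ χ ∈ Bf, e χ * charDegree (χ : G → ℂ) = c * ∑ χ ∈ Bf, e χ ^ 2 := by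
    rw [Finset.mul_sum]
    apply Finset.sum_congr rfl
    intro χ _
    by_cases hχe : e χ = 0
    · rw [hχe]; simp
    · rw [hcl χ hχe]; ring
  rw [hsum] at hcong
  have hS₀e : ∀ χ, χ ∈ S₀ ↔ (χ ∈ B ∧ ¬ p ∣ charDegree (χ : G → ℂ) ∧ e χ ≠ 0) := by
    intro χ
    rw [hS₀ χ, he χ]
    constructor
    · rintro ⟨h1, h2, h3⟩
      exact ⟨h1, h2, by exact_mod_cast h3⟩
    · rintro ⟨h1, h2, h3⟩
      exact ⟨h1, h2, by exact_mod_cast h3⟩
  rcases Finset.eq_empty_or_nonempty S₀ with hemp | ⟨χ₀, hχ₀⟩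
  · rw [hemp, Finset.card_empty]
    exact ⟨Or.inl rfl, fun _ => dvd_zero p⟩
  obtain ⟨hχ₀B, hχ₀p, hχ₀e⟩ := (hS₀e χ₀).mp hχ₀
  have hpc : ¬ p ∣ c := by
    intro h
    apply hχ₀p
    rw [hcl χ₀ hχ₀e]
    exact Dvd.dvd.mul_left h _
  have hdvd : p ∣ ∑ χ ∈ Bf, e χ ^ 2 := (hp.dvd_mul.mp hcong).resolve_left hpc
  have hsub : S₀ ⊆ Bf := fun χ hχ => (hmemBf χ).mpr ((hS₀e χ).mp hχ).1
  have hdvd0 : p ∣ ∑ χ ∈ S₀, e χ ^ 2 := by
    rw [← Finset.sum_sdiff hsub] at hdvd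
    have h2 : p ∣ ∑ χ ∈ Bf \ S₀, e χ ^ 2 := by
      apply Finset.dvd_sum
      intro χ hχ
      rw [Finset.mem_sdiff] at hχ
      by_cases hχe : e χ = 0
      · rw [hχe]; simp
      · have h3 : p ∣ charDegree (χ : G → ℂ) := by
          by_contra h4
          exact hχ.2 ((hS₀e χ).mpr ⟨(hmemBf χ).mp hχ.1, h4, hχe⟩)
        rw [hcl χ hχe] at h3
        have h5 := (hp.dvd_mul.mp h3).resolve_right hpc
        exact Dvd.dvd.pow h5 (by norm_num)
    exact (Nat.dvd_add_right h2).mp hdvd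
  have hpe : ∀ χ ∈ S₀, ¬ p ∣ e χ := by
    intro χ hχ h
    obtain ⟨-, hχp, hχe⟩ := (hS₀e χ).mp hχ
    apply hχp
    rw [hcl χ hχe]
    exact Dvd.dvd.mul_right h _
  constructor
  · right
    by_contra hlt
    push Not at hlt
    have hpos : 0 < S₀.card := Finset.card_pos.mpr ⟨χ₀, hχ₀⟩
    have h1c : S₀.card = 1 := by omega
    obtain ⟨χ₁, hχ₁⟩ := Finset.card_eq_one.mp h1c
    rw [hχ₁, Finset.sum_singleton] at hdvd0
    have h2 := hp.dvd_of_dvd_pow hdvd0
    exact hpe χ₁ (by rw [hχ₁]; exact Finset.mem_singleton_self _) h2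
  · intro h3
    have h4 : ((∑ χ ∈ S₀, e χ ^ 2 : ℕ) : ZMod p) = 0 := (ZMod.natCast_eq_zero_iff _ p).mpr hdvd0
    push_cast at h4
    have h5 : ∑ χ ∈ S₀, ((e χ : ZMod p)) ^ 2 = ∑ χ ∈ S₀, (1 : ZMod p) := by
      apply Finset.sum_congr rfl
      intro χ hχ
      apply sq_eq_one_small p hp h3
      intro h6
      exact hpe χ hχ ((ZMod.natCast_eq_zero_iff _ p).mp h6)
    rw [h5, Finset.sum_const, nsmul_eq_mul, mul_one] at h4
    exact (ZMod.natCast_eq_zero_iff _ p).mp h4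

/-- Let p be a prime, G a finite group with Sylow p-subgroup P, M a maximal ideal of the algebraic integers containing p, and B a p-block of G with defect group P. Let N be a normal subgroup of G not containing P and θ an irreducible character of N. Then the number of irreducible characters in B of degree prime to p lying over θ (having θ as a constituent on restriction to N) is either 0 or at least 2, and when p ≤ 3 it is divisible by p. -/
theorem result {G : Type*} [Group G] [Fintype G] (p : ℕ) [Fact p.Prime] (P : Sylow p G) (M : Ideal Cfsg.AlgInt) (hM : Cfsg.IsPModular p M) (B : Set (Cfsg.IrrCharacter G)) (hB : Cfsg.IsPBlock M B) (hBP : Cfsg.IsDefectGroup p M B P) (N : Subgroup G) [N.Normal] [Fintype N] (hPN : ¬ (P : Subgroup G) ≤ N) (θ : Cfsg.IrrCharacter N) :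
    (Nat.card {χ : Cfsg.IrrCharacter G // χ ∈ B ∧ ¬ p ∣ Cfsg.charDegree (χ : G → ℂ) ∧ Cfsg.classInner (fun n : N => (χ : G → ℂ) n) (θ : N → ℂ) ≠ 0} = 0 ∨
      2 ≤ Nat.card {χ : Cfsg.IrrCharacter G // χ ∈ B ∧ ¬ p ∣ Cfsg.charDegree (χ : G → ℂ) ∧ Cfsg.classInner (fun n : N => (χ : G → ℂ) n) (θ : N → ℂ) ≠ 0}) ∧
    (p ≤ 3 → p ∣ Nat.card {χ : Cfsg.IrrCharacter G // χ ∈ B ∧ ¬ p ∣ Cfsg.charDegree (χ : G → ℂ) ∧ Cfsg.classInner (fun n : N => (χ : G → ℂ) n) (θ : N → ℂ) ≠ 0}) := by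
  classical
  have hfin := irr_finite (G := G)
  let _ : Fintype (IrrCharacter G) := Fintype.ofFinite _
  have hcard : Nat.card {χ : IrrCharacter G // χ ∈ B ∧ ¬ p ∣ charDegree (χ : G → ℂ) ∧
      classInner (fun n : N => (χ : G → ℂ) n) (θ : N → ℂ) ≠ 0} =
      (Finset.univ.filter (fun χ : IrrCharacter G => χ ∈ B ∧ ¬ p ∣ charDegree (χ : G → ℂ) ∧
        classInner (fun n : N => (χ : G → ℂ) n) (θ : N → ℂ) ≠ 0)).card := by
    rw [Nat.card_eq_fintype_card, Fintype.card_subtype]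
  rw [hcard]
  exact key p P M hM B hB N hPN θ _ (fun χ => by rw [Finset.mem_filter]; simp)

end Cfsg.Agent.S4825
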