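import Cfsg.Statements.S4845
import Mathlib
import Cfsg.Agent.Lib.Helper4.GalP3

set_option autoImplicit false
open Cfsg

namespace Cfsg.Agent.S4845

open Cfsg.Agent.Lib.Helper4 in
open scoped commutatorElement in
theorem aux {P : Type*} [Group P] [Finite P] (p : ℕ) [Fact p.Prime] (hP : IsPGroup p P)
    (hna : ¬ IsMulCommutative P) :
    GalP.GalConj P ↔ (IsCyclic (Subgroup.center P) ∧ Nat.card (commutator P) = p) := by
  have hp : p.Prime := Fact.out
  constructor
  · intro h
    have hne : commutator P ≠ ⊥ := by
      intro hbot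
      apply hna
      refine ⟨⟨fun a b => ?_⟩⟩
      have h1 : ⁅a, b⁆ ∈ commutator P := by
        rw [commutator_def]
        exact Subgroup.commutator_mem_commutator (Subgroup.mem_top _) (Subgroup.mem_top _)
      rw [hbot, Subgroup.mem_bot] at h1
      exact commutatorElement_eq_one_iff_mul_comm.mp h1
    have hcard := GalP.card_commutator_aux p (Nat.card P) P le_rfl hP hne h
    obtain ⟨χ, hχ⟩ := Cfsg.Agent.Lib.Helper83.exists_nonlinear hne
    have hpr : (Nat.card (commutator P)).Prime := by rw [hcard]; exact hp
    exact ⟨GalP.center_cyclic_of_faithful χ (GalP.faithful_of_gal h hpr χ hχ), hcard⟩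
  · rintro ⟨hcyc, hcard⟩
    exact GalP.galConj_of_cyclic hP hcyc hcard

/-- Let p be a prime and P a finite non-commutative p-group. Then every two irreducible characters of P of the same degree greater than 1 are Galois conjugate (one is obtained from the other by composing with g ↦ g^k for some k prime to the order of P) if and only if the centre of P is cyclic and the derived subgroup of P has order p. -/
theorem result {P : Type*} [Group P] [Finite P] (p : ℕ) [Fact p.Prime] (hP : IsPGroup p P) (hna : ¬ IsMulCommutative P) :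
    (∀ χ ψ : Cfsg.IrrCharacter P, Cfsg.charDegree (χ : P → ℂ) ≠ 1 → Cfsg.charDegree (χ : P → ℂ) = Cfsg.charDegree (ψ : P → ℂ) → ∃ k : ℕ, Nat.Coprime k (Nat.card P) ∧ ∀ g : P, (ψ : P → ℂ) g = (χ : P → ℂ) (g ^ k)) ↔
      (IsCyclic (Subgroup.center P) ∧ Nat.card (commutator P) = p) := by
  exact aux p hP hna

end Cfsg.Agent.S4845
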