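import Cfsg.Statements.S4870
import Cfsg.Agent.Lib.Helper84.CliffInd

set_option autoImplicit false
open Cfsg

namespace Cfsg.Agent.S4870

/-- If N is a non-abelian minimal normal subgroup and φ ∈ Irr(N) extends to its stabilizer I, then n₁(G) ≤ [G:I]·n_d(G) with d = φ(1)[G:I]. -/
theorem result {G : Type*} [Group G] [Finite G] (N : Subgroup G) (hN : N.Normal) (hN1 : N ≠ ⊥) (hmin : ∀ M : Subgroup G, M.Normal → M ≤ N → M = ⊥ ∨ M = N) (hna : ¬ IsMulCommutative ↥N) (φ : Cfsg.IrrCharacter ↥N) (I : Subgroup G) (hI : ∀ g : G, g ∈ I ↔ ∀ n n' : ↥N, (n' : G) = g * (n : G) * g⁻¹ → (φ : ↥N → ℂ) n' = (φ : ↥N → ℂ) n) (hNI : N ≤ I) (hext : ∃ ψ : Cfsg.IrrCharacter ↥I, ∀ n : ↥N, (ψ : ↥I → ℂ) (Subgroup.inclusion hNI n) = (φ : ↥N → ℂ) n) : Nat.card {χ : Cfsg.IrrCharacter G // Cfsg.charDegree (χ : G → ℂ) = 1} ≤ I.index * Nat.card {χ : Cfsg.IrrCharacter G // Cfsg.charDegree (χ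 : G → ℂ) = Cfsg.charDegree (φ : ↥N → ℂ) * I.index} := by
  exact Cfsg.Agent.Lib.Helper84.lin_le_index_mul N hN hmin hna φ I hI hNI hext

end Cfsg.Agent.S4870
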