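import Cfsg.Statements.S4871
-- import your own Cfsg.Agent.* helpers here
import Cfsg.Agent.Lib.Helper79.SRAvg1

set_option autoImplicit false
open Cfsg

namespace Cfsg.Agent.S4871

open Cfsg.Agent.Lib in
/-- A real linear character takes the value `1` on squares. -/
theorem linear_sq {G : Type*} [Group G] [Fintype G] (μ : IrrCharacter G)
    (h1 : charDegree (μ : G → ℂ) = 1) (hfs : Helper79.fsInd (μ : G → ℂ) = 1) (s : G) :
    (μ : G → ℂ) (s * s) = 1 := by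
  have h1' : (μ : G → ℂ) 1 = 1 := (Helper83.irr_charDegree_eq_one_iff μ.2).1 h1
  have hspec := Helper79.fsSign_spec μ
  rw [hfs] at hspec
  have hsign : Helper79.fsSign μ = 1 := by exact_mod_cast hspec.symm
  have hr : ∀ g : G, ((μ : G → ℂ) g).im = 0 :=
    (Helper79.fsSign_ne_zero_iff μ).mp (by rw [hsign]; exact one_ne_zero)
  rw [Helper83.irr_linear_mul μ.2 h1']
  have hn := Helper83.irr_linear_norm μ.2 h1' s
  have hc := Complex.conj_eq_iff_im.2 (hr s)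
  have h2 : (μ : G → ℂ) s * (starRingEnd ℂ) ((μ : G → ℂ) s) = 1 := by
    rw [Complex.mul_conj, Complex.normSq_eq_norm_sq, hn]
    simp
  rwa [hc] at h2

open Cfsg.Agent.Lib in
/-- The counting argument. -/
theorem count_aux {G : Type*} [Group G] [Fintype G] [Fintype (IrrCharacter G)]
    [DecidableEq (IrrCharacter G)]
    (N : Subgroup G) [Fintype N] (χ₀ : G → ℂ) (m : ℕ) (hχ₀ : IsIrrCharacter G χ₀)
    (hdeg : χ₀ 1 = (m : ℂ)) (h2m : 2 ∣ m)
    (hk : classInner (fun n : N => χ₀ n) (fun n : N => χ₀ n) = (m : ℂ))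
    (hfs : Helper79.fsInd χ₀ = 1)
    (hlin : ∀ μ : IrrCharacter G, charDegree (μ : G → ℂ) = 1 → ∀ n : N, (μ : G → ℂ) n = 1)
    (Sf : Finset (IrrCharacter G))
    (hSf : ∀ χ : IrrCharacter G, χ ∈ Sf ↔
      ((charDegree (χ : G → ℂ) = 1 ∨ 2 ∣ charDegree (χ : G → ℂ)) ∧
        Helper79.fsInd (χ : G → ℂ) = 1)) :
    4 * Sf.card ≤ 3 * ∑ χ ∈ Sf, charDegree (χ : G → ℂ) := by
  classical
  set A := Sf.filter (fun χ : IrrCharacter G => charDegree (χ : G → ℂ) = 1) with hA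
  set B := Sf.filter (fun χ : IrrCharacter G => ¬ charDegree (χ : G → ℂ) = 1) with hB
  have hcard : Sf.card = A.card + B.card :=
    (Finset.card_filter_add_card_filter_not (s := Sf) _).symm
  have hsum : ∑ χ ∈ Sf, charDegree (χ : G → ℂ) =
      ∑ χ ∈ A, charDegree (χ : G → ℂ) + ∑ χ ∈ B, charDegree (χ : G → ℂ) :=
    (Finset.sum_filter_add_sum_filter_not Sf _ _).symm
  have hAsum : ∑ χ ∈ A, charDegree (χ : G → ℂ) = A.card := by
    rw [Finset.card_eq_sum_ones]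
    apply Finset.sum_congr rfl
    intro χ hχ
    exact (Finset.mem_filter.mp hχ).2
  have hB2 : 2 * B.card ≤ ∑ χ ∈ B, charDegree (χ : G → ℂ) := by
    have h := Finset.card_nsmul_le_sum B (fun χ : IrrCharacter G => charDegree (χ : G → ℂ)) 2
      (by
        intro χ hχ
        obtain ⟨hχS, hχ1⟩ := Finset.mem_filter.mp hχ
        have hp := ((hSf χ).mp hχS).1
        rcases hp with hp | hp
        · exact absurd hp hχ1
        · exact Nat.le_of_dvd (Helper79.charDegree_pos χ) hp)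
    rw [smul_eq_mul, mul_comm] at h
    exact h
  -- the twisting map
  let f : IrrCharacter G → IrrCharacter G := fun μ =>
    if h : charDegree (μ : G → ℂ) = 1 then
      ⟨χ₀ * (μ : G → ℂ), Helper84.irr_mul_linear hχ₀ μ.2
        ((Helper83.irr_charDegree_eq_one_iff μ.2).mp h)⟩
    else μ
  have hf : ∀ μ ∈ A, ((f μ : IrrCharacter G) : G → ℂ) = χ₀ * (μ : G → ℂ) := by
    intro μ hμ
    have h1 : charDegree (μ : G → ℂ) = 1 := (Finset.mem_filter.mp hμ).2
    simp only [f, dif_pos h1]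
  have hm1 : m ≠ 1 := by
    intro h
    rw [h] at h2m
    norm_num at h2m
  have hfdeg : ∀ μ ∈ A, charDegree ((f μ : IrrCharacter G) : G → ℂ) = m := by
    intro μ hμ
    have h1 : charDegree (μ : G → ℂ) = 1 := (Finset.mem_filter.mp hμ).2
    have h1' : (μ : G → ℂ) 1 = 1 := (Helper83.irr_charDegree_eq_one_iff μ.2).1 h1
    rw [hf μ hμ]
    show ⌊((χ₀ * (μ : G → ℂ)) 1).re⌋₊ = m
    rw [Pi.mul_apply, hdeg, h1', mul_one, Complex.natCast_re, Nat.floor_natCast]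
  have hfB : ∀ μ ∈ A, f μ ∈ B := by
    intro μ hμ
    obtain ⟨hμS, h1⟩ := Finset.mem_filter.mp hμ
    have hμfs := ((hSf μ).mp hμS).2
    rw [hB, Finset.mem_filter, hSf, hfdeg μ hμ]
    refine ⟨⟨Or.inr h2m, ?_⟩, hm1⟩
    rw [hf μ hμ]
    unfold Helper79.fsInd at hfs ⊢
    rw [← hfs]
    congr 1
    apply Finset.sum_congr rfl
    intro s _
    rw [Pi.mul_apply, linear_sq μ h1 hμfs s, mul_one]
  have hfib : ∀ a ∈ A.image f, (A.filter (fun μ => f μ = a)).card ≤ m := by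
    intro a ha
    obtain ⟨lam, hlam, rfl⟩ := Finset.mem_image.mp ha
    have hlam1 : charDegree (lam : G → ℂ) = 1 := (Finset.mem_filter.mp hlam).2
    refine le_trans (Finset.card_le_card ?_) (Helper84.card_fiber_le N χ₀ hχ₀ m hk hlin lam hlam1)
    intro μ hμ
    obtain ⟨hμA, hμf⟩ := Finset.mem_filter.mp hμ
    rw [Finset.mem_filter]
    refine ⟨Finset.mem_univ _, (Finset.mem_filter.mp hμA).2, ?_⟩
    rw [← hf μ hμA, ← hf lam hlam, hμf]
  have h1 := Finset.card_le_mul_card_image A m hfib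
  have h2 : m * (A.image f).card = ∑ χ ∈ A.image f, charDegree (χ : G → ℂ) := by
    rw [mul_comm, ← smul_eq_mul, ← Finset.sum_const]
    apply Finset.sum_congr rfl
    intro χ hχ
    obtain ⟨μ, hμ, rfl⟩ := Finset.mem_image.mp hχ
    exact (hfdeg μ hμ).symm
  have h3 : ∑ χ ∈ A.image f, charDegree (χ : G → ℂ) ≤ ∑ χ ∈ B, charDegree (χ : G → ℂ) := by
    apply Finset.sum_le_sum_of_subset
    intro χ hχ
    obtain ⟨μ, hμ, rfl⟩ := Finset.mem_image.mp hχ
    exact hfB μ hμ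
  rw [hcard, hsum, hAsum]
  omega

/-- Let G be a finite group that is the semidirect product of a normal elementary abelian subgroup N of odd order by a non-trivial 2-subgroup P, with N the unique minimal normal subgroup of G. Consider the strongly real irreducible complex characters of G (Frobenius–Schur indicator +1) whose degree is 1 or even. Then their average degree is at least 4/3: four times their number is at most three times the sum of their degrees. -/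
theorem result {G : Type*} [Group G] [Finite G] (N P : Subgroup G) (hN : N.Normal) (q : ℕ) [Fact q.Prime] (hq : q ≠ 2) (hNel : Cfsg.IsElementaryAbelian q N) (hP : IsPGroup 2 ↥P) (hP1 : P ≠ ⊥) (hdisj : N ⊓ P = ⊥) (hprod : N ⊔ P = ⊤) (hmin : N ≠ ⊥ ∧ ∀ M : Subgroup G, M.Normal → M ≠ ⊥ → N ≤ M) : 4 * Nat.card {χ : Cfsg.IrrCharacter G // (Cfsg.charDegree (χ : G → ℂ) = 1 ∨ 2 ∣ Cfsg.charDegree (χ : G → ℂ)) ∧ (Nat.card G : ℂ)⁻¹ * ∑ᶠ g : G, (χ : G → ℂ) (g * g) = 1} ≤ 3 * (∑ᶠ χ : {χ : Cfsg.IrrCharacter G // (Cfsg.charDegree (χ : G → ℂ) = 1 ∨ 2 ∣ Cfsg.charDegree (χ : G → ℂ)) ∧ (Nat.card G : ℂ)⁻¹ * ∑ᶠ g : G, (χ : G → ℂ) (g * g) = 1}, Cfsg.charDegree (χ.1 : G → ℂ)) := by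
  classical
  letI : Fintype G := Fintype.ofFinite G
  haveI := hN
  letI : Fintype N := Fintype.ofFinite N
  have hfin := Cfsg.Agent.Lib.Helper4.irr_finite (G := G)
  letI : Fintype (IrrCharacter G) := Fintype.ofFinite _
  obtain ⟨hc, hNc, φ, t, hφ, htP, ht, hinv⟩ :=
    Cfsg.Agent.Lib.Helper79.sr_setup N P hNel.1 hP1 hP hdisj hprod hmin
  have hodd : Odd (Nat.card N) := by
    have hpg : IsPGroup q N := by
      intro a
      refine ⟨1, ?_⟩
      rw [pow_one]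
      apply Subtype.ext
      have := hNel.2 a a.2
      simpa using this
    obtain ⟨k, hk⟩ := (IsPGroup.iff_card (p := q) (G := N)).mp hpg
    rw [hk]
    exact ((Fact.out : q.Prime).odd_of_ne_two hq).pow
  obtain ⟨χ₀, m, hχ₀, hdeg, h2m, hk, hfs⟩ :=
    Cfsg.Agent.Lib.Helper79.exists_sr_induced N P hc hP hodd φ hφ t htP ht hinv
  have hlin : ∀ μ : IrrCharacter G, charDegree (μ : G → ℂ) = 1 →
      ∀ n : N, (μ : G → ℂ) n = 1 := fun μ hμ n =>
    Cfsg.Agent.Lib.Helper83.irr_linear_commutator μ.2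
      ((Cfsg.Agent.Lib.Helper83.irr_charDegree_eq_one_iff μ.2).mp hμ) (hNc n.2)
  have hpred : ∀ χ : IrrCharacter G,
      ((Cfsg.charDegree (χ : G → ℂ) = 1 ∨ 2 ∣ Cfsg.charDegree (χ : G → ℂ)) ∧
        (Nat.card G : ℂ)⁻¹ * ∑ᶠ g : G, (χ : G → ℂ) (g * g) = 1) ↔
      ((charDegree (χ : G → ℂ) = 1 ∨ 2 ∣ charDegree (χ : G → ℂ)) ∧
        Cfsg.Agent.Lib.Helper79.fsInd (χ : G → ℂ) = 1) := by
    intro χ
    rw [finsum_eq_sum_of_fintype]
    rfl
  set Sf : Finset (IrrCharacter G) := Finset.univ.filter (fun χ : IrrCharacter G =>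
    (Cfsg.charDegree (χ : G → ℂ) = 1 ∨ 2 ∣ Cfsg.charDegree (χ : G → ℂ)) ∧
        (Nat.card G : ℂ)⁻¹ * ∑ᶠ g : G, (χ : G → ℂ) (g * g) = 1) with hSfdef
  have hSf : ∀ χ : IrrCharacter G, χ ∈ Sf ↔
      ((charDegree (χ : G → ℂ) = 1 ∨ 2 ∣ charDegree (χ : G → ℂ)) ∧
        Cfsg.Agent.Lib.Helper79.fsInd (χ : G → ℂ) = 1) := by
    intro χ
    rw [hSfdef, Finset.mem_filter, hpred]
    simp
  have hmain := count_aux N χ₀ m hχ₀ hdeg h2m hk hfs hlin Sf hSf
  have hc1 : Nat.card {χ : Cfsg.IrrCharacter G // (Cfsg.charDegree (χ : G → ℂ) = 1 ∨ 2 ∣ Cfsg.charDegree (χ : G → ℂ)) ∧ (Nat.card G : ℂ)⁻¹ * ∑ᶠ g : G, (χ : G → ℂ) (g * g) = 1} = Sf.card := by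
    rw [Nat.card_eq_fintype_card, Fintype.card_subtype]
  have hc2 : (∑ᶠ χ : {χ : Cfsg.IrrCharacter G // (Cfsg.charDegree (χ : G → ℂ) = 1 ∨ 2 ∣ Cfsg.charDegree (χ : G → ℂ)) ∧ (Nat.card G : ℂ)⁻¹ * ∑ᶠ g : G, (χ : G → ℂ) (g * g) = 1}, Cfsg.charDegree (χ.1 : G → ℂ)) = ∑ χ ∈ Sf, charDegree (χ : G → ℂ) := by
    rw [finsum_eq_sum_of_fintype]
    exact (Finset.sum_subtype Sf (by intro x; rw [hSfdef, Finset.mem_filter]; simp)
      (fun χ : IrrCharacter G => charDegree (χ : G → ℂ))).symm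
  rw [hc1, hc2]
  exact hmain

end Cfsg.Agent.S4871
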