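import Cfsg.Statements.S4872
import Mathlib
import Cfsg.Agent.Lib.Helper79.FSMain
import Cfsg.Agent.Lib.Helper79.FSCount
import Cfsg.Agent.Lib.Helper79.DefZero
import Cfsg.Agent.Lib.Helper83.ProjDeg
import Cfsg.Agent.Lib.Helper83.Rg1
import Cfsg.Agent.Lib.Helper20.Clifford
import Cfsg.Agent.S0854
-- import your own Cfsg.Agent.* helpers here

set_option autoImplicit false
open Cfsg

namespace Cfsg.Agent.S4872

open Cfsg.Agent.Lib
open scoped ComplexConjugate

/-- Rank factorization of an idempotent matrix over a field. -/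
theorem idem_factor {k : Type*} [Field k] {ι : Type*} [Fintype ι] [DecidableEq ι]
    (F : Matrix ι ι k) (hF : F * F = F) :
    ∃ (r : ℕ) (B : Matrix ι (Fin r) k) (B' : Matrix (Fin r) ι k), B' * B = 1 ∧ B * B' = F := by
  classical
  let f : (ι → k) →ₗ[k] (ι → k) := Matrix.toLin' F
  have hf : ∀ v, f (f v) = f v := by
    intro v
    have : f ∘ₗ f = f := by
      show Matrix.toLin' F ∘ₗ Matrix.toLin' F = Matrix.toLin' F
      rw [← Matrix.toLin'_mul, hF]
    exact congrArg (fun g => g v) this
  let W := LinearMap.range f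
  let b := Module.finBasis k W
  let i : W →ₗ[k] (ι → k) := W.subtype
  let p : (ι → k) →ₗ[k] W := f.rangeRestrict
  have hip : i ∘ₗ p = f := by
    ext v : 1
    rfl
  have hpi : p ∘ₗ i = LinearMap.id := by
    apply LinearMap.ext
    rintro ⟨w, hw⟩
    obtain ⟨v, rfl⟩ := hw
    apply Subtype.ext
    show f (f v) = f v
    exact hf v
  refine ⟨Module.finrank k W, LinearMap.toMatrix b (Pi.basisFun k ι) i,
    LinearMap.toMatrix (Pi.basisFun k ι) b p, ?_, ?_⟩
  · rw [← LinearMap.toMatrix_comp, hpi, LinearMap.toMatrix_id]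
  · rw [← LinearMap.toMatrix_comp, hip, LinearMap.toMatrix_eq_toMatrix']
    exact LinearMap.toMatrix'_toLin' F

/-- The fixed space of any subgroup in a symplectic-type irreducible representation has even
dimension. -/
theorem even_mult {G : Type*} [Group G] [Fintype G] {n : ℕ}
    (ρ : Representation ℂ G (Fin n → ℂ)) [hirr : ρ.IsIrreducible]
    (hν : Helper79.fsInd ρ.character = -1) (S : Subgroup G) [Fintype S] :
    ∃ r : ℕ, Even r ∧ (Nat.card S : ℂ)⁻¹ * ∑ s : S, ρ.character (s : G) = r := by
  classical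
  have hreal : ∀ g : G, (ρ.character g).im = 0 := by
    by_contra hnr
    have := (Helper79.fsInd_trichotomy ρ).2 hnr
    rw [hν] at this
    norm_num at this
  obtain ⟨M, hM0, hMinv⟩ := Helper79.exists_invariant_of_real ρ hreal
  have hMT : M.transpose = -M := by
    have := (Helper79.transpose_eq_fsInd_smul ρ hreal).2 M hMinv
    rw [hν] at this
    rw [this, neg_one_smul]
  have hMu : IsUnit M.det := Helper79.isUnit_det_of_invariant ρ M hMinv hM0
  have hcS : (Nat.card S : ℂ) ≠ 0 := Nat.cast_ne_zero.mpr Nat.card_pos.ne'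
  let X := Helper79.repMat ρ
  let e : Matrix (Fin n) (Fin n) ℂ := (Nat.card S : ℂ)⁻¹ • ∑ s : S, X (s : G)
  have hXe : ∀ t : S, X (t : G) * e = e := by
    intro t
    show X (t : G) * ((Nat.card S : ℂ)⁻¹ • ∑ s : S, X (s : G))
      = (Nat.card S : ℂ)⁻¹ • ∑ s : S, X (s : G)
    rw [Matrix.mul_smul, Matrix.mul_sum]
    congr 1
    rw [← Equiv.sum_comp (Equiv.mulLeft t) (fun s : S => X (s : G))]
    refine Finset.sum_congr rfl fun s _ => ?_
    rw [← map_mul]
    rfl
  have hee : e * e = e := by
    show ((Nat.card S : ℂ)⁻¹ • ∑ s : S, X (s : G)) * e = e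
    rw [Matrix.smul_mul, Matrix.sum_mul, Finset.sum_congr rfl (fun t _ => hXe t), Finset.sum_const,
      Finset.card_univ, ← Nat.card_eq_fintype_card, ← Nat.cast_smul_eq_nsmul ℂ, inv_smul_smul₀ hcS]
  have heM : e.transpose * M = M * e := by
    show ((Nat.card S : ℂ)⁻¹ • ∑ s : S, X (s : G)).transpose * M
      = M * ((Nat.card S : ℂ)⁻¹ • ∑ s : S, X (s : G))
    rw [Matrix.transpose_smul, Matrix.transpose_sum, Matrix.smul_mul, Matrix.mul_smul,
      Matrix.sum_mul, Matrix.mul_sum]
    congr 1
    rw [← Equiv.sum_comp (Equiv.inv S) (fun s : S => M * X (s : G))]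
    refine Finset.sum_congr rfl fun s _ => ?_
    have := Helper79.invariant_comm X M hMinv ((s : G)⁻¹)
    rw [inv_inv] at this
    simp only [Equiv.inv_apply, Subgroup.coe_inv]
    exact this.symm
  obtain ⟨r, B, B', hB'B, hBB'⟩ := idem_factor e hee
  refine ⟨r, ?_, ?_⟩
  · let Γ : Matrix (Fin r) (Fin r) ℂ := B.transpose * M * B
    have hΓT : Γ.transpose = -Γ := by
      show (B.transpose * M * B).transpose = -(B.transpose * M * B)
      rw [Matrix.transpose_mul, Matrix.transpose_mul, Matrix.transpose_transpose, hMT,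
        Matrix.neg_mul, Matrix.mul_neg, Matrix.mul_assoc]
    have hΓinv : Γ * (B' * M⁻¹ * B'.transpose) = 1 := by
      show B.transpose * M * B * (B' * M⁻¹ * B'.transpose) = 1
      calc B.transpose * M * B * (B' * M⁻¹ * B'.transpose)
          = B.transpose * (M * (B * B')) * M⁻¹ * B'.transpose := by
            simp only [Matrix.mul_assoc]
        _ = B.transpose * (e.transpose * M) * M⁻¹ * B'.transpose := by rw [hBB', heM]
        _ = B.transpose * e.transpose * (M * M⁻¹) * B'.transpose := by
            simp only [Matrix.mul_assoc]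
        _ = B.transpose * e.transpose * B'.transpose := by
            rw [Matrix.mul_nonsing_inv _ hMu, Matrix.mul_one]
        _ = (B' * e * B).transpose := by
            rw [Matrix.transpose_mul, Matrix.transpose_mul, Matrix.mul_assoc]
        _ = 1 := by
            rw [← hBB', Matrix.mul_assoc, Matrix.mul_assoc, hB'B, Matrix.mul_one, hB'B,
              Matrix.transpose_one]
    have hdet : Γ.det ≠ 0 := by
      intro h0
      have := congrArg Matrix.det hΓinv
      rw [Matrix.det_mul, h0, zero_mul, Matrix.det_one] at this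
      exact zero_ne_one this
    have h1 : Γ.det = (-1) ^ r * Γ.det := by
      conv_lhs => rw [← Matrix.det_transpose, hΓT, Matrix.det_neg, Fintype.card_fin]
    have h2 : ((-1 : ℂ)) ^ r = 1 := by
      have : ((-1 : ℂ) ^ r - 1) * Γ.det = 0 := by rw [sub_mul, one_mul, ← h1, sub_self]
      rcases mul_eq_zero.mp this with h | h
      · exact sub_eq_zero.mp h
      · exact absurd h hdet
    by_contra hodd
    rw [Nat.not_even_iff_odd] at hodd
    rw [hodd.neg_one_pow] at h2
    norm_num at h2
  · have htr : e.trace = r := by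
      rw [← hBB', Matrix.trace_mul_comm, hB'B, Matrix.trace_one, Fintype.card_fin]
    rw [← htr]
    show _ = ((Nat.card S : ℂ)⁻¹ • ∑ s : S, X (s : G)).trace
    rw [Matrix.trace_smul, Matrix.trace_sum, smul_eq_mul]
    congr 1
    refine Finset.sum_congr rfl fun s _ => ?_
    exact (Helper79.trace_repMat ρ _).symm

/-- Over a normal subgroup of `2`-power index, an odd multiplicity is `1`. -/
theorem mult_one_of_odd {G : Type*} [Group G] [Fintype G] (N : Subgroup G) [hN : N.Normal]
    [Fintype N] (k : ℕ) (hidx : N.index = 2 ^ k) {φ : N → ℂ} (hφ : IsIrrCharacter N φ)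
    {χ : G → ℂ} (hχ : IsIrrCharacter G χ) (e : ℕ)
    (he : classInner (fun n : N => χ n) φ = e) (hodd : Odd e) : e = 1 := by
  classical
  let T := Helper83.inertia N φ
  have hT : ∀ g : G, g ∈ T ↔ Helper20.conjFun N φ g = φ := fun g => Iff.rfl
  have hNT : N ≤ T := Helper83.le_inertia N hφ
  have hT' : ∀ g : G, g ∈ T ↔
      ∀ n : N, φ ⟨g * n * g⁻¹, hN.conj_mem (n : G) n.2 g⟩ = φ n := by
    intro g
    rw [hT]
    constructor
    · intro h n
      exact congrFun h n
    · intro h
      funext n
      exact h n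
  have he0 : e ≠ 0 := by
    rintro rfl
    exact (Nat.not_odd_iff_even.mpr (by decide : Even 0)) hodd
  have hc : classInner (fun n : N => χ n) φ ≠ 0 := by
    rw [he]
    exact_mod_cast he0
  letI : Fintype T := Fintype.ofFinite _
  obtain ⟨ψ, hψ, hind, hmult⟩ := S0854.result N φ hφ T hT' hNT χ hχ hc
  let N' : Subgroup T := N.subgroupOf T
  letI : Fintype N' := Fintype.ofFinite _
  haveI : N'.Normal := Subgroup.normal_subgroupOf
  let eq : N' ≃* N := Subgroup.subgroupOfEquivOfLe hNT
  let θ' : N' → ℂ := fun n => φ (eq n)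
  have hθ' : IsIrrCharacter N' θ' :=
    Helper20.irr_comp_surjective eq.toMonoidHom eq.surjective hφ
  have h2 : (fun n : N' => ψ n) = fun n => (fun m : N => ψ ⟨(m : G), hNT m.2⟩) (eq n) := by
    funext n
    exact congrArg ψ (Subtype.ext (Subgroup.subgroupOfEquivOfLe_apply_coe hNT n).symm)
  have h3 : classInner (fun n : N' => ψ n) θ' = e := by
    rw [h2]
    show classInner (fun n : N' => (fun m : N => ψ ⟨(m : G), hNT m.2⟩) (eq n))
      (fun n : N' => φ (eq n)) = e
    rw [Helper20.classInner_comp_equiv eq (fun m : N => ψ ⟨(m : G), hNT m.2⟩) φ, hmult, he]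
  have hinv : ∀ x : T, Helper20.conjFun N' θ' x = θ' := by
    intro x
    funext n
    rw [Helper20.conjFun_apply]
    have h4 := congrFun ((hT x).mp x.2) (eq n)
    rw [Helper20.conjFun_apply] at h4
    show φ (eq _) = φ (eq n)
    rw [← h4]
    congr 1
  have hres : ∀ n : N', ψ n = e * θ' n := by
    intro n
    have h5 := Helper20.clifford_res N' hθ' hψ (by rw [h3]; exact_mod_cast he0) ⊤
      (fun g => ⟨fun _ => hinv g, fun _ => Subgroup.mem_top g⟩) n
    rw [h5, h3]
    simp only [hinv, Finset.sum_const, Finset.card_univ, nsmul_eq_mul]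
    have hcT : (Nat.card (⊤ : Subgroup T) : ℂ) = (Fintype.card T : ℂ) := by
      rw [Subgroup.card_top, Nat.card_eq_fintype_card]
    rw [hcT]
    have hT0 : (Fintype.card T : ℂ) ≠ 0 := Nat.cast_ne_zero.mpr Fintype.card_ne_zero
    field_simp
  have hdvd : e ∣ N'.index := Helper83.mult_dvd_index N' hψ hθ' e hres
  have hdvd2 : e ∣ 2 ^ k := by
    rw [← hidx]
    exact hdvd.trans (Subgroup.relIndex_dvd_index_of_normal N T)
  obtain ⟨j, -, rfl⟩ := (Nat.dvd_prime_pow Nat.prime_two).mp hdvd2
  rcases Nat.eq_zero_or_pos j with rfl | hj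
  · rfl
  · exfalso
    have : Even (2 ^ j) := (Nat.even_pow.mpr ⟨even_two, hj.ne'⟩)
    exact (Nat.not_odd_iff_even.mpr this) hodd

theorem classInner_conj_conj {G : Type*} [Group G] [Fintype G] (α β : G → ℂ) :
    classInner (fun g => conj (α g)) (fun g => conj (β g)) = conj (classInner α β) := by
  simp only [classInner, map_mul, map_inv₀, map_natCast, map_sum, Complex.conj_conj]

/-- Let N be a normal subgroup of the finite group G with G/N a 2-group, and let φ be an irreducible complex character of N of 2-defect zero (the 2-part of #N divides φ(1)) whose complex conjugate is G-conjugate to φ. Then some irreducible character of G with Frobenius–Schur indicator +1 contains φ with multiplicity exactly one on restriction to N. -/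
theorem result {G : Type*} [Group G] [Finite G] (N : Subgroup G) [N.Normal] (h2 : IsPGroup 2 (G ⧸ N)) (φ : Cfsg.IrrCharacter ↥N) (hdef : 2 ^ (Nat.card ↥N).factorization 2 ∣ Cfsg.charDegree (φ : ↥N → ℂ)) (hconj : ∃ g : G, ∀ n n' : ↥N, (n' : G) = g * (n : G) * g⁻¹ → (φ : ↥N → ℂ) n' = (starRingEnd ℂ) ((φ : ↥N → ℂ) n)) : ∃ χ : Cfsg.IrrCharacter G, (Nat.card G : ℂ)⁻¹ * ∑ᶠ g : G, (χ : G → ℂ) (g * g) = 1 ∧ (Nat.card ↥N : ℂ)⁻¹ * ∑ᶠ n : ↥N, (χ : G → ℂ) n * (starRingEnd ℂ) ((φ : ↥N → ℂ) n) = 1 := by
  classical
  letI : Fintype G := Fintype.ofFinite G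
  letI : Fintype N := Fintype.ofFinite N
  have hfin : Finite (IrrCharacter G) := Helper4.irr_finite
  letI : Fintype (IrrCharacter G) := Fintype.ofFinite _
  haveI : Fact (Nat.Prime 2) := ⟨Nat.prime_two⟩
  suffices h : ∃ χ : IrrCharacter G, Helper79.fsInd (χ : G → ℂ) = 1 ∧
      classInner (fun n : N => (χ : G → ℂ) n) (φ : N → ℂ) = 1 by
    obtain ⟨χ, h1, h2⟩ := h
    refine ⟨χ, ?_, ?_⟩
    · rw [finsum_eq_sum_of_fintype]
      exact h1
    · rw [finsum_eq_sum_of_fintype]
      exact h2
  -- index
  obtain ⟨k, hk⟩ := IsPGroup.iff_card.mp h2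
  have hidx : N.index = 2 ^ k := by rw [Subgroup.index_eq_card, hk]
  set a := (Nat.card N).factorization 2 with ha_def
  obtain ⟨f, hf⟩ := hdef
  have hdegdvd : charDegree (φ : N → ℂ) ∣ Nat.card N := Helper83.irr_degree_dvd_card φ
  have hfodd : Odd f := by
    rw [← Nat.not_even_iff_odd]
    rintro ⟨f', rfl⟩
    have h1 : 2 ^ (a + 1) ∣ Nat.card N := by
      refine Dvd.dvd.trans ?_ hdegdvd
      rw [hf]
      exact ⟨f', by ring⟩
    exact Nat.pow_succ_factorization_not_dvd Nat.card_pos.ne' Nat.prime_two h1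
  have hφ1 : (φ : N → ℂ) 1 = ((2 ^ a * f : ℕ) : ℂ) := by
    rw [(Helper83.irr_degree φ.2).2, hf]
  -- Sylow subgroup and permutation character
  let S : Sylow 2 G := default
  letI : Fintype (S : Subgroup G) := Fintype.ofFinite _
  have hScard : Nat.card (S : Subgroup G) = 2 ^ (a + k) := by
    rw [Sylow.card_eq_multiplicity, ← Subgroup.card_mul_index N, hidx,
      Nat.factorization_mul Nat.card_pos.ne' (pow_ne_zero _ two_ne_zero), Finsupp.add_apply,
      Nat.Prime.factorization_pow Nat.prime_two, Finsupp.single_eq_same]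
  have hSidx : (S : Subgroup G).index * 2 ^ a = Nat.card N := by
    have h1 := Subgroup.card_mul_index (S : Subgroup G)
    rw [hScard, ← Subgroup.card_mul_index N, hidx] at h1
    have h3 : 2 ^ k * ((S : Subgroup G).index * 2 ^ a) = 2 ^ k * Nat.card N := by
      calc 2 ^ k * ((S : Subgroup G).index * 2 ^ a) = 2 ^ (a + k) * (S : Subgroup G).index := by
            ring
        _ = Nat.card N * 2 ^ k := h1
        _ = 2 ^ k * Nat.card N := by ring
    exact Nat.eq_of_mul_eq_mul_left (pow_pos two_pos k) h3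
  let Pc : G → ℂ := indFun (S : Subgroup G) (fun _ => (1 : ℂ))
  have hPcchar : IsCharacter G Pc := by
    have h1 : IsCharacter (S : Subgroup G) (fun _ => (1 : ℂ)) := Helper35.isCharacter_one
    exact Helper35.isCharacter_indFun (S : Subgroup G) h1
  have hPccf : IsClassFunction G Pc := Helper35.isClassFunction_of_isCharacter hPcchar
  have hPc1 : Pc 1 = ((S : Subgroup G).index : ℂ) := by
    show indFun (S : Subgroup G) (fun _ => (1 : ℂ)) 1 = _
    rw [Helper35.indFun_one_eq, mul_one]
  have hPcreal : ∀ g : G, conj (Pc g) = Pc g := by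
    intro g
    show conj (indFun (S : Subgroup G) (fun _ => (1 : ℂ)) g) = _
    unfold indFun
    rw [map_mul, map_inv₀, map_natCast, map_sum]
    congr 1
    refine Finset.sum_congr rfl fun x _ => ?_
    by_cases hx : x⁻¹ * g * x ∈ (S : Subgroup G)
    · rw [Helper4.extendByZero_apply_mem' _ _ hx, map_one]
    · rw [Helper4.extendByZero_apply_not_mem _ _ hx, map_zero]
  have hPc0 : ∀ g : G, g ≠ 1 → Odd (orderOf g) → Pc g = 0 := by
    intro g hg hodd
    show indFun (S : Subgroup G) (fun _ => (1 : ℂ)) g = 0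
    unfold indFun
    rw [Finset.sum_eq_zero, mul_zero]
    intro x _
    apply Helper4.extendByZero_apply_not_mem
    intro hx
    obtain ⟨j, hj⟩ := S.isPGroup' ⟨x⁻¹ * g * x, hx⟩
    have hj' : (x⁻¹ * g * x) ^ 2 ^ j = 1 := by
      have := congrArg Subtype.val hj
      simpa using this
    have hg' : g ^ 2 ^ j = 1 := by
      have h1 : g = x * (x⁻¹ * g * x) * x⁻¹ := by group
      rw [h1, conj_pow, hj']
      group
    obtain ⟨i, -, hi⟩ := (Nat.dvd_prime_pow Nat.prime_two).mp (orderOf_dvd_of_pow_eq_one hg')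
    rcases Nat.eq_zero_or_pos i with rfl | hipos
    · rw [pow_zero, orderOf_eq_one_iff] at hi
      exact hg hi
    · rw [hi] at hodd
      exact (Nat.not_odd_iff_even.mpr (Nat.even_pow.mpr ⟨even_two, hipos.ne'⟩)) hodd
  -- direct computation of the multiplicity of φ in Pc restricted to N
  have hdirect : classInner (fun n : N => Pc n) (φ : N → ℂ) = (f : ℂ) := by
    unfold classInner
    rw [Finset.sum_eq_single (1 : N)]
    · beta_reduce
      rw [Subgroup.coe_one, hPc1, hφ1, Complex.conj_natCast, ← hSidx]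
      have hS0 : ((S : Subgroup G).index : ℂ) ≠ 0 :=
        Nat.cast_ne_zero.mpr (Subgroup.index_ne_zero_of_finite)
      have h2a : ((2 : ℂ) ^ a) ≠ 0 := pow_ne_zero _ two_ne_zero
      push_cast
      field_simp
    · intro n _ hn
      by_cases h2n : 2 ∣ orderOf n
      · rw [Helper79.irr_eq_zero_of_defect_zero 2 φ (by rw [hf]; exact Dvd.intro _ rfl) n h2n,
          map_zero, mul_zero]
      · have hodd : Odd (orderOf (n : G)) := by
          rw [Subgroup.orderOf_coe]
          exact Nat.not_even_iff_odd.mp (fun h => h2n (even_iff_two_dvd.mp h))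
        have hn1 : (n : G) ≠ 1 := fun h => hn (Subtype.ext h)
        beta_reduce
        rw [hPc0 (n : G) hn1 hodd, zero_mul]
    · intro h
      exact absurd (Finset.mem_univ _) h
  -- expansion
  have hexp := Helper4.classFunction_expansion Pc hPccf
  have hexpN : (fun n : N => Pc n)
      = ∑ χ : IrrCharacter G, classInner Pc (χ : G → ℂ) • (fun n : N => (χ : G → ℂ) n) := by
    funext n
    have := congrFun hexp (n : G)
    simp only [Finset.sum_apply, Pi.smul_apply] at this ⊢
    exact this
  have hach : ∀ χ : IrrCharacter G, ∃ m : ℕ, classInner Pc (χ : G → ℂ) = m := fun χ =>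
    Helper35.classInner_char_nat hPcchar (Helper35.isChar_of_irr χ.2)
  choose am ham using hach
  have hech : ∀ χ : IrrCharacter G, ∃ m : ℕ,
      classInner (fun n : N => (χ : G → ℂ) n) (φ : N → ℂ) = m := fun χ =>
    Helper35.classInner_char_nat (Helper35.isCharacter_res N (Helper35.isChar_of_irr χ.2))
      (Helper35.isChar_of_irr φ.2)
  choose em hem using hech
  have hsumf : ∑ χ : IrrCharacter G, am χ * em χ = f := by
    have h1 : classInner (fun n : N => Pc n) (φ : N → ℂ)
        = ∑ χ : IrrCharacter G, (am χ : ℂ) * (em χ : ℂ) := by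
      rw [hexpN, Helper35.classInner_sum_left]
      refine Finset.sum_congr rfl fun χ _ => ?_
      rw [Helper35.classInner_smul_left, ham, hem]
    rw [hdirect] at h1
    exact_mod_cast h1.symm
  -- symmetry under complex conjugation
  have ham_conj : ∀ χ : IrrCharacter G, am (Helper4.irrConj χ) = am χ := by
    intro χ
    have h1 : classInner Pc (Helper4.irrConj χ : G → ℂ) = conj (classInner Pc (χ : G → ℂ)) := by
      rw [← classInner_conj_conj]
      congr 1
      funext g
      exact (hPcreal g).symm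
    rw [ham, ham, Complex.conj_natCast] at h1
    exact_mod_cast h1
  obtain ⟨g₀, hg₀⟩ := hconj
  have hφc : Helper20.conjFun N (φ : N → ℂ) g₀ = fun n => conj ((φ : N → ℂ) n) := by
    funext n
    rw [Helper20.conjFun_apply]
    exact hg₀ n _ rfl
  have hem_conj : ∀ χ : IrrCharacter G, em (Helper4.irrConj χ) = em χ := by
    intro χ
    have hcf : IsClassFunction G (χ : G → ℂ) :=
      Helper35.isClassFunction_of_isCharacter (Helper35.isChar_of_irr χ.2)
    have h1 : classInner (fun n : N => (Helper4.irrConj χ : G → ℂ) n) (φ : N → ℂ)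
        = conj (classInner (fun n : N => (χ : G → ℂ) n) (fun n => conj ((φ : N → ℂ) n))) := by
      rw [← classInner_conj_conj]
      congr 1
      funext n
      exact (Complex.conj_conj _).symm
    rw [← hφc, Helper20.classInner_res_conjFun N hcf (φ : N → ℂ) g₀, hem, hem,
      Complex.conj_natCast] at h1
    exact_mod_cast h1
  -- symplectic characters have even multiplicity in Pc
  have hsymp : ∀ χ : IrrCharacter G, Helper79.fsInd (χ : G → ℂ) = -1 → Even (am χ) := by
    intro χ hν
    obtain ⟨n, ρ, hρirr, hρχ⟩ := χ.2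
    haveI := hρirr
    obtain ⟨r, hr, hrS⟩ := even_mult ρ (by rw [hρχ]; exact hν) (S : Subgroup G)
    have hcf : IsClassFunction G (χ : G → ℂ) :=
      Helper35.isClassFunction_of_isCharacter (Helper35.isChar_of_irr χ.2)
    have h1 : classInner Pc (χ : G → ℂ) = (r : ℂ) := by
      show classInner (indFun (S : Subgroup G) (fun _ => (1 : ℂ))) (χ : G → ℂ) = r
      rw [Helper4.frobenius_reciprocity (S : Subgroup G) _ _ hcf]
      unfold classInner
      have h3 : conj ((r : ℂ)) = r := Complex.conj_natCast r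
      rw [← h3, ← hrS, map_mul, map_inv₀, map_natCast, map_sum]
      congr 1
      refine Finset.sum_congr rfl fun s _ => ?_
      rw [one_mul, hρχ]
    rw [ham] at h1
    have : am χ = r := by exact_mod_cast h1
    rw [this]
    exact hr
  have hrealiff : ∀ χ : IrrCharacter G, Helper4.irrConj χ = χ →
      ∀ g : G, ((χ : G → ℂ) g).im = 0 := by
    intro χ h g
    have h1 := congrArg (fun ψ : IrrCharacter G => (ψ : G → ℂ) g) h
    exact Complex.conj_eq_iff_im.mp h1
  -- parity argument
  have hkey : ∃ χ : IrrCharacter G, Helper79.fsInd (χ : G → ℂ) = 1 ∧ Odd (em χ) := by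
    by_contra hcon
    push Not at hcon
    have hzero : ∀ χ : IrrCharacter G, Helper4.irrConj χ = χ →
        ((am χ * em χ : ℕ) : ZMod 2) = 0 := by
      intro χ hχ
      rcases (Helper79.fsInd_irr χ).1 (hrealiff χ hχ) with h1 | h1
      · have := hcon χ h1
        rw [Nat.not_odd_iff_even] at this
        rw [Nat.cast_mul, (ZMod.natCast_eq_zero_iff_even).mpr this, mul_zero]
      · have := hsymp χ h1
        rw [Nat.cast_mul, (ZMod.natCast_eq_zero_iff_even).mpr this, zero_mul]
    have hsum0 : ∑ χ : IrrCharacter G, ((am χ * em χ : ℕ) : ZMod 2) = 0 := by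
      rw [← Finset.sum_filter_add_sum_filter_not Finset.univ
        (fun χ : IrrCharacter G => Helper4.irrConj χ = χ)]
      rw [Finset.sum_eq_zero (fun χ hχ => hzero χ (Finset.mem_filter.mp hχ).2), zero_add]
      refine Finset.sum_involution (fun χ _ => Helper4.irrConj χ) ?_ ?_ ?_ ?_
      · intro χ _
        rw [ham_conj, hem_conj]
        exact CharTwo.add_self_eq_zero _
      · intro χ hχ _
        exact (Finset.mem_filter.mp hχ).2
      · intro χ hχ
        rw [Finset.mem_filter]
        refine ⟨Finset.mem_univ _, ?_⟩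
        rw [Helper4.irrConj_irrConj]
        exact fun h => (Finset.mem_filter.mp hχ).2 h.symm
      · intro χ _
        exact Helper4.irrConj_irrConj χ
    have h0 : ((∑ χ : IrrCharacter G, am χ * em χ : ℕ) : ZMod 2) = 0 := by
      rw [Nat.cast_sum]
      exact hsum0
    rw [hsumf, ZMod.natCast_eq_zero_iff_even] at h0
    exact (Nat.not_even_iff_odd.mpr hfodd) h0
  obtain ⟨χ, hχ1, hχodd⟩ := hkey
  have he1 : em χ = 1 := mult_one_of_odd N k hidx φ.2 χ.2 (em χ) (hem χ) hχodd
  exact ⟨χ, hχ1, by rw [hem χ, he1, Nat.cast_one]⟩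

end Cfsg.Agent.S4872
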