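import Cfsg.Statements.S4885
import Cfsg.Agent.Lib.Helper84.PQ1
import Cfsg.Agent.Lib.Helper84.PQ2

set_option autoImplicit false
open Cfsg

namespace Cfsg.Agent.S4885

/-- Let p and q be primes dividing the order of the finite group G, and suppose G is p-solvable and q-solvable. Fix maximal ideals of the algebraic integers containing p and q, defining the principal p-block and the principal q-block. If the irreducible characters of degree prime to p in the principal p-block are exactly the irreducible characters of degree prime to q in the principal q-block, then p = q. -/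
theorem result {G : Type*} [Group G] [Finite G] (p q : ℕ) [Fact p.Prime] [Fact q.Prime] (hp : p ∣ Nat.card G) (hq : q ∣ Nat.card G) (hps : Cfsg.IsPSolvable p G) (hqs : Cfsg.IsPSolvable q G) (Mp Mq : Ideal Cfsg.AlgInt) (hMp : Cfsg.IsPModular p Mp) (hMq : Cfsg.IsPModular q Mq) (h : ∀ χ : Cfsg.IrrCharacter G, (χ ∈ Cfsg.principalBlock Mp G ∧ ¬ p ∣ Cfsg.charDegree (χ : G → ℂ)) ↔ (χ ∈ Cfsg.principalBlock Mq G ∧ ¬ q ∣ Cfsg.charDegree (χ : G → ℂ))) : p = q := by
  by_contra hpq
  obtain ⟨P⟩ := (inferInstance : Nonempty (Sylow p G))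
  obtain ⟨Q⟩ := (inferInstance : Nonempty (Sylow q G))
  exact Cfsg.Agent.Lib.Helper84.PQ.no_pq p q hpq hp hps P Q
    (fun l x hx => Cfsg.Agent.Lib.Helper84.PQ.lin_trivial p q hps hqs Mp Mq hMp hMq
      (fun χ hχ => (h χ).mp hχ) P l x hx)
    (fun l x hx => Cfsg.Agent.Lib.Helper84.PQ.lin_trivial q p hqs hps Mq Mp hMq hMp
      (fun χ hχ => (h χ).mpr hχ) Q l x hx)

end Cfsg.Agent.S4885
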