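import Cfsg.Statements.S4886
import Cfsg.Agent.Lib.Helper84.PQ7
import Cfsg.Agent.Lib.Helper4.PSolvB0
import Cfsg.Agent.Lib.Helper83.Codeg

set_option autoImplicit false
open Cfsg

namespace Cfsg.Agent.S4886

/-- Let p ≠ q be primes and G a finite group that is p-solvable and q-solvable. Fix maximal ideals of the algebraic integers containing p and q, defining the principal p-block and the principal q-block. Then every irreducible character of degree prime to p in the principal p-block has degree prime to q and every irreducible character of degree prime to q in the principal q-block has degree prime to p, if and only if some Sylow p-subgroup of G commutes elementwise with some Sylow q-subgroup. -/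
theorem result {G : Type*} [Group G] [Finite G] (p q : ℕ) [Fact p.Prime] [Fact q.Prime] (hpq : p ≠ q) (Mp Mq : Ideal Cfsg.AlgInt) (hMp : Cfsg.IsPModular p Mp) (hMq : Cfsg.IsPModular q Mq) (hps : Cfsg.IsPSolvable p G) (hqs : Cfsg.IsPSolvable q G) : ((∀ χ : Cfsg.IrrCharacter G, χ ∈ Cfsg.principalBlock Mp G → ¬ p ∣ Cfsg.charDegree (χ : G → ℂ) → ¬ q ∣ Cfsg.charDegree (χ : G → ℂ)) ∧ (∀ χ : Cfsg.IrrCharacter G, χ ∈ Cfsg.principalBlock Mq G → ¬ q ∣ Cfsg.charDegree (χ : G → ℂ) → ¬ p ∣ Cfsg.charDegree (χ : G → ℂ))) ↔ ∃ (P : Sylow p G) (Q : Sylow q G), ∀ x ∈ (P : Subgroup G), ∀ y ∈ (Q : Subgroup G), x * y = y * x := by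
  constructor
  · rintro ⟨h1, h2⟩
    have hA : Cfsg.Agent.Lib.Helper84.PQ.HypA p q G := fun χ hχ hd =>
      h1 χ ((Cfsg.Agent.Lib.Helper4.mem_principal_iff_of_pSolvable p Mp hMp hps χ).mpr hχ) hd
    have hB : Cfsg.Agent.Lib.Helper84.PQ.HypA q p G := fun χ hχ hd =>
      h2 χ ((Cfsg.Agent.Lib.Helper4.mem_principal_iff_of_pSolvable q Mq hMq hqs χ).mpr hχ) hd
    exact Cfsg.Agent.Lib.Helper84.PQ.commuting_sylows_of_hyp p q hpq (Nat.card G) G rfl hps hqs
      hA hB
  · rintro ⟨P, Q, hc⟩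
    have key : ∀ (p q : ℕ) [Fact p.Prime] [Fact q.Prime] (hpq : p ≠ q) (Mp : Ideal Cfsg.AlgInt)
        (hMp : Cfsg.IsPModular p Mp) (hps : Cfsg.IsPSolvable p G) (P : Sylow p G) (Q : Sylow q G)
        (hc : ∀ x ∈ (P : Subgroup G), ∀ y ∈ (Q : Subgroup G), x * y = y * x)
        (χ : Cfsg.IrrCharacter G), χ ∈ Cfsg.principalBlock Mp G →
        ¬ q ∣ Cfsg.charDegree (χ : G → ℂ) := by
      intro p q _ _ hpq Mp hMp hps P Q hc χ hχ
      haveI : (Cfsg.pPrimeCore p G).Normal := Cfsg.Agent.Lib.Helper81.pPrimeCore_normal p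
      have hidx := Cfsg.Agent.Lib.Helper84.PQ.not_dvd_index_of_commute p q hpq hps P Q hc
      have hker := (Cfsg.Agent.Lib.Helper4.mem_principal_iff_of_pSolvable p Mp hMp hps χ).mp hχ
      obtain ⟨ψ, hψ⟩ := Cfsg.Agent.Lib.Helper84.irr_deflate (Cfsg.pPrimeCore p G) χ hker
      have hdeg : Cfsg.charDegree (χ : G → ℂ) = Cfsg.charDegree ψ.1 := by
        unfold Cfsg.charDegree
        rw [← hψ 1]
        rfl
      rw [hdeg]
      intro hdvd
      apply hidx
      rw [Subgroup.index_eq_card]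
      exact hdvd.trans (Cfsg.Agent.Lib.Helper83.irr_degree_dvd_card ψ)
    exact ⟨fun χ hχ _ => key p q hpq Mp hMp hps P Q hc χ hχ,
      fun χ hχ _ => key q p hpq.symm Mq hMq hqs Q P (fun x hx y hy => (hc y hy x hx).symm) χ hχ⟩

end Cfsg.Agent.S4886
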