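import Cfsg.Statements.S4912
import Mathlib
import Cfsg.Agent.Lib.Helper84.CliffInd
import Cfsg.Agent.Lib.Helper4.FrobSchur
-- import your own Cfsg.Agent.* helpers here

set_option autoImplicit false
open Cfsg

namespace Cfsg.Agent.S4912

open Cfsg.Agent.Lib
open scoped ComplexConjugate

section FS

variable {H : Type*} [Group H] [Fintype H]

omit [Fintype H] in
/-- symmetric / alternating square decomposition, on the level of characters -/
theorem exists_sym_alt {χ : H → ℂ} (hχ : IsCharacter H χ) :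
    ∃ S A : H → ℂ, IsCharacter H S ∧ IsCharacter H A ∧ (∀ g, χ g * χ g = S g + A g) ∧
      (∀ g, χ (g * g) = S g - A g) := by
  obtain ⟨n, ρ, rfl⟩ := hχ
  exact ⟨_, _, Helper4.isCharacter_of_rep _, Helper4.isCharacter_of_rep _,
    Helper4.char_sq_eq ρ, Helper4.char_sq_arg_eq ρ⟩

theorem avg_eq_classInner (Θ : H → ℂ) :
    (Nat.card H : ℂ)⁻¹ * ∑ g : H, Θ g = classInner Θ (fun _ => (1 : ℂ)) := by
  unfold classInner
  simp

theorem avg_nat {Θ : H → ℂ} (hΘ : IsCharacter H Θ) :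
    ∃ a : ℕ, (Nat.card H : ℂ)⁻¹ * ∑ g : H, Θ g = a := by
  rw [avg_eq_classInner]
  exact Helper35.classInner_char_nat hΘ (Helper35.isChar_of_irr Helper83.isIrr_one)

/-- Restriction along a homomorphism can only increase the multiplicity of the trivial
character. -/
theorem avg_le_avg_comp {K : Type*} [Group K] [Fintype K] (j : K →* H) {Θ : H → ℂ}
    (hΘ : IsCharacter H Θ) (a b : ℕ) (ha : (Nat.card H : ℂ)⁻¹ * ∑ g : H, Θ g = a)
    (hb : (Nat.card K : ℂ)⁻¹ * ∑ k : K, Θ (j k) = b) : a ≤ b := by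
  classical
  have hfin := Helper4.irr_finite (G := H)
  let _ : Fintype (IrrCharacter H) := Fintype.ofFinite _
  obtain ⟨m, hm⟩ := Helper4.exists_decomp_of_isCharacter Θ hΘ
  let t : IrrCharacter H := ⟨fun _ => 1, Helper83.isIrr_one⟩
  have h1 : (a : ℂ) = m t := by
    rw [← ha, avg_eq_classInner]
    conv_lhs => rw [hm]
    exact Helper4.classInner_sum_irr _ t
  have hd : ∀ χ : IrrCharacter H, ∃ d : ℕ,
      (Nat.card K : ℂ)⁻¹ * ∑ k : K, (χ : H → ℂ) (j k) = d := by
    intro χ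
    exact avg_nat (Helper20.isCharacter_comp j (Helper35.isChar_of_irr χ.2))
  choose d hd using hd
  have hdt : d t = 1 := by
    have h2 := hd t
    have hK : (Nat.card K : ℂ) ≠ 0 := by exact_mod_cast (Nat.card_pos (α := K)).ne'
    simp only [t, Finset.sum_const, Finset.card_univ, nsmul_eq_mul, mul_one] at h2
    rw [← Nat.card_eq_fintype_card, inv_mul_cancel₀ hK] at h2
    exact_mod_cast h2.symm
  have h3 : (b : ℂ) = ((∑ χ : IrrCharacter H, m χ * d χ : ℕ) : ℂ) := by
    rw [← hb]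
    have h4 : ∀ k : K, Θ (j k) = ∑ χ : IrrCharacter H, (m χ : ℂ) * (χ : H → ℂ) (j k) := by
      intro k
      have := congrFun hm (j k)
      simpa using this
    simp only [h4]
    rw [Finset.sum_comm, Finset.mul_sum]
    push_cast
    apply Finset.sum_congr rfl
    intro χ _
    rw [← Finset.mul_sum, ← hd χ]
    ring
  have h5 : b = ∑ χ : IrrCharacter H, m χ * d χ := by exact_mod_cast h3
  have h6 : a = m t := by exact_mod_cast h1
  rw [h5, h6]
  calc m t = m t * d t := by rw [hdt, mul_one]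
    _ ≤ ∑ χ : IrrCharacter H, m χ * d χ :=
      Finset.single_le_sum (f := fun χ => m χ * d χ) (fun _ _ => Nat.zero_le _)
        (Finset.mem_univ t)

/-- An irreducible character with Frobenius–Schur indicator `1` is real and the trivial
character occurs in its symmetric square. -/
theorem fs_data {χ : H → ℂ} (hχ : IsIrrCharacter H χ)
    (hν : (Nat.card H : ℂ)⁻¹ * ∑ g : H, χ (g * g) = 1) :
    (∀ g, (χ g).im = 0) ∧ ∃ S A : H → ℂ, IsCharacter H S ∧ IsCharacter H A ∧
      (∀ g, χ g * χ g = S g + A g) ∧ (∀ g, χ (g * g) = S g - A g) ∧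
      (Nat.card H : ℂ)⁻¹ * ∑ g : H, S g = 1 ∧ (Nat.card H : ℂ)⁻¹ * ∑ g : H, A g = 0 := by
  classical
  obtain ⟨S, A, hS, hA, hsq, harg⟩ := exists_sym_alt (Helper35.isChar_of_irr hχ)
  obtain ⟨a, ha⟩ := avg_nat hS
  obtain ⟨b, hb⟩ := avg_nat hA
  have h1 : (a : ℂ) - b = 1 := by
    rw [← hν, ← ha, ← hb, ← mul_sub, ← Finset.sum_sub_distrib]
    simp only [harg]
  have h2 := Helper4.sum_sq_irr_eq (⟨χ, hχ⟩ : IrrCharacter H)
  simp only at h2
  have h3 : (Nat.card H : ℂ)⁻¹ * ∑ g : H, χ g * χ g = (a : ℂ) + b := by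
    rw [← ha, ← hb, ← mul_add, ← Finset.sum_add_distrib]
    simp only [hsq]
  rw [h3] at h2
  by_cases hr : ∀ g : H, (χ g).im = 0
  · rw [if_pos hr] at h2
    have hab : a + b = 1 := by exact_mod_cast h2
    have hb0 : b = 0 := by
      have : (b : ℂ) = 0 := by linear_combination (h2 - h1) / 2
      exact_mod_cast this
    have ha1 : a = 1 := by omega
    refine ⟨hr, S, A, hS, hA, hsq, harg, ?_, ?_⟩
    · rw [ha, ha1]; simp
    · rw [hb, hb0]; simp
  · rw [if_neg hr] at h2
    exfalso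
    have hab : a + b = 0 := by exact_mod_cast h2
    have ha0 : a = 0 := by omega
    have hb0 : b = 0 := by omega
    rw [ha0, hb0] at h1
    simp at h1

/-- A real irreducible character whose alternating square has no trivial constituent has
Frobenius–Schur indicator `1`. -/
theorem fs_of_alt {χ : H → ℂ} (hχ : IsIrrCharacter H χ) (hreal : ∀ g, (χ g).im = 0)
    (halt : ∀ A : H → ℂ, IsCharacter H A → (∀ g, 2 * A g = χ g * χ g - χ (g * g)) →
      (Nat.card H : ℂ)⁻¹ * ∑ g : H, A g = 0) :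
    (Nat.card H : ℂ)⁻¹ * ∑ g : H, χ (g * g) = 1 := by
  classical
  obtain ⟨S, A, hS, hA, hsq, harg⟩ := exists_sym_alt (Helper35.isChar_of_irr hχ)
  have hA0 := halt A hA (fun g => by rw [hsq, harg]; ring)
  have h2 := Helper4.sum_sq_irr_eq (⟨χ, hχ⟩ : IrrCharacter H)
  simp only at h2
  rw [if_pos hreal] at h2
  have h3 : ∑ g : H, χ (g * g) = ∑ g : H, χ g * χ g - 2 * ∑ g : H, A g := by
    rw [Finset.mul_sum, ← Finset.sum_sub_distrib]
    apply Finset.sum_congr rfl
    intro g _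
    rw [hsq, harg]; ring
  rw [h3, mul_sub, h2, mul_left_comm, hA0]
  ring

end FS

section Ind

variable {G : Type*} [Group G] [Fintype G] (N : Subgroup G) [hN : N.Normal] [Fintype N]
  (I : Subgroup G) [Fintype I] (hNI : N ≤ I)

omit [Fintype G] in
theorem sum_conjFun_sq (φ : N → ℂ) (x : G) :
    ∑ n : N, Helper20.conjFun N φ x (n * n) = ∑ n : N, φ (n * n) := by
  rw [Helper20.conjFun_eq_comp]
  simp only [map_mul]
  exact Equiv.sum_comp (MulAut.conjNormal x : N ≃* N).toEquiv (fun m => φ (m * m))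

/-- The Frobenius–Schur indicator of the character induced from an extension with indicator
`1` of `φ` to its inertia group is `1`. -/
theorem fs_ind_ext (φ : N → ℂ) (hφ : IsIrrCharacter N φ)
    (hI : ∀ g : G, g ∈ I ↔ Helper20.conjFun N φ g = φ) (ψ : I → ℂ) (hψ : IsIrrCharacter I ψ)
    (hext : ∀ n : N, ψ (Subgroup.inclusion hNI n) = φ n)
    (hν : (Nat.card I : ℂ)⁻¹ * ∑ g : I, ψ (g * g) = 1) :
    (Nat.card G : ℂ)⁻¹ * ∑ g : G, indFun I ψ (g * g) = 1 := by
  classical
  obtain ⟨hψreal, S, A, hS, hA, hsq, harg, haS, haA⟩ := fs_data hψ hν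
  have hNne : (Nat.card N : ℂ) ≠ 0 := by exact_mod_cast (Nat.card_pos (α := N)).ne'
  have hIne : (Nat.card I : ℂ) ≠ 0 := by exact_mod_cast (Nat.card_pos (α := I)).ne'
  have hGne : (Nat.card G : ℂ) ≠ 0 := by exact_mod_cast (Nat.card_pos (α := G)).ne'
  -- φ is real with indicator 1
  have hφreal : ∀ n : N, (φ n).im = 0 := fun n => by rw [← hext]; exact hψreal _
  have hνφ : (Nat.card N : ℂ)⁻¹ * ∑ n : N, φ (n * n) = 1 := by
    obtain ⟨S', A', hS', hA', hsq', harg'⟩ := exists_sym_alt (Helper35.isChar_of_irr hφ)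
    obtain ⟨a', ha'⟩ := avg_nat hS'
    obtain ⟨b', hb'⟩ := avg_nat hA'
    have h2 := Helper4.sum_sq_irr_eq (⟨φ, hφ⟩ : IrrCharacter N)
    simp only at h2
    rw [if_pos hφreal] at h2
    have h3 : (Nat.card N : ℂ)⁻¹ * ∑ n : N, φ n * φ n = (a' : ℂ) + b' := by
      rw [← ha', ← hb', ← mul_add, ← Finset.sum_add_distrib]
      simp only [hsq']
    rw [h3] at h2
    have hab : a' + b' = 1 := by exact_mod_cast h2
    have hSS : ∀ n : N, S (Subgroup.inclusion hNI n) = S' n := by
      intro n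
      have e1 := hsq (Subgroup.inclusion hNI n)
      have e2 := harg (Subgroup.inclusion hNI n)
      have e3 := hsq' n
      have e4 := harg' n
      rw [← map_mul, hext] at e2
      rw [hext] at e1
      have : 2 * S (Subgroup.inclusion hNI n) = 2 * S' n := by
        linear_combination e3 + e4 - e1 - e2
      exact mul_left_cancel₀ two_ne_zero this
    have hle : 1 ≤ a' := by
      apply avg_le_avg_comp (Subgroup.inclusion hNI) hS 1 a' (by rw [haS]; simp)
      simp only [hSS]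
      exact ha'
    have ha1 : a' = 1 := by omega
    have hb0 : b' = 0 := by omega
    have h4 : (Nat.card N : ℂ)⁻¹ * ∑ n : N, φ (n * n) = (a' : ℂ) - b' := by
      rw [← ha', ← hb', ← mul_sub, ← Finset.sum_sub_distrib]
      simp only [harg']
    rw [h4, ha1, hb0]; simp
  -- the induced character
  have hχ₀ : IsIrrCharacter G (indFun I ψ) := Helper84.ind_ext_irr N I hNI φ hφ hI ψ hψ hext
  have hreal₀ : ∀ g : G, (indFun I ψ g).im = 0 := by
    intro g
    rw [← Complex.conj_eq_iff_im]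
    unfold indFun
    rw [map_mul, map_inv₀, map_natCast, map_sum]
    congr 1
    apply Finset.sum_congr rfl
    intro x _
    by_cases hx : x⁻¹ * g * x ∈ I
    · rw [Helper35.ext_mem I ψ _ hx, Complex.conj_eq_iff_im]
      exact hψreal _
    · rw [Helper35.ext_not_mem I ψ _ hx, map_zero]
  apply fs_of_alt hχ₀ hreal₀
  intro A₀ hA₀ hA₀eq
  obtain ⟨b₀, hb₀⟩ := avg_nat hA₀
  obtain ⟨bN, hbN⟩ := avg_nat (Helper20.isCharacter_comp N.subtype hA₀)
  have hle : b₀ ≤ bN := avg_le_avg_comp N.subtype hA₀ b₀ bN hb₀ hbN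
  -- compute bN
  have hsqN : (Nat.card N : ℂ)⁻¹ * ∑ n : N, indFun I ψ n * indFun I ψ n = (I.index : ℂ) := by
    have hk := Helper84.classInner_res_ind_self N I hNI φ hφ hI ψ hext
    rw [← hk]
    unfold classInner
    congr 1
    apply Finset.sum_congr rfl
    intro n _
    rw [Complex.conj_eq_iff_im.mpr (hreal₀ n)]
  have hargN : (Nat.card N : ℂ)⁻¹ * ∑ n : N, indFun I ψ ((n : G) * (n : G)) = (I.index : ℂ) := by
    have h1 : ∀ n : N, indFun I ψ ((n : G) * (n : G)) =
        (Nat.card I : ℂ)⁻¹ * ∑ x : G, Helper20.conjFun N φ x (n * n) := by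
      intro n
      exact Helper84.ind_ext_apply N I hNI φ ψ hext (n * n)
    simp only [h1]
    rw [← Finset.mul_sum, Finset.sum_comm]
    simp only [sum_conjFun_sq]
    rw [Finset.sum_const, Finset.card_univ, nsmul_eq_mul]
    have h2 : ∑ n : N, φ (n * n) = (Nat.card N : ℂ) := by
      have := hνφ
      field_simp at this
      exact this
    rw [h2, ← Nat.card_eq_fintype_card, ← Subgroup.card_mul_index I]
    push_cast
    field_simp
  have hbN0 : (bN : ℂ) = 0 := by
    rw [← hbN]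
    have h3 : ∀ n : N, A₀ (N.subtype n) =
        (indFun I ψ n * indFun I ψ n - indFun I ψ ((n : G) * (n : G))) / 2 := by
      intro n
      have := hA₀eq (n : G)
      rw [Subgroup.coe_subtype]
      linear_combination this / 2
    simp only [h3]
    rw [← Finset.sum_div, Finset.sum_sub_distrib, mul_div_assoc', mul_sub, hsqN, hargN]
    simp
  have hbN0' : bN = 0 := by exact_mod_cast hbN0
  have hb₀0 : b₀ = 0 := by omega
  rw [hb₀, hb₀0]; simp

end Ind

/-- Let G be a finite group with a non-abelian minimal normal subgroup N, and let φ be an irreducible complex character of N with stabilizer I in G such that φ extends to an irreducible character of I with Frobenius–Schur indicator +1. Put d = φ(1)·[G : I]. Then the number of linear characters of G with Frobenius–Schur indicator +1 is at most [G : I] times the number of irreducible characters of G of degree d with Frobenius–Schur indicator +1. -/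
theorem result {G : Type*} [Group G] [Finite G] (N : Subgroup G) (hN : N.Normal) (hN1 : N ≠ ⊥) (hmin : ∀ M : Subgroup G, M.Normal → M ≤ N → M = ⊥ ∨ M = N) (hna : ¬ IsMulCommutative ↥N) (φ : Cfsg.IrrCharacter ↥N) (I : Subgroup G) (hI : ∀ g : G, g ∈ I ↔ ∀ n n' : ↥N, (n' : G) = g * (n : G) * g⁻¹ → (φ : ↥N → ℂ) n' = (φ : ↥N → ℂ) n) (hNI : N ≤ I) (hext : ∃ ψ : Cfsg.IrrCharacter ↥I, (Nat.card ↥I : ℂ)⁻¹ * ∑ᶠ g : ↥I, (ψ : ↥I → ℂ) (g * g) = 1 ∧ ∀ n : ↥N, (ψ : ↥I → ℂ) (Subgroup.inclusion hNI n) = (φ : ↥N → ℂ) n) : Nat.card {χ : Cfsg.IrrCharacter G // Cfsg.charDegree (χ : G → ℂ) = 1 ∧ (Nat.card G : ℂ)⁻¹ * ∑ᶠ g : G, (χ : G → ℂ) (g * g) = 1} ≤ I.index * Nat.card {χ : Cfsg.IrrCharacter G // Cfsg.charDegree (χ : G → ℂ) = Cfsg.charDegree (φ : ↥N → ℂ) * I.index ∧ (Nat.card G : ℂ)⁻¹ * ∑ᶠ g : G, (χ : G → ℂ) (g * g) = 1} := by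
  classical
  let _ := Fintype.ofFinite G
  let _ := Fintype.ofFinite N
  let _ := Fintype.ofFinite I
  have hfinG := Helper4.irr_finite (G := G)
  let _ : Fintype (IrrCharacter G) := Fintype.ofFinite _
  have := hN
  obtain ⟨ψ, hψν, hψ⟩ := hext
  rw [finsum_eq_sum_of_fintype] at hψν
  have hI' : ∀ g : G, g ∈ I ↔ Helper20.conjFun N (φ : ↥N → ℂ) g = (φ : ↥N → ℂ) := by
    intro g
    rw [hI g]
    constructor
    · intro h
      funext n
      rw [Helper20.conjFun_apply]
      exact h n ⟨g * n * g⁻¹, hN.conj_mem (n : G) n.2 g⟩ rfl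
    · intro h n n' hn
      have h1 := congrFun h n
      rw [Helper20.conjFun_apply] at h1
      have h2 : n' = ⟨g * n * g⁻¹, hN.conj_mem (n : G) n.2 g⟩ := Subtype.ext hn
      rw [h2, h1]
  have hχ₀ : IsIrrCharacter G (indFun I (ψ : ↥I → ℂ)) :=
    Helper84.ind_ext_irr N I hNI φ.1 φ.2 hI' ψ.1 ψ.2 hψ
  have hk := Helper84.classInner_res_ind_self N I hNI φ.1 φ.2 hI' ψ.1 hψ
  have hν₀ := fs_ind_ext N I hNI φ.1 φ.2 hI' ψ.1 ψ.2 hψ hψν
  -- N is contained in the commutator subgroup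
  have hNc : N ≤ commutator G := by
    have h1 : ⁅N, N⁆ ≤ N := Subgroup.commutator_le_right N N
    rcases hmin ⁅N, N⁆ inferInstance h1 with h | h
    · exfalso
      apply hna
      rw [Subgroup.commutator_eq_bot_iff_le_centralizer] at h
      refine ⟨⟨fun a b => ?_⟩⟩
      apply Subtype.ext
      have := h a.2 b b.2
      simpa using this.symm
    · rw [← h, commutator_def]
      exact Subgroup.commutator_mono le_top le_top
  have hlin : ∀ μ : IrrCharacter G, charDegree (μ : G → ℂ) = 1 →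
      ∀ n : N, (μ : G → ℂ) n = 1 := by
    intro μ hμ n
    exact Helper83.irr_linear_commutator μ.2
      ((Helper83.irr_charDegree_eq_one_iff μ.2).mp hμ) (hNc n.2)
  -- the degree of the products
  have hdeg : ∀ lam : IrrCharacter G, charDegree (lam : G → ℂ) = 1 →
      charDegree (indFun I (ψ : ↥I → ℂ) * (lam : G → ℂ)) =
        charDegree (φ : ↥N → ℂ) * I.index := by
    intro lam hlam
    have h1 : (lam : G → ℂ) 1 = 1 := (Helper83.irr_charDegree_eq_one_iff lam.2).mp hlam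
    have h2 : (ψ : ↥I → ℂ) 1 = (φ : ↥N → ℂ) 1 := hψ 1
    have h3 := (Helper83.irr_degree φ.2).2
    have h4 : (indFun I (ψ : ↥I → ℂ) * (lam : G → ℂ)) 1 =
        ((charDegree (φ : ↥N → ℂ) * I.index : ℕ) : ℂ) := by
      rw [Pi.mul_apply, h1, mul_one, Helper35.indFun_one_eq, h2, h3]
      push_cast
      ring
    show ⌊((indFun I (ψ : ↥I → ℂ) * (lam : G → ℂ)) 1).re⌋₊ = _
    rw [h4, Complex.natCast_re, Nat.floor_natCast]
  -- the indicator of the products
  have hνprod : ∀ lam : IrrCharacter G, charDegree (lam : G → ℂ) = 1 →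
      (Nat.card G : ℂ)⁻¹ * ∑ᶠ g : G, (lam : G → ℂ) (g * g) = 1 →
      (Nat.card G : ℂ)⁻¹ * ∑ᶠ g : G, (indFun I (ψ : ↥I → ℂ) * (lam : G → ℂ)) (g * g) = 1 := by
    intro lam hlam hν
    rw [finsum_eq_sum_of_fintype] at hν ⊢
    have h1 : (lam : G → ℂ) 1 = 1 := (Helper83.irr_charDegree_eq_one_iff lam.2).mp hlam
    obtain ⟨hreal, -⟩ := fs_data lam.2 hν
    have hsq : ∀ g : G, (lam : G → ℂ) (g * g) = 1 := by
      intro g
      rw [Helper83.irr_linear_mul lam.2 h1 g g]
      have hnorm := Helper83.irr_linear_norm lam.2 h1 g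
      have him := hreal g
      set z := (lam : G → ℂ) g with hz
      have hz' : z = (z.re : ℂ) := Complex.ext rfl (by simp [him])
      have hre : z.re * z.re = 1 := by
        have h5 : Complex.normSq z = 1 := by
          rw [Complex.normSq_eq_norm_sq, hnorm]; norm_num
        rw [Complex.normSq_apply, him] at h5
        linarith
      rw [hz', ← Complex.ofReal_mul, hre]
      simp
    rw [← hν₀]
    congr 1
    apply Finset.sum_congr rfl
    intro g _
    rw [Pi.mul_apply, hsq g, mul_one]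
  let f : {χ : IrrCharacter G // charDegree (χ : G → ℂ) = 1 ∧
        (Nat.card G : ℂ)⁻¹ * ∑ᶠ g : G, (χ : G → ℂ) (g * g) = 1} →
      {χ : IrrCharacter G // charDegree (χ : G → ℂ) = charDegree (φ : ↥N → ℂ) * I.index ∧
        (Nat.card G : ℂ)⁻¹ * ∑ᶠ g : G, (χ : G → ℂ) (g * g) = 1} :=
    fun lam => ⟨⟨indFun I (ψ : ↥I → ℂ) * (lam.1 : G → ℂ),
      Helper84.irr_mul_linear hχ₀ lam.1.2
        ((Helper83.irr_charDegree_eq_one_iff lam.1.2).mp lam.2.1)⟩,
      hdeg lam.1 lam.2.1, hνprod lam.1 lam.2.1 lam.2.2⟩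
  have hfib : ∀ a ∈ (Finset.univ : Finset {χ : IrrCharacter G //
      charDegree (χ : G → ℂ) = 1 ∧
        (Nat.card G : ℂ)⁻¹ * ∑ᶠ g : G, (χ : G → ℂ) (g * g) = 1}).image f,
      (Finset.univ.filter (fun x => f x = a)).card ≤ I.index := by
    intro a ha
    obtain ⟨lam, -, rfl⟩ := Finset.mem_image.mp ha
    refine le_trans ?_ (Helper84.card_fiber_le N _ hχ₀ I.index hk hlin lam.1 lam.2.1)
    apply Finset.card_le_card_of_injOn (fun x => x.1)
    · intro x hx
      have hx' := (Finset.mem_filter.mp hx).2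
      simp only [Finset.coe_filter, Finset.mem_univ, true_and, Set.mem_ofPred_eq]
      refine ⟨x.2.1, ?_⟩
      have := congrArg (fun y : {χ : IrrCharacter G //
        charDegree (χ : G → ℂ) = charDegree (φ : ↥N → ℂ) * I.index ∧
          (Nat.card G : ℂ)⁻¹ * ∑ᶠ g : G, (χ : G → ℂ) (g * g) = 1} => (y.1 : G → ℂ)) hx'
      exact this
    · intro x _ y _ hxy
      exact Subtype.ext hxy
  have hcard := Finset.card_le_mul_card_image (Finset.univ : Finset {χ : IrrCharacter G //
      charDegree (χ : G → ℂ) = 1 ∧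
        (Nat.card G : ℂ)⁻¹ * ∑ᶠ g : G, (χ : G → ℂ) (g * g) = 1}) I.index hfib
  have e1 := Nat.card_eq_fintype_card (α := {χ : IrrCharacter G // charDegree (χ : G → ℂ) = 1 ∧
        (Nat.card G : ℂ)⁻¹ * ∑ᶠ g : G, (χ : G → ℂ) (g * g) = 1})
  have e2 := Nat.card_eq_fintype_card (α := {χ : IrrCharacter G //
        charDegree (χ : G → ℂ) = charDegree (φ : ↥N → ℂ) * I.index ∧
        (Nat.card G : ℂ)⁻¹ * ∑ᶠ g : G, (χ : G → ℂ) (g * g) = 1})
  rw [e1, e2]
  calc Fintype.card {χ : IrrCharacter G // charDegree (χ : G → ℂ) = 1 ∧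
        (Nat.card G : ℂ)⁻¹ * ∑ᶠ g : G, (χ : G → ℂ) (g * g) = 1}
      = (Finset.univ : Finset {χ : IrrCharacter G // charDegree (χ : G → ℂ) = 1 ∧
        (Nat.card G : ℂ)⁻¹ * ∑ᶠ g : G, (χ : G → ℂ) (g * g) = 1}).card :=
        Finset.card_univ.symm
    _ ≤ I.index * ((Finset.univ : Finset {χ : IrrCharacter G //
        charDegree (χ : G → ℂ) = 1 ∧
        (Nat.card G : ℂ)⁻¹ * ∑ᶠ g : G, (χ : G → ℂ) (g * g) = 1}).image f).card := hcard
    _ ≤ I.index * Fintype.card {χ : IrrCharacter G //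
        charDegree (χ : G → ℂ) = charDegree (φ : ↥N → ℂ) * I.index ∧
        (Nat.card G : ℂ)⁻¹ * ∑ᶠ g : G, (χ : G → ℂ) (g * g) = 1} :=
        Nat.mul_le_mul_left _ (Finset.card_le_univ _)

end Cfsg.Agent.S4912
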