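import Cfsg.Statements.S4914
-- import your own Cfsg.Agent.* helpers here
import Cfsg.Agent.Lib.Helper83.Rg7

set_option autoImplicit false
open Cfsg

namespace Cfsg.Agent.S4914

/-- Let P and K be subgroups of a finite group G with P a p-group normalizing K, and suppose K has a normal Sylow p-subgroup Q. Let C be the subgroup of those k ∈ K whose commutator with every element of P lies in Q (so that C/Q is the fixed-point subgroup of P on K/Q). Then there is a bijection f from the P-invariant irreducible complex characters of K onto the P-invariant irreducible complex characters of C such that, for every P-invariant irreducible character χ of K, the multiplicity of f(χ) in the restriction of χ to C is a natural number congruent to 1 or to −1 modulo p, every other P-invariant irreducible character of C occurs in that restriction with multiplicity divisible by p, and the degrees of χ and f(χ) are congruent modulo p up to sign.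 -/
theorem result {G : Type*} [Group G] [Finite G] (p : ℕ) [Fact p.Prime] (P K Q C : Subgroup G) (hP : IsPGroup p ↥P) (hPK : P ≤ Subgroup.normalizer (K : Set G)) (hQK : Q ≤ K) (hQn : ∀ k ∈ K, ∀ q ∈ Q, k * q * k⁻¹ ∈ Q) (hQp : ∃ a : ℕ, Nat.card ↥Q = p ^ a) (hQsyl : ¬ p ∣ Q.relIndex K) (hCK : C ≤ K) (hC : ∀ k : G, k ∈ C ↔ (k ∈ K ∧ ∀ x ∈ P, x * k * x⁻¹ * k⁻¹ ∈ Q)) : ∃ f : {χ : Cfsg.IrrCharacter ↥K // (∀ x ∈ P, ∀ k k' : ↥K, (k' : G) = x * (k : G) * x⁻¹ → (χ : ↥K → ℂ) k' = (χ : ↥K → ℂ) k)} → {ξ : Cfsg.IrrCharacter ↥C // (∀ x ∈ P, ∀ k k' : ↥C, (k' : G) = x * (k : G) * x⁻¹ → (ξ : ↥C → ℂ) k' = (ξ : ↥C → ℂ) k)}, Function.Bijective f ∧ ∀ χ, (∀ ξ : {ξ : Cfsg.IrrCharacter ↥C // (∀ x ∈ P, ∀ k k' : ↥C, (k' : G) = x * (k : G) * x⁻¹ → (ξ : ↥C → ℂ) k' = (ξ : ↥C → ℂ) k)}, ∃ m : ℕ, (Nat.card ↥C : ℂ)⁻¹ * ∑ᶠ c : ↥C, (χ.1 : ↥K → ℂ) (Subgroup.inclusion hCK c) * (starRingEnd ℂ) ((ξ.1 : ↥C → ℂ) c) = (m : ℂ) ∧ (ξ = f χ → ((m : ZMod p) = 1 ∨ (m : ZMod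 p) = -1)) ∧ (ξ ≠ f χ → p ∣ m)) ∧ ((Cfsg.charDegree ((f χ).1 : ↥C → ℂ) : ZMod p) = (Cfsg.charDegree (χ.1 : ↥K → ℂ) : ZMod p) ∨ (Cfsg.charDegree ((f χ).1 : ↥C → ℂ) : ZMod p) = -(Cfsg.charDegree (χ.1 : ↥K → ℂ) : ZMod p)) := by
  classical
  let _ : Fintype ↥K := Fintype.ofFinite _
  let _ : Fintype ↥C := Fintype.ofFinite _
  have hPK' : ∀ x ∈ P, ∀ k ∈ K, x * k * x⁻¹ ∈ K := by
    intro x hx k hk
    exact (Subgroup.mem_normalizer_iff.mp (hPK hx) k).mp hk
  have hPC : ∀ x ∈ P, ∀ c ∈ C, x * c * x⁻¹ ∈ C := by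
    intro x hx c hc
    rw [hC] at hc ⊢
    refine ⟨hPK' x hx c hc.1, ?_⟩
    intro y hy
    have h1 := hc.2 (y * x) (P.mul_mem hy hx)
    have h2 := hc.2 x hx
    have h3 := Q.mul_mem h1 (Q.inv_mem h2)
    have h4 : y * x * c * (y * x)⁻¹ * c⁻¹ * (x * c * x⁻¹ * c⁻¹)⁻¹ =
        y * (x * c * x⁻¹) * y⁻¹ * (x * c * x⁻¹)⁻¹ := by group
    rwa [h4] at h3
  let φ : ↥P →* MulAut ↥K := Lib.Helper83.conjAct P K hPK'
  let φC : ↥P →* MulAut ↥C := Lib.Helper83.conjAct P C hPC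
  have hQ'n : (Q.subgroupOf K).Normal := ⟨fun n hn g => by
    rw [Subgroup.mem_subgroupOf] at hn ⊢
    exact hQn g g.2 n hn⟩
  obtain ⟨a, ha⟩ := hQp
  have hQ'card : Nat.card (Q.subgroupOf K) = p ^ a := by
    rw [Nat.card_congr (Subgroup.subgroupOfEquivOfLe hQK).toEquiv]
    exact ha
  have hQ'idx : ¬ p ∣ (Q.subgroupOf K).index := hQsyl
  have hQφ : ∀ x : ↥P, ∀ q ∈ Q.subgroupOf K, φ x q ∈ Q.subgroupOf K := by
    intro x q hq
    apply Lib.Helper83.mem_of_pow_of_coprime (Q.subgroupOf K) (φ x q) (p ^ a)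
    · rw [← map_pow]
      have h1 : q ^ (p ^ a) = 1 := by
        have h2 : (⟨q, hq⟩ : Q.subgroupOf K) ^ Nat.card (Q.subgroupOf K) = 1 := pow_card_eq_one'
        rw [hQ'card] at h2
        exact congrArg Subtype.val h2
      rw [h1, map_one]
    · exact Nat.Coprime.pow_left a ((Nat.Prime.coprime_iff_not_dvd (Fact.out)).mpr hQ'idx)
  have hS : Lib.Helper83.RgSetup p φ (Q.subgroupOf K) (Subgroup.inclusion hCK) φC :=
    { hP := hP
      hQφ := hQφ
      hQp := ⟨a, hQ'card⟩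
      hQidx := hQ'idx
      hj := Subgroup.inclusion_injective hCK
      hC := by
        intro k
        constructor
        · rintro ⟨c, rfl⟩ x
          rw [Subgroup.mem_subgroupOf]
          exact ((hC c).mp c.2).2 x x.2
        · intro h
          have hk : (k : G) ∈ C := by
            rw [hC]
            refine ⟨k.2, fun x hx => ?_⟩
            have h1 := h ⟨x, hx⟩
            rw [Subgroup.mem_subgroupOf] at h1
            exact h1
          exact ⟨⟨k, hk⟩, Subtype.ext rfl⟩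
      hφC := fun x c => Subtype.ext rfl }
  obtain ⟨f₀, hf₀bij, hf₀⟩ := Lib.Helper83.rg_main hS
  have hK : ∀ χ : Cfsg.IrrCharacter ↥K,
      (∀ x ∈ P, ∀ k k' : ↥K, (k' : G) = x * (k : G) * x⁻¹ →
        (χ : ↥K → ℂ) k' = (χ : ↥K → ℂ) k) ↔
      (∀ (x : ↥P) (g : ↥K), (χ : ↥K → ℂ) (φ x g) = (χ : ↥K → ℂ) g) := by
    intro χ
    constructor
    · intro h x g
      exact h x x.2 g (φ x g) rfl
    · intro h x hx k k' hk'
      have h1 : k' = φ ⟨x, hx⟩ k := Subtype.ext hk'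
      rw [h1]
      exact h ⟨x, hx⟩ k
  have hCc : ∀ ξ : Cfsg.IrrCharacter ↥C,
      (∀ x ∈ P, ∀ k k' : ↥C, (k' : G) = x * (k : G) * x⁻¹ →
        (ξ : ↥C → ℂ) k' = (ξ : ↥C → ℂ) k) ↔
      (∀ (x : ↥P) (c : ↥C), (ξ : ↥C → ℂ) (φC x c) = (ξ : ↥C → ℂ) c) := by
    intro ξ
    constructor
    · intro h x g
      exact h x x.2 g (φC x g) rfl
    · intro h x hx k k' hk'
      have h1 : k' = φC ⟨x, hx⟩ k := Subtype.ext hk'
      rw [h1]
      exact h ⟨x, hx⟩ k
  let eK := Equiv.subtypeEquivRight hK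
  let eC := Equiv.subtypeEquivRight hCc
  refine ⟨fun χ => eC.symm (f₀ (eK χ)), (eC.symm.bijective.comp hf₀bij).comp eK.bijective, ?_⟩
  intro χ
  obtain ⟨h1, h2⟩ := hf₀ (eK χ)
  constructor
  · intro ξ
    obtain ⟨m, hm, hpm, hdiv⟩ := h1 (eC ξ)
    refine ⟨m, ?_, ?_, ?_⟩
    · rw [finsum_eq_sum_of_fintype]
      exact hm
    · intro heq
      have heq' : eC ξ = f₀ (eK χ) := by
        rw [heq]
        exact eC.apply_symm_apply _
      rcases hpm heq' with h | h
      · left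
        have h3 := (ZMod.intCast_eq_intCast_iff (m : ℤ) 1 p).mpr h
        rw [Int.cast_natCast, Int.cast_one] at h3
        exact h3
      · right
        have h3 := (ZMod.intCast_eq_intCast_iff (m : ℤ) (-1) p).mpr h
        rw [Int.cast_natCast, Int.cast_neg, Int.cast_one] at h3
        exact h3
    · intro hne
      apply hdiv
      intro heq'
      apply hne
      show ξ = eC.symm (f₀ (eK χ))
      rw [← heq']
      exact (eC.symm_apply_apply ξ).symm
  · rcases h2 with h | h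
    · left
      have h3 := (ZMod.intCast_eq_intCast_iff _ _ p).mpr h
      rw [Int.cast_natCast, Int.cast_natCast] at h3
      exact h3
    · right
      have h3 := (ZMod.intCast_eq_intCast_iff _ _ p).mpr h
      rw [Int.cast_natCast, Int.cast_neg, Int.cast_natCast] at h3
      exact h3

end Cfsg.Agent.S4914
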