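import Cfsg.Statements.S4916
import Mathlib
import Cfsg.Agent.Lib.Helper21.Osima
import Cfsg.Agent.Lib.Helper4.CharSimple
-- import your own Cfsg.Agent.* helpers here

set_option autoImplicit false
open Cfsg

namespace Cfsg.Agent.S4916

open Cfsg.Agent.Lib.Helper4 Cfsg.Agent.Lib.Helper21

theorem charDegree_eq {G : Type*} [Group G] (χ : IrrCharacter G) :
    ((charDegree (χ : G → ℂ) : ℕ) : ℂ) = (χ : G → ℂ) 1 := by
  obtain ⟨n, -, hn⟩ := irr_one_nat χ
  unfold charDegree
  rw [hn]
  simp

open scoped ComplexConjugate in
/-- Let G be a finite group, p a prime and M a maximal ideal of the algebraic integers containing p. Then the principal character is the only irreducible character of degree prime to p in the principal p-block of G if and only if p does not divide the order of G. -/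
theorem result {G : Type*} [Group G] [Finite G] (p : ℕ) [Fact p.Prime] (M : Ideal Cfsg.AlgInt) (hM : Cfsg.IsPModular p M) : (∀ χ : Cfsg.IrrCharacter G, χ ∈ Cfsg.principalBlock M G → ¬ p ∣ Cfsg.charDegree (χ : G → ℂ) → (χ : G → ℂ) = fun _ => (1 : ℂ)) ↔ ¬ p ∣ Nat.card G := by
  classical
  cases nonempty_fintype G
  haveI := irr_finite (G := G)
  letI : Fintype (IrrCharacter G) := Fintype.ofFinite _
  have hblock : IsPBlock M (principalBlock M G) := ⟨trivIrr, rfl⟩
  have htriv_mem : (trivIrr : IrrCharacter G) ∈ principalBlock M G := by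
    intro g
    show MemLocalIdeal M (centralChar (fun _ => (1 : ℂ)) g -
      centralChar (fun _ => (1 : ℂ)) g)
    rw [sub_self]
    exact locIdeal_zero hM
  have hGne : (Nat.card G : ℂ) ≠ 0 := Nat.cast_ne_zero.mpr Nat.card_pos.ne'
  constructor
  · intro h hdvd
    have h1 := osima hM (principalBlock M G) hblock (1 : G)
    rw [blockCoeff_eq_sum] at h1
    set S : ℂ := ∑ χ : IrrCharacter G, (if χ ∈ principalBlock M G then (1 : ℂ) else 0) *
      ((χ : G → ℂ) 1 * conj ((χ : G → ℂ) 1)) with hS
    have hGideal : MemLocalIdeal M (Nat.card G : ℂ) := (locIdeal_natCast_iff hM _).2 hdvd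
    have hSideal : MemLocalIdeal M S := by
      have := locIdeal_mul_right hM hGideal h1
      rwa [← mul_assoc, mul_inv_cancel₀ hGne, one_mul] at this
    have hsplit : S = 1 + ∑ χ ∈ Finset.univ.erase (trivIrr : IrrCharacter G),
        (if χ ∈ principalBlock M G then (1 : ℂ) else 0) *
          ((χ : G → ℂ) 1 * conj ((χ : G → ℂ) 1)) := by
      rw [hS, ← Finset.add_sum_erase Finset.univ _ (Finset.mem_univ (trivIrr : IrrCharacter G))]
      congr 1
      rw [if_pos htriv_mem]
      simp [trivIrr]
    have hrest : MemLocalIdeal M (∑ χ ∈ Finset.univ.erase (trivIrr : IrrCharacter G),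
        (if χ ∈ principalBlock M G then (1 : ℂ) else 0) *
          ((χ : G → ℂ) 1 * conj ((χ : G → ℂ) 1))) := by
      refine locIdeal_sum hM _ _ (fun χ hχ => ?_)
      by_cases hmem : χ ∈ principalBlock M G
      · rw [if_pos hmem, one_mul]
        have hne : χ ≠ trivIrr := (Finset.mem_erase.1 hχ).1
        have hpd : p ∣ charDegree (χ : G → ℂ) := by
          by_contra hnd
          exact hne (Subtype.ext (h χ hmem hnd))
        have hd := charDegree_eq χ
        rw [← hd, map_natCast]
        exact locIdeal_mul_right hM ((locIdeal_natCast_iff hM _).2 hpd) (locRing_natCast hM _)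
      · rw [if_neg hmem, zero_mul]
        exact locIdeal_zero hM
    have hone : MemLocalIdeal M 1 := by
      have := locIdeal_sub hM hSideal hrest
      rwa [hsplit, add_sub_cancel_right] at this
    exact locIdeal_one_not hM hone
  · intro hnd χ hχ _
    by_contra hne
    have hne' : χ ≠ trivIrr := fun h => hne (by rw [h]; rfl)
    have horth := classInner_irr χ trivIrr
    rw [if_neg hne', classInner] at horth
    have hsum0 : ∑ g : G, (χ : G → ℂ) g = 0 := by
      have : ∑ g : G, (χ : G → ℂ) g * conj ((trivIrr : IrrCharacter G).1 g) = 0 := by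
        rcases mul_eq_zero.1 horth with h | h
        · exact absurd (inv_eq_zero.1 h) hGne
        · exact h
      simpa [trivIrr] using this
    have hχ1 : (χ : G → ℂ) 1 ≠ 0 := irr_one_ne_zero χ
    have hterm : ∀ g : G, MemLocalIdeal M (1 - (χ : G → ℂ) g / (χ : G → ℂ) 1) := by
      intro g
      have hg : MemLocalIdeal M (centralChar (fun _ => (1 : ℂ)) g - centralChar (χ : G → ℂ) g) :=
        hχ g
      have hidx : ¬ p ∣ (Subgroup.centralizer ({g} : Set G)).index := fun hd =>
        hnd (dvd_trans hd (Subgroup.index_dvd_card _))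
      have hidx0 : ((Subgroup.centralizer ({g} : Set G)).index : ℂ) ≠ 0 := by
        have : (Subgroup.centralizer ({g} : Set G)).index ≠ 0 := Subgroup.index_ne_zero_of_finite
        exact_mod_cast this
      have := locIdeal_mul_left hM (locRing_inv_natCast hM hidx) hg
      have he : ((Subgroup.centralizer ({g} : Set G)).index : ℂ)⁻¹ *
          (centralChar (fun _ => (1 : ℂ)) g - centralChar (χ : G → ℂ) g) =
          1 - (χ : G → ℂ) g / (χ : G → ℂ) 1 := by
        unfold centralChar
        field_simp
      rwa [he] at this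
    have htot := locIdeal_sum hM Finset.univ _ (fun g _ => hterm g)
    rw [Finset.sum_sub_distrib, ← Finset.sum_div, hsum0, zero_div, sub_zero, Finset.sum_const,
      Finset.card_univ, nsmul_eq_mul, mul_one, ← Nat.card_eq_fintype_card] at htot
    exact hnd ((locIdeal_natCast_iff hM _).1 htot)

end Cfsg.Agent.S4916
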