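import Cfsg.Statements.S4923
import Cfsg.Agent.Lib.Helper83.T23GA
import Cfsg.Agent.Lib.Helper83.T23GP
import Cfsg.Agent.Lib.Helper83.T23B2
import Cfsg.Agent.Lib.Helper83.T23B3
import Cfsg.Agent.Lib.Helper83.T23C1
import Cfsg.Agent.Lib.Helper32.T23GC2
import Cfsg.Agent.Lib.Helper32.T23GC3
import Cfsg.Agent.Lib.Helper32.T23GN
import Cfsg.Agent.Lib.Helper23.T23GB
import Cfsg.Agent.Lib.Helper23.T23GC1

set_option autoImplicit false
open Cfsg

namespace Cfsg.Agent.S4923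

/-- arithmetic: `k*k ≡ 1` -/
theorem sq_mod_aux (n : ℕ) (hn : 4 ≤ n) (k : ℕ)
    (hk : k % 2 ^ (n - 1) = 2 ^ (n - 1) - 1 ∨ k % 2 ^ (n - 1) = 2 ^ (n - 2) - 1) :
    (k * k) % 2 ^ (n - 1) = 1 := by
  obtain ⟨m, rfl⟩ : ∃ m, n = m + 4 := ⟨n - 4, by omega⟩
  have e1 : 2 ^ (m + 4 - 1) = 8 * 2 ^ m := by
    rw [show m + 4 - 1 = m + 3 by omega, pow_add]; ring
  have e2 : 2 ^ (m + 4 - 2) = 4 * 2 ^ m := by
    rw [show m + 4 - 2 = m + 2 by omega, pow_add]; ring
  rw [e1, e2] at hk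
  rw [e1]
  have hM : 1 ≤ 2 ^ m := Nat.one_le_two_pow
  set M := 2 ^ m with hMdef
  have h1lt : 1 < 8 * M := by omega
  rw [Nat.mul_mod]
  rcases hk with hk | hk
  · rw [hk]
    obtain ⟨c, hc⟩ : ∃ c, M = c + 1 := ⟨M - 1, by omega⟩
    have : (8 * M - 1) * (8 * M - 1) = 8 * M * (8 * c + 6) + 1 := by
      rw [hc]
      have : 8 * (c + 1) - 1 = 8 * c + 7 := by omega
      rw [this]; ring
    rw [this, Nat.mul_add_mod, Nat.mod_eq_of_lt h1lt]
  · rw [hk]
    obtain ⟨c, hc⟩ : ∃ c, M = c + 1 := ⟨M - 1, by omega⟩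
    have : (4 * M - 1) * (4 * M - 1) = 8 * M * (2 * c + 1) + 1 := by
      rw [hc]
      have : 4 * (c + 1) - 1 = 4 * c + 3 := by omega
      rw [this]; ring
    rw [this, Nat.mul_add_mod, Nat.mod_eq_of_lt h1lt]

/-- Let G be a finite group with Sylow 2-subgroup P of order 2^n ≥ 8, and let ζ be a primitive 2^(n−1)-th root of unity in ℂ. Then the commutator subgroup of P has index 4 in P if and only if there is an element g of P whose conjugacy class in G has even size and such that the field generated over ℚ by the values at g of all irreducible complex characters of G equals ℚ(ζ + ζ⁻¹) or ℚ(ζ − ζ⁻¹). -/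
theorem result {G : Type*} [Group G] [Finite G] (P : Sylow 2 G) (n : ℕ) (hn : 3 ≤ n) (hP : Nat.card P = 2 ^ n) (ζ : ℂ) (hζ : IsPrimitiveRoot ζ (2 ^ (n - 1))) :
    (commutator ↥P).index = 4 ↔
      ∃ g : G, g ∈ (P : Subgroup G) ∧ 2 ∣ (Subgroup.centralizer ({g} : Set G)).index ∧
        (IntermediateField.adjoin ℚ {z : ℂ | ∃ χ : Cfsg.IrrCharacter G, (χ : G → ℂ) g = z} = IntermediateField.adjoin ℚ ({ζ + ζ⁻¹} : Set ℂ) ∨
          IntermediateField.adjoin ℚ {z : ℂ | ∃ χ : Cfsg.IrrCharacter G, (χ : G → ℂ) g = z} = IntermediateField.adjoin ℚ ({ζ - ζ⁻¹} : Set ℂ)) := by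
  have hN1 : 1 < 2 ^ (n - 1) := Nat.one_lt_two_pow (by omega)
  have hζ0 : ζ ≠ 0 := hζ.ne_zero (by omega)
  have hform : ∀ g : G, (IntermediateField.adjoin ℚ {z : ℂ | ∃ χ : Cfsg.IrrCharacter G, (χ : G → ℂ) g = z} = IntermediateField.adjoin ℚ ({ζ + ζ⁻¹} : Set ℂ) ∨
          IntermediateField.adjoin ℚ {z : ℂ | ∃ χ : Cfsg.IrrCharacter G, (χ : G → ℂ) g = z} = IntermediateField.adjoin ℚ ({ζ - ζ⁻¹} : Set ℂ)) ↔
      ∃ ε : ℂ, (ε = 1 ∨ ε = -1) ∧
        IntermediateField.adjoin ℚ {z : ℂ | ∃ χ : Cfsg.IrrCharacter G, (χ : G → ℂ) g = z} =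
          IntermediateField.adjoin ℚ ({ζ + ε * ζ⁻¹} : Set ℂ) := by
    intro g
    constructor
    · rintro (h | h)
      · exact ⟨1, Or.inl rfl, by rw [one_mul]; exact h⟩
      · exact ⟨-1, Or.inr rfl, by rw [show ζ + (-1 : ℂ) * ζ⁻¹ = ζ - ζ⁻¹ by ring]; exact h⟩
    · rintro ⟨ε, rfl | rfl, h⟩
      · left; rw [one_mul] at h; exact h
      · right; rw [show ζ + (-1 : ℂ) * ζ⁻¹ = ζ - ζ⁻¹ by ring] at h; exact h
  constructor
  · intro h4
    obtain ⟨g', t', i, ho', hti', hgt', hdvd⟩ := Cfsg.Agent.Lib.Helper83.T23.ga (X := ↥P) n hn hP h4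
    set g : G := (g' : G) with hgdef
    set t : G := (t' : G) with htdef
    have ho : orderOf g = 2 ^ (n - 1) := by rw [hgdef, Subgroup.orderOf_coe]; exact ho'
    have hti : t * g * t⁻¹ = g ^ i := by
      have := congrArg (Subtype.val) hti'
      simpa using this
    have hgt : t * g ≠ g * t := by
      intro h
      apply hgt'
      exact Subtype.ext (by simpa using h)
    have h2 := Cfsg.Agent.Lib.Helper23.T23.gb P n (by omega) hP g t g'.2 t'.2 ho hgt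
    have hG : ¬ 2 ^ (n + 1) ∣ Nat.card G := by
      intro hd
      have h1 := P.card_eq_multiplicity
      rw [hP] at h1
      have h3 : n = (Nat.card G).factorization 2 := Nat.pow_right_injective (le_refl 2) h1
      have h4 : n + 1 ≤ (Nat.card G).factorization 2 :=
        (Nat.prime_two.pow_dvd_iff_le_factorization Nat.card_pos.ne').mp hd
      omega
    have hconj : ∀ (x : G) (j : ℕ), x * g * x⁻¹ = g ^ j → g ^ j = g ∨ g ^ j = g ^ i :=
      fun x j hx => Cfsg.Agent.Lib.Helper32.T23.gn n (by omega) hG g t i ho hti hgt x j hx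
    have hgi : g ^ i ≠ g := by
      intro h
      apply hgt
      rw [h] at hti
      calc t * g = t * g * t⁻¹ * t := by group
        _ = g * t := by rw [hti]
    -- the sign
    have hhalf : ζ ^ 2 ^ (n - 2) = -1 := by
      have h1 : (ζ ^ 2 ^ (n - 2)) ^ 2 = 1 := by
        rw [← pow_mul, ← pow_succ, show n - 2 + 1 = n - 1 by omega]
        exact hζ.pow_eq_one
      have h2 : ζ ^ 2 ^ (n - 2) ≠ 1 := by
        intro h
        have := hζ.dvd_of_pow_eq_one _ h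
        have hlt : 2 ^ (n - 2) < 2 ^ (n - 1) := Nat.pow_lt_pow_right (by norm_num) (by omega)
        exact absurd (Nat.le_of_dvd (by positivity) this) (by omega)
      rcases mul_self_eq_one_iff.mp ((sq (ζ ^ 2 ^ (n - 2))).symm.trans h1) with h | h
      · exact absurd h h2
      · exact h
    obtain ⟨c, hc⟩ := hdvd
    have hε : ζ ^ (i + 1) = 1 ∨ ζ ^ (i + 1) = -1 := by
      rw [hc, pow_mul, hhalf]
      rcases Nat.even_or_odd c with h | h
      · left; exact h.neg_one_pow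
      · right; exact h.neg_one_pow
    have hi : ζ ^ i = ζ ^ (i + 1) * ζ⁻¹ := by
      rw [pow_succ, mul_assoc, mul_inv_cancel₀ hζ0, mul_one]
    refine ⟨g, g'.2, h2, (hform g).mpr ⟨ζ ^ (i + 1), hε, ?_⟩⟩
    apply le_antisymm
    · rw [IntermediateField.adjoin_le_iff]
      rintro z ⟨χ, rfl⟩
      exact Cfsg.Agent.Lib.Helper83.T23.b2 (2 ^ (n - 1)) (by omega) ζ hζ g t i (by rw [← ho]; exact pow_orderOf_eq_one g)
        hti _ hε hi χ
    · rw [IntermediateField.adjoin_le_iff]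
      rintro z hz
      rw [Set.mem_singleton_iff] at hz
      rw [hz, ← hi]
      exact Cfsg.Agent.Lib.Helper83.T23.b3 (2 ^ (n - 1)) hN1 ζ hζ g i ho hgi hconj ⟨t, hti⟩
  · rintro ⟨g, hg, h2, hF⟩
    obtain ⟨hgN, h3⟩ := Cfsg.Agent.Lib.Helper83.T23.gp P n hn hP g hg h2
    by_cases hn3 : n = 3
    · exact h3 hn3
    have hn4 : 4 ≤ n := by omega
    obtain ⟨ε, hε, hF'⟩ := (hform g).mp hF
    obtain ⟨ho, x, k, hk, hx⟩ := Cfsg.Agent.Lib.Helper83.T23.c1 n hn4 ζ hζ g hgN ε hε hF'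
    have hkk : g ^ (k * k) = g := by
      rw [← pow_mod_orderOf, ho, sq_mod_aux n hn4 k hk, pow_one]
    obtain ⟨s, hs2, hsg⟩ := Cfsg.Agent.Lib.Helper23.T23.gc1 g x k hkk hx
    obtain ⟨Q, hgQ, hsQ, hQ, hidx⟩ := Cfsg.Agent.Lib.Helper32.T23.gc3 P n hP g s hs2 ho k hsg
    rw [← hidx]
    refine Cfsg.Agent.Lib.Helper32.T23.gc2 (Y := ↥Q) n hn4 hQ ⟨g, hgQ⟩ ⟨s, hsQ⟩ k ?_ hk ?_
    · rw [← Subgroup.orderOf_coe]; exact ho
    · exact Subtype.ext (by simpa using hsg)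


end Cfsg.Agent.S4923
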