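import Cfsg.Statements.S4931
import Cfsg.Agent.Lib.Helper84.NC1
import Cfsg.Agent.Lib.Helper4.NormalPC
import Cfsg.Agent.Lib.Helper66.Broline
import Cfsg.Agent.Lib.Helper86.Blk2
import Cfsg.Agent.Lib.Helper20.Clifford

set_option autoImplicit false
open Cfsg

namespace Cfsg.Agent.S4931

open Cfsg.Agent.Lib Cfsg.Agent.Lib.Helper84
open scoped ComplexConjugate commutatorElement Pointwise

section fwd

variable {G : Type*} [Group G] [Finite G] (p : ℕ) [Fact p.Prime] (P : Sylow p G)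

/-- The normalizer of the Sylow subgroup. -/
abbrev NPof : Subgroup G := Subgroup.normalizer ((P : Subgroup G) : Set G)

/-- The normal closure of the Sylow subgroup. -/
abbrev Rof : Subgroup G := Subgroup.normalClosure ((P : Subgroup G) : Set G)

/-- The normal closure of the derived subgroup of the Sylow subgroup. -/
abbrev K0of : Subgroup G :=
  Subgroup.normalClosure ((⁅(P : Subgroup G), (P : Subgroup G)⁆ : Subgroup G) : Set G)

theorem comm_mem_K0 {a b : G} (ha : a ∈ (P : Subgroup G)) (hb : b ∈ (P : Subgroup G)) :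
    a * b * a⁻¹ * b⁻¹ ∈ K0of p P :=
  Subgroup.subset_normalClosure (Subgroup.commutator_mem_commutator ha hb)

theorem K0_le_ker (χ : IrrCharacter G)
    (h : ∀ a b : G, a ∈ (P : Subgroup G) → b ∈ (P : Subgroup G) →
      (χ : G → ℂ) (a * b * a⁻¹ * b⁻¹) = (χ : G → ℂ) 1) :
    K0of p P ≤ Helper83.irrKer χ := by
  apply Subgroup.normalClosure_le_normal
  have : ⁅(P : Subgroup G), (P : Subgroup G)⁆ ≤ Helper83.irrKer χ := by
    rw [Subgroup.commutator_le]
    intro a ha b hb
    rw [Helper83.mem_irrKer]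
    exact h a b ha hb
  exact this

/-- Irreducible characters of the normalizer trivial on `P` have degree prime to `p`. -/
theorem degA (β : IrrCharacter (NPof p P))
    (hβ : ∀ x : NPof p P, (x : G) ∈ (P : Subgroup G) → (β : NPof p P → ℂ) x = (β : NPof p P → ℂ) 1) :
    ¬ p ∣ charDegree (β : NPof p P → ℂ) := by
  have : ((P : Subgroup G).subgroupOf (NPof p P)).Normal := Subgroup.normal_in_normalizer
  obtain ⟨ψ, hψ⟩ := irr_deflate ((P : Subgroup G).subgroupOf (NPof p P)) β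
    (fun n hn => hβ n (Subgroup.mem_subgroupOf.mp hn))
  have hdeg : charDegree ψ.1 = charDegree β.1 := by
    have h1 := hψ 1
    rw [QuotientGroup.mk_one, irr_one ψ, irr_one β] at h1
    exact_mod_cast h1
  have hdvd := Helper83.irr_degree_dvd_card ψ
  rw [hdeg, ← Subgroup.index_eq_card] at hdvd
  intro hp
  have h2 : ((P : Subgroup G).subgroupOf (NPof p P)).index ∣ (P : Subgroup G).index :=
    Subgroup.relIndex_dvd_index_of_le Subgroup.le_normalizer
  exact P.not_dvd_index (hp.trans (hdvd.trans h2))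

variable (hext : ∀ θ : IrrCharacter (NPof p P), ¬ p ∣ charDegree (θ : NPof p P → ℂ) →
  ∃ χ : IrrCharacter G, ∀ x : NPof p P, (χ : G → ℂ) x = (θ : NPof p P → ℂ) x)

include hext

/-- Step 1: the normalizer meets `R K₀` in `P`. -/
theorem stepB (n : G) (hn : n ∈ NPof p P) (hnR : n ∈ Rof p P ⊔ K0of p P) :
    n ∈ (P : Subgroup G) := by
  have : ((P : Subgroup G).subgroupOf (NPof p P)).Normal := Subgroup.normal_in_normalizer
  have key := NC.mem_of_forall_irr_trivial ((P : Subgroup G).subgroupOf (NPof p P)) ⟨n, hn⟩ ?_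
  · exact Subgroup.mem_subgroupOf.mp key
  intro β hβ
  have hβ' : ∀ x : NPof p P, (x : G) ∈ (P : Subgroup G) → β.1 x = β.1 1 :=
    fun x hx => hβ x (Subgroup.mem_subgroupOf.mpr hx)
  obtain ⟨χ, hχ⟩ := hext β (degA p P β hβ')
  have h1 : (χ : G → ℂ) 1 = β.1 1 := hχ 1
  have hP : ∀ x : G, x ∈ (P : Subgroup G) → (χ : G → ℂ) x = (χ : G → ℂ) 1 := by
    intro x hx
    have h2 := hχ ⟨x, Subgroup.le_normalizer hx⟩
    have h3 : (χ : G → ℂ) x = β.1 ⟨x, Subgroup.le_normalizer hx⟩ := h2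
    rw [h3, h1]
    exact hβ' _ hx
  have hR : Rof p P ≤ Helper83.irrKer χ := by
    apply Subgroup.normalClosure_le_normal
    intro x hx
    rw [SetLike.mem_coe, Helper83.mem_irrKer]
    exact hP x hx
  have hK : K0of p P ≤ Helper83.irrKer χ := by
    apply K0_le_ker
    intro a b ha hb
    exact hP _ ((P : Subgroup G).mul_mem ((P : Subgroup G).mul_mem ((P : Subgroup G).mul_mem ha hb)
      ((P : Subgroup G).inv_mem ha)) ((P : Subgroup G).inv_mem hb))
  have h4 := (Helper83.mem_irrKer χ n).mp (sup_le hR hK hnR)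
  have h5 : (χ : G → ℂ) n = β.1 ⟨n, hn⟩ := hχ ⟨n, hn⟩
  rw [← h5, h4, h1]

/-- Step C: linear characters of `P` are trivial on `P ∩ K₀`. -/
theorem stepC (l : (P : Subgroup G) →* ℂˣ) (x : G) (hx : x ∈ (P : Subgroup G))
    (hxK : x ∈ K0of p P) : l ⟨x, hx⟩ = 1 := by
  classical
  let _ : Fintype (NPof p P) := Fintype.ofFinite _
  let _ : Fintype ((P : Subgroup G).subgroupOf (NPof p P)) := Fintype.ofFinite _
  have := irr_finite (G := NPof p P)
  let _ : Fintype (IrrCharacter (NPof p P)) := Fintype.ofFinite _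
  have hPn : ((P : Subgroup G).subgroupOf (NPof p P)).Normal := Subgroup.normal_in_normalizer
  let e : (P : Subgroup G).subgroupOf (NPof p P) →* (P : Subgroup G) :=
    { toFun := fun y => ⟨((y : NPof p P) : G), Subgroup.mem_subgroupOf.mp y.2⟩
      map_one' := rfl
      map_mul' := fun _ _ => rfl }
  have hlam : IsIrrCharacter ((P : Subgroup G).subgroupOf (NPof p P))
      (fun y => (((l.comp e) y : ℂˣ) : ℂ)) := Helper83.isIrr_of_hom (l.comp e)
  obtain ⟨lam, hlamdef⟩ : ∃ lam : (P : Subgroup G).subgroupOf (NPof p P) → ℂ,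
      lam = fun y => (((l.comp e) y : ℂˣ) : ℂ) := ⟨_, rfl⟩
  rw [← hlamdef] at hlam
  have hlam1 : lam 1 = 1 := by
    rw [hlamdef]
    simp
  have hΦ : IsCharacter (NPof p P) (indFun ((P : Subgroup G).subgroupOf (NPof p P)) lam) :=
    Helper35.isCharacter_indFun _ (Helper35.isChar_of_irr hlam)
  obtain ⟨m, hm⟩ := Helper4.exists_decomp_of_isCharacter _ hΦ
  have hone : ((((P : Subgroup G).subgroupOf (NPof p P)).index : ℕ) : ℂ) =
      ((∑ θ : IrrCharacter (NPof p P), m θ * charDegree θ.1 : ℕ) : ℂ) := by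
    have h1 := congrFun hm 1
    rw [Helper35.indFun_one_eq, hlam1, mul_one] at h1
    rw [h1]
    simp only [Finset.sum_apply, Pi.smul_apply, smul_eq_mul]
    push_cast
    exact Finset.sum_congr rfl fun θ _ => by rw [irr_one θ]
  have hone' : ((P : Subgroup G).subgroupOf (NPof p P)).index =
      ∑ θ : IrrCharacter (NPof p P), m θ * charDegree θ.1 := by exact_mod_cast hone
  have hidx : ¬ p ∣ ((P : Subgroup G).subgroupOf (NPof p P)).index := by
    intro hp
    have h2 : ((P : Subgroup G).subgroupOf (NPof p P)).index ∣ (P : Subgroup G).index :=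
      Subgroup.relIndex_dvd_index_of_le Subgroup.le_normalizer
    exact P.not_dvd_index (hp.trans h2)
  obtain ⟨θ, hθ⟩ : ∃ θ : IrrCharacter (NPof p P), ¬ p ∣ m θ * charDegree θ.1 := by
    by_contra hcon
    push Not at hcon
    apply hidx
    rw [hone']
    exact Finset.dvd_sum fun θ _ => hcon θ
  have hθdeg : ¬ p ∣ charDegree θ.1 := fun h => hθ (Dvd.dvd.mul_left h _)
  have hmθ : m θ ≠ 0 := by
    intro h0
    apply hθ
    rw [h0, zero_mul]
    exact dvd_zero p
  have hin : classInner (indFun ((P : Subgroup G).subgroupOf (NPof p P)) lam) θ.1 = (m θ : ℂ) := by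
    conv_lhs => rw [hm]
    exact Helper4.classInner_sum_irr (fun η => (m η : ℂ)) θ
  have hcon : classInner (Helper35.res ((P : Subgroup G).subgroupOf (NPof p P)) θ.1) lam ≠ 0 := by
    rw [← Helper35.frobenius_reciprocity' _ lam θ.1
      (Helper35.isClassFunction_of_isCharacter (Helper35.isChar_of_irr θ.2)),
      Helper4.classInner_conj_symm, hin]
    simpa using hmθ
  obtain ⟨χ, hχ⟩ := hext θ hθdeg
  have h1 : (χ : G → ℂ) 1 = θ.1 1 := hχ 1
  have hK : K0of p P ≤ Helper83.irrKer χ := by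
    apply K0_le_ker
    intro a b ha hb
    let a' : (P : Subgroup G).subgroupOf (NPof p P) :=
      ⟨⟨a, Subgroup.le_normalizer ha⟩, Subgroup.mem_subgroupOf.mpr ha⟩
    let b' : (P : Subgroup G).subgroupOf (NPof p P) :=
      ⟨⟨b, Subgroup.le_normalizer hb⟩, Subgroup.mem_subgroupOf.mpr hb⟩
    have hc : ⁅a', b'⁆ ∈ commutator ((P : Subgroup G).subgroupOf (NPof p P)) := by
      rw [commutator_def]
      exact Subgroup.commutator_mem_commutator (Subgroup.mem_top a') (Subgroup.mem_top b')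
    have h2 := Helper86.commutator_le_ker_of_linear_constituent
      ((P : Subgroup G).subgroupOf (NPof p P)) θ lam hlam hlam1 hcon ⁅a', b'⁆ hc
    have h3 := hχ ((⁅a', b'⁆ : (P : Subgroup G).subgroupOf (NPof p P)) : NPof p P)
    have h4 : ((((⁅a', b'⁆ : (P : Subgroup G).subgroupOf (NPof p P)) : NPof p P)) : G) =
        a * b * a⁻¹ * b⁻¹ := rfl
    rw [h4] at h3
    rw [h3, h2, h1]
  have h5 := (Helper83.mem_irrKer χ x).mp (hK hxK)
  have h6 : (χ : G → ℂ) x = θ.1 ⟨x, Subgroup.le_normalizer hx⟩ := hχ ⟨x, Subgroup.le_normalizer hx⟩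
  have h7 := Helper66.constituent_ker (Helper35.res ((P : Subgroup G).subgroupOf (NPof p P)) θ.1)
    (Helper35.isCharacter_res _ (Helper35.isChar_of_irr θ.2)) lam hlam hcon
    ⟨⟨x, Subgroup.le_normalizer hx⟩, Subgroup.mem_subgroupOf.mpr hx⟩ (by
      rw [Helper35.res_apply, Helper35.res_apply]
      show θ.1 ⟨x, Subgroup.le_normalizer hx⟩ = θ.1 1
      rw [← h6, h5, h1])
  rw [hlam1, hlamdef] at h7
  apply Units.ext
  exact h7

omit hext in
/-- The preimage in `T` of the centralizer of `y` modulo `K`. -/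
def Dsub (K T : Subgroup G) [K.Normal] (y : G) : Subgroup G where
  carrier := {g | g ∈ T ∧ g * y * g⁻¹ * y⁻¹ ∈ K}
  one_mem' := ⟨T.one_mem, by simp⟩
  mul_mem' := by
    rintro g h ⟨hg, hg'⟩ ⟨hh, hh'⟩
    refine ⟨T.mul_mem hg hh, ?_⟩
    have e : g * h * y * (g * h)⁻¹ * y⁻¹ = g * (h * y * h⁻¹ * y⁻¹) * g⁻¹ * (g * y * g⁻¹ * y⁻¹) := by
      group
    rw [e]
    exact K.mul_mem (‹K.Normal›.conj_mem _ hh' g) hg'
  inv_mem' := by
    rintro g ⟨hg, hg'⟩
    refine ⟨T.inv_mem hg, ?_⟩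
    have e : g⁻¹ * y * g⁻¹⁻¹ * y⁻¹ = g⁻¹ * (g * y * g⁻¹ * y⁻¹)⁻¹ * g⁻¹⁻¹ := by group
    rw [e]
    exact ‹K.Normal›.conj_mem _ (K.inv_mem hg') g⁻¹

/-- Step D: `R`-conjugate elements of `P` have the same value under linear characters of `P`. -/
theorem stepD (l : (P : Subgroup G) →* ℂˣ) (x : G) (hx : x ∈ (P : Subgroup G)) (k : G)
    (hk : k ∈ Rof p P) (hy : k * x * k⁻¹ ∈ (P : Subgroup G)) :
    l ⟨k * x * k⁻¹, hy⟩ = l ⟨x, hx⟩ := by
  have hPR : (P : Subgroup G) ≤ Rof p P := Subgroup.le_normalClosure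
  have hQ : ∀ z : G, z ∈ ((k • P : Sylow p G) : Subgroup G) ↔ k⁻¹ * z * k ∈ (P : Subgroup G) := by
    intro z
    rw [Sylow.coe_subgroup_smul, Subgroup.mem_pointwise_smul_iff_inv_smul_mem]
    simp [MulAut.smul_def, mul_assoc]
  have hPD : (P : Subgroup G) ≤ Dsub (K0of p P) (Rof p P ⊔ K0of p P) (k * x * k⁻¹) := by
    intro g hg
    exact ⟨le_sup_left (a := Rof p P) (hPR hg), comm_mem_K0 p P hg hy⟩
  have hQD : ((k • P : Sylow p G) : Subgroup G) ≤
      Dsub (K0of p P) (Rof p P ⊔ K0of p P) (k * x * k⁻¹) := by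
    intro z hz
    have hg := (hQ z).mp hz
    have hzR : z ∈ Rof p P := by
      have : z = k * (k⁻¹ * z * k) * k⁻¹ := by group
      rw [this]
      exact (Rof p P).mul_mem ((Rof p P).mul_mem hk (hPR hg)) ((Rof p P).inv_mem hk)
    refine ⟨le_sup_left (a := Rof p P) hzR, ?_⟩
    have e : z * (k * x * k⁻¹) * z⁻¹ * (k * x * k⁻¹)⁻¹ =
        k * ((k⁻¹ * z * k) * x * (k⁻¹ * z * k)⁻¹ * x⁻¹) * k⁻¹ := by group
    rw [e]
    exact (inferInstance : (K0of p P).Normal).conj_mem _ (comm_mem_K0 p P hg hx) k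
  obtain ⟨c, hcD, hc⟩ := NC.sylow_conj_in P (k • P) _ hPD hQD
  have hnN : c * k ∈ NPof p P := by
    have h1 : (c * k)⁻¹ ∈ NPof p P := by
      rw [Subgroup.mem_normalizer_iff]
      intro z
      rw [hc z, hQ]
      have : (c * k)⁻¹ * z * (c * k)⁻¹⁻¹ = k⁻¹ * (c⁻¹ * z * c) * k := by group
      rw [this]
    simpa using (NPof p P).inv_mem h1
  have hnR : c * k ∈ Rof p P ⊔ K0of p P :=
    (Rof p P ⊔ K0of p P).mul_mem hcD.1 (le_sup_left (a := Rof p P) hk)
  have hnP : c * k ∈ (P : Subgroup G) := stepB p P hext (c * k) hnN hnR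
  have hw : c * k * x * (c * k)⁻¹ * (k * x * k⁻¹)⁻¹ ∈ K0of p P := by
    have : c * k * x * (c * k)⁻¹ * (k * x * k⁻¹)⁻¹ = c * (k * x * k⁻¹) * c⁻¹ * (k * x * k⁻¹)⁻¹ := by
      group
    rw [this]
    exact hcD.2
  have hwP : c * k * x * (c * k)⁻¹ * (k * x * k⁻¹)⁻¹ ∈ (P : Subgroup G) :=
    (P : Subgroup G).mul_mem ((P : Subgroup G).mul_mem ((P : Subgroup G).mul_mem hnP hx)
      ((P : Subgroup G).inv_mem hnP)) ((P : Subgroup G).inv_mem hy)
  have h1 := stepC p P hext l _ hwP hw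
  have h2 : (⟨c * k * x * (c * k)⁻¹ * (k * x * k⁻¹)⁻¹, hwP⟩ : (P : Subgroup G)) =
      ⟨c * k, hnP⟩ * ⟨x, hx⟩ * ⟨c * k, hnP⟩⁻¹ * ⟨k * x * k⁻¹, hy⟩⁻¹ := rfl
  rw [h2, map_mul, map_mul, map_mul, map_inv, map_inv] at h1
  have h3 : l ⟨c * k, hnP⟩ * l ⟨x, hx⟩ * (l ⟨c * k, hnP⟩)⁻¹ = l ⟨x, hx⟩ := by
    rw [mul_comm (l ⟨c * k, hnP⟩), mul_inv_cancel_right]
  rw [h3] at h1
  exact (mul_inv_eq_one.mp h1).symm

/-- The forward direction. -/
theorem forward : ∃ K : Subgroup G, K.Normal ∧ K ⊔ NPof p P = ⊤ ∧ K ⊓ NPof p P = ⊥ := by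
  have hp := (Fact.out : p.Prime)
  have hPR : (P : Subgroup G) ≤ Rof p P := Subgroup.le_normalClosure
  have hnpc : HasNormalPComplement p (Rof p P) := by
    apply Helper4.npc_of_extend p (P.subtype hPR)
    intro l _
    apply NC.exists_extension_of_fusion _ (Sylow.card_coprime_index (P.subtype hPR)).symm l
    intro h g₀ hk
    let e : (P : Subgroup G) →* ((P.subtype hPR : Sylow p (Rof p P)) : Subgroup (Rof p P)) :=
      { toFun := fun y => ⟨⟨(y : G), hPR y.2⟩, Subgroup.mem_subgroupOf.mpr y.2⟩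
        map_one' := rfl
        map_mul' := fun _ _ => rfl }
    have hhP : ((h : Rof p P) : G) ∈ (P : Subgroup G) := Subgroup.mem_subgroupOf.mp h.2
    have hkP : ((g₀⁻¹ : Rof p P) : G) * ((h : Rof p P) : G) * ((g₀⁻¹ : Rof p P) : G)⁻¹ ∈
        (P : Subgroup G) := by
      have := Subgroup.mem_subgroupOf.mp hk
      simpa using this
    have h1 := stepD p P hext (l.comp e) ((h : Rof p P) : G) hhP ((g₀⁻¹ : Rof p P) : G)
      (g₀⁻¹).2 hkP
    have h2 : (l.comp e) ⟨((h : Rof p P) : G), hhP⟩ = l h := rfl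
    have h3 : (l.comp e) ⟨((g₀⁻¹ : Rof p P) : G) * ((h : Rof p P) : G) *
        ((g₀⁻¹ : Rof p P) : G)⁻¹, hkP⟩ = l ⟨g₀⁻¹ * (h : Rof p P) * g₀, hk⟩ := by
      show l _ = l _
      congr 1
      apply Subtype.ext
      apply Subtype.ext
      show ((g₀⁻¹ : Rof p P) : G) * ((h : Rof p P) : G) * ((g₀⁻¹ : Rof p P) : G)⁻¹ =
        ((g₀⁻¹ * (h : Rof p P) * g₀ : Rof p P) : G)
      simp
    rw [← h3, ← h2]
    exact h1
  obtain ⟨P', K, hKn, hKc⟩ := hnpc
  have hcardmul : Nat.card K * Nat.card (P' : Subgroup (Rof p P)) = Nat.card (Rof p P) :=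
    hKc.card_mul_card
  have hP'card := P'.card_eq_multiplicity
  have hRpos : Nat.card (Rof p P) ≠ 0 := Nat.card_pos.ne'
  have hKcard : Nat.card K = Nat.card (Rof p P) / p ^ (Nat.card (Rof p P)).factorization p := by
    rw [hP'card] at hcardmul
    exact (Nat.div_eq_of_eq_mul_left (pow_pos hp.pos _) hcardmul.symm).symm
  have hKcop : (Nat.card K).Coprime p := by
    rw [hKcard]
    exact (Nat.coprime_ordCompl hp hRpos).symm
  have hidx : ∃ a, K.index = p ^ a := by
    refine ⟨(Nat.card (Rof p P)).factorization p, ?_⟩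
    have h1 := K.index_mul_card
    rw [← hcardmul, mul_comm, hP'card] at h1
    exact Nat.eq_of_mul_eq_mul_left Nat.card_pos h1
  obtain ⟨hK1n, hK1c⟩ := NC.map_normal_of_hall p (Rof p P) K hKcop hidx
  refine ⟨K.map (Rof p P).subtype, hK1n, ?_, ?_⟩
  · have hfr : NPof p P ⊔ Rof p P = ⊤ := Sylow.normalizer_sup_eq_top' P hPR
    have hcompl : K.IsComplement' ((P.subtype hPR : Sylow p (Rof p P)) : Subgroup (Rof p P)) := by
      apply Subgroup.isComplement'_of_coprime
      · rw [(P.subtype hPR).card_eq_multiplicity, ← hP'card]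
        exact hcardmul
      · rw [(P.subtype hPR).card_eq_multiplicity]
        exact Nat.Coprime.pow_right _ hKcop
    have hsup := hcompl.sup_eq_top
    have hR : Rof p P ≤ K.map (Rof p P).subtype ⊔ NPof p P := by
      intro r hr
      have h1 : (⟨r, hr⟩ : Rof p P) ∈
          K ⊔ ((P.subtype hPR : Sylow p (Rof p P)) : Subgroup (Rof p P)) := by
        rw [hsup]
        exact Subgroup.mem_top _
      have h2 : r ∈ (K ⊔ ((P.subtype hPR : Sylow p (Rof p P)) : Subgroup (Rof p P))).map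
          (Rof p P).subtype := ⟨⟨r, hr⟩, h1, rfl⟩
      rw [Subgroup.map_sup] at h2
      have h3 : K.map (Rof p P).subtype ⊔
          (((P.subtype hPR : Sylow p (Rof p P)) : Subgroup (Rof p P))).map (Rof p P).subtype ≤
          K.map (Rof p P).subtype ⊔ NPof p P := by
        apply sup_le_sup_left
        rintro z ⟨w, hw, rfl⟩
        exact Subgroup.le_normalizer (Subgroup.mem_subgroupOf.mp hw)
      exact h3 h2
    rw [eq_top_iff, ← hfr]
    exact sup_le le_sup_right hR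
  · rw [eq_bot_iff]
    intro x hx
    obtain ⟨hxK, hxN⟩ := Subgroup.mem_inf.mp hx
    obtain ⟨hxR, hxc⟩ := (hK1c x).mp hxK
    have hxP : x ∈ (P : Subgroup G) :=
      stepB p P hext x hxN (le_sup_left (a := Rof p P) hxR)
    obtain ⟨j, hj⟩ := P.isPGroup' ⟨x, hxP⟩
    have h1 : x ^ p ^ j = 1 := by
      have := congrArg Subtype.val hj
      simpa using this
    have h2 : orderOf x ∣ p ^ j := orderOf_dvd_of_pow_eq_one h1
    have h3 : orderOf x = 1 := Nat.Coprime.eq_one_of_dvd (Nat.Coprime.pow_right j hxc) h2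
    rw [Subgroup.mem_bot]
    exact orderOf_eq_one_iff.mp h3

end fwd

/-- The backward direction. -/
theorem backward {G : Type*} [Group G] [Finite G] (N K : Subgroup G) [K.Normal]
    (htop : K ⊔ N = ⊤) (hbot : K ⊓ N = ⊥) (θ : IrrCharacter N) :
    ∃ χ : IrrCharacter G, ∀ x : N, (χ : G → ℂ) x = (θ : N → ℂ) x := by
  let f : N →* G ⧸ K := (QuotientGroup.mk' K).comp N.subtype
  have hinj : Function.Injective f := by
    rw [injective_iff_map_eq_one]
    intro a ha
    have h1 : (a : G) ∈ K := (QuotientGroup.eq_one_iff (a : G)).mp ha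
    have h2 : (a : G) ∈ K ⊓ N := ⟨h1, a.2⟩
    rw [hbot, Subgroup.mem_bot] at h2
    exact Subtype.ext h2
  have hsurj : Function.Surjective f := by
    intro q
    obtain ⟨g, rfl⟩ := QuotientGroup.mk_surjective q
    have hg : g ∈ K ⊔ N := by rw [htop]; exact Subgroup.mem_top g
    have hg' : g ∈ (K : Set G) * (N : Set G) := by
      rw [← Subgroup.normal_mul]
      exact hg
    obtain ⟨k, hk, n, hn, rfl⟩ := Set.mem_mul.mp hg'
    refine ⟨⟨n, hn⟩, ?_⟩
    show ((n : G) : G ⧸ K) = ((k * n : G) : G ⧸ K)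
    rw [QuotientGroup.mk_mul, (QuotientGroup.eq_one_iff k).mpr hk, one_mul]
  let e : N ≃* G ⧸ K := MulEquiv.ofBijective f ⟨hinj, hsurj⟩
  let π : G →* N := e.symm.toMonoidHom.comp (QuotientGroup.mk' K)
  have hπsurj : Function.Surjective π := by
    intro n
    refine ⟨(n : G), ?_⟩
    show e.symm (f n) = n
    exact e.symm_apply_apply n
  refine ⟨⟨fun g => θ.1 (π g), Helper20.irr_comp_surjective π hπsurj θ.2⟩, fun x => ?_⟩
  have hπ : π (x : G) = x := by
    show e.symm (f x) = x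
    exact e.symm_apply_apply x
  show θ.1 (π x) = θ.1 x
  rw [hπ]

/-- Let G be a finite group, p a prime and P a Sylow p-subgroup of G with normalizer N. Then every irreducible complex character of N of degree not divisible by p is the restriction of an irreducible character of G if and only if there is a normal subgroup K of G with KN = G and K ∩ N = 1. -/
theorem result {G : Type*} [Group G] [Finite G] (p : ℕ) [Fact p.Prime] (P : Sylow p G) :
    (∀ θ : Cfsg.IrrCharacter ↥(Subgroup.normalizer ((P : Subgroup G) : Set G)), ¬ p ∣ Cfsg.charDegree (θ : ↥(Subgroup.normalizer ((P : Subgroup G) : Set G)) → ℂ) →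
        ∃ χ : Cfsg.IrrCharacter G, ∀ x : ↥(Subgroup.normalizer ((P : Subgroup G) : Set G)), (χ : G → ℂ) x = (θ : ↥(Subgroup.normalizer ((P : Subgroup G) : Set G)) → ℂ) x) ↔
      ∃ K : Subgroup G, K.Normal ∧ K ⊔ Subgroup.normalizer ((P : Subgroup G) : Set G) = ⊤ ∧ K ⊓ Subgroup.normalizer ((P : Subgroup G) : Set G) = ⊥ := by
  constructor
  · intro hext
    exact forward p P hext
  · rintro ⟨K, hKn, htop, hbot⟩ θ _
    exact backward _ K htop hbot θ

end Cfsg.Agent.S4931
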