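import Cfsg.Statements.S4989
import Mathlib
import Cfsg.Agent.Lib.Helper4.CharExp2
import Cfsg.Agent.Lib.Helper85.Burnside
-- import your own Cfsg.Agent.* helpers here

set_option autoImplicit false
open Cfsg

namespace Cfsg.Agent.S4989

theorem mem_of_pow_mem {G : Type*} [Group G] [Finite G] (H : Subgroup G) (g : G) (k : ℕ)
    (hk : (Nat.card G).Coprime k) (h : g ^ k ∈ H) : g ∈ H := by
  have h1 : ((Nat.gcd k (Nat.card G) : ℕ) : ℤ) = k * Nat.gcdA k (Nat.card G) +
      (Nat.card G) * Nat.gcdB k (Nat.card G) := Nat.gcd_eq_gcd_ab k (Nat.card G)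
  rw [Nat.Coprime.gcd_eq_one hk.symm] at h1
  have h2 : g = (g ^ k) ^ (Nat.gcdA k (Nat.card G)) := by
    have : g ^ ((k : ℤ) * Nat.gcdA k (Nat.card G) + (Nat.card G) * Nat.gcdB k (Nat.card G)) = g := by
      rw [← h1]; simp
    rw [zpow_add, zpow_mul, zpow_mul, zpow_natCast, zpow_natCast, pow_card_eq_one', one_zpow,
      mul_one] at this
    exact this.symm
  rw [h2]
  exact H.zpow_mem h _

open Cfsg.Agent.Lib.Helper4 Cfsg.Agent.Lib.Helper85 in
/-- Let H be a subgroup of the finite group G and χ an irreducible complex character of G. Then the inner product of the restriction of χ to H with itself, (1/#H)·Σ_{h ∈ H} |χ(h)|², is at most 1 + #(Z ∖ H)/#H, where Z is the set of zeros of χ in G. -/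
theorem result {G : Type*} [Group G] [Finite G] (H : Subgroup G) (χ : Cfsg.IrrCharacter G) : (Nat.card ↥H : ℝ)⁻¹ * ∑ᶠ h : ↥H, ‖(χ : G → ℂ) h‖ ^ 2 ≤ 1 + (Set.ncard ({x : G | (χ : G → ℂ) x = 0} \ (H : Set G)) : ℝ) / (Nat.card ↥H : ℝ) := by
  classical
  cases nonempty_fintype G
  obtain ⟨n, ρ, hρ, hχ⟩ := χ.2
  -- total sum
  have htot : ∑ g : G, ‖(χ : G → ℂ) g‖ ^ 2 = (Nat.card G : ℝ) := by
    have h := classInner_irr χ χ
    rw [if_pos rfl, classInner] at h
    have h2 : ∀ g : G, (χ : G → ℂ) g * (starRingEnd ℂ) ((χ : G → ℂ) g) =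
        ((‖(χ : G → ℂ) g‖ ^ 2 : ℝ) : ℂ) := by
      intro g
      rw [Complex.mul_conj, Complex.normSq_eq_norm_sq]
    rw [Finset.sum_congr rfl (fun g _ => h2 g), ← Complex.ofReal_sum] at h
    have hG : (Nat.card G : ℂ) ≠ 0 := Nat.cast_ne_zero.mpr Nat.card_pos.ne'
    have h3 : ((∑ g : G, ‖(χ : G → ℂ) g‖ ^ 2 : ℝ) : ℂ) = (Nat.card G : ℂ) := by
      field_simp at h
      exact h
    exact_mod_cast h3
  set Hf : Finset G := Finset.univ.filter (fun g => g ∈ H) with hHf
  set D : Finset G := Finset.univ.filter (fun g => g ∉ H ∧ (χ : G → ℂ) g ≠ 0) with hD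
  set Z : Finset G := Finset.univ.filter (fun g => g ∉ H ∧ (χ : G → ℂ) g = 0) with hZ
  have hsumH : ∑ᶠ h : ↥H, ‖(χ : G → ℂ) h‖ ^ 2 = ∑ g ∈ Hf, ‖(χ : G → ℂ) g‖ ^ 2 := by
    rw [finsum_eq_sum_of_fintype]
    exact (Finset.sum_subtype Hf (fun x => by simp [hHf]) (fun g => ‖(χ : G → ℂ) g‖ ^ 2)).symm
  have hcardH : Nat.card ↥H = Hf.card := by
    rw [Nat.card_eq_fintype_card, Fintype.card_subtype]
  have hcardZ : Set.ncard ({x : G | (χ : G → ℂ) x = 0} \ (H : Set G)) = Z.card := by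
    rw [← Set.ncard_coe_finset]
    congr 1
    ext x
    simp [hZ, and_comm]
  -- decomposition of the total sum
  have hsplit : ∑ g : G, ‖(χ : G → ℂ) g‖ ^ 2 =
      ∑ g ∈ Hf, ‖(χ : G → ℂ) g‖ ^ 2 + ∑ g ∈ D, ‖(χ : G → ℂ) g‖ ^ 2 := by
    rw [← Finset.sum_filter_add_sum_filter_not Finset.univ (fun g => g ∈ H)]
    congr 1
    rw [← Finset.sum_filter_add_sum_filter_not (Finset.univ.filter (fun g => ¬ g ∈ H))
      (fun g => (χ : G → ℂ) g ≠ 0)]
    rw [Finset.filter_filter, Finset.filter_filter]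
    have hz : ∑ g ∈ Finset.univ.filter (fun g => ¬ g ∈ H ∧ ¬ (χ : G → ℂ) g ≠ 0),
        ‖(χ : G → ℂ) g‖ ^ 2 = 0 := by
      apply Finset.sum_eq_zero
      intro g hg
      rw [Finset.mem_filter] at hg
      have : (χ : G → ℂ) g = 0 := not_not.1 hg.2.2
      rw [this]; simp
    rw [hz, add_zero]
  have hcards : Hf.card + D.card + Z.card = Nat.card G := by
    rw [Nat.card_eq_fintype_card, ← Finset.card_univ]
    rw [← Finset.card_filter_add_card_filter_not (s := (Finset.univ : Finset G)) (fun g => g ∈ H)]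
    rw [add_assoc]
    congr 1
    rw [← Finset.card_filter_add_card_filter_not (s := Finset.univ.filter (fun g => ¬ g ∈ H))
      (fun g => (χ : G → ℂ) g ≠ 0)]
    rw [Finset.filter_filter, Finset.filter_filter]
    congr 2
    ext g
    simp [hZ]
  -- Burnside bound on D
  have hDsum : (D.card : ℝ) ≤ ∑ g ∈ D, ‖(χ : G → ℂ) g‖ ^ 2 := by
    have hprodg : ∀ g ∈ D, 1 ≤ ∏ k ∈ expSet (Nat.card G), ‖(χ : G → ℂ) (g ^ k)‖ := by
      intro g hg
      rw [hD, Finset.mem_filter] at hg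
      have := prod_norm_char ρ g (by rw [hχ]; exact hg.2.2)
      rw [hχ] at this
      exact this
    apply card_le_sum_of_prod D (fun g => ‖(χ : G → ℂ) g‖ ^ 2) (fun g => sq_nonneg _)
    · intro g hg k hk
      have hg' := hg
      rw [hD, Finset.mem_filter] at hg' ⊢
      refine ⟨Finset.mem_univ _, ?_, ?_⟩
      · intro hmem
        exact hg'.2.1 (mem_of_pow_mem H g k (mem_expSet.1 hk).2 hmem)
      · intro h0
        have h1 := hprodg g hg
        have : ∏ k ∈ expSet (Nat.card G), ‖(χ : G → ℂ) (g ^ k)‖ = 0 :=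
          Finset.prod_eq_zero hk (by rw [h0, norm_zero])
        rw [this] at h1
        linarith
    · intro g hg
      rw [Finset.prod_pow]
      exact one_le_pow₀ (hprodg g hg)
  have hcards' : (Hf.card : ℝ) + D.card + Z.card = (Nat.card G : ℝ) := by
    exact_mod_cast hcards
  have hmain : ∑ g ∈ Hf, ‖(χ : G → ℂ) g‖ ^ 2 ≤ (Hf.card : ℝ) + Z.card := by
    have := htot
    rw [hsplit] at this
    linarith
  rw [hsumH, hcardZ, hcardH]
  have hHpos : (0 : ℝ) < (Hf.card : ℝ) := by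
    have : 0 < Nat.card ↥H := Nat.card_pos
    rw [hcardH] at this
    exact_mod_cast this
  rw [inv_mul_le_iff₀ hHpos]
  have : (Hf.card : ℝ) * (1 + (Z.card : ℝ) / (Hf.card : ℝ)) = (Hf.card : ℝ) + Z.card := by
    field_simp
  rw [this]
  exact hmain

end Cfsg.Agent.S4989
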