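import Cfsg.Statements.S4996
import Mathlib
import Cfsg.Agent.Lib.Helper4.CharExp2
import Cfsg.Agent.Lib.Helper85.Burnside
import Cfsg.Agent.Lib.Helper85.Deflate
-- import your own Cfsg.Agent.* helpers here

set_option autoImplicit false
open Cfsg

namespace Cfsg.Agent.S4996

open Cfsg.Agent.Lib.Helper4 Cfsg.Agent.Lib.Helper85

theorem eq_one_of_pow_eq_one {G : Type*} [Group G] [Finite G] (g : G) (k : ℕ)
    (hk : (Nat.card G).Coprime k) (h : g ^ k = 1) : g = 1 := by
  have h1 : orderOf g ∣ k := orderOf_dvd_of_pow_eq_one h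
  have h2 : orderOf g ∣ Nat.card G := orderOf_dvd_natCard g
  have h3 : orderOf g ∣ Nat.gcd (Nat.card G) k := Nat.dvd_gcd h2 h1
  rw [hk] at h3
  exact orderOf_eq_one_iff.1 (Nat.dvd_one.1 h3)

theorem sigma_char {G : Type*} [Group G] [Finite G] {V : Type*}
    [AddCommGroup V] [Module ℂ V] [FiniteDimensional ℂ V] (ρ : Representation ℂ G V)
    (N : Subgroup G) [N.Normal] [Fintype N] (x : G) :
    (Representation.toInvariants (Representation.linHom ρ ρ) N).character x =
      (((Nat.card N : ℝ)⁻¹ * ∑ n : N, ‖ρ.character ((n : G) * x)‖ ^ 2 : ℝ) : ℂ) := by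
  rw [toInvariants_character]
  push_cast
  congr 1
  refine Finset.sum_congr rfl fun n _ => ?_
  rw [Representation.char_linHom, char_inv, mul_comm, Complex.mul_conj, Complex.normSq_eq_norm_sq]
  push_cast
  rfl

theorem sum_r {G : Type*} [Group G] [Fintype G] (N : Subgroup G) [Fintype N] (f : G → ℝ) :
    ∑ x : G, ((Nat.card N : ℝ)⁻¹ * ∑ n : N, f ((n : G) * x)) = ∑ g : G, f g := by
  rw [← Finset.mul_sum, Finset.sum_comm]
  have h : ∀ n : N, ∑ x : G, f ((n : G) * x) = ∑ g : G, f g := fun n =>
    Fintype.sum_equiv (Equiv.mulLeft (n : G)) _ _ (fun x => rfl)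
  rw [Finset.sum_congr rfl (fun n _ => h n), Finset.sum_const, Finset.card_univ, nsmul_eq_mul,
    ← mul_assoc, Nat.card_eq_fintype_card, inv_mul_cancel₀, one_mul]
  exact_mod_cast Fintype.card_ne_zero

theorem irreducible_of_finrank_le_one {G : Type*} [Group G] [Fintype G] {V : Type*}
    [AddCommGroup V] [Module ℂ V] [FiniteDimensional ℂ V] [Nontrivial V]
    (ρ : Representation ℂ G V) (N : Subgroup G)
    (h : Module.finrank ℂ
      (Representation.invariants ((Representation.linHom ρ ρ).comp N.subtype)) ≤ 1) :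
    Representation.IsIrreducible (ρ.comp N.subtype) := by
  classical
  haveI : Fintype N := Fintype.ofFinite N
  by_contra hirr
  obtain ⟨S, hS0, hS1⟩ := exists_proper_sub (ρ.comp N.subtype) inferInstance hirr
  obtain ⟨S', hc⟩ := exists_compl_sub (ρ.comp N.subtype) S
  set P : V →ₗ[ℂ] V := S.toSubmodule.projection S'.toSubmodule hc with hP
  have hPS : ∀ v ∈ S.toSubmodule, P v = v := fun v hv =>
    Submodule.projection_apply_of_mem_left hc hv
  have hPS' : ∀ v ∈ S'.toSubmodule, P v = 0 := fun v hv =>
    Submodule.projection_apply_of_mem_right hc hv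
  have hmem : ∀ v, v - P v ∈ S'.toSubmodule := by
    intro v
    rw [← Submodule.projection_apply_eq_zero_iff hc, map_sub]
    rw [hPS (P v) (Submodule.projection_apply_mem hc v), sub_self]
  have hcomm : ∀ (n : N) (v : V), P (ρ n v) = ρ n (P v) := by
    intro n v
    have h1 : ρ n v = ρ n (P v) + ρ n (v - P v) := by rw [← map_add]; congr 1; abel
    have h2 : ρ n (P v) ∈ S.toSubmodule :=
      S.apply_mem_toSubmodule n (Submodule.projection_apply_mem hc v)
    have h3 : ρ n (v - P v) ∈ S'.toSubmodule := S'.apply_mem_toSubmodule n (hmem v)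
    rw [h1, map_add, hPS _ h2, hPS' _ h3, add_zero]
  have hPinv : P ∈ Representation.invariants ((Representation.linHom ρ ρ).comp N.subtype) := by
    intro n
    show (Representation.linHom ρ ρ) (n : G) P = P
    rw [Representation.linHom_apply]
    ext v
    simp only [LinearMap.comp_apply]
    have h5 : ρ (n : G) (ρ (n : G)⁻¹ v) = v := by
      rw [← Module.End.mul_apply, ← map_mul]
      simp
    rw [← hcomm, h5]
  have hidinv : (LinearMap.id : V →ₗ[ℂ] V) ∈
      Representation.invariants ((Representation.linHom ρ ρ).comp N.subtype) := by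
    intro n
    show (Representation.linHom ρ ρ) (n : G) LinearMap.id = LinearMap.id
    rw [Representation.linHom_apply]
    ext v
    simp only [LinearMap.comp_apply, LinearMap.id_apply]
    rw [← Module.End.mul_apply, ← map_mul]
    simp
  obtain ⟨w, hw⟩ := finrank_le_one_iff.1 h
  obtain ⟨a, ha⟩ := hw ⟨LinearMap.id, hidinv⟩
  obtain ⟨b, hb⟩ := hw ⟨P, hPinv⟩
  have ha' : a • (w : V →ₗ[ℂ] V) = LinearMap.id := congrArg Subtype.val ha
  have hb' : b • (w : V →ₗ[ℂ] V) = P := congrArg Subtype.val hb
  have ha0 : a ≠ 0 := by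
    rintro rfl
    rw [zero_smul] at ha'
    obtain ⟨v, hv⟩ := exists_ne (0 : V)
    have := congrArg (fun f : V →ₗ[ℂ] V => f v) ha'
    simp at this
    exact hv this.symm
  have hPc : P = (b * a⁻¹) • (LinearMap.id : V →ₗ[ℂ] V) := by
    rw [← hb', ← ha', smul_smul, mul_assoc, inv_mul_cancel₀ ha0, mul_one]
  -- nonzero vector in S
  have hSne : S.toSubmodule ≠ ⊥ := fun h0 => hS0 (Subrepresentation.toSubmodule_injective h0)
  have hS'ne : S'.toSubmodule ≠ ⊥ := by
    intro h0
    apply hS1
    apply Subrepresentation.toSubmodule_injective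
    have := hc.sup_eq_top
    rw [h0, sup_bot_eq] at this
    exact this
  obtain ⟨s, hs, hs0⟩ := (Submodule.ne_bot_iff _).1 hSne
  obtain ⟨s', hs', hs'0⟩ := (Submodule.ne_bot_iff _).1 hS'ne
  have e1 : (b * a⁻¹) • s = s := by
    have := hPS s hs
    rw [hPc] at this
    simpa using this
  have e2 : (b * a⁻¹) • s' = 0 := by
    have := hPS' s' hs'
    rw [hPc] at this
    simpa using this
  have c0 : b * a⁻¹ = 0 := by
    rcases smul_eq_zero.1 e2 with h | h
    · exact h
    · exact absurd h hs'0
  rw [c0, zero_smul] at e1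
  exact hs0 e1.symm

theorem sigma_char_eq_one {G : Type*} [Group G] [Finite G] {V : Type*}
    [AddCommGroup V] [Module ℂ V] [FiniteDimensional ℂ V] [Nontrivial V]
    (ρ : Representation ℂ G V) (N : Subgroup G) [N.Normal]
    (h : Module.finrank ℂ
      (Representation.invariants ((Representation.linHom ρ ρ).comp N.subtype)) = 1) (x : G) :
    (Representation.toInvariants (Representation.linHom ρ ρ) N).character x = 1 := by
  have hidinv : (LinearMap.id : V →ₗ[ℂ] V) ∈
      Representation.invariants ((Representation.linHom ρ ρ).comp N.subtype) := by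
    intro n
    show (Representation.linHom ρ ρ) (n : G) LinearMap.id = LinearMap.id
    rw [Representation.linHom_apply]
    ext v
    simp only [LinearMap.comp_apply, LinearMap.id_apply]
    rw [← Module.End.mul_apply, ← map_mul]
    simp
  have hne : (⟨LinearMap.id, hidinv⟩ :
      Representation.invariants ((Representation.linHom ρ ρ).comp N.subtype)) ≠ 0 := by
    intro h0
    have h1 : (LinearMap.id : V →ₗ[ℂ] V) = 0 := congrArg Subtype.val h0
    obtain ⟨v, hv⟩ := exists_ne (0 : V)
    have := congrArg (fun f : V →ₗ[ℂ] V => f v) h1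
    simp at this
    exact hv this
  have hspan := (finrank_eq_one_iff_of_nonzero' _ hne).1 h
  have hfix : (Representation.toInvariants (Representation.linHom ρ ρ) N) x
      ⟨LinearMap.id, hidinv⟩ = ⟨LinearMap.id, hidinv⟩ := by
    apply Subtype.ext
    show (Representation.linHom ρ ρ) x LinearMap.id = LinearMap.id
    rw [Representation.linHom_apply]
    ext v
    simp only [LinearMap.comp_apply, LinearMap.id_apply]
    rw [← Module.End.mul_apply, ← map_mul]
    simp
  have hid : (Representation.toInvariants (Representation.linHom ρ ρ) N) x = LinearMap.id := by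
    ext1 w
    obtain ⟨c, rfl⟩ := hspan w
    rw [map_smul, hfix]
    rfl
  rw [Representation.character, hid]
  rw [LinearMap.trace_id, h]
  simp

theorem key {G : Type*} [Group G] [Fintype G] {V : Type*}
    [AddCommGroup V] [Module ℂ V] [FiniteDimensional ℂ V] [Nontrivial V]
    (ρ : Representation ℂ G V) (N : Subgroup G) [N.Normal] [Fintype N]
    (htot : ∑ g : G, ‖ρ.character g‖ ^ 2 = (Nat.card G : ℝ)) :
    (¬ Representation.IsIrreducible (ρ.comp N.subtype) →
      ∃ x : G, ∀ n : N, ρ.character ((n : G) * x) = 0) ∧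
    ((Nat.card N : ℝ)⁻¹ * ∑ n : N, ‖ρ.character ((n : G) * 1)‖ ^ 2 = 1 →
      ∀ x : G, ¬ ∀ n : N, ρ.character ((n : G) * x) = 0) := by
  classical
  set r : G → ℝ := fun x => (Nat.card N : ℝ)⁻¹ * ∑ n : N, ‖ρ.character ((n : G) * x)‖ ^ 2 with hr
  have hσr : ∀ x, (Representation.toInvariants (Representation.linHom ρ ρ) N).character x
      = (r x : ℂ) := by
    intro x
    rw [sigma_char]
  have hr0 : ∀ x, 0 ≤ r x := fun x => by positivity
  have hNpos : (0 : ℝ) < (Nat.card N : ℝ) := by exact_mod_cast Nat.card_pos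
  have hrzero : ∀ x, r x = 0 ↔ ∀ n : N, ρ.character ((n : G) * x) = 0 := by
    intro x
    constructor
    · intro h n
      have h1 : ∑ n : N, ‖ρ.character ((n : G) * x)‖ ^ 2 = 0 := by
        rcases mul_eq_zero.1 h with h | h
        · exact absurd (inv_eq_zero.1 h) hNpos.ne'
        · exact h
      have h2 := (Finset.sum_eq_zero_iff_of_nonneg (fun i _ => sq_nonneg _)).1 h1 n
        (Finset.mem_univ _)
      exact norm_eq_zero.1 (pow_eq_zero_iff two_ne_zero |>.1 h2)
    · intro h
      simp [hr, h]
  have hsum : ∑ x : G, r x = (Nat.card G : ℝ) := by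
    rw [← htot]
    exact sum_r N (fun g => ‖ρ.character g‖ ^ 2)
  have hr1 : r 1 = (Module.finrank ℂ
      (Representation.invariants ((Representation.linHom ρ ρ).comp N.subtype)) : ℝ) := by
    have := hσr 1
    rw [Representation.char_one] at this
    exact_mod_cast this.symm
  constructor
  · intro hnot
    by_contra hcon
    push Not at hcon
    have hrne : ∀ x, r x ≠ 0 := fun x h => by
      obtain ⟨n, hn⟩ := hcon x
      exact hn ((hrzero x).1 h n)
    have hprod : ∀ g : G, 1 ≤ ∏ k ∈ expSet (Nat.card G), r (g ^ k) := by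
      intro g
      have := prod_norm_char (Representation.toInvariants (Representation.linHom ρ ρ) N) g
        (by rw [hσr]; exact_mod_cast hrne g)
      simp only [hσr, Complex.norm_real, Real.norm_eq_abs, abs_of_nonneg (hr0 _)] at this
      exact this
    have hD := card_le_sum_of_prod (Finset.univ.erase (1 : G)) r hr0
      (by
        intro g hg k hk
        rw [Finset.mem_erase] at hg ⊢
        refine ⟨fun h1 => hg.1 (eq_one_of_pow_eq_one g k (mem_expSet.1 hk).2 h1),
          Finset.mem_univ _⟩)
      (fun g _ => hprod g)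
    have hsplit : ∑ g ∈ Finset.univ.erase (1 : G), r g = (Nat.card G : ℝ) - r 1 := by
      rw [← hsum, ← Finset.add_sum_erase Finset.univ r (Finset.mem_univ (1 : G))]
      ring
    have hcard : ((Finset.univ.erase (1 : G)).card : ℝ) = (Nat.card G : ℝ) - 1 := by
      rw [Finset.card_erase_of_mem (Finset.mem_univ _), Finset.card_univ,
        Nat.card_eq_fintype_card, Nat.cast_sub Fintype.card_pos]
      simp
    have hle : r 1 ≤ 1 := by linarith
    have hfin : Module.finrank ℂ
      (Representation.invariants ((Representation.linHom ρ ρ).comp N.subtype)) ≤ 1 := by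
      rw [hr1] at hle
      exact_mod_cast hle
    exact hnot (irreducible_of_finrank_le_one ρ N hfin)
  · intro hr1' x hx
    have hfin : Module.finrank ℂ
      (Representation.invariants ((Representation.linHom ρ ρ).comp N.subtype)) = 1 := by
      have : r 1 = 1 := hr1'
      rw [hr1] at this
      exact_mod_cast this
    have h4 := sigma_char_eq_one ρ N hfin x
    rw [hσr, (hrzero x).2 hx] at h4
    simp at h4

/-- Let N be a normal subgroup of the finite group G and χ an irreducible complex character of G. Then the restriction of χ to N is not irreducible if and only if χ vanishes on some whole coset Nx of N in G. -/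
theorem result {G : Type*} [Group G] [Finite G] (N : Subgroup G) [N.Normal] (χ : Cfsg.IrrCharacter G) : ¬ Cfsg.IsIrrCharacter ↥N (fun n : ↥N => (χ : G → ℂ) n) ↔ ∃ x : G, ∀ n : ↥N, (χ : G → ℂ) ((n : G) * x) = 0 := by
  classical
  cases nonempty_fintype G
  letI : Fintype N := Fintype.ofFinite N
  obtain ⟨d, ρ, hρ, hχ⟩ := χ.2
  haveI := hρ
  have hd : 0 < Module.finrank ℂ (Fin d → ℂ) := finrank_pos_of_irreducible ρ
  haveI : Nontrivial (Fin d → ℂ) := Module.finrank_pos_iff.1 hd
  have htot : ∑ g : G, ‖(χ : G → ℂ) g‖ ^ 2 = (Nat.card G : ℝ) := by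
    have h := classInner_irr χ χ
    rw [if_pos rfl, classInner] at h
    have h2 : ∀ g : G, (χ : G → ℂ) g * (starRingEnd ℂ) ((χ : G → ℂ) g) =
        ((‖(χ : G → ℂ) g‖ ^ 2 : ℝ) : ℂ) := by
      intro g
      rw [Complex.mul_conj, Complex.normSq_eq_norm_sq]
    rw [Finset.sum_congr rfl (fun g _ => h2 g), ← Complex.ofReal_sum] at h
    have hG : (Nat.card G : ℂ) ≠ 0 := Nat.cast_ne_zero.mpr Nat.card_pos.ne'
    have h3 : ((∑ g : G, ‖(χ : G → ℂ) g‖ ^ 2 : ℝ) : ℂ) = (Nat.card G : ℂ) := by
      field_simp at h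
      exact h
    exact_mod_cast h3
  have hkey := key ρ N (by rw [hχ]; exact htot)
  rw [hχ] at hkey
  constructor
  · intro hnot
    apply hkey.1
    intro hirrN
    exact hnot ⟨d, ρ.comp N.subtype, hirrN, by rw [← hχ]; rfl⟩
  · rintro ⟨x, hx⟩ hirr
    refine hkey.2 ?_ x hx
    have h1 := classInner_irr (G := N) ⟨_, hirr⟩ ⟨_, hirr⟩
    rw [if_pos rfl, classInner] at h1
    have h2 : ∀ n : N, (χ : G → ℂ) n * (starRingEnd ℂ) ((χ : G → ℂ) n) =
        ((‖(χ : G → ℂ) ((n : G) * 1)‖ ^ 2 : ℝ) : ℂ) := by
      intro n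
      rw [Complex.mul_conj, Complex.normSq_eq_norm_sq, mul_one]
    have h3 : (((Nat.card N : ℝ)⁻¹ * ∑ n : N, ‖(χ : G → ℂ) ((n : G) * 1)‖ ^ 2 : ℝ) : ℂ) = 1 := by
      rw [← h1]
      push_cast
      congr 1
      refine Finset.sum_congr rfl fun n _ => ?_
      rw [h2 n]
      push_cast
      rfl
    exact_mod_cast h3

end Cfsg.Agent.S4996
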