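import Cfsg.Statements.S5001
import Cfsg.Agent.Lib.Helper86.Blk

set_option autoImplicit false
open Cfsg

namespace Cfsg.Agent.S5001

/-- Let p be a prime, G a finite group and B a p-block of G (relative to a maximal ideal M of the algebraic integers containing p) with defect group D. Let Z be a central p-subgroup of G contained in D and λ a linear character of Z (a homomorphism to the nonzero complex numbers). Say an irreducible character χ of G lies over λ when χ(z) = χ(1)λ(z) for all z ∈ Z. If some irreducible character in B lying over λ has height zero, then λ extends to a linear character of D. -/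
theorem result {G : Type*} [Group G] [Finite G] (p : ℕ) [Fact p.Prime] (M : Ideal Cfsg.AlgInt) (hM : Cfsg.IsPModular p M) (B : Set (Cfsg.IrrCharacter G)) (hB : Cfsg.IsPBlock M B) (D : Subgroup G) (hD : Cfsg.IsDefectGroup p M B D) (Z : Subgroup G) (hZc : Z ≤ Subgroup.center G) (hZp : IsPGroup p ↥Z) (hZD : Z ≤ D) (lam : ↥Z →* ℂˣ) (χ : Cfsg.IrrCharacter G) (hχ : χ ∈ B) (hover : (∀ z : ↥Z, (χ : G → ℂ) z = (χ : G → ℂ) 1 * (lam z : ℂ))) (h0 : Cfsg.blockHeight p B (χ : G → ℂ) = 0) : (∃ μ : ↥D →* ℂˣ, ∀ z : ↥Z, μ ⟨(z : G), hZD z.2⟩ = lam z) := by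
  classical
  haveI := Fintype.ofFinite G
  obtain ⟨g, hg, P, rfl⟩ := hD
  haveI : Fintype (P : Subgroup (Subgroup.centralizer ({g} : Set G))) := Fintype.ofFinite _
  by_cases hex : ∃ η : IrrCharacter (P : Subgroup (Subgroup.centralizer ({g} : Set G))),
      η.1 1 = 1 ∧
      ∑ d : (P : Subgroup (Subgroup.centralizer ({g} : Set G))),
        (χ : G → ℂ) ((d : Subgroup.centralizer ({g} : Set G)) : G) *
          (starRingEnd ℂ) (η.1 d) ≠ 0
  · obtain ⟨η, hη1, hS⟩ := hex
    let e := Subgroup.equivMapOfInjective (P : Subgroup (Subgroup.centralizer ({g} : Set G)))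
      (Subgroup.centralizer ({g} : Set G)).subtype
      (Subgroup.subtype_injective (Subgroup.centralizer ({g} : Set G)))
    refine ⟨((Lib.Helper83.linHom η.2 hη1).toHomUnits).comp e.symm.toMonoidHom, ?_⟩
    intro z
    apply Units.ext
    rw [MonoidHom.comp_apply, MonoidHom.coe_toHomUnits]
    have hd0z : (((e.symm ⟨(z : G), hZD z.2⟩ :
        (P : Subgroup (Subgroup.centralizer ({g} : Set G)))) :
        Subgroup.centralizer ({g} : Set G)) : G) = z := by
      have h1 := congrArg Subtype.val (e.apply_symm_apply ⟨(z : G), hZD z.2⟩)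
      rw [Subgroup.coe_equivMapOfInjective_apply] at h1
      exact h1
    change η.1 (e.symm ⟨(z : G), hZD z.2⟩) = (lam z : ℂ)
    apply Lib.Helper86.linear_value_of_sum_ne_zero
      (fun d : (P : Subgroup (Subgroup.centralizer ({g} : Set G))) =>
        (χ : G → ℂ) ((d : Subgroup.centralizer ({g} : Set G)) : G)) η.1 η.2 hη1 hS
    intro d
    have hzc : (z : G) ∈ Subgroup.center G := hZc z.2
    have h := Lib.Helper86.irr_mul_central χ (z : G) hzc
      ((d : Subgroup.centralizer ({g} : Set G)) : G)
    rw [hover z] at h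
    have hne := Lib.Helper83.irr_one_ne_zero χ.2
    show (χ : G → ℂ) (((d * e.symm ⟨(z : G), hZD z.2⟩ :
        (P : Subgroup (Subgroup.centralizer ({g} : Set G)))) :
        Subgroup.centralizer ({g} : Set G)) : G) = _
    rw [Subgroup.coe_mul, Subgroup.coe_mul, hd0z]
    have h2 : (χ : G → ℂ) (((d : Subgroup.centralizer ({g} : Set G)) : G) * z) *
        (χ : G → ℂ) 1 =
        ((χ : G → ℂ) ((d : Subgroup.centralizer ({g} : Set G)) : G) * (lam z : ℂ)) *
          (χ : G → ℂ) 1 := by
      rw [h]
      ring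
    exact mul_right_cancel₀ hne h2
  · exfalso
    push Not at hex
    have hgC : g ∈ Subgroup.centralizer ({g} : Set G) := by
      rw [Subgroup.mem_centralizer_iff]
      intro h hh
      rw [Set.mem_singleton_iff.mp hh]
    have hcomm : ∀ x ∈ Subgroup.centralizer ({g} : Set G), g * x = x * g := by
      intro x hx
      rw [Subgroup.mem_centralizer_iff] at hx
      exact hx g rfl
    obtain ⟨α, hα, hχg⟩ := Lib.Helper86.char_value_dvd_of_no_linear p χ g
      (Subgroup.centralizer ({g} : Set G)) hgC hcomm
      (P : Subgroup (Subgroup.centralizer ({g} : Set G))) P.isPGroup' hex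
    exact Lib.Helper86.height_zero_not_dvd hM B hB g hg χ hχ h0 α hα hχg

end Cfsg.Agent.S5001
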