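import Cfsg.Statements.S5011
import Mathlib

set_option autoImplicit false
open Cfsg

namespace Cfsg.Agent.S5011

/-- Let G be a finite non-abelian simple group and ρ an irreducible complex representation of G on a space of dimension greater than one (irreducible in the sense that the only subspaces invariant under every ρ(x) are 0 and the whole space). Then for every non-identity element g of G, the centralizer of g does not act irreducibly: there is a non-zero proper subspace invariant under ρ(c) for every c commuting with g. -/
theorem result {G : Type*} [Group G] [Finite G] [IsSimpleGroup G]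
    (hG : ¬ IsMulCommutative G) {V : Type*} [AddCommGroup V] [Module ℂ V] [FiniteDimensional ℂ V]
    (ρ : Representation ℂ G V)
    (hirr : ∀ W : Submodule ℂ V, (∀ x : G, ∀ v ∈ W, ρ x v ∈ W) → W = ⊥ ∨ W = ⊤)
    (hdim : 1 < Module.finrank ℂ V) (g : G) (hg : g ≠ 1) :
    ∃ W : Submodule ℂ V, W ≠ ⊥ ∧ W ≠ ⊤ ∧ ∀ c ∈ Subgroup.centralizer ({g} : Set G), ∀ v ∈ W, ρ c v ∈ W := by
  have : Nontrivial V := Module.nontrivial_of_finrank_pos (R := ℂ) (by omega)
  obtain ⟨μ, hμ⟩ := Module.End.exists_eigenvalue (ρ g)
  refine ⟨Module.End.eigenspace (ρ g) μ, hμ, ?_, ?_⟩
  · intro htop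
    -- ρ g is the scalar μ
    have hscal : ∀ v : V, ρ g v = μ • v := by
      intro v
      have : v ∈ Module.End.eigenspace (ρ g) μ := by rw [htop]; trivial
      exact Module.End.mem_eigenspace_iff.mp this
    -- the kernel of ρ is trivial
    have hker : ρ.ker = ⊥ := by
      rcases (MonoidHom.normal_ker ρ).eq_bot_or_eq_top with h | h
      · exact h
      · exfalso
        have htriv : ∀ x : G, ρ x = 1 := by
          intro x
          have : x ∈ ρ.ker := by rw [h]; trivial
          exact MonoidHom.mem_ker.mp this
        obtain ⟨v, hv⟩ := exists_ne (0 : V)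
        have hspan := hirr (Submodule.span ℂ {v}) (by
          intro x w hw
          rw [htriv x]
          simpa using hw)
        rcases hspan with h0 | h1
        · have : v ∈ Submodule.span ℂ {v} := Submodule.mem_span_singleton_self v
          rw [h0] at this
          exact hv (by simpa using this)
        · have h2 : Module.finrank ℂ (Submodule.span ℂ {v}) = 1 := finrank_span_singleton hv
          rw [h1, finrank_top] at h2
          omega
    have hinj : Function.Injective ρ := (MonoidHom.ker_eq_bot_iff ρ).mp hker
    have hcen : g ∈ Subgroup.center G := by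
      rw [Subgroup.mem_center_iff]
      intro x
      apply hinj
      rw [map_mul, map_mul]
      ext v
      simp only [Module.End.mul_apply]
      rw [hscal, hscal, map_smul]
    rcases (inferInstance : (Subgroup.center G).Normal).eq_bot_or_eq_top with h | h
    · rw [h] at hcen
      exact hg (Subgroup.mem_bot.mp hcen)
    · apply hG
      refine ⟨⟨fun a b => ?_⟩⟩
      have : a ∈ Subgroup.center G := by rw [h]; trivial
      exact (Subgroup.mem_center_iff.mp this b).symm
  · intro c hc v hv
    rw [Subgroup.mem_centralizer_singleton_iff] at hc
    rw [Module.End.mem_eigenspace_iff] at hv ⊢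
    have h1 : ρ g (ρ c v) = ρ c (ρ g v) := by
      rw [← Module.End.mul_apply, ← Module.End.mul_apply, ← map_mul, ← map_mul, hc]
    rw [h1, hv, map_smul]

end Cfsg.Agent.S5011
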