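import Cfsg.Statements.S5075
import Cfsg.Agent.Lib.Helper18.McFin

set_option autoImplicit false
open Cfsg

namespace Cfsg.Agent.S5075

/-- Let p be an odd prime, V a finite-dimensional vector space over the field with p elements, and H a group of linear automorphisms of V generated by transvections (elements of order p fixing a hyperplane pointwise) and having no nontrivial normal p-subgroup. Then for some n ≥ 1 there are a decomposition V = V₀ ⊕ V₁ ⊕ ⋯ ⊕ Vₙ into H-invariant subspaces and a decomposition of H as the internal direct product of normal subgroups H₁, …, Hₙ such that Hⱼ acts trivially on every Vᵢ with i ≠ j, and Hⱼ induces on Vⱼ exactly the special linear group of Vⱼ or exactly the isometry group of a non-degenerate alternating form on Vⱼ. -/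
theorem result {p : ℕ} [Fact p.Prime] (hp : Odd p) {V : Type*} [AddCommGroup V] [Module (ZMod p) V] [Finite V]
    (H : Subgroup (V ≃ₗ[ZMod p] V)) (T : Set (V ≃ₗ[ZMod p] V)) (hHT : H = Subgroup.closure T)
    (hT : ∀ t ∈ T, orderOf t = p ∧
      Module.finrank (ZMod p) ↥(LinearMap.ker ((t : V →ₗ[ZMod p] V) - LinearMap.id)) + 1 =
        Module.finrank (ZMod p) V)
    (hOp : Cfsg.pCore p ↥H = ⊥) :
    ∃ (n : ℕ) (W : Fin (n + 1) → Submodule (ZMod p) V) (K : Fin n → Subgroup (V ≃ₗ[ZMod p] V)),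
      1 ≤ n ∧ DirectSum.IsInternal W ∧
      (∀ h ∈ H, ∀ i, (W i).map (h : V →ₗ[ZMod p] V) = W i) ∧
      (∀ j, K j ≤ H ∧ ((K j).subgroupOf H).Normal) ∧ ⨆ j, K j = H ∧
      (∀ j, K j ⊓ (⨆ j' ∈ {j' : Fin n | j' ≠ j}, K j') = ⊥) ∧
      (∀ j j', j ≠ j' → ∀ a ∈ K j, ∀ b ∈ K j', a * b = b * a) ∧
      (∀ j, ∀ h ∈ K j, ∀ i : Fin (n + 1), i ≠ j.succ → ∀ v ∈ W i, h v = v) ∧
      (∀ j, ∃ ρ : ↥(K j) →* (↥(W j.succ) ≃ₗ[ZMod p] ↥(W j.succ)),
        (∀ (h : ↥(K j)) (v : ↥(W j.succ)), ((ρ h v : ↥(W j.succ)) : V) = (h : V ≃ₗ[ZMod p] V) (v : V)) ∧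
        ((ρ.range : Set (↥(W j.succ) ≃ₗ[ZMod p] ↥(W j.succ))) =
            {f : ↥(W j.succ) ≃ₗ[ZMod p] ↥(W j.succ) | LinearMap.det (f : ↥(W j.succ) →ₗ[ZMod p] ↥(W j.succ)) = 1} ∨
          ∃ B : LinearMap.BilinForm (ZMod p) ↥(W j.succ), B.IsAlt ∧ B.Nondegenerate ∧
            (ρ.range : Set (↥(W j.succ) ≃ₗ[ZMod p] ↥(W j.succ))) = {f : ↥(W j.succ) ≃ₗ[ZMod p] ↥(W j.succ) | ∀ x y, B (f x) (f y) = B x y})) := by
  classical
  have hyp : Cfsg.Agent.Lib.Helper18.Mc.Hyp p H :=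
    Cfsg.Agent.Lib.Helper18.Mc.hyp_of hp H T hHT hT (by
      intro N hN hpN
      have h1 : N ≤ Cfsg.pCore p ↥H := le_sSup ⟨hN, hpN⟩
      rw [hOp] at h1
      exact le_bot_iff.mp h1)
  by_cases hne : Nonempty (Cfsg.Agent.Lib.Helper18.Mc.Cls H)
  · have : Finite (Module.Dual (ZMod p) V) :=
      Finite.of_injective (fun f : Module.Dual (ZMod p) V => (f : V → ZMod p))
        DFunLike.coe_injective
    have : Finite (Cfsg.Agent.Lib.Helper18.Mc.Cls H) := inferInstance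
    obtain ⟨W, K, h⟩ := Cfsg.Agent.Lib.Helper18.Mc.mc_main hyp
      (Nat.card (Cfsg.Agent.Lib.Helper18.Mc.Cls H))
      (Finite.equivFin (Cfsg.Agent.Lib.Helper18.Mc.Cls H)).symm
    exact ⟨Nat.card (Cfsg.Agent.Lib.Helper18.Mc.Cls H), W, K, Nat.card_pos, h⟩
  · have hH : H = ⊥ := by
      rw [eq_bot_iff]
      intro h hh
      revert h
      apply hyp.ind (fun h => h ∈ (⊥ : Subgroup (V ≃ₗ[ZMod p] V)))
      · intro g u φ hl _
        exact absurd ⟨Quotient.mk (Cfsg.Agent.Lib.Helper18.Mc.adjSetoid H) ⟨(u, φ), hl⟩⟩ hne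
      · exact Subgroup.one_mem _
      · intro x y hx hy
        exact Subgroup.mul_mem _ hx hy
    obtain ⟨W, K, h⟩ := Cfsg.Agent.Lib.Helper18.Mc.mc_trivial H hH
    exact ⟨1, W, K, le_refl 1, h⟩

end Cfsg.Agent.S5075
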