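import Cfsg.Statements.S5114
import Cfsg.Agent.Lib.Helper88.FusSat
import Cfsg.Agent.Lib.Helper90.Lift
import Cfsg.Agent.Lib.Helper91.Centric

set_option autoImplicit false
open Cfsg

namespace Cfsg.Agent.S5114

open Cfsg.FusionSystem Cfsg.Agent.Lib.Helper90 Cfsg.Agent.Lib.Helper91

section grp

variable {G : Type*} [Group G]

/-- `O^{p'}(H)` as a subgroup of the ambient group. -/
def opP (p : ℕ) (H : Subgroup G) : Subgroup G :=
  Subgroup.closure {a : G | a ∈ H ∧ ∃ k : ℕ, orderOf a = p ^ k}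

theorem map_closure_eq (p : ℕ) (H : Subgroup G) :
    (Subgroup.closure {α : ↥H | ∃ k : ℕ, orderOf α = p ^ k}).map H.subtype = opP p H := by
  unfold opP
  rw [MonoidHom.map_closure]
  congr 1
  ext a
  constructor
  · rintro ⟨α, ⟨k, hk⟩, rfl⟩
    exact ⟨α.2, k, by rw [← hk]; exact Subgroup.orderOf_coe α⟩
  · rintro ⟨ha, k, hk⟩
    exact ⟨⟨a, ha⟩, ⟨k, by rw [← hk]; exact (Subgroup.orderOf_coe (⟨a, ha⟩ : H)).symm⟩, rfl⟩

theorem closure_ppow_normal (p : ℕ) (H : Type*) [Group H] :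
    (Subgroup.closure {α : H | ∃ k : ℕ, orderOf α = p ^ k}).Normal := by
  constructor
  intro n hn g
  have h1 : (Subgroup.closure {α : H | ∃ k : ℕ, orderOf α = p ^ k}).map
      (MulAut.conj g).toMonoidHom ≤ Subgroup.closure {α : H | ∃ k : ℕ, orderOf α = p ^ k} := by
    rw [MonoidHom.map_closure]
    apply Subgroup.closure_mono
    rintro _ ⟨a, ⟨k, hk⟩, rfl⟩
    exact ⟨k, by rw [← hk]; exact (MulAut.conj g).orderOf_eq a⟩
  exact h1 ⟨n, hn, rfl⟩

theorem opP_map {G' : Type*} [Group G'] (p : ℕ) {H : Subgroup G} {H' : Subgroup G'}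
    (e : G ≃* G') (he : ∀ a ∈ H, e a ∈ H') {a : G} (ha : a ∈ opP p H) : e a ∈ opP p H' := by
  have h1 : (opP p H).map e.toMonoidHom ≤ opP p H' := by
    unfold opP
    rw [MonoidHom.map_closure]
    apply Subgroup.closure_mono
    rintro _ ⟨a, ⟨ha, k, hk⟩, rfl⟩
    exact ⟨he a ha, k, by rw [← hk]; exact e.orderOf_eq a⟩
  exact h1 ⟨a, ha, rfl⟩

end grp

variable {Ω : Type*} [Group Ω] {S : Subgroup Ω} {F E : FusionSystem S}

theorem aF_mul (β₁ β₂ : MulAut S) {y : Ω} (hy : y ∈ S) :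
    autFun S (β₁ * β₂) y = autFun S β₁ (autFun S β₂ y) := by
  rw [autFun_apply' _ hy, autFun_apply' _ hy, autFun_apply]
  rfl

theorem aF_one {y : Ω} (hy : y ∈ S) : autFun S (1 : MulAut S) y = y := by
  rw [autFun_apply' _ hy]
  rfl

theorem aF_conj (β : MulAut S) {a x : Ω} (ha : a ∈ S) (hx : x ∈ S) :
    autFun S β (a * x * a⁻¹) = autFun S β a * autFun S β x * (autFun S β a)⁻¹ := by
  rw [autFun_apply' _ ha, autFun_apply' _ hx,
    autFun_apply' _ (S.mul_mem (S.mul_mem ha hx) (S.inv_mem ha))]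
  have e : (⟨a * x * a⁻¹, S.mul_mem (S.mul_mem ha hx) (S.inv_mem ha)⟩ : S) =
      ⟨a, ha⟩ * ⟨x, hx⟩ * ⟨a, ha⟩⁻¹ := rfl
  rw [e, map_mul, map_mul, map_inv]
  rfl

theorem aF_mor {β : MulAut S} (hβ : β ∈ F.autGroup S) : Mor F S (autFun S β) :=
  (mem_autGroup_iff F le_rfl β).mp hβ

/-- `f₀` is a map of `E` all of whose `Aut_F(S)`-conjugates are maps of `E`. -/
def Inv (F E : FusionSystem S) (P : Subgroup Ω) (f₀ : Ω → Ω) : Prop :=
  Mor E P f₀ ∧ ∀ β ∈ F.autGroup S, Mor E (img P (autFun S β)) (autFun S β ∘ f₀ ∘ autFun S β⁻¹)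

theorem inv_id {P : Subgroup Ω} (hPS : P ≤ S) : Inv F E P id := by
  refine ⟨mor_id E hPS, fun β hβ => ?_⟩
  have hβm : Mor F P (autFun S β) := (aF_mor hβ).restrict hPS
  refine (mor_id E hβm.img_le).congr (fun y hy => ?_)
  show id y = autFun S β (id (autFun S β⁻¹ y))
  exact (autFun_inv_apply β (hβm.img_le hy)).symm

theorem inv_res {P P₀ : Subgroup Ω} {f₀ : Ω → Ω} (h : Inv F E P f₀) (h0 : P₀ ≤ P) :
    Inv F E P₀ f₀ := by
  refine ⟨h.1.restrict h0, fun β hβ => (h.2 β hβ).restrict ?_⟩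
  have hβm : Mor F P (autFun S β) := (aF_mor hβ).restrict h.1.le
  intro y hy
  obtain ⟨x, hx, rfl⟩ := (hβm.restrict h0).mem_img.mp hy
  exact hβm.mem_img_of_mem (h0 hx)

theorem inv_comp {P Q : Subgroup Ω} {f₀ g₀ : Ω → Ω} (hf : Inv F E P f₀) (hg : Inv F E Q g₀)
    (hfg : ∀ x ∈ P, f₀ x ∈ Q) : Inv F E P (g₀ ∘ f₀) := by
  refine ⟨hf.1.comp hg.1 hfg, fun β hβ => ?_⟩
  have hβP : Mor F P (autFun S β) := (aF_mor hβ).restrict hf.1.le
  have hβQ : Mor F Q (autFun S β) := (aF_mor hβ).restrict hg.1.le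
  refine ((hf.2 β hβ).comp (hg.2 β hβ) ?_).congr ?_
  · intro y hy
    obtain ⟨x, hx, rfl⟩ := hβP.mem_img.mp hy
    show autFun S β (f₀ (autFun S β⁻¹ (autFun S β x))) ∈ _
    rw [autFun_inv_apply' β (hf.1.le hx)]
    exact hβQ.mem_img_of_mem (hfg x hx)
  · intro y hy
    obtain ⟨x, hx, rfl⟩ := hβP.mem_img.mp hy
    show autFun S β (g₀ (autFun S β⁻¹ (autFun S β (f₀ (autFun S β⁻¹ (autFun S β x)))))) =
      autFun S β (g₀ (f₀ (autFun S β⁻¹ (autFun S β x))))
    rw [autFun_inv_apply' β (hf.1.le hx), autFun_inv_apply' β (hf.1.mem hx)]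

theorem inv_inv' {P : Subgroup Ω} {f₀ : Ω → Ω} (hf : Inv F E P f₀) :
    Inv F E (img P f₀) (invFn P f₀) := by
  refine ⟨hf.1.inv, fun β hβ => ?_⟩
  have hβP : Mor F P (autFun S β) := (aF_mor hβ).restrict hf.1.le
  have hβQ : Mor F (img P f₀) (autFun S β) := (aF_mor hβ).restrict hf.1.img_le
  have hM := hf.2 β hβ
  have hval : ∀ x ∈ P, (autFun S β ∘ f₀ ∘ autFun S β⁻¹) (autFun S β x) = autFun S β (f₀ x) := by
    intro x hx
    show autFun S β (f₀ (autFun S β⁻¹ (autFun S β x))) = _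
    rw [autFun_inv_apply' β (hf.1.le hx)]
  have himg : img (img P (autFun S β)) (autFun S β ∘ f₀ ∘ autFun S β⁻¹) =
      img (img P f₀) (autFun S β) := by
    ext y
    rw [hM.mem_img, hβQ.mem_img]
    constructor
    · rintro ⟨z, hz, rfl⟩
      obtain ⟨x, hx, rfl⟩ := hβP.mem_img.mp hz
      exact ⟨f₀ x, hf.1.mem_img_of_mem hx, (hval x hx).symm⟩
    · rintro ⟨z, hz, rfl⟩
      obtain ⟨x, hx, rfl⟩ := hf.1.mem_img.mp hz
      exact ⟨autFun S β x, hβP.mem_img_of_mem hx, hval x hx⟩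
  have hMi := hM.inv
  rw [himg] at hMi
  refine hMi.congr (fun y hy => ?_)
  obtain ⟨z, hz, rfl⟩ := hβQ.mem_img.mp hy
  obtain ⟨x, hx, rfl⟩ := hf.1.mem_img.mp hz
  show _ = autFun S β (invFn P f₀ (autFun S β⁻¹ (autFun S β (f₀ x))))
  rw [autFun_inv_apply' β (hf.1.mem hx), hf.1.invFn_apply hx, ← hval x hx,
    hM.invFn_apply (hβP.mem_img_of_mem hx)]

theorem inv_conj {P : Subgroup Ω} {f₀ : Ω → Ω} (hf : Inv F E P f₀) {α : MulAut S}
    (hα : α ∈ F.autGroup S) :
    Inv F E (img P (autFun S α)) (autFun S α ∘ f₀ ∘ autFun S α⁻¹) := by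
  refine ⟨hf.2 α hα, fun β hβ => ?_⟩
  have hαP : Mor F P (autFun S α) := (aF_mor hα).restrict hf.1.le
  have hβQ : Mor F (img P (autFun S α)) (autFun S β) := (aF_mor hβ).restrict hαP.img_le
  have hβα : β * α ∈ F.autGroup S := (F.autGroup S).mul_mem hβ hα
  have hM := hf.2 (β * α) hβα
  have himg : img P (autFun S (β * α)) = img (img P (autFun S α)) (autFun S β) := by
    rw [← Mor.img_comp hαP (aF_mor hβ) (fun x hx => (aF_mor hα).mem (hf.1.le hx))]
    exact img_congr (fun x hx => aF_mul β α (hf.1.le hx))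
  rw [himg] at hM
  refine hM.congr (fun y hy => ?_)
  obtain ⟨z, hz, rfl⟩ := hβQ.mem_img.mp hy
  obtain ⟨x, hx, rfl⟩ := hαP.mem_img.mp hz
  have hxS : x ∈ S := hf.1.le hx
  show autFun S (β * α) (f₀ (autFun S (β * α)⁻¹ (autFun S β (autFun S α x)))) =
    autFun S β (autFun S α (f₀ (autFun S α⁻¹ (autFun S β⁻¹ (autFun S β (autFun S α x))))))
  rw [autFun_inv_apply' β (autFun_mem α hxS), autFun_inv_apply' α hxS, ← aF_mul β α hxS,
    autFun_inv_apply' (β * α) hxS, aF_mul β α (hf.1.mem hx)]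

theorem inv_opP [Finite S] {p : ℕ}
    (h : ∀ P : Subgroup Ω, F.IsCentric P → opP p (F.autGroup P) ≤ E.autGroup P)
    {P : Subgroup Ω} (hP : F.IsCentric P) {κ : MulAut P} (hκ : κ ∈ opP p (F.autGroup P)) :
    Inv F E P (autFun P κ) := by
  have hPS : P ≤ S := hP.1
  refine ⟨(mem_autGroup_iff E hPS κ).mp (h P hP hκ), fun β hβ => ?_⟩
  have hβP : Mor F P (autFun S β) := (aF_mor hβ).restrict hPS
  have hP' : F.IsCentric (img P (autFun S β)) := centric_img hP hβP
  obtain ⟨e, he⟩ := hβP.exists_equiv rfl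
  have hκ' : MulAut.congr e κ ∈ opP p (F.autGroup (img P (autFun S β))) :=
    opP_map p (MulAut.congr e) (fun a ha => congr_mem_autGroup hβP rfl e he a ha) hκ
  have hM : Mor E (img P (autFun S β)) (autFun (img P (autFun S β)) (MulAut.congr e κ)) :=
    (mem_autGroup_iff E hP'.1 _).mp (h _ hP' hκ')
  refine hM.congr (fun y hy => ?_)
  obtain ⟨x, hx, rfl⟩ := hβP.mem_img.mp hy
  show _ = autFun S β (autFun P κ (autFun S β⁻¹ (autFun S β x)))
  rw [autFun_inv_apply' β (hPS hx), autFun_apply' _ hy, congr_apply_coe, he]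
  have e1 : e.symm ⟨autFun S β x, hy⟩ = ⟨x, hx⟩ := by
    rw [MulEquiv.symm_apply_eq]
    exact Subtype.ext (he ⟨x, hx⟩).symm
  rw [e1, autFun_apply' κ hx]

/-- A map of `F` is good if it is an element of `Aut_F(S)` composed with an invariant map of `E`. -/
def Good (F E : FusionSystem S) (P : Subgroup Ω) (f : Ω → Ω) : Prop :=
  ∃ α ∈ F.autGroup S, ∃ f₀, Inv F E P f₀ ∧ ∀ x ∈ P, f x = autFun S α (f₀ x)

theorem good_all [Finite S] {p : ℕ} [Fact p.Prime] (hS : IsPGroup p S) (hF : F.IsSaturated p)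
    (h : ∀ P : Subgroup Ω, F.IsCentric P → opP p (F.autGroup P) ≤ E.autGroup P) :
    ∀ (P : Subgroup Ω) (f : Ω → Ω), Mor F P f → Good F E P f := by
  have h_congr : ∀ (P : Subgroup Ω) (f g : Ω → Ω), Good F E P f → (∀ x ∈ P, f x = g x) →
      Good F E P g := by
    rintro P f g ⟨α, hα, f₀, hf₀, hff⟩ hfg
    exact ⟨α, hα, f₀, hf₀, fun x hx => by rw [← hfg x hx]; exact hff x hx⟩
  have h_res : ∀ (P P₀ : Subgroup Ω) (f : Ω → Ω), Mor F P f → Good F E P f → P₀ ≤ P →
      Good F E P₀ f := by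
    rintro P P₀ f - ⟨α, hα, f₀, hf₀, hff⟩ h0
    exact ⟨α, hα, f₀, inv_res hf₀ h0, fun x hx => hff x (h0 hx)⟩
  have h_comp : ∀ (P Q : Subgroup Ω) (f g : Ω → Ω), Mor F P f → Mor F Q g → (∀ x ∈ P, f x ∈ Q) →
      Good F E P f → Good F E Q g → Good F E P (g ∘ f) := by
    rintro P Q f g hf hg hfg ⟨α₁, hα₁, f₀, hf₀, hff⟩ ⟨α₂, hα₂, g₀, hg₀, hgg⟩
    have hα₁inv : α₁⁻¹ ∈ F.autGroup S := (F.autGroup S).inv_mem hα₁
    have hαQ : Mor F Q (autFun S α₁⁻¹) := (aF_mor hα₁inv).restrict hg.le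
    have hg₁ := inv_conj hg₀ hα₁inv
    rw [inv_inv] at hg₁
    have hf₀x : ∀ x ∈ P, f₀ x = autFun S α₁⁻¹ (f x) := by
      intro x hx
      rw [hff x hx, autFun_inv_apply' α₁ (hf₀.1.mem hx)]
    have hmem : ∀ x ∈ P, f₀ x ∈ img Q (autFun S α₁⁻¹) := by
      intro x hx
      rw [hf₀x x hx]
      exact hαQ.mem_img_of_mem (hfg x hx)
    refine ⟨α₂ * α₁, (F.autGroup S).mul_mem hα₂ hα₁, _, inv_comp hf₀ hg₁ hmem, fun x hx => ?_⟩
    show g (f x) = autFun S (α₂ * α₁) (autFun S α₁⁻¹ (g₀ (autFun S α₁ (f₀ x))))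
    rw [← hff x hx, aF_mul α₂ α₁ (autFun_mem _ (hg₀.1.mem (hfg x hx))),
      autFun_inv_apply α₁ (hg₀.1.mem (hfg x hx)), hgg _ (hfg x hx)]
  have h_inv : ∀ (P : Subgroup Ω) (f : Ω → Ω), Mor F P f → Good F E P f →
      Good F E (img P f) (invFn P f) := by
    rintro P f hf ⟨α, hα, f₀, hf₀, hff⟩
    have hαinv : α⁻¹ ∈ F.autGroup S := (F.autGroup S).inv_mem hα
    have hαQ : Mor F (img P f₀) (autFun S α) := (aF_mor hα).restrict hf₀.1.img_le
    have h1 := inv_conj (inv_inv' hf₀) hα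
    have himg : img (img P f₀) (autFun S α) = img P f := by
      ext y
      rw [hαQ.mem_img, hf.mem_img]
      constructor
      · rintro ⟨z, hz, rfl⟩
        obtain ⟨x, hx, rfl⟩ := hf₀.1.mem_img.mp hz
        exact ⟨x, hx, hff x hx⟩
      · rintro ⟨x, hx, rfl⟩
        exact ⟨f₀ x, hf₀.1.mem_img_of_mem hx, (hff x hx).symm⟩
    rw [himg] at h1
    refine ⟨α⁻¹, hαinv, _, h1, fun y hy => ?_⟩
    obtain ⟨x, hx, rfl⟩ := hf.mem_img.mp hy
    show invFn P f (f x) = autFun S α⁻¹ (autFun S α (invFn P f₀ (autFun S α⁻¹ (f x))))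
    rw [hf.invFn_apply hx, hff x hx, autFun_inv_apply' α (hf₀.1.mem hx), hf₀.1.invFn_apply hx,
      autFun_inv_apply' α (hf.le hx)]
  refine alperin_induction hS hF (Good F E) h_congr h_res h_comp h_inv ?_
  intro P hfa hrec prem f hf hfP
  have hP : P ≤ S := hf.le
  have : Finite P := finite_of_le hP
  rcases eq_or_lt_of_le hP with heq | hlt
  · have hfS : Mor F S f := heq ▸ hf
    obtain ⟨α, hα, hαf⟩ := exists_aut_of_mor hfS (fun x hx => hfS.mem hx)
    refine ⟨α, hα, id, inv_id hP, fun x hx => ?_⟩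
    rw [← hαf ⟨x, hP hx⟩, id, autFun_apply' α (hP hx)]
  · by_cases hC : centralizerIn S P ≤ P
    · have hcent : F.IsCentric P := centric_of_rec hrec hC
      obtain ⟨α, hα, hαf⟩ := exists_aut_of_mor hf hfP
      obtain ⟨-, R, hR⟩ := id hfa
      let K : Subgroup (F.autGroup P) :=
        Subgroup.closure {α : ↥(F.autGroup P) | ∃ k : ℕ, orderOf α = p ^ k}
      have hKn : K.Normal := closure_ppow_normal p _
      obtain ⟨ν, κ, hνκ, hκ, hν⟩ := frattini_decomp R K ⟨α, hα⟩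
      have hκ' : (κ : MulAut P) ∈ opP p (F.autGroup P) := by
        rw [← map_closure_eq]
        exact ⟨κ, hκ, rfl⟩
      have hκm : Mor F P (autFun P κ) := (mem_autGroup_iff F hP κ).mp κ.2
      have hνm : Mor F P (autFun P ν) := (mem_autGroup_iff F hP ν).mp ν.2
      have gκ : Good F E P (autFun P κ) := by
        refine ⟨1, (F.autGroup S).one_mem, _, inv_opP h hcent hκ', fun x hx => ?_⟩
        rw [aF_one (hP (autFun_mem _ hx))]
      have gν : Good F E P (autFun P ν) := by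
        obtain ⟨-, a, ha, haP⟩ := SetLike.lt_iff_le_and_exists.mp (lt_normalizerIn hS hlt)
        obtain ⟨β, hβF, hβ⟩ := exists_aut_of_mor (mor_conj F hP ha.1)
          (fun y hy => conj_mem_of_mem_normalizer ha.2 hy)
        have hβS : β ∈ autInducedBy S P := (mem_autInducedBy_iff S P β).mpr ⟨a, ha.1, hβ⟩
        have hβR : (⟨β, hβF⟩ : F.autGroup P) ∈ (R : Subgroup (F.autGroup P)) := by
          rw [hR]
          exact Subgroup.mem_subgroupOf.mpr hβS
        have hβK : (⟨β, hβF⟩ : F.autGroup P) ∈ K := by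
          apply Subgroup.subset_closure
          obtain ⟨k, hk⟩ := (IsPGroup.iff_orderOf.mp R.isPGroup')
            (⟨⟨β, hβF⟩, hβR⟩ : (R : Subgroup (F.autGroup P)))
          exact ⟨k, by
            rw [← hk]
            exact Subgroup.orderOf_coe (⟨⟨β, hβF⟩, hβR⟩ : (R : Subgroup (F.autGroup P)))⟩
        have h1 := (hν _ ⟨hβR, hβK⟩).1
        rw [hR] at h1
        have h2 : (ν : MulAut P) * β * (ν : MulAut P)⁻¹ ∈ autInducedBy S P :=
          Subgroup.mem_subgroupOf.mp h1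
        have haE : a ∈ extFn S P (autFun P ν) := by
          refine Cfsg.Agent.Lib.Helper88.mem_extFn_of_aut hP ν.2 ha.1 ha.2 (fun γ hγ => ?_)
          have : γ = β := by
            ext x
            rw [hγ, hβ]
          rw [this]
          exact h2
        exact good_of_extFn (Good F E) h_congr h_res hrec hνm (fun x hx => autFun_mem _ hx)
          prem haE haP
      have hcomp := h_comp P P _ _ hκm hνm (fun x hx => autFun_mem _ hx) gκ gν
      refine h_congr _ _ _ hcomp (fun x hx => ?_)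
      show autFun P ν (autFun P κ x) = f x
      rw [← hαf ⟨x, hx⟩, autFun_apply' _ hx, autFun_apply]
      have h5 : α = (ν : MulAut P) * (κ : MulAut P) := congrArg Subtype.val hνκ
      rw [h5]
      rfl
    · obtain ⟨a, ha, haP⟩ := SetLike.not_le_iff_exists.mp hC
      exact good_of_extFn (Good F E) h_congr h_res hrec hf hfP prem
        (hf.centralizerIn_le_extFn ha) haP

/-- Let F be a saturated fusion system over a finite p-group S and E a fusion system over S contained in F. If Aut_E(P) contains the subgroup of Aut_F(P) generated by its elements of p-power order for every subgroup P that is centric in F, then the same holds for every subgroup of S (E has index prime to p in F), every map of F with source a subgroup P of S is an element of Aut_F(S) composed with a map of E, and a subgroup is centric in E exactly when it is centric in F. -/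
theorem result {Ω : Type*} [Group Ω] {S : Subgroup Ω} [Finite S] (p : ℕ) [Fact p.Prime] (hS : IsPGroup p S) (F : Cfsg.FusionSystem S) (hF : F.IsSaturated p) (E : Cfsg.FusionSystem S) (hEF : E.IsSubsystemOf F) (h : ∀ P : Subgroup Ω, F.IsCentric P → (Subgroup.closure {α : ↥(F.autGroup P) | ∃ k : ℕ, orderOf α = p ^ k}).map (F.autGroup P).subtype ≤ E.autGroup P) : E.HasPrimeToPIndexIn F p ∧ (∀ (P : Subgroup Ω) (φ : P →* Ω), φ ∈ F.Hom P → ∃ α ∈ F.autGroup S, ∃ φ₀ ∈ E.Hom P, ∀ (x : P) (hx : φ₀ x ∈ S), φ x = ((α ⟨φ₀ x, hx⟩ : S) : Ω)) ∧ ∀ P : Subgroup Ω, E.IsCentric P ↔ F.IsCentric P := by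
  have h' : ∀ P : Subgroup Ω, F.IsCentric P → opP p (F.autGroup P) ≤ E.autGroup P := by
    intro P hP
    rw [← map_closure_eq]
    exact h P hP
  have hgood := good_all hS hF h'
  refine ⟨⟨hEF, ?_⟩, ?_, ?_⟩
  · -- (1)
    intro P hP
    rw [map_closure_eq]
    unfold opP
    rw [Subgroup.closure_le]
    rintro α₀ ⟨hα₀, k, hk⟩
    show α₀ ∈ E.autGroup P
    have : Finite P := finite_of_le hP
    obtain ⟨Q, hconj, hfa, hrec⟩ := hF P hP
    obtain ⟨c, hc, hcimg⟩ := isConj_iff.mp hconj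
    obtain ⟨e, he⟩ := hc.exists_equiv hcimg
    have hα₁ : MulAut.congr e α₀ ∈ F.autGroup Q := congr_mem_autGroup hc hcimg e he α₀ hα₀
    have hA : IsPGroup p (Subgroup.zpowers (MulAut.congr e α₀)) := by
      apply IsPGroup.of_card (n := k)
      rw [Nat.card_zpowers, (MulAut.congr e).orderOf_eq, hk]
    obtain ⟨γ, hγ, hγA⟩ := exists_conj_le_autInducedBy hfa _ hA
      (by rw [Subgroup.zpowers_le]; exact hα₁)
    obtain ⟨s, hs, hsγ⟩ := (mem_autInducedBy_iff S Q _).mp (hγA _ (Subgroup.mem_zpowers _))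
    have hγm : Mor F Q (autFun Q γ) := (mem_autGroup_iff F hfa.1 γ).mp hγ
    have hd : Mor F P (autFun Q γ ∘ c) :=
      hc.comp hγm (fun x hx => hcimg ▸ hc.mem_img_of_mem hx)
    obtain ⟨β, hβ, d₀, hd₀, hdd⟩ := hgood P _ hd
    have key : ∀ x ∈ P, d₀ (autFun P α₀ x) =
        autFun S β⁻¹ s * d₀ x * (autFun S β⁻¹ s)⁻¹ := by
      intro x hx
      have hαx : autFun P α₀ x ∈ P := autFun_mem α₀ hx
      have h1 : autFun S β (d₀ (autFun P α₀ x)) = s * autFun S β (d₀ x) * s⁻¹ := by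
        rw [← hdd _ hαx, ← hdd x hx]
        show autFun Q γ (c (autFun P α₀ x)) = s * autFun Q γ (c x) * s⁻¹
        have hcx : c x ∈ Q := hcimg ▸ hc.mem_img_of_mem hx
        have h2 := hsγ (γ ⟨c x, hcx⟩)
        rw [autFun_apply' γ hcx, ← h2]
        simp only [MulAut.mul_apply, MulAut.inv_apply_self]
        rw [congr_apply_coe]
        have e1 : e.symm ⟨c x, hcx⟩ = ⟨x, hx⟩ := by
          rw [MulEquiv.symm_apply_eq]
          exact Subtype.ext (he ⟨x, hx⟩).symm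
        rw [e1]
        have e2 : c (autFun P α₀ x) = ((e (α₀ ⟨x, hx⟩) : Q) : Ω) := by
          rw [he, autFun_apply' α₀ hx]
        rw [e2, autFun_apply]
      have h3 := congrArg (autFun S β⁻¹) h1
      rw [autFun_inv_apply' β (hd₀.1.mem hαx),
        aF_conj β⁻¹ hs ((aF_mor hβ).mem (hd₀.1.mem hx)),
        autFun_inv_apply' β (hd₀.1.mem hx)] at h3
      exact h3
    have hs' : autFun S β⁻¹ s ∈ S := autFun_mem _ hs
    have hM : Mor E P (invFn P d₀ ∘ (fun y => autFun S β⁻¹ s * y * (autFun S β⁻¹ s)⁻¹) ∘ d₀) := by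
      refine (hd₀.1.comp (mor_conj E hd₀.1.img_le hs')
        (fun x hx => hd₀.1.mem_img_of_mem hx)).comp hd₀.1.inv ?_
      intro x hx
      show autFun S β⁻¹ s * d₀ x * (autFun S β⁻¹ s)⁻¹ ∈ img P d₀
      rw [← key x hx]
      exact hd₀.1.mem_img_of_mem (autFun_mem α₀ hx)
    rw [mem_autGroup_iff E hP]
    refine hM.congr (fun x hx => ?_)
    show invFn P d₀ (autFun S β⁻¹ s * d₀ x * (autFun S β⁻¹ s)⁻¹) = autFun P α₀ x
    rw [← key x hx, hd₀.1.invFn_apply (autFun_mem α₀ hx)]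
  · -- (2)
    intro P φ hφ
    obtain ⟨α, hα, f₀, hf₀, hff⟩ := hgood P _ (mor_of_hom hφ)
    obtain ⟨φ₀, hφ₀, hφ₀f⟩ := id hf₀.1
    refine ⟨α, hα, φ₀, hφ₀, fun x hx => ?_⟩
    have h1 := hff x x.2
    rw [extFun_apply] at h1
    rw [h1, ← hφ₀f x, autFun_apply' α hx]
  · -- (3)
    intro P
    constructor
    · intro hE
      refine ⟨hE.1, fun Q hconj => ?_⟩
      obtain ⟨f, hf, hfimg⟩ := isConj_iff.mp hconj
      obtain ⟨α, hα, f₀, hf₀, hff⟩ := hgood P f hf
      have hQ₀ : centralizerIn S (img P f₀) ≤ img P f₀ := hE.2 _ (isConj_of_mor hf₀.1)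
      intro x hx
      have hxS : x ∈ S := hx.1
      have hmem : autFun S α⁻¹ x ∈ centralizerIn S (img P f₀) := by
        refine ⟨autFun_mem _ hxS, ?_⟩
        show autFun S α⁻¹ x ∈ Subgroup.centralizer ((img P f₀ : Subgroup Ω) : Set Ω)
        rw [Subgroup.mem_centralizer_iff]
        intro y hy
        obtain ⟨z, hz, rfl⟩ := hf₀.1.mem_img.mp hy
        have hfz : f z ∈ Q := hfimg ▸ hf.mem_img_of_mem hz
        have hcomm : f z * x = x * f z := Subgroup.mem_centralizer_iff.mp hx.2 (f z) hfz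
        have e1 : f₀ z = autFun S α⁻¹ (f z) := by
          rw [hff z hz, autFun_inv_apply' α (hf₀.1.mem hz)]
        rw [e1]
        have hm := aF_mor ((F.autGroup S).inv_mem hα)
        rw [← hm.map_mul (hf.mem hz) hxS, ← hm.map_mul hxS (hf.mem hz), hcomm]
      obtain ⟨z, hz, hzx⟩ := hf₀.1.mem_img.mp (hQ₀ hmem)
      have hxz : x = f z := by
        rw [hff z hz, hzx, autFun_inv_apply α hxS]
      rw [hxz, ← hfimg]
      exact hf.mem_img_of_mem hz
    · intro hFc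
      refine ⟨hFc.1, fun Q hconj => hFc.2 Q ?_⟩
      obtain ⟨f, hf, hfimg⟩ := isConj_iff.mp hconj
      exact isConj_iff.mpr ⟨f, mor_of_subsystem hEF hf, hfimg⟩

end Cfsg.Agent.S5114
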