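import Cfsg.Statements.S5125
import Cfsg.Agent.Lib.Helper88.FusExt

set_option autoImplicit false
open Cfsg

namespace Cfsg.Agent.S5125

open Cfsg.FusionSystem Cfsg.Agent.Lib.Helper90 Cfsg.Agent.Lib.Helper88
open scoped commutatorElement

/-- The automorphisms in `Aut_F(P)` acting trivially modulo `Q` on `P` and trivially modulo `Q₁`
on `P ∩ Q`. -/
def bSub {Ω : Type*} [Group Ω] {S : Subgroup Ω} (F : FusionSystem S) (Q Q₁ : Subgroup Ω)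
    (h : Q₁ ≤ Q) (P : Subgroup Ω) : Subgroup (MulAut P) where
  carrier := {κ | κ ∈ F.autGroup P ∧ (∀ x : P, (x : Ω)⁻¹ * ((κ x : P) : Ω) ∈ Q) ∧
    ∀ z : P, (z : Ω) ∈ Q → (z : Ω)⁻¹ * ((κ z : P) : Ω) ∈ Q₁}
  mul_mem' := by
    rintro κ κ' ⟨h1, h2, h3⟩ ⟨h1', h2', h3'⟩
    refine ⟨(F.autGroup P).mul_mem h1 h1', fun x => ?_, fun z hz => ?_⟩
    · have e : (x : Ω)⁻¹ * (((κ * κ') x : P) : Ω) =
          ((x : Ω)⁻¹ * ((κ' x : P) : Ω)) * (((κ' x : P) : Ω)⁻¹ * ((κ (κ' x) : P) : Ω)) := by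
        rw [MulAut.mul_apply]; group
      rw [e]
      exact Q.mul_mem (h2' x) (h2 (κ' x))
    · have hz' : ((κ' z : P) : Ω) ∈ Q := by
        have := Q.mul_mem hz (h (h3' z hz))
        simpa using this
      have e : (z : Ω)⁻¹ * (((κ * κ') z : P) : Ω) =
          ((z : Ω)⁻¹ * ((κ' z : P) : Ω)) * (((κ' z : P) : Ω)⁻¹ * ((κ (κ' z) : P) : Ω)) := by
        rw [MulAut.mul_apply]; group
      rw [e]
      exact Q₁.mul_mem (h3' z hz) (h3 _ hz')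
  one_mem' := ⟨(F.autGroup P).one_mem, fun x => by simp, fun z _ => by simp⟩
  inv_mem' := by
    rintro κ ⟨h1, h2, h3⟩
    refine ⟨(F.autGroup P).inv_mem h1, fun x => ?_, fun z hz => ?_⟩
    · have h' := h2 (κ⁻¹ x)
      have e : κ (κ⁻¹ x) = x := by simp
      rw [e] at h'
      have := Q.inv_mem h'
      simpa using this
    · have h' := h2 (κ⁻¹ z)
      have e : κ (κ⁻¹ z) = z := by simp
      rw [e] at h'
      have hw : ((κ⁻¹ z : P) : Ω) ∈ Q := by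
        have := Q.mul_mem hz (Q.inv_mem h')
        simpa using this
      have h4 := h3 _ hw
      rw [e] at h4
      have := Q₁.inv_mem h4
      simpa using this

theorem mem_bSub {Ω : Type*} [Group Ω] {S : Subgroup Ω} (F : FusionSystem S) (Q Q₁ : Subgroup Ω)
    (h : Q₁ ≤ Q) (P : Subgroup Ω) (κ : MulAut P) : κ ∈ bSub F Q Q₁ h P ↔ κ ∈ F.autGroup P ∧
      (∀ x : P, (x : Ω)⁻¹ * ((κ x : P) : Ω) ∈ Q) ∧
      ∀ z : P, (z : Ω) ∈ Q → (z : Ω)⁻¹ * ((κ z : P) : Ω) ∈ Q₁ := Iff.rfl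

theorem pow_agree {Ω : Type*} [Group Ω] {P R : Subgroup Ω} (κ : MulAut P) (κ' : MulAut R)
    (h : ∀ (x : Ω) (hP : x ∈ P) (hR : x ∈ R), ((κ' ⟨x, hR⟩ : R) : Ω) = ((κ ⟨x, hP⟩ : P) : Ω))
    (t : ℕ) : ∀ (x : Ω) (hP : x ∈ P) (hR : x ∈ R),
      (((κ' ^ t) ⟨x, hR⟩ : R) : Ω) = (((κ ^ t) ⟨x, hP⟩ : P) : Ω) := by
  induction t with
  | zero => intro x hP hR; simp
  | succ t ih =>
    intro x hP hR
    have h1 := ih x hP hR
    rw [pow_succ', pow_succ', MulAut.mul_apply, MulAut.mul_apply]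
    have hmem : (((κ ^ t) ⟨x, hP⟩ : P) : Ω) ∈ R := h1 ▸ ((κ' ^ t) ⟨x, hR⟩).2
    have h3 : (κ' ^ t) ⟨x, hR⟩ = ⟨(((κ ^ t) ⟨x, hP⟩ : P) : Ω), hmem⟩ := Subtype.ext h1
    rw [h3, h _ ((κ ^ t) ⟨x, hP⟩).2 hmem]

/-- Let F be a saturated fusion system over a finite p-group S and Q a subgroup strongly closed in F. If Q has a subgroup Q₁ that is normal in F, with Q/Q₁ abelian and Aut_F(Q₁) a p-group, then Q is normal in F. -/
theorem result {Ω : Type*} [Group Ω] {S : Subgroup Ω} [Finite S] (p : ℕ) [Fact p.Prime] (hS : IsPGroup p S) (F : Cfsg.FusionSystem S) (hF : F.IsSaturated p) (Q Q₁ : Subgroup Ω) (hQ : F.StronglyClosed Q) (hQ₁Q : Q₁ ≤ Q) (hQ₁ : F.IsNormal Q₁) (hab : ⁅Q, Q⁆ ≤ Q₁) (hAut : IsPGroup p ↥(F.autGroup Q₁)) : F.IsNormal Q := by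
  have hQS : Q ≤ S := hQ.1
  have hQ₁S : Q₁ ≤ S := hQ₁.1
  have hQ₁fin : Finite Q₁ := finite_of_le hQ₁S
  have hsc₁ : F.StronglyClosed Q₁ := Cfsg.Agent.Lib.Helper88.stronglyClosed_of_isNormal hQ₁
  obtain ⟨k, hk⟩ := IsPGroup.iff_card.mp hS
  refine isNormal_of_normal_pSubgroups hS hF hQ (fun P => bSub F Q Q₁ hQ₁Q P) ?_ ?_ ?_ ?_
  · -- p-group
    intro P hP
    rintro ⟨κ, hκ⟩
    obtain ⟨h1, h2, h3⟩ := (mem_bSub F Q Q₁ hQ₁Q P κ).mp hκ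
    have hmor : Mor F P (autFun P κ) := (mem_autGroup_iff F hP κ).mp h1
    obtain ⟨f', hf', hf'P, hf'Q⟩ := extQ_of_isNormal hQ₁ (hmor.restrict (inf_le_left : P ⊓ Q₁ ≤ P))
    obtain ⟨κh, hκh, hκhf⟩ := exists_aut_of_mor (hf'.restrict (le_sup_right : Q₁ ≤ P ⊓ Q₁ ⊔ Q₁)) hf'Q
    have hagree : ∀ (x : Ω) (hxP : x ∈ P) (hxR : x ∈ Q₁),
        ((κh ⟨x, hxR⟩ : Q₁) : Ω) = ((κ ⟨x, hxP⟩ : P) : Ω) := by
      intro x hxP hxR
      rw [hκhf]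
      show f' x = _
      rw [hf'P x ⟨hxP, hxR⟩, autFun_apply' κ hxP]
    obtain ⟨m, hm⟩ := hAut ⟨κh, hκh⟩
    have hm' : κh ^ (p ^ m) = 1 := congrArg Subtype.val hm
    refine ⟨m + k + k, ?_⟩
    apply Subtype.ext
    show κ ^ (p ^ (m + k + k)) = 1
    rw [pow_add, pow_add, ← hk, pow_mul, pow_mul]
    set κ₁ := κ ^ (p ^ m) with hκ₁
    have hκ₁B : κ₁ ∈ bSub F Q Q₁ hQ₁Q P := (bSub F Q Q₁ hQ₁Q P).pow_mem hκ _
    obtain ⟨-, h2₁, h3₁⟩ := (mem_bSub F Q Q₁ hQ₁Q P κ₁).mp hκ₁B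
    have hfix₁ : ∀ z : P, (z : Ω) ∈ Q₁ → κ₁ z = z := by
      intro z hz
      apply Subtype.ext
      have := pow_agree κ κh hagree (p ^ m) z z.2 hz
      rw [hm'] at this
      rw [hκ₁]
      exact this.symm
    set κ₂ := κ₁ ^ Nat.card S with hκ₂
    have hκ₂B : κ₂ ∈ bSub F Q Q₁ hQ₁Q P := (bSub F Q Q₁ hQ₁Q P).pow_mem hκ₁B _
    obtain ⟨-, h2₂, h3₂⟩ := (mem_bSub F Q Q₁ hQ₁Q P κ₂).mp hκ₂B
    have hfix₂ : ∀ z : P, (z : Ω) ∈ Q → κ₂ z = z := by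
      intro z hz
      exact aut_pow_fix κ₁ Q₁ (Nat.card S) z (h3₁ z hz) hfix₁ (fun w _ => pow_card_eq_one_sub hP w)
    ext x
    rw [aut_pow_fix κ₂ Q (Nat.card S) x (h2₂ x) hfix₂ (fun w _ => pow_card_eq_one_sub hP w)]
    rfl
  · intro P hP κ hκ
    exact hκ.1
  · -- normality
    intro P hP α hα κ hκ
    obtain ⟨h1, h2, h3⟩ := (mem_bSub F Q Q₁ hQ₁Q P κ).mp hκ
    have hαinv : α⁻¹ ∈ F.autGroup P := (F.autGroup P).inv_mem hα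
    rw [mem_bSub]
    have e : ∀ x : P, (x : Ω)⁻¹ * (((α * κ * α⁻¹) x : P) : Ω) =
          ((α ((α⁻¹ x)⁻¹ * κ (α⁻¹ x)) : P) : Ω) := by
      intro x
      show (x : Ω)⁻¹ * ((α (κ (α⁻¹ x)) : P) : Ω) = _
      rw [map_mul, map_inv]
      simp
    refine ⟨(F.autGroup P).mul_mem ((F.autGroup P).mul_mem hα h1) hαinv, fun x => ?_,
      fun z hz => ?_⟩
    · rw [e]
      exact sc_aut hQ hP hα _ (h2 _)
    · rw [e]
      have hw : ((α⁻¹ z : P) : Ω) ∈ Q := sc_aut hQ hP hαinv z hz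
      exact sc_aut hsc₁ hP hα _ (h3 _ hw)
  · -- conjugations
    intro P hP a haQ haN γ hγ
    obtain ⟨γ', hγ', hγ'a⟩ := exists_conjAut F hP (hQS haQ) haN
    have e : γ = γ' := by
      ext x
      rw [hγ, hγ'a]
    rw [mem_bSub]
    refine ⟨e ▸ hγ', fun x => ?_, fun z hz => ?_⟩
    · rw [hγ]
      have h1 : (x : Ω)⁻¹ * a * (x : Ω)⁻¹⁻¹ ∈ Q := sc_conj hQ (S.inv_mem (hP x.2)) haQ
      have e2 : (x : Ω)⁻¹ * (a * x * a⁻¹) = ((x : Ω)⁻¹ * a * (x : Ω)⁻¹⁻¹) * a⁻¹ := by group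
      rw [e2]
      exact Q.mul_mem h1 (Q.inv_mem haQ)
    · rw [hγ]
      have h1 : ⁅(z : Ω)⁻¹, a⁆ ∈ ⁅Q, Q⁆ := Subgroup.commutator_mem_commutator (Q.inv_mem hz) haQ
      have e2 : (z : Ω)⁻¹ * (a * z * a⁻¹) = ⁅(z : Ω)⁻¹, a⁆ := by
        rw [commutatorElement_def]; group
      rw [e2]
      exact hab h1

end Cfsg.Agent.S5125
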