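import Cfsg.Statements.S5135
import Mathlib

set_option autoImplicit false
open Cfsg

namespace Cfsg.Agent.S5135

open FusionSystem

theorem sylow_conj_mem {G : Type*} [Group G] [Finite G] {p : ℕ} [Fact p.Prime] (S : Sylow p G)
    {K Q : Subgroup G} (hSK : (S : Subgroup G) ≤ K) (hQK : Q ≤ K) (hQ : IsPGroup p Q) :
    ∃ k ∈ K, ∀ x ∈ Q, k * x * k⁻¹ ∈ (S : Subgroup G) := by
  have hQ₁ : IsPGroup p (Q.subgroupOf K) := hQ.comap_subtype
  obtain ⟨R, hR⟩ := hQ₁.exists_le_sylow
  obtain ⟨k, hk⟩ := MulAction.exists_smul_eq K R (S.subtype hSK)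
  refine ⟨k, k.2, fun x hx => ?_⟩
  have hxR : (⟨x, hQK hx⟩ : K) ∈ (R : Subgroup K) := hR (Subgroup.mem_subgroupOf.mpr hx)
  have h1 := Subgroup.smul_mem_pointwise_smul _ (MulAut.conj k) (R : Subgroup K) hxR
  rw [← Sylow.coe_subgroup_smul, hk, Sylow.coe_subtype, Subgroup.mem_subgroupOf] at h1
  simpa using h1

theorem mem_pre {Ω : Type*} [Group Ω] {S : Subgroup Ω} {Ω' : Type*} [Group Ω'] {θ : S →* Ω'}
    {P' : Subgroup Ω'} {y : Ω} :
    y ∈ preimageAlong θ P' ↔ ∃ h : y ∈ S, θ ⟨y, h⟩ ∈ P' := by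
  constructor
  · rintro ⟨s, hs, rfl⟩
    exact ⟨s.2, hs⟩
  · rintro ⟨h, hy⟩
    exact ⟨⟨y, h⟩, hy, rfl⟩

/-- Let G be a finite group, S a Sylow p-subgroup and H a normal subgroup of G. Then the fusion system of G/H on the image SH/H of S is the factor system of the fusion system of G on S modulo S ∩ H, read through the quotient map restricted to S: for each subgroup P' of SH/H, the conjugation maps by elements of G/H defined on P' with values in SH/H are exactly the homomorphisms induced by the conjugation maps by elements of G defined on the full preimage of P' in S with values in S. -/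
theorem result {G : Type*} [Group G] [Finite G] (p : ℕ) [Fact p.Prime] (S : Sylow p G) (H : Subgroup G) [H.Normal] : (Cfsg.groupFusionSystem (S : Subgroup G)).IsFactorSystem ((S : Subgroup G) ⊓ H) ((QuotientGroup.mk' H).comp (S : Subgroup G).subtype) (Cfsg.groupFusionSystem ((S : Subgroup G).map (QuotientGroup.mk' H))) := by
  set θ := (QuotientGroup.mk' H).comp (S : Subgroup G).subtype with hθ
  have hθa : ∀ (y : G) (hy : y ∈ (S : Subgroup G)), θ ⟨y, hy⟩ = (y : G ⧸ H) := fun y hy => rfl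
  refine ⟨inf_le_left, ?_, ?_, ?_⟩
  · intro s
    rw [hθa, QuotientGroup.eq_one_iff]
    exact ⟨fun h => ⟨s.2, h⟩, fun h => h.2⟩
  · rw [MonoidHom.range_comp, Subgroup.range_subtype]
  · intro P' φ'
    constructor
    · rintro ⟨hP'S', hφ'S', g', hg'⟩
      refine ⟨hP'S', ?_⟩
      obtain ⟨g, rfl⟩ := QuotientGroup.mk'_surjective H g'
      have hPS : preimageAlong θ P' ≤ (S : Subgroup G) := fun y hy => (mem_pre.mp hy).1
      have hQK : (preimageAlong θ P').map (MulAut.conj g).toMonoidHom ≤ (S : Subgroup G) ⊔ H := by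
        rintro _ ⟨x, hx, rfl⟩
        obtain ⟨hxS, hxP'⟩ := mem_pre.mp hx
        have h1 := hφ'S' ⟨θ ⟨x, hxS⟩, hxP'⟩
        rw [hg'] at h1
        obtain ⟨s, hs, hse⟩ := h1
        have h2 : (s⁻¹ * (g * x * g⁻¹)) ∈ H := by
          rw [← QuotientGroup.eq]
          exact hse
        have h3 : g * x * g⁻¹ = s * (s⁻¹ * (g * x * g⁻¹)) := by group
        show g * x * g⁻¹ ∈ _
        rw [h3]
        exact Subgroup.mul_mem_sup hs h2
      have hQp : IsPGroup p ((preimageAlong θ P').map (MulAut.conj g).toMonoidHom) :=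
        (S.isPGroup'.to_le hPS).map _
      obtain ⟨k, hk, hkQ⟩ := sylow_conj_mem S le_sup_left hQK hQp
      obtain ⟨s, hs, h, hh, rfl⟩ := Subgroup.mem_sup_of_normal_right.mp hk
      have hconj : ∀ x ∈ preimageAlong θ P', (h * g) * x * (h * g)⁻¹ ∈ (S : Subgroup G) := by
        intro x hx
        have h1 := hkQ (g * x * g⁻¹) ⟨x, hx, rfl⟩
        have h2 : (h * g) * x * (h * g)⁻¹ = s⁻¹ * (s * h * (g * x * g⁻¹) * (s * h)⁻¹) * s := by
          group
        rw [h2]
        exact Subgroup.mul_mem _ (Subgroup.mul_mem _ (Subgroup.inv_mem _ hs) h1) hs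
      refine ⟨conjHom _ (h * g), ⟨hPS, fun x => hconj x x.2, h * g, fun x => rfl⟩, hPS,
        fun x => hconj x x.2, fun x => (mem_pre.mp x.2).2, ?_⟩
      intro x
      rw [hg']
      show (g : G ⧸ H) * ((x : G) : G ⧸ H) * (g : G ⧸ H)⁻¹ = (((h * g) * x * (h * g)⁻¹ : G) : G ⧸ H)
      have e : ((h * g : G) : G ⧸ H) = (g : G ⧸ H) := by
        rw [QuotientGroup.mk_mul, (QuotientGroup.eq_one_iff h).mpr hh, one_mul]
      rw [QuotientGroup.mk_mul, QuotientGroup.mk_mul, QuotientGroup.mk_inv, e]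
    · rintro ⟨hP'S', φ, ⟨hPS, hφS, g, hg⟩, hP, hφ, hP', hind⟩
      refine ⟨hP'S', ?_, (g : G ⧸ H), ?_⟩
      · intro x'
        obtain ⟨s, hs, hse⟩ := hP'S' x'.2
        have hsmem : s ∈ preimageAlong θ P' := mem_pre.mpr ⟨hs, by rw [hθa, ← QuotientGroup.mk'_apply, hse]; exact x'.2⟩
        have e := hind ⟨s, hsmem⟩
        have e2 : (⟨θ ⟨s, hP hsmem⟩, hP' ⟨s, hsmem⟩⟩ : P') = x' := Subtype.ext hse
        rw [e2] at e
        rw [e]
        exact ⟨_, hφ _, rfl⟩
      · intro x'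
        obtain ⟨s, hs, hse⟩ := hP'S' x'.2
        have hsmem : s ∈ preimageAlong θ P' := mem_pre.mpr ⟨hs, by rw [hθa, ← QuotientGroup.mk'_apply, hse]; exact x'.2⟩
        have e := hind ⟨s, hsmem⟩
        have e2 : (⟨θ ⟨s, hP hsmem⟩, hP' ⟨s, hsmem⟩⟩ : P') = x' := Subtype.ext hse
        rw [e2] at e
        rw [e, hθa, hg, ← hse]
        simp

end Cfsg.Agent.S5135
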