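import Cfsg.Statements.S5136
import Mathlib

set_option autoImplicit false
open Cfsg

namespace Cfsg.Agent.S5136

section
variable {Ω : Type*} [Group Ω] {S : Subgroup Ω}

theorem restrict_mem (F : FusionSystem S) {P P' : Subgroup Ω} {φ : P →* Ω} (hφ : φ ∈ F.Hom P)
    (h : P' ≤ P) : φ.comp (Subgroup.inclusion h) ∈ F.Hom P' := by
  have hPS := (F.le_of_mem hφ).1
  have h1 : conjHom P' 1 ∈ F.Hom P' := F.conj_mem (h.trans hPS) S.one_mem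
  have h2 : ∀ x : P', conjHom P' 1 x ∈ P := by
    intro x
    have : conjHom P' 1 x = (x : Ω) := by simp [conjHom]
    rw [this]
    exact h x.2
  have h3 := F.comp_mem h1 hφ h2
  have h4 : φ.comp ((conjHom P' 1).codRestrict P h2) = φ.comp (Subgroup.inclusion h) := by
    ext x
    simp only [MonoidHom.comp_apply]
    congr 1
    apply Subtype.ext
    simp [conjHom]
  rw [← h4]
  exact h3

end

variable {Ω₁ Ω₂ : Type*} [Group Ω₁] [Group Ω₂] {S₁ : Subgroup Ω₁} {S₂ : Subgroup Ω₂}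

/-- The set of maps of the product system with source `P`. -/
def prodHom (F₁ : FusionSystem S₁) (F₂ : FusionSystem S₂) (P : Subgroup (Ω₁ × Ω₂)) :
    Set (P →* Ω₁ × Ω₂) :=
  {φ | P ≤ S₁.prod S₂ ∧
      ∃ φ₁ ∈ F₁.Hom (P.map (MonoidHom.fst Ω₁ Ω₂)), ∃ φ₂ ∈ F₂.Hom (P.map (MonoidHom.snd Ω₁ Ω₂)),
        ∀ (x : P) (h₁ : (x : Ω₁ × Ω₂).1 ∈ P.map (MonoidHom.fst Ω₁ Ω₂))
          (h₂ : (x : Ω₁ × Ω₂).2 ∈ P.map (MonoidHom.snd Ω₁ Ω₂)),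
          φ x = (φ₁ ⟨(x : Ω₁ × Ω₂).1, h₁⟩, φ₂ ⟨(x : Ω₁ × Ω₂).2, h₂⟩)}

theorem mem_fst {P : Subgroup (Ω₁ × Ω₂)} (x : P) : (x : Ω₁ × Ω₂).1 ∈ P.map (MonoidHom.fst Ω₁ Ω₂) :=
  ⟨x, x.2, rfl⟩

theorem mem_snd {P : Subgroup (Ω₁ × Ω₂)} (x : P) : (x : Ω₁ × Ω₂).2 ∈ P.map (MonoidHom.snd Ω₁ Ω₂) :=
  ⟨x, x.2, rfl⟩

/-- The product system. -/
def prodSystem (F₁ : FusionSystem S₁) (F₂ : FusionSystem S₂) : FusionSystem (S₁.prod S₂) where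
  Hom P := prodHom F₁ F₂ P
  le_of_mem := by
    rintro P φ ⟨hP, φ₁, hφ₁, φ₂, hφ₂, hφ⟩
    refine ⟨hP, fun x => ?_⟩
    rw [hφ x (mem_fst x) (mem_snd x)]
    exact ⟨(F₁.le_of_mem hφ₁).2 _, (F₂.le_of_mem hφ₂).2 _⟩
  injective_of_mem := by
    rintro P φ ⟨hP, φ₁, hφ₁, φ₂, hφ₂, hφ⟩ x y hxy
    rw [hφ x (mem_fst x) (mem_snd x), hφ y (mem_fst y) (mem_snd y)] at hxy
    have e1 := F₁.injective_of_mem hφ₁ (congrArg Prod.fst hxy)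
    have e2 := F₂.injective_of_mem hφ₂ (congrArg Prod.snd hxy)
    apply Subtype.ext
    exact Prod.ext (congrArg Subtype.val e1) (congrArg Subtype.val e2)
  conj_mem := by
    intro P g hP hg
    have hP₁ : P.map (MonoidHom.fst Ω₁ Ω₂) ≤ S₁ := by
      rintro _ ⟨x, hx, rfl⟩
      exact (hP hx).1
    have hP₂ : P.map (MonoidHom.snd Ω₁ Ω₂) ≤ S₂ := by
      rintro _ ⟨x, hx, rfl⟩
      exact (hP hx).2
    refine ⟨hP, conjHom _ g.1, F₁.conj_mem hP₁ hg.1, conjHom _ g.2, F₂.conj_mem hP₂ hg.2, ?_⟩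
    intro x h₁ h₂
    rfl
  comp_mem := by
    rintro P Q φ ψ ⟨hP, φ₁, hφ₁, φ₂, hφ₂, hφ⟩ ⟨hQ, ψ₁, hψ₁, ψ₂, hψ₂, hψ⟩ h
    have h₁' : ∀ x : P.map (MonoidHom.fst Ω₁ Ω₂), φ₁ x ∈ Q.map (MonoidHom.fst Ω₁ Ω₂) := by
      rintro ⟨_, y, hy, rfl⟩
      have := h ⟨y, hy⟩
      rw [hφ ⟨y, hy⟩ (mem_fst _) (mem_snd _)] at this
      exact ⟨_, this, rfl⟩
    have h₂' : ∀ x : P.map (MonoidHom.snd Ω₁ Ω₂), φ₂ x ∈ Q.map (MonoidHom.snd Ω₁ Ω₂) := by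
      rintro ⟨_, y, hy, rfl⟩
      have := h ⟨y, hy⟩
      rw [hφ ⟨y, hy⟩ (mem_fst _) (mem_snd _)] at this
      exact ⟨_, this, rfl⟩
    refine ⟨hP, _, F₁.comp_mem hφ₁ hψ₁ h₁', _, F₂.comp_mem hφ₂ hψ₂ h₂', ?_⟩
    intro x hx₁ hx₂
    show ψ (φ.codRestrict Q h x) = _
    rw [hψ _ (mem_fst _) (mem_snd _)]
    have e := hφ x hx₁ hx₂
    apply Prod.ext
    · show ψ₁ _ = ψ₁ _
      congr 1
      apply Subtype.ext
      exact congrArg Prod.fst e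
    · show ψ₂ _ = ψ₂ _
      congr 1
      apply Subtype.ext
      exact congrArg Prod.snd e
  inv_mem := by
    rintro P φ ⟨hP, φ₁, hφ₁, φ₂, hφ₂, hφ⟩
    obtain ⟨ψ₁, hψ₁, hinv₁⟩ := F₁.inv_mem hφ₁
    obtain ⟨ψ₂, hψ₂, hinv₂⟩ := F₂.inv_mem hφ₂
    have e₁ : φ.range.map (MonoidHom.fst Ω₁ Ω₂) ≤ φ₁.range := by
      rintro _ ⟨_, ⟨x, rfl⟩, rfl⟩
      rw [hφ x (mem_fst x) (mem_snd x)]
      exact ⟨_, rfl⟩
    have e₂ : φ.range.map (MonoidHom.snd Ω₁ Ω₂) ≤ φ₂.range := by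
      rintro _ ⟨_, ⟨x, rfl⟩, rfl⟩
      rw [hφ x (mem_fst x) (mem_snd x)]
      exact ⟨_, rfl⟩
    have hrange : φ.range ≤ S₁.prod S₂ := by
      rintro _ ⟨x, rfl⟩
      rw [hφ x (mem_fst x) (mem_snd x)]
      exact ⟨(F₁.le_of_mem hφ₁).2 _, (F₂.le_of_mem hφ₂).2 _⟩
    let ψ₁' := ψ₁.comp (Subgroup.inclusion e₁)
    let ψ₂' := ψ₂.comp (Subgroup.inclusion e₂)
    let ψ : φ.range →* Ω₁ × Ω₂ :=
      (ψ₁'.comp ((MonoidHom.fst Ω₁ Ω₂).subgroupMap φ.range)).prod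
        (ψ₂'.comp ((MonoidHom.snd Ω₁ Ω₂).subgroupMap φ.range))
    refine ⟨ψ, ⟨hrange, ψ₁', restrict_mem F₁ hψ₁ e₁, ψ₂', restrict_mem F₂ hψ₂ e₂, ?_⟩, ?_⟩
    · intro x hx₁ hx₂
      rfl
    · intro x
      have e := hφ x (mem_fst x) (mem_snd x)
      apply Prod.ext
      · show ψ₁ _ = _
        refine Eq.trans ?_ (hinv₁ ⟨(x : Ω₁ × Ω₂).1, mem_fst x⟩)
        congr 1
        apply Subtype.ext
        exact congrArg Prod.fst e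
      · show ψ₂ _ = _
        refine Eq.trans ?_ (hinv₂ ⟨(x : Ω₁ × Ω₂).2, mem_snd x⟩)
        congr 1
        apply Subtype.ext
        exact congrArg Prod.snd e

/-- Let F₁ and F₂ be fusion systems over finite p-groups S₁ and S₂ (inside ambient groups Ω₁ and Ω₂). Then their direct product exists: there is a fusion system over S₁ × S₂ inside Ω₁ × Ω₂ whose maps with source P ≤ S₁ × S₂ are exactly the restrictions to P of the homomorphisms (x₁, x₂) ↦ (φ₁ x₁, φ₂ x₂) with φ₁ a map of F₁ on the first projection of P and φ₂ a map of F₂ on the second projection. -/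
theorem result {Ω₁ Ω₂ : Type*} [Group Ω₁] [Group Ω₂] {S₁ : Subgroup Ω₁} {S₂ : Subgroup Ω₂} [Finite S₁] [Finite S₂] (p : ℕ) [Fact p.Prime] (h₁ : IsPGroup p S₁) (h₂ : IsPGroup p S₂) (F₁ : Cfsg.FusionSystem S₁) (F₂ : Cfsg.FusionSystem S₂) : ∃ E : Cfsg.FusionSystem (S₁.prod S₂), Cfsg.FusionSystem.IsProductSystem F₁ F₂ E := by
  exact ⟨prodSystem F₁ F₂, fun P φ => Iff.rfl⟩

end Cfsg.Agent.S5136
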