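import Cfsg.Statements.S5137
import Cfsg.Agent.S5110
import Cfsg.Agent.Lib.Helper87.Fusion2

set_option autoImplicit false
open Cfsg

namespace Cfsg.Agent.S5137

open Cfsg.FusionSystem Cfsg.Agent.Lib.Helper90 Cfsg.Agent.Lib.Helper91 Cfsg.Agent.Lib.Helper88

variable {Ω₁ Ω₂ : Type*} [Group Ω₁] [Group Ω₂] {S₁ : Subgroup Ω₁} {S₂ : Subgroup Ω₂}
  {F₁ : FusionSystem S₁} {F₂ : FusionSystem S₂} {E : FusionSystem (S₁.prod S₂)}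
  {P₁ Q₁ : Subgroup Ω₁} {P₂ Q₂ : Subgroup Ω₂} {f₁ : Ω₁ → Ω₁} {f₂ : Ω₂ → Ω₂}

/-- The product of two functions. -/
def pf (f₁ : Ω₁ → Ω₁) (f₂ : Ω₂ → Ω₂) : Ω₁ × Ω₂ → Ω₁ × Ω₂ := fun x => (f₁ x.1, f₂ x.2)

theorem map_fst_prod (P₁ : Subgroup Ω₁) (P₂ : Subgroup Ω₂) :
    (P₁.prod P₂).map (MonoidHom.fst Ω₁ Ω₂) = P₁ := by
  ext y
  constructor
  · rintro ⟨x, hx, rfl⟩
    exact hx.1
  · intro hy
    exact ⟨(y, 1), ⟨hy, Subgroup.one_mem _⟩, rfl⟩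

theorem map_snd_prod (P₁ : Subgroup Ω₁) (P₂ : Subgroup Ω₂) :
    (P₁.prod P₂).map (MonoidHom.snd Ω₁ Ω₂) = P₂ := by
  ext y
  constructor
  · rintro ⟨x, hx, rfl⟩
    exact hx.2
  · intro hy
    exact ⟨(1, y), ⟨Subgroup.one_mem _, hy⟩, rfl⟩

theorem le_prod_map (P : Subgroup (Ω₁ × Ω₂)) :
    P ≤ (P.map (MonoidHom.fst Ω₁ Ω₂)).prod (P.map (MonoidHom.snd Ω₁ Ω₂)) :=
  fun x hx => ⟨⟨x, hx, rfl⟩, ⟨x, hx, rfl⟩⟩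

theorem mor_prod_iff (hE : IsProductSystem F₁ F₂ E) (P : Subgroup (Ω₁ × Ω₂))
    (f : Ω₁ × Ω₂ → Ω₁ × Ω₂) :
    Mor E P f ↔ P ≤ S₁.prod S₂ ∧ ∃ f₁ f₂, Mor F₁ (P.map (MonoidHom.fst Ω₁ Ω₂)) f₁ ∧
      Mor F₂ (P.map (MonoidHom.snd Ω₁ Ω₂)) f₂ ∧ ∀ x ∈ P, f x = (f₁ x.1, f₂ x.2) := by
  constructor
  · rintro ⟨φ, hφ, hf⟩
    obtain ⟨hP, φ₁, hφ₁, φ₂, hφ₂, h⟩ := (hE P φ).mp hφ
    refine ⟨hP, extFun _ φ₁, extFun _ φ₂, mor_of_hom hφ₁, mor_of_hom hφ₂, fun x hx => ?_⟩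
    have h1 : x.1 ∈ P.map (MonoidHom.fst Ω₁ Ω₂) := ⟨x, hx, rfl⟩
    have h2 : x.2 ∈ P.map (MonoidHom.snd Ω₁ Ω₂) := ⟨x, hx, rfl⟩
    rw [← hf ⟨x, hx⟩, h ⟨x, hx⟩ h1 h2, extFun_apply' _ _ h1, extFun_apply' _ _ h2]
  · rintro ⟨hP, f₁, f₂, ⟨φ₁, hφ₁, hf₁⟩, ⟨φ₂, hφ₂, hf₂⟩, hf⟩
    refine ⟨MonoidHom.prod (φ₁.comp ((MonoidHom.fst Ω₁ Ω₂).subgroupMap P))
      (φ₂.comp ((MonoidHom.snd Ω₁ Ω₂).subgroupMap P)),
      (hE P _).mpr ⟨hP, φ₁, hφ₁, φ₂, hφ₂, fun x h₁ h₂ => rfl⟩, fun x => ?_⟩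
    rw [hf x x.2]
    exact Prod.ext (hf₁ _) (hf₂ _)

theorem mor_pf (hE : IsProductSystem F₁ F₂ E) (h₁ : Mor F₁ P₁ f₁) (h₂ : Mor F₂ P₂ f₂) :
    Mor E (P₁.prod P₂) (pf f₁ f₂) := by
  rw [mor_prod_iff hE]
  refine ⟨Subgroup.prod_mono h₁.le h₂.le, f₁, f₂, ?_, ?_, fun x _ => rfl⟩
  · rw [map_fst_prod]
    exact h₁
  · rw [map_snd_prod]
    exact h₂

theorem mor_prod (hE : IsProductSystem F₁ F₂ E) {f : Ω₁ × Ω₂ → Ω₁ × Ω₂}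
    (h : Mor E (P₁.prod P₂) f) :
    ∃ f₁ f₂, Mor F₁ P₁ f₁ ∧ Mor F₂ P₂ f₂ ∧ ∀ x ∈ P₁.prod P₂, f x = pf f₁ f₂ x := by
  obtain ⟨-, f₁, f₂, m₁, m₂, hf⟩ := (mor_prod_iff hE _ f).mp h
  rw [map_fst_prod] at m₁
  rw [map_snd_prod] at m₂
  exact ⟨f₁, f₂, m₁, m₂, hf⟩

theorem img_pf (hE : IsProductSystem F₁ F₂ E) (h₁ : Mor F₁ P₁ f₁) (h₂ : Mor F₂ P₂ f₂) :
    img (P₁.prod P₂) (pf f₁ f₂) = (img P₁ f₁).prod (img P₂ f₂) := by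
  ext y
  rw [(mor_pf hE h₁ h₂).mem_img, Subgroup.mem_prod, h₁.mem_img, h₂.mem_img]
  constructor
  · rintro ⟨x, hx, rfl⟩
    exact ⟨⟨x.1, hx.1, rfl⟩, ⟨x.2, hx.2, rfl⟩⟩
  · rintro ⟨⟨x₁, hx₁, e1⟩, ⟨x₂, hx₂, e2⟩⟩
    exact ⟨(x₁, x₂), ⟨hx₁, hx₂⟩, Prod.ext e1 e2⟩

theorem prod_eq_prod {A₁ B₁ : Subgroup Ω₁} {A₂ B₂ : Subgroup Ω₂} (h : A₁.prod A₂ = B₁.prod B₂) :
    A₁ = B₁ ∧ A₂ = B₂ := by
  have e1 := congrArg (Subgroup.map (MonoidHom.fst Ω₁ Ω₂)) h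
  have e2 := congrArg (Subgroup.map (MonoidHom.snd Ω₁ Ω₂)) h
  rw [map_fst_prod, map_fst_prod] at e1
  rw [map_snd_prod, map_snd_prod] at e2
  exact ⟨e1, e2⟩

/-- The product of two automorphisms, as an automorphism of the product subgroup. -/
def prodAutFun (Q₁ : Subgroup Ω₁) (Q₂ : Subgroup Ω₂) (a₁ : MulAut Q₁) (a₂ : MulAut Q₂) :
    MulAut (Q₁.prod Q₂) where
  toFun x := ⟨(((a₁ ⟨x.1.1, x.2.1⟩ : Q₁) : Ω₁), ((a₂ ⟨x.1.2, x.2.2⟩ : Q₂) : Ω₂)),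
    ⟨(a₁ _).2, (a₂ _).2⟩⟩
  invFun x := ⟨(((a₁.symm ⟨x.1.1, x.2.1⟩ : Q₁) : Ω₁), ((a₂.symm ⟨x.1.2, x.2.2⟩ : Q₂) : Ω₂)),
    ⟨(a₁.symm _).2, (a₂.symm _).2⟩⟩
  left_inv := by
    intro x
    apply Subtype.ext
    apply Prod.ext <;> simp
  right_inv := by
    intro x
    apply Subtype.ext
    apply Prod.ext <;> simp
  map_mul' := by
    intro x y
    apply Subtype.ext
    apply Prod.ext
    · show ((a₁ (⟨x.1.1, x.2.1⟩ * ⟨y.1.1, y.2.1⟩) : Q₁) : Ω₁) = _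
      rw [map_mul]
      rfl
    · show ((a₂ (⟨x.1.2, x.2.2⟩ * ⟨y.1.2, y.2.2⟩) : Q₂) : Ω₂) = _
      rw [map_mul]
      rfl

theorem prodAutFun_val (a₁ : MulAut Q₁) (a₂ : MulAut Q₂) (x : Q₁.prod Q₂) :
    ((prodAutFun Q₁ Q₂ a₁ a₂ x : Q₁.prod Q₂) : Ω₁ × Ω₂) =
      (((a₁ ⟨x.1.1, x.2.1⟩ : Q₁) : Ω₁), ((a₂ ⟨x.1.2, x.2.2⟩ : Q₂) : Ω₂)) := rfl

/-- The product map on automorphism groups. -/
def prodAut (Q₁ : Subgroup Ω₁) (Q₂ : Subgroup Ω₂) :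
    MulAut Q₁ × MulAut Q₂ →* MulAut (Q₁.prod Q₂) where
  toFun a := prodAutFun Q₁ Q₂ a.1 a.2
  map_one' := by
    apply MulEquiv.ext
    intro x
    rfl
  map_mul' := by
    intro a b
    apply MulEquiv.ext
    intro x
    rfl

theorem prodAut_val (a : MulAut Q₁ × MulAut Q₂) (x : Q₁.prod Q₂) :
    ((prodAut Q₁ Q₂ a x : Q₁.prod Q₂) : Ω₁ × Ω₂) =
      (((a.1 ⟨x.1.1, x.2.1⟩ : Q₁) : Ω₁), ((a.2 ⟨x.1.2, x.2.2⟩ : Q₂) : Ω₂)) := rfl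

theorem prodAut_injective (Q₁ : Subgroup Ω₁) (Q₂ : Subgroup Ω₂) :
    Function.Injective (prodAut Q₁ Q₂) := by
  intro a b hab
  apply Prod.ext
  · apply MulEquiv.ext
    intro x
    have h1 := congrArg (fun γ : MulAut (Q₁.prod Q₂) =>
      ((γ ⟨((x : Ω₁), 1), ⟨x.2, Subgroup.one_mem _⟩⟩ : Q₁.prod Q₂) : Ω₁ × Ω₂).1) hab
    exact Subtype.ext h1
  · apply MulEquiv.ext
    intro x
    have h1 := congrArg (fun γ : MulAut (Q₁.prod Q₂) =>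
      ((γ ⟨(1, (x : Ω₂)), ⟨Subgroup.one_mem _, x.2⟩⟩ : Q₁.prod Q₂) : Ω₁ × Ω₂).2) hab
    exact Subtype.ext h1

theorem card_map_prodAut (A₁ : Subgroup (MulAut Q₁)) (A₂ : Subgroup (MulAut Q₂)) :
    Nat.card ((A₁.prod A₂).map (prodAut Q₁ Q₂)) = Nat.card A₁ * Nat.card A₂ := by
  rw [← Nat.card_prod]
  exact (Nat.card_congr ((A₁.prod A₂).equivMapOfInjective _ (prodAut_injective Q₁ Q₂)).toEquiv).symm.trans
    (Nat.card_congr (A₁.prodEquiv A₂).toEquiv)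

theorem sylCard_prod [Finite Q₁] [Finite Q₂] {p : ℕ} {A₁ K₁ : Subgroup (MulAut Q₁)}
    {A₂ K₂ : Subgroup (MulAut Q₂)} (h₁ : SylCard p A₁ K₁) (h₂ : SylCard p A₂ K₂) :
    SylCard p ((A₁.prod A₂).map (prodAut Q₁ Q₂)) ((K₁.prod K₂).map (prodAut Q₁ Q₂)) := by
  refine ⟨Subgroup.map_mono (Subgroup.prod_mono h₁.1 h₂.1), ?_⟩
  rw [card_map_prodAut, card_map_prodAut, h₁.2, h₂.2,
    Nat.factorization_mul Nat.card_pos.ne' Nat.card_pos.ne', Finsupp.add_apply, pow_add]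

theorem autGroup_prod [Finite S₁] [Finite S₂] (hE : IsProductSystem F₁ F₂ E) (hQ₁ : Q₁ ≤ S₁)
    (hQ₂ : Q₂ ≤ S₂) :
    E.autGroup (Q₁.prod Q₂) = ((F₁.autGroup Q₁).prod (F₂.autGroup Q₂)).map (prodAut Q₁ Q₂) := by
  have hQ : Q₁.prod Q₂ ≤ S₁.prod S₂ := Subgroup.prod_mono hQ₁ hQ₂
  have : Finite Q₁ := finite_of_le hQ₁
  have : Finite Q₂ := finite_of_le hQ₂
  ext α
  constructor
  · intro hα
    have hm := (mem_autGroup_iff E hQ α).mp hα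
    obtain ⟨f₁, f₂, m₁, m₂, hf⟩ := mor_prod hE hm
    have hmem : ∀ x ∈ Q₁.prod Q₂, pf f₁ f₂ x ∈ Q₁.prod Q₂ := by
      intro x hx
      rw [← hf x hx]
      exact autFun_mem α hx
    have hf₁ : ∀ x ∈ Q₁, f₁ x ∈ Q₁ := fun x hx =>
      (hmem (x, 1) ⟨hx, Subgroup.one_mem _⟩).1
    have hf₂ : ∀ x ∈ Q₂, f₂ x ∈ Q₂ := fun x hx =>
      (hmem (1, x) ⟨Subgroup.one_mem _, hx⟩).2
    obtain ⟨α₁, hα₁, e₁⟩ := exists_aut_of_mor m₁ hf₁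
    obtain ⟨α₂, hα₂, e₂⟩ := exists_aut_of_mor m₂ hf₂
    refine ⟨(α₁, α₂), ⟨hα₁, hα₂⟩, ?_⟩
    apply MulEquiv.ext
    intro x
    apply Subtype.ext
    rw [prodAut_val, e₁, e₂, ← autFun_apply α x, hf x x.2]
    rfl
  · rintro ⟨⟨α₁, α₂⟩, ⟨h1, h2⟩, rfl⟩
    rw [mem_autGroup_iff E hQ]
    have m₁ := (mem_autGroup_iff F₁ hQ₁ α₁).mp h1
    have m₂ := (mem_autGroup_iff F₂ hQ₂ α₂).mp h2
    refine (mor_pf hE m₁ m₂).congr (fun x hx => ?_)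
    rw [autFun_apply' _ hx, prodAut_val]
    show (autFun Q₁ α₁ x.1, autFun Q₂ α₂ x.2) = _
    rw [autFun_apply' α₁ hx.1, autFun_apply' α₂ hx.2]

theorem autInducedBy_prod [Finite S₁] [Finite S₂] (hQ₁ : Q₁ ≤ S₁) (hQ₂ : Q₂ ≤ S₂) :
    autInducedBy (S₁.prod S₂) (Q₁.prod Q₂) =
      ((autInducedBy S₁ Q₁).prod (autInducedBy S₂ Q₂)).map (prodAut Q₁ Q₂) := by
  have : Finite Q₁ := finite_of_le hQ₁
  have : Finite Q₂ := finite_of_le hQ₂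
  ext β
  constructor
  · intro hβ
    obtain ⟨a, ha, hβa⟩ := (mem_autInducedBy_iff _ _ β).mp hβ
    have hn₁ : a.1 ∈ Subgroup.normalizer (Q₁ : Set Ω₁) := by
      apply mem_normalizer_of_finite
      intro x hx
      have h1 := (β ⟨(x, 1), ⟨hx, Subgroup.one_mem _⟩⟩).2
      rw [hβa] at h1
      exact h1.1
    have hn₂ : a.2 ∈ Subgroup.normalizer (Q₂ : Set Ω₂) := by
      apply mem_normalizer_of_finite
      intro x hx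
      have h1 := (β ⟨(1, x), ⟨Subgroup.one_mem _, hx⟩⟩).2
      rw [hβa] at h1
      exact h1.2
    refine ⟨(Cfsg.Agent.Lib.Helper87.conjAut Q₁ a.1 hn₁, Cfsg.Agent.Lib.Helper87.conjAut Q₂ a.2 hn₂),
      ⟨Cfsg.Agent.Lib.Helper87.conjAut_mem_autInducedBy S₁ Q₁ hn₁ ha.1,
        Cfsg.Agent.Lib.Helper87.conjAut_mem_autInducedBy S₂ Q₂ hn₂ ha.2⟩, ?_⟩
    apply MulEquiv.ext
    intro x
    apply Subtype.ext
    rw [prodAut_val, hβa]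
    rfl
  · rintro ⟨⟨β₁, β₂⟩, ⟨h1, h2⟩, rfl⟩
    obtain ⟨a₁, ha₁, e₁⟩ := (mem_autInducedBy_iff S₁ Q₁ β₁).mp h1
    obtain ⟨a₂, ha₂, e₂⟩ := (mem_autInducedBy_iff S₂ Q₂ β₂).mp h2
    rw [mem_autInducedBy_iff]
    refine ⟨(a₁, a₂), ⟨ha₁, ha₂⟩, fun x => ?_⟩
    rw [prodAut_val, e₁, e₂]
    rfl

theorem fa_prod [Finite S₁] [Finite S₂] {p : ℕ} [Fact p.Prime] (hE : IsProductSystem F₁ F₂ E)
    (h₁ : F₁.IsFullyAutomized p Q₁) (h₂ : F₂.IsFullyAutomized p Q₂) :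
    E.IsFullyAutomized p (Q₁.prod Q₂) := by
  have hQ₁ : Q₁ ≤ S₁ := h₁.1
  have hQ₂ : Q₂ ≤ S₂ := h₂.1
  have : Finite Q₁ := finite_of_le hQ₁
  have : Finite Q₂ := finite_of_le hQ₂
  have : Finite (Q₁.prod Q₂) := Finite.of_equiv _ (Q₁.prodEquiv Q₂).symm.toEquiv
  have hs := sylCard_prod (sylCard_of_fa h₁) (sylCard_of_fa h₂)
  rw [← autGroup_prod hE hQ₁ hQ₂, ← autInducedBy_prod hQ₁ hQ₂] at hs
  exact ⟨Subgroup.prod_mono hQ₁ hQ₂, sylCard_exists hs⟩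

theorem rec_prod [Finite S₁] [Finite S₂] (hE : IsProductSystem F₁ F₂ E)
    (h₁ : F₁.IsReceptive Q₁) (h₂ : F₂.IsReceptive Q₂) : E.IsReceptive (Q₁.prod Q₂) := by
  apply isReceptive_of (Subgroup.prod_mono h₁.1 h₂.1)
  intro R f hm himg
  obtain ⟨hR, f₁, f₂, m₁, m₂, hf⟩ := (mor_prod_iff hE R f).mp hm
  have hRle := le_prod_map R
  have mhat : Mor E ((R.map (MonoidHom.fst Ω₁ Ω₂)).prod (R.map (MonoidHom.snd Ω₁ Ω₂)))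
      (pf f₁ f₂) := mor_pf hE m₁ m₂
  have hfR : ∀ x ∈ R, f x ∈ Q₁.prod Q₂ := fun x hx => by
    rw [← himg]
    exact hm.mem_img_of_mem hx
  have hA₁ : img (R.map (MonoidHom.fst Ω₁ Ω₂)) f₁ = Q₁ := by
    ext y
    rw [m₁.mem_img]
    constructor
    · rintro ⟨x₁, ⟨x, hx, rfl⟩, rfl⟩
      have h3 := hfR x hx
      rw [hf x hx] at h3
      exact h3.1
    · intro hy
      have h3 : ((y, 1) : Ω₁ × Ω₂) ∈ img R f := by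
        rw [himg]
        exact ⟨hy, Subgroup.one_mem _⟩
      obtain ⟨x, hx, hxy⟩ := hm.mem_img.mp h3
      rw [hf x hx] at hxy
      exact ⟨x.1, ⟨x, hx, rfl⟩, congrArg Prod.fst hxy⟩
  have hA₂ : img (R.map (MonoidHom.snd Ω₁ Ω₂)) f₂ = Q₂ := by
    ext y
    rw [m₂.mem_img]
    constructor
    · rintro ⟨x₂, ⟨x, hx, rfl⟩, rfl⟩
      have h3 := hfR x hx
      rw [hf x hx] at h3
      exact h3.2
    · intro hy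
      have h3 : ((1, y) : Ω₁ × Ω₂) ∈ img R f := by
        rw [himg]
        exact ⟨Subgroup.one_mem _, hy⟩
      obtain ⟨x, hx, hxy⟩ := hm.mem_img.mp h3
      rw [hf x hx] at hxy
      exact ⟨x.2, ⟨x, hx, rfl⟩, congrArg Prod.snd hxy⟩
  have hB : R = (R.map (MonoidHom.fst Ω₁ Ω₂)).prod (R.map (MonoidHom.snd Ω₁ Ω₂)) := by
    apply le_antisymm hRle
    intro y hy
    have h3 : pf f₁ f₂ y ∈ img R f := by
      rw [himg, ← hA₁, ← hA₂, ← img_pf hE m₁ m₂]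
      exact mhat.mem_img_of_mem hy
    obtain ⟨x, hx, hxy⟩ := hm.mem_img.mp h3
    rw [hf x hx] at hxy
    have h4 : x = y := mhat.inj (hRle hx) hy hxy
    rw [← h4]
    exact hx
  have : Finite (R.map (MonoidHom.fst Ω₁ Ω₂)) := finite_of_le m₁.le
  have : Finite (R.map (MonoidHom.snd Ω₁ Ω₂)) := finite_of_le m₂.le
  obtain ⟨f₁', m₁', e₁⟩ := receptive_extend' h₁ m₁ hA₁
  obtain ⟨f₂', m₂', e₂⟩ := receptive_extend' h₂ m₂ hA₂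
  have hC : extFn (S₁.prod S₂) R f ≤
      (extFn S₁ (R.map (MonoidHom.fst Ω₁ Ω₂)) f₁).prod
        (extFn S₂ (R.map (MonoidHom.snd Ω₁ Ω₂)) f₂) := by
    intro a ha
    obtain ⟨haS, haN, b, hb, hab⟩ := hm.mem_extFn.mp ha
    have hconj : ∀ x ∈ R, a * x * a⁻¹ ∈ R := fun x hx => conj_mem_of_mem_normalizer haN hx
    refine Subgroup.mem_prod.mpr ⟨m₁.mem_extFn.mpr ?_, m₂.mem_extFn.mpr ?_⟩
    · have key : ∀ x₁ ∈ R.map (MonoidHom.fst Ω₁ Ω₂),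
          ((x₁, 1) : Ω₁ × Ω₂) ∈ R := by
        intro x₁ hx₁
        rw [hB]
        exact ⟨hx₁, Subgroup.one_mem _⟩
      refine ⟨haS.1, ?_, b.1, hb.1, fun x₁ hx₁ => ?_⟩
      · apply mem_normalizer_of_finite
        intro x₁ hx₁
        exact ⟨a * (x₁, 1) * a⁻¹, hconj _ (key x₁ hx₁), rfl⟩
      · have h5 := hab (x₁, 1) (key x₁ hx₁)
        rw [hf _ (hconj _ (key x₁ hx₁)), hf _ (key x₁ hx₁)] at h5
        exact congrArg Prod.fst h5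
    · have key : ∀ x₂ ∈ R.map (MonoidHom.snd Ω₁ Ω₂),
          ((1, x₂) : Ω₁ × Ω₂) ∈ R := by
        intro x₂ hx₂
        rw [hB]
        exact ⟨Subgroup.one_mem _, hx₂⟩
      refine ⟨haS.2, ?_, b.2, hb.2, fun x₂ hx₂ => ?_⟩
      · apply mem_normalizer_of_finite
        intro x₂ hx₂
        exact ⟨a * (1, x₂) * a⁻¹, hconj _ (key x₂ hx₂), rfl⟩
      · have h5 := hab (1, x₂) (key x₂ hx₂)
        rw [hf _ (hconj _ (key x₂ hx₂)), hf _ (key x₂ hx₂)] at h5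
        exact congrArg Prod.snd h5
  refine ⟨pf f₁' f₂', (mor_pf hE m₁' m₂').restrict hC, fun x hx => ?_⟩
  rw [hf x hx]
  exact Prod.ext (e₁ _ ⟨x, hx, rfl⟩) (e₂ _ ⟨x, hx, rfl⟩)

theorem star_prod [Finite S₁] [Finite S₂] {p : ℕ} [Fact p.Prime] (hS : IsPGroup p (S₁.prod S₂))
    [Finite (S₁.prod S₂)]
    (hE : IsProductSystem F₁ F₂ E) (P : Subgroup (Ω₁ × Ω₂)) (hc : E.IsCentric P)
    (hP : P ≠ (P.map (MonoidHom.fst Ω₁ Ω₂)).prod (P.map (MonoidHom.snd Ω₁ Ω₂))) :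
    ¬ (autInducedBy (S₁.prod S₂) P ⊓ (pCore p ↥(E.autGroup P)).map (E.autGroup P).subtype ≤
      Inn P) := by
  intro hle
  have hPS : P ≤ S₁.prod S₂ := hc.1
  have hPle := le_prod_map P
  have h1S : P.map (MonoidHom.fst Ω₁ Ω₂) ≤ S₁ := by
    rintro _ ⟨x, hx, rfl⟩
    exact (hPS hx).1
  have h2S : P.map (MonoidHom.snd Ω₁ Ω₂) ≤ S₂ := by
    rintro _ ⟨x, hx, rfl⟩
    exact (hPS hx).2
  have hhatS : (P.map (MonoidHom.fst Ω₁ Ω₂)).prod (P.map (MonoidHom.snd Ω₁ Ω₂)) ≤ S₁.prod S₂ :=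
    Subgroup.prod_mono h1S h2S
  have hnot : ¬ (P.map (MonoidHom.fst Ω₁ Ω₂)).prod (P.map (MonoidHom.snd Ω₁ Ω₂)) ≤ P :=
    fun h => hP (le_antisymm hPle h)
  obtain ⟨a, ha, haN, haP⟩ := exists_normalizing_not_mem' hS hPS hhatS
    (fun x hx q hq => Subgroup.mul_mem _ (Subgroup.mul_mem _ (hPle hx) hq)
      (Subgroup.inv_mem _ (hPle hx))) hnot
  have hBp : IsPGroup p (autInducedBy
      ((P.map (MonoidHom.fst Ω₁ Ω₂)).prod (P.map (MonoidHom.snd Ω₁ Ω₂))) P) :=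
    isPGroup_autInducedBy (hS.to_le hhatS) P
  have hBS : autInducedBy ((P.map (MonoidHom.fst Ω₁ Ω₂)).prod (P.map (MonoidHom.snd Ω₁ Ω₂))) P ≤
      autInducedBy (S₁.prod S₂) P := by
    intro β hβ
    obtain ⟨b, hb, hβb⟩ := (mem_autInducedBy_iff _ P β).mp hβ
    exact (mem_autInducedBy_iff _ P β).mpr ⟨b, hhatS hb, hβb⟩
  have hBle : autInducedBy ((P.map (MonoidHom.fst Ω₁ Ω₂)).prod (P.map (MonoidHom.snd Ω₁ Ω₂))) P ≤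
      E.autGroup P := hBS.trans (autInducedBy_le_autGroup E hPS)
  have hBn : ∀ α ∈ E.autGroup P, ∀ β ∈ autInducedBy
      ((P.map (MonoidHom.fst Ω₁ Ω₂)).prod (P.map (MonoidHom.snd Ω₁ Ω₂))) P,
      α * β * α⁻¹ ∈ autInducedBy
        ((P.map (MonoidHom.fst Ω₁ Ω₂)).prod (P.map (MonoidHom.snd Ω₁ Ω₂))) P := by
    intro α hα β hβ
    obtain ⟨b, hb, hβb⟩ := (mem_autInducedBy_iff _ P β).mp hβ
    have hm := (mem_autGroup_iff E hPS α).mp hα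
    obtain ⟨-, f₁, f₂, m₁, m₂, hf⟩ := (mor_prod_iff hE P _).mp hm
    have mhat := mor_pf hE m₁ m₂
    have hpfP : ∀ x ∈ P, pf f₁ f₂ x ∈ P := fun x hx => by
      have h3 : pf f₁ f₂ x = autFun P α x := (hf x hx).symm
      rw [h3]
      exact autFun_mem α hx
    have hf₁ : ∀ x₁ ∈ P.map (MonoidHom.fst Ω₁ Ω₂), f₁ x₁ ∈ P.map (MonoidHom.fst Ω₁ Ω₂) := by
      rintro _ ⟨x, hx, rfl⟩
      exact ⟨pf f₁ f₂ x, hpfP x hx, rfl⟩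
    have hf₂ : ∀ x₂ ∈ P.map (MonoidHom.snd Ω₁ Ω₂), f₂ x₂ ∈ P.map (MonoidHom.snd Ω₁ Ω₂) := by
      rintro _ ⟨x, hx, rfl⟩
      exact ⟨pf f₁ f₂ x, hpfP x hx, rfl⟩
    rw [mem_autInducedBy_iff]
    refine ⟨pf f₁ f₂ b, ⟨hf₁ _ hb.1, hf₂ _ hb.2⟩, fun x => ?_⟩
    have hy : ((α⁻¹ x : P) : Ω₁ × Ω₂) ∈ P := (α⁻¹ x).2
    have e1 : (((α * β * α⁻¹) x : P) : Ω₁ × Ω₂) = autFun P α ((β (α⁻¹ x) : P) : Ω₁ × Ω₂) :=
      (autFun_apply α (β (α⁻¹ x))).symm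
    have e2 : pf f₁ f₂ ((α⁻¹ x : P) : Ω₁ × Ω₂) = (x : Ω₁ × Ω₂) := by
      have h3 : pf f₁ f₂ ((α⁻¹ x : P) : Ω₁ × Ω₂) = autFun P α ((α⁻¹ x : P) : Ω₁ × Ω₂) :=
        (hf _ hy).symm
      rw [h3, autFun_apply]
      simp
    rw [e1, hf _ (β (α⁻¹ x)).2, hβb]
    show pf f₁ f₂ (b * ((α⁻¹ x : P) : Ω₁ × Ω₂) * b⁻¹) = _
    rw [mhat.map_mul (Subgroup.mul_mem _ hb (hPle hy)) (Subgroup.inv_mem _ hb),
      mhat.map_mul hb (hPle hy), mhat.map_inv hb, e2]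
  have hBcore := le_pCore_map _ hBp hBle hBn
  have hc1 : Cfsg.Agent.Lib.Helper87.conjAut P a haN ∈ autInducedBy
      ((P.map (MonoidHom.fst Ω₁ Ω₂)).prod (P.map (MonoidHom.snd Ω₁ Ω₂))) P :=
    Cfsg.Agent.Lib.Helper87.conjAut_mem_autInducedBy _ P haN ha
  obtain ⟨r, hr, hrq⟩ := (mem_Inn_iff _).mp (hle ⟨hBS hc1, hBcore hc1⟩)
  have hcent : r⁻¹ * a ∈ centralizerIn (S₁.prod S₂) P := by
    refine ⟨Subgroup.mul_mem _ (Subgroup.inv_mem _ (hPS hr)) (hhatS ha),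
      Subgroup.mem_centralizer_iff.mpr (fun x hx => ?_)⟩
    have h5 : a * x * a⁻¹ = r * x * r⁻¹ := hrq ⟨x, hx⟩
    have h6 : x * (r⁻¹ * a) = r⁻¹ * (r * x * r⁻¹) * a := by group
    rw [h6, ← h5]
    group
  have h7 : r⁻¹ * a ∈ P := hc.2 P (isConj_refl E hPS) hcent
  have h8 : a = r * (r⁻¹ * a) := by group
  rw [h8] at haP
  exact haP (Subgroup.mul_mem _ hr h7)

/-- Let F₁ and F₂ be saturated fusion systems over finite p-groups S₁ and S₂. Then their direct product (the fusion system over S₁ × S₂ whose maps are the restrictions of the product maps (φ₁, φ₂)) is saturated. -/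
theorem result {Ω₁ Ω₂ : Type*} [Group Ω₁] [Group Ω₂] {S₁ : Subgroup Ω₁} {S₂ : Subgroup Ω₂} [Finite S₁] [Finite S₂] (p : ℕ) [Fact p.Prime] (h₁ : IsPGroup p S₁) (h₂ : IsPGroup p S₂) (F₁ : Cfsg.FusionSystem S₁) (F₂ : Cfsg.FusionSystem S₂) (hF₁ : F₁.IsSaturated p) (hF₂ : F₂.IsSaturated p) (E : Cfsg.FusionSystem (S₁.prod S₂)) (hE : Cfsg.FusionSystem.IsProductSystem F₁ F₂ E) : E.IsSaturated p := by
  have : Finite (S₁.prod S₂) := Finite.of_equiv _ (S₁.prodEquiv S₂).symm.toEquiv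
  have hS : IsPGroup p (S₁.prod S₂) := by
    intro g
    obtain ⟨a, ha⟩ := h₁ ⟨g.1.1, g.2.1⟩
    obtain ⟨b, hb⟩ := h₂ ⟨g.1.2, g.2.2⟩
    refine ⟨a + b, ?_⟩
    apply Subtype.ext
    apply Prod.ext
    · have e1 : (g.1.1) ^ p ^ a = 1 := congrArg Subtype.val ha
      show (g.1.1) ^ p ^ (a + b) = 1
      rw [pow_add, pow_mul, e1, one_pow]
    · have e2 : (g.1.2) ^ p ^ b = 1 := congrArg Subtype.val hb
      show (g.1.2) ^ p ^ (a + b) = 1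
      rw [pow_add, mul_comm, pow_mul, e2, one_pow]
  refine Cfsg.Agent.S5110.result p hS E
    {P | ∃ (P₁ : Subgroup Ω₁) (P₂ : Subgroup Ω₂), P₁ ≤ S₁ ∧ P₂ ≤ S₂ ∧ P = P₁.prod P₂}
    ?_ ?_ ?_ ?_ ?_
  · rintro P ⟨P₁, P₂, hP₁, hP₂, rfl⟩
    exact Subgroup.prod_mono hP₁ hP₂
  · rintro P ⟨P₁, P₂, hP₁, hP₂, rfl⟩ Q hQ
    obtain ⟨f, hm, himg⟩ := isConj_iff.mp hQ
    obtain ⟨f₁, f₂, m₁, m₂, hf⟩ := mor_prod hE hm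
    refine ⟨img P₁ f₁, img P₂ f₂, m₁.img_le, m₂.img_le, ?_⟩
    rw [← himg, img_congr hf, img_pf hE m₁ m₂]
  · rintro P ⟨P₁, P₂, hP₁, hP₂, rfl⟩
    obtain ⟨Q₁, hc₁, hfa₁, hrec₁⟩ := hF₁ P₁ hP₁
    obtain ⟨Q₂, hc₂, hfa₂, hrec₂⟩ := hF₂ P₂ hP₂
    obtain ⟨f₁, m₁, i₁⟩ := isConj_iff.mp hc₁
    obtain ⟨f₂, m₂, i₂⟩ := isConj_iff.mp hc₂
    refine ⟨Q₁.prod Q₂, isConj_iff.mpr ⟨pf f₁ f₂, mor_pf hE m₁ m₂, ?_⟩,
      fa_prod hE hfa₁ hfa₂, rec_prod hE hrec₁ hrec₂⟩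
    rw [img_pf hE m₁ m₂, i₁, i₂]
  · intro E' hE' P φ hφ
    have hm : Mor E P (extFun P φ) := mor_of_hom hφ
    obtain ⟨hP, f₁, f₂, m₁, m₂, hf⟩ := (mor_prod_iff hE P _).mp hm
    have mhat := mor_pf hE m₁ m₂
    obtain ⟨ψ, hψ, hψf⟩ := mhat
    have hψ' : ψ ∈ E'.Hom _ := hE' _ ⟨_, _, m₁.le, m₂.le, rfl⟩ hψ
    have m'' : Mor E' ((P.map (MonoidHom.fst Ω₁ Ω₂)).prod (P.map (MonoidHom.snd Ω₁ Ω₂)))
      (pf f₁ f₂) := ⟨ψ, hψ', hψf⟩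
    have m' : Mor E' P (pf f₁ f₂) := Mor.restrict m'' (le_prod_map P)
    exact m'.hom φ (fun x => by rw [← extFun_apply P φ x, hf x x.2]; rfl)
  · intro P hc hP
    refine ⟨P, isConj_refl E hc.1, star_prod hS hE P hc (fun h => hP ⟨_, _, ?_, ?_, h⟩)⟩
    · rintro _ ⟨x, hx, rfl⟩
      exact (hc.1 hx).1
    · rintro _ ⟨x, hx, rfl⟩
      exact (hc.1 hx).2

end Cfsg.Agent.S5137
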