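import Cfsg.Statements.S5140
import Cfsg.Agent.S5114
import Cfsg.Agent.S5110
import Cfsg.Agent.Lib.Helper91.Sat2
import Cfsg.Agent.Lib.Helper91.SylCard

set_option autoImplicit false
open Cfsg

namespace Cfsg.Agent.S5140

open Cfsg.FusionSystem Cfsg.Agent.Lib.Helper90 Cfsg.Agent.Lib.Helper91 Cfsg.Agent.Lib.Helper88

variable {Ω : Type*} [Group Ω] {S : Subgroup Ω} {F : FusionSystem S} {p : ℕ}
  {P Q : Subgroup Ω} {f g : Ω → Ω}

/-- Maps lying in every fusion system over `S` whose automorphism groups of `F`-centric subgroups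
contain the `p`-elements of those of `F`. -/
def C0 (F : FusionSystem S) (p : ℕ) (P : Subgroup Ω) (f : Ω → Ω) : Prop :=
  Mor F P f ∧ ∀ D : FusionSystem S,
    (∀ Q : Subgroup Ω, F.IsCentric Q → S5114.opP p (F.autGroup Q) ≤ D.autGroup Q) → Mor D P f

def sys0 (F : FusionSystem S) (p : ℕ) : FusionSystem S :=
  mkSys F S (C0 F p)
    (fun _ _ _ h hfg => ⟨h.1.congr hfg, fun D hD => (h.2 D hD).congr hfg⟩)
    (fun _ _ h => h.1)
    (fun _ _ h => ⟨h.1.le, fun _ hx => h.1.mem hx⟩)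
    (fun _ _ hP ha => ⟨mor_conj F hP ha, fun D _ => mor_conj D hP ha⟩)
    (fun _ _ _ _ hf hg hPQ => ⟨hf.1.comp hg.1 hPQ, fun D hD => (hf.2 D hD).comp (hg.2 D hD) hPQ⟩)
    (fun _ _ h => ⟨h.1.inv, fun D hD => (h.2 D hD).inv⟩)

theorem mor_sys0_iff : Mor (sys0 F p) P f ↔ C0 F p P f :=
  mor_mkSys_iff _ _ _ _ _ _ _ _ _

theorem opP_le {G : Type*} [Group G] (p : ℕ) (H : Subgroup G) : S5114.opP p H ≤ H :=
  (Subgroup.closure_le H).mpr (fun _ ha => ha.1)

theorem sys0_opP (hQ : F.IsCentric Q) : S5114.opP p (F.autGroup Q) ≤ (sys0 F p).autGroup Q := by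
  intro κ hκ
  rw [mem_autGroup_iff _ hQ.1, mor_sys0_iff]
  exact ⟨(mem_autGroup_iff F hQ.1 κ).mp (opP_le p _ hκ),
    fun D hD => (mem_autGroup_iff D hQ.1 κ).mp (hD Q hQ hκ)⟩

theorem inv_congr {E : FusionSystem S} (h : S5114.Inv F E P f) (hfg : ∀ x ∈ P, f x = g x) :
    S5114.Inv F E P g := by
  refine ⟨h.1.congr hfg, fun β hβ => (h.2 β hβ).congr (fun y hy => ?_)⟩
  have hβP : Mor F P (autFun S β) := (S5114.aF_mor hβ).restrict h.1.le
  obtain ⟨x, hx, rfl⟩ := hβP.mem_img.mp hy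
  show autFun S β (f (autFun S β⁻¹ (autFun S β x))) = autFun S β (g (autFun S β⁻¹ (autFun S β x)))
  rw [autFun_inv_apply' β (h.1.le hx), hfg x hx]

theorem inv_conjMap {E : FusionSystem S} (hP : P ≤ S) {a : Ω} (ha : a ∈ S) :
    S5114.Inv F E P (fun x => a * x * a⁻¹) := by
  refine ⟨mor_conj E hP ha, fun β hβ => ?_⟩
  have hβP : Mor F P (autFun S β) := (S5114.aF_mor hβ).restrict hP
  refine (mor_conj E hβP.img_le ((S5114.aF_mor hβ).mem ha)).congr (fun y hy => ?_)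
  obtain ⟨x, hx, rfl⟩ := hβP.mem_img.mp hy
  show autFun S β a * autFun S β x * (autFun S β a)⁻¹ =
    autFun S β (a * (autFun S β⁻¹ (autFun S β x)) * a⁻¹)
  rw [autFun_inv_apply' β (hP hx), S5114.aF_conj β ha (hP hx)]

def sys1 (F : FusionSystem S) (p : ℕ) : FusionSystem S :=
  mkSys F S (S5114.Inv F (sys0 F p))
    (fun _ _ _ h hfg => inv_congr h hfg)
    (fun _ _ h => (mor_sys0_iff.mp h.1).1)
    (fun _ _ h => ⟨h.1.le, fun _ hx => h.1.mem hx⟩)
    (fun _ _ hP ha => inv_conjMap hP ha)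
    (fun _ _ _ _ hf hg hPQ => S5114.inv_comp hf hg hPQ)
    (fun _ _ h => S5114.inv_inv' h)

theorem mor_sys1_iff : Mor (sys1 F p) P f ↔ S5114.Inv F (sys0 F p) P f :=
  mor_mkSys_iff _ _ _ _ _ _ _ _ _

theorem sys1_mor (h : Mor (sys1 F p) P f) : Mor F P f :=
  (mor_sys0_iff.mp (mor_sys1_iff.mp h).1).1

theorem sys1_opP [Finite S] (hQ : F.IsCentric Q) :
    S5114.opP p (F.autGroup Q) ≤ (sys1 F p).autGroup Q := by
  intro κ hκ
  rw [mem_autGroup_iff _ hQ.1, mor_sys1_iff]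
  exact S5114.inv_opP (fun _ hP => sys0_opP hP) hQ hκ

theorem sys1_conj (h : Mor (sys1 F p) P f) {β : MulAut S} (hβ : β ∈ F.autGroup S) :
    Mor (sys1 F p) (img P (autFun S β)) (autFun S β ∘ f ∘ autFun S β⁻¹) :=
  mor_sys1_iff.mpr (S5114.inv_conj (mor_sys1_iff.mp h) hβ)

theorem sys1_min (h : Mor (sys1 F p) P f) (D : FusionSystem S)
    (hD : ∀ Q : Subgroup Ω, F.IsCentric Q → S5114.opP p (F.autGroup Q) ≤ D.autGroup Q) :
    Mor D P f :=
  (mor_sys0_iff.mp (mor_sys1_iff.mp h).1).2 D hD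

theorem sys1_decomp [Finite S] [Fact p.Prime] (hS : IsPGroup p S) (hF : F.IsSaturated p)
    (h : Mor F P f) :
    ∃ α ∈ F.autGroup S, ∃ f₀, Mor (sys1 F p) P f₀ ∧ ∀ x ∈ P, f x = autFun S α (f₀ x) := by
  obtain ⟨α, hα, f₀, hf₀, hff⟩ :=
    S5114.good_all (E := sys1 F p) hS hF (fun _ hP => sys1_opP hP) P f h
  exact ⟨α, hα, f₀, hf₀.1, hff⟩

/-- The subgroup of `Aut_F(S)` generated by the automorphisms whose restriction to some
`F`-centric subgroup lies in `sys1`. -/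
def A0 (F : FusionSystem S) (p : ℕ) : Subgroup (MulAut S) :=
  Subgroup.closure {α | α ∈ F.autGroup S ∧ ∃ P, F.IsCentric P ∧ Mor (sys1 F p) P (autFun S α)}

theorem A0_le : A0 F p ≤ F.autGroup S :=
  (Subgroup.closure_le _).mpr (fun _ h => h.1)

def C1 (F : FusionSystem S) (p : ℕ) (P : Subgroup Ω) (f : Ω → Ω) : Prop :=
  ∃ α ∈ A0 F p, ∃ f₀, Mor (sys1 F p) P f₀ ∧ ∀ x ∈ P, f x = autFun S α (f₀ x)

theorem C1_mor (h : C1 F p P f) : Mor F P f := by
  obtain ⟨α, hα, f₀, h0, hf⟩ := h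
  have h0F := sys1_mor h0
  exact (h0F.comp (S5114.aF_mor (A0_le hα)) (fun x hx => h0F.mem hx)).congr
    (fun x hx => (hf x hx).symm)

theorem C1_comp (hf : C1 F p P f) (hg : C1 F p Q g) (hPQ : ∀ x ∈ P, f x ∈ Q) :
    C1 F p P (g ∘ f) := by
  obtain ⟨α, hα, f₀, h0, hf0⟩ := hf
  obtain ⟨β, hβ, g₀, hg0, hgg⟩ := hg
  have hαF : α ∈ F.autGroup S := A0_le hα
  have h0F := sys1_mor h0
  have hg0F := sys1_mor hg0
  have hQS : Q ≤ S := hg0F.le
  have hc := sys1_conj hg0 ((F.autGroup S).inv_mem hαF)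
  rw [inv_inv] at hc
  have hαQ : Mor F Q (autFun S α⁻¹) :=
    (S5114.aF_mor ((F.autGroup S).inv_mem hαF)).restrict hQS
  have hmem : ∀ x ∈ P, f₀ x ∈ img Q (autFun S α⁻¹) := by
    intro x hx
    refine hαQ.mem_img.mpr ⟨f x, hPQ x hx, ?_⟩
    rw [hf0 x hx, autFun_inv_apply' α (h0F.mem hx)]
  refine ⟨β * α, (A0 F p).mul_mem hβ hα, _, h0.comp hc hmem, fun x hx => ?_⟩
  have hfx : f x ∈ Q := hPQ x hx
  show g (f x) = autFun S (β * α) (autFun S α⁻¹ (g₀ (autFun S α (f₀ x))))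
  rw [← hf0 x hx, S5114.aF_mul β α (autFun_mem α⁻¹ (hg0F.mem hfx)),
    autFun_inv_apply α (hg0F.mem hfx), hgg _ hfx]

theorem C1_inv (hf : C1 F p P f) : C1 F p (img P f) (invFn P f) := by
  have hfF := C1_mor hf
  obtain ⟨α, hα, f₀, h0, hf0⟩ := hf
  have hαF : α ∈ F.autGroup S := A0_le hα
  have h0F := sys1_mor h0
  have hc := sys1_conj h0.inv hαF
  have himg : img P f = img (img P f₀) (autFun S α) := by
    rw [← Mor.img_comp h0F (S5114.aF_mor hαF) (fun x hx => h0F.mem hx)]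
    exact img_congr hf0
  rw [← himg] at hc
  refine ⟨α⁻¹, (A0 F p).inv_mem hα, _, hc, fun y hy => ?_⟩
  obtain ⟨x, hx, rfl⟩ := hfF.mem_img.mp hy
  show invFn P f (f x) = autFun S α⁻¹ (autFun S α (invFn P f₀ (autFun S α⁻¹ (f x))))
  rw [hfF.invFn_apply hx, hf0 x hx, autFun_inv_apply' α (h0F.mem hx), h0F.invFn_apply hx,
    autFun_inv_apply' α (h0F.le hx)]

def sys2 (F : FusionSystem S) (p : ℕ) : FusionSystem S :=
  mkSys F S (C1 F p)
    (fun _ _ _ h hfg => by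
      obtain ⟨α, hα, f₀, h0, hf⟩ := h
      exact ⟨α, hα, f₀, h0, fun x hx => (hfg x hx).symm.trans (hf x hx)⟩)
    (fun _ _ h => C1_mor h)
    (fun _ _ h => ⟨(C1_mor h).le, fun _ hx => (C1_mor h).mem hx⟩)
    (fun P a hP ha => ⟨1, (A0 F p).one_mem, _, mor_conj (sys1 F p) hP ha, fun x hx =>
      (S5114.aF_one (S.mul_mem (S.mul_mem ha (hP hx)) (S.inv_mem ha))).symm⟩)
    (fun _ _ _ _ hf hg hPQ => C1_comp hf hg hPQ)
    (fun _ _ h => C1_inv h)

theorem mor_sys2_iff : Mor (sys2 F p) P f ↔ C1 F p P f :=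
  mor_mkSys_iff _ _ _ _ _ _ _ _ _

theorem sys2_mor (h : Mor (sys2 F p) P f) : Mor F P f := C1_mor (mor_sys2_iff.mp h)

theorem sys1_le_sys2 (h : Mor (sys1 F p) P f) : Mor (sys2 F p) P f :=
  mor_sys2_iff.mpr ⟨1, (A0 F p).one_mem, f, h, fun _ hx =>
    (S5114.aF_one ((sys1_mor h).mem hx)).symm⟩

theorem hom_subset_of_mor {E D : FusionSystem S} (h : ∀ P f, Mor E P f → Mor D P f)
    (P : Subgroup Ω) : E.Hom P ⊆ D.Hom P := fun φ hφ =>
  (h P _ (mor_of_hom hφ)).hom φ (fun x => (extFun_apply P φ x).symm)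

theorem sys2_sub : (sys2 F p).IsSubsystemOf F :=
  hom_subset_of_mor (fun _ _ h => sys2_mor h)

theorem sys2_opP [Finite S] (hQ : F.IsCentric Q) :
    S5114.opP p (F.autGroup Q) ≤ (sys2 F p).autGroup Q := by
  intro κ hκ
  rw [mem_autGroup_iff _ hQ.1]
  exact sys1_le_sys2 ((mem_autGroup_iff _ hQ.1 κ).mp (sys1_opP hQ hκ))

theorem mem_A0_of_mor {α : MulAut S} (hα : α ∈ F.autGroup S) (hP : F.IsCentric P)
    (h : Mor (sys2 F p) P (autFun S α)) : α ∈ A0 F p := by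
  obtain ⟨β, hβ, f₀, h0, hf⟩ := mor_sys2_iff.mp h
  have h0F := sys1_mor h0
  have h1 : Mor (sys1 F p) P (autFun S (β⁻¹ * α)) := by
    refine h0.congr (fun x hx => ?_)
    rw [S5114.aF_mul β⁻¹ α (hP.1 hx), hf x hx, autFun_inv_apply' β (h0F.mem hx)]
  have h2 : β⁻¹ * α ∈ A0 F p :=
    Subgroup.subset_closure ⟨(F.autGroup S).mul_mem ((F.autGroup S).inv_mem (A0_le hβ)) hα,
      P, hP, h1⟩
  have h3 : α = β * (β⁻¹ * α) := by group
  rw [h3]
  exact (A0 F p).mul_mem hβ h2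

theorem centric_top [Finite S] (F : FusionSystem S) : F.IsCentric S := by
  refine ⟨le_rfl, fun Q hQ => ?_⟩
  obtain ⟨f, hf, himg⟩ := isConj_iff.mp hQ
  have hQS : Q ≤ S := himg ▸ hf.img_le
  have hcard : Nat.card Q = Nat.card S := by
    rw [← himg]
    exact hf.card_img
  have hQe : Q = S := Subgroup.eq_of_le_of_card_ge hQS (by rw [hcard])
  rw [hQe]
  exact fun x hx => hx.1

theorem sys2_index [Finite S] [Fact p.Prime] (hS : IsPGroup p S) (hF : F.IsSaturated p) :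
    (sys2 F p).HasPrimeToPIndexIn F p ∧ ∀ P : Subgroup Ω, (sys2 F p).IsCentric P ↔ F.IsCentric P := by
  have h := S5114.result p hS F hF (sys2 F p) sys2_sub (fun P hP => by
    rw [S5114.map_closure_eq]
    exact sys2_opP hP)
  exact ⟨h.1, h.2.2⟩

theorem sys2_saturated [Finite S] [Fact p.Prime] (hS : IsPGroup p S) (hF : F.IsSaturated p) :
    (sys2 F p).IsSaturated p := by
  have hcent := (sys2_index hS hF).2
  have hconjF : ∀ {P Q : Subgroup Ω}, (sys2 F p).IsConj P Q → F.IsConj P Q := by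
    rintro P Q ⟨φ, hφ, hr⟩
    exact ⟨φ, sys2_sub P hφ, hr⟩
  refine S5110.result p hS (sys2 F p) {P | F.IsCentric P} (fun P hP => hP.1)
    (fun P hP Q hQ => centric_of_isConj hP (hconjF hQ)) ?_ ?_ ?_
  · intro P hP
    obtain ⟨P', hconj, hfn⟩ := exists_fullyNormalized_conj F hP.1
    obtain ⟨f, hf, himg⟩ := isConj_iff.mp hconj
    obtain ⟨α, hα, f₀, h0, hff⟩ := sys1_decomp hS hF hf
    have h0F := sys1_mor h0
    have hQS : img P f₀ ≤ S := h0F.img_le
    have hQc : F.IsCentric (img P f₀) := centric_img hP h0F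
    have hαm := S5114.aF_mor hα
    have hαinv := S5114.aF_mor ((F.autGroup S).inv_mem hα)
    have hP'img : P' = img (img P f₀) (autFun S α) := by
      rw [← himg, ← Mor.img_comp h0F hαm (fun x hx => h0F.mem hx)]
      exact img_congr hff
    have hQP' : F.IsConj (img P f₀) P' := by
      rw [hP'img]
      exact isConj_of_mor (hαm.restrict hQS)
    have hfin : Finite (img P f₀) := finite_of_le hQS
    have hcard : Nat.card (normalizerIn S P') ≤ Nat.card (normalizerIn S (img P f₀)) := by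
      refine card_le_of_mor_into (hαinv.restrict (normalizerIn_le_S S P'))
        (normalizerIn_le_S S _) ?_
      intro a ha
      refine ⟨hαinv.mem ha.1, mem_normalizer_of_finite (fun q hq => ?_)⟩
      obtain ⟨x, hx, rfl⟩ := h0F.mem_img.mp hq
      have h1 : autFun S α (f₀ x) ∈ P' := by
        rw [← himg, ← hff x hx]
        exact hf.mem_img_of_mem hx
      have h2 : a * autFun S α (f₀ x) * a⁻¹ ∈ P' := conj_mem_of_mem_normalizer ha.2 h1
      rw [← himg] at h2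
      obtain ⟨x', hx', hx'e⟩ := hf.mem_img.mp h2
      have h3 : autFun S α⁻¹ a * f₀ x * (autFun S α⁻¹ a)⁻¹ = f₀ x' := by
        have h4 := S5114.aF_conj α⁻¹ ha.1 (hαm.mem (h0F.mem hx))
        rw [autFun_inv_apply' α (h0F.mem hx)] at h4
        rw [← h4, ← hx'e, hff x' hx', autFun_inv_apply' α (h0F.mem hx')]
      rw [h3]
      exact h0F.mem_img_of_mem hx'
    have hQfn : F.IsFullyNormalized (img P f₀) :=
      ⟨hQS, fun R hR => (hfn.2 R (isConj_trans' (isConj_symm' hQP') hR)).trans hcard⟩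
    obtain ⟨hfa, hrec⟩ := fa_rec_of_fullyNormalized hS hF hQfn
    refine ⟨img P f₀, isConj_of_mor (sys1_le_sys2 h0), ?_, ?_⟩
    · have hs := sylCard_of_fa hfa
      have hle1 : autInducedBy S (img P f₀) ≤ (sys2 F p).autGroup (img P f₀) :=
        autInducedBy_le_autGroup _ hQS
      have hle2 : (sys2 F p).autGroup (img P f₀) ≤ F.autGroup (img P f₀) := by
        intro κ hκ
        rw [mem_autGroup_iff F hQS]
        exact sys2_mor ((mem_autGroup_iff _ hQS κ).mp hκ)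
      exact ⟨hQS, sylCard_exists (sylCard_mono hs hle1 hle2)⟩
    · apply isReceptive_of hQS
      intro R f' hm himg'
      have hmF := sys2_mor hm
      obtain ⟨ψ, hψ, hψR⟩ := receptive_extend' hrec hmF himg'
      obtain ⟨α', hα', ψ₀, hψ0, hψψ⟩ := sys1_decomp hS hF hψ
      obtain ⟨β, hβ, g₀, hg0, hgg⟩ := mor_sys2_iff.mp hm
      have hRN : R ≤ extFn S R f' := hmF.le_extFn
      have hRQ : F.IsConj R (img P f₀) := himg' ▸ isConj_of_mor hmF
      have hRc : F.IsCentric R := centric_of_isConj hQc (isConj_symm' hRQ)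
      have hψ0R : Mor (sys1 F p) R ψ₀ := hψ0.restrict hRN
      have hψ0RF := sys1_mor hψ0R
      have hR'c : F.IsCentric (img R ψ₀) := centric_img hRc hψ0RF
      have hg0F := sys1_mor hg0
      have h1 : Mor (sys1 F p) (img R ψ₀) (autFun S (β⁻¹ * α')) := by
        refine (hψ0R.inv.comp hg0 (fun y hy => hψ0RF.invFn_mem hy)).congr (fun y hy => ?_)
        obtain ⟨x, hx, rfl⟩ := hψ0RF.mem_img.mp hy
        show g₀ (invFn R ψ₀ (ψ₀ x)) = _
        rw [hψ0RF.invFn_apply hx, S5114.aF_mul β⁻¹ α' (hψ0RF.mem hx), ← hψψ x (hRN hx),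
          hψR x hx, hgg x hx, autFun_inv_apply' β (hg0F.mem hx)]
      have hβF := A0_le hβ
      have h2 : β⁻¹ * α' ∈ A0 F p := Subgroup.subset_closure
        ⟨(F.autGroup S).mul_mem ((F.autGroup S).inv_mem hβF) hα', _, hR'c, h1⟩
      have h3 : α' = β * (β⁻¹ * α') := by group
      have hα'0 : α' ∈ A0 F p := by
        rw [h3]
        exact (A0 F p).mul_mem hβ h2
      exact ⟨ψ, mor_sys2_iff.mpr ⟨α', hα'0, ψ₀, hψ0, hψψ⟩, hψR⟩
  · intro E' hE' P φ hφ
    have hE'mor : ∀ Q : Subgroup Ω, F.IsCentric Q → ∀ g, Mor (sys2 F p) Q g → Mor E' Q g := by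
      rintro Q hQ g ⟨ψ, hψ, hg⟩
      exact ⟨ψ, hE' Q hQ hψ, hg⟩
    have hfam : ∀ Q : Subgroup Ω, F.IsCentric Q →
        S5114.opP p (F.autGroup Q) ≤ E'.autGroup Q := by
      intro Q hQ κ hκ
      rw [mem_autGroup_iff E' hQ.1]
      exact hE'mor Q hQ _ ((mem_autGroup_iff _ hQ.1 κ).mp (sys2_opP hQ hκ))
    obtain ⟨α, hα, f₀, h0, hf⟩ := mor_sys2_iff.mp (mor_of_hom hφ)
    have h0F := sys1_mor h0
    have hαE' : Mor E' S (autFun S α) := hE'mor S (centric_top F) _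
      (mor_sys2_iff.mpr ⟨α, hα, id, mor_id _ le_rfl, fun x _ => rfl⟩)
    have h0E' : Mor E' P f₀ := sys1_min h0 E' hfam
    exact ((h0E'.comp hαE' (fun x hx => h0F.mem hx)).congr (fun x hx => (hf x hx).symm)).hom φ
      (fun x => (extFun_apply P φ x).symm)
  · intro P hc hP
    exact absurd ((hcent P).mp hc) hP

theorem sys2_min [Finite S] [Fact p.Prime] (hS : IsPGroup p S) (hF : F.IsSaturated p)
    (D : FusionSystem S) (hDs : D.IsSaturated p) (hD : D.HasPrimeToPIndexIn F p) :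
    (sys2 F p).IsSubsystemOf D := by
  have hfam : ∀ Q : Subgroup Ω, F.IsCentric Q → S5114.opP p (F.autGroup Q) ≤ D.autGroup Q := by
    intro Q hQ
    rw [← S5114.map_closure_eq]
    exact hD.2 Q hQ.1
  have hA : A0 F p ≤ D.autGroup S := by
    refine (Subgroup.closure_le _).mpr ?_
    rintro α ⟨hα, P, hP, hm⟩
    have h1 : Mor D P (autFun S α) := sys1_min hm D hfam
    have h2 : Mor D S (autFun S α) :=
      mor_of_mor_on_centric hS hF hDs hD.1 (S5114.aF_mor hα) _ P rfl hP.1 hP h1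
    exact (mem_autGroup_iff D le_rfl α).mpr h2
  refine hom_subset_of_mor (fun P f h => ?_)
  obtain ⟨α, hα, f₀, h0, hf⟩ := mor_sys2_iff.mp h
  have h0F := sys1_mor h0
  exact ((sys1_min h0 D hfam).comp ((mem_autGroup_iff D le_rfl α).mp (hA hα))
    (fun x hx => h0F.mem hx)).congr (fun x hx => (hf x hx).symm)

/-- Let F be a saturated fusion system over a finite p-group S. Then F has a p'-residual subsystem: a saturated subsystem over S of index prime to p contained in every saturated subsystem over S of index prime to p. -/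
theorem result {Ω : Type*} [Group Ω] {S : Subgroup Ω} [Finite S] (p : ℕ) [Fact p.Prime] (hS : IsPGroup p S) (F : Cfsg.FusionSystem S) (hF : F.IsSaturated p) : ∃ E : Cfsg.FusionSystem S, F.IsPPrimeResidual p E := by
  exact ⟨sys2 F p, sys2_saturated hS hF, (sys2_index hS hF).1,
    fun D hDs hD => sys2_min hS hF D hDs hD⟩

end Cfsg.Agent.S5140
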