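import Cfsg.Statements.S5145
import Mathlib

set_option autoImplicit false
open Cfsg

namespace Cfsg.Agent.S5145

variable {Ω : Type*} [Group Ω] {S : Subgroup Ω}

theorem restrict_mem (F : FusionSystem S) {P P' : Subgroup Ω} {φ : P →* Ω} (hφ : φ ∈ F.Hom P)
    (h : P' ≤ P) : φ.comp (Subgroup.inclusion h) ∈ F.Hom P' := by
  have hPS := (F.le_of_mem hφ).1
  have h1 : conjHom P' 1 ∈ F.Hom P' := F.conj_mem (h.trans hPS) S.one_mem
  have h2 : ∀ x : P', conjHom P' 1 x ∈ P := by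
    intro x
    have : conjHom P' 1 x = (x : Ω) := by simp [conjHom]
    rw [this]
    exact h x.2
  have h3 := F.comp_mem h1 hφ h2
  have h4 : φ.comp ((conjHom P' 1).codRestrict P h2) = φ.comp (Subgroup.inclusion h) := by
    ext x
    simp only [MonoidHom.comp_apply]
    congr 1
    apply Subtype.ext
    simp [conjHom]
  rw [← h4]
  exact h3

theorem finite_of_le [Finite S] {K : Subgroup Ω} (h : K ≤ S) : Finite K :=
  Finite.of_injective (Subgroup.inclusion h) (Subgroup.inclusion_injective h)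

theorem map_restrict {K K' R : Subgroup Ω} (h : K' ≤ K) (hR : R ≤ K') (ψ : K →* Ω) :
    (R.subgroupOf K').map (ψ.comp (Subgroup.inclusion h)) = (R.subgroupOf K).map ψ := by
  ext y
  constructor
  · rintro ⟨x, hx, rfl⟩
    exact ⟨Subgroup.inclusion h x, hx, rfl⟩
  · rintro ⟨x, hx, rfl⟩
    have hx' : (x : Ω) ∈ R := hx
    exact ⟨⟨x, hR hx'⟩, hx', rfl⟩

theorem normal_bot (F : FusionSystem S) : F.IsNormal ⊥ := by
  refine ⟨bot_le, fun P φ hφ => ?_⟩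
  have h : P ⊔ ⊥ ≤ P := by simp
  refine ⟨φ.comp (Subgroup.inclusion h), restrict_mem F hφ h, ?_, ?_⟩
  · intro x
    rfl
  · rw [Subgroup.bot_subgroupOf, Subgroup.map_bot]

theorem normal_sup (F : FusionSystem S) {Q₁ Q₂ : Subgroup Ω} (h₁ : F.IsNormal Q₁)
    (h₂ : F.IsNormal Q₂) : F.IsNormal (Q₁ ⊔ Q₂) := by
  refine ⟨sup_le h₁.1 h₂.1, fun P φ hφ => ?_⟩
  obtain ⟨ψ₁, hψ₁, hψ₁P, hψ₁Q⟩ := h₁.2 P φ hφ
  obtain ⟨ψ₂, hψ₂, hψ₂P, hψ₂Q⟩ := h₂.2 (P ⊔ Q₁) ψ₁ hψ₁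
  have hle : P ⊔ (Q₁ ⊔ Q₂) ≤ P ⊔ Q₁ ⊔ Q₂ := by rw [sup_assoc]
  refine ⟨ψ₂.comp (Subgroup.inclusion hle), restrict_mem F hψ₂ hle, ?_, ?_⟩
  · intro x
    have := hψ₂P (Subgroup.inclusion le_sup_left x)
    rw [hψ₁P] at this
    exact this
  · rw [map_restrict hle le_sup_right ψ₂]
    have hQ₁K : Q₁ ≤ P ⊔ Q₁ ⊔ Q₂ := le_sup_right.trans le_sup_left
    have hQ₂K : Q₂ ≤ P ⊔ Q₁ ⊔ Q₂ := le_sup_right
    rw [Subgroup.subgroupOf_sup hQ₁K hQ₂K, Subgroup.map_sup, hψ₂Q]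
    have e : ψ₁ = ψ₂.comp (Subgroup.inclusion le_sup_left) := by
      ext x
      exact (hψ₂P x).symm
    have e2 := map_restrict (le_sup_left : P ⊔ Q₁ ≤ P ⊔ Q₁ ⊔ Q₂) le_sup_right ψ₂
    rw [← e, hψ₁Q] at e2
    rw [← e2]

/-- For a fusion system over a finite subgroup S, the join of all subgroups normal in the system is itself normal in the system, hence its largest normal subgroup. -/
theorem result {Ω : Type*} [Group Ω] {S : Subgroup Ω} [Finite S] (F : Cfsg.FusionSystem S) : F.IsNormal F.core := by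
  classical
  have hex : ∃ M, F.IsNormal M ∧ ∀ Q, F.IsNormal Q → Q ≤ M := by
    let Pr : ℕ → Prop := fun n => ∃ M, F.IsNormal M ∧ Nat.card M = n
    have h0 : Pr (Nat.card (⊥ : Subgroup Ω)) := ⟨⊥, normal_bot F, rfl⟩
    have hb : Nat.card (⊥ : Subgroup Ω) ≤ Nat.card S := Subgroup.card_le_of_le bot_le
    obtain ⟨M, hM, hMc⟩ := Nat.findGreatest_spec (P := Pr) hb h0
    refine ⟨M, hM, fun Q hQ => ?_⟩
    have hMQ := normal_sup F hM hQ
    have hle : Nat.card ↥(M ⊔ Q) ≤ Nat.card M := by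
      rw [hMc]
      exact Nat.le_findGreatest (P := Pr) (Subgroup.card_le_of_le hMQ.1) ⟨M ⊔ Q, hMQ, rfl⟩
    have : Finite ↥(M ⊔ Q) := finite_of_le hMQ.1
    have heq : M = M ⊔ Q := Subgroup.eq_of_le_of_card_ge le_sup_left hle
    rw [heq]
    exact le_sup_right
  obtain ⟨M, hM, hmax⟩ := hex
  have : F.core = M := le_antisymm (sSup_le fun Q hQ => hmax Q hQ) (le_sSup hM)
  rw [this]
  exact hM

end Cfsg.Agent.S5145
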