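import Cfsg.Statements.S5153
import Cfsg.Agent.Lib.Helper89.FusSat

set_option autoImplicit false
open Cfsg

namespace Cfsg.Agent.S5153

open Cfsg.FusionSystem Cfsg.Agent.Lib.Helper89

variable {Ω : Type*} [Group Ω]

theorem normal_fn {S U : Subgroup Ω} [Finite S] {p : ℕ} [Fact p.Prime] (hS : IsPGroup p S)
    (F : FusionSystem S) (hF : F.IsSaturated p) (D : FusionSystem U) (hD : D.IsNormalIn F p)
    (P : Subgroup Ω) (hPU : P ≤ U) (hP : F.IsFullyNormalized P) : D.IsFullyNormalized P := by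
  obtain ⟨⟨-, -, hsub, hsc, -, -⟩, -⟩ := hD
  have hUS : U ≤ S := hsc.1
  refine ⟨hPU, ?_⟩
  rintro Q ⟨φ, hφ, hφQ⟩
  have hφF : φ ∈ F.Hom P := hsub P hφ
  obtain ⟨ψ, hψ, hψ'⟩ := exists_inv F hφF hφQ
  have hψP : ψ.range = P := by
    apply le_antisymm
    · rintro _ ⟨⟨y, hy⟩, rfl⟩
      have hy' := hy
      rw [← hφQ] at hy'
      obtain ⟨x, rfl⟩ := hy'
      rw [hψ' x hy]
      exact x.2
    · intro x hx
      exact ⟨⟨φ ⟨x, hx⟩, hφQ ▸ ⟨_, rfl⟩⟩, hψ' ⟨x, hx⟩ _⟩
  obtain ⟨χ, hχ, -, -, h3⟩ := exists_map_normalizer_fn hS F hF ψ hψ hψP hP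
  have hle : normalizerIn U Q ≤ normalizerIn S Q := fun g hg => ⟨hUS hg.1, hg.2⟩
  have hχU : χ.comp (Subgroup.inclusion hle) ∈ F.Hom (normalizerIn U Q) := restrict_mem F hχ hle
  have hval : ∀ g : normalizerIn U Q, χ (Subgroup.inclusion hle g) ∈ normalizerIn U P := by
    intro g
    exact ⟨hsc.2 (normalizerIn U Q) inf_le_left _ hχU g, (h3 _).2⟩
  have : Finite (normalizerIn U P) := finite_of_le ((normalizerIn_le (S := U) P).trans hUS)
  refine Nat.card_le_card_of_injective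
    (fun g : normalizerIn U Q => (⟨χ (Subgroup.inclusion hle g), hval g⟩ : normalizerIn U P)) ?_
  intro a b hab
  have h4 : χ (Subgroup.inclusion hle a) = χ (Subgroup.inclusion hle b) :=
    congrArg Subtype.val hab
  have h5 := F.injective_of_mem hχ h4
  exact Subgroup.inclusion_injective hle h5

theorem subnormal_le {p : ℕ} {T S : Subgroup Ω} {E : FusionSystem T} {F : FusionSystem S}
    (h : E.IsSubnormalIn F p) : T ≤ S := by
  induction h with
  | refl F p => exact le_rfl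
  | step _ hDF ih => exact ih.trans hDF.1.2.2.2.1.1

theorem subnormal_fn {p : ℕ} {T S : Subgroup Ω} {E : FusionSystem T} {F : FusionSystem S}
    (h : E.IsSubnormalIn F p) : p.Prime → Finite S → IsPGroup p S → F.IsSaturated p →
    ∀ P : Subgroup Ω, P ≤ T → F.IsFullyNormalized P → E.IsFullyNormalized P := by
  induction h with
  | refl F p => intro _ _ _ _ P _ hP; exact hP
  | step hED hDF ih =>
    rename_i p
    intro hp hfin hS hF P hPT hP
    have : Fact p.Prime := ⟨hp⟩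
    have hUS := hDF.1.2.2.2.1.1
    have hTU := subnormal_le hED
    have hD := normal_fn hS _ hF _ hDF P (hPT.trans hTU) hP
    exact ih hp (finite_of_le hUS) (hS.to_le hUS) hDF.1.1 P hPT hD

theorem result {Ω : Type*} [Group Ω] {S : Subgroup Ω} [Finite S] (p : ℕ) [Fact p.Prime] (hS : IsPGroup p S) (F : Cfsg.FusionSystem S) (hF : F.IsSaturated p) {T : Subgroup Ω} (E : Cfsg.FusionSystem T) (hE : E.IsSubnormalIn F p) (P : Subgroup Ω) (hPT : P ≤ T) (hP : F.IsFullyNormalized P) : E.IsFullyNormalized P :=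
  subnormal_fn hE Fact.out inferInstance hS hF P hPT hP

end Cfsg.Agent.S5153
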