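import Cfsg.Statements.S5198
import Cfsg.Agent.Lib.Helper90.Lift
import Cfsg.Agent.Lib.Helper89.FusHyp

set_option autoImplicit false
open Cfsg

namespace Cfsg.Agent.S5198

open Cfsg.FusionSystem Cfsg.Agent.Lib.Helper90

variable {Ω : Type*} [Group Ω] {S : Subgroup Ω}

/-- `O^p(Aut_F(T)) Inn(T)` -/
def A0 (F : FusionSystem S) (p : ℕ) (T : Subgroup Ω) : Subgroup (MulAut T) :=
  (pResidual p (F.autGroup T)).map (F.autGroup T).subtype ⊔ Inn T

theorem A0_conj_mem (F : FusionSystem S) (p : ℕ) (T : Subgroup Ω) {γ a : MulAut T}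
    (hγ : γ ∈ F.autGroup T) (ha : a ∈ A0 F p T) : γ * a * γ⁻¹ ∈ A0 F p T := by
  have ha' : a ∈ Subgroup.closure
      (((pResidual p (F.autGroup T)).map (F.autGroup T).subtype : Set (MulAut T)) ∪
        (Inn T : Set (MulAut T))) := by
    rw [← Subgroup.sup_eq_closure]; exact ha
  clear ha
  induction ha' using Subgroup.closure_induction with
  | mem b hb =>
    rcases hb with ⟨b, hb, rfl⟩ | hb
    · apply Subgroup.mem_sup_left
      have hmem := Cfsg.Agent.Lib.Helper89.pResidual_conj_mem p hb (⟨γ, hγ⟩ : F.autGroup T)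
      exact Subgroup.mem_map.mpr ⟨_, hmem, rfl⟩
    · exact Subgroup.mem_sup_right (Inn_conj_mem γ b hb)
  | one =>
    have e : γ * 1 * γ⁻¹ = 1 := by group
    rw [e]; exact Subgroup.one_mem _
  | mul b c _ _ hb hc =>
    have e : γ * (b * c) * γ⁻¹ = (γ * b * γ⁻¹) * (γ * c * γ⁻¹) := by group
    rw [e]; exact Subgroup.mul_mem _ hb hc
  | inv b _ hb =>
    have e : γ * b⁻¹ * γ⁻¹ = (γ * b * γ⁻¹)⁻¹ := by group
    rw [e]; exact Subgroup.inv_mem _ hb

/-- conjugation by `s` on `T` lies in `O^p(Aut_F(T)) Inn(T)` -/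
def Good (F : FusionSystem S) (p : ℕ) (T : Subgroup Ω) (s : Ω) : Prop :=
  ∃ a ∈ A0 F p T, ∀ t : T, ((a t : T) : Ω) = s * t * s⁻¹

theorem good_one (F : FusionSystem S) (p : ℕ) (T : Subgroup Ω) : Good F p T 1 :=
  ⟨1, Subgroup.one_mem _, fun t => by simp⟩

theorem good_mul {F : FusionSystem S} {p : ℕ} {T : Subgroup Ω} {s s' : Ω}
    (h1 : Good F p T s) (h2 : Good F p T s') : Good F p T (s * s') := by
  obtain ⟨a, ha, h⟩ := h1
  obtain ⟨b, hb, h'⟩ := h2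
  refine ⟨a * b, Subgroup.mul_mem _ ha hb, fun t => ?_⟩
  rw [MulAut.mul_apply, h, h']; group

theorem good_inv {F : FusionSystem S} {p : ℕ} {T : Subgroup Ω} {s : Ω}
    (h : Good F p T s) : Good F p T s⁻¹ := by
  obtain ⟨a, ha, h⟩ := h
  refine ⟨a⁻¹, Subgroup.inv_mem _ ha, fun t => ?_⟩
  have h1 := h (a⁻¹ t)
  rw [MulAut.apply_inv_self] at h1
  rw [h1]; group

theorem good_gen [Finite S] {p : ℕ} [Fact p.Prime] (hS : IsPGroup p S) (F : FusionSystem S)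
    (hF : F.IsSaturated p) {T : Subgroup Ω} (hT : F.StronglyClosed T) {P : Subgroup Ω}
    (hP : P ≤ S) (a : MulAut P) (ha : a ∈ F.autGroup P) (hcop : Nat.Coprime (orderOf a) p)
    (x : P) : Good F p T ((x : Ω)⁻¹ * ((a x : P) : Ω)) := by
  have hp : p.Prime := Fact.out
  have hTS : T ≤ S := hT.1
  have hPT : P ⊔ T ≤ S := sup_le hP hTS
  have hfinPT : Finite ↥(P ⊔ T) := finite_of_le hPT
  have hfinT : Finite T := finite_of_le hTS
  have hfinP : Finite P := finite_of_le hP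
  have hnorm : ∀ s ∈ S, s ∈ Subgroup.normalizer (T : Set Ω) := fun s hs =>
    mem_normalizer_of_finite fun t ht => stronglyClosed_conj_mem hT hs ht
  -- lift `a` modulo `T`
  have ham : Mor F P (autFun P a) := (mem_autGroup_iff F hP a).mp ha
  obtain ⟨f', hf', hf'P⟩ := liftT_of_stronglyClosed hS hF hT P _ ham
  have hf'T : ∀ t ∈ T, f' t ∈ T := fun t ht =>
    stronglyClosed_mor_mem hT (hf'.restrict le_sup_right) le_rfl ht
  have hf'PT : ∀ z ∈ P ⊔ T, f' z ∈ P ⊔ T := by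
    apply hf'.map_sup_le'
    · intro y hy
      have e : f' y = (f' y * (autFun P a y)⁻¹) * autFun P a y := by group
      rw [e]
      exact Subgroup.mul_mem _ (Subgroup.mem_sup_right (hf'P y hy))
        (Subgroup.mem_sup_left (autFun_mem a hy))
    · intro t ht; exact Subgroup.mem_sup_right (hf'T t ht)
  obtain ⟨ψ, hψF, hψ⟩ := exists_aut_of_mor hf' hf'PT
  have hψT : ∀ (i : ℕ) (t : ↥(P ⊔ T)), (t : Ω) ∈ T → (((ψ ^ i) t : ↥(P ⊔ T)) : Ω) ∈ T :=
    fun i t ht => Cfsg.Agent.Lib.Helper89.autGroup_apply_mem_of_stronglyClosed F hT hPT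
      (Subgroup.pow_mem _ hψF i) t ht
  have hpow : ∀ (i : ℕ) (y : P),
      (((ψ ^ i) ⟨y, Subgroup.mem_sup_left y.2⟩ : ↥(P ⊔ T)) : Ω) * (((a ^ i) y : P) : Ω)⁻¹ ∈ T := by
    intro i
    induction i with
    | zero => intro y; simp
    | succ i ih =>
      intro y
      rw [pow_succ, pow_succ, MulAut.mul_apply, MulAut.mul_apply]
      have h1 : ((ψ ⟨y, Subgroup.mem_sup_left y.2⟩ : ↥(P ⊔ T)) : Ω) * ((a y : P) : Ω)⁻¹ ∈ T := by
        rw [hψ]
        have := hf'P y y.2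
        rwa [autFun_apply] at this
      have h2 : ψ ⟨y, Subgroup.mem_sup_left y.2⟩ =
          (⟨((ψ ⟨y, Subgroup.mem_sup_left y.2⟩ : ↥(P ⊔ T)) : Ω) * ((a y : P) : Ω)⁻¹,
            Subgroup.mem_sup_right h1⟩ : ↥(P ⊔ T)) *
          ⟨a y, Subgroup.mem_sup_left (a y).2⟩ := by
        apply Subtype.ext; simp
      rw [h2, map_mul, Subgroup.coe_mul, mul_assoc]
      exact T.mul_mem (hψT i _ h1) (ih (a y))
  -- choose the exponent
  obtain ⟨k, m', hm', hn⟩ := Nat.exists_eq_pow_mul_and_not_dvd (orderOf_pos ψ).ne' p hp.ne_one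
  have hm'cop : Nat.Coprime m' p := (Nat.Coprime.symm ((Nat.Prime.coprime_iff_not_dvd hp).mpr hm'))
  have hmpos : 0 < orderOf a := orderOf_pos a
  have hφ : 0 < Nat.totient (orderOf a) := Nat.totient_pos.mpr hmpos
  set e : ℕ := (p ^ k) ^ Nat.totient (orderOf a) with he
  have hdvd : p ^ k ∣ e := dvd_pow_self _ hφ.ne'
  have hmod : e ≡ 1 [MOD orderOf a] :=
    Nat.ModEq.pow_totient (Nat.Coprime.pow_left k hcop.symm)
  have hae : a ^ e = a := by
    have := (pow_eq_pow_iff_modEq (x := a) (n := e) (m := 1)).mpr hmod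
    rwa [pow_one] at this
  have hψe : (ψ ^ e) ^ m' = 1 := by
    rw [← pow_mul]
    apply orderOf_dvd_iff_pow_eq_one.mp
    rw [hn]
    exact Nat.mul_dvd_mul_right hdvd m'
  have hψeF : ψ ^ e ∈ F.autGroup (P ⊔ T) := Subgroup.pow_mem _ hψF e
  have hψeP : ∀ y : P,
      (((ψ ^ e) ⟨y, Subgroup.mem_sup_left y.2⟩ : ↥(P ⊔ T)) : Ω) * ((a y : P) : Ω)⁻¹ ∈ T := by
    intro y
    have := hpow e y
    rwa [hae] at this
  -- restrict to `T`
  have hψem : Mor F (P ⊔ T) (autFun (P ⊔ T) (ψ ^ e)) := (mem_autGroup_iff F hPT _).mp hψeF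
  have hβT : ∀ t ∈ T, autFun (P ⊔ T) (ψ ^ e) t ∈ T := by
    intro t ht
    rw [autFun_apply' _ (Subgroup.mem_sup_right ht)]
    exact hψT e _ ht
  obtain ⟨β, hβF, hβ⟩ := exists_aut_of_mor (hψem.restrict le_sup_right) hβT
  have hβ' : ∀ t : T, ((β t : T) : Ω) =
      (((ψ ^ e) ⟨t, (le_sup_right : T ≤ P ⊔ T) t.2⟩ : ↥(P ⊔ T)) : Ω) := by
    intro t
    rw [hβ, autFun_apply' _ (Subgroup.mem_sup_right t.2)]
  have hβpow : β ^ m' = 1 := by
    apply MulEquiv.ext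
    intro t
    apply Subtype.ext
    rw [Cfsg.Agent.Lib.Helper89.pow_apply_of_restrict le_sup_right (ψ ^ e) β hβ' m' t, hψe]
    rfl
  have hβres : (⟨β, hβF⟩ : F.autGroup T) ∈ pResidual p (F.autGroup T) := by
    apply Cfsg.Agent.Lib.Helper89.mem_pResidual_of_pow_eq_one p hm'cop
    apply Subtype.ext
    simpa using hβpow
  -- the conjugation automorphisms
  have hxS : (x : Ω) ∈ S := hP x.2
  have hyPT : (((ψ ^ e) ⟨x, Subgroup.mem_sup_left x.2⟩ : ↥(P ⊔ T)) : Ω) ∈ P ⊔ T :=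
    ((ψ ^ e) ⟨x, Subgroup.mem_sup_left x.2⟩).2
  set y : Ω := (((ψ ^ e) ⟨x, Subgroup.mem_sup_left x.2⟩ : ↥(P ⊔ T)) : Ω) with hy
  have hyS : y ∈ S := hPT hyPT
  have ht0 : y * ((a x : P) : Ω)⁻¹ ∈ T := hψeP x
  set t0 : Ω := y * ((a x : P) : Ω)⁻¹ with ht0def
  have hax : ((a x : P) : Ω) = t0⁻¹ * y := by rw [ht0def]; group
  obtain ⟨cx, hcxF, hcx⟩ : ∃ c ∈ F.autGroup T, ∀ t : T, ((c t : T) : Ω) = (x : Ω) * t * (x : Ω)⁻¹ :=
    ⟨Cfsg.Agent.Lib.Helper89.conjAut T (x : Ω) (hnorm _ hxS),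
      Cfsg.Agent.Lib.Helper89.conjAut_mem_autGroup F hTS _ _ hxS, fun _ => rfl⟩
  obtain ⟨cy, hcy'⟩ : ∃ c : MulAut T, ∀ t : T, ((c t : T) : Ω) = y * t * y⁻¹ :=
    ⟨Cfsg.Agent.Lib.Helper89.conjAut T y (hnorm _ hyS), fun _ => rfl⟩
  obtain ⟨ct, hct⟩ : ∃ c : MulAut T, ∀ t : T, ((c t : T) : Ω) = t0 * t * t0⁻¹ :=
    ⟨Cfsg.Agent.Lib.Helper89.conjAut T t0 (hnorm _ (hTS ht0)), fun _ => rfl⟩
  have hinv : ∀ (c : MulAut T) (g : Ω), (∀ t : T, ((c t : T) : Ω) = g * t * g⁻¹) →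
      ∀ t : T, ((c⁻¹ t : T) : Ω) = g⁻¹ * t * g := by
    intro c g hc t
    have h1 := hc (c⁻¹ t)
    rw [MulAut.apply_inv_self] at h1
    rw [h1]; group
  have hcy : cy = β * cx * β⁻¹ := by
    apply MulEquiv.ext
    intro t
    apply Subtype.ext
    rw [hcy', MulAut.mul_apply, MulAut.mul_apply, hβ']
    have h3 : (⟨((cx (β⁻¹ t) : T) : Ω), (le_sup_right : T ≤ P ⊔ T) (cx (β⁻¹ t)).2⟩ : ↥(P ⊔ T)) =
        ⟨x, Subgroup.mem_sup_left x.2⟩ * ⟨((β⁻¹ t : T) : Ω), Subgroup.mem_sup_right (β⁻¹ t).2⟩ *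
          (⟨x, Subgroup.mem_sup_left x.2⟩ : ↥(P ⊔ T))⁻¹ := by
      apply Subtype.ext
      rw [Subgroup.coe_mul, Subgroup.coe_mul, Subgroup.coe_inv]
      exact hcx (β⁻¹ t)
    rw [h3, map_mul, map_mul, map_inv, Subgroup.coe_mul, Subgroup.coe_mul, Subgroup.coe_inv,
      ← hβ' (β⁻¹ t), MulAut.apply_inv_self]
  have hctInn : ct ∈ Inn T := (mem_Inn_iff ct).mpr ⟨t0, ht0, hct⟩
  have hmem : cx⁻¹ * ct⁻¹ * cy ∈ A0 F p T := by
    have e1 : cx⁻¹ * ct⁻¹ * cy = cx⁻¹ * (ct⁻¹ * β * (cx * β⁻¹ * cx⁻¹)) * (cx⁻¹)⁻¹ := by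
      rw [hcy]; group
    rw [e1]
    apply A0_conj_mem F p T (Subgroup.inv_mem _ hcxF)
    apply Subgroup.mul_mem
    · apply Subgroup.mul_mem
      · exact Subgroup.mem_sup_right (Subgroup.inv_mem _ hctInn)
      · exact Subgroup.mem_sup_left ⟨⟨β, hβF⟩, hβres, rfl⟩
    · apply Subgroup.mem_sup_left
      have hmem := Cfsg.Agent.Lib.Helper89.pResidual_conj_mem p (Subgroup.inv_mem _ hβres)
        (⟨cx, hcxF⟩ : F.autGroup T)
      exact Subgroup.mem_map.mpr ⟨_, hmem, rfl⟩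
  refine ⟨cx⁻¹ * ct⁻¹ * cy, hmem, fun t => ?_⟩
  rw [hax, MulAut.mul_apply, MulAut.mul_apply, hinv cx _ hcx, hinv ct _ hct, hcy']
  group

/-- For T strongly closed in saturated F: every x in hyp(F) acts on T as an element of O^p(Aut_F(T))·Inn(T). -/
theorem result {Ω : Type*} [Group Ω] {S : Subgroup Ω} [Finite S] (p : ℕ) [Fact p.Prime] (hS : IsPGroup p S) (F : Cfsg.FusionSystem S) (hF : F.IsSaturated p) (T : Subgroup Ω) (hT : F.StronglyClosed T) : ∀ x ∈ F.hyperfocalSubgroup p, ∃ α ∈ ((Cfsg.pResidual p ↥(F.autGroup T)).map (F.autGroup T).subtype ⊔ Cfsg.Inn ↥T : Subgroup (MulAut ↥T)), ∀ t : ↥T, ((α t : ↥T) : Ω) = x * (t : Ω) * x⁻¹ := by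
  intro x hx
  have key : ∀ y ∈ F.hyperfocalSubgroup p, Good F p T y := by
    intro y hy
    have hy' : y ∈ Subgroup.closure {y : Ω | ∃ (P : Subgroup Ω) (α : F.autGroup P) (x : P),
        P ≤ S ∧ α ∈ pResidual p (F.autGroup P) ∧ y = (x : Ω)⁻¹ * ((α : MulAut P) x : P)} := hy
    refine Subgroup.closure_induction (p := fun y _ => Good F p T y) ?_ ?_ ?_ ?_ hy'
    · rintro _ ⟨P, α, x, hP, hα, rfl⟩
      have gen : ∀ b ∈ pResidual p (F.autGroup P), ∀ x : P,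
          Good F p T ((x : Ω)⁻¹ * (((b : MulAut P) x : P) : Ω)) := by
        intro b hb
        have hb' : b ∈ Subgroup.closure {g : F.autGroup P | Nat.Coprime (orderOf g) p} := hb
        refine Subgroup.closure_induction (p := fun (b : F.autGroup P) _ => ∀ x : P,
          Good F p T ((x : Ω)⁻¹ * (((b : MulAut P) x : P) : Ω))) ?_ ?_ ?_ ?_ hb'
        · intro b hb x
          have hb' : Nat.Coprime (orderOf b) p := hb
          exact good_gen hS F hF hT hP b b.2 (by rw [Subgroup.orderOf_coe]; exact hb') x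
        · intro x
          have h0 : (x : Ω)⁻¹ * ((((1 : F.autGroup P) : MulAut P) x : P) : Ω) = 1 := by simp
          rw [h0]; exact good_one F p T
        · intro b c _ _ hb hc x
          have h3 : (x : Ω)⁻¹ * ((((b * c : F.autGroup P) : MulAut P) x : P) : Ω) =
              ((x : Ω)⁻¹ * (((c : MulAut P) x : P) : Ω)) *
                ((((c : MulAut P) x : P) : Ω)⁻¹ *
                  (((b : MulAut P) ((c : MulAut P) x) : P) : Ω)) := by
            rw [Subgroup.coe_mul, MulAut.mul_apply]; group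
          rw [h3]; exact good_mul (hc x) (hb _)
        · intro b _ hb x
          have h := hb ((b : MulAut P)⁻¹ x)
          rw [MulAut.apply_inv_self] at h
          have h3 : (x : Ω)⁻¹ * ((((b⁻¹ : F.autGroup P) : MulAut P) x : P) : Ω) =
              ((((b : MulAut P)⁻¹ x : P) : Ω)⁻¹ * (x : Ω))⁻¹ := by
            rw [Subgroup.coe_inv]; group
          rw [h3]; exact good_inv h
      exact gen α hα x
    · exact good_one F p T
    · intro y z _ _ hy hz; exact good_mul hy hz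
    · intro y _ hy; exact good_inv hy
  obtain ⟨a, ha, h⟩ := key x hx
  exact ⟨a, ha, h⟩

end Cfsg.Agent.S5198
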