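import Cfsg.Statements.S5199
import Cfsg.Agent.Lib.Helper89.FusAut
import Cfsg.Agent.Lib.Helper89.GroupAux

set_option autoImplicit false
open Cfsg

namespace Cfsg.Agent.S5199

open Cfsg.FusionSystem Cfsg.Agent.Lib.Helper89

theorem result {Ω : Type*} [Group Ω] {S : Subgroup Ω} [Finite S] (p : ℕ) [Fact p.Prime] (hS : IsPGroup p S) (F : Cfsg.FusionSystem S) (hF : F.IsSaturated p) {T U : Subgroup Ω} (E : Cfsg.FusionSystem T) (hE : E.IsNormalIn F p) (F₀ : Cfsg.FusionSystem U) (hF₀ : F₀.IsNormalIn F p) (hU : T ⊔ F.hyperfocalSubgroup p ≤ U) (hidx : F₀.HasPPowerIndexIn F p) : E.IsSubsystemOf F₀ := by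
  obtain ⟨⟨hEsat, -, hEF, hTsc, -, -⟩, -⟩ := hE
  have hTS : T ≤ S := hTsc.1
  have hTU : T ≤ U := le_sup_left.trans hU
  have : Finite T := finite_of_le hTS
  have hTp : IsPGroup p T := hS.to_le hTS
  refine alperin_le hTp E hEsat F₀ ?_
  intro R hfa hrec α hα
  have hRT : R ≤ T := hfa.1
  have hRU : R ≤ U := hRT.trans hTU
  have hRS : R ≤ S := hRT.trans hTS
  have : Finite R := finite_of_le hRT
  rw [← mem_autGroup_iff F₀ hRU]
  -- `Aut_E(R) ≤ Aut_F(R)`
  have hEF' : E.autGroup R ≤ F.autGroup R := by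
    intro β hβ
    rw [mem_autGroup_iff F hRS]
    exact hEF R ((mem_autGroup_iff E hRT β).mp hβ)
  obtain ⟨-, Sy, hSy⟩ := hfa
  obtain ⟨b, hb, s, hs, hbs⟩ := exists_mul_of_pResidual_sylow p Sy ⟨α, hα⟩
  have hα' : α = (b : MulAut R) * (s : MulAut R) := by
    simpa using congrArg Subtype.val hbs
  rw [hα']
  apply Subgroup.mul_mem
  · apply hidx.2.2 R hRU
    apply pResidual_map_mono p hEF'
    exact ⟨b, hb, rfl⟩
  · rw [hSy, Subgroup.mem_subgroupOf] at hs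
    obtain ⟨g, hg, hg'⟩ := (mem_autInducedBy_iff T R _).mp hs
    rw [mem_autGroup_iff F₀ hRU]
    exact conj_mem' F₀ hRU (hTU hg) _ fun x => hg' x

end Cfsg.Agent.S5199
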