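import Cfsg.Statements.S5222
import Cfsg.Agent.Lib.Helper88.FratC

set_option autoImplicit false
open Cfsg

namespace Cfsg.Agent.S5222

open Cfsg.FusionSystem Cfsg.Agent.Lib.Helper90 Cfsg.Agent.Lib.Helper91 Cfsg.Agent.Lib.Helper88

/-- Let F be a saturated fusion system over a finite p-group S whose normalizer fusion system of S is the inner fusion system of S (Aut_F(S) is a p-group). Then for every subgroup Q of S with [S, S] ≤ Q ≤ Φ(S), the normalizer fusion system of Q in F is the inner fusion system of N_S(Q) = S. -/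
theorem result {Ω : Type*} [Group Ω] {S : Subgroup Ω} [Finite S] (p : ℕ) [Fact p.Prime] (hS : IsPGroup p S) (F : Cfsg.FusionSystem S) (hF : F.IsSaturated p) (hN : ∀ N : Cfsg.FusionSystem (Cfsg.FusionSystem.normalizerIn S S), F.IsNormalizerSystem S N → ∀ P : Subgroup Ω, N.Hom P = (Cfsg.innerFusionSystem (Cfsg.FusionSystem.normalizerIn S S)).Hom P) (Q : Subgroup Ω) (h1 : (commutator ↥S).map S.subtype ≤ Q) (h2 : Q ≤ (frattini ↥S).map S.subtype) : ∀ N : Cfsg.FusionSystem (Cfsg.FusionSystem.normalizerIn S Q), F.IsNormalizerSystem Q N → ∀ P : Subgroup Ω, N.Hom P = (Cfsg.innerFusionSystem (Cfsg.FusionSystem.normalizerIn S Q)).Hom P := by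
  classical
  have hQS : Q ≤ S := h2.trans (Subgroup.map_subtype_le _)
  have hcomm : ∀ s ∈ S, ∀ t ∈ S, s * t * s⁻¹ * t⁻¹ ∈ Q := by
    intro s hs t ht
    apply h1
    refine ⟨(⟨s, hs⟩ : ↥S) * ⟨t, ht⟩ * (⟨s, hs⟩ : ↥S)⁻¹ * (⟨t, ht⟩ : ↥S)⁻¹, ?_, rfl⟩
    exact Subgroup.commutator_mem_commutator (g₁ := (⟨s, hs⟩ : ↥S)) (g₂ := (⟨t, ht⟩ : ↥S))
      (Subgroup.mem_top _) (Subgroup.mem_top _)
  have hfrat : ∀ Θ : ↥S →* Multiplicative (ZMod p), ∀ s : ↥S, (s : Ω) ∈ Q → Θ s = 1 := by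
    intro Θ s hs
    obtain ⟨s', hs', hss'⟩ := h2 hs
    have h3 : s' = s := Subtype.ext hss'
    rw [← h3]
    exact hom_zmod_kills_frattini Θ hs'
  have hInn : ∀ f, Mor F S f → ∃ u ∈ S, ∀ x ∈ S, f x = u * x * u⁻¹ := by
    intro f hf
    have hN0 := hN (normalizerSys F S le_rfl) (normalizerSys_isNormalizerSystem le_rfl) S
    have hnm : NMor F S S f :=
      ⟨hf, le_normalizerIn le_rfl, fun x hx => le_normalizerIn le_rfl (hf.mem hx), f,
        by rw [sup_idem]; exact hf, fun _ _ => rfl, fun x hx => hf.mem hx⟩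
    have hm : Mor (normalizerSys F S le_rfl) S f := (mor_normalizerSys_iff le_rfl).mpr hnm
    obtain ⟨φ, hφ, hφf⟩ := hm
    rw [hN0] at hφ
    obtain ⟨-, g, hg, hφg⟩ := hφ
    exact ⟨g, hg.1, fun x hx => by rw [← hφf ⟨x, hx⟩, hφg]⟩
  have htriv := frat_autQ_trivial hS hF hInn hQS hcomm hfrat
  have hQn := frat_normal hcomm (le_refl Q) hQS
  have hNQ : normalizerIn S Q = S := frat_normalizerIn hQn hQS
  intro N hNsys P
  ext φ
  constructor
  · intro hφ
    have hm : Mor N P (extFun P φ) := mor_of_hom hφ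
    obtain ⟨hmF, hPN, hval, f', hf', hf'P, hf'Q⟩ := (isNormalizerSystem_mor_iff hQS hNsys).mp hm
    have hPS : P ≤ S := hPN.trans inf_le_left
    have hQR : Q ≤ P ⊔ Q := le_sup_right
    have hRS : P ⊔ Q ≤ S := sup_le hPS hQS
    have hfinR : Finite (P ⊔ Q : Subgroup Ω) := finite_of_le hRS
    obtain ⟨γf, hγf, hγQ, hψR, u, hu, hγψ⟩ :=
      frat_key hS hF hInn hQS hcomm hQR hRS hf' hf'Q
    have hγR : ∀ g ∈ P ⊔ Q, γf g ∈ P ⊔ Q := by
      intro g hg
      have h3 : γf g = γf g * g⁻¹ * g := by group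
      rw [h3]
      exact Subgroup.mul_mem _ (hQR (hγQ g hg)) hg
    obtain ⟨γ, hγA, hγe⟩ := exists_aut_of_mor hγf hγR
    have hγC : γ ∈ frCC F Q (P ⊔ Q) := ⟨hγA, fun g => by rw [hγe]; exact hγQ g g.2⟩
    obtain ⟨w, hw, hγw⟩ := (mem_autInducedBy_iff S (P ⊔ Q) γ).mp
      (frat_CC_le hS hF hQS hcomm htriv hQR hRS hγC)
    refine ⟨hPN, w⁻¹ * u, ?_, fun x => ?_⟩
    · rw [hNQ]
      exact S.mul_mem (S.inv_mem hw) hu
    · have hxR : (x : Ω) ∈ P ⊔ Q := (le_sup_left : P ≤ P ⊔ Q) x.2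
      have h3 : f' x = φ x := by rw [hf'P x x.2, extFun_apply]
      have h4 := hγψ x hxR
      have h5 := hγw ⟨f' x, hψR x hxR⟩
      rw [hγe] at h5
      rw [← h3]
      have h6 : f' x = w⁻¹ * (γf (f' x)) * w := by
        rw [h5]; group
      rw [h6, h4]
      group
  · rintro ⟨hPN, g, hg, hφg⟩
    exact (mor_conj N hPN hg).hom φ (fun x => hφg x)

end Cfsg.Agent.S5222
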