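import Cfsg.Statements.S5223
import Cfsg.Agent.Lib.Helper89.FusAut

set_option autoImplicit false
open Cfsg

namespace Cfsg.Agent.S5223

open Cfsg.FusionSystem Cfsg.Agent.Lib.Helper89

theorem autGroup_isPGroup {Ω : Type*} [Group Ω] {S : Subgroup Ω} [Finite S] (p : ℕ) [Fact p.Prime]
    (hS : IsPGroup p S) (F : Cfsg.FusionSystem S) (n : ℕ)
    (Q : Fin (n + 1) → Subgroup Ω) (hQ0 : Q 0 = S) (hQn : Q (Fin.last n) = ⊥)
    (hstep : ∀ i : Fin n, Subgroup.closure {y : Ω | ∃ x ∈ Q i.castSucc,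
      ∃ φ ∈ F.Hom (Subgroup.zpowers x), y = x⁻¹ * φ ⟨x, Subgroup.mem_zpowers x⟩} ≤ Q i.succ)
    {R : Subgroup Ω} (hR : R ≤ S) : IsPGroup p (F.autGroup R) := by
  have : Finite R := finite_of_le hR
  apply isPGroup_of_coprime_trivial
  rintro ⟨β, hβ⟩ m hm hβm
  have hβm' : β ^ m = 1 := by simpa using congrArg Subtype.val hβm
  apply Subtype.ext
  show β = 1
  have hβF : R.subtype.comp β.toMonoidHom ∈ F.Hom R := (mem_autGroup_iff F hR β).mp hβ
  have hRp : IsPGroup p R := hS.to_le hR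
  have htors : ∀ u : R, u ^ m = 1 → u = 1 := by
    intro u hu
    obtain ⟨k, hk⟩ := hRp u
    have h1 : orderOf u ∣ p ^ k := orderOf_dvd_of_pow_eq_one hk
    have h2 : orderOf u ∣ m := orderOf_dvd_of_pow_eq_one hu
    have h3 : orderOf u ∣ Nat.gcd (p ^ k) m := Nat.dvd_gcd h1 h2
    have h4 : Nat.gcd (p ^ k) m = 1 := Nat.Coprime.pow_left k hm.symm
    rw [h4] at h3
    exact orderOf_eq_one_iff.mp (Nat.dvd_one.mp h3)
  have hmem : ∀ (i : ℕ) (hi : i ≤ n) (x : R),
      (((fun y : R => y⁻¹ * β y)^[i] x : R) : Ω) ∈ Q ⟨i, Nat.lt_succ_of_le hi⟩ := by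
    intro i
    induction i with
    | zero =>
      intro hi x
      have : (⟨0, Nat.lt_succ_of_le hi⟩ : Fin (n + 1)) = 0 := rfl
      rw [this, hQ0]
      exact hR x.2
    | succ i ih =>
      intro hi x
      have hi' : i < n := hi
      have h1 := ih hi'.le x
      rw [Function.iterate_succ_apply']
      set y : R := (fun y : R => y⁻¹ * β y)^[i] x with hy
      apply hstep ⟨i, hi'⟩
      apply Subgroup.subset_closure
      have hzle : Subgroup.zpowers (y : Ω) ≤ R := by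
        rw [Subgroup.zpowers_le]; exact y.2
      refine ⟨(y : Ω), h1, (R.subtype.comp β.toMonoidHom).comp (Subgroup.inclusion hzle),
        restrict_mem F hβF hzle, ?_⟩
      rfl
  refine engel_trivial β m hβm' htors n fun x => ?_
  have h1 := hmem n le_rfl x
  have h2 : (⟨n, Nat.lt_succ_of_le le_rfl⟩ : Fin (n + 1)) = Fin.last n := rfl
  rw [h2, hQn, Subgroup.mem_bot] at h1
  exact Subtype.ext h1

theorem result {Ω : Type*} [Group Ω] {S : Subgroup Ω} [Finite S] (p : ℕ) [Fact p.Prime] (hS : IsPGroup p S) (F : Cfsg.FusionSystem S) (hF : F.IsSaturated p) (n : ℕ) (Q : Fin (n + 1) → Subgroup Ω) (hQ0 : Q 0 = S) (hQn : Q (Fin.last n) = ⊥) (hstep : ∀ i : Fin n, Subgroup.closure {y : Ω | ∃ x ∈ Q i.castSucc, ∃ φ ∈ F.Hom (Subgroup.zpowers x), y = x⁻¹ * φ ⟨x, Subgroup.mem_zpowers x⟩} ≤ Q i.succ) : ∀ P : Subgroup Ω, F.Hom P = (Cfsg.innerFusionSystem S).Hom P := by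
  intro P
  apply Set.Subset.antisymm
  · refine alperin_le hS F hF (innerFusionSystem S) ?_ P
    intro R hfa hrec α hα
    have hR : R ≤ S := hfa.1
    have hp := autGroup_isPGroup p hS F n Q hQ0 hQn hstep hR
    have h1 := autGroup_le_autInducedBy_of_isPGroup F hfa hp hα
    obtain ⟨g, hg, hg'⟩ := (mem_autInducedBy_iff S R α).mp h1
    exact ⟨hR, g, hg, fun x => hg' x⟩
  · rintro φ ⟨hP, g, hg, hφ⟩
    exact conj_mem' F hP hg φ hφ

end Cfsg.Agent.S5223
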