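import Cfsg.Statements.S5224
import Cfsg.Agent.Lib.Helper87.TateFus

set_option autoImplicit false
open Cfsg

namespace Cfsg.Agent.S5224

open Cfsg.Agent.Lib.Helper87 in
/-- Tate's Theorem for fusion systems. Let F be a saturated fusion system over a finite p-group S and H a saturated fusion system over S contained in F. Then the following are equivalent: the elementary focal subgroups Φ(S)·foc agree for F and H; the focal subgroups of F and H agree; the hyperfocal subgroups of F and H agree. -/
theorem result {Ω : Type*} [Group Ω] {S : Subgroup Ω} [Finite S] (p : ℕ) [Fact p.Prime] (hS : IsPGroup p S) (F : Cfsg.FusionSystem S) (hF : F.IsSaturated p) (H : Cfsg.FusionSystem S) (hH : H.IsSaturated p) (hHF : H.IsSubsystemOf F) : (((frattini ↥S).map S.subtype ⊔ F.focalSubgroup) = ((frattini ↥S).map S.subtype ⊔ H.focalSubgroup) ↔ F.focalSubgroup = H.focalSubgroup) ∧ (F.focalSubgroup = H.focalSubgroup ↔ F.hyperfocalSubgroup p = H.hyperfocalSubgroup p) := by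
  have hfF := focal_eq p hS F hF
  have hfH := focal_eq p hS H hH
  have hcomm : ⁅(S : Subgroup Ω), (S : Subgroup Ω)⁆ ≤ (frattini ↥S).map S.subtype := by
    have h1 : (commutator ↥S).map S.subtype = ⁅(S : Subgroup Ω), (S : Subgroup Ω)⁆ := by
      rw [commutator_def, Subgroup.map_commutator, ← MonoidHom.range_eq_map,
        Subgroup.range_subtype]
    rw [← h1]
    exact Subgroup.map_mono (commutator_le_frattini_pgroup hS)
  have key : ((frattini ↥S).map S.subtype ⊔ F.focalSubgroup) =
      ((frattini ↥S).map S.subtype ⊔ H.focalSubgroup) →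
      F.hyperfocalSubgroup p = H.hyperfocalSubgroup p := by
    intro h
    apply hyperfocal_eq_of_le_sup hS F H hF hHF
    have h1 : F.hyperfocalSubgroup p ≤ (frattini ↥S).map S.subtype ⊔ F.focalSubgroup := by
      rw [hfF]
      exact le_sup_of_le_right le_sup_left
    rw [h, hfH] at h1
    refine h1.trans ?_
    apply sup_le le_sup_left
    apply sup_le le_sup_right
    exact hcomm.trans le_sup_left
  have key2 : F.hyperfocalSubgroup p = H.hyperfocalSubgroup p →
      F.focalSubgroup = H.focalSubgroup := by
    intro h
    rw [hfF, hfH, h]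
  refine ⟨⟨fun h => key2 (key h), fun h => by rw [h]⟩, ⟨fun h => key (by rw [h]), key2⟩⟩

end Cfsg.Agent.S5224
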