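import Cfsg.Statements.S5226
import Cfsg.Agent.Lib.Helper89.FusAlperin2
import Cfsg.Agent.Lib.Helper89.FusNormalizer
import Cfsg.Agent.Lib.Helper89.FusStab

set_option autoImplicit false
open Cfsg

namespace Cfsg.Agent.S5226

open Cfsg.FusionSystem Cfsg.Agent.Lib.Helper89
open scoped commutatorElement

variable {Ω : Type*} [Group Ω] {S : Subgroup Ω}

theorem stronglyClosed_conj (F : FusionSystem S) {Q : Subgroup Ω} (hQ : F.StronglyClosed Q)
    {g : Ω} (hg : g ∈ S) {x : Ω} (hx : x ∈ Q) : g * x * g⁻¹ ∈ Q :=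
  hQ.2 Q le_rfl (conjHom Q g) (F.conj_mem hQ.1 hg) ⟨x, hx⟩

theorem stronglyClosed_le_normalizer (F : FusionSystem S) {Q : Subgroup Ω}
    (hQ : F.StronglyClosed Q) : S ≤ Subgroup.normalizer (Q : Set Ω) := by
  intro g hg
  rw [Subgroup.mem_normalizer_iff]
  intro h
  constructor
  · intro hh
    exact stronglyClosed_conj F hQ hg hh
  · intro hh
    have := stronglyClosed_conj F hQ (S.inv_mem hg) hh
    have h2 : g⁻¹ * (g * h * g⁻¹) * g⁻¹⁻¹ = h := by group
    rw [h2] at this
    exact this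

theorem weaklyClosed_conj (F : FusionSystem S) {C : Subgroup Ω} (hC : F.WeaklyClosed C)
    {g : Ω} (hg : g ∈ S) {x : Ω} (hx : x ∈ C) : g * x * g⁻¹ ∈ C := by
  have h := hC.2 (conjHom C g) (F.conj_mem hC.1 hg)
  rw [← h]
  exact ⟨⟨x, hx⟩, rfl⟩

theorem aut_weaklyClosed (F : FusionSystem S) {R C : Subgroup Ω} (hR : R ≤ S)
    (hC : F.WeaklyClosed C) (hCR : C ≤ R) (α : MulAut R) (hα : α ∈ F.autGroup R) (x : R)
    (hx : (x : Ω) ∈ C) : ((α x : R) : Ω) ∈ C := by
  have hαF := (mem_autGroup_iff F hR α).mp hα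
  have h1 := restrict_mem F hαF hCR
  have h2 := hC.2 _ h1
  rw [← h2]
  exact ⟨⟨x, hx⟩, rfl⟩

theorem aut_stronglyClosed (F : FusionSystem S) {R Q : Subgroup Ω} (hR : R ≤ S)
    (hQ : F.StronglyClosed Q) (α : MulAut R) (hα : α ∈ F.autGroup R) (x : R)
    (hx : (x : Ω) ∈ Q) : ((α x : R) : Ω) ∈ Q := by
  have hαF := (mem_autGroup_iff F hR α).mp hα
  have h1 := restrict_mem F hαF (inf_le_left : R ⊓ Q ≤ R)
  exact hQ.2 (R ⊓ Q) inf_le_right _ h1 ⟨x, ⟨x.2, hx⟩⟩

/-- the chain used for the stability group -/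
def chainW (R Q : Subgroup Ω) (c : ℕ → Subgroup Ω) (i : ℕ) : ℕ → Subgroup R
  | 0 => ⊤
  | 1 => Q.subgroupOf R
  | (k + 2) => (c (i - k)).subgroupOf R

theorem le_of_chain {p : ℕ} [Fact p.Prime] [Finite S] (hS : IsPGroup p S) (F : FusionSystem S)
    {Q : Subgroup Ω} (hQ : F.StronglyClosed Q) (c : ℕ → Subgroup Ω) (n : ℕ)
    (hc0 : c 0 = ⊥) (hcn : c n = Q) (hmono : Monotone c)
    (hcomm : ∀ j, j < n → ⁅c (j + 1), Q⁆ ≤ c j) (hwc : ∀ j, j < n → F.WeaklyClosed (c j))
    {R : Subgroup Ω} (hRS : R ≤ S) (hcent : centralizerIn S R ≤ R)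
    (hrad : ∀ N : Subgroup (F.autGroup R), N.Normal → IsPGroup p N →
      N.map (F.autGroup R).subtype ≤ Inn R) : Q ≤ R := by
  have hQS : Q ≤ S := hQ.1
  have : Finite R := finite_of_le hRS
  have hRp : IsPGroup p R := hS.to_le hRS
  have key : ∀ i, i ≤ n → c i ≤ R := by
    intro i
    induction i with
    | zero => intro _; rw [hc0]; exact bot_le
    | succ i ih =>
      intro hi
      have hin : i < n := hi
      have ih' : c i ≤ R := ih hin.le
      have hKQ : c (i + 1) ≤ Q := hcn ▸ hmono hi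
      have hKconj : ∀ g ∈ S, ∀ x ∈ c (i + 1), g * x * g⁻¹ ∈ c (i + 1) := by
        intro g hg x hx
        rcases Nat.lt_or_ge (i + 1) n with h | h
        · exact weaklyClosed_conj F (hwc _ h) hg hx
        · have h2 : i + 1 = n := le_antisymm hi h
          rw [h2, hcn] at hx ⊢
          exact stronglyClosed_conj F hQ hg hx
      -- the chain
      have hW : ∀ k, ∀ α ∈ F.autGroup R, ∀ x ∈ chainW R Q c i k, α x ∈ chainW R Q c i k := by
        intro k α hα x hx
        match k, hx with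
        | 0, _ => exact Subgroup.mem_top _
        | 1, hx =>
          exact Subgroup.mem_subgroupOf.mpr
            (aut_stronglyClosed F hRS hQ α hα x (Subgroup.mem_subgroupOf.mp hx))
        | (k + 2), hx =>
          have h1 : i - k < n := lt_of_le_of_lt (Nat.sub_le i k) hin
          have h2 : c (i - k) ≤ R := (hmono (Nat.sub_le i k)).trans ih'
          exact Subgroup.mem_subgroupOf.mpr
            (aut_weaklyClosed F hRS (hwc _ h1) h2 α hα x (Subgroup.mem_subgroupOf.mp hx))
      have hBn := chainStab_normal (F.autGroup R) (chainW R Q c i) hW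
      have hBp : IsPGroup p (chainStab (F.autGroup R) (chainW R Q c i) hW) := by
        refine chainStab_isPGroup hRp (F.autGroup R) (chainW R Q c i) hW rfl (i + 2) ?_
        show (c (i - i)).subgroupOf R = ⊥
        rw [Nat.sub_self, hc0, Subgroup.bot_subgroupOf]
      have hB := hrad _ hBn hBp
      -- Claim 1
      have claim1 : ∀ g ∈ c (i + 1), g ∈ Subgroup.normalizer (R : Set Ω) → g ∈ R := by
        intro g hg hgn
        have hgQ : g ∈ Q := hKQ hg
        have hgS : g ∈ S := hQS hgQ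
        have hβA : conjAut R g hgn ∈ F.autGroup R := conjAut_mem_autGroup F hRS g hgn hgS
        have hβB : (⟨conjAut R g hgn, hβA⟩ : F.autGroup R) ∈
            chainStab (F.autGroup R) (chainW R Q c i) hW := by
          intro k x hx
          match k, hx with
          | 0, _ =>
            apply Subgroup.mem_subgroupOf.mpr
            show (x : Ω)⁻¹ * (g * x * g⁻¹) ∈ Q
            have h1 : (x : Ω)⁻¹ * g * (x : Ω)⁻¹⁻¹ ∈ Q :=
              stronglyClosed_conj F hQ (S.inv_mem (hRS x.2)) hgQ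
            have h2 : (x : Ω)⁻¹ * (g * x * g⁻¹) = ((x : Ω)⁻¹ * g * (x : Ω)⁻¹⁻¹) * g⁻¹ := by group
            rw [h2]
            exact Q.mul_mem h1 (Q.inv_mem hgQ)
          | 1, hx =>
            apply Subgroup.mem_subgroupOf.mpr
            show (x : Ω)⁻¹ * (g * x * g⁻¹) ∈ c (i - 0)
            have hxQ : (x : Ω) ∈ Q := Subgroup.mem_subgroupOf.mp hx
            have h1 : ⁅g, (x : Ω)⁻¹⁆ ∈ ⁅c (i + 1), Q⁆ :=
              Subgroup.commutator_mem_commutator hg (Q.inv_mem hxQ)
            have h2 := hcomm i hin h1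
            have h3 : (x : Ω)⁻¹ * (g * x * g⁻¹) = ⁅g, (x : Ω)⁻¹⁆⁻¹ := by
              rw [commutatorElement_def]; group
            rw [h3]
            exact (c i).inv_mem h2
          | (k + 2), hx =>
            apply Subgroup.mem_subgroupOf.mpr
            show (x : Ω)⁻¹ * (g * x * g⁻¹) ∈ c (i - (k + 1))
            have hxc : (x : Ω) ∈ c (i - k) := Subgroup.mem_subgroupOf.mp hx
            rcases Nat.eq_zero_or_pos (i - k) with h0 | hpos
            · rw [h0, hc0, Subgroup.mem_bot] at hxc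
              rw [hxc]
              have : (1 : Ω)⁻¹ * (g * 1 * g⁻¹) = 1 := by group
              rw [this]
              exact Subgroup.one_mem _
            · have hj : i - k = (i - (k + 1)) + 1 := by omega
              have hjn : i - (k + 1) < n := by omega
              rw [hj] at hxc
              have h1 : ⁅(x : Ω)⁻¹, g⁆ ∈ ⁅c (i - (k + 1) + 1), Q⁆ :=
                Subgroup.commutator_mem_commutator ((c _).inv_mem hxc) hgQ
              have h2 := hcomm _ hjn h1
              have h3 : (x : Ω)⁻¹ * (g * x * g⁻¹) = ⁅(x : Ω)⁻¹, g⁆ := by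
                rw [commutatorElement_def]; group
              rw [h3]
              exact h2
        have h1 : conjAut R g hgn ∈ Inn R := hB ⟨_, hβB, rfl⟩
        obtain ⟨r, hr⟩ := h1
        have h2 : r⁻¹.1 * g ∈ centralizerIn S R := by
          refine ⟨S.mul_mem (hRS r⁻¹.2) hgS, ?_⟩
          intro x hx
          have h3 := congrArg (fun β : MulAut R => ((β ⟨x, hx⟩ : R) : Ω)) hr
          have h4 : (r : Ω) * x * (r : Ω)⁻¹ = g * x * g⁻¹ := h3
          show x * (r⁻¹.1 * g) = r⁻¹.1 * g * x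
          have h5 : (r⁻¹.1 : Ω) = (r : Ω)⁻¹ := rfl
          rw [h5]
          have h6 : x = (r : Ω)⁻¹ * (g * x * g⁻¹) * (r : Ω) := by rw [← h4]; group
          calc x * ((r : Ω)⁻¹ * g) = ((r : Ω)⁻¹ * (g * x * g⁻¹) * (r : Ω)) * ((r : Ω)⁻¹ * g) := by
                rw [← h6]
            _ = (r : Ω)⁻¹ * g * x := by group
        have h7 := hcent h2
        have h8 : g = (r : Ω) * (r⁻¹.1 * g) := by
          have h5 : (r⁻¹.1 : Ω) = (r : Ω)⁻¹ := rfl
          rw [h5]; group
        rw [h8]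
        exact R.mul_mem r.2 h7
      -- Claim 2
      by_contra hcon
      set M := c (i + 1) ⊔ R with hM
      have hMS : M ≤ S := sup_le (hKQ.trans hQS) hRS
      have hRM : R ≤ M := le_sup_right
      have hne : R ≠ M := by
        intro h
        apply hcon
        rw [h]
        exact le_sup_left
      have : Finite M := finite_of_le hMS
      have hMp : IsPGroup p M := hS.to_le hMS
      have hlt := card_lt_card_normalizerIn hMp hRM hne
      have hex : ∃ y ∈ normalizerIn M R, y ∉ R := by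
        by_contra h
        push Not at h
        have : Finite (normalizerIn M R) := finite_of_le ((normalizerIn_le (S := M) R).trans hMS)
        have h1 : normalizerIn M R ≤ R := h
        have h2 := Subgroup.card_le_of_le h1
        omega
      obtain ⟨y, hy, hyR⟩ := hex
      obtain ⟨k, hk, r, hr, rfl⟩ := exists_mul_of_mem_sup
        (fun r hr k hk => hKconj r (hRS hr) k hk) hy.1
      have hkn : k ∈ Subgroup.normalizer (R : Set Ω) := by
        have h1 : k = (k * r) * r⁻¹ := by group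
        rw [h1]
        exact Subgroup.mul_mem _ hy.2 (Subgroup.inv_mem _ (Subgroup.le_normalizer hr))
      exact hyR (R.mul_mem (claim1 k hk hkn) hr)
  exact hcn ▸ key n le_rfl

theorem result {Ω : Type*} [Group Ω] {S : Subgroup Ω} [Finite S] (p : ℕ) [Fact p.Prime] (hS : IsPGroup p S) (F : Cfsg.FusionSystem S) (hF : F.IsSaturated p) (Q : Subgroup Ω) : F.IsNormal Q ↔ F.StronglyClosed Q ∧ ∃ (n : ℕ) (C : Fin (n + 1) → Subgroup Ω), C 0 = ⊥ ∧ C (Fin.last n) = Q ∧ Monotone C ∧ (∀ i : Fin n, ⁅C i.succ, Q⁆ ≤ C i.castSucc) ∧ ∀ i : Fin n, F.WeaklyClosed (C i.castSucc) := by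
  constructor
  · intro hN
    have hQS : Q ≤ S := hN.1
    have hsc : F.StronglyClosed Q := by
      refine ⟨hQS, fun R hRQ φ hφ x => ?_⟩
      obtain ⟨ψ, hψ, hext, hmap⟩ := hN.2 R φ hφ
      rw [map_subgroupOf_eq_iff] at hmap
      have h1 := hmap.1 x (hRQ x.2)
      have h2 : ψ ⟨x, Subgroup.mem_sup_right (hRQ x.2)⟩ = φ x := hext x
      rw [h2] at h1
      exact h1
    refine ⟨hsc, ?_⟩
    have : Finite Q := finite_of_le hQS
    have hQp : IsPGroup p Q := hS.to_le hQS
    have hnil : Group.IsNilpotent Q := hQp.isNilpotent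
    obtain ⟨n, hn⟩ := hnil.nilpotent'
    refine ⟨n, fun i => (Subgroup.upperCentralSeries Q i).map Q.subtype, ?_, ?_, ?_, ?_, ?_⟩
    · show (Subgroup.upperCentralSeries Q ((0 : Fin (n + 1)) : ℕ)).map Q.subtype = ⊥
      simp
    · show (Subgroup.upperCentralSeries Q ((Fin.last n : Fin (n + 1)) : ℕ)).map Q.subtype = Q
      rw [Fin.val_last, hn]
      ext x
      simp
    · intro a b hab
      exact Subgroup.map_mono (Subgroup.upperCentralSeries_mono Q hab)
    · intro i
      rw [Subgroup.commutator_le]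
      rintro _ ⟨z, hz, rfl⟩ q hq
      have hz' : z ∈ Subgroup.upperCentralSeries Q ((i : ℕ) + 1) := hz
      have h1 := Subgroup.mem_upperCentralSeries_succ_iff.mp hz' ⟨q, hq⟩
      exact ⟨_, h1, rfl⟩
    · intro i
      set Z := Subgroup.upperCentralSeries Q ((i.castSucc : Fin (n + 1)) : ℕ) with hZ
      have hCQ : Z.map Q.subtype ≤ Q := by
        rintro _ ⟨z, -, rfl⟩
        exact z.2
      refine ⟨hCQ.trans hQS, fun φ hφ => ?_⟩
      obtain ⟨ψ, hψ, hext, hmap⟩ := hN.2 _ φ hφ
      rw [map_subgroupOf_eq_iff] at hmap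
      have hψQ : ψ.comp (Subgroup.inclusion (le_sup_right : Q ≤ Z.map Q.subtype ⊔ Q)) ∈ F.Hom Q :=
        restrict_mem F hψ le_sup_right
      have hrange : (ψ.comp (Subgroup.inclusion
          (le_sup_right : Q ≤ Z.map Q.subtype ⊔ Q))).range = Q := by
        apply le_antisymm
        · rintro _ ⟨x, rfl⟩
          exact hmap.1 x x.2
        · intro q hq
          obtain ⟨q', hq', h⟩ := hmap.2 q hq
          exact ⟨⟨q', hq'⟩, h⟩
      obtain ⟨α, hα, hα'⟩ := exists_mulAut F hψQ hrange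
      have hchar : Z.map α.toMonoidHom = Z :=
        (Subgroup.characteristic_iff_map_eq.mp inferInstance) α
      have key : ∀ (z : Q) (hz : z ∈ Z), φ ⟨(z : Ω), ⟨z, hz, rfl⟩⟩ = ((α z : Q) : Ω) := by
        intro z hz
        rw [hα', ← hext]
        rfl
      apply le_antisymm
      · rintro _ ⟨x, rfl⟩
        obtain ⟨z, hz, hzx⟩ := x.2
        have hx : x = ⟨(z : Ω), ⟨z, hz, rfl⟩⟩ := Subtype.ext hzx.symm
        rw [hx, key z hz]
        have h1 : α z ∈ Z.map α.toMonoidHom := ⟨z, hz, rfl⟩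
        rw [hchar] at h1
        exact ⟨_, h1, rfl⟩
      · rintro _ ⟨z, hz, rfl⟩
        have h1 : z ∈ Z.map α.toMonoidHom := by rw [hchar]; exact hz
        obtain ⟨z', hz', rfl⟩ := h1
        exact ⟨⟨(z' : Ω), ⟨z', hz', rfl⟩⟩, key z' hz'⟩
  · rintro ⟨hQ, n, C, hC0, hCn, hCmono, hCcomm, hCwc⟩
    have hQS : Q ≤ S := hQ.1
    -- the chain indexed by ℕ
    let c : ℕ → Subgroup Ω := fun k => if h : k ≤ n then C ⟨k, Nat.lt_succ_of_le h⟩ else Q
    have hck : ∀ k (h : k ≤ n), c k = C ⟨k, Nat.lt_succ_of_le h⟩ := fun k h => dif_pos h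
    have hc0 : c 0 = ⊥ := by rw [hck 0 (Nat.zero_le n)]; exact hC0
    have hcn : c n = Q := by rw [hck n le_rfl]; exact hCn
    have hcle : ∀ k, c k ≤ Q := by
      intro k
      by_cases h : k ≤ n
      · rw [hck k h, ← hCn]
        exact hCmono (Fin.le_last _)
      · have : c k = Q := dif_neg h
        rw [this]
    have hmono : Monotone c := by
      intro a b hab
      by_cases hb : b ≤ n
      · rw [hck b hb, hck a (hab.trans hb)]
        exact hCmono (Fin.mk_le_mk.mpr hab)
      · have : c b = Q := dif_neg hb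
        rw [this]
        exact hcle a
    have hcomm : ∀ j, j < n → ⁅c (j + 1), Q⁆ ≤ c j := by
      intro j hj
      rw [hck (j + 1) hj, hck j hj.le]
      exact hCcomm ⟨j, hj⟩
    have hwc : ∀ j, j < n → F.WeaklyClosed (c j) := by
      intro j hj
      rw [hck j hj.le]
      exact hCwc ⟨j, hj⟩
    have hSn := stronglyClosed_le_normalizer F hQ
    have hsub := alperin_cr hS F hF (normalizerSystem F Q hQS) (by
      intro R hfa hrec hcent hrad α hα
      have hRS : R ≤ S := hfa.1
      have hQR : Q ≤ R := le_of_chain hS F hQ c n hc0 hcn hmono hcomm hwc hRS hcent hrad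
      have hαF := (mem_autGroup_iff F hRS α).mp hα
      have hle : R ⊔ Q ≤ R := sup_le le_rfl hQR
      refine ⟨hαF, le_inf hRS (hRS.trans hSn), fun x => ⟨hRS (α x).2, hSn (hRS (α x).2)⟩,
        (R.subtype.comp α.toMonoidHom).comp (Subgroup.inclusion hle), restrict_mem F hαF hle,
        fun x => rfl, ?_⟩
      rw [map_subgroupOf_eq_iff]
      constructor
      · intro q hq
        exact aut_stronglyClosed F hRS hQ α hα ⟨q, hQR hq⟩ hq
      · intro q hq
        refine ⟨((α⁻¹ ⟨q, hQR hq⟩ : R) : Ω),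
          aut_stronglyClosed F hRS hQ α⁻¹ ((F.autGroup R).inv_mem hα) ⟨q, hQR hq⟩ hq, ?_⟩
        show ((α (α⁻¹ ⟨q, hQR hq⟩) : R) : Ω) = q
        rw [MulAut.apply_inv_self])
    refine ⟨hQS, fun P φ hφ => ?_⟩
    have h1 := hsub P hφ
    exact h1.2.2.2

end Cfsg.Agent.S5226
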