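import Cfsg.Statements.S5243
import Cfsg.Agent.Lib.Helper88.NormChiD

set_option autoImplicit false
open Cfsg

namespace Cfsg.Agent.S5243

open Cfsg.FusionSystem Cfsg.Agent.Lib.Helper90 Cfsg.Agent.Lib.Helper91 Cfsg.Agent.Lib.Helper88
open Cfsg.Agent.Lib.Helper88.PIdx

/-- Let F be a saturated fusion system over a finite p-group S, E a normal subsystem of F over T ≤ S, and χ a surjective homomorphism from Aut_F(T) onto a nontrivial finite group Δ of order prime to p whose kernel contains Aut_E(T). Then there is a proper normal subsystem F₀ of F over S containing E such that Aut_{F₀}(S) consists of those α ∈ Aut_F(S) whose restriction to T is an element of Aut_F(T) in the kernel of χ; moreover every p'-residual subsystem O^{p'}(F) of F is contained in F₀. -/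
theorem result {Ω : Type*} [Group Ω] {S : Subgroup Ω} [Finite S] (p : ℕ) [Fact p.Prime] (hS : IsPGroup p S) (F : Cfsg.FusionSystem S) (hF : F.IsSaturated p) {T : Subgroup Ω} (hTS : T ≤ S) (E : Cfsg.FusionSystem T) (hE : E.IsNormalIn F p) {Δ : Type*} [Group Δ] [Finite Δ] [Nontrivial Δ] (hΔ : (Nat.card Δ).Coprime p) (χ : ↥(F.autGroup T) →* Δ) (hχ : Function.Surjective χ) (hker : (E.autGroup T).subgroupOf (F.autGroup T) ≤ χ.ker) : ∃ F₀ : Cfsg.FusionSystem S, F₀.IsNormalIn F p ∧ ¬ (∀ P : Subgroup Ω, F₀.Hom P = F.Hom P) ∧ E.IsSubsystemOf F₀ ∧ (∀ α : MulAut ↥S, α ∈ F₀.autGroup S ↔ α ∈ F.autGroup S ∧ ∃ β : ↥(F.autGroup T), χ β = 1 ∧ ∀ t : ↥T, (((β : MulAut ↥T) t : ↥T) : Ω) = ((α ⟨(t : Ω), hTS t.2⟩ : ↥S) : Ω)) ∧ ∀ R : Cfsg.FusionSystem S, F.IsPPrimeResidual p R → R.IsSubsystemOf F₀ := by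
  classical
  let N : Subgroup (MulAut ↥T) := χ.ker.map (F.autGroup T).subtype
  have hN_iff : ∀ β : MulAut ↥T, β ∈ N ↔ ∃ b : ↥(F.autGroup T), χ b = 1 ∧ (b : MulAut ↥T) = β := by
    intro β
    constructor
    · rintro ⟨b, hb, rfl⟩
      exact ⟨b, MonoidHom.mem_ker.mp hb, rfl⟩
    · rintro ⟨b, hb, rfl⟩
      exact ⟨b, MonoidHom.mem_ker.mpr hb, rfl⟩
  have hsetup : Setup F E p N :=
    { hS := hS
      hF := hF
      hEs := hE.1.1
      hinv := hE.1.2.2
      hN1 := by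
        rintro _ ⟨b, -, rfl⟩
        exact b.2
      hN2 := by
        rintro α hα _ ⟨b, hb, rfl⟩
        refine ⟨⟨α, hα⟩ * b * ⟨α, hα⟩⁻¹, ?_, rfl⟩
        have hb' : χ b = 1 := MonoidHom.mem_ker.mp hb
        apply MonoidHom.mem_ker.mpr
        rw [map_mul, map_mul, hb', map_inv, mul_one, mul_inv_cancel]
      hN3 := by
        intro α hα
        have hαF : α ∈ F.autGroup T := by
          have hsub : {β : MulAut ↥T | T.subtype.comp β.toMonoidHom ∈ E.Hom T} ⊆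
              {β : MulAut ↥T | T.subtype.comp β.toMonoidHom ∈ F.Hom T} :=
            fun β hβ => hE.1.2.2.1 T hβ
          exact Subgroup.closure_mono hsub hα
        exact ⟨⟨α, hαF⟩, hker (Subgroup.mem_subgroupOf.mpr hα), rfl⟩
      hN4 := ⟨Nat.card Δ, hΔ, fun α hα => ⟨⟨α, hα⟩ ^ Nat.card Δ, by
        apply MonoidHom.mem_ker.mpr
        rw [map_pow, pow_card_eq_one'], rfl⟩⟩ }
  obtain ⟨d, hd⟩ := exists_ne (1 : Δ)
  obtain ⟨b₀, hb₀⟩ := hχ d
  have hb₀N : (b₀ : MulAut ↥T) ∉ N := by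
    intro hmem
    obtain ⟨b, hb, hbe⟩ := (hN_iff _).mp hmem
    have hbb : b = b₀ := Subtype.ext hbe
    rw [hbb, hb₀] at hb
    exact hd hb
  have hfam := hsetup.famHyp
  refine ⟨sysF0 hsetup, sysH_normal hfam hsetup.Hsub_le hsetup.Hstar hsetup.Hsub_normal,
    hsetup.proper b₀.2 hb₀N, hom_subset_of_mor' hsetup.E_le, ?_, ?_⟩
  · intro α
    have haut : α ∈ (sysF0 hsetup).autGroup S ↔ α ∈ Hsub hsetup :=
      aut_sysH hfam hsetup.Hsub_le hsetup.Hstar α
    rw [haut, mem_Hsub]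
    constructor
    · rintro ⟨hα, β, hβ, e⟩
      obtain ⟨b, hb, rfl⟩ := (hN_iff β).mp hβ
      refine ⟨hα, b, hb, fun t => ?_⟩
      have h1 := e t t.2
      rw [autFun_apply, autFun_apply' α (hTS t.2)] at h1
      exact h1
    · rintro ⟨hα, b, hb, e⟩
      refine ⟨hα, b, (hN_iff _).mpr ⟨b, hb, rfl⟩, fun x hx => ?_⟩
      rw [autFun_apply' _ hx, autFun_apply' α (hTS hx)]
      exact e ⟨x, hx⟩
  · intro R hR
    exact hR.2.2 _ (sysH_saturated hfam hsetup.Hsub_le hsetup.Hstar)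
      (sysH_index hfam hsetup.Hsub_le).1

end Cfsg.Agent.S5243
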