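import Cfsg.Statements.S5247
import Cfsg.Agent.Lib.Helper90.PStable

set_option autoImplicit false
open Cfsg

namespace Cfsg.Agent.S5247

/-- Let p be an odd prime and F a saturated fusion system over a finite p-group S. Call a fusion system E (over any subgroup) p-stable when, for every fully E-normalized subgroup Q and every χ ∈ Aut_E(Q) with χ(a⁻¹)·a·χ(a⁻¹)·χ(χ(a)) = 1 for all a ∈ Q (χ acts quadratically), χ lies in O_p(Aut_E(Q)). Then F is p-stable if and only if every normalizer fusion system N_F(R) of every non-cyclic fully F-normalized subgroup R of S is p-stable. -/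
theorem result {Ω : Type*} [Group Ω] {S : Subgroup Ω} [Finite S] (p : ℕ) [Fact p.Prime] (hS : IsPGroup p S) (F : Cfsg.FusionSystem S) (hF : F.IsSaturated p) (hp : p ≠ 2) : (∀ Q : Subgroup Ω, F.IsFullyNormalized Q → ∀ χ : MulAut ↥Q, χ ∈ F.autGroup Q → (∀ a : ↥Q, (χ a⁻¹) * a * (χ a⁻¹) * (χ (χ a)) = 1) → χ ∈ ((Cfsg.pCore p ↥(F.autGroup Q)).map (F.autGroup Q).subtype : Subgroup (MulAut ↥Q))) ↔ ∀ R : Subgroup Ω, F.IsFullyNormalized R → ¬ IsCyclic ↥R → ∀ N : Cfsg.FusionSystem (Cfsg.FusionSystem.normalizerIn S R), F.IsNormalizerSystem R N → (∀ Q : Subgroup Ω, N.IsFullyNormalized Q → ∀ χ : MulAut ↥Q, χ ∈ N.autGroup Q → (∀ a : ↥Q, (χ a⁻¹) * a * (χ a⁻¹) * (χ (χ a)) = 1) → χ ∈ ((Cfsg.pCore p ↥(N.autGroup Q)).map (N.autGroup Q).subtype : Subgroup (MulAut ↥Q))) := by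
  open Cfsg.Agent.Lib.Helper90 in
  constructor
  · intro h R _ _ N hN Q hQ
    exact pStable_normalizer hN h hQ.1
  · intro h Q hQ
    by_cases hc : IsCyclic ↥Q
    · exact pStableAt_of_isCyclic hS hQ.1 hc
    · exact pStableAt_of_normalizer hQ.1 (normalizerSys_isNormalizerSystem hQ.1)
        (le_normalizerIn hQ.1)
        (fun α hα => extQ_of_le le_rfl ((mem_autGroup_iff F hQ.1 α).mp hα)
          (fun x hx => autFun_mem α hx))
        (h Q hQ hc (normalizerSys F Q hQ.1) (normalizerSys_isNormalizerSystem hQ.1))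

end Cfsg.Agent.S5247
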