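import Cfsg.Statements.S5251
import Cfsg.Agent.Lib.Helper90.Centric

set_option autoImplicit false
open Cfsg

namespace Cfsg.Agent.S5251

/-- Let F be a saturated fusion system over a finite p-group S, E a normal subsystem of F over T, and P an F-centric subgroup of S such that P ∩ T is not E-centric. Then some F-conjugate P* of P satisfies Out_S(P*) ∩ O_p(Out_F(P*)) ≠ 1: there is an element of N_S(P*) outside P* whose conjugation action on P* lies in O_p(Aut_F(P*)). In particular P is not both centric and radical in F. -/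
theorem result {Ω : Type*} [Group Ω] {S : Subgroup Ω} [Finite S] (p : ℕ) [Fact p.Prime] (hS : IsPGroup p S) (F : Cfsg.FusionSystem S) (hF : F.IsSaturated p) {T : Subgroup Ω} (E : Cfsg.FusionSystem T) (hE : E.IsNormalIn F p) (P : Subgroup Ω) (hP : F.IsCentric P) (hPT : ¬ E.IsCentric (P ⊓ T)) : (∃ φ ∈ F.Hom P, ∃ x ∈ S ⊓ Subgroup.normalizer (φ.range : Set Ω), x ∉ φ.range ∧ ∃ α ∈ ((Cfsg.pCore p ↥(F.autGroup φ.range)).map (F.autGroup φ.range).subtype : Subgroup (MulAut ↥φ.range)), ∀ y : ↥φ.range, ((α y : ↥φ.range) : Ω) = x * (y : Ω) * x⁻¹) ∧ ¬ F.IsRadical p P := by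
  open Cfsg.Agent.Lib.Helper90 Cfsg.FusionSystem in
  obtain ⟨⟨-, -, hsub, hT, -, -⟩, -⟩ := hE
  have hPS : P ≤ S := hP.1
  have hnc : ∃ R, F.IsConj (P ⊓ T) R ∧ ¬ centralizerIn T R ≤ R := by
    by_contra hcon
    push Not at hcon
    apply hPT
    refine ⟨inf_le_right, fun R hR => ?_⟩
    obtain ⟨φ, hφ, hφr⟩ := hR
    exact hcon R ⟨φ, hsub _ hφ, hφr⟩
  obtain ⟨R, hconj, hR⟩ := hnc
  obtain ⟨θ, hθ, a, haT, haC, haN, haP⟩ := exists_conj_centralizing hS hF hT hPS hconj hR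
  obtain ⟨φ, hφ, hφθ⟩ := id hθ
  have hrange : img P θ = φ.range := hθ.img_eq_range φ hφθ
  have hP'S : img P θ ≤ S := hθ.img_le
  have haS : a ∈ S := hT.1 haT
  have : Finite (img P θ) := finite_of_le hP'S
  obtain ⟨κ, -, hκ⟩ := exists_aut_of_mor (mor_conj F hP'S haS)
    (fun x hx => conj_mem_of_mem_normalizer haN hx)
  have hκcore := conj_mem_pCore_map_of_centralizes hS hT hP'S haT haC κ hκ
  have key : ∀ P' : Subgroup Ω, img P θ = P' →
      ∃ x ∈ S ⊓ Subgroup.normalizer (P' : Set Ω), x ∉ P' ∧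
        ∃ α ∈ ((Cfsg.pCore p ↥(F.autGroup P')).map (F.autGroup P').subtype :
          Subgroup (MulAut ↥P')), ∀ y : ↥P', ((α y : ↥P') : Ω) = x * (y : Ω) * x⁻¹ := by
    intro P' h
    subst h
    exact ⟨a, ⟨haS, haN⟩, haP, κ, hκcore, hκ⟩
  refine ⟨⟨φ, hφ, key _ hrange⟩, ?_⟩
  intro hrad
  have hrad' := isRadical_of_conj hθ rfl hrad
  rw [hrad'.2] at hκcore
  obtain ⟨y, hy, hκy⟩ := (mem_Inn_iff κ).mp hκcore
  have hc : y⁻¹ * a ∈ centralizerIn S (img P θ) := by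
    refine ⟨S.mul_mem (S.inv_mem (hP'S hy)) haS, ?_⟩
    show y⁻¹ * a ∈ Subgroup.centralizer (img P θ : Set Ω)
    rw [Subgroup.mem_centralizer_iff]
    intro x hx
    have h1 : a * x * a⁻¹ = y * x * y⁻¹ := by rw [← hκ ⟨x, hx⟩, hκy]
    calc x * (y⁻¹ * a) = y⁻¹ * (y * x * y⁻¹) * a := by group
      _ = y⁻¹ * (a * x * a⁻¹) * a := by rw [h1]
      _ = y⁻¹ * a * x := by group
  have h2 : y⁻¹ * a ∈ img P θ := hP.2 (img P θ) (isConj_iff.mpr ⟨θ, hθ, rfl⟩) hc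
  have h3 : y * (y⁻¹ * a) ∈ img P θ := Subgroup.mul_mem _ hy h2
  rw [mul_inv_cancel_left] at h3
  exact haP h3

end Cfsg.Agent.S5251
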