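import Cfsg.Statements.S5254
import Cfsg.Agent.Lib.Helper90.AbIdxP

set_option autoImplicit false
set_option linter.deprecated false
open Cfsg

namespace Cfsg.Agent.S5254

open Cfsg.Agent.Lib.Helper90 in
/-- Let p be an odd prime, S a finite nonabelian p-group with a unique abelian subgroup A of index p, and F a saturated fusion system over S. Then every F-essential subgroup P is A, or Z(S)⟨x⟩ for some x ∈ S outside A, or (when the second centre Z₂(S) lies in A) Z₂(S)⟨x⟩ for some x ∈ S outside A; and P has index p in its normalizer in S. -/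
theorem result {Ω : Type*} [Group Ω] {S : Subgroup Ω} [Finite S] (p : ℕ) [Fact p.Prime] (hS : IsPGroup p S) (F : Cfsg.FusionSystem S) (hF : F.IsSaturated p) (hp : p ≠ 2) (hna : ¬ IsMulCommutative ↥S) (A : Subgroup Ω) (hA : A ≤ S ∧ IsMulCommutative ↥A ∧ (A.subgroupOf S).index = p) (huniq : ∀ B : Subgroup Ω, B ≤ S → IsMulCommutative ↥B → (B.subgroupOf S).index = p → B = A) (P : Subgroup Ω) (hP : F.IsEssential p P) : (P = A ∨ (∃ x ∈ S, x ∉ A ∧ P = (S ⊓ Subgroup.centralizer (S : Set Ω)) ⊔ Subgroup.zpowers x) ∨ (((upperCentralSeries ↥S 2).map S.subtype) ≤ A ∧ ∃ x ∈ S, x ∉ A ∧ P = ((upperCentralSeries ↥S 2).map S.subtype) ⊔ Subgroup.zpowers x)) ∧ (P.subgroupOf (S ⊓ Subgroup.normalizer (P : Set Ω))).index = p := by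
  have h := abIdx_of_hyp p hS hna A hA
  by_cases hPA : P = A
  · refine ⟨Or.inl hPA, ?_⟩
    rw [hPA]
    have hle : S ≤ Subgroup.normalizer (A : Set Ω) := by
      intro s hs
      apply Cfsg.Agent.Lib.Helper87.mem_normalizer_of_conj_mem
      · intro y hy
        exact h.normal s hs y hy
      · intro y hy
        have h1 := h.normal s⁻¹ (S.inv_mem hs) y hy
        rwa [inv_inv] at h1
    rw [inf_eq_left.mpr hle]
    exact hA.2.2
  · obtain ⟨x, hxP, hxA, a1, -, -, -, -, -, hidx, hstruct⟩ :=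
      abIdx_essential p hS F hF h hP hPA
    refine ⟨Or.inr ?_, hidx⟩
    rcases hstruct with ⟨-, hPZ⟩ | ⟨hZ2A, -, hPZ2, -⟩
    · exact Or.inl ⟨x, hP.1.1 hxP, hxA, hPZ⟩
    · exact Or.inr ⟨hZ2A, x, hP.1.1 hxP, hxA, hPZ2⟩

end Cfsg.Agent.S5254
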