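import Cfsg.Statements.S5255
import Cfsg.Agent.Lib.Helper90.Lift
-- import your own Cfsg.Agent.* helpers here

set_option autoImplicit false
open Cfsg

namespace Cfsg.Agent.S5255

open Cfsg.FusionSystem Cfsg.Agent.Lib.Helper90

variable {Ω : Type*} [Group Ω] {S : Subgroup Ω}

/-- The elements of `T·C_S(T)` are the elements of `S` inducing an inner automorphism on `T`. -/
theorem mem_sup_centralizer_iff {T : Subgroup Ω} (hTS : T ≤ S) {y : Ω} :
    y ∈ T ⊔ centralizerIn S T ↔ y ∈ S ∧ ∃ t ∈ T, ∀ u ∈ T, y * u * y⁻¹ = t * u * t⁻¹ := by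
  constructor
  · intro hy
    have hn : ∀ x ∈ T, ∀ q ∈ centralizerIn S T, x * q * x⁻¹ ∈ centralizerIn S T := by
      intro x hx q hq
      have h1 : x * q = q * x := Subgroup.mem_centralizer_iff.mp hq.2 x hx
      have h2 : x * q * x⁻¹ = q := by rw [h1]; group
      rw [h2]
      exact hq
    obtain ⟨t, ht, c, hc, rfl⟩ := exists_mul_of_mem_sup hn hy
    refine ⟨S.mul_mem (hTS ht) hc.1, t, ht, fun u hu => ?_⟩
    have h1 : u * c = c * u := Subgroup.mem_centralizer_iff.mp hc.2 u hu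
    have h2 : t * c * u * (t * c)⁻¹ = t * (c * u) * c⁻¹ * t⁻¹ := by group
    rw [h2, ← h1]
    group
  · rintro ⟨hyS, t, ht, h⟩
    have hc : t⁻¹ * y ∈ centralizerIn S T := by
      refine ⟨S.mul_mem (S.inv_mem (hTS ht)) hyS, ?_⟩
      show t⁻¹ * y ∈ Subgroup.centralizer (T : Set Ω)
      rw [Subgroup.mem_centralizer_iff]
      intro u hu
      have h1 := h u hu
      have h2 : y * u = t * u * t⁻¹ * y := by rw [← h1]; group
      rw [mul_assoc, h2]
      group
    have e : y = t * (t⁻¹ * y) := by group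
    rw [e]
    exact Subgroup.mul_mem _ (Subgroup.mem_sup_left ht) (Subgroup.mem_sup_right hc)

/-- Let F be a saturated fusion system over a finite p-group S and T a subgroup of S strongly closed in F. Then T·C_S(T) is strongly closed in F. -/
theorem result {Ω : Type*} [Group Ω] {S : Subgroup Ω} [Finite S] (p : ℕ) [Fact p.Prime] (hS : IsPGroup p S) (F : Cfsg.FusionSystem S) (hF : F.IsSaturated p) (T : Subgroup Ω) (hT : F.StronglyClosed T) : F.StronglyClosed (T ⊔ Cfsg.FusionSystem.centralizerIn S T) := by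
  have hTS : T ≤ S := hT.1
  have : Finite T := finite_of_le hTS
  refine ⟨sup_le hTS inf_le_left, fun R hR φ hφ x => ?_⟩
  obtain ⟨f', hf', hf'R⟩ := liftT_of_stronglyClosed hS hF hT R _ (mor_of_hom hφ)
  have h1 := hf'R x x.2
  rw [extFun_apply] at h1
  have hTm : Mor F T f' := hf'.restrict le_sup_right
  have hTT : ∀ t ∈ T, f' t ∈ T := fun t ht => stronglyClosed_mor_mem hT hTm le_rfl ht
  have hsurj := hTm.surj_of_finite hTT
  obtain ⟨-, t₀, ht₀, hx⟩ := (mem_sup_centralizer_iff hTS).mp (hR x.2)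
  have hxm : (x : Ω) ∈ R ⊔ T := Subgroup.mem_sup_left x.2
  have hf'x : f' x ∈ T ⊔ centralizerIn S T := by
    rw [mem_sup_centralizer_iff hTS]
    refine ⟨hf'.mem hxm, f' t₀, hTT t₀ ht₀, fun u hu => ?_⟩
    obtain ⟨u₀, hu₀, rfl⟩ := hsurj u hu
    have hu₀m : u₀ ∈ R ⊔ T := Subgroup.mem_sup_right hu₀
    have ht₀m : t₀ ∈ R ⊔ T := Subgroup.mem_sup_right ht₀
    rw [← hf'.map_inv hxm, ← hf'.map_mul hxm hu₀m,
      ← hf'.map_mul (Subgroup.mul_mem _ hxm hu₀m) (Subgroup.inv_mem _ hxm),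
      ← hf'.map_inv ht₀m, ← hf'.map_mul ht₀m hu₀m,
      ← hf'.map_mul (Subgroup.mul_mem _ ht₀m hu₀m) (Subgroup.inv_mem _ ht₀m), hx u₀ hu₀]
  have e : φ x = (f' x * (φ x)⁻¹)⁻¹ * f' x := by group
  rw [e]
  exact Subgroup.mul_mem _ (Subgroup.mem_sup_left (T.inv_mem h1)) hf'x

end Cfsg.Agent.S5255
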