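import Cfsg.Statements.S5276
import Cfsg.Agent.Lib.Helper87.InnerCritB
import Cfsg.Agent.Lib.Helper90.Sys

set_option autoImplicit false
open Cfsg

namespace Cfsg.Agent.S5276

open Cfsg.FusionSystem Cfsg.Agent.Lib.Helper90 Cfsg.Agent.Lib.Helper87

/-- Let p be a prime and F a saturated fusion system over a finite p-group S. Then F is the inner fusion system of S if and only if the normalizer fusion system of S itself in F is the inner fusion system (equivalently, Aut_F(S) is induced by S) and the Frattini subgroup Φ(S) is strongly closed in F. -/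
theorem result {Ω : Type*} [Group Ω] {S : Subgroup Ω} [Finite S] (p : ℕ) [Fact p.Prime] (hS : IsPGroup p ↥S) (F : Cfsg.FusionSystem S) (hF : F.IsSaturated p) : (∀ P : Subgroup Ω, F.Hom P = (Cfsg.innerFusionSystem S).Hom P) ↔ (∀ N : Cfsg.FusionSystem (Cfsg.FusionSystem.normalizerIn S S), F.IsNormalizerSystem S N → ∀ P : Subgroup Ω, N.Hom P = (Cfsg.innerFusionSystem (Cfsg.FusionSystem.normalizerIn S S)).Hom P) ∧ F.StronglyClosed ((frattini ↥S).map S.subtype) := by
  classical
  constructor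
  · intro hFI
    refine ⟨?_, Subgroup.map_subtype_le _, ?_⟩
    · intro N hNsys P
      ext φ
      constructor
      · intro hφ
        rw [hNsys P] at hφ
        obtain ⟨hφF, hPN, -, -⟩ := hφ
        rw [hFI P] at hφF
        obtain ⟨-, g, hg, h⟩ := hφF
        exact ⟨hPN, g, Cfsg.Agent.Lib.Helper90.le_normalizerIn le_rfl hg, h⟩
      · rintro ⟨hPN, g, hg, hφg⟩
        exact (mor_conj N hPN hg).hom φ (fun x => hφg x)
    · intro R hR φ hφ x
      rw [hFI R] at hφ
      obtain ⟨-, g, hg, h⟩ := hφ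
      obtain ⟨x', hx', hxx'⟩ := hR x.2
      rw [h x]
      refine ⟨(⟨g, hg⟩ : ↥S) * x' * (⟨g, hg⟩ : ↥S)⁻¹,
        (inferInstance : (frattini ↥S).Normal).conj_mem x' hx' _, ?_⟩
      show g * (x' : Ω) * g⁻¹ = g * (x : Ω) * g⁻¹
      have h2 : (x' : Ω) = (x : Ω) := hxx'
      rw [h2]
  · rintro ⟨hN, hT⟩
    have hInn : ∀ f, Mor F S f → ∃ u ∈ S, ∀ x ∈ S, f x = u * x * u⁻¹ := by
      intro f hf
      have hN0 := hN (normalizerSys F S le_rfl) (normalizerSys_isNormalizerSystem le_rfl) S
      have hnm : NMor F S S f :=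
        ⟨hf, Cfsg.Agent.Lib.Helper90.le_normalizerIn le_rfl, fun x hx => Cfsg.Agent.Lib.Helper90.le_normalizerIn le_rfl (hf.mem hx), f,
          by rw [sup_idem]; exact hf, fun _ _ => rfl, fun x hx => hf.mem hx⟩
      have hm : Mor (normalizerSys F S le_rfl) S f := (mor_normalizerSys_iff le_rfl).mpr hnm
      obtain ⟨φ, hφ, hφf⟩ := hm
      rw [hN0] at hφ
      obtain ⟨-, g, hg, hφg⟩ := hφ
      exact ⟨g, hg.1, fun x hx => by rw [← hφf ⟨x, hx⟩, hφg]⟩
    have key := inner_of_frattini hS hF hInn hT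
    intro P
    ext φ
    constructor
    · intro hφ
      obtain ⟨s, hs, h⟩ := key P _ (mor_of_hom hφ)
      refine ⟨(F.le_of_mem hφ).1, s, hs, fun x => ?_⟩
      rw [← extFun_apply P φ x]
      exact h x x.2
    · rintro ⟨hP, g, hg, h⟩
      exact (mor_conj F hP hg).hom φ (fun x => h x)

end Cfsg.Agent.S5276
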