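import Cfsg.Statements.S5290
import Cfsg.Agent.Lib.Helper90.Inner
-- import your own Cfsg.Agent.* helpers here

set_option autoImplicit false
open Cfsg

namespace Cfsg.Agent.S5290

open Cfsg.FusionSystem Cfsg.Agent.Lib.Helper90

/-- Let F be a saturated fusion system over a finite p-group S and Q a subgroup of S. Then Q is normal in F (F = N_F(Q)) if and only if the inner fusion system of Q, consisting of the conjugations by elements of Q on subgroups of Q, is a weakly normal subsystem of F (both saturated, Q strongly closed, invariant under F-conjugation, with the Frattini property). -/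
theorem result {Ω : Type*} [Group Ω] {S : Subgroup Ω} [Finite S] (p : ℕ) [Fact p.Prime] (hS : IsPGroup p S)
    (F : Cfsg.FusionSystem S) (hF : F.IsSaturated p)
    (Q : Subgroup Ω) (hQ : Q ≤ S) :
    F.IsNormal Q ↔ (Cfsg.innerFusionSystem Q).IsWeaklyNormalIn F p := by
  have : Finite Q := finite_of_le hQ
  constructor
  · intro hN
    refine ⟨inner_isSaturated (hS.to_le hQ), hF, inner_le F hQ, stronglyClosed_of_isNormal hN,
      ?_, ?_⟩
    · -- invariance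
      intro P hPQ φ hφ α hα
      obtain ⟨-, a, ha, hφa⟩ := hφ
      have himg : (P.subgroupOf Q).map (Q.subtype.comp α.toMonoidHom) ≤ Q := by
        rintro _ ⟨y, -, rfl⟩
        exact (α y).2
      refine ⟨conjHom _ ((α ⟨a, ha⟩ : Q) : Ω), ⟨himg, _, (α ⟨a, ha⟩).2, fun _ => rfl⟩, ?_⟩
      intro x hφx hαx
      show ((α ⟨a, ha⟩ : Q) : Ω) * ((α ⟨x, hPQ x.2⟩ : Q) : Ω) * ((α ⟨a, ha⟩ : Q) : Ω)⁻¹ = _
      have e : (⟨φ x, hφx⟩ : Q) = ⟨a, ha⟩ * ⟨x, hPQ x.2⟩ * ⟨a, ha⟩⁻¹ := Subtype.ext (hφa x)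
      rw [e, map_mul, map_mul, map_inv]
      rfl
    · -- Frattini condition
      intro P hPQ φ hφ
      obtain ⟨f', hf', hf'P, hf'Q⟩ := extend_of_isNormal hN hPQ (mor_of_hom hφ)
      obtain ⟨α, hα, hαf⟩ := exists_aut_of_mor hf' hf'Q
      refine ⟨α, hα, conjHom P 1, (Cfsg.innerFusionSystem Q).conj_mem hPQ Q.one_mem, ?_⟩
      intro x hx
      rw [hαf]
      show φ x = f' (1 * (x : Ω) * 1⁻¹)
      rw [one_mul, inv_one, mul_one, hf'P x x.2, extFun_apply]
  · rintro ⟨-, -, -, hsc, -, hfr⟩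
    apply isNormal_of_stronglyClosed_of_extend hS hF hsc
    intro R f hR hf
    obtain ⟨φ, hφ, hφf⟩ := hf
    obtain ⟨α, hα, φ₀, hφ₀, h⟩ := hfr R hR φ hφ
    obtain ⟨-, a, ha, hφ₀a⟩ := hφ₀
    have hαm : Mor F Q (autFun Q α) := (mem_autGroup_iff F hQ α).mp hα
    have hc : Mor F Q (fun x => a * x * a⁻¹) := mor_conj F hQ (hQ ha)
    have hcQ : ∀ x ∈ Q, a * x * a⁻¹ ∈ Q := fun x hx => Q.mul_mem (Q.mul_mem ha hx) (Q.inv_mem ha)
    refine ⟨autFun Q α ∘ (fun x => a * x * a⁻¹), hc.comp hαm hcQ, fun x hx => ?_⟩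
    show autFun Q α (a * x * a⁻¹) = f x
    rw [autFun_apply' _ (hcQ x (hR hx)), ← hφf ⟨x, hx⟩]
    have h1 : φ₀ ⟨x, hx⟩ ∈ Q := by rw [hφ₀a]; exact hcQ x (hR hx)
    rw [h ⟨x, hx⟩ h1]
    congr 2
    exact Subtype.ext (hφ₀a ⟨x, hx⟩).symm

end Cfsg.Agent.S5290
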