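import Cfsg.Statements.S5291
import Cfsg.Agent.Lib.Helper90.Normal
-- import your own Cfsg.Agent.* helpers here

set_option autoImplicit false
open Cfsg

namespace Cfsg.Agent.S5291

open Cfsg.FusionSystem Cfsg.Agent.Lib.Helper90

variable {Ω : Type*} [Group Ω] {S : Subgroup Ω}

/-- The image of a subgroup normal in `E` under an element of `Aut_F(T)` is normal in `E`. -/
theorem isNormal_img_aut [Finite S] {F : Cfsg.FusionSystem S} {T : Subgroup Ω}
    {E : Cfsg.FusionSystem T} (hTS : T ≤ S)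
    (hinv : E.IsInvariantIn F) {R : Subgroup Ω} (hR : E.IsNormal R) {α : MulAut T}
    (hα : α ∈ F.autGroup T) : E.IsNormal (img R (autFun T α)) := by
  have : Finite T := finite_of_le hTS
  have hRT : R ≤ T := hR.1
  have hαm : Mor F T (autFun T α) := (mem_autGroup_iff F hTS α).mp hα
  have hαinv : α⁻¹ ∈ F.autGroup T := Subgroup.inv_mem _ hα
  have hNT : img R (autFun T α) ≤ T := by
    intro y hy
    obtain ⟨r, hr, rfl⟩ := (hαm.restrict hRT).mem_img.mp hy
    exact autFun_mem α (hRT hr)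
  apply isNormal_of_extQ hNT
  intro P f hf
  have hPT : P ≤ T := hf.le
  -- conjugate by `α⁻¹`
  have hf₁ := invariant_mor hinv hf hαinv
  rw [inv_inv] at hf₁
  obtain ⟨f₁', hf₁', hf₁'P, hf₁'R⟩ := extQ_of_isNormal hR hf₁
  -- conjugate back by `α`
  have hf' := invariant_mor hinv hf₁' hα
  have hαP : Mor F P (autFun T α⁻¹) :=
    ((mem_autGroup_iff F hTS α⁻¹).mp hαinv).restrict hPT
  have hle : P ⊔ img R (autFun T α) ≤
      img (img P (autFun T α⁻¹) ⊔ R) (autFun T α) := by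
    have hm : Mor F (img P (autFun T α⁻¹) ⊔ R) (autFun T α) :=
      hαm.restrict (sup_le (by
        intro y hy
        obtain ⟨x, hx, rfl⟩ := hαP.mem_img.mp hy
        exact autFun_mem _ (hPT hx)) hRT)
    apply sup_le
    · intro x hx
      rw [hm.mem_img]
      exact ⟨autFun T α⁻¹ x, Subgroup.mem_sup_left (hαP.mem_img_of_mem hx),
        autFun_inv_apply α (hPT hx)⟩
    · intro y hy
      obtain ⟨r, hr, rfl⟩ := (hαm.restrict hRT).mem_img.mp hy
      rw [hm.mem_img]
      exact ⟨r, Subgroup.mem_sup_right hr, rfl⟩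
  refine ⟨_, hf'.restrict hle, fun x hx => ?_, fun y hy => ?_⟩
  · show autFun T α (f₁' (autFun T α⁻¹ x)) = f x
    rw [hf₁'P _ (hαP.mem_img_of_mem hx)]
    show autFun T α (autFun T α⁻¹ (f (autFun T α (autFun T α⁻¹ x)))) = f x
    rw [autFun_inv_apply α (hPT hx), autFun_inv_apply α (hf.mem hx)]
  · obtain ⟨r, hr, rfl⟩ := (hαm.restrict hRT).mem_img.mp hy
    show autFun T α (f₁' (autFun T α⁻¹ (autFun T α r))) ∈ _
    rw [autFun_inv_apply' α (hRT hr)]
    exact (hαm.restrict hRT).mem_img_of_mem (hf₁'R r hr)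

/-- Let F be a saturated fusion system over a finite p-group S and E a weakly normal subsystem of F over a subgroup T. Suppose a subgroup R of T is normal in E (E = N_E(R)), and let R* be the subgroup of T generated by the images of R under all maps of F with source R. Then R* is normal in F (F = N_F(R*)). -/
theorem result {Ω : Type*} [Group Ω] {S : Subgroup Ω} [Finite S] (p : ℕ) [Fact p.Prime] (hS : IsPGroup p S)
    (F : Cfsg.FusionSystem S) (hF : F.IsSaturated p)
    {T : Subgroup Ω} (E : Cfsg.FusionSystem T) (hE : E.IsWeaklyNormalIn F p)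
    (R : Subgroup Ω) (hR : E.IsNormal R) :
    F.IsNormal (Subgroup.closure {x : Ω | ∃ φ ∈ F.Hom R, ∃ r : R, x = φ r}) := by
  obtain ⟨-, -, hinv⟩ := hE
  have hsub : E.IsSubsystemOf F := hinv.1
  have hsc : F.StronglyClosed T := hinv.2.1
  have hTS : T ≤ S := hsc.1
  have : Finite T := finite_of_le hTS
  have hRT : R ≤ T := hR.1
  -- the join of the images of `R` under `Aut_F(T)`
  set 𝒩 : Set (Subgroup Ω) := {N | ∃ α ∈ F.autGroup T, N = img R (autFun T α)} with h𝒩
  have hRsE : E.IsNormal (sSup 𝒩) := by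
    apply isNormal_sSup
    rintro N ⟨α, hα, rfl⟩
    exact isNormal_img_aut hTS hinv hR hα
  have hRsT : sSup 𝒩 ≤ T := hRsE.1
  have hscE : E.StronglyClosed (sSup 𝒩) := stronglyClosed_of_isNormal hRsE
  have hgen : Subgroup.closure {x : Ω | ∃ φ ∈ F.Hom R, ∃ r : R, x = φ r} = sSup 𝒩 := by
    apply le_antisymm
    · rw [Subgroup.closure_le]
      rintro _ ⟨φ, hφ, r, rfl⟩
      obtain ⟨α, hα, f₀, hf₀, h⟩ := invariant_frattini hinv hRT (mor_of_hom hφ)
      have h1 := h r r.2
      rw [extFun_apply] at h1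
      rw [h1]
      have hf₀R : f₀ r ∈ R := stronglyClosed_mor_mem (stronglyClosed_of_isNormal hR) hf₀ le_rfl r.2
      have hαm : Mor F R (autFun T α) := ((mem_autGroup_iff F hTS α).mp hα).restrict hRT
      have hmem : img R (autFun T α) ∈ 𝒩 := ⟨α, hα, rfl⟩
      exact Subgroup.mem_sSup_of_mem hmem (hαm.mem_img_of_mem hf₀R)
    · apply sSup_le
      rintro N ⟨α, hα, rfl⟩
      have hαm : Mor F R (autFun T α) := ((mem_autGroup_iff F hTS α).mp hα).restrict hRT
      intro y hy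
      obtain ⟨r, hr, rfl⟩ := hαm.mem_img.mp hy
      obtain ⟨φ, hφ, hφf⟩ := hαm
      exact Subgroup.subset_closure ⟨φ, hφ, ⟨r, hr⟩, (hφf ⟨r, hr⟩).symm⟩
  rw [hgen]
  -- invariance of the join under `Aut_F(T)`
  have hαRs : ∀ α ∈ F.autGroup T, ∀ x ∈ sSup 𝒩, autFun T α x ∈ sSup 𝒩 := by
    intro α hα x hx
    have hαm : Mor F T (autFun T α) := (mem_autGroup_iff F hTS α).mp hα
    rw [← hgen] at hx ⊢
    refine hαm.map_closure_le _ ?_ _ ?_ x hx
    · rintro _ ⟨φ, hφ, r, rfl⟩
      exact hsc.2 R hRT φ hφ r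
    · rintro _ ⟨φ, hφ, r, rfl⟩
      have hm : Mor F R (autFun T α ∘ extFun R φ) :=
        (mor_of_hom hφ).comp hαm (fun x hx => stronglyClosed_mor_mem hsc (mor_of_hom hφ) hRT hx)
      obtain ⟨ψ, hψ, hψf⟩ := hm
      refine Subgroup.subset_closure ⟨ψ, hψ, r, ?_⟩
      rw [hψf]
      show autFun T α (φ r) = autFun T α (extFun R φ r)
      rw [extFun_apply]
  have hscF : F.StronglyClosed (sSup 𝒩) := by
    refine ⟨hRsT.trans hTS, fun P hP φ hφ x => ?_⟩
    obtain ⟨α, hα, f₀, hf₀, h⟩ := invariant_frattini hinv (hP.trans hRsT) (mor_of_hom hφ)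
    have h1 := h x x.2
    rw [extFun_apply] at h1
    rw [h1]
    exact hαRs α hα _ (stronglyClosed_mor_mem hscE hf₀ hP x.2)
  apply isNormal_of_stronglyClosed_of_extend hS hF hscF
  intro P f hP hf
  obtain ⟨α, hα, f₀, hf₀, h⟩ := invariant_frattini hinv (hP.trans hRsT) hf
  obtain ⟨f₀', hf₀', hf₀'P, hf₀'Q⟩ := extend_of_isNormal hRsE hP hf₀
  have hαm : Mor F T (autFun T α) := (mem_autGroup_iff F hTS α).mp hα
  refine ⟨autFun T α ∘ f₀', (mor_of_subsystem hsub hf₀').comp hαm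
    (fun x hx => hRsT (hf₀'Q x hx)), fun x hx => ?_⟩
  show autFun T α (f₀' x) = f x
  rw [hf₀'P x hx, h x hx]

end Cfsg.Agent.S5291
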