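import Cfsg.Statements.S5300
import Cfsg.Agent.Lib.Helper90.CR

set_option autoImplicit false
universe u
open Cfsg

namespace Cfsg.Agent.S5300

open Cfsg.FusionSystem Cfsg.Agent.Lib.Helper90

theorem focal_mem {Ω : Type*} [Group Ω] {S : Subgroup Ω} {F : FusionSystem S} {P : Subgroup Ω}
    {f : Ω → Ω} (hf : Mor F P f) {x : Ω} (hx : x ∈ P) : x⁻¹ * f x ∈ F.focalSubgroup := by
  obtain ⟨φ, hφ, hφf⟩ := hf
  apply Subgroup.subset_closure
  exact ⟨P, φ, ⟨x, hx⟩, hφ, by rw [hφf]⟩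

theorem aut_focal_mem {Ω : Type*} [Group Ω] {S : Subgroup Ω} {F : FusionSystem S}
    {R : Subgroup Ω} (hR : R ≤ S) {α : MulAut R} (hα : α ∈ F.autGroup R) (x : R) :
    ((x : Ω))⁻¹ * ((α x : R) : Ω) ∈ F.focalSubgroup := by
  have := focal_mem ((mem_autGroup_iff F hR α).mp hα) x.2
  rwa [autFun_apply] at this

theorem aut_focal_inv {Ω : Type*} [Group Ω] {S : Subgroup Ω} {F : FusionSystem S}
    {R : Subgroup Ω} (hR : R ≤ S) {α : MulAut R} (hα : α ∈ F.autGroup R) (x : R)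
    (hx : (x : Ω) ∈ F.focalSubgroup) : ((α x : R) : Ω) ∈ F.focalSubgroup := by
  have h1 := Subgroup.mul_mem _ hx (aut_focal_mem hR hα x)
  rwa [mul_inv_cancel_left] at h1

/-- The automorphisms in `Aut_F(R)` fixing the elements of order `p` of `R ∩ foc(F)` and
normalizing its cyclic subgroups of order `4` when `p = 2`. -/
def smallStab {Ω : Type*} [Group Ω] {S : Subgroup Ω} (F : FusionSystem S) (p : ℕ)
    (R : Subgroup Ω) : Subgroup (MulAut R) where
  carrier := {g | g ∈ F.autGroup R ∧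
    (∀ x : R, (x : Ω) ∈ F.focalSubgroup → x ^ p = 1 → g x = x) ∧
    (p = 2 → ∀ x : R, (x : Ω) ∈ F.focalSubgroup → x ^ 4 = 1 →
      g x ∈ Subgroup.zpowers x ∧ g⁻¹ x ∈ Subgroup.zpowers x)}
  mul_mem' := by
    rintro g h ⟨hg, hg1, hg2⟩ ⟨hh, hh1, hh2⟩
    refine ⟨Subgroup.mul_mem _ hg hh, fun x hxf hxp => ?_, fun h2 x hxf hx4 => ?_⟩
    · show g (h x) = x
      rw [hh1 x hxf hxp, hg1 x hxf hxp]
    · obtain ⟨hgx, hgix⟩ := hg2 h2 x hxf hx4
      obtain ⟨hhx, hhix⟩ := hh2 h2 x hxf hx4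
      constructor
      · show g (h x) ∈ Subgroup.zpowers x
        obtain ⟨k, hk⟩ := Subgroup.mem_zpowers_iff.mp hhx
        rw [← hk, map_zpow]
        exact Subgroup.zpow_mem _ hgx k
      · show (g * h)⁻¹ x ∈ Subgroup.zpowers x
        rw [mul_inv_rev]
        show h⁻¹ (g⁻¹ x) ∈ Subgroup.zpowers x
        obtain ⟨k, hk⟩ := Subgroup.mem_zpowers_iff.mp hgix
        rw [← hk, map_zpow]
        exact Subgroup.zpow_mem _ hhix k
  one_mem' := by
    refine ⟨Subgroup.one_mem _, fun x _ _ => rfl, fun _ x _ _ => ?_⟩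
    rw [inv_one]
    exact ⟨Subgroup.mem_zpowers x, Subgroup.mem_zpowers x⟩
  inv_mem' := by
    rintro g ⟨hg, hg1, hg2⟩
    refine ⟨Subgroup.inv_mem _ hg, fun x hxf hxp => ?_, fun h2 x hxf hx4 => ?_⟩
    · have h1 := hg1 x hxf hxp
      conv_lhs => rw [← h1]
      simp
    · obtain ⟨hgx, hgix⟩ := hg2 h2 x hxf hx4
      rw [inv_inv]
      exact ⟨hgix, hgx⟩


/-- Let F be a saturated fusion system over a finite p-group S. If every cyclic subgroup of the focal subgroup of F of order p (of order 2 or 4 when p = 2) is normal in S, then S is normal in F. -/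
theorem result {Ω : Type u} [Group Ω] {S : Subgroup Ω} [Finite S] (p : ℕ) [Fact p.Prime] (hS : IsPGroup p S)
    (F : Cfsg.FusionSystem S) (hF : F.IsSaturated p)
    (hnorm : ∀ x ∈ F.focalSubgroup, (x ^ p = 1 ∨ (p = 2 ∧ x ^ 4 = 1)) → ∀ s ∈ S, s * x * s⁻¹ ∈ Subgroup.zpowers x) :
    F.IsNormal S := by
  have hSc : F.StronglyClosed S := ⟨le_rfl, fun R _ φ hφ x => (F.le_of_mem hφ).2 x⟩
  apply isNormal_of_le_centric_radical hS hF hSc
  intro R hfa hrec hcen hrad
  have hR : R ≤ S := hfa.1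
  have : Finite R := finite_of_le hR
  have hRp : IsPGroup p R := hS.to_le hR
  apply le_of_centric_radical hS hcen hrad le_rfl
    (fun s hs q hq => S.mul_mem (S.mul_mem hs hq) (S.inv_mem hs))
  intro a ha haN κ hκ
  have hκF : κ ∈ F.autGroup R :=
    autInducedBy_le_autGroup F hR ((mem_autInducedBy_iff S R κ).mpr ⟨a, ha, hκ⟩)
  have hκinv : ∀ x : R, ((κ⁻¹ x : R) : Ω) = a⁻¹ * x * a⁻¹⁻¹ := by
    intro x
    have h1 := hκ (κ⁻¹ x)
    have h2 : κ (κ⁻¹ x) = x := by simp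
    rw [h2] at h1
    rw [h1]
    group
  obtain ⟨m₀, hm₀⟩ := hS ⟨a, ha⟩
  have ham : a ^ p ^ m₀ = 1 := congrArg Subtype.val hm₀
  have hmemzp : ∀ (x : R) (y : R), (y : Ω) ∈ Subgroup.zpowers (x : Ω) → y ∈ Subgroup.zpowers x := by
    intro x y hy
    obtain ⟨k, hk⟩ := Subgroup.mem_zpowers_iff.mp hy
    exact Subgroup.mem_zpowers_iff.mpr ⟨k, Subtype.ext (by rw [Subgroup.coe_zpow, hk])⟩
  refine le_pCore_map_of_coprime_trivial (smallStab F p R) (fun g hg => hg.1) ?_ ?_ ?_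
  · -- normalized by the automizer
    rintro α hα g ⟨hg, hg1, hg2⟩
    have hαi : α⁻¹ ∈ F.autGroup R := Subgroup.inv_mem _ hα
    refine ⟨Subgroup.mul_mem _ (Subgroup.mul_mem _ hα hg) hαi, fun x hxf hxp => ?_,
      fun h2 x hxf hx4 => ?_⟩
    · show α (g (α⁻¹ x)) = x
      have hy : (α⁻¹ x) ^ p = 1 := by rw [← map_pow, hxp, map_one]
      rw [hg1 _ (aut_focal_inv hR hαi x hxf) hy]
      simp
    · have hy : (α⁻¹ x) ^ 4 = 1 := by rw [← map_pow, hx4, map_one]
      obtain ⟨h3, h4⟩ := hg2 h2 _ (aut_focal_inv hR hαi x hxf) hy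
      have hαα : α (α⁻¹ x) = x := by simp
      constructor
      · show α (g (α⁻¹ x)) ∈ Subgroup.zpowers x
        obtain ⟨k, hk⟩ := Subgroup.mem_zpowers_iff.mp h3
        rw [← hk, map_zpow, hαα]
        exact Subgroup.zpow_mem _ (Subgroup.mem_zpowers x) k
      · have e : (α * g * α⁻¹)⁻¹ = α * g⁻¹ * α⁻¹ := by group
        rw [e]
        show α (g⁻¹ (α⁻¹ x)) ∈ Subgroup.zpowers x
        obtain ⟨k, hk⟩ := Subgroup.mem_zpowers_iff.mp h4
        rw [← hk, map_zpow, hαα]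
        exact Subgroup.zpow_mem _ (Subgroup.mem_zpowers x) k
  · -- elements of order prime to `p` are trivial
    rintro β ⟨hβ, hβ1, hβ2⟩ hβm
    have hpow : ∀ x : R, (β ^ orderOf β) x = x := by
      intro x
      rw [pow_orderOf_eq_one]
      rfl
    have hDp : IsPGroup p (F.focalSubgroup.subgroupOf R) := hRp.to_subgroup _
    have hDinv : ∀ x ∈ F.focalSubgroup.subgroupOf R, β x ∈ F.focalSubgroup.subgroupOf R :=
      fun x hx => Subgroup.mem_subgroupOf.mpr (aut_focal_inv hR hβ x (Subgroup.mem_subgroupOf.mp hx))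
    have hsmall : ∀ x ∈ F.focalSubgroup.subgroupOf R, x ^ (if p = 2 then 4 else p) = 1 →
        β x = x := by
      intro x hx hxn
      have hxf : (x : Ω) ∈ F.focalSubgroup := Subgroup.mem_subgroupOf.mp hx
      by_cases h2 : p = 2
      · rw [if_pos h2] at hxn
        obtain ⟨hz, -⟩ := hβ2 h2 x hxf hxn
        obtain ⟨k, hk⟩ := Subgroup.mem_zpowers_iff.mp hz
        have hx2f : ((x ^ 2 : R) : Ω) ∈ F.focalSubgroup := by
          rw [Subgroup.coe_pow]; exact Subgroup.pow_mem _ hxf 2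
        have hx2p : (x ^ 2) ^ p = 1 := by rw [h2, ← pow_mul]; exact hxn
        have hβx2 : (β x) ^ 2 = x ^ 2 := by
          rw [← map_pow]; exact hβ1 _ hx2f hx2p
        have hcomm : Commute x⁻¹ (β x) := by
          rw [← hk]; exact ((Commute.refl x).inv_left).zpow_right k
        have hy2 : (x⁻¹ * β x) ^ 2 = 1 := by
          rw [hcomm.mul_pow, hβx2, inv_pow, inv_mul_cancel]
        have hyf : ((x⁻¹ * β x : R) : Ω) ∈ F.focalSubgroup := aut_focal_mem hR hβ x
        have hfix : β (x⁻¹ * β x) = x⁻¹ * β x := hβ1 _ hyf (by rw [h2]; exact hy2)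
        exact aut_fix_of_fix_comm β hβm x hfix (hpow x) (k := 1) (by rw [pow_one, h2]; exact hy2)
      · rw [if_neg h2] at hxn
        exact hβ1 x hxf hxn
    have hfixD := aut_fix_of_fix_small β hβm rfl (Nat.card (F.focalSubgroup.subgroupOf R))
      (F.focalSubgroup.subgroupOf R) le_rfl inferInstance hDp hDinv (fun x _ => hpow x) hsmall
    ext x
    have hyD : x⁻¹ * β x ∈ F.focalSubgroup.subgroupOf R :=
      Subgroup.mem_subgroupOf.mpr (aut_focal_mem hR hβ x)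
    obtain ⟨k, hk⟩ := hRp (x⁻¹ * β x)
    have := aut_fix_of_fix_comm β hβm x (hfixD _ hyD) (hpow x) hk
    rw [this]
    rfl
  · -- the automorphism induced by `a` lies in the subgroup
    refine ⟨hκF, fun x hxf hxp => ?_, fun h2 x hxf hx4 => ?_⟩
    · apply Subtype.ext
      rw [hκ]
      have hxp' : (x : Ω) ^ p = 1 := by rw [← Subgroup.coe_pow, hxp]; rfl
      exact conj_eq_of_mem_zpowers ham hxp' (hnorm x hxf (Or.inl hxp') a ha)
    · have hx4' : (x : Ω) ^ 4 = 1 := by rw [← Subgroup.coe_pow, hx4]; rfl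
      constructor
      · apply hmemzp
        rw [hκ]
        exact hnorm x hxf (Or.inr ⟨h2, hx4'⟩) a ha
      · apply hmemzp
        rw [hκinv]
        exact hnorm x hxf (Or.inr ⟨h2, hx4'⟩) a⁻¹ (S.inv_mem ha)

end Cfsg.Agent.S5300
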