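import Cfsg.Statements.S5321
import Cfsg.Agent.Lib.Helper89.J2SylMain
import Cfsg.Agent.Lib.Helper95.IcoJ
import Cfsg.Agent.Lib.Helper21.PslT1

set_option autoImplicit false
open Cfsg

namespace Cfsg.Agent.S5321

/-- For a finite group G isomorphic to the Hall–Janko group J₂ (as constructed in the problem's definitions), the 2-fusion system of G on a Sylow 2-subgroup is simple: saturated, over a nontrivial 2-group, with no normal subsystem other than the trivial one and itself. -/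
theorem result {G : Type*} [Group G] [Finite G] (hG : Cfsg.Spor.IsoJ2 G) (S : Sylow 2 G) : (Cfsg.groupFusionSystem (S : Subgroup G)).IsSimple 2 := by
  classical
  obtain ⟨e0⟩ := hG
  haveI : Fact (Nat.Prime 2) := ⟨Nat.prime_two⟩
  have e : ↥Cfsg.Agent.Lib.Helper7.J2P.P ≃* G :=
    (e0.trans Cfsg.Agent.Lib.Helper95.Ico.j2IsoP).symm
  have hg1 := Cfsg.Agent.Lib.Helper21.PslT1.goodSyl_map_equiv e 2 _
    Cfsg.Agent.Lib.Helper89.J2Syl.goodSyl
  have hcG : Nat.card G = Nat.card ↥Cfsg.Agent.Lib.Helper7.J2P.P :=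
    Nat.card_congr e.symm.toEquiv
  have hcard : Nat.card ((Cfsg.Agent.Lib.Helper89.J2Syl.Syl.subgroupOf
      Cfsg.Agent.Lib.Helper7.J2P.P).map e.toMonoidHom) = 2 ^ (Nat.card G).factorization 2 := by
    rw [hcG, ← Cfsg.Agent.Lib.Helper89.J2Syl.hcard]
    rw [Subgroup.card_map_of_injective e.injective]
    exact Nat.card_congr
      (Subgroup.subgroupOfEquivOfLe Cfsg.Agent.Lib.Helper89.J2Syl.leP).toEquiv
  obtain ⟨g, hg'⟩ := MulAction.exists_smul_eq G (Sylow.ofCard _ hcard : Sylow 2 G) S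
  have hSe : (S : Subgroup G) = ((Cfsg.Agent.Lib.Helper89.J2Syl.Syl.subgroupOf
      Cfsg.Agent.Lib.Helper7.J2P.P).map e.toMonoidHom).map (MulAut.conj g).toMonoidHom := by
    rw [← hg', Sylow.coe_subgroup_smul, Sylow.coe_ofCard]
    rfl
  have hfin := Cfsg.Agent.Lib.Helper21.PslT1.goodSyl_map_equiv (MulAut.conj g) 2 _ hg1
  rw [← hSe] at hfin
  exact Cfsg.Agent.Lib.Helper91.SimpleGen.simple_of_goodSyl S hfin

end Cfsg.Agent.S5321
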