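import Cfsg.Statements.S5322
-- import your own Cfsg.Agent.* helpers here
import Cfsg.Agent.Lib.Helper89.J3SylMain
import Cfsg.Agent.Lib.Helper37.J3FusFin

set_option autoImplicit false
open Cfsg

namespace Cfsg.Agent.S5322

/-- For a finite group G isomorphic to the third Janko group J₃, the 2-fusion system of G on a Sylow 2-subgroup is simple: saturated, over a nontrivial 2-group, with no normal subsystem other than the trivial one and itself. -/
theorem result {G : Type*} [Group G] [Finite G] (hG : Cfsg.Spor.IsoJ3 G) (S : Sylow 2 G) : (Cfsg.groupFusionSystem (S : Subgroup G)).IsSimple 2 := by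
  obtain ⟨F, _, _, ω, hF, hω, ⟨e⟩⟩ := hG
  have h2 : (2 : F) = 0 := Cfsg.Agent.Lib.Helper37.J3.two_eq_zero_of_card hF
  have hω' : ω * ω = ω + 1 := Cfsg.Agent.Lib.Helper37.J3.om_sq_of h2 hω
  exact Cfsg.Agent.Lib.Helper37.J3Fus.j3_fusion_simple_of_good ω hF hω
    (Cfsg.Agent.Lib.Helper89.J3Syl.Syl h2 hω') (Cfsg.Agent.Lib.Helper89.J3Syl.leJ h2 hω')
    (by rw [Cfsg.Agent.Lib.Helper89.J3Syl.cardS h2 hω']; norm_num)
    (Cfsg.Agent.Lib.Helper89.J3Syl.goodSyl h2 hω') e S

end Cfsg.Agent.S5322
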