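import Cfsg.Statements.S5323
import Cfsg.Agent.Lib.Helper89.IdxMap
import Cfsg.Agent.Lib.Helper89.M22SylEq
import Cfsg.Agent.Lib.Helper89.McLEmb

set_option autoImplicit false
open Cfsg

namespace Cfsg.Agent.S5323

/-- For a finite group G isomorphic to the McLaughlin group, the 2-fusion system of G on a Sylow 2-subgroup is simple: saturated, over a nontrivial 2-group, with no normal subsystem other than the trivial one and itself. -/
theorem result {G : Type*} [Group G] [Finite G] (hG : Cfsg.Spor.IsoMcL G) (S : Sylow 2 G) : (Cfsg.groupFusionSystem (S : Subgroup G)).IsSimple 2 := by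
  obtain ⟨φ⟩ := hG
  -- `M22` embeds into `G` (coordinate permutations of the lattice)
  obtain ⟨ι, hιdef⟩ : ∃ ι : ↥Spor.M22 →* G,
      ι = φ.symm.toMonoidHom.comp Cfsg.Agent.Lib.Helper89.McLSyl.emb := ⟨_, rfl⟩
  have hι : Function.Injective ι := by
    rw [hιdef]
    exact φ.symm.injective.comp Cfsg.Agent.Lib.Helper89.McLSyl.emb_injective
  have hcardG : (Nat.card G).factorization 2 = 7 := by
    rw [Nat.card_congr φ.toEquiv]
    exact Cfsg.Agent.Lib.Helper89.McLSyl.fact_McL
  refine Cfsg.Agent.Lib.Helper89.gfs_isSimple_of_emb 2 Spor.M22 ι hι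
    (Cfsg.Agent.Lib.Helper89.tgGrp Cfsg.Agent.Lib.Helper89.M22Syl.gens)
    Cfsg.Agent.Lib.Helper89.M22Syl.leM22
    (by rw [Cfsg.Agent.Lib.Helper89.M22Syl.cardP, hcardG])
    Cfsg.Agent.Lib.Helper89.M22Syl.ne_bot ?_
    Cfsg.Agent.Lib.Helper89.M22Syl.noStronglyClosed S
  -- elements of odd order normalizing the image of the Sylow subgroup of `M22` centralize it
  intro g hg hco
  have D := Cfsg.Agent.Lib.Helper89.M22Syl.model.mapHom Spor.M22
    Cfsg.Agent.Lib.Helper89.M22Syl.leM22 ι hι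
  have hP : IsPGroup 2 ↥(((Cfsg.Agent.Lib.Helper89.tgGrp
      Cfsg.Agent.Lib.Helper89.M22Syl.gens).subgroupOf Spor.M22).map ι) :=
    IsPGroup.of_card (n := 7) (by rw [D.card]; norm_num)
  exact Cfsg.Agent.Lib.Helper89.M22Syl.centralize_of_model D hP g hg hco

end Cfsg.Agent.S5323
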