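import Cfsg.Statements.S5331
import Cfsg.Agent.Lib.Helper91.Abelian

set_option autoImplicit false
open Cfsg

namespace Cfsg.Agent.S5331

open Cfsg.FusionSystem Cfsg.Agent.Lib.Helper90 Cfsg.Agent.Lib.Helper91
open scoped IsMulCommutative

theorem zmod_two_torsion (k : ℕ) (u : ZMod (2 ^ k)) (hu : u + u = 0) (hne : u ≠ 0) :
    u = ((2 ^ (k - 1) : ℕ) : ZMod (2 ^ k)) := by
  cases k with
  | zero =>
    have hsub : Subsingleton (ZMod (2 ^ 0)) := by
      rw [pow_zero]
      infer_instance
    exact absurd (Subsingleton.elim u 0) hne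
  | succ k =>
    have : NeZero (2 ^ (k + 1)) := ⟨by positivity⟩
    have h1 : ((u.val + u.val : ℕ) : ZMod (2 ^ (k + 1))) = 0 := by
      rw [Nat.cast_add, ZMod.natCast_zmod_val]
      exact hu
    rw [ZMod.natCast_eq_zero_iff] at h1
    have h2 : u.val < 2 ^ (k + 1) := ZMod.val_lt u
    have h3 : u.val ≠ 0 := by rwa [Ne, ZMod.val_eq_zero]
    have h4 : u.val = 2 ^ k := by
      have h5 : 2 ^ k ∣ u.val := by
        have h6 : 2 * 2 ^ k ∣ 2 * u.val := by
          rw [← pow_succ', two_mul]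
          exact h1
        exact (Nat.mul_dvd_mul_iff_left (by norm_num)).mp h6
      obtain ⟨c, hc⟩ := h5
      have hc0 : c ≠ 0 := by
        rintro rfl
        exact h3 (by simpa using hc)
      have hc2 : c < 2 := by
        by_contra hcon
        push_neg at hcon
        have h7 : 2 ^ k * 2 ≤ 2 ^ k * c := Nat.mul_le_mul_left _ hcon
        have h2' : u.val < 2 ^ k * 2 := by rw [← pow_succ]; exact h2
        omega
      have hc1 : c = 1 := by omega
      rw [hc, hc1, mul_one]
    rw [Nat.add_sub_cancel, ← h4, ZMod.natCast_zmod_val]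

section model

variable {G : Type*} [CommGroup G] {n : ℕ} {a : Fin n → ℕ}
  (e : G ≃* Multiplicative ((i : Fin n) → ZMod (2 ^ a i)))

/-- The coordinates of an element. -/
def crd (x : G) (i : Fin n) : ZMod (2 ^ a i) := Multiplicative.toAdd (e x) i

theorem crd_mul (x y : G) (i : Fin n) : crd e (x * y) i = crd e x i + crd e y i := by
  unfold crd
  rw [map_mul]
  rfl

theorem crd_one (i : Fin n) : crd e (1 : G) i = 0 := by
  unfold crd
  rw [map_one]
  rfl

theorem crd_inv (x : G) (i : Fin n) : crd e x⁻¹ i = - crd e x i := by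
  unfold crd
  rw [map_inv]
  rfl

theorem crd_pow (x : G) (k : ℕ) (i : Fin n) : crd e (x ^ k) i = (k : ZMod (2 ^ a i)) * crd e x i := by
  induction k with
  | zero => simp [crd_one]
  | succ k ih => rw [pow_succ, crd_mul, ih]; push_cast; ring

theorem eq_one_of_crd (x : G) (h : ∀ i, crd e x i = 0) : x = 1 := by
  apply e.injective
  rw [map_one]
  apply Multiplicative.toAdd.injective
  funext i
  exact h i

/-- The characteristic filtration of the elements of order at most two. -/
def W (j : ℕ) (x : G) : Prop := x ^ 2 = 1 ∧ ∀ i, crd e x i ≠ 0 → j < a i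

theorem W_iff (j : ℕ) (x : G) : W e j x ↔ x ^ 2 = 1 ∧ ∃ y : G, x = y ^ (2 ^ j) := by
  constructor
  · rintro ⟨h2, h⟩
    refine ⟨h2, ?_⟩
    classical
    have htor : ∀ i, crd e x i + crd e x i = 0 := by
      intro i
      rw [← crd_mul, ← pow_two, h2, crd_one]
    refine ⟨e.symm (Multiplicative.ofAdd (fun i => if crd e x i = 0 then 0 else
      ((2 ^ (a i - 1 - j) : ℕ) : ZMod (2 ^ a i)))), ?_⟩
    apply e.injective
    rw [map_pow, MulEquiv.apply_symm_apply]
    apply Multiplicative.toAdd.injective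
    funext i
    show crd e x i = (2 ^ j) • (if crd e x i = 0 then (0 : ZMod (2 ^ a i)) else
      ((2 ^ (a i - 1 - j) : ℕ) : ZMod (2 ^ a i)))
    by_cases hc : crd e x i = 0
    · rw [if_pos hc, hc, smul_zero]
    · rw [if_neg hc]
      have hj := h i hc
      rw [zmod_two_torsion (a i) (crd e x i) (htor i) hc, nsmul_eq_mul,
        ← Nat.cast_mul, ← pow_add]
      congr 2
      omega
  · rintro ⟨h2, y, rfl⟩
    refine ⟨h2, fun i hi => ?_⟩
    by_contra hcon
    push_neg at hcon
    apply hi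
    rw [crd_pow]
    have h1 : ((2 ^ j : ℕ) : ZMod (2 ^ a i)) = 0 := by
      rw [ZMod.natCast_eq_zero_iff]
      exact pow_dvd_pow 2 hcon
    rw [h1, zero_mul]

theorem W_map (α : MulAut G) (j : ℕ) (x : G) (h : W e j x) : W e j (α x) := by
  rw [W_iff] at h ⊢
  obtain ⟨h2, y, rfl⟩ := h
  refine ⟨?_, α y, map_pow _ _ _⟩
  rw [← map_pow, h2, map_one]

theorem W_mul (j : ℕ) (x y : G) (hx : W e j x) (hy : W e j y) : W e j (x * y) := by
  refine ⟨by rw [mul_pow, hx.1, hy.1, one_mul], fun i hi => ?_⟩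
  rw [crd_mul] at hi
  by_cases hxi : crd e x i = 0
  · rw [hxi, zero_add] at hi
    exact hy.2 i hi
  · exact hx.2 i hxi

theorem W_inv (j : ℕ) (x : G) (hx : W e j x) : W e j x⁻¹ := by
  refine ⟨by rw [inv_pow, hx.1, inv_one], fun i hi => ?_⟩
  rw [crd_inv] at hi
  exact hx.2 i (fun h => hi (by rw [h, neg_zero]))

theorem fix_of_sq (α : MulAut G) (m : ℕ) (hm : Odd m) (hαm : α ^ m = 1) (x : G)
    (h2 : α (α x) = x) : α x = x := by
  obtain ⟨k, rfl⟩ := hm
  have h3 : ∀ k : ℕ, (α ^ (2 * k)) x = x := by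
    intro k
    induction k with
    | zero => simp
    | succ k ih =>
      have : α ^ (2 * (k + 1)) = α ^ (2 * k) * α * α := by
        rw [mul_add, pow_add, mul_one, pow_two, mul_assoc]
      rw [this]
      show (α ^ (2 * k)) (α (α x)) = x
      rw [h2, ih]
  have h4 : (α ^ (2 * k + 1)) x = x := by rw [hαm]; rfl
  rw [pow_succ] at h4
  have h5 : (α ^ (2 * k)) (α x) = x := h4
  have h6 : (α ^ (2 * k)) (α x) = (α ^ (2 * k)) x := by rw [h5, h3 k]
  exact (α ^ (2 * k)).injective h6

theorem fix_W (ha : StrictMono a) (α : MulAut G) (m : ℕ) (hm : Odd m) (hαm : α ^ m = 1)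
    (N : ℕ) (hN : ∀ i, a i ≤ N) :
    ∀ (d j : ℕ), N ≤ j + d → ∀ x : G, W e j x → α x = x := by
  intro d
  induction d with
  | zero =>
    intro j hj x hx
    have hx1 : x = 1 := by
      apply eq_one_of_crd e
      intro i
      by_contra hi
      have := hx.2 i hi
      have := hN i
      omega
    rw [hx1, map_one]
  | succ d ih =>
    intro j hj x hx
    have hC : ∀ y : G, W e (j + 1) y → α y = y := ih (j + 1) (by omega)
    by_cases hx' : W e (j + 1) x
    · exact hC x hx'
    · have hαx : W e j (α x) := W_map e α j x hx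
      have hαx' : ¬ W e (j + 1) (α x) := by
        intro h
        apply hx'
        have h1 := W_map e α⁻¹ (j + 1) (α x) h
        rwa [MulAut.inv_apply_self] at h1
      obtain ⟨i₀, hi₀, hi₀'⟩ : ∃ i, crd e x i ≠ 0 ∧ ¬ (j + 1 < a i) := by
        by_contra hcon
        push_neg at hcon
        exact hx' ⟨hx.1, hcon⟩
      obtain ⟨i₁, hi₁, hi₁'⟩ : ∃ i, crd e (α x) i ≠ 0 ∧ ¬ (j + 1 < a i) := by
        by_contra hcon
        push_neg at hcon
        exact hαx' ⟨hαx.1, hcon⟩
      have h0 : a i₀ = j + 1 := by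
        have := hx.2 i₀ hi₀
        omega
      have h1 : a i₁ = j + 1 := by
        have := hαx.2 i₁ hi₁
        omega
      have hi10 : i₁ = i₀ := ha.injective (h1.trans h0.symm)
      rw [hi10] at hi₁
      have htor : ∀ z : G, z ^ 2 = 1 → ∀ i, crd e z i + crd e z i = 0 := by
        intro z hz i
        rw [← crd_mul, ← pow_two, hz, crd_one]
      have heq : crd e (α x) i₀ = crd e x i₀ := by
        rw [zmod_two_torsion _ _ (htor _ hαx.1 i₀) hi₁, zmod_two_torsion _ _ (htor _ hx.1 i₀) hi₀]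
      have hy : W e (j + 1) (α x * x⁻¹) := by
        have hy0 : W e j (α x * x⁻¹) := W_mul e j _ _ hαx (W_inv e j x hx)
        refine ⟨hy0.1, fun i hi => ?_⟩
        have h2 := hy0.2 i hi
        have h3 : i ≠ i₀ := by
          rintro rfl
          apply hi
          rw [crd_mul, crd_inv, heq, add_neg_cancel]
        have h4 : a i ≠ a i₀ := fun h => h3 (ha.injective h)
        omega
      have h5 := hC _ hy
      rw [map_mul, map_inv] at h5
      have h6 : α (α x) = x := by
        have h7 : α (α x) = α x * x⁻¹ * α x := by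
          rw [← h5]
          simp
        rw [h7]
        have h8 : (α x * x⁻¹) ^ 2 = 1 := hy.1
        have h9 : α x * x⁻¹ * α x = (α x * x⁻¹) ^ 2 * x := by
          rw [pow_two]
          simp [mul_assoc]
        rw [h9, h8, one_mul]
      exact fix_of_sq α m hm hαm x h6

theorem fix_two_torsion (e : G ≃* Multiplicative ((i : Fin n) → ZMod (2 ^ a i)))
    (ha : StrictMono a) (α : MulAut G) (m : ℕ) (hm : Odd m) (hαm : α ^ m = 1)
    (x : G) (hx : x ^ 2 = 1) : α x = x := by
  classical
  refine fix_W e ha α m hm hαm (Finset.univ.sup a) (fun i => Finset.le_sup (Finset.mem_univ i))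
    (Finset.univ.sup a) 0 (by omega) x ⟨hx, fun i hi => ?_⟩
  by_contra hcon
  have h0 : a i = 0 := by omega
  apply hi
  have hsub : Subsingleton (ZMod (2 ^ a i)) := by
    rw [h0, pow_zero]
    infer_instance
  exact Subsingleton.elim _ _

end model

/-- An automorphism of odd order of a finite abelian `2`-group that fixes every element of order
at most two is trivial. -/
theorem aut_eq_one {M : Type*} [CommGroup M] [Finite M] (hM : IsPGroup 2 M) (α : MulAut M)
    (m : ℕ) (hm : Odd m) (hαm : α ^ m = 1) (hfix : ∀ x : M, x ^ 2 = 1 → α x = x) : α = 1 := by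
  obtain ⟨A, hA⟩ : ∃ A, A = Subgroup.zpowers α := ⟨_, rfl⟩
  have hfinA : Finite A := inferInstance
  obtain ⟨nrm, h1, -, h3, -⟩ := exists_norm_map A
  have hcard : Odd (Nat.card A) := by
    have h5 : Nat.card A ∣ m := by
      rw [hA, Nat.card_zpowers]
      exact orderOf_dvd_of_pow_eq_one hαm
    exact Odd.of_dvd_nat hm h5
  have hfixA : ∀ x : M, x ^ 2 = 1 → ∀ β ∈ A, β x = x := by
    intro x hx β hβ
    have h5 : A ≤ MulAction.stabilizer (MulAut M) x := by
      rw [hA, Subgroup.zpowers_le, MulAction.mem_stabilizer_iff]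
      exact hfix x hx
    exact MulAction.mem_stabilizer_iff.mp (h5 hβ)
  have hK2 : ∀ x ∈ Subgroup.closure {y : M | ∃ z, ∃ β ∈ A, y = z⁻¹ * β z}, x ^ 2 = 1 → x = 1 := by
    intro x hxK hx2
    have h5 : nrm x = 1 := h3 x hxK
    rw [h1 x (hfixA x hx2)] at h5
    obtain ⟨q, hq⟩ := hcard
    rw [hq, pow_succ, pow_mul, hx2, one_pow, one_mul] at h5
    exact h5
  have hK : ∀ t : ℕ, ∀ x ∈ Subgroup.closure {y : M | ∃ z, ∃ β ∈ A, y = z⁻¹ * β z},
      x ^ (2 ^ t) = 1 → x = 1 := by
    intro t
    induction t with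
    | zero =>
      intro x _ hx
      simpa using hx
    | succ t ih =>
      intro x hxK hx
      apply hK2 x hxK
      apply ih (x ^ 2) (Subgroup.pow_mem _ hxK 2)
      rw [← pow_mul, ← pow_succ']
      exact hx
  ext z
  have hz : z⁻¹ * α z ∈ Subgroup.closure {y : M | ∃ z, ∃ β ∈ A, y = z⁻¹ * β z} :=
    Subgroup.subset_closure ⟨z, α, hA ▸ Subgroup.mem_zpowers α, rfl⟩
  obtain ⟨t, ht⟩ := hM (z⁻¹ * α z)
  have h5 := hK t _ hz ht
  show α z = z
  rw [inv_mul_eq_one] at h5
  exact h5.symm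

/-- Let S be a finite abelian 2-group that is a direct product of cyclic groups of pairwise distinct orders 2^{a_1} < 2^{a_2} < ⋯ < 2^{a_n} (all a_i ≥ 1). Then every saturated fusion system over S is the inner one: its maps are exactly the conjugations by elements of S. -/
theorem result {Ω : Type*} [Group Ω] {S : Subgroup Ω} [Finite S] (n : ℕ) (a : Fin n → ℕ) (ha : StrictMono a) (ha1 : ∀ i, 1 ≤ a i) (e : ↥S ≃* Multiplicative ((i : Fin n) → ZMod (2 ^ a i))) (F : Cfsg.FusionSystem S) (hF : F.IsSaturated 2) (P : Subgroup Ω) : F.Hom P = (Cfsg.innerFusionSystem S).Hom P := by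
  have hp2 : Fact (Nat.Prime 2) := ⟨Nat.prime_two⟩
  have hab : ∀ x ∈ S, ∀ y ∈ S, x * y = y * x := by
    intro x hx y hy
    have h1 : (⟨x, hx⟩ : S) * ⟨y, hy⟩ = ⟨y, hy⟩ * ⟨x, hx⟩ := by
      apply e.injective
      rw [map_mul, map_mul, mul_comm]
    exact congrArg Subtype.val h1
  haveI : IsMulCommutative S := ⟨⟨fun a b => Subtype.ext (hab a a.2 b b.2)⟩⟩
  have hS : IsPGroup 2 S := by
    classical
    intro x
    refine ⟨Finset.univ.sup a, ?_⟩
    apply eq_one_of_crd e
    intro i
    rw [crd_pow]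
    have h1 : ((2 ^ Finset.univ.sup a : ℕ) : ZMod (2 ^ a i)) = 0 := by
      rw [ZMod.natCast_eq_zero_iff]
      exact pow_dvd_pow 2 (Finset.le_sup (Finset.mem_univ i))
    rw [h1, zero_mul]
  have hm2 : ¬ 2 ∣ Nat.card (F.autGroup S) := not_dvd_card_autGroup_of_abelian hF hab
  have hone : ∀ α ∈ F.autGroup S, α = 1 := by
    intro α hα
    have h1 : orderOf α ∣ Nat.card (F.autGroup S) := by
      have h2 := orderOf_dvd_natCard (⟨α, hα⟩ : F.autGroup S)
      rwa [Subgroup.orderOf_mk] at h2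
    have hodd : Odd (orderOf α) := by
      rw [← Nat.not_even_iff_odd, even_iff_two_dvd]
      exact fun h => hm2 (h.trans h1)
    exact aut_eq_one hS α (orderOf α) hodd (pow_orderOf_eq_one α)
      (fun x hx => fix_two_torsion e ha α (orderOf α) hodd (pow_orderOf_eq_one α) x hx)
  apply Set.Subset.antisymm
  · intro φ hφ
    obtain ⟨f', hf', hf'P⟩ := extend_abelian hS hF hab (mor_of_hom hφ)
    obtain ⟨α, hα, hαf⟩ := aut_of_mor_top hf'
    have hPS : P ≤ S := (F.le_of_mem hφ).1
    refine ⟨hPS, 1, S.one_mem, fun x => ?_⟩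
    have h1 := hαf ⟨x, hPS x.2⟩
    rw [hone α hα] at h1
    have h2 : f' x = φ x := by rw [hf'P x x.2, extFun_apply]
    rw [← h2, ← h1]
    simp
  · exact inner_le F le_rfl P

end Cfsg.Agent.S5331
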