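import Cfsg.Statements.S5342
import Cfsg.Agent.S5145
import Cfsg.Agent.Lib.Helper87.Fusion9

set_option autoImplicit false
open Cfsg

namespace Cfsg.Agent.S5342

open Cfsg.FusionSystem Cfsg.Agent.Lib.Helper87

variable {Ω : Type*} [Group Ω] {S : Subgroup Ω}

/-- The intersection of two strongly closed subgroups is strongly closed. -/
theorem sc_inf (F : FusionSystem S) {A B : Subgroup Ω} (hA : F.StronglyClosed A)
    (hB : F.StronglyClosed B) : F.StronglyClosed (A ⊓ B) :=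
  ⟨inf_le_left.trans hA.1, fun R hR φ hφ x =>
    ⟨hA.2 R (hR.trans inf_le_left) φ hφ x, hB.2 R (hR.trans inf_le_right) φ hφ x⟩⟩

/-- Strongly closed subgroups pass to subsystems. -/
theorem sc_of_sub {T : Subgroup Ω} (E : FusionSystem T) (F : FusionSystem S)
    (hsub : E.IsSubsystemOf F) {A : Subgroup Ω} (hA : F.StronglyClosed A) (hAT : A ≤ T) :
    E.StronglyClosed A :=
  ⟨hAT, fun R hR φ hφ x => hA.2 R hR φ (hsub R hφ) x⟩

/-- The centralizer in a strongly closed subgroup of a normal subgroup of the system is strongly closed. -/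
theorem sc_cent (F : FusionSystem S) {T R : Subgroup Ω} (hT : F.StronglyClosed T)
    (hR : F.IsNormal R) : F.StronglyClosed (centralizerIn T R) := by
  refine ⟨inf_le_left.trans hT.1, fun P hP φ hφ x => ?_⟩
  have hPT : P ≤ T := hP.trans inf_le_left
  obtain ⟨ψ, hψ, hψP, hψR⟩ := hR.2 P φ hφ
  refine ⟨hT.2 P hPT φ hφ x, Subgroup.mem_centralizer_iff.2 ?_⟩
  intro r hr
  have hr' : r ∈ (R.subgroupOf (P ⊔ R)).map ψ := by rw [hψR]; exact hr
  obtain ⟨r', hr'R, rfl⟩ := hr'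
  rw [← hψP x, ← map_mul, ← map_mul]
  congr 1
  have hx : (x : Ω) ∈ Subgroup.centralizer (R : Set Ω) := (hP x.2).2
  apply Subtype.ext
  exact (Subgroup.mem_centralizer_iff.1 hx) r' hr'R

theorem conj_comm_aux {G : Type*} [Group G] (a b q u v : G)
    (hb : b * q * b⁻¹ = u * q) (ha : a * q * a⁻¹ = v * q)
    (hau : a * u = u * a) (hbv : b * v = v * b) (huv : u * v = v * u) :
    a * (b * q * b⁻¹) * a⁻¹ = b * (a * q * a⁻¹) * b⁻¹ := by
  rw [hb, ha]
  calc a * (u * q) * a⁻¹ = (a * u) * a⁻¹ * (a * q * a⁻¹) := by group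
    _ = u * v * q := by rw [hau, ha]; group
    _ = v * u * q := by rw [huv]
    _ = (b * v) * b⁻¹ * (b * q * b⁻¹) := by rw [hbv, hb]; group
    _ = b * (v * q) * b⁻¹ := by group

/-- One step: a normal subsystem of a constrained system is constrained. -/
theorem constrained_of_normalIn [Finite S] (p : ℕ) [Fact p.Prime] (hS : IsPGroup p S)
    (F : FusionSystem S) (hF : F.IsConstrained p) {T : Subgroup Ω} (E : FusionSystem T)
    (hE : E.IsNormalIn F p) : E.IsConstrained p := by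
  obtain ⟨hFsat, Q, hQn, hQc⟩ := hF
  obtain ⟨⟨hEsat, -, hsub, hTsc, -, -⟩, -⟩ := hE
  have hTS : T ≤ S := hTsc.1
  have hfinT : Finite T := finite_of_le hTS
  have hTp : IsPGroup p T := hS.to_le hTS
  obtain ⟨Q₁, hQ₁⟩ : ∃ Q₁, Q₁ = F.core := ⟨_, rfl⟩
  have hQ1n : F.IsNormal Q₁ := hQ₁ ▸ Cfsg.Agent.S5145.result F
  have hQ1sc : F.StronglyClosed Q₁ := normal_stronglyClosed F hQ1n
  have hQQ1 : Q ≤ Q₁ := hQ₁ ▸ le_sSup hQn
  have hmax : ∀ X, F.IsNormal X → X ≤ Q₁ := fun X hX => hQ₁ ▸ le_sSup hX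
  have hC : centralizerIn S Q₁ ≤ Q₁ := by
    refine le_trans ?_ ((hQc.2 Q (isConj_refl F hQn.1)).trans hQQ1)
    exact inf_le_inf_left S (Subgroup.centralizer_le (by exact_mod_cast hQQ1))
  obtain ⟨n, Qs, hQs0, hQsn, hQsmono, hQs⟩ := (normal_iff_chain p hS F hFsat Q₁).mp hQ1n
  obtain ⟨R, hR⟩ : ∃ R, R = Q₁ ⊓ T := ⟨_, rfl⟩
  have hRQ : R ≤ Q₁ := hR ▸ inf_le_left
  have hRT : R ≤ T := hR ▸ inf_le_right
  have hTT : ⁅T, T⁆ ≤ T := Subgroup.commutator_le.2 (fun a ha b hb =>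
    T.mul_mem (T.mul_mem (T.mul_mem ha hb) (T.inv_mem ha)) (T.inv_mem hb))
  have hchain : ∀ i : Fin n, F.StronglyClosed (Qs i.succ ⊓ T) ∧
      ⁅R, Qs i.succ ⊓ T⁆ ≤ Qs (Fin.castSucc i) ⊓ T := by
    intro i
    refine ⟨sc_inf F (hQs i).1 hTsc, le_inf ?_ ?_⟩
    · exact (Subgroup.commutator_mono hRQ inf_le_left).trans (hQs i).2
    · exact (Subgroup.commutator_mono hRT inf_le_right).trans hTT
  have h0 : Qs 0 ⊓ T = ⊥ := by rw [hQs0]; exact bot_inf_eq T
  have hn : Qs (Fin.last n) ⊓ T = R := by rw [hQsn, hR]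
  have hRnF : F.IsNormal R := (normal_iff_chain p hS F hFsat R).mpr
    ⟨n, fun i => Qs i ⊓ T, h0, hn, fun a b hab => inf_le_inf_right T (hQsmono hab), hchain⟩
  have hRnE : E.IsNormal R := (normal_iff_chain p hTp E hEsat R).mpr
    ⟨n, fun i => Qs i ⊓ T, h0, hn, fun a b hab => inf_le_inf_right T (hQsmono hab),
      fun i => ⟨sc_of_sub E F hsub (hchain i).1 inf_le_right, (hchain i).2⟩⟩
  have hRscF : F.StronglyClosed R := normal_stronglyClosed F hRnF
  obtain ⟨X, hX⟩ : ∃ X, X = centralizerIn T R := ⟨_, rfl⟩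
  have hXsc : F.StronglyClosed X := hX ▸ sc_cent F hTsc hRnF
  have hXT : X ≤ T := hX ▸ inf_le_left
  have hXS : X ≤ S := hXT.trans hTS
  have hXc : ∀ x ∈ X, ∀ r ∈ R, r * x = x * r := by
    intro x hx r hr
    rw [hX] at hx
    exact (Subgroup.mem_centralizer_iff.1 hx.2) r hr
  have hρ : ∀ x ∈ X, ∀ q ∈ Q₁, x * q * x⁻¹ * q⁻¹ ∈ R := by
    intro x hx q hq
    rw [hR]
    refine ⟨Q₁.mul_mem (stronglyClosed_conj_mem F hQ1sc (hXS hx) hq) (Q₁.inv_mem hq), ?_⟩
    have h1 : q * x⁻¹ * q⁻¹ ∈ T :=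
      stronglyClosed_conj_mem F hTsc (hQ1n.1 hq) (T.inv_mem (hXT hx))
    have h2 : x * q * x⁻¹ * q⁻¹ = x * (q * x⁻¹ * q⁻¹) := by group
    rw [h2]
    exact T.mul_mem (hXT hx) h1
  have hρc : ∀ x ∈ X, ∀ q ∈ Q₁, ∀ r ∈ R,
      r * (x * q * x⁻¹ * q⁻¹) = (x * q * x⁻¹ * q⁻¹) * r := by
    intro x hx q hq r hr
    have h1 : q⁻¹ * r * q ∈ R := by
      have := stronglyClosed_conj_mem F hRscF (hQ1n.1 (Q₁.inv_mem hq)) hr
      simpa using this
    have h2 := hXc x hx _ h1
    have h3 := hXc x hx r hr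
    have h2' : x⁻¹ * (q⁻¹ * r * q) = (q⁻¹ * r * q) * x⁻¹ := by
      rw [eq_mul_inv_iff_mul_eq, mul_assoc, h2, ← mul_assoc, inv_mul_cancel, one_mul]
    calc r * (x * q * x⁻¹ * q⁻¹) = (r * x) * q * x⁻¹ * q⁻¹ := by group
      _ = x * q * ((q⁻¹ * r * q) * x⁻¹) * q⁻¹ := by rw [h3]; group
      _ = x * q * (x⁻¹ * (q⁻¹ * r * q)) * q⁻¹ := by rw [h2']
      _ = (x * q * x⁻¹ * q⁻¹) * r := by group
  have hcc : ∀ a ∈ X, ∀ b ∈ X, ∀ q ∈ Q₁,
      a * (b * q * b⁻¹) * a⁻¹ = b * (a * q * a⁻¹) * b⁻¹ := by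
    intro a ha b hb q hq
    refine conj_comm_aux a b q (b * q * b⁻¹ * q⁻¹) (a * q * a⁻¹ * q⁻¹) (by group) (by group)
      ?_ ?_ ?_
    · exact (hXc a ha _ (hρ b hb q hq)).symm
    · exact (hXc b hb _ (hρ a ha q hq)).symm
    · exact hρc a ha q hq _ (hρ b hb q hq)
  have hXX : ⁅X, X⁆ ≤ X ⊓ Q₁ := by
    rw [Subgroup.commutator_le]
    intro x hx y hy
    refine ⟨X.mul_mem (X.mul_mem (X.mul_mem hx hy) (X.inv_mem hx)) (X.inv_mem hy),
      hC ⟨?_, Subgroup.mem_centralizer_iff.2 ?_⟩⟩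
    · exact S.mul_mem (S.mul_mem (S.mul_mem (hXS hx) (hXS hy)) (S.inv_mem (hXS hx)))
        (S.inv_mem (hXS hy))
    · intro q hq
      have h := hcc x⁻¹ (X.inv_mem hx) y⁻¹ (X.inv_mem hy) q hq
      rw [inv_inv, inv_inv] at h
      rw [commutatorElement_def]
      calc q * (x * y * x⁻¹ * y⁻¹)
          = x * y * (y⁻¹ * (x⁻¹ * q * x) * y) * x⁻¹ * y⁻¹ := by group
        _ = x * y * (x⁻¹ * (y⁻¹ * q * y) * x) * x⁻¹ * y⁻¹ := by rw [h]
        _ = x * y * x⁻¹ * y⁻¹ * q := by group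
  have hXn : F.IsNormal X := by
    refine normal_of_chain p hS F hFsat X
      (fun i => match i with
        | 0 => ⊥
        | 1 => X ⊓ Q₁
        | _ => X) 2 rfl rfl ?_ ?_ ?_
    · intro i j hij
      rcases i with _ | _ | i <;> rcases j with _ | _ | j <;>
        first
          | exact bot_le
          | exact le_rfl
          | exact inf_le_left
          | exact absurd hij (by omega)
    · intro i
      rcases i with _ | _ | i
      · exact stronglyClosed_bot F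
      · exact sc_inf F hXsc hQ1sc
      · exact hXsc
    · intro i hi
      rcases i with _ | _ | i
      · show ⁅X, X ⊓ Q₁⁆ ≤ ⊥
        rw [Subgroup.commutator_le]
        intro a ha b hb
        rw [Subgroup.mem_bot, commutatorElement_eq_one_iff_mul_comm]
        have hbR : b ∈ R := by rw [hR]; exact ⟨hb.2, hXT hb.1⟩
        exact (hXc a ha b hbR).symm
      · exact hXX
      · exact absurd hi (by omega)
  have hXR : X ≤ R := by
    rw [hR]
    exact le_inf (hmax X hXn) hXT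
  refine ⟨hEsat, R, hRnE, hRT, fun Q' hQ' => ?_⟩
  obtain ⟨φ, hφ, rfl⟩ := hQ'
  have hRscE := normal_stronglyClosed E hRnE
  have hle : φ.range ≤ R := by
    rintro _ ⟨x, rfl⟩
    exact hRscE.2 R le_rfl φ hφ x
  have hfinR : Finite R := finite_of_le (hRT.trans hTS)
  have heq : φ.range = R := by
    have hinj := E.injective_of_mem hφ
    have hcard : Nat.card R = Nat.card φ.range :=
      Nat.card_congr (MonoidHom.ofInjective hinj).toEquiv
    exact Subgroup.eq_of_le_of_card_ge hle hcard.le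
  rw [heq, ← hX]
  exact hXR

theorem subnormal_constrained {p : ℕ} {T S : Subgroup Ω} {E : FusionSystem T}
    {F : FusionSystem S} (h : E.IsSubnormalIn F p) :
    p.Prime → Finite S → IsPGroup p S → F.IsConstrained p → E.IsConstrained p := by
  induction h with
  | refl F p => intro _ _ _ h; exact h
  | step hED hDF ih =>
    rename_i p
    intro hp hfin hS hF
    have : Fact p.Prime := ⟨hp⟩
    have hUS := hDF.1.2.2.2.1.1
    exact ih hp (finite_of_le hUS) (hS.to_le hUS) (constrained_of_normalIn p hS _ hF _ hDF)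

/-- Let F be a constrained saturated fusion system over a finite p-group S. Then every subsystem of F that is subnormal in F (reached from F by a finite chain of successive normal subsystems) is constrained. -/
theorem result {Ω : Type*} [Group Ω] {S : Subgroup Ω} [Finite S] (p : ℕ) [Fact p.Prime] (hS : IsPGroup p S) (F : Cfsg.FusionSystem S) (hF : F.IsConstrained p) {T : Subgroup Ω} (E : Cfsg.FusionSystem T) (hE : E.IsSubnormalIn F p) : E.IsConstrained p :=
  subnormal_constrained hE Fact.out inferInstance hS hF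

end Cfsg.Agent.S5342
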