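import Cfsg.Statements.S5356
import Cfsg.Agent.S5349
import Cfsg.Agent.S5351
import Cfsg.Agent.Lib.Helper11.Fischer
import Cfsg.Agent.Lib.Helper11.TT56Main
import Cfsg.Agent.Lib.Helper11.TT56Syl

set_option autoImplicit false
open Cfsg

namespace Cfsg.Agent.S5356

open Cfsg.Agent.Lib.Helper11

/-- Let D be a conjugacy class of 3-transpositions generating the finite group G, with at least two members, and d a member of D such that every member of D commuting with d commutes with exactly the same members of D as d. Then there is a Sylow 3-subgroup P of G normalized by d such that G is generated by d, P and the largest normal 2-subgroup of G. -/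
theorem result {G : Type*} [Group G] [Finite G] {D : Set G} (hD : Cfsg.IsThreeTranspositionClass D) (hD2 : ∃ a ∈ D, ∃ b ∈ D, a ≠ b) {d : G} (hd : d ∈ D) (hV : {y : G | y ∈ D ∧ Commute d y} = {v : G | v ∈ D ∧ ∀ e ∈ D, Commute v e ↔ Commute d e}) : ∃ P : Sylow 3 G, d ∈ Subgroup.normalizer (P : Set G) ∧ Subgroup.zpowers d ⊔ (P : Subgroup G) ⊔ Cfsg.pCore 2 G = ⊤ := by
  have hQn : (pCore 2 G).Normal := Cfsg.Agent.S5351.pCore_nrm 2
  have h49 := Cfsg.Agent.S5349.result hD hD2 hd
  have hT1d : ∀ y ∈ D, Commute d y → d⁻¹ * y ∈ pCore 2 G := by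
    intro y hy hc
    have hmem : y ∈ {y : G | y ∈ D ∧ Commute d y} := ⟨hy, hc⟩
    rw [hV, h49.1] at hmem
    exact hmem.2
  have hT1 : ∀ a ∈ D, ∀ b ∈ D, Commute a b → a⁻¹ * b ∈ pCore 2 G := by
    intro a ha b hb hab
    obtain ⟨g, hg⟩ := tt_exists_conj hD ha hd
    have hb' : g * b * g⁻¹ ∈ D := tt_conj_mem hD hb g
    have hc : Commute d (g * b * g⁻¹) := by
      rw [← hg]
      show g * a * g⁻¹ * (g * b * g⁻¹) = g * b * g⁻¹ * (g * a * g⁻¹)
      have e1 : g * a * g⁻¹ * (g * b * g⁻¹) = g * (a * b) * g⁻¹ := by group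
      have e2 : g * b * g⁻¹ * (g * a * g⁻¹) = g * (b * a) * g⁻¹ := by group
      rw [e1, e2, hab.eq]
    have h1 := hT1d _ hb' hc
    have h2 : a⁻¹ * b = g⁻¹ * (d⁻¹ * (g * b * g⁻¹)) * g := by
      rw [← hg]; group
    rw [h2]
    have h3 := hQn.conj_mem _ h1 g⁻¹
    rw [inv_inv] at h3
    exact h3
  have hd2 : d * d = 1 := tt_sq hD hd
  obtain ⟨P, hP3, hPn, htop⟩ := tt56_main _ G D rfl ⟨hD, hT1⟩ d hd
  obtain ⟨S, hS⟩ := tt56_sylow hd2 P hP3 hPn htop
  refine ⟨S, ?_, ?_⟩
  · show d ∈ Subgroup.normalizer ((S : Subgroup G) : Set G)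
    rw [Subgroup.mem_normalizer_iff]
    intro x
    have hdi : d⁻¹ = d := inv_eq_of_mul_eq_one_left hd2
    constructor
    · intro hx
      have hx' : x ∈ P := by rw [← hS]; exact hx
      have := hPn x hx'
      rw [← hS] at this
      exact this
    · intro hx
      have hx' : d * x * d⁻¹ ∈ P := by rw [← hS]; exact hx
      have := hPn _ hx'
      have e : d * (d * x * d⁻¹) * d⁻¹ = x := by
        rw [hdi]
        calc d * (d * x * d) * d = (d * d) * x * (d * d) := by group
          _ = x := by rw [hd2, one_mul, mul_one]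
      rw [e, ← hS] at this
      exact this
  · rw [hS]
    exact htop

end Cfsg.Agent.S5356
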