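import Cfsg.Statements.S5360
import Cfsg.Agent.S5349
import Cfsg.Agent.S5350
import Cfsg.Agent.S5351
import Cfsg.Agent.S5352
import Cfsg.Agent.S5353
import Cfsg.Agent.S5357
import Cfsg.Agent.Lib.Helper11.Fischer
import Cfsg.Agent.Lib.Helper11.Refl3V

set_option autoImplicit false
open scoped MatrixGroups
open Cfsg

namespace Cfsg.Agent.S5360

open Cfsg.Agent.Lib.Helper11 Cfsg.Agent.Lib.Helper91 Matrix

/-- Let Q be a non-degenerate quadratic form on the n-dimensional coordinate space over the field with three elements, n ≥ 5, c a non-zero scalar, and R the subgroup of the isometry group generated by the reflections of norm c. Then the commutator subgroup of R is quasisimple of index at most 2, the generalized Fitting subgroup of R is the product of the centre and the commutator subgroup, and R acts primitively by conjugation on its reflections of norm c. -/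
theorem result (n : ℕ) (hn : 5 ≤ n) (Q : QuadraticForm (ZMod 3) (Fin n → ZMod 3)) (hQ : (QuadraticMap.polarBilin Q).Nondegenerate) (c : ZMod 3) (hc : c ≠ 0) : Cfsg.IsQuasisimple (commutator ↥(Cfsg.reflectionSubgroup (⇑Q) c)) ∧ (commutator ↥(Cfsg.reflectionSubgroup (⇑Q) c)).index ≤ 2 ∧ Cfsg.generalizedFittingSubgroup ↥(Cfsg.reflectionSubgroup (⇑Q) c) = Subgroup.center ↥(Cfsg.reflectionSubgroup (⇑Q) c) ⊔ commutator ↥(Cfsg.reflectionSubgroup (⇑Q) c) ∧ Cfsg.IsPrimitiveUnderConj {g : ↥(Cfsg.reflectionSubgroup (⇑Q) c) | (g : ↥(Cfsg.isometryGroup (ZMod 3) (⇑Q))) ∈ Cfsg.reflectionsOfNorm (⇑Q) c} := by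
  classical
  have hDc := Cfsg.Agent.S5357.result n hn Q hQ c hc
  have hcc : c * c = 1 := r3_sq c hc
  let μ : ↥(Cfsg.reflectionSubgroup (⇑Q) c) →* Matrix (Fin n) (Fin n) (ZMod 3) :=
    (Units.coeHom _).comp ((Cfsg.isometryGroup (ZMod 3) (⇑Q)).subtype.comp
      (Cfsg.reflectionSubgroup (⇑Q) c).subtype)
  have hμ : Function.Injective μ := by
    intro x y hxy
    apply Subtype.ext
    apply Subtype.ext
    exact Units.ext hxy
  have hD : ∀ g : ↥(Cfsg.reflectionSubgroup (⇑Q) c),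
      g ∈ {g : ↥(Cfsg.reflectionSubgroup (⇑Q) c) |
        (g : ↥(Cfsg.isometryGroup (ZMod 3) (⇑Q))) ∈ Cfsg.reflectionsOfNorm (⇑Q) c} ↔
      ∃ v, Q v = c ∧ μ g = Cfsg.reflectionMatrix (⇑Q) v := fun g => Iff.rfl
  obtain ⟨D, hDdef⟩ : ∃ D : Set ↥(Cfsg.reflectionSubgroup (⇑Q) c), D =
      {g : ↥(Cfsg.reflectionSubgroup (⇑Q) c) |
        (g : ↥(Cfsg.isometryGroup (ZMod 3) (⇑Q))) ∈ Cfsg.reflectionsOfNorm (⇑Q) c} := ⟨_, rfl⟩
  rw [← hDdef] at hD hDc ⊢
  haveI : Finite ↥(Cfsg.reflectionSubgroup (⇑Q) c) := inferInstance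
  -- elements
  have hmk : ∀ u, Q u = c → ∃ e ∈ D, μ e = Cfsg.reflectionMatrix (⇑Q) u := by
    intro u hu
    have hu0 : Q u ≠ 0 := by rw [hu]; exact hc
    refine ⟨⟨Cfsg.Agent.Lib.Helper18.reflElt Q u hu0, Subgroup.subset_closure ⟨u, hu, rfl⟩⟩,
      (hD _).mpr ⟨u, hu, rfl⟩, rfl⟩
  have hcomm : ∀ (a b : ↥(Cfsg.reflectionSubgroup (⇑Q) c)) (v w : Fin n → ZMod 3), Q v = c →
      μ a = Cfsg.reflectionMatrix (⇑Q) v → μ b = Cfsg.reflectionMatrix (⇑Q) w →
      QuadraticMap.polar (⇑Q) v w = 0 → Commute a b := by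
    intro a b v w hv hav hbw hvw
    apply hμ
    rw [map_mul, map_mul, hav, hbw]
    exact refl_comm Q v w (by rw [hv]; exact hc) hvw
  have hbraid : ∀ (a b : ↥(Cfsg.reflectionSubgroup (⇑Q) c)) (v w : Fin n → ZMod 3), Q v = c →
      Q w = c → μ a = Cfsg.reflectionMatrix (⇑Q) v → μ b = Cfsg.reflectionMatrix (⇑Q) w →
      QuadraticMap.polar (⇑Q) v w ≠ 0 → a * b * a = b * a * b := by
    intro a b v w hv hw hav hbw hvw
    apply hμ
    rw [map_mul, map_mul, map_mul, map_mul, hav, hbw]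
    exact refl_braid Q v w c hc hv hw hvw
  have heq : ∀ a b : ↥(Cfsg.reflectionSubgroup (⇑Q) c), Commute a b → a * b * a = b * a * b →
      a = b := by
    intro a b hab h
    rw [hab.eq] at h
    exact mul_left_cancel h
  obtain ⟨d₀, hd₀⟩ : ∃ d, d ∈ D := by
    obtain ⟨d, hd, -⟩ := hDc.2.1
    exact ⟨d, hd⟩
  -- at least two members
  have hD2 : ∃ a ∈ D, ∃ b ∈ D, a ≠ b := by
    obtain ⟨v, hv, hdv⟩ := (hD d₀).mp hd₀
    obtain ⟨y, hy, hvy⟩ := r3_perp1 Q (by omega) hQ v c hv hc c hc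
    obtain ⟨e, he, hey⟩ := hmk y hy
    refine ⟨d₀, hd₀, e, he, fun h => ?_⟩
    apply r3_refl_ne_perp Q c hc v y hv hvy
    rw [← hdv, ← hey, h]
  -- the 2-core is central
  have h2 : Cfsg.pCore 2 ↥(Cfsg.reflectionSubgroup (⇑Q) c) ≤
      Subgroup.center ↥(Cfsg.reflectionSubgroup (⇑Q) c) := by
    by_contra hcon
    obtain ⟨g, hg, hgd⟩ := tt_exists_conj_ne hDc (Cfsg.Agent.S5351.pCore_nrm 2) hcon hd₀
    have hb : g * d₀ * g⁻¹ ∈ {v : ↥(Cfsg.reflectionSubgroup (⇑Q) c) |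
        v ∈ D ∧ ∀ e ∈ D, Commute v e ↔ Commute d₀ e} := by
      rw [(Cfsg.Agent.S5349.result hDc hD2 hd₀).2]
      exact ⟨g, hg, rfl⟩
    obtain ⟨hbD, hbc⟩ := hb
    obtain ⟨v, hv, hdv⟩ := (hD d₀).mp hd₀
    obtain ⟨w, hw, hbw⟩ := (hD _).mp hbD
    have hdb : Commute (g * d₀ * g⁻¹) d₀ := (hbc d₀ hd₀).mpr (Commute.refl d₀)
    have hvw : QuadraticMap.polar (⇑Q) v w = 0 := by
      by_contra hne
      have hbr := hbraid d₀ (g * d₀ * g⁻¹) v w hv hw hdv hbw hne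
      exact hgd (heq d₀ _ hdb.symm hbr).symm
    obtain ⟨u, s, hu, hvu, hwu, hws, hus⟩ := r3_E1 Q hn hQ c hc v w hv hw hvw
    obtain ⟨e, he, heu⟩ := hmk u hu
    have hde : Commute d₀ e := hcomm d₀ e v u hv hdv heu hvu
    have hbe : Commute (g * d₀ * g⁻¹) e := (hbc e he).mpr hde
    have hbr := hbraid (g * d₀ * g⁻¹) e w u hw hu hbw heu hwu
    have hbe' : g * d₀ * g⁻¹ = e := heq _ _ hbe hbr
    apply r3_refl_ne Q u w s (by rw [hu]; exact hc) hws hus
    rw [← heu, ← hbw, hbe']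
  -- the 3-core is central
  have h3 : Cfsg.pCore 3 ↥(Cfsg.reflectionSubgroup (⇑Q) c) ≤
      Subgroup.center ↥(Cfsg.reflectionSubgroup (⇑Q) c) := by
    by_contra hcon
    obtain ⟨g, hg, hgd⟩ := tt_exists_conj_ne hDc (Cfsg.Agent.S5351.pCore_nrm 3) hcon hd₀
    have hb : g * d₀ * g⁻¹ ∈ {w : ↥(Cfsg.reflectionSubgroup (⇑Q) c) | w ∈ D ∧
        {y : ↥(Cfsg.reflectionSubgroup (⇑Q) c) | y ∈ D ∧ y ≠ d₀ ∧ Commute d₀ y} =
          {y : ↥(Cfsg.reflectionSubgroup (⇑Q) c) | y ∈ D ∧ y ≠ w ∧ Commute w y}} := by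
      rw [(Cfsg.Agent.S5350.result hDc hD2 hd₀).2]
      exact ⟨g, hg, rfl⟩
    obtain ⟨hbD, hbc⟩ := hb
    obtain ⟨v, hv, hdv⟩ := (hD d₀).mp hd₀
    obtain ⟨w, hw, hbw⟩ := (hD _).mp hbD
    have hndb : ¬ Commute d₀ (g * d₀ * g⁻¹) := by
      intro hcm
      have hmem : g * d₀ * g⁻¹ ∈ {y : ↥(Cfsg.reflectionSubgroup (⇑Q) c) |
          y ∈ D ∧ y ≠ d₀ ∧ Commute d₀ y} := ⟨hbD, hgd, hcm⟩
      rw [hbc] at hmem
      exact hmem.2.1 rfl
    have hvw : QuadraticMap.polar (⇑Q) v w ≠ 0 := by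
      intro h0
      exact hndb (hcomm d₀ _ v w hv hdv hbw h0)
    have hne : w + (c * QuadraticMap.polar (⇑Q) v w) • v ≠ 0 := by
      intro h0
      have hw' : w = (-(c * QuadraticMap.polar (⇑Q) v w)) • v := by
        rw [neg_smul]
        exact eq_neg_of_add_eq_zero_left h0
      apply hgd
      apply hμ
      rw [hbw, hdv, hw']
      exact refl_smul Q _ (neg_ne_zero.mpr (mul_ne_zero hc hvw)) v (by rw [hv]; exact hc)
    obtain ⟨u, hu, hvu, hwu⟩ := r3_E3 Q hQ c hc v w hv hw hvw hne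
    obtain ⟨e, he, heu⟩ := hmk u hu
    have hde : Commute d₀ e := hcomm d₀ e v u hv hdv heu hvu
    have hed : e ≠ d₀ := by
      intro h
      apply r3_refl_ne_perp Q c hc v u hv hvu
      rw [← hdv, ← heu, h]
    have hmem : e ∈ {y : ↥(Cfsg.reflectionSubgroup (⇑Q) c) |
        y ∈ D ∧ y ≠ d₀ ∧ Commute d₀ y} := ⟨he, hed, hde⟩
    rw [hbc] at hmem
    obtain ⟨-, heb, hbe⟩ := hmem
    have hbr := hbraid (g * d₀ * g⁻¹) e w u hw hu hbw heu hwu
    exact heb (heq _ _ hbe hbr).symm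
  -- the commuting graph is connected
  have hconn : (Cfsg.commutingGraph D).Connected := by
    rw [SimpleGraph.connected_iff]
    refine ⟨?_, ⟨⟨d₀, hd₀⟩⟩⟩
    rintro ⟨a, ha⟩ ⟨b, hb⟩
    by_cases hab : a = b
    · subst hab
      exact SimpleGraph.Reachable.refl _
    obtain ⟨v, hv, hav⟩ := (hD a).mp ha
    obtain ⟨w, hw, hbw⟩ := (hD b).mp hb
    by_cases hvw : QuadraticMap.polar (⇑Q) v w = 0
    · apply SimpleGraph.Adj.reachable
      rw [Cfsg.commutingGraph, SimpleGraph.fromRel_adj]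
      exact ⟨fun h => hab (congrArg Subtype.val h), Or.inl (hcomm a b v w hv hav hbw hvw)⟩
    · have hne : w + (c * QuadraticMap.polar (⇑Q) v w) • v ≠ 0 := by
        intro h0
        have hw' : w = (-(c * QuadraticMap.polar (⇑Q) v w)) • v := by
          rw [neg_smul]
          exact eq_neg_of_add_eq_zero_left h0
        apply hab
        apply hμ
        rw [hbw, hav, hw']
        exact (refl_smul Q _ (neg_ne_zero.mpr (mul_ne_zero hc hvw)) v (by rw [hv]; exact hc)).symm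
      obtain ⟨s, hs, hvs, hws⟩ := r3_C Q hn hQ c hc v w hv hw hvw hne
      obtain ⟨e, he, hes⟩ := hmk s hs
      have hae : a ≠ e := by
        intro h
        apply r3_refl_ne_perp Q c hc v s hv hvs
        rw [← hav, ← hes, h]
      have hbe : b ≠ e := by
        intro h
        apply r3_refl_ne_perp Q c hc w s hw hws
        rw [← hbw, ← hes, h]
      have h1 : (Cfsg.commutingGraph D).Adj ⟨a, ha⟩ ⟨e, he⟩ := by
        rw [Cfsg.commutingGraph, SimpleGraph.fromRel_adj]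
        exact ⟨fun h => hae (congrArg Subtype.val h), Or.inl (hcomm a e v s hv hav hes hvs)⟩
      have h2 : (Cfsg.commutingGraph D).Adj ⟨e, he⟩ ⟨b, hb⟩ := by
        rw [Cfsg.commutingGraph, SimpleGraph.fromRel_adj]
        exact ⟨fun h => hbe (congrArg Subtype.val h).symm,
          Or.inr (hcomm b e w s hw hbw hes hws)⟩
      exact h1.reachable.trans h2.reachable
  -- assembly
  obtain ⟨L, hLn, hLq, hF, -⟩ := Cfsg.Agent.S5352.result hDc hD2 h2 h3
  haveI := hLn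
  have h53 := Cfsg.Agent.S5353.result hDc hD2 h2 h3 L hLq hF
  have hidx : L.index ≤ 2 := h53.2 hconn
  have hprim := h53.1 hidx
  have hLeq : L = commutator ↥(Cfsg.reflectionSubgroup (⇑Q) c) := by
    apply le_antisymm
    · have hperf : ⁅L, L⁆ = L := Subgroup.isPerfect_iff.mp hLq.1
      rw [← hperf, commutator_def]
      exact Subgroup.commutator_mono le_top le_top
    · exact Cfsg.Agent.S5353.comm_le_of_index hidx
  rw [← hLeq]
  refine ⟨hLq, hidx, ?_, hprim⟩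
  rw [hF, sup_comm]

end Cfsg.Agent.S5360
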