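import Cfsg.Statements.S5521
import Mathlib
import Cfsg.Agent.Lib.Helper9.M24Trans

set_option autoImplicit false
open Cfsg

namespace Cfsg.Agent.S5521

open Cfsg.Agent.Lib.Helper9

def words : List (List ℕ) :=
  [[], [], [], [], [30, 26, 22], [24], [22], [30, 22], [28, 22], [24, 22], [28, 23], [26, 23],
   [28, 24, 23], [22, 28, 22], [24], [28, 26, 22], [28, 24, 22], [24], [30, 28, 22], [22, 30, 22],
   [30, 23, 24], [30, 23], [26, 22], []]

def chk (i : ℕ) : Bool :=
  ([23, 0, 1, 2, 3, i].all (fun c => (prodT sgsTabs (words.getD i [])).getD c 0 == c)) &&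
    ((List.range 24).any (fun c => (prodT sgsTabs (words.getD i [])).getD c 0 != c))

theorem chk_all' : (List.range 24).all
    (fun i => i == 23 || i == 0 || i == 1 || i == 2 || i == 3 || chk i) = true := by
  decide +kernel

theorem chk_all : ∀ i < 24, i ≠ 23 → i ≠ 0 → i ≠ 1 → i ≠ 2 → i ≠ 3 → chk i = true := by
  intro i hi h23 h0 h1 h2 h3
  have h := List.all_eq_true.1 chk_all' i (List.mem_range.2 hi)
  simp only [Bool.or_eq_true, beq_iff_eq] at h
  rcases h with ((((h | h) | h) | h) | h) | h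
  · exact absurd h h23
  · exact absurd h h0
  · exact absurd h h1
  · exact absurd h h2
  · exact absurd h h3
  · exact h

theorem pt_inj {a b : ℕ} (ha : a < 24) (hb : b < 24) (h : pt a = pt b) : a = b := by
  rw [← idx_pt ha, ← idx_pt hb, h]

theorem six_fix (q : GolayPt) (h23 : q ≠ pt 23) (h0 : q ≠ pt 0) (h1 : q ≠ pt 1) (h2 : q ≠ pt 2)
    (h3 : q ≠ pt 3) :
    ∃ h ∈ M24, h ≠ 1 ∧ h (pt 23) = pt 23 ∧ h (pt 0) = pt 0 ∧ h (pt 1) = pt 1 ∧ h (pt 2) = pt 2 ∧
      h (pt 3) = pt 3 ∧ h q = q := by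
  have hi := idx_lt q
  have hq : pt (idx q) = q := pt_idx q
  have hc := chk_all (idx q) hi (fun e => h23 (by rw [← hq, e])) (fun e => h0 (by rw [← hq, e]))
    (fun e => h1 (by rw [← hq, e])) (fun e => h2 (by rw [← hq, e])) (fun e => h3 (by rw [← hq, e]))
  obtain ⟨hmem, hT⟩ := (good_sgs shift_mem projInv_mem cubeTwist_mem).prod (words.getD (idx q) [])
  unfold chk at hc
  rw [Bool.and_eq_true, List.all_eq_true, List.any_eq_true] at hc
  obtain ⟨hfix, c, hcr, hcne⟩ := hc
  have hfix' : ∀ c ∈ [23, 0, 1, 2, 3, idx q], c < 24 →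
      prodW sgsEnv (words.getD (idx q) []) (pt c) = pt c := by
    intro c hc hc24
    have := hfix c hc
    rw [beq_iff_eq] at this
    rw [hT.apply_pt hc24, this]
  refine ⟨_, hmem, ?_, hfix' 23 (by simp) (by norm_num), hfix' 0 (by simp) (by norm_num),
    hfix' 1 (by simp) (by norm_num), hfix' 2 (by simp) (by norm_num),
    hfix' 3 (by simp) (by norm_num), ?_⟩
  · intro h1
    rw [List.mem_range] at hcr
    have h2 := hT.apply_pt hcr
    rw [h1, Equiv.Perm.one_apply] at h2
    have h3 := pt_inj hcr (hT.getD_lt c) h2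
    rw [bne_iff_ne] at hcne
    exact hcne h3.symm
  · have := hfix' (idx q) (by simp) hi
    rwa [hq] at this

/-- The Mathieu group M₂₄ in its natural action on the 24 coordinate positions of the binary Golay code has minimal base size exactly 7: every set of at most 6 positions is fixed pointwise by some non-identity element of M₂₄, while some set of 7 positions is fixed pointwise only by the identity. -/
theorem result :
    (∀ B : Finset Cfsg.GolayPt, B.card ≤ 6 → ∃ g ∈ Cfsg.M24, g ≠ 1 ∧ ∀ b ∈ B, g b = b) ∧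
    (∃ B : Finset Cfsg.GolayPt, B.card = 7 ∧ ∀ g ∈ Cfsg.M24, (∀ b ∈ B, g b = b) → g = 1) := by
  constructor
  · intro B hB
    obtain ⟨B', hBB', hB'⟩ := Finset.exists_superset_card_eq (s := B) (n := 6) hB
      (by rw [Fintype.card_option, ZMod.card]; norm_num)
    obtain ⟨l, hl⟩ : ∃ l, l = B'.toList := ⟨_, rfl⟩
    have hlen : l.length = 6 := by rw [hl, Finset.length_toList, hB']
    have hnd : l.Nodup := by rw [hl]; exact Finset.nodup_toList _
    have hmem : ∀ x, x ∈ B' → x ∈ l := by intro x hx; rw [hl, Finset.mem_toList]; exact hx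
    rcases l with _ | ⟨p0, _ | ⟨p1, _ | ⟨p2, _ | ⟨p3, _ | ⟨p4, _ | ⟨p5, _ | ⟨p6, l⟩⟩⟩⟩⟩⟩⟩
    · simp at hlen
    · simp at hlen
    · simp at hlen
    · simp at hlen
    · simp at hlen
    · simp at hlen
    · simp only [List.nodup_cons, List.mem_cons, List.not_mem_nil, or_false, not_or,
        List.nodup_nil, and_true] at hnd
      obtain ⟨⟨h01, h02, h03, h04, h05⟩, ⟨h12, h13, h14, h15⟩, ⟨h23, h24, h25⟩, ⟨h34, h35⟩, h45⟩ :=
        hnd
      obtain ⟨g, hg, e0, e1, e2, e3, e4⟩ := exists_map_five h01 h02 h03 h04 h12 h13 h14 h23 h24 h34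
      obtain ⟨h, hh, hne, f23, f0, f1, f2, f3, fq⟩ := six_fix (g p5)
        (by rw [← e0]; exact fun e => h05 (g.injective e).symm)
        (by rw [← e1]; exact fun e => h15 (g.injective e).symm)
        (by rw [← e2]; exact fun e => h25 (g.injective e).symm)
        (by rw [← e3]; exact fun e => h35 (g.injective e).symm)
        (by rw [← e4]; exact fun e => h45.1 (g.injective e).symm)
      refine ⟨g⁻¹ * h * g, M24.mul_mem (M24.mul_mem (M24.inv_mem hg) hh) hg, ?_, ?_⟩
      · intro H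
        apply hne
        calc h = g * (g⁻¹ * h * g) * g⁻¹ := by group
          _ = 1 := by rw [H]; group
      · intro b hb
        have hb' := hmem b (hBB' hb)
        simp only [List.mem_cons, List.not_mem_nil, or_false] at hb'
        rcases hb' with rfl | rfl | rfl | rfl | rfl | rfl
        · rw [Equiv.Perm.mul_apply, Equiv.Perm.mul_apply, e0, f23, Equiv.Perm.inv_eq_iff_eq, e0]
        · rw [Equiv.Perm.mul_apply, Equiv.Perm.mul_apply, e1, f0, Equiv.Perm.inv_eq_iff_eq, e1]
        · rw [Equiv.Perm.mul_apply, Equiv.Perm.mul_apply, e2, f1, Equiv.Perm.inv_eq_iff_eq, e2]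
        · rw [Equiv.Perm.mul_apply, Equiv.Perm.mul_apply, e3, f2, Equiv.Perm.inv_eq_iff_eq, e3]
        · rw [Equiv.Perm.mul_apply, Equiv.Perm.mul_apply, e4, f3, Equiv.Perm.inv_eq_iff_eq, e4]
        · rw [Equiv.Perm.mul_apply, Equiv.Perm.mul_apply, fq, Equiv.Perm.inv_eq_iff_eq]
    · simp at hlen
  · refine ⟨{pt 4, pt 5, pt 3, pt 2, pt 1, pt 0, pt 23}, by decide +kernel, ?_⟩
    intro g hg hB
    have hmem : g ∈ M24 ⊓ fixing [4, 5, 3, 2, 1, 0, 23] := by
      refine ⟨hg, ?_⟩
      intro i hi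
      apply hB
      simp only [List.mem_cons, List.not_mem_nil, or_false] at hi
      rcases hi with rfl | rfl | rfl | rfl | rfl | rfl | rfl <;> simp
    rw [fix7 le_rfl] at hmem
    exact Subgroup.mem_bot.1 hmem

end Cfsg.Agent.S5521
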