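-- Statement S5529: (p,q,r)-generation of the Mathieu group M23 (helper93).
-- Positive triples: explicit generating pairs with words for the two standard generators.
-- Negative triples: Scott's lemma (Ree's inequality) on the rational permutation module.
import Cfsg.Statements.S5529
import Cfsg.Agent.Lib.Helper89.TabMathieu
import Cfsg.Agent.Lib.Helper94.M24Classes

set_option autoImplicit false
open Cfsg

namespace Cfsg.Agent.S5529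

open Cfsg.Agent.Lib.Helper9 Cfsg.Agent.Lib.Helper95 Cfsg.Agent.Lib.Helper89
  Cfsg.Agent.Lib.Helper94

/-- The check of a generation certificate `(p, q, r, X, Y, ws, wt)`. -/
def certOK (c : ℕ × ℕ × ℕ × List ℕ × List ℕ × List ℕ × List ℕ) : Bool :=
  inM23 c.2.2.2.1 && inM23 c.2.2.2.2.1 &&
  (powT c.2.2.2.1 c.1 == idT) && (c.2.2.2.1 != idT) &&
  (powT c.2.2.2.2.1 c.2.1 == idT) && (c.2.2.2.2.1 != idT) &&
  (powT (compT c.2.2.2.1 c.2.2.2.2.1) c.2.2.1 == idT) && (compT c.2.2.2.1 c.2.2.2.2.1 != idT) &&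
  (prodT [c.2.2.2.1, invT c.2.2.2.1, c.2.2.2.2.1, invT c.2.2.2.2.1] c.2.2.2.2.2.1 == shiftT) &&
  (prodT [c.2.2.2.1, invT c.2.2.2.1, c.2.2.2.2.1, invT c.2.2.2.2.1] c.2.2.2.2.2.2 == shiftConjT)

theorem cert_sound (p q r : ℕ) (X Y ws wt : List ℕ) (hp : p.Prime) (hq : q.Prime) (hr : r.Prime)
    (h : certOK (p, q, r, X, Y, ws, wt) = true) :
    ∃ x y z : Cfsg.Spor.M23, orderOf x = p ∧ orderOf y = q ∧ orderOf z = r ∧ x * y * z = 1 ∧
        Subgroup.closure {x, y} = ⊤ := by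
  simp only [certOK, Bool.and_eq_true, beq_iff_eq, bne_iff_ne, ne_eq] at h
  obtain ⟨⟨⟨⟨⟨⟨⟨⟨⟨hX, hY⟩, hXp⟩, hX1⟩, hYq⟩, hY1⟩, hZr⟩, hZ1⟩, hs⟩, ht⟩ := h
  obtain ⟨hXok, hXm⟩ := inM23_sound X hX
  obtain ⟨hYok, hYm⟩ := inM23_sound Y hY
  have hXT := hasTable_tperm hXok
  have hYT := hasTable_tperm hYok
  have : Fact p.Prime := ⟨hp⟩
  have : Fact q.Prime := ⟨hq⟩
  have : Fact r.Prime := ⟨hr⟩
  refine ⟨⟨tperm X, hXm⟩, ⟨tperm Y, hYm⟩, (⟨tperm X, hXm⟩ * ⟨tperm Y, hYm⟩)⁻¹, ?_, ?_, ?_, ?_, ?_⟩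
  · rw [← Subgroup.orderOf_coe]
    exact orderOf_eq_of_table hXT hXp hX1
  · rw [← Subgroup.orderOf_coe]
    exact orderOf_eq_of_table hYT hYq hY1
  · rw [orderOf_inv, ← Subgroup.orderOf_coe]
    exact orderOf_eq_of_table (hasTable_mul hXT hYT) hZr hZ1
  · exact mul_inv_cancel _
  · -- generation
    set H : Subgroup (Equiv.Perm GolayPt) := Subgroup.closure {tperm X, tperm Y} with hH
    have hXH : tperm X ∈ H := Subgroup.subset_closure (by simp)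
    have hYH : tperm Y ∈ H := Subgroup.subset_closure (by simp)
    have hgood : Good H [tperm X, (tperm X)⁻¹, tperm Y, (tperm Y)⁻¹] [X, invT X, Y, invT Y] :=
      List.Forall₂.cons ⟨hXH, hXT⟩
        (List.Forall₂.cons ⟨H.inv_mem hXH, hasTable_inv hXT⟩
        (List.Forall₂.cons ⟨hYH, hYT⟩
        (List.Forall₂.cons ⟨H.inv_mem hYH, hasTable_inv hYT⟩ List.Forall₂.nil)))
    have h1 := hgood.prod ws
    have h2 := hgood.prod wt
    rw [hs] at h1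
    rw [ht] at h2
    have hs' : shiftPerm ∈ H := by
      rw [HasTable.ext' hasTable_shift h1.2]; exact h1.1
    have ht' : shiftConj ∈ H := by
      rw [HasTable.ext' hasTable_shiftConj h2.2]; exact h2.1
    have hcard := card_ge_m23 hs' ht'
    have hle : H ≤ Spor.M23 := by
      rw [hH, Subgroup.closure_le]
      intro g hg
      rcases hg with rfl | rfl
      · exact hXm
      · exact hYm
    have hHeq : H = Spor.M23 := by
      apply Subgroup.eq_of_le_of_card_ge hle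
      rw [card_SporM23]; exact hcard
    apply Subgroup.map_injective (Subgroup.subtype_injective Spor.M23)
    rw [MonoidHom.map_closure, ← MonoidHom.range_eq_map, Subgroup.range_subtype]
    have himg : (Spor.M23.subtype '' {⟨tperm X, hXm⟩, ⟨tperm Y, hYm⟩} : Set (Equiv.Perm GolayPt))
        = {tperm X, tperm Y} := by
      simp [Set.image_pair]
    rw [himg]
    exact hHeq

theorem cert0 : certOK (2, 5, 11, [0, 13, 2, 3, 4, 11, 10, 17, 8, 9, 6, 5, 19, 1, 15, 14, 22, 7, 20, 12, 18, 21, 16, 23],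
    [12, 13, 10, 19, 6, 8, 16, 7, 4, 21, 17, 11, 1, 20, 14, 2, 5, 18, 15, 22, 0, 3, 9, 23],
    [2, 0, 2, 0, 3, 3, 0, 3, 0, 3, 0, 3, 3, 0, 2, 0, 3, 3, 0, 2, 0, 2, 2, 0, 3, 0],
    [2, 2, 0, 2, 2, 0, 3, 3, 0, 2, 2, 0, 2, 0, 3, 0, 3, 0, 3, 0, 2, 0, 3, 0, 3, 3, 0]) = true := by decide +kernel

theorem cert1 : certOK (2, 5, 23, [0, 19, 21, 14, 22, 16, 6, 7, 20, 11, 10, 9, 12, 17, 3, 15, 5, 13, 18, 1, 8, 2, 4, 23],
    [14, 0, 3, 11, 21, 10, 17, 1, 4, 15, 8, 22, 7, 13, 12, 18, 16, 9, 6, 2, 20, 5, 19, 23],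
    [3, 0, 2, 0, 2, 0, 3, 0, 3, 3, 0, 2, 0, 3, 3, 0, 3, 0, 3, 3, 0, 3, 0],
    [0, 2, 0, 2, 0, 2, 0, 2, 0, 3, 0, 3, 0, 3, 0, 2, 2, 0, 2, 0, 3, 0, 3, 3, 0, 3]) = true := by decide +kernel

theorem cert2 : certOK (2, 7, 7, [9, 11, 22, 6, 10, 5, 3, 7, 16, 0, 4, 1, 12, 13, 17, 15, 8, 14, 20, 19, 18, 21, 2, 23],
    [4, 13, 5, 1, 10, 14, 7, 20, 3, 9, 17, 12, 0, 21, 6, 2, 8, 19, 18, 11, 15, 22, 16, 23],
    [0, 2, 0, 2, 0, 2, 0, 3, 0, 2, 2, 0, 2, 0, 3, 0, 2, 0, 3, 0, 2, 2, 0, 2, 2],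
    [0, 2, 2, 0, 2, 2, 2, 0, 3, 3, 0, 3, 0, 3, 3, 0, 3, 0, 3, 0, 2, 0, 3]) = true := by decide +kernel

theorem cert3 : certOK (2, 7, 11, [1, 0, 9, 22, 18, 19, 11, 13, 17, 2, 10, 6, 12, 7, 14, 15, 16, 8, 4, 5, 20, 21, 3, 23],
    [11, 1, 5, 9, 6, 0, 2, 15, 14, 17, 4, 10, 20, 7, 21, 16, 3, 13, 8, 19, 18, 22, 12, 23],
    [2, 0, 2, 2, 0, 3, 0, 2, 2, 0, 2, 0, 3, 3, 0, 2, 0, 2, 2, 0, 3, 0],
    [0, 3, 0, 3, 0, 2, 2, 2, 0, 2, 2, 0, 3, 0, 2, 0, 2, 2, 2, 0, 2]) = true := by decide +kernel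

theorem cert4 : certOK (2, 7, 23, [6, 16, 17, 4, 3, 21, 0, 7, 8, 20, 18, 11, 12, 19, 14, 15, 1, 2, 10, 13, 9, 5, 22, 23],
    [14, 8, 7, 22, 4, 12, 17, 1, 3, 0, 10, 5, 13, 21, 15, 16, 19, 11, 9, 18, 2, 6, 20, 23],
    [2, 2, 0, 2, 0, 3, 3, 0, 3, 3, 0, 3, 3, 0, 2, 0, 2, 0, 3, 3, 0, 2, 0],
    [0, 2, 0, 3, 0, 2, 0, 2, 0, 3, 3, 3, 0, 2, 2, 0, 2, 2, 2]) = true := by decide +kernel

theorem cert5 : certOK (2, 11, 11, [21, 18, 3, 2, 4, 12, 6, 17, 8, 9, 10, 19, 5, 20, 14, 15, 22, 7, 1, 11, 13, 0, 16, 23],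
    [3, 14, 4, 2, 1, 13, 7, 22, 18, 15, 21, 17, 19, 12, 20, 11, 16, 10, 9, 0, 5, 6, 8, 23],
    [3, 0, 2, 0, 3, 0, 2, 2, 2, 0, 3, 3, 3, 0, 2, 2, 2, 0],
    [2, 0, 2, 0, 3, 0, 3, 3, 0, 2, 0, 3, 3, 3, 0, 3, 3, 3, 3, 0, 2, 2]) = true := by decide +kernel

theorem cert6 : certOK (2, 11, 23, [9, 17, 13, 10, 4, 16, 6, 8, 7, 0, 3, 11, 12, 2, 14, 22, 5, 1, 18, 21, 20, 19, 15, 23],
    [3, 20, 17, 2, 0, 21, 18, 10, 5, 14, 11, 6, 8, 9, 19, 7, 13, 15, 4, 12, 16, 1, 22, 23],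
    [3, 3, 3, 3, 0, 2, 0, 2, 2, 2, 0, 2, 2, 2, 2, 0, 2, 0, 2, 0, 2, 0],
    [0, 3, 0, 2, 2, 2, 2, 2, 0, 2, 2, 2, 2, 2, 0, 3, 3, 3, 0, 2, 0, 2, 2, 2, 0]) = true := by decide +kernel

theorem cert7 : certOK (2, 23, 23, [0, 20, 8, 3, 4, 18, 6, 7, 2, 21, 16, 19, 13, 12, 14, 17, 10, 15, 5, 11, 1, 9, 22, 23],
    [21, 22, 12, 17, 2, 20, 4, 14, 0, 10, 5, 1, 15, 19, 6, 11, 8, 7, 3, 9, 18, 13, 16, 23],
    [3, 0, 2, 0, 3, 3, 0, 3, 0, 2, 0, 2, 2, 0, 3, 3, 0, 2, 2, 0, 3, 0, 3],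
    [2, 2, 0, 2, 0, 3, 3, 3, 3, 3, 3, 0, 2, 0, 2, 2, 2, 2, 0, 2, 2, 2]) = true := by decide +kernel

theorem cert8 : certOK (3, 3, 11, [0, 21, 6, 14, 22, 12, 19, 1, 3, 4, 13, 11, 17, 16, 8, 15, 10, 5, 18, 2, 20, 7, 9, 23],
    [4, 6, 1, 13, 20, 5, 2, 3, 8, 9, 12, 21, 22, 7, 14, 17, 16, 19, 11, 15, 0, 18, 10, 23],
    [1, 2, 0, 3, 0, 2, 0, 3, 0, 2, 0, 2, 0, 2, 1, 3, 1, 2, 0, 2, 0],
    [0, 3, 0, 2, 0, 3, 0, 3, 0, 3, 0, 2, 1, 2, 1, 2, 1, 3, 0, 2, 0]) = true := by decide +kernel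

theorem cert9 : certOK (3, 3, 23, [0, 1, 14, 13, 4, 7, 6, 15, 8, 17, 3, 22, 9, 10, 20, 5, 18, 12, 19, 16, 2, 11, 21, 23],
    [20, 19, 14, 3, 9, 5, 4, 7, 1, 6, 0, 16, 2, 11, 12, 17, 13, 22, 18, 8, 10, 21, 15, 23],
    [2, 1, 2, 0, 3, 1, 3, 0, 3, 0, 2, 0, 2, 1, 2, 0, 3, 1, 2, 0, 2, 0, 3, 0],
    [0, 3, 0, 2, 0, 2, 0, 2, 1, 3, 1, 3, 1, 2, 0, 3, 1, 2, 0, 2]) = true := by decide +kernel

theorem cert10 : certOK (3, 5, 5, [15, 22, 12, 3, 4, 1, 11, 14, 20, 9, 10, 13, 18, 6, 21, 17, 16, 0, 2, 8, 19, 7, 5, 23],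
    [0, 8, 4, 9, 20, 21, 13, 17, 16, 5, 15, 6, 19, 12, 3, 1, 10, 2, 18, 11, 7, 14, 22, 23],
    [3, 0, 2, 1, 3, 3, 1, 3, 3, 0, 3, 0, 3, 0, 3, 0, 3],
    [2, 0, 2, 1, 3, 1, 3, 0, 3, 3, 1, 2, 2, 0, 3, 3, 1]) = true := by decide +kernel

theorem cert11 : certOK (3, 5, 7, [4, 16, 2, 3, 9, 7, 14, 17, 8, 0, 1, 11, 20, 12, 19, 22, 10, 5, 15, 6, 13, 21, 18, 23],
    [12, 5, 21, 0, 19, 6, 4, 2, 18, 9, 3, 10, 11, 13, 14, 17, 7, 8, 22, 1, 16, 20, 15, 23],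
    [3, 1, 2, 0, 2, 1, 3, 0, 2, 2, 1, 3, 3, 0, 2, 0],
    [3, 0, 3, 3, 1, 3, 3, 1, 2, 1, 3, 1, 3, 0, 2, 1, 3, 3]) = true := by decide +kernel

theorem cert12 : certOK (3, 5, 11, [3, 5, 15, 21, 1, 4, 6, 9, 22, 12, 2, 18, 7, 13, 14, 10, 16, 11, 17, 19, 8, 0, 20, 23],
    [9, 1, 12, 19, 0, 3, 10, 7, 18, 20, 11, 14, 15, 6, 13, 16, 17, 2, 5, 8, 22, 21, 4, 23],
    [0, 2, 0, 2, 1, 2, 0, 2, 1, 3, 0, 3],
    [0, 2, 2, 1, 3, 1, 3, 1, 2, 1, 2, 1, 3, 1, 2, 1, 2, 1]) = true := by decide +kernel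

theorem cert13 : certOK (3, 5, 23, [2, 13, 4, 3, 0, 20, 18, 19, 8, 9, 17, 7, 6, 16, 10, 5, 1, 14, 12, 11, 15, 21, 22, 23],
    [22, 17, 2, 18, 20, 1, 7, 14, 15, 12, 3, 8, 6, 5, 9, 4, 16, 21, 0, 19, 11, 13, 10, 23],
    [1, 3, 3, 1, 2, 2, 0, 3, 0, 2, 1, 3, 3, 0, 3, 0, 2, 1, 2],
    [1, 2, 2, 0, 3, 1, 2, 2, 0, 2, 2, 1, 2, 1, 2, 0, 3, 0]) = true := by decide +kernel

theorem cert14 : certOK (3, 7, 7, [10, 3, 6, 18, 2, 5, 4, 12, 8, 20, 11, 0, 13, 7, 16, 15, 17, 14, 1, 19, 22, 21, 9, 23],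
    [14, 8, 20, 19, 13, 4, 2, 17, 11, 15, 3, 10, 1, 6, 7, 0, 16, 21, 5, 12, 18, 9, 22, 23],
    [3, 0, 2, 2, 1, 2, 0, 2, 2, 2, 1, 2, 1, 3, 3, 1],
    [2, 0, 3, 3, 1, 3, 1, 3, 3, 1, 2, 2, 1, 3, 1, 2]) = true := by decide +kernel

theorem cert15 : certOK (3, 7, 11, [22, 15, 2, 8, 9, 6, 19, 1, 13, 10, 4, 20, 12, 3, 0, 7, 16, 17, 18, 5, 21, 11, 14, 23],
    [5, 6, 15, 7, 8, 2, 3, 9, 1, 4, 12, 10, 17, 11, 14, 16, 18, 20, 21, 19, 22, 0, 13, 23],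
    [0, 2, 2, 0, 3, 1, 3, 1, 2, 2, 2, 1, 3, 1, 3, 3, 3],
    [2, 0, 2, 1, 3, 1, 2, 2, 0, 2, 0, 2, 1, 3, 1, 3, 1]) = true := by decide +kernel

theorem cert16 : certOK (3, 7, 23, [1, 20, 15, 19, 4, 6, 18, 7, 16, 9, 2, 3, 13, 14, 12, 10, 17, 8, 5, 11, 0, 21, 22, 23],
    [18, 17, 19, 12, 7, 5, 0, 15, 22, 4, 14, 11, 20, 16, 6, 3, 21, 2, 8, 13, 9, 1, 10, 23],
    [0, 3, 3, 0, 3, 3, 0, 3, 1, 2, 0, 3, 0, 3, 0, 3, 1, 3],
    [1, 2, 0, 3, 3, 0, 3, 1, 3, 1, 3, 3, 0, 2, 2, 2, 0]) = true := by decide +kernel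

theorem cert17 : certOK (3, 11, 11, [13, 1, 5, 8, 4, 12, 0, 11, 10, 16, 3, 18, 2, 6, 17, 15, 19, 22, 7, 9, 20, 21, 14, 23],
    [18, 11, 17, 19, 1, 20, 12, 7, 15, 0, 3, 10, 2, 16, 22, 21, 5, 8, 14, 9, 6, 13, 4, 23],
    [0, 2, 1, 2, 0, 3, 3, 1, 3, 0, 2, 0, 2, 0, 3, 0, 2, 0],
    [3, 0, 2, 1, 2, 1, 3, 1, 2, 1, 2, 1]) = true := by decide +kernel

theorem cert18 : certOK (3, 11, 23, [0, 12, 14, 3, 17, 11, 13, 20, 5, 2, 4, 8, 21, 18, 9, 15, 16, 10, 6, 7, 19, 1, 22, 23],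
    [20, 5, 15, 2, 0, 6, 21, 22, 1, 10, 4, 13, 3, 12, 14, 18, 17, 7, 16, 8, 19, 9, 11, 23],
    [2, 2, 1, 2, 0, 2, 1, 3, 3, 0, 2, 2, 1, 3, 0, 3, 0],
    [2, 1, 3, 3, 3, 3, 1, 2, 1, 2, 2, 0, 3, 1, 2]) = true := by decide +kernel

theorem cert19 : certOK (3, 23, 23, [6, 20, 4, 16, 21, 1, 22, 9, 14, 17, 8, 11, 12, 13, 10, 3, 15, 7, 18, 19, 5, 2, 0, 23],
    [14, 10, 3, 6, 12, 16, 4, 20, 15, 17, 8, 1, 7, 9, 18, 21, 0, 5, 19, 2, 22, 13, 11, 23],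
    [0, 2, 2, 2, 2, 2, 2, 0, 3, 0, 3, 1, 3, 1, 3, 3, 3, 3, 0],
    [1, 2, 2, 2, 2, 1, 3, 0, 2, 1, 2, 0, 2, 0, 3, 1, 2]) = true := by decide +kernel

theorem cert20 : certOK (5, 5, 5, [7, 0, 4, 15, 20, 1, 6, 14, 12, 9, 10, 16, 11, 18, 5, 13, 17, 8, 21, 22, 19, 3, 2, 23],
    [0, 10, 15, 5, 21, 14, 17, 4, 18, 2, 9, 7, 12, 8, 22, 1, 11, 13, 6, 3, 20, 16, 19, 23],
    [0, 2, 0, 0, 3, 0, 3, 3, 0, 0, 3, 0, 2, 1, 1],
    [0, 3, 1, 3, 1, 2, 2, 1, 1, 3, 0, 2, 0, 2, 2, 0, 3]) = true := by decide +kernel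

theorem cert21 : certOK (5, 5, 7, [3, 18, 1, 11, 9, 22, 10, 12, 8, 15, 4, 5, 21, 7, 14, 6, 16, 13, 19, 20, 2, 17, 0, 23],
    [4, 0, 17, 21, 8, 5, 20, 7, 15, 12, 6, 3, 10, 13, 19, 1, 11, 22, 16, 2, 9, 18, 14, 23],
    [1, 3, 0, 0, 3, 3, 0, 2, 0, 2, 0, 3, 1, 3, 3, 0],
    [3, 0, 2, 1, 1, 2, 1, 3, 3, 0, 3, 3, 0, 2, 0]) = true := by decide +kernel

theorem cert22 : certOK (5, 5, 11, [5, 8, 14, 9, 10, 3, 6, 12, 2, 19, 16, 18, 22, 1, 13, 15, 11, 7, 4, 0, 17, 21, 20, 23],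
    [8, 11, 10, 20, 16, 5, 13, 22, 3, 19, 21, 4, 7, 12, 14, 0, 17, 1, 18, 2, 15, 9, 6, 23],
    [0, 0, 3, 0, 3, 1, 2, 2, 1, 3, 0, 2, 2, 0, 3, 3],
    [1, 1, 2, 1, 2, 0, 0, 3, 1, 3, 0, 0, 2, 2]) = true := by decide +kernel

theorem cert23 : certOK (5, 5, 23, [21, 5, 8, 16, 19, 13, 17, 7, 12, 22, 9, 6, 0, 3, 10, 15, 1, 4, 14, 11, 20, 2, 18, 23],
    [22, 5, 7, 6, 4, 10, 21, 1, 3, 0, 2, 15, 17, 13, 8, 9, 20, 19, 18, 16, 12, 14, 11, 23],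
    [0, 3, 0, 0, 3, 3, 0, 0, 3, 3, 0, 0, 3, 1, 1],
    [3, 3, 0, 2, 1, 2, 0, 2, 2, 1, 3, 1, 1, 3]) = true := by decide +kernel

theorem cert24 : certOK (5, 7, 7, [3, 15, 18, 7, 4, 5, 13, 21, 11, 8, 0, 12, 19, 2, 17, 14, 6, 22, 16, 9, 20, 10, 1, 23],
    [10, 5, 16, 12, 20, 19, 8, 4, 15, 14, 3, 9, 11, 2, 0, 18, 17, 1, 7, 13, 6, 21, 22, 23],
    [3, 0, 2, 0, 3, 1, 1, 2, 0, 3, 0, 3, 3, 1, 1, 2],
    [1, 2, 1, 3, 0, 2, 0, 0, 3, 1, 2, 1, 2, 1, 1]) = true := by decide +kernel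

theorem cert25 : certOK (5, 7, 11, [13, 2, 21, 12, 9, 17, 6, 5, 4, 14, 8, 19, 18, 7, 10, 15, 16, 0, 11, 3, 1, 22, 20, 23],
    [7, 15, 2, 9, 4, 19, 5, 6, 11, 1, 16, 3, 0, 10, 18, 17, 22, 8, 13, 20, 12, 14, 21, 23],
    [2, 2, 1, 3, 3, 1, 1, 3, 3, 3, 0, 2, 0, 2],
    [3, 0, 2, 2, 1, 1, 3, 3, 3, 1, 2, 1, 3, 3]) = true := by decide +kernel

theorem cert26 : certOK (5, 7, 23, [12, 21, 13, 19, 14, 5, 16, 6, 8, 10, 2, 11, 20, 22, 7, 0, 4, 15, 3, 1, 17, 18, 9, 23],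
    [9, 1, 6, 19, 4, 10, 14, 3, 22, 2, 8, 15, 7, 0, 18, 5, 12, 11, 13, 21, 16, 20, 17, 23],
    [1, 3, 3, 0, 0, 2, 0, 2, 1, 2, 0, 3, 0, 3],
    [0, 2, 1, 1, 3, 1, 3, 1, 1, 3, 3, 3, 1, 3, 0, 2, 0]) = true := by decide +kernel

theorem cert27 : certOK (5, 11, 11, [12, 16, 0, 22, 4, 18, 13, 9, 10, 20, 3, 5, 19, 7, 14, 2, 11, 17, 1, 15, 6, 8, 21, 23],
    [19, 6, 13, 1, 18, 4, 21, 8, 0, 15, 2, 11, 22, 7, 5, 16, 20, 14, 12, 9, 10, 17, 3, 23],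
    [2, 2, 0, 2, 2, 2, 2, 1, 3, 1, 2, 2, 2, 0],
    [0, 0, 2, 2, 2, 2, 2, 0, 2, 0, 2, 0, 3, 0, 3, 1, 3]) = true := by decide +kernel

theorem cert28 : certOK (5, 11, 23, [7, 1, 2, 10, 19, 5, 4, 9, 20, 12, 16, 3, 22, 6, 13, 17, 21, 18, 8, 14, 15, 11, 0, 23],
    [9, 3, 13, 4, 22, 16, 19, 2, 14, 21, 18, 5, 7, 17, 6, 15, 0, 11, 8, 1, 10, 12, 20, 23],
    [2, 0, 2, 1, 2, 2, 0, 2, 2, 0, 3, 1, 2, 1, 2],
    [2, 2, 1, 2, 1, 2, 2, 1, 2, 1, 2, 2, 1, 2, 2]) = true := by decide +kernel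

theorem cert29 : certOK (5, 23, 23, [22, 15, 11, 6, 4, 3, 17, 13, 8, 1, 2, 12, 14, 0, 10, 19, 9, 20, 7, 16, 5, 21, 18, 23],
    [9, 8, 3, 20, 6, 19, 5, 13, 21, 1, 15, 0, 2, 22, 10, 17, 18, 16, 4, 7, 11, 14, 12, 23],
    [1, 2, 2, 2, 0, 0, 2, 2, 0, 2, 1, 2, 2, 1, 3, 0],
    [1, 2, 0, 2, 2, 0, 0, 2, 0, 3, 0, 3, 3, 3, 0]) = true := by decide +kernel

theorem cert30 : certOK (7, 7, 7, [11, 18, 14, 9, 4, 16, 19, 5, 1, 2, 10, 22, 13, 6, 8, 17, 20, 21, 3, 0, 15, 7, 12, 23],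
    [15, 14, 6, 7, 0, 5, 3, 13, 10, 18, 19, 9, 8, 1, 2, 22, 16, 20, 4, 17, 21, 12, 11, 23],
    [2, 0, 0, 0, 2, 2, 1, 1, 2, 0, 3, 3, 1, 1, 2],
    [1, 3, 1, 2, 2, 2, 1, 3, 0, 0, 3, 1, 3, 1, 2, 0]) = true := by decide +kernel

theorem cert31 : certOK (7, 7, 11, [11, 19, 17, 18, 12, 8, 6, 4, 9, 13, 10, 16, 0, 1, 20, 5, 21, 22, 2, 15, 3, 7, 14, 23],
    [11, 19, 22, 13, 4, 6, 8, 17, 7, 5, 1, 21, 9, 16, 0, 15, 10, 12, 3, 18, 2, 20, 14, 23],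
    [1, 1, 1, 2, 0, 3, 1, 3, 1, 3, 0, 0, 2, 2, 1],
    [0, 3, 1, 2, 1, 1, 2, 1, 1, 3, 0, 3, 3, 3]) = true := by decide +kernel

theorem cert32 : certOK (7, 7, 23, [1, 10, 0, 3, 17, 8, 16, 19, 2, 14, 21, 20, 9, 11, 6, 4, 7, 13, 15, 12, 18, 5, 22, 23],
    [18, 13, 15, 19, 10, 0, 6, 11, 20, 4, 7, 12, 22, 3, 1, 16, 21, 17, 2, 8, 14, 5, 9, 23],
    [0, 0, 3, 3, 0, 3, 1, 1, 2, 2, 0, 0, 3, 1],
    [0, 3, 1, 1, 1, 3, 1, 1, 3, 1, 3, 3, 1]) = true := by decide +kernel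

theorem cert33 : certOK (7, 11, 11, [10, 9, 7, 21, 5, 12, 4, 13, 20, 3, 17, 14, 22, 11, 8, 6, 15, 1, 18, 19, 2, 0, 16, 23],
    [5, 9, 15, 13, 22, 17, 7, 11, 14, 0, 3, 18, 12, 8, 4, 6, 21, 2, 1, 16, 19, 10, 20, 23],
    [2, 2, 1, 3, 1, 1, 2, 2, 0, 3, 0, 3, 0, 3],
    [1, 3, 3, 3, 0, 0, 2, 0, 0, 2, 2, 0, 3, 3, 1]) = true := by decide +kernel

theorem cert34 : certOK (7, 11, 23, [15, 22, 5, 0, 6, 13, 18, 7, 9, 19, 11, 8, 21, 4, 10, 1, 16, 14, 20, 17, 2, 3, 12, 23],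
    [20, 5, 17, 14, 15, 13, 8, 3, 1, 22, 10, 7, 9, 11, 18, 16, 12, 21, 19, 6, 2, 4, 0, 23],
    [1, 2, 2, 0, 0, 3, 0, 2, 1, 3, 0, 0, 3, 3],
    [3, 0, 2, 2, 2, 1, 3, 3, 0, 0, 2, 2]) = true := by decide +kernel

theorem cert35 : certOK (7, 23, 23, [2, 9, 8, 15, 4, 7, 6, 1, 11, 20, 12, 13, 22, 21, 18, 14, 0, 19, 10, 5, 17, 16, 3, 23],
    [17, 5, 6, 19, 21, 12, 20, 3, 9, 13, 7, 22, 14, 1, 2, 16, 10, 18, 11, 4, 0, 8, 15, 23],
    [1, 2, 2, 1, 3, 1, 1, 3, 1, 3, 3, 0, 2, 0],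
    [0, 0, 0, 2, 1, 3, 1, 3, 0, 3, 3, 0, 3, 0, 0]) = true := by decide +kernel

theorem cert36 : certOK (11, 11, 11, [19, 18, 6, 4, 20, 16, 11, 1, 2, 22, 21, 5, 17, 13, 0, 14, 7, 8, 12, 10, 15, 9, 3, 23],
    [3, 17, 19, 7, 10, 8, 16, 22, 14, 15, 20, 9, 4, 11, 12, 21, 5, 0, 18, 6, 2, 1, 13, 23],
    [2, 1, 3, 0, 3, 0, 0, 2, 2, 0, 0, 0],
    [2, 2, 1, 2, 2, 0, 3, 1, 2, 1, 3, 0, 3, 3, 1]) = true := by decide +kernel

theorem cert37 : certOK (11, 11, 23, [16, 17, 15, 11, 0, 13, 12, 7, 6, 14, 8, 9, 18, 10, 21, 5, 3, 22, 20, 2, 19, 1, 4, 23],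
    [16, 0, 1, 2, 17, 13, 14, 6, 7, 12, 10, 9, 18, 8, 4, 5, 20, 22, 3, 11, 19, 15, 21, 23],
    [1, 2, 0, 0, 3, 3, 3, 1, 1, 2, 0, 2, 2, 0, 3, 1, 1],
    [3, 3, 3, 1, 3, 1, 1, 3, 1, 1, 1, 3, 1, 1, 2, 2]) = true := by decide +kernel

theorem cert38 : certOK (11, 23, 23, [22, 10, 0, 12, 9, 20, 3, 18, 7, 5, 13, 17, 1, 16, 8, 14, 21, 4, 11, 19, 15, 2, 6, 23],
    [19, 21, 18, 7, 22, 16, 13, 2, 12, 1, 5, 9, 20, 15, 17, 8, 6, 10, 0, 11, 3, 4, 14, 23],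
    [2, 0, 2, 2, 0, 0, 3, 0, 0, 0, 0, 3, 3, 1, 3],
    [2, 1, 2, 0, 3, 1, 3, 1, 1, 3, 0, 3]) = true := by decide +kernel

theorem cert39 : certOK (23, 23, 23, [17, 21, 15, 6, 14, 10, 18, 8, 3, 13, 11, 2, 20, 0, 1, 22, 9, 5, 19, 4, 16, 12, 7, 23],
    [6, 11, 4, 17, 16, 19, 18, 20, 21, 2, 0, 8, 22, 3, 15, 5, 13, 7, 1, 12, 10, 14, 9, 23],
    [2, 0, 3, 3, 0, 0, 0, 0, 2, 2, 0, 2, 0, 3, 3],
    [2, 2, 2, 0, 3, 3, 3, 1, 1, 1, 1, 3, 0, 2]) = true := by decide +kernel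

/-- The forty generating triples. -/
def posList : List (ℕ × ℕ × ℕ) :=
  [(2, 5, 11), (2, 5, 23), (2, 7, 7), (2, 7, 11), (2, 7, 23), (2, 11, 11), (2, 11, 23), (2, 23, 23), (3, 3, 11), (3, 3, 23), (3, 5, 5), (3, 5, 7), (3, 5, 11), (3, 5, 23), (3, 7, 7), (3, 7, 11), (3, 7, 23), (3, 11, 11), (3, 11, 23), (3, 23, 23), (5, 5, 5), (5, 5, 7), (5, 5, 11), (5, 5, 23), (5, 7, 7), (5, 7, 11), (5, 7, 23), (5, 11, 11), (5, 11, 23), (5, 23, 23), (7, 7, 7), (7, 7, 11), (7, 7, 23), (7, 11, 11), (7, 11, 23), (7, 23, 23), (11, 11, 11), (11, 11, 23), (11, 23, 23), (23, 23, 23)]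

theorem pos (p q r : ℕ) (hp : p.Prime) (hq : q.Prime) (hr : r.Prime)
    (h : (p, q, r) ∈ posList) :
    ∃ x y z : Cfsg.Spor.M23, orderOf x = p ∧ orderOf y = q ∧ orderOf z = r ∧ x * y * z = 1 ∧
        Subgroup.closure {x, y} = ⊤ := by
  simp only [posList, List.mem_cons, List.mem_nil_iff, Prod.mk.injEq, or_false] at h
  rcases h with ⟨rfl, rfl, rfl⟩ | ⟨rfl, rfl, rfl⟩ | ⟨rfl, rfl, rfl⟩ | ⟨rfl, rfl, rfl⟩ | ⟨rfl, rfl, rfl⟩ | ⟨rfl, rfl, rfl⟩ | ⟨rfl, rfl, rfl⟩ | ⟨rfl, rfl, rfl⟩ | ⟨rfl, rfl, rfl⟩ | ⟨rfl, rfl, rfl⟩ | ⟨rfl, rfl, rfl⟩ | ⟨rfl, rfl, rfl⟩ | ⟨rfl, rfl, rfl⟩ | ⟨rfl, rfl, rfl⟩ | ⟨rfl, rfl, rfl⟩ | ⟨rfl, rfl, rfl⟩ | ⟨rfl, rfl, rfl⟩ | ⟨rfl, rfl, rfl⟩ | ⟨rfl, rfl, rfl⟩ | ⟨rfl, rfl, rfl⟩ | ⟨rfl, rfl, rfl⟩ | ⟨rfl, rfl, rfl⟩ | ⟨rfl, rfl, rfl⟩ | ⟨rfl, rfl, rfl⟩ | ⟨rfl, rfl, rfl⟩ | ⟨rfl, rfl, rfl⟩ | ⟨rfl, rfl, rfl⟩ | ⟨rfl, rfl, rfl⟩ | ⟨rfl, rfl, rfl⟩ | ⟨rfl, rfl,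 rfl⟩ | ⟨rfl, rfl, rfl⟩ | ⟨rfl, rfl, rfl⟩ | ⟨rfl, rfl, rfl⟩ | ⟨rfl, rfl, rfl⟩ | ⟨rfl, rfl, rfl⟩ | ⟨rfl, rfl, rfl⟩ | ⟨rfl, rfl, rfl⟩ | ⟨rfl, rfl, rfl⟩ | ⟨rfl, rfl, rfl⟩ | ⟨rfl, rfl, rfl⟩
  · exact cert_sound _ _ _ _ _ _ _ hp hq hr cert0
  · exact cert_sound _ _ _ _ _ _ _ hp hq hr cert1
  · exact cert_sound _ _ _ _ _ _ _ hp hq hr cert2
  · exact cert_sound _ _ _ _ _ _ _ hp hq hr cert3
  · exact cert_sound _ _ _ _ _ _ _ hp hq hr cert4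
  · exact cert_sound _ _ _ _ _ _ _ hp hq hr cert5
  · exact cert_sound _ _ _ _ _ _ _ hp hq hr cert6
  · exact cert_sound _ _ _ _ _ _ _ hp hq hr cert7
  · exact cert_sound _ _ _ _ _ _ _ hp hq hr cert8
  · exact cert_sound _ _ _ _ _ _ _ hp hq hr cert9
  · exact cert_sound _ _ _ _ _ _ _ hp hq hr cert10
  · exact cert_sound _ _ _ _ _ _ _ hp hq hr cert11
  · exact cert_sound _ _ _ _ _ _ _ hp hq hr cert12
  · exact cert_sound _ _ _ _ _ _ _ hp hq hr cert13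
  · exact cert_sound _ _ _ _ _ _ _ hp hq hr cert14
  · exact cert_sound _ _ _ _ _ _ _ hp hq hr cert15
  · exact cert_sound _ _ _ _ _ _ _ hp hq hr cert16
  · exact cert_sound _ _ _ _ _ _ _ hp hq hr cert17
  · exact cert_sound _ _ _ _ _ _ _ hp hq hr cert18
  · exact cert_sound _ _ _ _ _ _ _ hp hq hr cert19
  · exact cert_sound _ _ _ _ _ _ _ hp hq hr cert20
  · exact cert_sound _ _ _ _ _ _ _ hp hq hr cert21
  · exact cert_sound _ _ _ _ _ _ _ hp hq hr cert22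
  · exact cert_sound _ _ _ _ _ _ _ hp hq hr cert23
  · exact cert_sound _ _ _ _ _ _ _ hp hq hr cert24
  · exact cert_sound _ _ _ _ _ _ _ hp hq hr cert25
  · exact cert_sound _ _ _ _ _ _ _ hp hq hr cert26
  · exact cert_sound _ _ _ _ _ _ _ hp hq hr cert27
  · exact cert_sound _ _ _ _ _ _ _ hp hq hr cert28
  · exact cert_sound _ _ _ _ _ _ _ hp hq hr cert29
  · exact cert_sound _ _ _ _ _ _ _ hp hq hr cert30
  · exact cert_sound _ _ _ _ _ _ _ hp hq hr cert31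
  · exact cert_sound _ _ _ _ _ _ _ hp hq hr cert32
  · exact cert_sound _ _ _ _ _ _ _ hp hq hr cert33
  · exact cert_sound _ _ _ _ _ _ _ hp hq hr cert34
  · exact cert_sound _ _ _ _ _ _ _ hp hq hr cert35
  · exact cert_sound _ _ _ _ _ _ _ hp hq hr cert36
  · exact cert_sound _ _ _ _ _ _ _ hp hq hr cert37
  · exact cert_sound _ _ _ _ _ _ _ hp hq hr cert38
  · exact cert_sound _ _ _ _ _ _ _ hp hq hr cert39

open Module in
/-- Scott's lemma. -/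
theorem scott {K V : Type*} [Field K] [AddCommGroup V] [Module K V] [FiniteDimensional K V]
    (A B C : V →ₗ[K] V) (h : ∀ v, A (B (C v)) = v) (d d' : ℕ)
    (hd : ∀ W : Submodule K V, (∀ v ∈ W, A v = v ∧ B v = v ∧ C v = v) → Module.finrank K W ≤ d)
    (hd' : ∀ W : Submodule K (Module.Dual K V),
      (∀ φ ∈ W, ∀ v, φ (A v) = φ v ∧ φ (B v) = φ v ∧ φ (C v) = φ v) → Module.finrank K W ≤ d') :
    2 * Module.finrank K V ≤
      Module.finrank K (LinearMap.range (LinearMap.id - A)) +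
      Module.finrank K (LinearMap.range (LinearMap.id - B)) +
      Module.finrank K (LinearMap.range (LinearMap.id - C)) + d + d' := by
  set RA := LinearMap.range (LinearMap.id - A) with hRA
  set RB := LinearMap.range (LinearMap.id - B) with hRB
  set RC := LinearMap.range (LinearMap.id - C) with hRC
  let β : V →ₗ[K] RA × RB × RC := (LinearMap.id - A).rangeRestrict.prod
    ((LinearMap.id - B).rangeRestrict.prod (LinearMap.id - C).rangeRestrict)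
  let δ : RA × RB × RC →ₗ[K] V := RA.subtype.coprod ((A ∘ₗ RB.subtype).coprod (A ∘ₗ B ∘ₗ RC.subtype))
  have hδ : ∀ (a : RA) (b : RB) (c : RC), δ (a, b, c) = (a : V) + (A (b : V) + A (B (c : V))) := by
    intro a b c
    simp [δ]
  have hβ : ∀ v, β v = (⟨v - A v, ⟨v, rfl⟩⟩, ⟨v - B v, ⟨v, rfl⟩⟩, ⟨v - C v, ⟨v, rfl⟩⟩) := by
    intro v
    rfl
  have hδβ : ∀ v, δ (β v) = 0 := by
    intro v
    rw [hβ, hδ]
    simp only [map_sub]
    rw [h v]; abel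
  have h1 : LinearMap.range β ≤ LinearMap.ker δ := by
    rintro _ ⟨v, rfl⟩; exact hδβ v
  have h2 := LinearMap.finrank_range_add_finrank_ker β
  have h3 := LinearMap.finrank_range_add_finrank_ker δ
  have h4 : Module.finrank K (LinearMap.ker β) ≤ d := by
    apply hd
    intro v hv
    rw [LinearMap.mem_ker, hβ] at hv
    simp only [Prod.mk_eq_zero] at hv
    obtain ⟨ha, hb, hc⟩ := hv
    have ha' : v - A v = 0 := congrArg Subtype.val ha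
    have hb' : v - B v = 0 := congrArg Subtype.val hb
    have hc' : v - C v = 0 := congrArg Subtype.val hc
    exact ⟨(sub_eq_zero.mp ha').symm, (sub_eq_zero.mp hb').symm, (sub_eq_zero.mp hc').symm⟩
  have h5 : Module.finrank K (LinearMap.range δ).dualAnnihilator ≤ d' := by
    apply hd'
    intro φ hφ
    rw [Submodule.mem_dualAnnihilator] at hφ
    have hA : ∀ v, φ (A v) = φ v := by
      intro v
      have := hφ (δ (⟨v - A v, ⟨v, rfl⟩⟩, 0, 0)) ⟨_, rfl⟩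
      rw [hδ] at this
      simp only [ZeroMemClass.coe_zero, map_zero, add_zero, map_sub] at this
      exact (sub_eq_zero.mp this).symm
    have hB : ∀ v, φ (B v) = φ v := by
      intro v
      have := hφ (δ (0, ⟨v - B v, ⟨v, rfl⟩⟩, 0)) ⟨_, rfl⟩
      rw [hδ] at this
      simp only [ZeroMemClass.coe_zero, map_zero, add_zero, zero_add] at this
      rw [hA, map_sub] at this
      exact (sub_eq_zero.mp this).symm
    have hC : ∀ v, φ (C v) = φ v := by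
      intro v
      have := hφ (δ (0, 0, ⟨v - C v, ⟨v, rfl⟩⟩)) ⟨_, rfl⟩
      rw [hδ] at this
      simp only [ZeroMemClass.coe_zero, map_zero, zero_add] at this
      rw [hA, hB, map_sub] at this
      exact (sub_eq_zero.mp this).symm
    exact fun v => ⟨hA v, hB v, hC v⟩
  have h6 := Subspace.finrank_add_finrank_dualAnnihilator_eq (LinearMap.range δ)
  have h7 := Submodule.finrank_mono h1
  rw [Module.finrank_prod, Module.finrank_prod] at h3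
  omega

/-- Orbit count of an element of prime order, and the fixed space of its permutation matrix. -/
theorem fix_lower {Ω : Type*} [Fintype Ω] [DecidableEq Ω] (g : Equiv.Perm Ω) (p : ℕ) (hp : p.Prime)
    (hg : orderOf g = p) :
    ∃ N : ℕ, p * N = Fintype.card Ω + (p - 1) * (Finset.univ.filter fun i => g i = i).card ∧
      N ≤ Module.finrank ℚ (LinearMap.ker (LinearMap.id - LinearMap.funLeft ℚ ℚ g)) := by
  classical
  have : Fact p.Prime := ⟨hp⟩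
  let H := Subgroup.zpowers g
  have hcardH : Fintype.card H = p := by rw [Fintype.card_zpowers, hg]
  have hB := MulAction.sum_card_fixedBy_eq_card_orbits_mul_card_group H Ω
  set f := (Finset.univ.filter fun i => g i = i).card with hf
  have hterm : ∀ a : H, Fintype.card (MulAction.fixedBy Ω a) =
      if a = 1 then Fintype.card Ω else f := by
    intro a
    split_ifs with ha
    · subst ha
      rw [Fintype.card_subtype]
      simp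
    · rw [hf, Fintype.card_subtype]
      congr 1
      ext i
      simp only [Finset.mem_filter, Finset.mem_univ, true_and, MulAction.mem_fixedBy]
      have hcardH' : Nat.card H = p := by rw [Nat.card_eq_fintype_card]; exact hcardH
      have htop : Subgroup.zpowers a = ⊤ := zpowers_eq_top_of_prime_card hcardH' ha
      have hgm : (⟨g, Subgroup.mem_zpowers g⟩ : H) ∈ Subgroup.zpowers a := by
        rw [htop]; trivial
      constructor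
      · intro hai
        have hle : Subgroup.zpowers a ≤ MulAction.stabilizer H i := by
          rw [Subgroup.zpowers_le]; exact hai
        exact hle hgm
      · intro hgi
        obtain ⟨k, hk⟩ := Subgroup.mem_zpowers_iff.mp a.2
        show (a : Equiv.Perm Ω) i = i
        rw [← hk]; exact Equiv.Perm.zpow_apply_eq_self_of_apply_eq_self hgi k
  have hsum : ∑ a : H, Fintype.card (MulAction.fixedBy Ω a) = Fintype.card Ω + (p - 1) * f := by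
    simp_rw [hterm]
    rw [Finset.sum_ite, Finset.sum_const, Finset.sum_const, Finset.filter_eq', if_pos (Finset.mem_univ _),
      Finset.filter_ne', Finset.card_erase_of_mem (Finset.mem_univ _), Finset.card_univ, hcardH]
    simp
  refine ⟨Fintype.card (Quotient (MulAction.orbitRel H Ω)), ?_, ?_⟩
  · rw [← hsum, hB, hcardH, mul_comm]
  · let ι : (Quotient (MulAction.orbitRel H Ω) → ℚ) →ₗ[ℚ] (Ω → ℚ) :=
      LinearMap.funLeft ℚ ℚ (Quotient.mk (MulAction.orbitRel H Ω))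
    have hι : Function.Injective ι :=
      LinearMap.funLeft_injective_of_surjective ℚ ℚ _ Quotient.mk_surjective
    have hmem : ∀ h, ι h ∈ LinearMap.ker (LinearMap.id - LinearMap.funLeft ℚ ℚ g) := by
      intro h
      rw [LinearMap.mem_ker, LinearMap.sub_apply, LinearMap.id_apply, sub_eq_zero]
      ext i
      show h (Quotient.mk _ i) = h (Quotient.mk _ (g i))
      congr 1
      apply Quotient.sound
      show i ∈ MulAction.orbit H (g i)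
      exact ⟨⟨g, Subgroup.mem_zpowers g⟩⁻¹, by show g⁻¹ (g i) = i; simp⟩
    have := LinearMap.finrank_le_finrank_of_injective
      (f := ι.codRestrict (LinearMap.ker (LinearMap.id - LinearMap.funLeft ℚ ℚ g)) hmem)
      (fun a b hab => hι (by
        have := congrArg Subtype.val hab
        simpa using this))
    rwa [Module.finrank_fintype_fun_eq_card] at this

/-- The point stabiliser is transitive on the other points. -/
theorem m23_trans (i j : GolayPt) (hi : i ≠ none) (hj : j ≠ none) :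
    ∃ g ∈ Spor.M23, g i = j := by
  obtain ⟨g, hg, h0, h1⟩ := exists_map_two_two (p0 := none) (p1 := i) (q0 := none) (q1 := j)
    (Ne.symm hi) (Ne.symm hj)
  exact ⟨g, ⟨hg, h0⟩, h1⟩

/-- Ree's inequality for generating triples of the point stabiliser. -/
theorem ree (x y z : Spor.M23) (hxyz : x * y * z = 1) (hgen : Subgroup.closure {x, y} = ⊤) :
    Module.finrank ℚ (LinearMap.ker (LinearMap.id -
        LinearMap.funLeft ℚ ℚ (x : Equiv.Perm GolayPt))) +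
      Module.finrank ℚ (LinearMap.ker (LinearMap.id -
        LinearMap.funLeft ℚ ℚ (y : Equiv.Perm GolayPt))) +
      Module.finrank ℚ (LinearMap.ker (LinearMap.id -
        LinearMap.funLeft ℚ ℚ (z : Equiv.Perm GolayPt))) ≤ 28 := by
  have hcl : ∀ g ∈ Spor.M23,
      g ∈ Subgroup.closure {(x : Equiv.Perm GolayPt), (y : Equiv.Perm GolayPt)} := by
    intro g hg
    have h1 : (⟨g, hg⟩ : Spor.M23) ∈ Subgroup.closure {x, y} := by rw [hgen]; trivial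
    have h2 := Subgroup.mem_map_of_mem Spor.M23.subtype h1
    rw [MonoidHom.map_closure] at h2
    have himg : (Spor.M23.subtype '' {x, y} : Set (Equiv.Perm GolayPt)) =
        {(x : Equiv.Perm GolayPt), (y : Equiv.Perm GolayPt)} := by simp [Set.image_pair]
    rw [himg] at h2
    exact h2
  set A := LinearMap.funLeft ℚ ℚ (z : Equiv.Perm GolayPt) with hA
  set B := LinearMap.funLeft ℚ ℚ (y : Equiv.Perm GolayPt) with hB
  set C := LinearMap.funLeft ℚ ℚ (x : Equiv.Perm GolayPt) with hC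
  have hABC : ∀ v, A (B (C v)) = v := by
    intro v
    ext i
    show v ((x : Equiv.Perm GolayPt) ((y : Equiv.Perm GolayPt) ((z : Equiv.Perm GolayPt) i))) = v i
    have h1 : (x : Equiv.Perm GolayPt) * y * z = 1 := by exact_mod_cast congrArg Subtype.val hxyz
    have h2 : ((x : Equiv.Perm GolayPt) * y * z) i = i := by rw [h1]; rfl
    rw [Equiv.Perm.mul_apply, Equiv.Perm.mul_apply] at h2
    rw [h2]
  have hd : ∀ W : Submodule ℚ (GolayPt → ℚ), (∀ v ∈ W, A v = v ∧ B v = v ∧ C v = v) →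
      Module.finrank ℚ W ≤ 2 := by
    intro W hW
    have hinv : ∀ g ∈ Spor.M23, ∀ v ∈ W, ∀ i, v (g i) = v i := by
      intro g hg
      refine Subgroup.closure_induction (p := fun g _ => ∀ v ∈ W, ∀ i, v (g i) = v i)
        ?_ ?_ ?_ ?_ (hcl g hg)
      · intro g hg v hv i
        rcases hg with rfl | rfl
        · exact congrFun (hW v hv).2.2 i
        · exact congrFun (hW v hv).2.1 i
      · intro v _ i; rfl
      · intro g h _ _ ihg ihh v hv i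
        rw [Equiv.Perm.mul_apply, ihg v hv, ihh v hv]
      · intro g _ ih v hv i
        have := ih v hv (g⁻¹ i)
        rw [← Equiv.Perm.mul_apply, mul_inv_cancel, Equiv.Perm.one_apply] at this
        exact this.symm
    let ev : W →ₗ[ℚ] ℚ × ℚ :=
      ((LinearMap.proj (none : GolayPt)).prod (LinearMap.proj (pt 0))).comp W.subtype
    have hev : Function.Injective ev := by
      rw [← LinearMap.ker_eq_bot, LinearMap.ker_eq_bot']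
      intro v hv
      have h1 : (v : GolayPt → ℚ) none = 0 := congrArg Prod.fst hv
      have h2 : (v : GolayPt → ℚ) (pt 0) = 0 := congrArg Prod.snd hv
      apply Subtype.ext
      ext i
      by_cases hi : i = none
      · rw [hi]; exact h1
      · obtain ⟨g, hg, hgi⟩ := m23_trans (pt 0) i (by decide) hi
        rw [← hgi, hinv g hg v.1 v.2]; exact h2
    have := LinearMap.finrank_le_finrank_of_injective hev
    simpa using this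
  have hd' : ∀ W : Submodule ℚ (Module.Dual ℚ (GolayPt → ℚ)),
      (∀ φ ∈ W, ∀ v, φ (A v) = φ v ∧ φ (B v) = φ v ∧ φ (C v) = φ v) →
      Module.finrank ℚ W ≤ 2 := by
    intro W hW
    have hinv : ∀ g ∈ Spor.M23, ∀ φ ∈ W, ∀ v : GolayPt → ℚ, φ (v ∘ ⇑g) = φ v := by
      intro g hg
      refine Subgroup.closure_induction
        (p := fun (g : Equiv.Perm GolayPt) _ => ∀ φ ∈ W, ∀ v : GolayPt → ℚ, φ (v ∘ ⇑g) = φ v)
        ?_ ?_ ?_ ?_ (hcl g hg)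
      · intro g hg φ hφ v
        rcases hg with rfl | rfl
        · exact (hW φ hφ v).2.2
        · exact (hW φ hφ v).2.1
      · intro φ _ v; rfl
      · intro g h _ _ ihg ihh φ hφ v
        have : v ∘ ⇑(g * h) = (v ∘ g) ∘ h := rfl
        rw [this, ihh φ hφ, ihg φ hφ]
      · intro g _ ih φ hφ v
        have := ih φ hφ (v ∘ ⇑g⁻¹)
        have h2 : (v ∘ ⇑g⁻¹) ∘ ⇑g = v := by ext i; simp
        rw [h2] at this
        exact this.symm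
    let ev : W →ₗ[ℚ] ℚ × ℚ :=
      ((LinearMap.applyₗ (Pi.single (none : GolayPt) (1 : ℚ))).prod
        (LinearMap.applyₗ (Pi.single (pt 0) (1 : ℚ)))).comp W.subtype
    have hev : Function.Injective ev := by
      rw [← LinearMap.ker_eq_bot, LinearMap.ker_eq_bot']
      intro φ hφ
      have h1 : (φ : Module.Dual ℚ (GolayPt → ℚ)) (Pi.single none 1) = 0 := congrArg Prod.fst hφ
      have h2 : (φ : Module.Dual ℚ (GolayPt → ℚ)) (Pi.single (pt 0) 1) = 0 :=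
        congrArg Prod.snd hφ
      apply Subtype.ext
      apply LinearMap.pi_ext
      intro i c
      have hc : (Pi.single i c : GolayPt → ℚ) = c • Pi.single i 1 := by
        ext j
        by_cases h : j = i <;> simp [h]
      rw [hc, map_smul]
      have h0 : (φ : Module.Dual ℚ (GolayPt → ℚ)) (Pi.single i 1) = 0 := by
        by_cases hi : i = none
        · rw [hi]; exact h1
        · obtain ⟨g, hg, hgi⟩ := m23_trans i (pt 0) hi (by decide)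
          have he : (Pi.single i 1 : GolayPt → ℚ) = (Pi.single (pt 0) 1 : GolayPt → ℚ) ∘ g := by
            ext j
            simp only [Function.comp, Pi.single_apply]
            by_cases h : j = i
            · rw [if_pos h, if_pos (by rw [h, hgi])]
            · rw [if_neg h, if_neg (fun h' => h (g.injective (h'.trans hgi.symm)))]
          rw [he, hinv g hg φ.1 φ.2]; exact h2
      rw [h0]
      simp
    have := LinearMap.finrank_le_finrank_of_injective hev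
    simpa using this
  have hS := scott A B C hABC 2 2 hd hd'
  have hA' := LinearMap.finrank_range_add_finrank_ker (LinearMap.id - A)
  have hB' := LinearMap.finrank_range_add_finrank_ker (LinearMap.id - B)
  have hC' := LinearMap.finrank_range_add_finrank_ker (LinearMap.id - C)
  have hn : Module.finrank ℚ (GolayPt → ℚ) = 24 := by
    rw [Module.finrank_fintype_fun_eq_card]; rw [← Nat.card_eq_fintype_card]; exact card_golayPt
  omega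

theorem fix_pos (x : Spor.M23) :
    0 < (Finset.univ.filter fun i => (x : Equiv.Perm GolayPt) i = i).card := by
  rw [Finset.card_pos]
  refine ⟨none, ?_⟩
  rw [Finset.mem_filter]
  exact ⟨Finset.mem_univ _, x.2.2⟩

/-- An involution of the point stabiliser fixes exactly eight points. -/
theorem fix2 (x : Spor.M23) (hx : orderOf x = 2) :
    (Finset.univ.filter fun i => (x : Equiv.Perm GolayPt) i = i).card = 8 := by
  have hx' : orderOf (x : Equiv.Perm GolayPt) = 2 := by rw [Subgroup.orderOf_coe]; exact hx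
  have hne : (x : Equiv.Perm GolayPt) ≠ 1 := by
    intro h
    rw [h, orderOf_one] at hx'
    norm_num at hx'
  have h2 : (x : Equiv.Perm GolayPt) ^ 2 = 1 := by rw [← hx']; exact pow_orderOf_eq_one _
  have hpos := fix_pos x
  obtain ⟨k, -, hk | hk⟩ := class2 (x : Equiv.Perm GolayPt) x.2.1 hne h2
  · rw [← card_fixed_conj k, hk, card_fixed_eq t8_table]
    exact t8_facts.2.1
  · rw [← card_fixed_conj k, hk, card_fixed_eq t0_table, t0_facts.2.1] at hpos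
    exact absurd hpos (lt_irrefl 0)

/-- An element of order three of the point stabiliser fixes exactly six points. -/
theorem fix3 (x : Spor.M23) (hx : orderOf x = 3) :
    (Finset.univ.filter fun i => (x : Equiv.Perm GolayPt) i = i).card = 6 := by
  have hx' : orderOf (x : Equiv.Perm GolayPt) = 3 := by rw [Subgroup.orderOf_coe]; exact hx
  have hne : (x : Equiv.Perm GolayPt) ≠ 1 := by
    intro h
    rw [h, orderOf_one] at hx'
    norm_num at hx'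
  have h3 : (x : Equiv.Perm GolayPt) ^ 3 = 1 := by rw [← hx']; exact pow_orderOf_eq_one _
  have hpos := fix_pos x
  obtain ⟨k, -, hk | hk⟩ := class3 (x : Equiv.Perm GolayPt) x.2.1 hne h3
  · rw [← card_fixed_conj k, hk, card_fixed_eq r6_table]
    exact r6_facts.2.1
  · rw [← card_fixed_conj k, hk, card_fixed_eq r0_table, r0_facts.2.1] at hpos
    exact absurd hpos (lt_irrefl 0)

theorem neg (p q r : ℕ) (hp : p.Prime) (hq : q.Prime) (hr : r.Prime) (hqr : q ≤ r)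
    (x y z : Spor.M23) (hx : orderOf x = p) (hy : orderOf y = q) (hz : orderOf z = r)
    (hxyz : x * y * z = 1) (hgen : Subgroup.closure {x, y} = ⊤) :
    ¬ ((p = 2 ∧ q = 3) ∨ (p = 2 ∧ q = 5 ∧ r = 5) ∨ (p = 2 ∧ q = 5 ∧ r = 7) ∨
      (p = 3 ∧ q = 3 ∧ r ≤ 7)) := by
  have hree := ree x y z hxyz hgen
  have ox : orderOf (x : Equiv.Perm GolayPt) = p := by rw [Subgroup.orderOf_coe]; exact hx
  have oy : orderOf (y : Equiv.Perm GolayPt) = q := by rw [Subgroup.orderOf_coe]; exact hy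
  have oz : orderOf (z : Equiv.Perm GolayPt) = r := by rw [Subgroup.orderOf_coe]; exact hz
  obtain ⟨Nx, hNx, hNx'⟩ := fix_lower (x : Equiv.Perm GolayPt) p hp ox
  obtain ⟨Ny, hNy, hNy'⟩ := fix_lower (y : Equiv.Perm GolayPt) q hq oy
  obtain ⟨Nz, hNz, hNz'⟩ := fix_lower (z : Equiv.Perm GolayPt) r hr oz
  have hc24 : Fintype.card GolayPt = 24 := by
    rw [← Nat.card_eq_fintype_card]; exact card_golayPt
  rw [hc24] at hNx hNy hNz
  rintro (⟨rfl, rfl⟩ | ⟨rfl, rfl, rfl⟩ | ⟨rfl, rfl, rfl⟩ | ⟨rfl, rfl, hr7⟩)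
  · rw [fix2 x hx] at hNx
    rw [fix3 y hy] at hNy
    have h24 : 24 ≤ r * Nz := by rw [hNz]; exact Nat.le_add_right _ _
    have hNz1 : 1 ≤ Nz := by
      rcases Nat.eq_zero_or_pos Nz with h | h
      · rw [h, Nat.mul_zero] at h24
        omega
      · exact h
    omega
  · rw [fix2 x hx] at hNx
    omega
  · rw [fix2 x hx] at hNx
    omega
  · rw [fix3 x hx] at hNx
    rw [fix3 y hy] at hNy
    interval_cases r
    · omega
    · norm_num at hr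
    · omega
    · norm_num at hr
    · omega

theorem prime_mem (p : ℕ) (hp : p.Prime) (h : p ∣ 10200960) : p ∈ [2, 3, 5, 7, 11, 23] := by
  have h' : p ∣ 2 ^ 7 * (3 ^ 2 * (5 * (7 * (11 * 23)))) := by norm_num; exact h
  have key : ∀ a : ℕ, a.Prime → p ∣ a → p = a := fun a ha hpa =>
    (Nat.prime_dvd_prime_iff_eq hp ha).mp hpa
  rcases hp.dvd_mul.mp h' with h1 | h1
  · have := key 2 Nat.prime_two (hp.dvd_of_dvd_pow h1); simp [this]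
  rcases hp.dvd_mul.mp h1 with h2 | h2
  · have := key 3 Nat.prime_three (hp.dvd_of_dvd_pow h2); simp [this]
  rcases hp.dvd_mul.mp h2 with h3 | h3
  · have := key 5 (by norm_num) h3; simp [this]
  rcases hp.dvd_mul.mp h3 with h4 | h4
  · have := key 7 (by norm_num) h4; simp [this]
  rcases hp.dvd_mul.mp h4 with h5 | h5
  · have := key 11 (by norm_num) h5; simp [this]
  · have := key 23 (by norm_num) h5; simp [this]

theorem comb : ∀ p ∈ [2, 3, 5, 7, 11, 23], ∀ q ∈ [2, 3, 5, 7, 11, 23], ∀ r ∈ [2, 3, 5, 7, 11, 23],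
    p ≤ q → q ≤ r → ¬ (p = 2 ∧ q = 2) →
    ¬ ((p = 2 ∧ q = 3) ∨ (p = 2 ∧ q = 5 ∧ r = 5) ∨ (p = 2 ∧ q = 5 ∧ r = 7) ∨
      (p = 3 ∧ q = 3 ∧ r ≤ 7)) → (p, q, r) ∈ posList := by
  decide

/-- Generation of the Mathieu group M₂₃ (the stabiliser of a point in the Mathieu group M₂₄ acting on 24 points) by triples of prime orders. Let p ≤ q ≤ r be primes dividing |M₂₃| = 10200960 = 2⁷·3²·5·7·11·23, not both p and q equal to 2. Then M₂₃ contains elements x, y, z of orders p, q, r with xyz = 1 and ⟨x, y⟩ = M₂₃ if and only if (p, q, r) is none of: (2, 3, r) for any r, (2, 5, 5), (2, 5, 7), (3, 3, 3), (3, 3, 5), (3, 3, 7). -/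
theorem result (p q r : ℕ) (hp : p.Prime) (hq : q.Prime)
    (hr : r.Prime) (hpq : p ≤ q) (hqr : q ≤ r) (hp2 : ¬ (p = 2 ∧ q = 2))
    (hdvd : p ∣ 10200960 ∧ q ∣ 10200960 ∧ r ∣ 10200960) :
    (∃ x y z : Cfsg.Spor.M23, orderOf x = p ∧ orderOf y = q ∧ orderOf z = r ∧ x * y * z = 1 ∧
        Subgroup.closure {x, y} = ⊤) ↔
      ¬ ((p = 2 ∧ q = 3) ∨ (p = 2 ∧ q = 5 ∧ r = 5) ∨ (p = 2 ∧ q = 5 ∧ r = 7) ∨ (p = 3 ∧ q = 3 ∧ r ≤ 7)) := by
  obtain ⟨hdp, hdq, hdr⟩ := hdvd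
  constructor
  · rintro ⟨x, y, z, hx, hy, hz, hxyz, hgen⟩
    exact neg p q r hp hq hr hqr x y z hx hy hz hxyz hgen
  · intro hbad
    exact pos p q r hp hq hr (comb p (prime_mem p hp hdp) q (prime_mem q hq hdq) r
      (prime_mem r hr hdr) hpq hqr hp2 hbad)

end Cfsg.Agent.S5529
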