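import Cfsg.Statements.S5562
import Mathlib

set_option autoImplicit false
open Cfsg

namespace Cfsg.Agent.S5562

theorem sq_one_of_orderOf_two {G : Type*} [Group G] {a : G} (h : orderOf a = 2) : a * a = 1 := by
  have := pow_orderOf_eq_one a
  rw [h, pow_two] at this
  exact this

theorem eq_one_of_sq_of_odd_pow {G : Type*} [Group G] {y : G} {m : ℕ} (h2 : y * y = 1)
    (hn : y ^ (2 * m + 1) = 1) : y = 1 := by
  have h : (y * y) ^ m * y = 1 := by
    rw [← pow_two, ← pow_mul, ← pow_succ]; exact hn
  rw [h2, one_pow, one_mul] at h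
  exact h

theorem inv_conj_pow {G : Type*} [Group G] {e r : G} (hee : e * e = 1) (her : e * r * e = r⁻¹)
    (k : ℕ) : e * r ^ k * e = (r ^ k)⁻¹ := by
  have heinv : e⁻¹ = e := inv_eq_of_mul_eq_one_left hee
  have h := conj_pow (a := e) (b := r) (i := k)
  rw [heinv, her] at h
  rw [← h, inv_pow]

/-- Let G be a finite group, d an involution of G whose conjugates pairwise have products of odd order, and x any involution of G. Then the conjugacy class of d is the disjoint union, over the conjugates a of d commuting with x, of the sets of conjugates of d commuting with ax: every conjugate of d commutes with ax for exactly one conjugate a of d that commutes with x. -/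
theorem result {G : Type*} [Group G] [Finite G] (d : G) (hd : orderOf d = 2)
    (hodd : ∀ a ∈ conjugatesOf d, ∀ b ∈ conjugatesOf d, Odd (orderOf (a * b)))
    (x : G) (hx : orderOf x = 2) :
    ∀ e ∈ conjugatesOf d,
      ∃! a : G, a ∈ conjugatesOf d ∧ Commute a x ∧ Commute e (a * x) := by
  intro e he
  have hxx : x * x = 1 := sq_one_of_orderOf_two hx
  have hxinv : x⁻¹ = x := inv_eq_of_mul_eq_one_left hxx
  have hconj_sq : ∀ b ∈ conjugatesOf d, b * b = 1 := by
    intro b hb
    obtain ⟨c, hc⟩ : IsConj d b := hb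
    have : orderOf b = 2 := by rw [← hd]; exact (SemiconjBy.orderOf_eq (c : G) hc).symm
    exact sq_one_of_orderOf_two this
  have hee : e * e = 1 := hconj_sq e he
  have heinv : e⁻¹ = e := inv_eq_of_mul_eq_one_left hee
  obtain ⟨f, hf⟩ : ∃ f : G, f = x * e * x := ⟨_, rfl⟩
  have hfD : f ∈ conjugatesOf d := by
    have h1 : IsConj d e := he
    have h2 : IsConj e f := isConj_iff.mpr ⟨x, by rw [hxinv, hf]⟩
    exact h1.trans h2
  have hff : f * f = 1 := hconj_sq f hfD
  have hfinv : f⁻¹ = f := inv_eq_of_mul_eq_one_left hff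
  have hx1 : ∀ b : G, x * (x * b) = b := fun b => by rw [← mul_assoc, hxx, one_mul]
  have he1 : ∀ b : G, e * (e * b) = b := fun b => by rw [← mul_assoc, hee, one_mul]
  have hf1 : ∀ b : G, f * (f * b) = b := fun b => by rw [← mul_assoc, hff, one_mul]
  have hxe : x * e = f * x := by rw [hf]; simp only [mul_assoc, hxx, mul_one]
  have hxf : x * f = e * x := by rw [hf]; simp only [mul_assoc, hx1]
  obtain ⟨r, hr⟩ : ∃ r : G, r = e * f := ⟨_, rfl⟩
  obtain ⟨m, hm⟩ := hodd e he f hfD
  have hrn : r ^ (2 * m + 1) = 1 := by rw [hr, ← hm]; exact pow_orderOf_eq_one _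
  have hrinv : r⁻¹ = f * e := by rw [hr, mul_inv_rev, heinv, hfinv]
  have her : e * r * e = r⁻¹ := by
    rw [hrinv, hr]; simp only [mul_assoc, he1]
  have hxr : x * r * x = r⁻¹ := by
    rw [hrinv, hr]
    calc x * (e * f) * x = (x * e) * (f * x) := by simp only [mul_assoc]
      _ = (f * x) * (f * x) := by rw [hxe]
      _ = f * (x * f) * x := by simp only [mul_assoc]
      _ = f * (e * x) * x := by rw [hxf]
      _ = f * e := by simp only [mul_assoc, hxx, mul_one]
  obtain ⟨s, hs⟩ : ∃ s : G, s = r ^ (m + 1) := ⟨_, rfl⟩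
  have hss : s * s = r := by
    rw [hs, ← pow_add]
    have : m + 1 + (m + 1) = (2 * m + 1) + 1 := by ring
    rw [this, pow_succ, hrn, one_mul]
  have hsn : s ^ (2 * m + 1) = 1 := by
    rw [hs, ← pow_mul, mul_comm, pow_mul, hrn, one_pow]
  have hes : e * s * e = s⁻¹ := by rw [hs]; exact inv_conj_pow hee her _
  have hxs : x * s * x = s⁻¹ := by rw [hs]; exact inv_conj_pow hxx hxr _
  obtain ⟨t, ht⟩ : ∃ t : G, t = s ^ (m + 1) := ⟨_, rfl⟩
  have htt : t * t = s := by
    rw [ht, ← pow_add]
    have : m + 1 + (m + 1) = (2 * m + 1) + 1 := by ring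
    rw [this, pow_succ, hsn, one_mul]
  have het : e * t * e = t⁻¹ := by rw [ht]; exact inv_conj_pow hee hes _
  have het' : e * t⁻¹ * e = t := by
    have h := congrArg (fun z => z⁻¹) het
    simp only [mul_inv_rev, heinv, inv_inv] at h
    rw [← mul_assoc] at h
    exact h
  -- key relations
  have hes' : e * s = s⁻¹ * e := by
    have h : e * s * e * e = s⁻¹ * e := by rw [hes]
    rwa [mul_assoc, hee, mul_one] at h
  have hxs' : x * s = s⁻¹ * x := by
    have h : x * s * x * x = s⁻¹ * x := by rw [hxs]
    rwa [mul_assoc, hxx, mul_one] at h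
  have her' : e * r = f := by rw [hr, he1]
  have hrf : r * f = e := by rw [hr, mul_assoc, hff, mul_one]
  have hesf : e * s = s * f := by
    rw [hes']
    have : s⁻¹ * e = s⁻¹ * (s * s * f) := by rw [hss, hrf]
    rw [this]; group
  have hesf' : e * s = f * s⁻¹ := by
    have : f * s⁻¹ = e * (s * s) * s⁻¹ := by rw [hss, her']
    rw [this]; group
  refine ⟨e * s, ⟨?_, ?_, ?_⟩, ?_⟩
  · -- conjugate
    have h1 : IsConj d e := he
    have h2 : IsConj e (e * s) := by
      refine isConj_iff.mpr ⟨t⁻¹, ?_⟩
      rw [inv_inv]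
      calc t⁻¹ * e * t = e * (e * t⁻¹ * e) * t := by simp only [mul_assoc, he1]
        _ = e * s := by rw [het', mul_assoc, htt]
    exact h1.trans h2
  · -- commutes with x
    show e * s * x = x * (e * s)
    calc e * s * x = f * s⁻¹ * x := by rw [hesf']
      _ = f * (x * s) := by rw [hxs', mul_assoc]
      _ = x * (e * s) := by rw [← mul_assoc, ← hxe, mul_assoc]
  · -- e commutes with a x
    show e * (e * s * x) = e * s * x * e
    calc e * (e * s * x) = s * x := by simp only [mul_assoc, he1]
      _ = e * (e * s) * x := by simp only [mul_assoc, he1]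
      _ = e * (s * f) * x := by rw [hesf]
      _ = e * s * (f * x) := by simp only [mul_assoc]
      _ = e * s * x * e := by rw [← hxe]; simp only [mul_assoc]
  · rintro a' ⟨ha'D, ha'x, ha'e⟩
    have haa : a' * a' = 1 := hconj_sq a' ha'D
    have ha1 : ∀ b : G, a' * (a' * b) = b := fun b => by rw [← mul_assoc, haa, one_mul]
    have hfa : f = a' * e * a' := by
      have h1 : e * (a' * x) = a' * x * e := ha'e
      have h2 : a' * f = e * a' := by
        calc a' * f = a' * x * e * x := by rw [hf]; simp only [mul_assoc]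
          _ = e * (a' * x) * x := by rw [h1]
          _ = e * a' := by simp only [mul_assoc, hxx, mul_one]
      calc f = a' * (a' * f) := (ha1 f).symm
        _ = a' * e * a' := by rw [h2, mul_assoc]
    obtain ⟨c, hc⟩ : ∃ c : G, c = e * a' := ⟨_, rfl⟩
    have hcc : c * c = r := by
      rw [hc, hr, hfa]; simp only [mul_assoc]
    obtain ⟨j, hj⟩ := hodd e he a' ha'D
    have hcn : c ^ (2 * j + 1) = 1 := by rw [hc, ← hj]; exact pow_orderOf_eq_one _
    have hcr : c = r ^ (j + 1) := by
      rw [← hcc, ← pow_two, ← pow_mul]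
      have : 2 * (j + 1) = (2 * j + 1) + 1 := by ring
      rw [this, pow_succ, hcn, one_mul]
    have hcomm : Commute c s := by
      rw [hcr, hs]; exact Commute.pow_pow_self r _ _
    have hcomm' : Commute c s⁻¹ := hcomm.inv_right
    have hy2 : (c * s⁻¹) * (c * s⁻¹) = 1 := by
      have h := hcomm'.mul_pow 2
      rw [pow_two, pow_two, pow_two, hcc] at h
      rw [h, ← hss]; group
    have hyn : (c * s⁻¹) ^ (2 * m + 1) = 1 := by
      rw [hcomm'.mul_pow, inv_pow, hsn, inv_one, mul_one, hcr, ← pow_mul, mul_comm, pow_mul, hrn,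
        one_pow]
    have hy : c * s⁻¹ = 1 := eq_one_of_sq_of_odd_pow hy2 hyn
    have hcs : c = s := by
      have := mul_inv_eq_one.mp hy
      exact this
    calc a' = e * (e * a') := (he1 a').symm
      _ = e * s := by rw [← hc, hcs]

end Cfsg.Agent.S5562
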