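import Cfsg.Statements.S5595
import Cfsg.Agent.Lib.Helper94.LargeExtra2

set_option autoImplicit false
open Cfsg

namespace Cfsg.Agent.S5595

open Cfsg.Agent.Lib.Helper94

variable {G : Type*} [Group G]

theorem mem_zp {x w : G} (h : w = 1 ∨ w = x) : w ∈ Subgroup.zpowers x := by
  rcases h with h | h
  · rw [h]; exact Subgroup.one_mem _
  · rw [h]; exact Subgroup.mem_zpowers _

theorem of_mem_zp {x w : G} (hxx : x * x = 1) (h : w ∈ Subgroup.zpowers x) : w = 1 ∨ w = x := by
  obtain ⟨k, rfl⟩ := Subgroup.mem_zpowers_iff.mp h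
  rcases Int.even_or_odd' k with ⟨m, hm | hm⟩
  · left
    rw [hm, zpow_mul, zpow_two, hxx, one_zpow]
  · right
    rw [hm, zpow_add, zpow_mul, zpow_two, hxx, one_zpow, one_mul, zpow_one]

/-- In an extraspecial group with a non-central element whose centralizer is abelian, every
centralizer of a non-central element has four elements. -/
theorem d8_centralizer {P : Subgroup G} {x : G} (h : ExtraAt P x) {v : G} (hv : v ∈ P)
    (hv1 : v ≠ 1) (hvx : v ≠ x)
    (hab : ∀ a ∈ P, ∀ a' ∈ P, a * v = v * a → a' * v = v * a' → a * a' = a' * a)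
    {c p : G} (hc : c ∈ P) (hc1 : c ≠ 1) (hcx : c ≠ x) (hp : p ∈ P) (hcp : c * p = p * c) :
    p = 1 ∨ p = x ∨ p = c ∨ p = x * c := by
  have hcent : ∀ a ∈ P, a * v = v * a → a = 1 ∨ a = x ∨ a = v ∨ a = x * v := by
    intro a ha hav
    exact h.center_centralizer hv hv1 hvx ha (fun w hw hwv => hab w hw a ha hwv hav)
  have hxi : x⁻¹ = x := h.inv_eq
  have hci : c⁻¹ = c ∨ c⁻¹ = x * c := by
    rcases h.sqmem c hc with e | e
    · left; exact inv_eq_of_mul_eq_one_left e
    · right
      apply inv_eq_of_mul_eq_one_left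
      rw [mul_assoc, e, h.sq]
  by_contra hp'
  push Not at hp'
  obtain ⟨hp1, hpx, hpc, hpxc⟩ := hp'
  have hxc : x * c = c * x := (h.central c hc).symm
  have hxp : x * p = p * x := (h.central p hp).symm
  -- c * p is not central
  have hcp1 : c * p ≠ 1 := by
    intro e
    have : p = c⁻¹ := (eq_inv_of_mul_eq_one_right e)
    rcases hci with e2 | e2
    · exact hpc (this.trans e2)
    · exact hpxc (this.trans e2)
  have hcpx : c * p ≠ x := by
    intro e
    have : p = c⁻¹ * x := by rw [← e]; group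
    rcases hci with e2 | e2
    · apply hpxc; rw [this, e2, hxc]
    · apply hpc; rw [this, e2, mul_assoc, ← hxc, ← mul_assoc, h.sq, one_mul]
  -- both c and p commute with v
  have key : c * v = v * c ∧ p * v = v * p := by
    have step : ∀ w ∈ P, w ≠ 1 → w ≠ x → w * v = v * w → c * w = w * c → p * w = w * p →
        c * v = v * c ∧ p * v = v * p := by
      intro w hw hw1 hwx hwv hcw hpw
      have hw' : w = v ∨ w = x * v := by
        rcases hcent w hw hwv with e | e | e | e
        · exact absurd e hw1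
        · exact absurd e hwx
        · exact Or.inl e
        · exact Or.inr e
      rcases hw' with e | e
      · rw [e] at hcw hpw; exact ⟨hcw, hpw⟩
      · rw [e] at hcw hpw
        constructor
        · have h1 : x * (c * v) = x * (v * c) := by
            rw [← mul_assoc, hxc, mul_assoc, hcw, mul_assoc]
          exact mul_left_cancel h1
        · have h1 : x * (p * v) = x * (v * p) := by
            rw [← mul_assoc, hxp, mul_assoc, hpw, mul_assoc]
          exact mul_left_cancel h1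
    by_cases c1 : c * v = v * c
    · exact step c hc hc1 hcx c1 rfl hcp.symm
    by_cases c2 : p * v = v * p
    · exact step p hp hp1 hpx c2 hcp rfl
    · have c3 : c * p * v = v * (c * p) := by
        rw [h.mul_comm_iff hc hp hv]
        simp [c1, c2]
      apply step (c * p) (P.mul_mem hc hp) hcp1 hcpx c3
      · calc c * (c * p) = c * (p * c) := by rw [hcp]
          _ = c * p * c := by rw [mul_assoc]
      · calc p * (c * p) = p * c * p := by rw [mul_assoc]
          _ = c * p * p := by rw [hcp]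
  obtain ⟨k1, k2⟩ := key
  have hc' : c = v ∨ c = x * v := by
    rcases hcent c hc k1 with e | e | e | e
    · exact absurd e hc1
    · exact absurd e hcx
    · exact Or.inl e
    · exact Or.inr e
  have hp'' : p = v ∨ p = x * v := by
    rcases hcent p hp k2 with e | e | e | e
    · exact absurd e hp1
    · exact absurd e hpx
    · exact Or.inl e
    · exact Or.inr e
  rcases hc' with e1 | e1 <;> rcases hp'' with e2 | e2
  · exact hpc (e2.trans e1.symm)
  · apply hpxc; rw [e2, e1]
  · apply hpxc; rw [e2, e1, ← mul_assoc, h.sq, one_mul]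
  · exact hpc (e2.trans e1.symm)

/-- Setting: `z` is an involution of the finite group `G`; for each element `x`, `Q x` denotes the largest normal 2-subgroup of the centralizer of `x`; `Q z` is extraspecial and contains its own centralizer in `G` (a large extraspecial 2-subgroup in this sense). Call the conjugates of `z` singular, and say that singular `x` is orthogonal to singular `y` when `x ∈ Q y`. Then orthogonality is symmetric: if a conjugate `x` of `z` lies in `Q z`, then `z` lies in `Q x`. -/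
theorem result {G : Type*} [Group G] [Finite G]
    (Q : G → Subgroup G)
    (hQ : ∀ x : G, Q x = (Cfsg.pCore 2 ↥(Subgroup.centralizer ({x} : Set G))).map (Subgroup.centralizer ({x} : Set G)).subtype)
    (z : G) (hz : orderOf z = 2) (hE : Cfsg.IsExtraspecial 2 ↥(Q z))
    (hC : Subgroup.centralizer ((Q z : Subgroup G) : Set G) ≤ Q z)
    (g : G) (hx : g * z * g⁻¹ ∈ Q z) : z ∈ Q (g * z * g⁻¹) := by
  have S := setting_of_hyps Q hQ z hz hE hC
  have Ez : ExtraAt (Q z) z := by simpa using S.ex 1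
  have Ex := S.ex g
  have hsc := S.selfc g
  have hconj_g : ∀ y ∈ Q z, g * y * g⁻¹ ∈ Q (g * z * g⁻¹) := fun y hy => S.conj g z y hy
  have hconj_g' : ∀ y ∈ Q (g * z * g⁻¹), g⁻¹ * y * g ∈ Q z := by
    intro y hy
    have := S.conj g⁻¹ _ y hy
    have e : g⁻¹ * (g * z * g⁻¹) * g⁻¹⁻¹ = z := by group
    rw [e] at this
    simpa using this
  obtain ⟨x, hxdef⟩ : ∃ x, x = g * z * g⁻¹ := ⟨_, rfl⟩
  rw [← hxdef] at hx Ex hsc hconj_g hconj_g' ⊢
  by_cases hxz : x = z
  · rw [hxz]; exact Ez.mem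
  by_contra hzP
  have hzz : z * z = 1 := Ez.sq
  have hzi : z⁻¹ = z := Ez.inv_eq
  have hxx : x * x = 1 := Ex.sq
  have hxi : x⁻¹ = x := Ex.inv_eq
  have hx1 : x ≠ 1 := Ex.ne_one
  have hxzc : x * z = z * x := S.commute z x hx
  -- elements commuting with x normalize Q x; elements commuting with z normalize Q z
  have hnx : ∀ d : G, d * x = x * d → ∀ y ∈ Q x, d * y * d⁻¹ ∈ Q x := by
    intro d hd y hy
    have := S.conj d x y hy
    have e : d * x * d⁻¹ = x := by rw [hd]; group
    rwa [e] at this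
  have hnz : ∀ d : G, d * z = z * d → ∀ y ∈ Q z, d * y * d⁻¹ ∈ Q z := by
    intro d hd y hy
    have := S.conj d z y hy
    have e : d * z * d⁻¹ = z := by rw [hd]; group
    rwa [e] at this
  have hPx : ∀ y ∈ Q x, y * x = x * y := fun y hy => S.commute x y hy
  have hQz : ∀ y ∈ Q z, y * z = z * y := fun y hy => S.commute z y hy
  -- an element u of Q z moving x
  have hnc : ¬ ∀ w ∈ Q z, x * w = w * x := fun hc => by
    rcases Ez.center x hx hc with h1 | h1
    · exact hx1 h1
    · exact hxz h1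
  push Not at hnc
  obtain ⟨u, hu, hux⟩ := hnc
  have hux' : u * x = z * x * u := by
    rcases Ez.comm_or hu hx with h1 | h1
    · exact absurd h1.symm hux
    · exact h1
  have huz : u * z = z * u := hQz u hu
  -- NC: no element of C(x) conjugates z to z x
  have NC : ∀ d : G, d * x = x * d → d * z * d⁻¹ = z * x → False := by
    intro d hd hdz
    have e1 : (u * d) * z * (u * d)⁻¹ = x := by
      calc (u * d) * z * (u * d)⁻¹ = u * (d * z * d⁻¹) * u⁻¹ := by group
        _ = u * (z * x) * u⁻¹ := by rw [hdz]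
        _ = (u * z) * x * u⁻¹ := by simp only [mul_assoc]
        _ = z * (u * x) * u⁻¹ := by rw [huz]; simp only [mul_assoc]
        _ = z * (z * x * u) * u⁻¹ := by rw [hux']
        _ = (z * z) * x := by group
        _ = x := by rw [hzz, one_mul]
    have e2 : (u * d) * x * (u * d)⁻¹ = z * x := by
      calc (u * d) * x * (u * d)⁻¹ = u * (d * x) * d⁻¹ * u⁻¹ := by group
        _ = u * (x * d) * d⁻¹ * u⁻¹ := by rw [hd]
        _ = (u * x) * u⁻¹ := by group
        _ = z * x := by rw [hux']; group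
    have h1 := S.conj (u * d) z x hx
    rw [e1, e2] at h1
    apply hzP
    have : z = z * x * x := by rw [mul_assoc, hxx, mul_one]
    rw [this]
    exact Subgroup.mul_mem _ h1 Ex.mem
  -- Lemma B
  have LB : ∀ b ∈ Q x, z * b * z⁻¹ * b⁻¹ ∈ Subgroup.zpowers x → z * b = b * z := by
    intro b hb hbz
    rcases of_mem_zp hxx hbz with h1 | h1
    · have := congrArg (fun t => t * b * z) h1
      simpa [mul_assoc] using this
    · exfalso
      apply NC b (hPx b hb)
      have e : b * z⁻¹ * b⁻¹ = z⁻¹ * x := by rw [← h1]; group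
      rw [hzi] at e
      exact e
  -- Q z ∩ Q x ⊆ {1, x}
  have hint : ∀ w, w ∈ Q z → w ∈ Q x → w ∈ Subgroup.zpowers x := by
    intro w hwz hwx
    have hyc : ∀ a ∈ Q z, a * x = x * a → a * w = w * a := by
      intro a ha hax
      rcases Ez.comm a ha w hwz with h1 | h1
      · have := congrArg (fun t => t * w * a) h1
        simpa [mul_assoc] using this
      · exfalso
        apply hzP
        rw [← h1]
        exact Subgroup.mul_mem _ (hnx a hax w hwx) (Subgroup.inv_mem _ hwx)
    rcases Ez.center_centralizer hx hx1 hxz hwz hyc with e | e | e | e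
    · rw [e]; exact Subgroup.one_mem _
    · exfalso; apply hzP; rw [← e]; exact hwx
    · rw [e]; exact Subgroup.mem_zpowers _
    · exfalso
      apply hzP
      have : z = w * x := by rw [e, mul_assoc, hxx, mul_one]
      rw [this]
      exact Subgroup.mul_mem _ hwx Ex.mem
  have h11 : ∀ b ∈ Q x, b * z = z * b → ∀ a ∈ Q z, a * x = x * a →
      a * b * a⁻¹ * b⁻¹ ∈ Subgroup.zpowers x := by
    intro b hb hbz a ha hax
    apply hint
    · have : a * b * a⁻¹ * b⁻¹ = a * (b * a⁻¹ * b⁻¹) := by group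
      rw [this]
      exact Subgroup.mul_mem _ ha (hnz b hbz a⁻¹ (Subgroup.inv_mem _ ha))
    · exact Subgroup.mul_mem _ (hnx a hax b hb) (Subgroup.inv_mem _ hb)
  have h12 : ∀ p ∈ Q x, p * z * p⁻¹ * z⁻¹ ∈ Q x ∧
      (p * z * p⁻¹ * z⁻¹) * z = z * (p * z * p⁻¹ * z⁻¹) ∧
      (p * z * p⁻¹ * z⁻¹) * (p * z * p⁻¹ * z⁻¹) = 1 := by
    intro p hp
    obtain ⟨c, hcdef⟩ : ∃ c, c = p * z * p⁻¹ * z⁻¹ := ⟨_, rfl⟩
    rw [← hcdef]
    have hcP : c ∈ Q x := by
      have : c = p * (z * p⁻¹ * z⁻¹) := by rw [hcdef]; group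
      rw [this]
      exact Subgroup.mul_mem _ hp (hnx z hxzc.symm p⁻¹ (Subgroup.inv_mem _ hp))
    have hzc : z * c * z⁻¹ = c⁻¹ := by
      have e1 : c⁻¹ = z * p * z⁻¹ * p⁻¹ := by rw [hcdef]; group
      rw [e1, hcdef, hzi]
      calc z * (p * z * p⁻¹ * z) * z = z * p * z * p⁻¹ * (z * z) := by simp only [mul_assoc]
        _ = z * p * z * p⁻¹ := by rw [hzz, mul_one]
    have hcc : c * c = 1 := by
      rcases Ex.sqmem c hcP with e | e
      · exact e
      · exfalso
        apply NC c⁻¹ (hPx _ (Subgroup.inv_mem _ hcP))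
        rw [inv_inv]
        calc c⁻¹ * z * c = (z * c * z⁻¹) * z * c := by rw [hzc]
          _ = z * (c * c) := by group
          _ = z * x := by rw [e]
    refine ⟨hcP, ?_, hcc⟩
    have hci : c⁻¹ = c := inv_eq_of_mul_eq_one_left hcc
    rw [hci] at hzc
    have := congrArg (fun t => t * z) hzc
    simpa [mul_assoc] using this.symm
  have h13 : ∀ a ∈ Q z, a * x = x * a → ∀ p ∈ Q x,
      p * a * p⁻¹ * a⁻¹ ∈ Q x ∧ z * (p * a * p⁻¹ * a⁻¹) = (p * a * p⁻¹ * a⁻¹) * z := by
    intro a ha hax p hp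
    obtain ⟨hcP, hcz, hcc⟩ := h12 p hp
    obtain ⟨c, hcdef⟩ : ∃ c, c = p * z * p⁻¹ * z⁻¹ := ⟨_, rfl⟩
    rw [← hcdef] at hcP hcz hcc
    obtain ⟨e, hedef⟩ : ∃ e, e = p * a * p⁻¹ * a⁻¹ := ⟨_, rfl⟩
    rw [← hedef]
    have heP : e ∈ Q x := by
      have : e = p * (a * p⁻¹ * a⁻¹) := by rw [hedef]; group
      rw [this]
      exact Subgroup.mul_mem _ hp (hnx a hax p⁻¹ (Subgroup.inv_mem _ hp))
    refine ⟨heP, ?_⟩
    apply LB e heP
    have haz : a * z = z * a := hQz a ha
    have hA : a⁻¹ * z⁻¹ * a = z⁻¹ := by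
      rw [hzi]
      calc a⁻¹ * z * a = a⁻¹ * (z * a) := by rw [mul_assoc]
        _ = a⁻¹ * (a * z) := by rw [haz]
        _ = z := by group
    have hA' : z⁻¹ * a * z = a := by
      rw [hzi, mul_assoc, haz, ← mul_assoc, hzz, one_mul]
    have id1 : z * e * z⁻¹ * e⁻¹ = c⁻¹ * e * (a * c * a⁻¹) * e⁻¹ := by
      have l : z * e * z⁻¹ * e⁻¹ = z * p * a * p⁻¹ * (a⁻¹ * z⁻¹ * a) * p * a⁻¹ * p⁻¹ := by
        rw [hedef]; group
      have r : c⁻¹ * e * (a * c * a⁻¹) * e⁻¹ = z * p * (z⁻¹ * a * z) * p⁻¹ * z⁻¹ * p * a⁻¹ * p⁻¹ := by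
        rw [hedef, hcdef]; group
      rw [l, r, hA, hA']
    rw [id1]
    have hxe : e * x = x * e := hPx e heP
    have hxc : c⁻¹ * x = x * c⁻¹ := hPx _ (Subgroup.inv_mem _ hcP)
    have hcomm : c⁻¹ * e * c * e⁻¹ ∈ Subgroup.zpowers x := by
      have := Ex.comm c⁻¹ (Subgroup.inv_mem _ hcP) e heP
      rw [inv_inv] at this
      exact mem_zp this
    rcases of_mem_zp hxx (h11 c hcP hcz a ha hax) with h1 | h1
    · have : a * c * a⁻¹ = c := by
        have := congrArg (fun t => t * c) h1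
        simpa [mul_assoc] using this
      rw [this]
      exact hcomm
    · have : a * c * a⁻¹ = x * c := by
        have := congrArg (fun t => t * c) h1
        simpa [mul_assoc] using this
      rw [this]
      have e2 : c⁻¹ * e * (x * c) * e⁻¹ = x * (c⁻¹ * e * c * e⁻¹) := by
        calc c⁻¹ * e * (x * c) * e⁻¹ = c⁻¹ * (e * x) * c * e⁻¹ := by simp only [mul_assoc]
          _ = c⁻¹ * (x * e) * c * e⁻¹ := by rw [hxe]
          _ = (c⁻¹ * x) * e * c * e⁻¹ := by simp only [mul_assoc]
          _ = x * (c⁻¹ * e * c * e⁻¹) := by rw [hxc]; simp only [mul_assoc]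
      rw [e2]
      exact Subgroup.mul_mem _ (Subgroup.mem_zpowers _) hcomm
  have h13' : ∀ a ∈ Q z, a * x = x * a → ∀ p ∈ Q x,
      a * p * a⁻¹ * p⁻¹ ∈ Q x ∧ (a * p * a⁻¹ * p⁻¹) * z = z * (a * p * a⁻¹ * p⁻¹) := by
    intro a ha hax p hp
    obtain ⟨h1, h2⟩ := h13 a ha hax p hp
    have e : a * p * a⁻¹ * p⁻¹ = (p * a * p⁻¹ * a⁻¹)⁻¹ := by group
    rw [e]
    refine ⟨Subgroup.inv_mem _ h1, ?_⟩
    have h3 : Commute z (p * a * p⁻¹ * a⁻¹) := h2
    exact (h3.inv_right).eq.symm
  by_cases hab : ∀ a ∈ Q z, ∀ a' ∈ Q z, a * x = x * a → a' * x = x * a' → a * a' = a' * a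
  · -- the centralizer of x in Q z is abelian
    have hex : ∃ p ∈ Q x, z * p ≠ p * z := by
      by_contra hno
      push Not at hno
      exact hzP (hsc z hno)
    obtain ⟨p, hp, hzp⟩ := hex
    obtain ⟨hcP, hcz, hcc⟩ := h12 p hp
    obtain ⟨c, hcdef⟩ : ∃ c, c = p * z * p⁻¹ * z⁻¹ := ⟨_, rfl⟩
    rw [← hcdef] at hcP hcz hcc
    have hci : c⁻¹ = c := inv_eq_of_mul_eq_one_left hcc
    have hc1 : c ≠ 1 := by
      intro e
      apply hzp
      rw [e] at hcdef
      have := congrArg (fun t => t * z * p) hcdef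
      simpa [mul_assoc] using this
    have hcx : c ≠ x := by
      intro e
      apply NC p (hPx p hp)
      rw [e] at hcdef
      have h1 : p * z * p⁻¹ = x * z := by
        have := congrArg (fun t => t * z) hcdef
        simpa [mul_assoc] using this.symm
      rw [h1, hxzc]
    have hcp : c * p = p * c := by
      have e1 : z * p * z⁻¹ = c * p := by
        rw [← hci, hcdef]; group
      have e2 : (z * p * z⁻¹) * (z * p * z⁻¹) = p * p := by
        have : (z * p * z⁻¹) * (z * p * z⁻¹) = z * (p * p) * z⁻¹ := by group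
        rw [this]
        rcases Ex.sqmem p hp with e | e
        · rw [e]; group
        · rw [e, ← hxzc]; group
      rw [e1] at e2
      have e3 : c * p * c = p := by
        have : c * p * c * p = p * p := by rw [← e2]; simp only [mul_assoc]
        exact mul_right_cancel this
      calc c * p = c * p * (c * c) := by rw [hcc, mul_one]
        _ = (c * p * c) * c := by simp only [mul_assoc]
        _ = p * c := by rw [e3]
    have hx'P : g * x * g⁻¹ ∈ Q x := hconj_g x hx
    have hx'1 : g * x * g⁻¹ ≠ 1 := by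
      intro e
      apply hx1
      have : x = g⁻¹ * (g * x * g⁻¹) * g := by group
      rw [this, e]; group
    have hx'x : g * x * g⁻¹ ≠ x := by
      intro e
      apply hxz
      have : g * x * g⁻¹ = g * z * g⁻¹ := e.trans hxdef
      have h2 := congrArg (fun t => g⁻¹ * t * g) this
      simpa [mul_assoc] using h2
    have hab' : ∀ a ∈ Q x, ∀ a' ∈ Q x, a * (g * x * g⁻¹) = (g * x * g⁻¹) * a →
        a' * (g * x * g⁻¹) = (g * x * g⁻¹) * a' → a * a' = a' * a := by
      intro a ha a' ha' h1 h2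
      have t1 : g⁻¹ * a * g * x = x * (g⁻¹ * a * g) := by
        calc g⁻¹ * a * g * x = g⁻¹ * (a * (g * x * g⁻¹)) * g := by group
          _ = g⁻¹ * ((g * x * g⁻¹) * a) * g := by rw [h1]
          _ = x * (g⁻¹ * a * g) := by group
      have t2 : g⁻¹ * a' * g * x = x * (g⁻¹ * a' * g) := by
        calc g⁻¹ * a' * g * x = g⁻¹ * (a' * (g * x * g⁻¹)) * g := by group
          _ = g⁻¹ * ((g * x * g⁻¹) * a') * g := by rw [h2]
          _ = x * (g⁻¹ * a' * g) := by group
      have t3 := hab _ (hconj_g' a ha) _ (hconj_g' a' ha') t1 t2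
      calc a * a' = g * ((g⁻¹ * a * g) * (g⁻¹ * a' * g)) * g⁻¹ := by group
        _ = g * ((g⁻¹ * a' * g) * (g⁻¹ * a * g)) * g⁻¹ := by rw [t3]
        _ = a' * a := by group
    have hfin := d8_centralizer Ex hx'P hx'1 hx'x hab' hcP hc1 hcx hp hcp
    apply hzp
    rcases hfin with e | e | e | e
    · rw [e, mul_one, one_mul]
    · rw [e]; exact hxzc.symm
    · rw [e]; exact hcz.symm
    · rw [e, ← mul_assoc, ← hxzc, mul_assoc, ← hcz, mul_assoc]
  · -- non-abelian case
    push Not at hab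
    obtain ⟨a, ha, a', ha', hax, ha'x, haa⟩ := hab
    have haa' : a * a' = z * a' * a := by
      rcases Ez.comm_or ha ha' with h1 | h1
      · exact absurd h1 haa
      · exact h1
    apply hzP
    apply hsc z
    intro q hq
    apply LB q hq
    have hdx : (a' * a)⁻¹ * x = x * (a' * a)⁻¹ := by
      have h1 : Commute (a' * a) x := (Commute.mul_left ha'x hax)
      exact h1.inv_left.eq
    obtain ⟨p, hpdef⟩ : ∃ p, p = (a' * a)⁻¹ * q * (a' * a) := ⟨_, rfl⟩
    have hp : p ∈ Q x := by
      have := hnx (a' * a)⁻¹ hdx q hq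
      rw [inv_inv] at this
      rw [hpdef]; exact this
    have hq' : q = a' * a * p * (a' * a)⁻¹ := by rw [hpdef]; group
    obtain ⟨hbP, hbz⟩ := h13' a ha hax p hp
    obtain ⟨hb'P, hb'z⟩ := h13' a' ha' ha'x p hp
    have e1 := h11 _ hb'P hb'z a ha hax
    have e2 := h11 _ hbP hbz a' ha' ha'x
    have e3 := mem_zp (Ex.comm _ hb'P _ hbP)
    have key : z * q * z⁻¹ * q⁻¹ =
        (a * (a' * p * a'⁻¹ * p⁻¹) * a⁻¹ * (a' * p * a'⁻¹ * p⁻¹)⁻¹) *
        ((a' * p * a'⁻¹ * p⁻¹) * (a * p * a⁻¹ * p⁻¹) * (a' * p * a'⁻¹ * p⁻¹)⁻¹ * (a * p * a⁻¹ * p⁻¹)⁻¹) *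
        (a' * (a * p * a⁻¹ * p⁻¹) * a'⁻¹ * (a * p * a⁻¹ * p⁻¹)⁻¹)⁻¹ := by
      have l : z * q * z⁻¹ * q⁻¹ = (z * a' * a) * p * (z * a' * a)⁻¹ * (a' * a * p * (a' * a)⁻¹)⁻¹ := by
        rw [hq']; group
      rw [l, ← haa']
      group
    rw [key]
    exact Subgroup.mul_mem _ (Subgroup.mul_mem _ e1 e3) (Subgroup.inv_mem _ e2)

end Cfsg.Agent.S5595
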