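import Cfsg.Statements.S5596
import Cfsg.Agent.Lib.Helper94.LargeExtra2
import Cfsg.Agent.Lib.Helper94.F2Lin

set_option autoImplicit false
open Cfsg

namespace Cfsg.Agent.S5596

open Cfsg.Agent.Lib.Helper94

/-- Setting: `z` is an involution of the finite group `G`; for each element `x`, `Q x` is the largest normal 2-subgroup of the centralizer of `x`; `Q z` is extraspecial and contains its own centralizer in `G`. A subgroup `U` is singular when it is elementary abelian, every non-identity element of `U` is conjugate to `z`, and any two non-identity elements `u`, `v` of `U` are orthogonal (`v ∈ Q u`). Write `QU` for the intersection of the `Q u` and `LU` for the join of the `Q u` over the non-identity `u` in `U`. If `U` is singular of order `2 ^ n` with `n ≥ 2`, then `U ≤ QU ≤ LU`, `LU` normalizes `U`, and `LU` induces on `U` its full automorphism group (the general linear group of dimension `n` over the field with two elements): every automorphism of `U` is conjugation by some element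 of `LU`. -/
theorem result {G : Type*} [Group G] [Finite G]
    (Q : G → Subgroup G)
    (hQ : ∀ x : G, Q x = (Cfsg.pCore 2 ↥(Subgroup.centralizer ({x} : Set G))).map (Subgroup.centralizer ({x} : Set G)).subtype)
    (z : G) (hz : orderOf z = 2) (hE : Cfsg.IsExtraspecial 2 ↥(Q z))
    (hC : Subgroup.centralizer ((Q z : Subgroup G) : Set G) ≤ Q z)
    (U : Subgroup G) (hU2 : ∀ u ∈ U, u * u = 1)
    (hS : ∀ u ∈ U, u ≠ 1 → ∃ g : G, g * z * g⁻¹ = u)
    (hO : ∀ u ∈ U, ∀ v ∈ U, u ≠ 1 → v ≠ 1 → v ∈ Q u)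
    (QU LU : Subgroup G) (hQU : QU = ⨅ u ∈ ((U : Set G) \ {1}), Q u) (hLU : LU = ⨆ u ∈ ((U : Set G) \ {1}), Q u)
    (n : ℕ) (hn : 2 ≤ n) (hcard : Nat.card ↥U = 2 ^ n) :
    U ≤ QU ∧ QU ≤ LU ∧ LU ≤ Subgroup.normalizer (U : Set G) ∧
      ∀ φ : ↥U ≃* ↥U, ∃ g ∈ LU, ∀ u : ↥U, g * (u : G) * g⁻¹ = ((φ u : ↥U) : G) := by
  have S := setting_of_hyps Q hQ z hz hE hC
  have hEx : ∀ u ∈ U, u ≠ 1 → ExtraAt (Q u) u := by
    intro u hu hu1
    obtain ⟨g, rfl⟩ := hS u hu hu1
    exact S.ex g
  have hUQ : ∀ u ∈ U, u ≠ 1 → U ≤ Q u := by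
    intro u hu hu1 v hv
    by_cases hv1 : v = 1
    · rw [hv1]; exact Subgroup.one_mem _
    · exact hO u hu v hv hu1 hv1
  have hQUQ : ∀ u ∈ U, u ≠ 1 → QU ≤ Q u := by
    intro u hu hu1
    rw [hQU]
    exact iInf₂_le u ⟨hu, fun h => hu1 (Set.mem_singleton_iff.mp h)⟩
  have hQLU : ∀ u ∈ U, u ≠ 1 → Q u ≤ LU := by
    intro u hu hu1
    rw [hLU]
    exact le_iSup₂ (f := fun u (_ : u ∈ (U : Set G) \ {1}) => Q u) u
      ⟨hu, fun h => hu1 (Set.mem_singleton_iff.mp h)⟩
  have hconjU : ∀ u ∈ U, u ≠ 1 → ∀ a ∈ Q u, ∀ h ∈ U, a * h * a⁻¹ ∈ U := by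
    intro u hu hu1 a ha h hh
    have E := hEx u hu hu1
    have e : a * h * a⁻¹ = (a * h * a⁻¹ * h⁻¹) * h := by group
    rw [e]
    apply U.mul_mem _ hh
    rcases E.comm a ha h (hUQ u hu hu1 hh) with h1 | h1
    · rw [h1]; exact U.one_mem
    · rw [h1]; exact hu
  have hLUN : LU ≤ Subgroup.normalizer (U : Set G) := by
    rw [hLU]
    apply iSup₂_le
    rintro u ⟨hu, hu1⟩ a ha
    have hu1' : u ≠ 1 := fun h => hu1 (Set.mem_singleton_iff.mpr h)
    rw [Subgroup.mem_normalizer_iff]
    intro h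
    constructor
    · exact hconjU u hu hu1' a ha h
    · intro hh
      have := hconjU u hu hu1' a⁻¹ (Subgroup.inv_mem _ ha) _ hh
      have e : a⁻¹ * (a * h * a⁻¹) * a⁻¹⁻¹ = h := by group
      rwa [e] at this
  have hnt : ∃ u₀ ∈ U, u₀ ≠ 1 := by
    have h1 : 1 < Nat.card ↥U := by
      rw [hcard]
      calc 1 < 2 ^ 2 := by norm_num
        _ ≤ 2 ^ n := Nat.pow_le_pow_right (by norm_num) hn
    have : Nontrivial ↥U := Finite.one_lt_card_iff_nontrivial.mp h1
    obtain ⟨u, hu⟩ := exists_ne (1 : ↥U)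
    exact ⟨u, u.2, fun h => hu (Subtype.ext h)⟩
  refine ⟨?_, ?_, hLUN, ?_⟩
  · intro v hv
    rw [hQU]
    simp only [Subgroup.mem_iInf]
    rintro u ⟨hu, hu1⟩
    exact hUQ u hu (fun h => hu1 (Set.mem_singleton_iff.mpr h)) hv
  · obtain ⟨u₀, hu₀, hu₀1⟩ := hnt
    exact le_trans (hQUQ u₀ hu₀ hu₀1) (hQLU u₀ hu₀ hu₀1)
  · intro φ
    obtain ⟨m, κ, hκ, hκadd⟩ := exists_coords ↥U (fun u => Subtype.ext (hU2 u u.2))
    have hκ1 : κ 1 = 0 := by
      have := hκadd 1 1
      rw [one_mul] at this
      have h2 : κ 1 + 0 = κ 1 + κ 1 := by rw [add_zero]; exact this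
      exact (add_left_cancel h2).symm
    obtain ⟨κinv, hκinv⟩ : ∃ κinv : (Fin m → ZMod 2) → ↥U, ∀ x, κ (κinv x) = x :=
      ⟨Function.surjInv hκ.2, Function.surjInv_eq hκ.2⟩
    have hκinv' : ∀ u, κinv (κ u) = u := fun u => hκ.1 (hκinv (κ u))
    have hκinv_add : ∀ x y, κinv (x + y) = κinv x * κinv y := by
      intro x y
      apply hκ.1
      rw [hκadd, hκinv, hκinv, hκinv]
    let P : ((Fin m → ZMod 2) → (Fin m → ZMod 2)) → Prop := fun f =>
      ∃ g ∈ LU, ∀ u w : ↥U, g * (u : G) * g⁻¹ = (w : G) → κ w = f (κ u)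
    have hP : P (fun x => κ (φ (κinv x))) := by
      refine additive_bijection_induction P ?_ ?_ ?_ (fun x => κ (φ (κinv x)))
        (fun x => κ (φ.symm (κinv x))) ?_ ?_ ?_
      · -- identity
        refine ⟨1, Subgroup.one_mem _, ?_⟩
        intro u w h
        have : u = w := by
          apply Subtype.ext
          rw [← h]; group
        rw [this]; rfl
      · -- composition
        rintro f f' ⟨g, hg, hgf⟩ ⟨g', hg', hgf'⟩
        refine ⟨g * g', Subgroup.mul_mem _ hg hg', ?_⟩
        intro u w h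
        have hv : g' * (u : G) * g'⁻¹ ∈ U :=
          (Subgroup.mem_normalizer_iff.mp (hLUN hg') _).mp u.2
        have h1 := hgf' u ⟨_, hv⟩ rfl
        have h2 : g * ((⟨_, hv⟩ : ↥U) : G) * g⁻¹ = (w : G) := by
          rw [← h]; group
        have h3 := hgf ⟨_, hv⟩ w h2
        rw [h3, h1]; rfl
      · -- transvections
        intro i j hij
        obtain ⟨ui, hui⟩ : ∃ ui : ↥U, κ ui = Pi.single i 1 := ⟨κinv _, hκinv _⟩
        obtain ⟨uj, huj⟩ : ∃ uj : ↥U, κ uj = Pi.single j 1 := ⟨κinv _, hκinv _⟩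
        have hui1 : (ui : G) ≠ 1 := by
          intro h
          have h1 : ui = 1 := Subtype.ext h
          rw [h1, hκ1] at hui
          have := congrFun hui i
          simp at this
        have E := hEx ui ui.2 hui1
        let H : Subgroup G :=
          { carrier := {y | ∃ h : y ∈ U, κ ⟨y, h⟩ j = 0}
            mul_mem' := by
              rintro a b ⟨ha, ha0⟩ ⟨hb, hb0⟩
              refine ⟨U.mul_mem ha hb, ?_⟩
              have : (⟨a * b, U.mul_mem ha hb⟩ : ↥U) = ⟨a, ha⟩ * ⟨b, hb⟩ := rfl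
              rw [this, hκadd, Pi.add_apply, ha0, hb0, add_zero]
            one_mem' := by
              refine ⟨U.one_mem, ?_⟩
              have : (⟨1, U.one_mem⟩ : ↥U) = 1 := rfl
              rw [this, hκ1]; rfl
            inv_mem' := by
              rintro a ⟨ha, ha0⟩
              have hai : a⁻¹ = a := inv_eq_of_mul_eq_one_left (hU2 a ha)
              refine ⟨U.inv_mem ha, ?_⟩
              have : (⟨a⁻¹, U.inv_mem ha⟩ : ↥U) = ⟨a, ha⟩ := Subtype.ext hai
              rw [this]; exact ha0 }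
        have hHU : H ≤ U := fun y hy => hy.1
        have hmemH : ∀ u : ↥U, (u : G) ∈ H ↔ κ u j = 0 := by
          intro u
          constructor
          · rintro ⟨h, h0⟩; exact h0
          · intro h0; exact ⟨u.2, h0⟩
        have huiH : (ui : G) ∈ H := by
          rw [hmemH, hui]; simp [hij]
        have hujH : (uj : G) ∉ H := by
          rw [hmemH, huj]; simp
        obtain ⟨g, hg, hgH, hguj⟩ := E.exists_centralizing_subgroup H
          (le_trans hHU (hUQ ui ui.2 hui1)) huiH (hUQ ui ui.2 hui1 uj.2) hujH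
        refine ⟨g, hQLU ui ui.2 hui1 hg, ?_⟩
        intro u w h
        have key : ∀ d : ZMod 2, d = 0 ∨ d = 1 := by decide
        rcases key (κ u j) with h0 | h0
        · have hu : (u : G) ∈ H := (hmemH u).mpr h0
          have : w = u := by
            apply Subtype.ext
            rw [← h, hgH _ hu]; group
          rw [this]
          show κ u = κ u + Pi.single i (κ u j)
          rw [h0]
          simp
        · have huuj : ((u * uj : ↥U) : G) ∈ H := by
            rw [hmemH, hκadd, Pi.add_apply, h0, huj]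
            simp
            decide
          have h1 : g * ((u : G) * (uj : G)) * g⁻¹ = (u : G) * (uj : G) := by
            have := hgH _ huuj
            rw [Subgroup.coe_mul] at this
            rw [this]; group
          have h2 : g * ((u : G) * (uj : G)) * g⁻¹ = (w : G) * ((ui : G) * (uj : G)) := by
            rw [← h, ← hguj]; group
          have h3 : (w : G) * (ui : G) = (u : G) := by
            have h4 : (w : G) * (ui : G) * (uj : G) = (u : G) * (uj : G) := by
              rw [mul_assoc, ← h2, h1]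
            exact mul_right_cancel h4
          have huii : (ui : G) * (ui : G) = 1 := hU2 ui ui.2
          have h5 : w = u * ui := by
            apply Subtype.ext
            rw [Subgroup.coe_mul, ← h3, mul_assoc, huii, mul_one]
          rw [h5, hκadd, hui]
          show κ u + Pi.single i 1 = κ u + Pi.single i (κ u j)
          rw [h0]
      · intro x y
        show κ (φ (κinv (x + y))) = κ (φ (κinv x)) + κ (φ (κinv y))
        rw [hκinv_add, map_mul, hκadd]
      · intro x y
        show κ (φ.symm (κinv (x + y))) = κ (φ.symm (κinv x)) + κ (φ.symm (κinv y))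
        rw [hκinv_add, map_mul, hκadd]
      · intro x
        show κ (φ (κinv (κ (φ.symm (κinv x))))) = x
        rw [hκinv', MulEquiv.apply_symm_apply, hκinv]
    obtain ⟨g, hg, hgφ⟩ := hP
    refine ⟨g, hg, ?_⟩
    intro u
    have hv : g * (u : G) * g⁻¹ ∈ U :=
      (Subgroup.mem_normalizer_iff.mp (hLUN hg) _).mp u.2
    have h1 : κ ⟨_, hv⟩ = κ (φ (κinv (κ u))) := hgφ u ⟨_, hv⟩ rfl
    rw [hκinv'] at h1
    have h2 := hκ.1 h1
    rw [← h2]

end Cfsg.Agent.S5596
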