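import Cfsg.Statements.S5597
import Cfsg.Agent.Lib.Helper94.LargeExtra2

set_option autoImplicit false
open Cfsg

namespace Cfsg.Agent.S5597

open Cfsg.Agent.Lib.Helper94

/-- Setting: `z` is an involution of the finite group `G`; for each element `x`, `Q x` is the largest normal 2-subgroup of the centralizer of `x`; `Q z` is extraspecial and contains its own centralizer in `G`. A subgroup `U` is singular when it is elementary abelian, every non-identity element of `U` is conjugate to `z`, and any two non-identity elements `u`, `v` of `U` are orthogonal (`v ∈ Q u`). Write `QU` for the intersection of the `Q u` and `LU` for the join of the `Q u` over the non-identity `u` in `U`. If `U` is a non-trivial singular subgroup, then `LU` acts trivially on `QU / U` (every commutator of an element of `LU` with an element of `QU` lies in `U`), and for every `x` in `QU` outside `U` the centralizer of `U` in `LU` permutes the coset `x U` transitively: each `x u` with `u ∈ U` is a conjugate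 of `x` by an element of `LU` centralizing `U`. -/
theorem result {G : Type*} [Group G] [Finite G]
    (Q : G → Subgroup G)
    (hQ : ∀ x : G, Q x = (Cfsg.pCore 2 ↥(Subgroup.centralizer ({x} : Set G))).map (Subgroup.centralizer ({x} : Set G)).subtype)
    (z : G) (hz : orderOf z = 2) (hE : Cfsg.IsExtraspecial 2 ↥(Q z))
    (hC : Subgroup.centralizer ((Q z : Subgroup G) : Set G) ≤ Q z)
    (U : Subgroup G) (hU2 : ∀ u ∈ U, u * u = 1)
    (hS : ∀ u ∈ U, u ≠ 1 → ∃ g : G, g * z * g⁻¹ = u)
    (hO : ∀ u ∈ U, ∀ v ∈ U, u ≠ 1 → v ≠ 1 → v ∈ Q u)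
    (QU LU : Subgroup G) (hQU : QU = ⨅ u ∈ ((U : Set G) \ {1}), Q u) (hLU : LU = ⨆ u ∈ ((U : Set G) \ {1}), Q u)
    (hU : U ≠ ⊥) :
    (∀ g ∈ LU, ∀ x ∈ QU, g * x * g⁻¹ * x⁻¹ ∈ U) ∧
      ∀ x ∈ QU, x ∉ U → ∀ u ∈ U, ∃ g ∈ LU ⊓ Subgroup.centralizer (U : Set G), g * x * g⁻¹ = x * u := by
  have S := setting_of_hyps Q hQ z hz hE hC
  have hEx : ∀ u ∈ U, u ≠ 1 → ExtraAt (Q u) u := by
    intro u hu hu1
    obtain ⟨g, rfl⟩ := hS u hu hu1
    exact S.ex g
  have hUQ : ∀ u ∈ U, u ≠ 1 → U ≤ Q u := by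
    intro u hu hu1 v hv
    by_cases hv1 : v = 1
    · rw [hv1]; exact Subgroup.one_mem _
    · exact hO u hu v hv hu1 hv1
  have hQUQ : ∀ u ∈ U, u ≠ 1 → QU ≤ Q u := by
    intro u hu hu1
    rw [hQU]
    exact iInf₂_le u ⟨hu, fun h => hu1 (Set.mem_singleton_iff.mp h)⟩
  have hQLU : ∀ u ∈ U, u ≠ 1 → Q u ≤ LU := by
    intro u hu hu1
    rw [hLU]
    exact le_iSup₂ (f := fun u (_ : u ∈ (U : Set G) \ {1}) => Q u) u
      ⟨hu, fun h => hu1 (Set.mem_singleton_iff.mp h)⟩
  -- conjugation by elements of Q u preserves U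
  have hconjU : ∀ u ∈ U, u ≠ 1 → ∀ a ∈ Q u, ∀ h ∈ U, a * h * a⁻¹ ∈ U := by
    intro u hu hu1 a ha h hh
    have E := hEx u hu hu1
    have e : a * h * a⁻¹ = (a * h * a⁻¹ * h⁻¹) * h := by group
    rw [e]
    apply U.mul_mem _ hh
    rcases E.comm a ha h (hUQ u hu hu1 hh) with h1 | h1
    · rw [h1]; exact U.one_mem
    · rw [h1]; exact hu
  refine ⟨?_, ?_⟩
  · intro g hg
    have hC' : g ∈ Subgroup.normalizer (U : Set G) ∧ ∀ x ∈ QU, g * x * g⁻¹ * x⁻¹ ∈ U := by
      rw [hLU] at hg
      refine Subgroup.iSup_induction (C := fun g => g ∈ Subgroup.normalizer (U : Set G) ∧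
        ∀ x ∈ QU, g * x * g⁻¹ * x⁻¹ ∈ U) _ hg ?_ ?_ ?_
      · intro u g hg
        refine Subgroup.iSup_induction (C := fun g => g ∈ Subgroup.normalizer (U : Set G) ∧
          ∀ x ∈ QU, g * x * g⁻¹ * x⁻¹ ∈ U) _ hg ?_ ?_ ?_
        · rintro ⟨hu, hu1⟩ a ha
          have hu1' : u ≠ 1 := fun h => hu1 (Set.mem_singleton_iff.mpr h)
          have E := hEx u hu hu1'
          refine ⟨?_, ?_⟩
          · rw [Subgroup.mem_normalizer_iff]
            intro h
            constructor
            · exact hconjU u hu hu1' a ha h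
            · intro hh
              have := hconjU u hu hu1' a⁻¹ (Subgroup.inv_mem _ ha) _ hh
              have e : a⁻¹ * (a * h * a⁻¹) * a⁻¹⁻¹ = h := by group
              rwa [e] at this
          · intro x hx
            rcases E.comm a ha x (hQUQ u hu hu1' hx) with h1 | h1
            · rw [h1]; exact U.one_mem
            · rw [h1]; exact hu
        · refine ⟨Subgroup.one_mem _, ?_⟩
          intro x _
          have : (1 : G) * x * 1⁻¹ * x⁻¹ = 1 := by group
          rw [this]; exact U.one_mem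
        · rintro a b ⟨ha1, ha2⟩ ⟨hb1, hb2⟩
          refine ⟨Subgroup.mul_mem _ ha1 hb1, ?_⟩
          intro x hx
          have e : a * b * x * (a * b)⁻¹ * x⁻¹ = a * (b * x * b⁻¹ * x⁻¹) * a⁻¹ * (a * x * a⁻¹ * x⁻¹) := by
            group
          rw [e]
          apply U.mul_mem _ (ha2 x hx)
          exact (Subgroup.mem_normalizer_iff.mp ha1 _).mp (hb2 x hx)
      · refine ⟨Subgroup.one_mem _, ?_⟩
        intro x _
        have : (1 : G) * x * 1⁻¹ * x⁻¹ = 1 := by group
        rw [this]; exact U.one_mem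
      · rintro a b ⟨ha1, ha2⟩ ⟨hb1, hb2⟩
        refine ⟨Subgroup.mul_mem _ ha1 hb1, ?_⟩
        intro x hx
        have e : a * b * x * (a * b)⁻¹ * x⁻¹ = a * (b * x * b⁻¹ * x⁻¹) * a⁻¹ * (a * x * a⁻¹ * x⁻¹) := by
          group
        rw [e]
        apply U.mul_mem _ (ha2 x hx)
        exact (Subgroup.mem_normalizer_iff.mp ha1 _).mp (hb2 x hx)
    exact hC'.2
  · intro x hx hxU u hu
    by_cases hu1 : u = 1
    · refine ⟨1, Subgroup.one_mem _, ?_⟩
      rw [hu1]; group
    · have E := hEx u hu hu1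
      obtain ⟨g, hg, hgU, hgx⟩ := E.exists_centralizing_subgroup U (hUQ u hu hu1) hu
        (hQUQ u hu hu1 hx) hxU
      have hgc : g ∈ Subgroup.centralizer (U : Set G) := by
        rw [Subgroup.mem_centralizer_iff]
        intro h hh
        exact (hgU h hh).symm
      refine ⟨g, Subgroup.mem_inf.mpr ⟨hQLU u hu hu1 hg, hgc⟩, ?_⟩
      · rw [hgx]
        exact (E.central x (hQUQ u hu hu1 hx)).symm

end Cfsg.Agent.S5597
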