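import Cfsg.Statements.S5598
import Cfsg.Agent.Lib.Helper94.LargeExtra

set_option autoImplicit false
open Cfsg

namespace Cfsg.Agent.S5598

open Cfsg.Agent.Lib.Helper94

/-- Setting: `z` is an involution of the finite group `G`; for each element `x`, `Q x` is the largest normal 2-subgroup of the centralizer of `x`; `Q z` is extraspecial and contains its own centralizer in `G`. A subgroup `U` is singular when it is elementary abelian, every non-identity element of `U` is conjugate to `z`, and any two non-identity elements `u`, `v` of `U` are orthogonal (`v ∈ Q u`). Write `QU` for the intersection of the `Q u` and `LU` for the join of the `Q u` over the non-identity `u` in `U`. If the singular subgroup `U` is generated by a set `T` of non-identity elements, then `QU` is already the intersection of the `Q t` over `t ∈ T`. -/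
theorem result {G : Type*} [Group G] [Finite G]
    (Q : G → Subgroup G)
    (hQ : ∀ x : G, Q x = (Cfsg.pCore 2 ↥(Subgroup.centralizer ({x} : Set G))).map (Subgroup.centralizer ({x} : Set G)).subtype)
    (z : G) (hz : orderOf z = 2) (hE : Cfsg.IsExtraspecial 2 ↥(Q z))
    (hC : Subgroup.centralizer ((Q z : Subgroup G) : Set G) ≤ Q z)
    (U : Subgroup G) (hU2 : ∀ u ∈ U, u * u = 1)
    (hS : ∀ u ∈ U, u ≠ 1 → ∃ g : G, g * z * g⁻¹ = u)
    (hO : ∀ u ∈ U, ∀ v ∈ U, u ≠ 1 → v ≠ 1 → v ∈ Q u)
    (QU LU : Subgroup G) (hQU : QU = ⨅ u ∈ ((U : Set G) \ {1}), Q u) (hLU : LU = ⨆ u ∈ ((U : Set G) \ {1}), Q u)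
    (T : Set G) (hT : Subgroup.closure T = U) (hT1 : (1 : G) ∉ T) :
    QU = ⨅ t ∈ T, Q t := by
  have S := setting_of_hyps Q hQ z hz hE hC
  have key : ∀ u ∈ U, ∀ v ∈ U, u ≠ 1 → v ≠ 1 → u ≠ v → Q u ⊓ Q v ≤ Q (u * v) := by
    intro u hu v hv hu1 hv1 huv y hy
    have hvQ : v ∈ Q u := hO u hu v hv hu1 hv1
    have E : ExtraAt (Q u) u := by
      obtain ⟨g, rfl⟩ := hS u hu hu1
      exact S.ex g
    have hnc : ¬ ∀ w ∈ Q u, v * w = w * v := fun h => by
      rcases E.center v hvQ h with h1 | h1
      · exact hv1 h1
      · exact huv h1.symm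
    push Not at hnc
    obtain ⟨a, ha, hav⟩ := hnc
    have hc : a * v * a⁻¹ * v⁻¹ = u := by
      rcases E.comm a ha v hvQ with h1 | h1
      · exfalso
        apply hav
        have h2 : a * v = v * a := by
          have := congrArg (fun t => t * v * a) h1
          simpa [mul_assoc] using this
        exact h2.symm
      · exact h1
    have hava : a * v * a⁻¹ = u * v := by rw [← hc]; group
    have haua : a * u * a⁻¹ = u := by rw [E.central a ha]; group
    have huv1 : u * v ≠ 1 := by
      intro h
      apply huv
      have h3 : v⁻¹ = v := inv_eq_of_mul_eq_one_left (hU2 v hv)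
      rw [← h3]
      exact eq_inv_of_mul_eq_one_left h
    have h1 : a * y * a⁻¹ ∈ Q (u * v) := by
      have := S.conj a v y hy.2
      rw [hava] at this
      exact this
    have huQ : u ∈ Q (u * v) := hO (u * v) (U.mul_mem hu hv) u hu huv1 hu1
    have hcQ : a * y * a⁻¹ * y⁻¹ ∈ Q (u * v) := by
      rcases E.comm a ha y hy.1 with h2 | h2
      · rw [h2]; exact Subgroup.one_mem _
      · rw [h2]; exact huQ
    have hy' : y = (a * y * a⁻¹ * y⁻¹)⁻¹ * (a * y * a⁻¹) := by group
    rw [hy']
    exact Subgroup.mul_mem _ (Subgroup.inv_mem _ hcQ) h1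
  rw [hQU]
  apply le_antisymm
  · apply le_iInf₂
    intro t ht
    apply iInf₂_le
    refine ⟨?_, ?_⟩
    · rw [← hT]; exact Subgroup.subset_closure ht
    · intro h
      rw [Set.mem_singleton_iff] at h
      rw [h] at ht
      exact hT1 ht
  · apply le_iInf₂
    intro u hu
    obtain ⟨huU, hu1⟩ := hu
    have hu1' : u ≠ 1 := fun h => hu1 (Set.mem_singleton_iff.mpr h)
    have hmain : ∀ w ∈ Subgroup.closure T, w ≠ 1 → (⨅ t ∈ T, Q t) ≤ Q w := by
      intro w hw
      induction hw using Subgroup.closure_induction with
      | mem t ht => intro _; exact iInf₂_le t ht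
      | one => intro h; exact absurd rfl h
      | mul a b ha hb iha ihb =>
        intro hab
        rw [hT] at ha hb
        by_cases ha1 : a = 1
        · rw [ha1, one_mul]
          apply ihb
          intro hb1
          apply hab
          rw [ha1, hb1, one_mul]
        by_cases hb1 : b = 1
        · rw [hb1, mul_one]
          exact iha ha1
        by_cases hne : a = b
        · exfalso
          apply hab
          rw [hne]
          exact hU2 b hb
        exact le_trans (le_inf (iha ha1) (ihb hb1)) (key a ha b hb ha1 hb1 hne)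
      | inv a ha iha =>
        intro ha1
        rw [hT] at ha
        have h3 : a⁻¹ = a := inv_eq_of_mul_eq_one_left (hU2 a ha)
        rw [h3]
        apply iha
        rw [h3] at ha1
        exact ha1
    apply hmain u _ hu1'
    rw [hT]
    exact huU

end Cfsg.Agent.S5598
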