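import Cfsg.Statements.S5647
import Cfsg.Agent.Lib.Helper97.SpOver3

set_option autoImplicit false
open Cfsg

namespace Cfsg.Agent.S5647

open Cfsg.Agent.Lib.Helper97 Matrix

/-- For a finite field F with q elements and m ≥ 7, let D be a decomposition of F^(2m) into t ≥ 2 pairwise orthogonal subspaces of equal dimension k on each of which the standard alternating form is non-degenerate, spanning F^(2m). Unless k = 2 and q = 2, the elements of Sp_2m(F) permuting the members of D form a maximal subgroup of Sp_2m(F). -/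
theorem result {F : Type*} [Field F] [Fintype F] (m : ℕ) (hm : 7 ≤ m) {t : ℕ} (k : ℕ) (D : Fin t → Submodule F (Fin m ⊕ Fin m → F)) (hD : Cfsg.Geo.IsNondegenerateMDecomposition (Cfsg.sympForm m F) k D) (hex : ¬ (k = 2 ∧ Fintype.card F = 2)) : Cfsg.Geo.IsMaximalIn (Cfsg.spGL m F) (Cfsg.Geo.decompositionStabilizer D ⊓ Cfsg.spGL m F) := by
  classical
  have hf := sympForm_symp (F := F) m
  have hB : Blocks (Cfsg.sympForm m F) D :=
    ⟨fun i a ha ha0 => (hD.nondegenerate i a ha ha0).1, fun i j hij => hD.orthogonal i j hij,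
      hD.decomp.iSup_eq_top⟩
  have hfin := hD.decomp.finrank_eq
  have hk := hD.decomp.pos
  have ht := hD.decomp.two_le
  have hne : ∀ i, D i ≠ ⊥ := by
    intro i hbot
    have h2 := hfin i
    rw [hbot, finrank_bot] at h2
    omega
  have room : ∀ b, ∀ x ∈ D b, x ≠ 0 →
      ∃ z ∈ D b, z ≠ 0 ∧ z ≠ x ∧ Cfsg.sympForm m F z x = 0 := by
    intro b
    by_cases hq : Fintype.card F = 2
    · obtain ⟨κ, e, f', -, hκ⟩ := exists_darboux_of_NdOn hf (hB.nd b)
      rw [hfin b] at hκ
      have hk2 : k ≠ 2 := fun h => hex ⟨h, hq⟩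
      exact room_of_finrank hf (hB.nd b) (by rw [hfin b]; omega)
    · have hc : ∃ c : F, c ≠ 0 ∧ c ≠ 1 := by
        by_contra hcon
        push Not at hcon
        apply hq
        have h1 : (Finset.univ : Finset F) ⊆ {0, 1} := by
          intro c _
          by_cases hc0 : c = 0
          · simp [hc0]
          · simp [hcon c hc0]
        have h2 := Finset.card_le_card h1
        have h3 : (({0, 1} : Finset F)).card ≤ 2 := Finset.card_le_two
        have h4 : 1 < Fintype.card F := Fintype.one_lt_card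
        rw [Finset.card_univ] at h2
        omega
      obtain ⟨c, hc0, hc1⟩ := hc
      exact room_of_scalar hf c hc0 hc1
  refine ⟨lt_of_le_of_ne inf_le_right ?_, ?_⟩
  · intro heq
    obtain ⟨s, hs1, hs2⟩ := hB.exists_isometry_not_decomp hf
      (i₀ := ⟨0, by omega⟩) (i₁ := ⟨1, by omega⟩) (by simp [Fin.ext_iff]) hne
    have hs : s ∈ Cfsg.spGL m F := hs1
    rw [← heq] at hs
    exact hs2 (Subgroup.mem_inf.mp hs).1
  · intro M hHM hMK
    by_cases hMH : M ≤ Cfsg.Geo.decompositionStabilizer D ⊓ Cfsg.spGL m F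
    · exact Or.inl (le_antisymm hMH hHM)
    · right
      obtain ⟨g, hgM, hgH⟩ := SetLike.not_le_iff_exists.mp hMH
      have hgf := hMK hgM
      have hg : g ∉ Cfsg.Geo.decompositionStabilizer D :=
        fun h => hgH (Subgroup.mem_inf.mpr ⟨h, hgf⟩)
      refine le_antisymm hMK (spGL_le_of_InS m M ?_)
      exact hB.overgroup hf hk hfin room M
        (fun s h1 h2 => hHM (Subgroup.mem_inf.mpr ⟨h1, h2⟩)) g hgM hgf hg

end Cfsg.Agent.S5647
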