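import Cfsg.Statements.S5649
import Cfsg.Agent.Lib.Helper97.SpPair4

set_option autoImplicit false
open Cfsg

namespace Cfsg.Agent.S5649

open Cfsg.Agent.Lib.Helper97 Matrix

/-- For a finite field F of odd order and m ≥ 7, let D be a decomposition of F^(2m) into two complementary subspaces of dimension m on each of which the standard alternating form vanishes identically. Then the elements of Sp_2m(F) preserving or interchanging the two subspaces form a maximal subgroup of Sp_2m(F). -/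
theorem result {F : Type*} [Field F] [Fintype F] (m : ℕ) (hm : 7 ≤ m) (hodd : Odd (Fintype.card F)) (D : Fin 2 → Submodule F (Fin m ⊕ Fin m → F)) (hD : Cfsg.Geo.IsMDecomposition m D) (hts : ∀ i, Cfsg.Geo.IsTotallySingularFor (Cfsg.sympForm m F) (D i)) : Cfsg.Geo.IsMaximalIn (Cfsg.spGL m F) (Cfsg.Geo.decompositionStabilizer D ⊓ Cfsg.spGL m F) := by
  classical
  have hf := sympForm_symp (F := F) m
  have h2 : (2 : F) ≠ 0 := by
    intro h
    have hchar : ringChar F = 2 :=
      CharP.ringChar_of_prime_eq_zero Nat.prime_two (by exact_mod_cast h)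
    have h3 := FiniteField.even_card_of_char_two hchar
    have h4 := Nat.odd_iff.mp hodd
    omega
  have hfin := hD.finrank_eq
  have h01 : ∀ i : Fin 2, i = 0 ∨ i = 1 := by decide
  have hL : LagPair (Cfsg.sympForm m F) (D 0) (D 1) := by
    refine ⟨hts 0, hts 1, ?_, ?_⟩
    · rw [← hD.iSup_eq_top]
      apply le_antisymm
      · exact sup_le (le_iSup D 0) (le_iSup D 1)
      · apply iSup_le
        intro i
        rcases h01 i with h | h
        · rw [h]
          exact le_sup_left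
        · rw [h]
          exact le_sup_right
    · exact (hD.indep.pairwiseDisjoint (by decide : (0 : Fin 2) ≠ 1)).eq_bot
  have hA4 : 4 ≤ Module.finrank F (D 0) := by
    rw [hfin]
    omega
  have hB4 : 4 ≤ Module.finrank F (D 1) := by
    rw [hfin]
    omega
  have hA0 : D 0 ≠ ⊥ := by
    intro h
    rw [h, finrank_bot] at hA4
    omega
  have hB0 : D 1 ≠ ⊥ := by
    intro h
    rw [h, finrank_bot] at hB4
    omega
  have hstab : ∀ t : GL (Fin m ⊕ Fin m) F, (∀ x ∈ D 0, (t : Matrix _ _ F) *ᵥ x ∈ D 0) →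
      (∀ x ∈ D 1, (t : Matrix _ _ F) *ᵥ x ∈ D 1) → t ∈ Cfsg.Geo.decompositionStabilizer D := by
    intro t h0 h1
    rw [mem_decompositionStabilizer_iff]
    refine ⟨1, fun i => ?_⟩
    rcases h01 i with h | h
    · rw [h]
      exact map_eq_of_le_of_finrank t _ _ h0 rfl
    · rw [h]
      exact map_eq_of_le_of_finrank t _ _ h1 rfl
  have hswap : ∀ t : GL (Fin m ⊕ Fin m) F, (∀ x ∈ D 0, (t : Matrix _ _ F) *ᵥ x ∈ D 1) →
      (∀ x ∈ D 1, (t : Matrix _ _ F) *ᵥ x ∈ D 0) → t ∈ Cfsg.Geo.decompositionStabilizer D := by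
    intro t h0 h1
    rw [mem_decompositionStabilizer_iff]
    refine ⟨Equiv.swap 0 1, fun i => ?_⟩
    rcases h01 i with h | h
    · rw [h, Equiv.swap_apply_left]
      exact map_eq_of_le_of_finrank t _ _ h0 (by rw [hfin, hfin])
    · rw [h, Equiv.swap_apply_right]
      exact map_eq_of_le_of_finrank t _ _ h1 (by rw [hfin, hfin])
  refine ⟨lt_of_le_of_ne inf_le_right ?_, ?_⟩
  · intro heq
    obtain ⟨s, hs1, ⟨x, hx, hxA⟩, ⟨x', hx', hxB⟩⟩ := hL.exists_isometry_moving hf hA4
    have hs : s ∈ Cfsg.spGL m F := hs1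
    rw [← heq] at hs
    obtain ⟨σ, hσ⟩ := (mem_decompositionStabilizer_iff D s).mp (Subgroup.mem_inf.mp hs).1
    have hmem : ∀ y ∈ D 0, (s : Matrix _ _ F) *ᵥ y ∈ D (σ 0) := by
      intro y hy
      rw [← hσ 0]
      exact ⟨y, hy, Matrix.toLin'_apply _ _⟩
    rcases h01 (σ 0) with h | h
    · rw [h] at hmem
      exact hxA (hmem x hx)
    · rw [h] at hmem
      exact hxB (hmem x' hx')
  · intro M hHM hMK
    by_cases hMH : M ≤ Cfsg.Geo.decompositionStabilizer D ⊓ Cfsg.spGL m F
    · exact Or.inl (le_antisymm hMH hHM)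
    · right
      obtain ⟨g, hgM, hgH⟩ := SetLike.not_le_iff_exists.mp hMH
      have hgf := hMK hgM
      have hg : g ∉ Cfsg.Geo.decompositionStabilizer D :=
        fun h => hgH (Subgroup.mem_inf.mpr ⟨h, hgf⟩)
      refine le_antisymm hMK (spGL_le_of_InS m M ?_)
      have hP : PairData (Cfsg.sympForm m F) (D 0) (D 1) M :=
        ⟨hL, fun k hk => hMK hk,
          fun t h1 h2 h3 => hHM (Subgroup.mem_inf.mpr ⟨hstab t h2 h3, h1⟩)⟩
      obtain ⟨τ, hτ1, hτA, hτB⟩ := hL.exists_swap hf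
      have hτM : τ ∈ M := hHM (Subgroup.mem_inf.mpr ⟨hswap τ hτA hτB, hτ1⟩)
      obtain ⟨u, hu, huA, huB⟩ := hL.exists_moved hA0 hB0 g
        (fun h => hg (hstab g h.1 h.2)) (fun h => hg (hswap g h.1 h.2))
      obtain ⟨e, he, w, hw, hgu⟩ := hL.decomp ((g : Matrix _ _ F) *ᵥ u)
      have he0 : e ≠ 0 := by
        intro h
        rw [h, zero_add] at hgu
        rw [hgu] at huB
        exact huB hw
      have hw0 : w ≠ 0 := by
        intro h
        rw [h, add_zero] at hgu
        rw [hgu] at huA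
        exact huA he
      have hstepA : ∃ g' ∈ M, ∃ u', (u' ∈ D 0 ∨ u' ∈ D 1) ∧ ∃ e' ∈ D 0, ∃ w' ∈ D 1,
          (g' : Matrix _ _ F) *ᵥ u' = e' + w' ∧ Cfsg.sympForm m F e' w' ≠ 0 := by
        rcases hu with hu | hu
        · exact hP.exists_nonsingular hf h2 hB4 hgM hu he hw hgu he0 hw0
        · obtain ⟨g', hg', u', hu', e', he', w', hw', h1, h3⟩ :=
            hP.symm.exists_nonsingular hf h2 hA4 hgM hu hw he (by rw [hgu, add_comm]) hw0 he0
          exact ⟨g', hg', u', hu'.symm, w', hw', e', he', by rw [h1, add_comm],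
            by rw [hf.skew]; exact neg_ne_zero.mpr h3⟩
      obtain ⟨g', hg', u', hu', e', he', w', hw', h1, h3⟩ := hstepA
      have hstepB : ∃ p, p ≠ 0 ∧ (p ∈ D 0 ∨ p ∈ D 1) ∧ InS (Cfsg.sympForm m F) M p := by
        rcases hu' with hu' | hu'
        · exact hP.exists_centre hf h2 hA4 hB4 hg' hu' he' hw' h1 h3
        · obtain ⟨p, hp0, hp, hpS⟩ := hP.symm.exists_centre hf h2 hB4 hA4 hg' hu' hw' he'
            (by rw [h1, add_comm]) (by rw [hf.skew]; exact neg_ne_zero.mpr h3)
          exact ⟨p, hp0, hp.symm, hpS⟩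
      obtain ⟨p, hp0, hp, hpS⟩ := hstepB
      exact hP.all_of_centre hf hτM hτA hτB hp0 hp hpS

end Cfsg.Agent.S5649
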