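import Cfsg.Statements.S5665
import Cfsg.Agent.Lib.Helper65.SpGUE

set_option autoImplicit false
open Cfsg

namespace Cfsg.Agent.S5665

open scoped Matrix
open Cfsg.Agent.Lib.Helper51 Cfsg.Agent.Lib.Helper97 Cfsg.Agent.Lib.Helper65

/-- For a finite field F of odd order and m ≥ 7, let K be a subfield of the algebra of 2m × 2m matrices over F containing the scalars, of degree 2 over F, that is closed under adjoints for the standard alternating form on F^(2m) but whose elements are not all self-adjoint (so the adjoint map induces the automorphism of order two of K). Then the elements of Sp_2m(F) normalising K form a maximal subgroup of Sp_2m(F). -/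
theorem result {F : Type*} [Field F] [Fintype F] (m : ℕ) (hm : 7 ≤ m) (hodd : Odd (Fintype.card F)) (K : Subalgebra F (Matrix (Fin m ⊕ Fin m) (Fin m ⊕ Fin m) F)) (hK : Cfsg.Geo.IsFieldSubalgebra 2 K) (hac : Cfsg.Geo.IsAdjointClosedFor (Cfsg.sympForm m F) K) (hnsa : ¬ Cfsg.Geo.IsSelfAdjointFor (Cfsg.sympForm m F) K) : Cfsg.Geo.IsMaximalIn (Cfsg.spGL m F) (Cfsg.Geo.subalgebraNormalizer K ⊓ Cfsg.spGL m F) := by
  classical
  have hf : Cfsg.Geo.IsSymplecticForm (Cfsg.sympForm m F) := sympForm_symp m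
  have hb := hf.bilinear
  have h2 : (2 : F) ≠ 0 := by
    intro h
    have h' : ((2 : ℕ) : F) = 0 := by exact_mod_cast h
    have hchar : ringChar F ∣ 2 := (ringChar.spec F 2).mp h'
    have hp : (ringChar F).Prime := CharP.char_is_prime F (ringChar F)
    have h2 : ringChar F = 2 := (Nat.prime_dvd_prime_iff_eq hp Nat.prime_two).mp hchar
    have := FiniteField.even_card_iff_char_two.mp h2
    rcases hodd with ⟨k, hk⟩
    omega
  have hn : 14 ≤ Fintype.card (Fin m ⊕ Fin m) := by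
    rw [Fintype.card_sum, Fintype.card_fin]; omega
  obtain ⟨θ, d, hθK, hspan, hθ1, sd⟩ := exists_suData (Cfsg.sympForm m F) hf h2 K hK hac hnsa
  have kd := sd.gu
  have hKU : ∀ k : Matrix.GeneralLinearGroup (Fin m ⊕ Fin m) F, IsKU (Cfsg.sympForm m F) θ k →
      k ∈ Cfsg.Geo.subalgebraNormalizer K ⊓ Cfsg.spGL m F := by
    intro k hk
    refine ⟨?_, (mem_spGL_iff m k).mpr hk.2⟩
    apply mem_normalizer_of_commute
    intro k' hk'
    obtain ⟨α, β, rfl⟩ := hspan k' hk'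
    rw [mul_add, add_mul, mul_smul_comm, smul_mul_assoc, mul_one, one_mul, mul_smul_comm,
      smul_mul_assoc, hk.1]
  constructor
  · refine lt_of_le_of_ne inf_le_right ?_
    intro heq
    have hn3 : 3 ≤ Module.finrank F (⊤ : Submodule F (Fin m ⊕ Fin m → F)) := by
      rw [finrank_top, Module.finrank_fintype_fun_eq_card]; omega
    obtain ⟨v, -, hv0, hQv⟩ := Cfsg.Agent.Lib.Helper52.exists_singular_of_finrank sd.qf ⊤ hn3
    have hvq : Cfsg.sympForm m F v (θ *ᵥ v) = 0 := by rw [← sd.qf_apply]; exact hQv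
    obtain ⟨t, ht⟩ : ∃ t : Matrix.GeneralLinearGroup (Fin m ⊕ Fin m) F,
        t = tvG v ((1 : F) • rho (Cfsg.sympForm m F) v) (symp_dot0 hf v 1) := ⟨_, rfl⟩
    have htx : ∀ x : Fin m ⊕ Fin m → F,
        (t : Matrix (Fin m ⊕ Fin m) (Fin m ⊕ Fin m) F) *ᵥ x
          = x + (1 * Cfsg.sympForm m F x v) • v := by
      intro x
      rw [ht]
      exact stv_mulVec hf v 1 x
    have htS : t ∈ Cfsg.spGL m F := by
      rw [mem_spGL_iff, ht]
      exact stv_pres hf v 1
    have hmem : t ∈ Cfsg.Geo.subalgebraNormalizer K ⊓ Cfsg.spGL m F := by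
      rw [heq]; exact htS
    have hN : ∀ k : Matrix (Fin m ⊕ Fin m) (Fin m ⊕ Fin m) F, k ∈ K ↔
        (t : Matrix (Fin m ⊕ Fin m) (Fin m ⊕ Fin m) F) * k *
          ((t⁻¹ : Matrix.GeneralLinearGroup (Fin m ⊕ Fin m) F) :
            Matrix (Fin m ⊕ Fin m) (Fin m ⊕ Fin m) F) ∈ K := hmem.1
    obtain ⟨α, β, e⟩ := hspan _ ((hN θ).mp hθK)
    have hEθ : (t : Matrix (Fin m ⊕ Fin m) (Fin m ⊕ Fin m) F) * θ
        = (α • (1 : Matrix (Fin m ⊕ Fin m) (Fin m ⊕ Fin m) F) + β • θ)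
          * (t : Matrix (Fin m ⊕ Fin m) (Fin m ⊕ Fin m) F) := by
      rw [← e, mul_assoc, coe_inv_mul_coe, mul_one]
    have hv : ∀ x : Fin m ⊕ Fin m → F,
        (t : Matrix (Fin m ⊕ Fin m) (Fin m ⊕ Fin m) F) *ᵥ (θ *ᵥ x)
          = α • (t : Matrix (Fin m ⊕ Fin m) (Fin m ⊕ Fin m) F) *ᵥ x
            + β • θ *ᵥ ((t : Matrix (Fin m ⊕ Fin m) (Fin m ⊕ Fin m) F) *ᵥ x) := by
      intro x
      rw [Matrix.mulVec_mulVec, hEθ, ← Matrix.mulVec_mulVec, Matrix.add_mulVec,
        Matrix.smul_mulVec, Matrix.one_mulVec, Matrix.smul_mulVec]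
    have h0 := hv v
    rw [htx, htx, hf.alternating, sd.f_self_theta', hvq] at h0
    simp only [neg_zero, mul_zero, zero_smul, add_zero] at h0
    obtain ⟨hα, hβ⟩ := kd.coeff_zero hv0 (c₁ := α) (c₂ := β - 1)
      (by rw [sub_smul, one_smul, ← add_sub_assoc, ← h0, sub_self])
    have hβ1 : β = 1 := sub_eq_zero.mp hβ
    subst hα hβ1
    obtain ⟨x, hx⟩ := (hf.nondegenerate v hv0).1
    have h1 := hv x
    rw [htx, htx] at h1
    simp only [zero_smul, zero_add, one_smul, one_mul, Matrix.mulVec_add, Matrix.mulVec_smul]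
      at h1
    have h3 : Cfsg.sympForm m F (θ *ᵥ x) v • v = Cfsg.sympForm m F x v • (θ *ᵥ v) :=
      add_left_cancel h1
    apply kd.theta_ne_smul hv0 ((Cfsg.sympForm m F x v)⁻¹ * Cfsg.sympForm m F (θ *ᵥ x) v)
    rw [← smul_smul, h3, smul_smul, inv_mul_cancel₀ hx, one_smul]
  · intro M hHM hMS
    by_cases hMH : M = Cfsg.Geo.subalgebraNormalizer K ⊓ Cfsg.spGL m F
    · exact Or.inl hMH
    right
    apply le_antisymm hMS
    obtain ⟨g, hgM, hgH⟩ := SetLike.exists_of_lt (lt_of_le_of_ne hHM (Ne.symm hMH))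
    have hgS : g ∈ Cfsg.spGL m F := hMS hgM
    have hgN : g ∉ Cfsg.Geo.subalgebraNormalizer K := fun h => hgH ⟨h, hgS⟩
    have hgf := (mem_spGL_iff m g).mp hgS
    have hno : ¬ ∃ α β : F, ∀ x : Fin m ⊕ Fin m → F,
        (g : Matrix (Fin m ⊕ Fin m) (Fin m ⊕ Fin m) F) *ᵥ (θ *ᵥ x)
          = α • (g : Matrix (Fin m ⊕ Fin m) (Fin m ⊕ Fin m) F) *ᵥ x
            + β • θ *ᵥ ((g : Matrix (Fin m ⊕ Fin m) (Fin m ⊕ Fin m) F) *ᵥ x) := by
      rintro ⟨α, β, h⟩
      exact hgN (mem_normalizer_of_coeff K θ hθK hspan hθ1 g α β h)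
    obtain ⟨e, he, hmv⟩ := sd.exists_moved (by omega) g hno
    have hKU' : ∀ k : Matrix.GeneralLinearGroup (Fin m ⊕ Fin m) F,
        IsKU (Cfsg.sympForm m F) θ k → k ∈ M := fun k hk => hHM (hKU k hk)
    have hI := sd.inS_of_moved hn M hKU' hgM hgf he hmv
    have hne : (g : Matrix (Fin m ⊕ Fin m) (Fin m ⊕ Fin m) F) *ᵥ e ≠ 0 := by
      intro h0
      apply he
      have he0 : e = 0 := by
        apply gl_mulVec_injective g
        rw [h0, Matrix.mulVec_zero]
      rw [he0]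
      exact form_zero_left hb _
    have hall := sd.all_inS (by omega) M hKU' hI hne
    exact spGL_le_of_InS m M hall

end Cfsg.Agent.S5665
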