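-- Statement S5713: Babai-type minimal degree bound for primitive groups not containing Alt.
import Cfsg.Statements.S5713
import Cfsg.Agent.Lib.Helper76.MinDegB

set_option autoImplicit false
open Cfsg

namespace Cfsg.Agent.S5713

/-- A classification-free minimal-degree bound. Let G be a finite group acting faithfully and primitively on a finite set Ω with n elements, and suppose that the image of G in the symmetric group on Ω does not contain the alternating group on Ω. Then every non-identity element of G moves at least (√n − 1)/2 points of Ω, that is, it fixes at most n − (√n − 1)/2 points. -/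
theorem result {G Ω : Type*} [Group G] [Finite G] [MulAction G Ω] [FaithfulSMul G Ω] [Fintype Ω] [DecidableEq Ω]
    (hprim : MulAction.IsPreprimitive G Ω)
    (hA : ¬ alternatingGroup Ω ≤ (MulAction.toPermHom G Ω).range)
    (g : G) (hg : g ≠ 1) :
    (Real.sqrt (Fintype.card Ω) - 1) / 2 ≤ (Fintype.card Ω : ℝ) - Nat.card (MulAction.fixedBy Ω g) := by
  obtain ⟨x, hx⟩ : ∃ x : Ω, g • x ≠ x := by
    by_contra hcon
    push Not at hcon
    exact hg (FaithfulSMul.eq_of_smul_eq_smul (fun a : Ω => by rw [hcon, one_smul]))
  rcases Cfsg.Agent.Lib.Helper76.MD.key_bound g hx with key | ⟨c, p, q, r, hpq, hpr, hqr, cp, cq, cr, cfix⟩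
  · exact Cfsg.Agent.Lib.Helper76.MD.real_bound g key
  · exfalso
    apply hA
    have hH : MulAction.IsPreprimitive ↥(MulAction.toPermHom G Ω).range Ω := by
      let φ : G → ↥(MulAction.toPermHom G Ω).range := (MulAction.toPermHom G Ω).rangeRestrict
      let f : Ω →ₑ[φ] Ω := { toFun := id, map_smul' := fun g x => rfl }
      exact MulAction.IsPreprimitive.of_surjective (f := f) Function.surjective_id
    have e : MulAction.toPermHom G Ω c = Equiv.swap p r * Equiv.swap p q := by
      ext y
      show c • y = Equiv.swap p r (Equiv.swap p q y)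
      by_cases h1 : y = p
      · rw [h1, Equiv.swap_apply_left, Equiv.swap_apply_of_ne_of_ne (Ne.symm hpq) hqr, cp]
      by_cases h2 : y = q
      · rw [h2, Equiv.swap_apply_right, Equiv.swap_apply_left, cq]
      by_cases h3 : y = r
      · rw [h3, Equiv.swap_apply_of_ne_of_ne (Ne.symm hpr) (Ne.symm hqr),
          Equiv.swap_apply_right, cr]
      · rw [Equiv.swap_apply_of_ne_of_ne h1 h2, Equiv.swap_apply_of_ne_of_ne h1 h3,
          cfix y h1 h2 h3]
    have h3c : (Equiv.swap p r * Equiv.swap p q).IsThreeCycle :=
      Equiv.Perm.isThreeCycle_swap_mul_swap_same hpr hpq (Ne.symm hqr)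
    exact Equiv.Perm.alternatingGroup_le_of_isPreprimitive_of_isThreeCycle_mem hH h3c
      (e ▸ ⟨c, rfl⟩)

end Cfsg.Agent.S5713
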