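import Cfsg.Statements.S5729
import Mathlib

set_option autoImplicit false
open Cfsg

namespace Cfsg.Agent.S5729

open MulAction

theorem card_fixedBy_prod {G Ω : Type*} [Group G] [MulAction G Ω] [Fintype Ω] [DecidableEq Ω] (g : G) :
    Fintype.card (fixedBy (Ω × Ω) g) = Fintype.card (fixedBy Ω g) * Fintype.card (fixedBy Ω g) := by
  rw [← Fintype.card_prod]
  refine Fintype.card_congr
    { toFun := fun x => (⟨x.1.1, congrArg Prod.fst x.2⟩, ⟨x.1.2, congrArg Prod.snd x.2⟩)
      invFun := fun y => ⟨(y.1.1, y.2.1), Prod.ext y.1.2 y.2.2⟩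
      left_inv := fun x => by ext <;> rfl
      right_inv := fun y => by ext <;> rfl }

/-- Let a finite group G act faithfully and transitively on a set with n ≥ 3 points. Then either G is a Frobenius permutation group (Frobenius as a permutation group: transitive, some non-identity element fixes a point, and no non-identity element fixes two points) of order n(n − 1) and exactly |G|/n of its elements are derangements (fix no point), or the number of derangements is greater than |G|/n. -/
theorem result {G Ω : Type*} [Group G] [Finite G] [MulAction G Ω] [FaithfulSMul G Ω] [Fintype Ω] (htr : MulAction.IsPretransitive G Ω) (hn : 3 ≤ Fintype.card Ω) :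
    ((MulAction.IsPretransitive G Ω ∧ (∃ g : G, g ≠ 1 ∧ ∃ ω : Ω, g • ω = ω) ∧ ∀ g : G, g ≠ 1 → Nat.card (MulAction.fixedBy Ω g) ≤ 1) ∧ Nat.card G = Fintype.card Ω * (Fintype.card Ω - 1) ∧ Fintype.card Ω * Nat.card {g : G // ∀ ω : Ω, g • ω ≠ ω} = Nat.card G) ∨
    Nat.card G < Fintype.card Ω * Nat.card {g : G // ∀ ω : Ω, g • ω ≠ ω} := by
  classical
  have : Fintype G := Fintype.ofFinite G
  have : Fintype (Quotient (orbitRel G Ω)) := Fintype.ofFinite _
  have : Fintype (Quotient (orbitRel G (Ω × Ω))) := Fintype.ofFinite _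
  set n := Fintype.card Ω with hn_def
  have hne : Nonempty Ω := Fintype.card_pos_iff.mp (by omega)
  let f : G → ℕ := fun g => Fintype.card (fixedBy Ω g)
  have hfle : ∀ g, f g ≤ n := fun g => Fintype.card_le_of_injective _ Subtype.val_injective
  have hf0 : ∀ g, f g = 0 ↔ ∀ ω : Ω, g • ω ≠ ω := by
    intro g
    rw [Fintype.card_eq_zero_iff]
    constructor
    · intro h ω hω; exact h.false ⟨ω, hω⟩
    · intro h; exact ⟨fun x => h x.1 x.2⟩
  have hfn : ∀ g, f g = n → g = 1 := by
    intro g hg
    have huniv : (fixedBy Ω g).toFinset = Finset.univ := by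
      apply Finset.eq_univ_of_card
      rw [Set.toFinset_card]; exact hg
    apply FaithfulSMul.eq_of_smul_eq_smul (α := Ω)
    intro ω
    have : ω ∈ (fixedBy Ω g).toFinset := huniv ▸ Finset.mem_univ ω
    rw [Set.mem_toFinset] at this
    rw [one_smul]; exact this
  have hf1 : f 1 = n := by
    show Fintype.card (fixedBy Ω (1 : G)) = n
    rw [hn_def]
    apply Fintype.card_congr
    exact { toFun := fun x => x.1, invFun := fun x => ⟨x, by simp⟩, left_inv := fun x => rfl, right_inv := fun x => rfl }
  -- Burnside on Ω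
  have hS1 : ∑ g, f g = Fintype.card G := by
    have h := sum_card_fixedBy_eq_card_orbits_mul_card_group G Ω
    have h1 : Fintype.card (Quotient (orbitRel G Ω)) = 1 := by
      rw [Fintype.card_eq_one_iff]
      obtain ⟨ω⟩ := hne
      refine ⟨Quotient.mk'' ω, fun q => ?_⟩
      induction q using Quotient.inductionOn' with
      | h a =>
        apply Quotient.sound'
        obtain ⟨g, hg⟩ := htr.exists_smul_eq ω a
        exact ⟨g, hg⟩
    rw [h1, one_mul] at h
    exact h
  -- Burnside on Ω × Ω
  obtain ⟨r, hr2, hS2⟩ : ∃ r, 2 ≤ r ∧ ∑ g, f g * f g = r * Fintype.card G := by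
    refine ⟨Fintype.card (Quotient (orbitRel G (Ω × Ω))), ?_, ?_⟩
    · obtain ⟨a, b, hab⟩ := Fintype.exists_pair_of_one_lt_card (by omega : 1 < Fintype.card Ω)
      have hne2 : (Quotient.mk'' (a, a) : Quotient (orbitRel G (Ω × Ω))) ≠ Quotient.mk'' (a, b) := by
        intro h
        have h' := Quotient.exact' h
        obtain ⟨g, hg⟩ := h'
        have h1 : g • a = a := congrArg Prod.fst hg
        have h2 : g • b = a := congrArg Prod.snd hg
        exact hab (smul_left_cancel g (h1.trans h2.symm))
      have := Fintype.one_lt_card_iff.mpr ⟨_, _, hne2⟩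
      omega
    · have h := sum_card_fixedBy_eq_card_orbits_mul_card_group G (Ω × Ω)
      rw [← h]
      apply Finset.sum_congr rfl
      intro g _
      rw [card_fixedBy_prod]
  -- derangements
  have hd : Nat.card {g : G // ∀ ω : Ω, g • ω ≠ ω} = (Finset.univ.filter (fun g : G => f g = 0)).card := by
    rw [Nat.card_eq_fintype_card, Fintype.card_subtype]
    congr 1
    ext g
    simp only [Finset.mem_filter, Finset.mem_univ, true_and]
    exact (hf0 g).symm
  set d := Nat.card {g : G // ∀ ω : Ω, g • ω ≠ ω} with hd_def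
  have hcG : Nat.card G = Fintype.card G := Nat.card_eq_fintype_card
  set c := Fintype.card G with hc_def
  have hcpos : 0 < c := Fintype.card_pos
  -- integer identities
  let t : G → ℤ := fun g => if f g = 0 then 0 else ((f g : ℤ) - 1) * ((n : ℤ) - f g)
  have ht_nonneg : ∀ g, 0 ≤ t g := by
    intro g
    simp only [t]
    split_ifs with h
    · exact le_rfl
    · have h1 : (1 : ℤ) ≤ f g := by exact_mod_cast Nat.one_le_iff_ne_zero.mpr h
      have h2 : (f g : ℤ) ≤ n := by exact_mod_cast hfle g
      exact mul_nonneg (by linarith) (by linarith)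
  have hkey : ∀ g, ((f g : ℤ) - 1) * ((f g : ℤ) - n) = (n : ℤ) * (if f g = 0 then 1 else 0) - t g := by
    intro g
    simp only [t]
    split_ifs with h
    · rw [h]; push_cast; ring
    · ring
  have hsum : ∑ g, ((f g : ℤ) - 1) * ((f g : ℤ) - n) = (n : ℤ) * d - ∑ g, t g := by
    rw [Finset.sum_congr rfl (fun g _ => hkey g), Finset.sum_sub_distrib, ← Finset.mul_sum]
    congr 2
    rw [hd, Finset.card_filter]
    push_cast
    rfl
  have hsum2 : ∑ g, ((f g : ℤ) - 1) * ((f g : ℤ) - n) = ((r : ℤ) - 1) * c := by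
    have e : ∀ g, ((f g : ℤ) - 1) * ((f g : ℤ) - n) = (f g : ℤ) * f g - ((n : ℤ) + 1) * f g + n := by
      intro g; ring
    rw [Finset.sum_congr rfl (fun g _ => e g), Finset.sum_add_distrib, Finset.sum_sub_distrib, ← Finset.mul_sum]
    have e1 : ∑ g, (f g : ℤ) * f g = (r : ℤ) * c := by exact_mod_cast hS2
    have e2 : ∑ g, (f g : ℤ) = c := by exact_mod_cast hS1
    rw [e1, e2]
    simp only [Finset.sum_const, Finset.card_univ, nsmul_eq_mul]
    rw [← hc_def]
    ring
  have hT : 0 ≤ ∑ g, t g := Finset.sum_nonneg (fun g _ => ht_nonneg g)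
  have hmain : (n : ℤ) * d = ((r : ℤ) - 1) * c + ∑ g, t g := by linarith
  by_cases hlt : Nat.card G < n * d
  · right; exact hlt
  left
  have hle : (n : ℤ) * d ≤ c := by
    rw [hcG] at hlt
    exact_mod_cast Nat.le_of_not_lt hlt
  have hr2' : (2 : ℤ) ≤ r := by exact_mod_cast hr2
  have hcpos' : (0 : ℤ) < c := by exact_mod_cast hcpos
  have hr : (r : ℤ) = 2 := by
    by_contra hne3
    have h3 : (3 : ℤ) ≤ r := by omega
    nlinarith
  have hT0 : ∑ g, t g = 0 := by
    rw [hr] at hmain
    linarith
  have hnd : (n : ℤ) * d = c := by rw [hmain, hr, hT0]; ring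
  have ht0 : ∀ g, t g = 0 := by
    intro g
    exact (Finset.sum_eq_zero_iff_of_nonneg (fun g _ => ht_nonneg g)).mp hT0 g (Finset.mem_univ g)
  have hvals : ∀ g, g ≠ 1 → f g = 0 ∨ f g = 1 := by
    intro g hg
    by_cases h0 : f g = 0
    · left; exact h0
    · right
      have h := ht0 g
      simp only [t, if_neg h0] at h
      rcases mul_eq_zero.mp h with h1 | h1
      · have : (f g : ℤ) = 1 := by linarith
        exact_mod_cast this
      · exfalso
        apply hg
        apply hfn
        have : (f g : ℤ) = n := by linarith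
        exact_mod_cast this
  -- order of G
  have hcn : (c : ℤ) = (n : ℤ) * n - n := by
    have e1 : ∑ g, (f g : ℤ) * f g = (r : ℤ) * c := by exact_mod_cast hS2
    have e2 : ∑ g, (f g : ℤ) = c := by exact_mod_cast hS1
    have e3 : ∑ g, ((f g : ℤ) * f g - f g) = (n : ℤ) * n - n := by
      rw [Finset.sum_eq_single (1 : G)]
      · rw [hf1]
      · intro g _ hg
        rcases hvals g hg with h | h <;> rw [h] <;> simp
      · intro h; exact absurd (Finset.mem_univ _) h
    rw [Finset.sum_sub_distrib, e1, e2, hr] at e3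
    linarith
  have hn3 : (3 : ℤ) ≤ n := by exact_mod_cast hn
  have hcard : Nat.card G = n * (n - 1) := by
    rw [hcG]
    have : (c : ℤ) = ((n * (n - 1) : ℕ) : ℤ) := by
      rw [hcn]
      push_cast [Nat.cast_sub (by omega : 1 ≤ n)]
      ring
    exact_mod_cast this
  refine ⟨⟨htr, ?_, ?_⟩, hcard, ?_⟩
  · -- a nonidentity element fixing a point
    obtain ⟨ω⟩ := hne
    have hstab : Nat.card (orbit G ω) * Nat.card (stabilizer G ω) = Nat.card G := by
      have h := card_orbit_mul_card_stabilizer_eq_card_group G ω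
      simpa only [Nat.card_eq_fintype_card] using h
    have horb : Nat.card (orbit G ω) = n := by
      rw [orbit_eq_univ, Nat.card_coe_set_eq, Set.ncard_univ, Nat.card_eq_fintype_card]
    rw [horb, hcard] at hstab
    have hs : Nat.card (stabilizer G ω) = n - 1 := by
      have hnpos : 0 < n := by omega
      exact Nat.eq_of_mul_eq_mul_left hnpos hstab
    have hnt : Nontrivial (stabilizer G ω) := by
      apply Finite.one_lt_card_iff_nontrivial.mp
      rw [hs]; omega
    obtain ⟨x, hx⟩ := exists_ne (1 : stabilizer G ω)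
    refine ⟨x, fun h => hx (Subtype.ext h), ω, x.2⟩
  · intro g hg
    rw [Nat.card_eq_fintype_card]
    rcases hvals g hg with h | h
    · show f g ≤ 1
      omega
    · show f g ≤ 1
      omega
  · rw [hcG]
    exact_mod_cast hnd

end Cfsg.Agent.S5729
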