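import Cfsg.Statements.S5738
import Mathlib

set_option autoImplicit false
open Cfsg

namespace Cfsg.Agent.S5738

section
variable {F K : Type*} [Field F] [Field K] [Algebra F K]

/-- multiplication by a unit of `K` as a unit of `End_F K` -/
noncomputable def mulU (a : Kˣ) : (Module.End F K)ˣ :=
  Units.map ((Algebra.lmul F K : K →ₐ[F] Module.End F K) : K →* Module.End F K) a

theorem mulU_apply (a : Kˣ) (x : K) : ((mulU (F := F) a : (Module.End F K)ˣ) : Module.End F K) x = a * x := rfl

/-- an automorphism as a unit of `End_F K` -/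
def autU (σ : K ≃ₐ[F] K) : (Module.End F K)ˣ :=
  LinearMap.GeneralLinearGroup.ofLinearEquiv σ.toLinearEquiv

theorem autU_apply (σ : K ≃ₐ[F] K) (x : K) : ((autU σ : (Module.End F K)ˣ) : Module.End F K) x = σ x := rfl

noncomputable def semi (p : Kˣ × (K ≃ₐ[F] K)) : (Module.End F K)ˣ := mulU p.1 * autU p.2

theorem semi_apply (p : Kˣ × (K ≃ₐ[F] K)) (x : K) :
    ((semi p : (Module.End F K)ˣ) : Module.End F K) x = p.1 * p.2 x := rfl

theorem semi_injective : Function.Injective (semi : Kˣ × (K ≃ₐ[F] K) → (Module.End F K)ˣ) := by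
  intro p q h
  have h' : ∀ x : K, (p.1 : K) * p.2 x = q.1 * q.2 x := by
    intro x
    rw [← semi_apply, ← semi_apply, h]
  have h1 : (p.1 : K) = q.1 := by simpa using h' 1
  have h2 : p.2 = q.2 := by
    ext x
    have := h' x
    rw [h1] at this
    exact mul_left_cancel₀ q.1.ne_zero this
  exact Prod.ext (Units.ext h1) h2

theorem units_end_ext {g h : (Module.End F K)ˣ}
    (H : ∀ x : K, (g : Module.End F K) x = (h : Module.End F K) x) : g = h :=
  Units.ext (LinearMap.ext H)

theorem semi_mul_mulU (p : Kˣ × (K ≃ₐ[F] K)) (k : Kˣ) :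
    semi p * mulU k = mulU (Units.map (p.2 : K →* K) k) * semi p := by
  apply units_end_ext
  intro x
  simp only [Units.val_mul, Module.End.mul_apply, semi_apply, mulU_apply, Units.coe_map, map_mul]
  simp only [MonoidHom.coe_coe]
  ring

theorem semi_mem_normalizer (p : Kˣ × (K ≃ₐ[F] K)) :
    semi p ∈ Subgroup.normalizer (((Units.map ((Algebra.lmul F K : K →ₐ[F] Module.End F K) : K →* Module.End F K)).range : Subgroup (Module.End F K)ˣ) : Set (Module.End F K)ˣ) := by
  rw [Subgroup.mem_normalizer_iff]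
  intro h
  constructor
  · rintro ⟨k, rfl⟩
    refine ⟨Units.map (p.2 : K →* K) k, ?_⟩
    show mulU (Units.map (p.2 : K →* K) k) = semi p * mulU k * (semi p)⁻¹
    rw [semi_mul_mulU, mul_inv_cancel_right]
  · rintro ⟨k, hk⟩
    refine ⟨Units.map (p.2.symm : K →* K) k, ?_⟩
    have hk' : mulU k = semi p * h * (semi p)⁻¹ := hk
    have e := semi_mul_mulU p (Units.map (p.2.symm : K →* K) k)
    have e2 : Units.map (p.2 : K →* K) (Units.map (p.2.symm : K →* K) k) = k := by
      ext; simp
    rw [e2, hk'] at e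
    show mulU (Units.map (p.2.symm : K →* K) k) = h
    have e3 : semi p * mulU (Units.map (p.2.symm : K →* K) k) = semi p * h := by
      rw [e]; group
    exact mul_left_cancel e3

theorem normalizer_subset [FiniteDimensional F K] (g : (Module.End F K)ˣ)
    (hg : g ∈ Subgroup.normalizer (((Units.map ((Algebra.lmul F K : K →ₐ[F] Module.End F K) : K →* Module.End F K)).range : Subgroup (Module.End F K)ˣ) : Set (Module.End F K)ˣ)) :
    ∃ p : Kˣ × (K ≃ₐ[F] K), semi p = g := by
  rw [Subgroup.mem_normalizer_iff] at hg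
  have hgg : ∀ x : K, (g : Module.End F K) (((g⁻¹ : (Module.End F K)ˣ) : Module.End F K) x) = x := by
    intro x
    rw [← Module.End.mul_apply, ← Units.val_mul, mul_inv_cancel]; rfl
  have hgg' : ∀ x : K, ((g⁻¹ : (Module.End F K)ˣ) : Module.End F K) ((g : Module.End F K) x) = x := by
    intro x
    rw [← Module.End.mul_apply, ← Units.val_mul, inv_mul_cancel]; rfl
  set e : K := ((g⁻¹ : (Module.End F K)ˣ) : Module.End F K) 1 with he
  let τ₀ : K →ₗ[F] K := (g : Module.End F K) ∘ₗ (Algebra.lmul F K e)
  have hτ₀ : ∀ k, τ₀ k = (g : Module.End F K) (e * k) := fun k => rfl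
  have key : ∀ k x : K, (g : Module.End F K) (k * ((g⁻¹ : (Module.End F K)ˣ) : Module.End F K) x) = τ₀ k * x := by
    intro k x
    by_cases hk : k = 0
    · subst hk; simp [hτ₀]
    · obtain ⟨b, hb⟩ := (hg (mulU (Units.mk0 k hk))).mp ⟨Units.mk0 k hk, rfl⟩
      have hb' : mulU b = g * mulU (Units.mk0 k hk) * g⁻¹ := hb
      have h1 : ∀ y : K, (b : K) * y = (g : Module.End F K) (k * ((g⁻¹ : (Module.End F K)ˣ) : Module.End F K) y) := by
        intro y
        rw [← mulU_apply (F := F) b y, hb']
        rfl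
      have h2 : (b : K) = τ₀ k := by
        have := h1 1
        rw [mul_one] at this
        rw [this, hτ₀, mul_comm]
      rw [← h1, h2]
  have hmul : ∀ k k' : K, τ₀ (k * k') = τ₀ k * τ₀ k' := by
    intro k k'
    have := key k (τ₀ k')
    rw [hτ₀ k', hgg'] at this
    rw [← hτ₀ k'] at this
    rw [← this, hτ₀ (k * k')]
    congr 1; ring
  have hone : τ₀ 1 = 1 := by
    rw [hτ₀, mul_one, he, hgg]
  let τ : K →ₐ[F] K := AlgHom.ofLinearMap τ₀ hone hmul
  let σ : K ≃ₐ[F] K := (Algebra.IsAlgebraic.algEquivEquivAlgHom F K).symm τ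
  have hσ : ∀ x, σ x = τ₀ x := by
    intro x
    have : ((Algebra.IsAlgebraic.algEquivEquivAlgHom F K) σ) x = τ x := by
      simp [σ]
    exact this
  have hgx : ∀ x : K, (g : Module.End F K) x = (g : Module.End F K) 1 * τ₀ x := by
    intro x
    have := key x ((g : Module.End F K) 1)
    rw [hgg', mul_one] at this
    rw [this, mul_comm]
  have hg1 : (g : Module.End F K) 1 ≠ 0 := by
    intro h0
    have := hgg' 1
    rw [h0, map_zero] at this
    exact zero_ne_one this
  refine ⟨(Units.mk0 _ hg1, σ), ?_⟩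
  apply units_end_ext
  intro x
  rw [semi_apply, hgx x, hσ]
  rfl

end

/-- Let F ⊆ K be finite fields with |F| = q and [K : F] = n ≥ 2, so |K| = q^n. Regard K as an n-dimensional F-vector space; the multiplications by non-zero elements of K form a cyclic subgroup of GL_F(K) of order q^n − 1 acting regularly on the non-zero vectors (a Singer group). Its normaliser in GL_F(K) has order n·(q^n − 1). -/
theorem result {F K : Type*} [Field F] [Fintype F] [Field K] [Fintype K] [Algebra F K] (n : ℕ) (hn : 2 ≤ n) (hdim : Module.finrank F K = n) :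
    Nat.card (Subgroup.normalizer (((Units.map ((Algebra.lmul F K : K →ₐ[F] Module.End F K) : K →* Module.End F K)).range : Subgroup (Module.End F K)ˣ) : Set (Module.End F K)ˣ)) = n * (Fintype.card K - 1) := by
  classical
  have hfd : FiniteDimensional F K := Module.Finite.of_finite
  let Ψ : Kˣ × (K ≃ₐ[F] K) → Subgroup.normalizer (((Units.map ((Algebra.lmul F K : K →ₐ[F] Module.End F K) : K →* Module.End F K)).range : Subgroup (Module.End F K)ˣ) : Set (Module.End F K)ˣ) :=
    fun p => ⟨semi p, semi_mem_normalizer p⟩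
  have hΨ : Function.Bijective Ψ := by
    constructor
    · intro p q h
      exact semi_injective (congrArg Subtype.val h)
    · rintro ⟨g, hg⟩
      obtain ⟨p, hp⟩ := normalizer_subset g hg
      exact ⟨p, Subtype.ext hp⟩
  rw [← Nat.card_congr (Equiv.ofBijective Ψ hΨ), Nat.card_prod, IsGalois.card_aut_eq_finrank, hdim,
    Nat.card_eq_fintype_card, Fintype.card_units, mul_comm]

end Cfsg.Agent.S5738
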