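import Cfsg.Statements.S5739
import Mathlib

set_option autoImplicit false
open Cfsg

namespace Cfsg.Agent.S5739

section
variable {F K : Type*} [Field F] [Field K] [Algebra F K]

noncomputable def mulU (a : Kˣ) : (Module.End F K)ˣ :=
  Units.map ((Algebra.lmul F K : K →ₐ[F] Module.End F K) : K →* Module.End F K) a

theorem mulU_val (a : Kˣ) :
    ((mulU (F := F) a : (Module.End F K)ˣ) : Module.End F K) = Algebra.lmul F K (a : K) := rfl

theorem lmul_injective : Function.Injective (Algebra.lmul F K : K → Module.End F K) := by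
  intro a b h
  have := congrArg (fun f : Module.End F K => f 1) h
  simpa using this

theorem mulU_injective : Function.Injective (mulU : Kˣ → (Module.End F K)ˣ) := by
  intro a b h
  have h' := congrArg (fun u : (Module.End F K)ˣ => (u : Module.End F K)) h
  simp only [mulU_val] at h'
  exact Units.ext (lmul_injective h')

/-- elements whose multiplication map is a `g`-conjugate of a multiplication map -/
def conjSub (g : (Module.End F K)ˣ) : Subalgebra F K where
  carrier := {k | ∃ k' : K, (g : Module.End F K) * Algebra.lmul F K k' *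
    ((g⁻¹ : (Module.End F K)ˣ) : Module.End F K) = Algebra.lmul F K k}
  mul_mem' := by
    rintro a b ⟨a', ha⟩ ⟨b', hb⟩
    refine ⟨a' * b', ?_⟩
    rw [map_mul, map_mul, ← ha, ← hb]
    simp only [mul_assoc, Units.inv_mul_cancel_left]
  add_mem' := by
    rintro a b ⟨a', ha⟩ ⟨b', hb⟩
    refine ⟨a' + b', ?_⟩
    rw [map_add, map_add, ← ha, ← hb, mul_add, add_mul]
  algebraMap_mem' := by
    intro c
    refine ⟨algebraMap F K c, ?_⟩
    rw [AlgHom.commutes, ← Algebra.commutes c (g : Module.End F K), mul_assoc, Units.mul_inv, mul_one]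

theorem mem_conjSub (g : (Module.End F K)ˣ) (k : K) : k ∈ conjSub g ↔
    ∃ k' : K, (g : Module.End F K) * Algebra.lmul F K k' *
    ((g⁻¹ : (Module.End F K)ˣ) : Module.End F K) = Algebra.lmul F K k := Iff.rfl

theorem mulU_mem_conj_iff (g : (Module.End F K)ˣ) (k : Kˣ) :
    mulU k ∈ ((Units.map ((Algebra.lmul F K : K →ₐ[F] Module.End F K) : K →* Module.End F K)).range).map
      (MulAut.conj g).toMonoidHom ↔ (k : K) ∈ conjSub g := by
  constructor
  · rintro ⟨h, ⟨b, rfl⟩, hb⟩
    refine ⟨(b : K), ?_⟩
    have hb' : g * mulU b * g⁻¹ = mulU k := hb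
    have := congrArg (fun u : (Module.End F K)ˣ => (u : Module.End F K)) hb'
    simpa only [Units.val_mul, mulU_val] using this
  · rintro ⟨k', hk'⟩
    have hk'0 : k' ≠ 0 := by
      rintro rfl
      rw [map_zero, mul_zero, zero_mul] at hk'
      have : (k : K) = 0 := lmul_injective (by rw [← hk', map_zero])
      exact k.ne_zero this
    refine ⟨mulU (Units.mk0 k' hk'0), ⟨Units.mk0 k' hk'0, rfl⟩, ?_⟩
    show g * mulU (Units.mk0 k' hk'0) * g⁻¹ = mulU k
    apply Units.ext
    simp only [Units.val_mul, mulU_val, Units.val_mk0]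
    exact hk'

end

/-- Let F ⊆ K be finite fields with |F| = q and [K : F] = n ≥ 2, and let M ≤ GL_F(K) be the Singer group of multiplications by non-zero elements of K. If g ∈ GL_F(K) does not normalise M, then the order of M ∩ gMg⁻¹ divides q^r − 1 for some proper divisor r of n. In particular, when n is prime, that order divides q − 1. -/
theorem result {F K : Type*} [Field F] [Fintype F] [Field K] [Fintype K] [Algebra F K] (n : ℕ) (hn : 2 ≤ n) (hdim : Module.finrank F K = n)
    (g : (Module.End F K)ˣ) (hg : ((Units.map ((Algebra.lmul F K : K →ₐ[F] Module.End F K) : K →* Module.End F K)).range).map (MulAut.conj g).toMonoidHom ≠ (Units.map ((Algebra.lmul F K : K →ₐ[F] Module.End F K) : K →* Module.End F K)).range) :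
    ∃ r : ℕ, 1 ≤ r ∧ r ∣ n ∧ r < n ∧ Nat.card ↥(((Units.map ((Algebra.lmul F K : K →ₐ[F] Module.End F K) : K →* Module.End F K)).range).map (MulAut.conj g).toMonoidHom ⊓ (Units.map ((Algebra.lmul F K : K →ₐ[F] Module.End F K) : K →* Module.End F K)).range) ∣ Fintype.card F ^ r - 1 := by
  classical
  have hfd : FiniteDimensional F K := Module.Finite.of_finite
  have hfinE : Finite (Module.End F K) := Finite.of_injective (fun f => (f : K → K)) DFunLike.coe_injective
  set M : Subgroup (Module.End F K)ˣ := (Units.map ((Algebra.lmul F K : K →ₐ[F] Module.End F K) : K →* Module.End F K)).range with hM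
  let L : IntermediateField F K := (conjSub g).toIntermediateField' (Subalgebra.isField_of_algebraic _)
  have hLmem : ∀ k : K, k ∈ L ↔ k ∈ conjSub g := fun k => Iff.rfl
  have hmul : Module.finrank F L * Module.finrank L K = n := by
    rw [Module.finrank_mul_finrank F L K, hdim]
  have hr1 : 1 ≤ Module.finrank F L := Module.finrank_pos
  have hrdvd : Module.finrank F L ∣ n := ⟨_, hmul.symm⟩
  refine ⟨Module.finrank F L, hr1, hrdvd, ?_, ?_⟩
  · -- r < n
    by_contra hnot
    have hrn : Module.finrank F L = n := le_antisymm (Nat.le_of_dvd (by omega) hrdvd) (not_lt.mp hnot)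
    have htop : L = ⊤ := by
      apply IntermediateField.eq_of_le_of_finrank_eq le_top
      rw [hrn, IntermediateField.finrank_top', hdim]
    have hall : ∀ k : K, k ∈ conjSub g := fun k => (hLmem k).mp (htop ▸ IntermediateField.mem_top)
    apply hg
    symm
    apply Subgroup.eq_of_le_of_card_ge
    · rintro h ⟨a, rfl⟩
      exact (mulU_mem_conj_iff g a).mpr (hall a)
    · rw [Subgroup.card_map_of_injective (MulAut.conj g).injective]
  · -- cardinality
    let Ψ : Lˣ → ↥(M.map (MulAut.conj g).toMonoidHom ⊓ M) := fun k =>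
      ⟨mulU (Units.map (L.val : L →* K) k),
        (mulU_mem_conj_iff g _).mpr ((hLmem _).mp (k : L).2), ⟨_, rfl⟩⟩
    have hΨ : Function.Bijective Ψ := by
      constructor
      · intro a b hab
        have h1 := congrArg Subtype.val hab
        have h2 := mulU_injective h1
        exact Units.map_injective (f := (L.val : L →* K)) Subtype.val_injective h2
      · rintro ⟨h, hc, ⟨a, rfl⟩⟩
        have ha : (a : K) ∈ L := (hLmem _).mpr ((mulU_mem_conj_iff g a).mp hc)
        have ha0 : (⟨(a : K), ha⟩ : L) ≠ 0 := by
          intro h0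
          exact a.ne_zero (congrArg Subtype.val h0)
        refine ⟨Units.mk0 ⟨(a : K), ha⟩ ha0, ?_⟩
        apply Subtype.ext
        show mulU (Units.map (L.val : L →* K) (Units.mk0 ⟨(a : K), ha⟩ ha0)) = mulU a
        congr 1
        exact Units.ext rfl
    rw [← Nat.card_congr (Equiv.ofBijective Ψ hΨ), Nat.card_units, Module.natCard_eq_pow_finrank (K := F) (V := L),
      Nat.card_eq_fintype_card]

end Cfsg.Agent.S5739
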