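import Cfsg.Statements.S5746
import Mathlib
import Cfsg.Agent.S1679
import Cfsg.Agent.Lib.Helper36.G2ThreeFin
import Cfsg.Agent.Lib.Helper95.IcoJ
import Cfsg.Agent.Lib.Helper7.EPPerm
import Cfsg.Agent.Lib.Helper72.EPISO
import Cfsg.Agent.Lib.Helper30.EPTRANSPORT
import Cfsg.Agent.Lib.Helper85.EPTWOPT
import Cfsg.Agent.Lib.Helper64.EPCONJ
import Cfsg.Agent.Lib.Helper28.EPRESTR
import Cfsg.Agent.Lib.Helper40.EPCARD
import Cfsg.Agent.Lib.Helper56.EPHINV

set_option autoImplicit false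
open Cfsg

namespace Cfsg.Agent.S5746

open Cfsg.Lie Cfsg.Agent.Lib.Helper38 Cfsg.Agent.Lib.Helper39.SuzOrd
open Cfsg.Agent.Lib.Helper7.Sims Cfsg.Agent.Lib.Helper7.EPD Cfsg.Agent.Lib.Helper7.EP
  Cfsg.Agent.Lib.Helper7.EPP

set_option maxRecDepth 100000
set_option maxHeartbeats 0

theorem finW : Finite (WP 6 W6) := cardF.1

theorem cardW : Nat.card (WP 6 W6) = 251596800 := by
  have := finW
  have h1 : 4095 * (1024 * 60) ≤ Nat.card (Cfsg.Agent.S1679.θ').range :=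
    Cfsg.Agent.Lib.Helper99.G24.card_lb _ Cfsg.Agent.S1679.imgU_range
  have h2 : Nat.card (WP 6 W6) ≤ 416 * (280 * 2160) := cardF.2
  have h3 : Nat.card (Cfsg.Agent.S1679.θ').range ≤ Nat.card (WP 6 W6) :=
    Nat.card_le_card_of_surjective _ (Cfsg.Agent.S1679.θ').rangeRestrict_surjective
  omega

/-- the point stabiliser of the action on 416 points -/
noncomputable abbrev Hs : Subgroup (WP 6 W6) :=
  (MulAction.stabilizer (Equiv.Perm (Fin 416)) (0 : Fin 416)).comap epi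

theorem mem_Hs (l : WP 6 W6) : l ∈ Hs ↔ epi l 0 = 0 := Iff.rfl

theorem lev0_inv : ∀ l ∈ Subgroup.closure (SS epS0), ∀ i : Fin 416,
    cc epC0 (epi l i) = cc epC0 i :=
  (level epS0 epC0 epR0 epPG0 lev0a lev0b).1

theorem lev0_conn : ∀ i j : Fin 416, cc epC0 i = cc epC0 j →
    ∃ l ∈ Subgroup.closure (SS epS0), epi l i = j :=
  (level epS0 epC0 epR0 epPG0 lev0a lev0b).2

theorem c0_zero (i : Fin 416) : cc epC0 i = 0 ↔ i = 0 := by
  have h := (c0_facts i i.2).1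
  constructor
  · intro hi
    exact Fin.ext (h.1 hi)
  · intro hi
    exact h.2 (congrArg Fin.val hi)

theorem c0_le (i : Fin 416) : cc epC0 i ≤ 2 := (c0_facts i i.2).2.1

theorem L0_le : Subgroup.closure (SS epS0) ≤ Hs := by
  intro l hl
  rw [mem_Hs]
  exact (c0_zero _).1 ((lev0_inv l hl 0).trans ((c0_zero 0).2 rfl))

theorem trans0 (i : Fin 416) : ∃ x : WP 6 W6, epi x 0 = i := by
  have h := (c0_facts i i.2).2.2
  obtain ⟨l, _, hl⟩ := lev0_conn (epi (elt (epTW.getD (cc epC0 i) [])) 0) i (by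
    show ap9 epC0 ((epi (elt (epTW.getD (cc epC0 i) [])) 0 : Fin 416) : ℕ) = ap9 epC0 i
    rw [epi_elt_apply]
    exact h)
  exact ⟨l * elt (epTW.getD (cc epC0 i) []), by rw [map_mul, Equiv.Perm.mul_apply]; exact hl⟩

theorem cardH : Nat.card Hs = 604800 := by
  have := finW
  have h : Nat.card Hs * 416 = Nat.card (WP 6 W6) := EPCARD epi 0 trans0
  rw [cardW] at h
  omega

theorem hinvH : ∀ h ∈ Hs, ∀ i : Fin 416, cc epC0 (epi h i) = cc epC0 i := by
  have := finW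
  apply EPHINV epi 0 (cc epC0) (Subgroup.closure (SS epS0)) L0_le c0_zero c0_le lev0_conn
  rw [cardH]
  decide

theorem coatomH : IsCoatom Hs := by
  have := finW
  apply coatom_of epi 0 3 epC0 (Subgroup.closure (SS epS0)) epSZ0 416
  · intro l hl
    exact (mem_Hs l).1 (L0_le hl)
  · intro i
    exact ⟨fun _ => trans0 i, fun _ => Nat.lt_succ_of_le (c0_le i)⟩
  · intro i j _ hij
    exact lev0_conn i j hij
  · exact sz0
  · exact tot0
  · exact ar0
  · refine ⟨elt [5], fun h => ?_⟩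
    have h' := congrArg Fin.val h
    rw [epi_elt_apply] at h'
    revert h'
    decide +kernel

theorem sub_coatom (S : List (List ℕ)) (C : ℕ) (R : List ℕ) (PG : List (List ℕ)) (r b lab : ℕ)
    (hb : b < 416) (szL : List ℕ) (tot : ℕ)
    (h1 : chk1 S C = true) (h2 : chk2 S C R PG = true)
    (hf : ∀ i < 416, (ap9 C i = 0 → i = b) ∧ (ap9 C i = ap9 C 0 → i = 0) ∧
      (ap9 C i < r ↔ ap9 epC0 i = lab))
    (hb0 : ap9 C b = 0) (hbl : ap9 epC0 b = lab)
    (hsz : ∀ k ∈ Finset.range r,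
      (Finset.univ.filter (fun i : Fin 416 => cc C i = k)).card = szL.getD k 0)
    (htot : (Finset.univ.filter (fun i : Fin 416 => cc C i < r)).card = tot)
    (har : ∀ J ∈ (Finset.range r).powerset, (∑ k ∈ J, szL.getD k 0) ∣ tot →
      1 < ∑ k ∈ J, szL.getD k 0 → ∑ k ∈ J, szL.getD k 0 = tot)
    (hnt : ∃ i, ∃ hi : i < 416, ap9 epC0 i = lab ∧ i ≠ b) :
    IsCoatom ((MulAction.stabilizer (Equiv.Perm (Fin 416)) (⟨b, hb⟩ : Fin 416)).comap
      (epi.comp Hs.subtype)) := by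
  have := finW
  obtain ⟨lv1, lv2⟩ := level S C R PG h1 h2
  have hSle : Subgroup.closure (SS S) ≤ Hs := by
    intro l hl
    rw [mem_Hs]
    exact Fin.ext ((hf _ (epi l 0).2).2.1 (lv1 l hl 0))
  apply coatom_of (epi.comp Hs.subtype) ⟨b, hb⟩ r C
    ((Subgroup.closure (SS S)).comap Hs.subtype) szL tot
  · intro l hl
    exact Fin.ext ((hf _ (epi (l : WP 6 W6) ⟨b, hb⟩).2).1
      ((lv1 (l : WP 6 W6) (Subgroup.mem_comap.1 hl) ⟨b, hb⟩).trans hb0))
  · intro i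
    constructor
    · intro hi
      have hi' : ap9 epC0 i = lab := (hf i i.2).2.2.1 hi
      obtain ⟨l, hl, hli⟩ := lev0_conn ⟨b, hb⟩ i (hbl.trans hi'.symm)
      exact ⟨⟨l, L0_le hl⟩, hli⟩
    · rintro ⟨x, rfl⟩
      exact (hf _ (Fin.is_lt _)).2.2.2 ((hinvH x x.2 ⟨b, hb⟩).trans hbl)
  · intro i j _ hij
    obtain ⟨l, hl, hlij⟩ := lv2 i j hij
    exact ⟨⟨l, hSle hl⟩, hl, hlij⟩
  · exact hsz
  · exact htot
  · exact har
  · obtain ⟨i, hi, hil, hib⟩ := hnt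
    obtain ⟨l, hl, hli⟩ := lev0_conn ⟨b, hb⟩ ⟨i, hi⟩ (hbl.trans hil.symm)
    exact ⟨⟨l, L0_le hl⟩, fun h => hib (congrArg Fin.val (hli.symm.trans h))⟩

theorem coatom1 : IsCoatom ((MulAction.stabilizer (Equiv.Perm (Fin 416))
    (⟨52, by decide⟩ : Fin 416)).comap (epi.comp Hs.subtype)) :=
  sub_coatom epS1 epC1 epR1 epPG1 3 52 1 (by decide) epSZ1 100 lev1a lev1b c1_facts
    (by decide +kernel) (by decide +kernel) sz1 tot1 ar1
    ⟨53, by decide, by decide +kernel, by decide⟩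

theorem coatom2 : IsCoatom ((MulAction.stabilizer (Equiv.Perm (Fin 416))
    (⟨1, by decide⟩ : Fin 416)).comap (epi.comp Hs.subtype)) :=
  sub_coatom epS2 epC2 epR2 epPG2 6 1 2 (by decide) epSZ2 315 lev2a lev2b c2_facts
    (by decide +kernel) (by decide +kernel) sz2 tot2 ar2
    ⟨2, by decide, by decide +kernel, by decide⟩

theorem conjH : ∀ x : WP 6 W6, x ∉ Hs →
    IsCoatom ((Hs ⊓ Hs.map (MulAut.conj x).toMonoidHom).subgroupOf Hs) := by
  intro x hx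
  have e : (Hs ⊓ Hs.map (MulAut.conj x).toMonoidHom).subgroupOf Hs =
      (MulAction.stabilizer (Equiv.Perm (Fin 416)) (epi x 0)).comap (epi.comp Hs.subtype) :=
    EPTWOPT epi 0 x
  rw [e]
  have hβ0 : epi x 0 ≠ 0 := fun h => hx ((mem_Hs x).2 h)
  have h0 : cc epC0 (epi x 0) ≠ 0 := fun h => hβ0 ((c0_zero _).1 h)
  have h2 := c0_le (epi x 0)
  have hlab : cc epC0 (epi x 0) = 1 ∨ cc epC0 (epi x 0) = 2 := by omega
  rcases hlab with h | h
  · obtain ⟨l, hl, hlb⟩ := lev0_conn ⟨52, by decide⟩ (epi x 0) (by rw [h]; decide +kernel)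
    have hc := EPCONJ (epi.comp Hs.subtype) ⟨52, by decide⟩ ⟨l, L0_le hl⟩ coatom1
    rw [← hlb]
    exact hc
  · obtain ⟨l, hl, hlb⟩ := lev0_conn ⟨1, by decide⟩ (epi x 0) (by rw [h]; decide +kernel)
    have hc := EPCONJ (epi.comp Hs.subtype) ⟨1, by decide⟩ ⟨l, L0_le hl⟩ coatom2
    rw [← hlb]
    exact hc

theorem wj0 : ∀ i < 315, ap9 epE' (apW epWJ0 (ap9 epE i)) =
    ap9 Cfsg.Agent.Lib.Helper7.J2P.t0 i := by decide +kernel
theorem wj1 : ∀ i < 315, ap9 epE' (apW epWJ1 (ap9 epE i)) =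
    ap9 Cfsg.Agent.Lib.Helper7.J2P.t1 i := by decide +kernel
theorem wj2 : ∀ i < 315, ap9 epE' (apW epWJ2 (ap9 epE i)) =
    ap9 Cfsg.Agent.Lib.Helper7.J2P.t2 i := by decide +kernel
theorem wj3 : ∀ i < 315, ap9 epE' (apW epWJ3 (ap9 epE i)) =
    ap9 Cfsg.Agent.Lib.Helper7.J2P.t3 i := by decide +kernel

theorem isoJ2 : Nonempty (Hs ≃* Cfsg.Spor.J2) := by
  have := finW
  let e : Fin 315 → Fin 416 := fun i => ⟨ap9 epE i, (eE_facts i i.2).1⟩
  let e' : Fin 416 → Fin 315 := fun j => ⟨ap9 epE' j, (eE'_facts j j.2).1⟩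
  have he : ∀ i, e' (e i) = i := fun i => Fin.ext (eE_facts i i.2).2.1
  have hinv : ∀ h : Hs, ∀ i : Fin 315,
      e (e' ((epi.comp Hs.subtype) h (e i))) = (epi.comp Hs.subtype) h (e i) := by
    intro h i
    have h2 : cc epC0 (epi (h : WP 6 W6) (e i)) = 2 :=
      (hinvH h h.2 (e i)).trans (eE_facts i i.2).2.2
    exact Fin.ext ((eE'_facts _ (Fin.is_lt _)).2 h2)
  obtain ⟨r, hr⟩ := EPRESTR (epi.comp Hs.subtype) e e' he hinv
  have hmem : ∀ (w : List ℕ) (t : ℕ) (s : Equiv.Perm (Fin 315)), apW w 0 = 0 →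
      (∀ i : Fin 315, ((s i : Fin 315) : ℕ) = ap9 t i) →
      (∀ i < 315, ap9 epE' (apW w (ap9 epE i)) = ap9 t i) → s ∈ r.range := by
    intro w t s h0 hs hw
    refine ⟨⟨elt w, (mem_Hs _).2 (Fin.ext (by rw [epi_elt_apply]; exact h0))⟩,
      Equiv.ext fun i => Fin.ext ?_⟩
    rw [hr, hs]
    show ap9 epE' ((epi (elt w) (e i) : Fin 416) : ℕ) = ap9 t i
    rw [epi_elt_apply]
    exact hw i i.2
  have hle : Cfsg.Agent.Lib.Helper7.J2P.P ≤ r.range := by
    unfold Cfsg.Agent.Lib.Helper7.J2P.P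
    rw [Subgroup.closure_le]
    intro s hs
    simp only [Set.mem_insert_iff, Set.mem_singleton_iff] at hs
    rcases hs with rfl | rfl | rfl | rfl
    · exact hmem epWJ0 _ _ (by decide +kernel) Cfsg.Agent.Lib.Helper7.J2P.s0_apply wj0
    · exact hmem epWJ1 _ _ (by decide +kernel) Cfsg.Agent.Lib.Helper7.J2P.s1_apply wj1
    · exact hmem epWJ2 _ _ (by decide +kernel) Cfsg.Agent.Lib.Helper7.J2P.s2_apply wj2
    · exact hmem epWJ3 _ _ (by decide +kernel) Cfsg.Agent.Lib.Helper7.J2P.s3_apply wj3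
  have hcard : Nat.card Hs ≤ Nat.card Cfsg.Agent.Lib.Helper7.J2P.P := by
    rw [cardH, Cfsg.Agent.Lib.Helper7.J2P.card_P]
  obtain ⟨f⟩ := EPISO r _ hle hcard
  exact ⟨f.trans Cfsg.Agent.Lib.Helper95.Ico.j2IsoP.symm⟩

theorem resW : ∃ H : Subgroup (WP 6 W6), IsCoatom H ∧ Nonempty (H ≃* Cfsg.Spor.J2) ∧
    ∀ x : WP 6 W6, x ∉ H →
      IsCoatom ((H ⊓ H.map (MulAut.conj x).toMonoidHom).subgroupOf H) :=
  ⟨Hs, coatomH, isoJ2, conjH⟩


/-- The Chevalley group G₂(4) (over the field with 4 elements) has a maximal subgroup H isomorphic to the Hall–Janko group J₂ such that for every x outside H the intersection H ∩ xHx⁻¹ is a maximal subgroup of H; that is, the action of G₂(4) on the cosets of H is extremely primitive. -/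
theorem result {F : Type*} [Field F] [Fintype F] (hF : Fintype.card F = 4) :
    ∃ H : Subgroup (Cfsg.Lie.chevG2.group F), IsCoatom H ∧ Cfsg.Spor.IsoJ2 H ∧
      ∀ x : Cfsg.Lie.chevG2.group F, x ∉ H → IsCoatom ((H ⊓ H.map (MulAut.conj x).toMonoidHom).subgroupOf H) := by
  have hc : Fintype.card Cfsg.Agent.Lib.Helper99.U42.F4 = Fintype.card F := by
    rw [hF]
    exact Cfsg.Agent.Lib.Helper99.U42.F4.card
  obtain ⟨e2⟩ := Cfsg.Agent.Lib.Helper36.chev_group_equiv chevG2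
    (FiniteField.ringEquivOfCardEq hc)
  exact EPTRANSPORT ((MulEquiv.ofBijective Cfsg.Agent.S1679.θ0 Cfsg.Agent.S1679.θ0_bij).trans e2)
    resW

end Cfsg.Agent.S5746
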