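import Cfsg.Statements.S5747
import Mathlib

set_option autoImplicit false
open Cfsg

namespace Cfsg.Agent.S5747

section
variable {G Ω : Type*} [Group G] [MulAction G Ω]

def stab (S : Set G) (a : Ω) : Set G := {g | g ∈ S ∧ g • a = a}

def Irr : Set G → List Ω → Prop
  | _, [] => True
  | S, a :: l => (∃ g ∈ S, g • a ≠ a) ∧ Irr (stab S a) l

def Base (S : Set G) (l : List Ω) : Prop := ∀ g ∈ S, (∀ x ∈ l, g • x = x) → g = 1

def IBL (S : Set G) (l : List Ω) : Prop := Irr S l ∧ Base S l

def fixS (S : Set G) (p : List Ω) : Set G := {g | g ∈ S ∧ ∀ x ∈ p, g • x = x}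

theorem fixS_nil (S : Set G) : fixS S ([] : List Ω) = S := by
  ext g; simp [fixS]

theorem fixS_cons (S : Set G) (a : Ω) (p : List Ω) : fixS S (a :: p) = fixS (stab S a) p := by
  ext g; simp [fixS, stab, and_assoc]

theorem irr_nil (S : Set G) : Irr S ([] : List Ω) := trivial

theorem irr_cons (S : Set G) (a : Ω) (l : List Ω) :
    Irr S (a :: l) ↔ (∃ g ∈ S, g • a ≠ a) ∧ Irr (stab S a) l := Iff.rfl

theorem irr_append (S : Set G) (p l : List Ω) : Irr S (p ++ l) ↔ Irr S p ∧ Irr (fixS S p) l := by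
  induction p generalizing S with
  | nil => simp [irr_nil, fixS_nil]
  | cons a p ih => simp only [List.cons_append, irr_cons, ih, fixS_cons, and_assoc]

theorem base_append (S : Set G) (p l : List Ω) : Base S (p ++ l) ↔ Base (fixS S p) l := by
  simp only [Base, fixS, List.mem_append, Set.mem_ofPred_eq]
  constructor
  · intro h g hg hl; exact h g hg.1 (fun x hx => hx.elim (hg.2 x) (hl x))
  · intro h g hg hl; exact h g ⟨hg, fun x hx => hl x (Or.inl hx)⟩ (fun x hx => hl x (Or.inr hx))

theorem ibl_append (S : Set G) (p l : List Ω) : IBL S (p ++ l) ↔ Irr S p ∧ IBL (fixS S p) l := by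
  simp only [IBL, irr_append, base_append, and_assoc]

theorem ibl_cons (S : Set G) (a : Ω) (l : List Ω) :
    IBL S (a :: l) ↔ (∃ g ∈ S, g • a ≠ a) ∧ IBL (stab S a) l := by
  have h := ibl_append S [a] l
  rw [List.singleton_append] at h
  rw [h, fixS_cons, fixS_nil, irr_cons]
  simp [irr_nil]

theorem stab_comm (S : Set G) (a b : Ω) : stab (stab S a) b = stab (stab S b) a := by
  ext g; simp only [stab, Set.mem_ofPred_eq]; tauto

theorem irr_ofFn (S : Set G) (t : ℕ) (f : Fin t → Ω) :
    Irr S (List.ofFn f) ↔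
      ∀ i : Fin t, ∃ g ∈ S, (∀ j : Fin t, j < i → g • f j = f j) ∧ g • f i ≠ f i := by
  induction t generalizing S with
  | zero => simp [irr_nil]
  | succ t ih =>
    rw [List.ofFn_succ, irr_cons, ih, Fin.forall_fin_succ]
    refine and_congr ?_ (forall_congr' fun i => ?_)
    · constructor
      · rintro ⟨g, hg, hm⟩; exact ⟨g, hg, fun j hj => absurd hj (Fin.not_lt_zero j), hm⟩
      · rintro ⟨g, hg, -, hm⟩; exact ⟨g, hg, hm⟩
    · constructor
      · rintro ⟨g, ⟨hg, h0⟩, hj, hm⟩
        refine ⟨g, hg, ?_, hm⟩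
        intro j
        refine Fin.cases ?_ (fun j' => ?_) j
        · intro _; exact h0
        · intro hlt; exact hj j' (Fin.succ_lt_succ_iff.mp hlt)
      · rintro ⟨g, hg, hj, hm⟩
        refine ⟨g, ⟨hg, hj 0 (Fin.succ_pos i)⟩, fun j hlt => hj j.succ (Fin.succ_lt_succ_iff.mpr hlt), hm⟩

/-- the statement's notion, for tuples -/
def IB (t : ℕ) (f : Fin t → Ω) : Prop :=
  (∀ g : G, (∀ i : Fin t, g • f i = f i) → g = 1) ∧
    ∀ i : Fin t, ∃ g : G, (∀ j : Fin t, j < i → g • f j = f j) ∧ g • f i ≠ f i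

theorem ib_iff (t : ℕ) (f : Fin t → Ω) : IB (G := G) t f ↔ IBL (Set.univ : Set G) (List.ofFn f) := by
  unfold IB IBL
  rw [irr_ofFn, and_comm]
  refine and_congr ?_ ?_
  · simp
  · simp only [Base, Set.mem_univ, true_implies, List.forall_mem_ofFn_iff]

theorem perm_ofFn {α : Type*} {n : ℕ} (f f' : Fin n → α) (h : List.Perm (List.ofFn f') (List.ofFn f)) :
    ∃ σ : Equiv.Perm (Fin n), f' = f ∘ σ := by
  classical
  have hc : ∀ (k : Fin n → α) (a : α), Fintype.card {i // k i = a} = (List.ofFn k).count a := by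
    intro k a
    rw [Fintype.card_subtype]
    have := Fin.card_filter_univ_eq_vector_get_eq_count a (List.Vector.ofFn k)
    simp only [List.Vector.get_ofFn, List.Vector.toList_ofFn] at this
    exact this
  have he : ∀ a : α, Fintype.card {i // f' i = a} = Fintype.card {i // f i = a} := by
    intro a; rw [hc, hc, h.count_eq]
  let σ : Fin n ≃ Fin n := Equiv.ofFiberEquiv (fun a => Fintype.equivOfCardEq (he a))
  refine ⟨σ, ?_⟩
  funext i
  exact (Equiv.ofFiberEquiv_map (fun a => Fintype.equivOfCardEq (he a)) i).symm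

end

section
variable {G Ω : Type*} [Group G] [MulAction G Ω]

/-- equal sizes implies reordering, list version -/
theorem reorder_of_len (ha : ∀ l l' : List Ω, IBL (Set.univ : Set G) l → IBL (Set.univ : Set G) l' → l.length = l'.length)
    (l₁ l₂ : List Ω) (h : List.Perm l₁ l₂) :
    ∀ p : List Ω, IBL (Set.univ : Set G) (p ++ l₁) → IBL (Set.univ : Set G) (p ++ l₂) := by
  induction h with
  | nil => intro p hp; exact hp
  | cons x _ ih =>
    intro p hp
    have := ih (p ++ [x]) (by simpa using hp)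
    simpa using this
  | swap x y l =>
    intro p hp
    rw [ibl_append] at hp ⊢
    obtain ⟨hpi, hp2⟩ := hp
    refine ⟨hpi, ?_⟩
    set S := fixS (Set.univ : Set G) p with hS
    rw [ibl_cons, ibl_cons] at hp2 ⊢
    obtain ⟨_, ⟨g, hg, hgx⟩, hl⟩ := hp2
    refine ⟨⟨g, hg.1, hgx⟩, ?_, by rw [stab_comm]; exact hl⟩
    by_contra hcon
    push Not at hcon
    have hset : stab S x = stab (stab S y) x := by
      ext k
      simp only [stab, Set.mem_ofPred_eq]
      constructor
      · rintro ⟨hk, hkx⟩; exact ⟨⟨hk, hcon k ⟨hk, hkx⟩⟩, hkx⟩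
      · rintro ⟨⟨hk, _⟩, hkx⟩; exact ⟨hk, hkx⟩
    have h1 : IBL S (x :: l) := by
      rw [ibl_cons]; exact ⟨⟨g, hg.1, hgx⟩, hset ▸ hl⟩
    have h2 : IBL (Set.univ : Set G) (p ++ x :: l) := by
      rw [ibl_append]; exact ⟨hpi, h1⟩
    have h3 : IBL (Set.univ : Set G) (p ++ y :: x :: l) := by
      rw [ibl_append, ibl_cons, ibl_cons]
      exact ⟨hpi, ‹_›, ⟨g, hg, hgx⟩, hl⟩
    have := ha _ _ h2 h3
    simp at this
  | trans _ _ ih1 ih2 => intro p hp; exact ih2 p (ih1 p hp)

variable [Finite G]

/-- existence of an irredundant base relative to `K` -/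
theorem exists_ibl (n : ℕ) : ∀ (K : Set G), K.ncard = n → (∀ g ∈ K, (∀ ω : Ω, g • ω = ω) → g = 1) →
    ∃ l : List Ω, IBL K l := by
  induction n using Nat.strong_induction_on with
  | _ n ih =>
    intro K hK hker
    by_cases hall : ∀ g ∈ K, g = 1
    · exact ⟨[], irr_nil K, fun g hg _ => hall g hg⟩
    · push Not at hall
      obtain ⟨g, hg, hg1⟩ := hall
      have : ∃ ω : Ω, g • ω ≠ ω := by
        by_contra hcon
        push Not at hcon
        exact hg1 (hker g hg hcon)
      obtain ⟨ω, hω⟩ := this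
      have hsub : stab K ω ⊂ K := by
        refine ⟨fun k hk => hk.1, fun hcon => ?_⟩
        exact hω (hcon hg).2
      have hlt : (stab K ω).ncard < n := hK ▸ Set.ncard_lt_ncard hsub (Set.toFinite K)
      obtain ⟨l, hl⟩ := ih _ hlt (stab K ω) rfl (fun k hk => hker k hk.1)
      exact ⟨ω :: l, (ibl_cons K ω l).mpr ⟨⟨g, hg, hω⟩, hl⟩⟩

theorem len_of_reorder (n : ℕ) : ∀ (S : Set G), S.ncard = n →
    (∀ l l' : List Ω, List.Perm l l' → IBL S l → IBL S l') →
    ∀ A B : List Ω, IBL S A → IBL S B → A.length = B.length := by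
  induction n using Nat.strong_induction_on with
  | _ n ih =>
    intro S hS hb A B hA hB
    -- inheritance to point stabilizers
    have hsub : ∀ α : Ω, (∃ g ∈ S, g • α ≠ α) → ∀ A' B' : List Ω, IBL (stab S α) A' → IBL (stab S α) B' →
        A'.length = B'.length := by
      rintro α ⟨g, hg, hgα⟩
      have hss : stab S α ⊂ S := ⟨fun k hk => hk.1, fun hcon => hgα (hcon hg).2⟩
      have hlt : (stab S α).ncard < n := hS ▸ Set.ncard_lt_ncard hss (Set.toFinite S)
      refine ih _ hlt (stab S α) rfl ?_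
      intro l l' hperm hl
      have h1 : IBL S (α :: l) := (ibl_cons S α l).mpr ⟨⟨g, hg, hgα⟩, hl⟩
      have h2 := hb _ _ (List.Perm.cons α hperm) h1
      exact ((ibl_cons S α l').mp h2).2
    cases A with
    | nil =>
      cases B with
      | nil => rfl
      | cons b B' =>
        exfalso
        obtain ⟨⟨g, hg, hgb⟩, _⟩ := (ibl_cons S b B').mp hB
        have := hA.2 g hg (fun x hx => absurd hx (List.not_mem_nil))
        rw [this, one_smul] at hgb
        exact hgb rfl
    | cons a A' =>
      cases B with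
      | nil =>
        exfalso
        obtain ⟨⟨g, hg, hga⟩, _⟩ := (ibl_cons S a A').mp hA
        have := hB.2 g hg (fun x hx => absurd hx (List.not_mem_nil))
        rw [this, one_smul] at hga
        exact hga rfl
      | cons b B' =>
        obtain ⟨hma, hA'⟩ := (ibl_cons S a A').mp hA
        obtain ⟨hmb, hB'⟩ := (ibl_cons S b B').mp hB
        have hkerS : ∀ g ∈ S, (∀ ω : Ω, g • ω = ω) → g = 1 := fun g hg hfix => hA.2 g hg (fun x _ => hfix x)
        simp only [List.length_cons, add_left_inj]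
        by_cases h1 : ∃ g ∈ stab S a, g • b ≠ b
        · obtain ⟨C', hC'⟩ := exists_ibl (Ω := Ω) _ (stab (stab S a) b) rfl (fun k hk => hkerS k hk.1.1)
          have e1 : IBL (stab S a) (b :: C') := (ibl_cons _ b C').mpr ⟨h1, hC'⟩
          have e2 : IBL S (a :: b :: C') := (ibl_cons S a _).mpr ⟨hma, e1⟩
          have e3 : IBL S (b :: a :: C') := hb _ _ (List.Perm.swap b a C') e2
          have e4 : IBL (stab S b) (a :: C') := ((ibl_cons S b _).mp e3).2
          have l1 := hsub a hma _ _ hA' e1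
          have l2 := hsub b hmb _ _ hB' e4
          simp only [List.length_cons] at l1 l2
          omega
        · by_cases h2 : ∃ g ∈ stab S b, g • a ≠ a
          · obtain ⟨C', hC'⟩ := exists_ibl (Ω := Ω) _ (stab (stab S b) a) rfl (fun k hk => hkerS k hk.1.1)
            have e1 : IBL (stab S b) (a :: C') := (ibl_cons _ a C').mpr ⟨h2, hC'⟩
            have e2 : IBL S (b :: a :: C') := (ibl_cons S b _).mpr ⟨hmb, e1⟩
            have e3 : IBL S (a :: b :: C') := hb _ _ (List.Perm.swap a b C') e2
            have e4 : IBL (stab S a) (b :: C') := ((ibl_cons S a _).mp e3).2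
            have l1 := hsub b hmb _ _ hB' e1
            have l2 := hsub a hma _ _ hA' e4
            simp only [List.length_cons] at l1 l2
            omega
          · push Not at h1 h2
            have hset : stab S a = stab S b := by
              ext k
              constructor
              · intro hk; exact ⟨hk.1, h1 k hk⟩
              · intro hk; exact ⟨hk.1, h2 k hk⟩
            rw [hset] at hA'
            exact hsub b hmb _ _ hA' hB'

end

/-- Let a finite group G act on a finite set Ω. An irredundant base is a sequence of points ω₁, …, ω_t whose pointwise stabiliser is trivial and in which each ω_i is moved by some element fixing ω₁, …, ω_{i−1}. Then all irredundant bases have the same length if and only if every reordering of an irredundant base is again an irredundant base. -/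
theorem result {G Ω : Type*} [Group G] [Finite G] [MulAction G Ω] [Fintype Ω] :
    (∀ (t t' : ℕ) (f : Fin t → Ω) (f' : Fin t' → Ω), ((∀ g : G, (∀ i : Fin t, g • f i = f i) → g = 1) ∧ ∀ i : Fin t, ∃ g : G, (∀ j : Fin t, j < i → g • f j = f j) ∧ g • f i ≠ f i) → ((∀ g : G, (∀ i : Fin t', g • f' i = f' i) → g = 1) ∧ ∀ i : Fin t', ∃ g : G, (∀ j : Fin t', j < i → g • f' j = f' j) ∧ g • f' i ≠ f' i) → t = t') ↔
    (∀ (t : ℕ) (f : Fin t → Ω) (σ : Equiv.Perm (Fin t)), ((∀ g : G, (∀ i : Fin t, g • f i = f i) → g = 1) ∧ ∀ i : Fin t, ∃ g : G, (∀ j : Fin t, j < i → g • f j = f j) ∧ g • f i ≠ f i) → ((∀ g : G, (∀ i : Fin t, g • (f ∘ σ) i = (f ∘ σ) i) → g = 1) ∧ ∀ i : Fin t, ∃ g : G, (∀ j : Fin t, j < i → g • (f ∘ σ) j = (f ∘ σ) j) ∧ g • (f ∘ σ) i ≠ (f ∘ σ) i)) := by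
  constructor
  · intro ha t f σ hf
    have ha' : ∀ l l' : List Ω, IBL (Set.univ : Set G) l → IBL (Set.univ : Set G) l' → l.length = l'.length := by
      intro l l' hl hl'
      rw [← List.ofFn_get l] at hl
      rw [← List.ofFn_get l'] at hl'
      exact ha _ _ _ _ ((ib_iff _ _).mpr hl) ((ib_iff _ _).mpr hl')
    have h1 : IBL (Set.univ : Set G) (List.ofFn f) := (ib_iff t f).mp hf
    have h2 := reorder_of_len ha' _ _ (σ.ofFn_comp_perm f).symm [] (by simpa using h1)
    exact (ib_iff (G := G) t (f ∘ σ)).mpr (by simpa using h2)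
  · intro hb t t' f f' hf hf'
    have hb' : ∀ l l' : List Ω, List.Perm l l' → IBL (Set.univ : Set G) l → IBL (Set.univ : Set G) l' := by
      intro l l' hperm hl
      have hn : l.length = l'.length := hperm.length_eq
      let k : Fin l'.length → Ω := fun i => l.get (Fin.cast hn.symm i)
      have hk : List.ofFn k = l := by
        rw [← List.ofFn_congr hn l.get, List.ofFn_get]
      have hk' : List.ofFn l'.get = l' := List.ofFn_get l'
      obtain ⟨σ, hσ⟩ := perm_ofFn k l'.get (by rw [hk, hk']; exact hperm.symm)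
      have h1 : IB (G := G) _ k := (ib_iff _ k).mpr (hk ▸ hl)
      have h2 := hb _ k σ h1
      rw [← hσ] at h2
      have h3 := (ib_iff (G := G) _ l'.get).mp h2
      rwa [hk'] at h3
    have h1 := (ib_iff (G := G) t f).mp hf
    have h2 := (ib_iff (G := G) t' f').mp hf'
    have := len_of_reorder (Ω := Ω) _ (Set.univ : Set G) rfl hb' _ _ h1 h2
    simpa using this

end Cfsg.Agent.S5747
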