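-- Statement S5752 (row 5752): Thompson–Wielandt form, proved via Lib/Helper41/TW1-5
-- (foundation and assembly) and the job-board pieces listed in TW5.
import Cfsg.Statements.S5752
import Cfsg.Agent.Lib.Helper41.TW5

set_option autoImplicit false
open Cfsg

namespace Cfsg.Agent.S5752

open Cfsg.Agent.Lib.Helper41.TW in
/-- A form of the Thompson–Wielandt Theorem on primitive permutation groups. Let G be a finite group and M₁, M₂ two distinct conjugate maximal subgroups of G with trivial core in G; define two descending sequences of subgroups by A₀ = M₁, B₀ = M₂ and, for every i, A_{i+1} = the core in M₁ of A_i ∩ B_i and B_{i+1} = the core in M₂ of A_i ∩ B_i (the core in M of a subgroup Y ≤ M is the largest normal subgroup of M contained in Y). If A₂ and B₂ are both non-trivial, then for some prime p the subgroup generated by A₂ and B₂ is a p-group, and for each j the generalized Fitting subgroups of M_j and of its first core (A₁, resp. B₁) are their largest normal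 p-subgroups. -/
theorem result {G : Type*} [Group G] [Finite G] (M₁ M₂ : Subgroup G) (hmax : IsCoatom M₁) (g : G)
    (hconj : M₂ = M₁.map (MulAut.conj g).toMonoidHom) (hne : M₁ ≠ M₂) (hcore : M₁.normalCore = ⊥)
    (A B : ℕ → Subgroup G) (hA0 : A 0 = M₁) (hB0 : B 0 = M₂)
    (hA : ∀ i, A (i + 1) = ((A i ⊓ B i).subgroupOf M₁).normalCore.map M₁.subtype)
    (hB : ∀ i, B (i + 1) = ((A i ⊓ B i).subgroupOf M₂).normalCore.map M₂.subtype) (hA2 : A 2 ≠ ⊥) (hB2 : B 2 ≠ ⊥) :
    ∃ p : ℕ, p.Prime ∧ IsPGroup p ↥(A 2 ⊔ B 2) ∧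
      Cfsg.generalizedFittingSubgroup ↥M₁ = Cfsg.pCore p ↥M₁ ∧ Cfsg.generalizedFittingSubgroup ↥(A 1) = Cfsg.pCore p ↥(A 1) ∧
      Cfsg.generalizedFittingSubgroup ↥M₂ = Cfsg.pCore p ↥M₂ ∧ Cfsg.generalizedFittingSubgroup ↥(B 1) = Cfsg.pCore p ↥(B 1) := by
  have S := setting_of_hyps M₁ M₂ hmax g hconj hne hcore A B hA0 hB0 hA hB
  obtain ⟨p, hp, h1, h2, h3, h4, h5⟩ := main S hA2 hB2
  exact ⟨p, hp, h1, gfs_eq hp h2 h4, gfs_eq_of_normal hp S.A1_le_X S.X_norm_A1 h2 h4,
    gfs_eq hp h3 h5, gfs_eq_of_normal hp S.B1_le_Y S.Y_norm_B1 h3 h5⟩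

end Cfsg.Agent.S5752
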