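import Cfsg.Statements.S5754
import Mathlib

set_option autoImplicit false
open Cfsg

namespace Cfsg.Agent.S5754

section
variable {F V : Type*} [Field F] [AddCommGroup V] [Module F V]

open QuadraticMap

/-- The reflection in a non-singular vector as an isometry. -/
theorem exists_reflection (Q : QuadraticForm F V) (a : V) (ha : Q a ≠ 0) :
    ∃ ρ : Q.IsometryEquiv Q, ∀ x : V, ρ x = x - ((Q a)⁻¹ * polar Q x a) • a := by
  let f : Module.Dual F V := (Q a)⁻¹ • (polarBilin Q).flip a
  have hf : ∀ x, f x = (Q a)⁻¹ * polar Q x a := fun x => rfl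
  have hfa : f a = 2 := by
    rw [hf, polar_self]
    simp only [nsmul_eq_mul, Nat.cast_ofNat]
    field_simp
  let ρ₀ : V ≃ₗ[F] V := Module.reflection hfa
  have hρ₀ : ∀ x, ρ₀ x = x - ((Q a)⁻¹ * polar Q x a) • a := fun x => by
    rw [← hf]; exact Module.reflection_apply x hfa
  refine ⟨{ ρ₀ with map_app' := ?_ }, fun x => hρ₀ x⟩
  intro x
  show Q (ρ₀ x) = Q x
  rw [hρ₀, sub_eq_add_neg, ← neg_smul, QuadraticMap.map_add (⇑Q), QuadraticMap.map_smul, polar_smul_right]
  simp only [smul_eq_mul]
  field_simp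
  ring

theorem isometry_polar (Q : QuadraticForm F V) (φ : Q.IsometryEquiv Q) (x y : V) :
    polar Q (φ x) (φ y) = polar Q x y := by
  simp only [polar, ← map_add, QuadraticMap.IsometryEquiv.map_app]

theorem map_sub_eq (Q : QuadraticForm F V) (x y : V) : Q (x - y) = Q x + Q y - polar Q x y := by
  rw [sub_eq_add_neg, QuadraticMap.map_add (⇑Q), QuadraticMap.map_neg, polar_neg_right]; ring

theorem extend_family (Q : QuadraticForm F V) (hQ : Q.Anisotropic) (n : ℕ) (v v' : Fin n → V)
    (hq : ∀ i, Q (v i) = Q (v' i)) (hpol : ∀ i j, polar Q (v i) (v j) = polar Q (v' i) (v' j)) :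
    ∀ k : ℕ, k ≤ n → ∃ φ : Q.IsometryEquiv Q, ∀ i : Fin n, i.val < k → φ (v i) = v' i := by
  intro k
  induction k with
  | zero => intro _; exact ⟨QuadraticMap.IsometryEquiv.refl Q, fun i hi => absurd hi (Nat.not_lt_zero _)⟩
  | succ k ih =>
    intro hk
    obtain ⟨φ, hφ⟩ := ih (by omega)
    let ik : Fin n := ⟨k, by omega⟩
    by_cases ha : φ (v ik) - v' ik = 0
    · refine ⟨φ, fun i hi => ?_⟩
      rcases Nat.lt_succ_iff_lt_or_eq.mp hi with h | h
      · exact hφ i h
      · have : i = ik := Fin.ext h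
        rw [this]; exact sub_eq_zero.mp ha
    · have hQa : Q (φ (v ik) - v' ik) ≠ 0 := fun h => ha (hQ _ h)
      obtain ⟨ρ, hρ⟩ := exists_reflection Q _ hQa
      refine ⟨φ.trans ρ, fun i hi => ?_⟩
      show ρ (φ (v i)) = v' i
      rcases Nat.lt_succ_iff_lt_or_eq.mp hi with h | h
      · rw [hφ i h, hρ]
        have : polar Q (v' i) (φ (v ik) - v' ik) = 0 := by
          rw [polar_sub_right, ← hφ i h, isometry_polar, hφ i h, hpol, sub_self]
        rw [this, mul_zero, zero_smul, sub_zero]
      · have hi' : i = ik := Fin.ext h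
        rw [hi', hρ]
        have h1 : polar Q (φ (v ik)) (φ (v ik) - v' ik) = Q (φ (v ik) - v' ik) := by
          rw [polar_sub_right, polar_self, map_sub_eq, QuadraticMap.IsometryEquiv.map_app, ← hq ik]
          simp only [nsmul_eq_mul, Nat.cast_ofNat]
          ring
        rw [h1, inv_mul_cancel₀ hQa, one_smul]
        abel

end

/-- Let V be a finite-dimensional vector space over a finite field F carrying an anisotropic quadratic form Q (Q(v) = 0 only for v = 0). Then the group of all maps v ↦ φ(v) + c, with φ an isometry of Q and c ∈ V, acts on V as a binary permutation group: given n ≥ 2 and two n-tuples u, u' of vectors such that every pair of corresponding entries of u is carried to that of u' by such a map, one such map carries u to u'. -/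
theorem result {F V : Type*} [Field F] [Finite F] [AddCommGroup V] [Module F V] [Module.Finite F V]
    (Q : QuadraticForm F V) (hQ : Q.Anisotropic) (n : ℕ) (hn : 2 ≤ n) (u u' : Fin n → V)
    (h2 : ∀ i j : Fin n, i ≠ j → ∃ (φ : Q.IsometryEquiv Q) (c : V), φ (u i) + c = u' i ∧ φ (u j) + c = u' j) :
    ∃ (φ : Q.IsometryEquiv Q) (c : V), ∀ i, φ (u i) + c = u' i := by
  have hD : ∀ i j : Fin n, Q (u i - u j) = Q (u' i - u' j) := by
    intro i j
    by_cases hij : i = j
    · subst hij; simp
    · obtain ⟨φ, c, h1, h2⟩ := h2 i j hij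
      have : u' i - u' j = φ (u i - u j) := by
        rw [← h1, ← h2, map_sub]; abel
      rw [this, QuadraticMap.IsometryEquiv.map_app]
  let i0 : Fin n := ⟨0, by omega⟩
  let v : Fin n → V := fun i => u i - u i0
  let v' : Fin n → V := fun i => u' i - u' i0
  have hq : ∀ i, Q (v i) = Q (v' i) := fun i => hD i i0
  have hvv : ∀ i j, v i - v j = u i - u j := fun i j => by simp only [v]; abel
  have hvv' : ∀ i j, v' i - v' j = u' i - u' j := fun i j => by simp only [v']; abel
  have hpol : ∀ i j, QuadraticMap.polar Q (v i) (v j) = QuadraticMap.polar Q (v' i) (v' j) := by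
    intro i j
    have e1 := map_sub_eq Q (v i) (v j)
    have e2 := map_sub_eq Q (v' i) (v' j)
    rw [hvv, hD i j] at e1
    rw [hvv'] at e2
    rw [hq i, hq j] at e1
    have : Q (v' i) + Q (v' j) - QuadraticMap.polar Q (v i) (v j) = Q (v' i) + Q (v' j) - QuadraticMap.polar Q (v' i) (v' j) := by
      rw [← e1, ← e2]
    exact sub_right_injective this
  obtain ⟨φ, hφ⟩ := extend_family Q hQ n v v' hq hpol n le_rfl
  refine ⟨φ, u' i0 - φ (u i0), fun i => ?_⟩
  have h := hφ i i.2
  simp only [v, v', map_sub] at h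
  rw [← sub_eq_zero]
  have : φ (u i) + (u' i0 - φ (u i0)) - u' i = (φ (u i) - φ (u i0)) - (u' i - u' i0) := by abel
  rw [this, h, sub_self]

end Cfsg.Agent.S5754
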