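import Cfsg.Statements.S5763
import Mathlib

set_option autoImplicit false
open Cfsg

namespace Cfsg.Agent.S5763

def zf : Fin 8 → Fin 8
  | 0 => 1 | 1 => 0 | 2 => 3 | 3 => 2 | 4 => 5 | 5 => 4 | 6 => 7 | 7 => 6

def blk : Fin 8 → Bool
  | 0 => true | 1 => true | 2 => true | 3 => true | _ => false

theorem zf_zf : ∀ a, zf (zf a) = a := by decide

theorem zf_ne : ∀ a, zf a ≠ a := by decide

def allB (p : Fin 8 → Bool) : Bool := p 0 && p 1 && p 2 && p 3 && p 4 && p 5 && p 6 && p 7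

theorem allB_iff (p : Fin 8 → Bool) : allB p = true ↔ ∀ a, p a = true := by
  constructor
  · intro h a
    simp only [allB, Bool.and_eq_true] at h
    obtain ⟨⟨⟨⟨⟨⟨⟨h0, h1⟩, h2⟩, h3⟩, h4⟩, h5⟩, h6⟩, h7⟩ := h
    fin_cases a <;> assumption
  · intro h
    simp [allB, h]

/-- signature function -/
def F (a b c d : Fin 8) : Fin 8 → Fin 8
  | 0 => a | 1 => zf a | 2 => b | 3 => zf b | 4 => c | 5 => zf c | 6 => d | 7 => zf d

def injB (f : Fin 8 → Fin 8) : Bool := allB fun x => allB fun y => (f x != f y) || (x == y)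

def blockB (f : Fin 8 → Fin 8) : Bool :=
  allB fun x => allB fun y => (blk (f x) == blk (f y)) == (blk x == blk y)

def commB (g h : Fin 8 → Fin 8) : Bool := allB fun a => g (h a) == h (g a)

def vcondB (h g : Fin 8 → Fin 8) : Bool :=
  (allB fun a => (g a == a) || (g a == h a)) ||
  (allB fun a => (g a != a) && (g a != h a) && ((g (g a) == a) || (g (g a) == h a)))

def Vcond (h g : Fin 8 → Fin 8) : Prop :=
  (∀ a, g a = a ∨ g a = h a) ∨ (∀ a, g a ≠ a ∧ g a ≠ h a ∧ (g (g a) = a ∨ g (g a) = h a))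

theorem injB_iff (f : Fin 8 → Fin 8) : injB f = true ↔ Function.Injective f := by
  simp only [injB, allB_iff, Bool.or_eq_true, bne_iff_ne, beq_iff_eq, Function.Injective]
  constructor
  · intro h x y hxy
    rcases h x y with h1 | h1
    · exact absurd hxy h1
    · exact h1
  · intro h x y
    by_cases hxy : f x = f y
    · exact Or.inr (h hxy)
    · exact Or.inl hxy

theorem blockB_iff (f : Fin 8 → Fin 8) :
    blockB f = true ↔ ∀ x y, blk (f x) = blk (f y) ↔ blk x = blk y := by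
  simp only [blockB, allB_iff, beq_iff_eq]
  refine forall_congr' fun x => forall_congr' fun y => ?_
  constructor
  · intro h
    constructor
    · intro h1
      have : (blk (f x) == blk (f y)) = true := by simpa using h1
      rw [this] at h
      simpa using h.symm
    · intro h1
      have : (blk x == blk y) = true := by simpa using h1
      rw [this] at h
      simpa using h
  · intro h
    by_cases h1 : blk x = blk y
    · have h2 := h.mpr h1
      simp [h1, h2]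
    · have h2 : ¬ blk (f x) = blk (f y) := fun h3 => h1 (h.mp h3)
      simp [h1, h2]

theorem commB_iff (g h : Fin 8 → Fin 8) : commB g h = true ↔ ∀ a, g (h a) = h (g a) := by
  simp only [commB, allB_iff, beq_iff_eq]

theorem vcondB_iff (h g : Fin 8 → Fin 8) : vcondB h g = true ↔ Vcond h g := by
  simp only [vcondB, Vcond, Bool.or_eq_true, allB_iff, Bool.and_eq_true, bne_iff_ne, beq_iff_eq,
    and_assoc]

def cheapB (t : Fin 8 × Fin 8 × Fin 8 × Fin 8) : Bool :=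
  (t.2.1 != t.1) && (t.2.1 != zf t.1) && (blk t.2.1 == blk t.1) && (blk t.2.2.1 != blk t.1) &&
  (t.2.2.2 != t.2.2.1) && (t.2.2.2 != zf t.2.2.1) && (blk t.2.2.2 == blk t.2.2.1)

set_option maxRecDepth 100000 in
theorem card_cheap :
    (Finset.univ.filter (fun t : Fin 8 × Fin 8 × Fin 8 × Fin 8 => cheapB t = true)).card = 128 := by
  decide +kernel

set_option maxRecDepth 100000 in
theorem cheap_valid : ∀ a b : Fin 8, ((b != a) && (b != zf a) && (blk b == blk a)) = true →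
    ∀ c : Fin 8, (blk c != blk a) = true →
    ∀ d : Fin 8, ((d != c) && (d != zf c) && (blk d == blk c)) = true →
    (injB (F a b c d) && blockB (F a b c d)) = true := by
  decide +kernel

theorem cheap_valid' (a b c d : Fin 8) (h : cheapB (a, b, c, d) = true) :
    Function.Injective (F a b c d) ∧ ∀ x y, blk (F a b c d x) = blk (F a b c d y) ↔ blk x = blk y := by
  simp only [cheapB, Bool.and_eq_true] at h
  obtain ⟨⟨⟨⟨⟨⟨h1, h2⟩, h3⟩, h4⟩, h5⟩, h6⟩, h7⟩ := h
  have := cheap_valid a b (by simp only [Bool.and_eq_true]; exact ⟨⟨h1, h2⟩, h3⟩) c h4 d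
    (by simp only [Bool.and_eq_true]; exact ⟨⟨h5, h6⟩, h7⟩)
  rw [Bool.and_eq_true, injB_iff, blockB_iff] at this
  exact this

theorem F_comm (a b c d : Fin 8) : ∀ x, F a b c d (zf x) = zf (F a b c d x) := by
  intro x
  fin_cases x
  · rfl
  · exact (zf_zf a).symm
  · rfl
  · exact (zf_zf b).symm
  · rfl
  · exact (zf_zf c).symm
  · rfl
  · exact (zf_zf d).symm

/-- the explicit Sylow 2-subgroup -/
def P : Subgroup (Equiv.Perm (Fin 8)) where
  carrier := {σ | (∀ a, σ (zf a) = zf (σ a)) ∧ ∀ a b, blk (σ a) = blk (σ b) ↔ blk a = blk b}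
  one_mem' := ⟨fun a => rfl, fun a b => Iff.rfl⟩
  mul_mem' := by
    rintro σ τ ⟨h1, h2⟩ ⟨h3, h4⟩
    refine ⟨fun a => ?_, fun a b => ?_⟩
    · simp only [Equiv.Perm.coe_mul, Function.comp_apply, h3, h1]
    · simp only [Equiv.Perm.coe_mul, Function.comp_apply, h2, h4]
  inv_mem' := by
    rintro σ ⟨h1, h2⟩
    refine ⟨fun a => ?_, fun a b => ?_⟩
    · apply σ.injective
      rw [h1]
      simp
    · rw [← h2 (σ⁻¹ a) (σ⁻¹ b)]
      simp

theorem mem_P (σ : Equiv.Perm (Fin 8)) : σ ∈ P ↔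
    (∀ a, σ (zf a) = zf (σ a)) ∧ ∀ a b, blk (σ a) = blk (σ b) ↔ blk a = blk b := Iff.rfl

theorem sig (σ : Equiv.Perm (Fin 8)) (h : ∀ a, σ (zf a) = zf (σ a)) :
    ∀ i, σ i = F (σ 0) (σ 2) (σ 4) (σ 6) i := by
  intro i
  fin_cases i
  · rfl
  · exact h 0
  · rfl
  · exact h 2
  · rfl
  · exact h 4
  · rfl
  · exact h 6

theorem cheap_of_mem (σ : Equiv.Perm (Fin 8)) (hσ : σ ∈ P) : cheapB (σ 0, σ 2, σ 4, σ 6) = true := by
  obtain ⟨h1, h2⟩ := hσ
  simp only [cheapB, Bool.and_eq_true, bne_iff_ne, beq_iff_eq]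
  refine ⟨⟨⟨⟨⟨⟨?_, ?_⟩, ?_⟩, ?_⟩, ?_⟩, ?_⟩, ?_⟩
  · exact σ.injective.ne (by decide)
  · rw [← h1]; exact σ.injective.ne (by decide)
  · exact (h2 2 0).mpr rfl
  · intro h; exact absurd ((h2 4 0).mp h) (by decide)
  · exact σ.injective.ne (by decide)
  · rw [← h1]; exact σ.injective.ne (by decide)
  · exact (h2 6 4).mpr rfl

theorem card_P : Nat.card P = 128 := by
  rw [← card_cheap, ← Fintype.card_subtype, ← Nat.card_eq_fintype_card]
  let Φ : P → {t : Fin 8 × Fin 8 × Fin 8 × Fin 8 // cheapB t = true} :=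
    fun σ => ⟨(σ.1 0, σ.1 2, σ.1 4, σ.1 6), cheap_of_mem σ.1 σ.2⟩
  apply Nat.card_eq_of_bijective Φ
  constructor
  · rintro ⟨σ, hσ⟩ ⟨τ, hτ⟩ h
    have h' : (σ 0, σ 2, σ 4, σ 6) = (τ 0, τ 2, τ 4, τ 6) := congrArg Subtype.val h
    simp only [Prod.mk.injEq] at h'
    apply Subtype.ext
    apply Equiv.ext
    intro i
    rw [sig σ hσ.1, sig τ hτ.1, h'.1, h'.2.1, h'.2.2.1, h'.2.2.2]
  · rintro ⟨⟨a, b, c, d⟩, ht⟩
    obtain ⟨hinj, hblk⟩ := cheap_valid' a b c d ht
    let σ : Equiv.Perm (Fin 8) := Equiv.ofBijective (F a b c d) ⟨hinj, Finite.injective_iff_surjective.mp hinj⟩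
    have hσ : σ ∈ P := ⟨fun x => F_comm a b c d x, hblk⟩
    exact ⟨⟨σ, hσ⟩, rfl⟩

set_option maxRecDepth 100000 in
theorem osub : ∀ a b : Fin 8, ((b != a) && (b != zf a)) = true →
    ∀ c : Fin 8, ((c != a) && (c != zf a) && (c != b) && (c != zf b)) = true →
    ∀ d : Fin 8, ((d != a) && (d != zf a) && (d != b) && (d != zf b) && (d != c) && (d != zf c)) = true →
    (!(vcondB zf (F a b c d)) || blockB (F a b c d)) = true := by
  decide +kernel

theorem mem_P_of_vcond (σ : Equiv.Perm (Fin 8)) (hc : ∀ a, σ (zf a) = zf (σ a)) (hv : Vcond zf σ) :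
    σ ∈ P := by
  refine ⟨hc, ?_⟩
  have hF : F (σ 0) (σ 2) (σ 4) (σ 6) = σ := funext fun i => (sig σ hc i).symm
  have h1 := hc 0
  have h3 := hc 2
  have h5 := hc 4
  have key := osub (σ 0) (σ 2)
    (by
      simp only [Bool.and_eq_true, bne_iff_ne]
      exact ⟨σ.injective.ne (by decide), by rw [← hc]; exact σ.injective.ne (by decide)⟩)
    (σ 4)
    (by
      simp only [Bool.and_eq_true, bne_iff_ne]
      refine ⟨⟨⟨σ.injective.ne (by decide), ?_⟩, σ.injective.ne (by decide), ⟩, ?_⟩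
      · rw [← hc]; exact σ.injective.ne (by decide)
      · rw [← hc]; exact σ.injective.ne (by decide))
    (σ 6)
    (by
      simp only [Bool.and_eq_true, bne_iff_ne]
      refine ⟨⟨⟨⟨⟨σ.injective.ne (by decide), ?_⟩, σ.injective.ne (by decide)⟩, ?_⟩, σ.injective.ne (by decide)⟩, ?_⟩
      · rw [← hc]; exact σ.injective.ne (by decide)
      · rw [← hc]; exact σ.injective.ne (by decide)
      · rw [← hc]; exact σ.injective.ne (by decide))
  rw [hF] at key
  have hv' : vcondB zf σ = true := (vcondB_iff zf σ).mpr hv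
  rw [hv'] at key
  simp only [Bool.not_true, Bool.false_or] at key
  exact (blockB_iff σ).mp key

def cand (f : Fin 8 → Fin 8) : Fin 8 → Fin 8 :=
  match ([0, 1, 2, 3, 4, 5, 6, 7] : List (Fin 8)).find? (fun a => zf a == f a) with
  | some a₀ => fun x => if x = a₀ then zf a₀ else if x = zf a₀ then a₀ else x
  | none =>
    if allB (fun a => zf (f (zf (f a))) == a) then fun a => zf (f a)
    else fun a => zf (f (zf (f a)))

def goodB (f : Fin 8 → Fin 8) : Bool :=
  injB (cand f) && (!(allB fun a => cand f a == a)) && commB (cand f) zf && vcondB zf (cand f) &&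
    commB (cand f) f && vcondB f (cand f)

def V (a₀ a₁ a₂ a₃ a₄ a₅ a₆ a₇ : Fin 8) : Fin 8 → Fin 8
  | 0 => a₀ | 1 => a₁ | 2 => a₂ | 3 => a₃ | 4 => a₄ | 5 => a₅ | 6 => a₆ | 7 => a₇

def ok (k : Fin 8) (prev : List (Fin 8 × Fin 8)) (ak : Fin 8) : Bool :=
  (ak != k) && prev.all (fun p => (ak != p.2) && ((p.2 == k) == (ak == p.1)))

def keyB : Bool :=
  allB fun a₀ => !(ok 0 [] a₀) ||
  allB fun a₁ => !(ok 1 [(0, a₀)] a₁) ||
  allB fun a₂ => !(ok 2 [(0, a₀), (1, a₁)] a₂) ||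
  allB fun a₃ => !(ok 3 [(0, a₀), (1, a₁), (2, a₂)] a₃) ||
  allB fun a₄ => !(ok 4 [(0, a₀), (1, a₁), (2, a₂), (3, a₃)] a₄) ||
  allB fun a₅ => !(ok 5 [(0, a₀), (1, a₁), (2, a₂), (3, a₃), (4, a₄)] a₅) ||
  allB fun a₆ => !(ok 6 [(0, a₀), (1, a₁), (2, a₂), (3, a₃), (4, a₄), (5, a₅)] a₆) ||
  allB fun a₇ => !(ok 7 [(0, a₀), (1, a₁), (2, a₂), (3, a₃), (4, a₄), (5, a₅), (6, a₆)] a₇) ||
  goodB (V a₀ a₁ a₂ a₃ a₄ a₅ a₆ a₇)

set_option maxRecDepth 100000 in
theorem keyB_true : keyB = true := by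
  decide +kernel

theorem step (p q : Fin 8 → Bool) (h : allB (fun a => !(p a) || q a) = true) (a : Fin 8)
    (ha : p a = true) : q a = true := by
  have := (allB_iff _).mp h a
  simpa [ha] using this

theorem ok_of_inv (f : Fin 8 → Fin 8) (hinv : ∀ a, f (f a) = a) (hfpf : ∀ a, f a ≠ a) (k : Fin 8)
    (js : List (Fin 8)) (hjs : ∀ j ∈ js, j ≠ k) : ok k (js.map (fun j => (j, f j))) (f k) = true := by
  have hinj : Function.Injective f := fun a b hab => by rw [← hinv a, ← hinv b, hab]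
  simp only [ok, Bool.and_eq_true, bne_iff_ne, List.all_eq_true, List.mem_map, beq_iff_eq]
  refine ⟨hfpf k, ?_⟩
  rintro ⟨j', fj'⟩ ⟨j, hj, hjeq⟩
  simp only [Prod.mk.injEq] at hjeq
  obtain ⟨rfl, rfl⟩ := hjeq
  refine ⟨fun h => hjs j hj (hinj h).symm, ?_⟩
  by_cases h1 : f j = k
  · have h2 : f k = j := by rw [← h1, hinv]
    simp [h1, h2]
  · have h2 : f k ≠ j := fun h => h1 (by rw [← h, hinv])
    simp [h1, h2]

theorem key_cor (f : Fin 8 → Fin 8) (hinv : ∀ a, f (f a) = a) (hfpf : ∀ a, f a ≠ a) :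
    ∃ g : Fin 8 → Fin 8, Function.Injective g ∧ (∃ a, g a ≠ a) ∧ (∀ a, g (zf a) = zf (g a)) ∧
      Vcond zf g ∧ (∀ a, g (f a) = f (g a)) ∧ Vcond f g := by
  have h0 := step _ _ keyB_true (f 0) (ok_of_inv f hinv hfpf 0 [] (by decide))
  have h1 := step _ _ h0 (f 1) (ok_of_inv f hinv hfpf 1 [0] (by decide))
  have h2 := step _ _ h1 (f 2) (ok_of_inv f hinv hfpf 2 [0, 1] (by decide))
  have h3 := step _ _ h2 (f 3) (ok_of_inv f hinv hfpf 3 [0, 1, 2] (by decide))
  have h4 := step _ _ h3 (f 4) (ok_of_inv f hinv hfpf 4 [0, 1, 2, 3] (by decide))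
  have h5 := step _ _ h4 (f 5) (ok_of_inv f hinv hfpf 5 [0, 1, 2, 3, 4] (by decide))
  have h6 := step _ _ h5 (f 6) (ok_of_inv f hinv hfpf 6 [0, 1, 2, 3, 4, 5] (by decide))
  have h7 := step _ _ h6 (f 7) (ok_of_inv f hinv hfpf 7 [0, 1, 2, 3, 4, 5, 6] (by decide))
  have hV : V (f 0) (f 1) (f 2) (f 3) (f 4) (f 5) (f 6) (f 7) = f := by
    funext i
    fin_cases i <;> rfl
  rw [hV] at h7
  simp only [goodB, Bool.and_eq_true, injB_iff, commB_iff, vcondB_iff] at h7
  obtain ⟨⟨⟨⟨⟨hi, hn⟩, hc1⟩, hv1⟩, hc2⟩, hv2⟩ := h7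
  refine ⟨cand f, hi, ?_, hc1, hv1, hc2, hv2⟩
  by_contra hcon
  push Not at hcon
  have : allB (fun a => cand f a == a) = true := by
    rw [allB_iff]; intro a; simpa using hcon a
  rw [this] at hn
  simp at hn

theorem vcond_conj (y w : Equiv.Perm (Fin 8)) (h : Vcond (fun a => y (zf (y.symm a))) w) :
    Vcond zf (y⁻¹ * w * y : Equiv.Perm (Fin 8)) := by
  have hv : ∀ a, (y⁻¹ * w * y : Equiv.Perm (Fin 8)) a = y.symm (w (y a)) := fun a => rfl
  rcases h with h | h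
  · left
    intro a
    rw [hv]
    rcases h (y a) with h1 | h1
    · left; rw [h1]; simp
    · right; rw [h1]; simp
  · right
    intro a
    obtain ⟨h1, h2, h3⟩ := h (y a)
    simp only [Equiv.symm_apply_apply] at h2 h3
    refine ⟨?_, ?_, ?_⟩
    · rw [hv]; intro hc; exact h1 ((Equiv.symm_apply_eq y).mp hc)
    · rw [hv]; intro hc; exact h2 ((Equiv.symm_apply_eq y).mp hc)
    · rw [hv, hv]
      simp only [Equiv.apply_symm_apply]
      rcases h3 with h3 | h3
      · left; rw [h3]; simp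
      · right; rw [h3]; simp

theorem exists_common (y : Equiv.Perm (Fin 8)) :
    ∃ w : Equiv.Perm (Fin 8), w ≠ 1 ∧ w ∈ P ∧ y⁻¹ * w * y ∈ P := by
  have hinv : ∀ a, (fun a => y (zf (y.symm a))) ((fun a => y (zf (y.symm a))) a) = a := by
    intro a; simp [zf_zf]
  have hfpf : ∀ a, (fun a => y (zf (y.symm a))) a ≠ a := by
    intro a h
    apply zf_ne (y.symm a)
    apply y.injective
    simpa using h
  obtain ⟨g, hginj, ⟨a, ha⟩, hgz, hvz, hgf, hvf⟩ := key_cor _ hinv hfpf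
  let w : Equiv.Perm (Fin 8) := Equiv.ofBijective g ⟨hginj, Finite.injective_iff_surjective.mp hginj⟩
  have hw : ∀ x, w x = g x := fun x => rfl
  have hwg : (⇑w : Fin 8 → Fin 8) = g := rfl
  refine ⟨w, ?_, ?_, ?_⟩
  · intro h1
    apply ha
    rw [← hw, h1]; rfl
  · exact mem_P_of_vcond w hgz (hwg ▸ hvz)
  · apply mem_P_of_vcond
    · intro a
      show y.symm (w (y (zf a))) = zf (y.symm (w (y a)))
      have e1 : y (zf a) = y (zf (y.symm (y a))) := by simp
      rw [e1, hw, hgf (y a)]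
      simp [hw]
    · exact vcond_conj y w (hwg ▸ hvf)

theorem card_perm8 : (Nat.card (Equiv.Perm (Fin 8))).factorization 2 = 7 := by
  have h : Nat.card (Equiv.Perm (Fin 8)) = 2 ^ 7 * 315 := by
    rw [Nat.card_eq_fintype_card, Fintype.card_perm, Fintype.card_fin]; rfl
  rw [h, Nat.factorization_mul (by norm_num) (by norm_num), Nat.Prime.factorization_pow Nat.prime_two]
  have : (315 : ℕ).factorization 2 = 0 := Nat.factorization_eq_zero_of_not_dvd (by norm_num)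
  simp [this]

/-- In the symmetric group on 8 letters any two Sylow 2-subgroups have non-trivial intersection: for a Sylow 2-subgroup H and every element x, H ∩ xHx⁻¹ ≠ 1. -/
theorem result (H : Sylow 2 (Equiv.Perm (Fin 8))) (x : Equiv.Perm (Fin 8)) :
    (H : Subgroup (Equiv.Perm (Fin 8))) ⊓ (H : Subgroup (Equiv.Perm (Fin 8))).map (MulAut.conj x).toMonoidHom ≠ ⊥ := by
  have : Fact (Nat.Prime 2) := ⟨Nat.prime_two⟩
  let P₀ : Sylow 2 (Equiv.Perm (Fin 8)) := Sylow.ofCard P (by rw [card_P, card_perm8]; norm_num)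
  obtain ⟨g, hg⟩ := MulAction.exists_smul_eq (Equiv.Perm (Fin 8)) P₀ H
  have hmem : ∀ p ∈ P, g * p * g⁻¹ ∈ (H : Subgroup (Equiv.Perm (Fin 8))) := by
    intro p hp
    rw [← hg]
    exact Subgroup.smul_mem_pointwise_smul p (MulAut.conj g) P hp
  obtain ⟨w, hw1, hwP, hwP'⟩ := exists_common (g⁻¹ * x * g)
  intro hbot
  have h1 : g * w * g⁻¹ ∈ (H : Subgroup (Equiv.Perm (Fin 8))) ⊓ (H : Subgroup (Equiv.Perm (Fin 8))).map (MulAut.conj x).toMonoidHom := by
    refine ⟨hmem w hwP, ?_⟩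
    refine ⟨g * ((g⁻¹ * x * g)⁻¹ * w * (g⁻¹ * x * g)) * g⁻¹, hmem _ hwP', ?_⟩
    show x * (g * ((g⁻¹ * x * g)⁻¹ * w * (g⁻¹ * x * g)) * g⁻¹) * x⁻¹ = g * w * g⁻¹
    group
  rw [hbot, Subgroup.mem_bot] at h1
  apply hw1
  have : w = g⁻¹ * (g * w * g⁻¹) * g := by group
  rw [this, h1]; group

end Cfsg.Agent.S5763
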