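import Cfsg.Statements.S5789
import Cfsg.Agent.Lib.Helper97.Sp4E125
import Cfsg.Agent.Lib.Helper97.Sp4ESub
import Cfsg.Agent.Lib.Helper97.Sp4EC3

set_option autoImplicit false
open Cfsg

namespace Cfsg.Agent.S5789

/-- Maximal subgroups of Sp_4(q) of geometric type, q ≥ 4 even. Let F be a finite field of even order q ≥ 4, f the standard alternating form on F^4 (coordinates Fin 2 ⊕ Fin 2) and Sp_4(F) its isometry group inside GL_4(F). Each of the following, intersected with Sp_4(F), is a maximal subgroup of Sp_4(F): (1) the stabiliser of any non-zero totally isotropic subspace (totally isotropic 1-spaces and 2-spaces); (2) the stabiliser of any decomposition of F^4 into two mutually orthogonal non-degenerate 2-spaces; (3) the normaliser of any degree-2 subfield K of the matrix algebra whose elements are self-adjoint for f with f(k v, v) = 0 for all k in K and all v; (4) every subfield group for a subfield F₀ with |F| = |F₀|^r, r prime,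 whose F₀-structure carries a non-zero scalar multiple of f; (5) the similarity group of any non-degenerate quadratic form whose polar form is f (either Witt type); its intersection with Sp_4(F) is the orthogonal group of that form. -/
theorem result {F : Type*} [Field F] [Fintype F] (heven : ¬ Odd (Fintype.card F)) (h4 : 4 ≤ Fintype.card F) :
    (∀ W : Submodule F (Fin 2 ⊕ Fin 2 → F), W ≠ ⊥ → Cfsg.Geo.IsTotallySingularFor (Cfsg.sympForm 2 F) W → Cfsg.Geo.IsMaximalIn (Cfsg.spGL 2 F) (Cfsg.Geo.subspaceStabilizer W ⊓ Cfsg.spGL 2 F)) ∧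
    (∀ D : Fin 2 → Submodule F (Fin 2 ⊕ Fin 2 → F), Cfsg.Geo.IsNondegenerateMDecomposition (Cfsg.sympForm 2 F) 2 D → Cfsg.Geo.IsMaximalIn (Cfsg.spGL 2 F) (Cfsg.Geo.decompositionStabilizer D ⊓ Cfsg.spGL 2 F)) ∧
    (∀ K : Subalgebra F (Matrix (Fin 2 ⊕ Fin 2) (Fin 2 ⊕ Fin 2) F), Cfsg.Geo.IsFieldSubalgebra 2 K → Cfsg.Geo.IsSelfAdjointFor (Cfsg.sympForm 2 F) K → (∀ k ∈ K, ∀ v : (Fin 2 ⊕ Fin 2 → F), (Cfsg.sympForm 2 F) (Matrix.mulVec k v) v = 0) → Cfsg.Geo.IsMaximalIn (Cfsg.spGL 2 F) (Cfsg.Geo.subalgebraNormalizer K ⊓ Cfsg.spGL 2 F)) ∧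
    (∀ (F₀ : Subfield F) (r : ℕ) (P : Matrix.GeneralLinearGroup (Fin 2 ⊕ Fin 2) F) (ζ : F), r.Prime → Fintype.card F = Nat.card F₀ ^ r → ζ ≠ 0 → Cfsg.Geo.IsFormRationalStructure (Cfsg.sympForm 2 F) F₀ ζ P → Cfsg.Geo.IsMaximalIn (Cfsg.spGL 2 F) (Cfsg.Geo.subfieldSubgroup F₀ P ⊓ Cfsg.spGL 2 F)) ∧
    (∀ Q : (Fin 2 ⊕ Fin 2 → F) → F, Cfsg.Geo.IsNondegenerateQuadraticForm Q → (∀ u v : (Fin 2 ⊕ Fin 2 → F), QuadraticMap.polar Q u v = (Cfsg.sympForm 2 F) u v) → Cfsg.Geo.IsMaximalIn (Cfsg.spGL 2 F) (Cfsg.Geo.quadSimilarityGroup Q ⊓ Cfsg.spGL 2 F)) := by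
  classical
  -- characteristic two
  have h2 : (2 : F) = 0 := by
    obtain ⟨p, hp⟩ := CharP.exists F
    have := hp
    have : Fact p.Prime := ⟨CharP.char_is_prime F p⟩
    obtain ⟨n, hpn, hn⟩ := FiniteField.card F p
    have hev : Even (Fintype.card F) := Nat.not_odd_iff_even.mp heven
    rw [hn] at hev
    have hp2 : p = 2 := by
      have h2p : 2 ∣ p := Nat.Prime.dvd_of_dvd_pow Nat.prime_two hev.two_dvd
      exact ((Nat.prime_dvd_prime_iff_eq Nat.prime_two hpn).mp h2p).symm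
    subst hp2
    exact_mod_cast CharP.cast_eq_zero F 2
  -- an element different from 0 and 1
  have hc : ∃ c : F, c ≠ 0 ∧ c ≠ 1 := by
    by_contra hcon
    push Not at hcon
    have h1 : (Finset.univ : Finset F) ⊆ {0, 1} := by
      intro c _
      by_cases hc0 : c = 0
      · simp [hc0]
      · simp [hcon c hc0]
    have h3 := Finset.card_le_card h1
    have h5 : (({0, 1} : Finset F)).card ≤ 2 := Finset.card_le_two
    rw [Finset.card_univ] at h3
    omega
  obtain ⟨t, ht0, ht1⟩ := hc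
  refine ⟨fun W hW0 hW => Cfsg.Agent.Lib.Helper97.Sp4E.ts_max 2 W hW0 hW,
    fun D hD => Cfsg.Agent.Lib.Helper97.Sp4E.decomp_max 2 2 D hD (fun h => by omega),
    fun K hK _ halt => Cfsg.Agent.Lib.Helper97.Sp4E.c3_max h2 t ht0 ht1 K hK halt,
    fun F₀ r P ζ hr hcard hζ hP =>
      Cfsg.Agent.Lib.Helper97.Sp4E.sp4_subfield_isMaximalIn h2 F₀ r hr hcard P ζ hζ hP,
    fun Q hQ hpol => Cfsg.Agent.Lib.Helper97.Sp4E.quad_max 2 (le_refl 2) heven Q hQ hpol⟩

end Cfsg.Agent.S5789
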