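import Cfsg.Statements.S5885
import Mathlib

set_option autoImplicit false
open Cfsg
open scoped Pointwise

namespace Cfsg.Agent.S5885

/-- Every even permutation is induced by a group element, when the primitive groups of that degree
contain the alternating group. -/
theorem exists_of_even {G : Type*} [Group G] {Ω : Type*} [MulAction G Ω] [Fintype Ω] [DecidableEq Ω]
    [MulAction.IsPreprimitive G Ω] (n : ℕ) (hn : Fintype.card Ω = n)
    (hA : ∀ P : Subgroup (Equiv.Perm (Fin n)), MulAction.IsPreprimitive P (Fin n) →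
      alternatingGroup (Fin n) ≤ P)
    (σ : Equiv.Perm Ω) (hσ : Equiv.Perm.sign σ = 1) : ∃ g : G, ∀ x : Ω, g • x = σ x := by
  let e : Ω ≃ Fin n := Fintype.equivFinOfCardEq hn
  let ψ : G →* Equiv.Perm (Fin n) := (e.permCongrHom).toMonoidHom.comp (MulAction.toPermHom G Ω)
  let P : Subgroup (Equiv.Perm (Fin n)) := ψ.range
  let φ : G → P := ψ.rangeRestrict
  let f : Ω →ₑ[φ] Fin n :=
    { toFun := e
      map_smul' := by
        intro g x
        change e (g • x) = ψ g (e x)
        simp [ψ, Equiv.permCongrHom, Equiv.permCongr_apply] }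
  have hprim : MulAction.IsPreprimitive P (Fin n) :=
    MulAction.IsPreprimitive.of_surjective (f := f) e.surjective
  have hle := hA P hprim
  have hmem : e.permCongr σ ∈ alternatingGroup (Fin n) := by
    rw [Equiv.Perm.mem_alternatingGroup, Equiv.Perm.sign_permCongr, hσ]
  obtain ⟨g, hg⟩ := hle hmem
  refine ⟨g, fun x => ?_⟩
  have h1 : ψ g (e x) = e.permCongr σ (e x) := by rw [hg]
  simp only [ψ, Equiv.permCongrHom, Equiv.permCongr_apply, MonoidHom.coe_comp, MulEquiv.coe_toMonoidHom,
    MulEquiv.coe_mk, Function.comp_apply, Equiv.symm_apply_apply,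
    MulAction.toPermHom_apply, MulAction.toPerm_apply, EmbeddingLike.apply_eq_iff_eq] at h1
  exact h1

theorem isCoatom_of_index_prime {G : Type*} [Group G] (H : Subgroup G) (hp : H.index.Prime) :
    IsCoatom H := by
  refine ⟨fun h => ?_, fun L hL => ?_⟩
  · rw [h, Subgroup.index_top] at hp
    exact Nat.not_prime_one hp
  · have h1 := Subgroup.relIndex_mul_index hL.le
    rcases (Nat.dvd_prime hp).mp (Dvd.intro_left _ h1) with h2 | h2
    · exact Subgroup.index_eq_one.mp h2
    · exfalso
      rw [h2] at h1
      have h3 : H.relIndex L = 1 := by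
        have hpos := hp.pos
        nlinarith [h1]
      exact (not_le_of_gt hL) (Subgroup.relIndex_eq_one.mp h3)

section cyc
variable {Ω : Type*} [DecidableEq Ω]

/-- the 3-cycle `b ↦ c ↦ d ↦ b` -/
def cyc (b c d : Ω) : Equiv.Perm Ω := Equiv.swap b c * Equiv.swap c d

theorem cyc_apply_first {b c d : Ω} (hbc : b ≠ c) (hbd : b ≠ d) : cyc b c d b = c := by
  simp [cyc, Equiv.swap_apply_of_ne_of_ne hbc hbd]

theorem cyc_apply_second {b c d : Ω} (hbd : b ≠ d) (hcd : c ≠ d) : cyc b c d c = d := by
  simp [cyc, Equiv.swap_apply_of_ne_of_ne hbd.symm hcd.symm]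

theorem cyc_apply_of_ne {b c d x : Ω} (hb : x ≠ b) (hc : x ≠ c) (hd : x ≠ d) : cyc b c d x = x := by
  simp [cyc, Equiv.swap_apply_of_ne_of_ne hc hd, Equiv.swap_apply_of_ne_of_ne hb hc]

theorem sign_cyc [Fintype Ω] {b c d : Ω} (hbc : b ≠ c) (hcd : c ≠ d) :
    Equiv.Perm.sign (cyc b c d) = 1 := by
  simp [cyc, Equiv.Perm.sign_swap hbc, Equiv.Perm.sign_swap hcd]

end cyc

theorem core {G : Type*} [Group G] [Finite G] {Ω : Type*} [MulAction G Ω] [Fintype Ω] [DecidableEq Ω]
    [MulAction.IsPretransitive G Ω]
    (hodd : Odd (Fintype.card Ω))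
    (heven : ∀ σ : Equiv.Perm Ω, Equiv.Perm.sign σ = 1 → ∃ g : G, ∀ x : Ω, g • x = σ x)
    (a : Ω) (H K : Subgroup G)
    (hK : IsCoatom K) (hKa : ¬ K ≤ MulAction.stabilizer G a)
    (hH : H = K ⊓ MulAction.stabilizer G a)
    (hmax : IsCoatom (H.subgroupOf (MulAction.stabilizer G a))) :
    IsCoatom (H.subgroupOf K) := by
  have hsub : H.subgroupOf K = MulAction.stabilizer K a := by
    ext x
    simp only [Subgroup.mem_subgroupOf, hH, Subgroup.mem_inf, MulAction.mem_stabilizer_iff,
      SetLike.coe_mem, true_and]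
    rfl
  rw [hsub]
  -- K moves a
  obtain ⟨k₀, hk₀K, hk₀a⟩ : ∃ k ∈ K, k • a ≠ a := by
    by_contra hcon
    push Not at hcon
    exact hKa (fun k hk => hcon k hk)
  by_cases hΔ : MulAction.orbit K a = Set.univ
  · -- K is transitive on Ω
    have hKtrans : MulAction.IsPretransitive K Ω := (MulAction.isPretransitive_iff_orbit_eq_univ a).mpr hΔ
    have hnt : Nontrivial Ω := ⟨⟨k₀ • a, a, hk₀a⟩⟩
    suffices hprim : MulAction.IsPreprimitive K Ω from
      MulAction.IsPreprimitive.isCoatom_stabilizer_of_isPreprimitive K a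
    refine { toIsPretransitive := hKtrans, isTrivialBlock_of_isBlock := ?_ }
    intro B₀ hB₀
    by_contra htriv
    unfold MulAction.IsTrivialBlock at htriv
    push Not at htriv
    obtain ⟨hB₀nt, hB₀u⟩ := htriv
    have hB₀ns : ¬ B₀.Subsingleton := Set.not_subsingleton_iff.mpr hB₀nt
    -- translate the block so that it contains a
    obtain ⟨b₀, hb₀⟩ : B₀.Nonempty := by
      by_contra hne
      rw [Set.not_nonempty_iff_eq_empty] at hne
      exact hB₀ns (hne ▸ Set.subsingleton_empty)
    obtain ⟨k₁, hk₁⟩ := MulAction.exists_smul_eq K b₀ a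
    set B : Set Ω := k₁ • B₀ with hBdef
    have hB : MulAction.IsBlock K B := hB₀.translate k₁
    have haB : a ∈ B := hk₁ ▸ Set.smul_mem_smul_set hb₀
    have hBns : ¬ B.Subsingleton := by
      intro hs
      apply hB₀ns
      intro u hu v hv
      have := hs (Set.smul_mem_smul_set (a := k₁) hu) (Set.smul_mem_smul_set (a := k₁) hv)
      exact MulAction.injective k₁ this
    have hBu : B ≠ Set.univ := by
      intro hu
      apply hB₀u
      have : B₀ = k₁⁻¹ • B := by rw [hBdef, inv_smul_smul]
      rw [this, hu, Set.smul_set_univ]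
    -- sizes
    obtain ⟨c, hc⟩ := hB.ncard_dvd_card ⟨a, haB⟩
    rw [Nat.card_eq_fintype_card] at hc
    have hm2 : 2 ≤ B.ncard := by
      by_contra hlt
      push Not at hlt
      exact hBns (Set.ncard_le_one_iff_subsingleton.mp (by omega))
    have h2m : ¬ Fintype.card Ω < B.ncard * 2 := by
      intro hlt
      exact hBu (hB.eq_univ_of_card_lt (by rw [Nat.card_eq_fintype_card]; exact hlt))
    have hc3 : 3 * B.ncard ≤ Fintype.card Ω := by
      have hc2 : c ≠ 2 := by
        intro h
        rw [h] at hc
        rw [hc] at hodd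
        exact (Nat.not_even_iff_odd.mpr hodd) ⟨B.ncard, by ring⟩
      have hc1 : 2 ≤ c := by
        by_contra hlt
        push Not at hlt
        apply h2m
        rw [hc]
        nlinarith
      have : 3 ≤ c := by omega
      rw [hc]; nlinarith
    -- an element x of B different from a
    obtain ⟨x, hxB, hxa⟩ : ∃ x ∈ B, x ≠ a := by
      by_contra hcon
      push Not at hcon
      exact hBns (fun u hu v hv => (hcon u hu).trans (hcon v hv).symm)
    -- two elements outside B
    have hBc : 2 ≤ Bᶜ.ncard := by
      have := Set.ncard_add_ncard_compl B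
      rw [Nat.card_eq_fintype_card] at this
      omega
    obtain ⟨y, z, hy, hz, hyz⟩ := (Set.one_lt_ncard_iff (Set.toFinite _)).mp hBc
    -- Step 1: H stabilizes B
    have hHB : H ≤ MulAction.stabilizer G B := by
      intro h hh
      rw [hH] at hh
      have h1 : (⟨h, hh.1⟩ : K) • B = B := by
        apply hB.smul_eq_of_mem haB
        have : h • a = a := MulAction.mem_stabilizer_iff.mp hh.2
        change h • a ∈ B
        rw [this]; exact haB
      exact MulAction.mem_stabilizer_iff.mpr h1
    -- Step 2: the stabilizer of a does not stabilize B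
    have hnot : ¬ MulAction.stabilizer G a ≤ MulAction.stabilizer G B := by
      intro hle
      have hxy : x ≠ y := fun h => hy (h ▸ hxB)
      have hxz : x ≠ z := fun h => hz (h ▸ hxB)
      have hay : a ≠ y := fun h => hy (h ▸ haB)
      have haz : a ≠ z := fun h => hz (h ▸ haB)
      obtain ⟨g, hg⟩ := heven (cyc x y z) (sign_cyc hxy hyz)
      have hga : g ∈ MulAction.stabilizer G a := by
        rw [MulAction.mem_stabilizer_iff, hg, cyc_apply_of_ne hxa.symm hay haz]
      have hgB := MulAction.mem_stabilizer_iff.mp (hle hga)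
      have : y ∈ g • B := ⟨x, hxB, by change g • x = y; rw [hg, cyc_apply_first hxy hxz]⟩
      rw [hgB] at this
      exact hy this
    -- Step 3: H is the stabilizer of a and B
    have hHeq : ∀ s : G, s • a = a → s • B = B → s ∈ H := by
      intro s hsa hsB
      let S : Subgroup G := MulAction.stabilizer G a ⊓ MulAction.stabilizer G B
      have hHS : H ≤ S := le_inf (hH ▸ inf_le_right) hHB
      have hle : H.subgroupOf (MulAction.stabilizer G a) ≤ S.subgroupOf (MulAction.stabilizer G a) :=
        fun u hu => hHS hu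
      have hne : S.subgroupOf (MulAction.stabilizer G a) ≠ ⊤ := by
        intro htop
        rw [Subgroup.subgroupOf_eq_top] at htop
        exact hnot (htop.trans inf_le_right)
      have heq : H.subgroupOf (MulAction.stabilizer G a) = S.subgroupOf (MulAction.stabilizer G a) := by
        by_contra hneq
        exact hne (hmax.2 _ (lt_of_le_of_ne hle hneq))
      have hsS : (⟨s, MulAction.mem_stabilizer_iff.mpr hsa⟩ : MulAction.stabilizer G a) ∈
          S.subgroupOf (MulAction.stabilizer G a) :=
        Subgroup.mem_subgroupOf.mpr ⟨MulAction.mem_stabilizer_iff.mpr hsa,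
          MulAction.mem_stabilizer_iff.mpr hsB⟩
      rw [← heq] at hsS
      exact Subgroup.mem_subgroupOf.mp hsS
    -- Step 4: a translate B' of B disjoint from B
    obtain ⟨w, hw⟩ : ∃ w, w ∉ B := by
      by_contra hcon
      push Not at hcon
      exact hBu (Set.eq_univ_of_forall hcon)
    obtain ⟨k, hk⟩ := MulAction.exists_smul_eq K a w
    have hB' : MulAction.IsBlock K (k • B) := hB.translate k
    have hdisj : Disjoint (k • B) B := by
      apply hB.disjoint_smul_of_ne
      intro heq
      apply hw
      rw [← heq, ← hk]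
      exact Set.smul_mem_smul_set haB
    -- Step 5: a 3-cycle moving B' but fixing B pointwise
    have hx'B' : k • a ∈ k • B := Set.smul_mem_smul_set haB
    have hy'B' : k • x ∈ k • B := Set.smul_mem_smul_set hxB
    have hx'y' : k • a ≠ k • x := fun h => hxa (MulAction.injective k h).symm
    have hunion : (B ∪ k • B).ncard < Fintype.card Ω := by
      have h1 := Set.ncard_union_le B (k • B)
      have h2 : (k • B).ncard = B.ncard := Set.ncard_smul_set k B
      omega
    obtain ⟨z', hz'⟩ : ∃ z', z' ∉ B ∪ k • B := by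
      by_contra hcon
      push Not at hcon
      have : B ∪ k • B = Set.univ := Set.eq_univ_of_forall hcon
      rw [this, Set.ncard_univ, Nat.card_eq_fintype_card] at hunion
      exact lt_irrefl _ hunion
    have hz'B : z' ∉ B := fun h => hz' (Or.inl h)
    have hz'B' : z' ∉ k • B := fun h => hz' (Or.inr h)
    have hx'z' : k • a ≠ z' := fun h => hz'B' (h ▸ hx'B')
    have hy'z' : k • x ≠ z' := fun h => hz'B' (h ▸ hy'B')
    have hfixB : ∀ u ∈ B, cyc (k • a) (k • x) z' u = u := by
      intro u hu
      apply cyc_apply_of_ne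
      · intro h; exact Set.disjoint_left.mp hdisj (h ▸ hx'B') hu
      · intro h; exact Set.disjoint_left.mp hdisj (h ▸ hy'B') hu
      · intro h; exact hz'B (h ▸ hu)
    obtain ⟨g', hg'⟩ := heven (cyc (k • a) (k • x) z') (sign_cyc hx'y' hy'z')
    have hg'a : g' • a = a := by rw [hg', hfixB a haB]
    have hg'B : g' • B = B := by
      ext u
      constructor
      · rintro ⟨v, hv, rfl⟩
        change g' • v ∈ B
        rw [hg', hfixB v hv]; exact hv
      · intro hu
        exact ⟨u, hu, by change g' • u = u; rw [hg', hfixB u hu]⟩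
    have hg'H : g' ∈ H := hHeq g' hg'a hg'B
    have hg'K : g' ∈ K := by rw [hH] at hg'H; exact hg'H.1
    have h1 : (⟨g', hg'K⟩ : K) • (k • B) = k • B := by
      apply hB'.smul_eq_of_mem hx'B'
      change g' • (k • a) ∈ k • B
      rw [hg', cyc_apply_first hx'y' hx'z']
      exact hy'B'
    have h2 : z' ∈ (⟨g', hg'K⟩ : K) • (k • B) :=
      ⟨k • x, hy'B', by change g' • (k • x) = z'; rw [hg', cyc_apply_second hx'z' hy'z']⟩
    rw [h1] at h2
    exact hz'B' h2
  · -- K is intransitive: K is the stabilizer of its orbit Δ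
    set Δ : Set Ω := MulAction.orbit K a with hΔdef
    have haΔ : a ∈ Δ := MulAction.mem_orbit_self a
    have hKΔ : K ≤ MulAction.stabilizer G Δ := by
      intro k hk
      rw [MulAction.mem_stabilizer_iff]
      have := MulAction.smul_orbit (⟨k, hk⟩ : K) a
      exact this
    have hstab_ne : MulAction.stabilizer G Δ ≠ ⊤ := by
      intro htop
      obtain ⟨c, hc⟩ : ∃ c, c ∉ Δ := by
        by_contra hcon
        push Not at hcon
        exact hΔ (Set.eq_univ_of_forall hcon)
      obtain ⟨g, hg⟩ := MulAction.exists_smul_eq G a c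
      have hgmem : g ∈ MulAction.stabilizer G Δ := htop ▸ Subgroup.mem_top g
      have : c ∈ g • Δ := hg ▸ Set.smul_mem_smul_set haΔ
      rw [MulAction.mem_stabilizer_iff.mp hgmem] at this
      exact hc this
    have hKeq : K = MulAction.stabilizer G Δ := by
      by_contra hne
      exact hstab_ne (hK.2 _ (lt_of_le_of_ne hKΔ hne))
    have hidx : (MulAction.stabilizer K a).index = Δ.ncard := MulAction.index_stabilizer K a
    by_cases hprime : Δ.ncard.Prime
    · exact isCoatom_of_index_prime _ (hidx ▸ hprime)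
    -- |Δ| ≥ 4
    have hb₁Δ : k₀ • a ∈ Δ := ⟨⟨k₀, hk₀K⟩, rfl⟩
    have hΔ4 : 4 ≤ Δ.ncard := by
      have h2 : 1 < Δ.ncard :=
        (Set.one_lt_ncard_iff (Set.toFinite _)).mpr ⟨k₀ • a, a, hb₁Δ, haΔ, hk₀a⟩
      by_contra hlt
      push Not at hlt
      interval_cases h : Δ.ncard
      · exact hprime Nat.prime_two
      · exact hprime Nat.prime_three
    refine ⟨?_, fun L hL => ?_⟩
    · intro htop
      have : (⟨k₀, hk₀K⟩ : K) ∈ MulAction.stabilizer K a := htop ▸ Subgroup.mem_top _
      exact hk₀a (MulAction.mem_stabilizer_iff.mp this)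
    · obtain ⟨l, hlL, hlstab⟩ := Set.exists_of_ssubset hL
      have hla : l • a ≠ a := fun h => hlstab (MulAction.mem_stabilizer_iff.mpr h)
      rw [eq_top_iff]
      intro k _
      by_cases hka : k • a = a
      · exact hL.le (MulAction.mem_stabilizer_iff.mpr hka)
      by_cases hkl : k • a = l • a
      · have : l⁻¹ * k ∈ MulAction.stabilizer K a := by
          rw [MulAction.mem_stabilizer_iff, mul_smul, hkl, inv_smul_smul]
        have h2 : l * (l⁻¹ * k) ∈ L := L.mul_mem hlL (hL.le this)
        rwa [mul_inv_cancel_left] at h2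
      -- b = l • a, c = k • a, and a fourth point d of Δ
      have hbΔ : l • a ∈ Δ := ⟨l, rfl⟩
      have hcΔ : k • a ∈ Δ := ⟨k, rfl⟩
      obtain ⟨d, hdΔ, hd⟩ : ∃ d ∈ Δ, d ∉ ({a, l • a, k • a} : Set Ω) := by
        by_contra hcon
        push Not at hcon
        have hsub : Δ ⊆ ({a, l • a, k • a} : Set Ω) := hcon
        have h1 := Set.ncard_le_ncard hsub (Set.toFinite _)
        have h2 : ({a, l • a, k • a} : Set Ω).ncard ≤ 3 := by
          refine (Set.ncard_insert_le _ _).trans ?_
          have := Set.ncard_insert_le (l • a) ({k • a} : Set Ω)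
          rw [Set.ncard_singleton] at this
          omega
        omega
      simp only [Set.mem_insert_iff, Set.mem_singleton_iff, not_or] at hd
      obtain ⟨hda, hdb, hdc⟩ := hd
      obtain ⟨g, hg⟩ := heven (cyc (l • a) (k • a) d) (sign_cyc (Ne.symm hkl) (Ne.symm hdc))
      have hga : g • a = a := by
        rw [hg, cyc_apply_of_ne (Ne.symm hla) (Ne.symm hka) (Ne.symm hda)]
      have hgΔ : g • Δ = Δ := by
        have hsub : g • Δ ⊆ Δ := by
          rintro _ ⟨v, hv, rfl⟩
          change g • v ∈ Δ
          rw [hg]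
          by_cases h1 : v = l • a
          · rw [h1, cyc_apply_first (Ne.symm hkl) (Ne.symm hdb)]; exact hcΔ
          by_cases h2 : v = k • a
          · rw [h2, cyc_apply_second (Ne.symm hdb) (Ne.symm hdc)]; exact hdΔ
          by_cases h3 : v = d
          · rw [h3]
            have : cyc (l • a) (k • a) d d = l • a := by
              simp [cyc]
            rw [this]; exact hbΔ
          · rw [cyc_apply_of_ne h1 h2 h3]; exact hv
        exact Set.eq_of_subset_of_ncard_le hsub (by rw [Set.ncard_smul_set]) (Set.toFinite _)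
      have hgK : g ∈ K := by rw [hKeq]; exact MulAction.mem_stabilizer_iff.mpr hgΔ
      have hgL : (⟨g, hgK⟩ : K) ∈ L := hL.le (MulAction.mem_stabilizer_iff.mpr hga)
      have hglk : ((⟨g, hgK⟩ : K) * l)⁻¹ * k ∈ MulAction.stabilizer K a := by
        rw [MulAction.mem_stabilizer_iff, mul_smul, inv_smul_eq_iff, mul_smul]
        change k • a = g • (l • a)
        rw [hg, cyc_apply_first (Ne.symm hkl) (Ne.symm hdb)]
      have h2 : ((⟨g, hgK⟩ : K) * l) * (((⟨g, hgK⟩ : K) * l)⁻¹ * k) ∈ L :=
        L.mul_mem (L.mul_mem hgL hlL) (hL.le hglk)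
      rwa [mul_inv_cancel_left] at h2

/-- Let n be an odd positive integer such that every primitive permutation group of degree n contains the alternating group (so the symmetric and alternating groups are the only primitive groups of degree n). Let G be a finite group, M a maximal subgroup of G of index n, and H a maximal subgroup of M. Then H is a second maximal subgroup of G: H is maximal in every maximal subgroup K of G containing H. -/
theorem result {G : Type*} [Group G]
    [Finite G] (n : ℕ) (hodd : Odd n)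
    (hA : ∀ P : Subgroup (Equiv.Perm (Fin n)), MulAction.IsPreprimitive P (Fin n) → alternatingGroup (Fin n) ≤ P)
    (M : Subgroup G) (hM : IsCoatom M) (hn : M.index = n) (H : Subgroup G) (hHM : H ≤ M)
    (hmax : IsCoatom (H.subgroupOf M)) (K : Subgroup G) (hK : IsCoatom K) (hHK : H ≤ K) :
    IsCoatom (H.subgroupOf K) := by
  classical
  by_cases hKM : K = M
  · rw [hKM]; exact hmax
  have hKleM : ¬ K ≤ M := by
    intro hle
    exact hM.1 (hK.2 M (lt_of_le_of_ne hle hKM))
  let _ : Fintype (G ⧸ M) := Fintype.ofFinite _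
  have hcard : Fintype.card (G ⧸ M) = n := by
    rw [← Nat.card_eq_fintype_card]; exact hn
  have hstab : MulAction.stabilizer G ((1 : G) : G ⧸ M) = M := MulAction.stabilizer_quotient M
  have hnt : Nontrivial (G ⧸ M) := by
    rw [← Fintype.one_lt_card_iff_nontrivial, hcard]
    have h1 : n ≠ 1 := by
      rw [← hn]; intro h; exact hM.1 (Subgroup.index_eq_one.mp h)
    have h0 : n ≠ 0 := by
      rw [← hn]; exact Subgroup.index_ne_zero_of_finite
    omega
  have hprim : MulAction.IsPreprimitive G (G ⧸ M) := by
    rw [← MulAction.isCoatom_stabilizer_iff_preprimitive G ((1 : G) : G ⧸ M), hstab]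
    exact hM
  have heven := fun σ hσ => exists_of_even (G := G) (Ω := G ⧸ M) n hcard hA σ hσ
  have hHeq : H = K ⊓ M := by
    apply le_antisymm (le_inf hHK hHM)
    have hle : H.subgroupOf M ≤ (K ⊓ M).subgroupOf M := fun u hu => ⟨hHK hu, u.2⟩
    have hne : (K ⊓ M).subgroupOf M ≠ ⊤ := by
      intro htop
      rw [Subgroup.subgroupOf_eq_top] at htop
      have hMK : M ≤ K := htop.trans inf_le_left
      exact hKM (le_antisymm (by
        by_contra hnle
        exact hnle (le_of_eq (by
          by_contra hne2
          exact hK.1 (hM.2 K (lt_of_le_of_ne hMK (fun h => hne2 h.symm)))))) hMK)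
    have heq : H.subgroupOf M = (K ⊓ M).subgroupOf M := by
      by_contra hneq
      exact hne (hmax.2 _ (lt_of_le_of_ne hle hneq))
    intro s hs
    have hsM : (⟨s, hs.2⟩ : M) ∈ (K ⊓ M).subgroupOf M := Subgroup.mem_subgroupOf.mpr hs
    rw [← heq] at hsM
    exact Subgroup.mem_subgroupOf.mp hsM
  apply core (Ω := G ⧸ M) (hcard ▸ hodd) heven ((1 : G) : G ⧸ M) H K hK
  · rw [hstab]; exact hKleM
  · rw [hstab]; exact hHeq
  · rw [hstab]; exact hmax

end Cfsg.Agent.S5885
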