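import Cfsg.Statements.S5886
import Cfsg.Agent.Lib.Helper97.KAlg3
import Cfsg.Agent.Lib.Helper97.KG1
import Cfsg.Agent.Lib.Helper97.KDet
import Cfsg.Agent.Lib.Helper96.KLinT
import Cfsg.Agent.Lib.Helper71.KLinR2a
import Cfsg.Agent.Lib.Helper71.KLinR2b
import Cfsg.Agent.Lib.Helper16.KG23
import Cfsg.Agent.Lib.Helper98.K222

set_option autoImplicit false
open Cfsg

namespace Cfsg.Agent.S5886

open Matrix Cfsg.Agent.Lib.Helper97

/-- A subgroup containing the `K`-linear maps of determinant one and not normalising `K` contains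
the special linear group. -/
theorem main_overgroup {F : Type*} [Field F] [Fintype F] {n r : ℕ} (hr : r.Prime) (hrn : r ∣ n)
    (hlt : r < n) {K : Subalgebra F (Matrix (Fin n) (Fin n) F)}
    (hK : Cfsg.Geo.IsFieldSubalgebra r K) (M : Subgroup (GL (Fin n) F)) (hM : klG K ≤ M)
    (hMN : ¬ M ≤ Cfsg.Geo.subalgebraNormalizer K) : Cfsg.Geo.specialLinear (Fin n) F ≤ M := by
  have hn0 : 0 < n := by omega
  obtain ⟨u, hu⟩ : ∃ u : Fin n → F, u ≠ 0 :=
    ⟨fun _ => 1, fun h => one_ne_zero (congrFun h ⟨0, hn0⟩)⟩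
  obtain ⟨h, hh, hhu, ω, hω⟩ := exists_G1 hK hlt M hM hMN u hu
  have key : ∃ w ψ : Fin n → F, w ≠ 0 ∧ ψ ≠ 0 ∧ TM M w ψ := by
    by_cases hr3 : 3 ≤ r
    · obtain ⟨z, hz, hzL, hzN⟩ := Cfsg.Agent.Lib.Helper16.KG23.exists_notNormL_r3 hK hr hr3 hlt M hM u hu h hh hhu ω hω
      obtain ⟨ψ, hψ, hTM⟩ := exists_TM_of_notNormL hK hr hlt M hM u hu z hz hzL hzN
      exact ⟨u, ψ, hu, hψ, hTM⟩
    · have hr2 : r = 2 := by
        have := hr.two_le
        omega
      subst hr2
      by_cases hq : 3 ≤ Fintype.card F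
      · obtain ⟨z, hz, hzL, hzN⟩ := Cfsg.Agent.Lib.Helper71.KLinR2.exists_notNormL_r2 hK hq hlt M hM u hu h hh hhu ω hω
        obtain ⟨ψ, hψ, hTM⟩ := exists_TM_of_notNormL hK hr hlt M hM u hu z hz hzL hzN
        exact ⟨u, ψ, hu, hψ, hTM⟩
      · have hq2 : Fintype.card F = 2 := by
          have := Fintype.one_lt_card (α := F)
          omega
        by_cases hn4 : 4 < n
        · obtain ⟨ψ, hψ, hTM⟩ := Cfsg.Agent.Lib.Helper71.KLinR2.exists_TM_r2_big hK hn4 M hM u hu h hh hhu ω hω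
          exact ⟨u, ψ, hu, hψ, hTM⟩
        · have hn : n = 4 := by
            obtain ⟨m, rfl⟩ := hrn
            omega
          subst hn
          exact Cfsg.Agent.Lib.Helper98.k222 hq2 hK M hM u hu h hh hhu ω hω
  obtain ⟨w, ψ, hw, hψ, hTM⟩ := key
  exact Cfsg.Agent.Lib.Helper96.KLinT.sl_le_of_TM hK hr.one_lt hlt M hM w ψ hw hψ hTM

theorem result {F : Type*} [Field F]
    [Fintype F] (n r : ℕ) (hr : r.Prime) (hrn : r ∣ n) (hlt : r < n) (K : Subalgebra F (Matrix (Fin n) (Fin n) F))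
    (hK : Cfsg.Geo.IsFieldSubalgebra r K) :
    IsCoatom (Cfsg.Geo.subalgebraNormalizer K) ∧
      Cfsg.Geo.IsMaximalIn (Cfsg.Geo.specialLinear (Fin n) F)
        (Cfsg.Geo.subalgebraNormalizer K ⊓ Cfsg.Geo.specialLinear (Fin n) F) := by
  have hr1 : 1 < r := hr.one_lt
  have hn3 : 3 ≤ n := by omega
  have hne : Nonempty (Fin n) := ⟨⟨0, by omega⟩⟩
  have hq1 : 1 < Fintype.card F := Fintype.one_lt_card
  -- a non-scalar element of `K`
  obtain ⟨b, hb0, -, -, hbe⟩ := fs_exists_gen hK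
  have hns : ∀ c : F, (b : Matrix (Fin n) (Fin n) F) ≠ c • (1 : Matrix (Fin n) (Fin n) F) := by
    intro c hc
    rcases eq_or_ne c 0 with rfl | hc0
    · apply hb0
      apply Subtype.ext
      rw [hc, zero_smul, ZeroMemClass.coe_zero]
    · have hlt' : Fintype.card F < Fintype.card F ^ r := by
        calc Fintype.card F = Fintype.card F ^ 1 := (pow_one _).symm
          _ < Fintype.card F ^ r := Nat.pow_lt_pow_right hq1 hr1
      apply hbe (Fintype.card F - 1) (by omega) (by omega)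
      apply Subtype.ext
      rw [Subalgebra.coe_pow, hc, smul_pow, one_pow, FiniteField.pow_card_sub_one_eq_one c hc0,
        one_smul, OneMemClass.coe_one]
  obtain ⟨y, hySL, hyN⟩ := exists_sl_not_normalizer hK hn3 b.2 hns
  have hklN : klG K ≤ Cfsg.Geo.subalgebraNormalizer K ⊓ Cfsg.Geo.specialLinear (Fin n) F := klG_le
  constructor
  · refine ⟨fun h => hyN (by rw [h]; exact Subgroup.mem_top y), fun M hNM => ?_⟩
    have hSLM : Cfsg.Geo.specialLinear (Fin n) F ≤ M :=
      main_overgroup hr hrn hlt hK M (le_trans (le_trans hklN inf_le_left) hNM.le)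
        (not_le_of_gt hNM)
    rw [eq_top_iff]
    intro x _
    have hdx : (x : Matrix (Fin n) (Fin n) F).det ≠ 0 := by
      have h1 : (x : Matrix (Fin n) (Fin n) F).det *
          ((x⁻¹ : GL (Fin n) F) : Matrix (Fin n) (Fin n) F).det = 1 := by
        rw [← Matrix.det_mul, Units.mul_inv, Matrix.det_one]
      intro h
      rw [h, zero_mul] at h1
      exact zero_ne_one h1
    obtain ⟨g, hgN, hgdet⟩ := exists_normalizer_det hK (by omega) _ hdx
    have h1 : x * g⁻¹ ∈ Cfsg.Geo.specialLinear (Fin n) F := by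
      rw [mem_specialLinear_iff, Units.val_mul, Matrix.det_mul]
      have h2 : (g : Matrix (Fin n) (Fin n) F).det *
          ((g⁻¹ : GL (Fin n) F) : Matrix (Fin n) (Fin n) F).det = 1 := by
        rw [← Matrix.det_mul, Units.mul_inv, Matrix.det_one]
      rw [← hgdet]
      exact h2
    have h3 : x = (x * g⁻¹) * g := by group
    rw [h3]
    exact M.mul_mem (hSLM h1) (hNM.le hgN)
  · refine ⟨lt_of_le_of_ne inf_le_right (fun h => hyN ?_), fun M hM1 hM2 => ?_⟩
    · have h1 : y ∈ Cfsg.Geo.subalgebraNormalizer K ⊓ Cfsg.Geo.specialLinear (Fin n) F := by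
        rw [h]
        exact hySL
      exact (Subgroup.mem_inf.mp h1).1
    · by_cases hMN : M ≤ Cfsg.Geo.subalgebraNormalizer K
      · left
        exact le_antisymm (le_inf hMN hM2) hM1
      · right
        exact le_antisymm hM2 (main_overgroup hr hrn hlt hK M (le_trans hklN hM1) hMN)

end Cfsg.Agent.S5886
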