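import Cfsg.Statements.S5887
import Cfsg.Agent.Lib.Helper97.FieldSub

set_option autoImplicit false
open Cfsg

namespace Cfsg.Agent.S5887

open Cfsg.Agent.Lib.Helper97 Matrix

/-- Let F be a finite field, n a positive integer and r a composite number (r > 1, not prime) that divides n with r < n. Let K be a subalgebra of the algebra of n × n matrices over F which is a field of degree r over F (commutative, every non-zero element invertible, of dimension r over F). Then the normaliser N of K in GL_n(F) (a group of type ΓL_{n/r}(F_{q^r})) is not a maximal subgroup of GL_n(F), and N ∩ SL_n(F) is not a maximal subgroup of SL_n(F): both lie properly inside the normaliser of an intermediate subfield of prime degree over F. -/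
theorem result {F : Type*} [Field F]
    [Fintype F] (n r : ℕ) (hr1 : 1 < r) (hrp : ¬ r.Prime) (hrn : r ∣ n) (hlt : r < n)
    (K : Subalgebra F (Matrix (Fin n) (Fin n) F)) (hK : Cfsg.Geo.IsFieldSubalgebra r K) :
    ¬ IsCoatom (Cfsg.Geo.subalgebraNormalizer K) ∧
      ¬ Cfsg.Geo.IsMaximalIn (Cfsg.Geo.specialLinear (Fin n) F)
        (Cfsg.Geo.subalgebraNormalizer K ⊓ Cfsg.Geo.specialLinear (Fin n) F) := by
  classical
  -- a factorisation of `r`
  obtain ⟨a, b, ha, hb, hab⟩ : ∃ a b : ℕ, 1 < a ∧ 1 < b ∧ r = a * b := by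
    obtain ⟨a, ⟨b, hb⟩, ha1, har⟩ := (Nat.not_prime_iff_exists_dvd_ne (by omega)).mp hrp
    refine ⟨a, b, ?_, ?_, hb⟩
    · rcases Nat.lt_or_ge 1 a with h | h
      · exact h
      · interval_cases a
        · omega
        · omega
    · rcases Nat.lt_or_ge 1 b with h | h
      · exact h
      · interval_cases b
        · omega
        · omega
  have hn : 2 * r ≤ n := by
    obtain ⟨c, rfl⟩ := hrn
    have hc : 2 ≤ c := by
      by_contra hc
      push Not at hc
      interval_cases c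
      · omega
      · omega
    nlinarith
  have hne : Nonempty (Fin n) := ⟨⟨0, by omega⟩⟩
  set q := Fintype.card F with hq
  have hq1 : 1 < q := Fintype.one_lt_card
  obtain ⟨p, hp⟩ := CharP.exists F
  have : Fact p.Prime := ⟨CharP.char_is_prime F p⟩
  obtain ⟨f, hpf, hqf⟩ := FiniteField.card F p
  set Q := q ^ a with hQ
  have hQp : Q = p ^ ((f : ℕ) * a) := by rw [hQ, hq, hqf, pow_mul]
  have hadd : ∀ x ∈ K, ∀ y ∈ K, (x + y) ^ Q = x ^ Q + y ^ Q := by
    intro x hx y hy
    rw [hQp]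
    exact add_pow_char_pow_of_commute p _ (hK.comm x hx y hy)
  have hsc : ∀ c : F, (algebraMap F (Matrix (Fin n) (Fin n) F) c) ^ Q = algebraMap F _ c := by
    intro c
    rw [← map_pow, hQ, hq, FiniteField.pow_card_pow]
  set K₀ := frobSub K Q hK.comm hadd hsc with hK₀def
  have hK₀ : Cfsg.Geo.IsFieldSubalgebra (Module.finrank F K₀) K₀ := frobSub_fs hK
  have hle : K₀ ≤ K := frobSub_le
  have hNle : Cfsg.Geo.subalgebraNormalizer K ≤ Cfsg.Geo.subalgebraNormalizer K₀ :=
    normalizer_le_frobSub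
  -- elements of `K` from the cyclic structure
  obtain ⟨g, hgK, hgQ, k₀, hk₀K, hk₀Q, hk₀q⟩ : ∃ g ∈ K, g ^ Q ≠ g ∧ ∃ k₀ ∈ K, k₀ ^ Q = k₀ ∧
      k₀ ^ q ≠ k₀ := by
    let _ : Field ↥K := (fs_isField hK).toField
    have hcard : Nat.card ↥K = q ^ (a * b) := by
      rw [Module.natCard_eq_pow_finrank (K := F) (V := ↥K), hK.finrank_eq, Nat.card_eq_fintype_card,
        hab]
    obtain ⟨⟨g, hg⟩, ⟨x, hx1, hx2⟩⟩ := ff_exists_frob (L := ↥K) q a b hq1 ha hb hcard
    refine ⟨g.1, g.2, fun h => hg (Subtype.ext h), x.1, x.2, congrArg Subtype.val hx1,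
      fun h => hx2 (Subtype.ext h)⟩
  have hk₀ : k₀ ∈ K₀ := ⟨hk₀K, hk₀Q⟩
  have hns : ∀ c : F, k₀ ≠ c • (1 : Matrix (Fin n) (Fin n) F) := by
    intro c hc
    apply hk₀q
    rw [hc, smul_pow, one_pow, hq, FiniteField.pow_card]
  have hltK : K₀ < K := lt_of_le_of_ne hle (fun h => hgQ (by
    have h1 : g ∈ K₀ := by rw [h]; exact hgK
    exact h1.2))
  have hd : Module.finrank F K₀ < r := by
    rw [← hK.finrank_eq]
    exact Submodule.finrank_lt_finrank_of_lt (Subalgebra.toSubmodule.lt_iff_lt.mpr hltK)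
  obtain ⟨y, hySL, hyN⟩ := exists_sl_not_normalizer hK₀ (by omega) hk₀ hns
  obtain ⟨x, hxSL, hxN₀, hxN⟩ := exists_sl_normalizer_not hK hK₀ hd hn p
  constructor
  · intro hco
    have h1 : Cfsg.Geo.subalgebraNormalizer K < Cfsg.Geo.subalgebraNormalizer K₀ :=
      lt_of_le_of_ne hNle (fun h => hxN (by rw [h]; exact hxN₀))
    have h2 := hco.2 _ h1
    exact hyN (by rw [h2]; exact Subgroup.mem_top y)
  · rintro ⟨-, hmax⟩
    rcases hmax (Cfsg.Geo.subalgebraNormalizer K₀ ⊓ Cfsg.Geo.specialLinear (Fin n) F)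
      (inf_le_inf_right _ hNle) inf_le_right with h1 | h1
    · have h2 : x ∈ Cfsg.Geo.subalgebraNormalizer K ⊓ Cfsg.Geo.specialLinear (Fin n) F := by
        rw [← h1]
        exact Subgroup.mem_inf.mpr ⟨hxN₀, hxSL⟩
      exact hxN (Subgroup.mem_inf.mp h2).1
    · have h2 : y ∈ Cfsg.Geo.subalgebraNormalizer K₀ ⊓ Cfsg.Geo.specialLinear (Fin n) F := by
        rw [h1]
        exact hySL
      exact hyN (Subgroup.mem_inf.mp h2).1

end Cfsg.Agent.S5887
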