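import Cfsg.Statements.S5893
import Mathlib
import Cfsg.Agent.Lib.Helper54.DkEven3

set_option autoImplicit false
open Cfsg
open Cfsg.Agent.Lib.Helper54 Cfsg.Agent.Lib.Helper19.Dk

namespace Cfsg.Agent.S5893

/-- Let F be a finite field of even order q ≥ 4 and let M be a maximal subgroup of PSL₂(F) (= SL₂(F) = PGL₂(F)). Then one of the following holds: |M| = q(q − 1) (the stabiliser of a point of the projective line, elementary abelian of order q extended by a cyclic group of order q − 1); M is dihedral of order 2(q − 1); M is dihedral of order 2(q + 1); or q = q₀^r for a prime r with q₀ ≠ 2 and M ≅ PSL₂(F₀) with |F₀| = q₀. -/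
theorem result {F : Type*} [Field F] [Fintype F]
    (heven : Even (Fintype.card F)) (h4 : 4 ≤ Fintype.card F) (M : Subgroup (Matrix.ProjectiveSpecialLinearGroup (Fin 2) F)) (hM : IsCoatom M) :
    Nat.card M = Fintype.card F * (Fintype.card F - 1) ∨
    Nonempty (M ≃* DihedralGroup (Fintype.card F - 1)) ∨
    Nonempty (M ≃* DihedralGroup (Fintype.card F + 1)) ∨
    (∃ (F₀ : Type) (_ : Field F₀) (_ : Fintype F₀) (r : ℕ), r.Prime ∧ Fintype.card F₀ ≠ 2 ∧
        Fintype.card F = Fintype.card F₀ ^ r ∧ Nonempty (M ≃* Matrix.ProjectiveSpecialLinearGroup (Fin 2) F₀)) := by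
  classical
  have h2 := dke_two heven
  haveI := dke_charP heven
  haveI : Fact (Nat.Prime 2) := ⟨Nat.prime_two⟩
  have hco := dke_coatom M hM
  have hLtop := dke_ne_top M hM
  have hz := center_card_one h2
  have hZ := center_le_Lof M
  have hcardL : Nat.card (Lof M) = Nat.card M := by rw [card_Lof, hz, one_mul]
  have hisoM : Nonempty (M ≃* Lof M) :=
    ⟨(MulEquiv.subgroupCongr (map_Lof M).symm).trans
      (Subgroup.equivMapOfInjective (Lof M) (prj F) (prj_injective h2)).symm⟩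
  have hfield : ∀ (x₀ : S2 F), x₀ ∈ Lof M → ¬ IsSc x₀ → tr x₀ ^ 2 = 4 → ∀ q' k : ℕ, 3 ≤ q' →
      cA (Lof M) x₀ = Nat.card (Subgroup.center (S2 F)) * q' →
      cN (Lof M) x₀ = Nat.card (Subgroup.center (S2 F)) * k * q' →
      Nat.card (Lof M) = Nat.card (Subgroup.center (S2 F)) * k * q' * (1 + q') →
      (k = q' - 1 ∨ 2 * k = q' - 1) →
      (Nat.card M = Fintype.card F * (Fintype.card F - 1) ∨
        Nonempty (M ≃* DihedralGroup (Fintype.card F - 1)) ∨
        Nonempty (M ≃* DihedralGroup (Fintype.card F + 1)) ∨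
        (∃ (F₀ : Type) (_ : Field F₀) (_ : Fintype F₀) (r : ℕ), r.Prime ∧ Fintype.card F₀ ≠ 2 ∧
          Fintype.card F = Fintype.card F₀ ^ r ∧
          Nonempty (M ≃* Matrix.ProjectiveSpecialLinearGroup (Fin 2) F₀))) := by
    intro x₀ hx₀ hsc htr q' k hq3 hcA hcN hcard hk
    obtain ⟨F₀, i1, i2, r, hr, hne, hq, ⟨f⟩⟩ :=
      dke_field h2 (Lof M) hco hLtop hZ x₀ hx₀ hsc htr q' k hq3 hcA hcN hcard hk
    obtain ⟨g⟩ := hisoM
    exact Or.inr (Or.inr (Or.inr ⟨F₀, i1, i2, r, hr, hne, hq, ⟨g.trans f⟩⟩))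
  have hbor : ∀ g : S2 F, (∀ ℓ ∈ Lof M, (g * ℓ * g⁻¹) 1 0 = 0) →
      (Nat.card M = Fintype.card F * (Fintype.card F - 1) ∨
        Nonempty (M ≃* DihedralGroup (Fintype.card F - 1)) ∨
        Nonempty (M ≃* DihedralGroup (Fintype.card F + 1)) ∨
        (∃ (F₀ : Type) (_ : Field F₀) (_ : Fintype F₀) (r : ℕ), r.Prime ∧ Fintype.card F₀ ≠ 2 ∧
          Fintype.card F = Fintype.card F₀ ^ r ∧
          Nonempty (M ≃* Matrix.ProjectiveSpecialLinearGroup (Fin 2) F₀))) := by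
    intro g hg
    left
    rw [← hcardL]
    exact dke_bor (Lof M) hco g hg
  have hsmall : (Nat.card (Lof M) = 12 ∨ Nat.card (Lof M) = 24 ∨ Nat.card (Lof M) = 60) →
      (Nat.card M = Fintype.card F * (Fintype.card F - 1) ∨
        Nonempty (M ≃* DihedralGroup (Fintype.card F - 1)) ∨
        Nonempty (M ≃* DihedralGroup (Fintype.card F + 1)) ∨
        (∃ (F₀ : Type) (_ : Field F₀) (_ : Fintype F₀) (r : ℕ), r.Prime ∧ Fintype.card F₀ ≠ 2 ∧
          Fintype.card F = Fintype.card F₀ ^ r ∧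
          Nonempty (M ≃* Matrix.ProjectiveSpecialLinearGroup (Fin 2) F₀))) := by
    intro hN
    have hev : 2 ∣ Nat.card (Lof M) := by rcases hN with h | h | h <;> rw [h] <;> norm_num
    obtain ⟨x₀, hx₀, hsc, htr⟩ := dke_invol h2 2 (Lof M) hev
    obtain ⟨q', k, t, hq2, hk1, hkd, hcA, hcN, hcard, -, ht0⟩ := U_gen (Lof M) hZ x₀ hx₀ hsc htr
    have hdvd := dkm_unip_dvd (Lof M) hZ x₀ hx₀ hsc htr q' hcA
    obtain ⟨n, -, hn⟩ := FiniteField.card F 2
    rw [hn] at hdvd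
    obtain ⟨b, -, hb⟩ := (Nat.dvd_prime_pow Nat.prime_two).1 hdvd
    have hcard2 : Nat.card (Lof M) = k * q' * (1 + t * q') := by rw [hcard, hz, one_mul]
    rcases dke_num (Nat.card (Lof M)) q' k t b hN hb hq2 hk1 hkd hcard2 with h0 | ⟨h4', h3, h1⟩
    · obtain ⟨g, hg⟩ := ht0 h0
      exact hbor g hg
    · refine hfield x₀ hx₀ hsc htr q' k (by omega) hcA hcN ?_ (Or.inl (by omega))
      rw [hcard, h1, one_mul]
  have hout := main_cases 2 (Lof M) hZ
  unfold Outcome at hout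
  rcases hout with h | ⟨x, hx, hss, hall⟩ | ⟨x, hx, hss, hcard'⟩ | ⟨g, hg⟩ | ⟨hc, -⟩ | ⟨hc, -⟩ |
    ⟨hc, -⟩ | ⟨x₀, hx₀, hsc, htr, q', k, hq3, hcA, hcN, hcard, hk⟩
  · exact (dke_not_triv h2 (Lof M) hco h).elim
  · exact (dke_not_cyc 2 h4 (Lof M) hco x hss hall).elim
  · have hcA := dke_dih_cA h2 2 h4 (Lof M) hco x hx hss hcard'
    obtain ⟨n, -, ⟨f⟩⟩ := out_dih 2 M x hx hss hcard'
    have hn : Nat.card M = 2 * n := by rw [Nat.card_congr f.toEquiv, DihedralGroup.nat_card]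
    rcases hcA with hA | hA
    · right; left
      have e : n = Fintype.card F - 1 := by omega
      rw [← e]; exact ⟨f⟩
    · right; right; left
      have e : n = Fintype.card F + 1 := by omega
      rw [← e]; exact ⟨f⟩
  · exact hbor g hg
  · exact hsmall (Or.inl (by rw [hc, hz]))
  · exact hsmall (Or.inr (Or.inl (by rw [hc, hz])))
  · exact hsmall (Or.inr (Or.inr (by rw [hc, hz])))
  · exact hfield x₀ hx₀ hsc htr q' k hq3 hcA hcN hcard hk

end Cfsg.Agent.S5893
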