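import Cfsg.Statements.S5894
import Cfsg.Agent.Lib.Helper97.PermHalf

set_option autoImplicit false
open Cfsg
open scoped Pointwise

namespace Cfsg.Agent.S5894

open MulAction in
theorem smul_image_val {α : Type*} (s : Set α) (g : stabilizer (Equiv.Perm α) s) (B : Set s) :
    (g : Equiv.Perm α) • (Subtype.val '' B) = Subtype.val '' (g • B) := by
  ext y
  constructor
  · rintro ⟨_, ⟨x, hx, rfl⟩, rfl⟩
    exact ⟨g • x, ⟨x, hx, rfl⟩, rfl⟩
  · rintro ⟨_, ⟨x, hx, rfl⟩, rfl⟩
    exact ⟨x, ⟨x, hx, rfl⟩, rfl⟩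

/-- For every m ≥ 2 the symmetric group on 2m letters has a maximal subgroup M of index 2m together with a maximal subgroup H of M that is not second maximal: some maximal subgroup K of the symmetric group contains H without H being maximal in K. (One may take M the stabiliser of a letter, H ≅ S_m × S_{m−1} inside it, and K ≅ S_m ≀ S₂ the stabiliser of a partition into two m-sets, with H < S_m × S_m < K.) So the prime-index hypothesis in the second-maximality criterion cannot be relaxed to any even index ≥ 4. -/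
theorem result (m : ℕ) (hm : 2 ≤ m) :
    ∃ M H K : Subgroup (Equiv.Perm (Fin (2 * m))), IsCoatom M ∧ M.index = 2 * m ∧ H ≤ M ∧ IsCoatom (H.subgroupOf M) ∧
      IsCoatom K ∧ H ≤ K ∧ ¬ IsCoatom (H.subgroupOf K) := by
  classical
  -- the points
  let x₀ : Fin (2 * m) := ⟨2 * m - 1, by omega⟩
  let y₀ : Fin (2 * m) := ⟨m, by omega⟩
  let z₀ : Fin (2 * m) := ⟨0, by omega⟩
  have hy₀x₀ : y₀ ≠ x₀ := by
    intro h
    have := congrArg Fin.val h
    simp only [x₀, y₀] at this
    omega
  have hz₀x₀ : z₀ ≠ x₀ := by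
    intro h
    have := congrArg Fin.val h
    simp only [x₀, z₀] at this
    omega
  let s : Set (Fin (2 * m)) := {x₀}ᶜ
  let A : Set (Fin (2 * m)) := {x | x.val < m}
  have hcardα : Nat.card (Fin (2 * m)) = 2 * m := by simp
  have hsn : s.ncard = 2 * m - 1 := by
    have h := Set.ncard_add_ncard_compl ({x₀} : Set (Fin (2 * m)))
    rw [Set.ncard_singleton, hcardα] at h
    simp only [s]
    omega
  -- M
  let M : Subgroup (Equiv.Perm (Fin (2 * m))) := MulAction.stabilizer (Equiv.Perm (Fin (2 * m))) s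
  have hMcoatom : IsCoatom M := by
    apply Equiv.Perm.isCoatom_stabilizer
    · exact ⟨y₀, hy₀x₀⟩
    · exact ⟨x₀, by simp [s]⟩
    · rw [hcardα, hsn]; omega
  have hMindex : M.index = 2 * m := by
    have h1 : M = MulAction.stabilizer (Equiv.Perm (Fin (2 * m))) x₀ := by
      simp only [M, s]
      rw [stabilizer_compl, MulAction.stabilizer_singleton]
    rw [h1, MulAction.index_stabilizer_of_transitive, hcardα]
  -- the hom M → Perm s
  let φ : M →* Equiv.Perm s := MulAction.toPermHom M s
  have hφ : Function.Surjective φ := Equiv.Perm.stabilizer.surjective_toPerm s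
  let A' : Set s := Subtype.val ⁻¹' A
  have hAs : A ⊆ s := by
    intro x hx hx'
    simp only [Set.mem_singleton_iff] at hx'
    subst hx'
    simp only [A, x₀, Set.mem_ofPred_eq] at hx
    omega
  have hAA' : Subtype.val '' A' = A := by
    simp only [A', Subtype.image_preimage_coe]
    exact Set.inter_eq_right.mpr hAs
  let H' : Subgroup (Equiv.Perm s) := MulAction.stabilizer (Equiv.Perm s) A'
  have hH'coatom : IsCoatom H' := by
    apply Equiv.Perm.isCoatom_stabilizer
    · exact ⟨⟨z₀, hz₀x₀⟩, by simp [A', A, z₀]; omega⟩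
    · exact ⟨⟨y₀, hy₀x₀⟩, by simp [A', A, y₀]⟩
    · rw [Nat.card_coe_set_eq, hsn]; omega
  let H : Subgroup (Equiv.Perm (Fin (2 * m))) := (H'.comap φ).map M.subtype
  have hHM : H ≤ M := Subgroup.map_subtype_le _
  have hHsub : H.subgroupOf M = H'.comap φ := by
    rw [← Subgroup.comap_subtype]
    exact Subgroup.comap_map_eq_self_of_injective M.subtype_injective _
  have hHcoatom : IsCoatom (H.subgroupOf M) := by
    rw [hHsub]
    exact Subgroup.isCoatom_comap_of_surjective hφ hH'coatom
  have hHA : H ≤ MulAction.stabilizer (Equiv.Perm (Fin (2 * m))) A := by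
    rintro _ ⟨g, hg, rfl⟩
    have hg' : φ g • A' = A' := MulAction.mem_stabilizer_iff.mp hg
    rw [MulAction.mem_stabilizer_iff]
    change (g : Equiv.Perm (Fin (2 * m))) • A = A
    rw [← hAA', smul_image_val s g A']
    congr 1
  -- the half-size set A
  have hAcard : Nat.card A = Nat.card ↥Aᶜ := by
    rw [Nat.card_coe_set_eq, Nat.card_coe_set_eq]
    have hA1 : A.ncard = m := by
      have : A = Set.range (Fin.castLE (show m ≤ 2 * m by omega)) := by
        ext x
        simp only [A, Set.mem_ofPred_eq, Set.mem_range]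
        constructor
        · intro hx
          exact ⟨⟨x.val, hx⟩, by ext; simp⟩
        · rintro ⟨y, rfl⟩
          simp
      rw [this, Set.ncard_range_of_injective (Fin.castLE_injective _)]
      simp
    have h := Set.ncard_add_ncard_compl A
    rw [hcardα] at h
    omega
  obtain ⟨L, hL1, hL2⟩ := Cfsg.Agent.Lib.Helper97.exists_between_stabilizer
    (by rw [hcardα]; omega) A hAcard
  obtain ⟨K, hK, hLK⟩ := (eq_top_or_exists_le_coatom L).resolve_left hL2.ne
  have hHK : H ≤ K := hHA.trans (hL1.le.trans hLK)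
  refine ⟨M, H, K, hMcoatom, hMindex, hHM, hHcoatom, hK, hHK, ?_⟩
  intro hco
  -- the middle subgroup
  have hmid : H.subgroupOf K < (MulAction.stabilizer (Equiv.Perm (Fin (2 * m))) A).subgroupOf K := by
    refine lt_of_le_of_ne (fun g hg => hHA hg) ?_
    intro heq
    -- the swap of x₀ and y₀ stabilizes A but not x₀
    have hsw : Equiv.swap x₀ y₀ ∈ MulAction.stabilizer (Equiv.Perm (Fin (2 * m))) A := by
      rw [← stabilizer_compl]
      apply Equiv.Perm.swap_mem_stabilizer
      · simp [A, x₀]; omega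
      · simp [A, y₀]
    have hswK : Equiv.swap x₀ y₀ ∈ K := hLK (hL1.le hsw)
    have h1 : (⟨Equiv.swap x₀ y₀, hswK⟩ : K) ∈ (MulAction.stabilizer (Equiv.Perm (Fin (2 * m))) A).subgroupOf K :=
      Subgroup.mem_subgroupOf.mpr hsw
    rw [← heq] at h1
    have h2 : Equiv.swap x₀ y₀ ∈ M := hHM (Subgroup.mem_subgroupOf.mp h1)
    have h3 : Equiv.swap x₀ y₀ • s = s := MulAction.mem_stabilizer_iff.mp h2
    have h4 : x₀ ∈ Equiv.swap x₀ y₀ • s := ⟨y₀, hy₀x₀, Equiv.swap_apply_right x₀ y₀⟩
    rw [h3] at h4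
    exact h4 rfl
  have htop := hco.2 _ hmid
  -- but the stabilizer of A does not contain K
  obtain ⟨g, hgL, hgA⟩ := Set.exists_of_ssubset hL1
  have h5 : (⟨g, hLK hgL⟩ : K) ∈ (MulAction.stabilizer (Equiv.Perm (Fin (2 * m))) A).subgroupOf K := by
    rw [htop]; exact Subgroup.mem_top _
  exact hgA (Subgroup.mem_subgroupOf.mp h5)

end Cfsg.Agent.S5894
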