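import Mathlib
import Cfsg.Statements.S5895
import Cfsg.Agent.S5894

set_option autoImplicit false
open Cfsg

namespace Cfsg.Agent.S5895


open SemidirectProduct in
theorem semidirect_example {N M : Type} [Group N] [Group M] [Finite N] [Finite M]
    (φ : M →* MulAut N)
    (hirr : ∀ U : Subgroup N, (∀ m : M, ∀ n ∈ U, φ m n ∈ U) → U = ⊥ ∨ U = ⊤)
    (H₀ : Subgroup M) (hH₀ : IsCoatom H₀) (U₀ : Subgroup N) (hU₀b : U₀ ≠ ⊥) (hU₀t : U₀ ≠ ⊤)
    (hU₀ : ∀ h ∈ H₀, ∀ n ∈ U₀, φ h n ∈ U₀) :
    ∃ (M' H K : Subgroup (N ⋊[φ] M)), IsCoatom M' ∧ M'.index = Nat.card N ∧ H ≤ M' ∧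
      IsCoatom (H.subgroupOf M') ∧ IsCoatom K ∧ H ≤ K ∧ ¬ IsCoatom (H.subgroupOf K) := by
  classical
  obtain ⟨u₀, hu₀U, hu₀1⟩ : ∃ u ∈ U₀, u ≠ 1 := by
    by_contra hcon
    push Not at hcon
    exact hU₀b ((Subgroup.eq_bot_iff_forall _).mpr hcon)
  obtain ⟨n₀, hn₀⟩ : ∃ n, n ∉ U₀ := by
    by_contra hcon
    push Not at hcon
    exact hU₀t ((Subgroup.eq_top_iff' _).mpr hcon)
  let M' : Subgroup (N ⋊[φ] M) := (inr : M →* N ⋊[φ] M).range
  let H : Subgroup (N ⋊[φ] M) := H₀.map inr
  let K : Subgroup (N ⋊[φ] M) := H₀.comap rightHom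
  have hinrM' : ∀ m : M, (inr m : N ⋊[φ] M) ∈ M' := fun m => ⟨m, rfl⟩
  refine ⟨M', H, K, ⟨?_, ?_⟩, ?_, ?_, ?_, ?_, ?_, ?_⟩
  · -- M' ≠ ⊤
    intro htop
    have : (inl u₀ : N ⋊[φ] M) ∈ M' := by rw [htop]; trivial
    obtain ⟨m, hm⟩ := this
    have := congrArg SemidirectProduct.left hm
    simp at this
    exact hu₀1 this.symm
  · -- maximality
    intro L hL
    let U : Subgroup N := L.comap inl
    have hU : ∀ m : M, ∀ n ∈ U, φ m n ∈ U := by
      intro m n hn
      change inl (φ m n) ∈ L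
      rw [inl_aut]
      exact L.mul_mem (L.mul_mem (hL.le (hinrM' m)) hn) (hL.le (hinrM' _))
    rcases hirr U hU with h | h
    · exfalso
      apply hL.not_ge
      intro l hl
      have h1 : (inl l.left : N ⋊[φ] M) ∈ L := by
        have h2 : (inl l.left : N ⋊[φ] M) = l * (inr l.right)⁻¹ := by
          rw [eq_mul_inv_iff_mul_eq, inl_left_mul_inr_right]
        rw [h2]
        exact L.mul_mem hl (L.inv_mem (hL.le (hinrM' _)))
      have h3 : l.left ∈ U := h1
      rw [h, Subgroup.mem_bot] at h3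
      rw [← inl_left_mul_inr_right l, h3, map_one, one_mul]
      exact hinrM' _
    · rw [Subgroup.eq_top_iff']
      intro g
      rw [← inl_left_mul_inr_right g]
      refine L.mul_mem ?_ (hL.le (hinrM' _))
      have : g.left ∈ U := by rw [h]; trivial
      exact this
  · -- index
    have h1 := Subgroup.card_mul_index M'
    rw [SemidirectProduct.card] at h1
    have h2 : Nat.card M' = Nat.card M :=
      (Nat.card_congr (MonoidHom.ofInjective (inr_injective (φ := φ))).toEquiv).symm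
    rw [h2, mul_comm] at h1
    exact Nat.eq_of_mul_eq_mul_right Nat.card_pos h1
  · exact Subgroup.map_le_range _ _
  · -- H maximal in M'
    let e : M ≃* M' := MonoidHom.ofInjective (inr_injective (φ := φ))
    have h1 : H.subgroupOf M' = e.mapSubgroup H₀ := by
      change H.subgroupOf M' = Subgroup.map e.toMonoidHom H₀
      ext ⟨g, hg⟩
      simp only [Subgroup.mem_subgroupOf, Subgroup.mem_map, H]
      constructor
      · rintro ⟨h, hh, rfl⟩
        exact ⟨h, hh, rfl⟩
      · rintro ⟨h, hh, heq⟩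
        exact ⟨h, hh, congrArg Subtype.val heq⟩
    rw [h1]
    exact (OrderIso.isCoatom_iff e.mapSubgroup H₀).mpr hH₀
  · exact Subgroup.isCoatom_comap_of_surjective rightHom_surjective hH₀
  · rintro _ ⟨h, hh, rfl⟩
    change rightHom (inr h) ∈ H₀
    rw [rightHom_inr]; exact hh
  · intro hco
    let Y : Subgroup (N ⋊[φ] M) :=
      { carrier := {g | g.left ∈ U₀ ∧ g.right ∈ H₀}
        one_mem' := ⟨U₀.one_mem, H₀.one_mem⟩
        mul_mem' := by
          rintro g₁ g₂ ⟨h1, h2⟩ ⟨h3, h4⟩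
          exact ⟨U₀.mul_mem h1 (hU₀ _ h2 _ h3), H₀.mul_mem h2 h4⟩
        inv_mem' := by
          rintro g ⟨h1, h2⟩
          exact ⟨hU₀ _ (H₀.inv_mem h2) _ (U₀.inv_mem h1), H₀.inv_mem h2⟩ }
    have hinlK : ∀ n : N, (inl n : N ⋊[φ] M) ∈ K := fun n => by
      change rightHom (inl n) ∈ H₀
      rw [rightHom_inl]; exact H₀.one_mem
    have hlt : H.subgroupOf K < Y.subgroupOf K := by
      refine lt_of_le_of_ne ?_ ?_
      · rintro ⟨g, hgK⟩ hg
        obtain ⟨h, hh, rfl⟩ := Subgroup.mem_subgroupOf.mp hg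
        exact ⟨U₀.one_mem, hh⟩
      · intro heq
        have h1 : (⟨inl u₀, hinlK u₀⟩ : K) ∈ Y.subgroupOf K := ⟨hu₀U, H₀.one_mem⟩
        rw [← heq] at h1
        obtain ⟨h, hh, h2⟩ := Subgroup.mem_subgroupOf.mp h1
        have := congrArg SemidirectProduct.left h2
        simp at this
        exact hu₀1 this.symm
    have htop := hco.2 _ hlt
    have h1 : (⟨inl n₀, hinlK n₀⟩ : K) ∈ Y.subgroupOf K := by rw [htop]; trivial
    exact hn₀ h1.1


/-- the signed permutation group -/
abbrev Mon (d : ℕ) : Type :=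
  (Fin d → ℤˣ) ⋊[(mulAutArrow : Equiv.Perm (Fin d) →* MulAut (Fin d → ℤˣ))] Equiv.Perm (Fin d)

/-- its monomial action -/
@[reducible] def monAction (p d : ℕ) : DistribMulAction (Mon d) (Fin d → ZMod p) where
  smul m v := fun j => (((m.left j : ℤˣ) : ℤ) : ZMod p) * v (m.right⁻¹ j)
  one_smul v := by
    funext j
    change (((((1 : Mon d).left j : ℤˣ) : ℤ) : ZMod p)) * v ((1 : Mon d).right⁻¹ j) = v j
    simp
  mul_smul m₁ m₂ v := by
    funext j
    change (((((m₁ * m₂).left j : ℤˣ) : ℤ) : ZMod p)) * v ((m₁ * m₂).right⁻¹ j) =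
      (((m₁.left j : ℤˣ) : ℤ) : ZMod p) *
        ((((m₂.left (m₁.right⁻¹ j) : ℤˣ) : ℤ) : ZMod p) * v (m₂.right⁻¹ (m₁.right⁻¹ j)))
    simp [SemidirectProduct.mul_left, SemidirectProduct.mul_right, mul_assoc]
    rfl
  smul_zero m := by
    funext j
    change (((m.left j : ℤˣ) : ℤ) : ZMod p) * (0 : Fin d → ZMod p) (m.right⁻¹ j) = 0
    simp
  smul_add m v w := by
    funext j
    change (((m.left j : ℤˣ) : ℤ) : ZMod p) * (v + w) (m.right⁻¹ j) =
      (((m.left j : ℤˣ) : ℤ) : ZMod p) * v (m.right⁻¹ j) +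
      (((m.left j : ℤˣ) : ℤ) : ZMod p) * w (m.right⁻¹ j)
    simp [mul_add]

theorem odd_case (p d : ℕ) (hp : p.Prime) (hp2 : p ≠ 2) (hd : 2 ≤ d) :
    ∃ (G : Type) (_ : Group G) (_ : Finite G) (M H K : Subgroup G), IsCoatom M ∧ M.index = p ^ d ∧ H ≤ M ∧
      IsCoatom (H.subgroupOf M) ∧ IsCoatom K ∧ H ≤ K ∧ ¬ IsCoatom (H.subgroupOf K) := by
  classical
  have : Fact p.Prime := ⟨hp⟩
  let _ := monAction p d
  let V := Fin d → ZMod p
  let N := Multiplicative V
  let φ : Mon d →* MulAut N :=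
    (MulAutMultiplicative V).symm.toMonoidHom.comp (DistribMulAction.toAddAut (Mon d) V)
  have hφ : ∀ (m : Mon d) (v : V), φ m (Multiplicative.ofAdd v) = Multiplicative.ofAdd (m • v) :=
    fun m v => rfl
  have h2 : (2 : ZMod p) ≠ 0 := by
    intro h
    have h' : ((2 : ℕ) : ZMod p) = 0 := by exact_mod_cast h
    rw [ZMod.natCast_eq_zero_iff] at h'
    exact hp2 ((Nat.prime_dvd_prime_iff_eq hp Nat.prime_two).mp h')
  have hirr : ∀ U : Subgroup N, (∀ m : Mon d, ∀ n ∈ U, φ m n ∈ U) → U = ⊥ ∨ U = ⊤ := by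
    intro U hU
    by_cases hb : U = ⊥
    · exact Or.inl hb
    right
    let U' : AddSubgroup V :=
      { carrier := {v | Multiplicative.ofAdd v ∈ U}
        zero_mem' := U.one_mem
        add_mem' := fun ha hb => U.mul_mem ha hb
        neg_mem' := fun ha => U.inv_mem ha }
    have hU' : ∀ (m : Mon d) (v : V), v ∈ U' → m • v ∈ U' := fun m v hv => hU m _ hv
    obtain ⟨n, hnU, hn1⟩ : ∃ n ∈ U, n ≠ 1 := by
      by_contra hcon
      push Not at hcon
      exact hb ((Subgroup.eq_bot_iff_forall _).mpr hcon)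
    let u : V := Multiplicative.toAdd n
    have huU : u ∈ U' := hnU
    have hu0 : u ≠ 0 := fun h => hn1 (congrArg Multiplicative.ofAdd h)
    obtain ⟨i, hi⟩ : ∃ i, u i ≠ 0 := Function.ne_iff.mp hu0
    let s : Mon d := ⟨Function.update 1 i (-1), 1⟩
    have hw : u - s • u = Pi.single i (2 * u i) := by
      funext j
      change u j - (((Function.update (1 : Fin d → ℤˣ) i (-1) j : ℤˣ) : ℤ) : ZMod p) *
        u ((1 : Equiv.Perm (Fin d))⁻¹ j) = _
      by_cases hj : j = i
      · subst hj; simp; ring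
      · simp [Function.update_of_ne hj, Pi.single_eq_of_ne hj]
    have hc : (2 * u i) ≠ 0 := mul_ne_zero h2 hi
    have hsingle_i : ∀ a : ZMod p, (Pi.single i a : V) ∈ U' := by
      intro a
      have h3 : (Pi.single i a : V) = (a * (2 * u i)⁻¹).val • (Pi.single i (2 * u i) : V) := by
        rw [← Pi.single_smul', nsmul_eq_mul, ZMod.natCast_zmod_val, inv_mul_cancel_right₀ hc]
      rw [h3]
      exact U'.nsmul_mem (by rw [← hw]; exact U'.sub_mem huU (hU' s u huU)) _
    have hsingle : ∀ (j : Fin d) (a : ZMod p), (Pi.single j a : V) ∈ U' := by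
      intro j a
      let t : Mon d := ⟨1, Equiv.swap i j⟩
      have h3 : t • (Pi.single i a : V) = Pi.single j a := by
        funext k
        change ((((1 : Fin d → ℤˣ) k : ℤˣ) : ℤ) : ZMod p) *
          (Pi.single i a : V) ((Equiv.swap i j)⁻¹ k) = _
        simp only [Pi.one_apply, Units.val_one, Int.cast_one, one_mul, Equiv.swap_inv,
          Pi.single_apply]
        by_cases hk : k = j
        · subst hk; simp
        · have : Equiv.swap i j k ≠ i := by
            intro h4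
            apply hk
            have := congrArg (Equiv.swap i j) h4
            simpa using this
          simp [hk, this]
      rw [← h3]; exact hU' t _ (hsingle_i a)
    rw [Subgroup.eq_top_iff']
    intro n
    have h3 : Multiplicative.toAdd n ∈ U' := by
      rw [← Finset.univ_sum_single (Multiplicative.toAdd n)]
      exact U'.sum_mem (fun j _ => hsingle j _)
    exact h3
  let i₀ : Fin d := ⟨0, by omega⟩
  let i₁ : Fin d := ⟨1, by omega⟩
  have hi₁₀ : i₁ ≠ i₀ := by simp [i₀, i₁, Fin.ext_iff]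
  have : Nontrivial (Fin d) := Fin.nontrivial_iff_two_le.mpr hd
  let H₀ : Subgroup (Mon d) :=
    (MulAction.stabilizer (Equiv.Perm (Fin d)) i₀).comap SemidirectProduct.rightHom
  have hH₀ : IsCoatom H₀ :=
    Subgroup.isCoatom_comap_of_surjective SemidirectProduct.rightHom_surjective
      (MulAction.IsPreprimitive.isCoatom_stabilizer_of_isPreprimitive (Equiv.Perm (Fin d)) i₀)
  let U₀ : Subgroup N :=
    { carrier := {n | ∀ j, j ≠ i₀ → Multiplicative.toAdd n j = 0}
      one_mem' := fun j _ => rfl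
      mul_mem' := by
        intro a b ha hb j hj
        change Multiplicative.toAdd a j + Multiplicative.toAdd b j = 0
        rw [ha j hj, hb j hj, add_zero]
      inv_mem' := by
        intro a ha j hj
        change - Multiplicative.toAdd a j = 0
        rw [ha j hj, neg_zero] }
  have h10 : (1 : ZMod p) ≠ 0 := one_ne_zero
  have hU₀b : U₀ ≠ ⊥ := by
    intro h
    have h1 : Multiplicative.ofAdd (Pi.single i₀ (1 : ZMod p) : V) ∈ U₀ :=
      fun j hj => Pi.single_eq_of_ne hj _
    rw [h, Subgroup.mem_bot] at h1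
    have h3 := congrFun (congrArg Multiplicative.toAdd h1) i₀
    change (Pi.single i₀ (1 : ZMod p) : V) i₀ = 0 at h3
    rw [Pi.single_eq_same] at h3
    exact h10 h3
  have hU₀t : U₀ ≠ ⊤ := by
    intro h
    have h1 : Multiplicative.ofAdd (Pi.single i₁ (1 : ZMod p) : V) ∈ U₀ := by rw [h]; trivial
    have h3 := h1 i₁ hi₁₀
    change (Pi.single i₁ (1 : ZMod p) : V) i₁ = 0 at h3
    rw [Pi.single_eq_same] at h3
    exact h10 h3
  have hU₀ : ∀ h ∈ H₀, ∀ n ∈ U₀, φ h n ∈ U₀ := by
    intro h hh n hn j hj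
    change (((h.left j : ℤˣ) : ℤ) : ZMod p) * Multiplicative.toAdd n (h.right⁻¹ j) = 0
    have hh' : h.right i₀ = i₀ := hh
    have h3 : h.right⁻¹ j ≠ i₀ := by
      intro h4
      apply hj
      rw [← hh', ← h4]; simp
    rw [hn _ h3, mul_zero]
  have : Finite (Mon d) := Finite.of_equiv _ SemidirectProduct.equivProd.symm
  have : Finite (N ⋊[φ] Mon d) := Finite.of_equiv _ SemidirectProduct.equivProd.symm
  obtain ⟨M', H, K, h1, h2', h3, h4, h5, h6, h7⟩ :=
    semidirect_example φ hirr H₀ hH₀ U₀ hU₀b hU₀t hU₀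
  refine ⟨N ⋊[φ] Mon d, inferInstance, inferInstance, M', H, K, h1, ?_, h3, h4, h5, h6, h7⟩
  rw [h2']
  change Nat.card (Fin d → ZMod p) = p ^ d
  rw [Nat.card_fun, Nat.card_zmod, Nat.card_fin]


/-- For every prime p and every d ≥ 2 there is a finite group G with a maximal subgroup M of index p^d and a maximal subgroup H of M that is not second maximal in G: some maximal subgroup K of G contains H without H being maximal in K. (One may take G the affine group V ⋊ GL(V) of V = 𝔽_p^d, M = GL(V), H the stabiliser in M of a line W of V, and K = V ⋊ H, with H < W ⋊ H < K.) So the prime-index hypothesis in the second-maximality criterion cannot be relaxed to prime-power index. -/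
theorem result (p d : ℕ) (hp : p.Prime)
    (hd : 2 ≤ d) :
    ∃ (G : Type) (_ : Group G) (_ : Finite G) (M H K : Subgroup G), IsCoatom M ∧ M.index = p ^ d ∧ H ≤ M ∧
      IsCoatom (H.subgroupOf M) ∧ IsCoatom K ∧ H ≤ K ∧ ¬ IsCoatom (H.subgroupOf K) := by
  by_cases hp2 : p = 2
  · subst hp2
    have hm : 2 ≤ 2 ^ (d - 1) := by
      calc 2 = 2 ^ 1 := (pow_one 2).symm
        _ ≤ 2 ^ (d - 1) := Nat.pow_le_pow_right (by norm_num) (by omega)
    obtain ⟨M, H, K, h⟩ := Cfsg.Agent.S5894.result (2 ^ (d - 1)) hm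
    have hpow : 2 * 2 ^ (d - 1) = 2 ^ d := by
      rw [← pow_succ']
      congr 1
      omega
    refine ⟨Equiv.Perm (Fin (2 * 2 ^ (d - 1))), inferInstance, inferInstance, M, H, K, ?_⟩
    rw [← hpow]
    exact h
  · exact odd_case p d hp hp2 hd

end Cfsg.Agent.S5895
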