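import Mathlib
import Cfsg.Statements.S5896
import Cfsg.Agent.S0061

set_option autoImplicit false
open Cfsg

namespace Cfsg.Agent.S5896

open RegularWreathProduct
open scoped commutatorElement

/-- the base group inclusion -/
def baseHom (D Q : Type) [Group D] [Group Q] : (Q → D) →* D ≀ᵣ Q where
  toFun φ := ⟨φ, 1⟩
  map_one' := rfl
  map_mul' φ ψ := by
    apply RegularWreathProduct.ext
    · funext x
      simp [mul_left]
    · simp [mul_right]

theorem rightHom_surj (D Q : Type) [Group D] [Group Q] :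
    Function.Surjective (rightHom : D ≀ᵣ Q →* Q) := fun q => ⟨inl q, by simp⟩

theorem ker_le_range (D Q : Type) [Group D] [Group Q] :
    (rightHom : D ≀ᵣ Q →* Q).ker ≤ (baseHom D Q).range := by
  intro w hw
  refine ⟨w.left, ?_⟩
  apply RegularWreathProduct.ext
  · rfl
  · exact (MonoidHom.mem_ker.mp hw).symm

theorem pi_solvable (D Q : Type) [Group D] [hD : Group.IsSolvable D] : Group.IsSolvable (Q → D) := by
  obtain ⟨⟨n, hn⟩⟩ := hD
  refine ⟨⟨n, ?_⟩⟩
  rw [Subgroup.eq_bot_iff_forall]
  intro f hf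
  funext x
  have h1 : Pi.evalMonoidHom (fun _ : Q => D) x f ∈
      (derivedSeries (Q → D) n).map (Pi.evalMonoidHom (fun _ : Q => D) x) := ⟨f, hf, rfl⟩
  have h2 := map_derivedSeries_le_derivedSeries (Pi.evalMonoidHom (fun _ : Q => D) x) n h1
  rw [hn, Subgroup.mem_bot] at h2
  exact h2

theorem wreath_solvable (D Q : Type) [Group D] [Group Q] [Group.IsSolvable D] [Group.IsSolvable Q] :
    Group.IsSolvable (D ≀ᵣ Q) := by
  have := pi_solvable D Q
  exact Group.isSolvable_of_ker_le_range (baseHom D Q) rightHom (ker_le_range D Q)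

theorem comm_base_right {D Q : Type} [Group D] [Group Q] (w β : D ≀ᵣ Q) (hβ : β.right = 1) :
    (⁅w, β⁆).right = 1 := by
  simp [commutatorElement_def, mul_right, inv_right, hβ]

theorem comm_base_left {D Q : Type} [CommGroup D] [Group Q] (w β : D ≀ᵣ Q) (hβ : β.right = 1)
    (x : Q) : (⁅w, β⁆).left x = β.left (w.right⁻¹ * x) * (β.left x)⁻¹ := by
  simp [commutatorElement_def, mul_left, mul_right, inv_left, inv_right, hβ]

theorem wreath_derived {D Q : Type} [CommGroup D] [Group Q] (a : D) (ha : a * a ≠ 1)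
    (ha1 : a ≠ 1) (m : ℕ) (hQ : derivedSeries Q m ≠ ⊥) :
    derivedSeries (D ≀ᵣ Q) (m + 1) ≠ ⊥ := by
  classical
  have hmap := map_derivedSeries_eq (f := (rightHom : D ≀ᵣ Q →* Q)) (rightHom_surj D Q) m
  obtain ⟨q, hq, hq1⟩ : ∃ q ∈ derivedSeries Q m, q ≠ 1 := by
    by_contra hcon
    push Not at hcon
    exact hQ ((Subgroup.eq_bot_iff_forall _).mpr hcon)
  rw [← hmap] at hq
  obtain ⟨w, hw, hwq⟩ := hq
  have hwq' : w.right = q := hwq
  intro hbot
  obtain ⟨c, hc⟩ : ∃ c : D ≀ᵣ Q, c = ⟨Pi.mulSingle 1 a, 1⟩ := ⟨_, rfl⟩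
  have hcr : c.right = 1 := by rw [hc]
  have hcl : c.left = Pi.mulSingle 1 a := by rw [hc]
  have hc₁ : ⁅w, c⁆ ∈ derivedSeries (D ≀ᵣ Q) m := by
    have hn := derivedSeries_normal (D ≀ᵣ Q) m
    rw [commutatorElement_def]
    have : w * c * w⁻¹ * c⁻¹ = w * (c * w⁻¹ * c⁻¹) := by group
    rw [this]
    exact Subgroup.mul_mem _ hw (hn.conj_mem _ (Subgroup.inv_mem _ hw) c)
  have hz : ⁅w, ⁅w, c⁆⁆ ∈ derivedSeries (D ≀ᵣ Q) (m + 1) := by
    rw [derivedSeries_succ]
    exact Subgroup.commutator_mem_commutator hw hc₁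
  rw [hbot, Subgroup.mem_bot] at hz
  have h1 : (⁅w, ⁅w, c⁆⁆).left 1 = 1 := by rw [hz]; rfl
  rw [comm_base_left w _ (comm_base_right w c hcr), comm_base_left w c hcr,
    comm_base_left w c hcr, hcl, hwq'] at h1
  have hq1' : q⁻¹ ≠ 1 := fun h => hq1 (inv_eq_one.mp h)
  simp only [mul_one, Pi.mulSingle_eq_same, Pi.mulSingle_eq_of_ne hq1', one_mul, inv_one,
    inv_inv] at h1
  by_cases hqq : q⁻¹ * q⁻¹ = 1
  · rw [hqq, Pi.mulSingle_eq_same] at h1
    exact ha h1
  · rw [Pi.mulSingle_eq_of_ne hqq, one_mul] at h1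
    exact ha1 h1

theorem exists_solvable (k : ℕ) : ∃ (S : Type) (_ : Group S) (_ : Finite S),
    Group.IsSolvable S ∧ derivedSeries S k ≠ ⊥ := by
  induction k with
  | zero =>
    refine ⟨Multiplicative (ZMod 3), inferInstance, inferInstance, inferInstance, ?_⟩
    rw [derivedSeries_zero]
    exact top_ne_bot
  | succ k ih =>
    obtain ⟨S, hG, hF, hS, hd⟩ := ih
    refine ⟨Multiplicative (ZMod 3) ≀ᵣ S, inferInstance, inferInstance, wreath_solvable _ _, ?_⟩
    exact wreath_derived (Multiplicative.ofAdd (1 : ZMod 3)) (by decide) (by decide) k hd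

theorem main_general (S Q : Type) [Group S] [Group Q] [Finite S] [Finite Q]
    [Group.IsSolvable S] [Nontrivial Q] (hQ : commutator Q = ⊤) (M : Subgroup Q)
    (hM : IsCoatom M) (hMsolv : Group.IsSolvable ↥M) (d : ℕ)
    (hS : derivedSeries S d ≠ ⊥) :
    ∃ (G : Type) (_ : Group G) (_ : Finite G) (H : Subgroup G), commutator G = ⊤ ∧ IsCoatom H ∧
      Group.IsSolvable H ∧ derivedSeries H d ≠ ⊥ := by
  classical
  let P : Subgroup (S ≀ᵣ Q) := (inl : Q →* S ≀ᵣ Q).range
  let N : Subgroup (S ≀ᵣ Q) := Subgroup.normalClosure (P : Set (S ≀ᵣ Q))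
  have hPN : P ≤ N := Subgroup.le_normalClosure
  -- perfect
  have hP : ⁅P, P⁆ = P := by
    have h1 : P = Subgroup.map (inl : Q →* S ≀ᵣ Q) ⊤ := MonoidHom.range_eq_map _
    rw [h1, ← Subgroup.map_commutator, ← commutator_def, hQ]
  have hNN : ⁅N, N⁆ = N := by
    apply le_antisymm (Subgroup.commutator_le_right N N)
    apply Subgroup.normalClosure_le_normal
    have h2 : ⁅P, P⁆ ≤ ⁅N, N⁆ := Subgroup.commutator_mono hPN hPN
    rw [hP] at h2
    exact h2
  have hperf : commutator ↥N = ⊤ := by
    apply Subgroup.map_injective N.subtype_injective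
    rw [Subgroup.map_subtype_commutator, hNN, ← MonoidHom.range_eq_map, Subgroup.range_subtype]
  -- the projection
  let π : ↥N →* Q := (rightHom : S ≀ᵣ Q →* Q).comp N.subtype
  have hπ : Function.Surjective π := by
    intro q
    exact ⟨⟨inl q, hPN ⟨q, rfl⟩⟩, by simp [π]⟩
  let H : Subgroup ↥N := M.comap π
  have hH : IsCoatom H := Subgroup.isCoatom_comap_of_surjective hπ hM
  -- solvable
  have hHsolv : Group.IsSolvable ↥H := by
    let WM : Subgroup (S ≀ᵣ Q) := M.comap (rightHom : S ≀ᵣ Q →* Q)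
    have hWM : Group.IsSolvable ↥WM := by
      let f : (Q → S) →* ↥WM := (baseHom S Q).codRestrict WM (fun φ => by
        change rightHom (baseHom S Q φ) ∈ M
        have : rightHom (baseHom S Q φ) = 1 := rfl
        rw [this]; exact M.one_mem)
      let g : ↥WM →* ↥M :=
        ((rightHom : S ≀ᵣ Q →* Q).comp WM.subtype).codRestrict M (fun x => x.2)
      have := pi_solvable S Q
      refine Group.isSolvable_of_ker_le_range f g ?_
      rintro ⟨w, hw⟩ hker
      have hw1 : w.right = 1 := by
        have := congrArg Subtype.val (MonoidHom.mem_ker.mp hker)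
        exact this
      refine ⟨w.left, ?_⟩
      apply Subtype.ext
      apply RegularWreathProduct.ext
      · rfl
      · exact hw1.symm
    let ι : ↥H →* ↥WM := (N.subtype.comp H.subtype).codRestrict WM (fun x => x.2)
    have hι : Function.Injective ι := by
      intro x y hxy
      have := congrArg Subtype.val hxy
      exact Subtype.ext (Subtype.ext this)
    exact Group.isSolvable_of_isSolvable_injective hι
  -- derived length
  have hHd : derivedSeries ↥H d ≠ ⊥ := by
    let K : Subgroup ↥H := (π.comp H.subtype).ker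
    have hKr : ∀ k : ↥K, ((k : ↥H) : ↥N).1.right = 1 := fun k => MonoidHom.mem_ker.mp k.2
    let ε : ↥K →* S :=
      { toFun := fun k => ((k : ↥H) : ↥N).1.left 1
        map_one' := rfl
        map_mul' := by
          intro k k'
          change (((k : ↥H) : ↥N).1 * ((k' : ↥H) : ↥N).1).left 1 = _
          rw [mul_left]
          simp [hKr k] }
    have hε : Function.Surjective ε := by
      intro s
      obtain ⟨q₀, hq₀⟩ : ∃ q₀ : Q, q₀ ≠ 1 := exists_ne 1
      obtain ⟨β, hβ⟩ : ∃ β : S ≀ᵣ Q, β = baseHom S Q (Pi.mulSingle 1 s) := ⟨_, rfl⟩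
      have hβl : β.left = Pi.mulSingle 1 s := by rw [hβ]; rfl
      have hβr : β.right = 1 := by rw [hβ]; rfl
      obtain ⟨y, hy⟩ : ∃ y : S ≀ᵣ Q, y = β * inl q₀ * β⁻¹ * (inl q₀)⁻¹ := ⟨_, rfl⟩
      have hyN : y ∈ N := by
        have hn : N.Normal := Subgroup.normalClosure_normal
        rw [hy]
        exact N.mul_mem (hn.conj_mem _ (hPN ⟨q₀, rfl⟩) β) (N.inv_mem (hPN ⟨q₀, rfl⟩))
      have hyr : y.right = 1 := by
        rw [hy]
        simp [mul_right, inv_right, hβr]
      have hyH : (⟨y, hyN⟩ : ↥N) ∈ H := by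
        change rightHom y ∈ M
        have : rightHom y = 1 := hyr
        rw [this]; exact M.one_mem
      have hyK : (⟨⟨y, hyN⟩, hyH⟩ : ↥H) ∈ K := by
        rw [MonoidHom.mem_ker]
        exact hyr
      refine ⟨⟨⟨⟨y, hyN⟩, hyH⟩, hyK⟩, ?_⟩
      change y.left 1 = s
      have hq₀' : q₀⁻¹ ≠ 1 := fun h => hq₀ (inv_eq_one.mp h)
      rw [hy]
      simp [mul_left, mul_right, inv_left, inv_right, hβr, hβl, Pi.mulSingle_eq_of_ne hq₀']
    have hKd : derivedSeries ↥K d ≠ ⊥ := by
      intro h
      have h1 := map_derivedSeries_eq hε d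
      rw [h, Subgroup.map_bot] at h1
      exact hS h1.symm
    intro h
    have h1 := map_derivedSeries_le_derivedSeries K.subtype d
    rw [h, le_bot_iff] at h1
    exact hKd ((Subgroup.map_eq_bot_iff_of_injective _ K.subtype_injective).mp h1)
  exact ⟨↥N, inferInstance, inferInstance, H, hperf, hH, hHsolv, hHd⟩

theorem main (S : Type) [Group S] [Finite S] [Group.IsSolvable S] (d : ℕ)
    (hS : derivedSeries S d ≠ ⊥) :
    ∃ (G : Type) (_ : Group G) (_ : Finite G) (H : Subgroup G), commutator G = ⊤ ∧ IsCoatom H ∧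
      Group.IsSolvable H ∧ derivedSeries H d ≠ ⊥ := by
  have hQ : commutator (alternatingGroup (Fin 5)) = ⊤ :=
    commutator_alternatingGroup_eq_top (by simp)
  have hprim : MulAction.IsPreprimitive (alternatingGroup (Fin 5)) (Fin 5) :=
    alternatingGroup.isPreprimitive_of_three_le_card (Fin 5) (by simp)
  have hM : IsCoatom (MulAction.stabilizer (alternatingGroup (Fin 5)) (4 : Fin 5)) :=
    MulAction.IsPreprimitive.isCoatom_stabilizer_of_isPreprimitive _ (4 : Fin 5)
  have hMsolv : Group.IsSolvable ↥(MulAction.stabilizer (alternatingGroup (Fin 5)) (4 : Fin 5)) := by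
    have h1 : (MulAction.stabilizer (alternatingGroup (Fin 5)) (4 : Fin 5)).index = 5 := by
      have := MulAction.index_stabilizer_of_transitive (alternatingGroup (Fin 5)) (4 : Fin 5)
      rw [this, Nat.card_fin]
    have h2 : Nat.card (alternatingGroup (Fin 5)) = 60 := by
      have := nat_card_alternatingGroup (α := Fin 5)
      rw [Nat.card_fin] at this
      rw [this]
      rfl
    have h3 := Subgroup.card_mul_index (MulAction.stabilizer (alternatingGroup (Fin 5)) (4 : Fin 5))
    rw [h1, h2] at h3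
    have h4 : Nat.card ↥(MulAction.stabilizer (alternatingGroup (Fin 5)) (4 : Fin 5)) =
        2 ^ 2 * 3 := by omega
    exact Cfsg.Agent.S0061.result 2 3 2 Nat.prime_two Nat.prime_three h4
  have hnt : Nontrivial (alternatingGroup (Fin 5)) := inferInstance
  exact main_general S (alternatingGroup (Fin 5)) hQ _ hM hMsolv d hS


/-- Finite perfect groups have solvable maximal subgroups of unbounded derived length: for every d there is a finite perfect group G (equal to its commutator subgroup) with a solvable maximal subgroup H whose derived length exceeds d, i.e. the d-th term of the derived series of H is non-trivial. (Take the derived subgroup of a wreath product S ≀ A₅ with S solvable of large derived length, and H the preimage of a maximal subgroup of A₅.) -/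
theorem result (d : ℕ) :
    ∃ (G : Type) (_ : Group G) (_ : Finite G) (H : Subgroup G), commutator G = ⊤ ∧ IsCoatom H ∧ Group.IsSolvable H ∧
      derivedSeries H d ≠ ⊥ := by
  obtain ⟨S, hG, hF, hS, hd⟩ := exists_solvable d
  exact main S d hd

end Cfsg.Agent.S5896
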