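import Cfsg.Statements.S5902
import Cfsg.Agent.Lib.Helper97.Compl

set_option autoImplicit false
open Cfsg

namespace Cfsg.Agent.S5902

theorem compl_of_not_le_core {G : Type*} [Group G] [Finite G] (X M : Subgroup G)
    (hK : ComplementedLattice (Subgroup X))
    (huniq : ∀ M' : Subgroup G, IsCoatom M' → X ≤ M' → M' = M)
    (H : Subgroup G) (hH : ¬ H ≤ M.normalCore) : ∃ C : Subgroup G, H ⊔ C = ⊤ ∧ H ⊓ C = ⊥ := by
  have h1 : ∃ a ∈ H, ∃ b : G, b * a * b⁻¹ ∉ M := by
    by_contra hcon
    push Not at hcon
    exact hH (fun a ha b => hcon a ha b)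
  obtain ⟨a, ha, b, hb⟩ := h1
  apply Cfsg.Agent.Lib.Helper97.compl_of_conj b H
  apply Cfsg.Agent.Lib.Helper97.compl_of_interval ⊥ X M bot_le
    (Cfsg.Agent.Lib.Helper97.interval_bot_of_complemented X hK) huniq
  · intro hle
    exact hb (hle ⟨a, ha, rfl⟩)
  · exact inf_bot_eq _

/-- Let G be a finite group, X a subgroup whose own subgroup lattice is complemented, and suppose X lies in exactly one maximal subgroup M of G. Then every subgroup H of G not contained in the normal core of M has a complement in the subgroup lattice of G (some C with H ⊔ C = G and H ⊓ C = 1); in particular the subgroup lattice of G modulo the normal core of M is complemented. -/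
theorem result {G : Type*} [Group G] [Finite G] (X M : Subgroup G)
    (hK : ComplementedLattice (Subgroup X))
    (hM : IsCoatom M) (hXM : X ≤ M) (huniq : ∀ M' : Subgroup G, IsCoatom M' → X ≤ M' → M' = M) :
    (∀ H : Subgroup G, ¬ H ≤ M.normalCore → ∃ C : Subgroup G, H ⊔ C = ⊤ ∧ H ⊓ C = ⊥) ∧
    ComplementedLattice (Subgroup (G ⧸ M.normalCore)) := by
  refine ⟨fun H hH => compl_of_not_le_core X M hK huniq H hH, ⟨fun Hb => ?_⟩⟩
  set π := QuotientGroup.mk' M.normalCore with hπ
  have hπs : Function.Surjective π := QuotientGroup.mk'_surjective _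
  have hker : π.ker = M.normalCore := QuotientGroup.ker_mk' _
  by_cases hle : Hb.comap π ≤ M.normalCore
  · have hbot : Hb = ⊥ := by
      rw [← Subgroup.map_comap_eq_self_of_surjective hπs Hb, Subgroup.map_eq_bot_iff, hker]
      exact hle
    rw [hbot]
    exact ⟨⊤, isCompl_bot_top⟩
  · obtain ⟨C, hC1, hC2⟩ := compl_of_not_le_core X M hK huniq _ hle
    refine ⟨C.map π, ?_⟩
    rw [isCompl_iff, disjoint_iff, codisjoint_iff]
    constructor
    · rw [eq_bot_iff]
      rintro x ⟨hx1, c, hc, rfl⟩
      have hcH : c ∈ Hb.comap π := hx1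
      have : c ∈ Hb.comap π ⊓ C := ⟨hcH, hc⟩
      rw [hC2, Subgroup.mem_bot] at this
      rw [this, map_one]
      exact Subgroup.one_mem _
    · conv_lhs => rw [← Subgroup.map_comap_eq_self_of_surjective hπs Hb]
      rw [← Subgroup.map_sup, hC1, ← MonoidHom.range_eq_map, MonoidHom.range_eq_top.mpr hπs]

end Cfsg.Agent.S5902
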