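import Cfsg.Statements.S5903
import Cfsg.Agent.Lib.Helper97.Compl

set_option autoImplicit false
open Cfsg

namespace Cfsg.Agent.S5903

/-- The key step: if every conjugate of `N` either lies in `H` or is central in a conjugate of `M`
containing `H`, then `H` is trivial or everything. -/
theorem key {G : Type*} [Group G] [Finite G] [IsSimpleGroup G] (M N H : Subgroup G)
    (hM : IsCoatom M) (hN : N ≠ ⊥) (hcen : ∀ n ∈ N, ∀ m ∈ M, m * n = n * m)
    (hHbot : H ≠ ⊥) (hHtop : H ≠ ⊤)
    (hall : ∀ g : G, (∀ h ∈ H, g⁻¹ * h * g ∈ M) ∨ (∀ n ∈ N, g * n * g⁻¹ ∈ H)) : False := by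
  classical
  let S : Set G := {x | ∃ g : G, (∀ n ∈ N, g * n * g⁻¹ ∈ H) ∧ ∃ n ∈ N, x = g * n * g⁻¹}
  let L : Subgroup G := Subgroup.closure S
  have hLH : L ≤ H := by
    rw [Subgroup.closure_le]
    rintro x ⟨g, hg, n, hn, rfl⟩
    exact hg n hn
  -- every conjugate of an element of N normalizes L
  have hnorm : ∀ g : G, ∀ n ∈ N, g * n * g⁻¹ ∈ Subgroup.normalizer (L : Set G) := by
    intro g n hn
    rcases hall g with h1 | h1
    · -- g n g⁻¹ centralizes H, hence L
      have hcomm : ∀ h ∈ H, (g * n * g⁻¹) * h = h * (g * n * g⁻¹) := by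
        intro h hh
        have := hcen n hn _ (h1 h hh)
        calc (g * n * g⁻¹) * h = g * (n * (g⁻¹ * h * g)) * g⁻¹ := by group
          _ = g * ((g⁻¹ * h * g) * n) * g⁻¹ := by rw [this]
          _ = h * (g * n * g⁻¹) := by group
      rw [Subgroup.mem_normalizer_iff]
      intro l
      constructor
      · intro hl
        have := hcomm l (hLH hl)
        rw [this, mul_assoc, mul_inv_cancel, mul_one]
        exact hl
      · intro hl
        have := hcomm _ (hLH hl)
        have h2 : (g * n * g⁻¹) * l * (g * n * g⁻¹)⁻¹ = l := by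
          have h3 : (g * n * g⁻¹) * ((g * n * g⁻¹) * l * (g * n * g⁻¹)⁻¹) =
              (g * n * g⁻¹) * l := by
            rw [this]; group
          exact mul_left_cancel h3
        rw [h2] at hl
        exact hl
    · exact Subgroup.le_normalizer (Subgroup.subset_closure ⟨g, h1, n, hn, rfl⟩)
  have hnc : Subgroup.normalClosure (N : Set G) ≤ Subgroup.normalizer (L : Set G) := by
    rw [Subgroup.normalClosure, Subgroup.closure_le]
    intro x hx
    rw [Group.mem_conjugatesOfSet_iff] at hx
    obtain ⟨n, hn, hconj⟩ := hx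
    obtain ⟨c, rfl⟩ := isConj_iff.mp hconj
    exact hnorm c n hn
  have hnctop : Subgroup.normalClosure (N : Set G) = ⊤ := by
    rcases (Subgroup.normalClosure_normal (s := (N : Set G))).eq_bot_or_eq_top with h | h
    · exfalso
      apply hN
      rw [eq_bot_iff, ← h]
      exact Subgroup.le_normalClosure
    · exact h
  have hLnormal : L.Normal := by
    rw [← Subgroup.normalizer_eq_top_iff, eq_top_iff, ← hnctop]
    exact hnc
  rcases hLnormal.eq_bot_or_eq_top with hL | hL
  · -- no conjugate of N lies in H, so H lies in the core of M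
    have hcore : H ≤ M.normalCore := by
      intro h hh b
      rcases hall b⁻¹ with h1 | h1
      · have := h1 h hh
        rwa [inv_inv] at this
      · exfalso
        apply hN
        rw [eq_bot_iff]
        intro n hn
        have h2 : b⁻¹ * n * b⁻¹⁻¹ ∈ L := Subgroup.subset_closure ⟨b⁻¹, h1, n, hn, rfl⟩
        rw [hL, Subgroup.mem_bot] at h2
        rw [Subgroup.mem_bot]
        have h3 : n = b * (b⁻¹ * n * b⁻¹⁻¹) * b⁻¹ := by group
        rw [h3, h2]; group
    rcases (Subgroup.normalCore_normal M).eq_bot_or_eq_top with h | h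
    · exact hHbot (eq_bot_iff.mpr (h ▸ hcore))
    · exact hM.1 (eq_top_iff.mpr (h ▸ Subgroup.normalCore_le M))
  · exact hHtop (eq_top_iff.mpr (hL ▸ hLH))

/-- Let G be a finite simple group, X a subgroup lying in exactly one maximal subgroup M of G, and N a subgroup of prime order with N ≤ X that is central in M. If the subgroup lattice of X/N is complemented, then the subgroup lattice of G is complemented. -/
theorem result {G : Type*} [Group G] [Finite G] [IsSimpleGroup G] (X M N : Subgroup G)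
    (hM : IsCoatom M) (hXM : X ≤ M) (huniq : ∀ M' : Subgroup G, IsCoatom M' → X ≤ M' → M' = M)
    (hNX : N ≤ X) (hN : (Nat.card N).Prime) (hcen : ∀ n ∈ N, ∀ m ∈ M, m * n = n * m)
    [(N.subgroupOf X).Normal] (hK : ComplementedLattice (Subgroup (X ⧸ N.subgroupOf X))) :
    ComplementedLattice (Subgroup G) := by
  refine ⟨fun H => ?_⟩
  by_cases hHbot : H = ⊥
  · rw [hHbot]; exact ⟨⊤, isCompl_bot_top⟩
  by_cases hHtop : H = ⊤
  · rw [hHtop]; exact ⟨⊥, isCompl_top_bot⟩
  have hNbot : N ≠ ⊥ := by
    intro h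
    rw [h, Subgroup.card_bot] at hN
    exact Nat.not_prime_one hN
  have hex : ∃ g : G, (∃ h ∈ H, g⁻¹ * h * g ∉ M) ∧ (∃ n ∈ N, g * n * g⁻¹ ∉ H) := by
    by_contra hcon
    push Not at hcon
    apply key M N H hM hNbot hcen hHbot hHtop
    intro g
    by_cases h1 : ∀ h ∈ H, g⁻¹ * h * g ∈ M
    · exact Or.inl h1
    · push Not at h1
      obtain ⟨h, hh, hhM⟩ := h1
      exact Or.inr (hcon g ⟨h, hh, hhM⟩)
  obtain ⟨g, ⟨h, hh, hhM⟩, ⟨n, hn, hnH⟩⟩ := hex
  have hcompl : ∃ C : Subgroup G, H ⊔ C = ⊤ ∧ H ⊓ C = ⊥ := by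
    apply Cfsg.Agent.Lib.Helper97.compl_of_conj g⁻¹ H
    apply Cfsg.Agent.Lib.Helper97.compl_of_interval N X M hNX
      (Cfsg.Agent.Lib.Helper97.interval_of_complemented_quotient X N hNX hK) huniq
    · intro hle
      apply hhM
      have : g⁻¹ * h * g⁻¹⁻¹ ∈ M := hle ⟨h, hh, rfl⟩
      rwa [inv_inv] at this
    · -- the conjugate of H meets N trivially since N has prime order
      have : Fact (Nat.card N).Prime := ⟨hN⟩
      rcases Subgroup.eq_bot_or_eq_top_of_prime_card
        ((H.map (MulAut.conj g⁻¹).toMonoidHom).subgroupOf N) with h1 | h1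
      · rw [Subgroup.subgroupOf_eq_bot] at h1
        exact disjoint_iff.mp h1
      · exfalso
        rw [Subgroup.subgroupOf_eq_top] at h1
        obtain ⟨y, hy, hyn⟩ := h1 hn
        apply hnH
        have h2 : y = g * n * g⁻¹ := by
          have : g⁻¹ * y * g⁻¹⁻¹ = n := hyn
          rw [← this]; group
        rw [← h2]; exact hy
  obtain ⟨C, hC1, hC2⟩ := hcompl
  exact ⟨C, isCompl_iff.mpr ⟨disjoint_iff.mpr hC2, codisjoint_iff.mpr hC1⟩⟩

end Cfsg.Agent.S5903
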