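import Mathlib
import Cfsg.Statements.S5905

set_option autoImplicit false
open Cfsg

namespace Cfsg.Agent.S5905

/-- Let Ω be a finite set and f : Ω → Fin b a map onto b ≥ 2 labels whose fibres all have the same size a ≥ 2 (a partition of Ω into b blocks of size a, so |Ω| = ab). Then the stabilizer of this partition in the symmetric group on Ω — the permutations g such that x and y lie in the same block exactly when g x and g y do, a group isomorphic to the imprimitive wreath product S_a ≀ S_b — is a maximal subgroup of the symmetric group. -/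
theorem result {Ω : Type*} [Fintype Ω] [DecidableEq Ω] (a b : ℕ) (ha : 2 ≤ a) (hb : 2 ≤ b)
    (f : Ω → Fin b) (hf : ∀ i : Fin b, Nat.card {x : Ω // f x = i} = a) :
    IsCoatom (Subgroup.closure {g : Equiv.Perm Ω | ∀ x y : Ω, f x = f y ↔ f (g x) = f (g y)}) := by
  classical
  -- the subgroup
  let W : Subgroup (Equiv.Perm Ω) :=
    { carrier := {g : Equiv.Perm Ω | ∀ x y : Ω, f x = f y ↔ f (g x) = f (g y)}
      one_mem' := by intro x y; simp
      mul_mem' := by
        intro g h hg hh x y
        rw [hh x y, hg (h x) (h y)]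
        simp [Equiv.Perm.mul_apply]
      inv_mem' := by
        intro g hg x y
        have := hg (g⁻¹ x) (g⁻¹ y)
        simp at this
        exact this.symm }
  have hcl : Subgroup.closure {g : Equiv.Perm Ω | ∀ x y : Ω, f x = f y ↔ f (g x) = f (g y)} = W :=
    Subgroup.closure_eq W
  rw [hcl]
  -- the coordinatisation
  let e : Ω ≃ Fin b × Fin a :=
    (Equiv.sigmaFiberEquiv f).symm.trans
      ((Equiv.sigmaCongrRight (fun i => Finite.equivFinOfCardEq (hf i))).trans
        (Equiv.sigmaEquivProd (Fin b) (Fin a)))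
  have he : ∀ x, (e x).1 = f x := fun x => rfl
  have lift : ∀ σ : Equiv.Perm (Fin b), ∃ g : Equiv.Perm Ω,
      (∀ z, f (g z) = σ (f z)) ∧ (∀ z, σ (f z) = f z → g z = z) := by
    intro σ
    refine ⟨e.trans ((Equiv.prodCongr σ (Equiv.refl _)).trans e.symm), ?_, ?_⟩
    · intro z
      rw [← he, ← he]
      simp
    · intro z hz
      simp only [Equiv.trans_apply]
      rw [Equiv.symm_apply_eq]
      ext
      · simp [he, hz]
      · rfl
  have mate : ∀ x : Ω, ∃ x', x' ≠ x ∧ f x' = f x := by
    intro x
    have : ∃ j : Fin a, j ≠ (e x).2 := by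
      have : Nontrivial (Fin a) := Fin.nontrivial_iff_two_le.mpr ha
      exact exists_ne _
    obtain ⟨j, hj⟩ := this
    refine ⟨e.symm ((e x).1, j), ?_, ?_⟩
    · intro h
      apply hj
      have := congrArg e h
      simp at this
      exact (congrArg Prod.snd this)
    · rw [← he, ← he]; simp
  have other : ∀ x : Ω, ∃ y, f y ≠ f x := by
    intro x
    have : Nontrivial (Fin b) := Fin.nontrivial_iff_two_le.mpr hb
    obtain ⟨i, hi⟩ := exists_ne (f x)
    refine ⟨e.symm (i, (e x).2), ?_⟩
    have h1 : (e (e.symm (i, (e x).2))).1 = i := by simp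
    rw [← he (e.symm (i, (e x).2)), h1]; exact hi
  have fswap : ∀ x y, f x = f y → ∀ u, f (Equiv.swap x y u) = f u := by
    intro x y hxy u
    by_cases hux : u = x
    · subst hux; simp [hxy]
    · by_cases huy : u = y
      · subst huy; simp [hxy]
      · rw [Equiv.swap_apply_of_ne_of_ne hux huy]
  have swapW : ∀ x y, f x = f y → Equiv.swap x y ∈ W := by
    intro x y hxy u v
    rw [fswap x y hxy, fswap x y hxy]
  have liftW : ∀ (σ : Equiv.Perm (Fin b)) (g : Equiv.Perm Ω),
      (∀ z, f (g z) = σ (f z)) → g ∈ W := by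
    intro σ g hg u v
    rw [hg, hg, σ.injective.eq_iff]
  have hΩ : Nonempty Ω := ⟨e.symm (⟨0, by omega⟩, ⟨0, by omega⟩)⟩
  obtain ⟨x₀⟩ := hΩ
  obtain ⟨x₁, hx₁, hfx₁⟩ := mate x₀
  have hne : W ≠ ⊤ := by
    intro htop
    obtain ⟨y, hy⟩ := other x₀
    have hmem : Equiv.swap x₁ y ∈ W := by rw [htop]; trivial
    have h1 := (hmem x₀ x₁).mp hfx₁.symm
    have hxy : x₀ ≠ y := fun h => hy (by rw [h])
    rw [Equiv.swap_apply_of_ne_of_ne hx₁.symm hxy, Equiv.swap_apply_left] at h1
    exact hy h1.symm
  refine ⟨hne, fun L hL => ?_⟩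
  have hWL : W ≤ L := hL.le
  have hswap : Equiv.swap x₁ x₀ ∈ L := hWL (swapW _ _ hfx₁)
  have hisswap : (Equiv.swap x₁ x₀).IsSwap := ⟨x₁, x₀, hx₁, rfl⟩
  -- transitivity
  have htrans : MulAction.IsPretransitive L Ω := by
    refine ⟨fun x y => ?_⟩
    obtain ⟨w, hw1, hw2⟩ := lift (Equiv.swap (f x) (f y))
    have hwW : w ∈ W := liftW _ w hw1
    have h1 : f (w x) = f y := by rw [hw1]; simp
    refine ⟨⟨Equiv.swap (w x) y * w, L.mul_mem (hWL (swapW _ _ h1)) (hWL hwW)⟩, ?_⟩
    change (Equiv.swap (w x) y * w) x = y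
    simp
  -- primitivity
  have hprim : MulAction.IsPreprimitive L Ω := by
    refine { toIsPretransitive := htrans, isTrivialBlock_of_isBlock := ?_ }
    intro B hB
    have P : ∀ k ∈ L, ∀ z ∈ B, k z ∈ B → ∀ u ∈ B, k u ∈ B := by
      intro k hk z hz hkz u hu
      have := (MulAction.isBlock_iff_smul_eq_or_disjoint.mp hB) ⟨k, hk⟩
      rcases this with h | h
      · rw [← h]; exact ⟨u, hu, rfl⟩
      · exfalso
        exact Set.disjoint_left.mp h ⟨z, hz, rfl⟩ hkz
    by_contra hcon
    unfold MulAction.IsTrivialBlock at hcon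
    push Not at hcon
    obtain ⟨hns, hnu⟩ := hcon
    obtain ⟨x, hx, y, hy, hxy⟩ := hns
    -- Step 1
    have step1 : ∃ p ∈ B, ∃ q ∈ B, p ≠ q ∧ f p = f q := by
      by_cases hf' : f x = f y
      · exact ⟨x, hx, y, hy, hxy, hf'⟩
      · obtain ⟨x', hx', hfx'⟩ := mate x
        refine ⟨x, hx, x', ?_, hx'.symm, hfx'.symm⟩
        have hyx' : y ≠ x' := fun h => hf' (by rw [h, hfx'])
        have := P (Equiv.swap x x') (hWL (swapW _ _ hfx'.symm)) y hy
          (by rw [Equiv.swap_apply_of_ne_of_ne hxy.symm hyx']; exact hy) x hx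
        simpa using this
    obtain ⟨p, hp, q, hq, hpq, hfpq⟩ := step1
    -- Step 2
    have step2 : ∀ u ∈ B, ∀ v, f v = f u → v ∈ B := by
      intro u hu v hv
      by_cases hvp : v = p
      · rw [hvp]; exact hp
      by_cases hvq : v = q
      · rw [hvq]; exact hq
      obtain ⟨r, hr, hru, hrv⟩ : ∃ r ∈ B, r ≠ u ∧ r ≠ v := by
        by_cases hpu : p = u
        · exact ⟨q, hq, fun h => hpq (hpu.trans h.symm), fun h => hvq h.symm⟩
        · exact ⟨p, hp, hpu, fun h => hvp h.symm⟩
      have := P (Equiv.swap u v) (hWL (swapW _ _ hv.symm)) r hr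
        (by rw [Equiv.swap_apply_of_ne_of_ne hru hrv]; exact hr) u hu
      simpa using this
    -- Step 3
    by_cases hone : ∀ u ∈ B, f u = f p
    · -- B is one fibre: then L ≤ W
      apply hL.not_ge
      have key : ∀ g ∈ L, ∀ u v, f u = f v → f (g u) = f (g v) := by
        intro g hg u v huv
        obtain ⟨w, hw1, hw2⟩ := lift (Equiv.swap (f p) (f u))
        obtain ⟨w', hw'1, hw'2⟩ := lift (Equiv.swap (f p) (f (g u)))
        have hwL : w ∈ L := hWL (liftW _ w hw1)
        have hw'L : w' ∈ L := hWL (liftW _ w' hw'1)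
        have hkL : w' * g * w ∈ L := L.mul_mem (L.mul_mem hw'L hg) hwL
        have hu0 : f (w⁻¹ u) = f p := by
          have := hw1 (w⁻¹ u)
          simp only [Equiv.Perm.coe_inv, Equiv.apply_symm_apply] at this
          have h2 := congrArg (Equiv.swap (f p) (f u)) this
          simp only [Equiv.swap_apply_right, Equiv.swap_apply_self] at h2
          exact h2.symm
        have hv0 : f (w⁻¹ v) = f p := by
          have := hw1 (w⁻¹ v)
          simp only [Equiv.Perm.coe_inv, Equiv.apply_symm_apply] at this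
          have h2 := congrArg (Equiv.swap (f p) (f u)) this
          rw [← huv] at h2
          simp only [Equiv.swap_apply_right, Equiv.swap_apply_self] at h2
          exact h2.symm
        have hu0B : w⁻¹ u ∈ B := step2 p hp _ hu0
        have hv0B : w⁻¹ v ∈ B := step2 p hp _ hv0
        have hku : (w' * g * w) (w⁻¹ u) ∈ B := by
          apply step2 p hp
          simp only [Equiv.Perm.mul_apply, Equiv.Perm.coe_inv, Equiv.apply_symm_apply]
          rw [hw'1]; simp
        have hkv := P _ hkL _ hu0B hku _ hv0B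
        have := hone _ hkv
        simp only [Equiv.Perm.mul_apply, Equiv.Perm.coe_inv, Equiv.apply_symm_apply] at this
        rw [hw'1] at this
        have h2 := congrArg (Equiv.swap (f p) (f (g u))) this
        simp only [Equiv.swap_apply_self, Equiv.swap_apply_left] at h2
        exact h2.symm
      intro g hg u v
      refine ⟨key g hg u v, fun h => ?_⟩
      have := key g⁻¹ (L.inv_mem hg) _ _ h
      simpa using this
    · -- B meets two fibres: B = univ
      apply hnu
      push Not at hone
      obtain ⟨u, hu, hfu⟩ := hone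
      rw [Set.eq_univ_iff_forall]
      intro z
      by_contra hz
      have hmiss : ∀ t ∈ B, f t ≠ f z := fun t ht h => hz (step2 t ht z h.symm)
      obtain ⟨w, hw1, hw2⟩ := lift (Equiv.swap (f u) (f z))
      have hwL : w ∈ L := hWL (liftW _ w hw1)
      have hwp : w p = p := by
        apply hw2
        rw [Equiv.swap_apply_of_ne_of_ne (Ne.symm hfu) (hmiss p hp)]
      have := P w hwL p hp (by rw [hwp]; exact hp) u hu
      apply hmiss _ this
      rw [hw1]; simp
  exact Equiv.Perm.subgroup_eq_top_of_isPreprimitive_of_isSwap_mem hprim _ hisswap hswap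

end Cfsg.Agent.S5905
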