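import Mathlib
import Cfsg.Statements.S5909

set_option autoImplicit false
open Cfsg

namespace Cfsg.Agent.S5909

section
variable {Ω : Type*} [Fintype Ω] [DecidableEq Ω] {b : ℕ} (f : Ω → Fin b)

/-- The partition stabiliser. -/
def Wsub : Subgroup (Equiv.Perm Ω) where
  carrier := {g : Equiv.Perm Ω | ∀ x y : Ω, f x = f y ↔ f (g x) = f (g y)}
  one_mem' := by intro x y; simp
  mul_mem' := by
    intro g h hg hh x y
    rw [hh x y, hg (h x) (h y)]
    simp [Equiv.Perm.mul_apply]
  inv_mem' := by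
    intro g hg x y
    have := hg (g⁻¹ x) (g⁻¹ y)
    simp at this
    exact this.symm

omit [Fintype Ω] in
theorem fswap (x y : Ω) (hxy : f x = f y) (u : Ω) : f (Equiv.swap x y u) = f u := by
  by_cases hux : u = x
  · subst hux; simp [hxy]
  · by_cases huy : u = y
    · subst huy; simp [hxy]
    · rw [Equiv.swap_apply_of_ne_of_ne hux huy]

omit [Fintype Ω] in
theorem swap_mem (x y : Ω) (hxy : f x = f y) : Equiv.swap x y ∈ Wsub f := by
  intro u v
  rw [fswap f x y hxy, fswap f x y hxy]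

omit [Fintype Ω] [DecidableEq Ω] in
theorem lift_mem (σ : Equiv.Perm (Fin b)) (g : Equiv.Perm Ω) (hg : ∀ z, f (g z) = σ (f z)) :
    g ∈ Wsub f := by
  intro u v
  rw [hg, hg, σ.injective.eq_iff]

theorem dt_mem (x x' s s' : Ω) (h1 : f x = f x') (h2 : f s = f s') (h3 : x ≠ x') (h4 : s ≠ s') :
    Equiv.swap x x' * Equiv.swap s s' ∈ Wsub f ⊓ alternatingGroup Ω := by
  refine Subgroup.mem_inf.mpr ⟨(Wsub f).mul_mem (swap_mem f _ _ h1) (swap_mem f _ _ h2), ?_⟩
  rw [Equiv.Perm.mem_alternatingGroup, map_mul, Equiv.Perm.sign_swap h3, Equiv.Perm.sign_swap h4]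
  rfl

theorem prim
    (mate : ∀ x : Ω, ∃ x', x' ≠ x ∧ f x' = f x)
    (other : ∀ x : Ω, ∃ y, f y ≠ f x)
    (EL : ∀ (σ : Equiv.Perm (Fin b)) (i : Fin b), ∃ g : Equiv.Perm Ω, Equiv.Perm.sign g = 1 ∧
      (∀ z, f (g z) = σ (f z)) ∧ (∀ z, σ (f z) = f z → f z ≠ i → g z = z))
    (h3 : (∀ y : Ω, ∃ s s', s ≠ s' ∧ s ≠ y ∧ s' ≠ y ∧ f s = f y ∧ f s' = f y) ∨
          (∀ x y : Ω, ∃ z, f z ≠ f x ∧ f z ≠ f y))
    (L : Subgroup (Equiv.Perm Ω)) (hL : Wsub f ⊓ alternatingGroup Ω < L)
    (hLA : L ≤ alternatingGroup Ω) :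
    MulAction.IsPreprimitive L Ω := by
  have hXL : Wsub f ⊓ alternatingGroup Ω ≤ L := hL.le
  have ELX : ∀ (σ : Equiv.Perm (Fin b)) (i : Fin b), ∃ g : Equiv.Perm Ω, g ∈ L ∧
      (∀ z, f (g z) = σ (f z)) ∧ (∀ z, σ (f z) = f z → f z ≠ i → g z = z) := by
    intro σ i
    obtain ⟨g, hg1, hg2, hg3⟩ := EL σ i
    exact ⟨g, hXL (Subgroup.mem_inf.mpr
      ⟨lift_mem f σ g hg2, Equiv.Perm.mem_alternatingGroup.mpr hg1⟩), hg2, hg3⟩
  have DT : ∀ x x' s s' : Ω, f x = f x' → f s = f s' → x ≠ x' → s ≠ s' →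
      Equiv.swap x x' * Equiv.swap s s' ∈ L :=
    fun x x' s s' h1 h2 h3 h4 => hXL (dt_mem f x x' s s' h1 h2 h3 h4)
  -- transitivity
  have htrans : MulAction.IsPretransitive L Ω := by
    refine ⟨fun x y => ?_⟩
    obtain ⟨w, hwL, hw1, hw2⟩ := ELX (Equiv.swap (f x) (f y)) (f x)
    have h1 : f (w x) = f y := by rw [hw1]; simp
    by_cases hwx : w x = y
    · exact ⟨⟨w, hwL⟩, hwx⟩
    · obtain ⟨t, ht⟩ := other y
      obtain ⟨t', ht', hft'⟩ := mate t
      refine ⟨⟨Equiv.swap (w x) y * Equiv.swap t t' * w,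
        L.mul_mem (DT _ _ _ _ h1 hft'.symm hwx ht'.symm) hwL⟩, ?_⟩
      change (Equiv.swap (w x) y * Equiv.swap t t' * w) x = y
      have h2 : w x ≠ t := fun h => ht (by rw [← h, h1])
      have h3 : w x ≠ t' := fun h => ht (by rw [← hft', ← h, h1])
      simp only [Equiv.Perm.mul_apply]
      rw [Equiv.swap_apply_of_ne_of_ne h2 h3, Equiv.swap_apply_left]
  refine { toIsPretransitive := htrans, isTrivialBlock_of_isBlock := ?_ }
  intro B hB
  have P : ∀ k ∈ L, ∀ z ∈ B, k z ∈ B → ∀ u ∈ B, k u ∈ B := by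
    intro k hk z hz hkz u hu
    have := (MulAction.isBlock_iff_smul_eq_or_disjoint.mp hB) ⟨k, hk⟩
    rcases this with h | h
    · rw [← h]; exact ⟨u, hu, rfl⟩
    · exfalso
      exact Set.disjoint_left.mp h ⟨z, hz, rfl⟩ hkz
  by_contra hcon
  unfold MulAction.IsTrivialBlock at hcon
  push Not at hcon
  obtain ⟨hns, hnu⟩ := hcon
  obtain ⟨x, hx, y, hy, hxy⟩ := hns
  -- Step 1
  have step1 : ∃ p ∈ B, ∃ q ∈ B, p ≠ q ∧ f p = f q := by
    by_cases hf' : f x = f y
    · exact ⟨x, hx, y, hy, hxy, hf'⟩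
    · rcases h3 with h3 | h3
      · obtain ⟨s, s', hss', hsy, hs'y, hfs, hfs'⟩ := h3 y
        obtain ⟨x', hx', hfx'⟩ := mate x
        refine ⟨x, hx, x', ?_, hx'.symm, hfx'.symm⟩
        have hyx' : y ≠ x' := fun h => hf' (by rw [h, hfx'])
        have hxs : x ≠ s := fun h => hf' (by rw [h, hfs])
        have hxs' : x ≠ s' := fun h => hf' (by rw [h, hfs'])
        have := P (Equiv.swap x x' * Equiv.swap s s')
          (DT _ _ _ _ hfx'.symm (hfs.trans hfs'.symm) hx'.symm hss') y hy
          (by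
            simp only [Equiv.Perm.mul_apply]
            rw [Equiv.swap_apply_of_ne_of_ne hsy.symm hs'y.symm,
              Equiv.swap_apply_of_ne_of_ne hxy.symm hyx']
            exact hy) x hx
        simp only [Equiv.Perm.mul_apply] at this
        rw [Equiv.swap_apply_of_ne_of_ne hxs hxs', Equiv.swap_apply_left] at this
        exact this
      · obtain ⟨z, hzx, hzy⟩ := h3 x y
        obtain ⟨z', hz', hfz'⟩ := mate z
        obtain ⟨y', hy', hfy'⟩ := mate y
        refine ⟨y, hy, y', ?_, hy'.symm, hfy'.symm⟩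
        have hxy' : x ≠ y' := fun h => hf' (by rw [h, hfy'])
        have hxz : x ≠ z := fun h => hzx (by rw [h])
        have hxz' : x ≠ z' := fun h => hzx (by rw [← hfz', h])
        have hyz : y ≠ z := fun h => hzy (by rw [h])
        have hyz' : y ≠ z' := fun h => hzy (by rw [← hfz', h])
        have := P (Equiv.swap y y' * Equiv.swap z z')
          (DT _ _ _ _ hfy'.symm hfz'.symm hy'.symm hz'.symm) x hx
          (by
            simp only [Equiv.Perm.mul_apply]
            rw [Equiv.swap_apply_of_ne_of_ne hxz hxz',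
              Equiv.swap_apply_of_ne_of_ne hxy hxy']
            exact hx) y hy
        simp only [Equiv.Perm.mul_apply] at this
        rw [Equiv.swap_apply_of_ne_of_ne hyz hyz', Equiv.swap_apply_left] at this
        exact this
  obtain ⟨p, hp, q, hq, hpq, hfpq⟩ := step1
  -- Step 2
  have step2 : ∀ u ∈ B, ∀ v, f v = f u → v ∈ B := by
    intro u hu v hv
    by_cases hvu : v = u
    · rw [hvu]; exact hu
    by_cases hfu : f u = f p
    · by_cases hvp : v = p
      · rw [hvp]; exact hp
      by_cases hvq : v = q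
      · rw [hvq]; exact hq
      obtain ⟨r, hr, hru, hrv, hfr⟩ : ∃ r ∈ B, r ≠ u ∧ r ≠ v ∧ f r = f p := by
        by_cases hpu : p = u
        · exact ⟨q, hq, fun h => hpq (hpu.trans h.symm), fun h => hvq h.symm, hfpq.symm⟩
        · exact ⟨p, hp, hpu, fun h => hvp h.symm, rfl⟩
      obtain ⟨t, ht⟩ := other p
      obtain ⟨t', ht', hft'⟩ := mate t
      have hrt : r ≠ t := fun h => ht (by rw [← h, hfr])
      have hrt' : r ≠ t' := fun h => ht (by rw [← hft', ← h, hfr])
      have hut : u ≠ t := fun h => ht (by rw [← h, hfu])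
      have hut' : u ≠ t' := fun h => ht (by rw [← hft', ← h, hfu])
      have := P (Equiv.swap u v * Equiv.swap t t')
        (DT _ _ _ _ hv.symm hft'.symm (Ne.symm hvu) ht'.symm) r hr
        (by
          simp only [Equiv.Perm.mul_apply]
          rw [Equiv.swap_apply_of_ne_of_ne hrt hrt', Equiv.swap_apply_of_ne_of_ne hru hrv]
          exact hr) u hu
      simp only [Equiv.Perm.mul_apply] at this
      rw [Equiv.swap_apply_of_ne_of_ne hut hut', Equiv.swap_apply_left] at this
      exact this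
    · have hpu : p ≠ u := fun h => hfu (by rw [h])
      have hpv : p ≠ v := fun h => hfu (by rw [← hv, h])
      have hqu : q ≠ u := fun h => hfu (by rw [← h, hfpq])
      have hqv : q ≠ v := fun h => hfu (by rw [← hv, ← h, hfpq])
      have := P (Equiv.swap u v * Equiv.swap p q)
        (DT _ _ _ _ hv.symm hfpq (Ne.symm hvu) hpq) p hp
        (by
          simp only [Equiv.Perm.mul_apply]
          rw [Equiv.swap_apply_left, Equiv.swap_apply_of_ne_of_ne hqu hqv]
          exact hq) u hu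
      simp only [Equiv.Perm.mul_apply] at this
      rw [Equiv.swap_apply_of_ne_of_ne hpu.symm hqu.symm, Equiv.swap_apply_left] at this
      exact this
  -- Step 3
  by_cases hone : ∀ u ∈ B, f u = f p
  · apply hL.not_ge
    have key : ∀ g ∈ L, ∀ u v, f u = f v → f (g u) = f (g v) := by
      intro g hg u v huv
      obtain ⟨w, hwL, hw1, hw2⟩ := ELX (Equiv.swap (f p) (f u)) (f p)
      obtain ⟨w', hw'L, hw'1, hw'2⟩ := ELX (Equiv.swap (f p) (f (g u))) (f p)
      have hkL : w' * g * w ∈ L := L.mul_mem (L.mul_mem hw'L hg) hwL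
      have hu0 : f (w⁻¹ u) = f p := by
        have := hw1 (w⁻¹ u)
        simp only [Equiv.Perm.coe_inv, Equiv.apply_symm_apply] at this
        have h2 := congrArg (Equiv.swap (f p) (f u)) this
        simp only [Equiv.swap_apply_right, Equiv.swap_apply_self] at h2
        exact h2.symm
      have hv0 : f (w⁻¹ v) = f p := by
        have := hw1 (w⁻¹ v)
        simp only [Equiv.Perm.coe_inv, Equiv.apply_symm_apply] at this
        have h2 := congrArg (Equiv.swap (f p) (f u)) this
        rw [← huv] at h2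
        simp only [Equiv.swap_apply_right, Equiv.swap_apply_self] at h2
        exact h2.symm
      have hu0B : w⁻¹ u ∈ B := step2 p hp _ hu0
      have hv0B : w⁻¹ v ∈ B := step2 p hp _ hv0
      have hku : (w' * g * w) (w⁻¹ u) ∈ B := by
        apply step2 p hp
        simp only [Equiv.Perm.mul_apply, Equiv.Perm.coe_inv, Equiv.apply_symm_apply]
        rw [hw'1]; simp
      have hkv := P _ hkL _ hu0B hku _ hv0B
      have := hone _ hkv
      simp only [Equiv.Perm.mul_apply, Equiv.Perm.coe_inv, Equiv.apply_symm_apply] at this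
      rw [hw'1] at this
      have h2 := congrArg (Equiv.swap (f p) (f (g u))) this
      simp only [Equiv.swap_apply_self, Equiv.swap_apply_left] at h2
      exact h2.symm
    intro g hg
    refine Subgroup.mem_inf.mpr ⟨?_, hLA hg⟩
    intro u v
    refine ⟨key g hg u v, fun h => ?_⟩
    have := key g⁻¹ (L.inv_mem hg) _ _ h
    simpa using this
  · apply hnu
    push Not at hone
    obtain ⟨u, hu, hfu⟩ := hone
    rw [Set.eq_univ_iff_forall]
    intro z
    by_contra hz
    have hmiss : ∀ t ∈ B, f t ≠ f z := fun t ht h => hz (step2 t ht z h.symm)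
    obtain ⟨w, hwL, hw1, hw2⟩ := ELX (Equiv.swap (f u) (f z)) (f u)
    have hwp : w p = p := by
      apply hw2
      · rw [Equiv.swap_apply_of_ne_of_ne (Ne.symm hfu) (hmiss p hp)]
      · exact Ne.symm hfu
    have := P w hwL p hp (by rw [hwp]; exact hp) u hu
    apply hmiss _ this
    rw [hw1]; simp

theorem fibre_swap_mem (u u' v v' : Ω) (hfu' : f u' = f u) (hfv' : f v' = f v) (huv : f u ≠ f v)
    (hu'u : u' ≠ u) (hv'v : v' ≠ v)
    (hu : ∀ z, f z = f u → z = u ∨ z = u') (hv : ∀ z, f z = f v → z = v ∨ z = v') :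
    Equiv.swap u' v' * Equiv.swap u v ∈ Wsub f ⊓ alternatingGroup Ω := by
  have h1 : u ≠ v := fun h => huv (by rw [h])
  have h2 : u' ≠ v' := fun h => huv (by rw [← hfu', h, hfv'])
  have h3 : v ≠ u' := fun h => huv (by rw [h, hfu'])
  have h4 : u ≠ v' := fun h => huv (by rw [h, hfv'])
  refine Subgroup.mem_inf.mpr ⟨lift_mem f (Equiv.swap (f u) (f v)) _ ?_, ?_⟩
  · intro x
    simp only [Equiv.Perm.mul_apply]
    by_cases hxu : x = u
    · subst hxu
      rw [Equiv.swap_apply_left, Equiv.swap_apply_of_ne_of_ne h3 hv'v.symm, Equiv.swap_apply_left]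
    by_cases hxv : x = v
    · subst hxv
      rw [Equiv.swap_apply_right, Equiv.swap_apply_of_ne_of_ne hu'u.symm h4,
        Equiv.swap_apply_right]
    rw [Equiv.swap_apply_of_ne_of_ne hxu hxv]
    by_cases hxu' : x = u'
    · subst hxu'
      rw [Equiv.swap_apply_left, hfu', Equiv.swap_apply_left, hfv']
    by_cases hxv' : x = v'
    · subst hxv'
      rw [Equiv.swap_apply_right, hfv', Equiv.swap_apply_right, hfu']
    rw [Equiv.swap_apply_of_ne_of_ne hxu' hxv']
    have h5 : f x ≠ f u := fun h => (hu x h).elim hxu hxu'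
    have h6 : f x ≠ f v := fun h => (hv x h).elim hxv hxv'
    rw [Equiv.swap_apply_of_ne_of_ne h5 h6]
  · rw [Equiv.Perm.mem_alternatingGroup, map_mul, Equiv.Perm.sign_swap h2,
      Equiv.Perm.sign_swap h1]
    rfl

theorem three_cycle_two
    (mate : ∀ x : Ω, ∃ x', x' ≠ x ∧ f x' = f x ∧ ∀ z, f z = f x → z = x ∨ z = x')
    (hb3 : ∀ x y : Ω, ∃ z, f z ≠ f x ∧ f z ≠ f y)
    (hb5 : ∀ x y z w : Ω, f x ≠ f y → f x ≠ f z → f x ≠ f w → f y ≠ f z → f y ≠ f w → f z ≠ f w →
      ∃ t, f t ≠ f x ∧ f t ≠ f y ∧ f t ≠ f z ∧ f t ≠ f w)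
    (L : Subgroup (Equiv.Perm Ω)) (hL : Wsub f ⊓ alternatingGroup Ω < L)
    (hLA : L ≤ alternatingGroup Ω) :
    ∃ c ∈ L, c.IsThreeCycle := by
  have hXL : Wsub f ⊓ alternatingGroup Ω ≤ L := hL.le
  have DT : ∀ x x' s s' : Ω, f x = f x' → f s = f s' → x ≠ x' → s ≠ s' →
      Equiv.swap x x' * Equiv.swap s s' ∈ L :=
    fun x x' s s' h1 h2 h3 h4 => hXL (dt_mem f x x' s s' h1 h2 h3 h4)
  obtain ⟨g, hgL, u₀, v₀, huv₀, hguv⟩ :
      ∃ g ∈ L, ∃ u₀ v₀, f u₀ = f v₀ ∧ f (g u₀) ≠ f (g v₀) := by
    obtain ⟨g, hgL, hgX⟩ := SetLike.exists_of_lt hL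
    have hgW : g ∉ Wsub f := fun h => hgX (Subgroup.mem_inf.mpr ⟨h, hLA hgL⟩)
    have h0 : ¬ ∀ x y, f x = f y ↔ f (g x) = f (g y) := hgW
    simp only [not_forall] at h0
    obtain ⟨x, y, hxy⟩ := h0
    by_cases h1 : f x = f y
    · exact ⟨g, hgL, x, y, h1, fun h2 => hxy ⟨fun _ => h2, fun _ => h1⟩⟩
    · have h2 : f (g x) = f (g y) := by
        by_contra h2
        exact hxy ⟨fun h => absurd h h1, fun h => absurd h h2⟩
      refine ⟨g⁻¹, L.inv_mem hgL, g x, g y, h2, ?_⟩
      simpa using h1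
  obtain ⟨u, hu⟩ : ∃ u, u = g u₀ := ⟨_, rfl⟩
  obtain ⟨v, hv⟩ : ∃ v, v = g v₀ := ⟨_, rfl⟩
  rw [← hu, ← hv] at hguv
  have hu₀v₀ : u₀ ≠ v₀ := fun h => hguv (by rw [hu, hv, h])
  have huv : u ≠ v := fun h => hguv (by rw [h])
  have hfib₀ : ∀ z, f z = f u₀ → z = u₀ ∨ z = v₀ := by
    obtain ⟨u₀', h1, h2, h3⟩ := mate u₀
    intro z hz
    rcases h3 v₀ huv₀.symm with h | h
    · exact absurd h.symm hu₀v₀
    · rw [h]; exact h3 z hz
  obtain ⟨u', hu'u, hfu', hu'all⟩ := mate u
  obtain ⟨v', hv'v, hfv', hv'all⟩ := mate v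
  have conj : ∀ m₁ m₂ : Ω, f m₁ = f m₂ → m₁ ≠ m₂ →
      Equiv.swap u v * Equiv.swap (g m₁) (g m₂) ∈ L ∧
        Equiv.swap (g m₁) (g m₂) * Equiv.swap u v ∈ L := by
    intro m₁ m₂ h1 h2
    have e1 : Equiv.swap u v * Equiv.swap (g m₁) (g m₂) =
        g * (Equiv.swap u₀ v₀ * Equiv.swap m₁ m₂) * g⁻¹ := by
      rw [hu, hv, Equiv.swap_apply_apply, Equiv.swap_apply_apply]; group
    have e2 : Equiv.swap (g m₁) (g m₂) * Equiv.swap u v =
        g * (Equiv.swap m₁ m₂ * Equiv.swap u₀ v₀) * g⁻¹ := by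
      rw [hu, hv, Equiv.swap_apply_apply, Equiv.swap_apply_apply]; group
    rw [e1, e2]
    exact ⟨L.mul_mem (L.mul_mem hgL (DT _ _ _ _ huv₀ h1 hu₀v₀ h2)) (L.inv_mem hgL),
           L.mul_mem (L.mul_mem hgL (DT _ _ _ _ h1 huv₀ h2 hu₀v₀)) (L.inv_mem hgL)⟩
  have hu'v' : u' ≠ v' := fun h => hguv (by rw [← hfu', h, hfv'])
  have hu'v : u' ≠ v := fun h => hguv (by rw [← hfu', h])
  by_cases hA : f (g⁻¹ u') = f (g⁻¹ v')
  · -- Case B
    obtain ⟨w, hwu, hwv⟩ := hb3 u v
    obtain ⟨w', hw'w, hfw', hw'all⟩ := mate w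
    by_cases hB : f (g⁻¹ w) = f (g⁻¹ w')
    · -- Case B1
      have hm : g⁻¹ w ≠ g⁻¹ w' := fun h => hw'w (g⁻¹.injective h).symm
      have ht₂ := (conj (g⁻¹ w) (g⁻¹ w') hB hm).2
      simp only [Equiv.Perm.coe_inv, Equiv.apply_symm_apply] at ht₂
      have ht₁ : Equiv.swap u u' * Equiv.swap w w' ∈ L :=
        DT _ _ _ _ hfu'.symm hfw'.symm hu'u.symm hw'w.symm
      refine ⟨Equiv.swap u u' * Equiv.swap u v, ?_,
        Equiv.Perm.isThreeCycle_swap_mul_swap_same hu'u.symm huv hu'v⟩
      have : Equiv.swap u u' * Equiv.swap u v =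
          (Equiv.swap u u' * Equiv.swap w w') * (Equiv.swap w w' * Equiv.swap u v) := by
        rw [mul_assoc, ← mul_assoc (Equiv.swap w w'), Equiv.swap_mul_self, one_mul]
      rw [this]
      exact L.mul_mem ht₁ ht₂
    · -- Case B2
      obtain ⟨m₂, hm₂, hfm₂, hm₂all⟩ := mate (g⁻¹ w)
      obtain ⟨y, hy⟩ : ∃ y, y = g m₂ := ⟨_, rfl⟩
      have hyw : y ≠ w := by
        intro h
        apply hm₂
        apply g.injective
        rw [← hy, h]; simp
      have hyw' : y ≠ w' := by
        intro h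
        apply hB
        have : m₂ = g⁻¹ w' := by rw [← h, hy]; simp
        rw [← this, hfm₂]
      have hfyw : f y ≠ f w := fun h => (hw'all y h).elim hyw hyw'
      have hfyu : f y ≠ f u := by
        intro h
        rcases hu'all y h with h1 | h1
        · -- y = u
          have h2 : m₂ = u₀ := g.injective (by rw [← hy, h1, hu])
          have h3 : f (g⁻¹ w) = f u₀ := by rw [← h2, hfm₂]
          rcases hfib₀ _ h3 with h4 | h4
          · exact hm₂ (by rw [h2, h4])
          · apply hwv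
            have : w = g v₀ := by rw [← h4]; simp
            rw [this, ← hv]
        · -- y = u'
          have h2 : m₂ = g⁻¹ u' := by rw [← h1, hy]; simp
          have h3 : f (g⁻¹ v') = f (g⁻¹ w) := by rw [← hA, ← h2, hfm₂]
          rcases hm₂all _ h3 with h4 | h4
          · apply hwv
            have : v' = w := by
              have := congrArg g h4
              simpa using this
            rw [← this, hfv']
          · apply hu'v'
            have : g⁻¹ v' = g⁻¹ u' := by rw [h4, h2]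
            exact (g⁻¹.injective this).symm
      have hfyv : f y ≠ f v := by
        intro h
        rcases hv'all y h with h1 | h1
        · -- y = v
          have h2 : m₂ = v₀ := g.injective (by rw [← hy, h1, hv])
          have h3 : f (g⁻¹ w) = f u₀ := by rw [huv₀, ← h2, hfm₂]
          rcases hfib₀ _ h3 with h4 | h4
          · apply hwu
            have : w = g u₀ := by rw [← h4]; simp
            rw [this, ← hu]
          · exact hm₂ (by rw [h2, h4])
        · -- y = v'
          have h2 : m₂ = g⁻¹ v' := by rw [← h1, hy]; simp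
          have h3 : f (g⁻¹ u') = f (g⁻¹ w) := by rw [hA, ← h2, hfm₂]
          rcases hm₂all _ h3 with h4 | h4
          · apply hwu
            have : u' = w := by
              have := congrArg g h4
              simpa using this
            rw [← this, hfu']
          · apply hu'v'
            have : g⁻¹ u' = g⁻¹ v' := by rw [h4, h2]
            exact g⁻¹.injective this
      obtain ⟨x, hxu, hxv, hxw, hxy⟩ := hb5 u v w y hguv (Ne.symm hwu) (Ne.symm hfyu)
        (Ne.symm hwv) (Ne.symm hfyv) (Ne.symm hfyw)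
      obtain ⟨x', hx'x, hfx', -⟩ := mate x
      have hhL : Equiv.swap u u' * Equiv.swap x x' ∈ L :=
        DT _ _ _ _ hfu'.symm hfx'.symm hu'u.symm hx'x.symm
      have hc := conj (g⁻¹ w) m₂ hfm₂.symm hm₂.symm
      simp only [Equiv.Perm.coe_inv, Equiv.apply_symm_apply] at hc
      rw [← hy] at hc
      obtain ⟨ht', hs'⟩ := hc
      -- the conjugate
      have hne : ∀ t : Ω, f t ≠ f u → f t ≠ f x →
          (Equiv.swap u u' * Equiv.swap x x') t = t := by
        intro t h1 h2
        have a1 : t ≠ x := fun h => h2 (by rw [h])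
        have a2 : t ≠ x' := fun h => h2 (by rw [h, hfx'])
        have a3 : t ≠ u := fun h => h1 (by rw [h])
        have a4 : t ≠ u' := fun h => h1 (by rw [h, hfu'])
        simp only [Equiv.Perm.mul_apply]
        rw [Equiv.swap_apply_of_ne_of_ne a1 a2, Equiv.swap_apply_of_ne_of_ne a3 a4]
      have hhw := hne w hwu (Ne.symm hxw)
      have hhy := hne y hfyu (Ne.symm hxy)
      have hhv := hne v (Ne.symm hguv) (Ne.symm hxv)
      have hhu : (Equiv.swap u u' * Equiv.swap x x') u = u' := by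
        have a1 : u ≠ x := fun h => hxu (by rw [h])
        have a2 : u ≠ x' := fun h => hxu (by rw [← hfx', h])
        simp only [Equiv.Perm.mul_apply]
        rw [Equiv.swap_apply_of_ne_of_ne a1 a2, Equiv.swap_apply_left]
      have ht'' : Equiv.swap w y * Equiv.swap u' v ∈ L := by
        obtain ⟨h, hh⟩ : ∃ h, h = Equiv.swap u u' * Equiv.swap x x' := ⟨_, rfl⟩
        rw [← hh] at hhw hhy hhu hhv hhL
        have e1 : h * Equiv.swap w y * h⁻¹ = Equiv.swap w y := by
          have := Equiv.swap_apply_apply h w y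
          rw [hhw, hhy] at this
          exact this.symm
        have e2 : h * Equiv.swap u v * h⁻¹ = Equiv.swap u' v := by
          have := Equiv.swap_apply_apply h u v
          rw [hhu, hhv] at this
          exact this.symm
        have : Equiv.swap w y * Equiv.swap u' v =
            h * (Equiv.swap w y * Equiv.swap u v) * h⁻¹ := by
          calc Equiv.swap w y * Equiv.swap u' v
              = (h * Equiv.swap w y * h⁻¹) * (h * Equiv.swap u v * h⁻¹) := by rw [e1, e2]
            _ = h * (Equiv.swap w y * Equiv.swap u v) * h⁻¹ := by group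
        rw [this]
        exact L.mul_mem (L.mul_mem hhL hs') (L.inv_mem hhL)
      refine ⟨Equiv.swap v u * Equiv.swap v u', ?_,
        Equiv.Perm.isThreeCycle_swap_mul_swap_same huv.symm hu'v.symm hu'u.symm⟩
      have : Equiv.swap v u * Equiv.swap v u' =
          (Equiv.swap u v * Equiv.swap w y) * (Equiv.swap w y * Equiv.swap u' v) := by
        rw [mul_assoc, ← mul_assoc (Equiv.swap w y), Equiv.swap_mul_self, one_mul,
          Equiv.swap_comm v u, Equiv.swap_comm v u']
      rw [this]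
      exact L.mul_mem ht' ht''
  · -- Case A
    obtain ⟨m₂, hm₂, hfm₂, hm₂all⟩ := mate (g⁻¹ u')
    obtain ⟨z, hz⟩ : ∃ z, z = g m₂ := ⟨_, rfl⟩
    have hc := (conj (g⁻¹ u') m₂ hfm₂.symm hm₂.symm).1
    simp only [Equiv.Perm.coe_inv, Equiv.apply_symm_apply] at hc
    rw [← hz] at hc
    have ht₁ : Equiv.swap u' v' * Equiv.swap u v ∈ L :=
      hXL (fibre_swap_mem f u u' v v' hfu' hfv' hguv hu'u hv'v hu'all hv'all)
    have hu'z : u' ≠ z := by
      intro h
      apply hm₂
      apply g.injective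
      rw [← hz, ← h]; simp
    have hv'z : v' ≠ z := by
      intro h
      apply hA
      have : m₂ = g⁻¹ v' := by rw [h, hz]; simp
      rw [← this, hfm₂]
    refine ⟨Equiv.swap u' v' * Equiv.swap u' z, ?_,
      Equiv.Perm.isThreeCycle_swap_mul_swap_same hu'v' hu'z hv'z⟩
    have : Equiv.swap u' v' * Equiv.swap u' z =
        (Equiv.swap u' v' * Equiv.swap u v) * (Equiv.swap u v * Equiv.swap u' z) := by
      rw [mul_assoc, ← mul_assoc (Equiv.swap u v), Equiv.swap_mul_self, one_mul]
    rw [this]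
    exact L.mul_mem ht₁ hc

end


theorem coatom_subgroupOf {G : Type*} [Group G] (X A : Subgroup G) (hXA : X ≤ A)
    (hne : ∃ g ∈ A, g ∉ X) (hmax : ∀ L : Subgroup G, X < L → L ≤ A → L = A) :
    IsCoatom (X.subgroupOf A) := by
  refine ⟨?_, ?_⟩
  · intro htop
    obtain ⟨g, hgA, hgX⟩ := hne
    have : (⟨g, hgA⟩ : A) ∈ X.subgroupOf A := by rw [htop]; trivial
    exact hgX (Subgroup.mem_subgroupOf.mp this)
  · intro Y hY
    let L : Subgroup G := Y.map A.subtype
    have hLA : L ≤ A := Subgroup.map_subtype_le Y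
    have hXL : X ≤ L := by
      intro x hx
      exact ⟨⟨x, hXA hx⟩, hY.le (Subgroup.mem_subgroupOf.mpr hx), rfl⟩
    have hne' : X ≠ L := by
      intro h
      apply hY.ne
      ext ⟨y, hy⟩
      rw [Subgroup.mem_subgroupOf, h]
      constructor
      · rintro ⟨⟨z, hz⟩, hzY, hzy⟩
        have : (⟨z, hz⟩ : A) = ⟨y, hy⟩ := Subtype.ext hzy
        rw [← this]; exact hzY
      · intro h'
        exact ⟨⟨y, hy⟩, h', rfl⟩
    have hL := hmax L (lt_of_le_of_ne hXL hne') hLA
    rw [Subgroup.eq_top_iff']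
    rintro ⟨y, hy⟩
    have : y ∈ L := by rw [hL]; exact hy
    obtain ⟨⟨z, hz⟩, hzY, hzy⟩ := this
    have : (⟨z, hz⟩ : A) = ⟨y, hy⟩ := Subtype.ext hzy
    rw [← this]; exact hzY

/-- the statement for four points, in a model -/
abbrev PP (g k : Equiv.Perm (Fin 2 × Fin 2)) : Prop :=
  Equiv.Perm.sign g = 1 → Equiv.Perm.sign k = 1 →
    ¬ (∀ x y : Fin 2 × Fin 2, x.1 = y.1 ↔ (g x).1 = (g y).1) →
    ∃ v : Equiv.Perm (Fin 2 × Fin 2), Equiv.Perm.sign v = 1 ∧
      (∀ x y : Fin 2 × Fin 2, x.1 = y.1 ↔ (v x).1 = (v y).1) ∧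
      (k = v ∨ k = v * g ∨ k = v * g * g)

instance decPP (g k : Equiv.Perm (Fin 2 × Fin 2)) : Decidable (PP g k) := by
  unfold PP; infer_instance

set_option maxRecDepth 100000 in
theorem n4 : ∀ g k : Equiv.Perm (Fin 2 × Fin 2), PP g k := by
  decide +kernel

theorem n4_case {Ω : Type*} [Fintype Ω] [DecidableEq Ω] (f : Ω → Fin 2)
    (e : Ω ≃ Fin 2 × Fin 2) (he : ∀ x, (e x).1 = f x)
    (L : Subgroup (Equiv.Perm Ω)) (hL : Wsub f ⊓ alternatingGroup Ω < L)
    (hLA : L ≤ alternatingGroup Ω) :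
    L = alternatingGroup Ω := by
  apply le_antisymm hLA
  obtain ⟨g, hgL, hgX⟩ := SetLike.exists_of_lt hL
  have hgW : g ∉ Wsub f := fun h => hgX (Subgroup.mem_inf.mpr ⟨h, hLA hgL⟩)
  let ψ : Equiv.Perm Ω ≃* Equiv.Perm (Fin 2 × Fin 2) := e.permCongrHom
  have hψ : ∀ (g : Equiv.Perm Ω) (x : Fin 2 × Fin 2), ψ g x = e (g (e.symm x)) := fun g x => rfl
  have hψs : ∀ g : Equiv.Perm Ω, Equiv.Perm.sign (ψ g) = Equiv.Perm.sign g :=
    fun g => Equiv.Perm.sign_permCongr e g
  have he' : ∀ x y, f x = f y ↔ (e x).1 = (e y).1 := by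
    intro x y; rw [he, he]
  have hψW : ∀ g : Equiv.Perm Ω, g ∈ Wsub f ↔
      ∀ x y : Fin 2 × Fin 2, x.1 = y.1 ↔ (ψ g x).1 = (ψ g y).1 := by
    intro g
    constructor
    · intro hg x y
      rw [hψ, hψ, ← he', ← hg, he']
      simp
    · intro hg x y
      have := hg (e x) (e y)
      rw [hψ, hψ] at this
      simp only [Equiv.symm_apply_apply] at this
      rw [he', this, ← he']
  intro k hk
  obtain ⟨v, hv1, hv2, hv3⟩ := n4 (ψ g) (ψ k)
    (by rw [hψs]; exact Equiv.Perm.mem_alternatingGroup.mp (hLA hgL))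
    (by rw [hψs]; exact Equiv.Perm.mem_alternatingGroup.mp hk)
    (fun h => hgW ((hψW g).mpr h))
  have hvL : ψ.symm v ∈ L := by
    apply hL.le
    refine Subgroup.mem_inf.mpr ⟨(hψW _).mpr ?_, Equiv.Perm.mem_alternatingGroup.mpr ?_⟩
    · rw [MulEquiv.apply_symm_apply]; exact hv2
    · rw [← hψs, MulEquiv.apply_symm_apply]; exact hv1
  rcases hv3 with h | h | h
  · have : k = ψ.symm v := by
      apply ψ.injective; rw [MulEquiv.apply_symm_apply]; exact h
    rw [this]; exact hvL
  · have : k = ψ.symm v * g := by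
      apply ψ.injective; rw [map_mul, MulEquiv.apply_symm_apply]; exact h
    rw [this]; exact L.mul_mem hvL hgL
  · have : k = ψ.symm v * g * g := by
      apply ψ.injective; rw [map_mul, map_mul, MulEquiv.apply_symm_apply]; exact h
    rw [this]; exact L.mul_mem (L.mul_mem hvL hgL) hgL

theorem exists_not_mem {b : ℕ} (s : Finset (Fin b)) (h : s.card < b) : ∃ i, i ∉ s := by
  by_contra hcon
  push Not at hcon
  have : s = Finset.univ := Finset.eq_univ_iff_forall.mpr hcon
  rw [this, Finset.card_univ, Fintype.card_fin] at h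
  exact lt_irrefl _ h

theorem fin2_a : ∀ j : Fin 2, j + 1 ≠ j := by decide

theorem fin2_b : ∀ j j' : Fin 2, j' = j ∨ j' = j + 1 := by decide

/-- Let Ω be a finite set whose size is not 8, and f : Ω → Fin b a labelling with b ≥ 2 whose fibres all have the same size a ≥ 2 (a partition into b blocks of size a). Then the even permutations preserving the partition — the intersection of the imprimitive wreath product S_a ≀ S_b with the alternating group — form a maximal subgroup of the alternating group on Ω. -/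
theorem result {Ω : Type*} [Fintype Ω] [DecidableEq Ω] (h8 : Fintype.card Ω ≠ 8) (a b : ℕ) (ha : 2 ≤ a) (hb : 2 ≤ b)
    (f : Ω → Fin b) (hf : ∀ i : Fin b, Nat.card {x : Ω // f x = i} = a) :
    IsCoatom ((Subgroup.closure {g : Equiv.Perm Ω | ∀ x y : Ω, f x = f y ↔ f (g x) = f (g y)} ⊓ alternatingGroup Ω).subgroupOf (alternatingGroup Ω)) := by
  classical
  have hcl : Subgroup.closure {g : Equiv.Perm Ω | ∀ x y : Ω, f x = f y ↔ f (g x) = f (g y)} =
      Wsub f := Subgroup.closure_eq (Wsub f)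
  rw [hcl]
  let e : Ω ≃ Fin b × Fin a :=
    (Equiv.sigmaFiberEquiv f).symm.trans
      ((Equiv.sigmaCongrRight (fun i => Finite.equivFinOfCardEq (hf i))).trans
        (Equiv.sigmaEquivProd (Fin b) (Fin a)))
  have he : ∀ x, (e x).1 = f x := fun x => rfl
  have hfe : ∀ (i : Fin b) (j : Fin a), f (e.symm (i, j)) = i := by
    intro i j
    rw [← he]; simp
  have lift : ∀ σ : Equiv.Perm (Fin b), ∃ g : Equiv.Perm Ω,
      (∀ z, f (g z) = σ (f z)) ∧ (∀ z, σ (f z) = f z → g z = z) := by
    intro σ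
    refine ⟨e.trans ((Equiv.prodCongr σ (Equiv.refl _)).trans e.symm), ?_, ?_⟩
    · intro z
      rw [← he, ← he]
      simp
    · intro z hz
      simp only [Equiv.trans_apply]
      rw [Equiv.symm_apply_eq]
      ext
      · simp [he, hz]
      · rfl
  have mate : ∀ x : Ω, ∃ x', x' ≠ x ∧ f x' = f x := by
    intro x
    have : ∃ j : Fin a, j ≠ (e x).2 := by
      have : Nontrivial (Fin a) := Fin.nontrivial_iff_two_le.mpr ha
      exact exists_ne _
    obtain ⟨j, hj⟩ := this
    refine ⟨e.symm ((e x).1, j), ?_, ?_⟩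
    · intro h
      apply hj
      have := congrArg e h
      simp at this
      exact (congrArg Prod.snd this)
    · rw [hfe, he]
  have other : ∀ x : Ω, ∃ y, f y ≠ f x := by
    intro x
    have : Nontrivial (Fin b) := Fin.nontrivial_iff_two_le.mpr hb
    obtain ⟨i, hi⟩ := exists_ne (f x)
    exact ⟨e.symm (i, (e x).2), by rw [hfe]; exact hi⟩
  have EL : ∀ (σ : Equiv.Perm (Fin b)) (i : Fin b), ∃ g : Equiv.Perm Ω,
      Equiv.Perm.sign g = 1 ∧
      (∀ z, f (g z) = σ (f z)) ∧ (∀ z, σ (f z) = f z → f z ≠ i → g z = z) := by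
    intro σ i
    obtain ⟨g₀, h1, h2⟩ := lift σ
    rcases Int.units_eq_one_or (Equiv.Perm.sign g₀) with hs | hs
    · exact ⟨g₀, hs, h1, fun z hz _ => h2 z hz⟩
    · obtain ⟨s, hs0⟩ : ∃ s : Ω, s = e.symm (i, ⟨0, by omega⟩) := ⟨_, rfl⟩
      obtain ⟨s', hs0'⟩ : ∃ s' : Ω, s' = e.symm (i, ⟨1, by omega⟩) := ⟨_, rfl⟩
      have hss' : s ≠ s' := by
        intro h
        rw [hs0, hs0'] at h
        have := congrArg Prod.snd (e.symm.injective h)
        simp at this
      have hfs : f s = i := by rw [hs0, hfe]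
      have hfs' : f s' = i := by rw [hs0', hfe]
      refine ⟨g₀ * Equiv.swap s s', ?_, ?_, ?_⟩
      · rw [map_mul, hs, Equiv.Perm.sign_swap hss']; rfl
      · intro z
        rw [Equiv.Perm.mul_apply, h1, fswap f s s' (hfs.trans hfs'.symm)]
      · intro z hz hzi
        have h3 : z ≠ s := fun h => hzi (by rw [h, hfs])
        have h4 : z ≠ s' := fun h => hzi (by rw [h, hfs'])
        rw [Equiv.Perm.mul_apply, Equiv.swap_apply_of_ne_of_ne h3 h4]
        exact h2 z hz
  have hthree : 3 ≤ a → ∀ y : Ω, ∃ s s', s ≠ s' ∧ s ≠ y ∧ s' ≠ y ∧ f s = f y ∧ f s' = f y := by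
    intro ha3 y
    have hc : 1 < (Finset.univ.erase (e y).2).card := by
      rw [Finset.card_erase_of_mem (Finset.mem_univ _), Finset.card_univ, Fintype.card_fin]
      omega
    obtain ⟨j₁, hj₁, j₂, hj₂, hj₁₂⟩ := Finset.one_lt_card.mp hc
    have hj₁' : j₁ ≠ (e y).2 := (Finset.mem_erase.mp hj₁).1
    have hj₂' : j₂ ≠ (e y).2 := (Finset.mem_erase.mp hj₂).1
    refine ⟨e.symm ((e y).1, j₁), e.symm ((e y).1, j₂), ?_, ?_, ?_, ?_, ?_⟩
    · intro h
      exact hj₁₂ (congrArg Prod.snd (e.symm.injective h))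
    · intro h
      apply hj₁'
      have := congrArg e h
      simp at this
      exact (congrArg Prod.snd this)
    · intro h
      apply hj₂'
      have := congrArg e h
      simp at this
      exact (congrArg Prod.snd this)
    · rw [hfe, he]
    · rw [hfe, he]
  have hthreeb : 3 ≤ b → ∀ x y : Ω, ∃ z, f z ≠ f x ∧ f z ≠ f y := by
    intro hb3 x y
    obtain ⟨i, hi⟩ := exists_not_mem ({f x, f y} : Finset (Fin b))
      (lt_of_le_of_lt Finset.card_le_two (by omega))
    simp only [Finset.mem_insert, Finset.mem_singleton, not_or] at hi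
    exact ⟨e.symm (i, ⟨0, by omega⟩), by rw [hfe]; exact hi.1, by rw [hfe]; exact hi.2⟩
  have hcard : Fintype.card Ω = b * a := by
    rw [Fintype.card_congr e, Fintype.card_prod, Fintype.card_fin, Fintype.card_fin]
  apply coatom_subgroupOf _ _ inf_le_right
  · obtain ⟨x⟩ : Nonempty Ω := ⟨e.symm (⟨0, by omega⟩, ⟨0, by omega⟩)⟩
    obtain ⟨x', hx', hfx'⟩ := mate x
    obtain ⟨y, hy⟩ := other x
    have hxy : x ≠ y := fun h => hy (by rw [h])
    have hx'y : x' ≠ y := fun h => hy (by rw [← h, hfx'])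
    refine ⟨Equiv.swap x x' * Equiv.swap x y, ?_, ?_⟩
    · rw [Equiv.Perm.mem_alternatingGroup, map_mul, Equiv.Perm.sign_swap hx'.symm,
        Equiv.Perm.sign_swap hxy]
      rfl
    · intro h
      have h1 := ((Subgroup.mem_inf.mp h).1 x x').mp hfx'.symm
      simp only [Equiv.Perm.mul_apply] at h1
      rw [Equiv.swap_apply_left, Equiv.swap_apply_of_ne_of_ne hxy.symm hx'y.symm,
        Equiv.swap_apply_of_ne_of_ne hx' hx'y, Equiv.swap_apply_right] at h1
      exact hy h1
  · intro L hL hLA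
    by_cases h3 : 3 ≤ a ∨ 3 ≤ b
    · apply le_antisymm hLA
      have h3' : (∀ y : Ω, ∃ s s', s ≠ s' ∧ s ≠ y ∧ s' ≠ y ∧ f s = f y ∧ f s' = f y) ∨
          (∀ x y : Ω, ∃ z, f z ≠ f x ∧ f z ≠ f y) := h3.imp hthree hthreeb
      have hprim := prim f mate other EL h3' L hL hLA
      obtain ⟨c, hcL, hc⟩ : ∃ c ∈ L, c.IsThreeCycle := by
        by_cases ha3 : 3 ≤ a
        · obtain ⟨x⟩ : Nonempty Ω := ⟨e.symm (⟨0, by omega⟩, ⟨0, by omega⟩)⟩
          obtain ⟨s, s', hss', hsx, hs'x, hfs, hfs'⟩ := hthree ha3 x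
          exact ⟨Equiv.swap x s * Equiv.swap x s',
            hL.le (dt_mem f x s x s' hfs.symm hfs'.symm hsx.symm hs'x.symm),
            Equiv.Perm.isThreeCycle_swap_mul_swap_same hsx.symm hs'x.symm hss'⟩
        · have ha2 : a = 2 := by omega
          subst ha2
          have hb3 : 3 ≤ b := by omega
          have mate2 : ∀ x : Ω, ∃ x', x' ≠ x ∧ f x' = f x ∧
              ∀ z, f z = f x → z = x ∨ z = x' := by
            intro x
            refine ⟨e.symm ((e x).1, (e x).2 + 1), ?_, ?_, ?_⟩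
            · intro h
              have := congrArg e h
              simp at this
              exact fin2_a _ (congrArg Prod.snd this)
            · rw [hfe, he]
            · intro z hz
              rcases fin2_b (e x).2 (e z).2 with h | h
              · left
                apply e.injective
                exact Prod.ext (by rw [he, he, hz]) h
              · right
                rw [Equiv.eq_symm_apply]
                exact Prod.ext (by rw [he, he, hz]) h
          have hb5 : ∀ x y z w : Ω, f x ≠ f y → f x ≠ f z → f x ≠ f w → f y ≠ f z →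
              f y ≠ f w → f z ≠ f w → ∃ t, f t ≠ f x ∧ f t ≠ f y ∧ f t ≠ f z ∧ f t ≠ f w := by
            intro x y z w h1 h2 h3 h4 h5 h6
            have hc4 : ({f x, f y, f z, f w} : Finset (Fin b)).card = 4 := by
              rw [Finset.card_insert_of_notMem (by simp [h1, h2, h3]),
                Finset.card_insert_of_notMem (by simp [h4, h5]),
                Finset.card_insert_of_notMem (by simp [h6]), Finset.card_singleton]
            have hb4 : 4 ≤ b := by
              have := Finset.card_le_univ ({f x, f y, f z, f w} : Finset (Fin b))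
              rw [hc4, Fintype.card_fin] at this
              exact this
            have hb5 : 5 ≤ b := by
              rcases Nat.lt_or_ge 4 b with h | h
              · exact h
              · exfalso
                apply h8
                rw [hcard]
                have : b = 4 := le_antisymm h hb4
                rw [this]
            obtain ⟨i, hi⟩ := exists_not_mem ({f x, f y, f z, f w} : Finset (Fin b))
              (by rw [hc4]; omega)
            simp only [Finset.mem_insert, Finset.mem_singleton, not_or] at hi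
            exact ⟨e.symm (i, ⟨0, by omega⟩), by rw [hfe]; exact hi.1, by rw [hfe]; exact hi.2.1,
              by rw [hfe]; exact hi.2.2.1, by rw [hfe]; exact hi.2.2.2⟩
          exact three_cycle_two f mate2 (hthreeb hb3) hb5 L hL hLA
      exact Equiv.Perm.alternatingGroup_le_of_isPreprimitive_of_isThreeCycle_mem hprim hc hcL
    · have ha2 : a = 2 := by omega
      have hb2 : b = 2 := by omega
      subst ha2; subst hb2
      exact n4_case f e he L hL hLA

end Cfsg.Agent.S5909
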