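import Mathlib
import Cfsg.Statements.S5910

set_option autoImplicit false
open Cfsg

namespace Cfsg.Agent.S5910

abbrev Q : Type := ZMod 2 × ZMod 2
abbrev Om : Type := Q × ZMod 2

theorem univ_Q : ∀ i j k : Q, i ≠ j → i ≠ k → j ≠ k →
    (Finset.univ : Finset Q) = {i, j, k, i + j + k} := by decide

theorem ne_Q : ∀ i j k : Q, i ≠ j → i ≠ k → j ≠ k →
    i ≠ i + j + k ∧ j ≠ i + j + k ∧ k ≠ i + j + k := by decide

theorem add_Q : ∀ i k : Q, i + i + k = k ∧ i + k + i = k ∧ k + i + i = k := by decide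

theorem tern {A : Type*} [AddCommGroup A] (hA : ∀ a : A, a + a = 0) (h : Q → A)
    (hsum : ∑ q, h q = 0) (i j k : Q) : h (i + j + k) = h i + h j + h k := by
  by_cases hij : i = j
  · subst hij
    rw [(add_Q i k).1, hA, zero_add]
  by_cases hik : i = k
  · subst hik
    rw [(add_Q i j).2.1, add_right_comm, hA, zero_add]
  by_cases hjk : j = k
  · subst hjk
    rw [(add_Q j i).2.2, add_assoc, hA, add_zero]
  obtain ⟨h1, h2, h3⟩ := ne_Q i j k hij hik hjk
  rw [univ_Q i j k hij hik hjk, Finset.sum_insert (by simp [hij, hik, h1]),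
    Finset.sum_insert (by simp [hjk, h2]), Finset.sum_insert (by simp [h3]),
    Finset.sum_singleton] at hsum
  have h4 : h (i + j + k) = -(h i + h j + h k) := by
    rw [eq_neg_iff_add_eq_zero, ← hsum]; abel
  rw [h4, neg_eq_iff_add_eq_zero.mpr (hA _)]

/-- the affine group of the model -/
def Lm : Subgroup (Equiv.Perm Om) where
  carrier := {g | ∀ x y z : Om, g (x + y + z) = g x + g y + g z}
  one_mem' := by intro x y z; rfl
  mul_mem' := by
    intro g h hg hh x y z
    simp only [Equiv.Perm.mul_apply]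
    rw [hh, hg]
  inv_mem' := by
    intro g hg x y z
    apply g.injective
    rw [hg]
    simp

theorem zmod2_cases : ∀ a : ZMod 2, a = 0 ∨ a = 1 := by decide

theorem zmod2_ne : ∀ a b : ZMod 2, a ≠ b → a = b + 1 := by decide

theorem sum_Q_id : ∑ q : Q, q = 0 := by decide

theorem sign_addLeft : ∀ a : ZMod 2, Equiv.Perm.sign (Equiv.addLeft a) = if a = 0 then 1 else -1 := by
  intro a
  rcases zmod2_cases a with rfl | rfl
  · have : Equiv.addLeft (0 : ZMod 2) = 1 := by ext x; simp
    rw [this]; simp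
  · have : Equiv.addLeft (1 : ZMod 2) = Equiv.swap 0 1 := by
      ext x
      revert x
      decide
    rw [this, Equiv.Perm.sign_swap (by decide)]
    simp

theorem prod_Q (F : Q → ℤˣ) : ∏ q, F q = F (0, 0) * F (0, 1) * F (1, 0) * F (1, 1) := by
  rw [Fintype.prod_prod_type]
  change ∏ x : Fin 2, ∏ y : Fin 2, F (x, y) = _
  simp only [Fin.prod_univ_two, mul_assoc]
  rfl

theorem sum_Q (F : Q → ZMod 2) : ∑ q, F q = F (0, 0) + F (0, 1) + F (1, 0) + F (1, 1) := by
  rw [Fintype.sum_prod_type]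
  change ∑ x : Fin 2, ∑ y : Fin 2, F (x, y) = _
  simp only [Fin.sum_univ_two, add_assoc]
  rfl

theorem sgn_sum : ∀ a b c d : ZMod 2,
    (if a = 0 then (1 : ℤˣ) else -1) * (if b = 0 then 1 else -1) * (if c = 0 then 1 else -1) *
      (if d = 0 then 1 else -1) = 1 → a + b + c + d = 0 := by decide

theorem mem_Lm (g : Equiv.Perm Om) (hg : ∀ x y : Om, x.1 = y.1 ↔ (g x).1 = (g y).1)
    (hs : Equiv.Perm.sign g = 1) : g ∈ Lm := by
  have hc : ∀ x : Om, g (x + (0, 1)) = g x + (0, 1) := by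
    intro x
    have h1 : (g (x + (0, 1))).1 = (g x).1 := (hg (x + (0, 1)) x).mp (by simp)
    have h2 : g (x + (0, 1)) ≠ g x := by
      intro h
      have h' := g.injective h
      have h'' := congrArg Prod.snd h'
      simp at h''
    have h3 : (g (x + (0, 1))).2 ≠ (g x).2 := fun h => h2 (Prod.ext h1 h)
    exact Prod.ext (by simp [h1]) (by simp [zmod2_ne _ _ h3])
  let gb : Q → Q := fun i => (g (i, 0)).1
  let δ : Q → ZMod 2 := fun i => (g (i, 0)).2
  have hform : ∀ (i : Q) (ε : ZMod 2), g (i, ε) = (gb i, δ i + ε) := by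
    intro i ε
    rcases zmod2_cases ε with rfl | rfl
    · exact Prod.ext rfl (by simp [δ])
    · have : ((i, 1) : Om) = (i, 0) + (0, 1) := by simp
      rw [this, hc]
      exact Prod.ext (by simp [gb]) (by simp [δ])
  have hinj : Function.Injective gb := by
    intro i j hij
    exact (hg (i, 0) (j, 0)).mpr hij
  have hbij : Function.Bijective gb := Finite.injective_iff_bijective.mp hinj
  let π : Equiv.Perm Q := Equiv.ofBijective gb hbij
  have hsumgb : ∑ q, gb q = 0 := by
    have := Equiv.sum_comp π (fun q => q)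
    rw [sum_Q_id] at this
    exact this
  -- the sign
  have hgAB : g = (Equiv.prodCongrLeft fun _ : ZMod 2 => π) *
      (Equiv.prodCongrRight fun i : Q => Equiv.addLeft (δ i)) := by
    ext1 ⟨i, ε⟩
    rw [hform]
    rfl
  have hsumδ : ∑ q, δ q = 0 := by
    rw [hgAB, map_mul, Equiv.Perm.sign_prodCongrLeft, Equiv.Perm.sign_prodCongrRight] at hs
    have h1 : ∏ _k : ZMod 2, Equiv.Perm.sign π = 1 := by
      rw [Finset.prod_const]
      simp
    rw [h1, one_mul, prod_Q] at hs
    simp only [sign_addLeft] at hs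
    rw [sum_Q]
    exact sgn_sum _ _ _ _ hs
  have hQ : ∀ a : Q, a + a = 0 := by decide
  have hZ : ∀ a : ZMod 2, a + a = 0 := by decide
  rintro ⟨i, ε⟩ ⟨j, ζ⟩ ⟨k, η⟩
  change g (i + j + k, ε + ζ + η) = g (i, ε) + g (j, ζ) + g (k, η)
  rw [hform, hform, hform, hform, tern hQ gb hsumgb, tern hZ δ hsumδ]
  exact Prod.ext rfl (by simp only [Prod.snd_add]; abel)


/-- a linear map of order three not preserving the partition -/
def g₀ : Equiv.Perm Om where
  toFun x := ((x.2, x.1.1), x.1.2)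
  invFun x := ((x.1.2, x.2), x.1.1)
  left_inv x := rfl
  right_inv x := rfl

theorem g₀_mem : g₀ ∈ Lm := by
  intro x y z
  rfl

theorem g₀_sign : Equiv.Perm.sign g₀ = 1 := by
  have h3 : g₀ ^ 3 = 1 := by
    ext1 x
    rfl
  have h4 : Equiv.Perm.sign g₀ ^ 3 = 1 := by rw [← map_pow, h3, map_one]
  rcases Int.units_eq_one_or (Equiv.Perm.sign g₀) with h | h
  · exact h
  · rw [h] at h4
    exact absurd h4 (by decide)

theorem g₀_not : ¬ ∀ x y : Om, x.1 = y.1 ↔ (g₀ x).1 = (g₀ y).1 := by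
  intro h
  have h1 := (h ((0, 0), 0) ((0, 0), 1)).mp rfl
  exact absurd h1 (by decide)

/-- an even permutation which is not affine -/
def g₁ : Equiv.Perm Om :=
  Equiv.swap ((1, 0), 0) ((0, 1), 0) * Equiv.swap ((0, 1), 0) ((0, 0), 1)

theorem g₁_sign : Equiv.Perm.sign g₁ = 1 := by
  unfold g₁
  rw [map_mul, Equiv.Perm.sign_swap (by decide), Equiv.Perm.sign_swap (by decide)]
  rfl

theorem g₁_not : g₁ ∉ Lm := by
  intro h
  have h1 := h ((1, 0), 0) ((0, 1), 0) 0
  revert h1
  unfold g₁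
  decide

/-- Let Ω be a set with 8 elements and f : Ω → Fin 4 a labelling whose four fibres all have size 2 (a partition of the 8 points into 4 pairs). Then the group of even permutations preserving this partition, (S₂ ≀ S₄) ∩ A₈, is not a maximal subgroup of the alternating group A₈ (it lies in a subgroup isomorphic to the affine group AGL₃(2)). -/
theorem result {Ω : Type*} [Fintype Ω] [DecidableEq Ω] (h8 : Fintype.card Ω = 8)
    (f : Ω → Fin 4) (hf : ∀ i : Fin 4, Nat.card {x : Ω // f x = i} = 2) :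
    ¬ IsCoatom ((Subgroup.closure {g : Equiv.Perm Ω | ∀ x y : Ω, f x = f y ↔ f (g x) = f (g y)} ⊓ alternatingGroup Ω).subgroupOf (alternatingGroup Ω)) := by
  classical
  let W : Subgroup (Equiv.Perm Ω) :=
    { carrier := {g : Equiv.Perm Ω | ∀ x y : Ω, f x = f y ↔ f (g x) = f (g y)}
      one_mem' := by intro x y; simp
      mul_mem' := by
        intro g h hg hh x y
        rw [hh x y, hg (h x) (h y)]
        simp [Equiv.Perm.mul_apply]
      inv_mem' := by
        intro g hg x y
        have := hg (g⁻¹ x) (g⁻¹ y)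
        simp at this
        exact this.symm }
  have hcl : Subgroup.closure {g : Equiv.Perm Ω | ∀ x y : Ω, f x = f y ↔ f (g x) = f (g y)} = W :=
    Subgroup.closure_eq W
  rw [hcl]
  let κ : Fin 4 ≃ Q := (finProdFinEquiv (m := 2) (n := 2)).symm
  let e : Ω ≃ Om :=
    ((Equiv.sigmaFiberEquiv f).symm.trans
      ((Equiv.sigmaCongrRight (fun i => Finite.equivFinOfCardEq (hf i))).trans
        (Equiv.sigmaEquivProd (Fin 4) (Fin 2)))).trans (Equiv.prodCongr κ (Equiv.refl _))
  have he : ∀ x y, f x = f y ↔ (e x).1 = (e y).1 := by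
    intro x y
    change f x = f y ↔ κ (f x) = κ (f y)
    exact κ.injective.eq_iff.symm
  let ψ : Equiv.Perm Ω ≃* Equiv.Perm Om := e.permCongrHom
  have hψ : ∀ (g : Equiv.Perm Ω) (x : Om), ψ g x = e (g (e.symm x)) := fun g x => rfl
  have hψs : ∀ g : Equiv.Perm Ω, Equiv.Perm.sign (ψ g) = Equiv.Perm.sign g :=
    fun g => Equiv.Perm.sign_permCongr e g
  have hψW : ∀ g : Equiv.Perm Ω, g ∈ W ↔ ∀ x y : Om, x.1 = y.1 ↔ (ψ g x).1 = (ψ g y).1 := by
    intro g
    constructor
    · intro hg x y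
      rw [hψ, hψ, ← he, ← hg, he]
      simp
    · intro hg x y
      have := hg (e x) (e y)
      rw [hψ, hψ] at this
      simp only [Equiv.symm_apply_apply] at this
      rw [he, this, ← he]
  let L : Subgroup (Equiv.Perm Ω) := Lm.comap ψ.toMonoidHom
  intro hco
  have hle : (W ⊓ alternatingGroup Ω).subgroupOf (alternatingGroup Ω) ≤
      L.subgroupOf (alternatingGroup Ω) := by
    rintro ⟨g, hgA⟩ hg
    have hg' : g ∈ W ⊓ alternatingGroup Ω := Subgroup.mem_subgroupOf.mp hg
    change ψ g ∈ Lm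
    exact mem_Lm _ ((hψW g).mp hg'.1)
      (by rw [hψs]; exact Equiv.Perm.mem_alternatingGroup.mp hgA)
  have hg₀A : ψ.symm g₀ ∈ alternatingGroup Ω := by
    rw [Equiv.Perm.mem_alternatingGroup, ← hψs, MulEquiv.apply_symm_apply]
    exact g₀_sign
  have hlt : (W ⊓ alternatingGroup Ω).subgroupOf (alternatingGroup Ω) <
      L.subgroupOf (alternatingGroup Ω) := by
    refine lt_of_le_of_ne hle ?_
    intro heq
    have h1 : (⟨ψ.symm g₀, hg₀A⟩ : alternatingGroup Ω) ∈ L.subgroupOf (alternatingGroup Ω) := by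
      change ψ (ψ.symm g₀) ∈ Lm
      rw [MulEquiv.apply_symm_apply]
      exact g₀_mem
    rw [← heq] at h1
    have h2 : ψ.symm g₀ ∈ W := (Subgroup.mem_subgroupOf.mp h1).1
    have h3 := (hψW _).mp h2
    rw [MulEquiv.apply_symm_apply] at h3
    exact g₀_not h3
  have htop := hco.2 _ hlt
  have hg₁A : ψ.symm g₁ ∈ alternatingGroup Ω := by
    rw [Equiv.Perm.mem_alternatingGroup, ← hψs, MulEquiv.apply_symm_apply]
    exact g₁_sign
  have h1 : (⟨ψ.symm g₁, hg₁A⟩ : alternatingGroup Ω) ∈ L.subgroupOf (alternatingGroup Ω) := by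
    rw [htop]; trivial
  have h2 : ψ (ψ.symm g₁) ∈ Lm := h1
  rw [MulEquiv.apply_symm_apply] at h2
  exact g₁_not h2

end Cfsg.Agent.S5910
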