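import Cfsg.Statements.S5911
import Mathlib

set_option autoImplicit false
open Cfsg
open Nat Equiv Equiv.Perm

namespace Cfsg.Agent.S5911

theorem L1 (j m : ℕ) : (j + 1)! * 2 ^ (m + 1) * (m + 2)! < (2 * m + j + 3)! := by
  induction m with
  | zero =>
    have h1 : (j + 3)! = (j + 3) * ((j + 2) * (j + 1)!) := by
      rw [Nat.factorial_succ (j + 2), Nat.factorial_succ (j + 1)]
    simp only [Nat.mul_zero, Nat.zero_add, pow_one, Nat.reduceAdd]
    rw [h1]
    have hpos : 0 < (j + 1)! := Nat.factorial_pos _
    have h2 : (2 : ℕ)! = 2 := rfl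
    rw [h2]
    nlinarith [Nat.zero_le j, hpos, Nat.mul_pos (Nat.succ_pos j) hpos]
  | succ m ih =>
    have h1 : (2 * (m + 1) + j + 3)! = (2 * m + j + 5) * ((2 * m + j + 4) * (2 * m + j + 3)!) := by
      have : 2 * (m + 1) + j + 3 = (2 * m + j + 4) + 1 := by ring
      rw [this, Nat.factorial_succ (2 * m + j + 4), Nat.factorial_succ (2 * m + j + 3)]
    have h2 : (m + 1 + 2)! = (m + 3) * (m + 2)! := by
      rw [show m + 1 + 2 = (m + 2) + 1 by ring, Nat.factorial_succ]
    rw [h1, h2, pow_succ]
    have hpos : 0 < (2 * m + j + 3)! := Nat.factorial_pos _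
    have h3 : 2 * (m + 3) ≤ (2 * m + j + 5) * (2 * m + j + 4) := by nlinarith [Nat.zero_le j, Nat.zero_le m]
    calc (j + 1)! * (2 ^ (m + 1) * 2) * ((m + 3) * (m + 2)!)
        = (2 * (m + 3)) * ((j + 1)! * 2 ^ (m + 1) * (m + 2)!) := by ring
      _ < (2 * (m + 3)) * (2 * m + j + 3)! := Nat.mul_lt_mul_of_pos_left ih (by positivity)
      _ ≤ ((2 * m + j + 5) * (2 * m + j + 4)) * (2 * m + j + 3)! := Nat.mul_le_mul_right _ h3
      _ = (2 * m + j + 5) * ((2 * m + j + 4) * (2 * m + j + 3)!) := by ring

theorem L2 (m : ℕ) : 2 ^ (m + 3) * (m + 4)! < (2 * m + 6)! := by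
  induction m with
  | zero => decide
  | succ m ih =>
    have h1 : (2 * (m + 1) + 6)! = (2 * m + 8) * ((2 * m + 7) * (2 * m + 6)!) := by
      have : 2 * (m + 1) + 6 = (2 * m + 7) + 1 := by ring
      rw [this, Nat.factorial_succ (2 * m + 7), Nat.factorial_succ (2 * m + 6)]
    have h2 : (m + 1 + 4)! = (m + 5) * (m + 4)! := by
      rw [show m + 1 + 4 = (m + 4) + 1 by ring, Nat.factorial_succ]
    rw [h1, h2, show m + 1 + 3 = (m + 3) + 1 by ring, pow_succ]
    have h3 : 2 * (m + 5) ≤ (2 * m + 8) * (2 * m + 7) := by nlinarith [Nat.zero_le m]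
    calc 2 ^ (m + 3) * 2 * ((m + 5) * (m + 4)!)
        = (2 * (m + 5)) * (2 ^ (m + 3) * (m + 4)!) := by ring
      _ < (2 * (m + 5)) * (2 * m + 6)! := Nat.mul_lt_mul_of_pos_left ih (by positivity)
      _ ≤ ((2 * m + 8) * (2 * m + 7)) * (2 * m + 6)! := Nat.mul_le_mul_right _ h3
      _ = (2 * m + 8) * ((2 * m + 7) * (2 * m + 6)!) := by ring

theorem arith (n k : ℕ) (hk : 1 ≤ k) (hkn : 2 * k ≤ n) (hn : n ≠ 6)
    (h : (n - 2 * k)! * 2 ^ k * k ! = (n - 2)! * 2) : k = 1 := by
  by_contra hk1
  obtain ⟨m, rfl⟩ : ∃ m, k = m + 2 := ⟨k - 2, by omega⟩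
  obtain ⟨j, rfl⟩ : ∃ j, n = 2 * (m + 2) + j := ⟨n - 2 * (m + 2), by omega⟩
  have e1 : 2 * (m + 2) + j - 2 * (m + 2) = j := by omega
  have e2 : 2 * (m + 2) + j - 2 = 2 * m + j + 2 := by omega
  rw [e1, e2] at h
  have h' : j ! * 2 ^ (m + 1) * (m + 2)! = (2 * m + j + 2)! := by
    have : j ! * 2 ^ (m + 2) * (m + 2)! = (j ! * 2 ^ (m + 1) * (m + 2)!) * 2 := by ring
    rw [this] at h
    exact Nat.eq_of_mul_eq_mul_right (by norm_num) h
  rcases j with _ | j
  · rcases m with _ | _ | m
    · revert h'; decide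
    · exact hn (by norm_num)
    · have := L2 m
      simp only [Nat.factorial_zero, one_mul, Nat.add_zero] at h'
      have e3 : 2 * (m + 1 + 1) + 2 = 2 * m + 6 := by ring
      have e4 : m + 1 + 1 + 1 = m + 3 := by ring
      have e5 : m + 1 + 1 + 2 = m + 4 := by ring
      rw [e3, e4, e5] at h'
      omega
  · have := L1 j m
    have e3 : 2 * m + (j + 1) + 2 = 2 * m + j + 3 := by ring
    rw [e3] at h'
    omega


section main
variable {Ω : Type*} [Fintype Ω] [DecidableEq Ω]

/-- If all swaps avoiding `x` lie in `H`, then `H` contains the stabilizer of `x`. -/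
theorem stabilizer_le_of_swaps (H : Subgroup (Perm Ω)) (x : Ω)
    (h : ∀ u v : Ω, u ≠ x → v ≠ x → u ≠ v → swap u v ∈ H) :
    MulAction.stabilizer (Perm Ω) x ≤ H := by
  intro g hg
  have hgx : g x = x := MulAction.mem_stabilizer_iff.mp hg
  have h1 : ∀ y, (g y ≠ x) ↔ (y ≠ x) := by
    intro y
    constructor
    · rintro hy rfl; exact hy hgx
    · intro hy hgy
      apply hy
      apply g.injective
      rw [hgy, hgx]
  have h2 : ofSubtype (subtypePerm g h1) = g :=
    ofSubtype_subtypePerm (p := fun y => y ≠ x) h1 (fun y hy => by rintro rfl; exact hy hgx)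
  rw [← h2]
  have key : ∀ σ : Perm {y // y ≠ x}, ofSubtype σ ∈ H := by
    intro σ
    have hσ : σ ∈ Subgroup.closure {τ : Perm {y // y ≠ x} | τ.IsSwap} := by
      rw [closure_isSwap]; trivial
    induction hσ using Subgroup.closure_induction with
    | mem τ hτ =>
      obtain ⟨u, v, huv, rfl⟩ := hτ
      rw [ofSubtype_swap_eq]
      exact h u v u.2 v.2 (fun huv' => huv (Subtype.ext huv'))
    | one => simp
    | mul a b _ _ ha hb => rw [map_mul]; exact H.mul_mem ha hb
    | inv a _ ha => rw [map_inv]; exact H.inv_mem ha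
  exact key _

theorem swap_conj_mem (H : Subgroup (Perm Ω)) {a u v : Ω} (hau : a ≠ u) (hav : a ≠ v)
    (h1 : swap a u ∈ H) (h2 : swap a v ∈ H) : swap u v ∈ H := by
  by_cases huv : u = v
  · subst huv; rw [swap_self]; exact H.one_mem
  have h3 : swap a v * swap u a * swap a v = swap v u := swap_mul_swap_mul_swap (Ne.symm hau) huv
  rw [swap_comm v u, swap_comm u a] at h3
  rw [← h3]
  exact H.mul_mem (H.mul_mem h2 h1) h2

open Classical in
/-- The combinatorial step. -/
theorem exists_point (H : Subgroup (Perm Ω)) (hne : H ≠ ⊤) (a : Ω)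
    (hcount : (Finset.univ.filter (fun t : Perm Ω => t.IsSwap ∧ t ∉ H)).card ≤ Fintype.card Ω - 1) :
    ∃ x : Ω, ∀ u v : Ω, u ≠ x → v ≠ x → u ≠ v → swap u v ∈ H := by
  classical
  set N := Finset.univ.filter (fun t : Perm Ω => t.IsSwap ∧ t ∉ H) with hN
  set A := (Finset.univ.erase a).filter (fun b => swap a b ∉ H) with hA
  set B := (Finset.univ.erase a).filter (fun b => swap a b ∈ H) with hB
  have hAB : B.card + A.card = Fintype.card Ω - 1 := by
    rw [hA, hB, Finset.card_filter_add_card_filter_not, Finset.card_erase_of_mem (Finset.mem_univ a),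
      Finset.card_univ]
  have memA : ∀ b, b ∈ A ↔ b ≠ a ∧ swap a b ∉ H := by
    intro b; simp [hA]
  have memB : ∀ b, b ∈ B ↔ b ≠ a ∧ swap a b ∈ H := by
    intro b; simp [hB]
  -- the injection
  have hinj : ((insert a B) ×ˢ A).card ≤ N.card := by
    apply Finset.card_le_card_of_injOn (fun p => swap p.1 p.2)
    · rintro ⟨u, v⟩ hp
      simp only [Finset.coe_product, Set.mem_prod, Finset.mem_coe, Finset.mem_insert] at hp
      obtain ⟨hu, hv⟩ := hp
      have hv' := (memA v).mp hv
      simp only [hN, Finset.coe_filter, Finset.mem_univ, true_and, Set.mem_ofPred_eq]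
      rcases hu with rfl | hu
      · exact ⟨⟨u, v, hv'.1.symm, rfl⟩, hv'.2⟩
      · have hu' := (memB u).mp hu
        have huv : u ≠ v := by
          rintro rfl; exact hv'.2 hu'.2
        refine ⟨⟨u, v, huv, rfl⟩, fun hmem => hv'.2 ?_⟩
        have := swap_conj_mem H hu'.1 huv (by rw [swap_comm]; exact hu'.2) hmem
        exact this
    · rintro ⟨u, v⟩ hp ⟨u', v'⟩ hp' heq
      simp only [Finset.coe_product, Set.mem_prod, Finset.mem_coe, Finset.mem_insert] at hp hp'
      obtain ⟨hu, hv⟩ := hp
      obtain ⟨hu', hv'⟩ := hp'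
      have hvA := (memA v).mp hv
      have hv'A := (memA v').mp hv'
      have hnotA : ∀ w, (w = a ∨ w ∈ B) → w ∉ A := by
        rintro w (rfl | hw) hwA
        · exact ((memA w).mp hwA).1 rfl
        · exact ((memA w).mp hwA).2 ((memB w).mp hw).2
      have huv : u ≠ v := fun h => hnotA u hu (h ▸ hv)
      have hu'v' : u' ≠ v' := fun h => hnotA u' hu' (h ▸ hv')
      simp only at heq
      have h1 : swap u' v' u = v := by rw [← heq, swap_apply_left]
      have hcase : u = u' ∨ u = v' := by
        by_contra hcon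
        push Not at hcon
        rw [swap_apply_of_ne_of_ne hcon.1 hcon.2] at h1
        exact huv h1
      rcases hcase with rfl | rfl
      · rw [swap_apply_left] at h1
        rw [h1]
      · exact absurd hv' (hnotA u hu)
  rw [Finset.card_product] at hinj
  -- case analysis
  by_cases hA0 : A.card = 0
  · exfalso
    apply hne
    rw [eq_top_iff, ← closure_isSwap, Subgroup.closure_le]
    rintro t ⟨u, v, huv, rfl⟩
    have hmem : ∀ b, b ≠ a → swap a b ∈ H := by
      intro b hb
      by_contra hcon
      have : b ∈ A := (memA b).mpr ⟨hb, hcon⟩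
      rw [Finset.card_eq_zero] at hA0
      rw [hA0] at this
      exact Finset.notMem_empty _ this
    by_cases hua : u = a
    · subst hua; exact hmem v (Ne.symm huv)
    by_cases hva : v = a
    · subst hva; rw [swap_comm]; exact hmem u huv
    exact swap_conj_mem H (Ne.symm hua) (Ne.symm hva) (hmem u hua) (hmem v hva)
  by_cases hB0 : B.card = 0
  · -- every other point is a non-neighbour of a
    refine ⟨a, fun u v hu hv huv => ?_⟩
    by_contra hcon
    have hAall : ∀ b, b ≠ a → b ∈ A := by
      intro b hb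
      by_contra hbA
      have : b ∈ B := (memB b).mpr ⟨hb, by
        by_contra h'
        exact hbA ((memA b).mpr ⟨hb, h'⟩)⟩
      rw [Finset.card_eq_zero] at hB0
      rw [hB0] at this
      exact Finset.notMem_empty _ this
    have hsub : (A.image (fun w => swap a w)) ⊆ N.erase (swap u v) := by
      intro t ht
      rw [Finset.mem_image] at ht
      obtain ⟨w, hw, rfl⟩ := ht
      have hw' := (memA w).mp hw
      rw [Finset.mem_erase]
      refine ⟨fun heq => ?_, ?_⟩
      · have h1 : swap a w a = swap u v a := by rw [heq]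
        rw [swap_apply_left, swap_apply_of_ne_of_ne (Ne.symm hu) (Ne.symm hv)] at h1
        exact hw'.1 h1
      · simp only [hN, Finset.mem_filter, Finset.mem_univ, true_and]
        exact ⟨⟨a, w, hw'.1.symm, rfl⟩, hw'.2⟩
    have hcardimg : (A.image (fun w => swap a w)).card = A.card := by
      apply Finset.card_image_of_injective
      intro w w' hww'
      have h1 : swap a w a = swap a w' a := by
        simp only at hww'; rw [hww']
      simpa using h1
    have huvN : swap u v ∈ N := by
      simp only [hN, Finset.mem_filter, Finset.mem_univ, true_and]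
      exact ⟨⟨u, v, huv, rfl⟩, hcon⟩
    have := Finset.card_le_card hsub
    rw [hcardimg, Finset.card_erase_of_mem huvN] at this
    have hNpos : 0 < N.card := Finset.card_pos.mpr ⟨_, huvN⟩
    omega
  · -- A has exactly one element
    have hA1 : A.card = 1 := by
      rw [Finset.card_insert_of_notMem (fun h => ((memB a).mp h).1 rfl)] at hinj
      have hBpos : 0 < B.card := Nat.pos_of_ne_zero hB0
      have hApos : 0 < A.card := Nat.pos_of_ne_zero hA0
      by_contra hne1
      have hA2 : 2 ≤ A.card := by omega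
      have h5 : (B.card + 1) * A.card ≤ B.card + A.card := hAB ▸ (hinj.trans hcount)
      have h6 : B.card * 2 ≤ B.card * A.card := Nat.mul_le_mul_left _ hA2
      have h7 : (B.card + 1) * A.card = B.card * A.card + A.card := by ring
      omega
    obtain ⟨x, hx⟩ := Finset.card_eq_one.mp hA1
    have hxA : x ∈ A := by rw [hx]; exact Finset.mem_singleton_self x
    have hmem : ∀ b, b ≠ a → b ≠ x → swap a b ∈ H := by
      intro b hb hbx
      by_contra hcon
      have : b ∈ A := (memA b).mpr ⟨hb, hcon⟩
      rw [hx, Finset.mem_singleton] at this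
      exact hbx this
    refine ⟨x, fun u v hu hv huv => ?_⟩
    by_cases hua : u = a
    · subst hua; exact hmem v (Ne.symm huv) hv
    by_cases hva : v = a
    · subst hva; rw [swap_comm]; exact hmem u huv hu
    exact swap_conj_mem H (Ne.symm hua) (Ne.symm hva) (hmem u hua hu) (hmem v hva hv)

theorem swap_eq_of_moves {X : Type*} [DecidableEq X] (s : Perm X) (hs : s.IsSwap) (x₀ : X)
    (hx : s x₀ ≠ x₀) : s = swap x₀ (s x₀) := by
  obtain ⟨p, q, hpq, rfl⟩ := hs
  by_cases h1 : x₀ = p
  · subst h1; rw [swap_apply_left]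
  by_cases h2 : x₀ = q
  · subst h2; rw [swap_apply_right, swap_comm]
  · exact absurd (swap_apply_of_ne_of_ne h1 h2) hx

open Classical in
theorem count_nonH {X : Type*} [Fintype X] [DecidableEq X] (ψ : Perm Ω →* Perm X)
    (hψ : Function.Injective ψ)
    (hsw : ∀ t : Perm Ω, t.IsSwap → (ψ t).IsSwap) (x₀ : X) (H : Subgroup (Perm Ω))
    (hHx : ∀ g, g ∈ H ↔ ψ g x₀ = x₀) :
    (Finset.univ.filter (fun t : Perm Ω => t.IsSwap ∧ t ∉ H)).card ≤ Fintype.card X - 1 := by
  have h1 : (Finset.univ.filter (fun t : Perm Ω => t.IsSwap ∧ t ∉ H)).card ≤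
      (Finset.univ.erase x₀).card := by
    apply Finset.card_le_card_of_injOn (fun t => ψ t x₀)
    · intro t ht
      simp only [Finset.coe_filter, Finset.mem_univ, true_and, Set.mem_ofPred_eq] at ht
      simp only [Finset.coe_erase, Finset.coe_univ, Set.mem_sdiff, Set.mem_univ,
        Set.mem_singleton_iff, true_and]
      exact fun h => ht.2 ((hHx t).mpr h)
    · intro t ht t' ht' heq
      simp only [Finset.coe_filter, Finset.mem_univ, true_and, Set.mem_ofPred_eq] at ht ht'
      simp only at heq
      apply hψ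
      rw [swap_eq_of_moves (ψ t) (hsw t ht.1) x₀ (fun h => ht.2 ((hHx t).mpr h)),
        swap_eq_of_moves (ψ t') (hsw t' ht'.1) x₀ (fun h => ht'.2 ((hHx t').mpr h)), heq]
  rwa [Finset.card_erase_of_mem (Finset.mem_univ x₀), Finset.card_univ] at h1

theorem swap_to_swap {X : Type*} [Fintype X] [DecidableEq X]
    (hcard : Fintype.card X = Fintype.card Ω) (h6 : Fintype.card Ω ≠ 6)
    (ψ : Perm Ω →* Perm X) (hψ : Function.Injective ψ) (t : Perm Ω) (ht : t.IsSwap) :
    (ψ t).IsSwap := by
  have hbij : Function.Bijective ψ := by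
    rw [Fintype.bijective_iff_injective_and_card]
    exact ⟨hψ, by rw [Fintype.card_perm, Fintype.card_perm, hcard]⟩
  have ht2 : t ^ 2 = 1 := by
    obtain ⟨a, b, -, rfl⟩ := ht
    rw [pow_two, swap_mul_self]
  have ht1 : t ≠ 1 := by
    obtain ⟨a, b, hab, rfl⟩ := ht
    exact fun h => hab (swap_eq_one_iff.mp h)
  have hψt2 : (ψ t) ^ 2 = 1 := by rw [← map_pow, ht2, map_one]
  have hψt1 : ψ t ≠ 1 := fun h => ht1 (hψ (h.trans (map_one ψ).symm))
  have : Fact (Nat.Prime 2) := ⟨Nat.prime_two⟩
  set k := Multiset.card (ψ t).cycleType with hk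
  have hm : (ψ t).cycleType = Multiset.replicate k 2 := cycleType_of_pow_prime_eq_one hψt2
  have hk1 : 1 ≤ k := by
    by_contra h0
    have : k = 0 := by omega
    exact hψt1 (card_cycleType_eq_zero.mp this)
  have hkn : 2 * k ≤ Fintype.card Ω := by
    have := sum_cycleType_le (ψ t)
    rw [hm, Multiset.sum_replicate, smul_eq_mul, hcard] at this
    omega
  have htc : t.cycleType = {2} := isSwap_iff_cycleType.mp ht
  -- the two classes have the same size
  have hcardeq : (Finset.univ.filter (fun g : Perm Ω => g.cycleType = {2})).card =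
      (Finset.univ.filter (fun s : Perm X => s.cycleType = Multiset.replicate k 2)).card := by
    apply Finset.card_bij (fun g _ => ψ g)
    · intro g hg
      simp only [Finset.mem_filter, Finset.mem_univ, true_and] at hg ⊢
      rw [← hm, ← isConj_iff_cycleType_eq]
      apply MonoidHom.map_isConj
      rw [isConj_iff_cycleType_eq, hg, htc]
    · intro g _ g' _ h
      exact hψ h
    · intro s hs
      simp only [Finset.mem_filter, Finset.mem_univ, true_and] at hs
      obtain ⟨g, rfl⟩ := hbij.2 s
      refine ⟨g, ?_, rfl⟩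
      simp only [Finset.mem_filter, Finset.mem_univ, true_and]
      rw [← hm, ← isConj_iff_cycleType_eq] at hs
      obtain ⟨c, hc⟩ := isConj_iff.mp hs
      obtain ⟨c', rfl⟩ := hbij.2 c
      have : ψ (c' * g * c'⁻¹) = ψ t := by rw [map_mul, map_mul, map_inv, hc]
      have h2 := hψ this
      rw [← htc, ← isConj_iff_cycleType_eq]
      exact isConj_iff.mpr ⟨c', h2⟩
  have hA := card_of_cycleType_mul_eq Ω ({2} : Multiset ℕ)
  have hB := card_of_cycleType_mul_eq X (Multiset.replicate k 2)
  have h2n : 2 ≤ Fintype.card Ω := by omega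
  rw [if_pos (by simp [h2n])] at hA
  rw [if_pos (by
    refine ⟨?_, fun a ha => ?_⟩
    · rw [Multiset.sum_replicate, smul_eq_mul, hcard]; omega
    · rw [Multiset.eq_of_mem_replicate ha])] at hB
  simp only [Multiset.sum_singleton, Multiset.prod_singleton, Multiset.toFinset_singleton,
    Finset.prod_singleton, Multiset.count_singleton_self, Nat.factorial_one, mul_one] at hA
  have htf : (Multiset.replicate k 2).toFinset = {2} := by
    ext x
    simp only [Multiset.mem_toFinset, Multiset.mem_replicate, Finset.mem_singleton]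
    constructor
    · exact fun h => h.2
    · exact fun h => ⟨by omega, h⟩
  rw [Multiset.sum_replicate, Multiset.prod_replicate, htf, Finset.prod_singleton,
    Multiset.count_replicate_self, smul_eq_mul, hcard] at hB
  rw [← hcardeq] at hB
  have hpos : 0 < (Finset.univ.filter (fun g : Perm Ω => g.cycleType = {2})).card := by
    apply Finset.card_pos.mpr
    exact ⟨t, by simp [htc]⟩
  have heq : (Fintype.card Ω - 2 * k)! * 2 ^ k * k ! = (Fintype.card Ω - 2)! * 2 := by
    have := hB.trans hA.symm
    rw [mul_comm k 2] at this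
    exact Nat.eq_of_mul_eq_mul_left hpos this
  have hk1' := arith _ k hk1 hkn h6 heq
  rw [isSwap_iff_cycleType, hm, hk1']
  rfl

theorem inj_of_index (H : Subgroup (Perm Ω)) (hH : H.index = Fintype.card Ω)
    (h3 : 3 ≤ Fintype.card Ω) :
    Function.Injective (MulAction.toPermHom (Perm Ω) (Perm Ω ⧸ H)) := by
  rw [← MonoidHom.ker_eq_bot_iff, ← Subgroup.normalCore_eq_ker]
  have hNnormal : H.normalCore.Normal := Subgroup.normalCore_normal H
  have hNH : H.normalCore ≤ H := Subgroup.normalCore_le H
  by_contra hN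
  obtain ⟨⟨g, hgN⟩, hg1⟩ := (Subgroup.ne_bot_iff_exists_ne_one).mp hN
  have hg1' : g ≠ 1 := fun h => hg1 (Subtype.ext h)
  obtain ⟨a, ha⟩ : ∃ a, g a ≠ a := by
    by_contra hcon
    push Not at hcon
    exact hg1' (Equiv.Perm.ext hcon)
  by_cases h5 : 5 ≤ Fintype.card Ω
  · have hsimple : IsSimpleGroup (alternatingGroup Ω) :=
      alternatingGroup.isSimpleGroup (by rw [Nat.card_eq_fintype_card]; exact h5)
    have hN1 : (H.normalCore.subgroupOf (alternatingGroup Ω)).Normal := Subgroup.normal_subgroupOf
    rcases hN1.eq_bot_or_eq_top with hbot | htop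
    · rw [Subgroup.subgroupOf_eq_bot, Subgroup.disjoint_def] at hbot
      have hcomm : ∀ h : Perm Ω, h * g = g * h := by
        intro h
        have h1 : h * g * h⁻¹ * g⁻¹ ∈ H.normalCore :=
          H.normalCore.mul_mem (hNnormal.conj_mem g hgN h) (H.normalCore.inv_mem hgN)
        have h2 : h * g * h⁻¹ * g⁻¹ ∈ alternatingGroup Ω := by
          rw [Equiv.Perm.mem_alternatingGroup]
          simp only [map_mul, map_inv, Int.units_inv_eq_self]
          rw [mul_assoc, Int.units_mul_self]
        have h3' := hbot h1 h2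
        calc h * g = (h * g * h⁻¹ * g⁻¹) * (g * h) := by group
          _ = g * h := by rw [h3', one_mul]
      obtain ⟨c, -, hc⟩ := Finset.exists_mem_notMem_of_card_lt_card
        (s := ({a, g a} : Finset Ω)) (t := Finset.univ) (by
          have := Finset.card_le_two (a := a) (b := g a)
          rw [Finset.card_univ]; omega)
      simp only [Finset.mem_insert, Finset.mem_singleton, not_or] at hc
      have h1 := congrArg (fun f : Perm Ω => f a) (hcomm (swap (g a) c))
      simp only [Perm.mul_apply, swap_apply_left] at h1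
      rw [swap_apply_of_ne_of_ne (Ne.symm ha) (Ne.symm hc.1)] at h1
      exact hc.2 h1
    · rw [Subgroup.subgroupOf_eq_top] at htop
      have hdvd := Subgroup.index_dvd_of_le (htop.trans hNH)
      have hnt : Nontrivial Ω := Fintype.one_lt_card_iff_nontrivial.mp (by omega)
      rw [hH, alternatingGroup.index_eq_two] at hdvd
      have := Nat.le_of_dvd (by norm_num) hdvd
      omega
  · -- n = 3 or 4: a nontrivial normal subgroup is transitive
    have hfix : MulAction.fixedPoints H.normalCore Ω ≠ Set.univ := by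
      intro hu
      have : a ∈ MulAction.fixedPoints H.normalCore Ω := hu ▸ Set.mem_univ a
      exact ha (this ⟨g, hgN⟩)
    have htrans : MulAction.IsPretransitive H.normalCore Ω :=
      MulAction.IsQuasiPreprimitive.isPretransitive_of_normal hfix
    have h1 : Fintype.card Ω ∣ Nat.card H.normalCore := by
      have := Subgroup.index_dvd_card (MulAction.stabilizer H.normalCore a)
      rwa [MulAction.index_stabilizer_of_transitive, Nat.card_eq_fintype_card] at this
    have h2 : Nat.card H.normalCore ∣ Nat.card H := Subgroup.card_dvd_of_le hNH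
    have h4 := Subgroup.card_mul_index H
    rw [hH, Nat.card_eq_fintype_card (α := Perm Ω), Fintype.card_perm] at h4
    have h5' := h1.trans h2
    have hn : Fintype.card Ω = 3 ∨ Fintype.card Ω = 4 := by omega
    rcases hn with hn | hn
    · rw [hn] at h4 h5'
      have : Nat.card H = 2 := by
        have : (3 : ℕ)! = 6 := rfl
        omega
      rw [this] at h5'
      omega
    · rw [hn] at h4 h5'
      have : Nat.card H = 6 := by
        have : (4 : ℕ)! = 24 := rfl
        omega
      rw [this] at h5'
      omega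


end main

/-- Let Ω be a finite set whose size n is not 6. Then every subgroup of the symmetric group on Ω of index n is the stabilizer of a point. -/
theorem result {Ω : Type*} [Fintype Ω] [DecidableEq Ω] (h6 : Fintype.card Ω ≠ 6)
    (H : Subgroup (Equiv.Perm Ω)) (hH : H.index = Fintype.card Ω) :
    ∃ x : Ω, H = MulAction.stabilizer (Equiv.Perm Ω) x := by
  classical
  have hn0 : Fintype.card Ω ≠ 0 := by
    rw [← hH]; exact Subgroup.index_ne_zero_of_finite
  have hfinal : ∀ x : Ω, MulAction.stabilizer (Perm Ω) x ≤ H →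
      H = MulAction.stabilizer (Perm Ω) x := by
    intro x hx
    have h1 := Subgroup.relIndex_mul_index hx
    rw [hH, MulAction.index_stabilizer_of_transitive, Nat.card_eq_fintype_card] at h1
    have h2 : (MulAction.stabilizer (Perm Ω) x).relIndex H = 1 := by
      have hpos : 0 < Fintype.card Ω := Nat.pos_of_ne_zero hn0
      exact Nat.eq_of_mul_eq_mul_right hpos (by rw [h1, one_mul])
    exact le_antisymm (Subgroup.relIndex_eq_one.mp h2) hx
  obtain ⟨a⟩ : Nonempty Ω := Fintype.card_pos_iff.mp (Nat.pos_of_ne_zero hn0)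
  by_cases h3 : 3 ≤ Fintype.card Ω
  · let _ : Fintype (Perm Ω ⧸ H) := Fintype.ofFinite _
    have hcardX : Fintype.card (Perm Ω ⧸ H) = Fintype.card Ω := by
      rw [← hH, Subgroup.index, Nat.card_eq_fintype_card]
    have hψ := inj_of_index H hH h3
    have hsw := fun t ht => swap_to_swap hcardX h6 (MulAction.toPermHom (Perm Ω) (Perm Ω ⧸ H)) hψ t ht
    have hHx : ∀ g, g ∈ H ↔ MulAction.toPermHom (Perm Ω) (Perm Ω ⧸ H) g ((1 : Perm Ω) : Perm Ω ⧸ H) =
        ((1 : Perm Ω) : Perm Ω ⧸ H) := by
      intro g
      conv_lhs => rw [← MulAction.stabilizer_quotient H]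
      rfl
    have hcount := count_nonH (MulAction.toPermHom (Perm Ω) (Perm Ω ⧸ H)) hψ hsw _ H hHx
    rw [hcardX] at hcount
    have hne : H ≠ ⊤ := by
      intro h
      rw [h, Subgroup.index_top] at hH
      omega
    obtain ⟨x, hx⟩ := exists_point H hne a hcount
    exact ⟨x, hfinal x (stabilizer_le_of_swaps H x hx)⟩
  · refine ⟨a, hfinal a ?_⟩
    have h1 := Subgroup.card_mul_index (MulAction.stabilizer (Perm Ω) a)
    rw [MulAction.index_stabilizer_of_transitive, Nat.card_eq_fintype_card (α := Ω),
      Nat.card_eq_fintype_card (α := Perm Ω), Fintype.card_perm] at h1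
    have h2 : Nat.card (MulAction.stabilizer (Perm Ω) a) = 1 := by
      have hn : Fintype.card Ω = 1 ∨ Fintype.card Ω = 2 := by omega
      rcases hn with hn | hn
      · rw [hn] at h1
        simpa using h1
      · rw [hn] at h1
        have : (2 : ℕ)! = 2 := rfl
        omega
    rw [Subgroup.card_eq_one] at h2
    rw [h2]
    exact bot_le

end Cfsg.Agent.S5911
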