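import Cfsg.Statements.S5912
import Cfsg.Agent.Lib.Helper98.S6Index

set_option autoImplicit false
open Cfsg
open Cfsg.Agent.Lib.Helper98

namespace Cfsg.Agent.S5912

/-- The symmetric group on a 6-element set Ω has exactly two conjugacy classes of subgroups of index 6: there are two non-conjugate subgroups of index 6 (a point stabilizer and a transitive subgroup isomorphic to S₅), and every subgroup of index 6 is conjugate to one of them. -/
theorem result {Ω : Type*} [Fintype Ω] [DecidableEq Ω] (h6 : Fintype.card Ω = 6) :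
    ∃ H₁ H₂ : Subgroup (Equiv.Perm Ω), H₁.index = 6 ∧ H₂.index = 6 ∧
      (¬ ∃ g : Equiv.Perm Ω, Subgroup.map (MulAut.conj g).toMonoidHom H₁ = H₂) ∧
      ∀ H : Subgroup (Equiv.Perm Ω), H.index = 6 →
        ∃ g : Equiv.Perm Ω, Subgroup.map (MulAut.conj g).toMonoidHom H₁ = H ∨ Subgroup.map (MulAut.conj g).toMonoidHom H₂ = H := by
  classical
  have hX : Nat.card Ω = 6 := by rw [Nat.card_eq_fintype_card, h6]
  obtain ⟨e₀⟩ : Nonempty (Sylow 5 (Equiv.Perm (Fin 5)) ≃ Ω) :=
    ⟨(Finite.equivFinOfCardEq card_sylow5_perm5).trans (Finite.equivFinOfCardEq hX).symm⟩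
  obtain ⟨ω₀⟩ : Nonempty Ω := Fintype.card_pos_iff.mp (by omega)
  have hnt : Nontrivial Ω := Fintype.one_lt_card_iff_nontrivial.mp (by omega)
  refine ⟨MulAction.stabilizer (Equiv.Perm Ω) ω₀, exotic e₀, ?_, exotic_index h6 e₀, ?_, ?_⟩
  · rw [MulAction.index_stabilizer_of_transitive, hX]
  · rintro ⟨g, hg⟩
    rw [← MulAction.stabilizer_smul_eq_stabilizer_map_conj] at hg
    obtain ⟨ω', hω'⟩ : ∃ ω', ω' ≠ g • ω₀ := exists_ne _
    obtain ⟨h, hh, hmove⟩ := exotic_transitive e₀ (g • ω₀) ω'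
    rw [← hg, MulAction.mem_stabilizer_iff] at hh
    exact hω' (hmove.symm.trans hh)
  · intro H hH
    rcases classify h6 e₀ H hH with ⟨a, rfl⟩ | ⟨g, hg⟩
    · obtain ⟨g, hg⟩ := MulAction.exists_smul_eq (Equiv.Perm Ω) ω₀ a
      exact ⟨g, Or.inl (by rw [← hg, MulAction.stabilizer_smul_eq_stabilizer_map_conj])⟩
    · exact ⟨g, Or.inr hg⟩

end Cfsg.Agent.S5912
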