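import Cfsg.Statements.S5913
import Mathlib
-- import your own Cfsg.Agent.* helpers here

set_option autoImplicit false
open Cfsg

namespace Cfsg.Agent.S5913

/-- Let S be a non-abelian simple group and n a natural number. Every normal subgroup N of the direct power S^n (functions Fin n → S) is a subproduct: there is a set T of coordinates such that N consists exactly of the elements whose coordinates outside T are trivial. In particular the minimal normal subgroups of S^n are its n factors. -/
theorem result {S : Type*} [Group S] [IsSimpleGroup S] (hS : ¬ IsMulCommutative S) (n : ℕ)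
    (N : Subgroup (Fin n → S)) [N.Normal] :
    ∃ T : Finset (Fin n), ∀ x : Fin n → S, x ∈ N ↔ ∀ i, i ∉ T → x i = 1 := by
  classical
  have hcenter : ∀ s : S, s ≠ 1 → ∃ t : S, t * s ≠ s * t := by
    intro s hs
    by_contra hcon
    push Not at hcon
    have hmem : s ∈ Subgroup.center S := by
      rw [Subgroup.mem_center_iff]; exact hcon
    rcases (inferInstance : (Subgroup.center S).Normal).eq_bot_or_eq_top with hc | hc
    · rw [hc, Subgroup.mem_bot] at hmem; exact hs hmem
    · apply hS
      refine ⟨⟨fun a b => ?_⟩⟩
      have : a ∈ Subgroup.center S := hc ▸ Subgroup.mem_top a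
      exact (Subgroup.mem_center_iff.mp this b).symm
  have hNi : ∀ i, (N.comap (MonoidHom.mulSingle (fun _ : Fin n => S) i)).Normal := fun i =>
    Subgroup.Normal.comap inferInstance _
  refine ⟨Finset.univ.filter (fun i => ∃ x ∈ N, x i ≠ 1), fun x => ⟨fun hx i hi => ?_, fun hx => ?_⟩⟩
  · by_contra h
    exact hi (by simp only [Finset.mem_filter, Finset.mem_univ, true_and]; exact ⟨x, hx, h⟩)
  · have key : ∀ i, Pi.mulSingle i (x i) ∈ N := by
      intro i
      by_cases hi : ∃ y ∈ N, y i ≠ 1
      · obtain ⟨y, hy, hyi⟩ := hi
        obtain ⟨t, ht⟩ := hcenter (y i) hyi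
        have hcomm : Pi.mulSingle i (t * y i * t⁻¹ * (y i)⁻¹) ∈ N := by
          have h1 : Pi.mulSingle i t * y * (Pi.mulSingle i t)⁻¹ ∈ N :=
            Subgroup.Normal.conj_mem inferInstance y hy _
          have h2 := N.mul_mem h1 (N.inv_mem hy)
          convert h2 using 1
          ext j
          by_cases hj : j = i
          · subst hj; simp
          · simp [Pi.mulSingle_eq_of_ne hj]
        have hne : t * y i * t⁻¹ * (y i)⁻¹ ≠ 1 := by
          intro h
          apply ht
          have h3 := mul_inv_eq_one.mp h
          exact mul_inv_eq_iff_eq_mul.mp h3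
        have htop : N.comap (MonoidHom.mulSingle (fun _ : Fin n => S) i) = ⊤ := by
          rcases (hNi i).eq_bot_or_eq_top with h | h
          · exfalso
            apply hne
            have h4 : t * y i * t⁻¹ * (y i)⁻¹ ∈ N.comap (MonoidHom.mulSingle (fun _ : Fin n => S) i) := hcomm
            rw [h] at h4
            exact Subgroup.mem_bot.mp h4
          · exact h
        have h5 : x i ∈ N.comap (MonoidHom.mulSingle (fun _ : Fin n => S) i) := htop ▸ Subgroup.mem_top _
        exact h5
      · have h6 : x i = 1 := hx i (by simpa using hi)
        rw [h6, Pi.mulSingle_one]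
        exact N.one_mem
    rw [← Finset.noncommProd_mulSingle x]
    exact Subgroup.noncommProd_mem _ _ (fun i _ => key i)

end Cfsg.Agent.S5913
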