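import Cfsg.Statements.S5914
import Mathlib
-- import your own Cfsg.Agent.* helpers here

set_option autoImplicit false
open Cfsg

namespace Cfsg.Agent.S5914


theorem pi_char {n : ℕ} {S : Type*} [Group S] [IsSimpleGroup S] (H : Subgroup (Fin n → S))
    (hH : ∀ (ψ : (Fin n → S) ≃* (Fin n → S)) (x : Fin n → S), x ∈ H → ψ x ∈ H) :
    H = ⊥ ∨ H = ⊤ := by
  classical
  rcases H.bot_or_exists_ne_one with hbot | ⟨x, hx, hx1⟩
  · exact Or.inl hbot
  right
  have hnorm : H.Normal := ⟨fun y hy g => by simpa using hH (MulAut.conj g) y hy⟩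
  have hNi : ∀ i, (H.comap (MonoidHom.mulSingle (fun _ : Fin n => S) i)).Normal := fun i =>
    hnorm.comap _
  have top_of : ∀ j s, s ≠ 1 → Pi.mulSingle j s ∈ H → ∀ t, Pi.mulSingle j t ∈ H := by
    intro j s hs hmem t
    have htop : H.comap (MonoidHom.mulSingle (fun _ : Fin n => S) j) = ⊤ := by
      rcases (hNi j).eq_bot_or_eq_top with h | h
      · exfalso
        have h4 : s ∈ H.comap (MonoidHom.mulSingle (fun _ : Fin n => S) j) := hmem
        rw [h] at h4
        exact hs (Subgroup.mem_bot.mp h4)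
      · exact h
    have h5 : t ∈ H.comap (MonoidHom.mulSingle (fun _ : Fin n => S) j) := htop ▸ Subgroup.mem_top _
    exact h5
  obtain ⟨i, hi⟩ : ∃ i, x i ≠ 1 := by
    by_contra h
    push Not at h
    exact hx1 (funext h)
  have hex : ∃ j, ∀ s, Pi.mulSingle j s ∈ H := by
    by_cases hcomm : ∀ a b : S, a * b = b * a
    · by_cases hn : ∃ j, j ≠ i
      · obtain ⟨j, hj⟩ := hn
        let φ : (Fin n → S) ≃* (Fin n → S) :=
          { toFun := fun y => Function.update y j (y j * y i)
            invFun := fun y => Function.update y j (y j * (y i)⁻¹)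
            left_inv := by
              intro y
              ext k
              by_cases hk : k = j
              · subst hk
                simp [Function.update_of_ne (Ne.symm hj)]
              · simp [Function.update_of_ne hk]
            right_inv := by
              intro y
              ext k
              by_cases hk : k = j
              · subst hk
                simp [Function.update_of_ne (Ne.symm hj)]
              · simp [Function.update_of_ne hk]
            map_mul' := by
              intro y z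
              ext k
              by_cases hk : k = j
              · subst hk
                simp only [Function.update_self, Pi.mul_apply]
                rw [mul_assoc, mul_assoc, ← mul_assoc (z k), hcomm (z k) (y i), mul_assoc]
              · simp [Function.update_of_ne hk] }
        have h1 : φ x * x⁻¹ ∈ H := H.mul_mem (hH φ x hx) (H.inv_mem hx)
        have h2 : φ x * x⁻¹ = Pi.mulSingle j (x i) := by
          ext k
          by_cases hk : k = j
          · subst hk
            simp [φ, hcomm (x k) (x i)]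
          · simp [φ, Function.update_of_ne hk, Pi.mulSingle_eq_of_ne hk]
        rw [h2] at h1
        exact ⟨j, top_of j (x i) hi h1⟩
      · push Not at hn
        have hxe : x = Pi.mulSingle i (x i) := by
          ext k
          rw [hn k]
          simp
        rw [hxe] at hx
        exact ⟨i, top_of i (x i) hi hx⟩
    · push Not at hcomm
      obtain ⟨a, b, hab⟩ := hcomm
      have hcenter : ∃ t : S, t * x i ≠ x i * t := by
        by_contra hcon
        push Not at hcon
        have hmem : x i ∈ Subgroup.center S := by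
          rw [Subgroup.mem_center_iff]; exact hcon
        rcases (inferInstance : (Subgroup.center S).Normal).eq_bot_or_eq_top with hc | hc
        · rw [hc, Subgroup.mem_bot] at hmem; exact hi hmem
        · have : a ∈ Subgroup.center S := hc ▸ Subgroup.mem_top a
          exact hab (Subgroup.mem_center_iff.mp this b).symm
      obtain ⟨t, ht⟩ := hcenter
      have hcm : Pi.mulSingle i (t * x i * t⁻¹ * (x i)⁻¹) ∈ H := by
        have h1 : Pi.mulSingle i t * x * (Pi.mulSingle i t)⁻¹ ∈ H := hnorm.conj_mem x hx _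
        have h2 := H.mul_mem h1 (H.inv_mem hx)
        convert h2 using 1
        ext j
        by_cases hj : j = i
        · subst hj; simp
        · simp [Pi.mulSingle_eq_of_ne hj]
      have hne : t * x i * t⁻¹ * (x i)⁻¹ ≠ 1 := by
        intro h
        apply ht
        have h3 := mul_inv_eq_one.mp h
        exact mul_inv_eq_iff_eq_mul.mp h3
      exact ⟨i, top_of i _ hne hcm⟩
  obtain ⟨j, hj⟩ := hex
  have hall : ∀ k s, Pi.mulSingle k s ∈ H := by
    intro k s
    let ψ : (Fin n → S) ≃* (Fin n → S) :=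
      { toFun := fun y => y ∘ Equiv.swap j k
        invFun := fun y => y ∘ Equiv.swap j k
        left_inv := by intro y; ext l; simp
        right_inv := by intro y; ext l; simp
        map_mul' := fun _ _ => rfl }
    have h1 := hH ψ _ (hj s)
    convert h1 using 1
    ext l
    by_cases hl : l = k
    · subst hl
      simp [ψ]
    · have hne : Equiv.swap j k l ≠ j := fun h => hl (by
        have h2 := congrArg (Equiv.swap j k) h
        simpa using h2)
      simp [ψ, Pi.mulSingle_eq_of_ne hl, Pi.mulSingle_eq_of_ne hne]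
  rw [eq_top_iff]
  intro y _
  rw [← Finset.noncommProd_mulSingle y]
  exact Subgroup.noncommProd_mem _ _ (fun i _ => hall i (y i))


theorem forward {G : Type*} [Group G] [Finite G] [Nontrivial G]
    (hchar : ∀ H : Subgroup G, H.Characteristic → H = ⊥ ∨ H = ⊤) :
    ∃ (S : Type) (_ : Group S) (_ : IsSimpleGroup S) (n : ℕ), 1 ≤ n ∧ Nonempty (G ≃* (Fin n → S)) := by
  classical
  obtain ⟨M, hM⟩ : ∃ M : Subgroup G, Maximal (fun K : Subgroup G => K.Normal ∧ K ≠ ⊤) M :=
    (Set.toFinite {K : Subgroup G | K.Normal ∧ K ≠ ⊤}).exists_maximal ⟨⊥, inferInstance, bot_ne_top⟩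
  have hMn : M.Normal := hM.prop.1
  have hMtop : M ≠ ⊤ := hM.prop.2
  have hsimple : IsSimpleGroup (G ⧸ M) := by
    obtain ⟨g, hg⟩ : ∃ g, g ∉ M := by
      by_contra h
      push Not at h
      exact hMtop (eq_top_iff.mpr fun x _ => h x)
    refine { exists_pair_ne := ⟨(g : G ⧸ M), 1, fun h => hg ((QuotientGroup.eq_one_iff g).mp h)⟩,
             eq_bot_or_eq_top_of_normal := ?_ }
    intro N hN
    have hcn : (N.comap (QuotientGroup.mk' M)).Normal := hN.comap _
    have hle : M ≤ N.comap (QuotientGroup.mk' M) := by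
      intro x hx
      rw [Subgroup.mem_comap]
      have : QuotientGroup.mk' M x = 1 := (QuotientGroup.eq_one_iff x).mpr hx
      rw [this]
      exact N.one_mem
    by_cases htop : N.comap (QuotientGroup.mk' M) = ⊤
    · right
      rw [eq_top_iff]
      intro y _
      obtain ⟨x, rfl⟩ := QuotientGroup.mk'_surjective M y
      have : x ∈ N.comap (QuotientGroup.mk' M) := htop ▸ Subgroup.mem_top x
      exact this
    · left
      have hle2 : N.comap (QuotientGroup.mk' M) ≤ M := hM.le_of_ge ⟨hcn, htop⟩ hle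
      rw [eq_bot_iff]
      intro y hy
      obtain ⟨x, rfl⟩ := QuotientGroup.mk'_surjective M y
      have : x ∈ M := hle2 hy
      exact Subgroup.mem_bot.mpr ((QuotientGroup.eq_one_iff x).mpr this)
  let 𝒜 : Set (Subgroup G) := {K | ∃ φ : G ≃* G, M.map φ.toMonoidHom = K}
  have hInf : sInf 𝒜 = ⊥ := by
    have hc : (sInf 𝒜).Characteristic := by
      rw [Subgroup.characteristic_iff_le_comap]
      intro ψ x hx
      rw [Subgroup.mem_comap, Subgroup.mem_sInf]
      rintro K ⟨φ, rfl⟩
      have hx' : x ∈ M.map (φ.trans ψ.symm).toMonoidHom :=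
        (Subgroup.mem_sInf.mp hx) _ ⟨φ.trans ψ.symm, rfl⟩
      obtain ⟨m, hm, rfl⟩ := hx'
      exact ⟨m, hm, by simp⟩
    rcases hchar _ hc with h | h
    · exact h
    · exfalso
      apply hMtop
      rw [eq_top_iff, ← h]
      exact sInf_le ⟨MulEquiv.refl G, by ext; simp⟩
  have hfinA : 𝒜.Finite := Set.toFinite _
  obtain ⟨𝒯, h𝒯⟩ : ∃ 𝒯 : Finset (Subgroup G),
      Minimal (fun 𝒯 : Finset (Subgroup G) => (↑𝒯 ⊆ 𝒜) ∧ 𝒯.inf id = ⊥) 𝒯 := by
    refine (Set.toFinite {𝒯 : Finset (Subgroup G) | (↑𝒯 ⊆ 𝒜) ∧ 𝒯.inf id = ⊥}).exists_minimal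
      ⟨hfinA.toFinset, by simp, ?_⟩
    rw [Finset.inf_id_eq_sInf, Set.Finite.coe_toFinset]
    exact hInf
  obtain ⟨h𝒯sub, h𝒯inf⟩ := h𝒯.prop
  have h𝒯min : ∀ K ∈ 𝒯, (𝒯.erase K).inf id ≠ ⊥ := by
    intro K hK h
    have h1 := h𝒯.le_of_le
      ⟨(fun L hL => h𝒯sub (Finset.mem_of_mem_erase (Finset.mem_coe.mp hL))), h⟩ (Finset.erase_subset K 𝒯)
    exact Finset.notMem_erase K 𝒯 (h1 hK)
  have hnormal : ∀ K : 𝒯, (K.1).Normal := by
    rintro ⟨K, hK⟩
    obtain ⟨φ, rfl⟩ := h𝒯sub hK
    exact hMn.map _ φ.surjective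
  let Φ : G →* ((K : 𝒯) → G ⧸ K.1) := MonoidHom.pi (fun K => QuotientGroup.mk' K.1)
  have hinj : Function.Injective Φ := by
    rw [← MonoidHom.ker_eq_bot_iff, eq_bot_iff]
    intro x hx
    rw [MonoidHom.mem_ker] at hx
    rw [← h𝒯inf, Finset.inf_id_eq_sInf, Subgroup.mem_sInf]
    intro K hK
    have h1 := congrFun hx ⟨K, hK⟩
    have := hnormal ⟨K, hK⟩
    exact (QuotientGroup.eq_one_iff x).mp h1
  have hiso : ∀ K : 𝒯, Nonempty (G ⧸ M ≃* G ⧸ K.1) := by
    rintro ⟨K, hK⟩
    obtain ⟨φ, hφ⟩ := h𝒯sub hK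
    have := hnormal ⟨K, hK⟩
    exact ⟨QuotientGroup.congr M K φ hφ⟩
  have hsurj : Function.Surjective Φ := by
    have hsingle : ∀ (K : 𝒯) (s : G ⧸ K.1), Pi.mulSingle K s ∈ Φ.range := by
      intro K s
      have hLne : (𝒯.erase K.1).inf id ≠ ⊥ := h𝒯min K.1 K.2
      have hLn : ((𝒯.erase K.1).inf id).Normal := by
        refine ⟨fun x hx g => ?_⟩
        rw [Finset.inf_id_eq_sInf, Subgroup.mem_sInf] at hx ⊢
        intro K' hK'
        have hK'2 : K' ∈ 𝒯 := Finset.mem_of_mem_erase (Finset.mem_coe.mp hK')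
        exact (hnormal ⟨K', hK'2⟩).conj_mem x (hx K' hK') g
      have hKs : IsSimpleGroup (G ⧸ K.1) := (hiso K).some.symm.isSimpleGroup
      have himg : ((𝒯.erase K.1).inf id).map (QuotientGroup.mk' K.1) = ⊤ := by
        have hn : (((𝒯.erase K.1).inf id).map (QuotientGroup.mk' K.1)).Normal :=
          hLn.map _ (QuotientGroup.mk'_surjective _)
        rcases hn.eq_bot_or_eq_top with h | h
        · exfalso
          apply hLne
          have hLK : (𝒯.erase K.1).inf id ≤ K.1 := by
            have h2 := (Subgroup.map_eq_bot_iff _).mp h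
            rwa [QuotientGroup.ker_mk'] at h2
          rw [eq_bot_iff, ← h𝒯inf]
          conv_rhs => rw [← Finset.insert_erase K.2, Finset.inf_insert]
          exact le_inf hLK le_rfl
        · exact h
      obtain ⟨g, hgL, hg⟩ : ∃ g ∈ (𝒯.erase K.1).inf id, QuotientGroup.mk' K.1 g = s := by
        have : s ∈ ((𝒯.erase K.1).inf id).map (QuotientGroup.mk' K.1) := himg ▸ Subgroup.mem_top s
        exact this
      refine ⟨g, ?_⟩
      ext K'
      by_cases hK' : K' = K
      · subst hK'
        rw [Pi.mulSingle_eq_same]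
        exact hg
      · rw [Pi.mulSingle_eq_of_ne hK']
        change QuotientGroup.mk' K'.1 g = 1
        have h3 : K'.1 ∈ 𝒯.erase K.1 := Finset.mem_erase.mpr ⟨fun h => hK' (Subtype.ext h), K'.2⟩
        have h4 : (𝒯.erase K.1).inf id ≤ K'.1 := Finset.inf_le h3
        exact (QuotientGroup.eq_one_iff g).mpr (h4 hgL)
    intro y
    have : y ∈ Φ.range := by
      rw [← Finset.noncommProd_mulSingle y]
      exact Subgroup.noncommProd_mem _ _ (fun K _ => hsingle K (y K))
    exact this
  let e₁ : G ≃* ((K : 𝒯) → G ⧸ K.1) := MulEquiv.ofBijective Φ ⟨hinj, hsurj⟩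
  let e₂ : ((K : 𝒯) → G ⧸ K.1) ≃* ((K : 𝒯) → Shrink.{0} (G ⧸ M)) :=
    MulEquiv.piCongrRight (fun K => ((hiso K).some.symm.trans (Shrink.mulEquiv).symm))
  let e₃ : (𝒯 → Shrink.{0} (G ⧸ M)) ≃* (Fin (Fintype.card 𝒯) → Shrink.{0} (G ⧸ M)) :=
    MulEquiv.arrowCongr (Fintype.equivFin 𝒯) (MulEquiv.refl _)
  refine ⟨Shrink.{0} (G ⧸ M), inferInstance, ?_, Fintype.card 𝒯, ?_, ⟨(e₁.trans e₂).trans e₃⟩⟩
  · exact (Shrink.mulEquiv : Shrink.{0} (G ⧸ M) ≃* G ⧸ M).isSimpleGroup
  · rw [Nat.one_le_iff_ne_zero]
    intro h0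
    have hempty : 𝒯 = ∅ := by
      rw [Fintype.card_eq_zero_iff] at h0
      rw [Finset.eq_empty_iff_forall_notMem]
      intro K hK
      exact h0.false ⟨K, hK⟩
    rw [hempty, Finset.inf_empty] at h𝒯inf
    exact bot_ne_top h𝒯inf.symm

/-- A non-trivial finite group G is characteristically simple (its only characteristic subgroups are 1 and G) if and only if G is isomorphic to a direct power S^n (n ≥ 1) of some simple group S (possibly cyclic of prime order). -/
theorem result {G : Type*} [Group G] [Finite G] [Nontrivial G] :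
    (∀ H : Subgroup G, H.Characteristic → H = ⊥ ∨ H = ⊤) ↔
    ∃ (S : Type) (_ : Group S) (_ : IsSimpleGroup S) (n : ℕ), 1 ≤ n ∧ Nonempty (G ≃* (Fin n → S)) := by
  constructor
  · exact forward
  · rintro ⟨S, instG, instS, n, hn, ⟨e⟩⟩ H hH
    have key := pi_char (H.map e.toMonoidHom) (by
      intro ψ x hx
      obtain ⟨h, hh, rfl⟩ := hx
      refine ⟨e.symm (ψ (e h)), ?_, by simp⟩
      have h1 := (Subgroup.characteristic_iff_le_comap.mp hH) ((e.trans ψ).trans e.symm) hh
      simpa using h1)
    rcases key with h | h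
    · left
      exact (Subgroup.map_eq_bot_iff_of_injective H e.injective).mp h
    · right
      rw [eq_top_iff]
      intro x _
      have h2 : e x ∈ H.map e.toMonoidHom := h ▸ Subgroup.mem_top _
      obtain ⟨y, hy, hxy⟩ := h2
      have h3 := e.injective hxy
      rwa [← h3]

end Cfsg.Agent.S5914
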