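import Cfsg.Statements.S5939
import Mathlib
import Cfsg.Agent.S0804
import Cfsg.Agent.Lib.Helper54.DkMaxA5

set_option autoImplicit false
open Cfsg
open Cfsg.Agent.Lib.Helper54 Cfsg.Agent.Lib.Helper19.Dk

namespace Cfsg.Agent.S5939

/-- Let p be a prime and F a finite field of characteristic p such that either F has p elements and p ≡ ±1 (mod 10), or F has p² elements and p ≡ ±3 (mod 10). Then PSL_2(F) has a maximal subgroup isomorphic to the alternating group A_5. -/
theorem result {F : Type*} [Field F] [Fintype F] (p : ℕ) [Fact p.Prime] [CharP F p] (h : (Fintype.card F = p ∧ (p % 10 = 1 ∨ p % 10 = 9)) ∨ (Fintype.card F = p ^ 2 ∧ (p % 10 = 3 ∨ p % 10 = 7))) : ∃ H : Subgroup (Matrix.ProjectiveSpecialLinearGroup (Fin 2) F), IsCoatom H ∧ Nonempty (H ≃* alternatingGroup (Fin 5)) := by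
  classical
  have hpp : p.Prime := Fact.out
  have hp3 : 3 ≤ p := by
    have := hpp.two_le
    rcases h with ⟨-, h⟩ | ⟨-, h⟩ <;> omega
  have h2 : (2 : F) ≠ 0 := dkm_two_ne_zero p (by omega)
  have hq5 : 5 ∣ Fintype.card F * (Fintype.card F ^ 2 - 1) := by
    rcases h with ⟨hF, h⟩ | ⟨hF, h⟩
    · rw [hF]
      have h5 : p % 5 = 1 ∨ p % 5 = 4 := by omega
      have hsq : p ^ 2 % 5 = 1 := by
        rw [Nat.pow_mod]
        rcases h5 with h | h <;> rw [h]
      have h1 : 1 ≤ p ^ 2 := Nat.one_le_pow _ _ (by omega)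
      exact Dvd.dvd.mul_left (by omega) _
    · rw [hF]
      have h5 : p % 5 = 3 ∨ p % 5 = 2 := by omega
      have hsq : (p ^ 2) ^ 2 % 5 = 1 := by
        rw [← pow_mul, Nat.pow_mod]
        rcases h5 with h | h <;> rw [h]
      have h1 : 1 ≤ (p ^ 2) ^ 2 := Nat.one_le_pow _ _ (by positivity)
      exact Dvd.dvd.mul_left (by omega) _
  obtain ⟨H, ⟨e⟩⟩ := (Cfsg.Agent.S0804.result (F := F) rfl).2 hq5
  have hH60 : Nat.card H = 60 := by rw [Nat.card_congr e.toEquiv, dkm_card_a5]
  have hG : 2 * Nat.card (Matrix.ProjectiveSpecialLinearGroup (Fin 2) F)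
      = Fintype.card F * (Fintype.card F ^ 2 - 1) := dkm_card_P2_odd h2 p
  have hq7 : 7 ≤ Fintype.card F := by
    rcases h with ⟨hF, h⟩ | ⟨hF, h⟩
    · rw [hF]
      by_contra hlt
      have : p = 3 ∨ p = 4 ∨ p = 5 ∨ p = 6 := by omega
      omega
    · rw [hF]
      have : 3 ^ 2 ≤ p ^ 2 := Nat.pow_le_pow_left hp3 2
      omega
  have hG2 : 7 * 48 ≤ Fintype.card F * (Fintype.card F ^ 2 - 1) := by
    have : 48 ≤ Fintype.card F ^ 2 - 1 := by
      have : 7 ^ 2 ≤ Fintype.card F ^ 2 := Nat.pow_le_pow_left hq7 2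
      omega
    exact Nat.mul_le_mul hq7 this
  refine ⟨H, ⟨?_, ?_⟩, ⟨e⟩⟩
  · intro htop
    have : Nat.card H = Nat.card (Matrix.ProjectiveSpecialLinearGroup (Fin 2) F) := by
      rw [htop]; exact Subgroup.card_top
    omega
  · intro L hL
    have hcases : (∀ a ∈ L, ∀ b ∈ L, (a * a) * (b * b) = (b * b) * (a * a)) ∨
        ((∀ a ∈ L, ∀ b ∈ L, (a * b * a⁻¹ * b⁻¹) ^ p = 1) ∧
          (∀ a ∈ L, ∀ b ∈ L, ∀ c ∈ L, ∀ d ∈ L, (a * b * a⁻¹ * b⁻¹) * (c * d * c⁻¹ * d⁻¹)
            = (c * d * c⁻¹ * d⁻¹) * (a * b * a⁻¹ * b⁻¹))) ∨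
        Nat.card L = 12 ∨ Nat.card L = 24 ∨ Nat.card L = 60 ∨
        (∃ q' k : ℕ, 3 ≤ q' ∧ q' ∣ Fintype.card F ∧ Nat.card L = k * q' * (1 + q') ∧
          (k = q' - 1 ∨ 2 * k = q' - 1)) := dkm_cases p L
    have hHL := Subgroup.card_le_of_le hL.le
    rcases hcases with h' | ⟨-, h'⟩ | h' | h' | h' | ⟨q', k, hq3, hdvd, hc, hk⟩
    · exact absurd (dkm_tr_sq H e (fun a ha b hb => h' a (hL.le ha) b (hL.le hb))) dkm_a5_sq
    · exact absurd (dkm_tr_cc H e (fun a ha b hb c hc d hd =>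
        h' a (hL.le ha) b (hL.le hb) c (hL.le hc) d (hL.le hd))) dkm_a5_cc
    · omega
    · omega
    · exact absurd (Subgroup.eq_of_le_of_card_ge hL.le (by omega)) hL.ne
    · have hq' : q' = Fintype.card F ∨ (q' = p ∧ (p % 10 = 3 ∨ p % 10 = 7)) := by
        rcases h with ⟨hF, h⟩ | ⟨hF, h⟩
        · left
          rw [hF] at hdvd ⊢
          rcases (Nat.dvd_prime hpp).1 hdvd with h | h
          · omega
          · exact h
        · rw [hF] at hdvd ⊢
          obtain ⟨m, hm, rfl⟩ := (Nat.dvd_prime_pow hpp).1 hdvd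
          have hm' : m = 0 ∨ m = 1 ∨ m = 2 := by omega
          rcases hm' with rfl | rfl | rfl
          · rw [pow_zero] at hq3; omega
          · right; exact ⟨pow_one p, h⟩
          · left; rfl
      rcases hq' with hq' | ⟨hq', h10⟩
      · subst hq'
        exact dkm_top p L k hc hk
      · exfalso
        subst hq'
        have hdH := Subgroup.card_dvd_of_le hL.le
        rw [hH60, hc] at hdH
        have h5 : (5 : ℕ) ∣ 2 * (k * q' * (1 + q')) :=
          Dvd.dvd.mul_left (dvd_trans (by norm_num) hdH) 2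
        have hk2 : 2 * (k * q' * (1 + q')) = (2 * k) * q' * (1 + q') := by ring
        rw [hk2] at h5
        have h5' : (5 : ℕ) ∣ (q' - 1) * q' * (1 + q') ∨ (5 : ℕ) ∣ 2 * (q' - 1) * q' * (1 + q') := by
          rcases hk with hk | hk
          · right; rw [hk] at h5; exact h5
          · left; rw [hk] at h5; exact h5
        have hm5 : q' % 5 = 3 ∨ q' % 5 = 2 := by omega
        have e1 : ((q' - 1) * q' * (1 + q')) % 5 ≠ 0 := by
          rw [Nat.mul_mod, Nat.mul_mod (q' - 1) q']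
          rcases hm5 with h | h
          · have h1 : (q' - 1) % 5 = 2 := by omega
            have h3 : (1 + q') % 5 = 4 := by omega
            rw [h, h1, h3]; norm_num
          · have h1 : (q' - 1) % 5 = 1 := by omega
            have h3 : (1 + q') % 5 = 3 := by omega
            rw [h, h1, h3]; norm_num
        rcases h5' with h5' | h5'
        · omega
        · rw [mul_assoc, mul_assoc] at h5'
          have := (Nat.Coprime.dvd_mul_left (by norm_num : Nat.Coprime 5 2)).1 h5'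
          rw [← mul_assoc] at this
          omega

end Cfsg.Agent.S5939
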