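import Cfsg.Statements.S5940
import Mathlib
import Cfsg.Agent.S0802
import Cfsg.Agent.Lib.Helper54.DkMaxPerm

set_option autoImplicit false
open Cfsg
open Cfsg.Agent.Lib.Helper54 Cfsg.Agent.Lib.Helper19.Dk

namespace Cfsg.Agent.S5940

/-- Let p ≥ 5 be a prime with p ≡ ±3 (mod 8) and p ≢ ±1 (mod 10), and F a field with p elements. Then PSL_2(F) has a maximal subgroup isomorphic to the alternating group A_4. -/
theorem result {F : Type*} [Field F] [Fintype F] (p : ℕ) [Fact p.Prime] (hF : Fintype.card F = p) (h5 : 5 ≤ p) (h8 : p % 8 = 3 ∨ p % 8 = 5) (h10 : p % 10 ≠ 1 ∧ p % 10 ≠ 9) : ∃ H : Subgroup (Matrix.ProjectiveSpecialLinearGroup (Fin 2) F), IsCoatom H ∧ Nonempty (H ≃* alternatingGroup (Fin 4)) := by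
  classical
  haveI : CharP F p := charP_of_card_eq_prime hF
  have hpp : p.Prime := Fact.out
  have h2 : (2 : F) ≠ 0 := dkm_two_ne_zero p (by omega)
  obtain ⟨H, ⟨e⟩⟩ := (Cfsg.Agent.S0802.result p 1 (by rw [hF, pow_one])).2 (by omega)
  have hH12 : Nat.card H = 12 := by rw [Nat.card_congr e.toEquiv, dkm_card_a4]
  have hG : 2 * Nat.card (Matrix.ProjectiveSpecialLinearGroup (Fin 2) F)
      = Fintype.card F * (Fintype.card F ^ 2 - 1) := dkm_card_P2_odd h2 p
  rw [hF] at hG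
  have hp2 : 5 ^ 2 ≤ p ^ 2 := Nat.pow_le_pow_left h5 2
  have hG2 : 5 * 24 ≤ p * (p ^ 2 - 1) := Nat.mul_le_mul h5 (by omega)
  refine ⟨H, ⟨?_, ?_⟩, ⟨e⟩⟩
  · intro htop
    have : Nat.card H = Nat.card (Matrix.ProjectiveSpecialLinearGroup (Fin 2) F) := by
      rw [htop]; exact Subgroup.card_top
    omega
  · intro L hL
    have hcop : Nat.Coprime p (Nat.card (alternatingGroup (Fin 4))) := by
      rw [dkm_card_a4, hpp.coprime_iff_not_dvd]
      intro hd
      have h12 : (12 : ℕ) = 2 ^ 2 * 3 := by norm_num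
      rw [h12] at hd
      rcases (Nat.Prime.dvd_mul hpp).1 hd with h | h
      · have := (Nat.prime_dvd_prime_iff_eq hpp Nat.prime_two).1 (hpp.dvd_of_dvd_pow h)
        omega
      · have := (Nat.prime_dvd_prime_iff_eq hpp Nat.prime_three).1 h
        omega
    have hLG : Nat.card L ∣ Nat.card (Matrix.ProjectiveSpecialLinearGroup (Fin 2) F) :=
      Subgroup.card_subgroup_dvd_card L
    have hcases : (∀ a ∈ L, ∀ b ∈ L, (a * a) * (b * b) = (b * b) * (a * a)) ∨
        ((∀ a ∈ L, ∀ b ∈ L, (a * b * a⁻¹ * b⁻¹) ^ p = 1) ∧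
          (∀ a ∈ L, ∀ b ∈ L, ∀ c ∈ L, ∀ d ∈ L, (a * b * a⁻¹ * b⁻¹) * (c * d * c⁻¹ * d⁻¹)
            = (c * d * c⁻¹ * d⁻¹) * (a * b * a⁻¹ * b⁻¹))) ∨
        Nat.card L = 12 ∨ Nat.card L = 24 ∨ Nat.card L = 60 ∨
        (∃ q' k : ℕ, 3 ≤ q' ∧ q' ∣ Fintype.card F ∧ Nat.card L = k * q' * (1 + q') ∧
          (k = q' - 1 ∨ 2 * k = q' - 1)) := dkm_cases p L
    rcases hcases with h | ⟨h, -⟩ | h | h | h | ⟨q', k, hq3, hdvd, hc, hk⟩
    · exact absurd (dkm_tr_sq H e (fun a ha b hb => h a (hL.le ha) b (hL.le hb))) dkm_a4_sq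
    · exact absurd (dkm_comm_of_pow p hcop
        (dkm_tr_pow H e p (fun a ha b hb => h a (hL.le ha) b (hL.le hb)))) dkm_a4_comm
    · exact absurd (Subgroup.eq_of_le_of_card_ge hL.le (by omega)) hL.ne
    · exfalso
      rw [h] at hLG
      obtain ⟨c, hc⟩ := hLG
      have h16 : p % 16 = 3 ∨ p % 16 = 11 ∨ p % 16 = 5 ∨ p % 16 = 13 := by omega
      have hsq : p ^ 2 % 16 = 9 := by
        rw [Nat.pow_mod]
        rcases h16 with h | h | h | h <;> rw [h]
      have hX : (p ^ 2 - 1) % 16 = 8 := by omega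
      have hY : (p * (p ^ 2 - 1)) % 16 = 8 := by
        rw [Nat.mul_mod, hX]
        rcases h16 with h | h | h | h <;> rw [h]
      omega
    · have h5' : p % 10 = 5 ∨ p % 10 = 3 ∨ p % 10 = 7 := by omega
      rcases h5' with h5' | h5'
      · have hp5 : p = 5 := by
          have hd : 5 ∣ p := by omega
          exact ((Nat.prime_dvd_prime_iff_eq Nat.prime_five hpp).1 hd).symm
        subst hp5
        apply Subgroup.eq_top_of_card_eq
        have h120 : (5 : ℕ) * (5 ^ 2 - 1) = 120 := by norm_num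
        rw [h120] at hG
        omega
      · exfalso
        rw [h] at hLG
        obtain ⟨c, hc⟩ := hLG
        have h5'' : p % 5 = 3 ∨ p % 5 = 2 := by omega
        have hsq : p ^ 2 % 5 = 4 := by
          rw [Nat.pow_mod]
          rcases h5'' with h | h <;> rw [h]
        have hX : (p ^ 2 - 1) % 5 = 3 := by omega
        have hY : (p * (p ^ 2 - 1)) % 5 ≠ 0 := by
          rw [Nat.mul_mod, hX]
          rcases h5'' with h | h <;> rw [h] <;> norm_num
        omega
    · have hq' : q' = Fintype.card F := by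
        rw [hF] at hdvd ⊢
        rcases (Nat.dvd_prime hpp).1 hdvd with h | h
        · omega
        · exact h
      subst hq'
      exact dkm_top p L k hc hk

end Cfsg.Agent.S5940
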