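import Cfsg.Statements.S5947
import Mathlib

set_option autoImplicit false
open Cfsg

namespace Cfsg.Agent.S5947


universe u v w

theorem abelian_bound_aux {F : Type w} [Field F] [Finite F] (p : ℕ) [Fact p.Prime] [CharP F p] :
    ∀ (d : ℕ) (V : Type v) [AddCommGroup V] [Module F V] [Finite V] (G : Type u) [Group G]
      [Finite G] (ρ : G →* Module.End F V), (∀ a b : G, a * b = b * a) →
      Module.finrank F V = d → 1 ≤ d →
      Function.Injective ρ → ¬ p ∣ Nat.card G →
      Nat.card G + 1 ≤ Nat.card V ∧
      ((∃ W : Submodule F V, W ≠ ⊥ ∧ W ≠ ⊤ ∧ ∀ g, ∀ w ∈ W, ρ g w ∈ W) →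
        Nat.card G + 1 < Nat.card V) := by
  intro d
  induction d using Nat.strong_induction_on with
  | _ d ih =>
    intro V _ _ _ G _ _ ρ hcomm hd hd1 hinj hp
    by_cases hW : ∃ W : Submodule F V, W ≠ ⊥ ∧ W ≠ ⊤ ∧ ∀ g, ∀ w ∈ W, ρ g w ∈ W
    · obtain ⟨W, hWbot, hWtop, hWinv⟩ := hW
      have hsum := W.finrank_quotient_add_finrank
      rw [hd] at hsum
      have hd1' : 1 ≤ Module.finrank F W := by
        rw [Nat.one_le_iff_ne_zero]
        intro h0
        exact hWbot (Submodule.finrank_eq_zero.mp h0)
      have hd2' : Module.finrank F W < d := by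
        rw [← hd]
        exact Submodule.finrank_lt hWtop
      let ρW : G →* Module.End F W :=
        { toFun := fun g => (ρ g).restrict (hWinv g)
          map_one' := by
            ext w
            simp [LinearMap.restrict_apply]
          map_mul' := by
            intro g h
            ext w
            simp [LinearMap.restrict_apply] }
      have hρW : ∀ g (w : W), ((ρW g) w : V) = ρ g w := fun g w => rfl
      have hq1 : ¬ p ∣ Nat.card (G ⧸ ρW.ker) := fun h =>
        hp (h.trans (Subgroup.card_quotient_dvd_card _))
      have hcq : ∀ a b : G ⧸ ρW.ker, a * b = b * a := by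
        intro a b
        induction a using QuotientGroup.induction_on with
        | H a =>
          induction b using QuotientGroup.induction_on with
          | H b => rw [← QuotientGroup.mk_mul, ← QuotientGroup.mk_mul, hcomm]
      have hliftinj : Function.Injective (QuotientGroup.lift ρW.ker ρW (fun x hx => hx)) := by
        intro a b hab
        induction a using QuotientGroup.induction_on with
        | H a =>
          induction b using QuotientGroup.induction_on with
          | H b =>
            have h1 : ρW a = ρW b := hab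
            rw [QuotientGroup.eq, MonoidHom.mem_ker, map_mul, ← h1, ← map_mul, inv_mul_cancel, map_one]
      have ih1 := (ih (Module.finrank F W) hd2' W (G ⧸ ρW.ker)
        (QuotientGroup.lift ρW.ker ρW (fun x hx => hx)) hcq rfl hd1' hliftinj hq1).1
      let ρ2 : ρW.ker →* Module.End F (V ⧸ W) :=
        { toFun := fun h => W.mapQ W (ρ h) (fun w hw => hWinv h w hw)
          map_one' := by
            apply Submodule.linearMap_qext
            ext v
            simp
          map_mul' := by
            intro g h
            apply Submodule.linearMap_qext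
            ext v
            simp }
      have hρ2inj : Function.Injective ρ2 := by
        rw [injective_iff_map_eq_one]
        intro h hh
        have hfixW : ∀ w ∈ W, ρ (h : G) w = w := by
          intro w hw
          have h1 : ρW (h : G) = 1 := h.2
          have h2 := congrArg (fun f => ((f ⟨w, hw⟩ : W) : V)) h1
          exact h2
        have hmod : ∀ v, ρ (h : G) v - v ∈ W := by
          intro v
          have h1 := congrArg (fun f => f (Submodule.Quotient.mk v)) hh
          simp only [Module.End.one_apply] at h1
          have h2 : (Submodule.Quotient.mk (ρ (h : G) v) : V ⧸ W) = Submodule.Quotient.mk v := h1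
          exact (Submodule.Quotient.eq W).mp h2
        have hpow : ∀ (k : ℕ) (v : V), (ρ (h : G) ^ k) v = v + k • (ρ (h : G) v - v) := by
          intro k
          induction k with
          | zero => intro v; simp
          | succ k ihk =>
            intro v
            rw [pow_succ', Module.End.mul_apply, ihk, map_add, map_nsmul, hfixW _ (hmod v)]
            rw [succ_nsmul]
            abel
        have hpp : ρ ((h : G) ^ p) = 1 := by
          rw [map_pow]
          ext v
          rw [hpow, Module.End.one_apply]
          have : (p : ℕ) • (ρ (h : G) v - v) = 0 := by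
            rw [← Nat.cast_smul_eq_nsmul F, CharP.cast_eq_zero F p, zero_smul]
          rw [this, add_zero]
        have hpp' : (h : G) ^ p = 1 := hinj (hpp.trans (map_one ρ).symm)
        have hord : orderOf (h : G) ∣ p := orderOf_dvd_of_pow_eq_one hpp'
        have hord2 : orderOf (h : G) ∣ Nat.card G := orderOf_dvd_natCard _
        rcases (Nat.dvd_prime (Fact.out : p.Prime)).mp hord with h1 | h1
        · have := orderOf_eq_one_iff.mp h1
          exact Subtype.ext this
        · exact absurd (h1 ▸ hord2) hp
      have hq2 : ¬ p ∣ Nat.card ρW.ker := fun h =>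
        hp (h.trans (Subgroup.card_subgroup_dvd_card _))
      have hd3 : 1 ≤ Module.finrank F (V ⧸ W) := by omega
      have hd4 : Module.finrank F (V ⧸ W) < d := by omega
      have hfq : Finite (V ⧸ W) := Finite.of_surjective W.mkQ (Submodule.mkQ_surjective W)
      have hck : ∀ a b : ρW.ker, a * b = b * a := fun a b => Subtype.ext (hcomm a b)
      have ih2 := (ih (Module.finrank F (V ⧸ W)) hd4 (V ⧸ W) ρW.ker ρ2 hck rfl hd3 hρ2inj hq2).1
      have hcG := Subgroup.card_eq_card_quotient_mul_card_subgroup ρW.ker
      have hcV := Submodule.card_eq_card_quotient_mul_card W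
      have hpos1 : 0 < Nat.card (G ⧸ ρW.ker) := Nat.card_pos
      have hpos2 : 0 < Nat.card ρW.ker := Nat.card_pos
      have key : Nat.card G + 1 < Nat.card V := by
        rw [hcG, hcV]
        nlinarith
      exact ⟨key.le, fun _ => key⟩
    · refine ⟨?_, fun h => absurd h hW⟩
      obtain ⟨v₀, hv₀⟩ : ∃ v : V, v ≠ 0 := (Module.finrank_pos_iff_exists_ne_zero (R := F)).mp (by omega)
      have hne : ∀ g : G, ρ g v₀ ≠ 0 := by
        intro g h0
        have h1 : ρ g⁻¹ (ρ g v₀) = v₀ := by
          rw [← Module.End.mul_apply, ← map_mul, inv_mul_cancel, map_one, Module.End.one_apply]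
        rw [h0, map_zero] at h1
        exact hv₀ h1.symm
      have hinj2 : Function.Injective (fun g : G => (⟨ρ g v₀, hne g⟩ : {v : V // v ≠ 0})) := by
        intro g g' hgg
        have h1 : ρ g v₀ = ρ g' v₀ := congrArg Subtype.val hgg
        have h2 : ρ (g⁻¹ * g') v₀ = v₀ := by
          rw [map_mul, Module.End.mul_apply, ← h1, ← Module.End.mul_apply, ← map_mul, inv_mul_cancel,
            map_one, Module.End.one_apply]
        have h3 : LinearMap.ker (ρ (g⁻¹ * g') - 1) = ⊤ := by
          by_contra htop
          apply hW
          refine ⟨LinearMap.ker (ρ (g⁻¹ * g') - 1), ?_, htop, ?_⟩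
          · intro hbot
            have : v₀ ∈ LinearMap.ker (ρ (g⁻¹ * g') - 1) := by
              rw [LinearMap.mem_ker, LinearMap.sub_apply, h2, Module.End.one_apply, sub_self]
            rw [hbot] at this
            exact hv₀ ((Submodule.mem_bot F).mp this)
          · intro g₂ w hw
            rw [LinearMap.mem_ker, LinearMap.sub_apply, Module.End.one_apply, sub_eq_zero] at hw ⊢
            rw [← Module.End.mul_apply, ← map_mul, hcomm, map_mul, Module.End.mul_apply, hw]
        have h4 : ρ (g⁻¹ * g') = 1 := by
          ext v
          have : v ∈ LinearMap.ker (ρ (g⁻¹ * g') - 1) := h3 ▸ Submodule.mem_top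
          rw [LinearMap.mem_ker, LinearMap.sub_apply, sub_eq_zero] at this
          exact this
        have h5 : g⁻¹ * g' = 1 := hinj (h4.trans (map_one ρ).symm)
        exact (inv_mul_eq_one.mp h5)
      have hle := Nat.card_le_card_of_injective _ hinj2
      have hcompl : Nat.card {v : V // v ≠ 0} + 1 = Nat.card V := by
        have h1 := Set.ncard_add_ncard_compl ({0} : Set V)
        rw [Set.ncard_singleton] at h1
        have h2 : Nat.card {v : V // v ≠ 0} = ({0}ᶜ : Set V).ncard :=
          Nat.card_coe_set_eq ({0}ᶜ : Set V)
        omega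
      omega


theorem exists_root {F : Type*} [Field F] {R : Type*} [CommRing R] [IsDomain R] [Finite R]
    [Algebra F R] (N : ℕ) (hN : 2 ≤ N) (hpow : ∀ a : R, a ^ N = a) (hcard : N ≤ Nat.card R)
    (f : Polynomial F) (hf : f ∣ Polynomial.X ^ N - Polynomial.X) (hdeg : 1 ≤ f.natDegree) :
    ∃ α : R, Polynomial.aeval α f = 0 := by
  classical
  by_contra hno
  push Not at hno
  obtain ⟨h, hh⟩ := hf
  have hXne : (Polynomial.X ^ N - Polynomial.X : Polynomial F) ≠ 0 :=
    FiniteField.X_pow_card_sub_X_ne_zero F (by omega)
  have hf0 : f ≠ 0 := fun h0 => hXne (by rw [hh, h0, zero_mul])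
  have hh0 : h ≠ 0 := fun h0 => hXne (by rw [hh, h0, mul_zero])
  have hroot : ∀ a : R, Polynomial.aeval a h = 0 := by
    intro a
    have h1 : Polynomial.aeval a (Polynomial.X ^ N - Polynomial.X : Polynomial F) = 0 := by
      simp [hpow a]
    rw [hh, map_mul] at h1
    exact (mul_eq_zero.mp h1).resolve_left (hno a)
  have hdegh : h.natDegree + 1 ≤ N := by
    have h1 := congrArg Polynomial.natDegree hh
    rw [FiniteField.X_pow_card_sub_X_natDegree_eq F (by omega),
      Polynomial.natDegree_mul hf0 hh0] at h1
    omega
  have hmap0 : h.map (algebraMap F R) ≠ 0 :=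
    (Polynomial.map_ne_zero_iff (algebraMap F R).injective).mpr hh0
  have := Fintype.ofFinite R
  have hsub : (Finset.univ : Finset R).val ⊆ (h.map (algebraMap F R)).roots := by
    intro a _
    rw [Polynomial.mem_roots hmap0, Polynomial.IsRoot, Polynomial.eval_map_algebraMap]
    exact hroot a
  have h2 := Polynomial.card_le_degree_of_subset_roots hsub
  have h3 := Polynomial.natDegree_map_le (f := algebraMap F R) (p := h)
  rw [Finset.card_univ, ← Nat.card_eq_fintype_card] at h2
  omega

/-- Let F ⊆ K be finite fields with |F| = q and [K : F] = n ≥ 2, regard K as an n-dimensional F-vector space, and let M ≤ GL_F(K) be the Singer group of multiplications by non-zero elements of K (cyclic of order q^n − 1). Assume (n, q) ≠ (6, 2), and that it is not the case that n = 2 with q a prime such that q + 1 is a power of 2. Then every abelian subgroup of GL_F(K) of order q^n − 1 is conjugate to M. -/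
theorem result {F K : Type*} [Field F] [Fintype F] [Field K] [Fintype K] [Algebra F K] (n : ℕ) (hn : 2 ≤ n) (hdim : Module.finrank F K = n)
    (hex1 : ¬ (n = 6 ∧ Fintype.card F = 2))
    (hex2 : ¬ (n = 2 ∧ (Fintype.card F).Prime ∧ ∃ a : ℕ, Fintype.card F + 1 = 2 ^ a))
    (U : Subgroup (Module.End F K)ˣ) (hU : IsMulCommutative U) (hcard : Nat.card U = Fintype.card K - 1) :
    ∃ g : (Module.End F K)ˣ, U.map (MulAut.conj g).toMonoidHom = (Units.map ((Algebra.lmul F K : K →ₐ[F] Module.End F K) : K →* Module.End F K)).range := by
  classical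
  obtain ⟨p, hchar⟩ := CharP.exists F
  have hp : Fact p.Prime := ⟨CharP.char_is_prime F p⟩
  have hcharK : CharP K p := charP_of_injective_algebraMap (algebraMap F K).injective p
  have hN2 : 2 ≤ Fintype.card K := Fintype.one_lt_card
  have hpK : p ∣ Fintype.card K := by
    obtain ⟨k, _, hk⟩ := FiniteField.card K p
    rw [hk]
    exact dvd_pow_self p k.ne_zero
  have hpU : ¬ p ∣ Nat.card U := by
    rw [hcard]
    intro h
    have h1 : p ∣ Fintype.card K - (Fintype.card K - 1) := Nat.dvd_sub hpK h
    have h2 : Fintype.card K - (Fintype.card K - 1) = 1 := by omega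
    rw [h2] at h1
    exact hp.out.one_lt.ne' (Nat.dvd_one.mp h1)
  have hfinU : Finite U := Nat.finite_of_card_ne_zero (by rw [hcard]; omega)
  have hfinE : Finite (Module.End F K) :=
    Finite.of_injective (fun f : Module.End F K => (f : K → K)) DFunLike.coe_injective
  have hcomm : ∀ a b : U, a * b = b * a := fun a b => hU.is_comm.comm a b
  have hρinj : Function.Injective ((Units.coeHom (Module.End F K)).comp U.subtype) := by
    intro a b hab
    exact Subtype.ext (Units.ext hab)
  have hfr : 1 ≤ Module.finrank F K := Module.finrank_pos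
  have hB := abelian_bound_aux p (Module.finrank F K) K U
    ((Units.coeHom (Module.End F K)).comp U.subtype) hcomm rfl hfr hρinj hpU
  have hcardU : Nat.card U + 1 = Nat.card K := by
    rw [hcard, Nat.card_eq_fintype_card]
    omega
  have hirr : ∀ W : Submodule F K, (∀ u ∈ U, ∀ w ∈ W, ((u : (Module.End F K)ˣ) : Module.End F K) w ∈ W) →
      W = ⊥ ∨ W = ⊤ := by
    intro W hW
    by_contra hcon
    push Not at hcon
    have := hB.2 ⟨W, hcon.1, hcon.2, fun g w hw => hW g g.2 w hw⟩
    omega
  let s : Set (Module.End F K) := {a | ∃ u ∈ U, ((u : (Module.End F K)ˣ) : Module.End F K) = a}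
  have hs_comm : ∀ a ∈ s, ∀ b ∈ s, a * b = b * a := by
    rintro _ ⟨u, hu, rfl⟩ _ ⟨u', hu', rfl⟩
    have h1 := hcomm ⟨u, hu⟩ ⟨u', hu'⟩
    have h2 := congrArg (fun x : U => ((x : (Module.End F K)ˣ) : Module.End F K)) h1
    simpa using h2
  letI : CommRing (Algebra.adjoin F s) := Algebra.adjoinCommRingOfComm F hs_comm
  have hmemS : ∀ u ∈ U, ((u : (Module.End F K)ˣ) : Module.End F K) ∈ Algebra.adjoin F s :=
    fun u hu => Algebra.subset_adjoin ⟨u, hu, rfl⟩
  have hker : ∀ a : Algebra.adjoin F s, (a : Module.End F K) ≠ 0 →
      LinearMap.ker (a : Module.End F K) = ⊥ := by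
    intro a ha
    have hinv : ∀ u ∈ U, ∀ w ∈ LinearMap.ker (a : Module.End F K),
        ((u : (Module.End F K)ˣ) : Module.End F K) w ∈ LinearMap.ker (a : Module.End F K) := by
      intro u hu w hw
      rw [LinearMap.mem_ker] at hw ⊢
      have hc : (a : Module.End F K) * (u : Module.End F K) =
          (u : Module.End F K) * (a : Module.End F K) := by
        have h1 := mul_comm a ⟨(u : Module.End F K), hmemS u hu⟩
        exact congrArg Subtype.val h1
      rw [← Module.End.mul_apply, hc, Module.End.mul_apply, hw, map_zero]
    rcases hirr _ hinv with h | h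
    · exact h
    · exfalso
      apply ha
      ext v
      have hv : v ∈ LinearMap.ker (a : Module.End F K) := h ▸ Submodule.mem_top
      simpa using hv
  have hntS : Nontrivial (Algebra.adjoin F s) :=
    ⟨⟨0, 1, fun h => zero_ne_one (α := Module.End F K) (congrArg Subtype.val h)⟩⟩
  have hnzd : NoZeroDivisors (Algebra.adjoin F s) := ⟨by
    intro a b hab
    by_cases ha : (a : Module.End F K) = 0
    · left
      exact Subtype.ext ha
    · right
      have hk := hker a ha
      apply Subtype.ext
      ext v
      have h1 : (a : Module.End F K) ((b : Module.End F K) v) = 0 := by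
        have h2 := congrArg Subtype.val hab
        have h3 := congrArg (fun f : Module.End F K => f v) h2
        exact h3
      have h4 : (b : Module.End F K) v ∈ LinearMap.ker (a : Module.End F K) := h1
      rw [hk] at h4
      simpa using h4⟩
  have hdom : IsDomain (Algebra.adjoin F s) := NoZeroDivisors.to_isDomain _
  let j : Option U → Algebra.adjoin F s := fun o =>
    o.elim 0 (fun u => ⟨((u : (Module.End F K)ˣ) : Module.End F K), hmemS u u.2⟩)
  have hjinj : Function.Injective j := by
    intro a b hab
    cases a with
    | none =>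
      cases b with
      | none => rfl
      | some u =>
        exfalso
        have h1 := congrArg Subtype.val hab
        exact (Units.ne_zero (u : (Module.End F K)ˣ)) h1.symm
    | some u =>
      cases b with
      | none =>
        exfalso
        have h1 := congrArg Subtype.val hab
        exact (Units.ne_zero (u : (Module.End F K)ˣ)) h1
      | some u' =>
        have h1 := congrArg Subtype.val hab
        exact congrArg some (Subtype.ext (Units.ext h1))
  have hev : Function.Injective (fun a : Algebra.adjoin F s => (a : Module.End F K) 1) := by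
    intro a b hab
    by_contra hne
    have hne' : ((a - b : Algebra.adjoin F s) : Module.End F K) ≠ 0 :=
      fun h => hne (sub_eq_zero.mp (Subtype.ext h))
    have hk := hker (a - b) hne'
    have h1 : (1 : K) ∈ LinearMap.ker ((a - b : Algebra.adjoin F s) : Module.End F K) := by
      rw [LinearMap.mem_ker]
      change ((a : Module.End F K) - (b : Module.End F K)) 1 = 0
      rw [LinearMap.sub_apply, sub_eq_zero]
      exact hab
    rw [hk] at h1
    exact one_ne_zero ((Submodule.mem_bot F).mp h1)
  have hcS1 : Nat.card (Algebra.adjoin F s) ≤ Nat.card K := Nat.card_le_card_of_injective _ hev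
  have hcS2 : Nat.card U + 1 ≤ Nat.card (Algebra.adjoin F s) := by
    have h1 := Nat.card_le_card_of_injective _ hjinj
    rwa [Finite.card_option] at h1
  have hjbij : Function.Bijective j :=
    hjinj.bijective_of_nat_card_le (by rw [Finite.card_option]; omega)
  have hS : ∀ a : Algebra.adjoin F s, a = 0 ∨
      ∃ u ∈ U, ((u : (Module.End F K)ˣ) : Module.End F K) = (a : Module.End F K) := by
    intro a
    obtain ⟨o, rfl⟩ := hjbij.2 a
    cases o with
    | none => left; rfl
    | some u => right; exact ⟨u, u.2, rfl⟩
  have hpowS : ∀ a : Algebra.adjoin F s, a ^ Fintype.card K = a := by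
    intro a
    rcases hS a with rfl | ⟨u, hu, hua⟩
    · exact zero_pow (by omega)
    · apply Subtype.ext
      change (a : Module.End F K) ^ Fintype.card K = (a : Module.End F K)
      rw [← hua]
      have h1 : (⟨u, hu⟩ : U) ^ Nat.card U = 1 := pow_card_eq_one'
      have h2 : u ^ Nat.card U = 1 := congrArg Subtype.val h1
      have h3 : ((u : (Module.End F K)ˣ) : Module.End F K) ^ Nat.card U = 1 := by
        rw [← Units.val_pow_eq_pow_val, h2, Units.val_one]
      have h4 : Fintype.card K = Nat.card U + 1 := by rw [hcardU, Nat.card_eq_fintype_card]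
      rw [h4, pow_succ, h3, one_mul]
  let pb := Field.powerBasisOfFiniteOfSeparable F K
  have hfdvd : minpoly F pb.gen ∣ (Polynomial.X ^ Fintype.card K - Polynomial.X : Polynomial F) := by
    apply minpoly.dvd
    simp [FiniteField.pow_card]
  have hdeg : 1 ≤ (minpoly F pb.gen).natDegree := minpoly.natDegree_pos pb.isIntegral_gen
  obtain ⟨α, hα⟩ := exists_root (F := F) (R := Algebra.adjoin F s) (Fintype.card K) hN2 hpowS
    (by rw [← Nat.card_eq_fintype_card, ← hcardU]; exact hcS2) (minpoly F pb.gen) hfdvd hdeg
  have hαE : Polynomial.aeval (α : Module.End F K) (minpoly F pb.gen) = 0 := by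
    have h1 := Polynomial.aeval_algHom_apply (Algebra.adjoin F s).val α (minpoly F pb.gen)
    have h2 : (Algebra.adjoin F s).val (Polynomial.aeval α (minpoly F pb.gen)) = 0 := by
      rw [hα, map_zero]
    exact h1.trans h2
  have hσS : ∀ k : K, ∃ a : Algebra.adjoin F s,
      (a : Module.End F K) = pb.lift (α : Module.End F K) hαE k := by
    intro k
    obtain ⟨g, rfl⟩ := pb.exists_eq_aeval' k
    refine ⟨Polynomial.aeval α g, ?_⟩
    rw [PowerBasis.lift_aeval]
    exact (Polynomial.aeval_algHom_apply (Algebra.adjoin F s).val α g).symm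
  have hσne : ∀ k : K, k ≠ 0 → pb.lift (α : Module.End F K) hαE k ≠ 0 := by
    intro k hk h0
    have h1 : pb.lift (α : Module.End F K) hαE (k * k⁻¹) = 1 := by
      rw [mul_inv_cancel₀ hk, map_one]
    rw [map_mul, h0, zero_mul] at h1
    exact zero_ne_one h1
  have hσU : ∀ k : K, k ≠ 0 → ∃ u ∈ U,
      ((u : (Module.End F K)ˣ) : Module.End F K) = pb.lift (α : Module.End F K) hαE k := by
    intro k hk
    obtain ⟨a, ha⟩ := hσS k
    rcases hS a with rfl | ⟨u, hu, hua⟩
    · exact absurd ha.symm (hσne k hk)
    · exact ⟨u, hu, hua.trans ha⟩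
  let ψ : K →ₗ[F] K :=
    { toFun := fun k => pb.lift (α : Module.End F K) hαE k 1
      map_add' := by
        intro x y
        simp
      map_smul' := by
        intro c x
        simp }
  have hψmul : ∀ k k' : K, ψ (k * k') = pb.lift (α : Module.End F K) hαE k (ψ k') := by
    intro k k'
    change pb.lift (α : Module.End F K) hαE (k * k') 1 =
      pb.lift (α : Module.End F K) hαE k (pb.lift (α : Module.End F K) hαE k' 1)
    rw [map_mul, Module.End.mul_apply]
  have hψinj : Function.Injective ψ := by
    rw [injective_iff_map_eq_zero]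
    intro k hk
    by_contra hk0
    have h1 : pb.lift (α : Module.End F K) hαE k⁻¹ (ψ k) = 1 := by
      rw [← hψmul, inv_mul_cancel₀ hk0]
      change pb.lift (α : Module.End F K) hαE 1 1 = 1
      rw [map_one (pb.lift (α : Module.End F K) hαE), Module.End.one_apply]
    rw [hk, map_zero] at h1
    exact zero_ne_one h1
  have hψsurj : Function.Surjective ψ := LinearMap.injective_iff_surjective.mp hψinj
  let e : K ≃ₗ[F] K := LinearEquiv.ofBijective ψ ⟨hψinj, hψsurj⟩
  have heψ : ∀ x, e x = ψ x := fun x => rfl
  let g : (Module.End F K)ˣ :=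
    { val := (e.symm : K →ₗ[F] K)
      inv := (e : K →ₗ[F] K)
      val_inv := by
        ext x
        simp
      inv_val := by
        ext x
        simp }
  refine ⟨g, ?_⟩
  symm
  apply Subgroup.eq_of_le_of_card_ge
  · rintro m ⟨kx, rfl⟩
    obtain ⟨u, hu, huk⟩ := hσU (kx : K) kx.ne_zero
    refine ⟨u, hu, ?_⟩
    apply Units.ext
    ext x
    change e.symm (((u : (Module.End F K)ˣ) : Module.End F K) (e x)) = (kx : K) * x
    rw [huk, heψ, ← hψmul, ← heψ, LinearEquiv.symm_apply_apply]
  · have h1 : Nat.card (U.map (MulAut.conj g).toMonoidHom) = Nat.card U :=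
      Subgroup.card_map_of_injective (MulAut.conj g).injective
    have hinjM : Function.Injective (Units.map ((Algebra.lmul F K : K →ₐ[F] Module.End F K) :
        K →* Module.End F K)) := by
      intro a b hab
      apply Units.ext
      have h2 := congrArg (fun u : (Module.End F K)ˣ => (u : Module.End F K) 1) hab
      simpa using h2
    have h2 : Nat.card (Units.map ((Algebra.lmul F K : K →ₐ[F] Module.End F K) :
        K →* Module.End F K)).range = Nat.card Kˣ :=
      Nat.card_congr (MonoidHom.ofInjective hinjM).toEquiv.symm
    rw [h1, h2, hcard, Nat.card_units, Nat.card_eq_fintype_card]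

end Cfsg.Agent.S5947
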